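import Cfsg.Statements.S4211
import Cfsg.Agent.Lib.Grp.PRes
import Cfsg.Agent.Lib.Loc.Amb
import Cfsg.Agent.Lib.Odd.BG4x3
import Cfsg.Agent.Lib.Grp.H13Inv
import Cfsg.Agent.Lib.Grp.PGFrattini

set_option autoImplicit false
open Cfsg

namespace Cfsg.Agent.S4211

open Subgroup CA.PRes CA.PGBasic CA.PGNormalCyclic CA.PGClassTwo
open scoped commutatorElement

section
variable {G : Type*} [Group G] [Finite G]

omit [Finite G] in
theorem comm_mem (hn : ∀ H : Subgroup G, H.Normal) (x y : G) :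
    ⁅x, y⁆ ∈ zpowers x ∧ ⁅x, y⁆ ∈ zpowers y := by
  refine ⟨?_, mul_mem ((hn _).conj_mem _ (mem_zpowers y) x) (inv_mem (mem_zpowers y))⟩
  rw [commutatorElement_def, mul_assoc, mul_assoc, ← mul_assoc y]
  exact mul_mem (mem_zpowers x) ((hn _).conj_mem _ (inv_mem (mem_zpowers x)) y)

omit [Finite G] in
theorem cz {x c : G} (h : c ∈ zpowers x) : Commute x c := by
  obtain ⟨k, rfl⟩ := h
  exact (Commute.refl x).zpow_right k

theorem step (hn : ∀ H : Subgroup G, H.Normal) {H : Subgroup G} {x y : G} (hx : x ∈ H) (hy : y ∈ H)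
    (hc : ¬ Commute x y) (hle : orderOf y ≤ orderOf x)
    (ih : ∀ a ∈ H, ∀ b ∈ H, orderOf a + orderOf b < orderOf x + orderOf y → Commute a b) :
    orderOf x = 4 ∧ y ^ 2 = x ^ 2 ∧ y * x * y⁻¹ = x⁻¹ := by
  obtain ⟨c1, c2⟩ := comm_mem hn x y
  have h1 : ⁅x, y⁆ ≠ 1 := fun h => hc (commutatorElement_eq_one_iff_commute.1 h)
  have lt : ∀ (g : G) (q : ℕ), q.Prime → q ∣ orderOf g → orderOf (g ^ q) < orderOf g := by
    intro g q hq h
    rw [orderOf_pow_of_dvd hq.ne_zero h]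
    exact Nat.div_lt_self (orderOf_pos g) hq.one_lt
  have k1 : ∀ q : ℕ, q.Prime → q ∣ orderOf x → orderOf ⁅x, y⁆ = q := fun q hq h => by
    haveI := Fact.mk hq
    refine orderOf_eq_prime ?_ h1
    rw [← comm_pow_left (cz c1), commutatorElement_eq_one_iff_commute]
    exact ih _ (pow_mem hx q) y hy (by have := lt x q hq h; omega)
  have k2 : ∀ q : ℕ, q.Prime → q ∣ orderOf y → orderOf ⁅x, y⁆ = q := fun q hq h => by
    haveI := Fact.mk hq
    refine orderOf_eq_prime ?_ h1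
    rw [← comm_pow_right (cz c2), commutatorElement_eq_one_iff_commute]
    exact ih _ hx _ (pow_mem hy q) (by have := lt y q hq h; omega)
  obtain ⟨p, hp, hpx⟩ := Nat.exists_prime_and_dvd (n := orderOf x)
    (fun h => hc (orderOf_eq_one_iff.1 h ▸ Commute.one_left y))
  have hcp := k1 p hp hpx
  obtain ⟨m, hm⟩ : ∃ m, orderOf x = p ^ m := ⟨_, Nat.eq_prime_pow_of_unique_prime_dvd
    (orderOf_pos x).ne' fun {q} hq h => (k1 q hq h).symm.trans hcp⟩
  obtain ⟨n, hn'⟩ : ∃ n, orderOf y = p ^ n := ⟨_, Nat.eq_prime_pow_of_unique_prime_dvd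
    (orderOf_pos y).ne' fun {q} hq h => (k2 q hq h).symm.trans hcp⟩
  obtain ⟨n, rfl⟩ : ∃ k, n = k + 1 := Nat.exists_eq_succ_of_ne_zero (by
    rintro rfl
    exact hc (orderOf_eq_one_iff.1 hn' ▸ Commute.one_right x))
  rw [hm, hn', Nat.pow_le_pow_iff_right hp.one_lt] at hle
  obtain ⟨d, rfl⟩ := Nat.exists_eq_add_of_le hle
  rw [add_right_comm] at hm
  have cp : ⁅x, y⁆ ^ p = 1 := hcp ▸ pow_orderOf_eq_one _
  have z1 : zpowers ⁅x, y⁆ = zpowers (x ^ p ^ (n + d)) := eq_of_le_of_card_ge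
    (zpowers_le.2 (mem_zpowers_pow_of_pow_eq_one hp hm c1 cp))
    (by rw [Nat.card_zpowers, Nat.card_zpowers, orderOf_pow_pred hp hm, hcp])
  have z2 : zpowers ⁅x, y⁆ = zpowers (y ^ p ^ n) := eq_of_le_of_card_ge
    (zpowers_le.2 (mem_zpowers_pow_of_pow_eq_one hp hn' c2 cp))
    (by rw [Nat.card_zpowers, Nat.card_zpowers, orderOf_pow_pred hp hn', hcp])
  obtain ⟨t, ht⟩ : y ^ p ^ n ∈ zpowers (x ^ p ^ (n + d)) := z1 ▸ z2 ▸ mem_zpowers _
  have key : ¬ p ∣ p ^ d * (p ^ n).choose 2 := by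
    rintro ⟨s, hs⟩
    set w := (x ^ p ^ d) ^ (-t) with hw
    have e1 : ⁅w, y⁆ = ⁅x, y⁆ ^ ((p ^ d : ℕ) * (-t) : ℤ) := by
      rw [hw, ← zpow_natCast x, ← zpow_mul, comm_zpow_left (cz c1)]
    have e2 : (y * w) ^ p ^ n = 1 := by
      have e4 : ⁅w, y⁆ ^ (p ^ n).choose 2 = 1 := by
        rw [e1, ← zpow_natCast, ← zpow_mul, mul_right_comm, ← Nat.cast_mul, hs, Nat.cast_mul,
          mul_assoc, zpow_mul, zpow_natCast, cp, one_zpow]
      rw [mul_pow_eq (e1 ▸ (cz c2).zpow_right _)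
        (e1 ▸ hw ▸ (((cz c1).pow_left _).zpow_left _).zpow_right _), e4, mul_one, ← ht, hw]
      simp only [← zpow_natCast, ← zpow_mul, ← zpow_add]
      push_cast
      rw [show (p : ℤ) ^ (n + d) * t + p ^ d * -t * p ^ n = 0 by ring, zpow_zero]
    have e3 := ih x hx _ (mul_mem hy (zpow_mem (pow_mem hx _) _)) (show _ + orderOf (y * w) < _ by
      have := Nat.le_of_dvd (pow_pos hp.pos n) (orderOf_dvd_of_pow_eq_one e2)
      have : p ^ n < p ^ (n + 1) := Nat.pow_lt_pow_right hp.one_lt (Nat.lt_succ_self n)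
      rw [hn']; omega)
    exact hc (by simpa using e3.mul_right (((Commute.refl x).pow_right (p ^ d)).zpow_right t))
  obtain rfl : d = 0 := by
    by_contra h
    exact key ((dvd_pow_self p h).mul_right _)
  rw [pow_zero, one_mul] at key
  obtain ⟨n, rfl⟩ : ∃ k, n = k + 1 := Nat.exists_eq_succ_of_ne_zero (by
    rintro rfl
    simp at key)
  obtain rfl : p = 2 := by
    by_contra h
    exact key ((dvd_pow_self p (Nat.succ_ne_zero n)).trans
      (dvd_choose_two (odd_of_ne_two hp h).pow))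
  obtain rfl : n = 0 := by
    by_contra h
    obtain ⟨k, rfl⟩ := Nat.exists_eq_succ_of_ne_zero h
    apply key
    rw [Nat.choose_two_right, pow_succ, mul_right_comm, Nat.mul_div_cancel _ two_pos, pow_succ]
    exact (dvd_mul_left 2 _).mul_right _
  have u : ∀ g ∈ zpowers ⁅x, y⁆, orderOf g = 2 → g = ⁅x, y⁆ := by
    classical
    intro g hg ho
    obtain ⟨k, hk, rfl⟩ := Finset.mem_image.1 (mem_zpowers_iff_mem_range_orderOf.1 hg)
    rw [hcp, Finset.mem_range] at hk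
    interval_cases k
    · simp at ho
    · exact pow_one _
  have e1 : x ^ 2 = ⁅x, y⁆ := u _ (z1 ▸ mem_zpowers _) (orderOf_pow_pred hp hm)
  have e2 : y ^ 2 = ⁅x, y⁆ := u _ (z2 ▸ mem_zpowers _) (orderOf_pow_pred hp hn')
  refine ⟨hm, e2.trans e1.symm, ?_⟩
  rw [commutatorElement_def, pow_two, mul_assoc, mul_assoc, mul_right_inj] at e1
  calc y * x * y⁻¹ = (y * (x⁻¹ * y⁻¹))⁻¹ := by group
    _ = _ := by rw [← e1]

theorem exists_q (hn : ∀ H : Subgroup G, H.Normal) {H : Subgroup G} (h : ¬ IsMulCommutative H) :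
    ∃ x ∈ H, ∃ y ∈ H, orderOf x = 4 ∧ y ^ 2 = x ^ 2 ∧ y * x * y⁻¹ = x⁻¹ := by
  have : ∃ n, ∃ x ∈ H, ∃ y ∈ H, ¬ Commute x y ∧ orderOf x + orderOf y = n := by
    by_contra h'
    push Not at h'
    exact h (CA.PGBasic.isMulCommutative_iff.2 fun a ha b hb => by
      by_contra hc
      exact h' _ a ha b hb hc rfl)
  classical
  obtain ⟨x, hx, y, hy, hc, e⟩ := Nat.find_spec this
  have ih : ∀ a ∈ H, ∀ b ∈ H, orderOf a + orderOf b < orderOf x + orderOf y → Commute a b := by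
    intro a ha b hb hlt
    by_contra h'
    exact Nat.find_min this (e ▸ hlt) ⟨a, ha, b, hb, h', rfl⟩
  rcases le_total (orderOf y) (orderOf x) with h1 | h1
  · exact ⟨x, hx, y, hy, step hn hx hy hc h1 ih⟩
  · exact ⟨y, hy, x, hx, step hn hy hx (fun h => hc h.symm) h1 (add_comm (orderOf x) _ ▸ ih)⟩

theorem eq_or_inv {a u : G} (ha : orderOf a = 4) (hu : u ∈ zpowers a) (ho : orderOf u = 4) :
    u = a ∨ u = a⁻¹ := by
  classical
  obtain ⟨k, hk, rfl⟩ := Finset.mem_image.1 (mem_zpowers_iff_mem_range_orderOf.1 hu)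
  rw [ha, Finset.mem_range] at hk
  interval_cases k
  · simp at ho
  · exact Or.inl (pow_one _)
  · rw [orderOf_pow_of_dvd (by norm_num) (by rw [ha]; norm_num), ha] at ho; norm_num at ho
  · exact Or.inr (eq_inv_of_mul_eq_one_left (by rw [← pow_succ]; exact orderOf_dvd_iff_pow_eq_one.1 ha.dvd))
end

/-- A finite non-abelian group in which every subgroup is normal is the internal direct product of a subgroup isomorphic to the quaternion group of order `8`, an elementary abelian `2`-subgroup and an abelian subgroup of odd order. -/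
theorem result {G : Type*} [Group G] [Finite G] (hna : ¬ IsMulCommutative G) (hn : ∀ H : Subgroup G, H.Normal) : ∃ Q E A : Subgroup G, Nonempty (Q ≃* QuaternionGroup 2) ∧ Cfsg.IsElementaryAbelian 2 E ∧ IsMulCommutative A ∧ Odd (Nat.card A) ∧ E ⊓ A = ⊥ ∧ Q ⊓ (E ⊔ A) = ⊥ ∧ Q ⊔ (E ⊔ A) = ⊤ := by
  haveI : Fact (Nat.Prime 2) := ⟨Nat.prime_two⟩
  obtain ⟨a, -, b, -, ha, hb, hab⟩ := exists_q hn (H := ⊤) fun h =>
    hna ⟨⟨fun x y => CA.PGBasic.isMulCommutative_iff.1 h x (mem_top _) y (mem_top _)⟩⟩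
  have a4 : a ^ 4 = 1 := ha ▸ pow_orderOf_eq_one a
  have a2 : a ^ 2 ≠ 1 := pow_ne_one_of_lt_orderOf (by norm_num) (by omega)
  have nc : ¬ Commute a b := fun h => a2 (by
    rw [← h.eq, mul_inv_cancel_right] at hab
    rw [pow_two]; exact mul_eq_one_iff_eq_inv.2 hab)
  have hb' : orderOf b = 4 := orderOf_eq_prime_pow (p := 2) (n := 1) (by simpa [hb] using a2)
    (by rw [show 2 ^ (1 + 1) = 2 * 2 by rfl, pow_mul, hb, ← pow_mul, a4])
  have hba : a * b * a⁻¹ = b⁻¹ := by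
    calc a * b * a⁻¹ = a * (b * a * b⁻¹)⁻¹ * b := by group
      _ = a ^ 2 * b := by rw [hab, inv_inv, pow_two]
      _ = b⁻¹ := by
        rw [← hb, ← pow_succ]
        exact eq_inv_of_mul_eq_one_left (by rw [← pow_succ]; exact orderOf_dvd_iff_pow_eq_one.1 hb'.dvd)
  set Q := zpowers a ⊔ zpowers b with hQ
  set C := centralizer (Q : Set G) with hC
  have mC : ∀ g, g ∈ C ↔ g * a * g⁻¹ = a ∧ g * b * g⁻¹ = b := fun g => by
    rw [hC, hQ, CA.Amb.centralizer_sup, CA.Amb.centralizer_zpowers, CA.Amb.centralizer_zpowers,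
      mem_inf, mem_centralizer_singleton_iff, mem_centralizer_singleton_iff, mul_inv_eq_iff_eq_mul,
      mul_inv_eq_iff_eq_mul]
  have aQ : a ∈ Q := mem_sup_left (mem_zpowers a)
  have bQ : b ∈ Q := mem_sup_right (mem_zpowers b)
  have h1 : ∀ g, g ∈ Q ⊔ C := by
    intro g
    have key : ∀ q ∈ Q, q * a * q⁻¹ = g * a * g⁻¹ → q * b * q⁻¹ = g * b * g⁻¹ → g ∈ Q ⊔ C := by
      intro q hq e1 e2
      rw [← mul_inv_cancel_left q g]
      refine mul_mem (mem_sup_left hq) (mem_sup_right ((mC _).2 ⟨?_, ?_⟩))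
      · rw [show q⁻¹ * g * a * (q⁻¹ * g)⁻¹ = q⁻¹ * (g * a * g⁻¹) * q by group, ← e1]; group
      · rw [show q⁻¹ * g * b * (q⁻¹ * g)⁻¹ = q⁻¹ * (g * b * g⁻¹) * q by group, ← e2]; group
    rcases eq_or_inv ha ((hn _).conj_mem _ (mem_zpowers a) g)
      (by rw [CA.H13Inv.orderOf_conj, ha]) with e1 | e1 <;>
    rcases eq_or_inv hb' ((hn _).conj_mem _ (mem_zpowers b) g)
      (by rw [CA.H13Inv.orderOf_conj, hb']) with e2 | e2
    · exact key 1 (one_mem _) (by simp [e1]) (by simp [e2])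
    · exact key a aQ (by simp [e1]) (by rw [e2, hba])
    · exact key b bQ (by rw [e1, hab]) (by simp [e2])
    · refine key (a * b) (mul_mem aQ bQ) ?_ ?_
      · rw [e1, show a * b * a * (a * b)⁻¹ = a * (b * a * b⁻¹) * a⁻¹ by group, hab]; group
      · rw [e2, ← hba]; group
  have h2 : ∀ z ∈ C, orderOf z ≠ 4 := by
    intro z hz ho
    obtain ⟨e1, e2⟩ := (mC z).1 hz
    have c1 : Commute a z := (mul_inv_eq_iff_eq_mul.1 e1).symm
    have h3 := (comm_mem hn (a * z) b).1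
    have h4 : ⁅a * z, b⁆ = a ^ 2 := by
      rw [commutatorElement_def, show a * z * b * (a * z)⁻¹ = a * (z * b * z⁻¹) * a⁻¹ by group, e2,
        hba, ← mul_inv_rev, ← pow_two, hb]
      exact inv_eq_of_mul_eq_one_left (by rw [← pow_add, a4])
    rw [h4] at h3
    by_cases h5 : (a * z) ^ 2 = 1
    · obtain ⟨k, hk⟩ := h3
      have h6 : (a * z) ^ (2 : ℤ) = 1 := by exact_mod_cast h5
      rcases Int.even_or_odd' k with ⟨j, rfl | rfl⟩
      · simp only [zpow_mul, h6, one_zpow] at hk; exact a2 hk.symm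
      · simp only [zpow_add, zpow_mul, h6, one_zpow, one_mul, zpow_one, pow_two,
          mul_right_inj] at hk
        exact nc (mul_inv_eq_iff_eq_mul.1 (hk ▸ e2))
    · have h6 : orderOf (a * z) = 2 ^ (1 + 1) := orderOf_eq_prime_pow (by simpa using h5)
        (by rw [c1.mul_pow, show 2 ^ (1 + 1) = 4 by rfl, a4, ← ho, pow_orderOf_eq_one, one_mul])
      obtain ⟨k, hk⟩ := mem_zpowers_pow_of_pow_eq_one Nat.prime_two h6 h3 (by rw [← pow_mul, a4])
      have h7 : ((a * z) ^ 2 ^ 1) ^ (2 : ℤ) = 1 := by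
        rw [zpow_ofNat, ← pow_mul, ← pow_succ, ← h6, pow_orderOf_eq_one]
      rcases Int.even_or_odd' k with ⟨j, rfl | rfl⟩
      · simp only [zpow_mul, h7, one_zpow] at hk; exact a2 hk.symm
      · simp only [zpow_add, zpow_mul, h7, one_zpow, one_mul, zpow_one] at hk
        rw [pow_one, c1.mul_pow, mul_eq_left] at hk
        exact pow_ne_one_of_lt_orderOf (by norm_num) (by omega) hk
  haveI hCc : IsMulCommutative C := by
    by_contra h
    obtain ⟨x, hx, -, -, ho, -⟩ := exists_q hn h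
    exact h2 x hx ho
  have h3 : ∀ z ∈ C, ∀ k : ℕ, z ^ 2 ^ k = 1 → z ^ 2 = 1 := by
    intro z hz k hk
    obtain ⟨i, -, hi⟩ := (Nat.dvd_prime_pow Nat.prime_two).1 (orderOf_dvd_of_pow_eq_one hk)
    rcases i with _ | _ | i
    · rw [orderOf_eq_one_iff.1 hi, one_pow]
    · exact orderOf_dvd_iff_pow_eq_one.1 hi.dvd
    · refine absurd ?_ (h2 _ (pow_mem hz (2 ^ i)))
      rw [orderOf_pow_of_dvd (by positivity) (hi ▸ pow_dvd_pow 2 (by omega)), hi, add_assoc, pow_add,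
        Nat.mul_div_cancel_left _ (by positivity)]
      rfl
  obtain ⟨k, m, hm, e⟩ := Nat.exists_eq_pow_mul_and_not_dvd (Nat.card_pos (α := G)).ne' 2 (by norm_num)
  have hm' : Nat.Coprime 2 m := (Nat.Prime.coprime_iff_not_dvd Nat.prime_two).2 hm
  have a2C : a ^ 2 ∈ C := (mC _).2 ⟨by group, by rw [← hb]; group⟩
  obtain ⟨E, hE, hE1, hE2⟩ := CA.BG4.exists_compl_elem Nat.prime_two (omegaAb_elementary C 2)
    (U := zpowers (a ^ 2)) (zpowers_le.2 ⟨a2C, by rw [← pow_mul, a4]⟩)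
  haveI := isMulCommutative_of_le (omegaAb_le C m)
  refine ⟨Q, E, omegaAb C m, CA.PGDihedral.nonempty_subgroup_mulEquiv_quaternion ha
    (fun h => nc (cz h)) hb hab, isElementaryAbelian_of_le (omegaAb_elementary C 2) hE, this,
    CA.H13Inv.odd_card_iff.2 fun t ht ho => hm (ho ▸ orderOf_dvd_of_pow_eq_one ht.2),
    eq_bot_iff.2 fun x hx => (pow_eq_one_iff_of_coprime hm').1 ⟨(hE hx.1).2, hx.2.2⟩,
    eq_bot_iff.2 fun w hw => ?_, eq_top_iff.2 fun g _ => ?_⟩
  · have hwC : w ∈ C := (sup_le (hE.trans (omegaAb_le C 2)) (omegaAb_le C m) :) hw.2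
    have hwa : w ∈ zpowers a := by
      by_contra h
      obtain ⟨i, hi⟩ := eq_zpow_mul_of_notMem (le_normalizer_of_normal (mem_top b))
        (hb ▸ pow_mem (mem_zpowers a) 2) hw.1 h
      have := ((mC w).1 hwC).1
      rw [hi, show a ^ i * b * a * (a ^ i * b)⁻¹ = a ^ i * (b * a * b⁻¹) * (a ^ i)⁻¹ by group, hab,
        show a ^ i * a⁻¹ * (a ^ i)⁻¹ = a⁻¹ by group] at this
      exact a2 (by rw [pow_two]; exact mul_eq_one_iff_eq_inv.2 this.symm)
    have w2 : w ^ 2 = 1 := h3 w hwC 2 (by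
      obtain ⟨i, rfl⟩ := hwa
      rw [← zpow_natCast, ← zpow_mul, mul_comm, zpow_mul, zpow_natCast, show 2 ^ 2 = 4 by rfl, a4,
        one_zpow])
    obtain ⟨x, hx, y, hy, rfl⟩ := (CA.Amb.mem_sup_of_norm le_normalizer_of_normal).1 hw.2
    have c : Commute x y := CA.PGBasic.isMulCommutative_iff.1 hCc x (hE hx).1 y hy.1
    have y1 : y = 1 := (pow_eq_one_iff_of_coprime hm').1
      ⟨by rw [c.mul_pow, (hE hx).2, one_mul] at w2; exact w2, hy.2⟩
    subst y1
    rw [mul_one] at *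
    exact hE1.le ⟨mem_zpowers_pow_of_pow_eq_one (n := 1) Nat.prime_two ha hwa w2, hx⟩
  · refine (sup_le le_sup_left fun z hz => ?_ : Q ⊔ C ≤ _) (h1 g)
    obtain ⟨x, y, hx, hy, rfl, ⟨j, hj⟩, ho⟩ := exists_p_part (p := 2) z
    have hx' := zpowers_le.2 hz hx
    refine mul_mem ?_ (mem_sup_right (mem_sup_right ⟨zpowers_le.2 hz hy, orderOf_dvd_iff_pow_eq_one.1
      ((ho.pow_right k).dvd_of_dvd_mul_left (e ▸ orderOf_dvd_natCard y))⟩))
    exact (sup_le (zpowers_le.2 (mem_sup_left (pow_mem aQ 2))) (le_sup_of_le_right le_sup_left) :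
      zpowers (a ^ 2) ⊔ E ≤ _) (hE2.ge ⟨hx', h3 x hx' j hj⟩)

end Cfsg.Agent.S4211
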