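import Cfsg.Statements.S0116
import Cfsg.Agent.Lib.Grp.ConjFam

set_option autoImplicit false
open Cfsg

namespace Cfsg.Agent.S0116


open CA.SylIn CA.ConjFam Subgroup

/-- The Alperin fusion Theorem states that conjugation between subsets of a Sylow p-subgroup P factors through normalizers of tame intersections P ∩ Q_i with other Sylow p-subgroups, carrying the subset along step by step. -/
theorem result {G : Type*} [Group G] [Finite G] {p : ℕ} [Fact p.Prime] (P : Sylow p G) (A : Set G) (g : G) (hA : A ⊆ (P : Set G)) (hAg : (fun a => g⁻¹ * a * g) '' A ⊆ (P : Set G)) : ∃ (n : ℕ) (Q : Fin n → Sylow p G) (x : Fin n → G), (List.ofFn x).prod = g ∧ (∀ i : Fin n, x i ∈ Subgroup.normalizer ((((P : Subgroup G) ⊓ (Q i : Subgroup G)) : Subgroup G) : Set G) ∧ ¬ p ∣ ((P : Subgroup G) ⊓ Subgroup.normalizer ((((P : Subgroup G) ⊓ (Q i : Subgroup G)) : Subgroup G) : Set G)).relIndex (Subgroup.normalizer ((((P : Subgroup G) ⊓ (Q i : Subgroup G))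 : Subgroup G) : Set G)) ∧ ¬ p ∣ ((Q i : Subgroup G) ⊓ Subgroup.normalizer ((((P : Subgroup G) ⊓ (Q i : Subgroup G)) : Subgroup G) : Set G)).relIndex (Subgroup.normalizer ((((P : Subgroup G) ⊓ (Q i : Subgroup G)) : Subgroup G) : Set G))) ∧ (∀ h : 0 < n, A ⊆ (((P : Subgroup G) ⊓ (Q ⟨0, h⟩ : Subgroup G) : Subgroup G) : Set G)) ∧ ∀ i : Fin n, ∀ h : i.val + 1 < n, (fun a => (((List.ofFn x).take (i.val + 1)).prod)⁻¹ * a * ((List.ofFn x).take (i.val + 1)).prod) '' A ⊆ (((P : Subgroup G) ⊓ (Q ⟨i.val + 1, h⟩ : Subgroup G) : Subgroup G) : Set G) := by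
  let F : Set (Subgroup G) := {D | ∃ Q : Sylow p G, D = (P : Subgroup G) ⊓ (Q : Subgroup G) ∧
    IsSylowIn p ((P : Subgroup G) ⊓ normalizer (D : Set G)) (normalizer (D : Set G)) ∧
    IsSylowIn p ((Q : Subgroup G) ⊓ normalizer (D : Set G)) (normalizer (D : Set G))}
  have key : Reach F A g := by
    refine reach_of_forall (P := (P : Subgroup G))
      (CA.Alperin.alperin_tame P (fun D g => Reach F (D : Set G) g⁻¹) ?_ ?_ ?_) hA hAg
    · exact fun D E g h _ _ hR => hR.mono _ h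
    · exact fun D g h _ _ _ h1 h2 => reach_comp h1 h2
    · exact fun D Q e h1 h2 n hn => Reach.single (T := D) ⟨Q, e, h1, h2⟩ (inv_mem hn) subset_rfl
  obtain ⟨n, T, x, e, a1, a2, a3, a4⟩ := key.finReach
  choose Q hQ h1 h2 using a1
  refine ⟨n, Q, x, e, fun i => ?_, fun h => ?_, fun i h => ?_⟩
  · rw [← hQ i]; exact ⟨a2 i, (h1 i).2.2, (h2 i).2.2⟩
  · rw [← hQ]; exact a3 h
  · rw [← hQ]; exact a4 i h

end Cfsg.Agent.S0116
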