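import Cfsg.Statements.S0662
import Cfsg.Agent.Lib.Grp.H7Max

set_option autoImplicit false
open Cfsg

namespace Cfsg.Agent.S0662

open Subgroup CA.BG CA.BG4 CA.OQuo CA.H7Max

/-- In a p-group of maximal class of order at least p³ the normal subgroups of index at least p² are exactly the terms of the lower central series, and there are exactly p + 1 normal subgroups of index p. -/
theorem result {G : Type*} [Group G] [Finite G] {p : ℕ} [Fact p.Prime] (n : ℕ) (hG : Nat.card G = p ^ n) (hcl : Group.nilpotencyClass G = n - 1) (hn : 3 ≤ n) : (∀ (N : Subgroup G) [N.Normal] (r : ℕ), 2 ≤ r → N.index = p ^ r → N = (⊤ : Subgroup G).lowerCentralSeries (r - 1)) ∧ Nat.card {N : Subgroup G // N.Normal ∧ N.index = p} = p + 1 := by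
  have hp : p.Prime := Fact.out
  obtain ⟨n, rfl⟩ : ∃ k, n = k + 3 := ⟨n - 3, by omega⟩
  have h := (class_iff (n := n + 1) hp hG).1 hcl
  have hP : IsPGroup p G := IsPGroup.of_card hG
  refine ⟨fun N _ r hr hN => ?_, ?_⟩
  · have h1 : r ≤ n + 3 := (Nat.pow_dvd_pow_iff_le_right hp.one_lt).1 (hN ▸ hG ▸ N.index_dvd_card)
    obtain ⟨i, rfl⟩ : ∃ i, r = i + 2 := ⟨r - 2, by omega⟩
    refine eq_lcs (i := i) (k := n + 1 - i) hp (by rw [card_top, hG]) h (by omega) le_top (top_le_norm _ _) ?_
    have := N.card_mul_index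
    rw [hN, hG, show n + 3 = n + 1 - i + (i + 2) by omega, pow_add p _ (i + 2)] at this
    exact Nat.eq_of_mul_eq_mul_right (pow_pos hp.pos _) this
  · obtain ⟨h1, h2⟩ := index_der_of_class hp hG h
    have h2' : Nat.card (G ⧸ commutator G) = p ^ 2 := h1
    have h3 : ∀ x : G ⧸ commutator G, x ^ p = 1 := fun x => by
      by_contra hne
      have h4 : orderOf x ∣ p ^ 2 := h1 ▸ orderOf_dvd_natCard x
      haveI := isCyclic_of_orderOf_eq_card x ((orderOf_eq_prime_pow (n := 1) (by rwa [pow_one])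
        (orderOf_dvd_iff_pow_eq_one.1 h4)).trans h1.symm)
      haveI := CA.PGFrattini.isCyclic_of_quotient (CA.PGFrattini.commutator_le_frattini hP) this
      exact h2 IsCyclic.isMulCommutative
    have h4 := CA.PX.card_lines hp h3
    rw [h2', show p ^ 2 - 1 = (p + 1) * (p - 1) by rw [← Nat.sq_sub_sq, one_pow]] at h4
    rw [← Nat.eq_of_mul_eq_mul_right (Nat.sub_pos_of_lt hp.one_lt) h4]
    have h5 : ∀ H : Subgroup (G ⧸ commutator G), ♯H = p ↔ H.index = p := fun H => by
      have := H.index_mul_card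
      rw [h2', sq] at this
      exact ⟨fun h => Nat.eq_of_mul_eq_mul_right hp.pos (h ▸ this),
        fun h => Nat.eq_of_mul_eq_mul_left hp.pos (h ▸ this)⟩
    have h6 : ∀ N : Subgroup G, N.index = p → commutator G ≤ N := fun N hN =>
      (CA.PGFrattini.commutator_le_frattini hP).trans
        (frattini_le_coatom (CA.PGBasic.isCoatom_of_index_prime hp hN))
    symm
    refine Nat.card_congr (Equiv.ofBijective (fun H => ⟨H.1.comap (QuotientGroup.mk' _), ?_, ?_⟩) ⟨?_, ?_⟩)
    · exact CA.PGBasic.normal_of_index_eq hP (by rw [CA.H1Basic.index_comap_mk, (h5 _).1 H.2])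
    · rw [CA.H1Basic.index_comap_mk, (h5 _).1 H.2]
    · intro H K e
      exact Subtype.ext (comap_injective (QuotientGroup.mk'_surjective _) (congrArg Subtype.val e))
    · rintro ⟨N, -, hN⟩
      refine ⟨⟨N.map (QuotientGroup.mk' _), (h5 _).2 ?_⟩, Subtype.ext ?_⟩
      · rw [CA.H1Basic.index_map_mk, sup_of_le_left (h6 N hN), hN]
      · exact comap_map_eq_self (by rw [QuotientGroup.ker_mk']; exact h6 N hN)

end Cfsg.Agent.S0662
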