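import Cfsg.Statements.S2431
import Cfsg.Agent.Lib.Lin.PSL2Four

set_option autoImplicit false
open Cfsg

namespace Cfsg.Agent.S2431

/-- Let F be a finite field with q elements, q odd, and S a Sylow 2-subgroup of SL₂ over F. The centraliser of S is the centre of SL₂ (of order 2); S is its own normaliser when q ≡ ±1 mod 8, and has index 3 in its normaliser when q ≡ ±3 mod 8. -/
theorem result {F : Type*} [Field F] [Fintype F] (hodd : Odd (Fintype.card F)) (S : Sylow 2 (Matrix.SpecialLinearGroup (Fin 2) F)) :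
    Subgroup.centralizer ((S : Subgroup (Matrix.SpecialLinearGroup (Fin 2) F)) : Set (Matrix.SpecialLinearGroup (Fin 2) F)) = Subgroup.center (Matrix.SpecialLinearGroup (Fin 2) F) ∧
    ((Fintype.card F % 8 = 1 ∨ Fintype.card F % 8 = 7) →
      Subgroup.normalizer ((S : Subgroup (Matrix.SpecialLinearGroup (Fin 2) F)) : Set (Matrix.SpecialLinearGroup (Fin 2) F)) = (S : Subgroup (Matrix.SpecialLinearGroup (Fin 2) F))) ∧
    ((Fintype.card F % 8 = 3 ∨ Fintype.card F % 8 = 5) →
      Nat.card (Subgroup.normalizer ((S : Subgroup (Matrix.SpecialLinearGroup (Fin 2) F)) : Set (Matrix.SpecialLinearGroup (Fin 2) F))) = 3 * Nat.card S) := by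
  open CA.PSL2Four CA.PSL2Struct CA.SL2Basic CA.SL2Torus CA.SL2Unip CA.SL2Class CA.Mat2 in
  rw [← Nat.card_eq_fintype_card] at hodd ⊢
  have h2 := two_ne_zero_of_odd hodd
  obtain ⟨g, ht, hle⟩ := exists_sylow_le_D h2 S
  have hs := SS_of_trace_zero h2 ht
  have hi : Odd ((S : Subgroup (Matrix.SpecialLinearGroup (Fin 2) F)).relIndex (D g)) := by
    rw [← Nat.not_even_iff_odd, even_iff_two_dvd]
    exact fun h => S.not_dvd_index (h.trans (Subgroup.relIndex_dvd_index_of_le hle))
  have hmem : ∀ x ∈ C g, ∀ k, orderOf x = 2 ^ k → x ∈ S := by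
    intro x hx k hk
    have hn : ((Subgroup.zpowers x).subgroupOf (D g)).Normal :=
      Subgroup.normal_subgroupOf_of_le_normalizer
        (D_le_normalizer hs.ns (Subgroup.zpowers_le.2 hx))
    have hp : IsPGroup 2 ((Subgroup.zpowers x).subgroupOf (D g)) :=
      (IsPGroup.of_card (by rw [Nat.card_zpowers, hk])).comap_subtype
    have := hp.le_sylow_of_normal (S.subtype hle)
    exact this (x := ⟨x, C_le_D g hx⟩) (Subgroup.mem_zpowers x)
  have hw : ∃ w ∈ S, w ∉ C g := by
    by_contra h
    push Not at h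
    have h3 := Subgroup.relIndex_mul_relIndex (S : Subgroup (Matrix.SpecialLinearGroup (Fin 2) F))
      (C g) (D g) h (C_le_D g)
    obtain ⟨w, hw⟩ := hs.exists_inverter
    rw [relIndex_C_D hw hs.inv_ne] at h3
    rw [← h3, Nat.odd_iff] at hi
    omega
  obtain ⟨w, hw, hw'⟩ := hw
  have hg : g ∈ S := hmem g (self_mem_C g) 2 (orderOf_eq_four h2 (mul_self_of_trace ht))
  refine ⟨le_antisymm (fun x hx => ?_) (Subgroup.center_le_centralizer _), fun h => ?_, fun h => ?_⟩
  · rw [CA.SL2Basic.mem_center_iff]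
    exact inf_C_eq hs.ns hw' (mem_C_iff.2 (Subgroup.mem_centralizer_iff.1 hx g hg).symm)
      (mem_C_iff.2 (Subgroup.mem_centralizer_iff.1 hx w hw).symm)
  · refine le_antisymm (fun x hx => ?_) Subgroup.le_normalizer
    have h8 : 8 ∣ Nat.card (C g) := by
      have := card_C_of_trace_zero ht
      rcases h with h | h
      · rw [this.1 (by omega)]; omega
      · rw [this.2 (by omega)]; omega
    have : ∃ a ∈ C g, orderOf a = 8 := by
      obtain ⟨t, -, htC, -, ho⟩ := hs.exists_gen
      obtain ⟨c, hc⟩ := h8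
      have hc0 : c ≠ 0 := by rintro rfl; exact Nat.card_pos.ne' hc
      exact ⟨t ^ c, (C g).pow_mem htC c, by
        rw [orderOf_pow' _ hc0, ho, hc, Nat.gcd_mul_left_left,
          Nat.mul_div_cancel _ (Nat.pos_of_ne_zero hc0)]⟩
    obtain ⟨a, ha, ho⟩ := this
    have haS := hmem a ha 3 ho
    have h4 : ∀ b : Matrix.SpecialLinearGroup (Fin 2) F, orderOf b = 8 → b ^ 4 ≠ 1 := fun b hb h => by
      have := Nat.le_of_dvd (by norm_num) (orderOf_dvd_of_pow_eq_one h)
      omega
    have hxD : x ∈ D g := by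
      refine hs.mem_D_of_conj ha ?_ ?_
      · by_contra hn
        rcases (not_NS_iff_eq a).1 hn with rfl | rfl <;> exact h4 _ ho (by norm_num)
      · by_contra hn
        have := hs.sq_of_mem_D (hle ((Subgroup.mem_normalizer_iff.1 hx a).1 haS)) hn
        refine h4 _ (by rw [orderOf_conj x a, ho]) ?_
        rw [show 4 = 2 * 2 from rfl, pow_mul, sq (x * a * x⁻¹), this]; norm_num
    have hwi : w * g * w⁻¹ = g⁻¹ := (hle hw).resolve_left fun h => hw' (mem_C_iff'.2 h)
    have key : ∀ c ∈ C g, c ∈ Subgroup.normalizer ((S : Subgroup (Matrix.SpecialLinearGroup (Fin 2) F)) :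
        Set (Matrix.SpecialLinearGroup (Fin 2) F)) → c ∈ S := by
      intro c hc hN
      have h5 := S.1.mul_mem ((Subgroup.mem_normalizer_iff.1 hN w).1 hw) (S.1.inv_mem hw)
      have h6 := inverter_inv hs.ns hwi ((C g).inv_mem hc)
      have e : c * w * c⁻¹ * w⁻¹ = c * (w * c⁻¹ * w⁻¹) := by group
      rw [e, h6, inv_inv] at h5
      obtain ⟨k, hk⟩ := S.isPGroup' ⟨_, h5⟩
      have hk' : c ^ 2 ^ (k + 1) = 1 := by
        rw [pow_succ', pow_mul, sq]; exact congrArg Subtype.val hk
      obtain ⟨j, -, hj⟩ := (Nat.dvd_prime_pow Nat.prime_two).1 (orderOf_dvd_of_pow_eq_one hk')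
      exact hmem c hc j hj
    rcases (mem_D_iff_of_inverter hwi).1 hxD with h | h
    · exact key x h hx
    · have := key _ h (Subgroup.mul_mem _ hx (Subgroup.inv_mem _ (Subgroup.le_normalizer hw)))
      simpa using S.1.mul_mem this hw
  · have hm : -1 ∈ (S : Subgroup (Matrix.SpecialLinearGroup (Fin 2) F)) := by
      rw [← mul_self_of_trace ht]; exact S.1.mul_mem hg hg
    let P := S.mapSurjective (f := pr F) pr_surj
    have hP := isKleinFour_sylow h P
    have hc : (P : Subgroup _).comap (pr F) = S := by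
      ext x; exact mem_map_iff' hm
    have h3 := card_comap (P : Subgroup (Matrix.ProjectiveSpecialLinearGroup (Fin 2) F))
    rw [hc, hP.card_four] at h3
    rw [h3, ← hc, ← Subgroup.comap_normalizer_eq_of_surjective _ pr_surj, card_comap,
      card_normalizer_of_conj h2 _ fun W hW => conj_four h _ W, dd_odd h2]

end Cfsg.Agent.S2431
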