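import Cfsg.Statements.S2401
import Cfsg.Agent.Lib.Lie.H22ModA

set_option autoImplicit false
open Cfsg

namespace Cfsg.Agent.S2401

open CA.Chev Subgroup Matrix

theorem lift {l : ℕ} (hl : 2 ≤ l) {K Γ : Type*} [Field K] [Group Γ] (y : ∀ a d : Fin (l + 1), a ≠ d → K → Γ)
    (h1 : ∀ a d h t u, y a d h (t + u) = y a d h t * y a d h u)
    (h2 : ∀ a d h a' d' h' t u, a ≠ d' → d ≠ a' → Commute (y a d h t) (y a' d' h' u))
    (h3 : ∀ a d h d' h' h'' t u, y a d h t * y d d' h' u = y a d' h'' (t * u) * (y d d' h' u * y a d h t)) :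
    ∃ φ : (modA l hl).D.SteinbergCover K →* Γ, ∀ a d h t, φ ((stC _ K).x ((modA l hl).ι (rA a d)) t) = y a d h t := by
  classical
  let M := modA l hl
  obtain ⟨x, hx⟩ : ∃ x : Rt M.D → K → Γ, ∀ a d h, x (M.ι (rA a d)) = y a d h := by
    choose a d h e using fun r : Rt M.D => mem_modA.1 (M.R_mem r.2)
    refine ⟨fun r => y (a r) (d r) (h r), fun a' d' h' => ?_⟩
    have := e (M.ι (rA a' d'))
    rw [M.R_ι (rA_mem h'), eq_comm, rA_inj h'] at this
    exact (show ∀ b c hb, b = a' → c = d' → y b c hb = y a' d' h' by rintro _ _ _ rfl rfl; rfl) _ _ _ this.1 this.2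
  have h0 : ∀ a d h, y a d h 0 = 1 := fun a d h => by simpa using h1 a d h 0 0
  have all : ∀ P : Rt M.D → Prop, (∀ a d, a ≠ d → P (M.ι (rA a d))) → ∀ r, P r := fun P h => M.all_ι fun v hv => by
    obtain ⟨a, d, h', rfl⟩ := mem_modA.1 hv; exact h a d h'
  have x0 : ∀ r, x r 0 = 1 := all _ fun a d h => by rw [hx a d h, h0]
  obtain ⟨φ, hφ⟩ := exists_liftC (x := x) (all _ fun a d h => by rw [hx a d h]; exact h1 a d h) fun {r s} => by
    induction r using all with | _ a d h => ?_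
    induction s using all with | _ a' d' h' => ?_
    intro e1 e2 t u
    have hu := rA_mem (hl := hl) h
    have hv := rA_mem (hl := hl) h'
    have e3 := (M.ne_ng hu hv).1 e2
    have n2 : ∀ u ∈ M.Φ, ∀ v ∈ M.Φ, u + v ≠ 0 → M.N2 u v = 0 := fun u hu v hv h => by
      by_cases e : u + v ∈ M.Φ
      · refine M.N2_zero fun e' => ?_
        have := norm_A _ hu; have := norm_A _ hv; have := norm_A _ e; have := norm_A _ e'
        simp only [add_dotProduct, dotProduct_add, dotProduct_comm v u] at *; omega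
      · exact M.N2_of hu hv h e
    rw [M.cw_ι x0 hu hv e3, n2 _ hu _ hv e3, n2 _ hv _ hu (add_comm (rA a d) _ ▸ e3), hx _ _ h, hx _ _ h']
    simp only [Int.cast_zero, zero_mul, x0, mul_one, pow_one]
    have ee : ∀ a d, a ≠ d → M.e (rA a d) = single a d 1 := fun a d h => eA_eq h
    by_cases c1 : d = a'
    · subst c1
      have c2 : a ≠ d' := by rintro rfl; simp at e3
      have e4 : rA a d + rA d d' = rA a d' := by simp
      rw [M.N_of_br hu hv e3 (c := 1) (by simp [e4, ee, h, h', c2, c2.symm]) (Or.inl (e4 ▸ rA_mem c2)), e4, hx _ _ c2,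
        h3 _ _ _ _ _ c2, ((h2 a d' c2 d d' h' _ _ c2 h'.symm).mul_right (h2 a d' c2 a d h _ _ h c2.symm)).eq,
        mul_assoc (_ * _), ← h1]
      simp [h0]
    by_cases c2 : d' = a
    · subst c2
      have c2 : a' ≠ d := Ne.symm c1
      have e4 : rA d' d + rA a' d' = rA a' d := by simp
      rw [M.N_of_br hu hv e3 (c := -1) (by simp [e4, ee, h, h', c1, c2]) (Or.inl (e4 ▸ rA_mem c2)), e4, hx _ _ c2,
        h3 _ _ _ _ _ c2, ((h2 a' d c2 d' d h _ _ c2 h.symm).mul_right (h2 a' d c2 a' d' h' _ _ h' c1)).eq]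
      simp [mul_comm]
    · rw [M.N_of_br hu hv e3 (c := 0) (by simp [ee, h, h', c1, c2]) (Or.inr rfl), (h2 _ _ _ _ _ _ _ _ (Ne.symm c2) c1).eq]
      simp [x0]
  exact ⟨φ, fun a d h t => by rw [hφ, hx _ _ h]⟩

/-- The Steinberg presentation of `SL_n` over a finite field for `n ≥ 3`: the group generated by symbols `x_ij(t)` (`i ≠ j`, `t` in the field) subject to `x_ij(t) x_ij(u) = x_ij(t + u)` and, for `i ≠ l`, `x_ij(t) x_kl(u) x_ij(t)⁻¹ x_kl(u)⁻¹ = x_il(tu)` if `j = k` and `= 1` if `j ≠ k`, is isomorphic to `SL_n` by an isomorphism sending `x_ij(t)` to the elementary matrix `1 + t E_ij`. -/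
theorem result {K : Type*} [Field K] [Finite K] (n : ℕ) (hn : 3 ≤ n) :
    ∃ e : PresentedGroup
        ({g : FreeGroup ({ij : Fin n × Fin n // ij.1 ≠ ij.2} × K) | ∃ (a : {ij : Fin n × Fin n // ij.1 ≠ ij.2}) (t u : K),
            g = FreeGroup.of (a, t) * FreeGroup.of (a, u) * (FreeGroup.of (a, t + u))⁻¹} ∪
          {g | ∃ (a b : {ij : Fin n × Fin n // ij.1 ≠ ij.2}) (t u : K), a.1.1 ≠ b.1.2 ∧ a.1.2 ≠ b.1.1 ∧
            g = FreeGroup.of (a, t) * FreeGroup.of (b, u) * (FreeGroup.of (a, t))⁻¹ * (FreeGroup.of (b, u))⁻¹} ∪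
          {g | ∃ (a b : {ij : Fin n × Fin n // ij.1 ≠ ij.2}) (h : a.1.1 ≠ b.1.2) (t u : K), a.1.2 = b.1.1 ∧
            g = FreeGroup.of (a, t) * FreeGroup.of (b, u) * (FreeGroup.of (a, t))⁻¹ * (FreeGroup.of (b, u))⁻¹ *
              (FreeGroup.of (⟨(a.1.1, b.1.2), h⟩, t * u))⁻¹}) ≃* Matrix.SpecialLinearGroup (Fin n) K,
      ∀ (a : {ij : Fin n × Fin n // ij.1 ≠ ij.2}) (t : K), ((e (PresentedGroup.of (a, t)) : Matrix (Fin n) (Fin n) K)) = Matrix.transvection a.1.1 a.1.2 t := by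
  obtain ⟨l, rfl⟩ : ∃ l, n = l + 1 := ⟨n - 1, by omega⟩
  have hl : 2 ≤ l := by omega
  obtain ⟨e, he⟩ := exists_slA (hl := hl) (K := K)
  set S : Set (FreeGroup ({ij : Fin (l + 1) × Fin (l + 1) // ij.1 ≠ ij.2} × K)) := (_ ∪ _) ∪ _
  have hS : ∀ g ∈ S, PresentedGroup.mk S g = 1 := fun g hg => PresentedGroup.one_of_mem hg
  obtain ⟨φ, hφ⟩ := lift hl (fun a d h (t : K) => (PresentedGroup.of (⟨(a, d), h⟩, t) : PresentedGroup S))
    (fun a d h t u => (mul_inv_eq_one.1 (hS _ (Or.inl (Or.inl ⟨⟨(a, d), h⟩, t, u, rfl⟩)))).symm)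
    (fun a d h a' d' h' t u e1 e2 => commutatorElement_eq_one_iff_commute.1
      (hS _ (Or.inl (Or.inr ⟨⟨(a, d), h⟩, ⟨(a', d'), h'⟩, t, u, e1, e2, rfl⟩))))
    fun a d h d' h' h'' t u => by
      rw [← mul_inv_eq_iff_eq_mul, _root_.mul_inv_rev, ← mul_assoc]
      exact mul_inv_eq_one.1 (hS _ (Or.inr ⟨⟨(a, d), h⟩, ⟨(d, d'), h'⟩, h'', t, u, rfl, rfl⟩))
  have hs : Function.Surjective φ := MonoidHom.range_eq_top.1 (eq_top_iff.2 fun g _ =>
    PresentedGroup.generated_by _ φ.range (fun a => ⟨_, hφ _ _ a.1.2 a.2⟩) g)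
  let ψ : PresentedGroup S →* SpecialLinearGroup (Fin (l + 1)) K := PresentedGroup.toGroup
    (f := fun a => SpecialLinearGroup.transvection a.1.2 a.2) (by
      rintro _ ((⟨a, t, u, rfl⟩ | ⟨a, b, t, u, e1, e2, rfl⟩) | ⟨⟨⟨a, d⟩, h⟩, ⟨⟨_, d'⟩, h'⟩, h'', t, u, rfl, rfl⟩) <;>
        simp only [map_mul, map_inv, FreeGroup.lift_apply_of]
      · exact mul_inv_eq_one.2 (Subtype.ext (transvection_mul_transvection_same _ _ a.2 t u))
      · refine commutatorElement_eq_one_iff_commute.2 (Subtype.ext ?_)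
        change transvection _ _ _ * transvection _ _ _ = transvection _ _ _ * transvection _ _ _
        simp [ transvection, mul_add, add_mul, e1.symm, e2, add_right_comm]
      · exact mul_inv_eq_one.2 (CA.SLnGen.commutator_transvection h'' h h' t u))
  have : ψ.comp φ = e := (stC _ K).hom_ext stC_G ((modA l hl).all_ι fun v hv t => by
    obtain ⟨a, d, h, rfl⟩ := mem_modA.1 hv
    simp [hφ a d h, he a d h, ψ])
  have hb : Function.Bijective (ψ ∘ φ) := by rw [← MonoidHom.coe_comp, this]; exact e.bijective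
  exact ⟨MulEquiv.ofBijective ψ ⟨hb.1.of_comp_right hs, hb.2.of_comp⟩, fun a t =>
    congrArg Subtype.val (show ψ (PresentedGroup.of (a, t)) = SpecialLinearGroup.transvection a.2 t by simp [ψ])⟩

end Cfsg.Agent.S2401
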