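import Cfsg.Statements.S0244
import Mathlib

set_option autoImplicit false
open Cfsg

namespace Cfsg.Agent.S0244

/-- Sp_2 = SL_2: a matrix on Fin 1 ⊕ Fin 1 lies in Mathlib's symplectic group iff its determinant is 1. -/
theorem result {R : Type*} [CommRing R] (A : Matrix (Fin 1 ⊕ Fin 1) (Fin 1 ⊕ Fin 1) R) : A ∈ Matrix.symplecticGroup (Fin 1) R ↔ A.det = 1 := by
  refine ⟨SymplecticGroup.det_eq_one, fun h => ?_⟩
  rw [← Matrix.det_reindex_self finSumFinEquiv, Matrix.det_fin_two] at h
  have e0 : (finSumFinEquiv (m := 1) (n := 1)).symm 0 = Sum.inl 0 := rfl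
  have e1 : (finSumFinEquiv (m := 1) (n := 1)).symm 1 = Sum.inr 0 := rfl
  simp only [Matrix.reindex_apply, Matrix.submatrix_apply, e0, e1] at h
  rw [SymplecticGroup.mem_iff]
  ext (i | i) (j | j) <;> obtain rfl : i = 0 := Subsingleton.elim _ _ <;>
    obtain rfl : j = 0 := Subsingleton.elim _ _ <;>
    simp [Matrix.mul_apply, Matrix.J, Matrix.fromBlocks]
  · ring
  · linear_combination -h
  · linear_combination h
  · ring

end Cfsg.Agent.S0244
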