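import Cfsg.Statements.S3742
import Cfsg.Agent.Lib.Lin.TriPres

set_option autoImplicit false
open Cfsg

namespace Cfsg.Agent.S3742

open QuaternionGroup

/-- the map determined by the images of the two generators -/
def F (u v : QuaternionGroup 2) : QuaternionGroup 2 → QuaternionGroup 2
  | .a n => u ^ n.val
  | .xa n => v * u ^ n.val

/-- swaps the generators -/
def X : MulAut (QuaternionGroup 2) where
  toFun := F (xa 0) (a 1)
  invFun := F (xa 0) (a 1)
  left_inv := by intro x; revert x; decide
  right_inv := by intro x; revert x; decide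
  map_mul' := by decide

/-- an automorphism of order three -/
def Y : MulAut (QuaternionGroup 2) where
  toFun := F (xa 0) (xa 3)
  invFun := F (xa 3) (a 1)
  left_inv := by intro x; revert x; decide
  right_inv := by intro x; revert x; decide
  map_mul' := by decide

theorem card_le : Nat.card (MulAut (QuaternionGroup 2)) ≤ 24 := by
  have h : Fintype.card {w : QuaternionGroup 2 × QuaternionGroup 2 // w.1 * w.2 ≠ w.2 * w.1} = 24 := by
    decide
  rw [← h, ← Nat.card_eq_fintype_card]
  refine Nat.card_le_card_of_injective (fun φ => ⟨(φ (a 1), φ (xa 0)), ?_⟩) ?_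
  · rw [← map_mul, ← map_mul, Ne, φ.injective.eq_iff]; decide
  · intro φ ψ e
    have e1 : φ (a 1) = ψ (a 1) := congrArg (fun w => w.1.1) e
    have e2 : φ (xa 0) = ψ (xa 0) := congrArg (fun w => w.1.2) e
    have h1 : ∀ x : QuaternionGroup 2, ∃ n : Fin 4, x = a 1 ^ n.1 ∨ x = xa 0 * a 1 ^ n.1 := by decide
    ext1 x
    obtain ⟨n, rfl | rfl⟩ := h1 x
    · rw [map_pow, map_pow, e1]
    · rw [map_mul, map_mul, map_pow, map_pow, e1, e2]

/-- The automorphism group of the quaternion group of order 8 is isomorphic to the symmetric group of degree 4. -/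
theorem result : Nonempty (MulAut (QuaternionGroup 2) ≃* Equiv.Perm (Fin 4)) := by
  obtain ⟨φ, h, -⟩ := CA.TriPres.exists_inj_S4 (x := X) (y := Y)
    (by ext1 x; revert x; decide) (by ext1 x; revert x; decide) (by ext1 x; revert x; decide)
    (fun e => absurd (DFunLike.congr_fun e (xa 0)) (by decide))
  refine ⟨(MulEquiv.ofBijective φ ((Nat.bijective_iff_injective_and_card φ).2 ⟨h, le_antisymm
    (Nat.card_le_card_of_injective φ h) (card_le.trans ?_)⟩)).symm⟩
  simp [Fintype.card_perm, Nat.factorial]

end Cfsg.Agent.S3742
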