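import Cfsg.Statements.S3784
import Mathlib

set_option autoImplicit false
open Cfsg

namespace Cfsg.Agent.S3784

theorem aux (x : ℤ) (b a : ℕ) (hx : Odd x) (hb : Odd b) (h : x ^ b - 1 ∣ 2 ^ a) :
    x ^ b - 1 = x - 1 ∨ x ^ b - 1 = -(x - 1) := by
  have h1 := geom_sum_mul x b
  have h2 : Odd (∑ i ∈ Finset.range b, x ^ i) := by
    have : ∀ n : ℕ, (∑ i ∈ Finset.range n, x ^ i) % 2 = n % 2 := fun n => by
      induction n with
      | zero => simp
      | succ n ih =>
        have := Int.odd_iff.1 (hx.pow (n := n))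
        rw [Finset.sum_range_succ]; push_cast; omega
    rw [Int.odd_iff, this]
    have := Nat.odd_iff.1 hb
    omega
  have h3 : IsUnit (∑ i ∈ Finset.range b, x ^ i) :=
    (Int.isCoprime_two_right.2 h2).pow_right.isUnit_of_dvd' dvd_rfl ((Dvd.intro _ h1).trans h)
  rcases Int.isUnit_iff.1 h3 with h4 | h4 <;> rw [h4] at h1 <;> omega

/-- Let p, q be primes and a, b positive integers with p^a = q^b + 1. Then either p = 2, b = 1, a is prime and q = 2^a − 1; or q = 2, a = 1, b is a power of 2 and p = 2^b + 1; or p^a = 9 and q^b = 8. -/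
theorem result (p q a b : ℕ) (hp : p.Prime) (hq : q.Prime) (ha : 1 ≤ a) (hb : 1 ≤ b) (h : p ^ a = q ^ b + 1) : (p = 2 ∧ b = 1 ∧ a.Prime ∧ q + 1 = 2 ^ a) ∨ (q = 2 ∧ a = 1 ∧ (∃ m : ℕ, b = 2 ^ m) ∧ p = 2 ^ b + 1) ∨ (p ^ a = 9 ∧ q ^ b = 8) := by
  have hq1 : q ≤ q ^ b := Nat.le_self_pow (by omega) q
  have hq2 := hq.two_le
  have hp2 := hp.two_le
  rcases hp.eq_two_or_odd' with rfl | hp'
  · have hqo : Odd q := by
      have : Even (q ^ b + 1) := by rw [← h]; exact Nat.even_pow.2 ⟨even_two, by omega⟩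
      exact (Nat.odd_pow_iff (e := b) (by omega)).1
        (Nat.odd_iff.2 (by rw [Nat.even_iff] at this; omega))
    have hb1 : b = 1 := by
      rcases Nat.even_or_odd b with ⟨c, rfl⟩ | hbo
      · obtain ⟨t, ht⟩ : Odd (q ^ c) := hqo.pow
        obtain ⟨a, rfl⟩ : ∃ a', a = a' + 2 := ⟨a - 2, by
          have : a ≠ 1 := by rintro rfl; omega
          omega⟩
        rw [pow_add, pow_add, ht] at h
        have : (2 * t + 1) * (2 * t + 1) + 1 = 4 * (t * t + t) + 2 := by ring
        omega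
      · have h1 : ((-q : ℤ)) ^ b = -(q ^ b : ℕ) := by rw [hbo.neg_pow]; push_cast; rfl
        have := aux (-q) b a (by exact_mod_cast hqo.natCast.neg) hbo (by
          rw [h1, show -((q ^ b : ℕ) : ℤ) - 1 = -((2 ^ a : ℕ) : ℤ) by omega]; simp)
        rw [h1] at this
        exact Nat.pow_right_injective hq2 (show q ^ b = q ^ 1 by rw [pow_one]; omega)
    subst hb1
    rw [pow_one] at h
    refine Or.inl ⟨rfl, rfl, (Nat.prime_of_pow_sub_one_prime (a := 2) ?_ ?_).2, h.symm⟩
    · rintro rfl; omega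
    · rw [h]; exact hq
  have hq' : q = 2 := by
    have : Odd (q ^ b + 1) := h ▸ hp'.pow
    exact hq.even_iff.1 ((Nat.even_pow (n := b)).1 (Nat.even_iff.2 (by rw [Nat.odd_iff] at this; omega))).1
  subst hq'
  right
  rcases Nat.even_or_odd a with ⟨c, rfl⟩ | hao
  · right
    obtain ⟨t, ht⟩ : ∃ t, p ^ c = t + 1 := ⟨p ^ c - 1, by have := Nat.one_le_pow c p (by omega); omega⟩
    rw [pow_add, ht] at h ⊢
    have h1 : t * (t + 2) = 2 ^ b := by nlinarith
    obtain ⟨i, -, hi⟩ := (Nat.dvd_prime_pow Nat.prime_two).1 (Dvd.intro _ h1)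
    obtain ⟨j, -, hj⟩ := (Nat.dvd_prime_pow Nat.prime_two).1 (Dvd.intro_left _ h1)
    have h2 : t = 2 := by
      rcases i with _ | _ | i
      · rcases j with _ | j
        · omega
        · rw [pow_succ] at hj; omega
      · omega
      · rcases j with _ | _ | j
        · omega
        · have := Nat.one_le_two_pow (n := i + 1 + 1); omega
        · rw [pow_succ, pow_succ] at hi hj; omega
    subst h2
    omega
  · left
    have h1 : (p : ℤ) ^ a = (2 ^ b + 1 : ℕ) := by rw [← h]; push_cast; rfl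
    have := aux p a b hp'.natCast hao (by rw [h1]; simp)
    have h2 : a = 1 := Nat.pow_right_injective hp2 (show p ^ a = p ^ 1 by
      rw [pow_one]; rw [h1] at this; omega)
    subst h2
    rw [pow_one] at h
    exact ⟨rfl, rfl, Nat.pow_of_pow_add_prime one_lt_two (by omega) (h ▸ hp), h⟩

end Cfsg.Agent.S3784
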