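import Cfsg.Statements.S4278
import Cfsg.Agent.Lib.Lie.SSInv
-- import your own Cfsg.Agent.* helpers here

set_option autoImplicit false
open Cfsg

namespace Cfsg.Agent.S4278

open CA.Chev Cfsg.Lie

noncomputable def Oa := (tb8 [0x201, 0x8180])
theorem cena : cenChk tabG2 2 1 2 Oa (nb 0x0) (nb 0x0) (getN [0, 1]) 2 = true := by decide +kernel
theorem pc1 : poinChk tabG2 1 3 0 (nb 0x1020000)
    [1, 1] = true := by decide +kernel
theorem sgn : sgnChk tabG2 (Oa 0) (Oa 0) (nb 0x6080000) (nb 0x1010000) (nb 0x1010000) = true := by decide +kernel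

/-- In the Chevalley group of type G₂ over a finite field of odd order, any two involutions are conjugate. -/
theorem result {F : Type*} [Field F] [Fintype F] (hF : Odd (Fintype.card F)) (s t : ↥(Cfsg.Lie.chevG2.group F)) (hs : orderOf s = 2) (ht : orderOf t = 2) : IsConj s t := by
  have h := fun u hu => or_self_iff.1 (invol_conj (by simp) hF tor_injective_G2 tab_G2 sgn u hu)
  exact (h s hs).trans (h t ht).symm

end Cfsg.Agent.S4278
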