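import Cfsg.Statements.S4279
import Cfsg.Agent.S4278
import Cfsg.Agent.Lib.Lie.ChevSL2
import Cfsg.Agent.Lib.Grp.H1Basic
import Cfsg.Agent.Lib.Lin.SLnCard
-- import your own Cfsg.Agent.* helpers here

set_option autoImplicit false
open Cfsg

namespace Cfsg.Agent.S4279

open CA.Chev Cfsg.Lie CA.SL2Unip Subgroup
open scoped MatrixGroups

theorem sl2 {F : Type*} [Field F] (r : Rt chevG2) (hr : Pos r) (i : Nd chevG2) (hi : cor r i = 1) :
    ∃ φ : SL(2, F) →* chevG2.group F, Function.Injective φ ∧ (∀ x, φ x ∈ (adjG chevG2 F).X {r, ng r}) ∧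
      φ (-1) = Twist.adjG_R3.torH fun j => (-1) ^ cor r j := by
  set A := adjG chevG2 F
  obtain ⟨φ, h1, h2, h3, h4⟩ := (Twist.adjG_R3 (K := F)).exists_SL2 r
  have h5 : ∀ a, A.h r a = Twist.adjG_R3.torH fun j => a ^ cor r j := fun a => adjG_θ_injective (by
    rw [A.θh, Twist.adjG_R3.θ_torH, tor_cor])
  have h6 : ∀ b ∈ B F, φ b ∈ A.B := fun b hb => by
    obtain ⟨a, b, rfl⟩ := exists_of_mem_B hb
    rw [map_mul, h1, h3]; exact mul_mem (A.U_le_B (A.x_mem hr _)) (A.H_le_B (A.h_mem _ _))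
  refine ⟨φ, (injective_iff_map_eq_one _).2 fun x e => ?_, fun x => ?_, ?_⟩
  · by_cases hx : x ∈ B F
    · obtain ⟨a, b, rfl⟩ := exists_of_mem_B hx
      rw [map_mul, h1, h3] at e
      obtain ⟨e1, e2⟩ := A.UH_unique (A.x_mem hr _) (one_mem _) (A.h_mem _ _) (one_mem _) (e.trans (one_mul 1).symm)
      rw [h5] at e2
      have := congrArg A.θ e2
      rw [Twist.adjG_R3.θ_torH, map_one, ← map_one dgG, ← map_one tor] at this
      have := congrFun (tor_injective_G2 (dgG_injective this)) i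
      rw [hi, zpow_one] at this
      rw [A.x_injective r (e1.trans (A.x_zero r).symm), this, u_zero, one_mul]
      apply sl_ext4 <;> simp [CA.SL2Torus.dg_coe]
    · obtain ⟨c, b, hb, rfl⟩ := bruhat hx
      rw [map_mul, map_mul, h4] at e
      exact absurd ((refl_self r).symm.trans (congrArg (· r) (A.bruhat_unique (h6 _ (U_le_B (u_mem_U c))) (h6 b hb)
        (A.n_mem r 1) (A.act_n r 1) .one e.symm))) (ng_ne r)
  · exact ((Sys.range_SL2 h1 h2).le.trans (sup_le (A.X_mono (by simp)) (A.X_mono (by simp)))) ⟨x, rfl⟩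
  · rw [← h5, ← h3]; congr 1; apply sl_ext4 <;> simp [CA.SL2Torus.dg_coe]

theorem key {F G : Type*} [Field F] [Fintype F] [Group G] (φ ψ : SL(2, F) →* G) (h1 : Function.Injective φ)
    (h2 : Function.Injective ψ) (h : ∀ x y, φ x * ψ y = ψ y * φ x) (e : φ (-1) = ψ (-1)) (ho : orderOf (φ (-1)) = 2)
    (hc : Nat.card (centralizer {φ (-1)}) = Fintype.card F ^ 2 * (Fintype.card F ^ 2 - 1) ^ 2) :
    ∃ L₁ L₂ : Subgroup G, Nonempty (L₁ ≃* SL(2, F)) ∧ Nonempty (L₂ ≃* SL(2, F)) ∧ (∀ x ∈ L₁, ∀ y ∈ L₂, x * y = y * x) ∧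
      L₁ ⊓ L₂ = zpowers (φ (-1)) ∧ L₁ ⊔ L₂ ≤ centralizer {φ (-1)} ∧ (L₁ ⊔ L₂).relIndex (centralizer {φ (-1)}) = 2 := by
  have h3 : ∀ x ∈ φ.range, ∀ y ∈ ψ.range, x * y = y * x := by rintro _ ⟨x, rfl⟩ _ ⟨y, rfl⟩; exact h x y
  have h4 : φ.range ⊓ ψ.range = zpowers (φ (-1)) := by
    refine le_antisymm ?_ (zpowers_le.2 ⟨⟨_, rfl⟩, _, e.symm⟩)
    rintro _ ⟨⟨x, rfl⟩, y, e'⟩
    rcases (CA.SL2Basic.mem_center_iff x).1 (mem_center_iff.2 fun z => h1 (by rw [map_mul, map_mul, ← e', h])) with rfl | rfl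
    exacts [map_one φ ▸ one_mem _, mem_zpowers _]
  have h5 : φ.range ⊔ ψ.range ≤ centralizer {φ (-1)} := sup_le
    (by rintro _ ⟨x, rfl⟩; simp [mem_centralizer_singleton_iff, ← map_mul])
    (by rintro _ ⟨x, rfl⟩; exact mem_centralizer_singleton_iff.2 (h _ _).symm)
  refine ⟨_, _, ⟨(MonoidHom.ofInjective h1).symm⟩, ⟨(MonoidHom.ofInjective h2).symm⟩, h3, h4, h5, ?_⟩
  have h6 := CA.H1Basic.card_sup_mul_card_inf_of_le_normalizer (H := φ.range) (K := ψ.range)
    fun x hx => centralizer_le_normalizer _ fun y hy => (h3 x hx y hy).symm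
  rw [h4, Nat.card_zpowers, ho, ← Nat.card_congr (MonoidHom.ofInjective h1).toEquiv,
    ← Nat.card_congr (MonoidHom.ofInjective h2).toEquiv, CA.SLnCard.card_SL2, Nat.card_eq_fintype_card (α := F)] at h6
  have h7 := CA.H1Basic.card_mul_relIndex h5
  rw [hc, ← mul_pow, sq, ← h6] at h7
  refine Nat.eq_of_mul_eq_mul_left (Nat.pos_of_ne_zero fun e => ?_) h7
  have := Nat.one_lt_pow two_ne_zero (Fintype.one_lt_card (α := F))
  simp [e] at h6
  omega

/-- In the Chevalley group G of type G₂ over a finite field F of odd order q, the centralizer of an involution t has order q²(q² − 1)² and contains two elementwise commuting subgroups, each isomorphic to SL(2, F), which meet exactly in the subgroup generated by t and whose join has index 2 in the centralizer. -/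
theorem result {F : Type*} [Field F] [Fintype F] (hF : Odd (Fintype.card F)) (t : ↥(Cfsg.Lie.chevG2.group F)) (ht : orderOf t = 2) : Nat.card (Subgroup.centralizer ({t} : Set ↥(Cfsg.Lie.chevG2.group F))) = Fintype.card F ^ 2 * (Fintype.card F ^ 2 - 1) ^ 2 ∧ ∃ L₁ L₂ : Subgroup ↥(Cfsg.Lie.chevG2.group F), Nonempty (L₁ ≃* Matrix.SpecialLinearGroup (Fin 2) F) ∧ Nonempty (L₂ ≃* Matrix.SpecialLinearGroup (Fin 2) F) ∧ (∀ x ∈ L₁, ∀ y ∈ L₂, x * y = y * x) ∧ L₁ ⊓ L₂ = Subgroup.zpowers t ∧ L₁ ⊔ L₂ ≤ Subgroup.centralizer ({t} : Set ↥(Cfsg.Lie.chevG2.group F)) ∧ (L₁ ⊔ L₂).relIndex (Subgroup.centralizer ({t} : Set ↥(Cfsg.Lie.chevG2.group F))) = 2 := by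
  have h0 : 1 < Fintype.card F := Fintype.one_lt_card
  have h5 : ∀ k, 1 ≤ Fintype.card F ^ k := fun k => Nat.one_le_pow k _ h0.le
  obtain ⟨s, -, h1, -, -, h2, h3, -⟩ := invol_classes (by simp) hF tor_injective_G2 tor_injective_G2 tab_G2 S4278.cena S4278.cena
    S4278.sgn (by decide +kernel) (by decide +kernel) rfl rfl
  have h4 : Nat.card (Subgroup.centralizer {t}) = Fintype.card F ^ 2 * (Fintype.card F ^ 2 - 1) ^ 2 := by
    obtain ⟨g, rfl⟩ := isConj_iff.1 (S4278.result hF s t h1 ht)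
    rw [← Nat.card_congr ((MulAut.conj g).toEquiv.subtypeEquiv (p := (· ∈ Subgroup.centralizer {s})) fun x => by
      simp [Subgroup.mem_centralizer_singleton_iff, ← mul_assoc]; simp [mul_assoc]), h3, poin_of_chk tab_G2 S4278.pc1]
    simp only [evalL, List.foldr, Finset.sum_range_succ, Finset.sum_range_zero, getN_eq, show tabG2.l = 2 from rfl,
      List.getD_cons_succ, List.getD_cons_zero, JM_zero, poin_empty]
    zify [h0.le, h5]
    ring
  refine ⟨h4, ?_⟩
  obtain ⟨φ, a1, a2, a3⟩ := sl2 (F := F) (7 : Fin 12) (show 6 ≤ 7 by decide) (0 : Fin 2) (by decide +kernel)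
  obtain ⟨ψ, b1, b2, b3⟩ := sl2 (F := F) (11 : Fin 12) (show 6 ≤ 11 by decide) (0 : Fin 2) (by decide +kernel)
  have h6 : φ (-1) = ψ (-1) := by
    rw [a3, b3]; congr 1
    exact funext (Fin.forall_fin_two.2 ⟨rfl, show (-1 : Fˣ) ^ (0 : ℤ) = (-1) ^ (2 : ℤ) by simp⟩)
  have h7 : orderOf (-1 : SL(2, F)) = 2 := orderOf_eq_prime (by simp) fun e => by
    have := FiniteField.even_card_iff_char_two.1 (ringChar.eq_iff.2 ((CharP.charP_iff_prime_eq_zero Nat.prime_two).2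
      (by simpa [neg_eq_iff_add_eq_zero, one_add_one_eq_two] using congrArg (·.1 0 0) e)))
    have := Nat.odd_iff.1 hF
    omega
  obtain ⟨g, rfl⟩ := isConj_iff.1 (S4278.result hF (φ (-1)) t (by rw [orderOf_injective φ a1, h7]) ht)
  have h8 : ∀ x y, φ x * ψ y = ψ y * φ x := fun x y => (adjG chevG2 F).orth_of_chk tab_G2 (p := 0) (by simp)
    (r := (7 : Fin 12)) (s := (11 : Fin 12)) (by decide +kernel) _ (a2 x) _ (b2 y)
  have c := (MulAut.conj g).injective
  exact key ((MulAut.conj g).toMonoidHom.comp φ) ((MulAut.conj g).toMonoidHom.comp ψ) (c.comp a1) (c.comp b1)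
    (fun x y => by simp only [MonoidHom.comp_apply, ← map_mul, h8]) (congrArg (MulAut.conj g) h6) ht h4

end Cfsg.Agent.S4279
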