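import Cfsg.Agent.Lib.Grp.SchurLow
import Cfsg.Agent.Lib.Spor.J1Perm
-- Template for statement S2039 (row 2039; see /opt/grader/pristine/manifest.json for weights).
-- Copy to Cfsg/Agent/S2039.lean and replace the sorry. The statement below is byte-identical to the frozen
-- statement Cfsg.CfsgFrozen.S2039 (Cfsg/Statements/S2039.lean; the theorem Cfsg.kfact_multiplier_j1);
-- the grader kernel-checks Cfsg.Agent.S2039.result against that frozen type. Keep the theorem IN THIS FILE
-- (a `result` declared elsewhere and merely imported here is not credited); helpers may live anywhere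
-- under Cfsg/Agent/.
import Cfsg.Statements.S2039
-- import your own Cfsg.Agent.* helpers here

set_option autoImplicit false
open Cfsg

set_option autoImplicit false
set_option maxRecDepth 100000

namespace Cfsg.Agent.S2039
open Cfsg CA.SchurHopf CA.SchurPc CA.SchurCG CA.SchurLow CA.CWord CA.CNet CA.CLevel CA.CSimple CA.CPoint CA.CTodd CA.J1Perm
universe u
noncomputable section
def c2_t : List (List (List ℕ)) := [[[],[1],[2]],
  [[],[],[2]],
  [[],[],[]]]
noncomputable def c2 : PC := ⟨3, 2, 2, 8, 7, 2, 14, 1, 63, fun e => nth (nth c2_t [] (Nat.div e 3)) [] (Nat.mod e 3),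
  [(0,[2],[1,2]),
  (0,[0],[0]),
  (0,[1],[2]),
  (1,[0],[1,2]),
  (1,[1],[0,1])]⟩
def c2_A0 : List (List ℕ × List ℕ × ℕ) := []
theorem c2_hA0 : lall c2_A0 c2.relA = true := by decide +kernel
def c2_B0 : List (ℕ × List ℕ × List ℕ × ℕ) := [(0,[0,1],[1,0],256),
  (0,[2,1],[1,2],nat_lit 0x10100),
  (0,[0,0],[],nat_lit 0x10100000000),
  (1,[3,3],[],nat_lit 0x10000010100000001),
  (1,[4,4],[],257),
  (0,[2,2],[],nat_lit 0x10000000100000000)]
theorem c2_hB0 : lall c2_B0 c2.relB = true := by decide +kernel
theorem c2_lin : Lin c2 (2 ^ 0) :=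
  ⟨by decide +kernel, c2_A0, c2_B0, _,
  [0,
  0,
  0],
  [],
  [[17,1,3],
  [61,57],
  [29]],
  c2_hA0, c2_hB0, rfl, by decide +kernel, by decide +kernel, by decide +kernel, by decide +kernel⟩
def c2_x : List Word := [[1,2,5,9,6,10,17,20],
  [9,1,13,6,12,14],
  [0,6,2,6,9,10,16],
  [0,12,4,13,6,11,16,20],
  [1,8,4,9,13,20]]
theorem c2_r0 : ∀ i < 3, c2.rowOK (chkW lk [0,55,2,13,1] c2_x) (0 + i) = true := by decide +kernel
theorem c2_r : ∀ i < c2.K, c2.rowOK (chkW lk [0,55,2,13,1] c2_x) i = true := of_zero (c2_r0)
theorem c2_f : lall c2.F (c2.fusOK (chkW lk [0,55,2,13,1] c2_x)) = true := by decide +kernel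
theorem c2_low : c2.l ^ c2.K ≤ lowB C [(0, [0,2,4], [])] (c2_x.take c2.K) := by decide +kernel
theorem c2_grp : Grp c2 (C.grp gens) :=
  grp_of_ctx hC hlk (gens_eq ▸ H0_base) (ws := c2_x) (fun w h => all_mem ((by decide +kernel : ∀ w ∈ c2_x, ∀ a ∈ w, a < 22) w h)) card (by decide) _ c2_r c2_f (by decide +kernel) c2_low
end

/-- The Schur multiplier of the Janko group J₁ (the group generated by two explicit 7 × 7 matrices over the integers modulo 11) is trivial; here the Schur multiplier is described through stem extensions, as in the definitions: surjective homomorphisms onto the group from a finite group, whose kernel is central in that finite group and contained in that finite group's commutator subgroup. -/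
theorem result : Cfsg.HasCyclicSchurMultiplier ↥Cfsg.Spor.J1 1 := by
  obtain ⟨e, -⟩ := CA.J1Perm.equiv
  exact congr_left (has_one_of_bd (bd_all card [2] [3, 5, 7, 11, 19] (by decide +kernel) (by norm_num)
    (by simpa using bd_of c2_lin c2_grp))) e

end Cfsg.Agent.S2039
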