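import Cfsg.Statements.S0048
import Cfsg.Agent.Lib.Grp.H1Prod

set_option autoImplicit false
open Cfsg

namespace Cfsg.Agent.S0048

open CA.H1Basic CA.H1Prod Pointwise

/-- In a finite solvable group every maximal subgroup has index a prime power. -/
theorem result {G : Type*} [Group G] [Finite G] [Group.IsSolvable G]
    (M : Subgroup G) (hM : IsCoatom M) : IsPrimePow M.index := by
  induction hn : Nat.card G using Nat.strong_induction_on generalizing G with
  | _ n ih =>
  have : Nontrivial G := by
    by_contra h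
    rw [not_nontrivial_iff_subsingleton] at h
    exact hM.1 (Subsingleton.elim _ _)
  obtain ⟨p, A, hp, hAn, hA, -, hAp⟩ := exists_normal_pgroup_of_nontrivial (G := G)
  by_cases hAM : A ≤ M
  · have hs := QuotientGroup.mk'_surjective A
    have h1 : (M.map (QuotientGroup.mk' A)).comap (QuotientGroup.mk' A) = M :=
      Subgroup.comap_map_eq_self (by rwa [QuotientGroup.ker_mk'])
    have h2 : IsCoatom (M.map (QuotientGroup.mk' A)) := by
      refine ⟨fun h => hM.1 (by rw [← h1, h, Subgroup.comap_top]), fun K hK => ?_⟩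
      have h3 : M < K.comap (QuotientGroup.mk' A) := by
        rw [← h1]
        exact lt_of_le_of_ne (Subgroup.comap_mono hK.le)
          (fun h => hK.ne (Subgroup.comap_injective hs h))
      apply Subgroup.comap_injective hs
      rw [hM.2 _ h3, Subgroup.comap_top]
    have := ih _ (hn ▸ card_quotient_lt hA) _ h2 rfl
    rwa [← index_comap_mk, h1] at this
  · have h1 : M ⊔ A = ⊤ := hM.2 _ (left_lt_sup.mpr hAM)
    have h2 := (fac_of_normal h1).index_dvd_card
    have : Fact p.Prime := ⟨hp⟩
    obtain ⟨k, hk⟩ := IsPGroup.iff_card.mp hAp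
    rw [hk] at h2
    obtain ⟨j, -, hj⟩ := (Nat.dvd_prime_pow hp).mp h2
    rw [isPrimePow_nat_iff]
    refine ⟨p, j, hp, Nat.pos_of_ne_zero ?_, hj.symm⟩
    rintro rfl
    rw [pow_zero, Subgroup.index_eq_one] at hj
    exact hM.1 hj

end Cfsg.Agent.S0048
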