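import Cfsg.Statements.S0107
import Cfsg.Agent.Lib.Grp.MC3

set_option autoImplicit false
open Cfsg

namespace Cfsg.Agent.S0107

open Subgroup CA.SylIn CA.PRes CA.Two CA.MC2 CA.MC3 CA.PGBasic

/-- A finite group with no nontrivial 2-group quotient and dihedral Sylow 2-subgroups of order at least 8 has a single class of involutions. -/
theorem result {G : Type*} [Group G] [Finite G] (T : Sylow 2 G) (n : ℕ) (hn : 2 ≤ n) (hT : Nonempty ((T : Subgroup G) ≃* DihedralGroup (2 ^ n))) (hO : Cfsg.pResidual 2 G = ⊤) (x y : G) (hx : orderOf x = 2) (hy : orderOf y = 2) : ∃ g : G, g * x * g⁻¹ = y := by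
  obtain ⟨eT⟩ := hT
  obtain ⟨m, rfl⟩ : ∃ m, n = m + 1 := ⟨n - 1, by omega⟩
  obtain ⟨a, b, h, e⟩ := exists_of_dihedral eT
  have h' := h.shift 1
  have h2 : Fus m a (a ^ (1 : ℤ) * b) := by
    by_contra h2
    exact shift_notMem_pResidual h T e (by omega) (fun h => absurd h (by decide)) h2 (hO ▸ mem_top _)
  have h1 : Fus m a b := by
    by_contra h1
    exact shift_notMem_pResidual h' T ((sup_shift a b 1).trans e) (by omega)
      (fun h => absurd h (by decide)) (fun h2 => h1 ((fus_shift_two h).1 h2)) (hO ▸ mem_top _)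
  have key : ∀ t : G, orderOf t = 2 → IsConj t (a ^ (2 ^ m : ℤ)) := fun t ht => by
    rcases involution_cases h T e ht with e | e | e
    exacts [e, e.1.trans (isConj_z_of_fus h e.2 h1), e.1.trans (isConj_z_of_fus h' e.2 h2)]
  exact isConj_iff.1 ((key x hx).trans (key y hy).symm)

end Cfsg.Agent.S0107
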