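import Cfsg.Statements.S0119
import Cfsg.Agent.Lib.Grp.PGCritical

set_option autoImplicit false
open Cfsg

namespace Cfsg.Agent.S0119

open Subgroup CA.PGBasic CA.PGClassTwo CA.PGFrattini CA.PGCritical
open scoped commutatorElement

/-- If a p'-group A of automorphisms of a p-group G satisfies G = [G, A] and acts trivially on every characteristic abelian subgroup, then G is special with centre equal to the fixed points of A. -/
theorem result {G : Type*} [Group G] [Finite G] {p : ℕ} [Fact p.Prime] (hG : IsPGroup p G) (A : Subgroup (MulAut G)) (hA : Nat.Coprime (Nat.card A) p) (hGA : Subgroup.closure {x : G | ∃ g : G, ∃ a ∈ A, x = g⁻¹ * a g} = ⊤) (hchar : ∀ H : Subgroup G, H.Characteristic → IsMulCommutative H → ∀ a ∈ A, ∀ h ∈ H, a h = h) : Cfsg.IsSpecial p G ∧ (∀ g : G, (g ∈ Subgroup.center G ↔ ∀ a ∈ A, a g = g)) := by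
  classical
  have hp : p.Prime := Fact.out
  have h1 : ∀ X : Subgroup G, X.Characteristic → IsMulCommutative X → X ≤ center G := by
    intro X hX hc x hx
    have : closure {x : G | ∃ g : G, ∃ a ∈ A, x = g⁻¹ * a g} ≤ centralizer {x} := by
      rw [closure_le]
      rintro _ ⟨g, a, ha, rfl⟩
      have := hchar X hX hc a ha _ ((inferInstance : X.Normal).conj_mem x hx g)
      rw [map_mul, map_mul, hchar X hX hc a ha x hx, map_inv] at this
      refine mem_centralizer_singleton_iff.2 ?_
      calc _ = g⁻¹ * (a g * x * (a g)⁻¹) * a g := by group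
        _ = _ := by rw [this]; group
    exact mem_center_iff.2 fun g => mem_centralizer_singleton_iff.1 (this (hGA ▸ mem_top g))
  obtain ⟨H, hH, hpow, hcomm, hC⟩ := exists_critical hG
  have h2 : centralizer (H : Set G) ≤ center G := h1 _ inferInstance
    (isMulCommutative_iff.2 fun a ha b hb => mem_centralizer_iff.1 hb a (hC ha))
  have h3 : ∀ h ∈ H, ∀ g, ⁅h, g⁆ ∈ center G := fun h hh g =>
    h2 (hcomm (commutator_mem_commutator hh (mem_top g)))
  have h4 : commutator G ≤ center G := by
    rw [_root_.commutator_def, commutator_le]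
    intro g _ g' _
    refine h2 (mem_centralizer_iff.2 fun h hh => ?_)
    rw [← commutatorElement_eq_one_iff_mul_comm, commutatorElement_def g g',
      comm_mul_right (commute_of_mem_center (h3 h hh _) _),
      comm_mul_right (commute_of_mem_center (h3 h hh _) _),
      comm_mul_right (commute_of_mem_center (h3 h hh _) _)]
    have e : ∀ g : G, ⁅h, g⁆ * ⁅h, g⁻¹⁆ = 1 := fun g => by
      rw [← comm_mul_right (commute_of_mem_center (h3 h hh _) _), mul_inv_cancel,
        commutatorElement_one_right]
    rw [mul_assoc ⁅h, g⁆, mem_center_iff.1 (h3 h hh g⁻¹), ← mul_assoc, e, one_mul, e]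
  have h5 : ∀ g : G, g ^ p ∈ center G := fun g => h2 (mem_centralizer_iff.2 fun h hh => by
    rw [← commutatorElement_eq_one_iff_mul_comm,
      comm_pow_right (commute_of_mem_center (h3 h hh _) _),
      ← comm_pow_left (commute_of_mem_center (h3 h hh _) _), commutatorElement_eq_one_iff_mul_comm]
    exact (mem_center_iff.1 (h2 (hpow h hh)) g).symm)
  haveI : Finite (MulAut G) := Finite.of_injective _ DFunLike.coe_injective
  haveI := Fintype.ofFinite A
  let φ : G →* Abelianization G := ∏ a : A, Abelianization.of.comp (a : MulAut G).toMonoidHom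
  have hφ : ∀ g, φ g = ∏ a : A, Abelianization.of ((a : MulAut G) g) := fun g => by
    simp only [φ, MonoidHom.finset_prod_apply]; rfl
  have h6 : ⊤ ≤ φ.ker := by
    rw [← hGA, closure_le]
    rintro _ ⟨g, a, ha, rfl⟩
    rw [SetLike.mem_coe, MonoidHom.mem_ker, map_mul, map_inv, inv_mul_eq_one, hφ, hφ]
    exact (Fintype.prod_equiv (Equiv.mulRight (⟨a, ha⟩ : A)) _ _ fun b => rfl).symm
  have h7 : ∀ g : G, (∀ a ∈ A, a g = g) → g ∈ commutator G := by
    intro g hg
    have e := h6 (mem_top g)
    rw [MonoidHom.mem_ker, hφ, Finset.prod_congr rfl fun a _ => by rw [hg a a.2], Finset.prod_const,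
      Finset.card_univ, ← Nat.card_eq_fintype_card] at e
    obtain ⟨k, hk⟩ := hG g
    have e' : Abelianization.of g ^ p ^ k = 1 := by rw [← map_pow, hk, map_one]
    have := (pow_eq_one_iff_of_coprime (hA.pow_right k)).1 ⟨e, e'⟩
    rwa [← Abelianization.ker_of]
  have h8 : ∀ g ∈ center G, ∀ a ∈ A, a g = g := fun g hg a ha =>
    hchar _ inferInstance inferInstance a ha g hg
  have h9 : commutator G = center G := le_antisymm h4 fun g hg => h7 g (h8 g hg)
  exact ⟨⟨hG, le_antisymm ((frattini_le_iff hG).2 ⟨h4, h5⟩) (h9 ▸ commutator_le_frattini hG), h9⟩,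
    fun g => ⟨h8 g, fun h => h4 (h7 g h)⟩⟩

end Cfsg.Agent.S0119
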