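import Cfsg.Statements.S0201
import Cfsg.Agent.Lib.Block.H13Zstar

set_option autoImplicit false
open Cfsg

namespace Cfsg.Agent.S0201

/-- Brauer–Suzuki Theorem: if a Sylow 2-subgroup of a finite group is generalized quaternion (of order at least 8) and the group has no nontrivial normal subgroup of odd order, then its centre has order 2. -/
theorem result {G : Type*} [Group G] [Finite G] (S : Sylow 2 G) (n : ℕ) (e : (S : Subgroup G) ≃* QuaternionGroup (2 ^ (n + 1))) (hO : ∀ N : Subgroup G, N.Normal → Odd (Nat.card N) → N = ⊥) : Nat.card (Subgroup.center G) = 2 := by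
  have hU := CA.H13Zstar.uniq_of_quaternion S e
  obtain ⟨w, hw⟩ : ∃ w : G, orderOf w = 4 :=
    ⟨e.symm (.xa 0), by rw [Subgroup.orderOf_coe, MulEquiv.orderOf_eq, QuaternionGroup.orderOf_xa]⟩
  have hu := CA.H13QBig.orderOf_sq_four hw
  have huZ : w ^ 2 ∈ Subgroup.center G := Subgroup.mem_center_iff.2
    (CA.H13ZRed.central_of_inZStar (CA.H13BS.bs hU hu) (CA.H13Zstar.core_eq_bot hO))
  suffices h : Subgroup.center G = Subgroup.zpowers (w ^ 2) by rw [h, Nat.card_zpowers, hu]
  refine le_antisymm (fun z hz => ?_) (Subgroup.zpowers_le.2 huZ)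
  obtain ⟨a, b, ha, hb, rfl, ⟨k, hk⟩, hbo⟩ := CA.PRes.exists_p_part (p := 2) z
  have hz' := Subgroup.zpowers_le.2 hz
  have hb1 : b = 1 := by
    haveI : (Subgroup.zpowers b).Normal :=
      ⟨fun x hx g => by
        rwa [Subgroup.mem_center_iff.1 (Subgroup.zpowers_le.2 (hz' hb) hx) g, mul_inv_cancel_right]⟩
    have := hO (Subgroup.zpowers b) inferInstance
      (by rw [Nat.card_zpowers]; exact CA.H13ZRed.coprime_two_iff.1 hbo)
    simpa using this
  rw [hb1, mul_one]
  obtain ⟨g, hg⟩ := CA.SylIn.exists_conj_mem_sylow S hk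
  rw [Subgroup.mem_center_iff.1 (hz' ha) g, mul_inv_cancel_right] at hg
  have hc : ∀ x : QuaternionGroup (2 ^ (n + 1)), x * e ⟨a, hg⟩ = e ⟨a, hg⟩ * x := fun x => by
    obtain ⟨x, rfl⟩ := e.surjective x
    rw [← map_mul, ← map_mul]
    congr 1
    exact Subtype.ext (Subgroup.mem_center_iff.1 (hz' ha) x)
  have h2 : e ⟨a, hg⟩ * e ⟨a, hg⟩ = 1 := by
    generalize e ⟨a, hg⟩ = q at hc
    rcases q with i | i
    · have := hc (.xa 0)
      simp only [QuaternionGroup.xa_mul_a, QuaternionGroup.a_mul_xa, QuaternionGroup.xa.injEq]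
        at this
      rw [QuaternionGroup.a_mul_a, QuaternionGroup.one_def]
      congr 1
      linear_combination this
    · have := hc (.a 1)
      simp only [QuaternionGroup.xa_mul_a, QuaternionGroup.a_mul_xa, QuaternionGroup.xa.injEq]
        at this
      have h3 : ((2 : ℕ) : ZMod (2 * 2 ^ (n + 1))) = 0 := by push_cast; linear_combination -this
      rw [ZMod.natCast_eq_zero_iff] at h3
      have := Nat.le_of_dvd two_pos h3
      have : 1 ≤ 2 ^ n := Nat.one_le_two_pow
      rw [pow_succ] at *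
      omega
  rw [← map_mul, map_eq_one_iff e e.injective] at h2
  have h3 : a * a = 1 := congrArg Subtype.val h2
  by_cases h4 : a = 1
  · rw [h4]; exact one_mem _
  · rw [hU a _ (CA.H13Inv.orderOf_eq_two_iff.2 ⟨h3, h4⟩) hu
      (Subgroup.mem_center_iff.1 huZ a)]
    exact Subgroup.mem_zpowers _

end Cfsg.Agent.S0201
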