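import Cfsg.Statements.S0218
import Cfsg.Agent.Lib.Grp.PGNormalCyclic

set_option autoImplicit false
open Cfsg

namespace Cfsg.Agent.S0218

/-- The generalized quaternion group of order 2^(n+3) contains exactly one element of order 2. -/
theorem result (n : ℕ) : Nat.card {x : QuaternionGroup (2 ^ (n + 1)) // orderOf x = 2} = 1 := by
  rw [Nat.card_eq_one_iff_exists]
  have h2 : (2 * 2 ^ (n + 1)) = 2 ^ (n + 1 + 1) := by ring
  have ha : orderOf (QuaternionGroup.a 1 : QuaternionGroup (2 ^ (n + 1))) = 2 ^ (n + 1 + 1) := by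
    rw [QuaternionGroup.orderOf_a_one, h2]
  have hz := CA.PGNormalCyclic.orderOf_pow_pred Nat.prime_two ha
  refine ⟨⟨_, hz⟩, ?_⟩
  rintro ⟨(i | i), hx⟩
  · obtain ⟨k, rfl⟩ := ZMod.intCast_surjective i
    have h1 : QuaternionGroup.a (k : ZMod (2 * 2 ^ (n + 1))) ∈ Subgroup.zpowers _ :=
      CA.PGNormalCyclic.mem_zpowers_pow_of_pow_eq_one Nat.prime_two ha
        ⟨k, CA.PGDihedral.quaternion_a_one_zpow k⟩ (by rw [← orderOf_dvd_iff_pow_eq_one, hx])
    apply Subtype.ext
    rw [mem_zpowers_iff_mem_range_orderOf, hz] at h1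
    simp only [Finset.mem_image, Finset.mem_range] at h1
    obtain ⟨j, hj, h3⟩ := h1
    interval_cases j
    · rw [pow_zero] at h3
      rw [← h3, orderOf_one] at hx
      omega
    · simpa using h3.symm
  · rw [QuaternionGroup.orderOf_xa] at hx
    omega

end Cfsg.Agent.S0218
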