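import Cfsg.Statements.S0227
import Cfsg.Agent.Lib.Grp.H13Z2
import Cfsg.Agent.S0205

set_option autoImplicit false
open Cfsg

namespace Cfsg.Agent.S0227

/-- Let G be a finite group with no nontrivial normal subgroup of odd order, S a Sylow 2-subgroup, and C the group of automorphisms of G that fix every element of S. Then every Sylow 2-subgroup of C is abelian and has a normal complement in C; in particular C is solvable. -/
theorem result {G : Type*} [Group G] [Finite G] (hO : ∀ N : Subgroup G, N.Normal → Odd (Nat.card N) → N = ⊥) (S : Sylow 2 G) (C : Subgroup (MulAut G)) (hC : ∀ φ : MulAut G, φ ∈ C ↔ ∀ s : G, s ∈ S → φ s = s) : (∀ T : Sylow 2 ↥C, (∀ a b : ↥T, a * b = b * a) ∧ ∃ N : Subgroup ↥C, N.Normal ∧ Subgroup.IsComplement' N (T : Subgroup ↥C)) ∧ Group.IsSolvable ↥C := by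
  have h0 := CA.H13Z2.odd_commutator (CA.H13Zstar.core_eq_bot hO) S (C := C)
    (fun φ hφ => (hC φ).1 hφ)
  have h1 : Odd (Nat.card (commutator C)) := by
    rwa [← Subgroup.card_map_of_injective (f := C.subtype) C.subtype_injective, commutator_def,
      Subgroup.map_commutator, ← MonoidHom.range_eq_map, Subgroup.range_subtype]
  refine ⟨fun T => ⟨fun a b => ?_, ?_⟩, ?_⟩
  · open scoped commutatorElement in
    have h2 : ⁅(a : C), (b : C)⁆ ∈ (T : Subgroup C) ⊓ commutator C :=
      ⟨(T : Subgroup C).mul_mem ((T : Subgroup C).mul_mem ((T : Subgroup C).mul_mem a.2 b.2)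
        ((T : Subgroup C).inv_mem a.2)) ((T : Subgroup C).inv_mem b.2),
        Subgroup.commutator_mem_commutator (Subgroup.mem_top _) (Subgroup.mem_top _)⟩
    rw [CA.Core.inf_eq_bot_of_isPGroup_of_coprime T.isPGroup' (CA.H13ZRed.coprime_two_iff.2 h1),
      Subgroup.mem_bot, commutatorElement_eq_one_iff_mul_comm] at h2
    exact Subtype.ext h2
  · refine (CA.PRes.hasNPC_iff_sylow T).1 (CA.PRes.hasNPC_of_quotient (commutator C)
      (CA.H13ZRed.not_two_dvd_iff.2 h1) ?_)
    haveI : Group.IsNilpotent (C ⧸ commutator C) :=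
      inferInstanceAs (Group.IsNilpotent (Abelianization C))
    exact CA.H13Lift.hasNPC_of_nilpotent
  · haveI := Cfsg.Agent.S0205.result h1
    haveI : Group.IsSolvable (C ⧸ commutator C) :=
      inferInstanceAs (Group.IsSolvable (Abelianization C))
    exact solvable_of_ker_le_range (commutator C).subtype (QuotientGroup.mk' (commutator C))
      (by simp)

end Cfsg.Agent.S0227
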