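import Cfsg.Statements.S0252
import Cfsg.Agent.Lib.Lin.SnPres
import Cfsg.Agent.Lib.Lin.PSL2Sub

set_option autoImplicit false
open Cfsg

namespace Cfsg.Agent.S0252

/-- PSL_2(4) is isomorphic to A_5. -/
theorem result {F : Type*} [Field F] [Fintype F] (hF : Fintype.card F = 4) : Nonempty (Matrix.ProjectiveSpecialLinearGroup (Fin 2) F ≃* alternatingGroup (Fin 5)) := by
  have hF' : Nat.card F = 4 := by rw [Nat.card_eq_fintype_card, hF]
  obtain ⟨f, hf⟩ := CA.PSL2Sub.exists_A5 (F := F) (by rw [hF']; decide)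
  obtain ⟨g⟩ := CA.SnPres.nonempty_equiv_of_injective f hf (by
    rw [CA.SLnCard.card_PSL2_even (by rw [hF']; decide), hF', CA.PSL2Sub.card_A5]; decide)
  exact ⟨g.symm⟩

end Cfsg.Agent.S0252
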