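import Cfsg.Statements.S0282
import Cfsg.Agent.S0827

set_option autoImplicit false
open Cfsg

namespace Cfsg.Agent.S0282

/-- PSU_3(2) is a solvable group of order 72. -/
theorem result {F : Type*} [Field F] [Fintype F] (hF : Fintype.card F = 4) : Nat.card (Cfsg.PSU 3 F 2) = 72 ∧ Group.IsSolvable (Cfsg.PSU 3 F 2) := by
  refine ⟨Cfsg.Agent.S0827.card72 hF, ?_⟩
  obtain ⟨N, hN, h9, -, ⟨e⟩⟩ := Cfsg.Agent.S0827.result hF
  have : Finite N := Nat.finite_of_card_ne_zero (by omega)
  have h1 := (IsPGroup.of_card (p := 3) (n := 2) h9).isNilpotent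
  have h2 := (IsPGroup.of_card (G := QuaternionGroup 2) (p := 2) (n := 3)
    (by rw [Nat.card_eq_fintype_card, QuaternionGroup.card]; rfl)).isNilpotent
  exact Group.isSolvable_of_ker_le_range N.subtype (e.toMonoidHom.comp (QuotientGroup.mk' N)) fun x hx => by
    simpa using hx

end Cfsg.Agent.S0282
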