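import Cfsg.Statements.S0302
import Cfsg.Agent.Lib.Lin.LowIso

set_option autoImplicit false
open Cfsg

namespace Cfsg.Agent.S0302

open CA.CForm CA.CForm.Form CA.LowIso Matrix Module

def S (F : Type*) [Field F] : (Fin 3 ⊕ Fin 3 → F) →ₗ[F] Matrix (Fin 4) (Fin 4) F where
  toFun v := alt (v (.inl 0)) (v (.inl 1)) (v (.inl 2)) (v (.inr 2)) (-v (.inr 1)) (v (.inr 0))
  map_add' u v := by ext i j; fin_cases i <;> fin_cases j <;> simp [alt, add_comm]
  map_smul' c v := by ext i j; fin_cases i <;> fin_cases j <;> simp [alt]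

theorem card_SL4 (F : Type*) [Field F] [Finite F] : Nat.card (SpecialLinearGroup (Fin 4) F) =
    Nat.card F ^ 6 * (Nat.card F ^ 3 - 1) * ((Nat.card F ^ 2 - 1) * (Nat.card F ^ 4 - 1)) := by
  have h := CA.SLnCard.card_SL (F := F) 4 (by omega)
  have h2 := CA.SLnCard.two_le_card F
  generalize Nat.card F = q at *
  refine Nat.eq_of_mul_eq_mul_left (show 0 < q - 1 by omega) (h.trans ?_)
  have : ∀ a b, a ≤ b → q ^ a ≤ q ^ b := fun a b h => Nat.pow_le_pow_right (by omega) h
  simp only [Fin.prod_univ_four, Fin.val_zero, Fin.val_one, Fin.val_two, show ((3 : Fin 4) : ℕ) = 3 from rfl]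
  have h0 : 0 < q := by omega
  zify [this 0 4 (by omega), this 1 4 (by omega), this 2 4 (by omega), this 3 4 (by omega),
    Nat.one_le_pow 2 q h0, Nat.one_le_pow 3 q h0, Nat.one_le_pow 4 q h0, show 1 ≤ q by omega]
  ring

/-- PΩ^+_6(q) is isomorphic to PSL_4(q). -/
theorem result {F : Type*} [Field F] [Fintype F] : Nonempty (Cfsg.POmega F (Cfsg.quadFormPlus 3 F) ≃* Matrix.ProjectiveSpecialLinearGroup (Fin 4) F) := by
  have : Fact (Even (Fintype.card (Fin 4))) := ⟨by decide⟩
  obtain ⟨e⟩ := omega_iso (G := SpecialLinearGroup (Fin 4) F) (plusForm_nondeg F 3)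
    (good_of_five_le (by simp)) (by simp) (no2_SL (.inl (by simp)))
    (by rw [(plusForm_isIndex F 3).card_isom_plus (plusForm_nondeg F 3) (finrank_plus _), card_SL4]
        simp [Finset.prod_range_succ, mul_assoc])
    (S F) (fun u v h => by
      obtain ⟨h1, h2, h3, h4, h5, h6⟩ := alt_inj h
      ext (i | i) <;> fin_cases i <;> simp_all)
    (fun g => g.1) (fun g => g.1ᵀ) rfl transpose_one (fun _ _ => rfl) (fun _ _ => transpose_mul _ _)
    (fun g v => by
      obtain ⟨a, b, c, d, e, f, h1, h2, -⟩ := alt_conj g.1 (v (.inl 0)) (v (.inl 1)) (v (.inl 2)) (v (.inr 2))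
        (-v (.inr 1)) (v (.inr 0))
      refine ⟨Sum.elim ![a, b, c] ![f, -e, d], by simpa [S] using h1, ?_⟩
      simp only [plusForm_Q_apply, Fin.sum_univ_three]
      simp; rw [g.2] at h2; linear_combination h2)
    neg_one_mem_center neg_one_eq fun g h => (alt_ker fun a b c d e f => by
      simpa [S] using h (Sum.elim ![a, b, c] ![f, -e, d])).imp Subtype.ext Subtype.ext
  exact ⟨(pOmegaEquiv (plusForm F 3)).trans e⟩

end Cfsg.Agent.S0302
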