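import Cfsg.Statements.S0437
import Cfsg.Agent.Lib.Spor.Tr3Basic

set_option autoImplicit false
open Cfsg

namespace Cfsg.Agent.S0437

open CA.Tr3Basic CA.H27Words

/-- For three distinct, pairwise commuting members a, b, c of a set of 3-transpositions E, a member e of E centralises a * b * c if and only if it centralises each of a, b and c. -/
theorem result {G : Type*} [Group G] {E : Set G} (hE : Cfsg.IsThreeTranspositionSet E) {a b c e : G} (ha : a ∈ E) (hb : b ∈ E) (hc : c ∈ E) (he : e ∈ E) (hab : a ≠ b) (hac : a ≠ c) (hbc : b ≠ c) (h₁ : Commute a b) (h₂ : Commute a c) (h₃ : Commute b c) : Commute e (a * b * c) ↔ (Commute e a ∧ Commute e b ∧ Commute e c) := by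
  refine ⟨fun h => ?_, fun h => (h.1.mul_right h.2.1).mul_right h.2.2⟩
  have sa := sq hE ha
  have sb := sq hE hb
  have sc := sq hE hc
  by_cases k3 : Commute e c
  · have : Commute e (a * b) := by
      have := h.mul_right k3
      rwa [cancel_right sc] at this
    have := (commute_mul_iff hE ha hb he hab h₁).1 this
    exact ⟨this.1, this.2, k3⟩
  by_cases k1 : Commute e a
  · have : Commute e (b * c) := by
      have := k1.mul_right h
      rwa [mul_assoc, cancel_left sa] at this
    exact absurd ((commute_mul_iff hE hb hc he hbc h₃).1 this).2 k3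
  by_cases k2 : Commute e b
  · have : Commute e (a * c) := by
      have := k2.mul_right h
      rwa [h₁.eq, mul_assoc, cancel_left sb] at this
    exact absurd ((commute_mul_iff hE ha hc he hac h₂).1 this).2 k3
  exfalso
  set t := a * b * c with ht
  have hta : Commute a t := ((Commute.refl a).mul_right h₁).mul_right h₂
  have htb : Commute b t := (h₁.symm.mul_right (Commute.refl b)).mul_right h₃
  have htt : t * t = 1 := by
    have : t ^ 2 = 1 := by
      rw [ht, (h₂.mul_left h₃).mul_pow, h₁.mul_pow, pow_two, pow_two, pow_two, sa, sb, sc]; simp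
    rwa [pow_two] at this
  have hc' : c = a * b * t := by
    rw [ht, ← mul_assoc, ← pow_two, sq_of_commute sa sb h₁, one_mul]
  have h3 : (e * c) ^ 3 = (e * a * b) ^ 3 * t ^ 3 := by
    rw [← Commute.mul_pow]
    · congr 1
      conv_lhs => rw [hc']
      simp only [mul_assoc]
    · exact (h.mul_left hta).mul_left htb
  rw [cube hE he hc k3, pow_succ t, pow_two t, htt, one_mul] at h3
  have h4 : (e * a * b) ^ 3 * (e * a * b) = 1 := by
    have := string_eq hE ha he hb h₁ (fun h => k1 h.symm) k2 [1,0,2,1,0,2,1,0,2,1,0,2] [] (by decide +kernel)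
    simpa [pow_succ, mul_assoc] using this
  have h5 : e * a * b = t := mul_left_cancel (h4.trans h3)
  have h6 : e = c := by
    have : e * a * b = c * a * b := by
      rw [h5, ht, (h₂.mul_left h₃).eq, mul_assoc]
    exact mul_right_cancel (mul_right_cancel this)
  exact k3 (h6 ▸ Commute.refl e)

end Cfsg.Agent.S0437
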