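import Cfsg.Statements.S0454
import Cfsg.Agent.Lib.Spor.H15LyH

set_option autoImplicit false
open Cfsg

namespace Cfsg.Agent.S0454

/-- Existence of the Lyons group: there is a transitive permutation group of degree 8835156, simple of order 51765179004000000, whose point stabiliser is simple of the order of a group of type G2, and which has an involution whose centraliser is a non-split double cover of the alternating group of degree 11. -/
theorem result : ∃ H : Subgroup (Equiv.Perm (Fin 8835156)), Cfsg.IsLy H ∧ MulAction.IsPretransitive H (Fin 8835156) ∧ Cfsg.IsG2 (MulAction.stabilizer H (0 : Fin 8835156)) ∧ ∃ t : H, orderOf t = 2 ∧ Cfsg.IsNonsplitDoubleCover (Subgroup.centralizer ({t} : Set H)) (alternatingGroup (Fin 11)) := by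
  obtain ⟨h2, h1⟩ := Cfsg.Agent.S1702.result
  have : Finite Cfsg.Spor.Ly := Nat.finite_of_card_ne_zero (by rw [h1]; decide)
  have hi : CA.LyO.K.index = 8835156 := CA.LyO.index CA.LyZ.z_not
  have hs : IsSimpleGroup CA.LyO.K := CA.LyZ.simpleH
  have hc : Nat.card CA.LyO.K = 5859000000 := CA.LyZ.cardH
  obtain ⟨L, ⟨e⟩, a, ⟨b⟩⟩ := CA.H15Ly.coset_act CA.LyO.K
    (fun h => by rw [h, Subgroup.index_top] at hi; omega) hi
  refine ⟨L, ⟨e.symm.isSimpleGroup, (Nat.card_congr e.toEquiv).symm.trans h1⟩, a,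
    ⟨b.symm.isSimpleGroup, 5, (by decide : Nat.Prime 5).isPrimePow, by decide, ?_⟩, e (CA.LyO.φ CA.H15Ly.tH), ?_,
    CA.H15Ly.cover_congr ((e.subgroupMap _).trans (MulEquiv.subgroupCongr ?_)) CA.H15Ly.cover⟩
  · rw [← Nat.card_congr b.toEquiv, hc]
    norm_num
  · rw [e.orderOf_eq, orderOf_injective _ CA.H15Ly.φ_inj, CA.H15Ly.ordH]
  · ext x
    obtain ⟨x, rfl⟩ := e.surjective x
    rw [Subgroup.mem_centralizer_singleton_iff, ← map_mul, ← map_mul, e.apply_eq_iff_eq,
      ← Subgroup.mem_centralizer_singleton_iff]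
    exact Subgroup.mem_map_iff_mem (f := (e : Cfsg.Spor.Ly →* L)) e.injective

end Cfsg.Agent.S0454
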