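import Cfsg.Statements.S0473
import Cfsg.Agent.Lib.Fi.HeF
import Cfsg.Agent.Lib.Comp.CTrans

set_option autoImplicit false
open Cfsg

namespace Cfsg.Agent.S0473

/-- The largest Fischer 3-transposition group: a group of order 2 · 1255205709190661721292800 generated by a conjugacy class of 306936 3-transpositions, in which a transposition centraliser has order 2 · 4089470473293004800 and contains a simple subgroup of order 4089470473293004800; its subgroup of index 2 is simple and contains simple subgroups of orders 4089470473293004800 and 4030387200. -/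
theorem result : ∃ (G : Type) (_ : Group G) (_ : Finite G), Nat.card G = 2 * 1255205709190661721292800 ∧ ∃ D : Set G, Cfsg.IsThreeTranspositionClass D ∧ Nat.card D = 306936 ∧ (∀ d ∈ D, Nat.card (Subgroup.centralizer ({d} : Set G)) = 2 * 4089470473293004800 ∧ ∃ K : Subgroup G, K ≤ Subgroup.centralizer ({d} : Set G) ∧ Cfsg.IsFi23 K) ∧ ∃ H : Subgroup G, H.index = 2 ∧ Cfsg.IsFi24' H ∧ (∃ K : Subgroup H, Cfsg.IsFi23 K) ∧ (∃ K : Subgroup H, Cfsg.IsHe K) := by
  obtain ⟨M⟩ := CA.Fi.model24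
  obtain ⟨M'⟩ := CA.Fi.model23
  obtain ⟨φ, h⟩ := CA.HeF.he M
  obtain ⟨ψ, h1, h2⟩ := CA.HeF.fi23 M M'
  have := CA.FiSimple.simple23 M'
  have := CA.HeF.simple
  refine ⟨_, _, M.finite, CA.Fi.card24 M, _, M.prim.cls, M.ncard, fun d hd => ?_, _, CA.FiIdx.index24 M,
    ⟨CA.FiSimple.simple24 M, CA.FiIdx.card24' M⟩,
    CA.HeF.sub_comm (CA.Fi.card23 M') (by decide) (CA.FiIdx.index24 M) h1,
    CA.HeF.sub_comm CA.HeF.card (by decide) (CA.FiIdx.index24 M) h⟩
  obtain ⟨g, rfl⟩ := CA.Tr3Block.class_trans M.prim.cls (M.t_mem M.o) hd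
  obtain ⟨e⟩ := CA.CTrans.cent_equiv (d := M.t M.o) (e := g * M.t M.o * g⁻¹) (isConj_iff.2 ⟨g, rfl⟩)
  have e' := MonoidHom.ofInjective (f := (MulAut.conj g).toMonoidHom.comp ψ) ((MulAut.conj g).injective.comp h1)
  refine ⟨(Nat.card_congr e.toEquiv).symm.trans (CA.Fi.ccard24 M), _, ?_, e'.symm.isSimpleGroup,
    (Nat.card_congr e'.toEquiv).symm.trans (CA.Fi.card23 M')⟩
  rintro _ ⟨x, rfl⟩
  have h3 := Subgroup.mem_centralizer_singleton_iff.1 (h2 ⟨x, rfl⟩)
  refine Subgroup.mem_centralizer_singleton_iff.2 ?_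
  show g * ψ x * g⁻¹ * _ = _ * (g * ψ x * g⁻¹)
  calc _ = g * (ψ x * M.t M.o) * g⁻¹ := by group
    _ = _ := by rw [h3]; group

end Cfsg.Agent.S0473
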