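import Cfsg.Statements.S0477
import Cfsg.Agent.Lib.Spor.LyC2
import Cfsg.Agent.S1702

set_option autoImplicit false
open Cfsg

namespace Cfsg.Agent.S0477

/-- In some simple group of the Lyons group's order there is an element of order 3 whose centraliser has centre of order 3 with quotient by the centre simple of order 898128000 (a triple cover of a group of McLaughlin's order). -/
theorem result : ∃ (G : Type) (_ : Group G) (_ : Finite G), Cfsg.IsLy G ∧ ∃ x : G, orderOf x = 3 ∧ Nat.card (Subgroup.center (Subgroup.centralizer ({x} : Set G))) = 3 ∧ Cfsg.IsMcL ((Subgroup.centralizer ({x} : Set G)) ⧸ Subgroup.center (Subgroup.centralizer ({x} : Set G))) := by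
  open CA CA.LyC CA.LyO CA.LyM CA.CWord CA.CLevel CA.CLow Subgroup MulAction in
  obtain ⟨hS, hG⟩ := S1702.result
  have hfin : Finite Spor.Ly := Nat.finite_of_card_ne_zero (by rw [hG]; decide)
  have hz := LyZ.z_not
  have rg : φ.range = K := le_antisymm (by rintro _ ⟨h, rfl⟩; exact φ_mem h) fun _ hx => φ_surj hx
  have inj : Function.Injective φ := φ.rangeRestrict_injective_iff.1
    ((Nat.bijective_iff_surjective_and_card _).2 ⟨φ.rangeRestrict_surjective, by rw [rg, card]; exact LyZ.cardH.symm⟩).1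
  have pK : ∀ y : Spor.Ly, y • S.p 0 = S.p 0 ↔ y ∈ K := fun y => by
    show ((y * (1 * 1) : Spor.Ly) : Spor.Ly ⧸ K) = ((1 * 1 : Spor.Ly) : Spor.Ly ⧸ K) ↔ _
    rw [QuotientGroup.eq]; simp
  let a' : H := ⟨a, mem _⟩
  let pl : Subgroup Spor.Ly → Subgroup (Equiv.Perm (Fin C.n)) := fun Y => (Y.comap φ).map H.subtype
  have cpl : ∀ Y ≤ K, Nat.card (pl Y) = Nat.card Y := fun Y hY => by
    rw [card_map_of_injective H.subtype_injective, ← card_map_of_injective inj, map_comap_eq_self (rg ▸ hY)]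
  have mpl : ∀ Y (h : H), h.1 ∈ pl Y ↔ φ h ∈ Y := fun Y h => mem_map_iff_mem H.subtype_injective
  have plH : ∀ Y, pl Y ≤ H := fun Y => map_subtype_le _
  let St : ℕ → Subgroup (Equiv.Perm (Fin C.n)) := fun i => pl (K ⊓ stabilizer _ (S.p i))
  have mSt : ∀ i (h : H), h.1 ∈ St i ↔ φ h • S.p i = S.p i := fun i h => (mpl _ h).trans ⟨fun e => e.2, fun e => ⟨φ_mem h, e⟩⟩
  have cSt : ∀ i : Fin 5, Nat.card (St i) = ![5859000000, 300000, 6048, 2880, 1008] i := fun i => by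
    have h := card_eq_orbit_mul K (S.p i)
    have h2 : Nat.card {ξ // ∃ x ∈ K, x • S.p i = ξ} = Nat.card (S.O i) := by
      rw [← orbit_eq]
      exact Nat.card_congr (Equiv.subtypeEquivRight fun ξ => ⟨fun ⟨x, hx, e⟩ => ⟨⟨x, hx⟩, e⟩, fun ⟨x, e⟩ => ⟨x, x.2, e⟩⟩)
    rw [h2, cardO hz, show Nat.card K = 5859000000 from LyZ.cardH, ← cpl _ inf_le_left] at h
    show Nat.card (pl _) = _
    fin_cases i <;> simp at h ⊢ <;> omega
  have gSt : ∀ i < 5, 0 < i → C.grp (nth GW [] i) ≤ St i := fun i hi h0 => (grp_le_iff _).2 fun w hw =>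
    (mSt i ⟨_, mem w⟩).2 ((holds _ ((by decide +kernel : ∀ i < 5, 0 < i → ∀ w ∈ nth GW [] i,
      (⟨0, i, [], i, w⟩ : TCos.Fact) ∈ F) i hi h0 w hw)).1 rfl).symm
  have mD : ∀ h : H, φ h ∈ centralizer {φ a'} ↔ h.1 ∈ V := fun h => by
    rw [mem_centralizer_singleton_iff, ← map_mul, ← map_mul, inj.eq_iff]
    exact ⟨fun e => ⟨h.2, mem_centralizer_singleton_iff.2 (congrArg Subtype.val e)⟩,
      fun e => Subtype.ext (mem_centralizer_singleton_iff.1 e.2)⟩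
  have ox : orderOf (φ a') = 3 := by rw [orderOf_injective φ inj, ← orderOf_coe, oa]
  refine ⟨Spor.Ly, inferInstance, hfin, ⟨hS, hG⟩, φ a', ox, ?_⟩
  generalize hD : centralizer {φ a'} = D at mD
  have xD : φ a' ∈ D := hD ▸ mem_centralizer_singleton_iff.2 rfl
  have cm : ∀ d ∈ D, d * φ a' = φ a' * d := fun d hd => mem_centralizer_singleton_iff.1 (hD.ge hd)
  let pd : Subgroup D → Subgroup (Equiv.Perm (Fin C.n)) := fun Y => pl (Y.map D.subtype)
  have cpd : ∀ Y ≤ stabilizer D (S.p 0), Nat.card (pd Y) = Nat.card Y := fun Y hY => by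
    rw [cpl _ (by rintro _ ⟨y, hy, rfl⟩; exact (pK _).1 (hY hy)), card_map_of_injective D.subtype_injective]
  have mpd : ∀ Y (h : H) (hd : φ h ∈ D), h.1 ∈ pd Y ↔ (⟨_, hd⟩ : D) ∈ Y := fun Y h hd =>
    (mpl _ h).trans (mem_map_iff_mem (x := ⟨_, hd⟩) D.subtype_injective)
  have pdV : ∀ Y, pd Y ≤ V := fun Y g hg => by
    obtain ⟨y, -, e⟩ := (mpl _ ⟨g, plH _ hg⟩).1 hg
    exact (mD ⟨g, plH _ hg⟩).1 (e ▸ y.2)
  have e1' : ∀ i, pd (stabilizer D (S.p 0) ⊓ stabilizer D (S.p i)) = V ⊓ St i := fun i => le_antisymm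
    (fun g hg => ⟨pdV _ hg, (mSt i ⟨g, plH _ hg⟩).2 ((mpd _ ⟨g, plH _ hg⟩ ((mD _).2 (pdV _ hg))).1 hg).2⟩)
    fun g hg => (mpd _ ⟨g, hg.1.1⟩ ((mD _).2 hg.1)).2 ⟨(pK _).2 (φ_mem _), (mSt i ⟨g, hg.1.1⟩).1 hg.2⟩
  have e0 : pd (stabilizer D (S.p 0)) = V := le_antisymm (pdV _)
    fun g hg => (mpd _ ⟨g, hg.1⟩ ((mD _).2 hg)).2 ((pK _).2 (φ_mem _))
  have cU : Nat.card (stabilizer D (S.p 0)) = 378000 := by rw [← cpd _ le_rfl, e0, cV]
  have d3 : ∀ i < 5, 0 < i → 3 ^ nth [0, 1, 3, 2, 2] 0 i ∣ Nat.card (V ⊓ St i : Subgroup _) := fun i hi h0 =>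
    cP hi h0 ▸ card_dvd_of_le (le_inf (PV' hi) ((Ple hi).trans (gSt i hi h0)))
  have dO : ∀ i, ∀ y ∈ V ⊓ St i, orderOf y ∣ Nat.card (V ⊓ St i : Subgroup _) := fun i y hy =>
    orderOf_coe (⟨y, hy⟩ : (V ⊓ St i : Subgroup _)) ▸ orderOf_dvd_natCard _
  have d4 : ∀ i < 5, 0 < i → 4 ∣ Nat.card (V ⊓ St i : Subgroup _) := fun i hi h0 => by
    have := dO i (C.ev [1, 1]) ⟨memV (by simp), gSt i hi h0 (by
      rw [show C.ev [1, 1] = C.ev [1] * C.ev [1] from ev_lapp _ [1] [1]]; exact mul_mem (tG hi h0) (tG hi h0))⟩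
    rwa [orderOf_eq_prime_pow (p := 2) (n := 1) (ne1 ((DFunLike.congr_fun (ev_wpow C.g [1, 1] 2).symm _).trans
      (mp (wpow [1, 1] 2) 4 7)) (by decide))
      ((ev_wpow C.g [1, 1] 4).symm.trans (eqv (lall_iff.1 e1 (wpow [1, 1] 4, []) (by simp))))] at this
  have d7 : 7 ∣ Nat.card (V ⊓ St 4 : Subgroup _) := by
    have := dO 4 (C.ev e7) ⟨memV (by simp), gSt 4 (by decide) (by decide) (by
      rw [← eqv (lall_iff.1 e1 (subst (nth GW [] 4) e7v, e7) (by simp))]; exact subst_mem_grp _ _ _)⟩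
    have h7 := Fact.mk (by norm_num : Nat.Prime 7)
    rwa [orderOf_eq_prime (p := 7) ((ev_wpow C.g e7 7).symm.trans (eqv (lall_iff.1 e1 (wpow e7 7, []) (by simp))))
      (ne1 (mp e7 0 9244) (by decide))] at this
  have s1 : C.grp SW = St 1 := eq_of_le_of_card_ge (sw1.trans (gSt 1 (by decide) (by decide))) ((cSt 1).trans cSW.symm).le
  refine main (X := Spor.Ly ⧸ K) ⟨_, xD⟩ (mem_center_iff.2 fun d => Subtype.ext (cm d d.2)) (fun i => S.p i)
    ((orderOf_coe _).symm.trans ox) ((pK _).2 (φ_mem _)) (hG ▸ card_subgroup_dvd_card D) cU (fun d => ?_)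
    (fun i j u hu v hv e => ?_) (fun i => Nat.card (V ⊓ St i : Subgroup _)) (fun i => (cpd _ inf_le_left).symm.trans (by rw [e1']))
    ?_ ⟨Nat.Coprime.mul_dvd_of_dvd_of_dvd (by decide : Nat.Coprime 27 4) (d3 2 (by decide) (by decide)) (d4 2 (by decide) (by decide)),
      (card_dvd_of_le inf_le_right).trans (cSt 2).dvd⟩
    ⟨Nat.Coprime.mul_dvd_of_dvd_of_dvd (by decide : Nat.Coprime 9 4) (d3 3 (by decide) (by decide)) (d4 3 (by decide) (by decide)),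
      lowC3.1.trans (card_le_of_le (le_inf ((grp_le_iff _).2 fun w hw => memV (by simp [hw]))
        (c3le.trans (gSt 3 (by decide) (by decide))))), (card_dvd_of_le inf_le_right).trans (cSt 3).dvd⟩
    ⟨Nat.Coprime.mul_dvd_of_dvd_of_dvd (by decide : Nat.Coprime 36 7) (Nat.Coprime.mul_dvd_of_dvd_of_dvd
      (by decide : Nat.Coprime 9 4) (d3 4 (by decide) (by decide)) (d4 4 (by decide) (by decide))) d7,
      (half inf_le_right (gSt 4 (by decide) (by decide) (tG (by decide) (by decide))) fun h => t_not h.1).trans (cSt 4).le⟩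
    ⟨⟨g 4, hD.le (mem_centralizer_singleton_iff.2 ?_)⟩, ?_⟩ fun M hM hn hx => ?_
  · obtain ⟨i, hi, h, e⟩ := all (d.1 • S.p 0)
    have e : φ h • S.p i = d.1 • S.p 0 := e
    rcases Nat.eq_zero_or_pos i with rfl | h0
    · exact ⟨0, 1, one_mem _, (e.symm.trans ((pK _).2 (φ_mem h))).trans (one_smul _ _).symm⟩
    obtain ⟨s, hs, e2⟩ := cls hi h0 (gSt i hi h0) (by
      rw [cSt ⟨i, hi⟩]
      exact (by decide : ∀ j : Fin 5, 0 < j.1 → ¬ 3 ^ (nth [0, 1, 3, 2, 2] 0 j + 1) ∣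
        ![5859000000, 300000, 6048, 2880, 1008] j) ⟨i, hi⟩ h0) ((mSt i (h⁻¹ * a' * h)).2 (by
        rw [map_mul, map_mul, map_inv, mul_smul, mul_smul, e, inv_smul_eq_iff, smul_smul, ← cm _ d.2, mul_smul,
          (pK _).2 (φ_mem a'), e]))
    let s' : H := ⟨s, plH _ hs⟩
    have hu : φ (h * s'⁻¹) ∈ D := (mD _).2 ⟨Subtype.prop _, mem_centralizer_singleton_iff.2 (by
      show h.1 * s⁻¹ * a = a * (h.1 * s⁻¹)
      conv_lhs => rw [← e2]
      group)⟩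
    refine ⟨⟨i, hi⟩, ⟨_, hu⟩, (pK _).2 (φ_mem _), e.symm.trans ?_⟩
    show φ h • S.p i = φ (h * s'⁻¹) • S.p i
    rw [map_mul, mul_smul, (mSt i s'⁻¹).1 (inv_mem hs)]
  · obtain ⟨u', e1⟩ := φ_surj ((pK _).1 hu)
    obtain ⟨v', e2⟩ := φ_surj ((pK _).1 hv)
    refine Fin.ext (dist hz j j.2 i i.2 (S.O_eq (ξ := u.1 • S.p i) ⟨u', ?_⟩ ⟨v', ?_⟩))
    · exact congrArg (· • S.p i) e1
    · exact (congrArg (· • S.p j) e2).trans e.symm
  · show Nat.card (V ⊓ St 1 : Subgroup _) = 1500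
    rw [← s1, ← H0_eq, ← inf_assoc, inf_eq_left.2 (show V ≤ H from inf_le_left)]
    exact le_antisymm cV0 (cB.ge.trans (card_le_of_le bV))
  · have : MulAut.conj (g 4) (ev g (subst gens (subst SW [3, 4]))) = ev g (subst gens (subst KW [3, 4])) := by
      rw [ev_subst, ev_subst, ev_subst g, ev_subst]
      refine (map_ev (MulAut.conj (g 4)).toMonoidHom _ _).trans (congrArg (ev · _) (funext fun i => ?_))
      rw [← ev_subst, ← ev_subst]; exact tw0 i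
    rw [← hφ, ← hφ, show (⟨_, mem (subst SW [3, 4])⟩ : H) = a' from Subtype.ext (eqv (lall_iff.1 e1 (_, aw) (by simp))),
      show (⟨_, mem (subst KW [3, 4])⟩ : H) = a' from Subtype.ext (eqv (lall_iff.1 e1 (_, aw) (by simp)))] at this
    exact mul_inv_eq_iff_eq_mul.1 this
  · show g 4 • ev g [] • ((1 : Spor.Ly) : Spor.Ly ⧸ K) = ev g [2 * 4] • ((1 : Spor.Ly) : Spor.Ly ⧸ K)
    rw [ev_gen, ev_nil, one_smul]
  · rcases nrmV (pdV M) (fun u hu m hm => (mpd M (⟨u, hu.1⟩ * ⟨m, plH _ hm⟩ * ⟨u, hu.1⟩⁻¹) ((mD _).2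
      (mul_mem (mul_mem hu (pdV _ hm)) (inv_mem hu)))).2 (by
        have := hn ⟨_, (mD ⟨u, hu.1⟩).2 hu⟩ ((pK _).2 (φ_mem _)) _ ((mpd M ⟨m, plH _ hm⟩ ((mD _).2 (pdV _ hm))).1 hm)
        convert this using 1
        exact Subtype.ext ((map_mul φ _ _).trans (by rw [map_mul, map_inv]; rfl)))) ((mpd M a' xD).2 hx) with h | h
    · refine .inl (eq_of_le_of_card_ge (zpowers_le.2 hx) ?_).symm
      rw [← cpd M hM, h, ca, Nat.card_zpowers, ← orderOf_coe, ox]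
    · exact .inr (eq_of_le_of_card_ge hM (by rw [← cpd M hM, h, cV]; exact cU.le))

end Cfsg.Agent.S0477
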