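import Cfsg.Statements.S0502
import Cfsg.Agent.Lib.Grp.H7Max

set_option autoImplicit false
open Cfsg

namespace Cfsg.Agent.S0502

open Subgroup CA.BG CA.BG4 CA.OQuo CA.Two

/-- If a finite 2-group has a normal elementary abelian subgroup of order at least 8, then any two of its Klein
four-subgroups are joined by a chain of Klein four-subgroups with consecutive members commuting elementwise. -/
theorem result {P : Type*} [Group P] [Finite P] (hP : IsPGroup 2 P)
    (E : Subgroup P) [E.Normal] (hE : IsMulCommutative E) (hE2 : ∀ e ∈ E, e ^ 2 = 1) (hE8 : 8 ≤ Nat.card E) :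
    Cfsg.IsFourConnected P := by
  classical
  have h2 : Nat.Prime 2 := Nat.prime_two
  let R : Subgroup P → Subgroup P → Prop := fun A B => IsKleinFour A ∧ IsKleinFour B ∧ ∀ a ∈ A, ∀ b ∈ B, a * b = b * a
  have Rs : ∀ A B, R A B → R B A := fun A B h => ⟨h.2.1, h.1, fun a ha b hb => (h.2.2 b hb a ha).symm⟩
  have hπ := fun K : Subgroup P => isPi_of_isPGroup h2 (hP.to_subgroup K)
  have four : ∀ K ≤ E, 4 ≤ ♯K → ∃ F ≤ K, IsKleinFour F := fun K hK h => by
    obtain ⟨F, f1, -, f3⟩ := exists_normal_card_self (k := 2) h2 (hπ K) h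
    exact ⟨F, f1, isKleinFour_of f3 fun x hx => hE2 x (hK (f1 hx))⟩
  obtain ⟨F0, f1, f2⟩ := four E le_rfl (by omega)
  obtain ⟨z, z1, z2, z3⟩ := CA.PGBasic.exists_mem_center_orderOf hP (M := E) (by
    rintro rfl; rw [card_bot] at hE8; omega)
  have key : ∀ V : Subgroup P, IsKleinFour V → Relation.ReflTransGen R V F0 := by
    intro V hV
    obtain ⟨w, w1, w2, w3⟩ := klein_exists hV z
    have hw2 : w ^ 2 = 1 := klein_sq hV w1
    have hW := isKleinFour_sup (orderOf_eq_prime hw2 w2) z3 (mem_center_iff.1 z2 w) w3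
    have h4 : 4 ≤ ♯(𝓒₁(w) ⊓ E) := by
      have a1 := card_inf_mul_relIndex 𝓒₁(w) E
      have a2 : 𝓒₁(w).relIndex E ≤ ♯(𝓒₁(w) ⊓ E) := by
        rw [← CA.H7Cam.card_cls]
        refine le_trans (Set.ncard_le_ncard (t := (fun c => c * w) '' (𝓒₁(w) ⊓ E : Subgroup P)) ?_
          (Set.toFinite _)) ((Set.ncard_image_le (Set.toFinite _)).trans (Nat.card_coe_set_eq _).ge)
        rintro _ ⟨h, hh, rfl⟩
        have hc : w * h⁻¹ * w⁻¹ ∈ E := Normal.conj_mem ‹_› _ (inv_mem hh) w
        refine ⟨h * (w * h⁻¹ * w⁻¹), ⟨mem_cent1.2 ?_, mul_mem hh hc⟩, by simp [mul_assoc]⟩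
        have e1 : w⁻¹ = w := by rw [inv_eq_iff_mul_eq_one, ← pow_two, hw2]
        have e2 : h⁻¹ = h := by rw [inv_eq_iff_mul_eq_one, ← pow_two, hE2 h hh]
        have e3 := (commute_of_comm hE hh hc).eq
        have e4 : w * w = 1 := by rw [← pow_two, hw2]
        rw [e1, e2] at e3 ⊢
        calc h * (w * h * w) * w = h * w * h * (w * w) := by group
          _ = (w * w) * h * w * h := by rw [e4]; group
          _ = w * (w * h * w * h) := by group
          _ = _ := by rw [← e3]
      obtain ⟨k, hk⟩ := (hπ (𝓒₁(w) ⊓ E)).exists_card h2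
      rw [hk] at a1 a2 ⊢
      rcases k with _ | _ | k
      · omega
      · omega
      · rw [pow_succ, pow_succ]; have : 1 ≤ 2 ^ k := Nat.one_le_two_pow; omega
    obtain ⟨F, g1, g2⟩ := four _ inf_le_right h4
    refine Relation.ReflTransGen.head (b := zpowers w ⊔ zpowers z) ⟨hV, hW, fun a ha b hb => ?_⟩
      (Relation.ReflTransGen.head (b := F) ⟨hW, g2, fun a ha b hb => ?_⟩
        (Relation.ReflTransGen.single ⟨g2, f2, fun a ha b hb => (commute_of_comm hE (g1 ha).2 (f1 hb)).eq⟩))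
    · refine mem_cent.1 ((sup_le (zpowers_le.2 (comm_iff_le_cent.1 (klein_comm hV) w1))
        (zpowers_le.2 (center_le_centralizer _ z2)) : _ ≤ 𝓒(V)) hb) a ha
    · refine (mem_cent.1 ((sup_le (zpowers_le.2 (le_cent1_iff.1 (g1.trans inf_le_left)))
        (zpowers_le.2 (center_le_centralizer _ z2)) : _ ≤ 𝓒(F)) ha) b hb).symm
  intro U V hU hV
  have sy : ∀ A B, Relation.ReflTransGen R A B → Relation.ReflTransGen R B A := by
    intro A B h
    induction h with
    | refl => exact .refl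
    | tail _ h ih => exact .head (Rs _ _ h) ih
  exact (key U hU).trans (sy _ _ (key V hV))

end Cfsg.Agent.S0502
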