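import Cfsg.Statements.S0618
import Cfsg.Agent.Lib.Loc.H6KS2

set_option autoImplicit false
open Cfsg

set_option linter.unusedVariables false
set_option linter.unusedSimpArgs false
set_option linter.style.haveILetI false

namespace Cfsg.Agent.S0618

open CA CA.H6KS2 CA.H6KS CA.H6Pl CA.H6Off CA.H6Op CA.H6W CA.H6Stab CA.H6PSolv CA.Amb CA.AmbSyl CA.AmbCore CA.AmbRes CA.AmbChar Subgroup
open CA.H6J hiding Z
open scoped commutatorElement MatrixGroups


/-- A p-separable group with trivial p'-core in which the Thompson factorization fails has p = 2 or 3, and J(G) induces on the normal closure of Ω₁(Z(S)) a group containing a normal SL(2, p). -/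
theorem result {G : Type*} [Group G] [Finite G] {p : ℕ} [Fact p.Prime] (hsep : Cfsg.IsPSolvable p G) (hO : Cfsg.pPrimeCore p G = ⊥) (hnf : ¬ Cfsg.IsThompsonFactorizable p G) : (p = 2 ∨ p = 3) ∧ ∃ E : Subgroup G, Subgroup.centralizer ((⨆ S : Sylow p G, Cfsg.omegaOne p ((S : Subgroup G) ⊓ Subgroup.centralizer ((S : Subgroup G) : Set G))) : Set G) ≤ E ∧ E ≤ Cfsg.thompsonSubgroup p G ⊔ Subgroup.centralizer ((⨆ S : Sylow p G, Cfsg.omegaOne p ((S : Subgroup G) ⊓ Subgroup.centralizer ((S : Subgroup G) : Set G))) : Set G) ∧ Cfsg.thompsonSubgroup p G ⊔ Subgroup.centralizer ((⨆ S : Sylow p G, Cfsg.omegaOne p ((S : Subgroup G) ⊓ Subgroup.centralizer ((S : Subgroup G) : Set G))) : Set G) ≤ Subgroup.normalizer (E : Set G) ∧ ∃ hn : ((Subgroup.centralizer ((⨆ S : Sylow p G, Cfsg.omegaOne p ((S : Subgroup G) ⊓ Subgroup.centralizer ((S : Subgroup G) : Set G))) : Set G)).subgroupOf E).Normal, Nonempty ((↥E ⧸ (Subgroup.centralizer ((⨆ S : Sylow p G, Cfsg.omegaOne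 p ((S : Subgroup G) ⊓ Subgroup.centralizer ((S : Subgroup G) : Set G))) : Set G)).subgroupOf E) ≃* Matrix.SpecialLinearGroup (Fin 2) (ZMod p)) := by
  obtain ⟨S, hS⟩ := exists_sylIn p (⊤ : Subgroup G)
  have e : centralizer (⨆ S : Sylow p G, (omegaOne p ((S : Subgroup G) ⊓ 𝐂 (S : Subgroup G)) : Set G)) =
      𝐂 (ncl (OZ p S) ⊤) := by
    rw [← iSup_sylow_eq_ncl hS, centralizer_iSup]
    ext x
    simp only [mem_centralizer_iff, Set.iSup_eq_iUnion, Set.mem_iUnion, mem_iInf, forall_exists_index]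
    exact forall_comm
  rw [e, thompsonSubgroup_eq]
  rw [isTF_iff_of_bot hO hS] at hnf
  have := normal_ncl hS
  have hV := (isAb_OZ p _).of_le (ncl_OZ_le (charP_top_iff.2 (centralizer_pCore_le hO hsep)) hS)
  obtain ⟨Γ, _, _, ι, κ, m⟩ := exists_mod (ncl (OZ p S) ⊤)
  have s := m.st hV (J_le p ⊤) (le_normalizer_J _ _) (isPSolvable_iff.1 hsep)
    (H6NPC.Op_cent_ncl_le hS (OZ_le_cent _ _))
  have g := m.gen hV le_top s
  obtain ⟨A, t⟩ := g.exists_tv (m.map_J_ne_bot hnf)
  obtain ⟨i⟩ := (s.pl t).iso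
  have h1 := s.EE_le t.le
  have h2 := s.norm_EE' g t
  generalize EE _ A = E at *
  rw [← m.ker, ← comap_map_eq]
  refine ⟨s.p23 t, E.comap κ, ker_le_comap _ _, comap_mono h1, norm_comap κ h2, inferInstance, ?_⟩
  let f : E.comap κ →* E := (κ.comp (Subgroup.subtype _)).codRestrict E fun x => x.2
  have hf : Function.Surjective f := fun y => by
    obtain ⟨x, -, hx⟩ := h1 y.2
    exact ⟨⟨x, by rw [mem_comap, hx]; exact y.2⟩, Subtype.ext hx⟩
  exact ⟨((QuotientGroup.quotientMulEquivOfEq (by ext x; exact (Subtype.ext_iff (a1 := f x) (a2 := 1)).symm)).trans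
    (QuotientGroup.quotientKerEquivOfSurjective f hf)).trans i⟩

end Cfsg.Agent.S0618
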