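import Cfsg.Statements.S0723
import Mathlib
import Cfsg.Agent.Lib.Perm.ONS
import Cfsg.Agent.Lib.Grp.PGBasic

set_option autoImplicit false
open Cfsg

namespace Cfsg.Agent.S0723

open MulAction CA.PermBasic CA.PermMulti in

/-- The core of the O'Nan–Scott Theorem. Let `H` be a primitive permutation group on a finite set whose unique minimal normal subgroup `N` is non-abelian, and `K` a point stabiliser. Then there are a non-abelian simple group `T` and an isomorphism `N ≃* T^m` (`m ≥ 1`) under which `K ⊓ N` becomes either a product `∏ K_i` of proper subgroups `K_i < T`, or the set of functions constant on each block of a partition of the index set into blocks of one common size `k ≥ 2`. -/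
theorem result {α : Type*} [Finite α] (H : Subgroup (Equiv.Perm α)) [MulAction.IsPreprimitive H α] (N : Subgroup H) [N.Normal] (hN : N ≠ ⊥) (hmin : ∀ M : Subgroup H, M.Normal → M ≤ N → M = ⊥ ∨ M = N) (huniq : ∀ L : Subgroup H, L.Normal → L ≠ ⊥ → (∀ M : Subgroup H, M.Normal → M ≤ L → M = ⊥ ∨ M = L) → L = N) (hnab : ¬ IsMulCommutative N) (a : α) : ∃ (T : Type) (_ : Group T) (m : ℕ) (e : N ≃* (Fin m → T)), IsSimpleGroup T ∧ ¬ IsMulCommutative T ∧ 0 < m ∧ ((∃ K : Fin m → Subgroup T, (∀ i, K i ≠ ⊤) ∧ ∀ n : N, (n : H) ∈ MulAction.stabilizer H a ↔ ∀ i, e n i ∈ K i) ∨ (∃ (k : ℕ) (c : Fin m → Fin m), 2 ≤ k ∧ (∀ j : Fin m, Nat.card {i : Fin m // c i = j} = k ∨ Nat.card {i : Fin m // c i = j} = 0) ∧ ∀ n : N, (n : H) ∈ MulAction.stabilizer H a ↔ ∀ i j : Fin m, c i = c j → e n i = e n j)) := by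
  classical
  obtain ⟨T, _, m, h1, h2, ⟨e⟩⟩ := CA.ONS.pow_of_min N hN hmin
  have hT : ¬ IsMulCommutative T := fun h => hnab ⟨⟨fun a b => e.injective (by
    rw [map_mul, map_mul]; exact funext fun i => h.is_comm.comm _ _)⟩⟩
  have : Nonempty (Fin m) := ⟨⟨0, h2⟩⟩
  have htr := normal_pretransitive (X := α) N hN
  let M : Subgroup (Fin m → T) → Subgroup H := fun L => L.map (N.subtype.comp e.symm.toMonoidHom)
  have m1 : ∀ L (n : N), (n : H) ∈ M L ↔ e n ∈ L := fun L n =>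
    ⟨fun ⟨x, hx, f⟩ => by rwa [← (Subtype.ext f : e.symm x = n), e.apply_symm_apply],
      fun h => ⟨_, h, by simp⟩⟩
  have m2 : ∀ L, M L ≤ N := fun L _ ⟨x, _, f⟩ => f ▸ (e.symm x).2
  let Φ := {φ | ∃ k ∈ stabilizer H a, φ = (e.symm.trans (MulAut.conjNormal k)).trans e}
  have m3 : ∀ L, (∀ φ ∈ Φ, ∀ x ∈ L, φ x ∈ L) → ∀ k ∈ stabilizer H a, ∀ n ∈ M L, k * n * k⁻¹ ∈ M L :=
    fun L hL k hk n hn => (m1 L (MulAut.conjNormal k ⟨n, m2 L hn⟩)).2 (by
      simpa using hL _ ⟨k, hk, rfl⟩ _ ((m1 L ⟨n, m2 L hn⟩).1 hn))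
  rcases CA.ONS.core hT Φ ((stabilizer H a).comap (N.subtype.comp e.symm.toMonoidHom))
    (by
      rintro _ ⟨k, hk, rfl⟩ x
      simpa [mem_stabilizer_iff.1 hk] using mem_stabilizer_conj (a := a) (g := k) (h := e.symm x))
    (fun L h3 h4 => or_iff_not_imp_left.2 fun h5 => eq_top_iff.2 fun x _ => by
      obtain ⟨y, y1, y2⟩ := SetLike.not_le_iff_exists.1 fun f => h5 (le_antisymm f h3)
      obtain ⟨n, n1, k, k1, f⟩ := (CA.PGBasic.mem_sup_of_le_normalizer fun k hk =>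
        Subgroup.mem_normalizer_fintype (m3 L h4 k hk)).1 ((eq_top_of_stabilizer_le ‹_› le_sup_right
          (Subgroup.mem_sup_left (S := M L) ⟨y, y1, rfl⟩) y2).ge (Subgroup.mem_top (e.symm x : H)))
      have k2 : k ∈ N := (mul_mem_cancel_left (m2 L n1)).1 (f ▸ (e.symm x).2)
      simpa using (m1 L (e.symm x)).1 (f ▸ mul_mem n1 ((m1 L ⟨k, k2⟩).2 (h3 (by simpa using k1)))))
    (fun i h3 => by
      obtain ⟨s, hs⟩ := exists_ne (1 : T)
      refine hs ((Pi.mulSingle_eq_same (M := fun _ => T) i s).symm.trans (congrFun (e.symm.map_eq_one_iff.1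
        (Subtype.ext (eq_one_of_forall_smul (X := α) (g := (e.symm (Pi.mulSingle i s) : H)) fun b => ?_))) i))
      obtain ⟨n, rfl⟩ := htr.exists_smul_eq a b
      have := (mem_stabilizer_conj (g := (n : H))).2 (h3 ((e n i)⁻¹ * s * e n i))
      refine Eq.trans (congrArg (· • (n : H) • a) ?_) (mem_stabilizer_iff.1 this)
      refine congrArg Subtype.val (show _ = n * e.symm _ * n⁻¹ from e.injective (funext fun j => ?_))
      by_cases f : j = i <;> simp [f, mul_assoc])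
    (fun L h3 h4 => (hmin (M L) ⟨fun n hn g => by
      obtain ⟨u, hu, k, hk, rfl⟩ := exists_mul_stabilizer N htr a g
      have h5 := m3 L h4 k hk n hn
      simpa [mul_assoc] using (m1 L (⟨u, hu⟩ * ⟨_, m2 L h5⟩ * ⟨u, hu⟩⁻¹)).2 (by
        rw [map_mul, map_mul, map_inv]; exact h3.conj_mem _ ((m1 L ⟨_, _⟩).1 h5) _)⟩ (m2 L)).imp
      (Subgroup.map_eq_bot_iff_of_injective L (f := N.subtype.comp e.symm.toMonoidHom)
        (N.subtype_injective.comp e.symm.injective)).1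
      fun f => eq_top_iff.2 fun x _ => by simpa using (m1 L (e.symm x)).1 (f.ge (e.symm x).2))
    with ⟨K, h3, h4⟩ | ⟨e', k, c, h3, h4, h5⟩
  · exact ⟨T, _, m, e, h1, hT, h2, .inl ⟨K, h3, fun n => by simpa using h4 (e n)⟩⟩
  · exact ⟨T, _, m, e.trans e', h1, hT, h2, .inr ⟨k, c, h3, h4, fun n => by simpa using h5 (e n)⟩⟩

end Cfsg.Agent.S0723
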