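import Cfsg.Statements.S0799
import Cfsg.Agent.Lib.Lin.PSL2Sub

set_option autoImplicit false
open Cfsg

namespace Cfsg.Agent.S0799

/-- Dickson's classification of the subgroups of PSL_2(q), q a power of the prime p, d = gcd(2, q − 1): every subgroup H is (a) cyclic or dihedral with k dividing (q+1)/d or (q−1)/d (cyclic of order k, or dihedral of order 2k), (b) isomorphic to a subgroup of the normaliser of a Sylow p-subgroup, (c) isomorphic to A_4, S_4 or A_5, or (d) isomorphic to PSL_2(K) or PGL_2(K) for a finite field K with |K|^m = q. -/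
theorem result {F : Type*} [Field F] [Fintype F] {q : ℕ} (hF : Fintype.card F = q) (p : ℕ) [Fact p.Prime] [CharP F p] (H : Subgroup (Matrix.ProjectiveSpecialLinearGroup (Fin 2) F)) : (∃ k : ℕ, (k ∣ (q + 1) / Nat.gcd 2 (q - 1) ∨ k ∣ (q - 1) / Nat.gcd 2 (q - 1)) ∧ ((IsCyclic H ∧ Nat.card H = k) ∨ Nonempty (H ≃* DihedralGroup k))) ∨ (∃ (P : Sylow p (Matrix.ProjectiveSpecialLinearGroup (Fin 2) F)) (K : Subgroup (Matrix.ProjectiveSpecialLinearGroup (Fin 2) F)), K ≤ Subgroup.normalizer ((P : Subgroup (Matrix.ProjectiveSpecialLinearGroup (Fin 2) F)) : Set (Matrix.ProjectiveSpecialLinearGroup (Fin 2) F)) ∧ Nonempty (H ≃* K)) ∨ Nonempty (H ≃* alternatingGroup (Fin 4)) ∨ Nonempty (H ≃* Equiv.Perm (Fin 4)) ∨ Nonempty (H ≃* alternatingGroup (Fin 5)) ∨ (∃ (K : Type) (_ : Field K) (_ : Fintype K) (m : ℕ), Fintype.card K ^ m = q ∧ (Nonempty (H ≃* Matrix.ProjectiveSpecialLinearGroup (Fin 2) K) ∨ Nonempty (H ≃* Matrix.ProjGenLinGroup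 (Fin 2) K))) := by
  open CA.PSL2Sub CA.PSL2Struct in
  subst hF
  rw [← Nat.card_eq_fintype_card]
  rcases dickson_PSL H with ⟨h1, h2⟩ | ⟨-, y, hy⟩ | ⟨n, h2, hn, ⟨e⟩⟩ | ⟨-, h⟩ | ⟨-, h⟩ | ⟨-, h⟩ |
    ⟨K, _, _, m, -, -, hm, h⟩
  · obtain ⟨g, hg, hle⟩ := le_Tb_of_cyclic h1 h2
    refine Or.inl ⟨_, ?_, Or.inl ⟨h1, rfl⟩⟩
    have := Subgroup.card_dvd_of_le hle
    rcases card_Tb_cases hg with h | h <;> rw [h] at this
    · exact Or.inr this
    · exact Or.inl this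
  · refine Or.inr (Or.inl ⟨sylowUb F p, H.map (MulAut.conj y).toMonoidHom, ?_,
      ⟨H.equivMapOfInjective _ (MulAut.conj y).injective⟩⟩)
    rw [sylowUb_coe, normalizer_Ub]
    rintro _ ⟨h, hh, rfl⟩
    exact hy h hh
  · obtain ⟨g, hg, ho, -, -⟩ := le_Db_of_dihedral h2 hn e
    refine Or.inl ⟨n, ?_, Or.inr ⟨e⟩⟩
    have := orderOf_dvd_of_cast (x := pr F g) (by rwa [ho])
    rw [ho] at this
    exact this.symm
  · exact Or.inr (Or.inr (Or.inl h))
  · exact Or.inr (Or.inr (Or.inr (Or.inl h)))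
  · exact Or.inr (Or.inr (Or.inr (Or.inr (Or.inl h))))
  · refine Or.inr (Or.inr (Or.inr (Or.inr (Or.inr ⟨K, inferInstance, inferInstance, m,
      by rwa [← Nat.card_eq_fintype_card], ?_⟩))))
    rcases h with h | ⟨-, h⟩
    · exact Or.inr h
    · exact Or.inl h

end Cfsg.Agent.S0799
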