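import Cfsg.Statements.S0904
import Cfsg.Agent.Lib.Block.BlkZero
import Cfsg.Agent.S0910

set_option autoImplicit false
open Cfsg

namespace Cfsg.Agent.S0904
open Cfsg MonoidAlgebra CA.BlkAlg CA.BlkVal CA.BlkOmega CA.BlkRed CA.BlkCore CA.BlkDefect CA.BlkInd CA.BlkHeight CA.SylIn CA.H12PPart CChar.CharFun CChar.CharOrth Subgroup CA.BlkKer CChar.CharKer CA.BlkZero CChar.CharInt

theorem aux {G : Type*} [Group G] [Finite G] [IsSimpleGroup G] (hna : ∃ a b : G, a * b ≠ b * a)
    {p q r : ℕ} (hp : p.Prime) (hq : q.Prime) (hr : r.Prime)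
    (hdiv : ∀ s : ℕ, s.Prime → s ∣ Nat.card G → s = p ∨ s = q ∨ s = r)
    (h1 : (Nat.card G).factorization r = 1) {g : G} (hpg : p ∣ orderOf g) (hrg : r ∣ orderOf g) :
    False := by
  classical
  haveI := Fact.mk hp
  obtain ⟨M, hM⟩ := exists_isPModular hp
  obtain ⟨N, hN⟩ := exists_isPModular hq
  have h0 := sum_degree_mul_eq_zero hM (isSat_of_isPBlock hM (isPBlock_principalBlock (G := G))) hpg
  rw [← Finset.add_sum_erase _ _ (a := irrOne G) (by simpa using irrOne_mem_principalBlock hM)]
    at h0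
  have hlt : v N (∑ χ ∈ (Finset.univ.filter (· ∈ principalBlock M G)).erase (irrOne G),
      χ.1 1 * χ.1 g) < 1 := by
    refine v_sum_lt_one _ _ fun χ hχ => ?_
    obtain ⟨hne, hχ⟩ := Finset.mem_erase.mp hχ
    have hχ := (Finset.mem_filter.mp hχ).2
    by_cases hrd : r ∣ charDegree χ.1
    · have : DZ r χ := dz_iff_le.mpr (by
        rw [h1]; exact (hr.dvd_iff_one_le_factorization (charDegree_pos χ.2).ne').mp hrd)
      rw [this.apply_eq_zero hr hrg]; simp
    by_cases hqd : q ∣ charDegree χ.1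
    · refine v_mul_lt_one_left ?_ (irr_mem_O χ g)
      rw [irr_apply_one_eq χ.2, v_natCast_lt_one_iff hN]; exact hqd
    exfalso
    have := Nat.eq_prime_pow_of_unique_prime_dvd (p := p) (charDegree_pos χ.2).ne' (fun {s} hs hd => by
      rcases hdiv s hs (hd.trans (charDegree_dvd_card χ.2)) with h | h | h
      · exact h
      · exact absurd (h ▸ hd) hqd
      · exact absurd (h ▸ hd) hrd)
    refine hne (Subtype.ext (Cfsg.Agent.S0910.result p M hM hna χ hχ (charDegree χ.1).primeFactorsList.length ?_))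
    rw [irr_apply_one_eq χ.2]; exact_mod_cast this
  rw [eq_neg_of_add_eq_zero_right h0] at hlt
  simp [irrOne_apply] at hlt

/-- Let G be a finite simple group of order p ^ a * q ^ b * r with p, q, r distinct primes. Then every Sylow r-subgroup S of G satisfies C_G(S) = S. -/
theorem result {G : Type*} [Group G] [Finite G] [IsSimpleGroup G] (p q r a b : ℕ) (hp : p.Prime) (hq : q.Prime) [Fact r.Prime] (hpq : p ≠ q) (hpr : p ≠ r) (hqr : q ≠ r) (hcard : Nat.card G = p ^ a * q ^ b * r) (S : Sylow r G) : Subgroup.centralizer (S : Set G) = (S : Subgroup G) := by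
  classical
  have hr : r.Prime := Fact.out
  have h1 : (Nat.card G).factorization r = 1 := by
    rw [hcard, Nat.factorization_mul (mul_ne_zero (pow_ne_zero _ hp.ne_zero) (pow_ne_zero _ hq.ne_zero)) hr.ne_zero,
      Nat.factorization_mul (pow_ne_zero _ hp.ne_zero) (pow_ne_zero _ hq.ne_zero)]
    simp [hp.factorization_pow, hq.factorization_pow, hr.factorization, Finsupp.single_apply, hpr, hqr]
  have hS : Nat.card S = r := by rw [S.card_eq_multiplicity, h1, pow_one]
  haveI : IsCyclic S := isCyclic_of_prime_card hS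
  have hle : (S : Subgroup G) ≤ centralizer (S : Set G) := fun x hx y hy =>
    congrArg Subtype.val (mul_comm' (⟨y, hy⟩ : (S : Subgroup G)) ⟨x, hx⟩)
  have hdiv : ∀ s : ℕ, s.Prime → s ∣ Nat.card G → s = p ∨ s = q ∨ s = r := by
    intro s hs hd
    rw [hcard] at hd
    rcases (hs.dvd_mul).mp hd with h | h
    · rcases (hs.dvd_mul).mp h with h | h
      · exact Or.inl ((Nat.prime_dvd_prime_iff_eq hs hp).mp (hs.dvd_of_dvd_pow h))
      · exact Or.inr (Or.inl ((Nat.prime_dvd_prime_iff_eq hs hq).mp (hs.dvd_of_dvd_pow h)))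
    · exact Or.inr (Or.inr ((Nat.prime_dvd_prime_iff_eq hs hr).mp h))
  by_cases hna : ∃ a b : G, a * b ≠ b * a
  swap
  · push Not at hna
    haveI : (S : Subgroup G).Normal := ⟨fun n hn g => by rwa [hna g n, mul_inv_cancel_right]⟩
    rcases IsSimpleGroup.eq_bot_or_eq_top_of_normal (S : Subgroup G) inferInstance with h | h
    · have : Nat.card S = 1 := by
        show Nat.card (S : Subgroup G) = 1
        rw [h]; simp
      exact absurd (hS.symm.trans this) hr.ne_one
    · exact le_antisymm (h ▸ le_top) hle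
  by_contra hne
  have hlt : (S : Subgroup G).relIndex (centralizer (S : Set G)) ≠ 1 := fun h =>
    hne (le_antisymm (relIndex_eq_one.mp h) hle)
  obtain ⟨s, hs, hsd⟩ := Nat.exists_prime_and_dvd hlt
  have hsr : s ≠ r := by
    rintro rfl
    exact S.not_dvd_index (hsd.trans (relIndex_dvd_index_of_le hle))
  have hsC : s ∣ Nat.card (centralizer (S : Set G)) := hsd.trans (relIndex_dvd_card _ _)
  haveI := Fact.mk hs
  obtain ⟨⟨x, hx⟩, hxo⟩ := exists_prime_orderOf_dvd_card' s hsC
  obtain ⟨⟨y, hy⟩, hyo⟩ := exists_prime_orderOf_dvd_card' (G := S) r (by rw [hS])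
  have hxo : orderOf x = s := by rw [← hxo]; exact orderOf_mk x hx |>.symm
  have hyo : orderOf y = r := by rw [← hyo]; exact orderOf_mk y hy |>.symm
  have hc : Commute x y := (hx y hy).symm
  have ho : orderOf (x * y) = s * r := by
    rw [hc.orderOf_mul_eq_mul_orderOf_of_coprime, hxo, hyo]
    rw [hxo, hyo]; exact (Nat.coprime_primes hs hr).mpr hsr
  rcases hdiv s hs (hsC.trans (card_subgroup_dvd_card _)) with h | h | h
  · exact aux hna hp hq hr hdiv h1 (g := x * y) (by rw [ho, h]; simp) (by rw [ho]; simp)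
  · exact aux hna hq hp hr (fun s hs hd => by have := hdiv s hs hd; tauto) h1 (g := x * y)
      (by rw [ho, h]; simp) (by rw [ho]; simp)
  · exact hsr h

end Cfsg.Agent.S0904
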