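import Cfsg.Statements.S0982
import Cfsg.Agent.Lib.Block.H28Br5
-- import your own Cfsg.Agent.* helpers here

set_option autoImplicit false
open Cfsg

namespace Cfsg.Agent.S0982

/-- A simple group of order 6072 is isomorphic to the projective special linear group of dimension 2 over the field with 23 elements. -/
theorem result {G : Type*} [Group G] [Finite G] [IsSimpleGroup G] (h : Nat.card G = 6072) {F : Type*} [Field F] [Fintype F] (hF : Fintype.card F = 23) : Nonempty (G ≃* Matrix.ProjectiveSpecialLinearGroup (Fin 2) F) := by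
  have : Fact (Nat.Prime 23) := ⟨by norm_num⟩
  obtain ⟨-, ⟨-, ⟨e⟩⟩ | ⟨m, -, -, -, -, h1, h2, -⟩⟩ := CA.H28Br5.simple_of_lt (G := G) (p := 23)
    (CA.H28Simp.not_comm_of_card (by rw [h]; norm_num)) (by rw [h]; norm_num) (by rw [h]; norm_num)
  · obtain ⟨i⟩ := CA.FieldIso.nonempty_zmod (F := F) 23 (by rw [Nat.card_eq_fintype_card, hF])
    exact ⟨e.trans (CA.FieldIso.pslEquiv i.symm)⟩
  · rw [h, show 2 ^ m = 22 by omega] at h2
    norm_num at h2

end Cfsg.Agent.S0982
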