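import Cfsg.Statements.S0992
import Cfsg.Agent.Lib.Grp.H28Simp
import Cfsg.Agent.Lib.Grp.Two
-- import your own Cfsg.Agent.* helpers here

set_option autoImplicit false
open Cfsg

namespace Cfsg.Agent.S0992

/-- Let G be a non-abelian finite simple group of even order not divisible by 8, and T a Sylow 2-subgroup. Then T is a Klein four-group and the centralizer of T has index 3 in the normalizer of T. -/
theorem result {G : Type*} [Group G] [Finite G] [IsSimpleGroup G] (hG : ¬ IsMulCommutative G) (h2 : Even (Nat.card G)) (h8 : ¬ 8 ∣ Nat.card G) (T : Sylow 2 G) : IsKleinFour ↥(T : Subgroup G) ∧ (Subgroup.centralizer ((T : Subgroup G) : Set G)).relIndex (Subgroup.normalizer ((T : Subgroup G) : Set G)) = 3 := by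
  have h1 := CA.H28Simp.burnside hG (p := 2) h2.two_dvd T
  have h3 : ¬ IsCyclic (T : Subgroup G) := fun h => h1 fun n hn => by
    have h3 : (Nat.card G).minFac = 2 := (Nat.minFac_eq_two_iff _).2 h2.two_dvd
    exact h.normalizer_le_centralizer h3 hn
  obtain ⟨k, hk⟩ := T.isPGroup'.exists_card_eq
  have h4 : k = 2 := by
    have h4 : ¬ 3 ≤ k := fun h => h8 (((pow_dvd_pow 2 h).trans hk.symm.dvd).trans
      (Subgroup.card_subgroup_dvd_card _))
    have h5 : ¬ k ≤ 1 := fun h => h3 (isCyclic_of_card_dvd_prime (p := 2)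
      (hk ▸ pow_dvd_pow 2 h))
    omega
  subst h4
  have h5 : IsKleinFour (T : Subgroup G) := CA.Two.isKleinFour_of hk fun x hx => by
    by_contra h5
    have h6 := (Nat.dvd_prime_pow Nat.prime_two).1 (hk ▸ orderOf_dvd_natCard (⟨x, hx⟩ : T))
    obtain ⟨j, hj, h6⟩ := h6
    have h7 : j ≠ 2 := by
      rintro rfl
      exact h3 (isCyclic_of_orderOf_eq_card _ (h6.trans hk.symm))
    rw [Subgroup.orderOf_mk] at h6
    exact h5 (orderOf_dvd_iff_pow_eq_one.1 (h6 ▸ pow_dvd_pow 2 (show j ≤ 1 by omega)))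
  refine ⟨h5, ?_⟩
  have h6 := CA.Two.klein_relIndex_dvd h5
  have h7 : ¬ 2 ∣ (Subgroup.centralizer ((T : Subgroup G) : Set G)).relIndex
      (Subgroup.normalizer ((T : Subgroup G) : Set G)) := fun h => T.not_dvd_index (by
    haveI := CA.Two.klein_comm h5
    exact (h.trans (Subgroup.relIndex_dvd_of_le_left _ (T : Subgroup G).le_centralizer)).trans
      (Subgroup.relIndex_dvd_index_of_le (T : Subgroup G).le_normalizer))
  have h9 := mt Subgroup.relIndex_eq_one.1 h1
  have := Nat.le_of_dvd (by norm_num) h6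
  generalize Subgroup.relIndex (G := G) _ _ = n at *
  interval_cases n <;> omega

end Cfsg.Agent.S0992
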