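import Cfsg.Statements.S1001
import Cfsg.Agent.Lib.Grp.H28Simp
import Cfsg.Agent.Lib.Grp.H28Syl
import Cfsg.Agent.S0904
import Cfsg.Agent.S0144
-- import your own Cfsg.Agent.* helpers here

set_option autoImplicit false
open Cfsg

namespace Cfsg.Agent.S1001

/-- In a finite simple group whose order has the form p * 3^a * 2^b with p prime, the centralizer of any element of order p is the cyclic group it generates. -/
theorem result {G : Type*} [Group G] [Finite G] [IsSimpleGroup G] (p a b : ℕ) (hp : p.Prime) (hG : Nat.card G = p * 3 ^ a * 2 ^ b) (x : G) (hx : orderOf x = p) : Subgroup.centralizer ({x} : Set G) = Subgroup.zpowers x := by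
  have : Fact p.Prime := ⟨hp⟩
  by_cases hc : IsMulCommutative G
  · have hpr : (Nat.card G).Prime := by
      open scoped IsMulCommutative in exact IsSimpleGroup.prime_card
    have h1 : p = Nat.card G :=
      (Nat.prime_dvd_prime_iff_eq hp hpr).1 (hx ▸ orderOf_dvd_natCard x)
    have h2 : Subgroup.zpowers x = ⊤ :=
      Subgroup.eq_top_of_card_eq _ (by rw [Nat.card_zpowers, hx, h1])
    rw [h2, eq_top_iff]
    intro g _
    rw [Subgroup.mem_centralizer_singleton_iff]
    exact hc.is_comm.comm _ _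
  have hns : ¬ Group.IsSolvable G := by
    intro hs
    exact hc ⟨⟨(IsSimpleGroup.comm_iff_isSolvable.2 hs)⟩⟩
  have h2 : p ≠ 2 := by
    rintro rfl
    exact hns (Cfsg.Agent.S0144.result 3 2 a (b + 1) Nat.prime_three Nat.prime_two
      (by rw [hG]; ring))
  have h3 : p ≠ 3 := by
    rintro rfl
    exact hns (Cfsg.Agent.S0144.result 3 2 (a + 1) b Nat.prime_three Nat.prime_two
      (by rw [hG]; ring))
  have hnd : ¬ p ∣ 3 ^ a * 2 ^ b := by
    intro h
    rcases (Nat.Prime.dvd_mul hp).1 h with h | h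
    · exact h3 ((Nat.prime_dvd_prime_iff_eq hp Nat.prime_three).1 (hp.dvd_of_dvd_pow h))
    · exact h2 ((Nat.prime_dvd_prime_iff_eq hp Nat.prime_two).1 (hp.dvd_of_dvd_pow h))
  have hsq : ¬ p ^ 2 ∣ Nat.card G := by
    rw [hG, mul_assoc, pow_two]
    intro h
    exact hnd (Nat.dvd_of_mul_dvd_mul_left hp.pos h)
  have hs := CA.H28Syl.isSylGen_of_not_sq_dvd hx hsq
  have h := Cfsg.Agent.S0904.result 3 2 p a b Nat.prime_three Nat.prime_two (by norm_num)
    h3.symm h2.symm (by rw [hG]; ring) hs.sylow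
  refine (CA.H28Syl.centralizer_zpowers x).symm.trans ?_
  exact h

end Cfsg.Agent.S1001
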