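import Cfsg.Statements.S1138
import Cfsg.Agent.Lib.Lie.Higman3

set_option autoImplicit false
open Cfsg

namespace Cfsg.Agent.S1138

/-- Let `P` be a Suzuki 2-group with `|Z(P)| = q`. Then every square lies in `Z(P)` and `P/Z(P)` is abelian (so elementary abelian), `|P| = q²` or `|P| = q³`, and `P` has exponent 4. -/
theorem result {P : Type*} [Group P] (hP : Cfsg.IsSuzukiTwoGroup P) :
    (∀ x : P, x * x ∈ Subgroup.center P) ∧ (∀ x y : P, x⁻¹ * y⁻¹ * x * y ∈ Subgroup.center P) ∧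
      (Nat.card P = Nat.card (Subgroup.center P) ^ 2 ∨ Nat.card P = Nat.card (Subgroup.center P) ^ 3) ∧
      Monoid.exponent P = 4 := by
  obtain ⟨ξ, h, hs⟩ := CA.Higman3.suzuki_spec hP
  obtain ⟨_, -, ⟨x, y, hxy⟩, -⟩ := hP
  obtain ⟨F, _, _, _, hF⟩ := CA.Higman3.exists_F h
  have hZ : Subgroup.center P ≠ ⊤ := fun e =>
    hxy (Subgroup.mem_center_iff.1 (show y ∈ Subgroup.center P from e ▸ trivial) x)
  refine ⟨fun x => hs.sq x trivial, fun x y => by
    simpa using CA.Higman.comm_mem hs.sq (x := x⁻¹) (y := y⁻¹) trivial trivial,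
    by simpa using CA.Higman2.card_cases h hF hs.sq hZ, ?_⟩
  have h4 : Monoid.exponent P ∣ 2 ^ 2 := Monoid.exponent_dvd_of_forall_pow_eq_one fun x => by
    have := h.sq (hs.sq x trivial)
    rw [← this, ← pow_two, ← pow_two, ← pow_mul]; rfl
  refine Nat.eq_prime_pow_of_dvd_least_prime_pow Nat.prime_two (k := 1) (fun e => hZ (eq_top_iff.2 fun x _ => ?_)) h4
  refine (h.memZ x).2 ⟨trivial, ?_⟩
  rw [← pow_two]
  exact Monoid.exponent_dvd_iff_forall_pow_eq_one.1 e x

end Cfsg.Agent.S1138
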