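import Cfsg.Statements.S1302
import Cfsg.Agent.Lib.Grp.H4Bend
import Cfsg.Agent.Lib.Loc.H6Con

set_option autoImplicit false
open Cfsg

namespace Cfsg.Agent.S1302


open Subgroup CA.BG CA.H4Bend

/-- Let X be a finite p-constrained group, p an odd prime, and A an abelian p-subgroup of X containing every element of order p of C_X(A). Then every subgroup of X of order prime to p that is normalized by A lies in O_{p'}(X). -/
theorem result {X : Type*} [Group X] [Finite X] (p : ℕ) [Fact p.Prime] (hp : p ≠ 2) (hX : Cfsg.IsPConstrained p X) (A : Subgroup X) (hA : IsMulCommutative ↥A) (hAp : IsPGroup p ↥A) (hΩ : ∀ x ∈ Subgroup.centralizer (A : Set X), orderOf x = p → x ∈ A) (Q : Subgroup X) (hQ : ¬ p ∣ Nat.card ↥Q) (hAQ : A ≤ Subgroup.normalizer (Q : Set X)) : Q ≤ Cfsg.pPrimeCore p X := by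
  have hp' : p.Prime := Fact.out
  have h := CA.H4Bend.le_core (H := ⊤) (E := A) (Y := Q) hp' ((CA.H6Con.isPConstrained_iff_of_surj
    (f := (topEquiv (G := X)).toMonoidHom) topEquiv.surjective (by
      rw [(MonoidHom.ker_eq_bot_iff _).2 topEquiv.injective]; simp)).2 hX)
    (isPi_of_isPGroup hp' hAp) hA le_top (Or.inl ⟨hp, fun x hx e => by
      rcases eq_or_ne x 1 with rfl | h1
      · exact one_mem _
      · exact hΩ x hx.2 (orderOf_eq_prime e h1)⟩) ((isPi_compl_iff hp').2 hQ) le_top hAQ
  rwa [core_p'_top hp'] at h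

end Cfsg.Agent.S1302
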