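import Cfsg.Statements.S1313
import Cfsg.Agent.Lib.Grp.Fstar

set_option autoImplicit false
open Cfsg

namespace Cfsg.Agent.S1313

section Aux
open Subgroup CA.Rad CA.Core CA.Fitting CA.Subn CA.Quasi CA.Comp CA.Fstar

theorem card_mulAut_le (F : Type*) [Group F] [Finite F] :
    Nat.card (MulAut F) ≤ (Nat.card F - 1).factorial := by
  classical
  have h1 : Nat.card {x : F // x ≠ 1} = Nat.card F - 1 := by
    have := Fintype.ofFinite F
    simp [Nat.card_eq_fintype_card, Fintype.card_subtype_compl]
  rw [← h1, ← Nat.card_perm]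
  refine Nat.card_le_card_of_injective
    (fun φ : MulAut F => Equiv.Perm.subtypePerm φ.toEquiv (fun x => by simp)) fun φ ψ h => ?_
  ext x
  by_cases hx : x = 1
  · rw [hx, map_one, map_one]
  · exact congrArg Subtype.val (Equiv.congr_fun h ⟨x, hx⟩)

end Aux

open Subgroup CA.Rad CA.Core CA.Fitting CA.Subn CA.Quasi CA.Comp CA.Fstar in
/-- For a finite group H, |H| ≤ |F*(H)|!. -/
theorem result {H : Type*} [Group H] [Finite H] : Nat.card H ≤ Nat.factorial (Nat.card ↥(Cfsg.generalizedFittingSubgroup H)) := by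
  set F := Cfsg.generalizedFittingSubgroup H
  let f : H →* MulAut F := MulAut.conjNormal
  have hk : f.ker ≤ F := fun x hx => centralizer_fstar_le (mem_centralizer_iff.2 fun y hy => by
    have := congrArg Subtype.val (DFunLike.congr_fun (MonoidHom.mem_ker.1 hx) ⟨y, hy⟩)
    exact (mul_inv_eq_iff_eq_mul.1 this).symm)
  have h1 := f.ker.card_mul_index
  rw [index_ker] at h1
  have h2 : Nat.card f.range ≤ (Nat.card F - 1).factorial :=
    (card_le_card_group _).trans (card_mulAut_le F)
  rw [← h1, ← Nat.mul_factorial_pred (Nat.card_pos (α := F)).ne']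
  exact Nat.mul_le_mul (card_le_of_le hk) h2

end Cfsg.Agent.S1313
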