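import Cfsg.Statements.S1475
import Cfsg.Agent.Lib.Odd.BGMisc
import Cfsg.Agent.Lib.Odd.BG1b
import Cfsg.Agent.Lib.Grp.Frob2

set_option autoImplicit false
open Cfsg

namespace Cfsg.Agent.S1475

open CA.BG CA.OQuo Subgroup

theorem exists_mul {G : Type*} [Group G] [Finite G] {x y : G} (h : x * y = y * x) {s t : ℕ} (hs : s.Prime) (ht : t.Prime)
    (hst : s ≠ t) (hx : s ∣ orderOf x) (hy : t ∣ orderOf y) : ∃ g : G, orderOf g = s * t := by
  have e1 := orderOf_pow_orderOf_div (orderOf_pos x).ne' hx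
  have e2 := orderOf_pow_orderOf_div (orderOf_pos y).ne' hy
  refine ⟨x ^ (orderOf x / s) * y ^ (orderOf y / t), ?_⟩
  rw [(Commute.pow_pow h _ _).orderOf_mul_eq_mul_orderOf_of_coprime (by rw [e1, e2]; exact (Nat.coprime_primes hs ht).2 hst),
    e1, e2]

theorem core {G : Type*} [Group G] [Finite G] {s a b : ℕ} (hs : s.Prime) (ha : a.Prime) (hb : b.Prime)
    (h1 : s ≠ a) (h2 : s ≠ b) (h3 : a ≠ b) {H : Subgroup G} (hH : Group.IsSolvable H) (h : 𝓞({s}, H) ≠ ⊥)
    (da : a ∣ ♯H) (db : b ∣ ♯H) : ∃ g : G, orderOf g = s * a ∨ orderOf g = s * b ∨ orderOf g = a * b := by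
  obtain ⟨K, hK⟩ := hall_exists {a, b} hH
  have pr : ∀ k ∈ K, k ≠ 1 → a ∣ orderOf k ∨ b ∣ orderOf k := fun k hk hk1 => by
    obtain ⟨q, hq, hd⟩ := Nat.exists_prime_and_dvd (mt orderOf_eq_one_iff.1 hk1)
    rcases hK.pi.orderOf hk q hq hd with rfl | rfl
    · exact Or.inl hd
    · exact Or.inr hd
  have ka := hK.dvd_card ha (by simp) da
  have kb := hK.dvd_card hb (by simp) db
  by_cases hr : CA.Frob2.Semireg 𝓞({s}, H) K
  · have := hr.center_ne_bot (hK.le.trans (le_norm_core _ _)) h (hK.ne_bot ha (by simp) da)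
    obtain ⟨⟨z, hz⟩, hz1⟩ := ne_bot_iff_exists_ne_one.1 this
    have hz1' : (z : G) ≠ 1 := fun e => hz1 (Subtype.ext (Subtype.ext e))
    have hc : ∀ y ∈ K, y * z = z * y := fun y hy => congrArg Subtype.val (mem_center_iff.1 hz ⟨y, hy⟩)
    rcases pr z z.2 hz1' with d | d
    · obtain ⟨y, hy, e⟩ := exists_orderOf_eq hb kb
      obtain ⟨g, hg⟩ := exists_mul (hc y hy).symm ha hb h3 d (e ▸ dvd_rfl)
      exact ⟨g, Or.inr (Or.inr hg)⟩
    · obtain ⟨y, hy, e⟩ := exists_orderOf_eq ha ka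
      obtain ⟨g, hg⟩ := exists_mul (hc y hy) ha hb h3 (e ▸ dvd_rfl) d
      exact ⟨g, Or.inr (Or.inr hg)⟩
  · rw [CA.Frob2.semireg_iff] at hr
    push Not at hr
    obtain ⟨k, hk, hk1, v, hv, e, hv1⟩ := hr
    have ds : s ∣ orderOf v := by
      obtain ⟨q, hq, hd⟩ := Nat.exists_prime_and_dvd (mt orderOf_eq_one_iff.1 hv1)
      obtain rfl : q = s := (core_pi _ _).orderOf hv q hq hd
      exact hd
    rcases pr k hk hk1 with d | d
    · obtain ⟨g, hg⟩ := exists_mul e.symm hs ha h1 ds d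
      exact ⟨g, Or.inl hg⟩
    · obtain ⟨g, hg⟩ := exists_mul e.symm hs hb h2 ds d
      exact ⟨g, Or.inr (Or.inl hg)⟩

theorem three {G : Type*} [Group G] [Finite G] [Group.IsSolvable G] {p q r : ℕ} (hp : p.Prime) (hq : q.Prime) (hr : r.Prime)
    (h1 : p ≠ q) (h2 : p ≠ r) (h3 : q ≠ r) (dp : p ∣ Nat.card G) (dq : q ∣ Nat.card G) (dr : r ∣ Nat.card G) :
    ∃ g : G, orderOf g = p * q ∨ orderOf g = p * r ∨ orderOf g = q * r := by
  obtain ⟨H, hH⟩ := hall_exists {p, q, r} (solv_top (⊤ : Subgroup G))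
  rw [← card_top] at dp dq dr
  have hs := solv_of_le (solv_top ⊤) hH.le
  have kp := hH.dvd_card hp (by simp) dp
  have kq := hH.dvd_card hq (by simp) dq
  have kr := hH.dvd_card hr (by simp) dr
  obtain ⟨s, hs', h⟩ := exists_core_ne_bot hs (hH.ne_bot hp (by simp) dp)
  rcases (core_pi _ _).mem_of_ne_bot h (hH.pi.of_le (core_le _ _)) with rfl | rfl | rfl
  · exact core hp hq hr h1 h2 h3 hs h kq kr
  · obtain ⟨g, hg⟩ := core hq hp hr h1.symm h3 h2 hs h kp kr
    exact ⟨g, by rw [mul_comm p s]; tauto⟩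
  · obtain ⟨g, hg⟩ := core hr hp hq h2.symm h3.symm h1 hs h kp kq
    exact ⟨g, by rw [mul_comm p s, mul_comm q s]; tauto⟩

/-- Let G be a finite solvable group such that the order of every element is a prime power (1 included). Then at most two distinct primes divide the order of G. -/
theorem result {G : Type*} [Group G] [Finite G] [Group.IsSolvable G] (h : ∀ g : G, IsPrimePow (orderOf g) ∨ g = 1) :
    (Nat.card G).primeFactors.card ≤ 2 := by
  by_contra hc
  obtain ⟨p, q, r, hp, hq, hr, h1, h2, h3⟩ := Finset.two_lt_card_iff.1 (not_le.1 hc)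
  have P := Nat.prime_of_mem_primeFactors hp
  have Q := Nat.prime_of_mem_primeFactors hq
  have R := Nat.prime_of_mem_primeFactors hr
  obtain ⟨g, hg⟩ := three P Q R h1 h2 h3 (Nat.dvd_of_mem_primeFactors hp) (Nat.dvd_of_mem_primeFactors hq)
    (Nat.dvd_of_mem_primeFactors hr)
  have key : ∀ a b : ℕ, a.Prime → b.Prime → a ≠ b → orderOf g ≠ a * b := fun a b ha hb hab e => by
    rcases h g with h | rfl
    · obtain ⟨t, k, ht, -, e2⟩ := (isPrimePow_nat_iff _).1 h
      rw [e] at e2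
      exact hab (((Nat.prime_dvd_prime_iff_eq ha ht).1 (ha.dvd_of_dvd_pow (e2 ▸ dvd_mul_right a b))).trans
        ((Nat.prime_dvd_prime_iff_eq hb ht).1 (hb.dvd_of_dvd_pow (e2 ▸ dvd_mul_left b a))).symm)
    · rw [orderOf_one] at e
      exact ha.one_lt.ne' (Nat.eq_one_of_mul_eq_one_right e.symm)
  rcases hg with e | e | e
  · exact key _ _ P Q h1 e
  · exact key _ _ P R h2 e
  · exact key _ _ Q R h3 e

end Cfsg.Agent.S1475
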