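import Cfsg.Statements.S5560
import Cfsg.Agent.Lib.Spor.Tr3Rank
import Cfsg.Agent.Lib.Grp.Coprime2
import Cfsg.Agent.Lib.Grp.H13Inv
import Cfsg.Agent.S0215

set_option autoImplicit false
open Cfsg

namespace Cfsg.Agent.S5560

/-- A Z*-type result for an odd prime p. Let G be a finite group and d an involution of G such that the product of any two conjugates of d has order a power of p. Then the product of any two conjugates of d lies in the largest normal p-subgroup O_p(G); in other words the conjugacy class of d lies in the coset O_p(G)d, and d is central modulo O_p(G). -/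
theorem result {G : Type*} [Group G] [Finite G] {p : ℕ} (hp : p.Prime) (hp2 : p ≠ 2)
    (d : G) (hd : orderOf d = 2)
    (hprod : ∀ a ∈ conjugatesOf d, ∀ b ∈ conjugatesOf d, ∃ k : ℕ, orderOf (a * b) = p ^ k) :
    ∀ a ∈ conjugatesOf d, ∀ b ∈ conjugatesOf d, a * b ∈ Cfsg.pCore p G := by
  open CA CA.Tr3Basic CA.Tr3Block in
  haveI := Fact.mk hp
  haveI := Fact.mk Nat.prime_two
  have cj : ∀ g : G, ∀ a ∈ conjugatesOf d, g * a * g⁻¹ ∈ conjugatesOf d := fun g a ha =>
    IsConj.trans ha (isConj_iff.2 ⟨g, rfl⟩)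
  have sq : ∀ a ∈ conjugatesOf d, a * a = 1 := fun a ha =>
    mul_self_of_orderOf ((H13Inv.orderOf_eq_of_isConj ha).symm.trans hd)
  have dm : d ∈ conjugatesOf d := IsConj.refl d
  have d2 := sq d dm
  have hodd : ∀ a ∈ conjugatesOf d, Odd (orderOf (d * a)) := fun a ha => by
    obtain ⟨k, hk⟩ := hprod d dm a ha
    rw [hk]; exact (hp.odd_of_ne_two hp2).pow
  have z2 : IsPGroup 2 (Subgroup.zpowers d) := IsPGroup.of_card (n := 1) (by rw [Nat.card_zpowers, hd, pow_one])
  obtain ⟨S, hS⟩ := z2.exists_le_sylow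
  obtain ⟨N, hN, hNo, hcm⟩ := Cfsg.Agent.S0215.result S d hd (hS (Subgroup.mem_zpowers d)) fun g hg => by
    have h1 : d * (g * d * g⁻¹) ∈ (S : Subgroup G) := Subgroup.mul_mem _ (hS (Subgroup.mem_zpowers d)) hg
    have := eq_one_of_pgroup S.isPGroup' h1 (hodd _ (cj g d dm)).coprime_two_right (pow_orderOf_eq_one _)
    rw [mul_eq_one_iff_inv_eq, inv_of_mul_self d2] at this
    exact this.symm
  have hAK : Subgroup.zpowers d ≤ Subgroup.normalizer (N : Set G) := by
    rw [Subgroup.normalizer_eq_top]; exact le_top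
  have hcop : (Nat.card (Subgroup.zpowers d)).Coprime (Nat.card N) := by
    rw [Nat.card_zpowers, hd]; exact hNo.coprime_two_left
  have hs : Group.IsSolvable (Subgroup.zpowers d) ∨ Group.IsSolvable N := Or.inl (Core.isSolvable_of_isPGroup z2)
  have inv : ∀ T : Subgroup G, Subgroup.zpowers d ≤ Subgroup.normalizer (T : Set G) → ∀ x ∈ T,
      d * (x * d * x⁻¹) ∈ T := fun T hT x hx => by
    have := T.mul_mem ((Subgroup.mem_normalizer_iff.1 (hT (Subgroup.mem_zpowers d)) x).1 hx) (T.inv_mem hx)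
    rw [inv_of_mul_self d2] at this
    simpa [mul_assoc] using this
  set C := Subgroup.centralizer ({d} : Set G) with hC
  have hidx : ∀ q : ℕ, q.Prime → q ∣ C.relIndex N → q = p := by
    intro q hq hdvd
    by_contra hne
    haveI := Fact.mk hq
    obtain ⟨T, hT, hAT⟩ := Coprime2.exists_isSylowIn hAK hcop hs q
    have hTC : T ≤ C := fun x hx => by
      obtain ⟨k, hk⟩ := hprod d dm _ (cj x d dm)
      have := eq_one_of_pgroup hT.isPGroup (inv T hAT x hx) (n := p ^ k)
        (((Nat.coprime_primes hp hq).2 (Ne.symm hne)).pow_left k) (by rw [← hk, pow_orderOf_eq_one])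
      rw [mul_eq_one_iff_inv_eq, inv_of_mul_self d2] at this
      exact Subgroup.mem_centralizer_singleton_iff.2 ((conj_eq_iff_commute _ _).1 this.symm)
    exact hT.not_dvd (hdvd.trans (Subgroup.relIndex_dvd_of_le_left N hTC))
  obtain ⟨P, hP, hAP⟩ := Coprime2.exists_isSylowIn hAK hcop hs p
  have hle : C.relIndex N ≤ C.relIndex P := by
    have h1 : C.relIndex N ∣ C.relIndex P * P.relIndex N := by
      rw [← Subgroup.inf_relIndex_right C P, Subgroup.relIndex_mul_relIndex _ _ _ inf_le_right hP.le]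
      exact Subgroup.relIndex_dvd_of_le_left N inf_le_left
    have h2 : (C.relIndex N).Coprime (P.relIndex N) := Nat.coprime_of_dvd fun q hq h3 h4 =>
      hP.not_dvd (hidx q hq h3 ▸ h4)
    exact Nat.le_of_dvd (Nat.pos_of_ne_zero Subgroup.index_ne_zero_of_finite) (h2.dvd_of_dvd_mul_right h1)
  have key : ∀ a ∈ conjugatesOf d, d * a ∈ P := by
    intro a ha
    obtain ⟨k, hk⟩ := H13Inv.exists_conj_of_odd d2 (sq a ha) (hodd a ha)
    have hn : (d * a) ^ k ∈ N := by
      obtain ⟨g, rfl⟩ := isConj_iff.1 ha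
      have := hcm g
      rw [inv_of_mul_self d2] at this
      exact N.zpow_mem (by simpa [mul_assoc] using this) k
    obtain ⟨x, hx, hxc⟩ := Coprime2.exists_inv_mul_mem_of_relIndex_le hP.le hle hn
    have := (conj_eq_iff_commute _ _).2 (Subgroup.mem_centralizer_singleton_iff.1 hxc)
    have e : a = x * d * x⁻¹ := by
      rw [← hk]; conv_rhs => rw [← this]
      group
    rw [e]; exact inv P hAP x hx
  intro a ha b hb
  let S : Set G := {x | ∃ a ∈ conjugatesOf d, ∃ b ∈ conjugatesOf d, x = a * b}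
  haveI : (Subgroup.closure S).Normal := ⟨fun x hx g => Tr3Rank.conj_mem_closure (by
    rintro _ ⟨a, ha, b, hb, rfl⟩; exact ⟨_, cj g a ha, _, cj g b hb, by group⟩) hx⟩
  refine Core.le_pCore (N := Subgroup.closure S) (hP.isPGroup.to_le ((Subgroup.closure_le _).2 ?_))
    (Subgroup.subset_closure ⟨a, ha, b, hb, rfl⟩)
  rintro _ ⟨a, ha, b, hb, rfl⟩
  have := P.mul_mem (P.inv_mem (key a ha)) (key b hb)
  simpa [mul_assoc, inv_of_mul_self (sq a ha)] using this

end Cfsg.Agent.S5560
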