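import Cfsg.Statements.S1618
import Cfsg.Agent.S5560
import Cfsg.Agent.Lib.Loc.AmbCore

set_option autoImplicit false
open Cfsg

namespace Cfsg.Agent.S1618

/-- A group generated by a class of involutions whose pairwise products (of distinct members) have p-power order for a fixed odd prime p has nilpotent derived subgroup. -/
theorem result {G : Type*} [Group G] [Finite G] (p : ℕ) (hp : p.Prime) (hodd : p ≠ 2) {D : Set G} (hinv : ∀ d ∈ D, orderOf d = 2) (hconj : ∃ d ∈ D, D = conjugatesOf d) (hgen : Subgroup.closure D = ⊤) (hprod : ∀ x ∈ D, ∀ y ∈ D, x ≠ y → ∃ k : ℕ, orderOf (x * y) = p ^ k) : Group.IsNilpotent ↥(commutator G) := by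
  haveI := Fact.mk hp
  obtain ⟨d, hd, rfl⟩ := hconj
  have sq : ∀ a ∈ conjugatesOf d, a * a = 1 := fun a ha => by
    rw [← pow_two, ← hinv a ha, pow_orderOf_eq_one]
  have H := Cfsg.Agent.S5560.result hp hodd d (hinv d hd) (fun a ha b hb => by
    by_cases h : a = b
    · exact ⟨0, by rw [← h, sq a ha]; simp⟩
    · exact hprod a ha b hb h)
  set π := QuotientGroup.mk' (pCore p G) with hπ
  have e : ∀ a ∈ conjugatesOf d, π a = π d := fun a ha => by
    have h1 : π (a * d) = 1 := (QuotientGroup.eq_one_iff _).2 (H a ha d hd)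
    have h2 : π (d * d) = 1 := by rw [sq d hd, map_one]
    rw [map_mul] at h1 h2
    exact mul_right_cancel (h1.trans h2.symm)
  have z : ∀ g : G, π g ∈ Subgroup.zpowers (π d) := fun g => by
    have : Subgroup.closure (conjugatesOf d) ≤ (Subgroup.zpowers (π d)).comap π :=
      (Subgroup.closure_le _).2 fun a ha => by
        show π a ∈ Subgroup.zpowers (π d)
        rw [e a ha]; exact Subgroup.mem_zpowers _
    exact this (hgen ▸ Subgroup.mem_top g)
  have le : commutator G ≤ pCore p G := by
    rw [commutator, Subgroup.commutator_le]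
    intro a _ b _
    rw [← QuotientGroup.eq_one_iff]
    change π _ = 1
    rw [map_commutatorElement, commutatorElement_eq_one_iff_commute]
    obtain ⟨m, hm⟩ := z a
    obtain ⟨n, hn⟩ := z b
    rw [← hm, ← hn]
    exact (Commute.refl _).zpow_zpow m n
  exact ((CA.AmbCore.isPGroup_pCore p G).to_le le).isNilpotent

end Cfsg.Agent.S1618
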