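import Cfsg.Statements.S1892
import Cfsg.Agent.Lib.Grp.H4Bend

set_option autoImplicit false
open Cfsg

namespace Cfsg.Agent.S1892


open Subgroup CA.BG CA.OQuo

/-- Let S be a finite p-solvable group with no nontrivial normal subgroup of order prime to p, A a p-subgroup of S, and Q a nontrivial A-invariant subgroup of order prime to p with [A, Q] = Q. Then the commutator [O_p(S), A, Q] is nontrivial. -/
theorem result {S : Type*} [Group S] [Finite S] {p : ℕ} [Fact p.Prime]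
    (hS : Cfsg.IsPSolvable p S) (hred : Cfsg.pPrimeCore p S = ⊥)
    (A Q : Subgroup S) (hA : IsPGroup p A) (hQ : ¬ p ∣ Nat.card Q) (hQ1 : Q ≠ ⊥)
    (hinv : ∀ a ∈ A, ∀ x ∈ Q, a * x * a⁻¹ ∈ Q) (hAQ : ⁅A, Q⁆ = Q) :
    ⁅⁅Cfsg.pCore p S, A⁆, Q⁆ ≠ ⊥ := by
  have hp : p.Prime := Fact.out
  intro h
  have hC := CA.H6PSolv.centralizer_pCore_le hred hS
  obtain ⟨R, hR⟩ : ∃ R, R = pCore p S := ⟨_, rfl⟩
  have r1 : IsPi {p} R := hR ▸ isPi_of_isPGroup hp (CA.AmbCore.isPGroup_pCore p S)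
  haveI : R.Normal := hR ▸ inferInstance
  have r2 : ∀ K : Subgroup S, K ≤ 𝓝(R) := fun K => by simp [normalizer_eq_top]
  rw [← hR] at h hC
  have hQ' := (isPi_compl_iff hp).2 hQ
  have h1 : Q ≤ 𝓒(⁅R, A⁆) := cent_symm (comm_eq_bot_iff.1 h)
  have n1 : R ≤ 𝓝(⁅R, A⁆) := le_norm_comm_left R A
  have n2 : A ≤ 𝓝(⁅R, A⁆) := norm_comm (r2 A) (le_norm_self A)
  have n3 := norm_of_cent h1
  have h5 : ⁅R, Q⁆ ≤ ⁅R, A⁆ := by
    refine comm_le_of_quo_cent n1 n3 (cent_symm ?_)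
    rw [← hAQ, comm_symm A Q, quo_comm n3 n2]
    exact comm_le_cent_of_norm (norm_quo _ (r2 Q)) (cent_symm (quo_cent_of_comm_le n1 n2 le_rfl))
  exact hQ1 ((r1.of_le ((stable_factor_cent' (r2 Q) (r1.coprime hQ') h5 h1).trans hC)).eq_bot hQ')

end Cfsg.Agent.S1892
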