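import Cfsg.Statements.S1893
import Cfsg.Agent.Lib.Loc.AmbChar
import Cfsg.Agent.Lib.Loc.AmbT2
import Cfsg.Agent.Lib.Loc.H6Stab
import Cfsg.Agent.Lib.Loc.AmbM
-- import your own Cfsg.Agent.* helpers here

set_option autoImplicit false
open Cfsg

namespace Cfsg.Agent.S1893

section Aux
open Subgroup Cfsg CA CA.Amb CA.AmbSyl CA.AmbCore CA.AmbRes CA.AmbChar CA.AmbFs CA.AmbSpe CA.AmbIso CA.LBal2 CA.AmbT2
open scoped commutatorElement

theorem core {G : Type*} [Group G] [Finite G] (hG : Group.IsSolvable (⊤ : Subgroup G)) {B : Subgroup G}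
    (h2 : pCoreOf 2 (⊤ : Subgroup G) = ⊥) (h3 : pCoreOf 3 (⊤ : Subgroup G) = ⊥) (n : FL ⊤ ≤ 𝐍 B)
    (c : FL ⊤ ⊓ 𝐂 B ≤ B) : 𝐂 B ≤ B := by
  refine Coprime2.le_of_forall_isSylowIn fun p _ _ => ?_
  obtain ⟨T, hT⟩ := exists_sylIn p (𝐂 B)
  refine ⟨T, sylIn_iff.1 hT, (le_inf ?_ hT.le).trans c⟩
  have nF : ⊤ ≤ 𝐍 (FL (⊤ : Subgroup G)) := norm_FL le_normalizer
  have k : ⁅⁅FL (⊤ : Subgroup G), T⁆, T⁆ = ⊥ := by
    refine comm_eq_bot_of_le (((le_inf (commutator_le_left_of_norm (le_top.trans nF)) ?_).trans c).trans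
      (cent_symm hT.le))
    refine cent_symm (commutator_eq_bot_iff'.1 (le_bot_iff.1 (three_subgroups norm_of_normal norm_of_normal
      norm_of_normal ?_ ?_)))
    · rw [comm_eq_bot_of_le hT.le, commutator_bot_left]
    · exact (commutator_mono (commutator_le_left_of_norm n) le_rfl).trans (comm_eq_bot_of_le' hT.le).le
  have k' : ∀ V : Subgroup G, V ≤ FL ⊤ → ⁅⁅V, T⁆, T⁆ = ⊥ := fun V l =>
    le_bot_iff.1 ((commutator_mono (commutator_mono l le_rfl) le_rfl).trans k.le)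
  have nq : ⊤ ≤ 𝐍 (BendM.Fq p (⊤ : Subgroup G)) := BendM.norm_Fq le_normalizer
  have a : T ≤ 𝐂 (BendM.Fq p ⊤) := commutator_eq_bot_iff'.1 (by
    rw [← comm_comm_coprime (le_top.trans nq) (coprime_card_of_isPGroup hT.pg (BendM.cop_Fq p ⊤)).symm
      (Or.inl (isSolvable_of_isPGroup hT.pg)), k' _ inf_le_right])
  have b : T ≤ H6Op.Op p ⊤ (𝐂 (pCoreOf p ⊤)) := by
    by_cases h : pCoreOf p (⊤ : Subgroup G) = ⊥
    · rw [h, centralizer_bot]; exact le_top.trans (H6Op.le_Op le_rfl le_normalizer le_top)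
    · exact H6Stab.stab_of_psolv (p := p) (fun e => h (e ▸ h2)) (fun e => h (e ▸ h3)) (isPGroup_pCoreOf p ⊤)
        (norm_pCoreOf p ⊤) (H6PSolv.psolv_of_isSolvable hG) T le_top hT.pg (k' _ (pCoreOf_le_FL ⊤))
  let D := H6Op.Op p ⊤ (𝐂 (pCoreOf p (⊤ : Subgroup G))) ⊓ 𝐂 (BendM.Fq p ⊤)
  have r : pResidualOf p D ≤ BendM.Fq p ⊤ := by
    rw [← res_res]
    refine res_le_of_le_sup (isPGroup_pCoreOf p ⊤) (le_top.trans nq) (((le_inf le_top ?_).trans
      (Fitting.inf_centralizer_map_fitting_le hG)).trans (BendM.FL_le_sup' ⊤))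
    refine le_trans ?_ (centralizer_anti (BendM.FL_le_sup' (p := p) ⊤))
    rw [centralizer_sup]
    exact le_inf ((res_mono inf_le_left).trans (H6Op.res_Op_le _)) ((res_le _ _).trans inf_le_right)
  obtain ⟨U, hU, l⟩ := exists_sylIn_ge hT.pg (le_inf b a : T ≤ D)
  have := pCoreOf_eq_of_syl hU ((syl_sup_res hU).ge.trans (sup_le le_normalizer (norm_of_centralizer
    (r.trans (cent_symm (hU.le.trans inf_le_right))))))
  exact l.trans (this.ge.trans ((pCoreOf_le_of_norm le_top (norm_inf (H6Op.norm_Op _ _ _)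
    (norm_centralizer nq))).trans (pCoreOf_le_FL ⊤)))

end Aux

/-- Let S be a finite solvable group, π a set of primes containing neither 2 nor 3, H a Hall π-subgroup of S, and A a self-centralizing normal subgroup of the Fitting subgroup F(H). Then C_S(A) = A × D for a normal subgroup D of C_S(A) whose order has no prime divisor in π. -/
theorem result {S : Type*} [Group S] [Finite S] [Group.IsSolvable S]
    (π : Set ℕ) (h2 : 2 ∉ π) (h3 : 3 ∉ π) (H : Subgroup S) (hH : Cfsg.IsPiHall π H)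
    (A : Subgroup S) (hA : Cfsg.IsSCN ((Cfsg.fittingSubgroup H).map H.subtype) A) :
    ∃ D : Subgroup S, D ≤ Subgroup.centralizer (A : Set S) ∧
      (∀ c ∈ Subgroup.centralizer (A : Set S), ∀ d ∈ D, c * d * c⁻¹ ∈ D) ∧
      A ⊓ D = ⊥ ∧ A ⊔ D = Subgroup.centralizer (A : Set S) ∧
      ∀ q : ℕ, q.Prime → q ∣ Nat.card D → q ∉ π := by
  open Subgroup Cfsg CA CA.Amb CA.AmbSyl CA.AmbCore CA.AmbRes CA.AmbChar CA.AmbFs CA.AmbSpe CA.AmbIso CA.LBal2 CA.AmbT2 in
  open scoped commutatorElement in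
  (
  obtain ⟨a1, a2, a3⟩ := hA
  change A ≤ FL H at a1
  change FL H ≤ _ at a2
  change FL H ⊓ _ = _ at a3
  let O := piCore πᶜ S
  let f := QuotientGroup.mk' O
  have ker : f.ker = O := QuotientGroup.ker_mk' O
  have b : H ⊓ f.ker = ⊥ := by
    rw [ker]
    exact disjoint_iff.1 (disjoint_of_coprime_natCard (Nat.coprime_of_dvd
      fun p hp d e => (Core.pi_piCore (π := πᶜ) p hp e :) (hH.1 p hp d)))
  have z : ∀ p : ℕ, p.Prime → p ∉ π → pCoreOf p (⊤ : Subgroup (S ⧸ O)) = ⊥ := fun p hp h => by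
    haveI := Fact.mk hp
    rw [pCoreOf_top, ← le_bot_iff, ← Core.piCore_quotient_piCore]
    exact Core.le_piCore fun q hq d => by rw [eq_of_dvd_pg (isPGroup_pCore p _) hq d]; exact h
  have l : FL ⊤ ≤ (FL H).map f := BendM.FL_le_of_forall fun p hp => by
    haveI := Fact.mk hp
    by_cases h : p ∈ π
    · obtain ⟨T, hT⟩ := exists_sylIn p H
      have := (sylIn_of_not_dvd le_top hT.pg (by
        rw [← relIndex_mul_relIndex T H ⊤ hT.le le_top, relIndex_top_right]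
        exact hp.not_dvd_mul hT.not_dvd (hH.2 p hp h))).map f
      rw [map_top_of_surjective _ (QuotientGroup.mk'_surjective O)] at this
      rw [← AmbM.map_inf_comap f ((pCoreOf_le_syl this).trans (map_mono hT.le))]
      refine map_mono ((le_pCoreOf inf_le_left (isPGroup_inf_comap f (b ▸ IsPGroup.of_bot) (isPGroup_pCoreOf p ⊤))
        (norm_inf le_normalizer (le_trans (fun _ _ => mem_top _) (norm_comap f (norm_pCoreOf p ⊤))))).trans
          (pCoreOf_le_FL H))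
    · rw [z p hp h]; exact bot_le
  have bA : A ⊓ f.ker = ⊥ := le_bot_iff.1 (b ▸ inf_le_inf_right _ (a1.trans (FL_le H)))
  have c := core inferInstance (z 2 Nat.prime_two h2) (z 3 Nat.prime_three h3) (l.trans (norm_map f a2)) (by
    rintro y ⟨h1, h2⟩
    obtain ⟨x, hx, rfl⟩ := l h1
    exact mem_map_of_mem f (a3.le ⟨hx, H6PSolv.mem_cent_of_map bA (a2 hx) h2⟩))
  have ab : A ≤ 𝐂 A := a3.ge.trans inf_le_right
  refine ⟨𝐂 A ⊓ f.ker, inf_le_left, fun c hc d hd => conj_mem_of_mem_normalizer (norm_inf le_normalizer norm_of_normal hc) hd,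
    le_bot_iff.1 (bA ▸ inf_le_inf_left _ inf_le_right), le_antisymm (sup_le ab inf_le_left)
      (AmbM.le_sup_of_map_le le_rfl ab ((cent_map f le_rfl).trans c)), fun q hq d =>
        Core.pi_of_le_piCore (π := πᶜ) (inf_le_right.trans ker.le) q hq d⟩)

end Cfsg.Agent.S1893
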