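import Cfsg.Statements.S1894
import Cfsg.Agent.Lib.Odd.BG1b
import Cfsg.Agent.Lib.Grp.PGBasic

set_option autoImplicit false
open Cfsg

namespace Cfsg.Agent.S1894

open CA.BG Subgroup

/-- Let P be a finite p-group, A a normal subgroup of P and B an abelian subgroup of A that is normal in P. Then some subgroup C of A containing B is normal in P and is self-centralizing and normal in A (C ∈ SCN(A)). -/
theorem result {P : Type*} [Group P] [Finite P] {p : ℕ} [Fact p.Prime] (hP : IsPGroup p P)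
    (A : Subgroup P) [A.Normal] (B : Subgroup P) [B.Normal] (hBA : B ≤ A) (hB : IsMulCommutative B) :
    ∃ C : Subgroup P, C.Normal ∧ B ≤ C ∧ Cfsg.IsSCN A C := by
  obtain ⟨C, hBC, ⟨hn, hc, hCA⟩, hmax⟩ := exists_maximal_ge
    (P := fun C : Subgroup P => C.Normal ∧ IsMulCommutative C ∧ C ≤ A) (H := B) ⟨inferInstance, hB, hBA⟩
  haveI := hP.isNilpotent
  refine ⟨C, hn, hBC, hCA, top_le_norm C A, le_antisymm ?_ (le_inf hCA (comm_iff_le_cent.1 hc))⟩
  exact CA.PGBasic.centralizer_inf_le_of_maximal hCA fun D h1 h2 h3 h4 => hmax D ⟨h1, h2, h4⟩ h3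

end Cfsg.Agent.S1894
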