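import Cfsg.Statements.S1895
import Mathlib
import Cfsg.Agent.Lib.Odd.BG4a
import Cfsg.Agent.Lib.Grp.Rk2b
import Cfsg.Agent.Lib.Grp.H12PSolv

set_option autoImplicit false
open Cfsg

namespace Cfsg.Agent.S1895

open Subgroup CA.OQuo CA.BG CA.BG4
open scoped commutatorElement

universe u

def Ch (p : ℕ) {G : Type*} [Group G] : Subgroup G → Subgroup G → Prop :=
  Relation.ReflTransGen fun N M => M.Normal ∧ M ≤ N ∧ ¬ p ^ 3 ∣ M.relIndex N

theorem Ch.comap {p : ℕ} {G G' : Type*} [Group G] [Group G'] (f : G →* G')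
    (hf : Function.Surjective f) {A B : Subgroup G'} (h : Ch p A B) :
    Ch p (A.comap f) (B.comap f) := by
  induction h with
  | refl => exact .refl
  | tail _ h ih => exact ih.tail ⟨h.1.comap f, comap_mono h.2.1, by
      rw [relIndex_comap, map_comap_eq_self_of_surjective hf]; exact h.2.2⟩

theorem nd {p n : ℕ} (hp : p.Prime) (h0 : n ≠ 0) (h : n ≤ p ^ 2) : ¬ p ^ 3 ∣ n := fun h' =>
  absurd ((Nat.le_of_dvd (Nat.pos_of_ne_zero h0) h').trans h)
    (not_le.2 (Nat.pow_lt_pow_right hp.one_lt (by norm_num)))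

theorem chR {p : ℕ} (hp : p.Prime) (h2 : p ≠ 2) (n : ℕ) : ∀ (G : Type u) [Group G] [Finite G]
    (R : Subgroup G) [R.Normal], Nat.card R < n → IsPGroup p R →
    (∀ t ∈ R, t ^ p = 1 → ∀ g ∈ R, g * t = t * g) → {t ∈ R | t ^ p = 1}.ncard ≤ p ^ 2 →
    Ch p R ⊥ := by
  induction n with
  | zero => intros; omega
  | succ n ih =>
  intro G _ _ R hRn hn hR hc hk
  have := Fact.mk hp
  rcases eq_or_ne R ⊥ with rfl | h0
  · exact .refl
  have semi : ∀ a ∈ R, ∀ b ∈ R, a ^ p = b ^ p → (a * b⁻¹) ^ p = 1 := fun a ha b hb e =>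
    congrArg Subtype.val (CA.Rk2b.semi_aux hp h2 _ R (Nat.lt_succ_self _) hR (fun t ht =>
      mem_center_iff.2 fun g => Subtype.ext (hc t t.2 (congrArg Subtype.val ht) g g.2))
      ⟨a, ha⟩ ⟨b, hb⟩ (Subtype.ext e))
  let N : Subgroup G := {
    carrier := {t ∈ R | t ^ p = 1}
    one_mem' := ⟨one_mem _, one_pow _⟩
    mul_mem' := fun {a b} ha hb => ⟨mul_mem ha.1 hb.1, by
      rw [Commute.mul_pow (hc b hb.1 hb.2 a ha.1), ha.2, hb.2, one_mul]⟩
    inv_mem' := fun ha => ⟨inv_mem ha.1, by rw [inv_pow, ha.2, inv_one]⟩ }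
  have : N.Normal := ⟨fun a ha g => ⟨hRn.conj_mem a ha.1 g, by rw [conj_pow, ha.2]; simp⟩⟩
  have hNR : N ≤ R := fun _ h => h.1
  have hN : N ≠ ⊥ := by
    obtain ⟨x, hx⟩ := exists_prime_orderOf_dvd_card' p ((isPi_of_isPGroup hp hR).dvd_card h0)
    intro e
    have : (x : G) ∈ N := ⟨x.2, by rw [← hx, ← orderOf_coe, pow_orderOf_eq_one]⟩
    rw [e, mem_bot, OneMemClass.coe_eq_one, ← orderOf_eq_one_iff, hx] at this
    exact hp.ne_one this
  have hq : ∀ a : G, (a : G ⧸ N) ^ p = 1 → a ^ p ∈ N := fun a h =>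
    (QuotientGroup.eq_one_iff _).1 (by simpa using h)
  have h1 := (ih (G ⧸ N) (R.map (QuotientGroup.mk' N)) (by
      have h3 := card_mul_relIndex hNR
      have h4 := (one_lt_card_iff_ne_bot N).2 hN
      rw [← QuotientGroup.ker_mk' N, relIndex_ker, QuotientGroup.ker_mk'] at h3
      have h5 := Nat.card_pos (α := R.map (QuotientGroup.mk' N))
      nlinarith) (hR.map _) (by
      rintro _ ⟨t, ht, rfl⟩ e _ ⟨g, hg, rfl⟩
      have h3 := hq t e
      rw [← map_mul, ← map_mul, QuotientGroup.mk'_apply, QuotientGroup.mk'_apply,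
        QuotientGroup.eq_iff_div_mem, div_eq_mul_inv, mul_inv_rev, ← mul_assoc]
      refine ⟨mul_mem (hRn.conj_mem t ht g) (inv_mem ht), semi _ (hRn.conj_mem t ht g) t ht ?_⟩
      rw [conj_pow, hc _ h3.1 h3.2 g hg, mul_inv_cancel_right]) (by
      refine le_trans (Set.ncard_le_ncard_of_injOn (fun x => x.out ^ p) (fun x hx => ?_)
        (fun x hx y hy e => ?_) (Set.toFinite _)) hk
      · exact hq _ (by simpa using hx.2)
      have h3 : ∀ x ∈ R.map (QuotientGroup.mk' N), x.out ∈ R := fun x hx => by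
        rw [← QuotientGroup.out_eq' x] at hx
        simpa [QuotientGroup.ker_mk', sup_eq_left.2 hNR] using
          (comap_map_eq (QuotientGroup.mk' N) R).le hx
      rw [← QuotientGroup.out_eq' x, ← QuotientGroup.out_eq' y, QuotientGroup.eq_iff_div_mem,
        div_eq_mul_inv]
      exact ⟨mul_mem (h3 x hx.1) (inv_mem (h3 y hy.1)), semi _ (h3 x hx.1) _ (h3 y hy.1) e⟩)).comap
    _ (QuotientGroup.mk'_surjective N)
  rw [comap_map_eq, MonoidHom.comap_bot, QuotientGroup.ker_mk', sup_eq_left.2 hNR] at h1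
  refine h1.tail ⟨inferInstance, bot_le, ?_⟩
  rw [relIndex_bot_left]
  exact nd hp Nat.card_pos.ne' hk

theorem exR {G : Type*} [Group G] [Finite G] {p : ℕ} (hp : p.Prime) (h2 : p ≠ 2) {P : Subgroup G}
    (hP : IsPi {p} P) (hr : ¬ PRk p 3 P) : ∃ R U : Subgroup G, 𝓝(P) ≤ 𝓝(R) ∧ R ≤ P ∧
      R.relIndex P ∣ p ^ 2 ∧ ♯U ∣ p ^ 2 ∧ R ≤ 𝓒(U) ∧ ∀ t ∈ R, t ^ p = 1 → t ∈ U := by
  by_cases hc : IsCyclic P
  · have h1 : IsMulCommutative P := IsCyclic.isMulCommutative
    refine ⟨P, Ω₁(p, P), le_rfl, le_rfl, by simp, ?_, cent_of_comm h1 le_rfl (omega_le _ _),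
      fun t ht e => mem_omega ht e⟩
    exact (card_dvd_of_cyc (isCyclic_of_le (omega_le p P)) (exponent_Ohm1_class2 hp h2
      (classLE_two_iff.2 (cent_of_comm h1 (comm_le_left le_normalizer) le_rfl)))).trans (dvd_pow_self p two_ne_zero)
  obtain ⟨h1, h3⟩ := Ohm1_odd_ucn2 hp h2 hP hc
  set E := Ω₁(p, Z2 P)
  have hEZ : E ≤ Z2 P := omega_le _ _
  have hEP : E ≤ P := hEZ.trans (Z2_le P)
  have hE := hP.of_le hEP
  have hn : 𝓝(P) ≤ 𝓝(E) := norm_omega p (norm_Z2 P)
  obtain ⟨U, hU, hU'⟩ : PRk p 2 E := not_not.1 (mt (odd_pgroup_rank1_cyclic hp h2 hE).2 h1)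
  refine ⟨P ⊓ 𝓒(E), U, norm_inf le_rfl (norm_cent hn), inf_le_left, ?_, hU'.2.dvd,
    inf_le_right.trans (cent_anti hU), fun t ht e =>
      (hU'.maxEl hp (hU.trans hEP) hr).mem ht.1 (cent_anti hU ht.2) e⟩
  rw [inf_relIndex_left]
  by_cases h4 : PRk p 2 (E ⊓ 𝓒(P))
  · obtain ⟨V, hV, hV'⟩ := h4
    rw [relIndex_eq_one.2 (cent_symm fun x hx => hV ((hV'.maxEl hp (hV.trans (inf_le_left.trans hEP))
      hr).mem (hEP hx) (cent_symm (hV.trans inf_le_right) (hEP hx)) (h3 x hx)) |>.2)]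
    exact one_dvd _
  obtain ⟨Z, hZ, hZc, hZp⟩ := exists_normal_prime hp hP hE (le_normalizer.trans hn)
    (by rintro e; exact h1 (e ▸ inferInstance))
  have h5 : Z = E ⊓ 𝓒(P) := eq_of_le_of_card_ge (le_inf hZ (cent_symm hZc)) (by
    rw [hZp]
    simpa using Nat.le_of_dvd (pow_pos hp.pos 1) (elem_card_dvd hp ⟨comm_iff_le_cent.2
      (inf_le_right.trans (cent_anti (inf_le_left.trans hEP))), fun x hx => h3 x hx.1⟩ h4))
  refine Nat.dvd_of_mul_dvd_mul_right hp.pos ((relIndex_cent_mul_dvd hp hE hZp hZ hZc ?_).trans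
    (rank2_exponent_p_p3group hp h3 fun h => hr (h.mono hEP)))
  exact h5 ▸ le_inf (comm_le_left (le_normalizer.trans hn))
    (((commutator_mono hEZ le_rfl).trans (comm_Z2_le P)).trans inf_le_right)

theorem ch {p : ℕ} [hp : Fact p.Prime] (h2 : p ≠ 2) (n : ℕ) : ∀ (G : Type u) [Group G] [Finite G],
    Nat.card G < n → IsPSolvable p G → ¬ PRk p 3 (⊤ : Subgroup G) → Ch p (⊤ : Subgroup G) ⊥ := by
  induction n with
  | zero => intros; omega
  | succ n ih =>
  intro G _ _ hn hG hr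
  replace hp := hp.out
  have := Fact.mk hp
  by_cases hO : pPrimeCore p G = ⊥
  swap
  · set N := pPrimeCore p G
    have hN := CA.Core.coprime_pPrimeCore (p := p) (G := G)
    let f : G →* QT N := (qh N).comp ((MonoidHom.id G).codRestrict _ fun x => top_le_norm N ⊤ trivial)
    have hf : Function.Surjective f := fun y => by
      obtain ⟨x, rfl⟩ := qh_surjective N y
      exact ⟨x, rfl⟩
    have hk : f.ker = N := Subgroup.ext fun x =>
      (QuotientGroup.eq_one_iff (N := N.subgroupOf 𝓝(N)) _).trans mem_subgroupOf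
    have h1 := (ih (QT N) (by
      have h3 := f.ker.card_mul_index
      rw [index_ker, MonoidHom.range_eq_top.2 hf, card_top, hk] at h3
      have h4 := (one_lt_card_iff_ne_bot N).2 hO
      have h5 := Nat.card_pos (α := QT N)
      nlinarith) (CA.H12PSolv.psolv_map f hf hG) (fun h => hr
        ((prk_quo_p'_iff hp (top_le_norm N ⊤) (((isPi_compl_iff_coprime hp).2 hN).inf_right _)).1
          (h.mono ((quo_normalizer N).ge.trans (quo_mono N le_top)))))).comap f hf
    rw [comap_top, MonoidHom.comap_bot, hk] at h1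
    refine h1.tail ⟨inferInstance, bot_le, fun h => ?_⟩
    rw [relIndex_bot_left] at h
    exact not_dvd_of_coprime hp hN ((dvd_pow_self p (by norm_num)).trans h) dvd_rfl
  set P := pCore p G
  have hP : IsPi {p} P := isPi_of_isPGroup hp CA.Core.isPGroup_pCore
  have hrP : ¬ PRk p 3 P := fun h => hr (h.mono le_top)
  have hn := top_le_norm P ⊤
  have nrm : ∀ K : Subgroup G, ⊤ ≤ 𝓝(K) → K.Normal := fun K h => normalizer_eq_top_iff.1 (top_unique h)
  obtain ⟨R, U, h1, h3, h4, h5, h6, h7⟩ := exR hp h2 hP hrP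
  have := nrm R (hn.trans h1)
  refine .head ⟨inferInstance, le_top, ?_⟩ (.head ⟨this, h3, nd hp index_ne_zero_of_finite
    (Nat.le_of_dvd (pow_pos hp.pos _) h4)⟩ (chR hp h2 _ G R (Nat.lt_succ_self _)
      ((hP.of_le h3).isPGroup hp) (fun t ht e g hg => (h6 hg t (h7 t ht e)).symm)
      ((Set.ncard_le_ncard (t := U) (fun t ht => h7 t ht.1 ht.2) (Set.toFinite _)).trans
        (Nat.le_of_dvd (pow_pos hp.pos _) (Nat.card_coe_set_eq _ ▸ h5)))))
  obtain ⟨H, k1, k2, k3⟩ := exists_rank2_section hp h2 hP hrP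
  have hH := k1.le_norm hn
  have hF := hH.trans (norm_Phi H)
  obtain ⟨S⟩ : Nonempty (Sylow p G) := inferInstance
  have hD : mpre (qh (Phi H)) 𝓒(H /ᵍ Phi H) ≤ P := by
    have := nrm _ (norm_qpre hF (norm_cent (norm_quo (Phi H) hH)))
    refine CA.Core.le_pCore (IsPi.isPGroup hp fun q hq hd => by_contra fun hqp => ?_)
    have := Fact.mk hq
    obtain ⟨x, hx⟩ := exists_prime_orderOf_dvd_card' q hd
    rw [← orderOf_coe] at hx
    exact hqp (hP.orderOf (CA.H12PSolv.centralizer_pCore_le hG hO (k3 (zpowers (x : G))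
      (le_top.trans hn) (isPi_zpowers.2 (hx ▸ (piNat_prime hq).2 hqp))
      ((quo_le_iff (le_top.trans hF)).2 (zpowers_le.2 x.2)) (mem_zpowers _))) q hq hx.symm.dvd)
  have k4 := relIndex_cent_dvd hp ((isPi_of_isPGroup hp S.isPGroup').mim (qh (Phi H)))
    (norm_quo _ (le_top.trans hH)) k2
  rw [← relIndex_mpre _ _ (le_top.trans hF)] at k4
  rw [relIndex_top_right, ← relIndex_mul_index (CA.Core.isPGroup_pCore.le_sylow_of_normal S)]
  intro h
  have k5 := h.trans (Nat.mul_dvd_mul_right ((relIndex_dvd_of_le_left _ hD).trans k4) _)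
  rw [pow_succ'] at k5
  exact S.not_dvd_index ((dvd_pow_self p two_ne_zero).trans (Nat.dvd_of_mul_dvd_mul_left hp.pos k5))

/-- Let p be an odd prime and G a finite p-solvable group with no elementary abelian subgroup of order p³. Then every chief factor H/K of G (H, K normal in G with no normal subgroup of G strictly between them) whose order is a power of p has order p or p². -/
theorem result {G : Type*} [Group G] [Finite G] {p : ℕ} [Fact p.Prime] (hp : p ≠ 2)
    (hG : Cfsg.IsPSolvable p G) (hr : Cfsg.PRankLE p 2 G)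
    (H K : Subgroup G) [H.Normal] [K.Normal] (hKH : K < H) (hpow : ∃ n : ℕ, K.relIndex H = p ^ n)
    (hchief : ∀ L : Subgroup G, L.Normal → K ≤ L → L ≤ H → L = K ∨ L = H) :
    K.relIndex H = p ∨ K.relIndex H = p ^ 2 := by
  have hp' : p.Prime := Fact.out
  obtain ⟨n, hn⟩ := hpow
  by_contra hc
  have h3 : p ^ 3 ∣ K.relIndex H := by
    rw [hn] at hc ⊢
    refine pow_dvd_pow p (by_contra fun h => ?_)
    obtain rfl | rfl | rfl : n = 0 ∨ n = 1 ∨ n = 2 := by omega
    · exact hKH.not_ge (relIndex_eq_one.1 hn)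
    all_goals simp at hc
  have key : ∀ M, Ch p ⊤ M → H ≤ K ⊔ M := fun M h => by
    induction h with
    | refl => simp
    | @tail N M _ h ih =>
      have := h.1
      rcases hchief (H ⊓ (K ⊔ M)) inferInstance (le_inf hKH.le le_sup_left) inf_le_left with e | e
      · refine absurd (h3.trans ?_) h.2.2
        nth_rw 1 [← e]
        rw [inf_relIndex_left]
        refine (CA.H12PSolv.relIndex_dvd_of_le _ (ih.trans (sup_le_sup_right (le_sup_left (b := M)) N))).trans ?_
        rw [relIndex_sup_left]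
        exact relIndex_dvd_of_le_left _ le_sup_right
      · exact inf_eq_left.1 e
  exact hKH.not_ge (by simpa using key ⊥ (ch hp _ G (Nat.lt_succ_self _) hG ((prankLE_top_iff hp').1 hr)))

end Cfsg.Agent.S1895
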