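import Cfsg.Statements.S1897
import Cfsg.Agent.S0255
import Cfsg.Agent.Lib.Lin.QuadExt
import Cfsg.Agent.Lib.Lin.SmallF

set_option autoImplicit false
open Cfsg

namespace Cfsg.Agent.S1897

open Matrix CA.SmallF Cfsg.Agent.S0255

def mkU (M : Matrix (Fin 3) (Fin 3) F9) (h : M.det = 1 ∧ Mᴴ * M = 1) : Cfsg.SU 3 F9 3 :=
  ⟨⟨M, h.1⟩, (CA.QuadExt.mem_SU_iff (by decide +kernel)).2 h.2⟩

def a : Cfsg.SU 3 F9 3 := mkU !![⟨0, 0⟩, ⟨0, 0⟩, ⟨0, 1⟩; ⟨0, 0⟩, ⟨2, 0⟩, ⟨0, 0⟩; ⟨0, 2⟩, ⟨0, 0⟩, ⟨0, 0⟩]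
  (by rw [det_fin_three]; decide +kernel)
def b : Cfsg.SU 3 F9 3 := mkU !![⟨0, 0⟩, ⟨1, 1⟩, ⟨1, 1⟩; ⟨1, 2⟩, ⟨2, 0⟩, ⟨1, 0⟩; ⟨2, 1⟩, ⟨2, 0⟩, ⟨1, 0⟩]
  (by rw [det_fin_three]; decide +kernel)
def c : Cfsg.SU 3 F9 3 := mkU !![⟨2, 2⟩, ⟨0, 2⟩, ⟨0, 1⟩; ⟨2, 1⟩, ⟨1, 0⟩, ⟨2, 0⟩; ⟨0, 0⟩, ⟨1, 2⟩, ⟨1, 2⟩]
  (by rw [det_fin_three]; decide +kernel)
def c3 : Cfsg.SU 3 F9 3 := mkU !![⟨1, 1⟩, ⟨0, 2⟩, ⟨0, 2⟩; ⟨0, 0⟩, ⟨2, 1⟩, ⟨1, 2⟩; ⟨1, 2⟩, ⟨1, 0⟩, ⟨1, 0⟩]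
  (by rw [det_fin_three]; decide +kernel)
def d : Cfsg.SU 3 F9 3 := mkU !![⟨1, 2⟩, ⟨2, 2⟩, ⟨0, 0⟩; ⟨0, 1⟩, ⟨2, 0⟩, ⟨1, 1⟩; ⟨0, 2⟩, ⟨1, 0⟩, ⟨1, 1⟩]
  (by rw [det_fin_three]; decide +kernel)

theorem ext {x y : Cfsg.SU 3 F9 3} (h : x.1.1 = y.1.1) : x = y := Subtype.ext (Subtype.ext h)

theorem hc : a * b = c := ext (by decide +kernel)
theorem hc3 : c * c * c = c3 := ext (by decide +kernel)
theorem hd : c * c * b = d := ext (by decide +kernel)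
theorem h2 : a ^ 2 = 1 := by rw [sq]; exact ext (by decide +kernel)
theorem h3 : b ^ 3 = 1 := by rw [pow_three]; exact ext (by decide +kernel)
theorem h7 : (a * b) ^ 7 = 1 := by
  rw [hc, show c ^ 7 = c * c * c * (c * c * c) * c by simp only [pow_succ, pow_zero, one_mul, mul_assoc], hc3]; exact ext (by decide +kernel)
theorem h4 : (a * b * a * b * b) ^ 4 = 1 := by
  rw [mul_assoc (a * b) a b, hc, hd, show d ^ 4 = d * d * (d * d) by simp only [pow_succ, pow_zero, one_mul, mul_assoc]]; exact ext (by decide +kernel)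
theorem hn : a * b ≠ b * a := fun h => absurd (congrArg (fun x : Cfsg.SU 3 F9 3 => x.1.1) h) (by decide +kernel)

/-- The projective special unitary group PSU₃(3) (realised over the field with 9 elements) has a subgroup isomorphic to PSL₂(7). -/
theorem result {F : Type*} [Field F] [Fintype F] (hF : Fintype.card F = 9)
    {K : Type*} [Field K] [Fintype K] (hK : Fintype.card K = 7) :
    ∃ H : Subgroup (Cfsg.PSU 3 F 3), Nonempty (H ≃* Matrix.ProjectiveSpecialLinearGroup (Fin 2) K) := by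
  obtain ⟨e⟩ := nonempty_F9 hF
  obtain ⟨k⟩ := Cfsg.Agent.S0255.result hK (ZMod.card 2)
  let g := CA.A8GL4.pslEquivSL (F := ZMod 2) (n := 3) (by norm_num) (by rw [Nat.card_zmod]; rfl)
  have := CA.SLnGen.isSimpleGroup_PSL (ι := Fin 3) (F := ZMod 2) (Or.inl (by simp))
  have := g.symm.isSimpleGroup
  have hc : Nat.card (SpecialLinearGroup (Fin 3) (ZMod 2)) = 168 := by
    have := CA.SLnCard.card_SL (F := ZMod 2) 3 (by norm_num)
    rw [Nat.card_zmod, Fin.prod_univ_three] at this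
    generalize Nat.card (SpecialLinearGroup (Fin 3) (ZMod 2)) = N at this ⊢
    simpa using this
  let π := QuotientGroup.mk' (Subgroup.center (Cfsg.SU 3 F9 3))
  obtain ⟨φ, hφ⟩ := hom hc (x := x3) (y := y3) (by decide +kernel) (by decide +kernel)
    (by decide +kernel) (by decide +kernel) (by decide +kernel) (by decide +kernel) (by decide +kernel)
    (a := π a) (b := π b) (holds (by rw [← map_pow, h2, map_one]) (by rw [← map_pow, h3, map_one])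
      (by rw [← map_mul, ← map_pow, h7, map_one]) (by simp only [← map_mul, ← map_pow, h4, map_one]))
    fun h => hn (Subgroup.mem_center_iff.1 ((QuotientGroup.eq_one_iff _).1 h) a)
  let f := (CA.FieldIso.psuEquiv e 3 3).symm
  exact ⟨_, ⟨(MonoidHom.ofInjective (f := f.toMonoidHom.comp φ) (f.injective.comp hφ)).symm.trans (k.trans g).symm⟩⟩

end Cfsg.Agent.S1897
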