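import Cfsg.Statements.S1899
import Mathlib

set_option autoImplicit false
open Cfsg

namespace Cfsg.Agent.S1899



/-- Let a dihedral group of order 2n, n odd and n > 1, act on a finite abelian 2-group A through automorphisms d and t with d^n = 1, t² = 1 and t d t⁻¹ = d⁻¹, and suppose that d fixes only the identity. Then A is the internal direct product of C_A(t) and its image under d. -/
theorem result {A : Type*} [CommGroup A] [Finite A] (hA : IsPGroup 2 A)
    {n : ℕ} (hn : Odd n) (hn1 : 1 < n) (d t : MulAut A) (hd : d ^ n = 1) (ht : t ^ 2 = 1) (hdt : t * d * t⁻¹ = d⁻¹)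
    (hfix : ∀ a : A, d a = a → a = 1) :
    (MulEquiv.toMonoidHom t).eqLocus (MonoidHom.id A) ⊓ ((MulEquiv.toMonoidHom t).eqLocus (MonoidHom.id A)).map d.toMonoidHom = ⊥ ∧
      (MulEquiv.toMonoidHom t).eqLocus (MonoidHom.id A) ⊔ ((MulEquiv.toMonoidHom t).eqLocus (MonoidHom.id A)).map d.toMonoidHom = ⊤ := by
  have htt : ∀ a, t (t a) = a := fun a => by rw [← MulAut.mul_apply, ← pow_two, ht]; rfl
  have h1 : ∀ a, t (d a) = d⁻¹ (t a) := fun a => by
    rw [← hdt, MulAut.mul_apply, MulAut.mul_apply, MulAut.inv_apply_self]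
  have h2 : ∀ a, t (d⁻¹ a) = d (t a) := fun a => by
    have := h1 (t (d (t a)))
    apply d⁻¹.injective
    have e := h1 (d⁻¹ a)
    rw [MulAut.apply_inv_self] at e
    have e' : d⁻¹ (d (t a)) = t a := MulAut.inv_apply_self _ _ _
    show d⁻¹ (t (d⁻¹ a)) = d⁻¹ (d (t a))
    rw [← e, e']
  have hdd : ∀ a, d (d a) = a → a = 1 := by
    intro a ha
    obtain ⟨m, rfl⟩ := hn
    have : ∀ k : ℕ, (d ^ (2 * k)) a = a := by
      intro k
      induction k with
      | zero => rfl
      | succ k ih => rw [show 2 * (k + 1) = 2 * k + 1 + 1 by ring, pow_succ, pow_succ, MulAut.mul_apply, MulAut.mul_apply, ha, ih]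
    apply hfix
    conv_lhs => rw [← this m]
    rw [← MulAut.mul_apply, ← pow_succ', hd]; rfl
  constructor
  · rw [eq_bot_iff]
    rintro _ ⟨ha, b, hb, rfl⟩
    have ha : t (d b) = d b := ha
    have hb : t b = b := hb
    rw [h1, hb] at ha
    have : d (d b) = b := by rw [← ha, MulAut.apply_inv_self]
    rw [hdd b this]; simp
  · rw [eq_top_iff]
    let f : A →* A := (MonoidHom.id A) / (d.toMonoidHom.comp d.toMonoidHom)
    have hf : ∀ a, f a = a / d (d a) := fun a => rfl
    have hinj : Function.Injective f := (injective_iff_map_eq_one f).2 fun a ha =>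
      hdd a (by rw [hf, div_eq_one] at ha; exact ha.symm)
    intro x _
    obtain ⟨a, rfl⟩ := Finite.surjective_of_injective hinj x
    have e : f a = (a * t a) / d (d⁻¹ (t a) * d a) := by
      rw [hf, map_mul, MulAut.apply_inv_self, mul_comm a, mul_div_mul_left_eq_div]
    rw [e]
    refine Subgroup.div_mem _ (Subgroup.mem_sup_left ?_) (Subgroup.mem_sup_right ⟨_, ?_, rfl⟩)
    · show t (a * t a) = a * t a
      rw [map_mul, htt, mul_comm]
    · show t (d⁻¹ (t a) * d a) = d⁻¹ (t a) * d a
      rw [map_mul, h1, h2, htt, mul_comm]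

end Cfsg.Agent.S1899
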