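import Cfsg.Statements.S1900
import Cfsg.Agent.Lib.Odd.BG1b
import Cfsg.Agent.Lib.Odd.BGMisc

set_option autoImplicit false
open Cfsg

namespace Cfsg.Agent.S1900

open CA.BG CA.OQuo Subgroup

theorem cent_le_der {G : Type*} [Group G] [Finite G] {K X : Subgroup G} (hn : X ≤ 𝓝(K))
    (hc : (♯K).Coprime ♯X) (hs : Group.IsSolvable K) (h : ⁅K, X⁆ = K) : K ⊓ 𝓒(X) ≤ ⁅K, K⁆ := by
  have hK : K ≤ 𝓝(⁅K, K⁆) := (le_norm_self K).trans (norm_der K)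
  have hX : X ≤ 𝓝(⁅K, K⁆) := hn.trans (norm_der K)
  have h1 := cop_quo_cent' hX hK hn hc (Or.inr hs)
  have h2 : K /ᵍ ⁅K, K⁆ ⊓ 𝓒(X /ᵍ ⁅K, K⁆) = ⊥ :=
    coprime_abel_cent_eq_bot (norm_quo _ hn) (cop_mim hc _) ((isMulCommutative_quo_iff hK).2 le_rfl)
      (by rw [← quo_comm hK hX, h])
  rw [h2] at h1
  by_contra hne
  exact quo_ne_bot (inf_le_left.trans hK) hne h1

theorem key {S : Type*} [Group S] [Finite S] {p q : ℕ} (hp : p.Prime) (hq : q.Prime) {P Q X₁ X₂ : Subgroup S}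
    (hP : IsPi {p} P) (hn : Q ≤ 𝓝(P)) (hc : (♯P).Coprime ♯Q) (hQ : El q 2 Q) (h₁ : X₁ ≤ Q) (h₂ : X₂ ≤ Q)
    (hd : (P ⊓ 𝓒(X₂)) ⊓ 𝓒(X₁) = ⊥)
    (honly : ∀ X : Subgroup S, X ≤ Q → ♯X = q → P ⊓ 𝓒(X) ≠ ⊥ → X = X₁ ∨ X = X₂) :
    P ≤ 𝓝(P ⊓ 𝓒(X₂)) := by
  have hs := hP.isSolvable hp
  have hn1 : X₁ ≤ 𝓝(P) := h₁.trans hn
  have hc1 : (♯P).Coprime ♯X₁ := cop_mono hc le_rfl h₁
  have hKP : ⁅P, X₁⁆ ≤ P := comm_le_left hn1
  have hQK : Q ≤ 𝓝(⁅P, X₁⁆) := norm_comm hn (norm_of_comm hQ.comm h₁)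
  have hcK : (♯⁅P, X₁⁆).Coprime ♯Q := cop_mono hc hKP le_rfl
  have h1 := cent_le_der (h₁.trans hQK) (cop_mono hcK le_rfl h₁) (solv_of_le hs hKP)
    (coprime_commGid hn1 hc1 (Or.inr hs))
  have h2 : ⁅P, X₁⁆ ≤ (⁅P, X₁⁆ ⊓ 𝓒(X₂)) ⊔ Phi ⁅P, X₁⁆ := by
    refine coprime_elem_gen_cent hq (k := 0) hQ hQK hcK fun X hX hXq => ?_
    by_cases hb : P ⊓ 𝓒(X) = ⊥
    · rw [CA.BG.eq_bot_mono (inf_le_inf_right _ hKP) hb]; exact bot_le
    rcases honly X hX hXq hb with rfl | rfl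
    · exact (h1.trans (der_le_Phi hp (hP.of_le hKP))).trans le_sup_right
    · exact le_sup_left
  have h3 := Phi_nongen inf_le_left h2
  have h4 : ⁅P, X₁⁆ ≤ P ⊓ 𝓒(X₂) := le_inf hKP (h3 ▸ inf_le_right)
  have hn2 : X₁ ≤ 𝓝(P ⊓ 𝓒(X₂)) := norm_inf hn1 (norm_cent (h₁.trans (norm_of_comm hQ.comm h₂)))
  have h5 := coprime_comm_eq_of_cent hn2 (cop_mono hc1 inf_le_left le_rfl) (Or.inr (solv_of_le hs inf_le_left)) hd
  have h6 : P ⊓ 𝓒(X₂) = ⁅P, X₁⁆ := le_antisymm (h5.ge.trans (comm_mono inf_le_left le_rfl)) h4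
  rw [h6]; exact le_norm_comm_left _ _

/-- Let S = PQ be a finite group with P a normal Sylow p-subgroup and Q elementary abelian of order q², q a prime different from p. If exactly two subgroups X₁, X₂ of order q in Q have a nontrivial centralizer in P, then P is the internal direct product of C_P(X₁) and C_P(X₂): they commute elementwise, meet trivially and generate P. -/
theorem result {S : Type*} [Group S] [Finite S] {p q : ℕ} [Fact p.Prime] [Fact q.Prime] (hpq : p ≠ q)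
    (P : Sylow p S) [(P : Subgroup S).Normal] (Q : Subgroup S) (hQ : Cfsg.IsElementaryAbelian q Q) (hQc : Nat.card Q = q ^ 2)
    (hS : (P : Subgroup S) ⊔ Q = ⊤)
    (X₁ X₂ : Subgroup S) (h₁ : X₁ ≤ Q) (h₂ : X₂ ≤ Q) (h₁₂ : X₁ ≠ X₂) (hc₁ : Nat.card X₁ = q) (hc₂ : Nat.card X₂ = q)
    (hf₁ : (P : Subgroup S) ⊓ Subgroup.centralizer (X₁ : Set S) ≠ ⊥)
    (hf₂ : (P : Subgroup S) ⊓ Subgroup.centralizer (X₂ : Set S) ≠ ⊥)
    (honly : ∀ X : Subgroup S, X ≤ Q → Nat.card X = q →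
      (P : Subgroup S) ⊓ Subgroup.centralizer (X : Set S) ≠ ⊥ → X = X₁ ∨ X = X₂) :
    ⁅(P : Subgroup S) ⊓ Subgroup.centralizer (X₁ : Set S), (P : Subgroup S) ⊓ Subgroup.centralizer (X₂ : Set S)⁆ = ⊥ ∧
      ((P : Subgroup S) ⊓ Subgroup.centralizer (X₁ : Set S)) ⊓ ((P : Subgroup S) ⊓ Subgroup.centralizer (X₂ : Set S)) = ⊥ ∧
      ((P : Subgroup S) ⊓ Subgroup.centralizer (X₁ : Set S)) ⊔ ((P : Subgroup S) ⊓ Subgroup.centralizer (X₂ : Set S)) = P := by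
  have hp : p.Prime := Fact.out
  have hq : q.Prime := Fact.out
  have hP : IsPi {p} (P : Subgroup S) := (syl_top hp P).pi
  have hQ' : El q 2 Q := ⟨hQ, hQc⟩
  have hn : Q ≤ 𝓝((P : Subgroup S)) := top_le_norm _ _
  have hc : (♯(P : Subgroup S)).Coprime ♯Q := hP.coprime_ne (hQ'.pi hq) hpq
  have hd : ((P : Subgroup S) ⊓ 𝓒(X₁)) ⊓ ((P : Subgroup S) ⊓ 𝓒(X₂)) = ⊥ := by
    obtain ⟨Z, hZ, hZq, hZ1, hZ2⟩ := El.exists_ne_two hq (k := 0) hQ' hc₁ hc₂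
    have : (P : Subgroup S) ⊓ 𝓒(Z) = ⊥ := by
      by_contra h; rcases honly Z hZ hZq h with h | h
      exacts [hZ1 h, hZ2 h]
    refine CA.BG.eq_bot_mono (le_inf (inf_le_left.trans inf_le_left) ?_) this
    refine le_trans ?_ (cent_anti hZ)
    rw [← hQ'.sup_eq hq hc₁ hc₂ h₁ h₂ h₁₂]
    exact le_cent_sup (inf_le_left.trans inf_le_right) (inf_le_right.trans inf_le_right)
  have n2 := key hp hq hP hn hc hQ' h₁ h₂ (CA.BG.eq_bot_mono (le_inf (le_inf (inf_le_left.trans inf_le_left) inf_le_right) inf_le_left) hd) honly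
  have n1 := key hp hq hP hn hc hQ' h₂ h₁ (CA.BG.eq_bot_mono (le_inf inf_le_left (le_inf (inf_le_left.trans inf_le_left) inf_le_right)) hd)
    (fun X a b c => (honly X a b c).symm)
  refine ⟨comm_eq_bot_iff.2 (cent_of_norm_disjoint (inf_le_left.trans n2) (inf_le_left.trans n1) hd), hd, ?_⟩
  refine le_antisymm (sup_le inf_le_left inf_le_left) ?_
  refine coprime_elem_gen_cent hq (k := 0) hQ' hn hc fun X hX hXq => ?_
  by_cases hb : (P : Subgroup S) ⊓ 𝓒(X) = ⊥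
  · rw [hb]; exact bot_le
  rcases honly X hX hXq hb with rfl | rfl
  exacts [le_sup_left, le_sup_right]

end Cfsg.Agent.S1900
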