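import Cfsg.Statements.S1901
import Cfsg.Agent.Lib.Odd.BG1b
import Cfsg.Agent.Lib.Odd.BGMisc
import Cfsg.Agent.Lib.Grp.H12PSolv

set_option autoImplicit false
open Cfsg

namespace Cfsg.Agent.S1901

open CA.BG CA.OQuo Subgroup

universe u

theorem isPi_map {G H : Type*} [Group G] [Group H] [Finite G] [Finite H] {π : Set ℕ} {K : Subgroup G} (h : IsPi π K) (f : G →* H) :
    IsPi π (K.map f) := isPi_iff.2 (h.nat.of_dvd (card_map_dvd K f))

theorem key {p : ℕ} [Fact p.Prime] (n : ℕ) : ∀ (G : Type u) [Group G] [Finite G], Nat.card G = n → Cfsg.IsPSolvable p G →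
    ∀ (P : Sylow p G) (Q R : Subgroup G), IsPi {p}ᶜ Q → Q ≤ 𝓝((P : Subgroup G)) → IsPi {p} R → R ≤ 𝓝(Q) → R ≤ 𝓒(Q) := by
  have hp : p.Prime := Fact.out
  induction n using Nat.strong_induction_on with
  | _ n ih =>
  intro G _ _ hn hG P Q R hQ hQP hR hRQ
  by_cases ht : (⊤ : Subgroup G) = ⊥
  · exact (le_top.trans ht.le).trans bot_le
  have step : ∀ (N : Subgroup G) [N.Normal], N ≠ ⊥ → ⁅Q, R⁆ ≤ N := by
    intro N _ hN
    have := ih _ (hn ▸ (by
        have := N.card_mul_index
        have h1 : 1 < Nat.card N := (one_lt_card_iff_ne_bot N).2 hN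
        have h2 : 0 < N.index := Nat.pos_of_ne_zero index_ne_zero_of_finite
        rw [← index_eq_card]; nlinarith)) (G ⧸ N) rfl (CA.H12PSolv.psolv_quotient hG N)
      (P.mapSurjective (QuotientGroup.mk'_surjective N)) (Q.map (QuotientGroup.mk' N)) (R.map (QuotientGroup.mk' N))
      (isPi_map hQ _) ((map_mono hQP).trans (le_normalizer_map _)) (isPi_map hR _)
      ((map_mono hRQ).trans (le_normalizer_map _))
    rw [← comm_eq_bot_iff, ← map_commutator, Subgroup.map_eq_bot_iff, QuotientGroup.ker_mk', comm_symm] at this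
    exact this
  have hQR : ⁅Q, R⁆ ≤ Q := comm_le_left hRQ
  rcases CA.H12PSolv.core_ne_bot hG (M := ⊤) ht with h | h
  · rw [top_inf_eq, ← core_p_top hp] at h
    haveI := normal_of_top_le_norm (le_norm_core {p} (⊤ : Subgroup G))
    have := step _ h
    apply cent_symm
    rw [← comm_eq_bot_iff]
    exact CA.BG.eq_bot_mono (le_inf this hQR) ((core_pi _ _).inf_eq_bot hQ)
  · rw [top_inf_eq, ← core_p'_top hp] at h
    haveI := normal_of_top_le_norm (le_norm_core {p}ᶜ (⊤ : Subgroup G))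
    have h1 := step _ h
    have hP := syl_top hp P
    have h2 : (P : Subgroup G) ≤ 𝓒(⁅Q, R⁆) := by
      apply cent_symm
      exact cent_of_comm_le_disjoint ((comm_mono h1 le_rfl).trans (comm_le_left (top_le_norm _ _)))
        (hQR.trans hQP) (hP.pi.inf_eq_bot (core_pi _ _))
    have h3 : R ≤ 𝓝(⁅Q, R⁆) := le_norm_comm_right _ _
    have h4 : R ≤ 𝓒(⁅Q, R⁆) :=
      hR.le_of_not_dvd hp h3 (norm_cent le_rfl)
        (not_dvd_relIndex_of_le hp (hP.of_le (h2.trans (cent_le_norm _)) le_top) h2)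
    exact coprime_commGG1P hRQ (hQ.coprime' hR) (Or.inl (hR.isSolvable hp)) (cent_symm h4)

/-- Let G be a finite p-solvable group and Q a subgroup of order prime to p such that p divides the index of C_G(Q) in N_G(Q). Then Q normalizes no Sylow p-subgroup of G. -/
theorem result {G : Type*} [Group G] [Finite G] {p : ℕ} [Fact p.Prime]
    (hG : Cfsg.IsPSolvable p G) (Q : Subgroup G) (hQ : ¬ p ∣ Nat.card Q)
    (hA : p ∣ (Subgroup.centralizer (Q : Set G)).relIndex (Subgroup.normalizer (Q : Set G)))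
    (P : Sylow p G) : ¬ Q ≤ Subgroup.normalizer ((P : Subgroup G) : Set G) := by
  intro hQP
  have hp : p.Prime := Fact.out
  obtain ⟨R, hR⟩ := syl_exists hp 𝓝(Q)
  exact not_dvd_relIndex_of_le hp hR
    (key _ G rfl hG P Q R ((isPi_compl_iff hp).2 hQ) hQP hR.pi hR.le) hA

end Cfsg.Agent.S1901
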