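import Cfsg.Statements.S1902
import Cfsg.Agent.S1302
import Cfsg.Agent.Lib.Grp.H12PSolv

set_option autoImplicit false
open Cfsg

namespace Cfsg.Agent.S1902


open Subgroup CA.BG

/-- Let p be an odd prime, G a finite p-solvable group, and B an elementary abelian subgroup of order p² such that B is the subgroup generated by the elements of order p of some Sylow p-subgroup of C_G(b₀), for some nontrivial b₀ ∈ B. Then every B-invariant subgroup of G of order prime to p lies in O_{p'}(G). -/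
theorem result {G : Type*} [Group G] [Finite G] {p : ℕ} [Fact p.Prime] (hp : p ≠ 2)
    (hG : Cfsg.IsPSolvable p G) (B : Subgroup G) (hB : Cfsg.IsElementaryAbelian p B) (hBc : Nat.card B = p ^ 2)
    (b₀ : G) (hb₀ : b₀ ∈ B) (hb₁ : b₀ ≠ 1) (P : Sylow p ↥(Subgroup.centralizer ({b₀} : Set G)))
    (hBP : B = Subgroup.closure {x : G | x ∈ ((P : Subgroup ↥(Subgroup.centralizer ({b₀} : Set G))).map
      (Subgroup.centralizer ({b₀} : Set G)).subtype : Subgroup G) ∧ orderOf x = p})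
    (Q : Subgroup G) (hQ : ¬ p ∣ Nat.card Q) (hinv : ∀ b ∈ B, ∀ x ∈ Q, b * x * b⁻¹ ∈ Q) :
    Q ≤ Cfsg.pPrimeCore p G := by
  have hp' : p.Prime := Fact.out
  have hP := syl_map hp' P
  obtain ⟨T, hT⟩ : ∃ T, T = (P : Subgroup 𝓒₁(b₀)).map 𝓒₁(b₀).subtype := ⟨_, rfl⟩
  rw [← hT] at hP hBP
  have hBp := isPi_of_elem hp' hB
  refine S1302.result p hp (CA.H12PSolv.isPConstrained hG) B (elem_comm hB) (hBp.isPGroup hp')
    (fun x hx ho => ?_) Q hQ fun b hb => mem_norm_of_cj_le fun y hy => ?_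
  · obtain ⟨c, -, hc⟩ := hP.syl_conj_le hp' ((isPi_zpowers.2 (by
      rw [ho]; exact (piNat_prime hp').2 rfl)).sup hBp (norm_of_cent (zpowers_le.2 hx)))
      (sup_le (zpowers_le.2 (cent_le_cent1 hb₀ hx)) (le_cent1_iff.2
        (comm_iff_le_cent.1 (elem_comm hB) hb₀)))
    have h1 : ∀ y ∈ zpowers x ⊔ B, orderOf y = p → c * y * c⁻¹ ∈ B := fun y hy e => by
      rw [hBP]
      exact subset_closure ⟨hc (conj_mem_cj.2 hy), by rwa [← MulAut.conj_apply, MulEquiv.orderOf_eq]⟩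
    have h2 : cj c B ≤ B := fun y hy => by
      obtain ⟨y, h, rfl⟩ := mem_cj'.1 hy
      rcases eq_or_ne y 1 with rfl | e
      · simp
      · exact h1 y ((le_sup_right : B ≤ _) h) (orderOf_eq_prime (elem_pow hB h) e)
    have h3 := h1 x ((le_sup_left : zpowers x ≤ _) (mem_zpowers x)) ho
    rwa [← cj_of_mem_norm (mem_norm_of_cj_le h2), conj_mem_cj] at h3
  · obtain ⟨y, h, rfl⟩ := mem_cj'.1 hy
    exact hinv b hb y h

end Cfsg.Agent.S1902
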