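import Cfsg.Statements.S1903
import Cfsg.Agent.Lib.Grp.Rk3
import Cfsg.Agent.S1248

set_option autoImplicit false
open Cfsg

namespace Cfsg.Agent.S1903

open Subgroup CA.Rk2 CA.PGBasic CA.Two CA.Higman CA.SU3 CA.CForm
open scoped commutatorElement

structure R5 {G : Type*} [Group G] (q a c1 c2 : G) : Prop where
  q5 : q ^ 5 = 1
  z1 : c1 ∈ center G
  z2 : c2 ∈ center G
  s1 : c1 * c1 = 1
  s2 : c2 * c2 = 1
  sq : a * a = c1 * c2
  k1 : ⁅a, q * a * q⁻¹⁆ = c1
  k2 : ⁅a, q * (q * a * q⁻¹) * q⁻¹⁆ = c2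
  pr : (a * q) ^ 5 = 1

theorem cj_c {G : Type*} [Group G] {c : G} (h : c ∈ center G) (g : G) : g * c * g⁻¹ = c := by
  rw [mem_center_iff.1 h g, mul_inv_cancel_right]

theorem cj_comm {G : Type*} [Group G] (g x y : G) :
    ⁅g * x * g⁻¹, g * y * g⁻¹⁆ = g * ⁅x, y⁆ * g⁻¹ := by
  simp only [commutatorElement_def]; group

theorem five {G : Type*} [Group G] {q : G} (h : q ^ 5 = 1) (a : G) :
    q * (q * (q * (q * (q * a * q⁻¹) * q⁻¹) * q⁻¹) * q⁻¹) * q⁻¹ = a := by
  calc _ = q ^ 5 * a * (q ^ 5)⁻¹ := by simp only [pow_succ, pow_zero, one_mul, mul_inv_rev, mul_assoc]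
    _ = a := by rw [h]; simp

theorem prod5 {G : Type*} [Group G] {q : G} (h : q ^ 5 = 1) (a : G) :
    a * (q * a * q⁻¹) * (q * (q * a * q⁻¹) * q⁻¹) * (q * (q * (q * a * q⁻¹) * q⁻¹) * q⁻¹) *
      (q * (q * (q * (q * a * q⁻¹) * q⁻¹) * q⁻¹) * q⁻¹) = (a * q) ^ 5 := by
  calc _ = (a * q) ^ 5 * (q ^ 5)⁻¹ := by simp only [pow_succ]; group
    _ = _ := by rw [h]; simp

theorem R5.card_le {G : Type*} [Group G] [Finite G] {q a c1 c2 : G} (h : R5 q a c1 c2) :
    Nat.card (closure {x | x ∈ [q, a]}) ≤ 320 := by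
  have e5 := five h.q5 a
  have ep := prod5 h.q5 a
  have k1 := h.k1
  have k2 := h.k2
  rw [h.pr] at ep
  obtain ⟨a1, h1⟩ : ∃ y, y = q * a * q⁻¹ := ⟨_, rfl⟩
  rw [← h1] at e5 ep k1 k2
  obtain ⟨a2, h2⟩ : ∃ y, y = q * a1 * q⁻¹ := ⟨_, rfl⟩
  rw [← h2] at e5 ep k2
  obtain ⟨a3, h3⟩ : ∃ y, y = q * a2 * q⁻¹ := ⟨_, rfl⟩
  rw [← h3] at e5 ep
  obtain ⟨a4, h4⟩ : ∃ y, y = q * a3 * q⁻¹ := ⟨_, rfl⟩
  rw [← h4] at e5 ep
  set N := zpowers c1 ⊔ zpowers c2 with hN
  have hNc : N ≤ center G := sup_le (zpowers_le_of_mem h.z1) (zpowers_le_of_mem h.z2)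
  have m1 : c1 ∈ N := mem_sup_left (mem_zpowers _)
  have m2 : c2 ∈ N := mem_sup_right (mem_zpowers _)
  have cN : ∀ {x}, x ∈ N → q * x * q⁻¹ ∈ N := fun hx => by rwa [cj_c (hNc hx)]
  have q0 : a * a ∈ N := h.sq ▸ mul_mem m1 m2
  have q1 : a1 * a1 ∈ N := by rw [h1, conj_mul]; exact cN q0
  have q2 : a2 * a2 ∈ N := by rw [h2, conj_mul]; exact cN q1
  have q3 : a3 * a3 ∈ N := by rw [h3, conj_mul]; exact cN q2
  have c01 : ⁅a, a1⁆ ∈ N := k1 ▸ m1
  have c02 : ⁅a, a2⁆ ∈ N := k2 ▸ m2
  have c12 : ⁅a1, a2⁆ ∈ N := by have := cN c01; rwa [← cj_comm, ← h1, ← h2] at this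
  have c23 : ⁅a2, a3⁆ ∈ N := by have := cN c12; rwa [← cj_comm, ← h2, ← h3] at this
  have c13 : ⁅a1, a3⁆ ∈ N := by have := cN c02; rwa [← cj_comm, ← h1, ← h3] at this
  have c24 : ⁅a2, a4⁆ ∈ N := by have := cN c13; rwa [← cj_comm, ← h2, ← h4] at this
  have c30 : ⁅a3, a⁆ ∈ N := by have := cN c24; rwa [← cj_comm, ← h3, e5] at this
  have b1 := card_le_of_central hNc [a, a1, a2, a3] (by simp [q0, q1, q2, q3])
    (by simp [c01, c02, c12, c23, c13, c30, comm_swap c01, comm_swap c02, comm_swap c12,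
      comm_swap c23, comm_swap c13, comm_swap c30])
  have b2 := card_zz_le h.z1 h.s1 h.s2
  set D := N ⊔ closure {x | x ∈ [a, a1, a2, a3]} with hD
  have n0 : a ∈ D := mem_sup_right (subset_closure (by simp))
  have n1 : a1 ∈ D := mem_sup_right (subset_closure (by simp))
  have n2 : a2 ∈ D := mem_sup_right (subset_closure (by simp))
  have n3 : a3 ∈ D := mem_sup_right (subset_closure (by simp))
  have n4 : a4 ∈ D := by
    rw [eq_inv_of_mul_eq_one_right ep]; exact inv_mem (mul_mem (mul_mem (mul_mem n0 n1) n2) n3)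
  have hq : q ∈ normalizer (D : Set G) := by
    refine CA.SylIn.mem_normalizer_of_forall ?_
    have : D ≤ D.comap (MulAut.conj q).toMonoidHom := by
      refine sup_le (fun x hx => mem_sup_left (cN hx)) ((closure_le _).2 fun x hx => ?_)
      simp only [List.mem_cons, List.not_mem_nil, or_false, Set.mem_setOf_eq] at hx
      change q * x * q⁻¹ ∈ D
      rcases hx with rfl | rfl | rfl | rfl
      exacts [h1 ▸ n1, h2 ▸ n2, h3 ▸ n3, h4 ▸ n4]
    exact this
  have b3 : Nat.card ↥(D ⊔ zpowers q) ≤ Nat.card D * 5 := by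
    by_cases hx : q ∈ D
    · rw [sup_eq_left.2 (zpowers_le_of_mem hx)]; omega
    · exact (card_sup_zpowers Nat.prime_five hq hx (by rw [h.q5]; exact one_mem _)).le
  have b4 : closure {x | x ∈ [q, a]} ≤ D ⊔ zpowers q := (closure_le _).2 fun x hx => by
    simp only [List.mem_cons, List.not_mem_nil, or_false, Set.mem_setOf_eq] at hx
    rcases hx with rfl | rfl
    exacts [mem_sup_right (mem_zpowers _), mem_sup_left n0]
  have b5 := card_le_of_le' b4
  simp only [List.length_cons, List.length_nil] at b1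
  rw [← hN] at b2
  omega

theorem R5.prod {G G' : Type*} [Group G] [Group G'] {q a c1 c2 : G} {q' a' c1' c2' : G'}
    (h : R5 q a c1 c2) (h' : R5 q' a' c1' c2') : R5 (q, q') (a, a') (c1, c1') (c2, c2') :=
  ⟨Prod.ext h.q5 h'.q5, center_prod h.z1 h'.z1, center_prod h.z2 h'.z2, Prod.ext h.s1 h'.s1,
    Prod.ext h.s2 h'.s2, Prod.ext h.sq h'.sq, Prod.ext h.k1 h'.k1, Prod.ext h.k2 h'.k2,
    Prod.ext h.pr h'.pr⟩

theorem comm_le {G : Type*} [Group G] {H : Subgroup G} (h : center G ⊔ H = ⊤) :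
    commutator G ≤ ⁅H, H⁆ := by
  refine commutator_le.2 fun x _ y _ => ?_
  obtain ⟨u, hu, x, hx, rfl⟩ :=
    (mem_sup_of_le_normalizer (le_normalizer_of_normal (K := H))).1 (h.ge (mem_top x))
  obtain ⟨v, hv, y, hy, rfl⟩ :=
    (mem_sup_of_le_normalizer (le_normalizer_of_normal (K := H))).1 (h.ge (mem_top y))
  have : ⁅u * x, v * y⁆ = ⁅x, y⁆ := by
    calc _ = u * (x * v * x⁻¹) * (x * y * x⁻¹ * u⁻¹ * (x * y * x⁻¹)⁻¹) * (⁅x, y⁆ * v⁻¹ * ⁅x, y⁆⁻¹) *
          ⁅x, y⁆ := by simp only [commutatorElement_def]; group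
      _ = _ := by
        rw [cj_c hv, cj_c (inv_mem hu), cj_c (inv_mem hv), mul_assoc u, mem_center_iff.1 (inv_mem hu)]
        group
  rw [this]
  exact commutator_mem_commutator hx hy

theorem mod_five {G : Type*} [Group G] [Finite G] {α : MulAut G} (h : α ^ 5 = 1) {A : Subgroup G}
    (hA : Inv α A) : Nat.card A ≡ Nat.card ↥(A ⊓ α.toMonoidHom.eqLocus (MonoidHom.id G)) [MOD 5] := by
  classical
  haveI := Fintype.ofFinite G
  by_cases h1 : α = 1
  · rw [inf_eq_left.2 fun x _ => show α x = x by rw [h1]; rfl]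
  haveI : Fact (Nat.Prime 5) := ⟨Nat.prime_five⟩
  have ho := orderOf_eq_prime h h1
  set B := A ⊓ α.toMonoidHom.eqLocus (MonoidHom.id G) with hB
  have hd := CA.OrbitSum.card_subgroup_dvd_of_semiregular (zpowers α)
    ((A : Set G).toFinset \ (B : Set G).toFinset) ?_ ?_
  · rw [Finset.card_sdiff_of_subset (Set.toFinset_subset_toFinset.2 (inf_le_left : B ≤ A)), Nat.card_zpowers, ho,
      Set.toFinset_card, Set.toFinset_card, ← Nat.card_eq_fintype_card,
      ← Nat.card_eq_fintype_card] at hd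
    exact ((Nat.modEq_iff_dvd' (card_le_of_le' inf_le_left)).2 hd).symm
  · intro g hg y hy
    simp only [Finset.mem_sdiff, Set.mem_toFinset, SetLike.mem_coe] at hy ⊢
    obtain ⟨k, rfl⟩ := (mem_powers_iff_mem_zpowers.2 hg)
    refine ⟨hA.pow k y hy.1, fun hh => hy.2 ⟨hy.1, ?_⟩⟩
    have e1 : α ((α ^ k) y) = (α ^ k) y := hh.2
    rw [← MulAut.mul_apply, ← pow_succ', pow_succ, MulAut.mul_apply] at e1
    exact (α ^ k).injective e1
  · intro g hg y hy e1
    simp only [Finset.mem_sdiff, Set.mem_toFinset, SetLike.mem_coe] at hy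
    by_contra g1
    refine hy.2 ⟨hy.1, ?_⟩
    have heq : zpowers g = zpowers α := eq_of_le_of_card_le (zpowers_le_of_mem hg) (by
      rw [Nat.card_zpowers, Nat.card_zpowers, ho, orderOf_eq_prime (p := 5)
        (orderOf_dvd_iff_pow_eq_one.1 (ho ▸ orderOf_dvd_of_mem_zpowers hg)) g1])
    exact zpowers_le_of_mem (MulAction.mem_stabilizer_iff.2 e1) (heq.ge (mem_zpowers α))

theorem fix_center {D : Type*} [Group D] [Finite D] (hZ : IsKleinFour (center D)) {α : MulAut D}
    (h : α ^ 5 = 1) {z : D} (hz : z ∈ center D) : α z = z := by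
  by_contra hne
  have e5 : α (α (α (α (α z)))) = z := by simpa [pow_succ] using congrArg (fun ψ : MulAut D => ψ z) h
  have z1 : z ≠ 1 := by rintro rfl; simp at hne
  have hz' := (mem_center_map α).2 hz
  rcases klein_mem hZ hz hz' z1 (by simpa using z1) (Ne.symm hne) ((mem_center_map α).2 hz')
    with e | e | e | e
  · simp [z1] at e
  · rw [e, e] at e5; exact hne e5
  · exact hne (α.injective e)
  · have e3 : α (α (α z)) = z := by
      rw [e, map_mul, e, ← mem_center_iff.1 hz, ← mul_assoc, ← pow_two, klein_sq hZ hz', one_mul]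
    rw [e3, e, mul_eq_left] at e5
    simp [z1] at e5

theorem inv_cases {D : Type*} [Group D] [Finite D] (hD : Nat.card D = 64)
    (hZ : IsKleinFour (center D)) {α : MulAut D} (h : α ^ 5 = 1) (h1 : α ≠ 1) {A : Subgroup D}
    (hA : Inv α A) (hZA : center D ≤ A) : A = center D ∨ A = ⊤ := by
  have hp : IsPGroup 2 D := IsPGroup.of_card (n := 6) hD
  have key : ∀ B : Subgroup D, center D ≤ B → Nat.card B ≡ 4 [MOD 5] → B = center D ∨ B = ⊤ := by
    intro B hB hm
    obtain ⟨k, hk⟩ := exists_card_eq_pow hp B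
    have h2 := card_le_of_le' (le_top (a := B))
    rw [card_top, hD, hk] at h2
    have h3 : k ≤ 6 := (Nat.pow_le_pow_iff_right (by norm_num : 1 < 2)).1 h2
    rw [hk] at hm
    have : k = 2 ∨ k = 6 := by interval_cases k <;> simp_all [Nat.ModEq]
    rcases this with rfl | rfl
    · exact Or.inl (eq_of_le_of_card_le hB (by rw [hk, hZ.card_four]; rfl)).symm
    · exact Or.inr (eq_of_le_of_card_le le_top (by rw [card_top, hk, hD]; rfl))
  have hF : center D ≤ α.toMonoidHom.eqLocus (MonoidHom.id D) := fun z hz => fix_center hZ h hz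
  have h2 := mod_five h (A := ⊤) fun _ _ => mem_top _
  rw [card_top, hD, top_inf_eq] at h2
  have h3 := (key _ hF (h2.symm.trans (by decide))).resolve_right fun e =>
    h1 (MulEquiv.ext fun x => e.ge (mem_top x))
  have h4 := mod_five h hA
  rw [h3, inf_eq_right.2 hZA, hZ.card_four] at h4
  exact key A hZA h4

theorem sq_eq {D : Type*} [Group D] {α : MulAut D} (hsq : ∀ x : D, x * x ∈ center D)
    (sqZ : ∀ z ∈ center D, z * z = 1) (hf : ∀ z ∈ center D, α z = z) {a : D}
    (e5 : α (α (α (α (α a)))) = a)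
    (hpr : a * α a * α (α a) * α (α (α a)) * α (α (α (α a))) = 1) :
    a * a = ⁅a, α a⁆ * ⁅a, α (α a)⁆ := by
  have hcc : ∀ x y : D, ⁅x, y⁆ ∈ center D := fun x y =>
    CA.Higman.comm_mem (X := ⊤) (fun x _ => hsq x) (mem_top x) (mem_top y)
  have fx : ∀ x y, ⁅α x, α y⁆ = ⁅x, y⁆ := fun x y => by
    rw [← map_commutatorElement, hf _ (hcc _ _)]
  have fs : ∀ x, α x * α x = x * x := fun x => by rw [← map_mul, hf _ (hsq _)]
  have cs : ∀ x y : D, ⁅x, y⁆ = ⁅y, x⁆ := fun x y => by
    rw [← commutatorElement_inv, inv_eq_of_mul_eq_one_right (sqZ _ (hcc _ _))]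
  have cr : ∀ x y w : D, ⁅x, y * w⁆ = ⁅x, y⁆ * ⁅x, w⁆ := fun x y w =>
    CA.PGClassTwo.comm_mul_right (CA.PGClassTwo.commute_of_mem_center (hcc x w) y)
  have h3 : ⁅α (α (α a)), a⁆ = ⁅a, α (α a)⁆ := by
    conv_lhs => enter [2]; rw [← e5]
    rw [fx, fx, fx]
  have h1 := fs (α (α (α a)))
  rw [eq_inv_of_mul_eq_one_right hpr, ← mul_inv_rev, inv_eq_of_mul_eq_one_right (sqZ _ (hsq _)),
    sq_mul' (hcc _ _), sq_mul' (hcc _ _), sq_mul' (hcc _ _)] at h1
  simp only [fs, cr, fx, h3, cs (α a) a, cs (α (α a)) a, sqZ _ (hsq a), one_mul] at h1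
  have m1 := mem_center_iff.1 (hcc a (α a))
  have s1 := sqZ _ (hcc a (α a))
  have s2 := sqZ _ (hcc a (α (α a)))
  have s3 := sqZ _ (hsq a)
  have m3 := mem_center_iff.1 (hsq a)
  generalize ⁅a, α a⁆ = c1 at *
  generalize ⁅a, α (α a)⁆ = c2 at *
  generalize a * a = z at *
  rw [← h1]
  calc _ = c1 * (z * (c2 * c1) * z) * (c2 * c2) * c1 := by simp only [mul_assoc]
    _ = _ := by
      rw [s2, mul_one, mul_assoc z, m3, ← mul_assoc z, s3, one_mul, mul_assoc, mul_assoc, s1, mul_one]

theorem exists_R5 {G : Type*} [Group G] [Finite G] (hG : Nat.card G = 320)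
    (hD : Nat.card (commutator G) = 64) (hZ : IsKleinFour (center (commutator G))) :
    ∃ q a c1 c2 : G, R5 q a c1 c2 ∧ closure {x | x ∈ [q, a]} = ⊤ := by
  haveI : Fact (Nat.Prime 5) := ⟨Nat.prime_five⟩
  obtain ⟨q, hq⟩ := exists_prime_orderOf_dvd_card' (G := G) 5 (by rw [hG]; norm_num)
  have q5 : q ^ 5 = 1 := hq ▸ pow_orderOf_eq_one q
  have hqD : q ∉ commutator G := fun h => by
    have := Subgroup.orderOf_dvd_natCard _ h
    rw [hq, hD] at this; omega
  have hi : (commutator G).index = 5 := by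
    have := (commutator G).card_mul_index
    rw [hG, hD] at this; omega
  have htop := sup_zpowers_eq_top_of_index_prime Nat.prime_five hi hqD
  have hp : IsPGroup 2 (commutator G) := IsPGroup.of_card (n := 6) hD
  set α : MulAut (commutator G) := MulAut.conjNormal q with hα
  have α5 : α ^ 5 = 1 := by rw [hα, ← map_pow, q5, map_one]
  have cen : ∀ z : commutator G, z ∈ center (commutator G) → z.1 ∈ center G := fun z hz => by
    have : commutator G ⊔ zpowers q ≤ centralizer {z.1} := sup_le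
      (fun x hx => mem_centralizer_singleton_iff.2 (congrArg Subtype.val (mem_center_iff.1 hz ⟨x, hx⟩)))
      (zpowers_le_of_mem (mem_centralizer_singleton_iff.2
        (mul_inv_eq_iff_eq_mul.1 (congrArg Subtype.val (fix_center hZ α5 hz)))))
    exact mem_center_iff.2 fun g => mem_centralizer_singleton_iff.1 (this (htop.ge (mem_top g)))
  have hZt : center (commutator G) ≠ ⊤ := fun e => by
    have := hZ.card_four
    rw [e, card_top, hD] at this; omega
  have α1 : α ≠ 1 := fun e => by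
    have hq' : q ∈ centralizer (commutator G : Set G) := fun x hx =>
      (mul_inv_eq_iff_eq_mul.1 (congrArg Subtype.val
        (congrArg (fun ψ : MulAut (commutator G) => ψ ⟨x, hx⟩) e))).symm
    have hqc : q ∈ center G := by
      have : commutator G ⊔ zpowers q ≤ centralizer {q} := sup_le
        (fun x hx => mem_centralizer_singleton_iff.2 (hq' x hx))
        (zpowers_le_of_mem (mem_centralizer_singleton_iff.2 rfl))
      exact mem_center_iff.2 fun g => mem_centralizer_singleton_iff.1 (this (htop.ge (mem_top g)))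
    refine (commutator_lt hp.isNilpotent le_rfl le_rfl le_normalizer fun e => ?_).not_ge
      (comm_le (eq_top_iff.2 (htop.ge.trans (sup_le le_sup_right
        (zpowers_le_of_mem (mem_sup_left hqc))))))
    rw [e, card_bot] at hD; omega
  have hsq : ∀ x : commutator G, x * x ∈ center (commutator G) := by
    have hi : Inv α (center (commutator G)) := fun z hz => (mem_center_map α).2 hz
    rcases inv_cases hD hZ α5 α1 (hi.sup (Inv.Sq (X := ⊤) fun _ _ => mem_top _)) le_sup_left with e | e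
    · exact fun x => e.le (mem_sup_right (sq_mem_Sq (mem_top x)))
    · exact absurd (nak (hp.to_subgroup ⊤) le_top e.ge) hZt
  have hcc : ∀ x y : commutator G, ⁅x, y⁆ ∈ center (commutator G) := fun x y =>
    CA.Higman.comm_mem (X := ⊤) (fun x _ => hsq x) (mem_top x) (mem_top y)
  have hC : ∀ x : commutator G, x⁻¹ * α x ∈ center (commutator G) → x ∈ center (commutator G) := by
    let C : Subgroup (commutator G) :=
      { carrier := {x | x⁻¹ * α x ∈ center (commutator G)}
        one_mem' := by simp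
        mul_mem' := fun {x y} hx hy => by
          change (x * y)⁻¹ * α (x * y) ∈ center (commutator G)
          rw [mul_inv_rev, map_mul, mul_assoc, ← mul_assoc x⁻¹, ← mem_center_iff.1 hx, ← mul_assoc]
          exact mul_mem hy hx
        inv_mem' := fun {x} hx => by
          change x⁻¹⁻¹ * α x⁻¹ ∈ center (commutator G)
          have := (inferInstance : (center (commutator G)).Normal).conj_mem _
            (inv_mem (show x⁻¹ * α x ∈ _ from hx)) x
          simpa [mul_assoc] using this }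
    rcases inv_cases hD hZ α5 α1 (A := C) (fun x hx => by
        change (α x)⁻¹ * α (α x) ∈ center (commutator G)
        rw [← map_inv, ← map_mul]; exact (mem_center_map α).2 hx)
      (fun z hz => mul_mem (inv_mem hz) ((mem_center_map α).2 hz)) with e | e
    · exact fun x hx => e.le hx
    · exact absurd (CA.PGCritical.eq_one_of_stabilizes hp
        (Nat.Coprime.coprime_dvd_left (orderOf_dvd_of_pow_eq_one α5) (by norm_num))
        (fun z hz => fix_center hZ α5 hz) fun x => e.ge (mem_top x)) α1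
  have coe : ∀ x : commutator G, (α x).1 = q * x * q⁻¹ := fun _ => rfl
  have pr : ∀ a : commutator G, (a * α a * α (α a) * α (α (α a)) * α (α (α (α a)))).1 =
      (a.1 * q) ^ 5 := fun a => prod5 q5 a.1
  obtain ⟨b, hb⟩ : ∃ b : commutator G, b ∉ center (commutator G) := by
    by_contra hh; push Not at hh; exact hZt ((eq_top_iff' _).2 hh)
  set w := b * α b * α (α b) * α (α (α b)) * α (α (α (α b))) with hw
  have hwZ : w ∈ center (commutator G) := hC w (by
    have : w⁻¹ * α w = ⁅w⁻¹, b⁻¹⁆ := Subtype.ext (by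
      have h1 : b.1 * q * w.1 = w.1 * (b.1 * q) := by rw [pr b, ← pow_succ, ← pow_succ']
      have h2 : q * w.1 * q⁻¹ = b.1⁻¹ * w.1 * b.1 := by
        calc _ = b.1⁻¹ * (b.1 * q * w.1) * q⁻¹ := by group
          _ = _ := by rw [h1]; group
      simp only [coe_mul, coe_inv, coe, h2, commutatorElement_def, inv_inv, mul_assoc])
    rw [this]; exact hcc _ _)
  set a := b * w with ha
  have haZ : a ∉ center (commutator G) := fun h => hb ((mul_mem_cancel_right hwZ).1 h)
  have sqZ : ∀ {z : commutator G}, z ∈ center (commutator G) → z * z = 1 := fun hz => by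
    rw [← pow_two]; exact klein_sq hZ hz
  have hpr : (a.1 * q) ^ 5 = 1 := by
    have h1 : a.1 * q = b.1 * q * w.1 := by
      rw [ha, coe_mul, mul_assoc, ← mem_center_iff.1 (cen w hwZ), mul_assoc]
    have h2 : w.1 * w.1 = 1 := congrArg Subtype.val (sqZ hwZ)
    rw [h1, (show Commute (b.1 * q) w.1 from mem_center_iff.1 (cen w hwZ) _).mul_pow, ← pr b, ← hw,
      ← pow_succ', show 5 + 1 = 2 * 3 from rfl, pow_mul, pow_two, h2, one_pow]
  have hpr' : a * α a * α (α a) * α (α (α a)) * α (α (α (α a))) = 1 :=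
    Subtype.ext ((pr a).trans hpr)
  have e5 : α (α (α (α (α a)))) = a := by
    simpa [pow_succ] using congrArg (fun ψ : MulAut (commutator G) => ψ a) α5
  have hsq' := sq_eq hsq (fun z => sqZ) (fun z => fix_center hZ α5) e5 hpr'
  refine ⟨q, a, (⁅a, α a⁆ : commutator G), (⁅a, α (α a)⁆ : commutator G), ⟨q5, cen _ (hcc _ _), cen _ (hcc _ _),
    congrArg Subtype.val (sqZ (hcc _ _)), congrArg Subtype.val (sqZ (hcc _ _)),
    congrArg Subtype.val hsq', rfl, rfl, hpr⟩, ?_⟩
  set H := closure {x | x ∈ [q, a.1]} with hH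
  have m1 : q ∈ H := subset_closure (by simp)
  have m2 : a.1 ∈ H := subset_closure (by simp)
  have h1 := (inv_cases hD hZ α5 α1 (A := center _ ⊔ H.subgroupOf (commutator G))
    (Inv.sup (fun z hz => (mem_center_map α).2 hz) fun x hx =>
      mul_mem (mul_mem m1 (mem_subgroupOf.1 hx)) (inv_mem m1)) le_sup_left).resolve_left
    fun e => haZ (e.le (mem_sup_right m2))
  have h2 : commutator G ≤ center G ⊔ H := fun x hx => by
    have : center _ ⊔ H.subgroupOf (commutator G) ≤ (center G ⊔ H).subgroupOf (commutator G) :=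
      sup_le (fun z hz => mem_sup_left (cen z hz)) fun y hy => mem_sup_right hy
    exact this (h1.ge (mem_top ⟨x, hx⟩))
  have h3 := (comm_le (eq_top_iff.2 (htop.ge.trans (sup_le h2
    (zpowers_le_of_mem (mem_sup_right m1)))))).trans (commutator_le_self H)
  exact eq_top_iff.2 (htop.ge.trans (sup_le h3 (zpowers_le_of_mem m1)))

theorem unique {G G' : Type*} [Group G] [Finite G] [Group G'] [Finite G'] (hG : Nat.card G = 320)
    (hD : Nat.card (commutator G) = 64) (hZ : IsKleinFour (center (commutator G)))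
    (hG' : Nat.card G' = 320)
    (hD' : Nat.card (commutator G') = 64) (hZ' : IsKleinFour (center (commutator G'))) :
    Nonempty (G ≃* G') := by
  obtain ⟨q, a, c1, c2, g, e⟩ := exists_R5 hG hD hZ
  obtain ⟨q', a', c1', c2', g', e'⟩ := exists_R5 hG' hD' hZ'
  have hc := (g.prod g').card_le
  obtain ⟨f, -⟩ := nonempty_equiv_of_prod _ (by rw [map_closure_list]; exact e)
    (by rw [map_closure_list]; exact e') (hG ▸ hc) (hG' ▸ hc)
  exact ⟨f⟩

theorem model {F : Type*} [Field F] [Fintype F] (hF : Fintype.card F = 4 ^ 2) :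
    ∃ t : SJ hF, orderOf t = 2 ∧ Nat.card (centralizer {t}) = 320 ∧
      Nat.card (commutator (centralizer {t})) = 64 ∧
      IsKleinFour (center (commutator (centralizer {t}))) := by
  have h2 : (2 : F) = 0 := S1141.two_eq_zero (n := 2) hF
  obtain ⟨ρ, hρ⟩ := U34.of_suzuki (S1141.suzuki (n := 2) le_rfl hF) card_Hs card_center_Hs
  let x0 : Hs hF := ⟨0, 1, by simp only [map_one, zero_mul, add_zero]; linear_combination h2⟩
  have x1 : x0 ≠ 1 := fun e => one_ne_zero (congrArg Hs.b e)
  have xc : x0 ∈ center (Hs hF) := mem_center_Hs.2 rfl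
  obtain ⟨l, hl, hl1⟩ := exists_norm_one_ne_one hF
  have l0 : l ≠ 0 := by rintro rfl; simp at hl
  haveI : Fact (Nat.Prime 5) := ⟨Nat.prime_five⟩
  have lo : orderOf (Units.mk0 l l0) = 5 :=
    orderOf_eq_prime (Units.ext (by simpa using hl)) fun e => hl1 (congrArg Units.val e)
  have hμ : ∀ m : Fˣ, m ^ 5 = 1 → m ∈ zpowers (Units.mk0 l l0) := fun m hm => by
    have : zpowers (Units.mk0 l l0) = (powMonoidHom 5 : Fˣ →* Fˣ).ker := by
      refine eq_of_le_of_card_le (zpowers_le_of_mem (lo ▸ pow_orderOf_eq_one _)) ?_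
      rw [Nat.card_zpowers, lo]
      exact (Nat.card_le_card_of_injective
        (fun m => ⟨m.1.1, by simpa using congrArg Units.val (show m.1 ^ 5 = 1 from m.2)⟩)
        fun a b e => Subtype.ext (Units.ext (congrArg Subtype.val e))).trans
        (card_pow_eq_one (F := F) (d := 5) (by rw [hF]; norm_num) (by norm_num)).le
    exact this.ge hm
  set u := Units.mk0 l l0 with hu
  have lc : l * conj hF l = 1 := by rw [CA.CForm.conj_apply, ← pow_succ', hl]
  have hU : (ι hF).range ≤ centralizer {ι hF x0} := by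
    rintro _ ⟨x, rfl⟩
    exact mem_centralizer_singleton_iff.2 (by rw [← map_mul, mem_center_iff.1 xc, map_mul])
  have hd : d hF u ∈ centralizer {ι hF x0} := mem_centralizer_singleton_iff.2 (by
    rw [d_mul_ι]; congr 2; ext <;> simp [x0, hu, lc])
  have hn : d hF u ∈ normalizer ((ι hF).range : Set (SJ hF)) := by
    simpa using borel_mem_normalizer (1 : Hs hF) u
  have hC : (ι hF).range ⊔ zpowers (d hF u) = centralizer {ι hF x0} := by
    refine le_antisymm (sup_le hU (zpowers_le_of_mem hd)) fun g hg => ?_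
    obtain ⟨x, m, rfl⟩ := borel_of_mul x1 (mem_centralizer_singleton_iff.1 hg).symm
    have h1 := mem_centralizer_singleton_iff.1 ((mul_mem_cancel_left (hU ⟨x, rfl⟩)).1 hg)
    rw [d_mul_ι, mul_left_inj] at h1
    have h3 := congrArg Hs.b (ι_injective h1)
    simp only [sc_b, x0, mul_one] at h3
    obtain ⟨k, rfl⟩ := hμ m (Units.ext (by
      rw [CA.CForm.conj_apply, ← pow_succ'] at h3; simpa using h3))
    exact mul_mem (mem_sup_left ⟨x, rfl⟩) (mem_sup_right ⟨k, (map_zpow _ _ _).symm⟩)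
  have hdU : d hF u ∉ (ι hF).range := fun h => by
    have := Subgroup.orderOf_dvd_natCard _ h
    rw [orderOf_injective _ d_injective, lo, card_range] at this
    omega
  have hcomm : ⁅centralizer {ι hF x0}, centralizer {ι hF x0}⁆ = (ι hF).range := by
    have hN : centralizer {ι hF x0} ≤ normalizer ((ι hF).range : Set (SJ hF)) :=
      hC.ge.trans (sup_le le_normalizer (zpowers_le_of_mem hn))
    refine le_antisymm (commutator_le.2 fun x hx y hy => ?_) ?_
    · obtain ⟨a, ha, i, rfl⟩ := (mem_sup_zpowers hn).1 (hC.ge hx)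
      obtain ⟨b, hb, j, rfl⟩ := (mem_sup_zpowers hn).1 (hC.ge hy)
      have : ⁅a * d hF u ^ i, b * d hF u ^ j⁆ = a * (d hF u ^ i * b * (d hF u ^ i)⁻¹) *
          (d hF u ^ j * a⁻¹ * (d hF u ^ j)⁻¹) * b⁻¹ := by
        simp only [commutatorElement_def]; group
      rw [this]
      exact mul_mem (mul_mem (mul_mem ha (CA.SylIn.conj_mem_of_mem_normalizer (zpow_mem hn i) hb))
        (CA.SylIn.conj_mem_of_mem_normalizer (zpow_mem hn j) (inv_mem ha))) (inv_mem hb)
    · have hZ : ∀ z ∈ center (Hs hF), ι hF z ∈ ⁅centralizer {ι hF x0}, centralizer {ι hF x0}⁆ := by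
        intro z hz
        rw [(S1248.aux hρ).2.2.2.1] at hz
        refine commutator_mono hU hU ?_
        rw [MonoidHom.range_eq_map, ← map_commutator]
        exact ⟨z, hz, rfl⟩
      rintro _ ⟨x, rfl⟩
      have h3 : l * l * l - 1 ≠ 0 := fun e => hl1 (by
        have : l ^ 5 = (l * l * l) * (l * l) := by ring
        have h4 : l * l = 1 := by rw [this, sub_eq_zero.1 e, one_mul] at hl; exact hl
        rw [h4] at e; simpa using sub_eq_zero.1 e)
      obtain ⟨t, ht⟩ := Kind.exists_trace_eq _ (CA.CForm.conj_conj hF) (conj_ne_id hF)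
        (-(x.a / (l * l * l - 1) * conj hF (x.a / (l * l * l - 1))))
        (by simp only [map_neg, map_mul, CA.CForm.conj_conj, mul_comm])
      let y : Hs hF := ⟨x.a / (l * l * l - 1), t, by linear_combination ht⟩
      have h4 : ι hF (sc u y * y⁻¹) ∈ ⁅centralizer {ι hF x0}, centralizer {ι hF x0}⁆ := by
        rw [map_mul, ← d_conj, map_inv]
        exact commutator_mem_commutator hd (hU ⟨y, rfl⟩)
      have h5 : (sc u y * y⁻¹)⁻¹ * x ∈ center (Hs hF) := mem_center_Hs.2 (by
        simp only [mul_a, inv_a, sc_a, y, hu, Units.val_mk0]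
        have := div_mul_cancel₀ x.a h3
        rw [← eq_inv_of_mul_eq_one_left lc] 
        linear_combination -this)
      have := mul_mem h4 (hZ _ h5)
      rwa [← map_mul, mul_inv_cancel_left] at this
  have e : commutator (centralizer {ι hF x0}) ≃* Hs hF :=
    ((equivMapOfInjective _ _ (subtype_injective _)).trans (MulEquiv.subgroupCongr
      ((map_subtype_commutator _).trans hcomm))).trans (MonoidHom.ofInjective ι_injective).symm
  refine ⟨ι hF x0, ?_, ?_, by rw [Nat.card_congr e.toEquiv, card_Hs]; rfl, (hρ.map e.symm).om.kl⟩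
  · rw [orderOf_injective _ ι_injective]
    exact orderOf_eq_prime (by rw [pow_two, hρ.om.sq xc]) x1
  · rw [← hC, card_sup_zpowers Nat.prime_five hn hdU
      (by rw [← map_pow, ← lo, pow_orderOf_eq_one, map_one]; exact one_mem _), card_range]; rfl

/-- A finite group of order 320 whose derived subgroup has order 64 and has centre a Klein four-group is isomorphic to the centralizer of an involution in PSU₃(4). -/
theorem result {G : Type*} [Group G] [Finite G] (hG : Nat.card G = 320) (hD : Nat.card (commutator G) = 64)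
    (hZ : IsKleinFour (Subgroup.center (commutator G)))
    {F : Type*} [Field F] [Fintype F] (hF : Fintype.card F = 16) :
    ∃ t : Cfsg.PSU 3 F 4, orderOf t = 2 ∧ Nonempty (G ≃* Subgroup.centralizer ({t} : Set (Cfsg.PSU 3 F 4))) := by
  obtain ⟨t, h1, h2, h3, h4⟩ := model (F := F) hF
  obtain ⟨π, hs, hk⟩ := exists_π (q := 4) hF
  have hi : Function.Injective π := by
    rw [← MonoidHom.ker_eq_bot_iff, hk, ← card_eq_one, card_center]; rfl
  obtain ⟨e⟩ := unique hG hD hZ h2 h3 h4
  refine ⟨π t, by rw [orderOf_injective _ hi, h1],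
    ⟨e.trans ((equivMapOfInjective _ π hi).trans (MulEquiv.subgroupCongr ?_))⟩⟩
  ext g
  obtain ⟨g, rfl⟩ := hs g
  rw [mem_map_iff_mem hi, mem_centralizer_singleton_iff, mem_centralizer_singleton_iff, ← map_mul,
    ← map_mul, hi.eq_iff]

end Cfsg.Agent.S1903
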