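import Cfsg.Statements.S3763
import Cfsg.Agent.Lib.Grp.H7Ext

set_option autoImplicit false
open Cfsg

namespace Cfsg.Agent.S3763

open CA.H7Ext

/-- Let E be an extraspecial 2-group of order 2^(2n+1). Then the largest elementary abelian subgroups of E have order 2^n or 2^(n+1); and two extraspecial 2-groups of the same order whose largest elementary abelian subgroups have the same order are isomorphic. -/
theorem result {E : Type*} [Group E] [Finite E] (hE : Cfsg.IsExtraspecial 2 E) (n : ℕ) (hn : Nat.card E = 2 ^ (2 * n + 1)) : ((Cfsg.PRankLE 2 n E ∧ ¬ Cfsg.PRankLE 2 (n - 1) E) ∨ (Cfsg.PRankLE 2 (n + 1) E ∧ ¬ Cfsg.PRankLE 2 n E)) ∧ ∀ (E' : Type*) [Group E'] [Finite E'], Cfsg.IsExtraspecial 2 E' → Nat.card E' = Nat.card E → (∀ k : ℕ, Cfsg.PRankLE 2 k E ↔ Cfsg.PRankLE 2 k E') → Nonempty (E ≃* E') := by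
  have key : ∀ {X : Type _} [Group X] [Finite X] {j m : ℕ} (c : Cov 2 X (Fin j → ZMod 2)),
      c.orth.IsIndex m → PRankLE 2 (m + 1) X ∧ ¬ PRankLE 2 m X := fun c h => by
    obtain ⟨⟨A, h1, h2⟩, h3⟩ := c.rank h
    refine ⟨fun B _ hB => h3 B hB, fun h4 => ?_⟩
    have := h4 A h1.1 h1.2
    rw [h2, Nat.pow_le_pow_iff_right one_lt_two] at this
    omega
  obtain ⟨k, m, c, -, a1, a2, a3, a4⟩ := exists_two hE
  rw [a3, Nat.pow_right_inj one_lt_two] at hn
  obtain rfl : n = k + 1 := by omega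
  refine ⟨?_, fun F _ _ hF h1 h2 => ?_⟩
  · rcases a4 with ⟨rfl, -⟩ | ⟨rfl, -⟩
    · exact Or.inr (key c a2)
    · exact Or.inl (key c a2)
  obtain ⟨j, l, d, -, b1, b2, b3, b4⟩ := exists_two hF
  rw [a3, b3, Nat.pow_right_inj one_lt_two] at h1
  obtain rfl : k = j := by omega
  obtain ⟨⟨A, g1, g2⟩, g3⟩ := c.rank a2
  obtain ⟨⟨B, f1, f2⟩, f3⟩ := d.rank b2
  have e1 := (h2 _).1 (fun B _ hB => g3 B hB) B f1.1 f1.2
  have e2 := (h2 _).2 (fun B _ hB => f3 B hB) A g1.1 g1.2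
  rw [f2, Nat.pow_le_pow_iff_right one_lt_two] at e1
  rw [g2, Nat.pow_le_pow_iff_right one_lt_two] at e2
  obtain rfl : m = l := by omega
  exact iso_of_index a1 a2 b1 b2

end Cfsg.Agent.S3763
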