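import Cfsg.Statements.S1904
import Cfsg.Agent.Lib.Grp.Rk2
import Cfsg.Agent.Lib.Grp.PGDihedral
import Cfsg.Agent.Lib.Grp.PGNormalCyclic
import Cfsg.Agent.Lib.Grp.PGFrattini
import Cfsg.Agent.Lib.Grp.Fitting
import Cfsg.Agent.S4416
import Cfsg.Agent.S3763
import Cfsg.Agent.S0095
import Cfsg.Agent.S0119

set_option autoImplicit false
open Cfsg

set_option linter.unusedVariables false
set_option linter.unusedSimpArgs false
set_option linter.style.haveILetI false

namespace Cfsg.Agent.S1904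

open Subgroup CA.PGBasic CA.PGClassTwo CA.PGFrattini CA.PGCritical CA.PGNormalCyclic CA.Two CA.Rk2
open scoped commutatorElement

variable {X : Type*} [Group X] [Finite X]

structure Hyp (A : Subgroup (MulAut X)) : Prop where
  pg : IsPGroup 2 X
  na : ¬ ∀ x y : X, x * y = y * x
  el : ∀ E : Subgroup X, E.Normal → Cfsg.IsElementaryAbelian 2 E → Nat.card E ≤ 4
  odd : Odd (Nat.card A)
  gen : closure {g : X | ∃ φ ∈ A, ∃ x : X, g = x⁻¹ * φ x} = ⊤

def Concl (X : Type*) [Group X] : Prop :=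
  Nonempty (X ≃* QuaternionGroup 2) ∨
      (Cfsg.IsSpecial 2 X ∧ Nat.card X = 64 ∧ Nat.card {x : X // orderOf x = 2} = 3 ∧
        ∀ x : X, orderOf x = 2 → x ∈ Subgroup.center X) ∨
      (Cfsg.IsExtraspecial 2 X ∧ Nat.card X = 32 ∧ Nat.card {x : X // orderOf x = 2} = 11)

variable {A : Subgroup (MulAut X)}

theorem Hyp.cop (h : Hyp A) {a : MulAut X} (ha : a ∈ A) : (orderOf a).Coprime 2 := by
  haveI : Finite (MulAut X) := Finite.of_injective _ DFunLike.coe_injective
  have h1 : orderOf a ∣ Nat.card A := orderOf_dvd_natCard A ha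
  exact Nat.Coprime.coprime_dvd_left h1 ((Nat.coprime_two_right).2 h.odd)

theorem Hyp.idx2 (h : Hyp A) {N : Subgroup X} (hN : N.index = 2)
    (hi : ∀ a ∈ A, ∀ x ∈ N, a x ∈ N) : False := by
  have h1 : (⊤ : Subgroup X) ≤ N := by
    rw [← h.gen, closure_le]
    rintro _ ⟨a, ha, x, rfl⟩
    refine (mul_mem_iff_of_index_two hN).2 ?_
    rw [inv_mem_iff]
    refine ⟨hi a ha x, fun hx => ?_⟩
    simpa using hi a⁻¹ (inv_mem ha) _ hx
  rw [top_le_iff.1 h1, index_top] at hN
  omega

theorem Hyp.fix (h : Hyp A) {N : Subgroup X} (hc : commutator X ≤ N) {g : X}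
    (hg : ∀ a ∈ A, g⁻¹ * a g ∈ N) : g ∈ N := by
  classical
  haveI : Finite (MulAut X) := Finite.of_injective _ DFunLike.coe_injective
  haveI := Fintype.ofFinite A
  let φ : X →* Abelianization X := ∏ a : A, Abelianization.of.comp (a : MulAut X).toMonoidHom
  have hφ : ∀ g, φ g = ∏ a : A, Abelianization.of ((a : MulAut X) g) := fun g => by
    simp only [φ, MonoidHom.finsetProd_apply]; rfl
  have h6 : ⊤ ≤ φ.ker := by
    rw [← h.gen, closure_le]
    rintro _ ⟨a, ha, g, rfl⟩
    rw [SetLike.mem_coe, MonoidHom.mem_ker, map_mul, map_inv, inv_mul_eq_one, hφ, hφ]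
    exact (Fintype.prod_equiv (Equiv.mulRight (⟨a, ha⟩ : A)) _ _ fun b => rfl).symm
  have e := h6 (mem_top g)
  rw [MonoidHom.mem_ker, hφ] at e
  have e2 : ∏ a : A, Abelianization.of ((a : MulAut X) g) =
      Abelianization.of g ^ Nat.card A * ∏ a : A, Abelianization.of (g⁻¹ * (a : MulAut X) g) := by
    rw [Nat.card_eq_fintype_card, ← Finset.card_univ, ← Finset.prod_const, ← Finset.prod_mul_distrib]
    refine Finset.prod_congr rfl fun a _ => ?_
    rw [← map_mul]; congr 1; group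
  have e3 : ∏ a : A, Abelianization.of (g⁻¹ * (a : MulAut X) g) ∈ N.map Abelianization.of :=
    prod_mem fun a _ => mem_map_of_mem _ (hg a a.2)
  have e4 : Abelianization.of g ^ Nat.card A ∈ N.map Abelianization.of := by
    rw [e2] at e
    rw [eq_inv_of_mul_eq_one_left e]; exact inv_mem e3
  have e5 : g ^ Nat.card A ∈ N := by
    rw [← map_pow] at e4
    have := mem_comap.2 e4
    rwa [comap_map_eq, Abelianization.ker_of, sup_eq_left.2 hc] at this
  obtain ⟨k, hk⟩ := h.pg g
  have hcop : (Nat.card A).Coprime (orderOf g) :=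
    Nat.Coprime.coprime_dvd_right (orderOf_dvd_of_pow_eq_one hk)
      (((Nat.coprime_two_right).2 h.odd).pow_right k)
  obtain ⟨m, hm⟩ := exists_pow_eq_self_of_coprime hcop
  rw [← hm]; exact pow_mem e5 m

omit [Finite X] in
theorem card_sq_one [Finite X] :
    Nat.card {x : X // x ^ 2 = 1} = Nat.card {x : X // orderOf x = 2} + 1 := by
  have e : {x : X | x ^ 2 = 1} = insert 1 {x : X | orderOf x = 2} := by
    ext x
    simp only [Set.mem_ofPred_eq, Set.mem_insert_iff]
    constructor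
    · intro hx
      by_cases h1 : x = 1
      · exact Or.inl h1
      · exact Or.inr (orderOf_eq_prime hx h1)
    · rintro (rfl | hx)
      · exact one_pow _
      · rw [← hx]; exact pow_orderOf_eq_one x
  have h1 : Nat.card {x : X // x ^ 2 = 1} = {x : X | x ^ 2 = 1}.ncard := rfl
  have h2 : Nat.card {x : X // orderOf x = 2} = {x : X | orderOf x = 2}.ncard := rfl
  rw [h1, h2, e, Set.ncard_insert_of_notMem (by simp)]

theorem om_inv {V : Subgroup X} (h : Om V) : Nat.card {x : X // orderOf x = 2} = 3 := by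
  have h1 := card_sq_one (X := X)
  have h2 : Nat.card {x : X // x ^ 2 = 1} = Nat.card V :=
    Nat.card_congr (Equiv.subtypeEquivRight fun x => by rw [pow_two]; exact h.mem_iff.symm)
  rw [h2, h.card] at h1
  omega

section Special

theorem sp_comm (hs : Cfsg.IsSpecial 2 X) (x y : X) : ⁅x, y⁆ ∈ center X :=
  hs.2.2 ▸ comm_mem_commutator x y

theorem sp_sq (hs : Cfsg.IsSpecial 2 X) (x : X) : x * x ∈ center X := by
  rw [← pow_two, ← hs.2.1]; exact pow_mem_frattini hs.1 x

theorem sp_el (hs : Cfsg.IsSpecial 2 X) : Cfsg.IsElementaryAbelian 2 (center X) := by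
  refine ⟨inferInstance, fun z hz => ?_⟩
  have : commutator X ≤ omegaAb (center X) 2 := by
    rw [_root_.commutator_def, commutator_le]
    intro x _ y _
    refine mem_omegaAb.2 ⟨sp_comm hs x y, ?_⟩
    rw [← comm_pow_left (commute_of_mem_center (sp_comm hs x y) _),
      commutatorElement_eq_one_iff_mul_comm, pow_two]
    exact (mem_center_iff.1 (sp_sq hs x) y).symm
  exact (mem_omegaAb.1 (this (hs.2.2 ▸ hz))).2

theorem sp_normal (hs : Cfsg.IsSpecial 2 X) {E : Subgroup X} (hE : center X ≤ E) : E.Normal :=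
  ⟨fun x hx g => by
    rw [conj_eq_comm_mul]; exact mul_mem (hE (sp_comm hs g x)) hx⟩

theorem Hyp.rank (h : Hyp A) (hs : Cfsg.IsSpecial 2 X) {E : Subgroup X}
    (hE : Cfsg.IsElementaryAbelian 2 E) : Nat.card ↥(center X ⊔ E) ≤ 4 :=
  h.el _ (sp_normal hs le_sup_left)
    (isElementaryAbelian_sup (sp_el hs) hE fun x _ g hg => (mem_center_iff.1 hg x).symm)

theorem sq_mul_c (hs : Cfsg.IsSpecial 2 X) (x y : X) :
    x * y * (x * y) = x * x * (y * y) * ⁅y, x⁆ := sq_mul' (sp_comm hs y x)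

theorem cl (hs : Cfsg.IsSpecial 2 X) (x y w : X) : ⁅x * y, w⁆ = ⁅x, w⁆ * ⁅y, w⁆ := by
  rw [comm_mul_left (commute_of_mem_center (sp_comm hs y w) _)]
  exact mem_center_iff.1 (sp_comm hs x w) _

theorem cinv (hs : Cfsg.IsSpecial 2 X) (x w : X) : ⁅x⁻¹, w⁆ = ⁅x, w⁆⁻¹ :=
  comm_inv_left (commute_of_mem_center (sp_comm hs x w) _)

theorem card_two {N : Subgroup X} (hN : Nat.card N = 2) {z x : X} (hz : z ∈ N) (h1 : z ≠ 1)
    (hx : x ∈ N) : x = 1 ∨ x = z := by
  by_contra hh
  push Not at hh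
  have : ({1, z, x} : Set X) ⊆ N := by
    intro y hy
    rcases hy with rfl | rfl | rfl
    exacts [one_mem N, hz, hx]
  have h3 := Set.ncard_le_ncard this
  rw [Set.ncard_eq_three.2 ⟨1, z, x, h1.symm, hh.1.symm, hh.2.symm, rfl⟩] at h3
  have h4 : (N : Set X).ncard = Nat.card N := rfl
  omega

/-- the centraliser of an element whose commutators lie in a group of order two -/
theorem card_le_two_mul (hs : Cfsg.IsSpecial 2 X) {v x : X} (hv : v ^ 2 = 1)
    (hx : ∀ g : X, ⁅g, x⁆ ∈ zpowers v) : Nat.card X ≤ 2 * Nat.card (centralizer ({x} : Set X)) := by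
  have := card_le_of_fib (β := Prop) ⊤ (centralizer ({x} : Set X)) (fun g => ⁅g, x⁆ = 1)
    fun a _ b _ e => by
      refine mem_centralizer_singleton_iff.2 ?_
      rw [← commutatorElement_eq_one_iff_mul_comm, cl hs, cinv hs, inv_mul_eq_one]
      have e' : ⁅a, x⁆ = 1 ↔ ⁅b, x⁆ = 1 := iff_of_eq e
      rcases (mem_zpowers_two hv).1 (hx a) with h1 | h1 <;>
        rcases (mem_zpowers_two hv).1 (hx b) with h2 | h2
      · rw [h1, h2]
      · rw [h1, e'.1 h1]
      · rw [h2, e'.2 h2]
      · rw [h1, h2]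
  rwa [card_top, Nat.card_eq_fintype_card (α := Prop), Fintype.card_prop] at this

theorem Hyp.extra (h : Hyp A) (hs : Cfsg.IsSpecial 2 X) (h2 : Nat.card (center X) = 2) :
    Concl X := by
  classical
  have hE : Cfsg.IsExtraspecial 2 X := ⟨hs, h2⟩
  have hr : Cfsg.PRankLE 2 2 X := fun E h1 h3 =>
    (card_le_of_le' le_sup_right).trans (h.rank hs ⟨h1, h3⟩)
  obtain ⟨m, hm1, hm, hc⟩ := (S4416.result.{_, 0} X hE).1
  have hm2 : m ≤ 2 := by
    by_contra hh
    have mono : ∀ k, 2 ≤ k → Cfsg.PRankLE 2 k X := fun k hk E h1 h3 =>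
      (hr E h1 h3).trans (Nat.pow_le_pow_right (by norm_num) hk)
    rcases (S3763.result.{_, 0} hE m hm).1 with h1 | h1
    · exact h1.2 (mono _ (by omega))
    · exact h1.2 (mono _ (by omega))
  obtain ⟨z, hz, hz1⟩ : ∃ z ∈ center X, z ≠ 1 := by
    by_contra hh
    push Not at hh
    have : center X = ⊥ := eq_bot_iff.2 fun z hz => hh z hz
    rw [this, card_bot] at h2; omega
  have hzz : z ^ 2 = 1 := (sp_el hs).2 z hz
  have hcz : ∀ x y : X, ⁅x, y⁆ ∈ zpowers z := fun x y =>
    (mem_zpowers_two hzz).2 (card_two h2 hz hz1 (sp_comm hs x y))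
  have hS : Nat.card {x : X // x ^ 2 = 1} = {x : X | x ^ 2 = 1}.ncard := rfl
  obtain rfl | rfl : m = 1 ∨ m = 2 := by omega
  · rcases hc with hc | hc
    · exfalso
      have h6 : {x : X | x ^ 2 = 1}ᶜ.ncard = 2 := by
        have := Set.ncard_add_ncard_compl {x : X | x ^ 2 = 1}
        omega
      obtain ⟨y, hy⟩ : ({x : X | x ^ 2 = 1}ᶜ).Nonempty :=
        Set.nonempty_of_ncard_ne_zero (by omega)
      have hy' : y ^ 2 ≠ 1 := hy
      have hyz : y * z ∈ {x : X | x ^ 2 = 1}ᶜ := by
        intro e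
        apply hy'
        have e' : (y * z) ^ 2 = 1 := e
        rwa [(commute_of_mem_center hz y).mul_pow, hzz, mul_one] at e'
      have heq : ({y, y * z} : Set X) = {x : X | x ^ 2 = 1}ᶜ := by
        refine Set.eq_of_subset_of_ncard_le ?_ ?_
        · rintro x (rfl | rfl)
          exacts [hy, hyz]
        · rw [h6, Set.ncard_pair (by simpa using hz1)]
      have : y ∈ center X := h.fix (hs.2.2.le) fun a _ => by
        have hay : a y ∈ {x : X | x ^ 2 = 1}ᶜ := fun e => hy' (by
          have e' : (a y) ^ 2 = 1 := e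
          rwa [← map_pow, EmbeddingLike.map_eq_one_iff] at e')
        rw [← heq] at hay
        rcases hay with e | e
        · rw [e, inv_mul_cancel]; exact one_mem _
        · rw [e, inv_mul_cancel_left]; exact hz
      exact hy' ((sp_el hs).2 y this)
    · left
      have hone : ∀ x : X, x ^ 2 = 1 → x ∈ center X := by
        have hsub : (center X : Set X) ⊆ {x : X | x ^ 2 = 1} := fun x hx => (sp_el hs).2 x hx
        have := Set.eq_of_subset_of_ncard_le hsub (by
          have h4 : (center X : Set X).ncard = Nat.card (center X) := rfl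
          omega)
        intro x hx
        have hx' : x ∈ (center X : Set X) := by rw [this]; exact hx
        exact hx'
      have hsq : ∀ x : X, x ∉ center X → x ^ 2 = z := fun x hx => by
        rcases card_two h2 hz hz1 (sp_sq hs x) with e | e
        · exact absurd (hone x (by rwa [pow_two])) hx
        · rwa [pow_two]
      obtain ⟨a, x, hax⟩ : ∃ a x : X, x * a ≠ a * x := by
        by_contra hh
        push Not at hh
        exact h.na fun x y => hh y x
      have ha : a ∉ center X := fun e => hax (mem_center_iff.1 e x)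
      have hx : x ∉ center X := fun e => hax (mem_center_iff.1 e a).symm
      have ho : orderOf a = 2 * 2 := by
        refine orderOf_eq_prime_pow (p := 2) (n := 1) ?_ ?_
        · rw [pow_one, hsq a ha]; exact hz1
        · rw [show 2 ^ (1 + 1) = 2 * 2 from rfl, pow_mul, hsq a ha, hzz]
      have hn : x ∉ zpowers a := by
        rintro ⟨k, rfl⟩
        exact hax (Commute.zpow_left (Commute.refl a) k)
      have hxa : x * a * x⁻¹ = a⁻¹ := by
        rw [conj_eq_comm_mul]
        rcases (mem_zpowers_two hzz).1 (hcz x a) with e | e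
        · exact absurd (commutatorElement_eq_one_iff_mul_comm.1 e) hax
        · rw [e, eq_inv_iff_mul_eq_one, mul_assoc, ← pow_two, hsq a ha, ← pow_two, hzz]
      obtain ⟨e⟩ := CA.PGDihedral.nonempty_subgroup_mulEquiv_quaternion ho hn
        (by rw [hsq x hx, hsq a ha]) hxa
      refine CA.PGDihedral.nonempty_mulEquiv_quaternion ho hn (by rw [hsq x hx, hsq a ha]) hxa ?_
      refine eq_top_of_card_eq _ ?_
      rw [Nat.card_congr e.toEquiv, hm, Nat.card_eq_fintype_card, QuaternionGroup.card]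
      norm_num
  · rcases hc with hc | hc
    · exfalso
      obtain ⟨t, ht, htz⟩ : ∃ t : X, t ^ 2 = 1 ∧ t ∉ center X := by
        by_contra hh
        push Not at hh
        have := Set.ncard_le_ncard (show {x : X | x ^ 2 = 1} ⊆ (center X : Set X) from hh)
        have h4 : (center X : Set X).ncard = Nat.card (center X) := rfl
        omega
      set C := centralizer ({t} : Set X) with hC
      have hC16 : Nat.card X ≤ 2 * Nat.card C := card_le_two_mul hs hzz (fun g => hcz g t)
      set T := center X ⊔ zpowers t with hT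
      have hTe : Cfsg.IsElementaryAbelian 2 T :=
        isElementaryAbelian_sup_zpowers (sp_el hs) (fun g hg => (mem_center_iff.1 hg t).symm) ht
      have hT4 : Nat.card T = 4 := by
        rw [hT, card_sup_zpowers Nat.prime_two (mem_normalizer_of_center le_rfl t) htz
          (by rw [ht]; exact one_mem _), h2]
      have hin : ∀ x ∈ C, x ^ 2 = 1 → x ∈ T := fun x hx hxx => by
        have h1 : x ∈ centralizer (T : Set X) := by
          have : T ≤ centralizer ({x} : Set X) := sup_le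
            (fun g hg => mem_centralizer_singleton_iff.2 (mem_center_iff.1 hg x).symm)
            (zpowers_le.2 (mem_centralizer_singleton_iff.2
              (mem_centralizer_singleton_iff.1 hx).symm))
          exact fun g hg => mem_centralizer_singleton_iff.1 (this hg)
        have h3 := h.el (T ⊔ zpowers x) (sp_normal hs (le_sup_left.trans le_sup_left))
          (isElementaryAbelian_sup_zpowers hTe h1 hxx)
        have := eq_of_le_of_card_le (H := T) (K := T ⊔ zpowers x) le_sup_left (by omega)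
        rw [this]; exact mem_sup_right (mem_zpowers x)
      obtain ⟨w, hw, hww⟩ : ∃ w, w ∉ C ∧ w ^ 2 ≠ 1 := by
        obtain ⟨x, hx⟩ : ∃ x, x * t ≠ t * x := by
          by_contra hh
          push Not at hh
          exact htz (mem_center_iff.2 hh)
        have hxC : x ∉ C := fun e => hx (mem_centralizer_singleton_iff.1 e)
        by_cases hxx : x ^ 2 = 1
        · refine ⟨x * t, fun e => hxC ?_, ?_⟩
          · exact (mul_mem_cancel_right (mem_centralizer_singleton_iff.2 rfl)).1 e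
          · rw [pow_two, sq_mul_c hs, ← pow_two, ← pow_two, hxx, ht, one_mul, one_mul]
            exact fun e => hx (commutatorElement_eq_one_iff_mul_comm.1 e).symm
        · exact ⟨x, hxC, hxx⟩
      have hsub : {x : X | x ^ 2 = 1} ⊆ (T : Set X) ∪ ((C : Set X)ᶜ \ {w}) := by
        intro x hx
        by_cases hxC : x ∈ C
        · exact Or.inl (hin x hxC hx)
        · exact Or.inr ⟨hxC, fun e => hww (by rw [← show x = w from e]; exact hx)⟩
      have h1 := (Set.ncard_le_ncard hsub).trans (Set.ncard_union_le _ _)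
      have h3 := Set.ncard_add_ncard_compl (C : Set X)
      have h4 : (T : Set X).ncard = Nat.card T := rfl
      have h5 : (C : Set X).ncard = Nat.card C := rfl
      have h6 := Set.ncard_sdiff_singleton_add_one (show w ∈ (C : Set X)ᶜ from hw)
      omega
    · refine Or.inr (Or.inr ⟨hE, by simpa using hm, ?_⟩)
      have := card_sq_one (X := X)
      omega

/-- the radical of the commutator form modulo `v` -/
def Rad (hs : Cfsg.IsSpecial 2 X) (v : X) : Subgroup X where
  carrier := {x | ∀ g : X, ⁅x, g⁆ ∈ zpowers v}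
  one_mem' := fun g => by simp
  mul_mem' := fun {x y} hx hy g => by rw [cl hs]; exact mul_mem (hx g) (hy g)
  inv_mem' := fun {x} hx g => by rw [cinv hs]; exact inv_mem (hx g)

theorem cent_le (hs : Cfsg.IsSpecial 2 X) (ho : Om (center X)) {x : X} (hx : x ∉ center X) :
    Nat.card (centralizer ({x} : Set X)) ≤ 32 := by
  set C := centralizer ({x} : Set X) with hC
  have hu := sp_sq hs x
  have hu1 : x * x ≠ 1 := fun e => hx (ho.mem x e)
  set u := x * x with hudef
  have huu : u ^ 2 = 1 := by rw [pow_two, ho.sq hu]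
  set N := center X ⊔ zpowers x with hN
  have hN8 : Nat.card N ≤ 8 :=
    (card_sup_le (mem_normalizer_of_center le_rfl x) hu).trans (by rw [ho.card])
  have memN : ∀ y ∈ C, y * y ∈ zpowers u → y ∈ N := fun y hy hyy => by
    rcases (mem_zpowers_two huu).1 hyy with e | e
    · exact mem_sup_left (ho.mem y e)
    · have hc : ⁅x, y⁆ = 1 :=
        commutatorElement_eq_one_iff_mul_comm.2 (mem_centralizer_singleton_iff.1 hy).symm
      have : y * x * (y * x) = 1 := by rw [sq_mul_c hs, hc, e, ← hudef, ho.sq hu, mul_one]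
      have h1 : y * x ∈ N := mem_sup_left (ho.mem _ this)
      exact (mul_mem_cancel_right (mem_sup_right (mem_zpowers x))).1 h1
  by_cases hCN : C ≤ N
  · exact (card_le_of_le' hCN).trans (by omega)
  obtain ⟨y, hy, hyN⟩ := SetLike.not_le_iff_exists.1 hCN
  haveI : N.Normal := sp_normal hs le_sup_left
  have hY : Nat.card ↥(N ⊔ zpowers y) ≤ Nat.card N * 2 :=
    card_sup_le (le_normalizer_of_normal (mem_top y)) (mem_sup_left (sp_sq hs y))
  have key : ∀ w ∈ C, ⁅w, y⁆ ∈ zpowers u → w ∈ N ⊔ zpowers y := fun w hw hc => by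
    by_cases hwN : w ∈ N
    · exact mem_sup_left hwN
    have h1 : y * y * (w * w) ∈ zpowers u := ho.mul_mem_zp hu hu1 (sp_sq hs y) (sp_sq hs w)
      (fun e => hyN (memN y hy e)) (fun e => hwN (memN w hw e))
    have h2 : y * w ∈ N := memN _ (mul_mem hy hw) (by rw [sq_mul_c hs]; exact mul_mem h1 hc)
    have h3 : y * w ∈ N ⊔ zpowers y := mem_sup_left h2
    exact (mul_mem_cancel_left (mem_sup_right (mem_zpowers y))).1 h3
  have := card_le_of_fib (β := Prop) C (N ⊔ zpowers y) (fun g => ⁅g, y⁆ ∈ zpowers u)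
    fun a ha b hb e => by
      refine key _ (mul_mem (inv_mem ha) hb) ?_
      have e' : ⁅a, y⁆ ∈ zpowers u ↔ ⁅b, y⁆ ∈ zpowers u := iff_of_eq e
      rw [cl hs, cinv hs]
      by_cases h1 : ⁅a, y⁆ ∈ zpowers u
      · exact mul_mem (inv_mem h1) (e'.1 h1)
      · exact ho.mul_mem_zp hu hu1 (inv_mem (sp_comm hs a y)) (sp_comm hs b y)
          (fun e => h1 (inv_mem_iff.1 e)) (fun e => h1 (e'.2 e))
  rw [Nat.card_eq_fintype_card (α := Prop), Fintype.card_prop] at this
  omega

theorem Hyp.rad (h : Hyp A) (hs : Cfsg.IsSpecial 2 X) (ho : Om (center X))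
    (hf : ∀ a ∈ A, ∀ z ∈ center X, a z = z) {v : X} (hv : v ∈ center X) {x : X}
    (hx : x ∈ Rad hs v) (hxz : x ∉ center X) : Nat.card X = 64 := by
  have hvv : v ^ 2 = 1 := (sp_el hs).2 v hv
  have h1 := card_le_two_mul hs hvv (x := x) fun g => by
    rw [← commutatorElement_inv]; exact inv_mem (hx g)
  have h2 := cent_le hs ho hxz
  set R := Rad hs v with hR
  have hZR : center X ≤ R := fun z hz g => by
    rw [commutatorElement_eq_one_iff_mul_comm.2 (mem_center_iff.1 hz g).symm]; exact one_mem _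
  have hinv : ∀ a ∈ A, ∀ y ∈ R, a y ∈ R := fun a ha y hy g => by
    have e : ⁅a y, g⁆ = a ⁅y, a⁻¹ g⁆ := by rw [map_commutatorElement]; simp
    rw [e, hf a ha _ (sp_comm hs _ _)]; exact hy _
  have hRt : R ≠ ⊤ := fun e => by
    have : center X ≤ zpowers v := by
      rw [← hs.2.2, _root_.commutator_def, commutator_le]
      intro a _ b _
      exact (show a ∈ R from e ▸ mem_top a) b
    have h3 := card_le_of_le' this
    rw [ho.card, Nat.card_zpowers] at h3
    have := Nat.le_of_dvd two_pos (orderOf_dvd_of_pow_eq_one hvv)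
    omega
  obtain ⟨i, hi⟩ := exists_relIndex_eq_pow (H := center X) (K := R) (h.pg.to_subgroup R)
  obtain ⟨j, hj⟩ := exists_relIndex_eq_pow (H := R) (K := ⊤) (h.pg.to_subgroup ⊤)
  have hi0 : i ≠ 0 := by
    rintro rfl
    exact hxz (relIndex_eq_one.1 hi hx)
  have hi1 : i ≠ 1 := by
    rintro rfl
    refine hxz (h.fix hs.2.2.le fun a ha => ?_)
    refine mul_mem_of_relIndex_two hi (inv_mem hx) (hinv a ha x hx) (fun e => hxz (inv_mem_iff.1 e))
      fun e => hxz ?_
    have e2 : a (a x) = a x := hf a ha _ e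
    rw [← a.injective e2]; exact e
  have hj0 : j ≠ 0 := by
    rintro rfl
    exact hRt (top_le_iff.1 (relIndex_eq_one.1 hj))
  have hj1 : j ≠ 1 := by
    rintro rfl
    exact h.idx2 (by rwa [relIndex_top_right] at hj) hinv
  have e1 := card_mul_relIndex hZR
  have e2 := card_mul_relIndex (le_top : R ≤ ⊤)
  rw [card_top, ← e1, hi, hj, ho.card] at e2
  have e3 : 2 ^ 2 ≤ 2 ^ i := Nat.pow_le_pow_right two_pos (by omega)
  have e4 : 2 ^ 2 ≤ 2 ^ j := Nat.pow_le_pow_right two_pos (by omega)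
  have := Nat.mul_le_mul e3 e4
  nlinarith

theorem Hyp.four (h : Hyp A) (hs : Cfsg.IsSpecial 2 X) (h4 : Nat.card (center X) = 4)
    (hf : ∀ a ∈ A, ∀ z ∈ center X, a z = z) : Concl X := by
  have ho : Om (center X) := ⟨isKleinFour_of h4 (sp_el hs).2, le_rfl, fun x hx => by
    have h1 := h.rank hs (isElementaryAbelian_zpowers (p := 2) (x := x) (by rwa [pow_two]))
    have := eq_of_le_of_card_le (H := center X) (K := center X ⊔ zpowers x) le_sup_left (by omega)
    rw [this]; exact mem_sup_right (mem_zpowers x)⟩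
  refine Or.inr (Or.inl ⟨hs, ?_, om_inv ho, fun x hx => ho.mem x (by
    rw [← pow_two, ← hx]; exact pow_orderOf_eq_one x)⟩)
  by_contra hne
  have hR : ∀ v ∈ center X, ∀ x ∈ Rad hs v, x ∈ center X := fun v hv x hx => by
    by_contra hxz
    exact hne (h.rad hs ho hf hv hx hxz)
  have h128 := ho.card_le (E := ⊤) fun x _ => sp_sq hs x
  rw [card_top] at h128
  obtain ⟨v, hv, hv1⟩ := ho.exists_ne
  have hvo : orderOf v = 2 := orderOf_eq_prime ((sp_el hs).2 v hv) hv1
  haveI : (zpowers v).Normal := ⟨fun n hn g => by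
    rw [mem_center_iff.1 (zpowers_le.2 hv hn) g, mul_inv_cancel_right]; exact hn⟩
  let f := QuotientGroup.mk' (zpowers v)
  have hsurj : Function.Surjective f := QuotientGroup.mk'_surjective _
  have hz : center (X ⧸ zpowers v) = (center X).map f := by
    ext y
    obtain ⟨x, rfl⟩ := hsurj y
    constructor
    · intro hy
      exact mem_map_of_mem _ (hR v hv x (mk_mem_center_iff.1 hy))
    · rintro ⟨z, hz, e⟩
      rw [← e]
      refine mem_center_iff.2 fun g => ?_
      obtain ⟨g, rfl⟩ := hsurj g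
      rw [← map_mul, ← map_mul, mem_center_iff.1 hz g]
  have hq : IsPGroup 2 (X ⧸ zpowers v) := h.pg.to_quotient _
  have hE : Cfsg.IsExtraspecial 2 (X ⧸ zpowers v) := by
    refine ⟨⟨hq, ?_, ?_⟩, ?_⟩
    · rw [hz, ← map_frattini_of_surjective h.pg f hsurj, hs.2.1]
    · rw [hz, ← hs.2.2, _root_.commutator_def, _root_.commutator_def, map_commutator,
        map_top_of_surjective f hsurj]
    · rw [hz, ← relIndex_ker, QuotientGroup.ker_mk']
      have := card_mul_relIndex (zpowers_le.2 hv)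
      rw [Nat.card_zpowers, hvo, h4] at this
      omega
  obtain ⟨n, hn1, hn⟩ := S0095.result hE
  have hc := card_eq_card_quotient_mul_card_subgroup (zpowers v)
  rw [Nat.card_zpowers, hvo, hn] at hc
  have hn2 : n ≤ 2 := by
    by_contra hh
    have : 2 ^ 7 ≤ 2 ^ (2 * n + 1) := Nat.pow_le_pow_right two_pos (by omega)
    omega
  obtain rfl | rfl : n = 1 ∨ n = 2 := by omega
  · obtain ⟨a, b, hab⟩ : ∃ a b : X, a * b ≠ b * a := by
      by_contra hh
      push Not at hh
      exact h.na hh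
    have ha : a ∉ center X := fun e => hab (mem_center_iff.1 e b).symm
    set M := center X ⊔ zpowers a with hM
    have hM8 : Nat.card M = 8 := by
      rw [hM, card_sup_zpowers Nat.prime_two (mem_normalizer_of_center le_rfl a) ha
        (by rw [pow_two]; exact sp_sq hs a), h4]
    have hMi : M.index = 2 := by
      have := card_mul_index M
      rw [hM8] at this
      omega
    have hMc : M ≤ centralizer ({a} : Set X) := sup_le
      (fun g hg => mem_centralizer_singleton_iff.2 (mem_center_iff.1 hg a).symm)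
      (zpowers_le.2 (mem_centralizer_singleton_iff.2 rfl))
    have hb : b ∉ M := fun e => hab (mem_centralizer_singleton_iff.1 (hMc e)).symm
    have h1 : ∀ g ∈ M, ⁅g, a⁆ = 1 := fun g hg =>
      commutatorElement_eq_one_iff_mul_comm.2 (mem_centralizer_singleton_iff.1 (hMc hg))
    refine ha (hR ⁅b, a⁆ (sp_comm hs b a) a fun g => ?_)
    rw [← commutatorElement_inv g a]
    refine inv_mem ?_
    by_cases hg : g ∈ M
    · rw [h1 g hg]; exact one_mem _
    · have h2 : g * b⁻¹ ∈ M := (mul_mem_iff_of_index_two hMi).2 (by simp [hg, hb])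
      have h3 : ⁅g, a⁆ = ⁅g * b⁻¹ * b, a⁆ := by rw [inv_mul_cancel_right]
      rw [h3, cl hs, h1 _ h2, one_mul]; exact mem_zpowers _
  · exact hne (by simpa using hc)

theorem Hyp.caseA (h : Hyp A)
    (hchar : ∀ H : Subgroup X, H.Characteristic → IsMulCommutative H → ∀ a ∈ A, ∀ x ∈ H, a x = x) :
    Concl X := by
  obtain ⟨hs, hz⟩ := S0119.result h.pg A ((Nat.coprime_two_right).2 h.odd) (by
    rw [← h.gen]; congr 1; ext x
    exact ⟨fun ⟨g, a, ha, e⟩ => ⟨a, ha, g, e⟩, fun ⟨a, ha, g, e⟩ => ⟨g, a, ha, e⟩⟩) hchar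
  have h4 := h.el _ inferInstance (sp_el hs)
  obtain ⟨k, hk⟩ := exists_card_eq_pow h.pg (center X)
  have hk0 : k ≠ 0 := by
    rintro rfl
    refine h.na fun x y => ?_
    have := sp_comm hs x y
    rw [card_eq_one.1 hk, mem_bot] at this
    exact commutatorElement_eq_one_iff_mul_comm.1 this
  have hk2 : k ≤ 2 := by
    by_contra hh
    have : 2 ^ 3 ≤ 2 ^ k := Nat.pow_le_pow_right two_pos (by omega)
    omega
  obtain rfl | rfl : k = 1 ∨ k = 2 := by omega
  · exact h.extra hs hk
  · exact h.four hs hk fun a ha z hz' => (hz z).1 hz' a ha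

end Special

theorem fix_abelian (hX : IsPGroup 2 X) {a : MulAut X} (ha : (orderOf a).Coprime 2)
    {B : Subgroup X} (hB : ∀ x ∈ B, ∀ y ∈ B, x * y = y * x) (hinv : ∀ x ∈ B, a x ∈ B)
    (h : ∀ x ∈ B, x ^ 2 = 1 → a x = x) {x : X} (hx : x ∈ B) : a x = x := by
  obtain ⟨k, hk⟩ := hX x
  induction k generalizing x with
  | zero => rw [pow_zero, pow_one] at hk; rw [hk, map_one]
  | succ k ih =>
    have h1 : a (x ^ 2) = x ^ 2 := ih (pow_mem hx 2) (by rwa [← pow_mul, ← pow_succ'])
    refine apply_eq_of_coprime' hX ha (h _ (mul_mem (inv_mem hx) (hinv x hx)) ?_)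
    rw [(show Commute x⁻¹ (a x) from hB _ (inv_mem hx) _ (hinv x hx)).mul_pow, ← map_pow, h1]
    group

omit [Finite X] in
theorem fix_of_sq {a : MulAut X} (ha : (orderOf a).Coprime 2) {x : X} (h : a (a x) = x) :
    a x = x := by
  obtain ⟨m, hm⟩ := exists_pow_eq_self_of_coprime (x := a) (n := 2) ha.symm
  have h1 : a ^ 2 ∈ MulAction.stabilizer (MulAut X) x := by
    rw [MulAction.mem_stabilizer_iff, pow_two]; exact h
  have := pow_mem h1 m
  rw [hm] at this
  exact this

/-- an odd automorphism of a four-group with a non-trivial fixed point is trivial -/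
theorem klein_fix {V : Subgroup X} (hV : IsKleinFour V) {a : MulAut X} (ha : (orderOf a).Coprime 2)
    (hinv : ∀ x ∈ V, a x ∈ V) {z : X} (hz : z ∈ V) (hz1 : z ≠ 1) (e : a z = z) {x : X}
    (hx : x ∈ V) : a x = x := by
  by_cases h1 : x = 1
  · rw [h1, map_one]
  by_cases h2 : x = z
  · rw [h2, e]
  rcases klein_mem hV hz hx hz1 h1 (Ne.symm h2) (hinv x hx) with h | h | h | h
  · exact absurd (by simpa using h) h1
  · exact absurd (a.injective (h.trans e.symm)) h2
  · exact h
  · refine fix_of_sq ha ?_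
    rw [h, map_mul, e, h, ← mul_assoc, ← pow_two, klein_sq hV hz, one_mul]

theorem engel {ρ : MulAut X} (h : Cub ρ) (x w : X) : x * (w * ρ x * w⁻¹) = (w * ρ x * w⁻¹) * x := by
  have h1 : MonoidHom.FixedPointFree ρ := h.fpf
  obtain ⟨g, hg⟩ := h1.commutatorMap_surjective w
  have hw : w = g * (ρ g)⁻¹ := by rw [← hg, MonoidHom.commutatorMap_apply, div_eq_mul_inv]
  have := h.comm (g⁻¹ * x * g)
  simp only [map_mul, map_inv] at this
  rw [hw]
  calc _ = g * (g⁻¹ * x * g * ((ρ g)⁻¹ * ρ x * ρ g)) * g⁻¹ := by group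
    _ = g * ((ρ g)⁻¹ * ρ x * ρ g * (g⁻¹ * x * g)) * g⁻¹ := by rw [this]
    _ = _ := by group

theorem engel' {ρ : MulAut X} (h : Cub ρ) (x w : X) : Commute x (w * x * w⁻¹) := by
  have h1 : Commute x (w * ρ x * w⁻¹) := engel h x w
  have h2 : Commute x (w * ρ (ρ x) * w⁻¹) := engel h.sq x w
  have h3 : x = (ρ x * ρ (ρ x))⁻¹ := by
    rw [eq_inv_iff_mul_eq_one, ← mul_assoc]; exact h.prod x
  have h4 : w * x * w⁻¹ = (w * ρ x * w⁻¹ * (w * ρ (ρ x) * w⁻¹))⁻¹ := by
    conv_lhs => rw [h3]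
    group
  rw [h4]; exact (h1.mul_right h2).inv_right

theorem zmod_half {n : ℕ} (x : ZMod (2 ^ (n + 1))) (h : (2 ^ n : ℕ) • x = 0) : ∃ y, x = 2 • y := by
  have h1 : ((2 ^ n * x.val : ℕ) : ZMod (2 ^ (n + 1))) = 0 := by
    rw [Nat.cast_mul, ZMod.natCast_zmod_val, ← nsmul_eq_mul]; exact h
  rw [ZMod.natCast_eq_zero_iff] at h1
  have h2 : 2 ^ n * 2 ∣ 2 ^ n * x.val := h1
  obtain ⟨k, hk⟩ := Nat.dvd_of_mul_dvd_mul_left (by positivity) h2
  refine ⟨(k : ZMod (2 ^ (n + 1))), ?_⟩
  rw [← ZMod.natCast_zmod_val x, hk]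
  simp

/-- squares in a homocyclic group -/
theorem homo {T : Type*} [Group T] {n : ℕ}
    (e : T ≃* Multiplicative (ZMod (2 ^ (n + 1)) × ZMod (2 ^ (n + 1)))) :
    (∀ x : T, x ^ 2 ^ (n + 1) = 1) ∧ ∀ x : T, x ^ 2 ^ n = 1 → ∃ y : T, x = y ^ 2 := by
  refine ⟨fun x => e.injective ?_, fun x hx => ?_⟩
  · rw [map_pow, map_one]
    apply Multiplicative.toAdd.injective
    rw [toAdd_pow, toAdd_one]
    have h0 : ∀ y : ZMod (2 ^ (n + 1)), (2 ^ (n + 1) : ℕ) • y = 0 := fun y => by
      rw [nsmul_eq_mul, ZMod.natCast_self, zero_mul]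
    exact Prod.ext (h0 _) (h0 _)
  · have h1 : (2 ^ n : ℕ) • (e x).toAdd = 0 := by
      rw [← toAdd_pow, ← map_pow, hx, map_one, toAdd_one]
    obtain ⟨y1, hy1⟩ := zmod_half (e x).toAdd.1 (by simpa using congrArg Prod.fst h1)
    obtain ⟨y2, hy2⟩ := zmod_half (e x).toAdd.2 (by simpa using congrArg Prod.snd h1)
    refine ⟨e.symm (Multiplicative.ofAdd (y1, y2)), e.injective ?_⟩
    rw [map_pow, e.apply_symm_apply]
    apply Multiplicative.toAdd.injective
    rw [toAdd_pow, toAdd_ofAdd]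
    exact Prod.ext hy1 hy2


/-- powers in an abelian subgroup -/
def Pw (D : Subgroup X) (hD : ∀ x ∈ D, ∀ y ∈ D, x * y = y * x) (k : ℕ) : Subgroup X where
  carrier := {x | ∃ d ∈ D, x = d ^ k}
  one_mem' := ⟨1, one_mem _, (one_pow k).symm⟩
  mul_mem' := by
    rintro _ _ ⟨a, ha, rfl⟩ ⟨b, hb, rfl⟩
    exact ⟨a * b, mul_mem ha hb, ((show Commute a b from hD a ha b hb).mul_pow k).symm⟩
  inv_mem' := by
    rintro _ ⟨a, ha, rfl⟩
    exact ⟨a⁻¹, inv_mem ha, (inv_pow a k).symm⟩

theorem Pw_normal (D : Subgroup X) [hn : D.Normal] (hD : ∀ x ∈ D, ∀ y ∈ D, x * y = y * x) (k : ℕ) :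
    (Pw D hD k).Normal := ⟨by
  rintro _ ⟨a, ha, rfl⟩ g
  exact ⟨g * a * g⁻¹, hn.conj_mem a ha g, (conj_pow ..).symm⟩⟩

structure HV (V : Subgroup X) : Prop where
  kl : IsKleinFour V
  cent : V ≤ center X
  el : ∀ E : Subgroup X, E.Normal → Cfsg.IsElementaryAbelian 2 E → E ≤ V

theorem HV.normal {V : Subgroup X} (h : HV V) : V.Normal := ⟨fun n hn g => by
  rw [mem_center_iff.1 (h.cent hn) g, mul_inv_cancel_right]; exact hn⟩

theorem HV.mem {V : Subgroup X} (h : HV V) {t : X} (ht : t ^ 2 = 1) (hc : ∀ g : X, ⁅t, g⁆ ∈ V) :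
    t ∈ V := by
  haveI := h.normal
  exact h.el _ (normal_sup_zpowers hc) (isElementaryAbelian_sup_zpowers
    ⟨klein_comm h.kl, fun _ => klein_sq h.kl⟩ (fun g hg => (mem_center_iff.1 (h.cent hg) t).symm) ht)
    (mem_sup_right (mem_zpowers t))

theorem HV.om {V : Subgroup X} (h : HV V) {B : Subgroup X} [B.Normal]
    (hB : ∀ x ∈ B, ∀ y ∈ B, x * y = y * x) {x : X} (hx : x ∈ B) (h2 : x ^ 2 = 1) : x ∈ V := by
  haveI : IsMulCommutative B := isMulCommutative_iff.2 hB
  exact h.el _ (omegaAb_normal B 2) (omegaAb_elementary B 2) (mem_omegaAb.2 ⟨hx, h2⟩)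

theorem HV.core {V : Subgroup X} (h : HV V) {D : Subgroup X} [hn : D.Normal]
    (hD : ∀ x ∈ D, ∀ y ∈ D, x * y = y * x) (hC : centralizer (D : Set X) ≤ D) {n : ℕ}
    (h0 : ∀ d ∈ D, d ^ 2 ^ (n + 1 + 1) = 1)
    (h1 : ∀ d ∈ D, d ^ 2 ^ (n + 1) = 1 → ∃ e ∈ D, d = e ^ 2) {t : X} (ht : t ∈ commutator X)
    (htt : t ^ 2 = 1) : t ∈ V := by
  haveI := Pw_normal D hD 4
  have cD : ∀ g : X, ∀ d ∈ D, ⁅g, d⁆ ∈ D := fun g d hd => by
    rw [commutatorElement_def]; exact mul_mem (hn.conj_mem d hd g) (inv_mem hd)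
  have cpow : ∀ g : X, ∀ d ∈ D, ∀ m : ℕ, ⁅g, d ^ m⁆ = ⁅g, d⁆ ^ m := fun g d hd m =>
    comm_pow_right (hD _ hd _ (cD g d hd)) m
  have a1 : ⁅(⊤ : Subgroup X), D⁆ ≤ Pw D hD 2 := by
    rw [commutator_le]
    intro g _ d hd
    refine h1 _ (cD g d hd) ?_
    rw [← cpow g d hd, commutatorElement_eq_one_iff_mul_comm]
    refine mem_center_iff.1 (h.cent (h.om hD (pow_mem hd _) ?_)) g
    rw [← pow_mul, ← pow_succ]; exact h0 d hd
  have a2 : ⁅Pw D hD 2, (⊤ : Subgroup X)⁆ ≤ Pw D hD 4 := by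
    rw [commutator_comm, commutator_le]
    rintro g _ _ ⟨d, hd, rfl⟩
    obtain ⟨e, he, h2⟩ := a1 (commutator_mem_commutator (mem_top g) hd)
    exact ⟨e, he, by rw [cpow g d hd, h2, ← pow_mul]⟩
  have a3 : ⁅⁅(⊤ : Subgroup X), (⊤ : Subgroup X)⁆, D⁆ ≤ Pw D hD 4 :=
    CA.Fitting.three_subgroups ((commutator_mono a1 le_rfl).trans a2)
      ((commutator_mono (by rw [commutator_comm]; exact a1) le_rfl).trans a2)
  have a4 : ∀ d ∈ D, ∃ e ∈ D, ⁅t, d⁆ = e ^ 4 := fun d hd => a3 (commutator_mem_commutator ht hd)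
  have inv : ∀ g : X, t * ⁅t, g⁆ * t⁻¹ = ⁅t, g⁆⁻¹ := fun g => by
    have : t * ⁅t, g⁆ * t⁻¹ * ⁅t, g⁆ = ⁅t ^ 2, g⁆ := by
      simp only [commutatorElement_def, pow_two]; group
    rw [htt, commutatorElement_one_left] at this
    exact eq_inv_of_mul_eq_one_left this
  have inv2 : ∀ g : X, ⁅t, ⁅t, g⁆⁆ = (⁅t, g⁆ ^ 2)⁻¹ := fun g => by
    rw [commutatorElement_def t ⁅t, g⁆, inv g, pow_two, mul_inv_rev]
  have a5 : ∀ d ∈ D, ∃ e ∈ D, ⁅t, d⁆ ^ 2 = (⁅t, e⁆ ^ 2) ^ 2 := fun d hd => by
    obtain ⟨e, he, h2⟩ := a4 d hd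
    refine ⟨e⁻¹, inv_mem he, ?_⟩
    have h3 := inv2 d
    rw [h2, cpow t e he] at h3
    have h4 : ⁅t, e⁻¹⁆ = ⁅t, e⁆⁻¹ := by
      have := comm_zpow_right (x := t) (y := e) (hD _ he _ (cD t e he)) (-1)
      simpa using this
    rw [h2, h4, ← inv_inv ((e ^ 4) ^ 2), ← h3, ← pow_mul, inv_pow]
  have a6 : ∀ k : ℕ, ∀ d ∈ D, ∃ e ∈ D, ⁅t, d⁆ ^ 2 = (⁅t, e⁆ ^ 2) ^ 2 ^ k := fun k => by
    induction k with
    | zero => exact fun d hd => ⟨d, hd, by simp⟩
    | succ k ih =>
      intro d hd
      obtain ⟨e, he, h2⟩ := ih d hd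
      obtain ⟨e', he', h3⟩ := a5 e he
      exact ⟨e', he', by rw [h2, h3, ← pow_mul _ 2, ← pow_succ']⟩
  have a7 : ∀ d ∈ D, ⁅t, d⁆ ^ 2 = 1 := fun d hd => by
    obtain ⟨e, he, h2⟩ := a6 (n + 1 + 1) d hd
    rw [h2]; exact h0 _ (pow_mem (cD t e he) 2)
  have a8 : ∀ d ∈ Pw D hD 2, ⁅t, d⁆ = 1 := by
    rintro _ ⟨d, hd, rfl⟩
    rw [cpow t d hd, a7 d hd]
  have a9 : ⁅⁅zpowers t, (⊤ : Subgroup X)⁆, D⁆ = ⊥ := by
    refine commutator_commutator_eq_bot_of_rotate ?_ ?_
    · rw [eq_bot_iff]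
      refine (commutator_mono a1 le_rfl).trans ?_
      rw [commutator_comm, commutator_le]
      intro s hs d hd
      rcases (mem_zpowers_two htt).1 hs with rfl | rfl
      · simp
      · exact a8 d hd
    · rw [eq_bot_iff]
      have : ⁅D, zpowers t⁆ ≤ V := by
        rw [commutator_comm, commutator_le]
        intro s hs d hd
        rcases (mem_zpowers_two htt).1 hs with rfl | rfl
        · simp
        · exact h.om hD (cD _ d hd) (a7 d hd)
      refine (commutator_mono this le_rfl).trans ?_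
      rw [commutator_le]
      intro v hv g _
      exact commutatorElement_eq_one_iff_mul_comm.2 (mem_center_iff.1 (h.cent hv) g).symm
  refine h.mem htt fun g => ?_
  have hd : ⁅t, g⁆ ∈ D := hC (commutator_eq_bot_iff_le_centralizer.1 a9
    (commutator_mem_commutator (mem_zpowers t) (mem_top g)))
  obtain ⟨e, he, h2⟩ := a4 _ hd
  rw [inv2] at h2
  have h3 : (⁅t, g⁆ * e ^ 2) ^ 2 = 1 := by
    rw [(show Commute ⁅t, g⁆ (e ^ 2) from hD _ hd _ (pow_mem he 2)).mul_pow, ← pow_mul,
      show 2 * 2 = 4 from rfl, ← h2, mul_inv_cancel]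
  have h4 : ⁅t, g⁆ * e ^ 2 ∈ Pw D hD 2 := h1 _ (mul_mem hd (pow_mem he 2)) (by
    rw [pow_succ' 2 n, pow_mul, h3, one_pow])
  have h5 : ⁅t, g⁆ ∈ Pw D hD 2 := (mul_mem_cancel_right (show e ^ 2 ∈ Pw D hD 2 from ⟨e, he, rfl⟩)).1 h4
  have h6 := a8 _ h5
  rw [inv2, inv_eq_one] at h6
  exact h.om hD hd h6

theorem HV.cub {V : Subgroup X} (h : HV V) {ρ : MulAut X} (hρ : Cub ρ) {t : X} (htt : t ^ 2 = 1) :
    t ∈ V := by
  have hc : ∀ x ∈ Group.conjugatesOfSet ({t} : Set X), ∀ y ∈ Group.conjugatesOfSet ({t} : Set X),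
      x * y = y * x := by
    intro x hx y hy
    obtain ⟨s, hs, hx'⟩ := Group.mem_conjugatesOfSet_iff.1 hx
    obtain ⟨s', hs', hy'⟩ := Group.mem_conjugatesOfSet_iff.1 hy
    rw [show s = t from hs] at hx'
    rw [show s' = t from hs'] at hy'
    obtain ⟨w, rfl⟩ := isConj_iff.1 (hx'.symm.trans hy')
    exact engel' hρ x w
  haveI : IsMulCommutative (normalClosure ({t} : Set X)) := isMulCommutative_closure hc
  exact h.om (B := normalClosure ({t} : Set X)) (isMulCommutative_iff.1 this)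
    (subset_normalClosure rfl) htt

theorem Hyp.omV (h : Hyp A) {V : Subgroup X} (hV : HV V) (hinv : ∀ b ∈ A, ∀ x ∈ V, b x ∈ V)
    {a : MulAut X} (ha : a ∈ A) (hf : ∀ z ∈ V, a z = z → z = 1) : Om V := by
  refine ⟨hV.kl, hV.cent, fun t ht => ?_⟩
  rw [← pow_two] at ht
  obtain ⟨D, hD, -, hcomm, hC⟩ := exists_critical h.pg
  have hVD : V ≤ D := fun v hv => hC fun g _ => mem_center_iff.1 (hV.cent hv) g
  have hCab : ∀ x ∈ centralizer (D : Set X), ∀ y ∈ centralizer (D : Set X), x * y = y * x :=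
    fun x hx y hy => hy x (hC hx)
  have omD : ∀ s ∈ D, s ^ 2 = 1 → s ∈ V := fun s hs hss => hV.mem hss fun g => by
    have h1 := hcomm (commutator_mem_commutator hs (mem_top g))
    refine hV.om hCab h1 ?_
    rw [← comm_pow_left (h1 s hs), hss, commutatorElement_one_left]
  have hO : Om (V.subgroupOf D) := ⟨isKleinFour_of
    ((Nat.card_congr (subgroupOfEquivOfLe hVD).toEquiv).trans (klein_card hV.kl))
    fun x hx => Subtype.ext (klein_sq hV.kl hx),
    fun x hx => mem_center_iff.2 fun g => Subtype.ext (mem_center_iff.1 (hV.cent hx) g),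
    fun x hx => omD x x.2 (by rw [pow_two]; exact congrArg Subtype.val hx)⟩
  have hφ : ∀ z ∈ V.subgroupOf D, MulAut.characteristic D a z = z → z = 1 := fun z hz e =>
    Subtype.ext (hf z hz (congrArg Subtype.val e))
  rcases hO.cases' (h.pg.to_subgroup D) hφ with hab | ⟨ρ, hρ⟩
  · have hD' : ∀ x ∈ D, ∀ y ∈ D, x * y = y * x := fun x hx y hy =>
      congrArg Subtype.val (hab ⟨x, hx⟩ ⟨y, hy⟩)
    obtain ⟨n, hn, ⟨e⟩⟩ := hO.homocyclic (h.pg.to_subgroup D) hab hφ
    obtain ⟨n, rfl⟩ : ∃ m, n = m + 1 := ⟨n - 1, by omega⟩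
    obtain ⟨h0, h1⟩ := homo e
    have h0' : ∀ d ∈ D, d ^ 2 ^ (n + 1) = 1 := fun d hd => congrArg Subtype.val (h0 ⟨d, hd⟩)
    have h1' : ∀ d ∈ D, d ^ 2 ^ n = 1 → ∃ e ∈ D, d = e ^ 2 := fun d hd hdd => by
      obtain ⟨y, hy⟩ := h1 ⟨d, hd⟩ (Subtype.ext hdd)
      exact ⟨y, y.2, congrArg Subtype.val hy⟩
    cases n with
    | zero =>
      exfalso
      refine h.na fun x y => ?_
      have : ∀ x : X, x ∈ D := fun x => hC fun d hd =>
        (mem_center_iff.1 (hV.cent (omD d hd (by simpa using h0' d hd))) x).symm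
      exact hD' x (this x) y (this y)
    | succ n =>
      obtain ⟨z, hz, hz1, -⟩ := klein_exists hV.kl 1
      have triv : ∀ b ∈ A, b z = z → b = 1 := fun b hb e =>
        eq_one_of_centralizer_le h.pg (h.cop hb) hC fun x hx =>
          fix_abelian h.pg (h.cop hb) hD' (fun y hy => apply_mem_of_characteristic D b hy)
            (fun y hy hyy => klein_fix hV.kl (h.cop hb) (hinv b hb) hz hz1 e (omD y hy hyy)) hx
      have hrr : a (a z) = z * a z := congrArg Subtype.val (hO.rr hφ (z := ⟨z, hVD hz⟩) hz)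
      have hrrr : a (a (a z)) = z := congrArg Subtype.val (hO.rrr hφ (z := ⟨z, hVD hz⟩) hz)
      by_cases hfp : ∀ x, a x = x → x = 1
      · refine hV.cub ⟨fun x => ?_, hfp⟩ ht
        have := triv (a * a * a) (mul_mem (mul_mem ha ha) ha) hrrr
        exact DFunLike.congr_fun this x
      · exfalso
        push Not at hfp
        obtain ⟨x, hx, hx1⟩ := hfp
        obtain ⟨m, hm, hm'⟩ := CA.Higman3.exists_inv_pow (h.pg x) hx1
        have hs : a (x ^ m) = x ^ m := by rw [map_pow, hx]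
        have hall : ∀ b ∈ A, b (x ^ m) = x ^ m := fun b hb => by
          rcases klein_mem hV.kl hz (hinv a ha z hz) hz1 (by simpa using hz1)
            (fun e => hz1 (hf z hz e.symm)) (hinv b hb z hz) with e | e | e | e
          · exact absurd (by simpa using e) hz1
          · rw [triv b hb e]; rfl
          · have := triv (a⁻¹ * b) (mul_mem (inv_mem ha) hb) (by simp [e])
            rw [← inv_mul_eq_one.1 this]; exact hs
          · have := triv ((a * a)⁻¹ * b) (mul_mem (inv_mem (mul_mem ha ha)) hb) (by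
              simp [e, ← hrr])
            rw [← inv_mul_eq_one.1 this, MulAut.mul_apply, hs, hs]
        have h2 : x ^ m ∈ commutator X := h.fix le_rfl fun b hb => by
          rw [hall b hb, inv_mul_cancel]; exact one_mem _
        exact hm (hf _ (hV.core hD' hC h0' h1' h2 (by rwa [pow_two])) hs)
  · have hCV : centralizer (D : Set X) ≤ V := fun c hc => by
      have h1 : (⟨c, hC hc⟩ : D) ∈ center D := mem_center_iff.2 fun g => Subtype.ext (hc g g.2)
      exact omD c (hC hc) (by rw [pow_two]; exact congrArg Subtype.val (hρ.om.sq h1))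
    have h2 : ⁅⁅D, (⊤ : Subgroup X)⁆, (⊤ : Subgroup X)⁆ = ⊥ := by
      rw [eq_bot_iff]
      refine (commutator_mono (hcomm.trans hCV) le_rfl).trans ?_
      rw [commutator_le]
      intro v hv g _
      exact commutatorElement_eq_one_iff_mul_comm.2 (mem_center_iff.1 (hV.cent hv) g).symm
    have h3 : ⁅⁅(⊤ : Subgroup X), (⊤ : Subgroup X)⁆, D⁆ = ⊥ :=
      commutator_commutator_eq_bot_of_rotate (by rwa [commutator_comm ⊤ D]) h2
    exact hV.mem ht fun g => hCV (commutator_eq_bot_iff_le_centralizer.1 h3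
      (commutator_mem_commutator (mem_top t) (mem_top g)))

theorem Hyp.caseB (h : Hyp A) {B : Subgroup X} (hB : B.Characteristic) (hBc : IsMulCommutative B)
    {a : MulAut X} (ha : a ∈ A) {b : X} (hb : b ∈ B) (hab : a b ≠ b) : Concl X := by
  set V := omegaAb B 2 with hVdef
  haveI hVc : V.Characteristic := characteristic_omegaAb B 2
  have hVe : Cfsg.IsElementaryAbelian 2 V := omegaAb_elementary B 2
  have hinv : ∀ b : MulAut X, ∀ x ∈ V, b x ∈ V := fun b x hx => apply_mem_of_characteristic V b hx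
  obtain ⟨v, hv, hav⟩ : ∃ v ∈ V, a v ≠ v := by
    by_contra hh
    push Not at hh
    exact hab (fix_abelian h.pg (h.cop ha) (isMulCommutative_iff.1 hBc)
      (fun y hy => apply_mem_of_characteristic B a hy)
      (fun y hy hyy => hh y (mem_omegaAb.2 ⟨hy, hyy⟩)) hb)
  have hv1 : v ≠ 1 := fun e => hav (by rw [e, map_one])
  have h4 : Nat.card V = 4 := by
    have h1 := h.el V inferInstance hVe
    obtain ⟨k, hk⟩ := exists_card_eq_pow h.pg V
    have hk0 : k ≠ 0 := by
      rintro rfl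
      rw [card_eq_one.1 hk, mem_bot] at hv
      exact hv1 hv
    have hk1 : k ≠ 1 := by
      rintro rfl
      rcases card_two hk hv hv1 (hinv a v hv) with e | e
      · exact hv1 (by simpa using e)
      · exact hav e
    have : 2 ^ 2 ≤ 2 ^ k := Nat.pow_le_pow_right two_pos (by omega)
    omega
  have hkl : IsKleinFour V := isKleinFour_of h4 hVe.2
  have hf : ∀ z ∈ V, a z = z → z = 1 := fun z hz e => by
    by_contra hz1
    exact hav (klein_fix hkl (h.cop ha) (hinv a) hz hz1 e hv)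
  have hcent : V ≤ center X := by
    obtain ⟨z, hz, hzc, hzo⟩ := exists_mem_center_orderOf h.pg (M := V) (fun e => by
      rw [e, card_bot] at h4; omega)
    have hz1 : z ≠ 1 := fun e => by rw [e, orderOf_one] at hzo; omega
    have haz : a z ∈ center X := apply_mem_of_characteristic _ a hzc
    intro x hx
    rcases klein_mem hkl hz (hinv a z hz) hz1 (by simpa using hz1)
      (fun e => hz1 (hf z hz e.symm)) hx with e | e | e | e <;> rw [e]
    exacts [one_mem _, hzc, haz, mul_mem hzc haz]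
  have hV : HV V := ⟨hkl, hcent, fun E hE hEe => by
    have h1 := h.el (V ⊔ E) inferInstance
      (isElementaryAbelian_sup hVe hEe fun x _ g hg => (mem_center_iff.1 (hcent hg) x).symm)
    have := eq_of_le_of_card_le (H := V) (K := V ⊔ E) le_sup_left (by omega)
    rw [this]; exact le_sup_right⟩
  have hO := h.omV hV (fun b _ => hinv b) ha hf
  rcases hO.cases' h.pg hf with hab | ⟨ρ, hρ⟩
  · exact absurd hab h.na
  have ho := hρ.om
  have hc : commutator X = center X := by
    refine le_antisymm ?_ ?_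
    · rw [_root_.commutator_def, commutator_le]
      exact fun x _ y _ => hρ.cc x y
    · obtain ⟨x, y, hxy⟩ : ∃ x y : X, x * y ≠ y * x := by
        by_contra hh
        push Not at hh
        exact h.na hh
      have h1 : ⁅x, y⁆ ≠ 1 := fun e => hxy (commutatorElement_eq_one_iff_mul_comm.1 e)
      have h2 := comm_mem_commutator x y
      have h3 : ρ ⁅x, y⁆ ∈ commutator X := apply_mem_of_characteristic _ ρ h2
      intro w hw
      rcases ho.cases (fun z _ e => hρ.cub.fpf z e) (hρ.cc x y) h1 hw with e | e | e | e <;> rw [e]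
      exacts [one_mem _, h2, h3, mul_mem h2 h3]
  refine Or.inr (Or.inl ⟨⟨h.pg, le_antisymm (frattini_le_of_sq_mem fun x => by
    rw [pow_two]; exact hρ.sq x) (hc ▸ commutator_le_frattini h.pg), hc⟩, hρ.card, om_inv ho,
    fun x hx => ho.mem x (by rw [← pow_two, ← hx]; exact pow_orderOf_eq_one x)⟩)


/-- Let X be a finite nonabelian 2-group with no normal abelian subgroup that is self-centralizing and contains an elementary abelian subgroup of order 8. Suppose a group A of automorphisms of X of odd order satisfies [X, A] = X. Then X is the quaternion group of order 8, or X is special of order 64 with exactly three involutions, all central, or X is extraspecial of order 32 with exactly eleven involutions (the central product of a quaternion group and a dihedral group of order 8). -/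
theorem result {X : Type*} [Group X] [Finite X] (hX : IsPGroup 2 X) (hna : ¬ IsMulCommutative X)
    (hscn : ¬ ∃ A : Subgroup X, A.Normal ∧ Subgroup.centralizer (A : Set X) = A ∧
      ∃ E : Subgroup X, E ≤ A ∧ Cfsg.IsElementaryAbelian 2 E ∧ Nat.card E = 8)
    (A : Subgroup (MulAut X)) (hA : Odd (Nat.card A))
    (hXA : Subgroup.closure {g : X | ∃ φ ∈ A, ∃ x : X, g = x⁻¹ * φ x} = ⊤) :
    Nonempty (X ≃* QuaternionGroup 2) ∨
      (Cfsg.IsSpecial 2 X ∧ Nat.card X = 64 ∧ Nat.card {x : X // orderOf x = 2} = 3 ∧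
        ∀ x : X, orderOf x = 2 → x ∈ Subgroup.center X) ∨
      (Cfsg.IsExtraspecial 2 X ∧ Nat.card X = 32 ∧ Nat.card {x : X // orderOf x = 2} = 11) := by
  have h : Hyp A := by
    refine ⟨hX, fun hh => hna ⟨⟨hh⟩⟩, fun E hE hEe => ?_, hA, hXA⟩
    by_contra hh
    obtain ⟨k, hk⟩ := exists_card_eq_pow hX E
    have hk3 : 3 ≤ k := by
      by_contra h3
      have : 2 ^ k ≤ 2 ^ 2 := Nat.pow_le_pow_right two_pos (by omega)
      omega
    obtain ⟨K, -, hKE, hK⟩ := exists_normal_card hX (M := E) 3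
      (hk ▸ Nat.pow_le_pow_right two_pos hk3)
    haveI := hEe.1
    haveI := hX.isNilpotent
    obtain ⟨B, hB1, -, hB2, hB3⟩ := exists_scn E
    exact hscn ⟨B, hB1, hB3, K, hKE.trans hB2, isElementaryAbelian_of_le hEe hKE, hK⟩
  by_cases hchar : ∀ H : Subgroup X, H.Characteristic → IsMulCommutative H →
      ∀ a ∈ A, ∀ x ∈ H, a x = x
  · exact h.caseA hchar
  · push Not at hchar
    obtain ⟨B, hB, hBc, a, ha, b, hb, hab⟩ := hchar
    exact h.caseB hB hBc ha hb hab

end Cfsg.Agent.S1904
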