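import Cfsg.Statements.S1905
import Cfsg.Agent.Lib.Loc.AmbChar
import Cfsg.Agent.Lib.Loc.LBal2
import Cfsg.Agent.Lib.Grp.H13Inv
import Cfsg.Agent.Lib.Grp.SEmb
-- import your own Cfsg.Agent.* helpers here

set_option autoImplicit false
open Cfsg

namespace Cfsg.Agent.S1905

/-- Let M be a subgroup of even order of a finite group S such that M contains the centralizer in S of each of its involutions and the normal core of M in S has odd order. Then all involutions of S are conjugate. If moreover N_S(X) ≤ M for a Sylow 2-subgroup X of M and I is an involution in the centre of X, then all involutions of M are conjugate in M and M = M₀ C_M(I) for some subgroup M₀ of M of odd order. -/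
theorem result {S : Type*} [Group S] [Finite S] (M : Subgroup S) (hM : Even (Nat.card M))
    (hC : ∀ i ∈ M, orderOf i = 2 → Subgroup.centralizer ({i} : Set S) ≤ M) (hcore : Odd (Nat.card M.normalCore)) :
    (∀ x y : S, orderOf x = 2 → orderOf y = 2 → IsConj x y) ∧
      ∀ (X : Sylow 2 M) (I : M), I ∈ (Subgroup.center ↥(X : Subgroup ↥M)).map (X : Subgroup ↥M).subtype → orderOf I = 2 →
        Subgroup.normalizer (((X : Subgroup M).map M.subtype : Subgroup S) : Set S) ≤ M →
        (∀ x y : M, orderOf x = 2 → orderOf y = 2 → IsConj x y) ∧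
          ∃ M₀ : Subgroup M, Odd (Nat.card M₀) ∧
            ∀ m : M, ∃ a ∈ M₀, ∃ c ∈ Subgroup.centralizer ({I} : Set M), m = a * c := by
  open Subgroup Cfsg CA CA.Amb CA.AmbSyl CA.AmbCore CA.AmbRes CA.AmbChar CA.AmbFs CA.AmbSpe CA.AmbIso CA.LBal CA.LBal2 CA.Comp CA.PComp in
  open scoped commutatorElement in
  (
    obtain ⟨t, htM, ht⟩ := H13Inv.exists_involution_of_even hM
    have io : ∀ i ∈ M, orderOf i = 2 → ∀ j ∉ M, orderOf j = 2 → IsConj i j := fun i hi oi j hj oj => by
      by_contra n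
      have a := H13Inv.mul_self oi
      have b := H13Inv.mul_self oj
      have e := H13Inv.even_of_not_isConj a b n
      exact hj (hC _ (hC i hi oi (mem_cs.2 (H13Inv.commute_pow_half_left a b e))) (H13Inv.orderOf_pow_half e)
        (mem_cs.2 (H13Inv.commute_pow_half_right a b e).symm))
    obtain ⟨g, hg⟩ : ∃ g, g * t * g⁻¹ ∉ M := by
      by_contra! k
      exact H13Inv.odd_card_iff.1 hcore t k ht
    have og : orderOf (g * t * g⁻¹) = 2 := by rw [orderOf_conj', ht]
    have ct : ∀ x, orderOf x = 2 → IsConj t x := fun x hx => by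
      by_cases h : x ∈ M
      · exact (io t htM ht _ hg og).trans (io x h hx _ hg og).symm
      · exact io t htM ht x h hx
    refine ⟨fun x y hx hy => (ct x hx).symm.trans (ct y hy), fun X I _ oI hN => ?_⟩
    have s := sylIn_sylow X
    have gM : g ∉ M := fun h => hg (mul_mem (mul_mem h htM) (inv_mem h))
    have se : IsStronglyEmbedded M := by
      obtain ⟨a, b, c⟩ := spe_top_iff.1 (spe_of_cent (lt_top_iff_ne_top.2 fun e => gM (e.ge (mem_top g))) s
        (s.ne_bot hM.two_dvd) (inf_le_right.trans hN) fun x hx ox => inf_le_right.trans (hC x (s.le hx) ox))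
      exact ⟨a, hM, fun g hg => Nat.not_even_iff_odd.1 fun e => c g hg e.two_dvd⟩
    have key : ∀ x y : M, orderOf x = 2 → orderOf y = 2 → ∃ d ∈ (M ⊓ cj g M).subgroupOf M, d * x * d⁻¹ = y :=
      fun x y hx hy => by
        obtain ⟨d, h1, h2, h3⟩ := SEmb.exists_conj se (s := x) (t := y) (by rw [orderOf_coe, hx])
          (by rw [orderOf_coe, hy]) (SEmb.smul_one_iff.2 x.2) (SEmb.smul_one_iff.2 y.2) (y := (g : S ⧸ M))
          fun e => gM (SEmb.mk_eq_one_iff.1 e.symm)
        have m := SEmb.mem_D_iff.2 ⟨h1, h2⟩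
        exact ⟨⟨d, m.1⟩, m, Subtype.ext h3⟩
    refine ⟨fun x y hx hy => ?_, (M ⊓ cj g M).subgroupOf M, ?_, fun m => ?_⟩
    · obtain ⟨d, -, h⟩ := key x y hx hy
      exact isConj_iff.2 ⟨d, h⟩
    · rw [Nat.card_congr (subgroupOfEquivOfLe inf_le_left).toEquiv]
      exact se.2.2 g gM
    · obtain ⟨d, h1, h2⟩ := key I (m * I * m⁻¹) oI (by rw [orderOf_conj', oI])
      refine ⟨d, h1, d⁻¹ * m, mem_cent_iff.2 ?_, by group⟩
      rw [show d⁻¹ * m * I * (d⁻¹ * m)⁻¹ = d⁻¹ * (m * I * m⁻¹) * d by group, ← h2]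
      group)

end Cfsg.Agent.S1905
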