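import Cfsg.Statements.S1906
import Cfsg.Agent.Lib.Lie.H22Rec1
import Cfsg.Agent.Lib.Loc.AmbTr
import Cfsg.Agent.Lib.Grp.Trf
import Cfsg.Agent.Lib.Odd.BGCore

set_option autoImplicit false
open Cfsg

namespace Cfsg.Agent.S1906

open Subgroup Matrix
open scoped MatrixGroups commutatorElement

theorem tr_ext {G A : Type*} [Group G] [Finite G] [CommGroup A] {S T : Subgroup G} (hS : Odd S.index)
    (φ : S →* A) {u : G} (hu : u * u = 1) (hT : IsPGroup 2 T) (hc : T ≤ centralizer {u}) {c : A}
    (c1 : c ≠ 1) (c2 : c * c = 1)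
    (key : ∀ t (h : t⁻¹ * u * t ∈ S), φ ⟨_, h⟩ = 1 ∨ φ ⟨_, h⟩ = c) (htr : φ.transfer u = 1) :
    ∃ (t : G) (h : t⁻¹ * u * t ∈ S), φ ⟨_, h⟩ = 1 ∧ CA.Amb.cj t⁻¹ T ≤ S := by
  classical
  let Y : Set (G ⧸ S) := {q | ∃ (t : G) (h : t⁻¹ * u * t ∈ S), φ ⟨_, h⟩ = 1 ∧ (t : G ⧸ S) = q}
  have kY : ∀ t : G, (t : G ⧸ S) ∈ Y ↔ ∃ h : t⁻¹ * u * t ∈ S, φ ⟨_, h⟩ = 1 := fun t =>
    ⟨fun ⟨s, h1, h2, h3⟩ => by
      have h4 := QuotientGroup.eq.1 h3
      have h5 : t⁻¹ * u * t = (s⁻¹ * t)⁻¹ * (s⁻¹ * u * s) * (s⁻¹ * t) := by group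
      refine ⟨h5 ▸ S.mul_mem (S.mul_mem (S.inv_mem h4) h1) h4, ?_⟩
      have : (⟨t⁻¹ * u * t, h5 ▸ S.mul_mem (S.mul_mem (S.inv_mem h4) h1) h4⟩ : S) =
          (⟨_, h4⟩ : S)⁻¹ * ⟨_, h1⟩ * ⟨_, h4⟩ := Subtype.ext h5
      rw [this, map_mul, map_mul, h2, map_inv, mul_one, inv_mul_cancel],
    fun ⟨h, h'⟩ => ⟨t, h, h', rfl⟩⟩
  have ui : u⁻¹ = u := inv_eq_of_mul_eq_one_right hu
  let _ := S.fintypeQuotientOfFiniteIndex
  let L : S.LeftTransversal := default
  let α : G ⧸ S → G := fun q => L.2.leftQuotientEquiv q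
  have hα : ∀ q, ((α q : G) : G ⧸ S) = q := fun q => L.2.quotientGroupMk_leftQuotientEquiv q
  have mem : ∀ q, (α q)⁻¹ * (u * α (u • q)) ∈ S := fun q => QuotientGroup.eq.1 (by
    rw [hα]
    change q = u • ((α (u • q) : G) : G ⧸ S)
    rw [hα, smul_smul, hu, one_smul])
  let f : G ⧸ S → A := fun q => φ ⟨_, mem q⟩
  have h1 : ∏ q, f q = 1 := by
    rw [← htr, MonoidHom.transfer_def φ L u]
    refine Finset.prod_congr rfl fun q _ => congrArg φ (Subtype.ext ?_)
    change _ = (α q)⁻¹ * _
    rw [smul_apply_eq_smul_apply_inv_smul, ui]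
    rfl
  have uu : ∀ q : G ⧸ S, u • u • q = q := fun q => by rw [smul_smul, hu, one_smul]
  have h2 : ∏ q with u • q ≠ q, f q = 1 := by
    refine Finset.prod_involution (fun q _ => u • q) (fun q _ => ?_) (fun q hq _ => ?_)
      (fun q hq => ?_) fun q _ => uu q
    · rw [← map_mul, ← φ.map_one]
      refine congrArg φ (Subtype.ext ?_)
      change (α q)⁻¹ * (u * α (u • q)) * ((α (u • q))⁻¹ * (u * α (u • u • q))) = 1
      rw [uu]
      calc _ = (α q)⁻¹ * (u * u) * α q := by group
        _ = 1 := by rw [hu]; group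
    · exact (Finset.mem_filter.1 hq).2
    · refine Finset.mem_filter.2 ⟨Finset.mem_univ _, ?_⟩
      rw [uu]
      exact (Finset.mem_filter.1 hq).2.symm
  have h3 : Even (Finset.univ.filter fun q : G ⧸ S => u • q ≠ q).card := by
    rw [← ZMod.natCast_eq_zero_iff_even, Finset.card_eq_sum_ones, Nat.cast_sum]
    refine Finset.sum_involution (fun q _ => u • q) (fun q _ => by decide) (fun q hq _ => ?_)
      (fun q hq => ?_) fun q _ => uu q
    · exact (Finset.mem_filter.1 hq).2
    · refine Finset.mem_filter.2 ⟨Finset.mem_univ _, ?_⟩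
      rw [uu]
      exact (Finset.mem_filter.1 hq).2.symm
  rw [← Finset.prod_filter_mul_prod_filter_not _ (fun q => u • q ≠ q), h2, one_mul,
    ← Finset.prod_filter_mul_prod_filter_not _ (fun q => q ∈ Y)] at h1
  have fx : ∀ q, ¬ u • q ≠ q → ∃ h : (α q)⁻¹ * u * α q ∈ S, f q = φ ⟨_, h⟩ := fun q hq => by
    have e : (α q)⁻¹ * (u * α (u • q)) = (α q)⁻¹ * u * α q := by rw [not_not.1 hq, mul_assoc]
    exact ⟨e ▸ mem q, congrArg φ (Subtype.ext e)⟩
  rw [Finset.prod_eq_one (fun q hq => by
      obtain ⟨a, b⟩ := Finset.mem_filter.1 hq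
      obtain ⟨h, e⟩ := fx q (Finset.mem_filter.1 a).2
      rw [← hα q, kY] at b
      exact e.trans b.2), one_mul, Finset.prod_congr rfl (g := fun _ => c) (fun q hq => by
      obtain ⟨a, b⟩ := Finset.mem_filter.1 hq
      obtain ⟨h, e⟩ := fx q (Finset.mem_filter.1 a).2
      rw [← hα q, kY] at b
      exact e.trans ((key _ h).resolve_left fun e' => b ⟨h, e'⟩)), Finset.prod_const] at h1
  have h4 : Even ((Finset.univ.filter fun q : G ⧸ S => ¬ u • q ≠ q).filter fun q => q ∉ Y).card := by
    by_contra h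
    obtain ⟨k, hk⟩ := Nat.not_even_iff_odd.1 h
    rw [hk, pow_succ, pow_mul, sq, c2, one_pow, one_mul] at h1
    exact c1 h1
  have h5 := Finset.card_filter_add_card_filter_not (s := Finset.univ) fun q : G ⧸ S => u • q ≠ q
  have h6 := Finset.card_filter_add_card_filter_not
    (s := Finset.univ.filter fun q : G ⧸ S => ¬ u • q ≠ q) fun q => q ∈ Y
  have h7 : ((Finset.univ.filter fun q : G ⧸ S => ¬ u • q ≠ q).filter fun q => q ∈ Y).card =
      Nat.card Y := by
    rw [Nat.card_eq_fintype_card, Fintype.card_subtype]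
    congr 1
    ext q
    simp only [Finset.mem_filter, Finset.mem_univ, true_and, and_iff_right_iff_imp]
    rintro ⟨t, h, -, rfl⟩
    refine not_not.2 ?_
    change ((u * t : G) : G ⧸ S) = t
    rw [eq_comm, QuotientGroup.eq, ← mul_assoc]
    exact h
  rw [Finset.card_univ, ← Nat.card_eq_fintype_card, ← index_eq_card] at h5
  have := Fact.mk Nat.prime_two
  obtain ⟨t, t1, t2⟩ := CA.AmbTr.exists_fixed_coset hT (Y := Y) (fun x hx q ⟨t, t0, t1, t2⟩ => by
    have : x⁻¹ * u * x = u := by
      rw [mul_assoc, mem_centralizer_singleton_iff.1 (hc hx) |>.symm, inv_mul_cancel_left]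
    have e : (x * t)⁻¹ * u * (x * t) = t⁻¹ * u * t := by
      rw [_root_.mul_inv_rev, show t⁻¹ * x⁻¹ * u * (x * t) = t⁻¹ * (x⁻¹ * u * x) * t by group, this]
    exact ⟨x * t, e ▸ t0, t1 ▸ congrArg φ (Subtype.ext e), by rw [← t2]; rfl⟩)
    (by
      rw [← even_iff_two_dvd]
      obtain ⟨a, ha⟩ := h3
      obtain ⟨b, hb⟩ := h4
      obtain ⟨d, hd⟩ := hS
      rintro ⟨e, he⟩
      omega)
  obtain ⟨h, h'⟩ := (kY t).1 t1
  exact ⟨t, h, h', t2⟩

variable {F : Type*} [Field F]

theorem diag (h2 : (2 : F) ≠ 0) {a b : GL (Fin 3) F} (ha : a * a = 1) (hb : b * b = 1)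
    (h : a * b = b * a) (a1 : a ≠ 1) (b1 : b ≠ 1) (hn : a ≠ b) (da : a.1.det = 1) (db : b.1.det = 1) :
    ∃ g : GL (Fin 3) F, ∀ x : GL (Fin 3) F, x * a = a * x → x * b = b * x →
      ∃ d, (g⁻¹ * x * g).1 = diagonal d := by
  obtain ⟨g, ga, gb⟩ := CA.H22Rec.exists_diag h2 (A := ⟨a.1, da⟩) (B := ⟨b.1, db⟩)
    (Subtype.ext (congrArg Units.val ha)) (Subtype.ext (congrArg Units.val hb))
    (Subtype.ext (congrArg Units.val h)) (fun e => a1 (Units.ext (congrArg Subtype.val e)))
    (fun e => b1 (Units.ext (congrArg Subtype.val e))) (fun e => hn (Units.ext (congrArg Subtype.val e)))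
  refine ⟨SpecialLinearGroup.toGL g, fun x xa xb => ?_⟩
  have ga' : a * SpecialLinearGroup.toGL g =
      SpecialLinearGroup.toGL g * SpecialLinearGroup.toGL (CA.H22Rec.i1 (-1)) :=
    Units.ext (congrArg Subtype.val ga)
  have gb' : b * SpecialLinearGroup.toGL g =
      SpecialLinearGroup.toGL g * SpecialLinearGroup.toGL (CA.H22Rec.i2 (-1)) :=
    Units.ext (congrArg Subtype.val gb)
  generalize SpecialLinearGroup.toGL g = k at *
  have c : ∀ {a i : GL (Fin 3) F}, a * k = k * i → x * a = a * x →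
      (k⁻¹ * x * k).1 * i.1 = i.1 * (k⁻¹ * x * k).1 := fun {a i} e1 e2 => by
    rw [← Units.val_mul, ← Units.val_mul]
    congr 1
    have : i = k⁻¹ * a * k := by rw [mul_assoc, e1, inv_mul_cancel_left]
    rw [this]
    calc _ = k⁻¹ * (x * a) * k := by group
      _ = _ := by rw [e2]; group
  have c1 := c ga' xa
  have c2 := c gb' xb
  generalize (k⁻¹ * x * k).1 = y at *
  change y * (CA.H22Rec.i1 (-1)).1 = (CA.H22Rec.i1 (-1)).1 * y at c1
  change y * (CA.H22Rec.i2 (-1)).1 = (CA.H22Rec.i2 (-1)).1 * y at c2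
  rw [CA.H22Rec.i1_coe] at c1
  rw [CA.H22Rec.i2_coe] at c2
  have z : ∀ t : F, t = -t → t = 0 := fun t e =>
    (mul_eq_zero.1 (show 2 * t = 0 by linear_combination e)).resolve_left h2
  have z' : ∀ t : F, -t = t → t = 0 := fun t e => z t e.symm
  refine ⟨fun i => y i i, ?_⟩
  ext i j
  have e1 := congrFun (congrFun c1 i) j
  have e2 := congrFun (congrFun c2 i) j
  fin_cases i <;> fin_cases j <;> simp [mul_apply, Fin.sum_univ_three] at e1 e2 ⊢ <;>
    first | exact z _ e1 | exact z _ e2 | exact z' _ e1 | exact z' _ e2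

theorem neg_mem (h2 : (2 : F) ≠ 0) {E : Type*} [Group E] [Finite E] (f : E →* GL (Fin 3) F)
    (hf : Function.Injective f) (hc : ∀ a b : E, a * b = b * a) (he : ∀ a : E, a * a = 1)
    (h8 : Nat.card E = 8) : ∃ t, f t = -1 := by
  classical
  let δ : E →* Fˣ := GeneralLinearGroup.det.comp f
  have h1 : Nat.card δ.range ≤ 2 := by
    refine (Nat.card_le_card_of_surjective (fun b : Bool => if h : (if b then (1 : Fˣ) else -1) ∈ δ.range
      then (⟨_, h⟩ : δ.range) else 1) ?_).trans (by simp)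
    rintro ⟨_, x, rfl⟩
    have : δ x * δ x = 1 := by rw [← map_mul, he, map_one]
    rcases mul_self_eq_one_iff.1 (congrArg Units.val this) with e | e
    · have e' : δ x = 1 := Units.ext e
      exact ⟨true, by simp [e']⟩
    · have e' : δ x = -1 := Units.ext e
      refine ⟨false, ?_⟩
      simp only [Bool.false_eq_true, if_false]
      rw [dif_pos ⟨x, e'⟩]
      exact Subtype.ext e'.symm
  have h3 : 3 ≤ Nat.card δ.ker := by
    have := δ.ker.card_mul_index
    rw [index_ker, h8] at this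
    by_contra! h
    have := Nat.mul_le_mul (Nat.le_of_lt_succ h) h1
    omega
  have := Fintype.ofFinite δ.ker
  rw [Nat.card_eq_fintype_card] at h3
  obtain ⟨a, a1⟩ := Fintype.exists_ne_of_one_lt_card (α := δ.ker) (by omega) 1
  obtain ⟨b, hb⟩ : ∃ b : δ.ker, b ∉ ({1, a} : Finset δ.ker) := by
    by_contra! h
    have := Finset.card_le_card (fun x _ => h x : Finset.univ ⊆ _)
    rw [Finset.card_univ] at this
    have := Finset.card_le_two (a := (1 : δ.ker)) (b := a)
    omega
  simp only [Finset.mem_insert, Finset.mem_singleton, not_or] at hb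
  obtain ⟨g, hg⟩ := diag h2 (a := f a) (b := f b) (by rw [← map_mul, he, map_one])
    (by rw [← map_mul, he, map_one]) (by rw [← map_mul, hc, map_mul])
    (fun e => a1 (Subtype.ext (hf (e.trans f.map_one.symm))))
    (fun e => hb.1 (Subtype.ext (hf (e.trans f.map_one.symm))))
    (fun e => hb.2 (Subtype.ext (hf e)).symm) (congrArg Units.val a.2) (congrArg Units.val b.2)
  choose d hd using fun x => hg (f x) (by rw [← map_mul, hc, map_mul]) (by rw [← map_mul, hc, map_mul])
  have hs : ∀ x i, d x i = 1 ∨ d x i = -1 := fun x i => by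
    have e : (g⁻¹ * f x * g) * (g⁻¹ * f x * g) = 1 := by
      calc _ = g⁻¹ * f (x * x) * g := by rw [map_mul]; group
        _ = 1 := by rw [he, map_one]; group
    have e' := congrArg Units.val e
    rw [Units.val_mul, hd, diagonal_mul_diagonal] at e'
    have := congrFun (congrFun e' i) i
    exact mul_self_eq_one_iff.1 (by simpa using this)
  let s : E → Fin 3 → Bool := fun x i => decide (d x i = 1)
  have n1 : (-1 : F) ≠ 1 := fun e => h2 (by linear_combination -e)
  have si : Function.Injective s := fun x y e => by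
    have : d x = d y := funext fun i => by
      have := congrFun e i
      rcases hs x i with h | h <;> rcases hs y i with h' | h' <;> simp_all [s]
    have e2 : g⁻¹ * f x * g = g⁻¹ * f y * g := Units.ext (by rw [hd, hd, this])
    exact hf (mul_left_cancel (mul_right_cancel e2))
  obtain ⟨t, ht⟩ := ((Nat.bijective_iff_injective_and_card s).2 ⟨si, by simp [h8]⟩).2 fun _ => false
  refine ⟨t, ?_⟩
  have e : g⁻¹ * f t * g = -1 := Units.ext (by
    rw [hd]
    have : d t = fun _ => -1 := funext fun i => (hs t i).resolve_left (by simpa [s] using congrFun ht i)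
    rw [this]
    ext i j
    by_cases h : i = j <;> simp [diagonal, h, one_apply])
  calc f t = g * (g⁻¹ * f t * g) * g⁻¹ := by group
    _ = -1 := by rw [e]; simp

/-- Let G be a finite group with no subgroup of index 2 whose Sylow 2-subgroup X embeds in GL₃(F) for a finite field F of odd order. If X contains an elementary abelian subgroup of order 8, then X is abelian. -/
theorem result {G : Type*} [Group G] [Finite G] (hG : ∀ H : Subgroup G, H.index ≠ 2) (X : Sylow 2 G)
    {F : Type*} [Field F] [Fintype F] (hF : Odd (Fintype.card F))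
    (f : ↥(X : Subgroup G) →* GL (Fin 3) F) (hf : Function.Injective f)
    (E : Subgroup G) (hE : E ≤ (X : Subgroup G)) (hEa : Cfsg.IsElementaryAbelian 2 E) (hE8 : Nat.card E = 8) :
    IsMulCommutative (X : Subgroup G) := by
  classical
  have := Fact.mk Nat.prime_two
  have h2 : (2 : F) ≠ 0 := fun e => by
    have := (FiniteField.even_card_iff_char_two (F := F)).1
      (CharP.ringChar_of_prime_eq_zero Nat.prime_two (by exact_mod_cast e))
    have := Nat.odd_iff.1 hF
    omega
  obtain ⟨t, ht⟩ := neg_mem h2 (f.comp (inclusion hE)) (hf.comp (inclusion_injective hE))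
    (fun a b => hEa.1.is_comm.comm a b) (fun a => Subtype.ext (by simpa [sq] using hEa.2 a a.2)) hE8
  change f (inclusion hE t) = -1 at ht
  generalize inclusion hE t = u at ht
  let φ : (X : Subgroup G) →* Fˣ := GeneralLinearGroup.det.comp f
  have uc : ∀ x, x * u = u * x := fun x => hf (by rw [map_mul, map_mul, ht]; simp)
  have uu : u * u = 1 := hf (by rw [map_mul, ht]; simp)
  have uu' : (u : G) * u = 1 := congrArg Subtype.val uu
  have φu : φ u = -1 := by
    change GeneralLinearGroup.det (f u) = -1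
    rw [ht]
    exact Units.ext (by simp [det_neg]; norm_num)
  have n1 : (-1 : Fˣ) ≠ 1 := fun e => h2 (by
    have := congrArg Units.val e
    simp only [Units.val_neg, Units.val_one] at this
    linear_combination -this)
  have htr : φ.transfer u = 1 := by
    by_contra h
    let R := φ.transfer.range
    have h1 : 2 ∣ Nat.card R := by
      have : orderOf (⟨φ.transfer u, u, rfl⟩ : R) = 2 := orderOf_eq_prime
        (Subtype.ext (by simp [sq, ← map_mul, uu'])) fun e => h (congrArg Subtype.val e)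
      exact this ▸ orderOf_dvd_natCard _
    refine hG ((powMonoidHom 2 : R →* R).range.comap φ.transfer.rangeRestrict) ?_
    rw [index_comap_of_surjective _ φ.transfer.rangeRestrict_surjective,
      IsCyclic.index_powMonoidHom_range, Nat.gcd_eq_right h1]
  obtain ⟨g, hg, g1, g2⟩ := tr_ext (CA.Trf.odd_index_sylow X) φ uu' X.isPGroup'
    (fun x hx => mem_centralizer_singleton_iff.2 (congrArg Subtype.val (uc ⟨x, hx⟩))) n1 (by simp)
    (fun t h => by
      have : φ ⟨_, h⟩ * φ ⟨_, h⟩ = 1 := by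
        rw [← map_mul, ← φ.map_one]
        refine congrArg φ (Subtype.ext ?_)
        change t⁻¹ * u * t * (t⁻¹ * u * t) = 1
        calc _ = t⁻¹ * ((u : G) * u) * t := by group
          _ = 1 := by rw [uu']; group
      exact (mul_self_eq_one_iff.1 (congrArg Units.val this)).imp Units.ext Units.ext) htr
  have gN : g ∈ normalizer ((X : Subgroup G) : Set G) := by
    refine inv_mem_iff.1 (mem_normalizer_fintype fun x hx => g2 ?_)
    exact ⟨x, hx, rfl⟩
  by_contra hX
  have hD : commutator X ≠ ⊥ := fun e => hX ⟨⟨fun a b => mem_center_iff.1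
    (((commutator_eq_bot_iff_center_eq_top _).1 e).ge (mem_top b)) a⟩⟩
  obtain ⟨z, z1, z2, z3, z4⟩ : ∃ z : (X : Subgroup G), z ∈ commutator X ∧ z ∈ center X ∧ z ≠ 1 ∧ z * z = 1 := by
    have hp := X.isPGroup'
    have h1 : commutator X ⊓ center X ≠ ⊥ := by
      have := CA.BG.IsPi.meet_cent (G := X) (p := 2) (P := ⊤) (N := commutator X)
        (CA.BG.isPi_of_isPGroup Nat.prime_two (hp.to_subgroup _))
        (CA.BG.isPi_of_isPGroup Nat.prime_two (hp.to_subgroup _))
        (normalizer_eq_top_iff.2 inferInstance).ge hD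
      rwa [coe_top, centralizer_univ] at this
    obtain ⟨k, hk⟩ := IsPGroup.iff_card.1 (hp.to_subgroup (commutator X ⊓ center X))
    obtain ⟨z, hz⟩ := exists_prime_orderOf_dvd_card' (G := ↥(commutator X ⊓ center X)) 2 (by
      rw [hk]
      refine dvd_pow_self 2 fun e => h1 (card_eq_one.1 (by rw [hk, e, pow_zero])))
    refine ⟨z, z.2.1, z.2.2, fun e => ?_, ?_⟩
    · rw [show z = 1 from Subtype.ext e, orderOf_one] at hz
      omega
    · have := pow_orderOf_eq_one z
      rw [hz, sq] at this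
      exact congrArg Subtype.val this
  have φD : ∀ x ∈ commutator X, φ x = 1 := fun x hx => Abelianization.commutator_subset_ker φ hx
  let s : (X : Subgroup G) := ⟨_, hg⟩
  let α := (X : Subgroup G).normalizerMonoidHom ⟨g, gN⟩
  have hs : α s = u := Subtype.ext (by
    change g * (g⁻¹ * u * g) * g⁻¹ = u
    group)
  have sc : ∀ x, x * s = s * x := fun x => α.injective (by rw [map_mul, map_mul, hs, uc])
  have sz : s ≠ z := fun e => by
    have h1 : u ∈ commutator X := by
      rw [← hs, e]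
      have := (characteristic_iff_map_le.1 (inferInstance : (commutator X).Characteristic)) α
      exact this ⟨z, z1, rfl⟩
    exact n1 (φu.symm.trans (φD u h1))
  obtain ⟨k, hk⟩ := diag h2 (a := f s) (b := f z)
    (by rw [← map_mul, ← f.map_one]; exact congrArg f (α.injective (by rw [map_mul, hs, uu, map_one])))
    (by rw [← map_mul, z4, map_one]) (by rw [← map_mul, ← sc, map_mul])
    (fun e => by
      have := hf (e.trans f.map_one.symm)
      rw [this, map_one] at hs
      rw [← hs, map_one] at φu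
      exact n1 φu.symm)
    (fun e => z3 (hf (e.trans f.map_one.symm))) (fun e => sz (hf e)) (congrArg Units.val g1)
    (congrArg Units.val (φD z z1))
  refine hX ⟨⟨fun a b => hf ?_⟩⟩
  have c := fun x => hk (f x) (by rw [← map_mul, sc, map_mul])
    (by rw [← map_mul, mem_center_iff.1 z2, map_mul])
  obtain ⟨d, hd⟩ := c a
  obtain ⟨e, he⟩ := c b
  have : (k⁻¹ * f a * k) * (k⁻¹ * f b * k) = (k⁻¹ * f b * k) * (k⁻¹ * f a * k) := Units.ext (by
    rw [Units.val_mul _ (k⁻¹ * f b * k), Units.val_mul _ (k⁻¹ * f a * k), hd, he,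
      diagonal_mul_diagonal, diagonal_mul_diagonal]
    congr 1
    funext i
    ring)
  rw [map_mul, map_mul]
  calc f a * f b = k * ((k⁻¹ * f a * k) * (k⁻¹ * f b * k)) * k⁻¹ := by group
    _ = _ := by rw [this]; group

end Cfsg.Agent.S1906
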