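import Cfsg.Statements.S1907
import Cfsg.Agent.Lib.Grp.Fus3

set_option autoImplicit false
open Cfsg

namespace Cfsg.Agent.S1907

open Subgroup CA.SylIn CA.Fus2

/-- Let P be a Sylow p-subgroup of a finite group G, H = P ∩ O_{p',p}(G), N = N_G(H) and D = O_{p'}(G). (a) If y is an element of p-power order of N and d ∈ D with d⁻¹ y d ∈ N, then d = d₁ d₂ with d₁ ∈ C_D(y) and d₂ ∈ C_D(H). (b) Two elements of P that are conjugate in G are conjugate in N. -/
theorem result {G : Type*} [Group G] [Finite G] {p : ℕ} [Fact p.Prime] (P : Sylow p G) :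
    (∀ y ∈ Subgroup.normalizer (((P : Subgroup G) ⊓ Cfsg.pPrimePCore p G : Subgroup G) : Set G), (∃ k : ℕ, orderOf y = p ^ k) →
      ∀ d ∈ Cfsg.pPrimeCore p G, d⁻¹ * y * d ∈ Subgroup.normalizer (((P : Subgroup G) ⊓ Cfsg.pPrimePCore p G : Subgroup G) : Set G) →
        ∃ d₁ ∈ Cfsg.pPrimeCore p G ⊓ Subgroup.centralizer ({y} : Set G),
          ∃ d₂ ∈ Cfsg.pPrimeCore p G ⊓ Subgroup.centralizer (((P : Subgroup G) ⊓ Cfsg.pPrimePCore p G : Subgroup G) : Set G), d = d₁ * d₂) ∧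
    ∀ x y : G, x ∈ (P : Subgroup G) → y ∈ (P : Subgroup G) → IsConj x y →
      ∃ n ∈ Subgroup.normalizer (((P : Subgroup G) ⊓ Cfsg.pPrimePCore p G : Subgroup G) : Set G), n * x * n⁻¹ = y := by
  set T := (P : Subgroup G) ⊓ pPrimePCore p G with hT
  have hS : IsSylowIn p T (pPrimePCore p G) := isSylowIn_inf_normal P _
  have ha : ∀ y ∈ normalizer (T : Set G), (∃ k : ℕ, orderOf y = p ^ k) →
      ∀ d ∈ pPrimeCore p G, d⁻¹ * y * d ∈ normalizer (T : Set G) →
        ∃ d₁ ∈ pPrimeCore p G ⊓ centralizer ({y} : Set G),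
          ∃ d₂ ∈ pPrimeCore p G ⊓ centralizer (T : Set G), d = d₁ * d₂ := by
    rintro y hy ⟨k, hk⟩ d hd hdy
    have hcop : (Nat.card (pPrimeCore p G)).Coprime p := CA.Core.coprime_pPrimeCore
    obtain ⟨n, hn, h⟩ := CA.Coprime.exists_mul_mem_centralizer' (A := zpowers y)
      (N := pPrimeCore p G ⊓ normalizer (T : Set G)) (k := d)
      (CA.Coprime.inf_le_normalizer_inf le_normalizer_of_normal
        ((zpowers_le.2 hy).trans le_normalizer))
      (by
        rw [Nat.card_zpowers, hk]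
        exact Nat.Coprime.pow_left k (hcop.symm.coprime_dvd_right (card_dvd_of_le inf_le_left)))
      (Or.inl (CA.Coprime2.isSolvable_of_comm _)) (by
        rintro _ ⟨j, rfl⟩
        refine mem_inf.2 ⟨mul_mem (inv_mem hd) ((inferInstance : (pPrimeCore p G).Normal).conj_mem d hd _), ?_⟩
        have h1 := mul_mem (zpow_mem hdy j) (inv_mem (zpow_mem hy j))
        have e : (d⁻¹ * y * d) ^ j = d⁻¹ * y ^ j * d := by
          simpa using conj_zpow (a := d⁻¹) (b := y) (i := j)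
        rw [e] at h1
        simpa [mul_assoc] using h1)
    rw [CA.Fitting.centralizer_zpowers] at h
    refine ⟨d * n, ⟨mul_mem hd hn.1, h⟩, n⁻¹, inv_mem ⟨hn.1, ?_⟩, by simp⟩
    refine CA.Fitting.le_centralizer_of_coprime (A := pPrimeCore p G ⊓ normalizer (T : Set G))
      inf_le_right (CA.Coprime.inf_le_normalizer_inf le_normalizer_of_normal
        (le_normalizer.trans le_normalizer)) ?_ hn
    exact CA.Coprime2.coprime_card_of_isPGroup hS.isPGroup
      (hcop.coprime_dvd_left (card_dvd_of_le inf_le_left))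
  refine ⟨ha, fun x y hx hy hc => ?_⟩
  obtain ⟨g, rfl⟩ := isConj_iff.1 hc
  have hPN : (P : Subgroup G) ≤ normalizer (T : Set G) :=
    CA.Coprime.inf_le_normalizer_inf le_normalizer le_normalizer_of_normal
  obtain ⟨n, hn, k, hk, rfl⟩ := hS.frattini' (g := g) (le_normalizer_of_normal (mem_top g))
  rw [← pPrimeCore_sup_eq hS, sup_comm] at hk
  obtain ⟨t, ht, d, hd, rfl⟩ := (CA.Coprime.mem_sup_iff le_normalizer_of_normal).1 hk
  have hm : n * t ∈ normalizer (T : Set G) := mul_mem hn (le_normalizer ht)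
  obtain ⟨j, hj⟩ := exists_pow_eq_one P.isPGroup' hx
  obtain ⟨i, -, hi⟩ := (Nat.dvd_prime_pow Fact.out).1 (orderOf_dvd_of_pow_eq_one hj)
  obtain ⟨d₁, h1, d₂, h2, e⟩ := ha x (hPN hx) ⟨i, hi⟩ d⁻¹ (inv_mem hd) (by
    have := mul_mem (mul_mem (inv_mem hm) (hPN hy)) hm
    convert this using 1
    group)
  refine ⟨n * t * d₂⁻¹, mul_mem hm (inv_mem (centralizer_le_normalizer _ h2.2)), ?_⟩
  have h3 := mem_centralizer_singleton_iff.1 h1.2
  calc n * t * d₂⁻¹ * x * (n * t * d₂⁻¹)⁻¹ = n * t * d₂⁻¹ * d₁⁻¹ * (d₁ * x) * d₂ * (n * t)⁻¹ := by group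
    _ = n * t * (d₁ * d₂)⁻¹ * x * (d₁ * d₂) * (n * t)⁻¹ := by rw [h3]; group
    _ = _ := by rw [← e]; group

end Cfsg.Agent.S1907
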