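import Cfsg.Statements.S1924
import Cfsg.Agent.Lib.Loc.AmbRes
import Cfsg.Agent.Lib.Grp.Trf
import Cfsg.Agent.Lib.Grp.PGDihedral
import Cfsg.Agent.Lib.Odd.BGBase1

set_option autoImplicit false
open Cfsg

namespace Cfsg.Agent.S1924

open Subgroup

theorem sign_semireg {α : Type*} [Fintype α] [DecidableEq α] (σ : Equiv.Perm α) {n m : ℕ}
    (hn : Even n) (hn0 : n ≠ 0) (h1 : σ ^ n = 1) (h2 : ∀ x k, (σ ^ k) x = x → n ∣ k)
    (hc : Fintype.card α = n * m) (hm : Odd m) : Equiv.Perm.sign σ = -1 := by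
  have hrep : σ.cycleType = Multiset.replicate σ.cycleType.card n := by
    refine Multiset.eq_replicate_card.2 fun j hj => ?_
    have hj1 : j ∣ n := (Equiv.Perm.dvd_of_mem_cycleType hj).trans (orderOf_dvd_of_pow_eq_one h1)
    obtain ⟨c, τ, rfl, hd, hcy, rfl⟩ := Equiv.Perm.mem_cycleType_iff.1 hj
    obtain ⟨x, hx, -⟩ := id hcy
    have hτ : τ x = x := (hd x).resolve_left hx
    refine Nat.dvd_antisymm hj1 (h2 x _ ?_)
    rw [hd.commute.mul_pow, ← hcy.orderOf, pow_orderOf_eq_one, one_mul]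
    exact Equiv.Perm.pow_apply_eq_self_of_apply_eq_self hτ _
  have hsup : σ.support = Finset.univ := by
    refine Finset.eq_univ_of_forall fun x => Equiv.Perm.mem_support.2 fun hx => ?_
    have := h2 x 1 (by simpa using hx)
    rw [Nat.dvd_one] at this
    subst this
    exact absurd hn (by decide)
  have hsum := Equiv.Perm.sum_cycleType σ
  rw [hsup, Finset.card_univ, hc, hrep, Multiset.sum_replicate, smul_eq_mul, mul_comm n] at hsum
  have hcard : σ.cycleType.card = m := Nat.eq_of_mul_eq_mul_right (Nat.pos_of_ne_zero hn0) hsum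
  rw [Equiv.Perm.sign_of_cycleType, Equiv.Perm.sum_cycleType, hsup, Finset.card_univ, hc, hcard]
  exact Odd.neg_one_pow ((hn.mul_right m).add_odd hm)

theorem not_mem_res {H : Type*} [Group H] [Finite H] (T : Subgroup H) (u : H) {n m : ℕ}
    (hn : Even n) (hn0 : n ≠ 0) (h1 : u ^ n = 1) (h2 : ∀ (g : H) (k : ℕ), g * u ^ k * g⁻¹ ∈ T → n ∣ k)
    (hc : T.index = n * m) (hm : Odd m) : u ∉ Cfsg.pResidual 2 H := by
  classical
  haveI := Fintype.ofFinite (H ⧸ T)
  let f : H →* ℤˣ := Equiv.Perm.sign.comp (MulAction.toPermHom H (H ⧸ T))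
  have hle : Cfsg.pResidual 2 H ≤ f.ker := by
    refine (closure_le _).2 fun g hg => ?_
    refine CA.AmbRes.mem_of_pow_mem_of_coprime (n := 2) hg ?_
    show f (g ^ 2) = 1
    rw [map_pow, Int.units_sq]
  intro hu
  have h3 : f u = 1 := hle hu
  have h4 : f u = -1 := by
    refine sign_semireg _ hn hn0 (by rw [← map_pow, h1, map_one]) ?_ ?_ hm
    · intro x k hk
      obtain ⟨g, rfl⟩ := QuotientGroup.mk_surjective x
      rw [← map_pow] at hk
      have hk' : ((u ^ k * g : H) : H ⧸ T) = g := hk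
      rw [QuotientGroup.eq] at hk'
      refine h2 g⁻¹ k ?_
      have := T.inv_mem hk'
      simpa [mul_assoc] using this
    · rw [← Nat.card_eq_fintype_card, ← hc]; rfl
  rw [h3] at h4
  exact absurd h4 (by decide)

theorem dih_sq {n : ℕ} (hn : 2 ≤ n) (C : Subgroup (DihedralGroup n)) (hC : IsCyclic C)
    (hi : C.index = 2) (y : DihedralGroup n) (hy : y ∉ C) : y ^ 2 = 1 := by
  haveI : NeZero n := ⟨by omega⟩
  have hcard : Nat.card C = n := by
    have := C.card_mul_index
    rw [hi, DihedralGroup.nat_card] at this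
    omega
  obtain ⟨c, hc⟩ := (Subgroup.isCyclic_iff_exists_zpowers_eq_top C).1 hC
  rcases y with i | i
  · rcases c with k | k
    · exfalso
      have hle : C ≤ zpowers (DihedralGroup.r 1) := by
        rw [← hc, zpowers_le]
        exact ⟨(k.val : ℤ), by simp⟩
      have : C = zpowers (DihedralGroup.r 1) := by
        refine eq_of_le_of_card_ge hle ?_
        rw [hcard, Nat.card_zpowers, DihedralGroup.orderOf_r_one]
      apply hy
      rw [this]
      exact ⟨(i.val : ℤ), by simp⟩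
    · rw [← hc, Nat.card_zpowers, DihedralGroup.orderOf_sr] at hcard
      subst hcard
      clear hy
      revert i
      decide
  · simp [sq]

/-- A consequence of Thompson's transfer lemma. Let G be a finite group, L a subgroup with O²(L) = L, T a Sylow 2-subgroup of L and S a Sylow 2-subgroup of G containing T. Suppose D ≤ S is a dihedral subgroup of order at least 4 (the four-group counts) with D ∩ T = 1 and S = TD as a set of products (so |S| = |T|·|D|), and C ≤ D is cyclic of index 2 in D. If no involution of D outside C is G-conjugate to an involution of the subgroup generated by T and C, and the involution of C is not G-conjugate to any involution of T, then G has a normal subgroup K, containing every Sylow 2-subgroup of L as a Sylow 2-subgroup, with G = KD. -/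
theorem result {G : Type*} [Group G] [Finite G] (L T S D C : Subgroup G) (hL : Cfsg.pResidual 2 ↥L = ⊤)
    (hTL : T ≤ L) (hT2 : IsPGroup 2 T) (hTsyl : ¬ 2 ∣ T.relIndex L)
    (hS2 : IsPGroup 2 S) (hSsyl : ¬ 2 ∣ S.index) (hTS : T ≤ S)
    (hDS : D ≤ S) (hDih : ∃ n : ℕ, 2 ≤ n ∧ Nonempty (↥D ≃* DihedralGroup n)) (hDT : D ⊓ T = ⊥) (hTD : T ⊔ D = S) (hTDc : Nat.card T * Nat.card D = Nat.card S)
    (hCD : C ≤ D) (hC : IsCyclic ↥C) (hCi : C.relIndex D = 2)
    (h1 : ∀ x ∈ D, x ∉ C → orderOf x = 2 → ∀ g : G, g * x * g⁻¹ ∈ T ⊔ C → False)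
    (h2 : ∀ c ∈ C, orderOf c = 2 → ∀ g : G, g * c * g⁻¹ ∈ T → False) :
    ∃ K : Subgroup G, K.Normal ∧ K ⊔ D = ⊤ ∧
      ∀ T' : Subgroup G, T' ≤ L → IsPGroup 2 T' → ¬ 2 ∣ T'.relIndex L → T' ≤ K ∧ ¬ 2 ∣ T'.relIndex K := by
  classical
  haveI : Fact (Nat.Prime 2) := ⟨Nat.prime_two⟩
  set K := Cfsg.pResidual 2 G with hK
  have hKn : (⊤ : Subgroup G) ≤ Subgroup.normalizer (K : Set G) := by
    rw [hK, ← CA.AmbRes.res_top]; exact CA.AmbRes.norm_res 2 ⊤
  haveI hKN : K.Normal := Subgroup.normalizer_eq_top_iff.1 (top_le_iff.1 hKn)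
  have hLK : L ≤ K := by
    have h : Cfsg.pResidualOf 2 L = L := by
      rw [CA.AmbRes.pResidualOf_def, hL, ← MonoidHom.range_eq_map, Subgroup.range_subtype]
    rw [hK, ← CA.AmbRes.res_top, ← h]
    exact CA.AmbRes.res_mono le_top
  have hTK : T ≤ K := hTL.trans hLK
  have hSyl : CA.AmbSyl.SylIn 2 S ⊤ :=
    CA.AmbSyl.sylIn_of_not_dvd le_top hS2 (by rwa [Subgroup.relIndex_top_right])
  have hsq : ∀ x ∈ D, x ∉ C → orderOf x = 2 := by
    intro x hx hxC
    obtain ⟨n, hn, ⟨e⟩⟩ := hDih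
    have h := dih_sq hn ((C.subgroupOf D).map e.toMonoidHom) ?_ ?_ (e ⟨x, hx⟩) ?_
    · rw [← map_pow, EmbeddingLike.map_eq_one_iff] at h
      have h' : x ^ 2 = 1 := congrArg Subtype.val h
      exact orderOf_eq_prime h' (fun h0 => hxC (h0 ▸ C.one_mem))
    · haveI : IsCyclic (C.subgroupOf D) := isCyclic_of_surjective _ (Subgroup.subgroupOfEquivOfLe hCD).symm.surjective
      exact isCyclic_of_surjective _ ((C.subgroupOf D).equivMapOfInjective e.toMonoidHom e.injective).surjective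
    · rw [Subgroup.index_map_of_bijective e.bijective]; exact hCi
    · rintro ⟨y, hy, hy2⟩
      have : y = ⟨x, hx⟩ := e.injective hy2
      subst this
      exact hxC hy
  have hMS : T ⊔ C ≤ S := sup_le hTS (hCD.trans hDS)
  have hidx : (T ⊔ C).relIndex S = 2 := by
    have a1 := CA.BG.card_mul_relIndex hMS
    have a2 := CA.BG.card_mul_relIndex hCD
    have a3 := CA.BG.card_mul_relIndex (le_sup_left : T ≤ T ⊔ C)
    have a4 := CA.BG.card_inf_mul_relIndex T C
    have a5 : T ⊓ C = ⊥ := le_bot_iff.1 (hDT ▸ le_inf (inf_le_right.trans hCD) inf_le_left)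
    rw [a5, Subgroup.card_bot, one_mul] at a4
    have a6 : T.relIndex C ≤ T.relIndex (T ⊔ C) :=
      Subgroup.relIndex_le_of_le_right le_sup_right Subgroup.FiniteIndex.index_ne_zero
    have a7 : (T ⊔ C).relIndex S ≠ 1 := by
      intro h
      rw [Subgroup.relIndex_eq_one] at h
      have hne : ¬ D ≤ C := fun h' => by
        rw [Subgroup.relIndex_eq_one.2 h'] at hCi; exact absurd hCi (by decide)
      obtain ⟨x, hx, hxC⟩ := SetLike.not_le_iff_exists.1 hne
      exact h1 x hx hxC (hsq x hx hxC) 1 (by simpa using h (hDS hx))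
    have a8 : (T ⊔ C).relIndex S ≠ 0 := Subgroup.FiniteIndex.index_ne_zero
    rw [hCi] at a2
    rw [← hTDc, ← a2, ← a3] at a1
    have hT0 : 0 < Nat.card T := Nat.card_pos
    have hC0 : 0 < Nat.card C := Nat.card_pos
    rw [a4] at a6
    have a9 : T.relIndex (T ⊔ C) * (T ⊔ C).relIndex S = Nat.card C * 2 :=
      Nat.eq_of_mul_eq_mul_left hT0 (by rw [← a1]; ring)
    have : (T ⊔ C).relIndex S ≤ 2 := by
      by_contra hlt
      have : Nat.card C * 3 ≤ T.relIndex (T ⊔ C) * (T ⊔ C).relIndex S := Nat.mul_le_mul a6 (by omega)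
      omega
    omega
  have hstep1 : D ⊓ K ≤ C := by
    rintro x ⟨hxD, hxK⟩
    by_contra hxC
    have ho := hsq x hxD hxC
    rcases CA.Trf.thompson_transfer_involution (P := S) (Nat.odd_iff.2 (by omega)) hidx (hDS hxD)
      (ho ▸ pow_orderOf_eq_one x) with ⟨M, -, hM, hxM⟩ | ⟨g, -, hg⟩
    · apply hxM
      have : K ≤ M := by
        refine (Subgroup.closure_le _).2 fun g hg => ?_
        exact CA.AmbRes.mem_of_pow_mem_of_coprime (n := 2) hg (Subgroup.sq_mem_of_index_two hM g)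
      exact this hxK
    · exact h1 x hxD hxC ho g hg
  have hcard : Nat.card ↥(S ⊓ K) = Nat.card T * Nat.card ↥(D ⊓ K) := by
    have a1 := CA.BG.card_inf_mul_relIndex K S
    have a2 := CA.BG.card_inf_mul_relIndex K D
    have a3 : K.relIndex S = K.relIndex D := by
      rw [← Subgroup.relIndex_sup_left S K, ← Subgroup.relIndex_sup_left D K, ← hTD, ← sup_assoc,
        sup_eq_left.2 hTK]
    rw [a3, ← hTDc, ← a2, inf_comm K S, inf_comm K D, ← mul_assoc] at a1
    exact Nat.eq_of_mul_eq_mul_right (Nat.pos_of_ne_zero Subgroup.FiniteIndex.index_ne_zero) a1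
  have hSK : ¬ 2 ∣ (S ⊓ K).relIndex K := (hSyl.inf_norm le_top hKn).not_dvd
  have hTSK : T ≤ S ⊓ K := le_inf hTS hTK
  have hrel : T.relIndex (S ⊓ K) = Nat.card ↥(D ⊓ K) := by
    have a1 := CA.BG.card_mul_relIndex hTSK
    rw [hcard] at a1
    exact Nat.eq_of_mul_eq_mul_left Nat.card_pos a1
  have hbot : D ⊓ K = ⊥ := by
    by_contra hne
    haveI : IsCyclic ↥(D ⊓ K) := Subgroup.isCyclic_of_le hstep1
    obtain ⟨u, hu⟩ := (Subgroup.isCyclic_iff_exists_zpowers_eq_top (D ⊓ K)).1 this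
    have huDK : u ∈ D ⊓ K := hu ▸ Subgroup.mem_zpowers u
    have hp2 : IsPGroup 2 ↥(D ⊓ K) := hS2.to_le (inf_le_left.trans hDS)
    have hev : 2 ∣ Nat.card ↥(D ⊓ K) := CA.AmbSyl.dvd_card_of_isPGroup hp2 hne
    have hou : orderOf u = Nat.card ↥(D ⊓ K) := by rw [← hu, Nat.card_zpowers]
    refine not_mem_res (H := K) (T.subgroupOf K) ⟨u, huDK.2⟩ (n := Nat.card ↥(D ⊓ K))
      (m := (S ⊓ K).relIndex K) (even_iff_two_dvd.2 hev) Nat.card_pos.ne' ?_ ?_ ?_ ?_ ?_
    · ext
      show u ^ _ = 1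
      rw [← hou]; exact pow_orderOf_eq_one u
    · intro g k hk
      by_contra hnd
      rw [← hou, orderOf_dvd_iff_pow_eq_one] at hnd
      have hz : IsPGroup 2 (Subgroup.zpowers (u ^ k)) :=
        hp2.to_le (Subgroup.zpowers_le.2 (pow_mem huDK k))
      obtain ⟨c, hc, hc2⟩ := CA.AmbSyl.exists_orderOf_eq_of_ne_bot hz (by simpa using hnd)
      obtain ⟨j, rfl⟩ := hc
      refine h2 _ (zpow_mem (pow_mem (hstep1 huDK) k) j) hc2 g ?_
      have hk' : (g : G) * u ^ k * (g : G)⁻¹ ∈ T := by simpa [Subgroup.mem_subgroupOf] using hk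
      have := zpow_mem hk' j
      rwa [conj_zpow] at this
    · rw [← hrel]
      exact (Subgroup.relIndex_mul_relIndex _ _ _ hTSK inf_le_right).symm
    · exact Nat.odd_iff.2 (by omega)
    · have hKK : Cfsg.pResidualOf 2 K = K := by
        rw [hK, ← CA.AmbRes.res_top, CA.AmbRes.res_res]
      rw [← CA.AmbRes.subgroupOf_res, hKK]
      simp
  have hTodd : ¬ 2 ∣ T.relIndex K := by
    rw [← Subgroup.relIndex_mul_relIndex _ _ _ hTSK inf_le_right, hrel, hbot, Subgroup.card_bot, one_mul]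
    exact hSK
  refine ⟨K, hKN, ?_, fun T' hT'L _ hT' => ⟨hT'L.trans hLK, ?_⟩⟩
  · have := CA.AmbRes.syl_sup_res hSyl
    rw [CA.AmbRes.res_top, ← hTD, ← hK, sup_comm, ← sup_assoc, sup_eq_left.2 hTK] at this
    exact this
  · rw [← Subgroup.relIndex_mul_relIndex _ _ _ hTL hLK] at hTodd
    rw [← Subgroup.relIndex_mul_relIndex _ _ _ hT'L hLK]
    intro h
    rcases (Nat.prime_two.dvd_mul).1 h with h | h
    · exact hT' h
    · exact hTodd (h.mul_left _)

end Cfsg.Agent.S1924
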