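import Cfsg.Statements.S1935
import Cfsg.Agent.Lib.Fus.FusLynd
import Cfsg.Agent.Lib.Loc.H6EA
import Cfsg.Agent.Lib.Loc.H6Off

set_option autoImplicit false
open Cfsg

namespace Cfsg.Agent.S1935

open CA CA.H6Off CA.H6EA CA.FusLynd Subgroup
open scoped commutatorElement

theorem quad_iff {Ω : Type*} [Group Ω] {p : ℕ} [Fact p.Prime] {V G : Subgroup Ω} (hV : H6J.IsAb p V)
    (hGV : G ≤ normalizer (V : Set Ω)) (A : Subgroup G) :
    Quad (rep hV hGV) A ↔ ⁅⁅V, A.map G.subtype⁆, A.map G.subtype⁆ = ⊥ := by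
  rw [commutator_eq_bot_iff_le_centralizer, commutator_comm V, commutator_le]
  constructor
  · rintro h _ ⟨b, hb, rfl⟩ v hv
    rw [mem_centralizer_iff]
    rintro _ ⟨a, ha, rfl⟩
    have := congrArg (fun f => val (f (mk hV v hv))) (h a ha b hb)
    simp only [Module.End.mul_apply, val_rep_sub_one, val_mk, LinearMap.zero_apply, val_zero] at this
    exact commutatorElement_eq_one_iff_mul_comm.1 this
  · intro h a ha b hb
    ext w
    refine H6EA.ext ?_
    simp only [Module.End.mul_apply, val_rep_sub_one, LinearMap.zero_apply, val_zero]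
    exact commutatorElement_eq_one_iff_mul_comm.2
      (mem_centralizer_iff.1 (h _ ⟨b, hb, rfl⟩ _ (val_mem w)) _ ⟨a, ha, rfl⟩)

theorem ms_eq {Ω : Type*} [Group Ω] {p : ℕ} [Fact p.Prime] {V G : Subgroup Ω} (hV : H6J.IsAb p V)
    (hGV : G ≤ normalizer (V : Set Ω)) {A : Subgroup G} (hA : Quad (rep hV hGV) A) :
    ms hA = fm V (A.map G.subtype) := by
  rw [ms, fm_def, card_map_of_injective G.subtype_injective]
  congr 1
  have key : ∀ w : EA hV, w ∈ fixS (sub hA) ↔
      val w ∈ centralizer ((A.map G.subtype : Subgroup Ω) : Set Ω) := fun w => by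
    rw [mem_centralizer_iff]
    constructor
    · rintro h _ ⟨a, ha, rfl⟩
      have := congrArg val (h (rep hV hGV a - 1) ⟨a, ha, by abel⟩)
      rw [val_rep_sub_one, val_zero] at this
      exact commutatorElement_eq_one_iff_mul_comm.1 this
    · rintro h r ⟨a, ha, hr⟩
      have : r = rep hV hGV a - 1 := by rw [hr]; abel
      refine H6EA.ext ?_
      rw [this, val_rep_sub_one, val_zero]
      exact commutatorElement_eq_one_iff_mul_comm.2 (h _ ⟨a, ha, rfl⟩)
  exact Nat.card_congr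
    { toFun := fun w => ⟨val w.1, val_mem _, (key _).1 w.2⟩
      invFun := fun v => ⟨mk hV v.1 v.2.1, (key _).2 v.2.2⟩
      left_inv := fun _ => rfl
      right_inv := fun _ => rfl }

/-- Let p ≥ 5 be a prime and, inside an ambient finite group, let G be a p-subgroup acting faithfully by conjugation on an elementary abelian p-subgroup V that it normalizes (only the identity of G centralizes V). Suppose V is an F-module for G: some nontrivial elementary abelian subgroup E of G satisfies #E · #C_V(E) ≥ #V. Then G contains such an offender A that moreover acts quadratically on V ([V, A, A] = 1) and is normal in its normal closure in G. -/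
theorem result {Ω : Type*} [Group Ω] [Finite Ω] (p : ℕ) [Fact p.Prime] (hp : 5 ≤ p) (V G : Subgroup Ω) (hV : Cfsg.IsElementaryAbelian p V) (hG : IsPGroup p ↥G) (hGV : G ≤ Subgroup.normalizer (V : Set Ω)) (hfaith : G ⊓ Subgroup.centralizer (V : Set Ω) = ⊥) (hF : ∃ E : Subgroup Ω, E ≤ G ∧ E ≠ ⊥ ∧ Cfsg.IsElementaryAbelian p E ∧ Nat.card ↥V ≤ Nat.card ↥E * Nat.card ↥(V ⊓ Subgroup.centralizer (E : Set Ω))) : ∃ A : Subgroup Ω, A ≤ G ∧ A ≠ ⊥ ∧ Cfsg.IsElementaryAbelian p A ∧ Nat.card ↥V ≤ Nat.card ↥A * Nat.card ↥(V ⊓ Subgroup.centralizer (A : Set Ω)) ∧ ⁅⁅V, A⁆, A⁆ = ⊥ ∧ ∀ g ∈ Subgroup.closure {x : Ω | ∃ h ∈ G, ∃ a ∈ A, x = h * a * h⁻¹}, ∀ a ∈ A, g * a * g⁻¹ ∈ A := by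
  classical
  obtain ⟨E, hEG, hE0, hEa, hE⟩ := hF
  have hV' : H6J.IsAb p V := H6J.isAb_iff_isElementaryAbelian.2 hV
  obtain ⟨B, ⟨hBE, hB0⟩, hmax⟩ := Set.exists_max_image {B : Subgroup Ω | B ≤ E ∧ B ≠ ⊥} (fm V)
    (Set.toFinite _) ⟨E, le_rfl, hE0⟩
  have hEB : Nat.card V ≤ fm V B := hE.trans (hmax E ⟨le_rfl, hE0⟩)
  have hbest : IsBestOffenderOn p V B := by
    refine best_iff.2 ⟨fun C hC => ?_, ?_, fun a ha => ?_⟩
    · by_cases h : C = ⊥
      · rw [h, fm_bot]; exact hEB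
      · exact hmax C ⟨hC.trans hBE, h⟩
    · rw [commutator_le]
      intro a ha b hb
      rw [commutatorElement_eq_one_iff_mul_comm.2
        ((H6J.isAb_iff_isElementaryAbelian.2 hEa).comm (hBE ha) (hBE hb))]
      exact one_mem _
    · rw [hEa.2 a (hBE ha)]; exact one_mem _
  have hfa : ∀ C : Subgroup Ω, C ≤ G → C ≤ centralizer (V : Set Ω) → C = ⊥ := fun C h1 h2 =>
    eq_bot_iff.2 (hfaith ▸ le_inf h1 h2)
  obtain ⟨-, -, r1, r2⟩ := best_repl hV' ((hBE.trans hEG).trans hGV) hbest le_rfl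
  obtain ⟨A0, hA0⟩ : ∃ A0, A0 = B ⊓ centralizer ((⁅V, B⁆ : Subgroup Ω) : Set Ω) := ⟨_, rfl⟩
  rw [← hA0] at r1 r2
  have hA0B : A0 ≤ B := hA0 ▸ inf_le_left
  have hA0G : A0 ≤ G := hA0B.trans (hBE.trans hEG)
  have hne : A0 ≠ ⊥ := by
    intro h
    refine r2 (fun h' => hB0 (hfa B (hBE.trans hEG) ?_)) (by rw [h, commutator_bot_right])
    rwa [commutator_comm, commutator_eq_bot_iff_le_centralizer] at h'
  have hmap : (A0.subgroupOf G).map G.subtype = A0 := by
    rw [subgroupOf_map_subtype, inf_eq_left.2 hA0G]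
  have hq : Quad (rep hV' hGV) (A0.subgroupOf G) := by
    rw [quad_iff, hmap, commutator_comm, commutator_eq_bot_iff_le_centralizer]
    exact (hA0 ▸ inf_le_right : A0 ≤ centralizer ((⁅V, B⁆ : Subgroup Ω) : Set Ω)).trans
      (centralizer_le (commutator_mono le_rfl hA0B))
  have hρ : Function.Injective (rep hV' hGV) := by
    rw [injective_iff_map_eq_one]
    intro a ha
    have : (a : Ω) ∈ G ⊓ centralizer (V : Set Ω) := ⟨a.2, (rep_eq_one_iff hGV a).1 ha⟩
    rw [hfaith] at this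
    exact Subtype.ext this
  obtain ⟨A, hA, c1, c2, hn⟩ := exists_normal hp hG hρ hq
  rw [ms_eq, ms_eq, hmap, r1] at c2
  have hq' := (quad_iff hV' hGV A).1 hA
  have hAG : A.map G.subtype ≤ G := map_subtype_le A
  have hmem : ∀ a ∈ G, a ∈ centralizer (V : Set Ω) → a = 1 := fun a h1 h2 => by
    have : a ∈ G ⊓ centralizer (V : Set Ω) := ⟨h1, h2⟩
    rwa [hfaith] at this
  refine ⟨A.map G.subtype, hAG, ?_, ⟨?_, ?_⟩, hEB.trans c2, hq', ?_⟩
  · intro h
    rw [map_eq_bot_iff_of_injective _ G.subtype_injective] at h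
    rw [h, card_bot] at c1
    have : A0.subgroupOf G = ⊥ := eq_bot_of_card_le _ c1
    exact hne (by rw [← hmap, this, Subgroup.map_bot])
  · refine ⟨⟨fun a b => Subtype.ext ?_⟩⟩
    refine commutatorElement_eq_one_iff_mul_comm.1 (hmem _ ?_ ?_)
    · exact G.mul_mem (G.mul_mem (G.mul_mem (hAG a.2) (hAG b.2)) (G.inv_mem (hAG a.2)))
        (G.inv_mem (hAG b.2))
    · exact comm_le_cent_of_quad hq' (commutator_mem_commutator a.2 b.2)
  · intro a ha
    exact hmem _ (G.pow_mem (hAG ha) p) (pow_mem_cent_of_quad hV.2 (hAG.trans hGV) hq' ha)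
  · have : closure {x : Ω | ∃ h ∈ G, ∃ a ∈ A.map G.subtype, x = h * a * h⁻¹} ≤
        normalizer ((A.map G.subtype : Subgroup Ω) : Set Ω) := by
      rw [closure_le]
      rintro _ ⟨h, hh, _, ⟨a, ha, rfl⟩, rfl⟩
      refine mem_normalizer_fintype ?_
      rintro _ ⟨e, he, rfl⟩
      refine ⟨_, hn (⟨h, hh⟩ * a * ⟨h, hh⟩⁻¹) ?_ e he, rfl⟩
      obtain ⟨g, hg⟩ : ∃ g : G, g = ⟨h, hh⟩ := ⟨_, rfl⟩
      rw [← hg]
      have e : rep hV' hGV (g * a * g⁻¹) - 1 =
          rep hV' hGV g * (rep hV' hGV a - 1) * rep hV' hGV g⁻¹ := by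
        rw [mul_sub, sub_mul, mul_one, ← map_mul _ g g⁻¹, mul_inv_cancel, map_one, map_mul, map_mul]
      rw [e]
      calc _ = rep hV' hGV g * ((rep hV' hGV a - 1) * (rep hV' hGV g⁻¹ * rep hV' hGV g) *
            (rep hV' hGV a - 1)) * rep hV' hGV g⁻¹ := by simp only [mul_assoc]
        _ = 0 := by
          rw [← map_mul, inv_mul_cancel, map_one, mul_one, hA a ha a ha, mul_zero, zero_mul]
    intro g hg a ha
    exact (mem_normalizer_iff.1 (this hg) a).1 ha

end Cfsg.Agent.S1935
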