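import Cfsg.Statements.S1939
import Cfsg.Agent.Lib.Grp.Trf

set_option autoImplicit false
open Cfsg

namespace Cfsg.Agent.S1939

open Subgroup CA.SylIn CA.Trf

/-- Let S be a Sylow p-subgroup of the finite group G and a an element of S that is the only G-conjugate of a lying in S. Then every power of a has the same property: for every n, the only G-conjugate of a^n lying in S is a^n. -/
theorem result {G : Type*} [Group G] [Finite G] {p : ℕ} [Fact p.Prime] (S : Sylow p G) (a : G)
    (haS : a ∈ (S : Subgroup G)) (hwc : ∀ g : G, g * a * g⁻¹ ∈ (S : Subgroup G) → g * a * g⁻¹ = a) (n : ℕ) :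
    ∀ g : G, g * a ^ n * g⁻¹ ∈ (S : Subgroup G) → g * a ^ n * g⁻¹ = a ^ n := by
  intro g hg
  have hW : IsWeaklyClosed (zpowers a) (S : Subgroup G) := ⟨zpowers_le.2 haS, fun g hg => by
    change g •ᶜ _ = _
    rw [conj_zpowers, hwc g (conj_le_iff.1 hg a (mem_zpowers a))]⟩
  have hc : (S : Subgroup G) ≤ centralizer (zpowers a : Set G) := fun s hs =>
    mem_centralizer_iff.2 (by
      rintro _ ⟨k, rfl⟩
      have : Commute s a := mul_inv_eq_iff_eq_mul.1 (hwc s (mul_mem (mul_mem hs haS) (inv_mem hs)))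
      exact (this.zpow_right k).eq.symm)
  obtain ⟨m, hm, e⟩ := exists_normalizer_conj_elt_of_weaklyClosed S hW (hc (pow_mem haS n)) (hc hg)
  rw [← e, ← conj_pow, hwc m (hW.1 (conj_mem_of_mem_normalizer hm (mem_zpowers a)))]

end Cfsg.Agent.S1939
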