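import Cfsg.Statements.S1940
import Mathlib

set_option autoImplicit false
open Cfsg

namespace Cfsg.Agent.S1940



/-- Let the finite group L act by automorphisms on the finite abelian group M, and let N be an L-invariant subgroup of M such that M/N is a p-group on which L acts trivially (every l • m lies in the coset mN). If every element of M is a product of an element of N and an element fixed by a Sylow p-subgroup T of L, then every element of M is a product of an element of N and an element fixed by all of L. -/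
theorem result {L : Type*} [Group L] [Finite L] {M : Type*} [CommGroup M] [Finite M] [MulDistribMulAction L M]
    {p : ℕ} [Fact p.Prime] (N : Subgroup M) (hN : ∀ (l : L) (m : M), m ∈ N → l • m ∈ N)
    (hquot : IsPGroup p (M ⧸ N)) (htriv : ∀ (l : L) (m : M), (l • m) * m⁻¹ ∈ N) (T : Sylow p L)
    (hT : ∀ m : M, ∃ n ∈ N, ∃ c : M, (∀ t ∈ (T : Subgroup L), t • c = c) ∧ m = n * c) :
    ∀ m : M, ∃ n ∈ N, ∃ c : M, (∀ l : L, l • c = c) ∧ m = n * c := by
  classical
  intro m
  haveI : Fintype (L ⧸ (T : Subgroup L)) := Fintype.ofFinite _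
  set k := (T : Subgroup L).index with hk
  have hcop : Nat.Coprime p k := (Nat.Prime.coprime_iff_not_dvd Fact.out).2 T.not_dvd_index
  obtain ⟨q, hq⟩ := (hquot.powEquiv hcop).surjective (QuotientGroup.mk m)
  obtain ⟨m₀, rfl⟩ := QuotientGroup.mk_surjective q
  obtain ⟨n, hn, c, hc, rfl⟩ := hT m₀
  have hmk : ∀ l : L, (QuotientGroup.mk (l • c) : M ⧸ N) = QuotientGroup.mk c := by
    intro l
    rw [eq_comm, QuotientGroup.eq, mul_comm]; exact htriv l c
  refine ⟨m * (∏ q : L ⧸ (T : Subgroup L), q.out • c)⁻¹, ?_, ∏ q : L ⧸ (T : Subgroup L), q.out • c, ?_, by simp⟩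
  · rw [← QuotientGroup.eq_one_iff, QuotientGroup.mk_mul, QuotientGroup.mk_inv, ← hq]
    have : (QuotientGroup.mk (∏ q : L ⧸ (T : Subgroup L), q.out • c) : M ⧸ N) = (QuotientGroup.mk c) ^ k := by
      rw [← QuotientGroup.mk'_apply, map_prod]
      simp only [QuotientGroup.mk'_apply, hmk, Finset.prod_const, Finset.card_univ]
      rw [hk, Subgroup.index_eq_card, Nat.card_eq_fintype_card]
    rw [this, IsPGroup.powEquiv_apply, QuotientGroup.mk_mul, (QuotientGroup.eq_one_iff n).2 hn]
    simp
  · intro l
    rw [Finset.smul_prod']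
    refine Fintype.prod_equiv (MulAction.toPerm l) _ _ fun q => ?_
    have h1 : (l • q).out⁻¹ * (l * q.out) ∈ (T : Subgroup L) := by
      rw [← QuotientGroup.eq, QuotientGroup.out_eq', ← smul_eq_mul, ← MulAction.Quotient.smul_coe, QuotientGroup.out_eq']
    have h2 := hc _ h1
    rw [MulAction.toPerm_apply, ← mul_smul]
    conv_rhs => rw [← h2, ← mul_smul]
    simp

end Cfsg.Agent.S1940
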