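import Cfsg.Statements.S1941
import Cfsg.Agent.Lib.Loc.AmbChar
import Cfsg.Agent.Lib.Loc.LBal3
import Cfsg.Agent.Lib.Grp.H13Inv
import Cfsg.Agent.Lib.Loc.AmbWC
import Cfsg.Agent.Lib.Loc.AmbRed
-- import your own Cfsg.Agent.* helpers here

set_option autoImplicit false
open Cfsg

namespace Cfsg.Agent.S1941

/-- Let G be a finite group with no nontrivial normal subgroup of order prime to p, T a Sylow p-subgroup of G and E(G) the layer of G (the subgroup generated by its components). An automorphism of G of p-power order that fixes T and E(G) elementwise is inner. -/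
theorem result {G : Type*} [Group G] [Finite G] {p : ℕ} [Fact p.Prime] (hcore : Cfsg.pPrimeCore p G = ⊥)
    (T : Sylow p G) (α : MulAut G) (hα : ∃ j : ℕ, orderOf α = p ^ j) (hfixT : ∀ x ∈ (T : Subgroup G), α x = x)
    (hfixE : ∀ x ∈ Cfsg.layer G, α x = x) : ∃ g : G, ∀ x : G, α x = g * x * g⁻¹ := by
  open Subgroup Cfsg CA CA.Amb CA.AmbSyl CA.AmbCore CA.AmbRes CA.AmbChar CA.AmbFs CA.AmbSpe CA.AmbIso CA.LBal CA.LBal2 CA.Comp CA.PComp in
  open scoped commutatorElement in
  (
    classical
    let F := generalizedFittingSubgroup G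
    let Z := 𝐂 F
    have fix : ∀ x ∈ F, α x = x := fun x hx => by
      have : F ≤ α.toMonoidHom.eqLocus (MonoidHom.id G) := by
        rw [show F = _ from Fstar.fstar_eq_layer_sup_pCore hcore]
        exact sup_le hfixE fun x hx => hfixT x (pCore_le_sylow T hx)
      exact this hx
    have ZF : Z ≤ F := Fstar.centralizer_fstar_le
    have pZ : IsPGroup p Z := (isPGroup_pCore p G).to_le
      (Fitting.fitting_eq_pCore_of_pPrimeCore_eq_bot p hcore ▸ Fstar.centralizer_fstar_le_fitting)
    letI : CommGroup Z := { (inferInstance : Group Z) with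
      mul_comm := fun a b => Subtype.ext (mem_centralizer_sub.1 b.2 a (ZF a.2)) }
    have m : ∀ x, α x * x⁻¹ ∈ Z := fun x => mem_centralizer_sub.2 fun f hf => by
      have := fix _ (Normal.conj_mem' inferInstance f hf x)
      rw [map_mul, map_mul, map_inv, fix f hf] at this
      calc f * (α x * x⁻¹) = α x * ((α x)⁻¹ * f * α x) * x⁻¹ := by group
        _ = _ := by rw [this]; group
    let d : G → Z := fun x => ⟨_, m x⟩
    let D : G ⧸ (T : Subgroup G) → Z := fun q => d q.out
    have h1 : ∀ x : G, D x = d x := fun x => by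
      obtain ⟨t, ht⟩ := QuotientGroup.mk_out_eq_mul (T : Subgroup G) x
      refine Subtype.ext ?_
      show α _ * _⁻¹ = α x * x⁻¹
      rw [ht, map_mul, hfixT t t.2]
      group
    have h2 : ∀ (g : G) q, D (g • q) = d g * MulAut.conjNormal g (D q) := fun g q => by
      obtain ⟨x, rfl⟩ := QuotientGroup.mk_surjective q
      rw [MulAction.Quotient.smul_coe, h1, h1]
      refine Subtype.ext ?_
      show α (g * x) * (g * x)⁻¹ = α g * g⁻¹ * (g * (α x * x⁻¹) * g⁻¹)
      rw [map_mul]
      group
    have := Fintype.ofFinite (G ⧸ (T : Subgroup G))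
    have c : (Nat.card Z).Coprime (Fintype.card (G ⧸ (T : Subgroup G))) := by
      rw [← Nat.card_eq_fintype_card]
      exact (coprime_card_of_isPGroup pZ (Fitting.coprime_iff_not_dvd.2 T.not_dvd_index)).symm
    obtain ⟨v, hv⟩ := (powCoprime c).surjective (∏ q, D q)
    refine ⟨v, fun g => ?_⟩
    have h3 : ∏ q, D q = d g ^ Fintype.card (G ⧸ (T : Subgroup G)) * MulAut.conjNormal g (∏ q, D q) := by
      rw [map_prod, ← Finset.card_univ, ← Finset.prod_const, ← Finset.prod_mul_distrib]
      exact (Fintype.prod_equiv (MulAction.toPerm g) _ _ fun q => (h2 g q).symm).symm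
    rw [← hv, powCoprime_apply, map_pow, ← mul_pow] at h3
    have h4 : (v : G) = α g * g⁻¹ * (g * v * g⁻¹) := congrArg Subtype.val ((powCoprime c).injective h3)
    calc α g = α g * g⁻¹ * (g * v * g⁻¹) * g * (v : G)⁻¹ := by group
      _ = _ := by rw [← h4])

end Cfsg.Agent.S1941
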