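import Cfsg.Statements.S1944
import Cfsg.Agent.Lib.Grp.FrobCrit

set_option autoImplicit false
open Cfsg

namespace Cfsg.Agent.S1944

open Subgroup CA.BG CA.OQuo
open scoped commutatorElement

theorem trace {N V : Type*} [Group N] [Finite N] [CommGroup V] (φ : N →* MulAut V) (S : Subgroup N) :
    ∃ f : V →* V, (∀ a, (∀ s ∈ S, φ s a = a) → ∀ n, φ n (f a) = f a) ∧
      ∀ a, (∀ n, φ n a = a) → f a = a ^ S.index := by
  classical
  haveI := Fintype.ofFinite (N ⧸ S)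
  refine ⟨∏ q : N ⧸ S, (φ q.out).toMonoidHom, fun a ha n => ?_, fun a ha => ?_⟩
  · simp only [MonoidHom.finsetProd_apply, map_prod, MulEquiv.coe_toMonoidHom]
    refine Fintype.prod_equiv (MulAction.toPerm n) _ _ fun q => ?_
    have h1 : ((n * q.out : N) : N ⧸ S) = ((MulAction.toPerm n q).out : N) := by
      rw [QuotientGroup.out_eq', MulAction.toPerm_apply, ← smul_eq_mul, ← MulAction.Quotient.smul_mk,
        QuotientGroup.out_eq']
    have h2 := ha _ (QuotientGroup.eq.1 h1)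
    rw [← MulAut.mul_apply, ← map_mul]
    conv_lhs => rw [← h2, ← MulAut.mul_apply, ← map_mul, mul_inv_cancel_left]
  · simp only [MonoidHom.finsetProd_apply, MulEquiv.coe_toMonoidHom, ha, Finset.prod_const, Finset.card_univ]
    rw [index, Nat.card_eq_fintype_card]

theorem split {G : Type*} [Group G] [Finite G] {V S N : Subgroup G} (hV : IsMulCommutative V) (hS : S ≤ N)
    (hn : N ≤ 𝓝(V)) (hc : (♯V).Coprime (S.relIndex N)) :
    ∃ K, K ≤ V ⊓ 𝓒(S) ∧ (V ⊓ 𝓒(N)) ⊓ K = ⊥ ∧ (V ⊓ 𝓒(N)) ⊔ K = V ⊓ 𝓒(S) := by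
  letI : CommGroup V := { (inferInstance : Group V) with mul_comm := hV.is_comm.comm }
  obtain ⟨f, h1, h2⟩ := trace ((cact V).comp (inclusion hn)) (S.subgroupOf N)
  have e : ∀ (n : N) (v : V), ((cact V).comp (inclusion hn)) n v = v ↔ (n : G) * v = v * n := fun n v => by
    rw [Subtype.ext_iff, ← mul_inv_eq_iff_eq_mul]; rfl
  have h3 : ∀ v : V, (v : G) ∈ 𝓒(N) → f v = v ^ S.relIndex N := fun v hv =>
    h2 v fun n => (e n v).2 (mem_cent.1 hv n n.2)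
  have h4 : ∀ v : V, (v : G) ∈ 𝓒(S) → (f v : G) ∈ 𝓒(N) := fun v hv => mem_cent.2 fun n hn' =>
    (e ⟨n, hn'⟩ _).1 (h1 v (fun s hs => (e s v).2 (mem_cent.1 hv s hs)) _)
  refine ⟨f.ker.map V.subtype ⊓ 𝓒(S), inf_le_inf_right _ (map_subtype_le _), ?_, ?_⟩
  · rw [eq_bot_iff]
    rintro _ ⟨⟨-, h5⟩, ⟨v, h6, rfl⟩, -⟩
    have h7 : v ^ S.relIndex N = 1 := (h3 v h5).symm.trans h6
    have := (Nat.Coprime.coprime_dvd_left (orderOf_dvd_natCard v) hc).eq_one_of_dvd (orderOf_dvd_of_pow_eq_one h7)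
    rw [orderOf_eq_one_iff.1 this]; exact one_mem _
  · refine le_antisymm (sup_le (inf_le_inf_left _ (cent_anti hS)) (inf_le_inf_right _ (map_subtype_le _))) ?_
    rintro x ⟨hx, hxS⟩
    obtain ⟨m, hm⟩ := exists_pow_eq_self_of_coprime (x := f ⟨x, hx⟩)
      (Nat.Coprime.coprime_dvd_left (orderOf_dvd_natCard _) hc).symm
    have h5 : ((f ⟨x, hx⟩ ^ m : V) : G) ∈ 𝓒(N) := Subgroup.pow_mem _ (h4 _ hxS) m
    have h6 : f (f ⟨x, hx⟩ ^ m) = f ⟨x, hx⟩ := by rw [h3 _ h5, ← pow_mul, mul_comm, pow_mul, hm]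
    have h7 : x = (f ⟨x, hx⟩ ^ m : V) * ((f ⟨x, hx⟩ ^ m)⁻¹ * ⟨x, hx⟩ : V) := by simp
    rw [h7]
    refine mul_mem (mem_sup_left ⟨SetLike.coe_mem _, h5⟩) (mem_sup_right (mem_inf.2 ⟨⟨(f ⟨x, hx⟩ ^ m)⁻¹ * ⟨x, hx⟩, ?_, rfl⟩, ?_⟩))
    · show f _ = 1
      rw [map_mul, map_inv, h6, inv_mul_cancel]
    · exact mul_mem (inv_mem (cent_anti hS h5)) hxS

/-- Let S be a Sylow p-subgroup of the finite group G and suppose that the centre Z(S) lies in O_{p',p}(G). The elements of S each of which is its only G-conjugate in S form a subgroup W of Z(S); W is then a direct factor of Z(S): there is a subgroup K of Z(S) with W ∩ K = 1 and WK = Z(S). -/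
theorem result {G : Type*} [Group G] [Finite G] {p : ℕ} [Fact p.Prime] (S : Sylow p G)
    (hZ : ((S : Subgroup G) ⊓ Subgroup.centralizer ((S : Subgroup G) : Set G)) ≤ Cfsg.pPrimePCore p G) :
    ∃ W K : Subgroup G, (∀ x : G, x ∈ W ↔ (x ∈ (S : Subgroup G) ∧ ∀ g : G, g * x * g⁻¹ ∈ (S : Subgroup G) → g * x * g⁻¹ = x)) ∧
      K ≤ ((S : Subgroup G) ⊓ Subgroup.centralizer ((S : Subgroup G) : Set G)) ∧ W ⊓ K = ⊥ ∧ W ⊔ K = ((S : Subgroup G) ⊓ Subgroup.centralizer ((S : Subgroup G) : Set G)) := by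
  have hp : p.Prime := Fact.out
  have hS := syl_top hp S
  rw [← Opp_top hp] at hZ
  set T := (S : Subgroup G) ⊓ Opp p ⊤ with hT
  have h1 : Syl p T (Opp p ⊤) := syl_inf_Opp hS
  have h2 : (S : Subgroup G) ≤ 𝓝(T) := norm_inf (le_norm_self _) (le_top.trans (le_norm_Opp _ _))
  have h3 := h1.syl_frattini_sup hp le_top (le_norm_Opp _ _)
  rw [top_inf_eq, Opp_eq_sup hp h1, sup_assoc, sup_eq_right.2 (le_norm_self T)] at h3
  obtain ⟨K, k1, k2, k3⟩ := split (comm_center T) h2 (norm_center T)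
    ((h1.pi.inf_left _).nat.coprime (hS.of_le h2 le_top).idx)
  have e : 𝓩(T) ⊓ 𝓒((S : Subgroup G)) = 𝓩((S : Subgroup G)) :=
    le_antisymm (inf_le_inf_right _ (inf_le_left.trans inf_le_left))
      (le_inf (le_inf (le_inf inf_le_left hZ) (inf_le_right.trans (cent_anti inf_le_left))) inf_le_right)
  rw [e] at k1 k3
  refine ⟨𝓩(T) ⊓ 𝓒(𝓝(T)), K, fun x => ⟨fun hx => ⟨hx.1.1.1, fun g hg => ?_⟩, fun hx => ?_⟩, k1, k2, k3⟩
  · have n1 : ∀ K : Subgroup G, K ≤ 𝓝(𝓞({p}ᶜ, (⊤ : Subgroup G))) := fun K => le_top.trans (le_norm_core _ _)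
    obtain ⟨o, ho, n, hn, rfl⟩ := (mem_sup_norm' (n1 _)).1 (h3.ge (mem_top g))
    have h4 : n * x * n⁻¹ = x := by rw [mem_cent.1 hx.2 n hn, mul_inv_cancel_right]
    have h5 : o * n * x * (o * n)⁻¹ = o * x * o⁻¹ := by
      conv_rhs => rw [← h4]
      group
    rw [h5] at hg ⊢
    have h6 : o * x * o⁻¹ * x⁻¹ ∈ (S : Subgroup G) ⊓ 𝓞({p}ᶜ, (⊤ : Subgroup G)) := by
      refine mem_inf.2 ⟨mul_mem hg (inv_mem (mem_inf.1 (mem_inf.1 hx.1).1).1), ?_⟩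
      have := mul_mem ho (conj_mem_of_norm (n1 ⊤) (mem_top x) (inv_mem ho))
      simpa only [mul_assoc] using this
    rw [hS.pi.inf_eq_bot (core_pi _ _), mem_bot, mul_inv_eq_one] at h6
    exact h6
  · have h4 : x ∈ 𝓒((S : Subgroup G)) := mem_cent.2 fun s hs =>
      mul_inv_eq_iff_eq_mul.1 (hx.2 s (mul_mem (mul_mem hs hx.1) (inv_mem hs)))
    have h5 : x ∈ T := ⟨hx.1, hZ ⟨hx.1, h4⟩⟩
    exact ⟨⟨h5, cent_anti inf_le_left h4⟩, mem_cent.2 fun n hn =>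
      mul_inv_eq_iff_eq_mul.1 (hx.2 n (conj_mem_of_mem_norm hn h5).1)⟩

end Cfsg.Agent.S1944
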