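import Cfsg.Statements.S2799
import Cfsg.Agent.Lib.Fus.FusNil
-- import your own Cfsg.Agent.* helpers here

set_option autoImplicit false
open Cfsg

namespace Cfsg.Agent.S2799

open CA.Fus CA.AmbSyl in
/-- Let S be a Sylow p-subgroup of the finite group G, J(S) the subgroup generated by the abelian subgroups of S of largest order, and x an element of S lying in the centre of N_G(J(S)). Assume that p is odd, or that x is a p-th power of an element of Z(S), or that the symmetric group of degree 4 is not involved in G. Then x is weakly closed in S with respect to G: every G-conjugate of x that lies in S equals x. -/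
theorem result {G : Type*} [Group G] [Finite G] {p : ℕ} [Fact p.Prime] (S : Sylow p G) (x : G) (hxS : x ∈ (S : Subgroup G)) (hxZ : x ∈ (Subgroup.center ↥(Subgroup.normalizer ((Cfsg.thompsonSubgroupAOf (S : Subgroup G)) : Set G))).map (Subgroup.normalizer ((Cfsg.thompsonSubgroupAOf (S : Subgroup G)) : Set G)).subtype) (h : p ≠ 2 ∨ (∃ z ∈ (S : Subgroup G) ⊓ Subgroup.centralizer ((S : Subgroup G) : Set G), z ^ p = x) ∨ ¬ Cfsg.Involves (Equiv.Perm (Fin 4)) G) : ∀ g : G, g * x * g⁻¹ ∈ (S : Subgroup G) → g * x * g⁻¹ = x := by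
  rw [CA.H6J.map_center_subtype, CA.H6J.thompsonSubgroupAOf_eq] at hxZ
  have hT := sylIn_top S
  have h1 : x ∈ (S : Subgroup G) ⊓ Subgroup.centralizer ((S : Subgroup G) : Set G) :=
    ⟨hxS, CA.Amb.centralizer_anti (CA.H6J.le_normalizer_J 0 _) hxZ.2⟩
  have h2 : ∀ f, KMor (groupFusionSystem (S : Subgroup G)) (⊤ : Subgroup (MulAut (CA.H6J.J 0 (S : Subgroup G))))
      (CA.H6J.J 0 (S : Subgroup G)) f → f x = x := fun f hf => by
    obtain ⟨g, hg, e⟩ := hf.group
    rw [e x (Z_le_J h1), hxZ.2 g hg, mul_inv_cancel_right]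
  have h3 : x ∈ (groupFusionSystem (S : Subgroup G)).center := by
    rcases h with h | ⟨z, hz, rfl⟩ | h
    · exact central_J hT.pg (sat_group hT) (Or.inl h) h1 h2
    · exact central_J_pow hT.pg (sat_group hT) hz h2
    · exact central_J hT.pg (sat_group hT) (Or.inr (group_free hT h)) h1 h2
  exact fun g hg => central_fix (center_central _) (f := cj g) (mor_group.2 ⟨Subgroup.zpowers_le.2 hxS,
    img_le_iff.1 (by rw [(homOn_cj _ g).img_zpowers, Subgroup.zpowers_le]; exact hg), g, fun _ _ => rfl⟩)
    (Subgroup.mem_zpowers x) h3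

end Cfsg.Agent.S2799
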