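import Cfsg.Statements.S1945
import Cfsg.Agent.S2799
import Cfsg.Agent.S1944

set_option autoImplicit false
open Cfsg

namespace Cfsg.Agent.S1945

open Subgroup CA.BG CA.OQuo CA.H6J in

/-- Let S be a Sylow p-subgroup of the finite group G, and assume that p is odd or that G is solvable. The elements of S each of which is its only G-conjugate in S form a subgroup W of Z(S); W is then a direct factor of Z(S): there is a subgroup K of Z(S) with W ∩ K = 1 and WK = Z(S). (For p = 2 and G not solvable this can fail.) -/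
theorem result {G : Type*} [Group G] [Finite G] {p : ℕ} [Fact p.Prime] (S : Sylow p G) (h : p ≠ 2 ∨ Group.IsSolvable G) :
    ∃ W K : Subgroup G, (∀ x : G, x ∈ W ↔ (x ∈ (S : Subgroup G) ∧ ∀ g : G, g * x * g⁻¹ ∈ (S : Subgroup G) → g * x * g⁻¹ = x)) ∧
      K ≤ ((S : Subgroup G) ⊓ Subgroup.centralizer ((S : Subgroup G) : Set G)) ∧ W ⊓ K = ⊥ ∧ W ⊔ K = ((S : Subgroup G) ⊓ Subgroup.centralizer ((S : Subgroup G) : Set G)) := by
  have hp : p.Prime := Fact.out
  have hS := syl_top hp S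
  rcases h with h | h
  · have h1 := le_normalizer_J 0 (S : Subgroup G)
    have h2 := J_le 0 (S : Subgroup G)
    obtain ⟨K, k1, k2, k3⟩ := Cfsg.Agent.S1944.split (comm_center _) h1 (norm_center _)
      (((hS.pi.of_le h2).inf_left _).nat.coprime (hS.of_le h1 le_top).idx)
    have e : 𝓩(J 0 (S : Subgroup G)) ⊓ 𝓒((S : Subgroup G)) = 𝓩((S : Subgroup G)) :=
      le_antisymm (inf_le_inf_right _ (inf_le_left.trans h2))
        (le_inf (le_inf CA.Fus.Z_le_J (inf_le_right.trans (cent_anti h2))) inf_le_right)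
    rw [e] at k1 k3
    refine ⟨𝓩(J 0 (S : Subgroup G)) ⊓ 𝓒(𝓝(J 0 (S : Subgroup G))), K, fun x => ⟨fun hx => ⟨h2 hx.1.1, Cfsg.Agent.S2799.result S x (h2 hx.1.1) ?_ (.inl h)⟩,
      fun hx => ?_⟩, k1, k2, k3⟩
    · rw [map_center_subtype, thompsonSubgroupAOf_eq]
      exact ⟨le_normalizer hx.1.1, hx.2⟩
    · have h3 : x ∈ 𝓩((S : Subgroup G)) := ⟨hx.1, mem_cent.2 fun g hg =>
        mul_inv_eq_iff_eq_mul.1 (hx.2 g (mul_mem (mul_mem hg hx.1) (inv_mem hg)))⟩
      exact ⟨(e.ge h3).1, mem_cent.2 fun g hg =>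
        mul_inv_eq_iff_eq_mul.1 (hx.2 g (h2 (conj_mem_of_mem_norm hg (e.ge h3).1.1)))⟩
  · refine Cfsg.Agent.S1944.result S ?_
    have h1 := syl_inf_Opp hS
    rw [← Opp_top hp]
    refine (le_inf le_top (inf_le_right.trans (cent_anti (inf_le_left (b := Opp p ⊤))))).trans ?_
    rw [Opp_eq p hp] at h1 ⊢
    exact solvable_p_constrained' hp inferInstance h1

end Cfsg.Agent.S1945
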