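import Cfsg.Statements.S1947
import Cfsg.Agent.Lib.Grp.Fus3

set_option autoImplicit false
open Cfsg

namespace Cfsg.Agent.S1947

open Subgroup CA.Fus3 CA.Hyperfocal

/-- Let G be a finite group and p a prime. If every element of G of order dividing p (dividing 4 when p = 2) lies in some fixed term Z_n(G) of the upper central series, then G has a normal p-complement. -/
theorem result {G : Type*} [Group G] [Finite G] {p : ℕ} [Fact p.Prime] (n : ℕ)
    (h : ∀ a : G, (a ^ p = 1 ∨ (p = 2 ∧ a ^ 4 = 1)) → a ∈ Subgroup.upperCentralSeries G n) : Cfsg.HasNormalPComplement p G := by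
  refine hasNPC_iff_forall_pgroup.2 fun Q hQ g hg ho => ?_
  by_contra hc
  obtain ⟨E, hEQ, hn, hE, hs⟩ := exists_small_subgroup hQ hg hc ho
  refine hE (mem_centralizer_of_chain (hQ.to_le hEQ) (hn hg) ho
    (fun i => Subgroup.upperCentralSeries G i) (by simp) (n := n) (fun x hx => h x (hs x hx))
    fun i x _ hx => ?_)
  simpa [commutatorElement_def, mul_assoc] using
    Subgroup.mem_upperCentralSeries_succ_iff.1 (inv_mem hx) g

end Cfsg.Agent.S1947
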