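import Cfsg.Statements.S1948
import Cfsg.Agent.Lib.Grp.Fus3

set_option autoImplicit false
open Cfsg

namespace Cfsg.Agent.S1948

open Subgroup CA.SylIn CA.Fus2 CA.Fus3 CA.PRes

/-- Let S be a Sylow p-subgroup of the finite group G. Then G = N_G(S)·O_{p'}(G) if and only if G is p-constrained and N_G(S) controls fusion in S, in the sense that whenever a subgroup Q of S has a conjugate g Q g⁻¹ inside S, the element g is a product n c with n normalizing S and c centralizing Q. -/
theorem result {G : Type*} [Group G] [Finite G] {p : ℕ} [Fact p.Prime] (S : Sylow p G) :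
    Subgroup.normalizer ((S : Subgroup G) : Set G) ⊔ Cfsg.pPrimeCore p G = ⊤ ↔
      (Cfsg.IsPConstrained p G ∧
        ∀ Q : Subgroup G, Q ≤ (S : Subgroup G) → ∀ g : G, Q.map (MulAut.conj g).toMonoidHom ≤ (S : Subgroup G) →
          ∃ n ∈ Subgroup.normalizer ((S : Subgroup G) : Set G), ∃ c ∈ Subgroup.centralizer (Q : Set G), g = n * c) := by
  have hO : ¬ p ∣ Nat.card (pPrimeCore p G) := coprime_iff_not_dvd.1 CA.Core.coprime_pPrimeCore
  constructor
  · intro h
    have hn : ∀ K : Subgroup G, normalizer ((S : Subgroup G) : Set G) ≤ normalizer (K : Set G) →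
        (K ⊔ pPrimeCore p G).Normal := fun K hK => normalizer_eq_top_iff.1 (eq_top_iff.2
      (h.ge.trans (sup_le (CA.Coprime.le_normalizer_sup hK le_normalizer_of_normal)
        (le_sup_right.trans le_normalizer))))
    have h1 : (S : Subgroup G) ≤ pPrimePCore p G :=
      le_pPrimePCore_of_normal_sup S.isPGroup' (sup_comm (S : Subgroup G) _ ▸ hn _ le_rfl)
    refine ⟨(isPConstrained_iff (isSylowIn_of_le S h1)).2 ?_, fun Q hQ g hg => ?_⟩
    · have := hn _ (normalizer_le_normalizer_centralizer (S : Subgroup G))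
      exact le_sup_left.trans (le_pPrimePCore_iff.2
        (hasNPC_sup_of_coprime le_normalizer_of_normal hO (hasNPC_centralizer_sylow S)))
    · obtain ⟨n, hn, o, ho, rfl⟩ := (CA.Coprime.mem_sup_iff le_normalizer_of_normal).1
        (h.ge (mem_top g))
      refine ⟨n, hn, o, mem_centralizer_iff.2 fun x hx => ?_, rfl⟩
      have h2 := inv_conj_mem_of_mem_normalizer hn (conj_le_iff.1 hg x hx)
      have h3 : o * x * o⁻¹ * x⁻¹ ∈ pPrimeCore p G ⊓ (S : Subgroup G) := mem_inf.2
        ⟨by simpa [mul_assoc] using mul_mem ho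
              ((inferInstance : (pPrimeCore p G).Normal).conj_mem _ (inv_mem ho) x),
          mul_mem (by simpa [mul_assoc] using h2) (inv_mem (hQ hx))⟩
      rw [(inf_sylow_eq_bot_iff S _).2 hO, mem_bot] at h3
      exact (commutatorElement_eq_one_iff_mul_comm.1 h3).symm
  · rintro ⟨h1, h2⟩
    have hT : IsSylowIn p ((S : Subgroup G) ⊓ pPrimePCore p G) (pPrimePCore p G) :=
      isSylowIn_inf_normal S _
    have h3 : pPrimePCore p G ≤ normalizer ((S : Subgroup G) : Set G) ⊔ pPrimeCore p G := by
      rw [← pPrimeCore_sup_eq hT]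
      exact sup_le le_sup_right ((inf_le_left.trans le_normalizer).trans le_sup_left)
    rw [eq_top_iff]
    intro g _
    obtain ⟨k, hk, m, hm, rfl⟩ := hT.frattini (g := g) (le_normalizer_of_normal (mem_top g))
    obtain ⟨n, hn, c, hc, rfl⟩ := h2 _ inf_le_left m
      ((conj_eq_of_mem_normalizer hm).le.trans inf_le_left)
    exact mul_mem (h3 hk) (mul_mem (mem_sup_left hn) (h3 ((isPConstrained_iff hT).1 h1 hc)))

end Cfsg.Agent.S1948
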