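import Cfsg.Statements.S1949
import Cfsg.Agent.Lib.Grp.PGClassTwo
import Cfsg.Agent.Lib.Grp.PRes
import Cfsg.Agent.Lib.Loc.EqO1

set_option autoImplicit false
open Cfsg

namespace Cfsg.Agent.S1949

open CA CA.BG Subgroup CA.PGClassTwo
open scoped commutatorElement

section
variable {P : Type*} [Group P] [Finite P] {p : ℕ} [hp : Fact p.Prime] {G : Subgroup (MulAut P)}

def Inv (G : Subgroup (MulAut P)) (D : Subgroup P) : Prop := ∀ α ∈ G, ∀ x ∈ D, α x ∈ D

theorem Inv.normal {D : Subgroup P} (h : Inv G D) (hG : Cfsg.Inn P ≤ G) : D.Normal :=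
  ⟨fun x hx g => h _ (hG ⟨g, rfl⟩) x hx⟩

theorem Inv.cent {D : Subgroup P} (h : Inv G D) : Inv G 𝓒(D) := fun α hα x hx => mem_cent.2 fun k hk => by
  have := congrArg α (mem_cent.1 hx _ (h _ (inv_mem hα) k hk))
  simpa using this

theorem Inv.inf {D E : Subgroup P} (h : Inv G D) (h' : Inv G E) : Inv G (D ⊓ E) :=
  fun α hα x hx => ⟨h α hα x hx.1, h' α hα x hx.2⟩

theorem fix (hP : IsPGroup p P) {α : MulAut P} (h : (orderOf α).Coprime p) {x : P}
    (hx : α (x⁻¹ * α x) = x⁻¹ * α x) : α x = x := by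
  have h1 : ∀ n : ℕ, (α ^ n) x = x * (x⁻¹ * α x) ^ n := fun n => by
    induction n with
    | zero => simp
    | succ n ih => rw [pow_succ', MulAut.mul_apply, ih, map_mul, map_pow, hx, pow_succ', ← mul_assoc, mul_inv_cancel_left]
  have h2 := h1 (orderOf α)
  rw [pow_orderOf_eq_one, MulAut.one_apply, left_eq_mul] at h2
  obtain ⟨k, hk⟩ := hP (x⁻¹ * α x)
  have h4 := Nat.dvd_gcd (orderOf_dvd_of_pow_eq_one h2) (orderOf_dvd_of_pow_eq_one hk)
  rw [(h.pow_right k).gcd_eq_one, Nat.dvd_one, orderOf_eq_one_iff, inv_mul_eq_one] at h4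
  exact h4.symm

theorem cent_of_fix {α : MulAut P} {A : Subgroup P} [hA : A.Normal] (h : ∀ a ∈ A, α a = a) (x : P) :
    x⁻¹ * α x ∈ 𝓒(A) := mem_cent.2 fun a ha => by
  have := h _ (hA.conj_mem a ha x)
  rw [map_mul, map_mul, h a ha, map_inv] at this
  calc a * (x⁻¹ * α x) = x⁻¹ * (x * a * x⁻¹) * α x := by group
    _ = x⁻¹ * α x * a := by rw [← this]; group

def crit (p : ℕ) (R A : Subgroup P) [A.Normal] : Subgroup P where
  carrier := {x | x ∈ R ⊓ 𝓒(A) ∧ (x : P ⧸ A) ∈ center (P ⧸ A) ∧ (x : P ⧸ A) ^ p = 1}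
  one_mem' := ⟨one_mem _, one_mem _, one_pow p⟩
  mul_mem' {x y} hx hy := ⟨mul_mem hx.1 hy.1, mul_mem hx.2.1 hy.2.1, by
    rw [QuotientGroup.mk_mul, Commute.mul_pow (mem_center_iff.1 hy.2.1 _), hx.2.2, hy.2.2, one_mul]⟩
  inv_mem' {x} hx := ⟨inv_mem hx.1, inv_mem hx.2.1, by rw [QuotientGroup.mk_inv, inv_pow, hx.2.2, inv_one]⟩

theorem mem_crit {R A : Subgroup P} [A.Normal] {x : P} :
    x ∈ crit p R A ↔ x ∈ R ⊓ 𝓒(A) ∧ (∀ y : P, ⁅y, x⁆ ∈ A) ∧ x ^ p ∈ A := by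
  refine and_congr Iff.rfl (and_congr ?_ (QuotientGroup.eq_one_iff (x ^ p)))
  rw [mem_center_iff]
  refine ⟨fun h y => (QuotientGroup.eq_one_iff _).1 ?_, fun h y => ?_⟩
  · exact (map_commutatorElement (QuotientGroup.mk' A) y x).trans (commutatorElement_eq_one_iff_mul_comm.2 (h y))
  · obtain ⟨y, rfl⟩ := QuotientGroup.mk_surjective y
    exact commutatorElement_eq_one_iff_mul_comm.1
      ((map_commutatorElement (QuotientGroup.mk' A) y x).symm.trans ((QuotientGroup.eq_one_iff _).2 (h y)))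
end

/-- Let P be a finite p-group and G a group of automorphisms of P containing the inner automorphisms. Then there is a G-invariant subgroup D of P, contained in the subgroup generated by the elements x⁻¹α(x) with x in P and α in O^p(G), of exponent dividing p when p is odd and dividing 4 when p = 2, with [D, P] ≤ Z(D), such that every automorphism in G of order prime to p that fixes D elementwise is the identity; moreover every maximal abelian subgroup A of D is normal in P and every automorphism in G fixing A elementwise has p-power order. -/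
theorem result {P : Type*} [Group P] [Finite P] {p : ℕ} [Fact p.Prime] (hP : IsPGroup p P)
    (G : Subgroup (MulAut P)) (hG : Cfsg.Inn P ≤ G) :
    ∃ D : Subgroup P,
      (∀ α ∈ G, D.map α.toMonoidHom = D) ∧
      D ≤ Subgroup.closure {y : P | ∃ α ∈ Cfsg.pResidual p ↥G, ∃ x : P, y = x⁻¹ * (α : MulAut P) x} ∧
      (∀ d ∈ D, d ^ p = 1 ∨ (p = 2 ∧ d ^ 4 = 1)) ∧
      ⁅D, (⊤ : Subgroup P)⁆ ≤ D ⊓ Subgroup.centralizer (D : Set P) ∧
      (∀ α ∈ G, (orderOf α).Coprime p → (∀ d ∈ D, α d = d) → α = 1) ∧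
      ∀ A : Subgroup P, A ≤ D → IsMulCommutative ↥A →
        (∀ B : Subgroup P, A ≤ B → B ≤ D → IsMulCommutative ↥B → B = A) →
        A.Normal ∧ ∀ α ∈ G, (∀ a ∈ A, α a = a) → ∃ k : ℕ, orderOf α = p ^ k := by
  have hp : Fact p.Prime := inferInstance
  set R := Subgroup.closure {y : P | ∃ α ∈ Cfsg.pResidual p ↥G, ∃ x : P, y = x⁻¹ * (α : MulAut P) x} with hR
  have iR : Inv G R := fun β hβ x hx => by
    refine (closure_le (R.comap β.toMonoidHom)).2 ?_ hx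
    rintro _ ⟨α, hα, x, rfl⟩
    refine subset_closure ⟨_, (inferInstance : (pResidual p G).Normal).conj_mem α hα ⟨β, hβ⟩, β x, ?_⟩
    simp
  obtain ⟨A, -, ⟨iA, cA, hA⟩, hmax⟩ := exists_maximal_ge
    (P := fun A : Subgroup P => Inv G A ∧ IsMulCommutative A ∧ A ≤ R) (H := ⊥)
    ⟨fun α _ x hx => by rw [mem_bot.1 hx, map_one]; exact one_mem _, comm_bot, bot_le⟩
  haveI := iA.normal hG
  set C := crit p R A with hC
  have iC : Inv G C := fun α hα x hx => by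
    obtain ⟨h1, h2, h3⟩ := mem_crit.1 hx
    refine mem_crit.2 ⟨iR.inf iA.cent α hα x h1, fun y => ?_, map_pow α x p ▸ iA α hα _ h3⟩
    simpa using iA α hα _ (h2 (α⁻¹ y))
  haveI := iC.normal hG
  have AC : A ≤ C := fun a ha => mem_crit.2 ⟨⟨hA ha, comm_iff_le_cent.1 cA ha⟩,
    fun y => commutator_le_right ⊤ A (commutator_mem_commutator (mem_top y) ha), pow_mem ha p⟩
  have CA : A ≤ 𝓒(C) := cent_symm fun x hx => hx.1.2
  have h1 : R ⊓ 𝓒(C) ≤ A := by
    by_contra h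
    haveI := (iR.inf iC.cent).normal hG
    have hs := QuotientGroup.mk'_surjective A
    have hq : IsPi {p} (⊤ : Subgroup (P ⧸ A)) := isPi_of_isPGroup hp.out ((hP.to_quotient A).to_subgroup ⊤)
    haveI := Normal.map (inferInstance : (R ⊓ 𝓒(C)).Normal) _ hs
    have h2 := hq.meet_cent (hq.of_le le_top) (EqO.top_norm ((R ⊓ 𝓒(C)).map (QuotientGroup.mk' A)) ⊤) (by
      rwa [Ne, Subgroup.map_eq_bot_iff, QuotientGroup.ker_mk'])
    obtain ⟨_, ⟨⟨x, hx, rfl⟩, h3⟩, h4⟩ := exists_orderOf_eq hp.out ((hq.of_le le_top).dvd_card h2)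
    have h5 : x ∈ C := ⟨⟨hx.1, cent_anti AC hx.2⟩, mem_center_iff.2 fun g => mem_cent.1 h3 g (mem_top g),
      h4 ▸ pow_orderOf_eq_one _⟩
    have h6 : x ∈ A := hmax 𝓩(C) ⟨iC.inf iC.cent, comm_center C, fun y hy => hy.1.1.1⟩ (le_inf AC CA) ▸
      (⟨h5, hx.2⟩ : x ∈ 𝓩(C))
    rw [show QuotientGroup.mk' A x = 1 from (QuotientGroup.eq_one_iff x).2 h6, orderOf_one] at h4
    exact hp.out.one_lt.ne h4
  obtain ⟨e, e1, e2, e3⟩ : ∃ e : ℕ, p ∣ e ∧ p ∣ e.choose 2 ∧ (e = p ∨ p = 2 ∧ e = 4) := by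
    by_cases h : p = 2
    · exact ⟨4, by subst h; norm_num, by subst h; decide, Or.inr ⟨h, rfl⟩⟩
    · exact ⟨p, dvd_rfl, dvd_choose_two (odd_of_ne_two hp.out h), Or.inl rfl⟩
  have h2 : ∀ x ∈ C, ∀ y ∈ C, (x * y) ^ e = x ^ e * y ^ e := fun x hx y hy => by
    have h3 := CA ((mem_crit.1 hx).2.1 y)
    obtain ⟨c, hc⟩ := e2
    rw [mul_pow_eq (mem_cent.1 h3 x hx) (mem_cent.1 h3 y hy), hc, pow_mul, ← comm_pow_right (mem_cent.1 h3 x hx),
      commutatorElement_eq_one_iff_mul_comm.2 (mem_cent.1 (CA (mem_crit.1 hx).2.2) y hy), one_pow, mul_one]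
  let D : Subgroup P :=
    { carrier := {x | x ∈ C ∧ x ^ e = 1}
      one_mem' := ⟨one_mem _, one_pow e⟩
      mul_mem' := fun {x y} hx hy => ⟨mul_mem hx.1 hy.1, by rw [h2 x hx.1 y hy.1, hx.2, hy.2, one_mul]⟩
      inv_mem' := fun {x} hx => ⟨inv_mem hx.1, by rw [inv_pow, hx.2, inv_one]⟩ }
  have iD : Inv G D := fun α hα x hx => ⟨iC α hα x hx.1, by rw [← map_pow, hx.2, map_one]⟩
  haveI := iD.normal hG
  have h3 : ⁅D, (⊤ : Subgroup P)⁆ ≤ D ⊓ 𝓒(D) := le_inf (commutator_le_left D ⊤) (commutator_le.2 fun d hd g _ =>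
    cent_anti (show D ≤ C from fun x hx => hx.1) (CA (commutatorElement_inv g d ▸ inv_mem ((mem_crit.1 hd.1).2.1 g))))
  have h4 : ∀ α ∈ G, (orderOf α).Coprime p → (∀ d ∈ D, α d = d) → α = 1 := fun α hα hc h => by
    have h5 : ∀ k : ℕ, ∀ x ∈ C, x ^ p ^ k = 1 → α x = x := fun k => by
      induction k with
      | zero => intro x _ hx; rw [pow_zero, pow_one] at hx; rw [hx, map_one]
      | succ k ih =>
        intro x hx h6
        have h7 := ih (x ^ p) (pow_mem hx p) (by rw [← pow_mul, ← pow_succ', h6])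
        refine fix hP hc (h _ ⟨C.mul_mem (C.inv_mem hx) (iC α hα x hx), ?_⟩)
        obtain ⟨c, rfl⟩ := e1
        rw [h2 _ (inv_mem hx) _ (iC α hα x hx), ← map_pow, pow_mul x, map_pow, h7, inv_pow, pow_mul, inv_mul_cancel]
    have h6 : ∀ x ∈ C, α x = x := fun x hx => (hP x).elim fun k => h5 k x hx
    have h7 : ∀ x ∈ R, α x = x := fun x hx =>
      fix hP hc (h6 _ (AC (h1 ⟨R.mul_mem (R.inv_mem hx) (iR α hα x hx), cent_of_fix h6 x⟩)))
    exact MulEquiv.ext fun x => fix hP hc (h7 _ (subset_closure ⟨⟨α, hα⟩,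
      PRes.mem_pResidual_of_coprime (by rwa [← orderOf_coe]), x, rfl⟩))
  refine ⟨D, fun α hα => le_antisymm (map_le_iff_le_comap.2 (iD α hα)) fun x hx =>
    ⟨α⁻¹ x, iD _ (inv_mem hα) x hx, by simp⟩, fun x hx => hx.1.1.1, fun d hd => ?_, h3, h4, fun B hB cB hm => ?_⟩
  · rcases e3 with rfl | ⟨h, rfl⟩
    · exact Or.inl hd.2
    · exact Or.inr ⟨h, hd.2⟩
  have h5 : ∀ y ∈ D, y ∈ 𝓒(B) → y ∈ B := fun y hy h => hm (B ⊔ zpowers y) le_sup_left
    (sup_le hB (zpowers_le.2 hy)) (comm_sup cB (comm_of_cyclic (cyc_zpowers y)) (cent_symm (zpowers_le.2 h))) ▸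
    mem_sup_right (mem_zpowers y)
  haveI hBn : B.Normal := ⟨fun a ha g => by
    have h6 := h3 (commutator_mem_commutator (hB ha) (mem_top g))
    rw [conj_eq_comm_mul, ← commutatorElement_inv]
    exact mul_mem (inv_mem (h5 _ h6.1 (cent_anti hB h6.2))) ha⟩
  refine ⟨hBn, fun α hα h => ?_⟩
  obtain ⟨k, m, hm', e⟩ := Nat.exists_eq_pow_mul_and_not_dvd (orderOf_pos α).ne' p hp.out.one_lt.ne'
  have h6 : ∀ a ∈ B, (α ^ p ^ k) a = a := fun a ha => by
    induction p ^ k with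
    | zero => rfl
    | succ n ih => rw [pow_succ, MulAut.mul_apply, h a ha, ih]
  have h7 : (orderOf (α ^ p ^ k)).Coprime p := by
    rw [orderOf_pow_of_dvd (pow_ne_zero k hp.out.ne_zero) (e ▸ dvd_mul_right _ _), e,
      Nat.mul_div_cancel_left _ (pow_pos hp.out.pos k)]
    exact ((Nat.Prime.coprime_iff_not_dvd hp.out).2 hm').symm
  have h8 := h4 _ (pow_mem hα _) h7 fun d hd => fix hP h7 (h6 _ (h5 _
    (mul_mem (inv_mem hd) (iD _ (pow_mem hα _) d hd)) (cent_of_fix h6 d)))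
  obtain ⟨j, -, hj⟩ := (Nat.dvd_prime_pow hp.out).1 (orderOf_dvd_of_pow_eq_one h8)
  exact ⟨j, hj⟩

end Cfsg.Agent.S1949
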