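import Cfsg.Statements.S1950
import Cfsg.Agent.Lib.Block.PairSolv

set_option autoImplicit false
open Cfsg

namespace Cfsg.Agent.S1950

open Subgroup CA.SylIn CA.H12PSolv CA.Core CA.H12PPart

universe u

theorem frob {G : Type*} [Group G] [Finite G] {p : ℕ} [Fact p.Prime] (P : Sylow p G)
    (hP : IsCyclic (P : Subgroup G)) : ∃ m, CA.H11Frob.Frob p (P : Subgroup G) m ∧
      ((P : Subgroup G) ≠ ⊥ → m ∣ p - 1) := by
  have h1 := CA.H11Cyc.le_CC_of_isCyclic hP
  have hi : ¬ p ∣ (CA.H11Amb.CC (P : Subgroup G)).relIndex (CA.H11Amb.NN (P : Subgroup G)) :=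
    fun h => (isSylowIn_of_le P (H := normalizer ((P : Subgroup G) : Set G)) le_normalizer).not_dvd
      (h.trans (relIndex_dvd_of_le_left _ h1))
  refine ⟨_, ⟨isSylowIn_top P, fun a b => Subtype.ext (h1 b.2 a a.2), rfl, fun y hy h =>
    le_antisymm (fun g hg => CA.H11Cyc.mem_CC_of_fix P.2 hP le_rfl hi hg.2 hy h ?_)
      (le_inf (centralizer_le (Set.singleton_subset_iff.2 hy)) (centralizer_le_normalizer _))⟩,
    fun h => (CA.H11Cyc.cyclic_quot P.2 hP h le_rfl hi).2⟩
  rw [mem_centralizer_singleton_iff.1 hg.1, mul_inv_cancel_right]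

theorem of_npc {G : Type*} [Group G] [Finite G] {p : ℕ} [Fact p.Prime]
    (h : HasNormalPComplement p G) : IsPSolvable p G := by
  obtain ⟨P, N, _, h⟩ := h
  refine psolv_ext N (psolv_of_coprime ?_) (psolv_of_isPGroup ?_)
  · rw [← h.index_eq_card]
    exact ((Nat.Prime.coprime_iff_not_dvd Fact.out).2 P.not_dvd_index).symm
  · obtain ⟨k, hk⟩ := P.2.exists_card_eq
    exact IsPGroup.of_card (h.symm.index_eq_card.trans hk)

theorem main {p : ℕ} [hp : Fact p.Prime] (n : ℕ) : ∀ (G : Type u) [Group G] [Finite G],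
    Nat.card G = n → (∀ P : Sylow p G, IsCyclic (P : Subgroup G)) →
    (∀ x y : G, orderOf x = p → orderOf y = p → IsPSolvable p (closure ({x, y} : Set G))) →
    IsPSolvable p G := by
  induction n using Nat.strong_induction_on with
  | _ n ih =>
  intro G _ _ hn hP hc
  obtain ⟨P⟩ : Nonempty (Sylow p G) := inferInstance
  have := Fintype.ofFinite G
  obtain ⟨m, F, hm⟩ := frob P (hP P)
  by_cases h0 : (P : Subgroup G) = ⊥
  · refine psolv_of_coprime ((Nat.Prime.coprime_iff_not_dvd hp.out).2 ?_).symm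
    simpa [h0] using P.not_dvd_index
  by_cases hs : IsSimpleGroup G
  · by_cases h1 : m = 1
    · refine of_npc (CA.PRes.hasNPC_of_normalizer_le_centralizer P (relIndex_eq_one.1 ?_))
      exact F.idx.trans h1
    · obtain ⟨M, hM⟩ := CA.BlkVal.exists_isPModular hp.out
      have := F.m_pos
      have := hp.out.two_le
      exact (CA.PairSolv.cyc F hM (hP P) (by omega) (Nat.le_of_dvd (by omega) (hm h0)) h0 hc).elim
  obtain ⟨N, hN, h1, h2⟩ : ∃ N : Subgroup G, N.Normal ∧ N ≠ ⊥ ∧ N ≠ ⊤ := by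
    by_contra! h
    have : Nontrivial G := (nontrivial_iff_ne_bot _).2 h0 |>.1.elim fun a h => h.elim fun b h =>
      ⟨a, b, fun e => h (Subtype.ext e)⟩
    exact hs ⟨fun N hN => or_iff_not_imp_left.2 (h N hN)⟩
  have h3 : IsPSolvable p N := by
    refine ih _ (hn ▸ (card_lt_of_lt (lt_top_iff_ne_top.2 h2)).trans_eq card_top) N rfl (fun Q => ?_)
      fun x y hx hy => ?_
    · obtain ⟨R, hR⟩ := (Q.2.map N.subtype).exists_le_sylow
      have := hP R
      have := isCyclic_of_le hR
      exact isCyclic_of_surjective _ (equivMapOfInjective _ _ N.subtype_injective).symm.surjective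
    · refine psolv_equiv (equivMapOfInjective _ _ N.subtype_injective).symm ?_
      rw [MonoidHom.map_closure, Set.image_pair]
      exact hc _ _ ((orderOf_coe x).trans hx) ((orderOf_coe y).trans hy)
  by_cases hK : pPrimeCore p G = ⊥
  · have h4 : pCore p G ≠ ⊥ := fun h => by
      have : Nontrivial N := (nontrivial_iff_ne_bot _).2 h1
      rcases core_ne_bot h3 (M := ⊤) top_ne_bot with e | e <;> refine e ?_ <;> rw [top_inf_eq]
      exacts [pCore_eq_bot_of_subnormal hN.isSubnormal h,
        pPrimeCore_eq_bot_of_subnormal hN.isSubnormal hK]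
    obtain ⟨Z, hZ, hZc⟩ := CA.H11Cyc.exists_card_eq isPGroup_pCore h4
    have h5 := isPGroup_pCore.le_sylow_of_normal P
    obtain ⟨z, hz⟩ := exists_prime_orderOf_dvd_card' (G := Z) p hZc.symm.dvd
    have hz1 : (z : G) ≠ 1 := fun e => hp.out.ne_one (by rw [← hz, ← orderOf_coe, e, orderOf_one])
    have : (centralizer {(z : G)}).Normal := ⟨fun c hc g => by
      have h6 : g⁻¹ * z * g ∈ pCore p G := (inferInstance : (pCore p G).Normal).conj_mem' _ (hZ z.2) g
      obtain ⟨k, hk⟩ := mem_zpowers_iff.1 (CA.NPC2.le_of_card_dvd_of_isCyclic (hP P)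
        (zpowers_le.2 (h5 h6)) (zpowers_le.2 (h5 (hZ z.2))) (by
          rw [Nat.card_zpowers, Nat.card_zpowers, ← (MulAut.conj g⁻¹).orderOf_eq (z : G)]; simp)
        (mem_zpowers _))
      have h7 : Commute c (g⁻¹ * z * g) :=
        hk ▸ Commute.zpow_right (mem_centralizer_singleton_iff.1 hc) k
      rw [mem_centralizer_singleton_iff]
      calc _ = g * (c * (g⁻¹ * z * g)) * g⁻¹ := by group
        _ = _ := by rw [h7]; group⟩
    refine psolv_ext _ (of_npc (F.sec.npc z (h5 (hZ z.2)) hz1)) (psolv_of_coprime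
      ((Nat.Prime.coprime_iff_not_dvd hp.out).2 fun h => P.not_dvd_index ?_).symm)
    exact h.trans (index_dvd_of_le (F.le_cent (h5 (hZ z.2))))
  set π := QuotientGroup.mk' (pPrimeCore p G)
  have hπ : Function.Surjective π := QuotientGroup.mk'_surjective _
  refine psolv_ext _ (psolv_of_coprime coprime_pPrimeCore) (ih _ ?_ (G ⧸ pPrimeCore p G) rfl
    (fun Q => ?_) fun x y hx hy => ?_)
  · rw [← hn, card_eq_card_quotient_mul_card_subgroup (pPrimeCore p G)]
    exact lt_mul_of_one_lt_right Nat.card_pos ((one_lt_card_iff_ne_bot _).2 hK)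
  · obtain ⟨R, rfl⟩ := Sylow.mapSurjective_surjective hπ p Q
    have := hP R
    exact isCyclic_of_surjective _ (π.subgroupMap_surjective R)
  · have h4 : ∀ x : G ⧸ pPrimeCore p G, orderOf x = p → ∃ u, orderOf u = p ∧ π u = x := fun x hx => by
      obtain ⟨v, rfl⟩ := hπ x
      have h5 : π (pPart p v) = π v := by
        rw [map_pPart hp.out, (pPart_eq_self_iff hp.out).2 ⟨1, by rw [hx, pow_one]⟩]
      refine ⟨_, orderOf_eq_prime ?_ fun e => hp.out.ne_one ?_, h5⟩
      · have h7 : pPart p v ^ p ∈ pPrimeCore p G := by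
          rw [← QuotientGroup.eq_one_iff]
          exact (map_pow π _ _).trans (by rw [h5]; exact orderOf_dvd_iff_pow_eq_one.1 hx.dvd)
        have h8 := inf_eq_bot_of_isPGroup_of_coprime
          (CA.H13Lift.isPGroup_zpowers (orderOf_pPart hp.out v)) (coprime_pPrimeCore (G := G) (p := p))
        exact mem_bot.1 (h8 ▸ ⟨pow_mem (mem_zpowers _) _, h7⟩)
      · rw [← hx, ← h5, e, map_one, orderOf_one]
    obtain ⟨u, hu, rfl⟩ := h4 x hx
    obtain ⟨v, hv, rfl⟩ := h4 y hy
    rw [← Set.image_pair, ← MonoidHom.map_closure]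
    exact psolv_map_subgroup π (hc u v hu hv)

/-- Let G be a finite group whose Sylow p-subgroups are cyclic. Then G is p-solvable if and only if every two elements of order p of G generate a p-solvable subgroup. -/
theorem result {G : Type*} [Group G] [Finite G] {p : ℕ} [Fact p.Prime] (P : Sylow p G) (hP : IsCyclic ↥(P : Subgroup G)) :
    Cfsg.IsPSolvable p G ↔ ∀ x y : G, orderOf x = p → orderOf y = p → Cfsg.IsPSolvable p ↥(Subgroup.closure ({x, y} : Set G)) := by
  refine ⟨fun h x y _ _ => psolv_subgroup h _, main _ G rfl fun Q => ?_⟩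
  exact isCyclic_of_surjective _ (Sylow.equiv P Q).surjective

end Cfsg.Agent.S1950
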