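import Cfsg.Statements.S1951
import Cfsg.Agent.Lib.Block.PairSolv

set_option autoImplicit false
open Cfsg

namespace Cfsg.Agent.S1951

/-- Let p be a prime and P a nontrivial elementary abelian Sylow p-subgroup of a finite nonabelian simple group G whose nonidentity elements are all conjugate in G. Suppose that two elements of P are conjugate in G only if they are conjugate in N_G(P), that the centralizer of every element of order p of P has a normal p-complement, and that every two elements of order p of G generate a p-solvable subgroup. Then p = 2. -/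
theorem result {G : Type*} [Group G] [Finite G] [IsSimpleGroup G] (hG : ¬ IsMulCommutative G) {p : ℕ} [Fact p.Prime] (P : Sylow p G)
    (hP1 : (P : Subgroup G) ≠ ⊥) (hPe : Cfsg.IsElementaryAbelian p (P : Subgroup G))
    (hconj : ∀ x ∈ (P : Subgroup G), ∀ y ∈ (P : Subgroup G), x ≠ 1 → y ≠ 1 → ∃ g : G, g * x * g⁻¹ = y)
    (ha : ∀ x ∈ (P : Subgroup G), ∀ y ∈ (P : Subgroup G), (∃ g : G, g * x * g⁻¹ = y) →
      ∃ n ∈ Subgroup.normalizer ((P : Subgroup G) : Set G), n * x * n⁻¹ = y)
    (hb : ∀ x ∈ (P : Subgroup G), orderOf x = p → Cfsg.HasNormalPComplement p ↥(Subgroup.centralizer ({x} : Set G)))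
    (hc : ∀ x y : G, orderOf x = p → orderOf y = p → Cfsg.IsPSolvable p ↥(Subgroup.closure ({x, y} : Set G))) :
    p = 2 := by
  classical
  by_contra hp2
  have := Fintype.ofFinite G
  obtain ⟨M, hM⟩ := CA.BlkVal.exists_isPModular (Fact.out : p.Prime)
  have hab : ∀ a b : (P : Subgroup G), a * b = b * a := hPe.1.1.1
  have hexp : ∀ y ∈ (P : Subgroup G), y ≠ 1 → orderOf y = p := fun y hy h =>
    orderOf_eq_prime (hPe.2 y hy) h
  refine CA.PairSolv.elem hM hp2 ⟨P.2, fun x hx h => hb x hx (hexp x hx h), fun x hx h =>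
    ⟨P, CA.SylIn.isSylowIn_of_le P fun y hy => Subgroup.mem_centralizer_singleton_iff.2
      (congrArg Subtype.val (hab ⟨y, hy⟩ ⟨x, hx⟩)), ?_⟩⟩ (CA.SylIn.isSylowIn_top P) hab hc hP1
    (fun y h => hexp y y.2 fun e => h (Subtype.ext e)) fun χ _ y y' h h' =>
    CChar.CharFun.classFun_of_isConj (CChar.CharFun.irr_classFun χ.2) (isConj_iff.2
      (hconj y y.2 y' y'.2 (fun e => h (Subtype.ext e)) fun e => h' (Subtype.ext e)))
  congr 1
  have := Fintype.ofFinite (P : Subgroup G)
  rw [Nat.card_congr (Equiv.subtypeEquivRight (q := fun y : (P : Subgroup G) => ¬ y = 1) fun y : (P : Subgroup G) =>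
    ⟨fun c e => h (by simpa [e] using c), fun c => isConj_iff.2
      (hconj x hx y y.2 h fun e => c (Subtype.ext e))⟩), Nat.card_eq_fintype_card,
    Fintype.card_subtype_compl, Fintype.card_subtype_eq, Nat.card_eq_fintype_card]

end Cfsg.Agent.S1951
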