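import Cfsg.Statements.S1952
import Cfsg.Agent.Lib.Fus.FusYos
-- import your own Cfsg.Agent.* helpers here

set_option autoImplicit false
open Cfsg

namespace Cfsg.Agent.S1952

open CA.Fus CA.AmbSyl in
/-- Let P be a finite p-group with a normal elementary abelian subgroup A of index p, and let x ∈ A and y ∈ P with y outside A. If the product of the p conjugates y^(-i) x y^i (i = 0, …, p−1) is not the identity, then the wreath product Z_p ≀ Z_p, realised as a Sylow p-subgroup of the symmetric group of degree p², is a homomorphic image of P. -/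
theorem result {P : Type*} [Group P] [Finite P] {p : ℕ} [Fact p.Prime] (hP : IsPGroup p P) (A : Subgroup P) [A.Normal]
    (hA : Cfsg.IsElementaryAbelian p A) (hidx : A.index = p) (x y : P) (hx : x ∈ A) (hy : y ∉ A)
    (hprod : ((List.range p).map (fun i => (y ^ i)⁻¹ * x * y ^ i)).prod ≠ 1) :
    ∃ (Q : Sylow p (Equiv.Perm (Fin (p ^ 2)))) (f : P →* ↥(Q : Subgroup (Equiv.Perm (Fin (p ^ 2))))), Function.Surjective f := by
  obtain ⟨B, _, ν, hν, h1, h2⟩ := exists_char (U := A) (V := ⊥) (CA.AmbRes.comm_eq_bot_of_le fun a ha b hb =>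
    CA.PGBasic.isMulCommutative_iff.1 hA.1 b hb a ha).le
  have hc : ∀ g, g⁻¹ * x * g ∈ A := fun g => Subgroup.Normal.conj_mem' ‹_› x hx g
  have : ∀ n, ((List.range n).map (fun i => (y ^ i)⁻¹ * x * y ^ i)).prod ∈ A ∧
      ν ((List.range n).map (fun i => (y ^ i)⁻¹ * x * y ^ i)).prod =
        ∏ j ∈ Finset.range n, ν ((y ^ j)⁻¹ * x * y ^ j) := fun n => by
    induction n with
    | zero => simpa using hν.one
    | succ n ih =>
      rw [List.prod_range_succ, Finset.prod_range_succ, hν.mul ih.1 (hc _), ih.2]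
      exact ⟨mul_mem ih.1 (hc _), rfl⟩
  refine wreath_of_hom hP hidx (fun b => ?_) hν hx (y := y) fun h => hprod ((h1 _ (this p).1).1 ((this p).2.trans h))
  obtain ⟨a, ha, rfl⟩ := h2 b
  rw [← hν.pow ha, hA.2 a ha, hν.one]

end Cfsg.Agent.S1952
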