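import Cfsg.Statements.S1953
import Cfsg.Agent.Lib.Loc.H6Ctl2
import Cfsg.Agent.Lib.Loc.H6W

set_option autoImplicit false
open Cfsg

set_option linter.unusedVariables false
set_option linter.unusedSimpArgs false
set_option linter.style.haveILetI false

namespace Cfsg.Agent.S1953

open CA CA.H6Ctl CA.H6QdA CA.H6NPC CA.H6PSolv CA.H6Stab CA.H6ZJ CA.H6Op CA.Amb CA.AmbSyl CA.AmbCore CA.AmbRes CA.AmbChar Subgroup
open CA.H6J hiding Z
open scoped MatrixGroups
open CA.H6Ctl2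

/-- Let p be an odd prime and P a Sylow p-subgroup of the finite group G, and suppose that for no p-subgroup Q of G does N_G(Q)/C_G(Q) have a section isomorphic to SL₂(p). Call a subgroup Q of P centric-radical when Z(Q) is a Sylow p-subgroup of C_G(Q) and the only normal subgroup X of N_G(Q) containing Q·C_G(Q) such that the index of Q·C_G(Q) in X is a power of p is Q·C_G(Q) itself (that is, N_G(Q)/Q·C_G(Q) has no nontrivial normal p-subgroup). Then there is a centric-radical subgroup Q of P contained in every centric-radical subgroup of P; it is normal in P, and N_G(Q) controls strong fusion in P: whenever a subgroup A of P has g A g⁻¹ ≤ P, the element g is a product h c with h in N_G(Q) and c centralizing A. -/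
theorem result {G : Type*} [Group G] [Finite G] {p : ℕ} [Fact p.Prime] (hp : p ≠ 2) (P : Sylow p G)
    (hfree : ∀ Q : Subgroup G, IsPGroup p ↥Q → ¬ ∃ (H K : Subgroup G) (_ : (K.subgroupOf H).Normal),
      Subgroup.centralizer (Q : Set G) ≤ K ∧ K ≤ H ∧ H ≤ Subgroup.normalizer (Q : Set G) ∧
      Nonempty ((↥H ⧸ K.subgroupOf H) ≃* Matrix.SpecialLinearGroup (Fin 2) (ZMod p)))
    (cr : Subgroup G → Prop)
    (hcr : ∀ Q : Subgroup G, cr Q ↔ (Q ≤ (P : Subgroup G) ∧
      (∃ R : Sylow p ↥(Subgroup.centralizer (Q : Set G)),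
        (R : Subgroup ↥(Subgroup.centralizer (Q : Set G))).map (Subgroup.centralizer (Q : Set G)).subtype = Q ⊓ Subgroup.centralizer (Q : Set G)) ∧
      ∀ X : Subgroup G, X ≤ Subgroup.normalizer (Q : Set G) →
        (∀ n ∈ Subgroup.normalizer (Q : Set G), X.map (MulAut.conj n).toMonoidHom = X) →
        Q ⊔ Subgroup.centralizer (Q : Set G) ≤ X → (∃ k : ℕ, (Q ⊔ Subgroup.centralizer (Q : Set G)).relIndex X = p ^ k) →
        X = Q ⊔ Subgroup.centralizer (Q : Set G))) :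
    ∃ Q : Subgroup G, cr Q ∧ (∀ R : Subgroup G, cr R → Q ≤ R) ∧ (∀ x ∈ (P : Subgroup G), Q.map (MulAut.conj x).toMonoidHom = Q) ∧
      ∀ A : Subgroup G, A ≤ (P : Subgroup G) → ∀ g : G, A.map (MulAut.conj g).toMonoidHom ≤ (P : Subgroup G) →
        ∃ h ∈ Subgroup.normalizer (Q : Set G), ∃ c ∈ Subgroup.centralizer (A : Set G), g = h * c := by
  have hS := sylIn_top P
  set S : Subgroup G := (P : Subgroup G)
  obtain ⟨Q0, hQ0⟩ := cons_of_autFree hp (G := G) (fun Q hQ h => by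
    obtain ⟨A, B, hn, h1, h2, h3, h4⟩ :=
      exists_of_sec (centralizer_le_normalizer _) (norm_centralizer le_rfl) h
    exact hfree Q hQ ⟨A, B, hn, h1, h2, h3, h4⟩) hS
  obtain ⟨Q, -, ⟨h1, h2, h3, h4⟩, hmax⟩ := Finite.exists_le_maximal
    (p := fun Q : Subgroup G => Q ≤ S ∧ S ≤ 𝐍 Q ∧ S ⊓ 𝐂 Q ≤ Q ∧ Ctl ⊤ S (𝐍 Q)) hQ0
  have hSQ : SylIn p S (𝐍 Q) := hS.mono h2 le_top
  have hC : SylIn p (S ⊓ 𝐂 Q) (𝐂 Q) :=
    hSQ.inf_norm (centralizer_le_normalizer _) (norm_centralizer le_rfl)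
  have e : S ⊓ 𝐂 Q = Q ⊓ 𝐂 Q := le_antisymm (le_inf h3 inf_le_right) (inf_le_inf_right _ h1)
  refine ⟨Q, (hcr Q).2 ⟨h1, sylIn_iff_exists_sylow.1 (e ▸ hC), ?_⟩, fun R hR => ?_,
    fun x hx => cj_eq_self (h2 hx), fun A hA g hg => ?_⟩
  · rintro X hX hn hle ⟨k, hk⟩
    have hn' : 𝐍 Q ≤ 𝐍 X := fun n h => cj_eq_self_iff.1 (hn n h)
    have hT := hSQ.inf_norm hX hn'
    have hQT : Q ≤ S ⊓ X := le_inf h1 (le_sup_left.trans hle)
    have e1 := sup_eq_of_res_le hT hle (H6W.res_le_of_relIndex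
      (hX.trans (norm_sup le_rfl (norm_centralizer le_rfl))) hk)
    have e2 : S ⊓ X ⊔ pResidualOf p (𝐂 Q) = X := by
      refine le_antisymm (sup_le inf_le_right ((res_le _ _).trans (le_sup_right.trans hle)))
        (e1.ge.trans (sup_le le_sup_left (sup_le (hQT.trans le_sup_left) ?_)))
      exact (syl_sup_res hC).ge.trans (sup_le_sup_right (h3.trans hQT) _)
    have h5 : Ctl (𝐍 Q) S (𝐍 (S ⊓ X)) := ctl_of_sup_norm
      ((res_le _ _).trans (centralizer_le_normalizer _)) (norm_res_of_norm (norm_centralizer le_rfl))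
      (coprime_res_cent hC h3) hS.pg h2 inf_le_left (by rw [e2]; exact hn')
    have h6 : S ⊓ X ≤ Q := hmax ⟨inf_le_left, norm_inf le_normalizer (h2.trans hn'),
      ((inf_le_inf_left _ (centralizer_anti hQT)).trans h3).trans hQT, h4.trans_top h5⟩ hQT
    exact le_antisymm (e1.ge.trans (sup_le (h6.trans le_sup_left) le_rfl)) hle
  · obtain ⟨k1, k2, k3⟩ := (hcr R).1 hR
    rw [← sylIn_iff_exists_sylow] at k2
    have hRN : R ⊔ 𝐂 R ≤ 𝐍 R := sup_le le_normalizer (centralizer_le_normalizer _)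
    have hn : 𝐍 R ≤ 𝐍 (R ⊔ 𝐂 R) := norm_sup le_rfl (norm_centralizer le_rfl)
    have k4 := k3 (Q ⊓ 𝐍 R ⊔ (R ⊔ 𝐂 R)) (sup_le inf_le_right hRN) (fun n hn' => by
      obtain ⟨m, hm, k⟩ := h4 R k1 n (mem_top n) ((cj_eq_self hn').le.trans k1)
      have hmR : m ∈ 𝐍 R := mem_normalizer_of_cj_le (cj_le_of_act k (cj_eq_self hn').le)
      have hc : m⁻¹ * n ∈ 𝐂 R := mem_centralizer_sub.2 fun a ha => by
        calc a * (m⁻¹ * n) = m⁻¹ * (m * a * m⁻¹) * n := by group
          _ = m⁻¹ * n * a := by rw [k a ha]; group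
      have h5 : m ∈ 𝐍 (Q ⊓ 𝐍 R ⊔ (R ⊔ 𝐂 R)) := H6Basic.mem_normalizer_sup
        (H6Basic.mem_normalizer_inf hm.2 (le_normalizer hmR)) (hn hmR)
      have := mul_mem h5 (le_normalizer (mem_sup_right (mem_sup_right hc)))
      rw [mul_inv_cancel_left] at this
      exact cj_eq_self this) le_sup_right
      (exists_relIndex_res (res_le_of_le_sup (hS.pg.to_le h1).to_inf_left (inf_le_right.trans hn)
        le_rfl))
    refine le_of_inf_normalizer_le hS.pg h1 h2 k1 ?_
    have k5 : S ⊓ 𝐂 R ≤ R := (k2.le_of_norm' hS.pg.to_inf_left inf_le_right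
      (inf_le_right.trans (norm_of_centralizer (centralizer_anti inf_le_left)))).trans inf_le_left
    refine (le_inf (le_sup_left.trans k4.le) (inf_le_left.trans h1)).trans ?_
    rw [sup_inf_of_norm (norm_centralizer le_normalizer) k1, inf_comm]
    exact sup_le le_rfl k5
  · obtain ⟨m, hm, k⟩ := h4 A hA g (mem_top g) hg
    refine ⟨m, hm.2, m⁻¹ * g, mem_centralizer_sub.2 fun a ha => ?_, by group⟩
    calc a * (m⁻¹ * g) = m⁻¹ * (m * a * m⁻¹) * g := by group
      _ = m⁻¹ * g * a := by rw [k a ha]; group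

end Cfsg.Agent.S1953
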