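import Cfsg.Statements.S1954
import Cfsg.Agent.Lib.Grp.Fus3

set_option autoImplicit false
open Cfsg

namespace Cfsg.Agent.S1954

open Subgroup CA.SylIn CA.Fus2 CA.Fus3

/-- `U` is normal in `T` and its normalizer in `N` controls strong fusion in `T`. -/
def Good {G : Type*} [Group G] (N T U : Subgroup G) : Prop :=
  U ≤ T ∧ T ≤ normalizer (U : Set G) ∧ ∀ A : Subgroup G, A ≤ T → ∀ n ∈ N, n •ᶜ A ≤ T →
    ∃ h ∈ N ⊓ normalizer (U : Set G), ∃ c ∈ N ⊓ centralizer (A : Set G), n = h * c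

theorem Good.conj {G : Type*} [Group G] {N T U : Subgroup G} [hN : N.Normal] (h : Good N T U)
    {x : G} (hx : x ∈ normalizer (T : Set G)) : Good N T (x •ᶜ U) := by
  have e := conj_eq_of_mem_normalizer hx
  have e' := conj_eq_of_mem_normalizer (inv_mem hx)
  refine ⟨e ▸ conj_mono x h.1, ?_, fun A hA n hn hnA => ?_⟩
  · rw [← conj_normalizer]
    exact e ▸ conj_mono x h.2.1
  · obtain ⟨a, ha, c, hc, e2⟩ := h.2.2 (x⁻¹ •ᶜ A) (e' ▸ conj_mono _ hA) (x⁻¹ * n * x)
      (hN.conj_mem' n hn x) (by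
        rw [conj_conj, mul_inv_cancel_right, ← conj_conj]
        exact e' ▸ conj_mono _ hnA)
    refine ⟨x * a * x⁻¹, ⟨hN.conj_mem a ha.1 x, ?_⟩, x * c * x⁻¹, ⟨hN.conj_mem c hc.1 x, ?_⟩, ?_⟩
    · rw [← conj_normalizer]; exact conj_mem_conj.2 ha.2
    · rw [← conj_inv_conj x A, ← conj_centralizer]; exact conj_mem_conj.2 hc.2
    · calc n = x * (x⁻¹ * n * x) * x⁻¹ := by group
        _ = _ := by rw [e2]; group

theorem Good.sup {G : Type*} [Group G] [Finite G] {N T U V : Subgroup G} (h : Good N T U)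
    (h' : Good N T V) : Good N T (U ⊔ V) := by
  refine ⟨sup_le h.1 h'.1, CA.Coprime.le_normalizer_sup h.2.1 h'.2.1, fun A hA n hn hnA => ?_⟩
  obtain ⟨a, ha, c, hc, rfl⟩ := h.2.2 A hA n hn hnA
  obtain ⟨b, hb, d, hd, rfl⟩ := h'.2.2 (A ⊔ U) (sup_le hA h.1) a ha.1 (by
    rw [← conj_conj, conj_eq_of_mem_normalizer (centralizer_le_normalizer _ hc.2)] at hnA
    rw [conj_sup, conj_eq_of_mem_normalizer ha.2]
    exact sup_le hnA h.1)
  have hd2 := hd.2
  rw [CA.Fitting.centralizer_sup] at hd2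
  have ha2 : b * d ∈ normalizer (U : Set G) := ha.2
  refine ⟨b, ⟨hb.1, inf_normalizer_le_normalizer_sup U V ⟨?_, hb.2⟩⟩, d * c,
    mul_mem ⟨hd.1, hd2.1⟩ hc, mul_assoc _ _ _⟩
  simpa using mul_mem ha2 (inv_mem (centralizer_le_normalizer _ hd2.2))

/-- Let N be a normal subgroup of the finite group G, P a Sylow p-subgroup of G, and V a subgroup of P ∩ N normal in P ∩ N such that N_N(V) controls strong fusion in P ∩ N with respect to N (whenever a subgroup A of P ∩ N has n A n⁻¹ ≤ P ∩ N for some n in N, then n = h c with h in N_N(V) and c in C_N(A)). Let W be the subgroup generated by the conjugates of V under N_G(P ∩ N). Then N_G(W) controls strong fusion in P with respect to G. -/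
theorem result {G : Type*} [Group G] [Finite G] {p : ℕ} [Fact p.Prime] (N : Subgroup G) [N.Normal] (P : Sylow p G) (V : Subgroup G)
    (hV : V ≤ (P : Subgroup G) ⊓ N) (hVn : ∀ x ∈ (P : Subgroup G) ⊓ N, V.map (MulAut.conj x).toMonoidHom = V)
    (hctrl : ∀ A : Subgroup G, A ≤ (P : Subgroup G) ⊓ N → ∀ n ∈ N, A.map (MulAut.conj n).toMonoidHom ≤ (P : Subgroup G) ⊓ N →
      ∃ h ∈ N ⊓ Subgroup.normalizer (V : Set G), ∃ c ∈ N ⊓ Subgroup.centralizer (A : Set G), n = h * c)
    (W : Subgroup G) (hW : W = Subgroup.closure (⋃ x ∈ Subgroup.normalizer (((P : Subgroup G) ⊓ N : Subgroup G) : Set G),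
      ((V.map (MulAut.conj x).toMonoidHom : Subgroup G) : Set G))) :
    ∀ A : Subgroup G, A ≤ (P : Subgroup G) → ∀ g : G, A.map (MulAut.conj g).toMonoidHom ≤ (P : Subgroup G) →
        ∃ h ∈ Subgroup.normalizer (W : Set G), ∃ c ∈ Subgroup.centralizer (A : Set G), g = h * c := by
  set T := (P : Subgroup G) ⊓ N with hT
  have hS : IsSylowIn p T N := isSylowIn_inf_normal P N
  have hV' : Good N T V := ⟨hV, fun x hx => mem_normalizer_iff_conj_eq.2 (hVn x hx), hctrl⟩
  have hWe : W = ⨆ x : normalizer (T : Set G), (x : G) •ᶜ V := by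
    rw [hW, iSup_eq_closure]
    congr 1
    ext y
    simp only [Set.mem_iUnion]
    exact ⟨fun ⟨x, hx, h⟩ => ⟨⟨x, hx⟩, h⟩, fun ⟨x, h⟩ => ⟨x, x.2, h⟩⟩
  have hWg : Good N T W := by
    obtain ⟨U, -, hU⟩ := Finite.exists_le_maximal (p := fun U : Subgroup G => Good N T U ∧ U ≤ W)
      (a := V) ⟨hV', by
        rw [hWe]
        exact le_iSup_of_le ⟨1, one_mem _⟩ (one_conj V).ge⟩
    have : W ≤ U := by
      rw [hWe]
      refine iSup_le fun x => le_sup_right.trans (hU.le_of_ge ⟨hU.prop.1.sup (hV'.conj x.2),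
        sup_le hU.prop.2 ?_⟩ le_sup_left)
      rw [hWe]
      exact le_iSup (fun x : normalizer (T : Set G) => (x : G) •ᶜ V) x
    exact le_antisymm hU.prop.2 this ▸ hU.prop.1
  have hWn : normalizer (T : Set G) ≤ normalizer (W : Set G) := fun y hy =>
    mem_normalizer_of_conj_le (by
      rw [hWe, Subgroup.map_iSup]
      refine iSup_le fun x => le_iSup_of_le ⟨y * x, mul_mem hy x.2⟩ (conj_conj _ _ _).le)
  have hPT : (P : Subgroup G) ≤ normalizer (T : Set G) :=
    CA.Coprime.inf_le_normalizer_inf le_normalizer le_normalizer_of_normal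
  -- factorization of normalizers
  have hfac : ∀ E : Subgroup G, E ≤ T → ∀ g : G, g •ᶜ E ≤ T →
      ∃ a ∈ normalizer (W : Set G), ∃ c ∈ N ⊓ centralizer (E : Set G), g = a * c := by
    intro E hE g hg
    obtain ⟨x, hx, n, hn, rfl⟩ := hS.frattini' (g := g) (le_normalizer_of_normal (mem_top g))
    obtain ⟨a, ha, c, hc, rfl⟩ := hWg.2.2 E hE n hn (by
      rw [← conj_conj, conj_le_iff_le_inv_conj, conj_eq_of_mem_normalizer (inv_mem hx)] at hg
      exact hg)
    exact ⟨x * a, mul_mem (hWn hx) ha.2, c, hc, (mul_assoc _ _ _).symm⟩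
  intro A hA g hg
  refine (CA.Alperin.controls_fusion_of_radical P (normalizer (W : Set G))
    (hPT.trans hWn) (fun D hD hSD _ hrad n hn _ => ⟨n, ?_, fun _ _ => rfl⟩) A g hA hg).elim
    fun v ⟨hv, e⟩ => ?_
  swap
  · refine ⟨v, hv, v⁻¹ * g, mem_centralizer_iff.2 fun x hx => ?_, by group⟩
    calc x * (v⁻¹ * g) = v⁻¹ * (v * x * v⁻¹) * g := by group
      _ = _ := by rw [e x hx]; group
  set E := D ⊓ N with hE
  have hET : E ≤ T := inf_le_inf_right _ hD
  have hDE : normalizer (D : Set G) ≤ normalizer (E : Set G) :=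
    CA.Coprime.inf_le_normalizer_inf le_rfl le_normalizer_of_normal
  have hWp : IsPGroup p W := hS.isPGroup.to_le hWg.1
  set Y := (W ⊓ normalizer (E : Set G)) ⊔ (N ⊓ centralizer (E : Set G)) with hY
  have hCn : normalizer (E : Set G) ≤ normalizer ((N ⊓ centralizer (E : Set G) : Subgroup G) : Set G) :=
    CA.Coprime.inf_le_normalizer_inf le_normalizer_of_normal (normalizer_le_normalizer_centralizer E)
  have hYn : normalizer (E : Set G) ≤ normalizer (Y : Set G) := fun g hg => by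
    obtain ⟨a, ha, c, hc, rfl⟩ := hfac E hET g ((conj_eq_of_mem_normalizer hg).le.trans hET)
    have ha' : a ∈ normalizer (E : Set G) := by
      simpa using mul_mem hg (inv_mem (centralizer_le_normalizer _ hc.2))
    exact mul_mem (inf_normalizer_le_normalizer_sup _ _
      ⟨inf_normalizer_le_normalizer_inf _ _ ⟨ha, le_normalizer ha'⟩, hCn ha'⟩)
      (le_normalizer (mem_sup_right hc))
  have hYN : Y ≤ N := sup_le (inf_le_left.trans (hWg.1.trans inf_le_right)) inf_le_left
  have h1 := le_of_radical hSD hrad (K := Y ⊓ normalizer (D : Set G)) inf_le_right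
    (CA.Coprime.inf_le_normalizer_inf (hDE.trans hYn) le_normalizer) fun k hk hc =>
      mem_centralizer_of_commutator_le (hS.isPGroup.to_le hET) hc
        (mem_of_coprime_of_mem_sup (hWp.to_le inf_le_left) (inf_le_right.trans hCn) hk.1 hc).2
        (le_inf (CA.Coprime.commutator_le_left (zpowers_le.2 hk.2))
          ((commutator_mono le_rfl (zpowers_le.2 (hYN hk.1))).trans (commutator_le_right _ _)))
  have hWP : W ≤ P := hWg.1.trans inf_le_left
  have hWD : W ≤ D := le_of_inf_normalizer_le P.isPGroup' hWP hD ((hD.trans hPT).trans hWn)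
    fun x hx => h1 ⟨hWP hx.1, mem_sup_left ⟨hx.1, hDE hx.2⟩, hx.2⟩
  obtain ⟨a, ha, c, hc, rfl⟩ := hfac W hWg.1 n
    ((conj_mono n (le_inf hWD (hWg.1.trans inf_le_right))).trans
      ((conj_eq_of_mem_normalizer (hDE hn)).le.trans hET))
  exact mul_mem ha (centralizer_le_normalizer _ hc.2)

end Cfsg.Agent.S1954
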