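import Cfsg.Statements.S1956
import Cfsg.Agent.Lib.Grp.CFun

set_option autoImplicit false
open Cfsg

namespace Cfsg.Agent.S1956

open Subgroup CA.SylIn CA.CFun

/-- Let P be a Sylow p-subgroup of the finite group G such that every element of P of order dividing p (dividing 4 when p = 2) is central in P. Then the fusion of these elements is controlled by N_G(P): if such an element a of P has g a g⁻¹ in P, then g = n c with n normalizing P and c commuting with a. -/
theorem result {G : Type*} [Group G] [Finite G] {p : ℕ} [Fact p.Prime] (P : Sylow p G)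
    (hcen : ∀ a ∈ (P : Subgroup G), (a ^ p = 1 ∨ (p = 2 ∧ a ^ 4 = 1)) → ∀ y ∈ (P : Subgroup G), a * y = y * a) :
    ∀ a ∈ (P : Subgroup G), (a ^ p = 1 ∨ (p = 2 ∧ a ^ 4 = 1)) → ∀ g : G, g * a * g⁻¹ ∈ (P : Subgroup G) →
      ∃ n ∈ Subgroup.normalizer ((P : Subgroup G) : Set G), ∃ c : G, c * a = a * c ∧ g = n * c := by
  intro a ha h g hg
  obtain ⟨n, hn, e⟩ := CA.Trf.exists_normalizer_conj_elt_of_weaklyClosed P (CA.Trf.isWeaklyClosed_self _)
    (x := a) (g := g) (mem_centralizer_iff.2 fun y hy => (hcen a ha h y hy).symm)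
    (mem_centralizer_iff.2 fun y hy => (hcen _ hg (by
      simp only [conj_pow]; exact h.imp (fun h => by simp [h]) fun h => ⟨h.1, by simp [h.2]⟩) y hy).symm)
  refine ⟨n, hn, n⁻¹ * g, ?_, by group⟩
  calc n⁻¹ * g * a = n⁻¹ * (g * a * g⁻¹) * g := by group
    _ = _ := by rw [← e]; group

end Cfsg.Agent.S1956
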