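import Cfsg.Statements.S2001
import Cfsg.Agent.Lib.Grp.CFun

set_option autoImplicit false
open Cfsg

namespace Cfsg.Agent.S2001

open Subgroup CA.SylIn CA.CFun

/-- Let p be a prime dividing the order of the finite group G, P a Sylow p-subgroup, W a conjugacy functor for p on G with Z(H) ≤ W(H) for every nontrivial p-subgroup H, and V a central functor: a conjugacy functor with V(H) ≤ Z(H), and V(H) ≤ V(K) whenever Z(H) ≤ Z(K), for nontrivial p-subgroups H, K. Say that W with V controls transfer in a subgroup L when some Sylow p-subgroup Q of L satisfies Q ∩ L' = (Q ∩ (N_L(W(Q)))')·(Q ∩ (C_L(V(Q)))') as a product of two subgroups. If W with V controls transfer in N_G(H) for every subgroup H with Z(P) ≤ H ≤ P, then W with V controls transfer in G. -/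
theorem result {G : Type*} [Group G] [Finite G] {p : ℕ} [Fact p.Prime] (hdiv : p ∣ Nat.card G) (P : Sylow p G) (W V : Subgroup G → Subgroup G) (hW : Cfsg.IsConjugacyFunctor p W) (hV : Cfsg.IsConjugacyFunctor p V) (hWZ : ∀ H : Subgroup G, IsPGroup p ↥H → H ⊓ Subgroup.centralizer ((H : Subgroup G) : Set G) ≤ W H) (hVZ : ∀ H : Subgroup G, IsPGroup p ↥H → V H ≤ H ⊓ Subgroup.centralizer ((H : Subgroup G) : Set G)) (hVmono : ∀ H K : Subgroup G, IsPGroup p ↥H → IsPGroup p ↥K → H ≠ ⊥ → K ≠ ⊥ → H ⊓ Subgroup.centralizer ((H : Subgroup G) : Set G) ≤ K ⊓ Subgroup.centralizer ((K : Subgroup G) : Set G) → V H ≤ V K) (hloc : ∀ H : Subgroup G, (P : Subgroup G) ⊓ Subgroup.centralizer (((P : Subgroup G) : Subgroup G) : Set G) ≤ H → H ≤ (P : Subgroup G) → ∃ Q : Subgroup G, Q ≤ Subgroup.normalizer ((H : Subgroup G) : Set G) ∧ IsPGroup p ↥Q ∧ ¬ p ∣ (Q).relIndex (Subgroup.normalizer ((H : Subgroup G) : Set G)) ∧ ∀ x : G, x ∈ Q ⊓ ⁅Subgroup.normalizer ((H : Subgroup G)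 : Set G), Subgroup.normalizer ((H : Subgroup G) : Set G)⁆ ↔ ∃ a ∈ Q ⊓ ⁅Subgroup.normalizer ((H : Subgroup G) : Set G) ⊓ Subgroup.normalizer ((W Q : Subgroup G) : Set G), Subgroup.normalizer ((H : Subgroup G) : Set G) ⊓ Subgroup.normalizer ((W Q : Subgroup G) : Set G)⁆, ∃ b ∈ Q ⊓ ⁅Subgroup.normalizer ((H : Subgroup G) : Set G) ⊓ Subgroup.centralizer ((V Q : Subgroup G) : Set G), Subgroup.normalizer ((H : Subgroup G) : Set G) ⊓ Subgroup.centralizer ((V Q : Subgroup G) : Set G)⁆, x = a * b) : ∃ Q : Subgroup G, IsPGroup p ↥Q ∧ ¬ p ∣ Q.index ∧ ∀ x : G, x ∈ Q ⊓ commutator G ↔ ∃ a ∈ Q ⊓ ⁅Subgroup.normalizer ((W Q : Subgroup G) : Set G), Subgroup.normalizer ((W Q : Subgroup G) : Set G)⁆, ∃ b ∈ Q ⊓ ⁅Subgroup.centralizer ((V Q : Subgroup G) : Set G), Subgroup.centralizer ((V Q : Subgroup G) : Set G)⁆, x = a * b := by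
  let M₁ := (P : Subgroup G) ⊓ ⁅normalizer (W P : Set G), normalizer (W P : Set G)⁆
  let M₂ := (P : Subgroup G) ⊓ ⁅centralizer (V P : Set G), centralizer (V P : Set G)⁆
  have key : (P : Subgroup G) ⊓ ⁅(⊤ : Subgroup G), ⊤⁆ ≤ M₁ ⊔ M₂ := by
    refine loc_focal (isSylowIn_top P) (local_global_centric P (fr_focal _ _) fun T a b c d IH =>
      loc_of_focal inf_le_right ?_)
    obtain ⟨Q, q1, q2, q3, q4⟩ := hloc T a c
    obtain ⟨g, hg, e⟩ := IsSylowIn.exists_conj_eq ⟨q1, q2, q3⟩ d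
    have h0 : T ≤ (P : Subgroup G) ⊓ normalizer (T : Set G) := le_inf c le_normalizer
    have h1 := conj_mono g (fun x hx => by
      obtain ⟨a, ha, b, hb, rfl⟩ := (q4 x).1 hx
      exact mul_mem_sup ha hb : Q ⊓ ⁅normalizer (T : Set G), normalizer (T : Set G)⁆ ≤ _ ⊔ _)
    simp only [conj_inf, conj_sup, conj_commutator, conj_eq_of_mem hg, conj_normalizer g (W Q),
      conj_centralizer, ← cf_conj hW q2, ← cf_conj hV q2, e] at h1
    refine h1.trans (sup_le ?_ (le_trans ?_ le_sup_right))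
    · by_cases e : (P : Subgroup G) ⊓ normalizer (T : Set G) = P
      · rw [e]
        exact (inf_le_inf_left _ (commutator_mono inf_le_right inf_le_right)).trans le_sup_left
      · exact loc_focal (d.of_le (le_inf inf_le_right (cf_le_norm hW d.isPGroup)) inf_le_left)
          ((IH _ ((cf_le hW d.isPGroup).trans inf_le_left) e (hWZ _ d.isPGroup)
            (cf_norm hW d.isPGroup)).mono le_rfl inf_le_right)
    · have := (inf_le_right (a := normalizer (T : Set G))).trans (centralizer_le (hVmono P _ P.2 d.isPGroup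
        (fun e => b (le_bot_iff.1 (c.trans e.le))) (fun e => b (le_bot_iff.1 (h0.trans e.le)))
        (le_inf (a.trans h0) (inf_le_right.trans (centralizer_le (inf_le_left : _ ≤ (P : Subgroup G)))))))
      exact inf_le_inf inf_le_left (commutator_mono this this)
  have hn := CA.Amb.norm_centralizer (cf_le_norm hV P.2)
  refine ⟨P, P.2, P.not_dvd_index, fun x => ⟨fun hx => ?_, ?_⟩⟩
  · obtain ⟨a, ha, b, hb, e⟩ := (CA.Amb.mem_sup_of_norm (inf_le_left.trans
      (CA.Amb.norm_inf le_normalizer (CA.Amb.norm_commutator hn hn)))).1 (key hx)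
    exact ⟨a, ha, b, hb, e.symm⟩
  · rintro ⟨a, ha, b, hb, rfl⟩
    exact mul_mem (inf_le_inf_left _ (commutator_mono le_top le_top) ha)
      (inf_le_inf_left _ (commutator_mono le_top le_top) hb)

end Cfsg.Agent.S2001
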