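import Cfsg.Statements.S2002
import Cfsg.Agent.Lib.Grp.CFun

set_option autoImplicit false
open Cfsg

namespace Cfsg.Agent.S2002

open Subgroup CA.SylIn CA.CFun

section
variable {G : Type*} [Group G] {N : G → Prop} {T D : Subgroup G}

theorem list_of_path {c : G} (h : Path N T D c) : ∃ l : List G, (∀ b ∈ l, N b⁻¹) ∧ l.prod = c⁻¹ ∧
    ∀ k ≤ l.length, ((l.take k).prod)⁻¹ •ᶜ D ≤ T := by
  induction h with
  | one h => exact ⟨[], by simp, by simp, fun k _ => by rwa [List.take_nil, List.prod_nil, inv_one, one_conj]⟩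
  | step c x _ h2 h3 ih =>
    obtain ⟨l, a1, a2, a3⟩ := ih
    refine ⟨l ++ [x⁻¹], fun b hb => ?_, by simp [a2], fun k hk => ?_⟩
    · rcases List.mem_append.1 hb with hb | hb
      · exact a1 b hb
      · rwa [List.mem_singleton.1 hb, inv_inv]
    · rcases le_or_gt k l.length with e | e
      · rw [List.take_append_of_le_length e]; exact a3 k e
      · rw [List.take_of_length_le (by simpa using e), List.prod_append, a2]
        simpa using h3

theorem path_of_list {l : List G} (a1 : ∀ b ∈ l, N b⁻¹)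
    (a3 : ∀ k ≤ l.length, ((l.take k).prod)⁻¹ •ᶜ D ≤ T) (k : ℕ) (hk : k ≤ l.length) :
    Path N T D ((l.take k).prod)⁻¹ := by
  induction k with
  | zero =>
    have := a3 0 hk
    rw [List.take_zero, List.prod_nil, inv_one] at this ⊢
    exact .one (by rwa [one_conj] at this)
  | succ k ih =>
    have := a3 _ hk
    rw [List.prod_take_succ _ _ hk, mul_inv_rev] at this ⊢
    exact .step _ _ (ih (by omega)) (a1 _ (List.getElem_mem _)) this

theorem img_iff {X : Set G} {c e : G} (hc : c ∈ centralizer X) :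
    (fun x => e⁻¹ * x * e) '' ((fun x => c⁻¹ * x * c) '' X) ⊆ T ↔ e⁻¹ •ᶜ closure X ≤ T := by
  rw [conj_closure_le, inv_inv, Set.image_congr (s := X) (f := fun x => c⁻¹ * x * c) (g := id) (fun x hx => by
    rw [mul_assoc, mem_centralizer_iff.1 hc x hx, inv_mul_cancel_left, id]), Set.image_id]

theorem loc_iff {L : Subgroup G} (hN : ∀ x, N x → N x⁻¹) (hL : ∀ x, N x → x ∈ L) : Loc (Ch N T) T L ↔
    ∀ (X : Set G) (a : G), X ⊆ T → a ∈ L → (fun x => a⁻¹ * x * a) '' X ⊆ T →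
      ∃ c ∈ L ⊓ centralizer X, ∃ (n : ℕ) (b : Fin n → G), (∀ i, N (b i)) ∧ a = c * (List.ofFn b).prod ∧
        ∀ k : ℕ, k ≤ n → (fun x => (((List.ofFn b).take k).prod)⁻¹ * x * ((List.ofFn b).take k).prod) ''
          ((fun x => c⁻¹ * x * c) '' X) ⊆ T := by
  constructor
  · intro h X a h1 h2 h3
    obtain ⟨c, c1, c2⟩ := h (closure X) a⁻¹ ((closure_le _).2 h1) (inv_mem h2)
      (by rwa [conj_closure_le, inv_inv])
    obtain ⟨l, a1, a2, a3⟩ := list_of_path c1
    have a4 : ∀ b ∈ l, N b := fun b hb => inv_inv b ▸ hN _ (a1 b hb)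
    have hc : a * c ∈ centralizer X := by
      have := mem_cent_of_eq fun a ha => (c2 a ha).symm
      rwa [inv_inv, centralizer_closure] at this
    refine ⟨a * c, mem_inf.2 ⟨mul_mem h2 (L.inv_mem_iff.1 (a2 ▸ L.list_prod_mem fun b hb => hL b (a4 b hb))), hc⟩,
      l.length, l.get, fun i => a4 _ (List.get_mem _ _), by simp [a2], fun k hk => ?_⟩
    rw [img_iff hc, List.ofFn_get]
    exact a3 k hk
  · intro h D g h1 h2 h3
    obtain ⟨c, hc, n, b, a1, a2, a3⟩ := h D g⁻¹ h1 (inv_mem h2)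
      (by rw [← closure_eq D, conj_closure_le] at h3; rwa [inv_inv])
    simp only [img_iff hc.2, closure_eq] at a3
    have := path_of_list (N := N) (l := List.ofFn b) (fun x hx => by
      obtain ⟨i, rfl⟩ := List.mem_ofFn.1 hx; exact hN _ (a1 i)) (by simpa using a3) _ le_rfl
    rw [List.take_length] at this
    refine ⟨_, this, fun a ha => ?_⟩
    rw [inv_eq_iff_eq_inv.1 a2, ← conj_eq_of_cent hc.2 ha]
    nth_rw 1 [conj_eq_of_cent hc.2 ha]
    group

end

/-- Let p be a prime dividing the order of the finite group G, P a Sylow p-subgroup, W a conjugacy functor for p on G with Z(H) ≤ W(H) for every nontrivial p-subgroup H, and V a central functor (a conjugacy functor with V(H) ≤ Z(H), and V(H) ≤ V(K) whenever Z(H) ≤ Z(K)). Say that W with V controls strong fusion in a subgroup L when some Sylow p-subgroup Q of L has the property: whenever X ⊆ Q and a ∈ L with a⁻¹Xa ⊆ Q, then a = c b with c ∈ C_L(X) and b = b₁ ⋯ bₙ a product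 of elements each in N_L(W(Q)) or in C_L(V(Q)) such that every partial conjugate (b₁ ⋯ bₖ)⁻¹ X (b₁ ⋯ bₖ) lies in Q. If W with V controls strong fusion in N_G(H) for every subgroup H with Z(P) ≤ H ≤ P, then W with V controls strong fusion in G. -/
theorem result {G : Type*} [Group G] [Finite G] {p : ℕ} [Fact p.Prime] (hdiv : p ∣ Nat.card G) (P : Sylow p G) (W V : Subgroup G → Subgroup G) (hW : Cfsg.IsConjugacyFunctor p W) (hV : Cfsg.IsConjugacyFunctor p V) (hWZ : ∀ H : Subgroup G, IsPGroup p ↥H → H ⊓ Subgroup.centralizer ((H : Subgroup G) : Set G) ≤ W H) (hVZ : ∀ H : Subgroup G, IsPGroup p ↥H → V H ≤ H ⊓ Subgroup.centralizer ((H : Subgroup G) : Set G)) (hVmono : ∀ H K : Subgroup G, IsPGroup p ↥H → IsPGroup p ↥K → H ≠ ⊥ → K ≠ ⊥ → H ⊓ Subgroup.centralizer ((H : Subgroup G) : Set G) ≤ K ⊓ Subgroup.centralizer ((K : Subgroup G) : Set G) → V H ≤ V K) (hloc : ∀ H : Subgroup G, (P : Subgroup G) ⊓ Subgroup.centralizer (((P : Subgroup G)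 : Subgroup G) : Set G) ≤ H → H ≤ (P : Subgroup G) → ∃ Q : Subgroup G, Q ≤ Subgroup.normalizer ((H : Subgroup G) : Set G) ∧ IsPGroup p ↥Q ∧ ¬ p ∣ (Q).relIndex (Subgroup.normalizer ((H : Subgroup G) : Set G)) ∧ ∀ (X : Set G) (a : G), X ⊆ Q → a ∈ Subgroup.normalizer ((H : Subgroup G) : Set G) → (fun x => a⁻¹ * x * a) '' X ⊆ Q → ∃ c ∈ Subgroup.normalizer ((H : Subgroup G) : Set G) ⊓ Subgroup.centralizer X, ∃ (n : ℕ) (b : Fin n → G), (∀ i, b i ∈ Subgroup.normalizer ((H : Subgroup G) : Set G) ⊓ Subgroup.normalizer ((W Q : Subgroup G) : Set G) ∨ b i ∈ Subgroup.normalizer ((H : Subgroup G) : Set G) ⊓ Subgroup.centralizer ((V Q : Subgroup G) : Set G)) ∧ a = c * (List.ofFn b).prod ∧ ∀ k : ℕ, k ≤ n → (fun x => (((List.ofFn b).take k).prod)⁻¹ * x * ((List.ofFn b).take k).prod) '' ((fun x => c⁻¹ * x * c) '' X) ⊆ Q) : ∃ Q : Subgroup G, IsPGroup p ↥Q ∧ ¬ p ∣ Q.index ∧ ∀ (X : Set G) (a : G), X ⊆ Q → (fun x => a⁻¹ * x * a) '' X ⊆ Q → ∃ c ∈ Subgroup.centralizer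 X, ∃ (n : ℕ) (b : Fin n → G), (∀ i, b i ∈ ⊤ ⊓ Subgroup.normalizer ((W Q : Subgroup G) : Set G) ∨ b i ∈ ⊤ ⊓ Subgroup.centralizer ((V Q : Subgroup G) : Set G)) ∧ a = c * (List.ofFn b).prod ∧ ∀ k : ℕ, k ≤ n → (fun x => (((List.ofFn b).take k).prod)⁻¹ * x * ((List.ofFn b).take k).prod) '' ((fun x => c⁻¹ * x * c) '' X) ⊆ Q := by
  let N : Subgroup G → Subgroup G → G → Prop := fun L Q x =>
    x ∈ L ⊓ normalizer (W Q : Set G) ∨ x ∈ L ⊓ centralizer (V Q : Set G)
  have hN : ∀ L Q x, N L Q x → N L Q x⁻¹ := fun L Q x h => h.imp inv_mem inv_mem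
  have hL : ∀ L Q x, N L Q x → x ∈ L := fun L Q x h => h.elim (·.1) (·.1)
  have key : Loc (Ch (N ⊤ P) P) P ⊤ := by
    refine local_global_centric P (fr_ch _ _) fun T a b c d IH D g h1 h2 h3 => ?_
    obtain ⟨Q, q1, q2, q3, q4⟩ := hloc T a c
    obtain ⟨k, hk, e⟩ := IsSylowIn.exists_conj_eq ⟨q1, q2, q3⟩ d
    have h0 : T ≤ (P : Subgroup G) ⊓ normalizer (T : Set G) := le_inf c le_normalizer
    rw [← e] at h1 h3
    have := ((loc_iff (hN _ Q) (hL _ Q)).2 q4 (k⁻¹ •ᶜ D) (k⁻¹ * g * k) (le_conj_iff_inv_conj_le.1 h1)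
      (mul_mem (mul_mem (inv_mem hk) h2) hk) (by
        rw [conj_conj, mul_inv_cancel_right, ← conj_conj]
        exact le_conj_iff_inv_conj_le.1 h3)).map (N' := N (normalizer (T : Set G)) (k •ᶜ Q))
        (MulAut.conj k).toMonoidHom fun x hx => hx.imp
          (fun hx => mem_inf.2 ⟨mul_mem (mul_mem hk hx.1) (inv_mem hk), by
            rw [cf_conj hW q2, ← conj_normalizer]; exact conj_mem_conj.2 hx.2⟩)
          (fun hx => mem_inf.2 ⟨mul_mem (mul_mem hk hx.1) (inv_mem hk), by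
            rw [cf_conj hV q2, ← conj_centralizer]; exact conj_mem_conj.2 hx.2⟩)
    rw [conj_inv_conj, e, show (MulAut.conj k).toMonoidHom (k⁻¹ * g * k) = g by simp [mul_assoc]] at this
    refine this.elim (fr_ch _ _) inf_le_left fun E x e1 e2 e3 => e2.elim (fun e2 => ?_) fun e2 =>
      Ch.single (e1.trans inf_le_left) (Or.inr ⟨mem_top x, centralizer_le (hVmono P _ P.2 d.isPGroup
        (fun e => b (le_bot_iff.1 (c.trans e.le))) (fun e => b (le_bot_iff.1 (h0.trans e.le)))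
        (le_inf (a.trans h0) (inf_le_right.trans (centralizer_le (inf_le_left : _ ≤ (P : Subgroup G))))))
        e2.2⟩) (e3.trans inf_le_left)
    by_cases e : (P : Subgroup G) ⊓ normalizer (T : Set G) = P
    · rw [e] at e1 e2 e3
      exact Ch.single e1 (Or.inl ⟨mem_top x, e2.2⟩) e3
    · exact IH _ ((cf_le hW d.isPGroup).trans inf_le_left) e (hWZ _ d.isPGroup) (cf_norm hW d.isPGroup)
        E x e1 e2.2 e3
  refine ⟨P, P.2, P.not_dvd_index, fun X a h1 h2 => ?_⟩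
  obtain ⟨c, hc, h⟩ := (loc_iff (hN _ _) (hL _ _)).1 key X a h1 (mem_top a) h2
  exact ⟨c, hc.2, h⟩

end Cfsg.Agent.S2002
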