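import Cfsg.Statements.S2007
import Cfsg.Agent.Lib.Loc.H6Fin

set_option autoImplicit false
open Cfsg

set_option linter.unusedVariables false
set_option linter.unusedSimpArgs false
set_option linter.style.haveILetI false

namespace Cfsg.Agent.S2007

open CA CA.H6Fin CA.H6Con CA.H6W CA.H6Off CA.H6NPC CA.H6Stab CA.H6PSolv CA.H6ZJ CA.H6Op CA.Amb CA.AmbSyl CA.AmbCore CA.AmbRes CA.AmbChar Subgroup
open CA.H6J hiding Z


/-- Let p be a prime, G a finite group with Sylow p-subgroup S, and T a normal subgroup of S containing C_S(T). If N_G(T)/C_G(T) is a p-group (every element of N_G(T) of order prime to p centralizes T), then N_G(T) has a normal p-complement. -/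
theorem result {G : Type*} [Group G] [Finite G] {p : ℕ} [Fact p.Prime] (S : Sylow p G) (T : Subgroup G) (hTS : T ≤ (S : Subgroup G)) (hTn : (S : Subgroup G) ≤ Subgroup.normalizer ((T : Subgroup G) : Set G)) (hC : (S : Subgroup G) ⊓ Subgroup.centralizer ((T : Subgroup G) : Set G) ≤ T) (hN : ∀ g ∈ Subgroup.normalizer ((T : Subgroup G) : Set G), (orderOf g).Coprime p → g ∈ Subgroup.centralizer ((T : Subgroup G) : Set G)) : Cfsg.HasNormalPComplement p ↥(Subgroup.normalizer ((T : Subgroup G) : Set G)) := by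
  have h1 : Cfsg.pResidualOf p (𝐍 T) ≤ 𝐂 T := res_le_iff.2 hN
  rw [hasNPC_iff_res, ← res_eq_of_le h1 (centralizer_le_normalizer _), ← hasNPC_iff_res]
  have h2 : SylIn p ((S : Subgroup G) ⊓ 𝐂 T) (𝐂 T) := (sylIn_of_le S hTn).inf_norm
    (centralizer_le_normalizer _) (normalizer_le_normalizer_centralizer _)
  refine PRes.hasNPC_of_normalizer_le_centralizer h2.toSylow fun x _ y hy => ?_
  exact Subtype.ext (x.2 _ (hC hy))

end Cfsg.Agent.S2007
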