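import Cfsg.Statements.S2015
import Cfsg.Agent.Lib.Grp.L0K4
import Cfsg.Agent.S1984

set_option autoImplicit false
universe u
open Cfsg

namespace Cfsg.Agent.S2015

open CA.L0K

/-- For p ≥ 5, every finite p-group P has a characteristic subgroup K containing Z(P), depending only on P, whose normalizer controls transfer wherever P is a Sylow subgroup: for every finite group G and every embedding ι of P onto a Sylow p-subgroup of G, the intersection of ι(P) with the derived subgroup of G equals its intersection with the derived subgroup of N_G(ι(K)). -/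
theorem result (p : ℕ) [Fact p.Prime] (hp : 5 ≤ p) (P : Type u) [Group P] [Finite P] (hP : IsPGroup p P) : ∃ K : Subgroup P, K.Characteristic ∧ Subgroup.center P ≤ K ∧ ∀ (G : Type u) [Group G] [Finite G] (ι : P →* G), Function.Injective ι → (∃ T : Sylow p G, (T : Subgroup G) = ι.range) → ι.range ⊓ commutator G = ι.range ⊓ (commutator ↥(Subgroup.normalizer ((K.map ι : Subgroup G) : Set G))).map (Subgroup.normalizer ((K.map ι : Subgroup G) : Set G)).subtype := by
  refine ⟨KL ⊤, ?_, CA.H6J.Z_top.ge.trans Z_le_K.1, ?_⟩
  · refine Subgroup.characteristic_iff_map_eq.2 fun φ => ?_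
    rw [← KL_map φ.injective, map_top_equiv]
  · rintro G _ _ ι hι ⟨T, hT⟩
    have h := Cfsg.Agent.S1984.result (G := G) hp
    rw [funext induced_KL] at h
    have h1 := TC.of_equiv (MulEquiv.refl G) (W' := KL) (fun e T => KL_map e.injective T) h T
    rw [← KL_map hι, ← MonoidHom.range_eq_map, ← hT, Subgroup.map_subtype_commutator]
    exact h1

end Cfsg.Agent.S2015
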