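import Cfsg.Statements.S2050
import Cfsg.Agent.Lib.Spor.LyS4
import Cfsg.Agent.Lib.Spor.LyO
import Cfsg.Agent.Lib.Spor.LyZ

set_option autoImplicit false
open Cfsg

namespace Cfsg.Agent.S2050

/-- The Schur multiplier of the Lyons group (the finitely presented group of the definitions) is trivial; here the Schur multiplier is described through stem extensions, as in the definitions: surjective homomorphisms onto the group from a finite group, whose kernel is central in that finite group and contained in that finite group's commutator subgroup. -/
theorem result : Cfsg.HasCyclicSchurMultiplier Cfsg.Spor.Ly 1 := by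
  haveI : Finite CA.LyO.K := Nat.finite_of_card_ne_zero (CA.LyZ.cardH.trans_ne (by decide))
  haveI : CA.LyO.K.FiniteIndex := ⟨(CA.LyO.index CA.LyZ.z_not).trans_ne (by decide)⟩
  haveI : Finite Cfsg.Spor.Ly := Nat.finite_of_card_ne_zero (by
    rw [← CA.LyO.K.card_mul_index]
    exact mul_ne_zero Nat.card_pos.ne' Subgroup.FiniteIndex.index_ne_zero)
  exact CA.LyS.mult_Ly

end Cfsg.Agent.S2050
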