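import Cfsg.Statements.S2056
import Cfsg.Agent.S1701
import Cfsg.Agent.S1708
import Cfsg.Agent.S2046
-- import your own Cfsg.Agent.* helpers here

set_option autoImplicit false
open Cfsg

namespace Cfsg.Agent.S2056

open Subgroup CA.CWord CA.CPres CA.SchurHopf CA.SchurExt CA.SchurCov Cfsg.Spor CA.HNRel
open scoped commutatorElement

theorem comm_cen {Γ : Type*} [Group Γ] {a b c d : Γ} (hc : c ∈ center Γ) (hd : d ∈ center Γ) :
    ⁅a * c, b * d⁆ = ⁅a, b⁆ := by
  have h1 := mem_center_iff.1 hc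
  have h2 := mem_center_iff.1 hd
  calc ⁅a * c, b * d⁆ = a * (c * (b * d)) * c⁻¹ * (a⁻¹ * d⁻¹) * b⁻¹ := by group
    _ = a * b * (d * (a⁻¹ * d⁻¹)) * b⁻¹ := by rw [← h1]; group
    _ = _ := by rw [← h2]; group

theorem perf {K S : Type*} [Group K] [Finite K] [Group S] (hS : commutator S = ⊤) (h : IsNonsplitDoubleCover K S) :
    commutator K = ⊤ := by
  obtain ⟨h1, ⟨e⟩, h2⟩ := h
  have h3 : commutator K ⊔ center K = ⊤ := by
    have hs := e.surjective.comp (QuotientGroup.mk'_surjective (center K))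
    have : (commutator K).map (e.toMonoidHom.comp (QuotientGroup.mk' _)) = ⊤ := by
      rw [_root_.map_commutator_eq, MonoidHom.range_eq_top.2 hs]; exact hS
    rw [← QuotientGroup.ker_mk' (center K), ← MonoidHom.ker_comp_of_injective _ e.toMonoidHom e.injective, ← comap_map_eq,
      this, comap_top]
  haveI := Fact.mk Nat.prime_two
  haveI : Fact (Nat.card (center K)).Prime := h1 ▸ inferInstance
  rcases ((commutator K).subgroupOf (center K)).eq_bot_or_eq_top_of_prime_card with h | h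
  · refine (h2 (commutator K) (isComplement'_of_disjoint_and_mul_eq_univ (subgroupOf_eq_bot.1 h).symm ?_)).elim
    rw [← normal_mul, sup_comm, h3]; rfl
  · rw [← h3, sup_eq_left.2 (subgroupOf_eq_top.1 h)]

theorem lift {Γ G : Type*} [Group Γ] [Group G] {σ : Γ →* G} (hs : Function.Surjective σ) (hc : σ.ker ≤ center Γ)
    {K : Subgroup G} (hK : commutator K = ⊤) (hM : HasCyclicSchurMultiplier K 1) :
    ∃ D : Subgroup Γ, (∀ d ∈ D, σ d = 1 → d = 1) ∧ D.map σ = K ∧
      ∀ g, (∀ k ∈ K, σ g * k * (σ g)⁻¹ ∈ K) → ∀ d ∈ D, g * d * g⁻¹ ∈ D := by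
  refine ⟨⁅K.comap σ, K.comap σ⁆, fun d h1 h2 => ?_, ?_, fun g h => ?_⟩
  · have := map_mult_res σ K
    rw [mult_eq_bot hM _ (res_surj hs K) (res_central hc K), Subgroup.map_bot] at this
    exact mem_bot.1 (this.ge ⟨h2, h1⟩)
  · rw [map_commutator, map_comap_eq_self_of_surjective hs, ← map_commutator_sub, hK, ← MonoidHom.range_eq_map,
      range_subtype]
  · have : ∀ a ∈ K.comap σ, MulAut.conj g a ∈ K.comap σ := fun a ha => by simpa using h _ ha
    exact fun d hd => (commutator_le (H₃ := comap (MulAut.conj g).toMonoidHom ⁅K.comap σ, K.comap σ⁆)).2 (fun a ha b hb =>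
      mem_comap.2 ((map_commutatorElement (MulAut.conj g).toMonoidHom a b).symm ▸
        commutator_mem_commutator (this a ha) (this b hb))) hd

/-- the lifts of `t` and `z` -/
theorem fix {Γ : Type*} [Group Γ] {Z : Subgroup Γ} (hZ : Z ≤ center Γ) {x y z t : Γ} (h1 : y ^ 6 = 1)
    (h2 : z * (x * x) = x * x * z) (h3 : z * z ∈ Z) (h4 : t ^ 5 ∈ Z) (h5 : x⁻¹ * t * x * (t * t) ∈ Z)
    (h6 : t⁻¹ * y⁻¹ * t * y ∈ Z) (h7 : (z * t) ^ 3 ∈ Z) : ∃ c ∈ Z, ∃ d ∈ Z, z * c * (z * c) = 1 ∧ (t * d) ^ 5 = 1 ∧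
      x⁻¹ * (t * d) * x * (t * d * (t * d)) = 1 ∧ (t * d)⁻¹ * y⁻¹ * (t * d) * y = 1 ∧ (z * c * (t * d)) ^ 3 = 1 := by
  have cm : ∀ c ∈ Z, ∀ g, Commute g c := fun c h g => mem_center_iff.1 (hZ h) g
  obtain ⟨d, hd, a1, a2⟩ : ∃ d ∈ Z, (t * d) ^ 5 = 1 ∧ x⁻¹ * (t * d) * x * (t * d * (t * d)) = 1 := by
    generalize hc : x⁻¹ * t * x * (t * t) = c at h5
    generalize he : t ^ 5 = e at h4
    have e1 : x⁻¹ * t * x = (t * t)⁻¹ * c := by rw [(cm c h5 _).eq, ← hc]; group
    have e2 : e = (e * e)⁻¹ * c ^ 5 := by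
      have := congrArg (· ^ 5) e1
      simp only [(cm c h5 _).mul_pow] at this
      rw [show (x⁻¹ * t * x) ^ 5 = x⁻¹ * t ^ 5 * x by simpa using conj_pow (a := x⁻¹) (b := t) (i := 5), he, (cm e h4 _).eq] at this
      rw [← he, show (t ^ 5 * t ^ 5)⁻¹ = (t * t)⁻¹ ^ 5 by group, ← this, he]; group
    have hd : (c * c)⁻¹ * e ∈ Z := mul_mem (inv_mem (mul_mem h5 h5)) h4
    have e3 : c ^ 5 = e ^ 3 := by rw [← mul_inv_cancel_left (e * e) (c ^ 5), ← e2, pow_succ, pow_two]
    refine ⟨_, hd, ?_, ?_⟩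
    · rw [(cm _ hd _).mul_pow, he, (cm e h4 _).mul_pow, show (c * c)⁻¹ ^ 5 = (c ^ 5 * c ^ 5)⁻¹ by group, e3]; group
    · generalize hd' : (c * c)⁻¹ * e = d at hd
      have : c * d ^ 3 = 1 := by rw [← hd', (cm e h4 _).mul_pow, ← e3]; group
      calc _ = x⁻¹ * t * (d * x) * (t * (d * t) * d) := by group
        _ = x⁻¹ * t * x * (d * (t * t)) * (d * d) := by rw [← (cm d hd x).eq, ← (cm d hd t).eq]; group
        _ = 1 := by rw [← (cm d hd _).eq, ← this, ← hc, pow_succ, pow_two]; group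
  have h6' : (t * d)⁻¹ * y⁻¹ * (t * d) * y ∈ Z := by
    have : (t * d)⁻¹ * y⁻¹ * (t * d) * y = d⁻¹ * (t⁻¹ * y⁻¹ * t * y) * d := by
      rw [mul_assoc _ _ y, mul_assoc t d, ← (cm d hd y).eq]; group
    exact this ▸ mul_mem (mul_mem (inv_mem hd) h6) hd
  have h7' : (z * (t * d)) ^ 3 ∈ Z := by
    rw [← mul_assoc, (cm d hd _).mul_pow]; exact mul_mem h7 (pow_mem hd _)
  refine (exists_congr fun c => and_congr_right fun _ => Iff.rfl).1 (Exists.imp (fun c h => ⟨h.1, d, hd, h.2⟩)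
    (?_ : ∃ c ∈ Z, z * c * (z * c) = 1 ∧ (t * d) ^ 5 = 1 ∧ x⁻¹ * (t * d) * x * (t * d * (t * d)) = 1 ∧
      (t * d)⁻¹ * y⁻¹ * (t * d) * y = 1 ∧ (z * c * (t * d)) ^ 3 = 1))
  generalize t * d = s at *
  have a3 : s⁻¹ * y⁻¹ * s * y = 1 := by
    generalize hb : s⁻¹ * y⁻¹ * s * y = b at h6'
    have e1 : y⁻¹ * s * y = s * b := by rw [← hb]; group
    have e2 : s⁻¹ * y⁻¹ * s = y⁻¹ * b := by rw [(cm b h6' _).eq, ← hb]; group
    have e3 := congrArg (· ^ 5) e1
    have e4 := congrArg (· ^ 6) e2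
    simp only [(cm b h6' _).mul_pow] at e3 e4
    rw [show (y⁻¹ * s * y) ^ 5 = y⁻¹ * s ^ 5 * y by simpa using conj_pow (a := y⁻¹) (b := s) (i := 5), a1] at e3
    rw [show (s⁻¹ * y⁻¹ * s) ^ 6 = s⁻¹ * y⁻¹ ^ 6 * s by simpa using conj_pow (a := s⁻¹) (b := y⁻¹) (i := 6), inv_pow, h1] at e4
    have e5 : b ^ 6 = 1 := by simpa using e4.symm
    rwa [pow_succ, show b ^ 5 = 1 by simpa using e3.symm, one_mul] at e5
  generalize hζ : z * z = ζ at h3
  generalize hη : (z * s) ^ 3 = η at h7'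
  have e1 : (x * x)⁻¹ * s * (x * x) = s⁻¹ := by
    have e : x⁻¹ * s * x = (s * s)⁻¹ := eq_inv_of_mul_eq_one_left a2
    calc _ = x⁻¹ * (x⁻¹ * s * x) * x := by group
      _ = (x⁻¹ * s * x * (x⁻¹ * s * x))⁻¹ := by conv_lhs => rw [e]
                                                group
      _ = _ := by rw [e, ← mul_one s⁻¹, ← a1]; simp [pow_succ, mul_assoc]
  have e2 : (z * s⁻¹) ^ 3 = η := by
    have : z * s⁻¹ = (x * x)⁻¹ * (z * s) * (x * x)⁻¹⁻¹ := by
      rw [← e1, ← mul_assoc z, ← mul_assoc z, (show Commute z (x * x) from h2).inv_right.eq, inv_inv, mul_assoc _ z]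
    rw [this, conj_pow, hη, (cm η h7' _).eq]; group
  have e3 : ζ ^ 3 = η * η := by
    have : z * s⁻¹ = s * ((z * s)⁻¹ * ζ) * s⁻¹ := by rw [← hζ]; group
    rw [this, conj_pow, (cm ζ h3 _).mul_pow, inv_pow, hη, (cm _ (mul_mem (inv_mem h7') (pow_mem h3 3)) s).eq] at e2
    rw [mul_inv_cancel_right] at e2
    rw [← mul_inv_cancel_left η (ζ ^ 3), e2]
  have hc : η⁻¹ * ζ ∈ Z := mul_mem (inv_mem h7') h3
  refine ⟨_, hc, ?_, a1, a2, a3, ?_⟩
  · rw [← pow_two, (cm _ hc _).mul_pow, pow_two z, hζ, (cm ζ h3 _).mul_pow, ← mul_assoc, ← (cm ζ h3 _).eq, mul_assoc, ← pow_succ', e3]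
    group
  · rw [mul_assoc, ← (cm _ hc s).eq, ← mul_assoc, (cm _ hc _).mul_pow, hη, (cm ζ h3 _).mul_pow, e3]; group

theorem cz {G : Type*} [Group G] {x y z : G} (h2 : x * x * y * (x * x) * y⁻¹ = 1) (h4 : (x⁻¹ * (y * y) * x * (y * y) * y) ^ 3 = 1)
    (h7 : z * z = 1) (h8 : z * x * (z * x) = 1) : z * (x * x) = x * x * z := by
  have a : SemiconjBy y (x * x) (x * x)⁻¹ := by
    rw [SemiconjBy, eq_inv_mul_iff_mul_eq, ← mul_assoc, mul_inv_eq_one.1 h2]
  have b : Commute (y * y) (x * x) := (by simpa using a.inv_right : SemiconjBy y (x * x)⁻¹ (x * x)).mul_left a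
  have c := (Commute.refl x).mul_right (Commute.refl x)
  have d := SemiconjBy.mul_left (((c.inv_left.mul_left b).mul_left c).mul_left b).inv_right a
  have e := d.mul_left ((by simpa using d.inv_right : SemiconjBy _ (x * x)⁻¹ (x * x)).mul_left d)
  rw [← mul_assoc, ← pow_two, ← pow_succ, h4, SemiconjBy, one_mul, mul_one] at e
  have f : SemiconjBy z x x⁻¹ := by
    rw [SemiconjBy, eq_inv_of_mul_eq_one_left h8, mul_inv_rev, inv_eq_of_mul_eq_one_right h7]
  rw [(f.mul_right f).eq, ← mul_inv_rev, ← e]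

abbrev g : ℕ → HN := pg HN.edges HN.extra gen

theorem par : ∀ a b c : Multiplicative (ZMod 2), (∀ r ∈ rels.take 10, ev (fun i => [a, b, c].getD i 1) r = 1) →
    a = 1 ∧ b = 1 := by decide +kernel

theorem hK : ∃ K : Subgroup HN, commutator K = ⊤ ∧ HasCyclicSchurMultiplier K 1 ∧ g 0 ∈ K ∧ g 1 ∈ K ∧ g 2 ∉ K ∧
    ∀ k ∈ K, g 2 * k * (g 2)⁻¹ ∈ K := by
  haveI : Finite HN := Nat.finite_of_card_ne_zero (S1701.result.2.trans_ne (by decide))
  have h := S1708.result
  rw [map_closure_eq (gen := gen) [[0], [2], [4]] (l := [HN.x, HN.y, HN.z]) (by decide +kernel) (fun x => by simp)] at h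
  obtain ⟨K, hn, h2, h3⟩ := h
  have e := (equivMapOfInjective _ _ Co0.subtype_injective).trans (MulEquiv.subgroupCongr CA.Leech.HS_eq)
  haveI := CA.Leech.simple_HS
  haveI := e.symm.isSimpleGroup
  have h4 : commutator HS = ⊤ := (IsSimpleGroup.eq_bot_or_eq_top_of_normal _ inferInstance).resolve_left fun h => by
    haveI := (commutator_eq_bot_iff _).1 h
    letI : CommGroup HS := { mul_comm := mul_comm' }
    have := IsSimpleGroup.prime_card (α := HS)
    rw [← Nat.card_congr e.toEquiv, CA.Leech.card_HS] at this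
    exact absurd this (by norm_num)
  have h5 := perf h4 h3
  obtain ⟨f⟩ := h3.2.1
  have h6 := stem_equiv_comp (stem_mk_center h5) f
  have h7 := card_mult_cover h6.1 h5 S2046.result (has_can K)
  rw [h6.2, QuotientGroup.ker_mk', h3.1, show Nat.card (Multiplicative (ZMod 2)) = 2 from Nat.card_zmod 2] at h7
  have h8 : HasCyclicSchurMultiplier K 1 := has_one fun Γ _ _ τ hτ => by
    obtain ⟨p, hp⟩ := surj_stem (has_can K) hτ
    exact card_eq_one.1 (Nat.dvd_one.1 ((card_dvd_of_surjective p hp).trans (dvd_of_eq (by omega))))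
  have m : ∀ i < 3, g i ∈ grp g [[0], [2], [4]] := fun i hi =>
    ev_gen g i ▸ mem_grp g (by interval_cases i <;> simp)
  have f' := mulEquivOfPrimeCardEq (p := 2) (G := _ ⧸ K) h2 (show Nat.card (Multiplicative (ZMod 2)) = 2 from Nat.card_zmod 2)
  let γ : ℕ → grp g [[0], [2], [4]] := fun i => if h : i < 3 then ⟨g i, m i h⟩ else 1
  let φ := f'.toMonoidHom.comp (QuotientGroup.mk' K)
  have hφ : ∀ a, φ a = 1 → a ∈ K := fun a h => (QuotientGroup.eq_one_iff a).1 (f'.injective (h.trans f'.map_one.symm))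
  obtain ⟨a, b⟩ := par (φ (γ 0)) (φ (γ 1)) (φ (γ 2)) fun r hr => by
    have hw := (by decide : ∀ r ∈ rels.take 10, ∀ a ∈ r, a < 2 * 3) r hr
    rw [ev_congr (g' := fun i => φ (γ i)) (fun i hi => by interval_cases i <;> rfl) hw, ← map_ev,
      show ev γ r = 1 from Subtype.ext ((map_ev (Subgroup.subtype _) γ r).trans ((ev_congr (g' := g)
        (fun i hi => by interval_cases i <;> rfl) hw).trans (enc.hold r (List.mem_of_mem_take hr)))), map_one]
  have e' := K.equivMapOfInjective _ (Subgroup.subtype_injective _)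
  refine ⟨K.map (Subgroup.subtype _), ?_, congr_left h8 e', mem_map_of_mem _ (hφ _ a), mem_map_of_mem _ (hφ _ b),
    fun h => ?_, fun _ ⟨k, h, e⟩ => e ▸ mem_map_of_mem (Subgroup.subtype _) (hn.conj_mem k h (γ 2))⟩
  · have := _root_.map_commutator_eq _ e'.toMonoidHom
    rwa [h5, MonoidHom.range_eq_top.2 e'.surjective, map_top_of_surjective _ e'.surjective, eq_comm] at this
  · have : grp g [[0], [2], [4]] ≤ K.map (Subgroup.subtype _) := (grp_le_iff g).2 (List.forall_mem_cons.2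
      ⟨ev_gen g 0 ▸ mem_map_of_mem _ (hφ _ a), List.forall_mem_cons.2 ⟨ev_gen g 1 ▸ mem_map_of_mem _ (hφ _ b),
        List.forall_mem_singleton.2 (ev_gen g 2 ▸ h)⟩⟩)
    rw [← subgroupOf_eq_top, subgroupOf, comap_map_eq_self_of_injective (Subgroup.subtype_injective _)] at this
    rw [this, index_top] at h2; omega

/-- The Schur multiplier of the Harada–Norton group (the finitely presented group of the definitions) is trivial; here the Schur multiplier is described through stem extensions, as in the definitions: surjective homomorphisms onto the group from a finite group, whose kernel is central in that finite group and contained in that finite group's commutator subgroup. -/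
theorem result : Cfsg.HasCyclicSchurMultiplier Cfsg.Spor.HN 1 := by
  haveI : Finite HN := Nat.finite_of_card_ne_zero (S1701.result.2.trans_ne (by decide))
  refine has_one fun Γ _ _ σ ⟨hs, hc, hd⟩ => ?_
  obtain ⟨K, k1, k2, k3, k4, k5, k6⟩ := hK
  obtain ⟨D, d1, rfl, d3⟩ := lift hs hc k1 k2
  obtain ⟨x, hx, ex⟩ := k3
  obtain ⟨y, hy, ey⟩ := k4
  obtain ⟨z, ez⟩ := hs (g 2)
  obtain ⟨t, et⟩ := hs (g 3)
  have R : ∀ z t, σ z = g 2 → σ t = g 3 → ∀ r ∈ rels, σ (ev (fun i => [x, y, z, t].getD i 1) r) = 1 := fun z t ez et r hr => by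
    rw [map_ev, ev_congr (g' := g) (k := 4) (fun i hi => by interval_cases i; exacts [ex, ey, ez, et])
      ((by decide : ∀ r ∈ rels, ∀ a ∈ r, a < 2 * 4) r hr), enc.hold r hr]
  have R' := R z t ez et
  simp only [rels, List.forall_mem_cons] at R'
  obtain ⟨r1, r2, -, r4, -, -, r7, r8, -, -, r11, r12, r13, r14, -⟩ := R'
  simp [lv] at r1 r2 r4 r7 r8 r11 r12 r13 r14
  have hz := cz (by simpa [mul_assoc] using r2) (by simpa [pow_succ, mul_assoc] using r4) r7 (by simpa [mul_assoc] using r8)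
  obtain ⟨c, hc', d, hd', a1, a2, a3, a4, a5⟩ := fix hc (x := x) (y := y) (z := z) (t := t)
    (d1 _ (pow_mem hy 6) (by simpa [pow_succ, mul_assoc] using r1))
    (mul_inv_eq_one.1 ((by group : _ = z * (x * x) * z⁻¹ * (x * x)⁻¹).trans (d1 _ (mul_mem (d3 z (ez ▸ k6) _ (mul_mem hx hx))
      (inv_mem (mul_mem hx hx))) (by simp [hz])))) (by simpa using r7) (by simpa [pow_succ, mul_assoc] using r11)
    (by simpa [mul_assoc] using r12) (by simpa [mul_assoc] using r13) (by simpa [pow_succ, mul_assoc] using r14)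
  have ez' : σ (z * c) = g 2 := by rw [map_mul, hc', mul_one, ez]
  have et' : σ (t * d) = g 3 := by rw [map_mul, hd', mul_one, et]
  generalize z * c = u at *
  generalize t * d = v at *
  have n := d3 u (ez' ▸ k6)
  have iu : u⁻¹ = u := inv_eq_of_mul_eq_one_right a1
  let E : Subgroup Γ := {
    carrier := {a | a ∈ D ∨ u * a ∈ D}
    one_mem' := Or.inl D.one_mem
    mul_mem' := fun {a b} ha hb => by
      rcases ha with ha | ha <;> rcases hb with hb | hb
      · exact Or.inl (mul_mem ha hb)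
      · exact Or.inr (by simpa [mul_assoc] using mul_mem (n a ha) hb)
      · exact Or.inr (mul_assoc u a b ▸ mul_mem ha hb)
      · exact Or.inl (by simpa [← mul_assoc, a1] using mul_mem (n _ ha) hb)
    inv_mem' := fun {a} ha => ha.imp inv_mem fun h => by simpa [mul_assoc, iu, a1] using n _ (inv_mem h) }
  obtain ⟨s, hs'⟩ := enc.hom Γ (fun i => [x, y, u, v].getD i 1) fun r hr => by
    rcases List.mem_append.1 ((List.take_append_drop 10 rels).symm ▸ hr) with h | h
    · have hE : ev (fun i => [x, y, u, v].getD i 1) r ∈ E := by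
        rw [ev_congr (g' := fun i => [x, y, u].getD i 1) (k := 3) (fun i hi => by interval_cases i <;> rfl)
          ((by decide : ∀ r ∈ rels.take 10, ∀ a ∈ r, a < 2 * 3) r h)]
        refine ev_mem (fun i => ?_) r
        rcases i with _ | _ | _ | i
        exacts [Or.inl hx, Or.inl hy, Or.inr (a1 ▸ D.one_mem), E.one_mem]
      refine d1 _ (hE.resolve_right fun h => k5 ⟨_, h, ?_⟩) (R u v ez' et' r hr)
      rw [map_mul, R u v ez' et' r hr, mul_one, ez']
    · simp only [rels, List.drop_succ_cons, List.drop_zero, List.mem_cons, List.not_mem_nil, or_false] at h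
      rcases h with rfl | rfl | rfl | rfl
      · simpa [lv, pow_succ, mul_assoc] using a2
      · simpa [lv, mul_assoc] using a3
      · simpa [lv, mul_assoc] using a4
      · simpa [lv, pow_succ, mul_assoc] using a5
  have hσ : ∀ a, σ (s a) = a := fun a => by
    have : grp g gens ≤ (σ.comp s).eqLocus (MonoidHom.id _) := (grp_le_iff g).2 fun w hw => by
      obtain ⟨i, hi, rfl⟩ := (by decide : ∀ w ∈ gens, ∃ i < 4, w = [2 * i]) w hw
      show σ (s _) = ev g _
      rw [ev_gen, hs' i hi]; interval_cases i; exacts [ex, ey, ez', et']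
    exact this (enc.top gens (by decide) ▸ mem_top a)
  refine eq_bot_iff.2 fun a ha => ?_
  have : commutator Γ ≤ s.range := commutator_le.2 fun a _ b _ => by
    rw [← mul_inv_cancel_left (s (σ a)) a, ← mul_inv_cancel_left (s (σ b)) b,
      comm_cen (hc (by simp [hσ])) (hc (by simp [hσ])), ← map_commutatorElement]
    exact ⟨_, rfl⟩
  obtain ⟨b, rfl⟩ := this (hd ha)
  rw [mem_bot, ← hσ b, show σ (s b) = 1 from ha, map_one]

end Cfsg.Agent.S2056
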