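import Cfsg.Statements.S2111
import Cfsg.Agent.Lib.Lie.SzClass
import Cfsg.Agent.Lib.Lie.SzModel
import Cfsg.Agent.Lib.Grp.SchurFilt

set_option autoImplicit false
open Cfsg

namespace Cfsg.Agent.S2111

open CA.SzBasic CA.SzGroup CA.SzClass CA.SchurFilt CA.SchurExt Subgroup
open scoped commutatorElement IsMulCommutative

variable {F : Type*} [Field F] [Fintype F] {m : ℕ} [hy : Hyp F m]

/-- the central series of `U` -/
def V (F : Type*) [Field F] [Fintype F] {m : ℕ} [Hyp F m] : ℕ → Subgroup (G F)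
  | 0 => U F
  | 1 => Z F
  | _ => ⊥

theorem V_anti : Antitone (V F) := antitone_nat_of_succ_le fun n => by
  rcases n with _ | _ | n
  exacts [Z_le_U, bot_le, le_rfl]

theorem T_mem_Z' {a b : F} : T a b ∈ Z F ↔ a = 0 :=
  ⟨fun ⟨_, e⟩ => (T_inj.1 e).1, fun h => h ▸ T_mem_Z b⟩

include hy in
theorem scal {A : Type*} [CommGroup A] (f : F → F → A) (h1 : ∀ a b c, f (a + b) c = f a c * f b c)
    (h2 : ∀ a b c, f a (b + c) = f a b * f a c) (h : ∀ v, v ≠ 0 → ∀ a b, f (v * a) (v * b) = f a b) (a b : F) :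
    f a b = 1 := by
  obtain ⟨v, hv⟩ := CA.SchurCov.exists_not_root (F := F) (.X * (1 - .X) * (.X ^ 2 - .X + 1))
    (fun e => by
      have := congrArg (Polynomial.coeff · 1) e
      simp [mul_assoc, Polynomial.coeff_X_mul, Polynomial.mul_coeff_zero] at this)
    (lt_of_le_of_lt (by compute_degree) (lt_of_lt_of_le (by norm_num : 4 < 8) eight_le_card))
  simp only [Polynomial.eval_mul, Polynomial.eval_X, Polynomial.eval_sub, Polynomial.eval_one, Polynomial.eval_add,
    Polynomial.eval_pow, mul_ne_zero_iff] at hv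
  exact CA.SchurCov.biadd_eq_one f h1 h2 hv.1.1 hv.1.2 hv.2 (h _ hv.1.1) (h _ hv.1.2) a b

theorem mixed (hm : 2 ≤ m) {A : Type*} [CommGroup A] (f : F → F → A) (h1 : ∀ a b c, f (a + b) c = f a c * f b c)
    (h2 : ∀ a b c, f a (b + c) = f a b * f a c) (h : ∀ v, v ≠ 0 → ∀ a b, f (v * a) (v * th F v * b) = f a b) (a b : F) :
    f a b = 1 := by
  have k : ∀ x : F, x ≠ 0 → ∀ b, f x b = f 1 ((x * th F x)⁻¹ * b) := fun x hx b => by
    rw [← h x hx 1, mul_one, mul_inv_cancel_left₀ (by simp [hx])]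
  obtain ⟨x, hx⟩ := CA.SchurCov.exists_not_root (F := F) (.X ^ 8 - .X)
    (fun e => by
      have := congrArg (Polynomial.coeff · 1) e
      simp [Polynomial.coeff_X_pow] at this)
    (lt_of_le_of_lt (b := 8) (by compute_degree) (by
      rw [hy.hF]; exact lt_of_lt_of_le (by norm_num) (Nat.pow_le_pow_right two_pos (by omega : 5 ≤ 2 * m + 1))))
  simp only [Polynomial.eval_sub, Polynomial.eval_pow, Polynomial.eval_X] at hx
  have t2 : (2 : F) = 0 := by rw [← one_add_one_eq_two]; exact add_self 1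
  have x0 : x ≠ 0 := by rintro rfl; simp at hx
  have x1 : x + 1 ≠ 0 := fun e => hx (by
    linear_combination x * (x ^ 6 - x ^ 5 + x ^ 4 - x ^ 3 + x ^ 2 - x + 1) * e - x * t2)
  have hc : ((x + 1) * th F (x + 1))⁻¹ ≠ (x * th F x)⁻¹ + 1 := fun e => by
    have e0 := mul_inv_cancel₀ (mul_ne_zero x0 ((map_ne_zero (th F)).2 x0))
    have e1 := mul_inv_cancel₀ (mul_ne_zero x1 ((map_ne_zero (th F)).2 x1))
    rw [e, map_add, map_one] at e1
    have p1 : x ^ 2 * th F x ^ 2 + x ^ 2 * th F x + x * th F x ^ 2 + x * th F x + x + th F x + 1 = 0 := by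
      linear_combination (x * th F x) * e1 - (x + 1) * (th F x + 1) * e0 + (0 : F) * t2
    have p2 := congrArg (th F) p1
    simp only [map_add, map_mul, map_pow, th_th, map_one, map_zero] at p2
    generalize th F x = s at p1 p2
    have p3 : (x ^ 2 + x + 1) * s = (x + 1) ^ 3 := by
      linear_combination (x ^ 2 + x) * p1 + p2 - (x ^ 4 * s ^ 2 + x ^ 3 * s ^ 2 + x ^ 2 * s ^ 2 + x ^ 4 * s + x ^ 3 * s +
        x ^ 2 * s + x ^ 3 + 3 * x ^ 2 + 2 * x + 1) * t2
    have p4 : s ^ 2 = x := by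
      refine mul_left_cancel₀ (mul_ne_zero x0 x1) ?_
      linear_combination p1 - p3 - (x ^ 3 + 2 * x ^ 2 + 2 * x + 1) * t2
    refine hx ?_
    linear_combination x * (x + 1) * ((x ^ 2 + x + 1) * s + (x + 1) ^ 3) * p3 - x * (x + 1) * (x ^ 2 + x + 1) ^ 2 * p4 +
      (x ^ 8 + 3 * x ^ 7 + 9 * x ^ 6 + 15 * x ^ 5 + 15 * x ^ 4 + 9 * x ^ 3 + 3 * x ^ 2) * t2
  have k2 : ∀ b, f 1 b = 1 := fun b => by
    obtain ⟨c, rfl⟩ : ∃ c, b = (((x + 1) * th F (x + 1))⁻¹ - ((x * th F x)⁻¹ + 1)) * c :=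
      ⟨_, (mul_inv_cancel_left₀ (sub_ne_zero.2 hc) b).symm⟩
    have := h1 x 1 c
    rw [k _ x1, k _ x0, ← h2] at this
    rw [← mul_left_inj (f 1 ((x * th F x)⁻¹ * c + c)), ← h2, one_mul, ← this]
    congr 1; ring
  rcases eq_or_ne a 0 with rfl | ha
  exacts [by simpa using h1 0 0 b, by rw [k a ha, k2]]

theorem schur (hm : 2 ≤ m) : HasCyclicSchurMultiplier (G F) 1 := by
  refine has_one_of_primes fun p hp E _ _ τ hτ hk => ?_
  have := Fact.mk hp
  by_cases h2 : p = 2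
  swap
  · obtain ⟨S⟩ : Nonempty (Sylow p (G F)) := inferInstance
    have := isCyclic_odd hp h2 S.2
    exact ker_eq_bot_of_cyclic hτ hk (hp.coprime_iff_not_dvd.2 S.not_dvd_index)
  subst h2
  obtain ⟨μ, hμ⟩ := exists_unit_ne_one (F := F)
  have m1 : th F μ + 1 ≠ 0 := fun e => hμ (Units.ext (eq_one_of_th_eq_one (by linear_combination e - add_self (1 : F))))
  have m2 : th F μ * μ ^ 2 + 1 ≠ 0 := fun e =>
    hμ (Units.ext (eq_one_of_sq_mul_th (by linear_combination e - add_self (1 : F))))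
  have w0 : ∀ v : F, v ≠ 0 → ∃ ν : Fˣ, th F ν = v := fun v hv => by simpa using exists_scale' one_ne_zero hv
  have w1 : ∀ v : F, v ≠ 0 → ∃ ν : Fˣ, th F ν * ν ^ 2 = v := fun v hv => by simpa using exists_scale one_ne_zero hv
  have r0 : ∀ a b : F, (T a 0)⁻¹ * T a b ∈ Z F := fun a b => by simp [T_inv, T_mul, T_mem_Z', add_self]
  have r1 : ∀ a b : F, (T a 0 * T b 0)⁻¹ * T (a + b) 0 ∈ Z F := fun a b => by simp [T_inv, T_mul, T_mem_Z', add_self]
  have z1 : ∀ a b : F, T (0 : F) (a + b) = T 0 a * T 0 b := fun a b => by simp [T_mul]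
  obtain ⟨M, hM, -⟩ := filt hτ.2.1 hτ.1 (H F) (fun g h ⟨a, ha⟩ ⟨b, hb⟩ => hτ.2.1 (by
      rw [MonoidHom.mem_ker, map_commutatorElement, ← ha, ← hb, commutatorElement_eq_one_iff_mul_comm, ← map_mul,
        ← map_mul, mul_comm])) (V F) V_anti 2 rfl
    (by
      rintro (_ | _ | k) _ ⟨a, b, rfl⟩ v hv
      · obtain ⟨c, d, rfl⟩ := hv
        rw [commutatorElement_def, T_commutator]; exact T_mem_Z _
      · obtain ⟨d, rfl⟩ := hv
        exact commutatorElement_eq_one_iff_mul_comm.2 ((T_comm ..).2 (by simp))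
      · obtain rfl : v = 1 := hv
        exact commutatorElement_one_right _)
    (by
      rintro (_ | _ | k) _ ⟨ν, rfl⟩ v hv
      · obtain ⟨c, d, rfl⟩ := hv
        exact D_conj_T ν c d ▸ T_mem_U _ _
      · obtain ⟨d, rfl⟩ := hv
        exact D_conj_T ν 0 d ▸ T_mem_Z'.2 (mul_zero _)
      · obtain rfl : v = 1 := hv
        exact (by simp : Dh F ν * 1 * (Dh F ν)⁻¹ = 1)) (fun _ => ⊥)
    (fun k hk => .inr ⟨rfl, D μ, D_mem_H μ, by
      interval_cases k
      · rintro _ ⟨a, b, rfl⟩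
        refine ⟨T (a / (th F μ + 1)) 0, T_mem_U _ _, ?_⟩
        rw [commutatorElement_def, D_conj_T, T_inv, T_mul, T_inv, T_mul]
        refine T_mem_Z'.2 ?_
        field_simp
        linear_combination add_self a - add_self (a * th F μ) + add_self (a * th F μ + a) - add_self a
      · rintro _ ⟨b, rfl⟩
        refine ⟨T 0 (b / (th F μ * μ ^ 2 + 1)), T_mem_Z _, ?_⟩
        rw [commutatorElement_def, D_conj_T, T_inv, T_mul, T_inv, T_mul]
        refine T_eq_one.2 ⟨by simp, ?_⟩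
        simp only [mul_zero, add_zero, map_zero, zero_mul]
        field_simp
        linear_combination add_self (b * th F μ * μ ^ 2 + b) - add_self (b * th F μ * μ ^ 2), by
      interval_cases k
      · rintro _ ⟨a, b, rfl⟩ h
        rw [commutatorElement_def, D_conj_T, T_inv, T_mul] at h
        exact T_mem_Z'.2 ((mul_eq_zero.1 (by linear_combination T_mem_Z'.1 h)).resolve_left m1)
      · rintro _ ⟨b, rfl⟩ h
        rw [commutatorElement_def, D_conj_T, T_inv, T_mul] at h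
        have := (T_eq_one.1 h).2
        simp only [mul_zero, add_zero, map_zero, zero_mul] at this
        exact T_eq_one.2 ⟨rfl, (mul_eq_zero.1 (by linear_combination this)).resolve_left m2⟩⟩)
    (fun k hk j hj β hb => by
      interval_cases k <;> interval_cases j
      · rintro _ ⟨a, a', rfl⟩ _ ⟨b, b', rfl⟩
        have r := fun {a u b v} => hb.red (a := a) (u := u) (b := b) (v := v) Z_le_U Z_le_U
        rw [r (T_mem_U a 0) (T_mem_U b 0) (r0 _ _) (r0 _ _)]
        refine scal (fun a b => β (T a 0) (T b 0)) (fun a b c => ?_) (fun a b c => ?_) (fun v hv a b => ?_) a b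
        · rw [← hb.mul_l _ (T_mem_U _ _) _ (T_mem_U _ _) _ (T_mem_U _ _)]
          exact r (mul_mem (T_mem_U _ _) (T_mem_U _ _)) (T_mem_U _ _) (r1 _ _) (r0 _ _)
        · rw [← hb.mul_r _ (T_mem_U _ _) _ (T_mem_U _ _) _ (T_mem_U _ _)]
          exact r (T_mem_U _ _) (mul_mem (T_mem_U _ _) (T_mem_U _ _)) (r0 _ _) (r1 _ _)
        · obtain ⟨ν, rfl⟩ := w0 v hv
          simpa [D_conj_T] using hb.inv _ (D_mem_H ν) _ (T_mem_U a 0) _ (T_mem_U b 0)
      · rintro _ ⟨a, a', rfl⟩ _ ⟨b, rfl⟩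
        have r := fun {a u b v} => hb.red (a := a) (u := u) (b := b) (v := v) Z_le_U bot_le
        rw [r (T_mem_U a 0) (T_mem_Z b) (r0 _ _) (inv_mul_cancel _)]
        refine mixed hm (fun a b => β (T a 0) (T 0 b)) (fun a b c => ?_) (fun a b c => ?_) (fun v hv a b => ?_) a b
        · rw [← hb.mul_l _ (T_mem_U _ _) _ (T_mem_U _ _) _ (T_mem_Z _)]
          exact r (mul_mem (T_mem_U _ _) (T_mem_U _ _)) (T_mem_Z _) (r1 _ _) (inv_mul_cancel _)
        · rw [← hb.mul_r _ (T_mem_U _ _) _ (T_mem_Z _) _ (T_mem_Z _), z1]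
        · obtain ⟨ν, rfl⟩ := w0 v hv
          simpa [D_conj_T] using hb.inv _ (D_mem_H ν) _ (T_mem_U a 0) _ (T_mem_Z b)
      · rintro _ ⟨a, rfl⟩ _ ⟨b, rfl⟩
        refine scal (fun a b => β (T 0 a) (T 0 b)) (fun a b c => ?_) (fun a b c => ?_) (fun v hv a b => ?_) a b
        · rw [← hb.mul_l _ (T_mem_Z _) _ (T_mem_Z _) _ (T_mem_Z _), z1]
        · rw [← hb.mul_r _ (T_mem_Z _) _ (T_mem_Z _) _ (T_mem_Z _), z1]
        · obtain ⟨ν, rfl⟩ := w1 v hv
          simpa [D_conj_T] using hb.inv _ (D_mem_H ν) _ (T_mem_Z a) _ (T_mem_Z b))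
  have : ⁅(U F).comap τ, (U F).comap τ⁆ ≤ M := commutator_le.2 fun a ha b hb => hM.comm_mem hτ.2.1 (hM.nW a ha) hb
  exact eq_bot_iff.2 fun z hz => hM.inj z (this (ker_le_comm hτ hk (hp.coprime_iff_not_dvd.2 odd_index_U) hz)) hz

/-- Schur multipliers of the Suzuki groups: for q = 2^(2m+1) with m ≥ 2 the Schur multiplier of Sz(q) is trivial (here the Schur multiplier is described through stem extensions, as in the definitions); q = 8 is exceptional. -/
theorem result {F : Type*} [Field F] [Fintype F] {m : ℕ} (hm : 2 ≤ m) (hF : Fintype.card F = 2 ^ (2 * m + 1)) : Cfsg.HasCyclicSchurMultiplier ↥(Cfsg.Lie.Sz F (2 ^ (m + 1))) 1 := by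
  haveI : Hyp F m := ⟨by omega, hF⟩
  exact CA.SchurHopf.congr_left (schur hm) (CA.SzModel.szEquiv F)

end Cfsg.Agent.S2111
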