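import Cfsg.Statements.S2133
import Cfsg.Agent.Lib.Spor.M24Iso
import Cfsg.Agent.Lib.Spor.CGLin2

set_option autoImplicit false
open Cfsg

namespace Cfsg.Agent.S2133

open Cfsg CA.NatBits CA.OrbBfs CA.CGroup CA.CGConstr CA.CGParts CA.CGCert CA.CGRank CA.CGDec CA.Perm24 CA.Golay
open CA.M24Core CA.M24Sub CA.M24Tools MulAction
open scoped Pointwise
open CA.M24St2 CA.M24Syl CA.M24Cls CA.CGIso CA.CGLin CA.CGLin2 CA.M24Iso
set_option maxRecDepth 100000

open Matrix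

/-- basis vectors -/
abbrev bv (i : Fin 5) : Fin 5 → ZMod 2 := Pi.single i 1

/-- labels -/
noncomputable def cx (v : Fin 5 → ZMod 2) : ℕ :=
  nth 0 [4, 16, 19, 7, 10, 15, 8, 12, 22, 13, 21, 6, 9, 20, 18, 11] ((v 0).val + 2 * (v 2).val + 4 * (v 3).val + 8 * (v 4).val)

variable {s : SpecialLinearGroup (Fin 5) (ZMod 2)} (hs : (s : Matrix (Fin 5) (Fin 5) (ZMod 2)) = transvection 0 1 1)
include hs

theorem prop {γ : SpecialLinearGroup (Fin 5) (ZMod 2)} (h : γ ∈ Subgroup.centralizer {s}) :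
    γ • bv 0 = bv 0 ∧ ∀ v : Fin 5 → ZMod 2, (γ • v) 1 = v 1 := by
  have h1 : ∀ v : Fin 5 → ZMod 2, s • v = v + v 1 • bv 0 := fun v => by
    show s.1 *ᵥ v = _
    rw [hs]
    exact (by decide +kernel : ∀ v : Fin 5 → ZMod 2, transvection 0 1 1 *ᵥ v = v + v 1 • bv 0) v
  have h2 : ∀ v : Fin 5 → ZMod 2, v 1 • γ • bv 0 = (γ • v) 1 • bv 0 := fun v => by
    have h3 := congrArg (· • v) (Subgroup.mem_centralizer_singleton_iff.1 h)
    simp only [mul_smul, h1, smul_add, smul_comm γ (v 1)] at h3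
    exact add_left_cancel h3
  have h3 : γ • bv 0 = bv 0 := by
    have h4 := h2 (bv 1)
    rw [show bv 1 1 = 1 from rfl, one_smul] at h4
    rcases zmod2_cases ((γ • bv 1) 1) with h5 | h5 <;> rw [h5] at h4
    · rw [zero_smul, smul_eq_zero_iff_eq] at h4
      exact absurd h4 (by decide)
    · rw [h4, one_smul]
  refine ⟨h3, fun v => ?_⟩
  have h4 := congrFun (h2 v) 0
  rw [h3] at h4
  simpa using h4.symm

theorem step {K : Subgroup (SpecialLinearGroup (Fin 5) (ZMod 2))} (hK : K ≤ Subgroup.centralizer {s})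
    (x : Fin 5 → ZMod 2) (W : List (Fin 5 → ZMod 2)) (hW : ∀ g ∈ K, ∀ w ∈ W, g • w = w) (n : ℕ)
    (h : x ∉ W ∧ (Finset.univ.filter fun v : Fin 5 → ZMod 2 => v 1 = x 1 ∧ v ∉ W).card = n) :
    Nat.card K ≤ n * Nat.card ↥(K ⊓ stabilizer _ x) := by
  rw [← h.2, ← Set.ncard_coe_finset]
  refine card_le_orbit_mul K x (Set.toFinite _) fun g hg => ?_
  rw [Finset.mem_coe, Finset.mem_filter]
  exact ⟨Finset.mem_univ _, (prop hs (hK hg)).2 x, fun hx => h.1 (by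
    rw [← (smul_left_cancel_iff g).1 (hW g hg _ hx)]; exact hx)⟩

theorem card_le : Nat.card (Subgroup.centralizer ({s} : Set (SpecialLinearGroup (Fin 5) (ZMod 2)))) ≤ 21504 := by
  have h1 := step hs le_rfl (bv 1) [] (by simp) 16 (by decide +kernel)
  have h2 := step hs (K := _ ⊓ stabilizer _ (bv 1)) inf_le_left (bv 2) [0, bv 0]
    (fun g hg => by simp [(prop hs hg.1).1]) 14 (by decide +kernel)
  have h3 := step hs (K := _ ⊓ stabilizer _ (bv 1) ⊓ stabilizer _ (bv 2)) (inf_le_left.trans inf_le_left) (bv 3)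
    [0, bv 0, bv 2, bv 0 + bv 2]
    (fun g hg => by simp [(prop hs hg.1.1).1, show g • bv 2 = bv 2 from hg.2]) 12 (by decide +kernel)
  have h4 := step hs (K := _ ⊓ stabilizer _ (bv 1) ⊓ stabilizer _ (bv 2) ⊓ stabilizer _ (bv 3))
    (inf_le_left.trans (inf_le_left.trans inf_le_left)) (bv 4)
    [0, bv 0, bv 2, bv 0 + bv 2, bv 3, bv 0 + bv 3, bv 2 + bv 3, bv 0 + bv 2 + bv 3]
    (fun g hg => by simp [(prop hs hg.1.1.1).1, show g • bv 2 = bv 2 from hg.1.2, show g • bv 3 = bv 3 from hg.2]) 8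
    (by decide +kernel)
  have h5 : Nat.card ↥(Subgroup.centralizer {s} ⊓ stabilizer _ (bv 1) ⊓ stabilizer _ (bv 2) ⊓ stabilizer _ (bv 3) ⊓
      stabilizer (SpecialLinearGroup (Fin 5) (ZMod 2)) (bv 4)) ≤ 1 := by
    refine (Subgroup.card_le_one_iff_eq_bot _).2 (eq_bot_iff.2 fun g hg => Subtype.ext ?_)
    have h6 : ∀ j, g.1 *ᵥ bv j = bv j := fun j => by
      fin_cases j
      exacts [(prop hs hg.1.1.1.1).1, hg.1.1.1.2, hg.1.1.2, hg.1.2, hg.2]
    ext i j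
    have h7 := congrFun (h6 j) i
    rw [mulVec_single_one] at h7
    exact h7.trans (by simp [Pi.single_apply, one_apply])
  omega

theorem iso : Nonempty (Subgroup.centralizer ({elt c2A} : Set M24) ≃*
    Subgroup.centralizer ({s} : Set (SpecialLinearGroup (Fin 5) (ZMod 2)))) := by
  have hP : ∀ (γ : Subgroup.centralizer ({s} : Set (SpecialLinearGroup (Fin 5) (ZMod 2)))) (v : Fin 5 → ZMod 2),
      v 1 = 1 → (γ • v) 1 = 1 := fun γ v hv => ((prop hs γ.2).2 v).trans hv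
  have hi : ∀ u v : Fin 5 → ZMod 2, u 1 = 1 → v 1 = 1 → gpt (cx u) = gpt (cx v) → u = v := by decide +kernel
  have h0 := lab_of_gens (A := mPt) (x := fun v => gpt (cx v)) hP (cx := cx)
    (fun v _ => sPt' ((by decide +kernel : ∀ v, cx v < 24) v)) (l := gC2Ax) fun c hc => by
      obtain ⟨m, ⟨h1, h2⟩, h3⟩ := exists_of_forall₂
        (R := fun c (m : Matrix (Fin 5) (Fin 5) (ZMod 2) × Matrix (Fin 5) (Fin 5) (ZMod 2)) =>
        (m.1 * m.2 = 1 ∧ m.1 * transvection 0 1 1 = transvection 0 1 1 * m.1) ∧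
          ∀ v : Fin 5 → ZMod 2, v 1 = 1 → ap8 c (cx v) = cx (m.1 *ᵥ v)) (m := [(!![1, 0, 0, 1, 0; 0, 1, 0, 0, 0; 0, 1, 1, 1, 0; 0, 0, 0, 0, 1; 0, 1, 0, 1, 0], !![1, 1, 0, 0, 1; 0, 1, 0, 0, 0; 0, 0, 1, 0, 1; 0, 1, 0, 0, 1; 0, 0, 0, 1, 0]), (!![1, 0, 0, 0, 0; 0, 1, 0, 0, 0; 0, 0, 0, 1, 0; 0, 1, 1, 1, 1; 0, 0, 1, 1, 0], !![1, 0, 0, 0, 0; 0, 1, 0, 0, 0; 0, 0, 1, 0, 1; 0, 0, 1, 0, 0; 0, 1, 0, 1, 1])])
        (by decide +kernel) c hc
      have h4 : m.1.det = 1 := (zmod2_cases _).resolve_left fun e => by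
        have := congrArg det h1
        rw [det_mul, e, zero_mul, det_one] at this
        exact zero_ne_one this
      exact ⟨⟨⟨m.1, h4⟩, Subgroup.mem_centralizer_singleton_iff.2 (Subtype.ext (by
        show m.1 * s.1 = s.1 * m.1
        rw [hs, h2]))⟩, h3⟩
  rw [stC2A.gen] at h0
  obtain ⟨φ, -, h2⟩ := hom_of_lab hP (MonoidHom.id _)
    (fun γ => ⟨fun h v _ => by rw [show γ = 1 from h, one_smul], fun h =>
      Subtype.ext (Subtype.ext (Matrix.ext_iff_mulVec.2 fun v => by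
        have h1 : ∀ v : Fin 5 → ZMod 2, v 1 = 1 → γ • v = v := fun v hv => hi _ _ (hP γ v hv) hv (h v hv)
        refine Eq.trans (b := v) (show γ • v = v from ?_) (one_mulVec v).symm
        rcases zmod2_cases (v 1) with h2 | h2
        · rw [← add_sub_cancel_right v (bv 1), smul_sub, h1 (bv 1) rfl, h1 _ (by simp [h2])]
        · exact h1 v h2))⟩) h0
  have h3 := le_card_range (A := mPt) φ (L := [(4, [[0, 2, 0, 2], [0, 2, 2, 0, 2, 2, 1, 2]]), (19, [[1, 1, 3, 3, 0, 3, 3, 0], [2, 0, 0, 2]]), (10, [[1, 2, 0, 0, 2], [3, 1, 2, 1, 3, 0, 2, 2], [1, 3, 0, 3, 0, 2]]), (22, [])])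
    (fun c hc => by
      obtain ⟨h3, v, h4, rfl⟩ := (by decide +kernel : ∀ c ∈ [4, 19, 10, 22], c < 24 ∧
        ∃ v : Fin 5 → ZMod 2, v 1 = 1 ∧ cx v = c) c hc
      exact ⟨_, sPt' h3, fun g hg => (h2 g).1 hg v h4⟩) stC2A.inn (N := 21504) (by decide +kernel)
  exact iso_of_surj φ (surj_of_card φ ((card_le hs).trans h3))
    (stC2A.card.trans (le_antisymm (h3.trans (Subgroup.card_le_card_group _)) (card_le hs)))

omit hs in

/-- The Mathieu group M₂₄ (the automorphism group of the length-24 binary code) has an involution whose centraliser is isomorphic to the centraliser of a transvection in SL(5, 2) (a group of shape 2^{1+6}:GL(3, 2)). -/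
theorem result (s : Matrix.SpecialLinearGroup (Fin 5) (ZMod 2)) (hs : (s : Matrix (Fin 5) (Fin 5) (ZMod 2)) = Matrix.transvection 0 1 1) : ∃ z : ↥Cfsg.M24, orderOf z = 2 ∧ Nonempty (↥(Subgroup.centralizer ({z} : Set ↥Cfsg.M24)) ≃* ↥(Subgroup.centralizer ({s} : Set (Matrix.SpecialLinearGroup (Fin 5) (ZMod 2))))) := by
  exact ⟨elt c2A, ord2A, iso hs⟩

end Cfsg.Agent.S2133
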