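import Cfsg.Statements.S2162
import Cfsg.Agent.Lib.Lin.Rcf2

set_option autoImplicit false
open Cfsg

namespace Cfsg.Agent.S2162

open CA.CForm CA.Rcf Polynomial in
/-- Conjugacy of involutions in the special linear group over a finite field of characteristic two, in dimension at least 3: two elements of order 2 of SL_n(F) are conjugate in SL_n(F) exactly when the matrices a − 1 and b − 1 have the same rank (the rank of a − 1 is the dimension of the commutator space [V, a]). -/
theorem result {F : Type*} [Field F] [Fintype F] [CharP F 2] {n : ℕ} (hn : 3 ≤ n) (a b : Matrix.SpecialLinearGroup (Fin n) F) (ha : orderOf a = 2) (hb : orderOf b = 2) :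
    IsConj a b ↔ ((a : Matrix (Fin n) (Fin n) F) - 1).rank = ((b : Matrix (Fin n) (Fin n) F) - 1).rank := by
  have h2 : (2 : F) = 0 := CharTwo.two_eq_zero
  have k1 : ∀ a : Matrix.SpecialLinearGroup (Fin n) F, orderOf a = 2 → (Matrix.toLin' a.1 - 1) ^ 2 = 0 := fun a ha =>
    (pow_char_pow_eq_one_iff 2 (glEquiv (Matrix.SpecialLinearGroup.toGL a)) 1).1 (by
      rw [← map_pow, ← map_pow, pow_one, ← ha, pow_orderOf_eq_one, map_one, map_one])
  have k2 : ∀ a : Matrix.SpecialLinearGroup (Fin n) F, (a.1 - 1).rank +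
      Module.finrank F (LinearMap.ker (Matrix.toLin' a.1 - 1)) = n := fun a => by
    have := finrank_ker_toLin' (a.1 - 1)
    rwa [map_sub, Matrix.toLin'_one, Fintype.card_fin] at this
  have k3 := k2 a
  have k4 := k2 b
  constructor
  · intro h
    have := ((isConj_GL_iff.1 (Matrix.SpecialLinearGroup.toGL.map_isConj h)).sub_one_pow 1).finrank_ker
    rw [pow_one, pow_one] at this
    exact Nat.add_right_cancel (k3.trans (k4.symm.trans (congrArg _ this.symm)))
  · intro h
    refine isConj_SL (sim_of_sq_eq_zero (k1 a ha) (k1 b hb) rfl (by omega)) fun c hc => ?_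
    obtain ⟨d, hd⟩ := Multiset.exists_mem_of_ne_zero
      (mt (edivs_eq_zero_iff (Matrix.toLin' a.1)).1 (by simp; omega))
    have h5 := (sub_one_pow_eq_zero_iff' ⟨2, k1 a ha⟩ 2).1 (k1 a ha) _ (Multiset.mem_map_of_mem _ hd)
    have h6 := (isPrim_of_mem_edivs hd).natDegree_pos
    obtain ⟨r, rfl⟩ := isSquare_of_two_eq_zero h2 c
    obtain h7 | h7 : d.natDegree = 1 ∨ d.natDegree = 2 := by omega
    · simpa [h7] using exists_commute_det_pow hd hc
    · simpa [h7, sq] using exists_commute_det_pow hd (left_ne_zero_of_mul hc)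

end Cfsg.Agent.S2162
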