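import Cfsg.Statements.S2163
import Cfsg.Agent.Lib.Lin.Rcf2

set_option autoImplicit false
open Cfsg

namespace Cfsg.Agent.S2163

theorem aux {F : Type*} [Field F] {n ℓ : ℕ} (h2 : 2 * ℓ ≤ n) :
    (Matrix.of (fun i j : Fin n => if j.val < ℓ ∧ i.val = j.val + (n - ℓ) then (1 : F) else 0)).rank
      = ℓ := by
  let a : Fin ℓ → Fin n := fun k => ⟨k + (n - ℓ), by omega⟩
  let b : Fin ℓ → Fin n := fun k => ⟨k, by omega⟩
  refine le_antisymm ?_ ?_
  · have : Matrix.of (fun i j : Fin n => if j.val < ℓ ∧ i.val = j.val + (n - ℓ) then (1 : F) else 0) =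
        (1 : Matrix (Fin n) (Fin n) F).submatrix id a * (1 : Matrix (Fin n) (Fin n) F).submatrix b id := by
      ext i j
      simp only [Matrix.mul_apply, Matrix.submatrix_apply, Matrix.one_apply, Matrix.of_apply, id, a, b,
        Fin.ext_iff]
      by_cases h : j.val < ℓ
      · rw [Finset.sum_eq_single ⟨j, h⟩ (fun k _ hk => by
          rw [if_neg (c := (k : ℕ) = j) fun H => hk (Fin.ext H), mul_zero]) (by simp)]
        simp [h]
      · rw [if_neg (by tauto), Finset.sum_eq_zero fun k _ => by
          rw [if_neg (c := (k : ℕ) = j) (by omega), mul_zero]]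
    rw [this]
    exact (Matrix.rank_mul_le_left _ _).trans (Matrix.rank_le_width _)
  · have : (Matrix.of (fun i j : Fin n =>
        if j.val < ℓ ∧ i.val = j.val + (n - ℓ) then (1 : F) else 0)).submatrix a b = 1 := by
      ext i j
      simp [a, b, Matrix.one_apply, Fin.ext_iff]
    have h := Matrix.rank_submatrix_le (Matrix.of (fun i j : Fin n =>
        if j.val < ℓ ∧ i.val = j.val + (n - ℓ) then (1 : F) else 0)) a b
    rwa [this, Matrix.rank_one, Fintype.card_fin] at h

open CA.CForm CA.Rcf Polynomial in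
/-- Over a finite field of characteristic two and for n ≥ 3: for every ℓ with 1 ≤ ℓ and 2ℓ ≤ n, the matrix j_ℓ that is the identity plus the entries 1 in positions (n − ℓ + i, i) for i < ℓ (an identity block of size ℓ in the lower left corner) lies in SL_n(F), has order 2, and j_ℓ − 1 has rank ℓ. Together with the conjugacy criterion by rank, these matrices represent the conjugacy classes of involutions of SL_n(F). -/
theorem result {F : Type*} [Field F] [Fintype F] [CharP F 2] {n : ℕ} (hn : 3 ≤ n) (ℓ : ℕ) (h1 : 1 ≤ ℓ) (h2 : 2 * ℓ ≤ n) :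
    ∃ a : Matrix.SpecialLinearGroup (Fin n) F, (a : Matrix (Fin n) (Fin n) F) = 1 + Matrix.of (fun i j : Fin n => if j.val < ℓ ∧ i.val = j.val + (n - ℓ) then (1 : F) else 0) ∧ orderOf a = 2 ∧ ((a : Matrix (Fin n) (Fin n) F) - 1).rank = ℓ := by
  have hr := aux (F := F) h2
  set N := Matrix.of (fun i j : Fin n => if j.val < ℓ ∧ i.val = j.val + (n - ℓ) then (1 : F) else 0)
  have hN : N * N = 0 := by
    ext i j
    rw [Matrix.mul_apply, Matrix.zero_apply]
    refine Finset.sum_eq_zero fun k _ => ?_
    simp only [N, Matrix.of_apply]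
    split_ifs <;> first | omega | simp
  have hd : (1 + N).det = 1 := by
    rw [Matrix.det_of_lowerTriangular _ fun i j hij => by
      have : i < j := hij
      simp only [N, Matrix.add_apply, Matrix.of_apply, Matrix.one_apply_ne this.ne]
      rw [if_neg (by omega), add_zero]]
    refine Finset.prod_eq_one fun i _ => ?_
    simp only [N, Matrix.add_apply, Matrix.of_apply, Matrix.one_apply_eq]
    rw [if_neg (by omega), add_zero]
  refine ⟨⟨1 + N, hd⟩, rfl, orderOf_eq_two_iff.2 ⟨Subtype.ext ?_, fun h => ?_⟩, by simpa using hr⟩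
  · change (1 + N) * (1 + N) = 1
    rw [mul_add, add_mul, add_mul, hN, one_mul, one_mul, mul_one, add_zero, add_assoc,
      ← two_smul F, CharTwo.two_eq_zero, zero_smul, add_zero]
  · have : N = 0 := by simpa using congrArg Subtype.val h
    rw [this, Matrix.rank_zero] at hr
    omega

end Cfsg.Agent.S2163
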