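import Cfsg.Statements.S2164
import Cfsg.Agent.Lib.Lin.Wall3
import Cfsg.Agent.S2162

set_option autoImplicit false
open Cfsg

namespace Cfsg.Agent.S2164

open CA.CForm CA.CForm.Form CA.Rcf Polynomial in
/-- Conjugacy of involutions in the special unitary group SU_n(q), q even, n ≥ 3, realised over the field F with q² elements as the matrices of determinant 1 preserving the form Σ u_i v_i^q: for two elements of order 2 of SU_n(q) the following are equivalent — they are conjugate in SU_n(q); they are conjugate in SL_n(F); the matrices a − 1 and b − 1 have the same rank. -/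
theorem result {F : Type*} [Field F] [Fintype F] [CharP F 2] {n q : ℕ} (hF : Fintype.card F = q ^ 2) (hn : 3 ≤ n) (a b : ↥(Cfsg.SU n F q)) (ha : orderOf a = 2) (hb : orderOf b = 2) :
    (IsConj a b ↔ IsConj (a : Matrix.SpecialLinearGroup (Fin n) F) (b : Matrix.SpecialLinearGroup (Fin n) F)) ∧
    (IsConj a b ↔ (((a : Matrix.SpecialLinearGroup (Fin n) F) : Matrix (Fin n) (Fin n) F) - 1).rank = (((b : Matrix.SpecialLinearGroup (Fin n) F) : Matrix (Fin n) (Fin n) F) - 1).rank) := by
  have h2 : (2 : F) = 0 := CharTwo.two_eq_zero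
  have ha' : orderOf (a : Matrix.SpecialLinearGroup (Fin n) F) = 2 := by rwa [Subgroup.orderOf_coe]
  have hb' : orderOf (b : Matrix.SpecialLinearGroup (Fin n) F) = 2 := by rwa [Subgroup.orderOf_coe]
  have k0 := Cfsg.Agent.S2162.result hn _ _ ha' hb'
  have k1 : ∀ c : ↥(SU n F q), orderOf c = 2 → ((suEquiv hF n c : (hermStd hF n).Isom) *
      suEquiv hF n c = 1 ∧ (suEquiv hF n c : (hermStd hF n).Isom) ≠ 1) := fun c hc =>
    orderOf_eq_two_iff.1 (by rwa [Subgroup.orderOf_coe, MulEquiv.orderOf_eq])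
  have key : IsConj a b ↔ (((a : Matrix.SpecialLinearGroup (Fin n) F) : Matrix (Fin n) (Fin n) F) - 1).rank = (((b : Matrix.SpecialLinearGroup (Fin n) F) : Matrix (Fin n) (Fin n) F) - 1).rank := by
    refine ⟨fun h => k0.1 ((SU n F q).subtype.map_isConj h), fun h => ?_⟩
    rw [rank_sub_one_eq (suEquiv hF n a : (hermStd hF n).Isom) _ (suEquiv_apply hF n a),
      rank_sub_one_eq (suEquiv hF n b : (hermStd hF n).Isom) _ (suEquiv_apply hF n b)] at h
    exact (isConj_congr (suEquiv hF n)).1 (herm_inv2_isConj_SIsom hF (hermStd_nondeg hF n) h2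
      (k1 a ha).1 (k1 a ha).2 (((hermStd_nondeg hF n).herm_inv2_isConj_iff (conj_ne_id hF) h2
        (k1 a ha).1 (k1 b hb).1).2 h))
  exact ⟨key.trans k0.symm, key⟩

end Cfsg.Agent.S2164
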