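import Cfsg.Statements.S2165
import Cfsg.Agent.Lib.Lin.Rcf2

set_option autoImplicit false
open Cfsg

namespace Cfsg.Agent.S2165

open CA.CForm CA.CForm.Form CA.Rcf Polynomial in
/-- In SU_n(q), q even, n ≥ 3 (matrices of determinant 1 over the field with q² elements preserving Σ u_i v_i^q): for every ℓ with 1 ≤ ℓ and 2ℓ ≤ n, the permutation matrix of the involution of {0, …, n−1} exchanging i and n − ℓ + i for each i < ℓ lies in SU_n(q), has order 2, and differs from the identity by a matrix of rank ℓ. So every rank between 1 and n/2 occurs for involutions of SU_n(q). -/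
theorem result {F : Type*} [Field F] [Fintype F] [CharP F 2] {n q : ℕ} (hF : Fintype.card F = q ^ 2) (hn : 3 ≤ n) (ℓ : ℕ) (h1 : 1 ≤ ℓ) (h2 : 2 * ℓ ≤ n) :
    ∃ a : ↥(Cfsg.SU n F q), (((a : Matrix.SpecialLinearGroup (Fin n) F) : Matrix (Fin n) (Fin n) F) = Matrix.of (fun i j : Fin n => if (j.val < ℓ ∧ i.val = j.val + (n - ℓ)) ∨ (i.val < ℓ ∧ j.val = i.val + (n - ℓ)) ∨ (i = j ∧ ℓ ≤ i.val ∧ i.val < n - ℓ) then (1 : F) else 0)) ∧ orderOf a = 2 ∧ ((((a : Matrix.SpecialLinearGroup (Fin n) F) : Matrix (Fin n) (Fin n) F)) - 1).rank = ℓ := by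
  have h2' : (2 : F) = 0 := CharTwo.two_eq_zero
  let s : Fin n → Fin n := fun i => if h : i.val < ℓ then ⟨i + (n - ℓ), by omega⟩ else
    if n - ℓ ≤ i.val then ⟨i - (n - ℓ), by omega⟩ else i
  have hs0 : ∀ i j : Fin n, s i = j ↔ (j.val < ℓ ∧ i.val = j.val + (n - ℓ)) ∨
      (i.val < ℓ ∧ j.val = i.val + (n - ℓ)) ∨ (i = j ∧ ℓ ≤ i.val ∧ i.val < n - ℓ) := fun i j => by
    simp only [s, Fin.ext_iff]
    split_ifs <;> (try simp only) <;> omega
  have hs : Function.Involutive s := fun i => by
    have := (hs0 i _).1 rfl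
    rw [hs0]
    simp only [Fin.ext_iff] at this ⊢
    omega
  let σ : Equiv.Perm (Fin n) := hs.toPerm
  set M := Matrix.of (fun i j : Fin n => if (j.val < ℓ ∧ i.val = j.val + (n - ℓ)) ∨
    (i.val < ℓ ∧ j.val = i.val + (n - ℓ)) ∨ (i = j ∧ ℓ ≤ i.val ∧ i.val < n - ℓ) then (1 : F) else 0)
  have hM : M = σ.permMatrix F := by
    ext i j
    simp only [M, Matrix.of_apply, ← hs0, Equiv.Perm.permMatrix, PEquiv.toMatrix_apply,
      Equiv.toPEquiv_apply, Option.mem_def, Option.some.injEq]
    rfl
  have hv : ∀ v, M.mulVec v = v ∘ s := fun v => by rw [hM, Matrix.permMatrix_mulVec]; rfl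
  have hd : M.det = 1 := by
    rw [hM, Matrix.det_permutation]
    rcases Int.units_eq_one_or (Equiv.Perm.sign σ) with h | h <;> simp [h, CharTwo.neg_eq]
  let a : Fin ℓ → Fin n := fun k => ⟨k + (n - ℓ), by omega⟩
  let b : Fin ℓ → Fin n := fun k => ⟨k, by omega⟩
  have hr : (M - 1).rank = ℓ := by
    refine le_antisymm ?_ ?_
    · let c : Fin n → Fin (n - ℓ) := fun i => if h : i.val < n - ℓ then ⟨i, h⟩ else
        ⟨i - (n - ℓ), by omega⟩
      have hc : ∀ i, c (s i) = c i := fun i => by
        have := (hs0 i _).1 rfl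
        simp only [c, Fin.ext_iff] at this ⊢
        split_ifs <;> simp only <;> omega
      have hc' : Function.Surjective c := fun i => ⟨⟨i, by omega⟩, by simp [c]⟩
      have k1 := finrank_ker_toLin' (M - 1)
      have k2 : LinearMap.range (LinearMap.funLeft F F c) ≤ LinearMap.ker (Matrix.toLin' (M - 1)) := by
        rintro _ ⟨w, rfl⟩
        rw [LinearMap.mem_ker, Matrix.toLin'_apply, Matrix.sub_mulVec, hv, Matrix.one_mulVec]
        exact funext fun i => sub_eq_zero.2 (congrArg w (hc i))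
      have k3 := Submodule.finrank_mono k2
      rw [LinearMap.finrank_range_of_inj (LinearMap.funLeft_injective_of_surjective F F c hc')] at k3
      simp only [Module.finrank_fin_fun, Fintype.card_fin] at k1 k3
      omega
    · have : (M - 1).submatrix a b = 1 := by
        ext i j
        have := i.2
        have := j.2
        simp only [a, b, M, Matrix.one_apply, Fin.ext_iff, Matrix.submatrix_apply, Matrix.sub_apply,
          Matrix.of_apply]
        split_ifs <;> first | omega | simp
      have h := Matrix.rank_submatrix_le (M - 1) a b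
      rwa [this, Matrix.rank_one, Fintype.card_fin] at h
  refine ⟨⟨⟨M, hd⟩, fun u v => ?_⟩, rfl, orderOf_eq_two_iff.2 ⟨Subtype.ext (Subtype.ext ?_), fun h => ?_⟩, hr⟩
  · change hermForm n F q (M.mulVec u) (M.mulVec v) = _
    rw [hv, hv]
    exact Equiv.sum_comp σ fun i => u i * v i ^ q
  · refine matrix_eq_iff_mulVec.2 fun v => ?_
    change (M * M).mulVec v = (1 : Matrix _ _ F).mulVec v
    rw [← Matrix.mulVec_mulVec, hv, hv, Matrix.one_mulVec, Function.comp_assoc, hs.comp_self,
      Function.comp_id]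
  · have : M = 1 := congrArg (fun x : ↥(SU n F q) => x.1.1) h
    rw [this, sub_self, Matrix.rank_zero] at hr
    omega

end Cfsg.Agent.S2165
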