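import Cfsg.Statements.S2166
import Cfsg.Agent.Lib.Lin.Wall3

set_option autoImplicit false
open Cfsg

namespace Cfsg.Agent.S2166

open CA.CForm CA.CForm.Form in
/-- Conjugacy of involutions in the symplectic group Sp_{2m}(F), F a finite field of characteristic two, m ≥ 2 (Sp taken as the matrices A with A J Aᵀ = J, acting on column vectors, with the alternating form f(u, v) = u ⬝ (J v)). For an involution t write V(t) for the set of vectors v with f(v, t v) = 0 (a subspace). Two involutions a, b are conjugate in Sp_{2m}(F) exactly when a − 1 and b − 1 have the same rank and, in case that rank is even, V(a) and V(b) have the same number of elements. -/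
theorem result {F : Type*} [Field F] [Fintype F] [CharP F 2] {m : ℕ} (hm : 2 ≤ m) (a b : ↥(Matrix.symplecticGroup (Fin m) F)) (ha : orderOf a = 2) (hb : orderOf b = 2) :
    IsConj a b ↔ ((((a : ↥(Matrix.symplecticGroup (Fin m) F)) : Matrix (Fin m ⊕ Fin m) (Fin m ⊕ Fin m) F) - 1).rank = (((b : ↥(Matrix.symplecticGroup (Fin m) F)) : Matrix (Fin m ⊕ Fin m) (Fin m ⊕ Fin m) F) - 1).rank ∧
      (Even (((a : ↥(Matrix.symplecticGroup (Fin m) F)) : Matrix (Fin m ⊕ Fin m) (Fin m ⊕ Fin m) F) - 1).rank → Nat.card {v : Fin m ⊕ Fin m → F // Cfsg.sympForm m F v (Matrix.mulVec ((a : ↥(Matrix.symplecticGroup (Fin m) F)) : Matrix (Fin m ⊕ Fin m) (Fin m ⊕ Fin m) F) v) = 0} = Nat.card {v : Fin m ⊕ Fin m → F // Cfsg.sympForm m F v (Matrix.mulVec ((b : ↥(Matrix.symplecticGroup (Fin m) F)) : Matrix (Fin m ⊕ Fin m) (Fin m ⊕ Fin m) F) v) = 0})) := by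
  have h2 : (2 : F) = 0 := CharTwo.two_eq_zero
  have hf := sympStd_nondeg F m
  have ht := (orderOf_eq_two_iff.1 (((spEquiv F m).orderOf_eq a).trans ha)).1
  have hs := (orderOf_eq_two_iff.1 (((spEquiv F m).orderOf_eq b).trans hb)).1
  simp only [← sympStd_B, ← spEquiv_apply]
  rw [rank_sub_one_eq (spEquiv F m a) _ (spEquiv_apply m a), rank_sub_one_eq (spEquiv F m b) _ (spEquiv_apply m b),
    ← isConj_congr (spEquiv F m), hf.inv2_isConj_iff (fun _ => rfl) h2 ht hs]
  refine and_congr_right fun hr => ?_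
  generalize spEquiv F m a = t at *
  generalize spEquiv F m b = s at *
  have hq := one_lt_natCard (F := F)
  have key : ∀ x y, (sympStd F m).AltInv x → ¬(sympStd F m).AltInv y → y * y = 1 →
      Nat.card {v // (sympStd F m).B v (x.1 v) = 0} ≠
        Nat.card {v // (sympStd F m).B v (y.1 v) = 0} := fun x y hx hy hyy h => by
    have h1 := hf.card_zero_set (fun _ => rfl) h2 hyy hy
    rw [← h, card_zero_set_alt hx] at h1
    have : 0 < Nat.card F ^ Module.finrank F (Fin m ⊕ Fin m → F) := by positivity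
    nlinarith
  by_cases h1 : (sympStd F m).AltInv t <;> by_cases h3 : (sympStd F m).AltInv s
  · simp only [h1, h3, true_iff]
    exact fun _ => (card_zero_set_alt h1).trans (card_zero_set_alt h3).symm
  · simp only [h1, h3, iff_false, not_true, false_iff]
    exact fun h => key _ _ h1 h3 hs (h (hf.even_of_altInv (fun _ => rfl) h2 ht h1))
  · simp only [h1, h3, iff_true, false_iff]
    exact fun h => key _ _ h3 h1 ht (h (hr ▸ hf.even_of_altInv (fun _ => rfl) h2 hs h3)).symm
  · simp only [h1, h3, true_iff]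
    exact fun _ => Nat.eq_of_mul_eq_mul_right (by omega : 0 < Nat.card F)
      ((hf.card_zero_set (fun _ => rfl) h2 ht h1).trans
        (hf.card_zero_set (fun _ => rfl) h2 hs h3).symm)

end Cfsg.Agent.S2166
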