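import Cfsg.Statements.S2172
import Cfsg.Agent.Lib.Lin.Wall2

set_option autoImplicit false
open Cfsg

namespace Cfsg.Agent.S2172

open CA.CForm CA.CForm.Form in
/-- Splitting of involution classes from O to Ω for the hyperbolic quadratic form Q = Σ x_i y_i in dimension 2m over a finite field F of characteristic two, m ≥ 4. Let t, s be involutions of the commutator subgroup Ω that are conjugate in the full isometry group O. If it is not the case that t − 1 has rank m and Q(v + t v) = 0 for every vector v, then t and s are conjugate by an element of Ω. If t − 1 has rank m and Q(v + t v) = 0 for all v, then t and s are conjugate by an element of Ω exactly when the intersection of the images of t − 1 and s − 1 has even dimension (so the class of t in O meets at most two classes of Ω). -/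
theorem result {F : Type*} [Field F] [Fintype F] [CharP F 2] {m : ℕ} (hm : 4 ≤ m) (t s : ↥(Cfsg.isometryGroup F (Cfsg.quadFormPlus m F))) (ht : orderOf t = 2) (hs : orderOf s = 2) (htO : t ∈ Cfsg.Omega F (Cfsg.quadFormPlus m F)) (hsO : s ∈ Cfsg.Omega F (Cfsg.quadFormPlus m F)) (hconj : IsConj t s) :
    (¬ (((((t : ↥(Cfsg.isometryGroup F (Cfsg.quadFormPlus m F))) : GL (Fin m ⊕ Fin m) F) : Matrix (Fin m ⊕ Fin m) (Fin m ⊕ Fin m) F) - 1).rank = m ∧ ∀ v : Fin m ⊕ Fin m → F, Cfsg.quadFormPlus m F (v + Matrix.mulVec (((t : ↥(Cfsg.isometryGroup F (Cfsg.quadFormPlus m F))) : GL (Fin m ⊕ Fin m) F) : Matrix (Fin m ⊕ Fin m) (Fin m ⊕ Fin m) F) v) = 0) →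
      ∃ g ∈ Cfsg.Omega F (Cfsg.quadFormPlus m F), g * t * g⁻¹ = s) ∧
    ((((((t : ↥(Cfsg.isometryGroup F (Cfsg.quadFormPlus m F))) : GL (Fin m ⊕ Fin m) F) : Matrix (Fin m ⊕ Fin m) (Fin m ⊕ Fin m) F) - 1).rank = m ∧ ∀ v : Fin m ⊕ Fin m → F, Cfsg.quadFormPlus m F (v + Matrix.mulVec (((t : ↥(Cfsg.isometryGroup F (Cfsg.quadFormPlus m F))) : GL (Fin m ⊕ Fin m) F) : Matrix (Fin m ⊕ Fin m) (Fin m ⊕ Fin m) F) v) = 0) →
      ((∃ g ∈ Cfsg.Omega F (Cfsg.quadFormPlus m F), g * t * g⁻¹ = s) ↔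
        Even (Module.finrank F ↥(LinearMap.range (Matrix.toLin' ((((t : ↥(Cfsg.isometryGroup F (Cfsg.quadFormPlus m F))) : GL (Fin m ⊕ Fin m) F) : Matrix (Fin m ⊕ Fin m) (Fin m ⊕ Fin m) F) - 1)) ⊓ LinearMap.range (Matrix.toLin' ((((s : ↥(Cfsg.isometryGroup F (Cfsg.quadFormPlus m F))) : GL (Fin m ⊕ Fin m) F) : Matrix (Fin m ⊕ Fin m) (Fin m ⊕ Fin m) F) - 1)))))) := by
  have h2 : (2 : F) = 0 := CharTwo.two_eq_zero
  let e : isometryGroup F (quadFormPlus m F) ≃* (plusForm F m).Isom := orthEquiv (plusForm F m)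
  have hf := plusForm_nondeg F m
  have hg : (plusForm F m).Good := good_of_five_le (by rw [finrank_plus]; omega)
  have ht' := (orderOf_eq_two_iff.1 ((e.orderOf_eq t).trans ht)).1
  have hc := (isConj_congr e).2 hconj
  have h1 : (∃ g ∈ Omega F (quadFormPlus m F), g * t * g⁻¹ = s) ↔
      ∃ g ∈ commutator (plusForm F m).Isom, g * e t * g⁻¹ = e s := by
    constructor
    · rintro ⟨g, hg, rfl⟩
      exact ⟨e g, (mem_omega_iff (plusForm F m) _).1 hg, by rw [map_mul, map_mul, map_inv]⟩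
    · rintro ⟨g, hg, h⟩
      refine ⟨e.symm g, (mem_omega_iff (plusForm F m) _).2 ?_, e.injective ?_⟩
      · exact (e.apply_symm_apply g).symm ▸ hg
      · rw [map_mul, map_mul, map_inv, e.apply_symm_apply, h]
  have h3 : ∀ x : isometryGroup F (quadFormPlus m F), LinearMap.range (Matrix.toLin'
      (((x : GL (Fin m ⊕ Fin m) F) : Matrix (Fin m ⊕ Fin m) (Fin m ⊕ Fin m) F) - 1)) =
      (plusForm F m).commSub (e x) := fun x => by
    rw [map_sub, Matrix.toLin'_one]; rfl
  have h4 : (∀ v : Fin m ⊕ Fin m → F, quadFormPlus m F (v + Matrix.mulVec ((t : GL (Fin m ⊕ Fin m) F) :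
      Matrix (Fin m ⊕ Fin m) (Fin m ⊕ Fin m) F) v) = 0) ↔ (plusForm F m).AltInv (e t) := by
    rw [orth_altInv_iff h2]
    refine forall_congr' fun v => ?_
    rw [sub_eq_add_neg, neg_eq_self_of_two h2, add_comm]; rfl
  rw [rank_sub_one_eq (e t) _ fun _ => rfl, h1, h3, h3, h4]
  have h5 := finrank_plus (F := F) m
  exact ⟨fun h => hf.exists_omega_conj hg h2 ht' (fun H => h ⟨by omega, H.2⟩) hc,
    fun h => hf.exists_omega_conj_iff hg h2 ht' (by omega) h.2 hc⟩

end Cfsg.Agent.S2172
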