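import Cfsg.Statements.S2173
import Cfsg.Agent.Lib.Lin.Wall2

set_option autoImplicit false
open Cfsg

namespace Cfsg.Agent.S2173

open CA.CForm CA.CForm.Form in
/-- For the quadratic form Σ x_i y_i + (z₁² + c z₁ z₂ + d z₂²) in dimension 2m with anisotropic binary part over a finite field F of characteristic two, m ≥ 4 (minus type): two involutions of the commutator subgroup Ω that are conjugate in the full isometry group O are conjugate by an element of Ω (no class of involutions of O inside Ω splits). -/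
theorem result {F : Type*} [Field F] [Fintype F] [CharP F 2] {m : ℕ} (hm : 4 ≤ m) (c d : F) (hcd : ∀ z₁ z₂ : F, z₁ ^ 2 + c * z₁ * z₂ + d * z₂ ^ 2 = 0 → z₁ = 0 ∧ z₂ = 0) (t s : ↥(Cfsg.isometryGroup F (Cfsg.quadFormMinus (m - 1) F c d))) (ht : orderOf t = 2) (hs : orderOf s = 2) (htO : t ∈ Cfsg.Omega F (Cfsg.quadFormMinus (m - 1) F c d)) (hsO : s ∈ Cfsg.Omega F (Cfsg.quadFormMinus (m - 1) F c d)) (hconj : IsConj t s) :
    ∃ g ∈ Cfsg.Omega F (Cfsg.quadFormMinus (m - 1) F c d), g * t * g⁻¹ = s := by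
  have h2 : (2 : F) = 0 := CharTwo.two_eq_zero
  let e : isometryGroup F (quadFormMinus (m - 1) F c d) ≃* (minusForm (m - 1) c d).Isom :=
    orthEquiv (minusForm (m - 1) c d)
  obtain ⟨g, hg, h⟩ := (minusForm_nondeg _ hcd).exists_omega_conj
    (good_of_five_le (by rw [finrank_minus]; omega)) h2 (t := e t) (s := e s)
    (orderOf_eq_two_iff.1 ((e.orderOf_eq t).trans ht)).1 (fun H => by
      have := (minusForm_isIndex _ hcd).2 _ ((orth_altInv_iff_ts h2 _).1 H.2)
      have := H.1
      rw [finrank_minus] at this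
      omega) ((isConj_congr e).2 hconj)
  refine ⟨e.symm g, (mem_omega_iff (minusForm (m - 1) c d) _).2 ?_, e.injective ?_⟩
  · exact (e.apply_symm_apply g).symm ▸ hg
  · rw [map_mul, map_mul, map_inv, e.apply_symm_apply, h]

end Cfsg.Agent.S2173
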