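import Cfsg.Statements.S2178
import Cfsg.Agent.Lib.Lie.H12Cent

set_option autoImplicit false
open Cfsg

namespace Cfsg.Agent.S2178

open CA.Chev CA.H12Inv2 CA.H12Cent

/-- Centralizers of the long and the short root involutions in the Chevalley group G of type F₄ over a finite field F of characteristic two (this problem's root numbering for type F₄, from the Chevalley data module: fundamental roots p₁, p₂ short, p₃, p₄ long, with indices 33, 27, 25, 24, their negatives 14, 20, 22, 23; highest root 47, highest short root 44; U the subgroup generated by the positive root subgroups). For an element t of G with matrix x_47(1): the centralizer of t in G is the subgroup generated by U and the root subgroups X_{−p₁}, X_{−p₂}, X_{−p₃} (the unipotent radical of the maximal parabolic subgroup whose Levi factor has fundamental roots p₁, p₂, p₃, together with that Levi factor's root subgroups; the Levi factor is of type C₃). For an element u of G with matrix x_44(1): the centralizer of u in G is generated by U and X_{−p₂}, X_{−p₃}, X_{−p₄} (the same construction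 for the Levi factor with fundamental roots p₂, p₃, p₄, of type B₃). -/
theorem result {F : Type*} [Field F] [Fintype F] [CharP F 2] (t u : GL Cfsg.Lie.chevF4.Idx F) (ht : (t : Matrix Cfsg.Lie.chevF4.Idx Cfsg.Lie.chevF4.Idx F) = Cfsg.Lie.chevF4.x F 47 1) (hu : (u : Matrix Cfsg.Lie.chevF4.Idx Cfsg.Lie.chevF4.Idx F) = Cfsg.Lie.chevF4.x F 44 1) :
    Cfsg.Lie.chevF4.group F ⊓ Subgroup.centralizer {t} = Cfsg.Lie.chevF4.posUnipotent F ⊔ Cfsg.Lie.chevF4.rootSubgroup F 14 ⊔ Cfsg.Lie.chevF4.rootSubgroup F 20 ⊔ Cfsg.Lie.chevF4.rootSubgroup F 22 ∧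
    Cfsg.Lie.chevF4.group F ⊓ Subgroup.centralizer {u} = Cfsg.Lie.chevF4.posUnipotent F ⊔ Cfsg.Lie.chevF4.rootSubgroup F 20 ⊔ Cfsg.Lie.chevF4.rootSubgroup F 22 ⊔ Cfsg.Lie.chevF4.rootSubgroup F 23 := by
  rw [eq_ev [47] (ht.trans (by simp)), eq_ev [44] (hu.trans (by simp)), group_eq, posUnipotent_eq]
  simp only [root_eq (D := Lie.chevF4) (show 14 < 48 by decide), root_eq (D := Lie.chevF4) (show 20 < 48 by decide),
    root_eq (D := Lie.chevF4) (show 22 < 48 by decide), root_eq (D := Lie.chevF4) (show 23 < 48 by decide), X_app,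
    sup_assoc]
  exact ⟨cent_U _ (fun _ _ h => h) tab_F4 (F := [47]) (B := 2) (μ := [(47, 1)]) (E := fun _ => [(47, 1)])
    (by decide +kernel) (by decide +kernel), cent_U _ (fun _ _ h => h) tab_F4 (F := [44]) (B := 2) (μ := [(44, 1)])
    (E := fun _ => [(44, 1)]) (by decide +kernel) (by decide +kernel)⟩

end Cfsg.Agent.S2178
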