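import Cfsg.Statements.S2181
import Cfsg.Agent.Lib.Lie.H12InvE7

set_option autoImplicit false
open Cfsg

namespace Cfsg.Agent.S2181

open CA.Chev CA.H12Inv3

/-- The Chevalley group of type E₇ over a finite field of characteristic two (the matrix group generated by the root elements) has exactly five conjugacy classes of elements of order 2. -/
theorem result {F : Type*} [Field F] [Fintype F] [CharP F 2] :
    (ConjClasses.mk '' {g : ↥(Cfsg.Lie.chevE7.group F) | orderOf g = 2}).ncard = 5 := by
  exact (CA.H12InvE7.reps (adj Lie.chevE7 F) fun _ _ h => h).ncard (Lie.chevE7.group F).subtype_injective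
    (by rw [Subgroup.range_subtype, idTw_G1, group_eq])

end Cfsg.Agent.S2181
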