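import Cfsg.Statements.S2182
import Cfsg.Agent.Lib.Lie.H12InvTw

set_option autoImplicit false
open Cfsg

namespace Cfsg.Agent.S2182

open CA.Chev CA.H12Inv3 CA.H12InvTw

/-- The twisted group ²E₆(q), q even, realised inside the Chevalley group of type E₆ over the field K with q² elements, has exactly three conjugacy classes of elements of order 2. -/
theorem result {K : Type*} [Field K] [Fintype K] [CharP K 2] (q : ℕ) (hK : Fintype.card K = q ^ 2) :
    (ConjClasses.mk '' {g : ↥(Cfsg.Lie.twistedE6 K q) | orderOf g = 2}).ncard = 3 := by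
  obtain ⟨α, hq, hα, h2, hc⟩ := exists_tE6 (isPrimePow_of_card two_ne_zero hK) hK
  have h := TE6.real hq hα
  refine (repsE6 hα ?_).ncard h.e_inj h.e_range
  by_contra! h1
  have := card_fix (by omega) hc
  rw [Nat.card_congr (Equiv.subtypeUnivEquiv fun t => (hq t).symm.trans (h1 t)), hc] at this
  nlinarith

end Cfsg.Agent.S2182
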