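import Cfsg.Statements.S2186
import Cfsg.Agent.Lib.Lie.ChevAll
import Cfsg.Agent.Lib.Lie.H12Chev
import Cfsg.Agent.Lib.Lie.ChevSt

set_option autoImplicit false
open Cfsg

namespace Cfsg.Agent.S2186

open CA.Chev CA.H12Chev

theorem main {F : Type*} [Field F] [Fintype F] [CharP F 2] {D : Lie.ChevalleyDatum} [Good D] (g : GL D.Idx F)
    (hg : g ∈ D.group F) :
    IsPGroup 2 ↥(D.rootSubgroup F (D.nroots - 1) ⊔ (D.rootSubgroup F (D.nroots - 1)).map (MulAut.conj g).toMonoidHom) ∨
    ∃ h ∈ D.group F, (D.rootSubgroup F (D.nroots - 1) ⊔ (D.rootSubgroup F (D.nroots - 1)).map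
      (MulAut.conj g).toMonoidHom).map (MulAut.conj h).toMonoidHom =
        D.rootSubgroup F (D.nroots - 1) ⊔ D.rootSubgroup F 0 := by
  have h2 := (pre D).two_le
  have h0 : 0 < D.nroots := lt_of_le_of_lt (Nat.zero_le _) ((pre D).simple_lt 0 (by omega))
  let θ : Rt D := ⟨D.nroots - 1, by omega⟩
  have e1 : D.rootSubgroup F (D.nroots - 1) = (adj D F).X {θ} := rootSubgroup_eq θ
  have e0 : D.rootSubgroup F 0 = (adj D F).X {ng θ} := by
    have : (ng θ).val = 0 := by rw [ng_val']; simp [θ]
    rw [← rootSubgroup_eq, this]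
  let A := adj D F
  have hθ : Pos θ := by
    have := (pre D).even
    change D.nroots / 2 ≤ D.nroots - 1
    omega
  have hU : A.U ≤ Subgroup.normalizer (A.X {θ} : Set _) := by
    refine A.X_le_normalizer fun r hr s hs => ?_
    rw [Set.mem_singleton_iff] at hs
    subst hs
    refine ⟨nil_pos.ne_ng hr hθ, fun k hk => ?_⟩
    obtain ⟨i, j, hi, hj, e⟩ := hk.lin (lexL D)
    have a1 := (pos_iff_lex r).1 hr
    have a2 := (pos_iff_lex _).1 hθ
    have a3 : lexL D (rt k) ≤ lexL D (rt θ) := lex_strictMono.monotone (show k.val ≤ D.nroots - 1 by have := k.2; omega)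
    nlinarith
  have hB : ∀ b ∈ A.B, (A.X {θ}).map (MulAut.conj b).toMonoidHom = A.X {θ} := fun b hb =>
    Subgroup.mem_normalizer_iff_map_conj_eq.1 (sup_le hU (A.H_le_normalizer _) hb)
  rw [group_eq] at hg
  obtain ⟨b, hb, m, hm, b', hb', rfl⟩ := A.bruhat hg
  obtain ⟨w, hw⟩ := A.exists_act hm
  have mc : ∀ (a c : GL D.Idx F) (S : Subgroup (GL D.Idx F)), S.map (MulAut.conj (a * c)).toMonoidHom =
      (S.map (MulAut.conj c).toMonoidHom).map (MulAut.conj a).toMonoidHom := fun a c S => by
    rw [Subgroup.map_map, map_mul]; rfl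
  have key : A.X {θ} ⊔ (A.X {θ}).map (MulAut.conj (b * m * b')).toMonoidHom =
      (A.X {θ, w θ}).map (MulAut.conj b).toMonoidHom := by
    rw [mc, mc, hB _ hb', hw.map_X, Set.image_singleton, Set.insert_eq, A.X_union, Subgroup.map_sup, hB _ hb]
  rw [e1, e0, key]
  by_cases h : w θ = ng θ
  · refine Or.inr ⟨b⁻¹, group_eq (D := D) (K := F) ▸ A.B_le_G (inv_mem hb), ?_⟩
    rw [← mc, inv_mul_cancel, map_one, h, Set.insert_eq, A.X_union]
    exact Subgroup.map_id _
  · refine Or.inl (IsPGroup.map ?_ _)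
    by_cases h' : w θ = θ
    · rw [h', Set.pair_eq_singleton]; exact isP_X A 2 (nil_single _)
    · obtain ⟨f, f1, f2⟩ := exists_sep h' h
      obtain ⟨f', g1, g2⟩ := exists_sep (Ne.symm h') (ng_eq_iff.not.1 (Ne.symm h))
      refine (isP_X A 2 (nil_of_fun (f + f'))).to_le (A.X_mono ?_)
      rintro r (rfl | rfl)
      · simp [f1, g2]
      · simp [f2, g1]

/-- Let G be the Chevalley group of type G₂ (over a field with at least four elements), D₄, E₆, E₇ or E₈ over a finite field F of characteristic two, and let X be the root subgroup of the highest root (the last root index) — a long root subgroup, of order |F|. For every g in G, the subgroup generated by X and its conjugate g X g⁻¹ is either a 2-group or is conjugate by an element of G to the subgroup generated by X and the root subgroup of the lowest root (index 0, the negative of the highest root), which is a copy of SL₂(F). -/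
theorem result {F : Type*} [Field F] [Fintype F] [CharP F 2] (D : Cfsg.Lie.ChevalleyDatum) (hD : D ∈ [Cfsg.Lie.chevG2, Cfsg.Lie.chevD4, Cfsg.Lie.chevE6, Cfsg.Lie.chevE7, Cfsg.Lie.chevE8]) (hF : D = Cfsg.Lie.chevG2 → 4 ≤ Fintype.card F) (g : GL D.Idx F) (hg : g ∈ D.group F) :
    IsPGroup 2 ↥(D.rootSubgroup F (D.nroots - 1) ⊔ (D.rootSubgroup F (D.nroots - 1)).map (MulAut.conj g).toMonoidHom) ∨
    ∃ h ∈ D.group F, (D.rootSubgroup F (D.nroots - 1) ⊔ (D.rootSubgroup F (D.nroots - 1)).map (MulAut.conj g).toMonoidHom).map (MulAut.conj h).toMonoidHom = D.rootSubgroup F (D.nroots - 1) ⊔ D.rootSubgroup F 0 := by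
  have : Good D := good_of_mem (by
    simp only [List.mem_cons, List.not_mem_nil, or_false] at hD ⊢
    tauto)
  exact main g hg

end Cfsg.Agent.S2186
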