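import Cfsg.Statements.S2189
import Cfsg.Agent.Lib.Lie.H12BG5

set_option autoImplicit false
open Cfsg

namespace Cfsg.Agent.S2189

open CA.Chev CA.H12BG3 CA.H12BG5

/-- Finite subgroups of an adjoint Chevalley group over an algebraically closed field that contain the group over a finite subfield. Let k be an algebraically closed field of prime characteristic p, G the Chevalley group of type G₂, B₂, D₄, F₄, E₆, E₇ or E₈ over k (the matrix group generated by the root elements x_s(t), t ∈ k), and q = p^a with a ≥ 1. Let L be the subgroup generated by the root elements x_s(t) with t^q = t (the Chevalley group over the field of q elements inside G), and let M be a finite subgroup of G containing L. Then for some r ≥ 1, M contains every root element x_s(t) with t^(q^r) = t and every element of M is a matrix all of whose entries c satisfy c^(q^r) = c (so M lies between the Chevalley group over the field with q^r elements and the group of points of G fixed by the q^r-th power map). -/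
theorem result {k : Type*} [Field k] [IsAlgClosed k] (p : ℕ) [Fact p.Prime] [CharP k p] (D : Cfsg.Lie.ChevalleyDatum) (hD : D ∈ [Cfsg.Lie.chevG2, Cfsg.Lie.chevB2, Cfsg.Lie.chevD4, Cfsg.Lie.chevF4, Cfsg.Lie.chevE6, Cfsg.Lie.chevE7, Cfsg.Lie.chevE8]) (a : ℕ) (ha : 1 ≤ a) (M : Subgroup (GL D.Idx k)) (hMfin : Finite ↥M) (hMG : M ≤ D.group k)
    (hLM : Subgroup.closure {g : GL D.Idx k | ∃ (s : ℕ) (t : k), t ^ (p ^ a) = t ∧ (g : Matrix D.Idx D.Idx k) = D.x k s t} ≤ M) :
    ∃ r : ℕ, 1 ≤ r ∧ Subgroup.closure {g : GL D.Idx k | ∃ (s : ℕ) (t : k), t ^ ((p ^ a) ^ r) = t ∧ (g : Matrix D.Idx D.Idx k) = D.x k s t} ≤ M ∧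
      ∀ g ∈ M, ∀ i j : D.Idx, ((g : Matrix D.Idx D.Idx k) i j) ^ ((p ^ a) ^ r) = (g : Matrix D.Idx D.Idx k) i j := by
  have := good_of_mem hD
  rw [closure_le] at hLM
  obtain ⟨F, _, a1, a2, a3⟩ := bgl p hD hMG fun r => hLM r 1 (one_pow _)
  have hp : 1 < p := (Fact.out : p.Prime).one_lt
  have h0 : Nat.card (Fq k p a) = p ^ a := by
    rw [← FiniteField.X_pow_card_pow_sub_X_natDegree_eq k (by omega : a ≠ 0) hp, ← Polynomial.card_rootSet_eq_natDegree
      (galois_poly_separable p _ (dvd_pow_self p (by omega : a ≠ 0)))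
      (IsAlgClosed.splits ((Polynomial.X ^ p ^ a - Polynomial.X : Polynomial k).map (algebraMap k k))),
      ← Nat.card_eq_fintype_card]
    exact Nat.card_congr (Equiv.subtypeEquivRight fun t => by
      simp [mem_Fq, Polynomial.mem_rootSet_of_ne (FiniteField.X_pow_card_pow_sub_X_ne_zero k (by omega : a ≠ 0) hp),
        sub_eq_zero])
  obtain ⟨r, hr, e⟩ := card_pow_of_le (F0 := Fq k p a) (F := F) fun t ht => a1 t (hLM _ t ((mem_Fq p).1 ht))
  rw [h0] at e
  refine ⟨r, hr, closure_le.2 fun s t ht => a2 s t ((CA.H12BG4.mem_iff_pow F).1 (e ▸ ht)), fun g hg i j => ?_⟩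
  rw [← e]; exact (CA.H12BG4.mem_iff_pow F).2 (a3 g hg i j)

end Cfsg.Agent.S2189
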