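import Cfsg.Statements.S2190
import Cfsg.Agent.Lib.Lie.H12BG5

set_option autoImplicit false
open Cfsg

namespace Cfsg.Agent.S2190

open CA.Chev CA.H12BG3 CA.H12BG5

/-- Subfield subgroups of prime degree are maximal. Let K be a finite field with q^r elements, r a prime, q a power of the characteristic, and G the Chevalley group of type G₂, B₂, D₄, F₄, E₆, E₇ or E₈ over K (the matrix group generated by the root elements). Let M be the subgroup of G consisting of the matrices all of whose entries lie in the subfield with q elements (entries c with c^q = c). Then M is a proper subgroup of G and is maximal: every subgroup of G containing M is M or G. -/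
theorem result {K : Type*} [Field K] [Fintype K] (p : ℕ) [Fact p.Prime] [CharP K p] (D : Cfsg.Lie.ChevalleyDatum) (hD : D ∈ [Cfsg.Lie.chevG2, Cfsg.Lie.chevB2, Cfsg.Lie.chevD4, Cfsg.Lie.chevF4, Cfsg.Lie.chevE6, Cfsg.Lie.chevE7, Cfsg.Lie.chevE8]) (a r : ℕ) (ha : 1 ≤ a) (hr : r.Prime) (hK : Fintype.card K = (p ^ a) ^ r) (M : Subgroup (GL D.Idx K))
    (hM : ∀ g : GL D.Idx K, g ∈ M ↔ g ∈ D.group K ∧ ∀ i j : D.Idx, ((g : Matrix D.Idx D.Idx K) i j) ^ (p ^ a) = (g : Matrix D.Idx D.Idx K) i j) :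
    M ≠ D.group K ∧ ∀ H : Subgroup (GL D.Idx K), M ≤ H → H ≤ D.group K → H = M ∨ H = D.group K := by
  have := good_of_mem hD
  rw [← Nat.card_eq_fintype_card] at hK
  have h0 : ∀ (s : Rt D) (t : K), xG s t ∈ D.group K := fun s t => group_eq (D := D) (K := K) ▸ (adj D K).x_mem_G s t
  have h1 : ∀ (s : Rt D) (t : K), xG s t ∈ M ↔ t ^ p ^ a = t := fun s t => by
    rw [hM, ← map_eq_iff p, map_xG, (xG_injective s).eq_iff, iterateFrobenius_def, and_iff_right (h0 s t)]
  refine ⟨fun e => ?_, fun H h2 h3 => ?_⟩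
  · obtain ⟨t, ht⟩ := exists_not_fix p ha hr.one_lt hK
    exact ht ((h1 (tp D) t).1 (e ▸ h0 _ t))
  have : Finite (GL D.Idx K) := inferInstance
  obtain ⟨F, _, a1, a2, a3⟩ := bgl p hD h3 fun s => h2 ((h1 s 1).2 (one_pow _))
  rcases eq_or_top p ha hr hK (F := F) fun t ht => a1 t (h2 ((h1 _ t).2 ((mem_Fq p).1 ht))) with rfl | rfl
  · exact Or.inl (le_antisymm (fun g hg => (hM g).2 ⟨h3 hg, fun i j => (mem_Fq p).1 (a3 g hg i j)⟩) h2)
  · refine Or.inr (le_antisymm h3 ?_)
    rw [group_eq]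
    exact ((adj D K).X_le (S := Set.univ)).2 fun s _ t => a2 s t trivial

end Cfsg.Agent.S2190
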