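import Cfsg.Statements.S2191
import Cfsg.Agent.Lib.Lie.H12BG7

set_option autoImplicit false
open Cfsg

namespace Cfsg.Agent.S2191

open CA.Chev CA.H12BG1 CA.H12BG5 CA.H12BG6 CA.H12BG7

/-- In the twisted group ²E₆(q), realised inside the Chevalley group of type E₆ over the field K with q² elements (q a power of the characteristic) as the subgroup generated by the root elements, and products of root elements, that the twisting map fixes, the subgroup of matrices all of whose entries lie in the subfield with q elements (entries c with c^q = c; it contains the subgroup of type F₄ over that subfield) is a proper maximal subgroup. -/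
theorem result {K : Type*} [Field K] [Fintype K] (p : ℕ) [Fact p.Prime] [CharP K p] (q : ℕ) (hq : ∃ a : ℕ, 1 ≤ a ∧ q = p ^ a) (hK : Fintype.card K = q ^ 2) (M : Subgroup (GL Cfsg.Lie.chevE6.Idx K))
    (hM : ∀ g : GL Cfsg.Lie.chevE6.Idx K, g ∈ M ↔ g ∈ Cfsg.Lie.twistedE6 K q ∧ ∀ i j : Cfsg.Lie.chevE6.Idx, ((g : Matrix Cfsg.Lie.chevE6.Idx Cfsg.Lie.chevE6.Idx K) i j) ^ q = (g : Matrix Cfsg.Lie.chevE6.Idx Cfsg.Lie.chevE6.Idx K) i j) :
    M ≠ Cfsg.Lie.twistedE6 K q ∧ ∀ H : Subgroup (GL Cfsg.Lie.chevE6.Idx K), M ≤ H → H ≤ Cfsg.Lie.twistedE6 K q → H = M ∨ H = Cfsg.Lie.twistedE6 K q := by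
  obtain ⟨a, ha, rfl⟩ := hq
  obtain ⟨α, h1, h2, -, h3⟩ := exists_tE6 ((Fact.out : p.Prime).isPrimePow.pow (by omega)) hK
  obtain ⟨t, ht⟩ := exists_not_fix p ha one_lt_two h3
  have e := TE6.ty2 h2 (i := nE6 0) (by decide +kernel)
  refine final (TE6.real h1 h2) h1 TE6.f_eq TE6.hc lin_E6 (fun φ M h => main_E6 p h2 h) ⟨_, _, (e.mem_Op TE6.hc).2 ⟨t, rfl⟩, ?_⟩ hM
  rwa [(cf_mul_T (pos_sim _) t (Tg_sim (nE6 0) ▸ Sys0.x_mem_Up _ (pos_sim _) (sim_injective.ne e.ne.symm) _)).2, h1]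

end Cfsg.Agent.S2191
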