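import Cfsg.Statements.S2209
import Cfsg.Agent.Lib.Lie.H12Cent

set_option autoImplicit false
open Cfsg

namespace Cfsg.Agent.S2209

open CA.Chev CA.H12Inv2 CA.H12Cent CA.H12Sup

theorem main {D : Lie.ChevalleyDatum} [Good D] {K : Type*} [Field K] [CharP K 2] {T : Tab} (hT : tab D = T) {G : List ℕ}
    {θ : ℕ} (hθ : D.nroots - 1 = θ) (h : (supChk T [θ] [] [θ] 2 && centChk T [θ] ([θ] ++ []) [] [(θ, 1)] (fun _ => [(θ, 1)]) &&
      genChk T [θ] (List.range' (T.n / 2) (T.n / 2) ++ G) [] [(θ, 1)]) = true) (h2 : T.n / 2 + T.n / 2 = T.n)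
    (h3 : ∀ r ∈ G, r < T.n) (t : GL D.Idx K) (ht : (t : Matrix D.Idx D.Idx K) = D.x K (D.nroots - 1) 1) :
    D.group K ⊓ Subgroup.centralizer {t} = D.posUnipotent K ⊔
      Subgroup.closure {g : GL D.Idx K | ∃ s ∈ G, ∃ c : K, (g : Matrix D.Idx D.Idx K) = D.x K s c} := by
  rw [eq_ev [θ] (ht.trans (by simp [hθ])), group_eq, posUnipotent_eq, cent_U _ (fun _ _ h => h) hT h h2, RL,
    ← closure_x_eq (· ∈ G) (by subst hT; exact h3)]
  simp only [exists_and_left]

/-- Centralizer of a long root involution in the Chevalley groups of type E₆, E₇, E₈ over a finite field F of characteristic two. Let G be the group generated by the root elements, U the subgroup generated by the positive root subgroups, r the highest root (the last root index: 71, 125, 239 respectively), and t the element of G with matrix x_r(1). Then the centralizer of t in G is the subgroup generated by U together with the root subgroups X_{−p} for the fundamental roots p orthogonal to r — all fundamental roots except p₂ for E₆, except p₁ for E₇, except p₈ for E₈ (numbering with p₁–p₃–p₄–…–p_l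 the long chain and p₂ joined to p₄); the indices of these negative fundamental roots are 15, 29, 32, 34, 35 (E₆), 47, 52, 56, 59, 61, 62 (E₇), 77, 98, 104, 109, 113, 116, 118 (E₈). (This is the unipotent radical of the corresponding maximal parabolic subgroup extended by the root subgroups of its Levi factor, of type A₅, D₆, E₇ respectively.) -/
theorem result {F : Type*} [Field F] [Fintype F] [CharP F 2] (d : Cfsg.Lie.ChevalleyDatum × List ℕ)
    (hd : d ∈ [(Cfsg.Lie.chevE6, [15, 29, 32, 34, 35]), (Cfsg.Lie.chevE7, [47, 52, 56, 59, 61, 62]), (Cfsg.Lie.chevE8, [77, 98, 104, 109, 113, 116, 118])])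
    (t : GL d.1.Idx F) (ht : (t : Matrix d.1.Idx d.1.Idx F) = d.1.x F (d.1.nroots - 1) 1) :
    d.1.group F ⊓ Subgroup.centralizer {t} = d.1.posUnipotent F ⊔ Subgroup.closure {g : GL d.1.Idx F | ∃ s ∈ d.2, ∃ c : F, (g : Matrix d.1.Idx d.1.Idx F) = d.1.x F s c} := by
  simp only [List.mem_cons, List.not_mem_nil, or_false] at hd
  rcases hd with rfl | rfl | rfl
  · exact main tab_E6 (θ := 71) rfl (by decide +kernel) (by decide +kernel) (by decide +kernel) t ht
  · exact main tab_E7 (θ := 125) rfl (by decide +kernel) (by decide +kernel) (by decide +kernel) t ht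
  · exact main tab_E8 (θ := 239) rfl (by decide +kernel) (by decide +kernel) (by decide +kernel) t ht

end Cfsg.Agent.S2209
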