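import Cfsg.Statements.S2212
import Cfsg.Agent.Lib.Rec.H19PguB
import Cfsg.Agent.Lib.Lin.FieldIso

set_option autoImplicit false
open Cfsg

namespace Cfsg.Agent.S2212

open CA.H19Pgu CA.AutForm CA.CForm Subgroup in

/-- Characterization of the three-dimensional projective unitary groups over finite fields of characteristic two by the centralizer of an involution. Let q = 2^n > 2 and let PGU₃(q) be the quotient of the full unitary group of a non-degenerate Hermitian form in three variables over the field with q² elements by its centre. Let G be a finite group of even order in which all involutions are conjugate, the centralizer of an involution is isomorphic to the centralizer of an involution in PGU₃(q), and a Sylow 2-subgroup is not normal. Then G ≅ PGU₃(q). -/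
theorem result {G : Type*} [Group G] [Finite G] {F : Type*} [Field F] [Fintype F] [CharP F 2] (q : ℕ) (hq : 2 < q) (hF : Fintype.card F = q ^ 2)
    (heven : Even (Nat.card G)) (hconj : ∀ s t : G, orderOf s = 2 → orderOf t = 2 → IsConj s t)
    (hC : ∀ (x : G) (y : (↥(Cfsg.GU 3 F q) ⧸ Subgroup.center ↥(Cfsg.GU 3 F q))), orderOf x = 2 → orderOf y = 2 →
      Nonempty (↥(Subgroup.centralizer ({x} : Set G)) ≃* ↥(Subgroup.centralizer ({y} : Set (↥(Cfsg.GU 3 F q) ⧸ Subgroup.center ↥(Cfsg.GU 3 F q))))))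
    (hS : ∀ P : Sylow 2 G, ¬ (P : Subgroup G).Normal) :
    Nonempty (G ≃* (↥(Cfsg.GU 3 F q) ⧸ Subgroup.center ↥(Cfsg.GU 3 F q))) := by
  haveI := Fact.mk Nat.prime_two
  have hs : ¬(3 = 3 ∧ q = 2) := by omega
  have o2 : ∀ t : G, t ≠ 1 → t * t = 1 → orderOf t = 2 := fun t t1 t2 => orderOf_eq_prime (by rw [sq, t2]) t1
  have h : Hyp G q := ⟨hq, heven, fun t t1 t2 => by
    obtain ⟨e⟩ := hC t _ (o2 t t1 t2) (ord_yy (hF := hF) hs)
    exact At.of_spec ((spec_yy hs).of_equiv e), hS⟩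
  obtain ⟨L, _, K, _, _, hL, hK, ⟨e0⟩⟩ := h.exists_L
  obtain ⟨f⟩ := CA.FieldIso.nonempty_ringEquiv (F := K) (K := F) (by
    rw [Nat.card_eq_fintype_card, Nat.card_eq_fintype_card, hK, hF])
  let e : L ≃* PSU 3 F q := e0.trans (CA.FieldIso.psuEquiv f 3 q)
  let φ : G →* MulAut (PSU 3 F q) := (MulAut.congr e).toMonoidHom.comp MulAut.conjNormal
  have φa : ∀ (g : G) (l : L), φ g (e l) = e (MulAut.conjNormal g l) := fun g l => by
    simp [φ]
  have φi : Function.Injective φ := (injective_iff_map_eq_one _).2 fun g hg => by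
    rw [← mem_bot, ← h.cent_bot hL, mem_centralizer_iff]
    intro l hl
    have := φa g ⟨l, hl⟩
    rw [hg, MulAut.one_apply] at this
    have h2 : l = g * l * g⁻¹ := congrArg Subtype.val (e.injective this)
    exact eq_mul_inv_iff_mul_eq.1 h2
  have φl : ∀ l : L, φ l = MulAut.conj (e l) := fun l => by
    ext x
    obtain ⟨x, rfl⟩ := e.surjective x
    rw [φa, MulAut.conj_apply, ← map_inv, ← map_mul, ← map_mul]
    rfl
  have ψl : ∀ l : L, ∃ s, φ l = psi hF hs (jG s) := fun l => by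
    obtain ⟨s, hs⟩ := QuotientGroup.mk_surjective (e l)
    exact ⟨s, by rw [φl, psi_jG, hs]⟩
  choose su hsu using exists_su (hF := hF)
  have jsu : ∀ a ha, jG (su a ha) = rho (zH a ha) := fun a ha => Subtype.ext (hsu a ha)
  let zl : ∀ a, conj hF a = a → L := fun a ha => e.symm (QuotientGroup.mk (su a ha))
  have φz : ∀ a ha, φ (zl a ha) = psi hF hs (rho (zH a ha)) := fun a ha => by
    rw [φl, MulEquiv.apply_symm_apply, ← psi_jG hs, jsu]
  have zl2 : ∀ a ha, (zl a ha : G) * zl a ha = 1 := fun a ha => φi (by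
    rw [map_mul, φz, ← map_mul, ← map_mul, zH_sq, map_one, map_one, map_one])
  let z : G := zl 1 (map_one _)
  have φ1 : φ z = psiQ hF hs (yy hF) := φz _ _
  have z1 : z ≠ 1 := fun e => by
    have h1 := ord_yy (hF := hF) hs
    rw [e, map_one, eq_comm, map_eq_one_iff _ (psiQ_injective hs)] at φ1
    rw [φ1, orderOf_one] at h1
    omega
  have z2 : z * z = 1 := zl2 _ _
  have zc : ∀ a ha, (zl a ha : G) * z = z * zl a ha := fun a ha => φi (by
    rw [map_mul, map_mul, φz, φz, ← map_mul, ← map_mul, (spec_H hF).cen _ _ (zH_sq a ha), map_mul, map_mul])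
  obtain ⟨χ, -, -, hχ⟩ := (embSU hF le_rfl hs).exists_chi_top ((embSU hF le_rfl hs).Ph_surjective (genSU hF))
    fun σ => ⟨1, 1, inr_mem_SU hF σ⟩
  have fr : ∀ g : G, ∃ l ∈ L, ∃ c, c * z = z * c ∧ g = l * c := fun g => by
    obtain ⟨l, hl, e⟩ := h.conj_in hL (s := g * z * g⁻¹) (u := z)
      (fun e => z1 (by rw [show z = g⁻¹ * (g * z * g⁻¹) * g by group, e]; group)) z1
      (by rw [show g * z * g⁻¹ * (g * z * g⁻¹) = g * (z * z) * g⁻¹ by group, z2]; group) z2
    refine ⟨l, hl, l⁻¹ * g, ?_, by group⟩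
    calc _ = l⁻¹ * (g * z * g⁻¹) * g := by group
      _ = _ := by rw [← e]; group
  have le1 : ∀ g, φ g ∈ (psiQ hF hs).range := fun g => by
    obtain ⟨l, hl, c, hc, rfl⟩ := fr g
    obtain ⟨s, h1⟩ := ψl ⟨l, hl⟩
    rw [map_mul]
    refine mul_mem ⟨QuotientGroup.mk (jG s), h1.symm⟩ ?_
    obtain ⟨g, hg, σ, h2⟩ := exists_Ph_SU hF le_rfl hs (φ c)
    have h3 : σ * σ = 1 := sq_of_fix hs ⟨⟨g, σ⟩, _⟩ fun a ha => by
      rw [← h2, ← φz, ← map_inv, ← map_mul, ← map_mul, ← h.tr z1 z2 (zl2 a ha) (zc a ha) hc, mul_inv_cancel_right]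
    have h4 : σ ^ L.index = 1 := by
      obtain ⟨s, h5⟩ := ψl ⟨_, L.pow_index_mem c⟩
      have h6 := congrArg χ h5
      rw [psi_apply, hχ, map_pow, h2, map_pow, hχ] at h6
      exact h6
    obtain ⟨m, hm⟩ := hL
    rw [hm, pow_succ, pow_mul, sq, h3, one_pow, one_mul] at h4
    subst h4
    exact ⟨QuotientGroup.mk ⟨g, hg⟩, h2.symm⟩
  obtain ⟨θ, hθ⟩ : ∃ θ : G →* GU 3 F q ⧸ center (GU 3 F q), ∀ g, psiQ hF hs (θ g) = φ g :=
    ⟨(MonoidHom.ofInjective (psiQ_injective (hF := hF) hs)).symm.toMonoidHom.comp (φ.codRestrict _ le1),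
      fun g => MonoidHom.apply_ofInjective_symm (psiQ_injective hs) ⟨_, le1 g⟩⟩
  clear_value φ
  have θi : Function.Injective θ := fun a b e => φi (by rw [← hθ, ← hθ, e])
  have θz : θ z = yy hF := psiQ_injective hs (by rw [hθ, φ1])
  let θc : centralizer ({z} : Set G) → centralizer ({yy hF} : Set (GU 3 F q ⧸ center (GU 3 F q))) := fun c =>
    ⟨θ c, mc.2 (by rw [← θz, ← map_mul, mc.1 c.2, map_mul])⟩
  have θs : Function.Surjective θc := by
    obtain ⟨e1⟩ := hC z _ (o2 z z1 z2) (ord_yy (hF := hF) hs)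
    have hi : Function.Injective θc := fun a b e => by
      have h1 : θ a = θ b := Subtype.ext_iff.1 e
      exact Subtype.ext (θi h1)
    haveI : Finite (centralizer ({yy hF} : Set (GU 3 F q ⧸ center (GU 3 F q)))) := Finite.of_equiv _ e1.toEquiv
    exact (hi.bijective_of_nat_card_le (Nat.card_congr e1.toEquiv).ge).2
  refine ⟨MulEquiv.ofBijective θ ⟨θi, fun w => ?_⟩⟩
  let u : L := e.symm (psiQ hF hs w (e (zl 1 (map_one _))))
  have φu : φ u = psiQ hF hs (w * yy hF * w⁻¹) := by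
    rw [map_mul, map_mul, map_inv, ← φ1, φl, φl, MulEquiv.apply_symm_apply]
    ext x
    simp [MulAut.conj_apply]
  obtain ⟨l, -, h1⟩ := h.conj_in hL (s := u) (u := z) (fun e => z1 (φi (by
      rw [e, map_one, eq_comm, map_eq_one_iff _ (psiQ_injective hs), mul_inv_eq_one, mul_eq_left] at φu
      rw [φ1, φu, map_one, map_one]))) z1 (φi (by
      rw [map_mul, φu, ← map_mul, show w * yy hF * w⁻¹ * (w * yy hF * w⁻¹) = w * (yy hF * yy hF) * w⁻¹ by group,
        ← θz, ← map_mul, z2, map_one, mul_one, mul_inv_cancel, map_one, map_one])) z2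
  have h2 : θ l * yy hF * (θ l)⁻¹ = w * yy hF * w⁻¹ := psiQ_injective hs (by
    rw [← φu, ← h1, ← θz, ← map_inv, ← map_mul, ← map_mul, hθ])
  obtain ⟨c, hc⟩ := θs ⟨(θ l)⁻¹ * w, mc.2 (by
    calc _ = (θ l)⁻¹ * (w * yy hF * w⁻¹) * w := by group
      _ = _ := by rw [← h2]; group)⟩
  have h3 : θ c = (θ l)⁻¹ * w := Subtype.ext_iff.1 hc
  exact ⟨l * c, by rw [map_mul, h3, mul_inv_cancel_left]⟩

end Cfsg.Agent.S2212
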