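import Cfsg.Statements.S2214
import Cfsg.Agent.Lib.Lie.H23Sub
import Cfsg.Agent.Lib.Lie.ChevAll

set_option autoImplicit false
open Cfsg

namespace Cfsg.Agent.S2214

open CA.Chev

/-- Let k be an algebraically closed field of prime characteristic p, G the adjoint Chevalley group of type G₂, B₂, D₄, F₄, E₆, E₇ or E₈ over k (the matrix group generated by the root elements x_s(t), t ∈ k, acting on the Lie algebra), q = p^a with a ≥ 1, and K a subgroup of G containing every root element x_s(t) with t^q = t and consisting of matrices all of whose entries c satisfy c^q = c. Then the centralizer of K in G is trivial, and the normalizer of K in G is exactly the set of elements of G all of whose entries c satisfy c^q = c. -/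
theorem result {k : Type*} [Field k] [IsAlgClosed k] (p : ℕ) [Fact p.Prime] [CharP k p] (D : Cfsg.Lie.ChevalleyDatum) (hD : D ∈ [Cfsg.Lie.chevG2, Cfsg.Lie.chevB2, Cfsg.Lie.chevD4, Cfsg.Lie.chevF4, Cfsg.Lie.chevE6, Cfsg.Lie.chevE7, Cfsg.Lie.chevE8]) (a : ℕ) (ha : 1 ≤ a) (K : Subgroup (GL D.Idx k)) (hKG : K ≤ D.group k)
    (hLK : Subgroup.closure {g : GL D.Idx k | ∃ (s : ℕ) (t : k), t ^ (p ^ a) = t ∧ (g : Matrix D.Idx D.Idx k) = D.x k s t} ≤ K)
    (hKfix : ∀ g ∈ K, ∀ i j : D.Idx, ((g : Matrix D.Idx D.Idx k) i j) ^ (p ^ a) = (g : Matrix D.Idx D.Idx k) i j) :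
    D.group k ⊓ Subgroup.centralizer (K : Set (GL D.Idx k)) = ⊥ ∧
    ∀ g : GL D.Idx k, g ∈ D.group k → (g ∈ Subgroup.normalizer (K : Set (GL D.Idx k)) ↔ ∀ i j : D.Idx, ((g : Matrix D.Idx D.Idx k) i j) ^ (p ^ a) = (g : Matrix D.Idx D.Idx k) i j) := by
  haveI := good_of_mem hD
  let σ : k →+* k := iterateFrobenius k p a
  let τ : Twist (adj D k) := fieldTwist σ (Matrix.GeneralLinearGroup.map σ) fun r t => Units.ext (map_xR σ r t)
  have hc : ∀ j, τ.T.c (sim j) = 1 := fun _ => rfl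
  have ok : τ.OK := Twist.ok_of_node fun j => Twist.nodeOK1 hc rfl
  have hF : ∀ g : GL D.Idx k, g ∈ τ.F ↔
      ∀ i j : D.Idx, ((g : Matrix D.Idx D.Idx k) i j) ^ (p ^ a) = (g : Matrix D.Idx D.Idx k) i j := fun g =>
    ⟨fun h i j => congrArg (fun g : GL D.Idx k => (g : Matrix D.Idx D.Idx k) i j) (τ.mem_F.1 h),
      fun h => Units.ext (Matrix.ext fun i j => h i j)⟩
  have h1 : τ.G1 ≤ K := ok.G1_le (fun j g hg => by
      obtain ⟨t, ht, rfl⟩ := (Twist.mem_Op1 hc (i := j) rfl).1 hg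
      exact hLK (Subgroup.subset_closure ⟨_, t, ht, (x_eq _ t).symm⟩)) (fun j g hg => by
      obtain ⟨t, ht, rfl⟩ := (Twist.mem_On1 hc (i := j) rfl).1 hg
      exact hLK (Subgroup.subset_closure ⟨_, t, ht, (x_eq _ t).symm⟩))
  rw [group_eq] at hKG ⊢
  refine ⟨eq_bot_iff.2 fun g hg => ok.θ_eq_one_of_comm hg.1 fun y hy => hg.2 y (h1 hy), fun g hg => ?_⟩
  rw [ok.mem_normalizer_iff (fun _ _ h => h) h1 hKG (fun g hg => (hF g).2 (hKfix g hg)) hg, hF]

end Cfsg.Agent.S2214
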