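import Cfsg.Statements.S2221
import Cfsg.Agent.Lib.Perm.SymSyl2

set_option autoImplicit false
open Cfsg

namespace Cfsg.Agent.S2221

open Subgroup Equiv Equiv.Perm CA.NilS1

def Dec {G : Type*} [Group G] (S : Subgroup G) : Prop :=
  ∃ S₁ S₂ : Subgroup G, S₁ ≠ ⊥ ∧ S₂ ≠ ⊥ ∧ IsInternalDirectProduct S₁ S₂ S

theorem dec_map {G H : Type*} [Group G] [Group H] {φ : H →* G} (hφ : Function.Injective φ) (Q : Subgroup H) :
    Dec (Q.map φ) ↔ Dec Q := by
  have key : ∀ A B : Subgroup H, (A.map φ ≠ ⊥ ∧ B.map φ ≠ ⊥ ∧ IsInternalDirectProduct (A.map φ) (B.map φ) (Q.map φ)) ↔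
      (A ≠ ⊥ ∧ B ≠ ⊥ ∧ IsInternalDirectProduct A B Q) := fun A B => by
    unfold IsInternalDirectProduct
    rw [← Subgroup.map_inf _ _ _ hφ, ← Subgroup.map_sup, (map_injective hφ).eq_iff, map_le_map_iff_of_injective hφ,
      map_le_map_iff_of_injective hφ, Ne, Ne, map_eq_bot_iff_of_injective _ hφ, map_eq_bot_iff_of_injective _ hφ,
      map_eq_bot_iff_of_injective _ hφ]
    refine and_congr_right' (and_congr_right' (and_congr_right' (and_congr_right' (and_congr_left' ?_))))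
    constructor
    · intro h a ha b hb
      exact hφ (by rw [map_mul, map_mul, h _ ⟨a, ha, rfl⟩ _ ⟨b, hb, rfl⟩])
    · rintro h _ ⟨a, ha, rfl⟩ _ ⟨b, hb, rfl⟩
      rw [← map_mul, h a ha b hb, map_mul]
  refine ⟨fun ⟨A, B, h⟩ => ⟨A.comap φ, B.comap φ, (key _ _).1 ?_⟩, fun ⟨A, B, h⟩ => ⟨_, _, (key A B).2 h⟩⟩
  rwa [map_comap_eq_self (h.2.2.1.trans (map_le_range _ _)), map_comap_eq_self (h.2.2.2.1.trans (map_le_range _ _))]

theorem dec_prod {G H : Type*} [Group G] [Group H] {A : Subgroup G} {B : Subgroup H} (hA : A ≠ ⊥) (hB : B ≠ ⊥) :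
    Dec (A.prod B) := by
  refine ⟨A.prod ⊥, prod ⊥ B, fun h => hA (prod_eq_bot_iff.1 h).1, fun h => hB (prod_eq_bot_iff.1 h).2,
    prod_mono le_rfl bot_le, prod_mono bot_le le_rfl, ?_, ?_, ?_⟩
  · rintro ⟨a, b⟩ ⟨-, h1⟩ ⟨c, d⟩ ⟨h2, -⟩
    obtain rfl : b = 1 := h1
    obtain rfl : c = 1 := h2
    simp
  · rw [eq_bot_iff]
    rintro ⟨a, b⟩ ⟨⟨-, h1⟩, h2, -⟩
    exact Prod.ext h2 h1
  · refine le_antisymm (sup_le (prod_mono le_rfl bot_le) (prod_mono bot_le le_rfl)) ?_
    rintro ⟨a, b⟩ ⟨h1, h2⟩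
    have : (a, b) = (a, 1) * (1, b) := by simp
    rw [this]
    exact mul_mem_sup ⟨h1, one_mem _⟩ ⟨one_mem _, h2⟩

theorem key1 {n : ℕ} (hn : 2 ≤ n) (P : Sylow 2 (alternatingGroup (Fin n))) {H γ : Type*} [Group H] [Fintype γ]
    [DecidableEq γ] (hγ : Fintype.card γ ≤ n) {φ : H →* Perm γ} (hφ : Function.Injective φ) {Q : Subgroup H}
    (h1 : ∀ g ∈ Q, sign (φ g) = 1) (h2 : 2 * Nat.card Q = s n) : Dec P.1 ↔ Dec Q := by
  classical
  obtain ⟨ι⟩ : Nonempty (γ ↪ Fin n) := Function.Embedding.nonempty_of_card_le (by simpa using hγ)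
  let ψ : H →* Perm (Fin n) := (viaEmbeddingHom ι).comp φ
  have hψ : Function.Injective ψ := (viaEmbeddingHom_injective ι).comp hφ
  have hle : Q.map ψ ≤ alternatingGroup (Fin n) := by
    rintro _ ⟨g, hg, rfl⟩
    rw [mem_alternatingGroup, ← h1 g hg]
    change sign ((φ g).viaEmbedding ι) = _
    unfold viaEmbedding
    convert sign_extendDomain (φ g) (ofInjective ι.1 ι.2)
  have hc : Nat.card ((Q.map ψ).subgroupOf (alternatingGroup (Fin n))) =
      2 ^ (Nat.card (alternatingGroup (Fin n))).factorization 2 := by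
    rw [Nat.card_congr (subgroupOfEquivOfLe hle).toEquiv, card_map_of_injective hψ, ← P.card_eq_multiplicity]
    have := CA.NilS2.card_syl_alt hn P
    omega
  obtain ⟨g, hg⟩ := MulAction.exists_smul_eq (alternatingGroup (Fin n)) (Sylow.ofCard _ hc) P
  have : P.1 = ((Q.map ψ).subgroupOf (alternatingGroup (Fin n))).map (MulAut.conj g).toMonoidHom := by
    rw [← hg]; rfl
  rw [this, dec_map (MulAut.conj g).injective, ← dec_map (alternatingGroup (Fin n)).subtype_injective,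
    map_subgroupOf_eq_of_le hle, dec_map hψ]

theorem key2 {n : ℕ} (P : Sylow 2 (alternatingGroup (Fin n))) {H γ : Type*} [Group H] [Fintype γ]
    [DecidableEq γ] (hγ : Fintype.card γ + 2 ≤ n) {φ : H →* Perm γ} (hφ : Function.Injective φ) {Q : Subgroup H}
    (h2 : 2 * Nat.card Q = s n) : Dec P.1 ↔ Dec Q := by
  refine key1 (by omega) P (γ := γ ⊕ ℤˣ) (by simpa using hγ)
    (φ := (sumCongrHom γ ℤˣ).comp (φ.prod ((MulAction.toPermHom ℤˣ ℤˣ).comp (sign.comp φ))))
    (sumCongrHom_injective.comp fun x y e => hφ (congrArg Prod.fst e)) (fun g _ => ?_) h2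
  have : ∀ u : ℤˣ, u * sign (MulAction.toPermHom ℤˣ ℤˣ u) = 1 := by decide
  exact (sign_sumCongr _ _).trans (this _)

variable {β : Type} [Fintype β] [DecidableEq β]

def w (σ : Perm β) (c : β → ZMod 2) : Perm (β × ZMod 2) := prodShear σ fun X => Equiv.addRight (c X)

omit [Fintype β] [DecidableEq β] in
theorem w_mul (σ τ : Perm β) (c d : β → ZMod 2) : w σ c * w τ d = w (σ * τ) (c ∘ τ + d) := by
  ext x
  · rfl
  · change x.2 + d x.1 + c (τ x.1) = x.2 + (c (τ x.1) + d x.1)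
    ring

omit [Fintype β] [DecidableEq β] in
theorem w_inj {σ τ : Perm β} {c d : β → ZMod 2} (h : w σ c = w τ d) : σ = τ ∧ c = d :=
  ⟨Equiv.ext fun X => congrArg (fun g : Perm (β × ZMod 2) => (g (X, 0)).1) h, funext fun X => by
    have : (0 : ZMod 2) + c X = 0 + d X := congrArg (fun g : Perm (β × ZMod 2) => (g (X, 0)).2) h
    simpa using this⟩

omit [Fintype β] [DecidableEq β] in
theorem w_one : w (1 : Perm β) 0 = 1 := by
  ext x
  · rfl
  · exact add_zero _

theorem z2 : ∀ a : ZMod 2, a ≠ 0 → a = 1 := by decide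

theorem aa {β : Type} (c : β → ZMod 2) : c + c = 0 := funext fun X => CharTwo.add_self_eq_zero (c X)

omit [Fintype β] [DecidableEq β] in
theorem w_inv (σ : Perm β) (c : β → ZMod 2) : (w σ c)⁻¹ = w σ⁻¹ (c ∘ ⇑σ⁻¹) :=
  inv_eq_of_mul_eq_one_right (by rw [w_mul, mul_inv_cancel, aa, w_one])

theorem sign_w (σ : Perm β) {c : β → ZMod 2} (hc : ∑ X, c X = 0) : sign (w σ c) = 1 := by
  have h1 : w σ c = prodCongrLeft (fun _ : ZMod 2 => σ) * prodCongrRight fun X => Equiv.addRight (c X) := rfl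
  have h2 : ∀ S : Finset β, ∏ X ∈ S, sign (Equiv.addRight (c X)) = sign (Equiv.addRight (∑ X ∈ S, c X)) := by
    intro S
    induction S using Finset.induction_on with
    | empty => rw [Finset.prod_empty, Finset.sum_empty]; decide
    | insert a S ha ih =>
      have : ∀ x y : ZMod 2, sign (Equiv.addRight x) * sign (Equiv.addRight y) = sign (Equiv.addRight (x + y)) := by
        decide
      rw [Finset.prod_insert ha, Finset.sum_insert ha, ih, this]
  rw [h1, map_mul, sign_prodCongrLeft, sign_prodCongrRight, h2, hc, Finset.prod_const, Finset.card_univ, ZMod.card,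
    Int.units_sq]
  decide

def WS (T : Subgroup (Perm β)) (S : AddSubgroup (β → ZMod 2)) (hS : ∀ c ∈ S, ∀ τ : Perm β, c ∘ τ ∈ S) :
    Subgroup (Perm (β × ZMod 2)) where
  carrier := {g | ∃ σ ∈ T, ∃ c ∈ S, g = w σ c}
  one_mem' := ⟨1, one_mem _, 0, zero_mem _, w_one.symm⟩
  mul_mem' := by
    rintro _ _ ⟨σ, h1, c, h2, rfl⟩ ⟨τ, h3, d, h4, rfl⟩
    exact ⟨_, mul_mem h1 h3, _, add_mem (hS c h2 τ) h4, w_mul ..⟩
  inv_mem' := by
    rintro _ ⟨σ, h1, c, h2, rfl⟩
    exact ⟨_, inv_mem h1, _, hS c h2 _, w_inv ..⟩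

omit [Fintype β] [DecidableEq β] in
theorem card_WS (T : Subgroup (Perm β)) (S : AddSubgroup (β → ZMod 2)) (hS) :
    Nat.card (WS T S hS) = Nat.card T * Nat.card S := by
  rw [← Nat.card_prod]
  refine (Nat.card_congr (ofBijective (fun x : T × S => (⟨w x.1 x.2, _, x.1.2, _, x.2.2, rfl⟩ : WS T S hS))
    ⟨fun x y e => ?_, ?_⟩)).symm
  · have := w_inj (congrArg Subtype.val e)
    exact Prod.ext (Subtype.ext this.1) (Subtype.ext this.2)
  · rintro ⟨_, σ, h1, c, h2, rfl⟩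
    exact ⟨(⟨σ, h1⟩, ⟨c, h2⟩), rfl⟩

theorem decomp {G : Type*} [Group G] {A B P : Subgroup G} (h : IsInternalDirectProduct A B P) {g : G} (hg : g ∈ P) :
    ∃ a ∈ A, ∃ b ∈ B, g = a * b := by
  let M : Subgroup G :=
    { carrier := {g | ∃ a ∈ A, ∃ b ∈ B, g = a * b}
      one_mem' := ⟨1, one_mem _, 1, one_mem _, (mul_one _).symm⟩
      mul_mem' := by
        rintro _ _ ⟨a, ha, b, hb, rfl⟩ ⟨a', ha', b', hb', rfl⟩
        refine ⟨_, mul_mem ha ha', _, mul_mem hb hb', ?_⟩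
        rw [mul_assoc, ← mul_assoc b, ← h.2.2.1 a' ha' b hb]; group
      inv_mem' := by
        rintro _ ⟨a, ha, b, hb, rfl⟩
        exact ⟨_, inv_mem ha, _, inv_mem hb, by rw [h.2.2.1 a ha b hb, mul_inv_rev]⟩ }
  have : A ⊔ B ≤ M := sup_le (fun a ha => ⟨a, ha, 1, one_mem _, (mul_one _).symm⟩)
    fun b hb => ⟨1, one_mem _, b, hb, (one_mul _).symm⟩
  exact this (h.2.2.2.2 ▸ hg)

theorem symm' {G : Type*} [Group G] {A B P : Subgroup G} (h : IsInternalDirectProduct A B P) :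
    IsInternalDirectProduct B A P :=
  ⟨h.2.1, h.1, fun b hb a ha => (h.2.2.1 a ha b hb).symm, inf_comm A B ▸ h.2.2.2.1, sup_comm A B ▸ h.2.2.2.2⟩

theorem triv {G : Type*} [Group G] {A B P : Subgroup G} (h : IsInternalDirectProduct A B P) {g : G} (h1 : g ∈ A)
    (h2 : g ∈ B) : g = 1 := mem_bot.1 (h.2.2.2.1 ▸ (⟨h1, h2⟩ : g ∈ A ⊓ B))

theorem nrm {G : Type*} [Group G] {A B P : Subgroup G} (h : IsInternalDirectProduct A B P) {g a : G} (hg : g ∈ P)
    (ha : a ∈ A) : g * a * g⁻¹ ∈ A := by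
  obtain ⟨a', h1, b, h2, rfl⟩ := decomp h hg
  have : a' * b * a * (a' * b)⁻¹ = a' * a * a'⁻¹ := by
    rw [mul_assoc a' b, ← h.2.2.1 a ha b h2]; group
  rw [this]
  exact mul_mem (mul_mem h1 ha) (inv_mem h1)

theorem cent {G : Type*} [Group G] {A B P : Subgroup G} (h : IsInternalDirectProduct A B P) {g a b : G} (hg : g ∈ P)
    (ha : a ∈ A) (hb : b ∈ B) (e : g * (a * b) = a * b * g) : g * a = a * g := by
  have h1 : a⁻¹ * (g * a * g⁻¹) = b * (g * b⁻¹ * g⁻¹) := by
    calc _ = a⁻¹ * (g * (a * b)) * b⁻¹ * g⁻¹ := by group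
      _ = _ := by rw [e]; group
  have := triv h (mul_mem (inv_mem ha) (nrm h hg ha)) (h1 ▸ mul_mem hb (nrm (symm' h) hg (inv_mem hb)))
  calc g * a = a * (a⁻¹ * (g * a * g⁻¹)) * g := by group
    _ = _ := by rw [this, mul_one]

variable (β) in
def Ev : AddSubgroup (β → ZMod 2) where
  carrier := {c | ∑ X, c X = 0}
  zero_mem' := by simp
  add_mem' := fun {c d} (h1 : ∑ X, c X = 0) (h2 : ∑ X, d X = 0) => by
    change ∑ X, (c X + d X) = 0
    rw [Finset.sum_add_distrib, h1, h2, add_zero]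
  neg_mem' := fun {c} (h1 : ∑ X, c X = 0) => by
    change ∑ X, -c X = 0
    rw [Finset.sum_neg_distrib, h1, neg_zero]

omit [DecidableEq β] in
theorem hEv : ∀ c ∈ Ev β, ∀ τ : Perm β, c ∘ τ ∈ Ev β := fun c h τ => (Equiv.sum_comp τ c).trans h

def D (X Y : β) : β → ZMod 2 := Pi.single X 1 + Pi.single Y 1

theorem D_mem (X Y : β) : D X Y ∈ Ev β := by
  change ∑ Z, ((Pi.single X 1 : β → ZMod 2) Z + (Pi.single Y 1 : β → ZMod 2) Z) = 0
  rw [Finset.sum_add_distrib]
  simp only [Finset.sum_pi_single', Finset.mem_univ, if_true]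
  rfl

theorem card_Ev (X : β) : 2 * Nat.card (Ev β) = 2 ^ Fintype.card β := by
  let f : (β → ZMod 2) →+ ZMod 2 := AddMonoidHom.mk' (fun c => ∑ X, c X) fun c d => Finset.sum_add_distrib
  have h1 : Ev β = f.ker := rfl
  have h2 : f.range = ⊤ := AddMonoidHom.range_eq_top.2 fun a => ⟨Pi.single X a, by simp [f]⟩
  have := f.ker.index_mul_card
  rw [AddSubgroup.index_ker, h2, AddSubgroup.card_top, Nat.card_fun, Nat.card_zmod, Nat.card_eq_fintype_card (α := β)]
    at this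
  exact this

omit [Fintype β] [DecidableEq β] in
theorem comm_e {σ : Perm β} {c d : β → ZMod 2} (h : w 1 d * w σ c = w σ c * w 1 d) : d ∘ σ = d := by
  rw [w_mul, w_mul] at h
  have : d ∘ σ + c = c + d := (w_inj h).2
  rw [add_comm] at this
  exact add_left_cancel this

theorem faith (h3 : 3 ≤ Fintype.card β) {σ : Perm β} (h : ∀ d ∈ Ev β, d ∘ σ = d) : σ = 1 := by
  ext X
  by_contra hX
  obtain ⟨Y, hY⟩ : ∃ Y, Y ∉ ({X, σ X} : Finset β) :=
    Finset.exists_mem_notMem_of_card_lt_card (s := {X, σ X}) (t := Finset.univ)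
      (Finset.card_le_two.trans_lt h3) |>.imp fun _ h => h.2
  simp only [Finset.mem_insert, Finset.mem_singleton, not_or] at hY
  have := congrFun (h _ (D_mem (σ X) Y)) X
  have h1 : X ≠ σ X := fun e => hX e.symm
  simp [D, Ne.symm hY.1, Ne.symm hY.2, h1] at this

theorem span {m : Perm β} (hm : ∀ X, m (m X) = X) (hf : ∀ X, m X ≠ X) (S : AddSubgroup (β → ZMod 2))
    (hS : ∀ X, D X (m X) ∈ S) (f : β → ZMod 2) (h : ∀ X, f (m X) = f X) : f ∈ S := by
  induction hn : (Finset.univ.filter fun X => f X ≠ 0).card using Nat.strong_induction_on generalizing f with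
  | _ n ih =>
    by_cases h0 : f = 0
    · rw [h0]; exact zero_mem _
    obtain ⟨X, hX⟩ := Function.ne_iff.1 h0
    have h1 : f X = 1 := z2 _ hX
    have hD : ∀ Y, D X (m X) Y = if Y = X ∨ Y = m X then 1 else 0 := fun Y => by
      by_cases a : Y = X
      · simp [D, a, (hf X).symm]
      · by_cases b : Y = m X
        · simp [D, b, hf X]
        · simp [D, a, b]
    have := ih _ ?_ (f + D X (m X)) (fun Y => ?_) rfl
    · exact (S.add_mem_cancel_right (hS X)).1 this
    · rw [← hn]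
      refine Finset.card_lt_card ⟨fun Y hY => ?_, fun hY => ?_⟩
      · simp only [Finset.mem_filter, Finset.mem_univ, true_and, Pi.add_apply, hD] at hY ⊢
        intro e
        split_ifs at hY with b
        · rcases b with rfl | rfl
          · exact hX e
          · exact hX ((h X).symm.trans e)
        · exact hY (by rw [e, add_zero])
      · have := hY (show X ∈ _ by simpa using hX)
        simp only [Finset.mem_filter, Finset.mem_univ, true_and, Pi.add_apply, hD, h1, true_or, if_true] at this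
        exact this rfl
    · rw [Pi.add_apply, Pi.add_apply, h, hD, hD]
      have : (m Y = X ∨ m Y = m X) ↔ (Y = X ∨ Y = m X) := by
        rw [m.injective.eq_iff, or_comm]
        exact or_congr_right ⟨fun e => by rw [← e, hm], fun e => by rw [e, hm]⟩
      simp only [this]

variable {T : Subgroup (Perm β)} {A B : Subgroup (Perm (β × ZMod 2))} {m : Perm β}

omit [DecidableEq β] in
theorem e_mem {d : β → ZMod 2} (hd : d ∈ Ev β) : w 1 d ∈ WS T (Ev β) hEv := ⟨1, one_mem _, d, hd, rfl⟩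

theorem split (h3 : 3 ≤ Fintype.card β) (h : IsInternalDirectProduct A B (WS T (Ev β) hEv)) {d : β → ZMod 2}
    (hd : d ∈ Ev β) : ∃ x ∈ Ev β, ∃ y ∈ Ev β, w 1 x ∈ A ∧ w 1 y ∈ B ∧ d = x + y := by
  obtain ⟨a, ha, b, hb, e⟩ := decomp h (e_mem hd)
  obtain ⟨σ, -, x, hx, rfl⟩ := h.1 ha
  obtain ⟨τ, -, y, hy, rfl⟩ := h.2.1 hb
  obtain rfl : σ = 1 := faith h3 fun c hc => comm_e (cent h (e_mem hc) ha hb (by
    rw [← e, w_mul, w_mul]; congr 1; exact add_comm _ _))
  rw [w_mul] at e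
  obtain ⟨e1, e2⟩ := w_inj e
  rw [one_mul] at e1
  subst e1
  exact ⟨x, hx, y, hy, ha, hb, e2⟩

omit [DecidableEq β] in
theorem cmm (h : IsInternalDirectProduct A B (WS T (Ev β) hEv)) {σ : Perm β} {c d : β → ZMod 2} (ha : w σ c ∈ A)
    (hd : d ∈ Ev β) : w 1 (d ∘ σ + d) ∈ A := by
  have := mul_mem (inv_mem ha) (nrm h (e_mem hd) ha)
  convert this using 1
  rw [eq_inv_mul_iff_mul_eq, eq_mul_inv_iff_mul_eq, w_mul, w_mul, w_mul]
  congr 1
  ext X
  simp only [Pi.add_apply, Function.comp_apply, Perm.coe_one, id]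
  linear_combination CharTwo.add_self_eq_zero (d X)

theorem swap_add (X Y : β) (d : β → ZMod 2) : d ∘ swap X Y = d ∨ d ∘ swap X Y + d = D X Y := by
  by_cases h : d X = d Y
  · exact Or.inl (funext fun Z => by
      simp only [Function.comp_apply, swap_apply_def]; split_ifs with a b <;> simp [*])
  · have h1 : d X + d Y = 1 := by revert h; generalize d X = a; generalize d Y = b; revert a b; decide
    have h2 : X ≠ Y := fun e => h (e ▸ rfl)
    refine Or.inr (funext fun Z => ?_)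
    simp only [Pi.add_apply, Function.comp_apply, swap_apply_def, D]
    split_ifs with a b
    · simp [a, h2, add_comm, h1]
    · simp [b, h2.symm, h1]
    · simp [a, b, CharTwo.add_self_eq_zero]

def col (A : Subgroup (Perm (β × ZMod 2))) (m : Perm β) (X : β) : Prop := ∃ c, w (swap X (m X)) c ∈ A

theorem col_of (h3 : 3 ≤ Fintype.card β) (h : IsInternalDirectProduct A B (WS T (Ev β) hEv)) {X : β}
    (hT : swap X (m X) ∈ T) (hB : w 1 (D X (m X)) ∉ B) : col A m X := by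
  obtain ⟨a, ha, b, hb, e⟩ := decomp h (g := w (swap X (m X)) 0) ⟨_, hT, 0, zero_mem _, rfl⟩
  obtain ⟨σ, -, x, hx, rfl⟩ := h.1 ha
  obtain ⟨τ, -, y, hy, rfl⟩ := h.2.1 hb
  have e1 : swap X (m X) = σ * τ := (w_inj (e.trans (w_mul ..))).1
  obtain rfl : τ = 1 := faith h3 fun d hd => by
    obtain ⟨u, hu, v, hv, h1, h2, rfl⟩ := split h3 h hd
    have a1 := comm_e (h.2.2.1 _ h1 _ hb)
    have a2 := comm_e (h.2.2.1 _ ha _ h2).symm
    have a3 : v ∘ swap X (m X) = v ∘ τ := by rw [e1, Perm.coe_mul, ← Function.comp_assoc, a2]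
    have a4 : v ∘ τ = v := by
      rcases swap_add X (m X) v with a | a
      · rw [← a3, a]
      · exact absurd (by rw [← a, a3]; exact cmm (symm' h) hb hv) hB
    rw [Pi.add_comp, a1, a4]
  exact ⟨x, by rwa [e1, mul_one]⟩

theorem col_D (h3 : 3 ≤ Fintype.card β) (h : IsInternalDirectProduct A B (WS T (Ev β) hEv)) (hf : ∀ X, m X ≠ X)
    {X : β} (hX : col A m X) : w 1 (D X (m X)) ∈ A := by
  obtain ⟨c, hc⟩ := hX
  obtain ⟨Y, hY⟩ : ∃ Y, Y ∉ ({X, m X} : Finset β) :=
    Finset.exists_mem_notMem_of_card_lt_card (s := {X, m X}) (t := Finset.univ)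
      (Finset.card_le_two.trans_lt h3) |>.imp fun _ h => h.2
  simp only [Finset.mem_insert, Finset.mem_singleton, not_or] at hY
  rcases swap_add X (m X) (D X Y) with a | a
  · have := congrFun a X
    simp [D, Ne.symm hY.1, Ne.symm hY.2, hf X] at this
  · exact a ▸ cmm h hc (D_mem X Y)

theorem D_ne {X Y : β} (h : X ≠ Y) : w 1 (D X Y) ≠ 1 := fun e => by
  have := congrFun (w_inj (e.trans w_one.symm)).2 X
  simp [D, h] at this

theorem nb (h3 : 3 ≤ Fintype.card β) (h : IsInternalDirectProduct A B (WS T (Ev β) hEv)) (hm : ∀ X, m (m X) = X)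
    (hf : ∀ X, m X ≠ X) {X Y : β} (hX : col A m X) (hY : col B m Y) : X ≠ Y ∧ m X ≠ Y := by
  have a1 := col_D h3 h hf hX
  have a2 := col_D h3 (symm' h) hf hY
  refine ⟨?_, ?_⟩ <;> rintro rfl
  · exact D_ne (hf X).symm (triv h a1 a2)
  · rw [hm, D, add_comm] at a2
    exact D_ne (hf X).symm (triv h a1 a2)

omit [Fintype β] in
theorem inv_of {P} (h : IsInternalDirectProduct A B P) {X : β} (hX : col A m X) {y : β → ZMod 2} (hy : w 1 y ∈ B) :
    y (m X) = y X := by
  obtain ⟨c, hc⟩ := hX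
  simpa using congrFun (comm_e (h.2.2.1 _ hc _ hy).symm) X

theorem all_col (h3 : 3 ≤ Fintype.card β) (h : IsInternalDirectProduct A B (WS T (Ev β) hEv)) (hf : ∀ X, m X ≠ X)
    (hm : ∀ X, m (m X) = X) (hX : ∀ X, col A m X) : B = ⊥ := by
  let S : AddSubgroup (β → ZMod 2) :=
    { carrier := {c | w 1 c ∈ A}
      zero_mem' := by change w 1 0 ∈ A; rw [w_one]; exact one_mem _
      add_mem' := fun {c d} h1 h2 => by have := A.mul_mem h1 h2; rwa [w_mul] at this
      neg_mem' := fun {c} h1 => by rwa [show -c = c from neg_eq_of_add_eq_zero_left (aa c)] }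
  have key : ∀ d ∈ Ev β, w 1 d ∈ A := fun d hd => by
    obtain ⟨x, -, y, -, h1, h2, rfl⟩ := split h3 h hd
    exact S.add_mem h1 (span hm hf S (fun X => col_D h3 h hf (hX X)) y fun X => inv_of h (hX X) h2)
  rw [eq_bot_iff]
  intro b hb
  obtain ⟨σ, -, c, hc, rfl⟩ := h.2.1 hb
  obtain rfl : σ = 1 := faith h3 fun d hd => comm_e (h.2.2.1 _ (key d hd) _ hb)
  exact triv h (key c hc) hb

theorem indecE (h3 : 3 ≤ Fintype.card β) (hm : ∀ X, m (m X) = X) (hf : ∀ X, m X ≠ X)
    (hT : ∀ X, swap X (m X) ∈ T) : ¬ Dec (WS T (Ev β) hEv) := by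
  rintro ⟨A, B, hA, hB, h⟩
  have hc : ∀ X, col A m X ∨ col B m X := fun X => by
    by_cases a : w 1 (D X (m X)) ∈ B
    · exact Or.inr (col_of h3 (symm' h) (hT X) fun b => D_ne (hf X).symm (triv h b a))
    · exact Or.inl (col_of h3 h (hT X) a)
  obtain ⟨Y, hY⟩ := not_forall.1 fun a => hB (all_col h3 h hf hm a)
  obtain ⟨X, hX⟩ := not_forall.1 fun a => hA (all_col h3 (symm' h) hf hm a)
  replace hX := (hc X).resolve_right hX
  replace hY := (hc Y).resolve_left hY
  obtain ⟨x, -, y, hy, h1, h2, e⟩ := split h3 h (D_mem X Y)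
  have e' : y + Pi.single Y 1 = x + Pi.single X 1 := by
    have : x + y = Pi.single X 1 + Pi.single Y 1 := e.symm
    linear_combination this + aa (Pi.single Y (1 : ZMod 2)) - aa x
  have := span hm hf (Ev β) (fun X => D_mem _ _) (y + Pi.single Y 1) fun Z => by
    rcases hc Z with a | a
    · have := nb h3 h hm hf a hY
      simp [inv_of h a h2, this.1, this.2]
    · have := nb h3 (symm' h) hm hf a hX
      rw [e']
      simp [inv_of (symm' h) a h1, this.1, this.2]
  have h4 : ∑ Z, Pi.single Y (1 : ZMod 2) Z = 0 := ((Ev β).add_mem_cancel_left hy).1 this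
  simp at h4

theorem indecT (hp : IsPGroup 2 (WS T ⊤ fun _ _ _ => AddSubgroup.mem_top _)) (ht : ∀ X Y, ∃ τ ∈ T, τ X = Y) :
    ¬ Dec (WS T ⊤ fun _ _ _ => AddSubgroup.mem_top _) := by
  have key : ∀ A B : Subgroup (Perm (β × ZMod 2)), A ≠ ⊥ → IsInternalDirectProduct A B (WS T ⊤ fun _ _ _ => AddSubgroup.mem_top _) →
      w 1 1 ∈ A ∧ w (1 : Perm β) 1 ≠ 1 := fun A B hA h => by
    have : Fact (Nat.Prime 2) := ⟨Nat.prime_two⟩
    have := (nontrivial_iff_ne_bot A).2 hA
    obtain ⟨⟨⟨a, ha⟩, hz⟩, h1⟩ := @exists_ne _ (IsPGroup.center_nontrivial (hp.to_le h.1)) 1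
    have hc : ∀ g ∈ WS T ⊤ fun _ _ _ => AddSubgroup.mem_top _, g * a = a * g := fun g hg => by
      obtain ⟨a', ha', b, hb, rfl⟩ := decomp h hg
      have : a' * a = a * a' := congrArg Subtype.val (mem_center_iff.1 hz ⟨a', ha'⟩)
      rw [mul_assoc, ← h.2.2.1 a ha b hb, ← mul_assoc, this, mul_assoc]
    obtain ⟨σ, -, c, -, rfl⟩ := h.1 ha
    obtain rfl : σ = 1 := by
      ext X
      by_contra hX
      have := congrFun (comm_e (hc (w 1 (Pi.single X 1)) ⟨1, one_mem _, _, trivial, rfl⟩)) X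
      have h1 : σ X ≠ X := hX
      simp [h1] at this
    have h2 : w 1 c ≠ 1 := fun e => h1 (Subtype.ext (Subtype.ext e))
    obtain ⟨X, hX⟩ := Function.ne_iff.1 fun e : c = 0 => h2 (e ▸ w_one)
    obtain rfl : c = 1 := funext fun Y => by
      obtain ⟨τ, hτ, rfl⟩ := ht X Y
      have := congrFun (comm_e (hc (w τ 0) ⟨τ, hτ, _, trivial, rfl⟩).symm) X
      rw [Function.comp_apply] at this
      rw [this]
      exact z2 _ hX
    exact ⟨ha, h2⟩
  rintro ⟨A, B, hA, hB, h⟩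
  exact (key A B hA h).2 (triv h (key A B hA h).1 (key B A hB (symm' h)).1)

theorem card_syl' (P : Sylow 2 (Perm β)) : Nat.card P = s (Fintype.card β) := by
  rw [P.card_eq_multiplicity, CA.SymSyl1.card_perm', Nat.factorization_def _ Nat.prime_two, s]

/-- Direct decomposability of the Sylow 2-subgroups of the alternating groups. Let n ≥ 4 and let P be a Sylow 2-subgroup of the alternating group of degree n. Then P is the internal direct product of two nontrivial subgroups if and only if n = 4, n = 5, or n ≡ 2, 3 (mod 4) with 4⌊n/4⌋ not a power of 2. In the remaining cases (n ≡ 0, 1 (mod 4) with n ≥ 8, or n ≡ 2, 3 (mod 4) with 4⌊n/4⌋ a power of 2) P is directly indecomposable. -/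
theorem result (n : ℕ) (hn : 4 ≤ n)
    (P : Sylow 2 (alternatingGroup (Fin n))) :
    (∃ S₁ S₂ : Subgroup (alternatingGroup (Fin n)), S₁ ≠ ⊥ ∧ S₂ ≠ ⊥ ∧
        Cfsg.IsInternalDirectProduct S₁ S₂ (P : Subgroup (alternatingGroup (Fin n)))) ↔
      (n = 4 ∨ n = 5 ∨ ((n % 4 = 2 ∨ n % 4 = 3) ∧ ∀ r : ℕ, 4 * (n / 4) ≠ 2 ^ r)) := by
  change Dec P.1 ↔ _
  have : Fact (Nat.Prime 2) := ⟨Nat.prime_two⟩
  obtain ⟨t, ht⟩ : ∃ t, t = n / 4 := ⟨_, rfl⟩
  rw [← ht]
  by_cases h1 : n % 4 ≤ 1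
  · have hs : s n = s (4 * t) := by
      obtain h | h : n = 4 * t ∨ n = 4 * t + 1 := by omega
      · rw [← h]
      · rw [h, s41]
    by_cases h2 : t = 1
    · refine iff_of_true ?_ (by omega)
      rw [key1 (by omega) P (γ := Fin 2 × Fin 2) (by simpa using hn) (H := Perm (Fin 2) × Perm (Fin 2))
        (φ := MonoidHom.mk' (fun p => prodCongr p.1 p.2) fun _ _ => rfl) (by decide) (Q := prod ⊤ ⊤)
        (fun g h => by clear h; revert g; decide) (by rw [hs, h2, top_prod_top, s4]; simp [Fintype.card_perm])]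
      exact dec_prod top_ne_bot top_ne_bot
    · refine iff_of_false ?_ (by omega)
      obtain ⟨T⟩ : Nonempty (Sylow 2 (Perm (Fin (2 * t)))) := inferInstance
      obtain ⟨m, hm, hc⟩ := CA.SymSyl1.exists_mt T.2
      have hT := card_syl' T
      have hf : ∀ X, m X ≠ X := fun X => by
        have := m.sum_cycleType
        rw [hm.cyc.1, Multiset.sum_replicate, Fintype.card_fin, smul_eq_mul] at this
        have h3 : m.support = Finset.univ := Finset.eq_univ_of_card _ (by rw [Fintype.card_fin]; omega)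
        exact mem_support.1 (h3 ▸ Finset.mem_univ X)
      rw [key1 (by omega) P (γ := Fin (2 * t) × ZMod 2) (by simp; omega) (φ := MonoidHom.id _) (fun _ _ h => h)
        (Q := WS T.1 (Ev _) hEv) (by rintro _ ⟨σ, -, c, hc, rfl⟩; exact sign_w σ hc) (by
          rw [card_WS, mul_left_comm, card_Ev ⟨0, by omega⟩, hT, hs, Fintype.card_fin, show 4 * t = 2 * (2 * t) by ring,
            s_two (2 * t), mul_comm])]
      exact indecE (by simp; omega) hm.sq hf (hm.swap_mem hT hc)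
  · have hs : s n = 2 * s (4 * t) := by
      obtain h | h : n = 4 * t + 2 ∨ n = 4 * t + 3 := by omega
      · rw [h, s42]
      · rw [h, s43]
    by_cases h2 : ∀ r : ℕ, 4 * t ≠ 2 ^ r
    · refine iff_of_true ?_ (Or.inr (Or.inr ⟨by omega, h2⟩))
      obtain ⟨j, hj⟩ : ∃ j, j = Nat.log 2 (4 * t) := ⟨_, rfl⟩
      have a1 : 2 ^ j ≤ 4 * t := hj ▸ Nat.pow_log_le_self 2 (by omega)
      have a2 : 4 * t < 2 ^ (j + 1) := hj ▸ Nat.lt_pow_succ_log_self one_lt_two _
      obtain ⟨u, hu⟩ := Nat.exists_eq_add_of_le a1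
      have a3 := h2 j
      have a4 : 2 ∣ 2 ^ j := dvd_pow_self 2 (by rintro rfl; omega)
      rw [pow_succ] at a2
      obtain ⟨T₁⟩ : Nonempty (Sylow 2 (Perm (Fin (2 ^ j)))) := inferInstance
      obtain ⟨T₂⟩ : Nonempty (Sylow 2 (Perm (Fin u))) := inferInstance
      have ne : ∀ k, 2 ≤ k → ∀ T : Sylow 2 (Perm (Fin k)), T.1 ≠ ⊥ := fun k hk T e => by
        have := CA.NilS2.card_syl T
        have := s_mono hk
        rw [s2] at this
        have := card_eq_one.2 e
        omega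
      rw [key2 P (γ := Fin (2 ^ j) ⊕ Fin u) (by simp; omega) sumCongrHom_injective (Q := T₁.1.prod T₂.1) (by
        rw [Nat.card_congr (prodEquiv _ _).toEquiv, Nat.card_prod, CA.NilS2.card_syl, CA.NilS2.card_syl, hs, hu,
          CA.SymSyl2.s_top j u (by omega)])]
      exact dec_prod (ne _ (by omega) _) (ne _ (by omega) _)
    · refine iff_of_false ?_ (by rintro (h | h | h); exacts [by omega, by omega, h2 h.2])
      push Not at h2
      obtain ⟨r, hr⟩ := h2
      obtain _ | j := r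
      · omega
      rw [pow_succ] at hr
      let β := Multiplicative (ZMod (2 ^ j))
      have hβ : Fintype.card β = 2 ^ j := by simp [β]
      obtain ⟨T, hT⟩ := ((IsPGroup.of_card (p := 2) (G := (⊤ : Subgroup β)) (n := j) (by simp [β])).map
        (MulAction.toPermHom β β)).exists_le_sylow
      have hc : Nat.card (WS T.1 ⊤ fun _ _ _ => AddSubgroup.mem_top _) = s (4 * t) := by
        rw [card_WS, card_syl', AddSubgroup.card_top, Nat.card_fun, Nat.card_zmod, Nat.card_eq_fintype_card, hβ, hr,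
          mul_comm (2 ^ j) 2, s_two, mul_comm]
      rw [key2 P (γ := β × ZMod 2) (by rw [Fintype.card_prod, hβ, ZMod.card]; omega) (φ := MonoidHom.id _)
        (fun _ _ h => h) (Q := WS T.1 ⊤ fun _ _ _ => AddSubgroup.mem_top _) (by rw [hc, hs])]
      exact indecT (IsPGroup.of_card hc) fun X Y => ⟨_, hT ⟨Y * X⁻¹, trivial, rfl⟩, inv_mul_cancel_right Y X⟩

end Cfsg.Agent.S2221
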