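import Cfsg.Statements.S2222
import Cfsg.Agent.Lib.Perm.SymSyl2
import Cfsg.Agent.Lib.Grp.H10Pron

set_option autoImplicit false
open Cfsg

namespace Cfsg.Agent.S2222

open Subgroup CA.SymSyl1 CA.SymSyl2 MulAction

/-- In the alternating group of degree n ≥ 5 every subgroup H of odd index is pronormal: for every element g, the subgroups H and gHg⁻¹ are conjugate by an element of the subgroup they generate. -/
theorem result (n : ℕ) (hn : 5 ≤ n)
    (H : Subgroup (alternatingGroup (Fin n))) (hH : Odd H.index) : Cfsg.IsPronormal H := by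
  obtain ⟨R⟩ : Nonempty (Sylow 2 (alternatingGroup (Fin n))) := inferInstance
  refine CA.H10Pron.allP_of_norm R (fun K hK => ?_) H hH.not_two_dvd_nat
  obtain ⟨T, hT, e⟩ := exists_syl R
  by_cases h6 : 6 ≤ n
  · refine le_trans (fun g hg => ?_) (hK.trans le_normalizer)
    rw [e] at hg ⊢
    exact self_norm_alt (by simpa) hT fun t h1 h2 => (mem_normalizer_iff.1 hg ⟨t, h2⟩).1 h1
  obtain rfl : n = 5 := by omega
  obtain ⟨o, h3, -, h4⟩ := uniq (k := 2) le_rfl (by simp) hT
  rw [← e] at h4
  have hR := CA.NilS2.card_syl_alt (by omega) R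
  have hA := two_mul_nat_card_alternatingGroup (α := Fin 5)
  have := alternatingGroup.isPretransitive_of_three_le_card (Fin 5) (by simp)
  have hM := (stabilizer (alternatingGroup (Fin 5)) o).card_mul_index
  rw [show CA.NilS1.s 5 = 8 from (CA.NilS1.s_odd 2).trans CA.NilS1.s4] at hR
  rw [card_perm', Fintype.card_fin] at hA
  rw [index_stabilizer_of_transitive, Nat.card_eq_fintype_card (α := Fin 5), Fintype.card_fin] at hM
  simp only [Nat.factorial] at hA
  rcases h4 K hK with h5 | rfl
  swap
  · exact le_top.trans (normalizer_eq_top _).ge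
  obtain ⟨a, ha⟩ := card_dvd_of_le hK
  obtain ⟨b, hb⟩ := card_dvd_of_le h5
  have h7 : a * b = 3 := by
    have : Nat.card R * (a * b) = Nat.card R * 3 := by rw [← mul_assoc, ← ha, ← hb]; omega
    exact Nat.eq_of_mul_eq_mul_left Nat.card_pos this
  rcases (Nat.dvd_prime Nat.prime_three).1 (Dvd.intro _ h7) with rfl | rfl
  · rw [← eq_of_le_of_card_ge hK (by omega)]
  · rw [eq_of_le_of_card_ge h5 (by omega)]
    refine le_trans ((h4 _ le_normalizer).resolve_right fun e => ?_) le_normalizer
    rcases (normalizer_eq_top_iff.1 e).eq_bot_or_eq_top with e | e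
    · rw [e, card_bot] at hR; omega
    · rw [e, card_top] at hR; omega

end Cfsg.Agent.S2222
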