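import Cfsg.Statements.S2227
import Cfsg.Agent.Lib.Lie.H23E6c
import Cfsg.Agent.S1066

set_option autoImplicit false
open Cfsg

namespace Cfsg.Agent.S2227

open CA.Chev CA.Chev.E6five

/-- In the twisted group ²E₆(2) all elements of order 5 are conjugate, and the centralizer of an element of order 5 is isomorphic to the direct product of a cyclic group of order 5 with the alternating group of degree 8. -/
theorem result {K : Type*} [Field K] [Fintype K] (hK : Fintype.card K = 4) :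
    (∀ x y : ↥(Cfsg.Lie.twistedE6 K 2), orderOf x = 5 → orderOf y = 5 → IsConj x y) ∧
      ∀ x : ↥(Cfsg.Lie.twistedE6 K 2), orderOf x = 5 →
        Nonempty (↥(Subgroup.centralizer ({x} : Set ↥(Cfsg.Lie.twistedE6 K 2))) ≃* (Multiplicative (ZMod 5) × ↥(alternatingGroup (Fin 8)))) := by
  have h2 : (2 : K) = 0 := by
    have := FiniteField.cast_card_eq_zero K
    rw [hK, show (4 : ℕ) = 2 ^ 2 from rfl, Nat.cast_pow] at this
    exact_mod_cast eq_zero_of_pow_eq_zero this
  have : CharP K 2 := (CharP.charP_iff_prime_eq_zero Nat.prime_two).2 (by exact_mod_cast h2)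
  have hq : IsPrimePow 2 := Nat.prime_two.isPrimePow
  have hc := Cfsg.Agent.S1066.result (K := K) hq hK
  have hc' : Nat.card (Cfsg.Lie.twistedE6 K 2) = 76532479683774853939200 := by norm_num at hc; omega
  have : Finite (Cfsg.Lie.twistedE6 K 2) := Nat.finite_of_card_ne_zero (by rw [hc']; norm_num)
  obtain ⟨τ, Φ, hα, hρ, hι, hf⟩ := form_2E6 K (p := 2) hq hK
  obtain ⟨ζ, hζ⟩ := exists_unit_order (K := AlgebraicClosure K) (n := 5) (by
    rw [Ne, CharP.cast_eq_zero_iff _ 2]; norm_num)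
  have key := fun {x} => typ hζ hα hι Φ (x := x) (by rw [hc']; norm_num)
  refine ⟨fun x y hx hy => ?_, fun x hx => ?_⟩
  · obtain ⟨s, rfl, a, ha⟩ := key hx
    obtain ⟨t, rfl, b, hb⟩ := key hy
    have e : IsConj s.1 t.1 := isConj_iff.2 ⟨b * a⁻¹, by
      rw [show b * a⁻¹ * s.1 * (b * a⁻¹)⁻¹ = b * (a⁻¹ * s * a) * b⁻¹ by group, ha, ← hb]; group⟩
    refine Φ.π.map_isConj (τ.isConj_F Φ.S Φ.fr ?_ e)
    have h5 : s ^ 5 = 1 := Subtype.ext (by
      rw [Subgroup.coe_pow, show s.1 = a * (a⁻¹ * s * a) * a⁻¹ by group, conj_pow, ha, ← map_pow,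
        show c0 ζ ^ 5 = 1 from pow5 hζ v0]; simp)
    exact Nat.Coprime.coprime_dvd_left (orderOf_dvd_of_pow_eq_one h5) (by norm_num)
  · obtain ⟨s, rfl, a, ha⟩ := key hx
    exact cent hζ hα hι Φ hρ hf ha

end Cfsg.Agent.S2227
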