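import Cfsg.Statements.S2231
import Cfsg.Agent.Lib.Lin.PSL2Struct

set_option autoImplicit false
open Cfsg

namespace Cfsg.Agent.S2231

/-- Let p be an odd prime and K a finite field of characteristic p. Then Qd(p) (the natural semidirect product of an elementary abelian group of order p² by SL₂(p)) is not involved in the projective special linear group PSL₂(K). -/
theorem result {p : ℕ} [Fact p.Prime] (hp : p ≠ 2) {K : Type*} [Field K] [Fintype K] [CharP K p] : ¬ Cfsg.Involves ↥(Cfsg.qd p) (Matrix.ProjectiveSpecialLinearGroup (Fin 2) K) := by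
  open CA.PSL2Struct Matrix in
  rintro ⟨H, R, _, ⟨e⟩⟩
  let T : Subgroup (Matrix.SpecialLinearGroup (Fin 3) (ZMod p)) :=
    { carrier := {M | M.1 2 0 = 0 ∧ M.1 2 1 = 0 ∧ M.1 2 2 = 1 ∧ M.1 1 0 = 0 ∧ M.1 0 0 = 1 ∧ M.1 1 1 = 1}
      one_mem' := by simp
      mul_mem' := by
        rintro a b ⟨h1, h2, h3, h4, h5, h6⟩ ⟨k1, k2, k3, k4, k5, k6⟩
        simp [mul_apply, Fin.sum_univ_three, *]
      inv_mem' := by
        rintro a ⟨h1, h2, h3, h4, h5, h6⟩
        simp [adjugate_fin_three, *] }
  have hT : T ≤ qd p := fun M hM => Subgroup.subset_closure ⟨hM.1, hM.2.1, hM.2.2.1⟩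
  have hp3 : 3 ≤ p := by have := (Fact.out : p.Prime).two_le; omega
  have hTp : IsPGroup p T := by
    rintro ⟨M, h1, h2, h3, h4, h5, h6⟩
    refine ⟨1, Subtype.ext (Subtype.ext ?_)⟩
    have h7 : (M.1 - 1) ^ 3 = 0 := by
      ext i j
      fin_cases i <;> fin_cases j <;> simp [pow_succ, mul_apply, Fin.sum_univ_three, *]
    have := add_pow_char_of_commute p (Commute.one_left (M.1 - 1))
    rw [add_sub_cancel, one_pow, pow_eq_zero_of_le hp3 h7, add_zero] at this
    simpa using this
  let π : H →* qd p := e.toMonoidHom.comp (QuotientGroup.mk' _)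
  have hπ : Function.Surjective π := e.surjective.comp (QuotientGroup.mk'_surjective _)
  obtain ⟨P, hP⟩ := (hTp.comap_subtype (K := qd p)).exists_le_sylow
  obtain ⟨Q, rfl⟩ := Sylow.mapSurjective_surjective hπ p P
  obtain ⟨S, hS⟩ := (Q.isPGroup'.map H.subtype).exists_le_sylow
  obtain ⟨y, rfl⟩ := MulAction.exists_smul_eq (ProjectiveSpecialLinearGroup (Fin 2) K) (sylowUb K p) S
  have key : ∀ a ∈ T, ∀ b ∈ T, a * b = b * a := by
    intro a ha b hb
    obtain ⟨x, hx, hx'⟩ := hP (x := ⟨a, hT ha⟩) ha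
    obtain ⟨z, hz, hz'⟩ := hP (x := ⟨b, hT hb⟩) hb
    obtain ⟨x', h1, h2⟩ := hS ⟨x, hx, rfl⟩
    obtain ⟨z', h3, h4⟩ := hS ⟨z, hz, rfl⟩
    have : x * z = z * x := Subtype.ext (by
      show H.subtype x * H.subtype z = H.subtype z * H.subtype x
      rw [← h2, ← h4]
      show MulAut.conj y x' * MulAut.conj y z' = MulAut.conj y z' * MulAut.conj y x'
      rw [← map_mul, ← map_mul, Ub_comm h1 h3])
    have := congrArg (fun t => (π t).1) this
    simpa [hx', hz'] using this
  have := key (Matrix.SpecialLinearGroup.transvection (show (0 : Fin 3) ≠ 1 by decide) 1)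
    (by simp [T, Matrix.SpecialLinearGroup.transvection_coe])
    (Matrix.SpecialLinearGroup.transvection (show (1 : Fin 3) ≠ 2 by decide) 1)
    (by simp [T, Matrix.SpecialLinearGroup.transvection_coe])
  have := congrArg (fun M : Matrix.SpecialLinearGroup (Fin 3) (ZMod p) => M.1 0 2) this
  simp [Matrix.SpecialLinearGroup.transvection_coe, mul_apply, Fin.sum_univ_three] at this

end Cfsg.Agent.S2231
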