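import Cfsg.Statements.S2232
import Cfsg.Agent.Lib.Lin.SU3
import Cfsg.Agent.Lib.Grp.L0Qd

set_option autoImplicit false
open Cfsg

namespace Cfsg.Agent.S2232

open Subgroup CA.SU3 CA.L0Qd Matrix
open scoped MatrixGroups

def e12 (p : ℕ) (a : ZMod p) : qd p :=
  ⟨⟨!![1, a, 0; 0, 1, 0; 0, 0, 1], by simp [det_fin_three]⟩, subset_closure ⟨rfl, rfl, rfl⟩⟩

def e21 (p : ℕ) (a : ZMod p) : qd p :=
  ⟨⟨!![1, 0, 0; a, 1, 0; 0, 0, 1], by simp [det_fin_three]⟩, subset_closure ⟨rfl, rfl, rfl⟩⟩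

theorem mx12 (p : ℕ) (a : ZMod p) : mx (e12 p a).1 = !![1, a, 0; 0, 1, 0; 0, 0, 1] := rfl

theorem mx21 (p : ℕ) (a : ZMod p) : mx (e21 p a).1 = !![1, 0, 0; a, 1, 0; 0, 0, 1] := rfl

theorem mxm {p : ℕ} (M N : qd p) : mx (M * N).1 = mx M.1 * mx N.1 := rfl

theorem pow12 (p : ℕ) (a : ZMod p) (n : ℕ) : e12 p a ^ n = e12 p (n * a) := by
  induction n with
  | zero => exact qd_ext fun i j => by fin_cases i <;> fin_cases j <;> simp [mx12, mx_one]
  | succ n ih =>
    rw [pow_succ, ih]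
    exact qd_ext fun i j => by
      rw [mxm, mx12, mx12, mx12]
      fin_cases i <;> fin_cases j <;> simp [Matrix.mul_apply, Fin.sum_univ_three]; ring

theorem pow21 (p : ℕ) (a : ZMod p) (n : ℕ) : e21 p a ^ n = e21 p (n * a) := by
  induction n with
  | zero => exact qd_ext fun i j => by fin_cases i <;> fin_cases j <;> simp [mx21, mx_one]
  | succ n ih =>
    rw [pow_succ, ih]
    exact qd_ext fun i j => by
      rw [mxm, mx21, mx21, mx21]
      fin_cases i <;> fin_cases j <;> simp [Matrix.mul_apply, Fin.sum_univ_three]; ring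

theorem zp {G : Type*} [Group G] {p : ℕ} {x : G} (h : x ^ p = 1) : IsPGroup p (zpowers x) := by
  rintro ⟨y, hy⟩
  exact ⟨1, Subtype.ext (orderOf_dvd_iff_pow_eq_one.1
    ((orderOf_dvd_of_mem_zpowers hy).trans (by rw [pow_one]; exact orderOf_dvd_of_pow_eq_one h)))⟩

/-- Let p be an odd prime, q a power of p and K a finite field with q² elements. Then Qd(p) (the natural semidirect product of an elementary abelian group of order p² by SL₂(p)) is not involved in the projective special unitary group PSU₃(q) realised over K. -/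
theorem result {p : ℕ} [Fact p.Prime] (hp : p ≠ 2) {K : Type*} [Field K] [Fintype K] [CharP K p] (n : ℕ) (hn : 1 ≤ n) (hK : Fintype.card K = (p ^ n) ^ 2) : ¬ Cfsg.Involves ↥(Cfsg.qd p) (Cfsg.PSU 3 K (p ^ n)) := by
  intro hi
  have h := (tis_PSU hK rfl).of_involves hi
  have h1 : e12 p 1 ^ p = 1 := by rw [pow12, ← pow_zero (e12 p 1), pow12]; simp
  have h2 : e21 p (-1) ^ p = 1 := by rw [pow21, ← pow_zero (e21 p (-1)), pow21]; simp
  have h3 := h _ _ (isPGroup_ker.to_sup_of_normal_left (zp h1))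
    (isPGroup_ker.to_sup_of_normal_left (zp h2)) (fun e => by
      have := mem_bot.1 (e.le ⟨mem_sup_left (tr_mem 1 0), mem_sup_left (tr_mem 1 0)⟩)
      have := congrArg (fun M : qd p => mx M.1 0 2) this
      simp [mx_tr, mx_one] at this)
  set w := e12 p 1 * e21 p (-1) with hw
  have hw3 : mx (w * w * w).1 = !![-1, 0, 0; 0, -1, 0; 0, 0, 1] := by
    rw [mxm, mxm, hw, mxm, mx12, mx21]
    ext i j; fin_cases i <;> fin_cases j <;> simp [Matrix.mul_apply, Fin.sum_univ_three]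
  have hm : w ∈ ((blk p).ker ⊔ zpowers (e12 p 1)) ⊔ ((blk p).ker ⊔ zpowers (e21 p (-1))) :=
    mul_mem (mem_sup_left (mem_sup_right (mem_zpowers _))) (mem_sup_right (mem_sup_right (mem_zpowers _)))
  obtain ⟨k, hk⟩ := h3 ⟨_, mul_mem (mul_mem hm hm) hm⟩
  have hk' : (w * w * w) ^ p ^ k = 1 := congrArg Subtype.val hk
  have hsq : (w * w * w) ^ 2 = 1 := qd_ext fun i j => by
    rw [pow_two, mxm, hw3]
    fin_cases i <;> fin_cases j <;> simp [Matrix.mul_apply, Fin.sum_univ_three, mx_one]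
  have h1' : w * w * w = 1 := orderOf_eq_one_iff.1 (Nat.eq_one_of_dvd_coprimes
    (Nat.Coprime.pow_right k ((Nat.coprime_primes Nat.prime_two Fact.out).2 hp.symm))
    (orderOf_dvd_of_pow_eq_one hsq) (orderOf_dvd_of_pow_eq_one hk'))
  rw [h1'] at hw3
  have := congrFun (congrFun hw3 0) 0
  simp [mx_one] at this
  have h5 : ((2 : ℕ) : ZMod p) = 0 := by push_cast; linear_combination this
  rw [ZMod.natCast_eq_zero_iff] at h5
  exact hp ((Nat.prime_dvd_prime_iff_eq Fact.out Nat.prime_two).1 h5)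

end Cfsg.Agent.S2232
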