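import Cfsg.Statements.S2238
import Cfsg.Agent.Lib.Lie.SzSub

set_option autoImplicit false
open Cfsg

namespace Cfsg.Agent.S2238

/-- The partition of the Suzuki group: with q = 2^(2m+1), m ≥ 1, r = 2^m and the Suzuki group realised as the stabiliser in SL₄ of the Suzuki–Tits ovoid, every non-identity element lies in exactly one subgroup that is either a Sylow 2-subgroup or a cyclic subgroup of order q − 1, q + 2r + 1 or q − 2r + 1. -/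
theorem result {F : Type*} [Field F] [Fintype F] {m : ℕ} (hm : 1 ≤ m) (hF : Fintype.card F = 2 ^ (2 * m + 1)) (g : ↥(Cfsg.Sz F m)) (hg : g ≠ 1) :
    ∃! U : Subgroup ↥(Cfsg.Sz F m), ((∃ P : Sylow 2 ↥(Cfsg.Sz F m), U = (P : Subgroup ↥(Cfsg.Sz F m))) ∨
      (IsCyclic ↥U ∧ Nat.card ↥U ∈ ({2 ^ (2 * m + 1) - 1, 2 ^ (2 * m + 1) + 2 ^ (m + 1) + 1, 2 ^ (2 * m + 1) - 2 ^ (m + 1) + 1} : Set ℕ))) ∧ g ∈ U := by
  have : CA.SzBasic.Hyp F m := ⟨hm, hF⟩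
  open CA.SzBasic CA.SzGroup CA.SzSub in
  by_cases h : g ∈ CA.TorusCount.Cls (U F)
  · obtain ⟨P, hP⟩ := exists_sylow_mem h
    refine ⟨P, ⟨Or.inl ⟨P, rfl⟩, hP⟩, ?_⟩
    rintro V ⟨⟨Q, rfl⟩ | ⟨-, h2⟩, hV⟩
    · rw [sylow_eq_of_mem hg hV hP]
    · exact absurd h (not_cls_U_of_odd (Odd.of_dvd_nat (odd_order (F := F) h2) (V.orderOf_dvd_natCard hV)))
  · obtain ⟨-, hc, h1⟩ := cent_of_not_cls_U hg h
    refine ⟨_, ⟨Or.inr ⟨hc, h1⟩, Subgroup.mem_centralizer_singleton_iff.2 rfl⟩, ?_⟩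
    rintro V ⟨⟨Q, rfl⟩ | ⟨h3, h2⟩, hV⟩
    · obtain ⟨n, hn⟩ := Q.2 ⟨g, hV⟩
      exact absurd (mem_cls_U hg (congrArg Subtype.val hn)) h
    · exact (cent_eq_of_cyclic h3 h2 g hV hg).symm

end Cfsg.Agent.S2238
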