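import Cfsg.Statements.S2239
import Cfsg.Agent.Lib.Lie.SzEmb

set_option autoImplicit false
open Cfsg

namespace Cfsg.Agent.S2239

/-- Subfield subgroups of the Suzuki group: let q = 2^(2m+1) and s = 2^(2k+1) with m, k ≥ 1 and 2k+1 dividing 2m+1 (so q is a power of s), both groups realised as stabilisers in SL₄ of the Suzuki–Tits ovoid. Then Sz(q) has a subgroup isomorphic to Sz(s), and any two subgroups of Sz(q) isomorphic to Sz(s) are conjugate. -/
theorem result {F : Type*} [Field F] [Fintype F] {m : ℕ} (hm : 1 ≤ m) (hF : Fintype.card F = 2 ^ (2 * m + 1)) {K : Type*} [Field K] [Fintype K] {k : ℕ} (hk : 1 ≤ k) (hK : Fintype.card K = 2 ^ (2 * k + 1)) (hdiv : 2 * k + 1 ∣ 2 * m + 1) :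
    (∃ S : Subgroup ↥(Cfsg.Sz F m), Nonempty (↥S ≃* ↥(Cfsg.Sz K k))) ∧
    ∀ S₁ S₂ : Subgroup ↥(Cfsg.Sz F m), Nonempty (↥S₁ ≃* ↥(Cfsg.Sz K k)) → Nonempty (↥S₂ ≃* ↥(Cfsg.Sz K k)) →
      ∃ g : ↥(Cfsg.Sz F m), S₂ = S₁.map (MulAut.conj g).toMonoidHom := by
  have : CA.SzBasic.Hyp F m := ⟨hm, hF⟩
  have : CA.SzBasic.Hyp K k := ⟨hk, hK⟩
  open CA.SzBasic CA.SzGroup CA.SzSub CA.SzClass CA.SzEmb in
  obtain ⟨φ⟩ := exists_hom (F := F) hK hdiv
  have key : ∀ S : Subgroup (G F), Nonempty (S ≃* G K) →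
      ∃ g : G F, S.map (MulAut.conj g).toMonoidHom = CA.SzClass.Sub φ.fieldRange := by
    rintro S ⟨e⟩
    rcases classify S with h | ⟨g, L, hL, hx⟩
    · have h1 : Group.IsSolvable (G K) := Group.isSolvable_of_surjective (f := e.toMonoidHom) e.surjective
      have h2 := IsSimpleGroup.comm_iff_isSolvable.2 h1 (T 1 0) (T 0 0 * J K)
      rw [T_zero, one_mul] at h2
      have h3 := congrArg (· • (inf : Ov K)) h2
      simp only [mul_smul, T_inf, J_inf, T_pt, pt_inj] at h3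
      simp at h3
    refine ⟨g, ?_⟩
    obtain ⟨l, hl, h1, h2⟩ := exists_hyp L hx
    let _ : Fintype L := Fintype.ofFinite _
    have : Hyp L l := ⟨hl, by rw [← h1, Nat.card_eq_fintype_card]⟩
    have h3 := card_Sub L.subtype
    rw [Subfield.fieldRange_subtype, ← hL, Subgroup.card_map_of_injective (MulAut.conj g).injective,
      Nat.card_congr e.toEquiv, card_G] at h3
    obtain rfl := card_inj (F := F) h3
    rw [hL, subfield_eq_of_card (L := L) (L' := φ.fieldRange)]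
    rw [h1, ← hK, ← Nat.card_eq_fintype_card]
    exact Nat.card_congr φ.rangeRestrictFieldEquiv.toEquiv
  refine ⟨⟨_, ⟨subEquiv φ⟩⟩, fun S₁ S₂ h1 h2 => ?_⟩
  obtain ⟨g, hg⟩ := key S₁ h1
  obtain ⟨g', hg'⟩ := key S₂ h2
  refine ⟨g'⁻¹ * g, Subgroup.map_injective (f := (MulAut.conj g').toMonoidHom) (MulAut.conj g').injective ?_⟩
  rw [hg', ← hg, Subgroup.map_map]
  congr 1
  ext x
  simp [mul_assoc]

end Cfsg.Agent.S2239
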