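import Cfsg.Statements.S2240
import Cfsg.Agent.Lib.Lie.SzGroup

set_option autoImplicit false
open Cfsg

namespace Cfsg.Agent.S2240

open CA.SzBasic CA.SzGroup Subgroup

theorem conj_Z {F : Type*} [Field F] [Fintype F] {m : ℕ} [Hyp F m] (a b : F) (μ : Fˣ) (c : F) :
    T a b * D μ * T 0 c * (T a b * D μ)⁻¹ = T 0 (th F μ * μ ^ 2 * c) := by
  rw [show T a b * D μ * T 0 c * (T a b * D μ)⁻¹ = T a b * (D μ * T 0 c * (D μ)⁻¹) * (T a b)⁻¹ by group,
    D_conj_T, mul_zero, (T_comm a b 0 _).2 (by simp), mul_inv_cancel_right]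

/-- Elementary abelian TI-subgroups of the Suzuki group: let q = 2^(2m+1) with m ≥ 1, the group realised as the stabiliser in SL₄ of the Suzuki–Tits ovoid, and n ≥ 2. There is an elementary abelian 2-subgroup E of order 2^n that is a TI-subgroup (every conjugate of E meeting E nontrivially is E itself) if and only if n divides 2m + 1. -/
theorem result {F : Type*} [Field F] [Fintype F] {m : ℕ} (hm : 1 ≤ m) (hF : Fintype.card F = 2 ^ (2 * m + 1)) (n : ℕ) (hn : 2 ≤ n) :
    (∃ E : Subgroup ↥(Cfsg.Sz F m), Cfsg.IsElementaryAbelian 2 E ∧ Nat.card ↥E = 2 ^ n ∧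
      ∀ x : ↥(Cfsg.Sz F m), E ⊓ E.map (MulAut.conj x).toMonoidHom ≠ ⊥ → x ∈ Subgroup.normalizer (E : Set ↥(Cfsg.Sz F m))) ↔ n ∣ 2 * m + 1 := by
  have : Hyp F m := ⟨hm, hF⟩
  have : Fact (Nat.Prime 2) := ⟨Nat.prime_two⟩
  constructor
  · rintro ⟨E, hE, hc, hT⟩
    obtain ⟨P, hP⟩ := (IsPGroup.of_card hc).exists_le_sylow
    obtain ⟨k, hk⟩ := MulAction.exists_smul_eq (G F) P sylU
    have h2 : ∀ g ∈ E, ∃ b, k * g * k⁻¹ = T 0 b := fun g hg => by
      refine mem_Z.1 ((sq_eq_one_iff ?_).1 ?_)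
      · rw [← coe_sylU, ← hk]
        exact Subgroup.smul_mem_pointwise_smul g (MulAut.conj k) _ (hP hg)
      · rw [conj_mul, ← sq, hE.2 g hg]; group
    let A : Set F := {b | k⁻¹ * T 0 b * k ∈ E}
    have hA : ∀ a ∈ A, ∀ b ∈ A, a ≠ 0 → ∀ z ∈ A, b / a * z ∈ A := fun a ha b hb a0 z hz => by
      by_cases b0 : b = 0
      · simp [A, b0, T_zero]
      obtain ⟨μ, hμ⟩ := exists_scale a0 b0
      have e : ∀ c, (k⁻¹ * D μ * k) * (k⁻¹ * T 0 c * k) * (k⁻¹ * D μ * k)⁻¹ = k⁻¹ * T 0 (b / a * c) * k := fun c => by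
        have := D_conj_T μ 0 c
        rw [mul_zero, eq_div_of_mul_eq a0 hμ] at this
        rw [← this]; group
      have := hT (k⁻¹ * D μ * k) (ne_bot_iff_exists_ne_one.2 ⟨⟨_, hb, _, ha, by
        rw [MulEquiv.coe_toMonoidHom, MulAut.conj_apply, e, div_mul_cancel₀ _ a0]⟩, fun h => b0 (T_eq_one.1 (by
          have := congrArg Subtype.val h
          simp only [OneMemClass.coe_one] at this
          rwa [mul_assoc, inv_mul_eq_one, eq_comm, mul_eq_right] at this)).2⟩)
      have h5 := (mem_normalizer_iff.1 this _).1 hz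
      rwa [e] at h5
    have hadd : ∀ a ∈ A, ∀ b ∈ A, a + b ∈ A := fun a ha b hb => by
      have := E.mul_mem ha hb
      rwa [show k⁻¹ * T 0 a * k * (k⁻¹ * T 0 b * k) = k⁻¹ * (T 0 a * T 0 b) * k by group, T_mul, add_zero, mul_zero,
        add_zero] at this
    have hcA : Nat.card A = 2 ^ n := hc ▸ Nat.card_eq_of_bijective (fun a : A => (⟨_, a.2⟩ : E)) ⟨fun a b e =>
      Subtype.ext (T_inj.1 (mul_left_cancel (mul_right_cancel (congrArg Subtype.val e)))).2, fun g => by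
        obtain ⟨b, hb⟩ := h2 g g.2
        have : k⁻¹ * T 0 b * k = g := by rw [← hb]; group
        exact ⟨⟨b, show _ ∈ E from this ▸ g.2⟩, Subtype.ext this⟩⟩
    obtain ⟨a, ha, a0⟩ : ∃ a ∈ A, a ≠ 0 := by
      by_contra h
      push Not at h
      have : Subsingleton A := ⟨fun a b => Subtype.ext ((h a a.2).trans (h b b.2).symm)⟩
      have h1 : Nat.card A ≤ 1 := Finite.card_le_one_iff_subsingleton.2 this
      have := Nat.one_lt_two_pow (n := n) (by omega)
      omega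
    let K : Subfield F :=
      { carrier := {c | ∀ z ∈ A, c * z ∈ A}
        mul_mem' := fun {c d} hc hd z hz => by rw [mul_assoc]; exact hc _ (hd z hz)
        one_mem' := fun z hz => by rwa [one_mul]
        add_mem' := fun {c d} hc hd z hz => by rw [add_mul]; exact hadd _ (hc z hz) _ (hd z hz)
        zero_mem' := fun z hz => by simp [A, T_zero]
        neg_mem' := fun {c} hc => by rwa [CharTwo.neg_eq]
        inv_mem' := fun c hc z hz => by
          by_cases c0 : c = 0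
          · simp [A, c0, T_zero]
          · have := hA _ (hc a ha) a ha (mul_ne_zero c0 a0) z hz
            rwa [show a / (c * a) = c⁻¹ by field_simp] at this }
    have hK : Nat.card K = 2 ^ n := hcA ▸ Nat.card_eq_of_bijective (fun c : K => (⟨c * a, c.2 a ha⟩ : A)) ⟨fun c d e =>
      Subtype.ext (mul_right_cancel₀ a0 (congrArg Subtype.val e)), fun b =>
        ⟨⟨b / a, hA a ha b b.2 a0⟩, Subtype.ext (div_mul_cancel₀ _ a0)⟩⟩
    have := Module.natCard_eq_pow_finrank (K := K) (V := F)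
    rw [hK, card_F, ← pow_mul] at this
    exact ⟨_, Nat.pow_right_injective le_rfl this⟩
  · intro h
    let _ : Algebra (ZMod 2) F := ZMod.algebra F 2
    have h1 : Module.finrank (ZMod 2) F = 2 * m + 1 := Nat.pow_right_injective (le_refl 2) (by
      simp only [FiniteField.pow_finrank_eq_natCard, card_F])
    obtain ⟨φ⟩ := FiniteField.nonempty_algHom_of_finrank_dvd (F := ZMod 2) (K := GaloisField 2 n) (L := F)
      (by rwa [h1, GaloisField.finrank 2 (by omega)])
    let E : Subgroup (G F) :=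
      { carrier := {g | ∃ c, g = T 0 (φ c)}
        mul_mem' := by
          rintro _ _ ⟨c, rfl⟩ ⟨d, rfl⟩
          exact ⟨c + d, by simp [T_mul]⟩
        one_mem' := ⟨0, by simp [T_zero]⟩
        inv_mem' := by
          rintro _ ⟨c, rfl⟩
          exact ⟨c, by simp [T_inv]⟩ }
    refine ⟨E, ⟨⟨⟨?_⟩⟩, ?_⟩, ?_, ?_⟩
    · rintro ⟨_, c, rfl⟩ ⟨_, d, rfl⟩
      exact Subtype.ext ((T_comm _ _ _ _).2 (by simp))
    · rintro _ ⟨c, rfl⟩
      rw [sq, T_sq, mul_zero, T_zero]
    · rw [← GaloisField.card 2 n (by omega)]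
      exact (Nat.card_eq_of_bijective (fun c => (⟨_, c, rfl⟩ : E)) ⟨fun c d e =>
        φ.toRingHom.injective (T_inj.1 (congrArg Subtype.val e)).2, by rintro ⟨_, c, rfl⟩; exact ⟨c, rfl⟩⟩).symm
    · intro x hx
      obtain ⟨⟨_, ⟨c, rfl⟩, _, ⟨d, rfl⟩, e⟩, h1⟩ := ne_bot_iff_exists_ne_one.1 hx
      change x * _ * x⁻¹ = _ at e
      have h2 : T 0 (φ d) ≠ 1 := fun h => h1 (Subtype.ext (by rw [h, mul_one, mul_inv_cancel] at e; exact e.symm))
      obtain ⟨a, b, μ, rfl⟩ := exists_eq_T_mul_D (split.fix_of_conj_mem (T_mem_U _ _) h2 (e ▸ T_mem_U _ _))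
      have d0 : φ d ≠ 0 := fun h => h2 (by rw [h, T_zero])
      rw [conj_Z, T_inj] at e
      refine mem_normalizer_fintype ?_
      rintro _ ⟨z, rfl⟩
      exact ⟨c / d * z, by rw [conj_Z, eq_div_of_mul_eq d0 e.2, map_mul, map_div₀]⟩

end Cfsg.Agent.S2240
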