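import Cfsg.Statements.S2244
import Cfsg.Agent.Lib.Lie.H12WC

set_option autoImplicit false
open Cfsg

namespace Cfsg.Agent.S2244

open CA.Chev CA.H12WC

/-- Weakly closed unipotent subgroups of Chevalley groups: let G be the Chevalley group of type G₂, B₂, D₄, F₄, E₆, E₇ or E₈ over a finite field F (the matrix group generated by the root elements), with |F| ≠ 2, and |F| ≠ 3 as well for the types G₂, B₂, D₄, F₄. Let U be the subgroup generated by the positive root subgroups. If X ≤ U is weakly closed in U with respect to G (every G-conjugate of X lying in U equals X), then X is the unipotent radical U_J of a standard parabolic subgroup for some set J of fundamental roots. -/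
theorem result {F : Type*} [Field F] [Fintype F] (D : Cfsg.Lie.ChevalleyDatum) (hD : D ∈ [Cfsg.Lie.chevG2, Cfsg.Lie.chevB2, Cfsg.Lie.chevD4, Cfsg.Lie.chevF4, Cfsg.Lie.chevE6, Cfsg.Lie.chevE7, Cfsg.Lie.chevE8])
    (h2 : Fintype.card F ≠ 2) (h3 : D ∈ [Cfsg.Lie.chevG2, Cfsg.Lie.chevB2, Cfsg.Lie.chevD4, Cfsg.Lie.chevF4] → Fintype.card F ≠ 3)
    (X : Subgroup (GL D.Idx F)) (hXU : X ≤ D.posUnipotent F)
    (hwc : ∀ g ∈ D.group F, X.map (MulAut.conj g).toMonoidHom ≤ D.posUnipotent F → X.map (MulAut.conj g).toMonoidHom = X) :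
    ∃ J : Set ℕ, (∀ j ∈ J, j < D.rank) ∧ X = D.unipotentRadical F J := by
  have := good_of_mem hD
  rw [← Nat.card_eq_fintype_card] at h2 h3
  obtain ⟨a1, a2⟩ := sep_gen (A := adj D F) hD h2 h3
  rw [posUnipotent_eq] at hXU hwc
  obtain ⟨J, hJ⟩ := eq_UJ a1 a2 hXU fun g hg h x hx =>
    (hwc g (group_eq.ge hg) (by rintro _ ⟨y, hy, rfl⟩; exact h y hy)).le ⟨x, hx, rfl⟩
  refine ⟨Fin.val '' J, by rintro _ ⟨j, -, rfl⟩; exact j.2, ?_⟩
  rw [unipotentRadical_eq, hJ]
  congr 1
  ext i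
  simp [Fin.val_inj]

end Cfsg.Agent.S2244
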