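import Cfsg.Statements.S2245
import Cfsg.Agent.Lib.Perm.SymSyl2

set_option autoImplicit false
open Cfsg

namespace Cfsg.Agent.S2245

open Subgroup CA.SymSyl1 CA.SymSyl2 MulAction

/-- For n ≥ 5 with n ≠ 6, a Sylow 2-subgroup of the alternating group A_n lies in exactly one maximal subgroup of A_n if and only if n = 2^k + 1 for some k ≥ 2; the same holds for the symmetric group S_n. -/
theorem result (n : ℕ) (hn : 5 ≤ n) (h6 : n ≠ 6) :
    ((∀ R : Sylow 2 ↥(alternatingGroup (Fin n)), (∃! M : Subgroup ↥(alternatingGroup (Fin n)), IsCoatom M ∧ (R : Subgroup ↥(alternatingGroup (Fin n))) ≤ M) ↔ ∃ k : ℕ, 2 ≤ k ∧ n = 2 ^ k + 1) ∧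
    (∀ R : Sylow 2 (Equiv.Perm (Fin n)), (∃! M : Subgroup (Equiv.Perm (Fin n)), IsCoatom M ∧ (R : Subgroup (Equiv.Perm (Fin n))) ≤ M) ↔ ∃ k : ℕ, 2 ≤ k ∧ n = 2 ^ k + 1)) := by
  have : Nontrivial (Fin n) := Fin.nontrivial_iff_two_le.2 (by omega)
  refine ⟨fun R => ?_, fun R => ?_⟩
  · obtain ⟨T, hT, e⟩ := exists_syl R
    rw [e]
    refine ⟨fun h => by_contra fun h1 => ?_, fun ⟨k, h1, h2⟩ => ?_⟩
    · obtain ⟨K, L, h2, h3, h4, h5, h7⟩ := not_uniq (by simpa) (by simpa using h1) hT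
      refine sup_ne h (comap_mono h2) (comap_mono h3) (mt subgroupOf_eq_top.1 h4)
        (mt subgroupOf_eq_top.1 h5) (eq_top_iff.2 fun x _ => ?_)
      obtain ⟨y, y1, y2⟩ := h7 ((K.subgroupOf _ ⊔ L.subgroupOf _).map (Subgroup.subtype _))
        (fun g hg => ⟨⟨g, hg.2⟩, mem_sup_left hg.1, rfl⟩)
        (fun g hg => ⟨⟨g, hg.2⟩, mem_sup_right hg.1, rfl⟩) x.2
      exact Subtype.ext y2 ▸ y1
    · obtain ⟨o, h3, -, h4⟩ := uniq h1 (by simpa) hT
      refine uniq_of (fun e => ?_) (fun t ht => h3 t ht) h4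
      have := alternatingGroup.isPretransitive_of_three_le_card (Fin n) (by simp; omega)
      obtain ⟨y, hy⟩ := exists_ne o
      obtain ⟨g, rfl⟩ := exists_smul_eq (alternatingGroup (Fin n)) o y
      exact hy (e.ge (mem_top g))
  · have hT := (CA.NilS2.card_syl R).trans (congrArg CA.NilS1.s (Fintype.card_fin n).symm)
    refine ⟨fun h => by_contra fun h1 => ?_, fun ⟨k, h1, h2⟩ => ?_⟩
    · obtain ⟨K, L, h2, h3, h4, h5, h7⟩ := not_uniq (by simpa) (by simpa using h1) hT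
      refine sup_ne h h2 h3 (fun e => h4 (e ▸ le_top)) (fun e => h5 (e ▸ le_top))
        (eq_top_iff.2 fun x _ => ?_)
      have h8 := h7 _ (inf_le_left.trans le_sup_left) (inf_le_left.trans le_sup_right)
      refine (Int.units_eq_one_or (Equiv.Perm.sign x)).elim (fun e => h8 e) fun e => ?_
      obtain ⟨m, h, hc⟩ := exists_mt R.isPGroup'
      obtain ⟨a, -, ha⟩ := h.pick ∅ (by simp; omega)
      exact (Subgroup.mul_mem_cancel_left _ (mem_sup_left (h2 (h.swap_mem hT hc a)))).1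
        (h8 (by simp [e, ha.symm]))
    · obtain ⟨o, h3, h4, -⟩ := uniq h1 (by simpa) hT
      refine uniq_of (fun e => ?_) (fun t ht => h3 t ht) h4
      obtain ⟨y, hy⟩ := exists_ne o
      exact hy (by simpa using e.ge (mem_top (Equiv.swap o y)))

end Cfsg.Agent.S2245
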