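import Cfsg.Statements.S2249
import Cfsg.Agent.Lib.Lin.H13Wr
import Cfsg.Agent.Lib.Grp.MC5

set_option autoImplicit false
open Cfsg

namespace Cfsg.Agent.S2249

open CA.H13Wr CA.H10Syl CA.H10Wr CA.CForm CA.Rank2 Subgroup Module
open scoped MatrixGroups
set_option maxHeartbeats 400000

theorem three {F : Type*} [Field F] [Fintype F] (hq : Nat.card F % 4 = 3) {n : ℕ} (S : Sylow 2 (GL (Fin n) F)) :
    NG ((n + 1) / 2) S ∧ NL ((n + 1) / 2) S := by
  have h2 : (2 : F) ≠ 0 := two_ne_zero_iff_odd.2 (by rw [← Nat.card_eq_fintype_card, Nat.odd_iff]; omega)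
  let b := finBasisOfFinrankEq F (V F (Fin (n / 2)) (Fin (n % 2))) (n := n) (finrank_V.trans (by simp; omega))
  let W := tr (glW h2 (Fin (n / 2)) (Fin (n % 2))) (topEquiv.trans ((Matrix.GeneralLinearGroup.toLin' b).trans
    (LinearMap.GeneralLinearGroup.generalLinearEquiv F _)).symm)
  obtain ⟨D⟩ : Nonempty (Sylow 2 (GL (Fin 2) F)) := inferInstance
  obtain ⟨T⟩ : Nonempty (Sylow 2 (Equiv.Perm (Fin (n / 2)))) := inferInstance
  obtain ⟨e⟩ := exists_equiv W D T isP_R (by
    have h3 := v_odd (odd_card h2) 1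
    rw [pow_one] at h3
    have h1 : 1 < Nat.card F := Finite.one_lt_card
    rw [CA.SLnCard.card_GL, CA.SLnCard.card_GL2, v_mul (by omega) (mul_ne_zero (by omega) (sub_ne h1 two_ne_zero)),
      v_mul (by omega) (sub_ne h1 two_ne_zero), h3, zero_add, card_R]
    refine (v_gl (odd_card h2) h1 n).trans ?_
    rw [v_eq_one (a := Nat.card F - 1) (by omega)]
    simp) S
  obtain ⟨m, a, y, hm, h, hD⟩ := CA.MC3.exists_of_qd ((CA.MC4.gl2_syl D).1 (by rwa [← Nat.card_eq_fintype_card]))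
  have hE : Nat.card (⊤ : Subgroup (Fin (n % 2) → ℤˣ)) = 2 ^ (n % 2) := by rw [card_top, card_signs, Fintype.card_fin]
  rw [show (n + 1) / 2 = Fintype.card (Fin (n / 2)) + n % 2 by rw [Fintype.card_fin]; omega]
  have p4 : ¬ (2 : ℤ) ^ (m + 1) ∣ 4 := fun h => by
    have := Int.le_of_dvd (by norm_num) ((pow_dvd_pow (2 : ℤ) (show 3 ≤ m + 1 by omega)).trans h)
    norm_num at this
  refine ⟨(ng W _ h.ord_z (hD ▸ CA.MC2.zpow_mem_left a y _) (fun d hd => h.z_central (hD ▸ hd)) hE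
    sq_R fun r _ s _ => mul_comm r s).of_equiv e, (nl W _ h.ord_z hE ⟨a, hD ▸ mem_sup_left (mem_zpowers a), fun e => ?_⟩
      fun d hd h1 h3 => ?_).of_equiv e⟩
  · exact p4 ((h.zpow_one.1 (show a ^ (2 : ℤ) = 1 from e)).trans (by norm_num))
  · by_cases k : d ∈ zpowers a
    · by_cases d1 : d = 1
      · exact d1 ▸ one_mem _
      · exact h.eq_z k h1 d1 ▸ mem_zpowers _
    · obtain ⟨δ, h', -⟩ := h.out (hD ▸ hd) k
      have := h3 a (hD ▸ mem_sup_left (mem_zpowers a))
      rw [show a * d * a⁻¹ * d⁻¹ = a * (d * a * d⁻¹)⁻¹ by simp only [mul_inv_rev, inv_inv, mul_assoc], h'.conj,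
        ← zpow_neg, ← zpow_one_add, ← zpow_natCast, ← zpow_mul, h.zpow_one] at this
      refine absurd ?_ p4
      have := dvd_add this (dvd_refl _)
      rwa [show (1 + -(2 ^ m * 1 - 1)) * ((2 : ℕ) : ℤ) + 2 ^ (m + 1) = 4 by push_cast; ring] at this

theorem one {F : Type*} [Field F] [Fintype F] (hq : Nat.card F % 4 = 1) {n : ℕ} (S : Sylow 2 (GL (Fin n) F)) :
    NG n S ∧ NL n S := by
  classical
  have h2 : (2 : F) ≠ 0 := two_ne_zero_iff_odd.2 (by rw [← Nat.card_eq_fintype_card, Nat.odd_iff]; omega)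
  constructor
  · obtain ⟨D, hD⟩ := exists_syl (s := (-1 : Fˣ)) (by simp)
    obtain ⟨T⟩ : Nonempty (Sylow 2 (Equiv.Perm (Fin n))) := inferInstance
    obtain ⟨e⟩ := exists_equiv (mon F (Fin n)) (E := ⊥) D T IsPGroup.of_bot (by
      have h1 : 1 < Nat.card F := Finite.one_lt_card
      rw [CA.SLnCard.card_GL, Nat.card_units, Fintype.card_fin]
      refine (v_gl (odd_card h2) h1 n).trans ?_
      have e1 := v_sq h1 1 one_ne_zero
      have e2 := fact_factorial (p := 2) (n / 2) (Nat.mod_lt n two_pos)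
      rw [mul_one, pow_one, v_eq_one (a := Nat.card F + 1) (by omega)] at e1
      rw [Nat.div_add_mod'] at e2
      rw [e1, e2]
      generalize (Nat.card F - 1).factorization 2 = v
      nth_rw 4 [← Nat.div_add_mod' n 2]
      nlinarith) S
    have o : orderOf (-1 : Fˣ) = 2 := orderOf_eq_prime (by simp) fun e => h2 (by
      have := congrArg Units.val e
      simp at this
      linear_combination -this)
    have : NG (Fintype.card (Fin n) + 0) S := NG.of_equiv (ng (mon F (Fin n)) _ o hD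
      (fun d _ => mul_comm _ _) (by simp) (fun _ _ => Subsingleton.elim _ _) fun _ _ _ _ => Subsingleton.elim _ _) e
    rw [Fintype.card_fin, add_zero] at this
    exact this
  · refine nl_of_rank (fun A hc hA => ?_) _
    obtain ⟨b, hb⟩ := exists_eigenbasis glEquiv.toMonoidHom h2 hc hA
    have := card_le_of glEquiv.toMonoidHom glEquiv.injective b ⊤ (fun _ _ => mem_top _) hA hb
    rwa [card_top, card_signs, Fintype.card_fin, finrank_fin_fun] at this

/-- The normal 2-rank of the general linear group over a finite field of odd order q: for n ≥ 1 and S a Sylow 2-subgroup of GL_n(F), the largest rank of an elementary abelian subgroup of S that is normal in S equals n when q ≡ 1 (mod 4) and ⌊(n + 1)/2⌋ when q ≡ 3 (mod 4). -/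
theorem result {F : Type*} [Field F] [Fintype F] {q : ℕ} (hF : Fintype.card F = q) (hodd : Odd q) (n : ℕ) (hn : 1 ≤ n) (S : Sylow 2 (Matrix.GeneralLinearGroup (Fin n) F)) :
    (q % 4 = 1 → ((∃ E : Subgroup ↥(S : Subgroup (Matrix.GeneralLinearGroup (Fin n) F)), E.Normal ∧ Cfsg.IsElementaryAbelian 2 E ∧ 2 ^ (n) ≤ Nat.card ↥E) ∧
      ∀ E : Subgroup ↥(S : Subgroup (Matrix.GeneralLinearGroup (Fin n) F)), E.Normal → Cfsg.IsElementaryAbelian 2 E → Nat.card ↥E ≤ 2 ^ (n))) ∧
    (q % 4 = 3 → ((∃ E : Subgroup ↥(S : Subgroup (Matrix.GeneralLinearGroup (Fin n) F)), E.Normal ∧ Cfsg.IsElementaryAbelian 2 E ∧ 2 ^ ((n + 1) / 2) ≤ Nat.card ↥E) ∧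
      ∀ E : Subgroup ↥(S : Subgroup (Matrix.GeneralLinearGroup (Fin n) F)), E.Normal → Cfsg.IsElementaryAbelian 2 E → Nat.card ↥E ≤ 2 ^ ((n + 1) / 2))) := by
  rw [← hF, ← Nat.card_eq_fintype_card]
  exact ⟨fun h => one h S, fun h => three h S⟩

end Cfsg.Agent.S2249
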