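import Cfsg.Statements.S2251
import Cfsg.Agent.Lib.Lie.SzEmb

set_option autoImplicit false
open Cfsg

namespace Cfsg.Agent.S2251

/-- The subgroups of the Suzuki group: with q = 2^(2m+1), m ≥ 1, r = 2^m and the group realised as the stabiliser in SL₄ of the Suzuki–Tits ovoid, every proper subgroup is contained in the normalizer of a Sylow 2-subgroup, or in the normalizer of a cyclic subgroup of order q − 1, q + 2r + 1 or q − 2r + 1, or in a subgroup isomorphic to a smaller Suzuki group Sz(s) with s = 2^(2k+1) ≥ 8 and 2k+1 a proper divisor of 2m+1. -/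
theorem result {F : Type*} [Field F] [Fintype F] {m : ℕ} (hm : 1 ≤ m) (hF : Fintype.card F = 2 ^ (2 * m + 1)) (M : Subgroup ↥(Cfsg.Sz F m)) (hM : M ≠ ⊤) :
    (∃ P : Sylow 2 ↥(Cfsg.Sz F m), M ≤ Subgroup.normalizer ((P : Subgroup ↥(Cfsg.Sz F m)) : Set ↥(Cfsg.Sz F m))) ∨
    (∃ U : Subgroup ↥(Cfsg.Sz F m), IsCyclic ↥U ∧ Nat.card ↥U ∈ ({2 ^ (2 * m + 1) - 1, 2 ^ (2 * m + 1) + 2 ^ (m + 1) + 1, 2 ^ (2 * m + 1) - 2 ^ (m + 1) + 1} : Set ℕ) ∧
      M ≤ Subgroup.normalizer (U : Set ↥(Cfsg.Sz F m))) ∨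
    (∃ (K : Type) (_ : Field K) (_ : Fintype K) (k : ℕ), 1 ≤ k ∧ k < m ∧ Fintype.card K = 2 ^ (2 * k + 1) ∧ 2 * k + 1 ∣ 2 * m + 1 ∧
      ∃ S : Subgroup ↥(Cfsg.Sz F m), Nonempty (↥S ≃* ↥(Cfsg.Sz K k)) ∧ M ≤ S) := by
  have : CA.SzBasic.Hyp F m := ⟨hm, hF⟩
  open CA.SzBasic CA.SzGroup CA.SzSub CA.SzClass CA.SzEmb in
  rcases classify M with h | ⟨g, L, hL, hx⟩
  · rcases solvable_cases h with ⟨a, ha⟩ | ⟨x, -, hx1, hxU, hx⟩
    · left
      obtain ⟨g, rfl⟩ := split.exists_smul (inf : Ov F) a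
      refine ⟨g • sylU, ha.trans ?_⟩
      exact (split.conj g).stabilizer_le_normalizer
    · obtain ⟨-, h1, h2⟩ := cent_of_not_cls_U hx1 hxU
      exact Or.inr (Or.inl ⟨_, h1, by simpa using h2, hx⟩)
  · right; right
    obtain ⟨k, hk, h1, h2⟩ := exists_hyp L hx
    let _ : Fintype (GaloisField 2 (2 * k + 1)) := Fintype.ofFinite _
    have hK : Fintype.card (GaloisField 2 (2 * k + 1)) = 2 ^ (2 * k + 1) := by
      rw [← Nat.card_eq_fintype_card, GaloisField.card 2 _ (by omega)]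
    have : Hyp (GaloisField 2 (2 * k + 1)) k := ⟨hk, hK⟩
    obtain ⟨φ, rfl⟩ := exists_hom_range L (h1.trans hK.symm)
    have e : M ≃* G (GaloisField 2 (2 * k + 1)) :=
      ((M.equivMapOfInjective _ (MulAut.conj g).injective).trans (MulEquiv.subgroupCongr hL)).trans (subEquiv φ)
    refine ⟨_, _, _, k, hk, lt_of_le_of_ne (by have := Nat.le_of_dvd (by omega) h2; omega) ?_, hK, h2, M, ⟨e⟩, le_rfl⟩
    rintro rfl
    apply hM
    rw [← Subgroup.card_eq_iff_eq_top, Nat.card_congr e.toEquiv, card_G]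
    exact (card_G (F := F)).symm

end Cfsg.Agent.S2251
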