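import Cfsg.Statements.S2254
import Cfsg.Agent.Lib.Perm.NilS3

set_option autoImplicit false
open Cfsg

namespace Cfsg.Agent.S2254

open Subgroup Equiv.Perm CA.NilS1 CA.NilS2 CA.NilS3

/-- Let n ≡ 3 (mod 4). Then every nilpotent subgroup of the symmetric group on n letters has order at most 3 times the order of a Sylow 2-subgroup of the symmetric group on n − 3 letters; the bound is attained by a nilpotent subgroup isomorphic to the direct product of such a Sylow 2-subgroup with a cyclic group of order 3; and any two nilpotent subgroups attaining the bound are conjugate. -/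
theorem result  (n : ℕ) (hn : n % 4 = 3)
    (P : Sylow 2 (Equiv.Perm (Fin (n - 3)))) :
    (∀ N : Subgroup (Equiv.Perm (Fin n)), Group.IsNilpotent N → Nat.card N ≤ 3 * Nat.card P) ∧
    (∃ M : Subgroup (Equiv.Perm (Fin n)), Group.IsNilpotent M ∧ Nat.card M = 3 * Nat.card P ∧
      Nonempty (M ≃* (↥(P : Subgroup (Equiv.Perm (Fin (n - 3)))) × Multiplicative (ZMod 3)))) ∧
    (∀ N₁ N₂ : Subgroup (Equiv.Perm (Fin n)), Group.IsNilpotent N₁ → Group.IsNilpotent N₂ →
      Nat.card N₁ = 3 * Nat.card P → Nat.card N₂ = 3 * Nat.card P →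
      ∃ g : Equiv.Perm (Fin n), N₂ = N₁.map (MulAut.conj g).toMonoidHom) := by
  refine ⟨fun N hN => ?_, ?_, fun N₁ N₂ h1 h2 h3 h4 => ?_⟩
  · rw [card_syl]
    exact (bound N hN).trans (if_pos hn).le
  · obtain ⟨φ, h1, -⟩ := exists_hom (n := n) (by omega)
    have e := (MonoidHom.ofInjective (f := φ.comp (((P : Subgroup _).subtype).prodMap (MonoidHom.id _)))
      (h1.comp (Subtype.val_injective.prodMap Function.injective_id))).symm
    have := P.isPGroup'.isNilpotent
    refine ⟨_, Group.nilpotent_of_mulEquiv e.symm, ?_, ⟨e⟩⟩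
    rw [Nat.card_congr e.toEquiv, Nat.card_prod, mul_comm]
    simp
  · obtain ⟨t, rfl⟩ : ∃ t, n = 4 * t + 3 := ⟨n / 4, by omega⟩
    rw [card_syl, s] at h3 h4
    obtain ⟨x, a1, a2, a3⟩ := three h1 h3 (Nat.le_mul_of_pos_left _ two_pos)
    obtain ⟨y, b1, b2, b3⟩ := three h2 h4 (Nat.le_mul_of_pos_left _ two_pos)
    exact conj_of (isConj_iff_cycleType_eq.2 (a2.trans b2.symm)) b2.orderOf
      (card_cent b2 ▸ not_dvd rfl) a1 a3 h3 b1 b3 h4

end Cfsg.Agent.S2254
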