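import Cfsg.Statements.S2255
import Cfsg.Agent.Lib.Perm.NilS2

set_option autoImplicit false
open Cfsg

namespace Cfsg.Agent.S2255

/-- Let n be a natural number not congruent to 3 modulo 4, with n ∉ {5, 6, 9}. Then every nilpotent subgroup of the alternating group on n letters has order at most the order of a Sylow 2-subgroup of the alternating group (so the nilpotent subgroups of largest order are exactly the Sylow 2-subgroups). -/
theorem result  (n : ℕ) (hn : n % 4 ≠ 3)
    (h5 : n ≠ 5) (h6 : n ≠ 6) (h9 : n ≠ 9)
    (N : Subgroup (alternatingGroup (Fin n))) (hN : Group.IsNilpotent N)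
    (P : Sylow 2 (alternatingGroup (Fin n))) :
    Nat.card N ≤ Nat.card P := by
  have h := CA.NilS2.bound_alt N hN
  by_cases h1 : n ≤ 1
  · rw [CA.NilS1.h, if_pos h1] at h
    have := Nat.card_pos (α := P)
    omega
  rw [CA.NilS1.h_gen (by omega), CA.NilS1.f, if_neg hn, ← CA.NilS2.card_syl_alt (by omega) P] at h
  omega

end Cfsg.Agent.S2255
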