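import Cfsg.Statements.S2256
import Cfsg.Agent.Lib.Perm.NilS3

set_option autoImplicit false
open Cfsg

namespace Cfsg.Agent.S2256

open Subgroup Equiv.Perm CA.NilS1 CA.NilS2 CA.NilS3

/-- Let n ≡ 3 (mod 4) with n ≥ 7. Then every nilpotent subgroup of the alternating group on n letters has order at most 3 times the order of a Sylow 2-subgroup of the alternating group on n − 3 letters; the bound is attained by a nilpotent subgroup isomorphic to the direct product of such a Sylow 2-subgroup with a cyclic group of order 3; and any two nilpotent subgroups of the alternating group attaining the bound are conjugate in it. -/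
theorem result  (n : ℕ) (hn : n % 4 = 3) (h7 : 7 ≤ n)
    (P : Sylow 2 (alternatingGroup (Fin (n - 3)))) :
    (∀ N : Subgroup (alternatingGroup (Fin n)), Group.IsNilpotent N → Nat.card N ≤ 3 * Nat.card P) ∧
    (∃ M : Subgroup (alternatingGroup (Fin n)), Group.IsNilpotent M ∧ Nat.card M = 3 * Nat.card P ∧
      Nonempty (M ≃* (↥(P : Subgroup (alternatingGroup (Fin (n - 3)))) × Multiplicative (ZMod 3)))) ∧
    (∀ N₁ N₂ : Subgroup (alternatingGroup (Fin n)), Group.IsNilpotent N₁ → Group.IsNilpotent N₂ →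
      Nat.card N₁ = 3 * Nat.card P → Nat.card N₂ = 3 * Nat.card P →
      ∃ g : alternatingGroup (Fin n), N₂ = N₁.map (MulAut.conj g).toMonoidHom) := by
  have hP := card_syl_alt (by omega) P
  refine ⟨fun N hN => ?_, ?_, fun N₁ N₂ h1 h2 h3 h4 => ?_⟩
  · have := bound_alt N hN
    rw [h_gen (by omega), f, if_pos hn] at this
    omega
  · obtain ⟨φ, h1, h2⟩ := exists_hom (n := n) (by omega)
    have e := (MonoidHom.ofInjective (f := (φ.comp (((alternatingGroup _).subtype.comp
      (P : Subgroup _).subtype).prodMap (MonoidHom.id _))).codRestrict (alternatingGroup (Fin n))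
        fun g => (h2 _).trans g.1.1.2) fun a b h =>
      (h1.comp ((Subtype.val_injective.comp Subtype.val_injective).prodMap Function.injective_id))
        (congrArg Subtype.val h)).symm
    have := P.isPGroup'.isNilpotent
    refine ⟨_, Group.nilpotent_of_mulEquiv e.symm, ?_, ⟨e⟩⟩
    rw [Nat.card_congr e.toEquiv, Nat.card_prod, mul_comm]
    simp
  · obtain ⟨t, rfl⟩ : ∃ t, n = 4 * t + 3 := ⟨n / 4, by omega⟩
    obtain ⟨a, ha⟩ := IsPGroup.iff_card.1 P.isPGroup'
    rw [ha] at h3 h4 hP
    have key : ∀ N : Subgroup (alternatingGroup (Fin (4 * t + 3))), Group.IsNilpotent N →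
        Nat.card N = 3 * 2 ^ a → ∃ x ∈ N, IsThreeCycle x.1 ∧ N ≤ centralizer {x} := fun N h1 h2 => by
      obtain ⟨_, ⟨x, a1, rfl⟩, a2, a3⟩ := three (nil_map h1 (Subgroup.subtype _))
        ((CA.Rad.card_map_subtype _).trans h2) hP.ge
      exact ⟨x, a1, a2, fun g hg => mem_centralizer_singleton_iff.2 (Subtype.ext
        (mem_centralizer_singleton_iff.1 (a3 ⟨g, hg, rfl⟩)))⟩
    obtain ⟨x, a1, a2, a3⟩ := key _ h1 h3
    obtain ⟨y, b1, b2, b3⟩ := key _ h2 h4
    refine conj_of (alternatingGroup.isThreeCycle_isConj (by simp; omega) a2 b2)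
      ((Subgroup.orderOf_coe y).symm.trans b2.orderOf) (fun h => not_dvd (a := a + 1)
        (hP.symm.trans (pow_succ' 2 a).symm) ?_) a1 a3 h3 b1 b3 h4
    rw [← card_cent_alt (by omega) b2, pow_succ']
    exact Nat.mul_dvd_mul_left 2 h

end Cfsg.Agent.S2256
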