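import Cfsg.Statements.S2257
import Cfsg.Agent.Lib.Lin.SolL2

set_option autoImplicit false
open Cfsg

namespace Cfsg.Agent.S2257

open CA.SolL2 CA.PSL2Struct CA.SL2Basic

/-- Let G = PSL_2(F) with F a field of order q = 2^p, p prime, and for x ∈ G call the solubilizer of x the set of y ∈ G such that x and y generate a solvable subgroup. Then the solubilizer of an involution has 3q(q − 1) elements; that of a non-identity element of order dividing q − 1 has 2q(q − 1) elements; and that of a non-identity element of order dividing q + 1 has 2(q + 1) elements. -/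
theorem result (p : ℕ) (hp : p.Prime) {F : Type*} [Field F] [Fintype F]
    (hF : Fintype.card F = 2 ^ p) (x : Matrix.ProjectiveSpecialLinearGroup (Fin 2) F) :
    (orderOf x = 2 → Nat.card {y : Matrix.ProjectiveSpecialLinearGroup (Fin 2) F // Group.IsSolvable ↥(Subgroup.closure ({x, y} : Set (Matrix.ProjectiveSpecialLinearGroup (Fin 2) F)))} = 3 * 2 ^ p * (2 ^ p - 1)) ∧
    (x ≠ 1 → orderOf x ∣ 2 ^ p - 1 → Nat.card {y : Matrix.ProjectiveSpecialLinearGroup (Fin 2) F // Group.IsSolvable ↥(Subgroup.closure ({x, y} : Set (Matrix.ProjectiveSpecialLinearGroup (Fin 2) F)))} = 2 * 2 ^ p * (2 ^ p - 1)) ∧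
    (x ≠ 1 → orderOf x ∣ 2 ^ p + 1 → Nat.card {y : Matrix.ProjectiveSpecialLinearGroup (Fin 2) F // Group.IsSolvable ↥(Subgroup.closure ({x, y} : Set (Matrix.ProjectiveSpecialLinearGroup (Fin 2) F)))} = 2 * (2 ^ p + 1)) := by
  have hc : Nat.card F = 2 ^ p := by rw [Nat.card_eq_fintype_card, hF]
  have h2 : (2 : F) = 0 := two_eq_zero_of_even (by rw [hc]; exact (Nat.even_pow' hp.ne_zero).2 even_two)
  have hq : Hq F := fun h => (h h2).elim
  have hs := fun (h1 : x ≠ 1) (h : Odd (orderOf x)) => card_ss hq h1 fun e => by rw [e] at h; exact absurd h (by decide)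
  have he : Even (2 ^ p) := (Nat.even_pow' hp.ne_zero).2 even_two
  rw [dd_even h2, one_mul, hc] at hs
  refine ⟨fun h => ?_, fun h1 h => ?_, fun h1 h => ?_⟩
  · exact (card_even h2 h).trans (by rw [hc, mul_assoc])
  · exact ((hs h1 ((Nat.Even.sub_odd Nat.one_le_two_pow he odd_one).of_dvd_nat h)).1 h).trans (by rw [mul_assoc])
  · exact (hs h1 (he.add_one.of_dvd_nat h)).2 h

end Cfsg.Agent.S2257
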