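import Cfsg.Statements.S2258
import Cfsg.Agent.Lib.Lin.SolL2b

set_option autoImplicit false
open Cfsg

namespace Cfsg.Agent.S2258

open CA.SolL2 CA.PSL2Struct CA.SL2Basic

/-- Let G = PSL_2(F) with F a field of order q = 3^p, p an odd prime, and for x ∈ G call the solubilizer of x the set of y ∈ G such that x and y generate a solvable subgroup. Then the solubilizer of an involution has q(q + 1) elements; that of an element of order 3 has q(q + 5)/2 elements; that of an element of order neither 1 nor 2 dividing q − 1 has q(q − 1) elements; and that of an element of order neither 1 nor 2 dividing q + 1 has q + 1 elements. -/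
theorem result (p : ℕ) (hp : p.Prime) (hodd : Odd p) {F : Type*} [Field F] [Fintype F]
    (hF : Fintype.card F = 3 ^ p) (x : Matrix.ProjectiveSpecialLinearGroup (Fin 2) F) :
    (orderOf x = 2 → Nat.card {y : Matrix.ProjectiveSpecialLinearGroup (Fin 2) F // Group.IsSolvable ↥(Subgroup.closure ({x, y} : Set (Matrix.ProjectiveSpecialLinearGroup (Fin 2) F)))} = 3 ^ p * (3 ^ p + 1)) ∧
    (orderOf x = 3 → 2 * Nat.card {y : Matrix.ProjectiveSpecialLinearGroup (Fin 2) F // Group.IsSolvable ↥(Subgroup.closure ({x, y} : Set (Matrix.ProjectiveSpecialLinearGroup (Fin 2) F)))} = 3 ^ p * (3 ^ p + 5)) ∧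
    (x ≠ 1 → orderOf x ≠ 2 → orderOf x ∣ 3 ^ p - 1 → Nat.card {y : Matrix.ProjectiveSpecialLinearGroup (Fin 2) F // Group.IsSolvable ↥(Subgroup.closure ({x, y} : Set (Matrix.ProjectiveSpecialLinearGroup (Fin 2) F)))} = 3 ^ p * (3 ^ p - 1)) ∧
    (x ≠ 1 → orderOf x ≠ 2 → orderOf x ∣ 3 ^ p + 1 → Nat.card {y : Matrix.ProjectiveSpecialLinearGroup (Fin 2) F // Group.IsSolvable ↥(Subgroup.closure ({x, y} : Set (Matrix.ProjectiveSpecialLinearGroup (Fin 2) F)))} = 3 ^ p + 1) := by
  have hc : Nat.card F = 3 ^ p := by rw [Nat.card_eq_fintype_card, hF]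
  have h3 : (3 : F) = 0 := by
    have := FiniteField.cast_card_eq_zero F
    rw [hF, Nat.cast_pow] at this
    exact_mod_cast pow_eq_zero_iff hp.ne_zero |>.1 this
  have h8 : Nat.card F % 8 = 3 := by
    obtain ⟨k, rfl⟩ := hodd
    rw [hc, pow_succ, pow_mul, Nat.mul_mod, Nat.pow_mod]; simp
  obtain ⟨h2, hq⟩ := hq_of h3 h8
  have hs := fun (h1 : x ≠ 1) (h : orderOf x ≠ 2) => card_ss hq h1 h
  rw [dd_odd h2, hc] at hs
  refine ⟨fun h => ?_, fun h => ?_, fun h1 h h' => ?_, fun h1 h h' => ?_⟩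
  · exact hc ▸ Nat.eq_of_mul_eq_mul_left two_pos (card_inv h3 h8 h)
  · refine (card_three h3 h8 h).trans ?_
    rw [hc, ← mul_add]
    have := Nat.one_le_pow p 3 (by norm_num)
    congr 1
    omega
  · exact Nat.eq_of_mul_eq_mul_left two_pos ((hs h1 h).1 h')
  · exact Nat.eq_of_mul_eq_mul_left two_pos ((hs h1 h).2 h')

end Cfsg.Agent.S2258
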