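import Cfsg.Statements.S2268
import Cfsg.Agent.Lib.Odd.BGPi

set_option autoImplicit false
open Cfsg

namespace Cfsg.Agent.S2268

open CA.BG Subgroup

/-- Let G be a finite group with an abelian Sylow p-subgroup P and let Q ≤ P. Then N_G(Q) = (N_G(Q) ∩ N_G(P))·C_G(Q), so that N_G(Q)/C_G(Q) is a homomorphic image of the subgroup (N_G(Q) ∩ N_G(P))/C_G(P) of N_G(P)/C_G(P); in particular the order of N_G(Q)/C_G(Q) divides the order of N_G(P)/C_G(P). -/
theorem result {G : Type*} [Group G] [Finite G] {p : ℕ} [Fact p.Prime]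
    (P : Sylow p G) (hP : IsMulCommutative (P : Subgroup G)) (Q : Subgroup G) (hQ : Q ≤ (P : Subgroup G)) :
    Subgroup.normalizer (Q : Set G) =
      (Subgroup.normalizer (Q : Set G) ⊓ Subgroup.normalizer ((P : Subgroup G) : Set G)) ⊔ Subgroup.centralizer (Q : Set G) ∧
    ((Subgroup.centralizer (Q : Set G)).subgroupOf (Subgroup.normalizer (Q : Set G))).index ∣ ((Subgroup.centralizer ((P : Subgroup G) : Set G)).subgroupOf (Subgroup.normalizer ((P : Subgroup G) : Set G))).index := by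
  have hp : p.Prime := Fact.out
  have h1 : (P : Subgroup G) ≤ 𝓒(Q) := cent_of_comm hP le_rfl hQ
  have h2 := ((syl_top hp P).of_le h1 le_top).syl_frattini_sup hp (cent_le_norm Q) (norm_cent le_rfl)
  rw [sup_comm] at h2
  refine ⟨h2.symm, ?_⟩
  change 𝓒(Q).relIndex 𝓝(Q) ∣ 𝓒((P : Subgroup G)).relIndex 𝓝((P : Subgroup G))
  conv_lhs => rw [← h2, relIndex_sup_norm (norm_cent inf_le_left)]
  exact (relIndex_dvd_of_le_left _ (cent_anti hQ)).trans
    (relIndex_dvd_of_norm (norm_cent le_rfl) inf_le_right)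

end Cfsg.Agent.S2268
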