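import Cfsg.Statements.S2269
import Cfsg.Agent.Lib.Perm.SnCyc
import Cfsg.Agent.S2268
import Cfsg.Agent.Lib.Grp.PGCyclicMax
import Cfsg.Agent.Lib.Lin.PSL2Four

set_option autoImplicit false
open Cfsg

namespace Cfsg.Agent.S2269

open CA.SnCyc Equiv Equiv.Perm Subgroup

theorem comm_of_le {G : Type*} [Group G] [Finite G] {p : ℕ} [Fact p.Prime] (P : Sylow p G)
    (hP : IsMulCommutative (P : Subgroup G)) {K : Subgroup G} (hK : IsPGroup p K) {a b : G}
    (ha : a ∈ K) (hb : b ∈ K) : a * b = b * a := by
  obtain ⟨Q, hQ⟩ := hK.exists_le_sylow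
  obtain ⟨g, rfl⟩ := MulAction.exists_smul_eq G P Q
  obtain ⟨a', ha', e1⟩ := hQ ha
  obtain ⟨b', hb', e2⟩ := hQ hb
  have : a' * b' = b' * a' := congrArg Subtype.val (hP.1.1 ⟨a', ha'⟩ ⟨b', hb'⟩)
  rw [← e1, ← e2]
  exact (Commute.map (show Commute a' b' from this) (MulAut.conj g)).eq

def a6 : alternatingGroup (Fin 6) := ⟨swap 0 1 * swap 2 3, mem_alternatingGroup.2 (by simp)⟩
def b6 : alternatingGroup (Fin 6) := ⟨swap 0 1 * swap 0 2 * swap 0 3 * swap 4 5, mem_alternatingGroup.2 (by simp)⟩

theorem pgroup6 : IsPGroup 2 (zpowers a6 ⊔ zpowers b6 : Subgroup _) := by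
  refine IsPGroup.to_sup_of_normal_right' (IsPGroup.of_card (n := 1) ?_) (IsPGroup.of_card (n := 2) ?_) ?_
  · rw [Nat.card_zpowers, pow_one]; exact orderOf_eq_prime (by decide +kernel) (by decide +kernel)
  · rw [Nat.card_zpowers]
    exact orderOf_eq_prime_pow (by decide +kernel) (by decide +kernel)
  · rw [zpowers_le]
    exact CA.PGCyclicMax.mem_normalizer_zpowers (u := -1) (by decide +kernel)

theorem five (P : Sylow 2 (alternatingGroup (Fin 5))) (hP : IsMulCommutative (P : Subgroup (alternatingGroup (Fin 5)))) :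
    ((centralizer ((P : Subgroup (alternatingGroup (Fin 5))) : Set (alternatingGroup (Fin 5)))).subgroupOf
      (normalizer ((P : Subgroup (alternatingGroup (Fin 5))) : Set (alternatingGroup (Fin 5))))).index = 3 ∧
      IsKleinFour (P : Subgroup (alternatingGroup (Fin 5))) := by
  have c60 := CA.PSL2Sub.card_A5
  have c4 : Nat.card P = 2 ^ 2 := CA.PSL2Four.card_sylow_of_odd P (m := 15) c60 (by decide)
  refine ⟨?_, CA.PSL2Four.isKleinFour_of c4 fun x hx => ?_⟩
  · set d := ((centralizer ((P : Subgroup (alternatingGroup (Fin 5))) : Set (alternatingGroup (Fin 5)))).subgroupOf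
      (normalizer ((P : Subgroup (alternatingGroup (Fin 5))) : Set (alternatingGroup (Fin 5))))).index with hd
    have i15 : (P : Subgroup (alternatingGroup (Fin 5))).index = 15 := by
      have := (P : Subgroup (alternatingGroup (Fin 5))).card_mul_index
      rw [c60, c4] at this; omega
    have d1 : d ∣ 15 := by
      rw [← i15]
      exact (relIndex_dvd_of_le_left _ (le_centralizer _)).trans (relIndex_dvd_index_of_le le_normalizer)
    have d2 : d ∣ 24 := by
      classical
      have := Fintype.ofFinite P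
      rw [hd, ← normalizerMonoidHom_ker, index_ker]
      refine (card_subgroup_dvd_card _).trans ((card_dvd_of_injective (MulAut.toPerm _)
        fun _ _ h => MulEquiv.toEquiv_injective h).trans ?_)
      rw [Nat.card_perm, c4]; rfl
    have d3 : d ∣ 3 := Nat.dvd_gcd d1 d2
    refine ((Nat.dvd_prime Nat.prime_three).1 d3).resolve_left fun e => ?_
    have hle := relIndex_eq_one.1 e
    have hc := (MonoidHom.ker_transferSylow_isComplement' P hle).card_mul_card
    rw [c60, c4] at hc
    have := alternatingGroup.isSimpleGroup (α := Fin 5) (by simp)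
    rcases (MonoidHom.normal_ker (MonoidHom.transferSylow P hle)).eq_bot_or_eq_top with h | h
    · rw [h, card_bot] at hc; omega
    · rw [h, card_top, c60] at hc; omega
  · have h1 : orderOf x ∣ 2 ^ 2 := by
      rw [← c4]; exact (P : Subgroup (alternatingGroup (Fin 5))).orderOf_dvd_natCard hx
    have h2 : ∀ k, x ^ k = 1 → Odd k → x * x = 1 := fun k hk ho => by
      rw [orderOf_eq_one_iff.1 (Nat.eq_one_of_dvd_coprimes
        ((Nat.coprime_two_left.2 ho).pow_left 2) h1 (orderOf_dvd_of_pow_eq_one hk)), one_mul]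
    rcases CA.PSL2Sub.A5_pow x with h | h | h
    exacts [by rwa [sq] at h, h2 3 h (by decide), h2 5 h (by decide)]

/-- Let n ≥ 5 and let P be an abelian Sylow p-subgroup of the alternating group A_n. Then N(P)/C(P) (taken in A_n) has even order, or P is cyclic, except when n = 5 and p = 2, where P is a four-group and N(P)/C(P) has order 3. -/
theorem result (n : ℕ) (hn : 5 ≤ n) {p : ℕ} [Fact p.Prime]
    (P : Sylow p (alternatingGroup (Fin n))) (hP : IsMulCommutative (P : Subgroup (alternatingGroup (Fin n)))) :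
    (¬ (n = 5 ∧ p = 2) → 2 ∣ ((Subgroup.centralizer ((P : Subgroup (alternatingGroup (Fin n))) : Set (alternatingGroup (Fin n)))).subgroupOf (Subgroup.normalizer ((P : Subgroup (alternatingGroup (Fin n))) : Set (alternatingGroup (Fin n))))).index ∨ IsCyclic (P : Subgroup (alternatingGroup (Fin n)))) ∧
    ((n = 5 ∧ p = 2) → ((Subgroup.centralizer ((P : Subgroup (alternatingGroup (Fin n))) : Set (alternatingGroup (Fin n)))).subgroupOf (Subgroup.normalizer ((P : Subgroup (alternatingGroup (Fin n))) : Set (alternatingGroup (Fin n))))).index = 3 ∧ IsKleinFour (P : Subgroup (alternatingGroup (Fin n)))) := by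
  have hp' : p.Prime := Fact.out
  refine ⟨fun h => ?_, ?_⟩
  · by_cases hp : p = 2
    · subst hp
      have h6 : 6 ≤ n := by omega
      have := comm_of_le P hP (pgroup6.map (altEmb (Fin.castLEEmb h6)))
        (mem_map_of_mem _ (mem_sup_left (mem_zpowers _))) (mem_map_of_mem _ (mem_sup_right (mem_zpowers _)))
      rw [← map_mul, ← map_mul] at this
      exact absurd (altEmb_injective _ this) (by decide +kernel)
    have h2 := hp'.two_le
    by_cases hn2 : 2 * p ≤ n
    · left
      obtain ⟨x, hx⟩ := exists_alt (α := Fin n) {p} (by simp; omega) (by simpa using h2)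
        (by simpa using (hp'.odd_of_ne_two hp).add_one)
      have ho : ∀ y : alternatingGroup (Fin n), y.1.cycleType = {p} → orderOf y = p := fun y hy =>
        (orderOf_coe y).symm.trans (orderOf_of_cycleType hy)
      obtain ⟨g, hg⟩ := exists_conj_mem_sylow P (k := 1) ((ho x hx).trans (pow_one p).symm)
      have hy : (g * x * g⁻¹).1.cycleType = {p} := (cycleType_conj (σ := x.1) (τ := g.1)).trans hx
      refine (two_dvd_of_real (x := g * x * g⁻¹) (alternatingGroup.isConj_of
        (isConj_iff_cycleType_eq.2 (cycleType_inv _).symm) ?_)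
        fun e => hp ?_).trans (Cfsg.Agent.S2268.result P hP _ (zpowers_le.2 hg)).2
      · rw [← sum_cycleType, hy]; simp; omega
      · have : orderOf (g * x * g⁻¹) ∣ 2 := orderOf_dvd_of_pow_eq_one (by
          rw [sq]; nth_rw 1 [← e]; exact inv_mul_cancel _)
        rw [ho _ hy] at this
        exact (Nat.prime_dvd_prime_iff_eq hp' Nat.prime_two).1 this
    · right
      obtain ⟨k, hk⟩ := P.2.exists_card_eq
      have h1 : p ^ k ∣ n.factorial := by
        rw [← hk]
        refine (card_subgroup_dvd_card _).trans ((card_subgroup_dvd_card _).trans ?_)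
        rw [Nat.card_perm, Nat.card_eq_fintype_card, Fintype.card_fin]
      rw [hp'.pow_dvd_factorial_iff (b := 2) (Nat.log_lt_of_lt_pow (by omega) (by nlinarith))] at h1
      have h3 : n / p < 2 := (Nat.div_lt_iff_lt_mul hp'.pos).2 (by omega)
      refine isCyclic_of_card_dvd_prime (p := p) ?_
      rw [hk]
      exact (pow_dvd_pow p (by simp at h1; omega : k ≤ 1)).trans (by simp)
  · rintro ⟨rfl, rfl⟩
    exact five P hP

end Cfsg.Agent.S2269
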