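import Cfsg.Statements.S2270
import Cfsg.Agent.Lib.Perm.SnCyc
import Cfsg.Agent.S2268

set_option autoImplicit false
open Cfsg

namespace Cfsg.Agent.S2270

open CA.SnCyc Equiv.Perm

/-- Let n ≥ 3, p an odd prime, and P an abelian Sylow p-subgroup of the symmetric group S_n (with p dividing n!, so that P ≠ 1). Then N(P)/C(P) has even order. -/
theorem result (n : ℕ) (hn : 3 ≤ n) {p : ℕ} [Fact p.Prime] (hp : p ≠ 2) (hpn : p ≤ n)
    (P : Sylow p (Equiv.Perm (Fin n))) (hP : IsMulCommutative (P : Subgroup (Equiv.Perm (Fin n)))) :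
    2 ∣ ((Subgroup.centralizer ((P : Subgroup (Equiv.Perm (Fin n))) : Set (Equiv.Perm (Fin n)))).subgroupOf (Subgroup.normalizer ((P : Subgroup (Equiv.Perm (Fin n))) : Set (Equiv.Perm (Fin n))))).index := by
  have hp' : p.Prime := Fact.out
  obtain ⟨x, hx⟩ := exists_cycle (α := Fin n) hp'.two_le (by simpa using hpn)
  obtain ⟨g, hg⟩ := exists_conj_mem_sylow P (k := 1) ((orderOf_of_cycleType hx).trans (pow_one p).symm)
  have hy : (g * x * g⁻¹).cycleType = {p} := by rw [cycleType_conj, hx]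
  refine (two_dvd_of_real (x := g * x * g⁻¹) (isConj_iff_cycleType_eq.2 (cycleType_inv _).symm)
    fun e => hp ?_).trans (Cfsg.Agent.S2268.result P hP _ (Subgroup.zpowers_le.2 hg)).2
  have : orderOf (g * x * g⁻¹) ∣ 2 := orderOf_dvd_of_pow_eq_one (by
    rw [sq]; nth_rw 1 [← e]; exact inv_mul_cancel _)
  rw [orderOf_of_cycleType hy] at this
  exact (Nat.prime_dvd_prime_iff_eq hp' Nat.prime_two).1 this

end Cfsg.Agent.S2270
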