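import Cfsg.Statements.S2280
import Cfsg.Agent.Lib.Lin.SLReg2
import Cfsg.Agent.S2278

set_option autoImplicit false
open Cfsg

namespace Cfsg.Agent.S2280

open Matrix CA.SLTv CA.SLReg Subgroup

/-- Let F be a finite field and n ≥ 3. Then SL_n(F) is generated by three conjugate regular unipotent elements: there are u with u − 1 nilpotent and (u − 1)^(n−1) ≠ 0, and g, h, such that u, g u g⁻¹ and h u h⁻¹ generate SL_n(F). -/
theorem result {F : Type*} [Field F] [Fintype F] (n : ℕ) (hn : 3 ≤ n) :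
    ∃ u g h : Matrix.SpecialLinearGroup (Fin n) F, (IsNilpotent ((u : Matrix (Fin n) (Fin n) F) - 1) ∧ ((u : Matrix (Fin n) (Fin n) F) - 1) ^ (n - 1) ≠ 0) ∧
      Subgroup.closure ({u, g * u * g⁻¹, h * u * h⁻¹} : Set (Matrix.SpecialLinearGroup (Fin n) F)) = ⊤ := by
  rcases hn.eq_or_lt with rfl | hn
  · obtain ⟨u, g, h1, h2, h3⟩ := Cfsg.Agent.S2278.result (F := F)
    refine ⟨u, g, g, ⟨h1, h2⟩, ?_⟩
    rwa [Set.pair_eq_singleton]
  obtain ⟨g, hg⟩ := fam (F := F) hn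
  obtain ⟨x, -, hx⟩ := exists_gen F
  obtain ⟨k, hk⟩ : ∃ k, k + 1 = n := ⟨n - 1, by omega⟩
  have h0k : (⟨0, by omega⟩ : Fin n) ≠ ⟨k, by omega⟩ := by simp; omega
  set t : SpecialLinearGroup (Fin n) F := SpecialLinearGroup.transvection h0k (x : F)
  refine ⟨Cs n F, g, t, ⟨⟨n, Cm_nilp⟩, Cm_reg (by omega)⟩, ?_⟩
  set H := closure {Cs n F, g * Cs n F * g⁻¹, t * Cs n F * t⁻¹}
  have hC : Cs n F ∈ H := subset_closure (by simp)
  have h1 := hg H hC (subset_closure (by simp))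
  have hs : t * Cs n F * t⁻¹ * (Cs n F)⁻¹ ∈ H := mul_mem (subset_closure (by simp)) (inv_mem hC)
  have ht : ∀ (c : F) y, (SpecialLinearGroup.transvection h0k c).1 *ᵥ y =
      y + (e n F k ⬝ᵥ y) • c • e n F 0 := fun c y => by
    rw [SpecialLinearGroup.transvection_coe, add_mulVec, one_mulVec, single_mulVec,
      e_dot (show k < n by omega)]
    ext i; by_cases hi : i = ⟨0, by omega⟩ <;> simp [hi, e, mul_comm]
    exact fun h => absurd (Fin.ext h) hi
  have hs' : ∀ y, (t * Cs n F * t⁻¹ * (Cs n F)⁻¹).1 *ᵥ y = y - (cc n F 0 * (e n F 0 ⬝ᵥ y) * x) • e n F 1 +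
      (e n F k ⬝ᵥ y) • (x : F) • e n F 0 := fun y => by
    obtain ⟨z, rfl⟩ : ∃ z, y = Cm n F *ᵥ z := ⟨_, (mulVec_inv (Cs n F) y).symm⟩
    rw [mul_mulVec, mul_mulVec, mul_mulVec, show (Cs n F)⁻¹.1 *ᵥ Cm n F *ᵥ z = z from inv_mulVec _ z,
      SpecialLinearGroup.transvection_inv, ht, ht, dot0' hk, ← mul_assoc, cc_zero_sq, one_mul]
    change (Cm n F *ᵥ _) + (_ ⬝ᵥ Cm n F *ᵥ _) • _ = _
    simp only [mulVec_add, mulVec_smul, Cm_e (show 0 + 1 < n by omega), dotProduct_add,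
      dotProduct_smul, e_dot_e_ne (show k ≠ 0 + 1 by omega)]
    module
  have h2 := Tv.conj (ψ := e n F 2) (h1 k (by omega) 2 (by omega) (by omega)) hs fun y => by
    rw [hs']; simp [e_dot_e_ne]
  have h3 := h2.add_left ((h1 k (by omega) 2 (by omega) (by omega)).neg (by omega))
    (by simp [e_dot_e_ne (show 2 ≠ k by omega)])
  rw [hs'] at h3
  refine h1.eq_top hn.le (h1.of_el hn.le (i := 0) (j := 2) (by omega) (by omega) (by omega) ?_) hx
  simpa [El, e_dot_e_ne (show 0 ≠ k by omega), e_dot_e_self (show k < n by omega)] using h3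

end Cfsg.Agent.S2280
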