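import Cfsg.Statements.S2281
import Cfsg.Agent.Lib.Lin.H12Ru3

set_option autoImplicit false
open Cfsg

namespace Cfsg.Agent.S2281

open CA.CForm CA.CForm.Form CA.H12Ru


/-- Let F be a finite field and n ≥ 2, excluding the case n = 2 with F of two elements (where the group is not quasisimple). Then the symplectic group Sp_2n(F) is generated by three conjugate regular unipotent elements: there are u ∈ Sp_2n(F) with u − 1 nilpotent and (u − 1)^(2n−1) ≠ 0, and g, h ∈ Sp_2n(F), such that u, g u g⁻¹ and h u h⁻¹ generate Sp_2n(F). -/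
theorem result {F : Type*} [Field F] [Fintype F] (n : ℕ) (hn : 2 ≤ n) (h22 : ¬ (n = 2 ∧ Fintype.card F = 2)) :
    ∃ u g h : Matrix.symplecticGroup (Fin n) F,
      IsNilpotent ((u : Matrix (Fin n ⊕ Fin n) (Fin n ⊕ Fin n) F) - 1) ∧
      ((u : Matrix (Fin n ⊕ Fin n) (Fin n ⊕ Fin n) F) - 1) ^ (2 * n - 1) ≠ 0 ∧
      Subgroup.closure ({u, g * u * g⁻¹, h * u * h⁻¹} : Set (Matrix.symplecticGroup (Fin n) F)) = ⊤ := by
  have hf := sympStd_nondeg F n
  obtain ⟨u, y, g, h, hr, H⟩ := symp_three hf (m := n) (by simp [two_mul]) hn fun e =>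
    exists_ne_zero_ne_one fun e' => h22 ⟨e, e'⟩
  obtain ⟨h1, h2⟩ := mat_reg hr (spEquiv_symm_mulVec n u) (by simp; omega)
  refine ⟨(spEquiv F n).symm u, (spEquiv F n).symm g, (spEquiv F n).symm h, h1,
    by simpa [two_mul] using h2, ?_⟩
  set K := Subgroup.closure ({(spEquiv F n).symm u, (spEquiv F n).symm g * (spEquiv F n).symm u *
    ((spEquiv F n).symm g)⁻¹, (spEquiv F n).symm h * (spEquiv F n).symm u *
    ((spEquiv F n).symm h)⁻¹} : Set (Matrix.symplecticGroup (Fin n) F))
  have := H (K.comap (spEquiv F n).symm.toMonoidHom) (Subgroup.subset_closure (by simp))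
    (Subgroup.subset_closure (by simp)) (Subgroup.subset_closure (by simp))
  rw [hf.symp_Eich_eq_top] at this
  refine eq_top_iff.2 fun a _ => ?_
  simpa using this (Subgroup.mem_top (spEquiv F n a))

end Cfsg.Agent.S2281
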