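import Cfsg.Statements.S2282
import Cfsg.Agent.Lib.Lin.H12Ru6

set_option autoImplicit false
open Cfsg

namespace Cfsg.Agent.S2282

open CA.CForm CA.CForm.Form CA.H12Ru


/-- Let F be a field with q² elements, n ≥ 3 odd with (n, q) ≠ (3, 2), and SU_n(q) the special unitary group of the standard Hermitian form Σ u_i v_i^q. Then SU_n(q) is generated by three conjugate regular unipotent elements: there are u ∈ SU_n(q) with u − 1 nilpotent and (u − 1)^(n−1) ≠ 0, and g, h ∈ SU_n(q), such that u, g u g⁻¹ and h u h⁻¹ generate SU_n(q). -/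
theorem result {F : Type*} [Field F] [Fintype F] (q : ℕ) (hF : Fintype.card F = q ^ 2) (n : ℕ) (hn : 3 ≤ n) (hodd : Odd n) (h32 : ¬ (n = 3 ∧ q = 2)) :
    ∃ u g h : ↥(Cfsg.SU n F q), (IsNilpotent (((u : Matrix.SpecialLinearGroup (Fin n) F) : Matrix (Fin n) (Fin n) F) - 1) ∧ (((u : Matrix.SpecialLinearGroup (Fin n) F) : Matrix (Fin n) (Fin n) F) - 1) ^ (n - 1) ≠ 0) ∧
      Subgroup.closure ({u, g * u * g⁻¹, h * u * h⁻¹} : Set ↥(Cfsg.SU n F q)) = ⊤ := by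
  have hf := hermStd_nondeg hF n
  obtain ⟨m, rfl⟩ : ∃ m, n = 2 * m + 3 := by obtain ⟨m, rfl⟩ := hodd; exact ⟨m - 1, by omega⟩
  obtain ⟨u, h1, h2, g, hg, h, hh, H⟩ := herm_odd hF hf (m := m) (by simp) (by omega)
  obtain ⟨h3, h4⟩ := mat_nil (suEquiv_symm_mulVec hF _ ⟨u, det_eq_one h1⟩) h1 h2
  refine ⟨(suEquiv hF _).symm ⟨u, det_eq_one h1⟩, (suEquiv hF _).symm ⟨g, hg⟩,
    (suEquiv hF _).symm ⟨h, hh⟩, ⟨h3, h4⟩,
    closure_top (suEquiv hF _) fun X hX => herm_Eich_eq hF hf (by simp) ▸ H X ?_ ?_ ?_⟩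
  · simpa using hX _ (Or.inl rfl)
  · simpa using hX _ (Or.inr (Or.inl rfl))
  · simpa using hX _ (Or.inr (Or.inr rfl))

end Cfsg.Agent.S2282
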