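import Cfsg.Statements.S2332
import Cfsg.Agent.Lib.Lin.SLDeg
-- import your own Cfsg.Agent.* helpers here

set_option autoImplicit false
open Cfsg

namespace Cfsg.Agent.S2332

/-- Smallest degree of a non-linear irreducible complex representation of SL_n over a finite field with q elements, for n ≥ 3 and (n, q) not one of (3, 2), (3, 4), (4, 2), (4, 3): every irreducible complex representation of SL_n(F) of degree at least 2 has degree at least (q^n − q)/(q − 1), and there is an irreducible complex representation of exactly that degree. -/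
theorem result {F : Type*} [Field F] [Fintype F] [DecidableEq F] (n : ℕ) (hn : 3 ≤ n)
    (hex : (n, Fintype.card F) ≠ (3, 2) ∧ (n, Fintype.card F) ≠ (3, 4) ∧ (n, Fintype.card F) ≠ (4, 2) ∧ (n, Fintype.card F) ≠ (4, 3)) :
    (∀ (k : ℕ) (ρ : Representation ℂ (Matrix.SpecialLinearGroup (Fin n) F) (Fin k → ℂ)), ρ.IsIrreducible → 2 ≤ k → (Fintype.card F ^ n - Fintype.card F) / (Fintype.card F - 1) ≤ k) ∧
    (∃ ρ : Representation ℂ (Matrix.SpecialLinearGroup (Fin n) F) (Fin ((Fintype.card F ^ n - Fintype.card F) / (Fintype.card F - 1)) → ℂ), ρ.IsIrreducible) := by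
  have hq : 2 ≤ Fintype.card F := Fintype.one_lt_card
  have hex' : (n, Fintype.card F) ∉ [(3, 2), (3, 4), (4, 2), (4, 3)] := by
    simp only [List.mem_cons, List.not_mem_nil, or_false, not_or]
    exact hex
  rw [CA.SLDeg.div_eq' _ _ hq (by omega)]
  refine ⟨fun k ρ hρ hk => ?_, ?_⟩
  · have := CA.SLDeg.min_degree hn hex' (χ := ρ.character) ⟨k, ρ, hρ, rfl⟩ (D := k)
      (by rw [Representation.char_one]; simp) (by omega)
    omega
  · have hc := CA.SLDeg.card_proj (F := F) (n := n)
    have h2 : 2 ≤ ∑ k ∈ Finset.range n, Fintype.card F ^ k := by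
      obtain ⟨r, rfl⟩ : ∃ r, n = r + 2 := ⟨n - 2, by omega⟩
      rw [Finset.sum_range_succ', Finset.sum_range_succ']
      simp only [pow_zero, zero_add, pow_one]
      omega
    haveI : Finite (Projectivization F (Fin n → F)) := Nat.finite_of_card_ne_zero (by omega)
    haveI : Nontrivial (Projectivization F (Fin n → F)) := Finite.one_lt_card_iff_nontrivial.1 (by omega)
    have h := (CA.PermChar.irr_iff_two (G := Matrix.SpecialLinearGroup (Fin n) F)
      (X := Projectivization F (Fin n → F))).2 inferInstance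
    obtain ⟨k, ρ, hρ, -, hk, -⟩ := CChar.CharFun.irr_exists_rep h
    rw [Pi.sub_apply, CA.PermChar.pc_one, hc] at hk
    have : ∑ k ∈ Finset.range n, Fintype.card F ^ k - 1 = k := by
      have : ((∑ k ∈ Finset.range n, Fintype.card F ^ k : ℕ) : ℂ) = ((k + 1 : ℕ) : ℂ) := by
        rw [Nat.cast_add, ← hk]; simp
      have := Nat.cast_injective (R := ℂ) this
      omega
    rw [this]
    exact ⟨ρ, hρ⟩

end Cfsg.Agent.S2332
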