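import Cfsg.Statements.S2334
import Cfsg.Agent.Lib.Lin.DegLS
-- import your own Cfsg.Agent.* helpers here

set_option autoImplicit false
open Cfsg

namespace Cfsg.Agent.S2334

open CA.CForm CA.DegLS CChar.CharFun CChar.CharRep

/-- For odd n ≥ 3 and a finite field F with q² elements, (n, q) ≠ (3, 2), every irreducible complex representation of the special unitary group SU_n(q) (the determinant-one isometries of the standard Hermitian form over F) of degree at least 2 has degree at least (q^n − q)/(q + 1). -/
theorem result {F : Type*} [Field F] [Fintype F] [DecidableEq F] (n q : ℕ) (hn : 3 ≤ n) (hodd : Odd n) (hF : Fintype.card F = q ^ 2) (hex : (n, q) ≠ (3, 2)) :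
    (∀ (k : ℕ) (ρ : Representation ℂ (Cfsg.SU n F q) (Fin k → ℂ)), ρ.IsIrreducible → 2 ≤ k → (q ^ n - q) / (q + 1) ≤ k) := by
  intro k ρ hρ hk
  obtain ⟨m, rfl⟩ := hodd
  obtain ⟨m, rfl⟩ := Nat.exists_eq_add_one.2 (by omega : 0 < m)
  have := Finite.of_equiv _ (suEquiv hF (2 * (m + 1) + 1)).symm.toEquiv
  simpa using herm_bound hF (hermStd_nondeg hF _) (m := m) le_rfl (by simp) (by simpa using hn) (by simpa using hex)
    (char_comp (isCharacter_character ρ) (suEquiv hF _).symm.toMonoidHom) (d := k) (by simp) (ker_ne (suEquiv hF _).symm hρ hk)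

end Cfsg.Agent.S2334
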