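import Cfsg.Statements.S2336
import Cfsg.Agent.Lib.Lin.Ch2Gen
import Cfsg.Agent.Lib.Lin.SLTr

set_option autoImplicit false
open Cfsg

namespace Cfsg.Agent.S2336

section
open CChar.CharFun CChar.CharOrth Matrix
open scoped ComplexConjugate

theorem ortho {G ι : Type*} [Group G] [Fintype G] [Fintype ι] (ψ : ι → G → ℂ)
    (h : ∀ i, IsCharacter G (ψ i)) (h0 : ∀ i, ψ i ≠ 0) {m : ℕ}
    (hm : classInner (∑ i, ψ i) (∑ i, ψ i) = m) (hle : m ≤ Fintype.card ι) :
    (∀ i, IsIrrCharacter G (ψ i)) ∧ Function.Injective ψ := by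
  classical
  choose a ha using fun i j => inner_char_char (h i) (h j)
  have h1 : ∑ i, ∑ j, a i j = m := by
    simp only [inner_sum_left, inner_sum_right, ha] at hm
    rw [Finset.sum_comm]
    exact_mod_cast hm
  have h2 : ∀ i, 1 ≤ a i i := fun i => Nat.pos_of_ne_zero fun e =>
    h0 i (inner_self_eq_zero.1 (by rw [ha, e, Nat.cast_zero]))
  have h3 : ∀ i, a i i + ∑ j ∈ Finset.univ.erase i, a i j = ∑ j, a i j := fun i =>
    Finset.add_sum_erase _ _ (Finset.mem_univ i)
  have h4 : ∀ i, ∑ j, a i j = 1 := fun i =>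
    ((Finset.sum_eq_sum_iff_of_le (s := Finset.univ) (f := fun _ => 1) (g := fun i => ∑ j, a i j)
      fun i _ => by have := h2 i; have := h3 i; omega).1 (le_antisymm
        (Finset.sum_le_sum fun i _ => by have := h2 i; have := h3 i; omega) (by simpa [h1] using hle))
      i (Finset.mem_univ i)).symm
  have h5 : ∀ i, a i i = 1 := fun i => by have := h2 i; have := h3 i; have := h4 i; omega
  refine ⟨fun i => irr_of_char_of_inner_self (h i) (by rw [ha, h5, Nat.cast_one]), fun i j e => ?_⟩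
  by_contra hne
  have h6 := Finset.single_le_sum (f := a i) (fun _ _ => Nat.zero_le _)
    (Finset.mem_erase.2 ⟨Ne.symm hne, Finset.mem_univ j⟩)
  have h7 : (a i j : ℂ) = a i i := by rw [← ha, ← ha, ← e]
  have h8 : a i j = a i i := by exact_mod_cast h7
  have := h3 i; have := h4 i; have := h5 i
  omega

/-- the `lam`-component of a function on `G × A` -/
noncomputable def cp {G A : Type*} [Group A] [Fintype A] (θ : G × A → ℂ) (lam : A →* ℂˣ) (g : G) : ℂ :=
  (Nat.card A : ℂ)⁻¹ * ∑ a, θ (g, a) * conj (lam a : ℂ)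

theorem inner_cp {G A : Type*} [Group G] [Fintype G] [Group A] [Fintype A] (θ : G × A → ℂ)
    (lam : A →* ℂˣ) (χ : G → ℂ) :
    classInner (cp θ lam) χ = classInner θ ((fun x : G × A => χ x.1) * fun x => (lam x.2 : ℂ)) := by
  simp only [inner_def, cp, Fintype.sum_prod_type, Nat.card_prod, Nat.cast_mul, mul_inv, Pi.mul_apply,
    map_mul, Finset.mul_sum, Finset.sum_mul]
  refine Finset.sum_congr rfl fun g _ => Finset.sum_congr rfl fun a _ => by ring

theorem char_cp {G A : Type*} [Group G] [Fintype G] [Group A] [Fintype A] {θ : G × A → ℂ}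
    (h : IsCharacter _ θ) (lam : A →* ℂˣ) : IsCharacter G (cp θ lam) := by
  refine char_of_inner_nat (fun g x => ?_) fun χ hχ => ?_
  · simp only [cp]
    congr 2
    ext a
    rw [← char_classFun h (g, a) (x, 1)]
    simp
  · rw [inner_cp]
    exact inner_char_char h (char_mul (char_comp (char_of_irr hχ) (MonoidHom.fst G A))
      (char_comp (char_of_unitsHom lam) (MonoidHom.snd G A)))

theorem sum_cp {G A : Type*} [CommGroup A] [Fintype A] [Fintype (A →* ℂˣ)] (θ : G × A → ℂ) (g : G) :
    ∑ lam : A →* ℂˣ, cp θ lam g = θ (g, 1) := by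
  classical
  simp only [cp, ← Finset.mul_sum]
  rw [Finset.sum_comm, Finset.sum_eq_single 1]
  · have := CA.Ch2Gen.card_hom (G := A) mul_comm
    have h0 : (Nat.card A : ℂ) ≠ 0 := Nat.cast_ne_zero.2 Nat.card_pos.ne'
    simp only [map_one, Units.val_one, mul_one, Finset.sum_const, Finset.card_univ, nsmul_eq_mul,
      ← Nat.card_eq_fintype_card, this]
    field_simp
  · intro a _ ha
    have : NeZero (Monoid.exponent A) := ⟨Monoid.exponent_ne_zero_of_finite⟩
    obtain ⟨lam, hl⟩ := CommGroup.exists_apply_ne_one_of_hasEnoughRootsOfUnity A ℂ ha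
    rw [← Finset.mul_sum, ← map_sum]
    have := sum_hom_units_eq_zero ((Units.coeHom ℂ).comp (MonoidHom.eval a : (A →* ℂˣ) →* ℂˣ))
      (fun h => hl (Units.ext (DFunLike.congr_fun h lam)))
    simp only [MonoidHom.comp_apply, Units.coeHom_apply, MonoidHom.eval_apply_apply] at this
    rw [this]; simp
  · simp

variable (F : Type*) [Field F] (n : ℕ)

/-- nonzero vectors -/
def NZ := {v : Fin n → F // v ≠ 0}

instance instFinNZ [Finite F] : Finite (NZ F n) := by unfold NZ; infer_instance

instance instActNZ : MulAction (SpecialLinearGroup (Fin n) F × Fˣ) (NZ F n) where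
  smul g v := ⟨(g.2 : F) • g.1.1 *ᵥ v.1, smul_ne_zero g.2.ne_zero fun h => v.2 (by
    rw [← CA.SLTr.inv_mulVec g.1 v.1, h, mulVec_zero])⟩
  one_smul v := Subtype.ext (by show (1 : F) • (1 : Matrix _ _ F) *ᵥ v.1 = v.1; simp)
  mul_smul g h v := Subtype.ext (by
    show ((g.2 : F) * h.2) • (g.1 * h.1).1 *ᵥ v.1 = (g.2 : F) • g.1.1 *ᵥ ((h.2 : F) • h.1.1 *ᵥ v.1)
    rw [CA.SLTr.mul_mulVec, mulVec_smul, mul_smul])

instance instActNZ' : MulAction (SpecialLinearGroup (Fin n) F) (NZ F n) :=
  MulAction.compHom _ (MonoidHom.inl _ Fˣ)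

variable {F n}

theorem coe_smul (g : SpecialLinearGroup (Fin n) F × Fˣ) (v : NZ F n) :
    (g • v).1 = (g.2 : F) • g.1.1 *ᵥ v.1 := rfl

theorem coe_smul' (g : SpecialLinearGroup (Fin n) F) (v : NZ F n) : (g • v).1 = g.1 *ᵥ v.1 :=
  one_smul F _

theorem orbits (hn : 3 ≤ n) [Finite F] : Nat.card (MulAction.orbitRel.Quotient
    (SpecialLinearGroup (Fin n) F) (NZ F n × NZ F n)) ≤ Nat.card (Option Fˣ) := by
  classical
  obtain ⟨e, he⟩ := CA.SLTr.exists_notMem (W := (⊥ : Submodule F (Fin n → F))) (by simp; omega)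
  rw [Submodule.mem_bot] at he
  obtain ⟨e', he'⟩ := CA.SLTr.exists_notMem (W := F ∙ e) (by
    rw [finrank_span_singleton he]; simp; omega)
  refine Nat.card_le_card_of_surjective (fun o : Option Fˣ => Quotient.mk'' (⟨e, he⟩,
    o.elim ⟨e', fun h => he' (h ▸ zero_mem _)⟩ fun c => ⟨(c : F) • e, smul_ne_zero c.ne_zero he⟩)) ?_
  intro x
  obtain ⟨⟨v, w⟩, rfl⟩ := Quotient.exists_rep x
  by_cases h : w.1 ∈ F ∙ v.1
  · obtain ⟨c, hc⟩ := Submodule.mem_span_singleton.1 h
    obtain ⟨g, hg⟩ := CA.SLTr.exists_one (ι := Fin n) (by simp; omega) v.2 he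
    refine ⟨some (Units.mk0 c fun h => w.2 (by rw [← hc, h, zero_smul])), Quotient.sound ⟨g, ?_⟩⟩
    refine Prod.ext (Subtype.ext ((coe_smul' g v).trans hg)) (Subtype.ext ((coe_smul' g w).trans ?_))
    show _ = c • e
    rw [← hc, mulVec_smul, hg]
  · obtain ⟨g, hg, hg'⟩ := CA.SLTr.exists_pair (ι := Fin n) (by simpa using hn) v.2 he h he'
    exact ⟨none, Quotient.sound ⟨g, Prod.ext (Subtype.ext ((coe_smul' g v).trans hg))
      (Subtype.ext ((coe_smul' g w).trans hg'))⟩⟩

end

/-- Let F be a finite field with q elements and n ≥ 3. The permutation character of SL_n(F) on the non-zero vectors of F^n (the function sending a matrix to the number of non-zero vectors it fixes) is the sum of the principal character and q − 1 pairwise distinct irreducible complex characters. -/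
theorem result {F : Type*} [Field F] [Fintype F] [DecidableEq F] (n : ℕ) (hn : 3 ≤ n) :
    ∃ χ : Fin (Fintype.card F - 1) → (Matrix.SpecialLinearGroup (Fin n) F → ℂ),
      (∀ i, Cfsg.IsIrrCharacter (Matrix.SpecialLinearGroup (Fin n) F) (χ i)) ∧ Function.Injective χ ∧
      ∀ g : Matrix.SpecialLinearGroup (Fin n) F,
        (Nat.card {v : Fin n → F // v ≠ 0 ∧ (g : Matrix (Fin n) (Fin n) F).mulVec v = v} : ℂ) = 1 + ∑ i, χ i g := by
  open CChar.CharFun CChar.CharOrth Matrix in
  classical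
  let θ : SpecialLinearGroup (Fin n) F × Fˣ → ℂ := fun g => Nat.card (MulAction.fixedBy (NZ F n) g)
  have hθ : IsCharacter _ θ := char_perm (NZ F n)
  have hq : 2 ≤ Fintype.card F := Fintype.one_lt_card
  have hc := CA.Ch2Gen.card_hom (G := Fˣ) mul_comm
  have : Finite (Fˣ →* ℂˣ) := Nat.finite_of_card_ne_zero (hc ▸ Nat.card_pos.ne')
  have := Fintype.ofFinite (Fˣ →* ℂˣ)
  have hA : (Nat.card Fˣ : ℂ) ≠ 0 := Nat.cast_ne_zero.2 Nat.card_pos.ne'
  have hX : Nat.card (NZ F n) = Fintype.card F ^ n - 1 := by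
    unfold NZ
    rw [Nat.card_eq_fintype_card, Fintype.card_subtype_compl]
    simp
  have h1 : ∀ lam, Nat.card Fˣ * cp θ lam 1 = (Fintype.card F ^ n - 1 : ℕ) := fun lam => by
    rw [cp, mul_inv_cancel_left₀ hA, Finset.sum_eq_single 1]
    · simp only [θ, Prod.mk_one_one, MulAction.fixedBy_one_eq_univ, map_one, Units.val_one, mul_one,
        Nat.card_univ, hX]
    · intro a _ ha
      have : MulAction.fixedBy (NZ F n) ((1 : SpecialLinearGroup (Fin n) F), a) = ∅ := by
        ext v
        simp only [MulAction.mem_fixedBy, Set.mem_empty_iff_false, iff_false]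
        intro h
        have h2 := congrArg Subtype.val h
        rw [coe_smul, Matrix.SpecialLinearGroup.coe_one, one_mulVec] at h2
        exact ha (Units.ext (smul_left_injective F v.2 (h2.trans (one_smul F _).symm)))
      simp [θ, this]
    · simp
  have h3 : Fintype.card F < Fintype.card F ^ n :=
    (pow_one _).ge.trans_lt (Nat.pow_lt_pow_right hq (by omega))
  have h2 : classInner (cp θ 1) (fun _ => 1) ≠ 0 := by
    rw [inner_cp, show ((fun _ : SpecialLinearGroup (Fin n) F × Fˣ => (1 : ℂ)) *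
      fun x => (((1 : Fˣ →* ℂˣ) x.2 : ℂˣ) : ℂ)) = fun _ => 1 by ext; simp, inner_one_right]
    refine mul_ne_zero (inv_ne_zero (Nat.cast_ne_zero.2 Nat.card_pos.ne')) ?_
    simp only [θ, ← Nat.cast_sum, Nat.cast_ne_zero]
    intro h
    have := Finset.sum_eq_zero_iff.1 h 1 (Finset.mem_univ _)
    rw [MulAction.fixedBy_one_eq_univ, Nat.card_univ, hX] at this
    omega
  let ψ : Option (Fˣ →* ℂˣ) → SpecialLinearGroup (Fin n) F → ℂ := fun o =>
    o.elim (fun _ => 1) fun lam => cp θ lam - if lam = 1 then (fun _ => (1 : ℂ)) else (0 : SpecialLinearGroup (Fin n) F → ℂ)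
  have h4 : ∀ g, (∑ o, ψ o) g = θ (g, 1) := fun g => by
    rw [Finset.sum_apply, Fintype.sum_option, ← sum_cp θ g]
    simp [ψ, ite_apply]
  obtain ⟨h5, h6⟩ := ortho ψ (by
      rintro (_ | lam)
      · exact char_one
      · by_cases h : lam = 1
        · subst h
          simpa [ψ] using char_sub_irr (char_cp hθ 1) irr_one h2
        · simpa [ψ, h] using char_cp hθ lam)
    (by
      rintro (_ | lam) h
      · simpa [ψ] using congrFun h 1
      · have h7 := congrFun h 1
        have h8 := h1 lam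
        rw [Nat.card_eq_fintype_card, Fintype.card_units] at h8
        by_cases h : lam = 1
        · simp only [ψ, h, Option.elim, if_true, Pi.sub_apply, Pi.zero_apply, sub_eq_zero] at h7
          rw [h, h7, mul_one, Nat.cast_inj] at h8
          omega
        · simp only [ψ, h, Option.elim, if_false, sub_zero, Pi.zero_apply] at h7
          rw [h7, mul_zero, eq_comm, Nat.cast_eq_zero] at h8
          omega)
    (m := Nat.card (MulAction.orbitRel.Quotient (SpecialLinearGroup (Fin n) F) (NZ F n × NZ F n)))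
    (by
      have := Fintype.ofFinite (NZ F n)
      have h7 := MulAction.sum_card_fixedBy_eq_card_orbits_mul_card_group
        (SpecialLinearGroup (Fin n) F) (NZ F n × NZ F n)
      rw [inner_def, inv_mul_eq_iff_eq_mul₀ (Nat.cast_ne_zero.2 Nat.card_pos.ne'), mul_comm,
        Nat.card_eq_fintype_card, Nat.card_eq_fintype_card, ← Nat.cast_mul, ← h7, Nat.cast_sum]
      refine Finset.sum_congr rfl fun g _ => ?_
      rw [h4]
      simp only [θ, map_natCast, ← Nat.cast_mul, ← Nat.card_prod, ← Nat.card_eq_fintype_card]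
      congr 1
      exact Nat.card_congr ⟨fun x => ⟨(x.1.1, x.2.1), Prod.ext x.1.2 x.2.2⟩,
        fun x => (⟨x.1.1, congrArg Prod.fst x.2⟩, ⟨x.1.2, congrArg Prod.snd x.2⟩),
        fun _ => rfl, fun _ => rfl⟩)
    (by
      refine (orbits hn).trans ?_
      rw [Fintype.card_option, Finite.card_option, ← hc, Nat.card_eq_fintype_card])
  let e : Fin (Fintype.card F - 1) ≃ (Fˣ →* ℂˣ) := (Fintype.equivFinOfCardEq (by
    rw [← Nat.card_eq_fintype_card, hc, Nat.card_eq_fintype_card, Fintype.card_units])).symm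
  refine ⟨fun i => ψ (some (e i)), fun i => h5 _, fun i j h => e.injective (Option.some.inj (h6 h)),
    fun g => ?_⟩
  rw [e.sum_comp (fun lam => ψ (some lam) g)]
  have h7 := h4 g
  rw [Finset.sum_apply, Fintype.sum_option] at h7
  refine Eq.trans ?_ h7.symm
  simp only [θ, Nat.cast_inj]
  exact Nat.card_congr ⟨fun x => ⟨⟨x.1, x.2.1⟩, Subtype.ext ((coe_smul' g _).trans x.2.2)⟩,
    fun x => ⟨x.1.1, x.1.2, (coe_smul' g _).symm.trans (congrArg Subtype.val x.2)⟩,
    fun _ => rfl, fun _ => rfl⟩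

end Cfsg.Agent.S2336
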