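import Cfsg.Statements.S2337
import Cfsg.Agent.Lib.Lie.SzModel
import Cfsg.Agent.Lib.Lin.DegLS

set_option autoImplicit false
open Cfsg

namespace Cfsg.Agent.S2337

open CA.SzBasic CA.SzGroup CA.Wt CChar.CharFun CChar.CharKer CChar.CharRep Finset

variable {F : Type*} [Field F] [Fintype F] {m : ℕ} [hy : Hyp F m]

include hy in
theorem exists_psi : ∃ ψ : AddChar F ℂ, (∃ c, ψ c ≠ 1) ∧ ∀ u, ψ (th F u) = ψ u := by
  let L : F →+ F := (th F).toAddMonoidHom - AddMonoidHom.id F
  obtain ⟨c, hc⟩ : ∃ c, c ∉ L.range := by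
    by_contra h
    push Not at h
    have := Finite.injective_iff_surjective.2 (show Function.Surjective L from h) (a₁ := 1) (a₂ := 0) (by simp [L])
    exact one_ne_zero this
  obtain ⟨φ, hφ⟩ := exists_addChar (F ⧸ L.range) (c := (c : F ⧸ L.range)) (by rwa [Ne, QuotientAddGroup.eq_zero_iff])
  refine ⟨φ.compAddMonoidHom (QuotientAddGroup.mk' _), ⟨c, hφ⟩, fun u => congrArg φ ?_⟩
  exact QuotientAddGroup.eq_iff_sub_mem.2 ⟨u, rfl⟩

theorem deg_le {χ : G F → ℂ} (hc : IsCharacter (G F) χ) (hne : charKer χ ≠ ⊤) {k : ℕ} (hk : χ 1 = k) :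
    2 ^ m * (2 ^ (2 * m + 1) - 1) ≤ k := by
  classical
  have ker : charKer χ = ⊥ := ((charKer_normal χ).eq_bot_or_eq_top).resolve_right hne
  obtain ⟨ψ, ⟨c, hψ⟩, hth⟩ := exists_psi (F := F)
  have sep : ∀ a : F, a ≠ 0 → ∃ y, ψ (y * a) ≠ 1 := fun a ha => ⟨c / a, by rwa [div_mul_cancel₀ _ ha]⟩
  let x : AddChar F (G F) := ⟨fun b => T 0 b, T_zero, fun a b => by simp [T_mul]⟩
  have hx : Function.Injective x := fun a b h => (T_inj.1 h).2
  let P : Par F F := .of ψ (AddMonoidHom.mul) sep rfl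
  have pe : ∀ y a, P.e y a = ψ (y * a) := fun _ _ => rfl
  obtain ⟨n, m1, m2, m3⟩ := exists_mults P hc hx
  have m4 : ∀ y : F, y ≠ 0 → n y = n 1 := fun y hy0 => by
    obtain ⟨μ, e⟩ := exists_scale one_ne_zero hy0
    rw [mul_one] at e
    exact (m3 (D μ) (AddEquiv.ofBijective (AddMonoidHom.mulLeft y) (Finite.injective_iff_bijective.1 (mul_right_injective₀ hy0)))
      (fun a => by simp [x, D_conj_T, e]) y 1 fun a => by simp [pe]).symm
  have m5 : k = ∑ y, n y := by simpa [hk, ← Nat.cast_sum] using m2 0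
  have m6 : n 1 ≠ 0 := fun h => by
    have : x 1 ∈ charKer χ := (mem_charKer hc).2 (by
      rw [m2, hk, m5, Nat.cast_sum]
      refine sum_congr rfl fun y _ => ?_
      by_cases hy : y = 0
      exacts [by simp [pe, hy], by simp [m4 y hy, h]])
    simp [ker, x, T_eq_one] at this
  have m7 : k = n 0 + (2 ^ (2 * m + 1) - 1) * n 1 := by
    rw [m5, ← add_sum_erase _ _ (mem_univ 0), sum_congr rfl fun b hb => m4 b (ne_of_mem_erase hb)]
    simp [hy.hF]
  have cz : ∀ a b d : F, T a b * x d * (T a b)⁻¹ = x d := fun a b d =>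
    mul_inv_eq_iff_eq_mul.2 ((T_comm ..).2 (by simp))
  let π : U F →* Multiplicative F := MonoidHom.mk' (fun u => .ofAdd (mat u.1 0 1)) (by
    rintro ⟨_, a, b, rfl⟩ ⟨_, c, d, rfl⟩
    simp [T_mul, mat_T])
  have hπ : ∀ a b, π ⟨T a b, T_mem_U a b⟩ = .ofAdd a := fun a b => by simp [π, mat_T]
  have h1 := heis (char_wt (ψ := P.e 1) hc (U F).subtype (by
      rintro ⟨_, a, b, rfl⟩ d
      exact ⟨d, cz a b d, rfl⟩) hx) (m1 1) m6 ((Subgroup.zpowers (.ofAdd 1)).comap π) (by
    rintro ⟨_, a, b, rfl⟩ h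
    have h2 : a ^ 2 + a ≠ 0 := fun e => h (by
      rw [Subgroup.mem_comap, hπ]
      rcases mul_eq_zero.1 (by linear_combination e : a * (a + 1) = 0) with e | e
      · simp [e]
      · rw [show a = 1 by linear_combination e - add_self (1 : F)]
        exact Subgroup.mem_zpowers _)
    obtain ⟨y, hy⟩ := sep _ h2
    obtain ⟨d, rfl⟩ := th_surjective y
    have h5 := wt_conj (char_classFun hc) (ψ := P.e 1) (.refl _) (cz d 0) (fun _ => rfl) (T a b)
    have h6 := wt_mul (χ := χ) (x := x) (ψ := P.e 1) (T a b) (th F a * d + th F d * a)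
    rw [show T a b * x (th F a * d + th F d * a) = T d 0 * T a b * (T d 0)⁻¹ by
      rw [eq_mul_inv_iff_mul_eq]
      simp only [x, AddChar.coe_mk, T_mul, T_inj, add_zero]
      exact ⟨by ring, by linear_combination add_self (th F a * d)⟩, h5] at h6
    refine (mul_left_eq_self₀.1 h6.symm).resolve_left fun e => hy ?_
    rw [← e, pe, one_mul, AddChar.map_add_eq_mul, ← hth (th F a * d), map_mul (th F), th_th, ← AddChar.map_add_eq_mul]
    congr 1; ring)
  rw [Subgroup.index_comap_of_surjective _ (fun a => ⟨_, hπ a.toAdd 0⟩)] at h1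
  have h2 := (Subgroup.zpowers (Multiplicative.ofAdd (1 : F))).index_mul_card
  rw [Nat.card_zpowers, orderOf_ofAdd_eq_addOrderOf, CharP.eq F (CharP.addOrderOf_one F) (inferInstance : CharP F 2), show Nat.card (Multiplicative F) = _ from card_F (F := F),
    pow_succ, mul_left_inj' two_ne_zero, mul_comm, pow_mul] at h2
  have h3 : 2 ^ m ≤ n 1 := by
    rw [h2] at h1
    exact (Nat.pow_le_pow_iff_left two_ne_zero).1 h1
  rw [m7, mul_comm]
  exact (Nat.mul_le_mul_left _ h3).trans (Nat.le_add_left _ _)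

/-- For the Suzuki group Sz(q), q = 2^(2m+1) with m ≥ 1 (realised inside Sp₄ over the field with q elements), every irreducible complex representation of degree at least 2 has degree at least 2^m·(q − 1). -/
theorem result {F : Type*} [Field F] [Fintype F] (m : ℕ) (hm : 1 ≤ m) (hF : Fintype.card F = 2 ^ (2 * m + 1)) :
    (∀ (k : ℕ) (ρ : Representation ℂ (Cfsg.Lie.Sz F (2 ^ (m + 1))) (Fin k → ℂ)), ρ.IsIrreducible → 2 ≤ k → 2 ^ m * (2 ^ (2 * m + 1) - 1) ≤ k) := by
  haveI : Hyp F m := ⟨hm, hF⟩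
  intro k ρ hρ hk
  have := Finite.of_equiv _ (CA.SzModel.szEquiv F).toEquiv
  exact deg_le (char_comp (isCharacter_character ρ) (CA.SzModel.szEquiv F).toMonoidHom)
    (CA.DegLS.ker_ne (CA.SzModel.szEquiv F) hρ hk) (by simp)

end Cfsg.Agent.S2337
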