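import Cfsg.Statements.S2338
import Cfsg.Agent.Lib.Lie.DegG4
-- import your own Cfsg.Agent.* helpers here

set_option autoImplicit false
open Cfsg

namespace Cfsg.Agent.S2338

open CA.Chev CA.DegG Cfsg.Lie

/-- Lower bounds for the degrees of non-linear irreducible complex representations of the Chevalley group of type G₂ over a finite field with q elements: the degree is at least q³ + 1 when q ≡ 1 (mod 3) and q > 4, at least q³ − 1 when q ≡ 2 (mod 3) and q > 2, and at least q⁴ + q² + 1 when q ≡ 0 (mod 3) and q > 3. -/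
theorem result {F : Type*} [Field F] [Fintype F] (k : ℕ) (ρ : Representation ℂ (Cfsg.Lie.chevG2.group F) (Fin k → ℂ)) (hρ : ρ.IsIrreducible) (hk : 2 ≤ k) :
    (Fintype.card F % 3 = 1 → 4 < Fintype.card F → Fintype.card F ^ 3 + 1 ≤ k) ∧
    (Fintype.card F % 3 = 2 → 2 < Fintype.card F → Fintype.card F ^ 3 - 1 ≤ k) ∧
    (Fintype.card F % 3 = 0 → 3 < Fintype.card F → Fintype.card F ^ 4 + Fintype.card F ^ 2 + 1 ≤ k) := by
  obtain ⟨ψ, hψ⟩ := CA.Wt.exists_addChar F one_ne_zero
  let S : St chevG2 F (chevG2.group F) (Fin k → ℂ) := ⟨adjG chevG2 F, ρ, .of ψ AddMonoidHom.mul (fun a ha => ⟨a⁻¹, by simpa [ha]⟩) rfl, ψ, fun _ _ => rfl⟩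
  have hne : 3 < Fintype.card F → S.Wt (R 11) 0 ≠ ⊤ := fun h e => by
    obtain ⟨μ, hμ⟩ := exists_pow (K := F) one_ne_zero (by omega)
    have := (S.A.simple_of adjG_G adjG_θ_injective (perfect_G2 S.A adjG_G ⟨μ, μ.ne_zero, by simpa using hμ⟩)).1
    have a1 := CA.DegLS.ker_ne (.refl _) hρ hk
    have a2 : S.A.x (R 11) 1 ∈ ρ.ker := LinearMap.ext fun v => St.mem_Wt0.1 (e.ge trivial) 1
    rw [(MonoidHom.normal_ker ρ).eq_bot_or_eq_top.resolve_right fun e => a1 (e ▸ CChar.CharKer.charKer_character ρ)] at a2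
    exact one_ne_zero (S.A.x_eq_one a2)
  have h3 : ((3 : ℤ) : F) = 0 ↔ Fintype.card F % 3 = 0 := by
    have := Fact.mk Nat.prime_three
    rw [← Nat.dvd_iff_mod_eq_zero, ← prime_dvd_char_iff_dvd_card, ← not_iff_not, ← isUnit_iff_not_dvd_char, isUnit_iff_ne_zero]
    simp
  refine ⟨fun h1 h2 => ?_, fun h1 h2 => ?_, fun h1 h2 => ?_⟩
  · simpa using (St.main3 (mt h3.1 (by omega)) (hne (by omega)) h2).2 h1
  · simpa using (St.main3 (mt h3.1 (by omega)) (hne (by omega)) (by omega)).1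
  have h9 : 9 ≤ Fintype.card F := by
    have hq := Fintype.isPrimePow_card_of_field (α := F)
    by_contra e
    rw [show Fintype.card F = 6 by omega] at hq
    exact absurd hq (by decide +kernel)
  rcases St.main9 (h3.2 h1) (hne h2) h9 with h | ⟨h, h'⟩
  · simpa using h
  · have : Finite (chevG2.group F) := inferInstance
    have hχ : IsIrrCharacter (chevG2.group F) ρ.character := ⟨k, ρ, hρ, rfl⟩
    simpa using arith9 h9 h (St.dvd9 (S := S) (h3.2 h1) adjG_G hχ h')

end Cfsg.Agent.S2338
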