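import Cfsg.Statements.S2339
import Cfsg.Agent.Lib.Lie.DegE3
-- import your own Cfsg.Agent.* helpers here

set_option autoImplicit false
open Cfsg

namespace Cfsg.Agent.S2339

open CA.Chev CA.DegE

/-- For the Chevalley group of type E₈ over a finite field with q elements, every irreducible complex representation of degree at least 2 has degree at least q(q¹² + 1)(q¹⁰ + 1)(q⁶ + 1). -/
theorem result {F : Type*} [Field F] [Fintype F] (k : ℕ) (ρ : Representation ℂ (Cfsg.Lie.chevE8.group F) (Fin k → ℂ)) (hρ : ρ.IsIrreducible) (hk : 2 ≤ k) :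
    Fintype.card F * (Fintype.card F ^ 12 + 1) * (Fintype.card F ^ 10 + 1) * (Fintype.card F ^ 6 + 1) ≤ k := by
  have hq := Fintype.isPrimePow_card_of_field (α := F)
  have h := main' (K := F) tab_E8 sl_E8 pc0_E8 (by decide +kernel) (n := 28) (c := [8, 7, 7, 7, 7, 7, 7, 6, 6, 6, 6, 5, 5, 4, 4, 4, 4, 3, 3, 2, 2, 2, 2, 1, 1, 1, 1, 1, 1]) (by decide +kernel) (by decide +kernel) hρ hk
  generalize Fintype.card F = q at *
  have h1 : ∀ n, 1 ≤ q ^ n := fun n => Nat.one_le_pow n q hq.pos
  simp only [mul_assoc q]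
  refine arith' (F := q ^ 23 + q ^ 19 + q ^ 17 + q ^ 13 + q ^ 11 + q ^ 7 + q) (l := 8) hq (by ring) ?_ ?_ ?_ (fun e => ?_) (fun e => ?_) h
  · simp only [evalL, List.foldr]; zify [hq.one_lt.le]; ring
  · simp only [evalL, List.foldr]; zify [hq.one_lt.le, h1]; ring
  · obtain ⟨a, rfl⟩ := Nat.exists_eq_add_of_le' hq.two_le
    zify [h1]; rw [← sub_nonneg]; ring_nf; positivity
  · obtain ⟨a, rfl⟩ := Nat.exists_eq_add_of_lt e
    zify; rw [← sub_nonneg, ← sub_pos]; ring_nf; exact ⟨by positivity, by positivity⟩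
  · have := hq.two_le
    interval_cases q <;> decide +kernel

end Cfsg.Agent.S2339
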