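import Cfsg.Statements.S2340
import Cfsg.Agent.Lib.Lie.DegE3
-- import your own Cfsg.Agent.* helpers here

set_option autoImplicit false
open Cfsg

namespace Cfsg.Agent.S2340

open CA.Chev CA.DegE

/-- For the Chevalley group of type E₆ over a finite field with q elements (the group generated by the root elements), every irreducible complex representation of degree at least 2 has degree at least q(q⁶ + q³ + 1)(q⁴ + 1). -/
theorem result {F : Type*} [Field F] [Fintype F] :
    (∀ (k : ℕ) (ρ : Representation ℂ (Cfsg.Lie.chevE6.group F) (Fin k → ℂ)), ρ.IsIrreducible → 2 ≤ k → Fintype.card F * (Fintype.card F ^ 6 + Fintype.card F ^ 3 + 1) * (Fintype.card F ^ 4 + 1) ≤ k) := by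
  intro k ρ hρ hk
  have hq := Fintype.isPrimePow_card_of_field (α := F)
  have h := main' (K := F) tab_E6 sl_E6 pc0_E6 (by decide +kernel) (n := 10) (c := [6, 5, 5, 5, 4, 3, 3, 2, 1, 1, 1]) (by decide +kernel) (by decide +kernel) hρ hk
  generalize Fintype.card F = q at *
  have h1 : ∀ n, 1 ≤ q ^ n := fun n => Nat.one_le_pow n q hq.pos
  simp only [mul_assoc q]
  refine arith' (F := q ^ 8 + q ^ 7 + q ^ 5 + q ^ 4 + q) (l := 6) hq (by ring) ?_ ?_ ?_ (fun e => ?_) (fun e => ?_) h
  · simp only [evalL, List.foldr]; zify [hq.one_lt.le]; ring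
  · simp only [evalL, List.foldr]; zify [hq.one_lt.le, h1]; ring
  · obtain ⟨a, rfl⟩ := Nat.exists_eq_add_of_le' hq.two_le
    zify [h1]; rw [← sub_nonneg]; ring_nf; positivity
  · obtain ⟨a, rfl⟩ := Nat.exists_eq_add_of_lt e
    zify; rw [← sub_nonneg, ← sub_pos]; ring_nf; exact ⟨by positivity, by positivity⟩
  · have := hq.two_le
    interval_cases q <;> decide +kernel

end Cfsg.Agent.S2340
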