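import Cfsg.Statements.S2341
import Cfsg.Agent.Lib.Lie.DegF3
import Cfsg.Agent.S1070
-- import your own Cfsg.Agent.* helpers here

set_option autoImplicit false
open Cfsg

namespace Cfsg.Agent.S2341

open CA.Chev CA.DegF

/-- For the twisted group ²E₆(q), realised over the field with q² elements (q a prime power), every irreducible complex representation of degree at least 2 has degree at least q(q⁶ − q³ + 1)(q⁴ + 1). -/
theorem result {K : Type*} [Field K] [Fintype K] (q : ℕ) (hq : IsPrimePow q) (hK : Fintype.card K = q ^ 2) :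
    (∀ (k : ℕ) (ρ : Representation ℂ (Cfsg.Lie.twistedE6 K q) (Fin k → ℂ)), ρ.IsIrreducible → 2 ≤ k → q * (q ^ 6 - q ^ 3 + 1) * (q ^ 4 + 1) ≤ k) := by
  intro k ρ hρ hk
  have h1 : ∀ n, 1 ≤ q ^ n := fun n => Nat.one_le_pow n q hq.pos
  have h2 : q ^ 3 ≤ q ^ 6 := Nat.pow_le_pow_right hq.pos (by omega)
  rw [mul_assoc]
  rcases main' hq hK (S1070.result hq hK).1 hρ hk with h | ⟨h, h'⟩
  · refine Nat.le_of_mul_le_mul_left (le_trans ?_ h) hq.pos
    obtain ⟨a, rfl⟩ := Nat.exists_eq_add_of_le' hq.two_le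
    zify [h1, h2]; rw [← sub_nonneg]; ring_nf; positivity
  refine arith hq (le_trans (le_of_eq ?_) (Nat.add_le_add_right h 2)) (by convert h' using 2; simp only [evalL, List.foldr]; zify [hq.one_lt.le, h1, h2]; ring)
  simp only [evalL, List.foldr]; zify [hq.one_lt.le, h2]; ring

end Cfsg.Agent.S2341
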