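import Cfsg.Statements.S2342
import Cfsg.Agent.Lib.Lie.DegT2
import Cfsg.Agent.S1067
import Cfsg.Agent.S1071
-- import your own Cfsg.Agent.* helpers here

set_option autoImplicit false
open Cfsg

namespace Cfsg.Agent.S2342

open CA.Chev CA.TwM CA.DegT CChar.CharFun CChar.CharKer CChar.CharRep CChar.CharInt

/-- For the twisted group ³D₄(q), realised over the field with q³ elements (q a prime power), every irreducible complex representation of degree at least 2 has degree at least q(q⁴ − q² + 1). -/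
theorem result {K : Type*} [Field K] [Fintype K] (q : ℕ) (hq : IsPrimePow q) (hK : Fintype.card K = q ^ 3) :
    (∀ (k : ℕ) (ρ : Representation ℂ (Cfsg.Lie.twistedD4 K q) (Fin k → ℂ)), ρ.IsIrreducible → 2 ≤ k → q * (q ^ 4 - q ^ 2 + 1) ≤ k) := by
  intro k ρ hρ hk
  obtain ⟨α, h1, hα, h2, h3⟩ := exists_tD4 hq hK
  have h := D4.s3 h1 hα
  have := (S1071.result hq hK).1
  have f : ∀ r, ηD4a r.1 = 1 → (TD4.real h1 hα).mod.τ.T.f r 1 = 1 := fun r e => (TD4.f_eq r 1).trans (by simp [e])
  have c := D4.ρ_eq h1 hα ▸ cf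
  refine arith h2 ((main h (ρ := ρ) c (f _ (by decide +kernel)) (f _ (by rw [D4.ρ_eq h1 hα]; decide +kernel)) h1 h2 hK
    fun e => ?_).trans_eq (by simp)) (S1067.result hq hK ▸ degree_dvd_card ⟨k, ρ, hρ, rfl⟩ (by simp))
  obtain ⟨s, hs⟩ := exists_tr h1 hα h2 hK
  have := (IsSimpleGroup.eq_bot_or_eq_top_of_normal _ inferInstance).resolve_right (CA.DegLS.ker_ne (.refl _) hρ hk)
  have a := this.le ((mem_charKer (isCharacter_character ρ)).2 ((congrArg (LinearMap.trace ℂ _) (e s)).trans (by simp)))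
  simpa [e_fix h c.fθ, hs] using (Sys0.x_eq_one _ ((e_fix h c.fθ s).symm.trans (by rw [a, map_one])))

end Cfsg.Agent.S2342
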