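import Cfsg.Statements.S2344
import Cfsg.Agent.Lib.Lin.H25Deg5
import Cfsg.Agent.Lib.Lin.DegLS

set_option autoImplicit false
open Cfsg

namespace Cfsg.Agent.S2344

open CA.CForm CA.CForm.Form CA.DegO CChar.CharFun CChar.CharKer CChar.CharRep Module

/-- For a finite field F of odd order q > 3 and n ≥ 3, every irreducible complex representation of degree at least 2 of Ω_{2n+1}(F) (the commutator subgroup of the isometry group of the quadratic form x₀² + x₁y₁ + ⋯ + x_ny_n) has degree at least (q^{2n} − 1)/(q² − 1). -/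
theorem result {F : Type*} [Field F] [Fintype F] (n : ℕ) (hn : 3 ≤ n) (hodd : Odd (Fintype.card F)) (h3 : 3 < Fintype.card F) :
    (∀ (k : ℕ) (ρ : Representation ℂ (Cfsg.Omega F (Cfsg.quadFormOdd n F)) (Fin k → ℂ)), ρ.IsIrreducible → 2 ≤ k → (Fintype.card F ^ (2 * n) - 1) / (Fintype.card F ^ 2 - 1) ≤ k) := by
  classical
  intro k ρ hρ hk
  obtain ⟨m, rfl⟩ := Nat.exists_eq_add_of_le' hn
  have h2 : (2 : F) ≠ 0 := two_ne_zero_iff_odd.2 hodd
  have hf := oddForm_nondeg h2 (m + 3)
  have fr := finrank_odd (F := F) (m + 3)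
  let e : _ ≃* Omega F (quadFormOdd (m + 3) F) := ((omegaEquiv (oddForm F (m + 3))).trans (MulEquiv.subgroupCongr (hf.commutator_eq_Eich
    (good_of_two_ne_zero _ h2) (by omega)))).symm
  have := Finite.of_equiv _ e.toEquiv
  have h := odd_bound hf h2 h3 (m := m) (by omega) (char_comp (isCharacter_character ρ) e.toMonoidHom) (CA.DegLS.ker_ne e hρ hk) (D := k) (by simp)
  rwa [Nat.geomSum_eq (by rw [Nat.card_eq_fintype_card]; nlinarith), ← pow_mul, Nat.card_eq_fintype_card] at h

end Cfsg.Agent.S2344
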