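import Cfsg.Statements.S2345
import Cfsg.Agent.Lib.Lin.DegO4
import Cfsg.Agent.S0302
import Cfsg.Agent.Lib.Lin.SLDeg
-- import your own Cfsg.Agent.* helpers here

set_option autoImplicit false
open Cfsg

namespace Cfsg.Agent.S2345

open CA.CForm CA.CForm.Form CA.DegO CA.LowIso CChar.CharFun CChar.CharKer CChar.CharRep Matrix Module

universe u
variable {F : Type*} [Field F] [Fintype F] [DecidableEq F]

theorem base {V : Type u} [AddCommGroup V] [Module F V] [FiniteDimensional F V] {f : Form (Kind.orth F) V} (T : Ty f 1 3)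
    (hq : 3 < Fintype.card F) : Bd f 1 2 0 := fun χ hχ hne D hD => by
  have : Finite V := Module.finite_of_finite F
  have : Fact (Even (Fintype.card (Fin 4))) := ⟨by decide⟩
  have i : f.IsIndex 3 := (T.ix.resolve_right (by simp)).2
  have fr := T.fr
  obtain ⟨e⟩ := (i.equivalent_plus T.nd fr).nonempty_mulEquiv
  obtain ⟨φ, hφ⟩ := exists_hom_orth (G := SpecialLinearGroup (Fin 4) F) (plusForm F 3) (S0302.S F) (fun u v h => by
      obtain ⟨h1, h2, h3, h4, h5, h6⟩ := alt_inj h
      ext (i | i) <;> fin_cases i <;> simp_all)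
    (fun g => g.1) (fun g => g.1ᵀ) rfl transpose_one (fun _ _ => rfl) (fun _ _ => transpose_mul _ _)
    (fun g v => by
      obtain ⟨a, b, c, d, e, f, h1, h2, -⟩ := alt_conj g.1 (v (.inl 0)) (v (.inl 1)) (v (.inl 2)) (v (.inr 2))
        (-v (.inr 1)) (v (.inr 0))
      refine ⟨Sum.elim ![a, b, c] ![f, -e, d], by simpa [S0302.S] using h1, ?_⟩
      simp only [plusForm_Q_apply, Fin.sum_univ_three]
      simp; rw [g.2] at h2; linear_combination h2)
  have r := (range_eq T.nd (good_of_five_le (by omega)) (by omega) (no2_SL (.inl (by simp)))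
    (by rw [i.card_isom_plus T.nd fr, S0302.card_SL4]; simp [Finset.prod_range_succ, mul_assoc]) (e.symm.toMonoidHom.comp φ) neg_one_eq
    fun g h => (alt_ker fun a b c d e' f => by
      have := hφ g (Sum.elim ![a, b, c] ![f, -e', d])
      rw [show φ g = 1 by simpa using h] at this
      simpa [S0302.S] using this.symm).imp Subtype.ext Subtype.ext).trans (T.nd.commutator_eq_Eich (good_of_five_le (by omega)) (by omega))
  obtain ⟨θ, hθ, h1, d, hd, h2⟩ := exists_irr hχ hne hD
  have h3 := CA.SLDeg.min_degree (by omega) (by simp; omega) (irr_comp_of_surjective hθ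
    ((MulEquiv.subgroupCongr r).toMonoidHom.comp (MonoidHom.rangeRestrict _))
    ((MulEquiv.subgroupCongr r).surjective.comp (MonoidHom.rangeRestrict_surjective _))) (D := d) (by simpa) (by
      rintro rfl
      exact h1 (top_unique ((commutator_eq_top_of_le (T.nd.orth_Eich_perfect (by omega))).ge.trans
        (commutator_le_charKer (char_of_irr hθ) (by simpa using h2)))))
  simp only [Finset.sum_range_succ, Finset.range_zero, Finset.sum_empty, ← Nat.card_eq_fintype_card] at h3
  have h4 := two_le (F := F)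
  refine le_of_eq_of_le (b := ((Nat.card F : ℤ) ^ 2 - 1) * (Nat.card F + Nat.card F ^ 2 + Nat.card F ^ 3)) (by simp only [Bn]; ring)
    (mul_le_mul_of_nonneg_left ?_ (by nlinarith))
  zify at h3 hd
  push_cast
  linarith

theorem bound (hq : 3 < Fintype.card F) (k : ℕ) : ∀ {V : Type u} [AddCommGroup V] [Module F V] [FiniteDimensional F V]
    {f : Form (Kind.orth F) V}, Ty f 1 (k + 3) → Bd f 1 (k + 2) 0 := by
  induction k with
  | zero => exact fun T => base T hq
  | succ k ih => exact fun T => T.up (Or.inr (exists_sq_ne_one hq)) fun x y h => ih (T.perp h)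

/-- For a finite field F with q > 3 elements and n ≥ 4, every irreducible complex representation of degree at least 2 of Ω⁺_{2n}(F) (the commutator subgroup of the isometry group of the hyperbolic quadratic form x₁y₁ + ⋯ + x_ny_n) has degree at least (q^n − 1)(q^{n−1} + q)/(q² − 1). -/
theorem result {F : Type*} [Field F] [Fintype F] (n : ℕ) (hn : 4 ≤ n) (h3 : 3 < Fintype.card F) :
    (∀ (k : ℕ) (ρ : Representation ℂ (Cfsg.Omega F (Cfsg.quadFormPlus n F)) (Fin k → ℂ)), ρ.IsIrreducible → 2 ≤ k → (Fintype.card F ^ n - 1) * (Fintype.card F ^ (n - 1) + Fintype.card F) / (Fintype.card F ^ 2 - 1) ≤ k) := by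
  classical
  intro k ρ hρ hk
  obtain ⟨m, rfl⟩ := Nat.exists_eq_add_of_le' hn
  have T : Ty (plusForm F (m + 4)) 1 (m + 1 + 3) := ⟨plusForm_nondeg F _, finrank_plus _, .inl ⟨rfl, plusForm_isIndex F _⟩⟩
  let e : _ ≃* Omega F (quadFormPlus (m + 4) F) := ((omegaEquiv (plusForm F (m + 4))).trans (MulEquiv.subgroupCongr (T.nd.commutator_eq_Eich
    (good_of_five_le (by rw [T.fr]; omega)) (by rw [T.fr]; omega)))).symm
  have := Finite.of_equiv _ e.toEquiv
  have h := bound h3 _ T _ (char_comp (isCharacter_character ρ) e.toMonoidHom) (CA.DegLS.ker_ne e hρ hk) k (by simp)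
  refine Nat.div_le_of_le_mul ?_
  zify [Nat.one_le_pow (m + 4) _ (Fintype.card_pos (α := F)), Nat.one_le_pow 2 _ (Fintype.card_pos (α := F))]
  simpa [Bn] using h

end Cfsg.Agent.S2345
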