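import Cfsg.Statements.S2346
import Cfsg.Agent.Lib.Lin.DegO5
-- import your own Cfsg.Agent.* helpers here

set_option autoImplicit false
open Cfsg

namespace Cfsg.Agent.S2346

open CA.CForm CA.CForm.Form CA.DegO CChar.CharFun CChar.CharKer CChar.CharRep

/-- For a finite field F with q elements, n ≥ 4, and a, b ∈ F with z₁² + a z₁z₂ + b z₂² anisotropic, every irreducible complex representation of degree at least 2 of Ω⁻_{2n}(F) (the commutator subgroup of the isometry group of x₁y₁ + ⋯ + x_{n−1}y_{n−1} + z₁² + a z₁z₂ + b z₂²) has degree at least (q^n + 1)(q^{n−1} − q)/(q² − 1). -/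
theorem result {F : Type*} [Field F] [Fintype F] (n : ℕ) (hn : 4 ≤ n) (a b : F) (hab : ∀ z₁ z₂ : F, z₁ ^ 2 + a * z₁ * z₂ + b * z₂ ^ 2 = 0 → z₁ = 0 ∧ z₂ = 0) :
    (∀ (k : ℕ) (ρ : Representation ℂ (Cfsg.Omega F (Cfsg.quadFormMinus (n - 1) F a b)) (Fin k → ℂ)), ρ.IsIrreducible → 2 ≤ k → (Fintype.card F ^ n + 1) * (Fintype.card F ^ (n - 1) - Fintype.card F) / (Fintype.card F ^ 2 - 1) ≤ k) := by
  classical
  intro k ρ hρ hk
  obtain ⟨m, rfl⟩ := Nat.exists_eq_add_of_le' hn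
  have T : Ty (minusForm (m + 3) a b) (-1) (m + 4) := ⟨minusForm_nondeg _ hab, finrank_minus _, .inr ⟨rfl, _, rfl, minusForm_isIndex _ hab⟩⟩
  let e : _ ≃* Omega F (quadFormMinus (m + 3) F a b) := ((omegaEquiv (minusForm (m + 3) a b)).trans (MulEquiv.subgroupCongr
    (T.nd.commutator_eq_Eich (good_of_five_le (by rw [T.fr]; omega)) (by rw [T.fr]; omega)))).symm
  have := Finite.of_equiv _ e.toEquiv
  have h := minus_bound _ T _ (char_comp (isCharacter_character ρ) e.toMonoidHom) (CA.DegLS.ker_ne e hρ hk) k (by simp)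
  refine Nat.div_le_of_le_mul ?_
  zify [Nat.le_self_pow (show m + 4 - 1 ≠ 0 by omega) (Fintype.card F), Nat.one_le_pow 2 _ (Fintype.card_pos (α := F))]
  simpa [Bn, sub_eq_add_neg] using h

end Cfsg.Agent.S2346
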