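import Cfsg.Statements.S2347
import Cfsg.Agent.Lib.Lin.Weil
-- import your own Cfsg.Agent.* helpers here

set_option autoImplicit false
open Cfsg

namespace Cfsg.Agent.S2347

open CA.CForm CA.DegLS CChar.CharFun CChar.CharRep

/-- Smallest degree of a non-linear irreducible complex representation of the symplectic group Sp_{2n} over a finite field of odd order q, n ≥ 2: every irreducible complex representation of degree at least 2 has degree at least (q^n − 1)/2, and there is an irreducible complex representation of exactly that degree (a Weil representation). -/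
theorem result {F : Type*} [Field F] [Fintype F] [DecidableEq F] (n : ℕ) (hn : 2 ≤ n) (hodd : Odd (Fintype.card F)) :
    (∀ (k : ℕ) (ρ : Representation ℂ (Matrix.symplecticGroup (Fin n) F) (Fin k → ℂ)), ρ.IsIrreducible → 2 ≤ k → (Fintype.card F ^ n - 1) / 2 ≤ k) ∧
    (∃ ρ : Representation ℂ (Matrix.symplecticGroup (Fin n) F) (Fin ((Fintype.card F ^ n - 1) / 2) → ℂ), ρ.IsIrreducible) := by
  have h2 : (2 : F) ≠ 0 := two_ne_zero_iff_odd.2 hodd
  refine ⟨fun k ρ hρ hk => ?_, ?_⟩
  · obtain ⟨m, rfl⟩ := Nat.exists_eq_add_one.2 (by omega : 0 < n)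
    have := Finite.of_equiv _ (spEquiv F (m + 1)).symm.toEquiv
    simpa using symp_bound (sympStd_nondeg F _) h2 (m := m) (by simp [two_mul])
      (char_comp (isCharacter_character ρ) (spEquiv F _).symm.toMonoidHom) (d := k) (by simp) (ker_ne (spEquiv F _).symm hρ hk)
  · obtain ⟨χ, h, e⟩ := CA.Weil.exists_irr h2 hn
    obtain ⟨k, ρ, hρ, h1⟩ := irr_comp_mulEquiv h (spEquiv F n)
    obtain rfl : k = (Fintype.card F ^ n - 1) / 2 := by simpa [e, -Nat.cast_div_charZero] using congrFun h1 1
    exact ⟨ρ, hρ⟩

end Cfsg.Agent.S2347
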