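import Cfsg.Statements.S2353
import Cfsg.Agent.Lib.Grp.H22Law

set_option autoImplicit false
open Cfsg

namespace Cfsg.Agent.S2353

/-- A non-trivial law holds in PSL_2 over only finitely many finite fields: for every non-trivial element w of the free group on countably many generators there is N such that over every finite field with at least N elements some substitution of elements of PSL_2 into w is not the identity. -/
theorem result (w : FreeGroup ℕ) (hw : w ≠ 1) :
    ∃ N : ℕ, ∀ (F : Type*) [Field F] [Fintype F], N ≤ Fintype.card F →
      ∃ f : ℕ → Matrix.ProjectiveSpecialLinearGroup (Fin 2) F, FreeGroup.lift f w ≠ 1 := by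
  obtain ⟨N, hN⟩ := CA.H22Law.not_law_SL2 _ (CA.H22Law.comm_ne_one hw)
  refine ⟨N, fun F _ _ hF => ?_⟩
  by_contra hcon
  push Not at hcon
  exact hN F hF (CA.H22Law.Law.comm_of_quotient_center hcon)

end Cfsg.Agent.S2353
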