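import Cfsg.Statements.S2354
import Cfsg.Agent.Lib.Grp.H22Law

set_option autoImplicit false
open Cfsg

namespace Cfsg.Agent.S2354

open Matrix

theorem mkSz {F : Type*} [Field F] (e : ℕ) (θ : F →+* F) (hθ : ∀ x, x ^ e = θ x)
    (M N : Matrix (Fin 4) (Fin 4) F) (h1 : M * N = 1)
    (h2 : ∀ u v, Cfsg.Lie.altForm4 (M *ᵥ u) (M *ᵥ v) = Cfsg.Lie.altForm4 u v)
    (h3 : Cfsg.Lie.star4 M = M.map θ) :
    ∃ g : Cfsg.Lie.Sz F e, ((g : GL (Fin 4) F) : Matrix (Fin 4) (Fin 4) F) = M ∧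
      (((g⁻¹ : Cfsg.Lie.Sz F e) : GL (Fin 4) F) : Matrix (Fin 4) (Fin 4) F) = N := by
  refine ⟨⟨⟨M, N, h1, mul_eq_one_comm.mp h1⟩, Subgroup.subset_closure ⟨h2, ?_⟩⟩, rfl, rfl⟩
  show Cfsg.Lie.star4 M = M.map _
  rw [h3]; congr 1; funext x; exact (hθ x).symm

theorem two_pow_big (c : ℕ) : ∃ N : ℕ, ∀ m, N ≤ m → 2 * (1 + 2 ^ (m + 1)) * c + 1 < 2 ^ (2 * m + 1) := by
  refine ⟨4 * c + 1, fun m hm => ?_⟩
  have h1 : m < 2 ^ m := Nat.lt_two_pow_self
  have h2 : 2 ^ (2 * m + 1) = 2 * (2 ^ m * 2 ^ m) := by ring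
  have h3 : 2 ^ (m + 1) = 2 * 2 ^ m := by ring
  rw [h2, h3]
  generalize 2 ^ m = y at *
  nlinarith


/-- A non-trivial law holds in only finitely many Suzuki groups: for every non-trivial element w of the free group on countably many generators there is N such that for q = 2^(2m+1) with m ≥ N some substitution of elements of the Suzuki group over the field with q elements into w is not the identity. -/
theorem result (w : FreeGroup ℕ) (hw : w ≠ 1) :
    ∃ N : ℕ, ∀ (F : Type*) [Field F] [Fintype F] (m : ℕ), 1 ≤ m → N ≤ m →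
      Fintype.card F = 2 ^ (2 * m + 1) →
      ∃ f : ℕ → ↥(Cfsg.Lie.Sz F (2 ^ (m + 1))), FreeGroup.lift f w ≠ 1 := by
  obtain ⟨K, hK⟩ := CA.H22Law.exists_bound w
  obtain ⟨N, hN⟩ := two_pow_big (w.toWord.length + K)
  refine ⟨N, fun F _ _ m hm hNm hF => ?_⟩
  classical
  have hbig := hN m hNm
  obtain ⟨p, hp⟩ := CharP.exists F
  obtain ⟨n, hpp, hn⟩ := FiniteField.card F p
  have hp2 : p = 2 := by
    have : p ∣ 2 ^ (2 * m + 1) := by rw [← hF, hn]; exact dvd_pow_self _ n.ne_zero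
    exact (Nat.prime_dvd_prime_iff_eq hpp Nat.prime_two).mp (hpp.dvd_of_dvd_pow this)
  subst hp2
  haveI : Fact (Nat.Prime 2) := ⟨hpp⟩
  set e := 2 ^ (m + 1) with he
  let θ : F →+* F := iterateFrobenius F 2 (m + 1)
  have hθ : ∀ x, x ^ e = θ x := fun x => rfl
  have hθθ : ∀ x, θ (θ x) = x * x := by
    intro x
    rw [← hθ, ← hθ, ← pow_mul, he, ← pow_add, show m + 1 + (m + 1) = 2 * m + 1 + 1 by ring, pow_succ,
      pow_mul, ← hF, FiniteField.pow_card, pow_two]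
  have h2 : (2 : F) = 0 := CharTwo.two_eq_zero
  clear_value θ
  obtain ⟨b, hb⟩ := CA.H22Law.exists_inj F K (by rw [hF]; nlinarith [Nat.zero_le e]) ⟨0⟩
  have hz : ∀ c : F, ∃ g : Cfsg.Lie.Sz F e, ((g : GL (Fin 4) F) : Matrix (Fin 4) (Fin 4) F) =
      !![1, 0, 0, 0; 0, 1, 0, 0; c, 0, 1, 0; θ c, c, 0, 1] ∧
      (((g⁻¹ : Cfsg.Lie.Sz F e) : GL (Fin 4) F) : Matrix (Fin 4) (Fin 4) F) = !![1, 0, 0, 0; 0, 1, 0, 0; c, 0, 1, 0; θ c, c, 0, 1] := by
    intro c
    refine mkSz e θ hθ _ _ ?_ ?_ ?_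
    · ext i j; fin_cases i <;> fin_cases j <;> simp [Matrix.mul_apply, Fin.sum_univ_four, CharTwo.add_self_eq_zero]
    · intro u v
      simp [Cfsg.Lie.altForm4, Matrix.mulVec, dotProduct, Fin.sum_univ_four]
      linear_combination (θ c * u 0 * v 0 + c * u 0 * v 1 + c * u 1 * v 0) * h2
    · ext i j; fin_cases i <;> fin_cases j <;> simp [Cfsg.Lie.star4, Cfsg.Lie.pairOf, hθθ, CharTwo.neg_eq]
  choose z hz hz' using hz
  obtain ⟨τ, hτ, hτ'⟩ : ∃ g : Cfsg.Lie.Sz F e, ((g : GL (Fin 4) F) : Matrix (Fin 4) (Fin 4) F) =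
      !![0, 0, 0, 1; 0, 0, 1, 0; 0, 1, 0, 0; 1, 0, 0, 0] ∧
      (((g⁻¹ : Cfsg.Lie.Sz F e) : GL (Fin 4) F) : Matrix (Fin 4) (Fin 4) F) = !![0, 0, 0, 1; 0, 0, 1, 0; 0, 1, 0, 0; 1, 0, 0, 0] := by
    refine mkSz e θ hθ _ _ ?_ ?_ ?_
    · ext i j; fin_cases i <;> fin_cases j <;> simp [Matrix.mul_apply, Fin.sum_univ_four]
    · intro u v
      simp [Cfsg.Lie.altForm4, Matrix.mulVec, dotProduct, Fin.sum_univ_four]
      ring
    · ext i j; fin_cases i <;> fin_cases j <;> simp [Cfsg.Lie.star4, Cfsg.Lie.pairOf, CharTwo.neg_eq]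
  have hh : ∀ t : Fˣ, ∃ g : Cfsg.Lie.Sz F e, ((g : GL (Fin 4) F) : Matrix (Fin 4) (Fin 4) F) =
      Matrix.diagonal ![t * θ t, t, (t : F)⁻¹, (t * θ t)⁻¹] ∧
      (((g⁻¹ : Cfsg.Lie.Sz F e) : GL (Fin 4) F) : Matrix (Fin 4) (Fin 4) F) =
        Matrix.diagonal ![(t * θ t)⁻¹, (t : F)⁻¹, t, t * θ t] := by
    intro t
    have ht : (t : F) ≠ 0 := t.ne_zero
    have ht' : θ t ≠ 0 := (map_ne_zero θ).mpr ht
    refine mkSz e θ hθ _ _ ?_ ?_ ?_
    · rw [Matrix.diagonal_mul_diagonal, ← Matrix.diagonal_one]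
      congr 1; funext i; fin_cases i <;> simp <;> field_simp
    · intro u v
      simp [Cfsg.Lie.altForm4, Matrix.mulVec_diagonal]
      field_simp
    · ext i j
      fin_cases i <;> fin_cases j <;> simp [Cfsg.Lie.star4, Cfsg.Lie.pairOf, hθθ, Matrix.diagonal] <;>
        field_simp
  choose h hh hh' using hh
  let ρ : Cfsg.Lie.Sz F e →* Matrix (Fin 4) (Fin 4) F := (Units.coeHom _).comp (Subgroup.subtype _)
  have hρ : ∀ g, ρ g = ((g : GL (Fin 4) F) : Matrix (Fin 4) (Fin 4) F) := fun _ => rfl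
  have he2 : 2 ≤ e := by rw [he, pow_succ]; have := Nat.one_le_two_pow (n := m); omega
  by_contra hcon
  push Not at hcon
  refine CA.H22Law.pingpong ρ w hw (1 + e) (by omega)
    (fun b j => cond b (![2 * (1 + e), 2 + e, e, 0] j) (![0, e, 2 + e, 2 * (1 + e)] j))
    (fun b => cond b 0 3) ?_ ?_ h ?_ (fun i => z (b i) * τ * z 1) ?_ (by rw [hF]; nlinarith) hcon
  · intro b j; cases b <;> fin_cases j <;> simp <;> omega
  · intro b j; cases b <;> fin_cases j <;> simp <;> omega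
  · intro t b
    have ht : (t : F) ≠ 0 := t.ne_zero
    have ht' : θ t ≠ 0 := (map_ne_zero θ).mpr ht
    cases b
    · rw [Bool.cond_false, hρ, hh', ← Matrix.diagonal_smul]
      congr 1; funext i
      fin_cases i <;> simp [pow_add, pow_mul', hθ] <;> field_simp
    · rw [Bool.cond_true, hρ, hh, ← Matrix.diagonal_smul]
      congr 1; funext i
      fin_cases i <;> simp [pow_add, pow_mul', hθ] <;> field_simp
  · intro x hx y hy hxy
    have hne : b x.1 + b y.1 ≠ 0 := by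
      intro h0
      exact hxy (hb _ (hK x hx) _ (hK y hy) (by linear_combination h0 - (b y.1) * h2))
    have e1 : ∀ c, ρ (z c) = !![1, 0, 0, 0; 0, 1, 0, 0; c, 0, 1, 0; θ c, c, 0, 1] := hz
    have e2 : ∀ c, ρ (z c)⁻¹ = !![1, 0, 0, 0; 0, 1, 0, 0; c, 0, 1, 0; θ c, c, 0, 1] := hz'
    have e3 : ρ τ = !![0, 0, 0, 1; 0, 0, 1, 0; 0, 1, 0, 0; 1, 0, 0, 0] := hτ
    have e4 : ρ τ⁻¹ = !![0, 0, 0, 1; 0, 0, 1, 0; 0, 1, 0, 0; 1, 0, 0, 0] := hτ'
    simp only [_root_.mul_inv_rev, map_mul, e1, e2, e3, e4]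
    generalize b x.1 = r at *
    generalize b y.1 = s at *
    have hne' : θ r + θ s ≠ 0 := by rw [← map_add]; exact (map_ne_zero θ).mpr hne
    have hne2 : θ (r + s) + (r + s) + 1 ≠ 0 := by
      intro h0
      have h1 : θ (r + s) = (r + s) + 1 := by linear_combination h0 - (r + s + 1) * h2
      have h3 := hθθ (r + s)
      rw [h1, map_add θ (r + s), h1, map_one] at h3
      have h4 : (r + s) * (r + s - 1) = 0 := by linear_combination -h3 + h2
      rcases mul_eq_zero.mp h4 with h5 | h5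
      · exact hne h5
      · have h6 : r + s = 1 := by linear_combination h5
        rw [h6, map_one] at h1
        exact one_ne_zero (by linear_combination -h1 : (1 : F) = 0)
    rw [map_add] at hne2
    cases x.2 <;> cases y.2 <;> simp [Matrix.mul_apply, Fin.sum_univ_four]
    all_goals
      intro h0
      first
        | exact hne' h0
        | exact hne2 (by linear_combination h0)
        | exact hne' (by linear_combination h0 - (r + s + 1) * h2)

end Cfsg.Agent.S2354
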