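import Cfsg.Statements.S2355
import Cfsg.Agent.Lib.Grp.H22Law
import Cfsg.Agent.Lib.Lin.H22Embed
import Cfsg.Agent.S0248
import Cfsg.Agent.S0281

set_option autoImplicit false
open Cfsg

namespace Cfsg.Agent.S2355

open CA.H22Law CA.H22Embed
open scoped MatrixGroups

theorem card_le_matrix {G : Type*} [Group G] {ι F : Type*} [Fintype ι] [DecidableEq ι] [Fintype F]
    (φ : G → Matrix ι ι F) (hφ : Function.Injective φ) :
    Nat.card G ≤ Fintype.card F ^ (Fintype.card ι * Fintype.card ι) := by
  have := Nat.card_le_card_of_injective φ hφ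
  rw [show Nat.card (Matrix ι ι F) = Nat.card (ι → ι → F) from rfl, Nat.card_fun, Nat.card_fun,
    ← pow_mul] at this
  simpa using this

theorem card_quot_le {G H : Type*} [Group G] [Group H] [Finite H] (e : G ≃* H ⧸ Subgroup.center H) :
    Nat.card G ≤ Nat.card H := by
  rw [Nat.card_congr e.toEquiv]
  exact Nat.card_le_card_of_surjective _ (QuotientGroup.mk'_surjective _)

theorem law_of {G H : Type*} [Group G] [Group H] {w : FreeGroup ℕ} (e : G ≃* H ⧸ Subgroup.center H)
    (h : Law w G) : Law (comm w) H :=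
  (h.of_injective e.symm.toMonoidHom e.symm.injective).comm_of_quotient_center

theorem bound_pow {q d N : ℕ} (hq : q ≤ N * N) (hd : d ≤ 2 * N + 2) (hN : 1 ≤ N) :
    q ^ (d * d) ≤ (N * N) ^ ((2 * N + 2) * (2 * N + 2)) :=
  (Nat.pow_le_pow_left hq _).trans (Nat.pow_le_pow_right (Nat.mul_pos hN hN) (Nat.mul_le_mul hd hd))

theorem sl_bound (w : FreeGroup ℕ) (hw : w ≠ 1) : ∃ N : ℕ, 1 ≤ N ∧ (∀ n, Law w (alternatingGroup (Fin n)) → n ≤ N) ∧
    (∀ (F : Type) [Field F] [Fintype F], Law w SL(2, F) → Fintype.card F ≤ N) ∧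
    ∀ (F : Type) [Field F] [Fintype F] (n : ℕ), 2 ≤ n → Law w SL(n, F) → n ≤ N ∧ Fintype.card F ≤ N := by
  obtain ⟨N1, h1⟩ := not_law_alternating w hw
  obtain ⟨N2, h2⟩ := not_law_SL2.{0} w hw
  have a1 : ∀ n, Law w (alternatingGroup (Fin n)) → n ≤ N1 + N2 + 1 := by
    intro n h
    by_contra hc
    exact h1 n (by omega) h
  have a2 : ∀ (F : Type) [Field F] [Fintype F], Law w SL(2, F) → Fintype.card F ≤ N1 + N2 + 1 := by
    intro F _ _ h
    by_contra hc
    exact h2 F (by omega) h
  refine ⟨N1 + N2 + 1, by omega, a1, a2, fun F _ _ n hn h => ⟨?_, ?_⟩⟩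
  · exact a1 n (h.of_injective _ (permSL_injective n F))
  · obtain ⟨k, rfl⟩ := Nat.exists_eq_add_of_le hn
    exact a2 F (h.of_injective _ (blockSL_injective 2 k))

theorem omega_case {F : Type} [Field F] [Fintype F] {ι : Type} [Fintype ι] [DecidableEq ι]
    (Q : (ι → F) → F) (m : ℕ) (hm : 3 ≤ m) (φ : GL (Fin m) F →* Cfsg.isometryGroup F Q)
    (hφ : Function.Injective φ) {w : FreeGroup ℕ} (h : Law w (Cfsg.Omega F Q)) : Law w SL(m, F) := by
  refine h.of_injective ((φ.comp Matrix.SpecialLinearGroup.toGL).codRestrict _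
    (mem_commutator_of_perfect (Cfsg.Agent.S0248.result m hm) _)) ?_
  intro a b hab
  exact Matrix.SpecialLinearGroup.toGL_injective (hφ (congrArg Subtype.val hab))

theorem omega_card {F : Type} [Field F] [Fintype F] {ι : Type} [Fintype ι] [DecidableEq ι]
    (Q : (ι → F) → F) : Nat.card (Cfsg.Omega F Q) ≤ Fintype.card F ^ (Fintype.card ι * Fintype.card ι) :=
  card_le_matrix (fun g => g.1.1.1) (fun _ _ h => Subtype.ext (Subtype.ext (Units.ext h)))


/-- A non-trivial law is satisfied by only finitely many finite simple groups that are alternating or classical, up to isomorphism: for every non-trivial element w of the free group on countably many generators there is a bound N such that every alternating group of degree ≥ 5 and every simple classical group (linear, symplectic, unitary or orthogonal, in this problem's sense) in which w is a law has order at most N. -/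
theorem result (w : FreeGroup ℕ) (hw : w ≠ 1) :
    ∃ N : ℕ, ∀ (G : Type*) [Group G] [Finite G],
      (Cfsg.IsAlternating G ∨ Cfsg.IsPSL G ∨ Cfsg.IsPSp G ∨ Cfsg.IsPSU G ∨ Cfsg.IsPOmegaOdd G ∨
          Cfsg.IsPOmegaPlus G ∨ Cfsg.IsPOmegaMinus G) →
      (∀ f : ℕ → G, FreeGroup.lift f w = 1) → Nat.card G ≤ N := by
  classical
  obtain ⟨N0, -, hA0, -, -⟩ := sl_bound w hw
  obtain ⟨N, hN, hA, h2, hSL⟩ := sl_bound _ (comm_ne_one hw)
  refine ⟨N0.factorial + (N * N) ^ ((2 * N + 2) * (2 * N + 2)), fun G _ _ hG hlaw => ?_⟩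
  have hlaw' : Law w G := hlaw
  have hNN : N ≤ N * N := Nat.le_mul_self N
  rcases hG with ⟨n, hn, ⟨e⟩⟩ | ⟨F, _, _, n, hn, -, ⟨e⟩⟩ | ⟨F, _, _, m, hm, -, ⟨e⟩⟩ |
    ⟨F, _, _, n, q, hq, hn, -, ⟨e⟩⟩ | ⟨F, _, _, m, hm, -, ⟨e⟩⟩ | ⟨F, _, _, m, hm, ⟨e⟩⟩ |
    ⟨F, _, _, m, a, b, hm, -, ⟨e⟩⟩
  · have h1 := hA0 n (hlaw'.of_injective e.symm.toMonoidHom e.symm.injective)
    refine le_add_right ?_
    rw [Nat.card_congr e.toEquiv]
    refine (Nat.card_le_card_of_injective _ Subtype.val_injective).trans ?_
    rw [Nat.card_perm]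
    exact Nat.factorial_le (by simpa using h1)
  · obtain ⟨h3, h4⟩ := hSL F n hn (law_of e hlaw')
    refine le_add_left ((card_quot_le e).trans ?_)
    refine (card_le_matrix (fun g : SL(n, F) => g.1) Subtype.val_injective).trans ?_
    exact bound_pow (by omega) (by simp; omega) hN
  · obtain ⟨h3, h4⟩ := hSL F m hm ((law_of e hlaw').of_injective
      ((leviSp (Fin m) F).comp Matrix.SpecialLinearGroup.toGL)
      ((leviSp_injective _).comp Matrix.SpecialLinearGroup.toGL_injective))
    refine le_add_left ((card_quot_le e).trans ?_)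
    refine (card_le_matrix (fun g : Matrix.symplecticGroup (Fin m) F => g.1) Subtype.val_injective).trans ?_
    exact bound_pow (by omega) (by simp; omega) hN
  · have hl := law_of e hlaw'
    have h3 := hA n (hl.of_injective ((permSL n F).codRestrict _ permSL_mem_SU)
      (fun a b hab => permSL_injective n F (congrArg Subtype.val hab)))
    obtain ⟨k, rfl⟩ := Nat.exists_eq_add_of_le (show 2 ≤ n by omega)
    have hl2 := hl.of_injective _ (blockSU_injective 2 k q)
    obtain ⟨p, hp⟩ := CharP.exists F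
    obtain ⟨r, hpp, hr⟩ := FiniteField.card F p
    haveI : Fact p.Prime := ⟨hpp⟩
    obtain ⟨j, -, hj⟩ := (Nat.dvd_prime_pow hpp).mp
      (show q ∣ p ^ (r : ℕ) by rw [← hr, hq]; exact dvd_pow_self _ two_ne_zero)
    have hj0 : j ≠ 0 := by
      rintro rfl
      have := Fintype.one_lt_card (α := F)
      rw [hq, hj] at this; simp at this
    haveI : Fintype (GaloisField p j) := Fintype.ofFinite _
    have hK : Fintype.card (GaloisField p j) = q := by
      rw [hj, ← Nat.card_eq_fintype_card, GaloisField.card p j hj0]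
    obtain ⟨e2⟩ := Cfsg.Agent.S0281.result hq hK
    have h4 := h2 _ (hl2.of_injective e2.symm.toMonoidHom e2.symm.injective)
    refine le_add_left ((card_quot_le e).trans ?_)
    refine (card_le_matrix (fun g : Cfsg.SU (2 + k) F q => g.1.1)
      (fun _ _ h => Subtype.ext (Subtype.ext h))).trans ?_
    refine bound_pow ?_ (by simp; omega) hN
    rw [hq, pow_two, ← hK]
    exact Nat.mul_le_mul h4 h4
  · obtain ⟨h3, h4⟩ := hSL F m (by omega)
      (omega_case _ m hm _ (leviOdd_injective m) (law_of e hlaw'))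
    refine le_add_left ((card_quot_le e).trans ((omega_card _).trans ?_))
    exact bound_pow (by omega) (by simp; omega) hN
  · obtain ⟨h3, h4⟩ := hSL F m (by omega)
      (omega_case _ m (by omega) _ (leviPlus_injective m) (law_of e hlaw'))
    refine le_add_left ((card_quot_le e).trans ((omega_card _).trans ?_))
    exact bound_pow (by omega) (by simp; omega) hN
  · obtain ⟨h3, h4⟩ := hSL F (m - 1) (by omega)
      (omega_case _ (m - 1) (by omega) _ (leviMinus_injective (m - 1) a b) (law_of e hlaw'))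
    refine le_add_left ((card_quot_le e).trans ((omega_card _).trans ?_))
    exact bound_pow (by omega) (by simp; omega) hN

end Cfsg.Agent.S2355
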