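import Cfsg.Statements.S2356
import Cfsg.Agent.Lib.Lin.SU3Inv

set_option autoImplicit false
open Cfsg

namespace Cfsg.Agent.S2356

open CA.SU3Inv

/-- Let q be odd, F the field with q² elements, S = SU_3(F) (determinant-one isometries of the standard Hermitian form) and t an involution of S. Then: exactly q(q−1) involutions other than t commute with t; exactly q(q−2)(q²−1) involutions do not commute with t but commute with some involution commuting with t; exactly (q+1)(q²−1) involutions x do not commute with t and admit no involution commuting with both t and x; and every involution can be reached from t in at most three steps, each step going to an involution that commutes with the previous one (the commuting involution graph is connected of diameter 3). -/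
theorem result {F : Type*} [Field F] [Fintype F] {q : ℕ} (hq : Odd q)
    (hF : Fintype.card F = q ^ 2) (t : ↥(Cfsg.SU 3 F q)) (ht : t ≠ 1) (ht2 : t * t = 1) :
    Nat.card {x : ↥(Cfsg.SU 3 F q) // x ≠ 1 ∧ x * x = 1 ∧ x ≠ t ∧ Commute t x} = q * (q - 1) ∧
    Nat.card {x : ↥(Cfsg.SU 3 F q) // x ≠ 1 ∧ x * x = 1 ∧ ¬ Commute t x ∧
        ∃ y : ↥(Cfsg.SU 3 F q), y ≠ 1 ∧ y * y = 1 ∧ Commute t y ∧ Commute y x} = q * (q - 2) * (q ^ 2 - 1) ∧
    Nat.card {x : ↥(Cfsg.SU 3 F q) // x ≠ 1 ∧ x * x = 1 ∧ ¬ Commute t x ∧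
        ∀ y : ↥(Cfsg.SU 3 F q), y ≠ 1 → y * y = 1 → ¬ (Commute t y ∧ Commute y x)} = (q + 1) * (q ^ 2 - 1) ∧
    ∀ x : ↥(Cfsg.SU 3 F q), x ≠ 1 → x * x = 1 →
      ∃ y z : ↥(Cfsg.SU 3 F q), y ≠ 1 ∧ y * y = 1 ∧ z ≠ 1 ∧ z * z = 1 ∧
        Commute t y ∧ Commute y z ∧ Commute z x := by
  have h2 := two_ne hq hF
  obtain ⟨g, hg⟩ := conj_e0 (hF := hF) h2 ht ht2
  obtain ⟨φ, rfl⟩ : ∃ φ : MulAut (Cfsg.SU 3 F q), φ (R hF ![1, 0, 0]) = t := ⟨MulAut.conj g, hg⟩
  have a1 : ∀ a, φ a = 1 ↔ a = 1 := fun a => map_eq_one_iff φ φ.injective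
  have a2 : ∀ a, φ a * φ a = 1 ↔ a * a = 1 := fun a => by rw [← map_mul, a1]
  have a3 : ∀ a b, φ a = φ b ↔ a = b := fun a b => φ.injective.eq_iff
  have a4 : ∀ a b, Commute (φ a) (φ b) ↔ Commute a b := fun a b => by
    rw [commute_iff_eq, commute_iff_eq, ← map_mul, ← map_mul, a3]
  refine ⟨?_, ?_, ?_, ?_⟩
  · rw [← cnt1 (hF := hF) h2]
    refine (Nat.card_congr (Equiv.subtypeEquiv φ.toEquiv fun x => ?_)).symm
    simp only [MulEquiv.toEquiv_eq_coe, EquivLike.coe_coe, Ne, a1, a2, a3, a4]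
  · rw [← cnt2 (hF := hF) h2]
    refine (Nat.card_congr (Equiv.subtypeEquiv φ.toEquiv fun x => ?_)).symm
    rw [φ.surjective.exists (p := fun y => y ≠ 1 ∧ y * y = 1 ∧ Commute (φ _) y ∧ Commute y _)]
    simp only [MulEquiv.toEquiv_eq_coe, EquivLike.coe_coe, Ne, a1, a2, a4]
  · rw [← cnt3 (hF := hF) h2]
    refine (Nat.card_congr (Equiv.subtypeEquiv φ.toEquiv fun x => ?_)).symm
    rw [φ.surjective.forall (p := fun y => y ≠ 1 → y * y = 1 → ¬ (Commute (φ _) y ∧ Commute y _))]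
    simp only [MulEquiv.toEquiv_eq_coe, EquivLike.coe_coe, Ne, a1, a2, a4, not_exists, not_and]
  · intro x hx hx2
    obtain ⟨x, rfl⟩ := φ.surjective x
    rw [Ne, a1] at hx
    rw [a2] at hx2
    obtain ⟨v, hv, rfl⟩ := exists_R (hF := hF) h2 hx hx2
    obtain ⟨w, hw, hwv, h0⟩ := exists_perp h2 hv
    have key : ∀ u, hh hF u u ≠ 0 → Commute (R hF ![1, 0, 0]) (R hF u) → hh hF u w = 0 →
        ∃ y z : ↥(Cfsg.SU 3 F q), y ≠ 1 ∧ y * y = 1 ∧ z ≠ 1 ∧ z * z = 1 ∧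
          Commute (φ (R hF ![1, 0, 0])) y ∧ Commute y z ∧ Commute z (φ (R hF v)) := fun u hu c1 c2 =>
      ⟨φ (R hF u), φ (R hF w), mt (a1 _).1 (R_ne h2 hu), (a2 _).2 (R_sq hu), mt (a1 _).1 (R_ne h2 hw),
        (a2 _).2 (R_sq hw), (a4 _ _).2 c1, (a4 _ _).2 ((R_comm_iff h2 hu hw).2 (Or.inl c2)),
        (a4 _ _).2 ((R_comm_iff h2 hw hv).2 (Or.inl hwv))⟩
    rcases h0 with h | h | h
    · exact key ![1, 0, 0] hh_e0 (Commute.refl _) (by simp [hh, h])
    · have hu : hh hF ![0, 1, 0] ![0, 1, 0] ≠ 0 := by simp [hh]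
      exact key _ hu ((comm_e0 h2 hu).2 (Or.inl rfl)) (by simp [hh, h])
    · have hu : hh hF ![0, 0, 1] ![0, 0, 1] ≠ 0 := by simp [hh]
      exact key _ hu ((comm_e0 h2 hu).2 (Or.inl rfl)) (by simp [hh, h])

end Cfsg.Agent.S2356
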