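import Cfsg.Statements.S2357
import Cfsg.Agent.Lib.Lie.ChevRee
import Cfsg.Agent.Lib.Lie.ReeTori2
-- import your own Cfsg.Agent.* helpers here

set_option autoImplicit false
open Cfsg

namespace Cfsg.Agent.S2357

open CA.Chev

/-- Let R be the small Ree group over the field with q = 3^(2m+1) ≥ 27 elements and write φ for Euler's totient function. Then R has exactly q²(q²−q+1) involutions, (q²−1)(q³+1) elements of order 3, and q²(q−1)(q³+1) elements of order 6 and as many of order 9; for i > 2 dividing q−1 it has φ(i)q³(q³+1)/2 elements of order i; for i > 1 dividing (q+1)/4 it has φ(i)q³(q−1)(q²−q+1)/6 elements of order i and φ(i)q³(q−1)(q²−q+1)/2 elements of order 2i; and for i > 1 dividing q − 3^(m+1) + 1 (respectively q + 3^(m+1) + 1) it has φ(i)q³(q²−1)(q + 3^(m+1) + 1)/6 (respectively φ(i)q³(q²−1)(q − 3^(m+1) + 1)/6) elements of order i. -/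
theorem result {K : Type*} [Field K] [Fintype K] {m : ℕ} (hm : 1 ≤ m)
    (hK : Fintype.card K = 3 ^ (2 * m + 1)) :
    Nat.card {g : ↥(Cfsg.Lie.twistedG2 K (3 ^ m)) // orderOf g = 2} = (3 ^ (2 * m + 1)) ^ 2 * ((3 ^ (2 * m + 1)) ^ 2 - 3 ^ (2 * m + 1) + 1) ∧
    Nat.card {g : ↥(Cfsg.Lie.twistedG2 K (3 ^ m)) // orderOf g = 3} = ((3 ^ (2 * m + 1)) ^ 2 - 1) * ((3 ^ (2 * m + 1)) ^ 3 + 1) ∧
    Nat.card {g : ↥(Cfsg.Lie.twistedG2 K (3 ^ m)) // orderOf g = 6} = (3 ^ (2 * m + 1)) ^ 2 * (3 ^ (2 * m + 1) - 1) * ((3 ^ (2 * m + 1)) ^ 3 + 1) ∧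
    Nat.card {g : ↥(Cfsg.Lie.twistedG2 K (3 ^ m)) // orderOf g = 9} = (3 ^ (2 * m + 1)) ^ 2 * (3 ^ (2 * m + 1) - 1) * ((3 ^ (2 * m + 1)) ^ 3 + 1) ∧
    (∀ i : ℕ, 2 < i → i ∣ 3 ^ (2 * m + 1) - 1 →
      2 * Nat.card {g : ↥(Cfsg.Lie.twistedG2 K (3 ^ m)) // orderOf g = i} = Nat.totient i * (3 ^ (2 * m + 1)) ^ 3 * ((3 ^ (2 * m + 1)) ^ 3 + 1)) ∧
    (∀ i : ℕ, 1 < i → i ∣ (3 ^ (2 * m + 1) + 1) / 4 →
      6 * Nat.card {g : ↥(Cfsg.Lie.twistedG2 K (3 ^ m)) // orderOf g = i} =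
          Nat.totient i * (3 ^ (2 * m + 1)) ^ 3 * (3 ^ (2 * m + 1) - 1) * ((3 ^ (2 * m + 1)) ^ 2 - 3 ^ (2 * m + 1) + 1) ∧
        2 * Nat.card {g : ↥(Cfsg.Lie.twistedG2 K (3 ^ m)) // orderOf g = 2 * i} =
          Nat.totient i * (3 ^ (2 * m + 1)) ^ 3 * (3 ^ (2 * m + 1) - 1) * ((3 ^ (2 * m + 1)) ^ 2 - 3 ^ (2 * m + 1) + 1)) ∧
    (∀ i : ℕ, 1 < i → i ∣ 3 ^ (2 * m + 1) - 3 ^ (m + 1) + 1 →
      6 * Nat.card {g : ↥(Cfsg.Lie.twistedG2 K (3 ^ m)) // orderOf g = i} =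
        Nat.totient i * (3 ^ (2 * m + 1)) ^ 3 * ((3 ^ (2 * m + 1)) ^ 2 - 1) * (3 ^ (2 * m + 1) + 3 ^ (m + 1) + 1)) ∧
    (∀ i : ℕ, 1 < i → i ∣ 3 ^ (2 * m + 1) + 3 ^ (m + 1) + 1 →
      6 * Nat.card {g : ↥(Cfsg.Lie.twistedG2 K (3 ^ m)) // orderOf g = i} =
        Nat.totient i * (3 ^ (2 * m + 1)) ^ 3 * ((3 ^ (2 * m + 1)) ^ 2 - 1) * (3 ^ (2 * m + 1) - 3 ^ (m + 1) + 1)) := by
  obtain ⟨R, h, -⟩ := exists_ree hK
  have hq := CA.Ree.three_lt hm h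
  have hr : (3 ^ (m + 1)) ^ 2 = 3 * Nat.card K := by rw [h]; ring
  have := R.finite
  obtain ⟨A1, h1, e1⟩ := R.tor_one hq
  obtain ⟨A2, h2⟩ := R.tor_two hq
  obtain ⟨A3, A4, h3, h4⟩ := R.tor_three hq hr
  rw [← h]
  have hΦ := CA.Ree.phi_eq hq hr
  have hG := R.card_G'
  obtain ⟨t, e, e0, f1, f2, f3, f4, -⟩ := R.arith
  have c : ∀ {a b n : ℕ}, 0 < n → a * n = b * n → a = b := Nat.eq_of_mul_eq_mul_right
  have k1 : ∀ i, 1 < i → i ∣ (Nat.card K - 1) / 2 → 2 * Nat.card {g : ↥(Cfsg.Lie.twistedG2 K (3 ^ m)) // orderOf g = i} =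
      i.totient * Nat.card K ^ 3 * (Nat.card K ^ 3 + 1) := fun i a b =>
    c (n := Nat.card K - 1) (by omega) (by linear_combination h1.card_ord a b + i.totient * R.card_G)
  refine ⟨R.card_ord_two hq, by rw [R.card_ord_U (by omega) (by norm_num), R.card_three, mul_comm], ?_,
    by rw [R.card_ord_U (by omega) (by norm_num), R.card_nine, mul_comm], fun i a b => ?_, fun i a b => ?_, fun i a b => ?_, fun i a b => ?_⟩
  · rw [R.card_ord_six hq, f3, f4, e0, e]; ring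
  · rw [show Nat.card K - 1 = 2 * ((Nat.card K - 1) / 2) by omega] at b
    rcases Nat.even_or_odd i with ⟨j, rfl⟩ | o
    · rw [← two_mul] at *
      have b := Nat.dvd_of_mul_dvd_mul_left two_pos b
      rw [h1.card_two_mul (by omega) b, mul_one, k1 j (by omega) b, Nat.totient_two_mul_of_odd (h1.odd.of_dvd_nat b)]
    · exact k1 i (by omega) ((Nat.coprime_two_right.2 o).dvd_of_dvd_mul_left b)
  · have : 6 * Nat.card {g : ↥(Cfsg.Lie.twistedG2 K (3 ^ m)) // orderOf g = i} =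
        i.totient * Nat.card K ^ 3 * (Nat.card K - 1) * (Nat.card K ^ 2 - Nat.card K + 1) := c (n := Nat.card K + 1) (by omega) (by
      rw [CA.SLnCard.sq_sub_one] at hG; linear_combination h2.card_ord a b + i.totient * hG)
    exact ⟨this, by rw [h2.card_two_mul a b]; omega⟩
  · exact c (n := Nat.card K - 3 ^ (m + 1) + 1) (Nat.succ_pos _) (by rw [hΦ] at hG; linear_combination h3.card_ord a b + i.totient * hG)
  · exact c (n := Nat.card K + 3 ^ (m + 1) + 1) (Nat.succ_pos _) (by rw [hΦ] at hG; linear_combination h4.card_ord a b + i.totient * hG)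

end Cfsg.Agent.S2357
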