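import Cfsg.Statements.S2358
import Cfsg.Agent.Lib.Lie.ChevRee
import Cfsg.Agent.Lib.Lie.ReeTori2
-- import your own Cfsg.Agent.* helpers here

set_option autoImplicit false
open Cfsg

namespace Cfsg.Agent.S2358

open CA.Chev

/-- Let R be the small Ree group over the field with q = 3^(2m+1) ≥ 27 elements. If d divides one of (q−1)/2, (q+1)/4, q − 3^(m+1) + 1 or q + 3^(m+1) + 1, then any two cyclic subgroups of R of order d are conjugate in R. -/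
theorem result {K : Type*} [Field K] [Fintype K] {m : ℕ} (hm : 1 ≤ m)
    (hK : Fintype.card K = 3 ^ (2 * m + 1)) (d : ℕ)
    (hd : d ∣ (3 ^ (2 * m + 1) - 1) / 2 ∨ d ∣ (3 ^ (2 * m + 1) + 1) / 4 ∨ d ∣ 3 ^ (2 * m + 1) - 3 ^ (m + 1) + 1 ∨ d ∣ 3 ^ (2 * m + 1) + 3 ^ (m + 1) + 1)
    (A B : Subgroup ↥(Cfsg.Lie.twistedG2 K (3 ^ m))) (hA : IsCyclic A) (hB : IsCyclic B)
    (hAd : Nat.card A = d) (hBd : Nat.card B = d) :
    ∃ g : ↥(Cfsg.Lie.twistedG2 K (3 ^ m)), B = A.map (MulAut.conj g).toMonoidHom := by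
  obtain ⟨R, h, -⟩ := exists_ree hK
  have hq := CA.Ree.three_lt hm h
  have hr : (3 ^ (m + 1)) ^ 2 = 3 * Nat.card K := by rw [h]; ring
  have := R.finite
  obtain ⟨A1, h1, e1⟩ := R.tor_one hq
  obtain ⟨A2, h2⟩ := R.tor_two hq
  obtain ⟨A3, A4, h3, h4⟩ := R.tor_three hq hr
  subst hAd
  rw [← h] at hd
  rcases hd with e | e | e | e
  exacts [h1.eq_conj hA hB hBd.symm (h1.card ▸ e), h2.eq_conj hA hB hBd.symm (h2.card ▸ e), h3.eq_conj hA hB hBd.symm (h3.card ▸ e),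
    h4.eq_conj hA hB hBd.symm (h4.card ▸ e)]

end Cfsg.Agent.S2358
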