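import Cfsg.Statements.S2360
import Cfsg.Agent.Lib.Lin.SU3Inv

set_option autoImplicit false
open Cfsg

namespace Cfsg.Agent.S2360

open CA.SU3Inv

/-- Let q be odd, F the field with q² elements and S = SU_3(F) (determinant-one isometries of the standard Hermitian form). Then all involutions of S are conjugate; there are exactly q²(q²−q+1) of them; the centralizer of an involution has order q(q+1)(q²−1), the order of the full unitary group of degree 2; and for two distinct commuting involutions t and x there is exactly one further involution commuting with both. -/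
theorem result {F : Type*} [Field F] [Fintype F] {q : ℕ} (hq : Odd q)
    (hF : Fintype.card F = q ^ 2) (t : ↥(Cfsg.SU 3 F q)) (ht : t ≠ 1) (ht2 : t * t = 1) :
    (∀ x : ↥(Cfsg.SU 3 F q), x ≠ 1 → x * x = 1 → ∃ g : ↥(Cfsg.SU 3 F q), g * t * g⁻¹ = x) ∧
    Nat.card {x : ↥(Cfsg.SU 3 F q) // x ≠ 1 ∧ x * x = 1} = q ^ 2 * (q ^ 2 - q + 1) ∧
    Nat.card ↥(Subgroup.centralizer ({t} : Set ↥(Cfsg.SU 3 F q))) = q * (q + 1) * (q ^ 2 - 1) ∧
    ∀ x : ↥(Cfsg.SU 3 F q), x ≠ 1 → x * x = 1 → x ≠ t → Commute t x →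
      Nat.card {y : ↥(Cfsg.SU 3 F q) // y ≠ 1 ∧ y * y = 1 ∧ y ≠ t ∧ y ≠ x ∧ Commute t y ∧ Commute x y} = 1 := by
  have h2 := two_ne hq hF
  have hconj : ∀ x : ↥(Cfsg.SU 3 F q), x ≠ 1 → x * x = 1 → ∃ g : ↥(Cfsg.SU 3 F q), g * t * g⁻¹ = x := by
    intro x hx hx2
    obtain ⟨g, rfl⟩ := conj_e0 (hF := hF) h2 ht ht2
    obtain ⟨k, rfl⟩ := conj_e0 (hF := hF) h2 hx hx2
    exact ⟨k * g⁻¹, by group⟩
  have hc := cnt0 (hF := hF) h2
  refine ⟨hconj, hc, ?_, ?_⟩
  · have h1 : Nat.card (MulAction.orbit (ConjAct (Cfsg.SU 3 F q)) t) = q ^ 2 * (q ^ 2 - q + 1) := by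
      rw [← hc]
      refine card_iff fun x => ?_
      rw [ConjAct.mem_orbit_conjAct, isConj_comm, isConj_iff]
      refine ⟨?_, fun h => hconj x h.1 h.2⟩
      rintro ⟨g, rfl⟩
      refine ⟨fun h => ht (by simpa [mul_inv_eq_one] using h), ?_⟩
      calc g * t * g⁻¹ * (g * t * g⁻¹) = g * (t * t) * g⁻¹ := by group
        _ = 1 := by rw [ht2]; group
    have h3 : Nat.card (Cfsg.SU 3 F q) = q ^ 3 * ((q ^ 2 - 1) * (q ^ 3 + 1)) := by
      obtain ⟨e⟩ := CA.SU3.nonempty_equiv hF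
      rw [Nat.card_congr e.toEquiv, CA.SU3.card_SJ]
    have h4 : (Subgroup.centralizer ({t} : Set ↥(Cfsg.SU 3 F q))).index = q ^ 2 * (q ^ 2 - q + 1) := by
      rw [← h1, Nat.card_coe_set_eq, ← MulAction.index_stabilizer, Subgroup.centralizer_eq_comap_stabilizer]
      exact Subgroup.index_comap_of_surjective _ ConjAct.toConjAct.surjective
    have h5 := (Subgroup.centralizer ({t} : Set ↥(Cfsg.SU 3 F q))).card_mul_index
    rw [h4, h3] at h5
    have hq2 := CA.CForm.two_le_of_card_sq hF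
    refine Nat.eq_of_mul_eq_mul_right (show 0 < q ^ 2 * (q ^ 2 - q + 1) by positivity) (h5.trans ?_)
    obtain ⟨r, rfl⟩ : ∃ r, q = r + 1 := ⟨q - 1, by omega⟩
    have e2 : (r + 1) ^ 2 - (r + 1) = r * (r + 1) := by
      rw [Nat.sub_eq_iff_eq_add (by nlinarith)]; ring
    rw [e2]; ring
  · obtain ⟨g, hg⟩ := conj_e0 (hF := hF) h2 ht ht2
    obtain ⟨φ, rfl⟩ : ∃ φ : MulAut (Cfsg.SU 3 F q), φ (R hF ![1, 0, 0]) = t := ⟨MulAut.conj g, hg⟩
    have a1 : ∀ a, φ a = 1 ↔ a = 1 := fun a => map_eq_one_iff φ φ.injective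
    have a2 : ∀ a, φ a * φ a = 1 ↔ a * a = 1 := fun a => by rw [← map_mul, a1]
    have a3 : ∀ a b, φ a = φ b ↔ a = b := fun a b => φ.injective.eq_iff
    have a4 : ∀ a b, Commute (φ a) (φ b) ↔ Commute a b := fun a b => by
      rw [commute_iff_eq, commute_iff_eq, ← map_mul, ← map_mul, a3]
    intro x hx hx2 hxt hc
    obtain ⟨x, rfl⟩ := φ.surjective x
    rw [Ne, a1] at hx
    rw [a2] at hx2
    rw [Ne, a3] at hxt
    rw [a4] at hc
    obtain ⟨v, hv, rfl⟩ := exists_R (hF := hF) h2 hx hx2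
    rw [eq_e0 h2 hv] at hxt
    have h0 : v 0 = 0 := ((comm_e0 h2 hv).1 hc).resolve_right hxt
    have hw : hh hF ![0, -CA.CForm.conj hF (v 2), CA.CForm.conj hF (v 1)]
        ![0, -CA.CForm.conj hF (v 2), CA.CForm.conj hF (v 1)] ≠ 0 := by
      rw [hh_perp]; simpa [hh_self, h0, N] using hv
    refine Eq.trans ?_ (card_eq_pt (R hF ![0, -CA.CForm.conj hF (v 2), CA.CForm.conj hF (v 1)]))
    refine (Nat.card_congr (Equiv.subtypeEquiv φ.toEquiv fun y => ?_)).symm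
    simp only [MulEquiv.toEquiv_eq_coe, EquivLike.coe_coe, Ne, a1, a2, a3, a4]
    constructor
    · rintro rfl
      refine ⟨R_ne h2 hw, R_sq hw, ?_, ?_, (comm_e0 h2 hw).2 (Or.inl rfl),
        ((R_comm_iff h2 hw hv).2 (Or.inl (hh_perp' v))).symm⟩
      · rw [eq_e0 h2 hw]
        rintro ⟨h3, h4⟩
        exact hxt ⟨by simpa using h4, by simpa using h3⟩
      · rw [R_eq_iff h2 hw hv]
        rintro ⟨a, ha⟩
        have h3 := hh_perp' (hF := hF) v
        have h4 := hh_smul hF a 1 v v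
        rw [one_smul, ← ha, h3, map_one, mul_one] at h4
        have h5 : a = 0 := (mul_eq_zero.1 h4.symm).resolve_right hv
        exact hw (by rw [ha, h5]; simp [hh])
    · rintro ⟨hy, hy2, hyt, hyx, c1, c2⟩
      obtain ⟨w, hw', rfl⟩ := exists_R (hF := hF) h2 hy hy2
      rw [eq_e0 h2 hw'] at hyt
      have h3 : w 0 = 0 := ((comm_e0 h2 hw').1 c1).resolve_right hyt
      have h4 : hh hF w v = 0 := ((R_comm_iff h2 hw' hv).1 c2.symm).resolve_right hyx
      exact (R_eq_iff h2 hw' hw).2 (perp_two hxt h3 h4)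

end Cfsg.Agent.S2360
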