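import Cfsg.Statements.S2385
import Cfsg.Agent.Lib.Lin.CFormConj2

set_option autoImplicit false
open Cfsg

namespace Cfsg.Agent.S2385

open CA.CForm CA.CForm.Form CA.Rcf Polynomial in
/-- In the symplectic group `Sp_{2n}(q)`, `q` a power of the prime `p`, the number of conjugacy classes of elements of order prime to `p` is `q^n`. -/
theorem result {F : Type*} [Field F] [Fintype F] {q : ℕ} (hq : Fintype.card F = q) (p : ℕ) [Fact p.Prime] [CharP F p] (n : ℕ) :
    Nat.card {c : ConjClasses ↥(Matrix.symplecticGroup (Fin n) F) //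
      ∃ g : ↥(Matrix.symplecticGroup (Fin n) F), ConjClasses.mk g = c ∧ (orderOf g).Coprime p} = q ^ n := by
  classical
  have hf := sympStd_nondeg F n
  rw [card_conjClasses_congr (spEquiv F n) _ (fun g => (orderOf g).Coprime p)
    fun g => by rw [MulEquiv.orderOf_eq],
    card_ss_classes p (sympStd F n).Isom.subtype Subtype.val_injective
    (fun g h hg _ H => isConj_iff_isoSim.2 (hf.symp_isoSim_of_ss hf hg (isConj_iff_sim.1 H)))
    (fun χ => χ.natDegree ≤ 2 * n ∧ (fun c : Fin (2 * n + 1) → F => c (Fin.last _) = 1 ∧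
      ∀ i, c i.rev = c i) fun i => χ.coeff i) fun χ => ⟨fun h => ?_, ?_⟩,
    card_poly_coeff (2 * n) fun c => c (Fin.last _) = 1 ∧ ∀ i, c i.rev = c i, ← hq, ← Nat.card_eq_fintype_card]
  · symm
    conv_lhs => rw [← Nat.card_fin n, ← Nat.card_fun]
    refine Nat.card_eq_of_bijective (fun w => ⟨fun i => if h : 1 ≤ min i.val (2 * n - i) then
      w ⟨min i.val (2 * n - i) - 1, by omega⟩ else 1, by simp, fun i => ?_⟩)
      ⟨fun w w' h => funext fun i => ?_, fun c => ⟨fun i => c.1 ⟨i + 1, by omega⟩,
        Subtype.ext (funext fun i => ?_)⟩⟩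
    · have : min (i.rev : ℕ) (2 * n - i.rev) = min i.val (2 * n - i) := by
        rw [Fin.val_rev]; omega
      simp only [this]
    · have := congrFun (congrArg Subtype.val h) ⟨i + 1, by omega⟩
      have h1 : min (i.val + 1) (2 * n - (i.val + 1)) = i.val + 1 := by omega
      simpa [h1] using this
    · have h1 := c.2.2 i
      have h2 := c.2.2 0
      have h3 := c.2.1
      dsimp only
      split_ifs with h
      · rcases le_total i.val (2 * n - i) with h4 | h4
        · exact congrArg _ (Fin.ext (by simp; omega))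
        · exact (congrArg _ (Fin.ext (by simp; omega))).trans h1
      · obtain rfl | rfl : i = 0 ∨ i = Fin.last _ := by
          simp only [Fin.ext_iff, Fin.val_zero, Fin.val_last]; omega
        · exact h3.symm.trans h2
        · exact h3.symm
  · have h1 : χ.natDegree = 2 * n := le_antisymm h.1 (le_natDegree_of_ne_zero (by
      rw [show χ.coeff (2 * n) = 1 from h.2.1]; exact one_ne_zero))
    have h2 : χ.coeff 0 = 1 := (h.2.2 0).symm.trans h.2.1
    obtain ⟨u, hu, hχ⟩ := exists_ss_equiv (V := Fin n ⊕ Fin n → F) (χ := χ)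
      (by rw [Monic, leadingCoeff, h1]; exact h.2.1)
      (by rw [h1, finrank_plus]) (by simp [h2])
    have h3 := hu.map_dual (σ := RingHom.id F) (fun _ => rfl) (by
      rw [hχ, dual_eq_iff_coeff (by simp [h2]), h1, h2]
      simpa using h.2.2)
    have h4 := sum_natDegree_edivs (u : Module.End F (Fin n ⊕ Fin n → F))
    have h5 := charpoly_eq_prod (u : Module.End F (Fin n ⊕ Fin n → F))
    have h6 := fun d => isPrim_of_mem_edivs (A := (u : Module.End F (Fin n ⊕ Fin n → F))) (d := d)
    have h7 := fun d => not_X_dvd_of_mem_edivs u (d := d)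
    obtain ⟨a, b, m, hm, hb, h8⟩ : ∃ a b m, edivs (u : Module.End F (Fin n ⊕ Fin n → F)) =
        Multiset.replicate a (X - C 1) + (Multiset.replicate b (X - C (-1)) + m) ∧
        ((-1 : F) = 1 → b = 0) ∧ ∀ d ∈ m, d ≠ X - C 1 ∧ d ≠ X - C (-1) := by
      refine ⟨_, _, _, by rw [← Multiset.filter_eq', ← Multiset.filter_eq',
        Multiset.filter_add_not, Multiset.filter_add_not], fun h => ?_, fun d hd => ?_⟩
      · simp [h]
      · simp only [Multiset.mem_filter] at hd
        exact ⟨hd.1.2, hd.2⟩
    have h9 : ∀ d ∈ m, d ∈ edivs (u : Module.End F (Fin n ⊕ Fin n → F)) := fun d hd => by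
      simp [hm, hd]
    obtain ⟨f, g, hf', hg⟩ := exists_model (k := Kind.symp F) (V := Fin (m.map natDegree).sum → F)
      (fun d hd => h6 d (h9 d hd)) (fun d hd => h7 d (h9 d hd))
      (map_dual_of_add (map_dual_of_add (hm ▸ h3) (map_dual_replicate _ _ (by simp)))
        (map_dual_replicate _ _ (by simp)))
      (Or.inr fun d hd => isCoprime_of_irreducible (hu d (h9 d hd)) (h6 d (h9 d hd)).monic
        (h8 d hd).1 (by simpa using (h8 d hd).2)) (by simp)
    have k1 := coeff_zero_charpoly (g.1 : Module.End F (Fin (m.map natDegree).sum → F))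
    obtain ⟨c, hc⟩ := hf'.symp_even
    rw [← coe_detHom, hf'.symp_detHom, Even.neg_one_pow ⟨c, hc⟩, charpoly_eq_prod, hg] at k1
    rw [hm, finrank_plus] at h4
    simp only [Multiset.map_add, Multiset.sum_add, Multiset.map_replicate, natDegree_X_sub_C,
      Multiset.sum_replicate, smul_eq_mul, mul_one, Module.finrank_fin_fun] at h4 hc
    obtain ⟨b, rfl⟩ : Even b := by
      by_cases h : (-1 : F) = 1
      · simp [hb h]
      · rw [hχ, hm] at h5
        obtain ⟨a, rfl⟩ : Even a := (neg_one_pow_eq_one_iff_even h).1 (by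
          rw [coeff_zero_eq_eval_zero] at k1 h2
          simpa [h5, k1] using h2)
        exact ⟨n - a - c, by omega⟩
    obtain ⟨g', hg'⟩ := (sympStd_nondeg F (b + c)).symp_exists_ext hf' g (j := b + b) (a := -1)
      (by rw [finrank_plus, Module.finrank_fin_fun]; omega) (by simp)
    obtain ⟨g'', hg''⟩ := hf.symp_exists_ext (sympStd_nondeg F (b + c)) g' (j := a) (a := 1)
      (by rw [finrank_plus, finrank_plus]; omega) (by simp)
    have k2 := sim_iff_edivs.2 (hm.trans (by rw [hg'', hg', hg] :
      _ = edivs (g''.1 : Module.End F (Fin n ⊕ Fin n → F))))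
    exact ⟨g'', k2.isSS hu, k2.charpoly_eq.symm.trans hχ⟩
  · rintro ⟨g, -, rfl⟩
    have h1 := hf.dual_charpoly g
    have h2 := coeff_zero_charpoly (g.1 : Module.End F (Fin n ⊕ Fin n → F))
    have h3 := LinearMap.charpoly_natDegree (g.1 : Module.End F (Fin n ⊕ Fin n → F))
    have h4 := LinearMap.charpoly_monic (g.1 : Module.End F (Fin n ⊕ Fin n → F))
    rw [← coe_detHom, hf.symp_detHom, Units.val_one, mul_one] at h2
    rw [finrank_plus] at h2 h3
    rw [Even.neg_one_pow (even_two_mul n)] at h2
    rw [dual_eq_iff_coeff (by simp [h2]), h3, h2] at h1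
    exact ⟨h3.le, h3 ▸ h4, by simpa using h1⟩

end Cfsg.Agent.S2385
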