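import Cfsg.Statements.S2386
import Cfsg.Agent.Lib.Lin.CFormConj2

set_option autoImplicit false
open Cfsg

namespace Cfsg.Agent.S2386

open CA.CForm CA.CForm.Form CA.Rcf Polynomial in
/-- In the special unitary group `SU_n(q)` (matrices of determinant one over the field with `q²` elements preserving the standard Hermitian form), `q` a power of the prime `p`, the number of conjugacy classes of elements of order prime to `p` is `q^(n-1)`. -/
theorem result {F : Type*} [Field F] [Fintype F] {q : ℕ} (hF : Fintype.card F = q ^ 2) (p : ℕ) [Fact p.Prime] [CharP F p] (n : ℕ) (hn : 1 ≤ n) :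
    Nat.card {c : ConjClasses ↥(Cfsg.SU n F q) // ∃ g : ↥(Cfsg.SU n F q), ConjClasses.mk g = c ∧ (orderOf g).Coprime p} = q ^ (n - 1) := by
  have hf := hermStd_nondeg hF n
  have h0 : ((-1 : F) ^ n) * (-1) ^ n = 1 := by rw [← mul_pow]; simp
  rw [card_conjClasses_congr (suEquiv hF n) _ (fun g => (orderOf g).Coprime p)
    fun g => by rw [MulEquiv.orderOf_eq],
    card_ss_classes p ((hermStd hF n).Isom.subtype.comp (hermStd hF n).SIsom.subtype)
    (Subtype.val_injective.comp Subtype.val_injective) (fun g h hg _ => hf.herm_ss_isConj_SIsom hg)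
    (fun χ => χ.natDegree ≤ n ∧ (fun c : Fin (n + 1) → F => c (Fin.last n) = 1 ∧
      ∀ i, (-1) ^ n * conj hF (c i.rev) = c i) fun i => χ.coeff i) fun χ => ⟨fun h => ?_, ?_⟩,
    card_poly_coeff n fun c => c (Fin.last n) = 1 ∧ ∀ i, (-1) ^ n * conj hF (c i.rev) = c i]
  · let J : (Fin (n + 1) → F) →+ (Fin (n + 1) → F) := AddMonoidHom.mk'
      (fun c i => (-1) ^ n * conj hF (c i.rev)) fun _ _ => funext fun i => by simp [mul_add]
    have h1 := card_eq_card_fix_sq (conj_ne_id hF) (conj_conj hF) J
      (fun v => funext fun i => by simp [J, conj_conj, ← mul_assoc, h0])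
      fun a v => funext fun i => by simp [J, mul_left_comm]
    let φ : (J - AddMonoidHom.id _).ker →+ F :=
      (Pi.evalAddMonoidHom (fun _ => F) (Fin.last n)).comp (AddSubgroup.subtype _)
    have h2 : Function.Surjective φ := fun a =>
      ⟨⟨Pi.single (Fin.last n) a + J (Pi.single (Fin.last n) a), sub_eq_zero.2 (funext fun i => by
        simp [J, conj_conj, ← mul_assoc, h0, mul_add, add_comm])⟩, by
          simp [φ, J, Pi.single_eq_of_ne (show (0 : Fin (n + 1)) ≠ Fin.last n from
            Fin.ne_of_val_ne (by simp; omega))]⟩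
    have h3 := φ.ker.card_mul_index
    rw [AddSubgroup.index_ker, AddMonoidHom.range_eq_top.2 h2, AddSubgroup.card_top,
      ← Nat.card_congr (AddMonoidHom.fiberEquivKerOfSurjective h2 1)] at h3
    rw [← Nat.card_congr (Equiv.subtypeEquivRight fun v => (sub_eq_zero : _ ↔ J v = v)),
      show Nat.card {v // J v - v = 0} = _ from h3.symm, Nat.card_fun, Nat.card_fin,
      Nat.card_eq_fintype_card (α := F), hF, ← pow_mul, mul_comm 2, pow_mul,
      Nat.pow_left_inj two_ne_zero, show q ^ (n + 1) = q ^ (n - 1) * q ^ 2 by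
        rw [← pow_add]; congr 1; omega,
      mul_left_inj' (by have := two_le_of_card_sq hF; positivity)] at h1
    rw [h1]
    exact Nat.card_congr ⟨fun c => ⟨⟨c.1, sub_eq_zero.2 (funext c.2.2)⟩, c.2.1⟩,
      fun c => ⟨c.1.1, c.2, congrFun (sub_eq_zero.1 c.1.2)⟩, fun _ => rfl, fun _ => rfl⟩
  · have h1 : χ.natDegree = n := le_antisymm h.1 (le_natDegree_of_ne_zero (by
      rw [show χ.coeff n = 1 from h.2.1]; exact one_ne_zero))
    have h2 : χ.coeff 0 = (-1) ^ n := by simpa [show χ.coeff n = 1 from h.2.1] using (h.2.2 0).symm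
    obtain ⟨u, hu, hχ⟩ := exists_ss_equiv (V := Fin n → F) (χ := χ)
      (by rw [Monic, leadingCoeff, h1]; exact h.2.1) (by simpa using h1)
      (by simp [h2])
    obtain ⟨g, hg⟩ := hf.herm_exists_conj (conj_ne_id hF) (hu.map_dual (conj_conj hF) (by
      subst h1
      rw [hχ, dual_eq_iff_coeff (by simp [h2])]
      intro i
      rw [h2, ← show _ = χ.coeff i from h.2.2 i, ← mul_assoc]
      simp [h0]))
    have h3 := isConj_iff_sim.1 hg
    refine ⟨⟨g, Units.ext ?_⟩, h3.isSS hu, h3.charpoly_eq.symm.trans hχ⟩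
    have := coeff_zero_charpoly (u : Module.End F (Fin n → F))
    rw [coe_detHom, ← h3.det_eq]
    simpa [hχ, h2] using this.symm
  · rintro ⟨g, -, rfl⟩
    have h1 := hf.dual_charpoly g.1
    have h2 := coeff_zero_charpoly (g.1.1 : Module.End F (Fin n → F))
    have h3 := LinearMap.charpoly_natDegree (g.1.1 : Module.End F (Fin n → F))
    have h4 := LinearMap.charpoly_monic (g.1.1 : Module.End F (Fin n → F))
    rw [← coe_detHom, show (hermStd hF n).detHom g.1 = 1 from g.2, Units.val_one, mul_one] at h2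
    rw [Module.finrank_fin_fun] at h2 h3
    change natDegree (LinearMap.charpoly (g.1.1 : Module.End F (Fin n → F))) ≤ n ∧ coeff (LinearMap.charpoly (g.1.1 : Module.End F (Fin n → F))) n = 1 ∧
      ∀ i : Fin (n + 1), _ * conj hF (coeff (LinearMap.charpoly (g.1.1 : Module.End F (Fin n → F))) _) =
        coeff (LinearMap.charpoly (g.1.1 : Module.End F (Fin n → F))) _
    generalize LinearMap.charpoly (g.1.1 : Module.End F (Fin n → F)) = χ at *
    subst h3
    refine ⟨le_rfl, h4, fun i => ?_⟩
    rw [show conj hF _ = _ from (dual_eq_iff_coeff (by simp [h2])).1 h1 i, h2, ← mul_assoc]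
    simp [h0]

end Cfsg.Agent.S2386
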