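import Cfsg.Statements.S2439
import Cfsg.Agent.Lib.Lin.SL2Char
import Cfsg.Agent.Lib.Block.BlkZero

set_option autoImplicit false
open Cfsg

namespace Cfsg.Agent.S2439

open CA.SL2Char CA.SL2Torus CA.SL2Unip CA.SL2Basic CA.BlkCore CA.BlkVal CA.BlkHeight CA.BlkZero
  CA.BlkDefect CChar.CharFun CChar.CharKer CA.Mat2
open scoped MatrixGroups

theorem not_dvd_deg {F : Type*} [Field F] [Fintype F] [DecidableEq F] (p : ℕ) [Fact p.Prime]
    [CharP F p] (χ : IrrCharacter SL(2, F)) (h : χ.1 1 ≠ Fintype.card F) :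
    ∃ n : ℕ, χ.1 1 = n ∧ ¬ p ∣ n := by
  obtain ⟨g0, hg0⟩ := exists_aniso_SL F
  obtain ⟨n, -, hn⟩ := irr_apply_one χ.2
  refine ⟨n, hn, fun hd => ?_⟩
  have a1 := not_dvd_add_one (F := F) p
  have a2 := not_dvd_sub_one (F := F) p
  rw [Nat.card_eq_fintype_card] at a1 a2
  rcases irr_deg hg0 χ.2 hn with h1 | h1 | h1 | h1 | h1 | h1
  · rw [h1.1] at hd; exact (Fact.out : p.Prime).one_lt.ne' (Nat.dvd_one.1 hd)
  · exact h (by rw [hn, h1.1])
  · exact a1 (h1.1 ▸ hd)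
  · exact a2 (by rw [← h1.1]; simpa using hd)
  · exact a1 (h1.1 ▸ hd.mul_left 2)
  · exact a2 (by rw [← h1.1]; simpa using hd.mul_left 2)

theorem sign {F : Type*} [Field F] [Fintype F] (χ : IrrCharacter SL(2, F)) :
    ∃ w : ℂ, (w = 1 ∨ w = -1) ∧ ∀ g, χ.1 (-g) = w * χ.1 g := by
  have hz : (-1 : SL(2, F)) ∈ Subgroup.center SL(2, F) := (CA.SL2Basic.mem_center_iff _).2 (Or.inr rfl)
  obtain ⟨l, hl⟩ := exists_central_unitsHom χ.2 (le_refl _)
  refine ⟨l ⟨-1, hz⟩, ?_, fun g => by simpa using hl ⟨-1, hz⟩ g⟩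
  have : l ⟨-1, hz⟩ ^ 2 = 1 := by
    rw [← map_pow, ← map_one l]; congr 1; exact Subtype.ext (by simp)
  rcases CA.Ch2Gen.units_sq_one this with e | e <;> simp [e]

theorem res_cc {F : Type*} [Field F] [Fintype F] [DecidableEq F] (p : ℕ) [Fact p.Prime]
    [CharP F p] {M : Ideal AlgInt} (hM : IsPModular p M) (χ : IrrCharacter SL(2, F))
    (h : χ.1 1 ≠ Fintype.card F) {w : ℂ} (hw' : w = 1 ∨ w = -1) (hw : ∀ g, χ.1 (-g) = w * χ.1 g)
    (g : SL(2, F)) :
    (SS g → res M (centralChar χ.1 g) = 0) ∧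
    (g.1.trace = 2 → res M (centralChar χ.1 g) = res M ((C g).index : ℂ)) ∧
    (g.1.trace = -2 → res M (centralChar χ.1 g) = res M ((C g).index * w : ℂ)) := by
  obtain ⟨n, hn, hd⟩ := not_dvd_deg p χ h
  have v1 : v M (χ.1 1) = 1 := by rw [hn, v_natCast_eq_one_iff hM]; exact hd
  have r1 : res M (χ.1 1) ≠ 0 := (res_ne_zero_iff (by rw [hn]; exact natCast_mem_O n)).2 v1
  have hO : ∀ g, χ.1 g ∈ O M := fun g => isIntegral_mem (char_isIntegral (char_of_irr χ.2) g)
  have hp : ∀ g : SL(2, F), g.1.trace = 2 → res M (χ.1 g) = res M (χ.1 1) := by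
    intro g hg
    refine res_char_pElt hM (char_of_irr χ.2) ?_
    by_cases h1 : g = 1
    · exact ⟨0, by simp [h1]⟩
    · exact ⟨1, by rw [orderOf_of_trace p hg h1, pow_one]⟩
  have wO : w ∈ O M := by
    rcases hw' with rfl | rfl
    · exact one_mem _
    · exact neg_mem (one_mem _)
  refine ⟨fun hs => ?_, fun ht => ?_, fun ht => ?_⟩
  · rw [centralChar, res_div (mul_mem (natCast_mem_O _) (hO g)) v1, res_mul (natCast_mem_O _) (hO g),
      res_eq_zero_of_lt ((v_natCast_lt_one_iff hM _).2 ?_), zero_mul, zero_div]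
    have h1 : p ∣ Nat.card (C g) * (C g).index := by
      rw [Subgroup.card_mul_index, ← (U F).card_mul_index, card_U, Nat.card_eq_fintype_card]
      exact ((CharP.cast_eq_zero_iff F p _).1 (FiniteField.cast_card_eq_zero F)).mul_right _
    exact ((Nat.Prime.dvd_mul Fact.out).1 h1).resolve_left
      fun e => cast_card_C_ne hs ((CharP.cast_eq_zero_iff F p _).2 e)
  · rw [centralChar, res_div (mul_mem (natCast_mem_O _) (hO g)) v1, res_mul (natCast_mem_O _) (hO g),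
      hp g ht, mul_div_cancel_right₀ _ r1]
  · have := hw (-g)
    rw [neg_neg] at this
    rw [centralChar, this, ← mul_assoc, res_div (mul_mem (mul_mem (natCast_mem_O _) wO) (hO _)) v1,
      res_mul (mul_mem (natCast_mem_O _) wO) (hO _), hp (-g) (by rw [trace_neg', ht, neg_neg]),
      mul_div_cancel_right₀ _ r1]

theorem same {F : Type*} [Field F] [Fintype F] [DecidableEq F] (p : ℕ) [Fact p.Prime]
    [CharP F p] {M : Ideal AlgInt} (hM : IsPModular p M) (χ ψ : IrrCharacter SL(2, F))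
    (h : χ.1 1 ≠ Fintype.card F) (h' : ψ.1 1 ≠ Fintype.card F) {w : ℂ} (hw' : w = 1 ∨ w = -1)
    (hw : ∀ g, χ.1 (-g) = w * χ.1 g) (hw2 : ∀ g, ψ.1 (-g) = w * ψ.1 g) :
    SameBlock M χ.1 ψ.1 := by
  rw [sameBlock_iff_res hM]
  intro g
  have a := res_cc p hM χ h hw' hw g
  have b := res_cc p hM ψ h' hw' hw2 g
  by_cases hs : SS g
  · rw [a.1 hs, b.1 hs]
  · rcases (not_SS_iff g).1 hs with e | e
    · rw [a.2.1 e, b.2.1 e]
    · rw [a.2.2 e, b.2.2 e]

theorem sylow_defect {G : Type*} [Group G] [Finite G] {p : ℕ} [Fact p.Prime] {M : Ideal AlgInt}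
    (hM : IsPModular p M) {B : Set (IrrCharacter G)} (hB : IsPBlock M B) {χ : IrrCharacter G}
    (hχ : χ ∈ B) {n : ℕ} (hn : χ.1 1 = n) (hd : ¬ p ∣ n) (P : Sylow p G) :
    IsDefectGroup p M B P := by
  obtain ⟨D, hD⟩ := exists_isDefectGroup hM hB
  have h0 : minNu p B = 0 := by
    have := minNu_le (p := p) hχ
    rw [CChar.CharInt.charDegree_eq hn, Nat.factorization_eq_zero_of_not_dvd hd] at this
    omega
  have hc := card_defectGroup hM hB hD
  rw [blockDefect_eq, h0, Nat.sub_zero] at hc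
  obtain ⟨x, hx⟩ := MulAction.exists_smul_eq G (Sylow.ofCard D hc) P
  have := isDefectGroup_conj hD x
  rw [← hx]
  exact this

/-- Let F be a finite field with q elements of odd characteristic p, and M a maximal ideal of the algebraic integers containing p. Then SL₂ over F has exactly three p-blocks relative to M: the irreducible character of degree q (the Steinberg character) alone; the other irreducible characters taking the same value at −1 as at 1 (the principal block); and the irreducible characters χ with χ(−1) = −χ(1). Every Sylow p-subgroup is a defect group of each of the last two blocks. -/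
theorem result {F : Type*} [Field F] [Fintype F] (p : ℕ) [Fact p.Prime] [CharP F p] (hp : p ≠ 2)
    (M : Ideal Cfsg.AlgInt) (hM : Cfsg.IsPModular p M) :
    (∀ B : Set (Cfsg.IrrCharacter (Matrix.SpecialLinearGroup (Fin 2) F)), Cfsg.IsPBlock M B ↔
      (B = {χ : Cfsg.IrrCharacter (Matrix.SpecialLinearGroup (Fin 2) F) | (χ : Matrix.SpecialLinearGroup (Fin 2) F → ℂ) 1 = (Fintype.card F : ℂ)} ∨
       B = {χ : Cfsg.IrrCharacter (Matrix.SpecialLinearGroup (Fin 2) F) | (χ : Matrix.SpecialLinearGroup (Fin 2) F → ℂ) (-1) = (χ : Matrix.SpecialLinearGroup (Fin 2) F → ℂ) 1 ∧ (χ : Matrix.SpecialLinearGroup (Fin 2) F → ℂ) 1 ≠ (Fintype.card F : ℂ)} ∨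
       B = {χ : Cfsg.IrrCharacter (Matrix.SpecialLinearGroup (Fin 2) F) | (χ : Matrix.SpecialLinearGroup (Fin 2) F → ℂ) (-1) = -(χ : Matrix.SpecialLinearGroup (Fin 2) F → ℂ) 1})) ∧
    Nat.card {B : Set (Cfsg.IrrCharacter (Matrix.SpecialLinearGroup (Fin 2) F)) // Cfsg.IsPBlock M B} = 3 ∧
    ∀ P : Sylow p (Matrix.SpecialLinearGroup (Fin 2) F),
      Cfsg.IsDefectGroup p M {χ : Cfsg.IrrCharacter (Matrix.SpecialLinearGroup (Fin 2) F) | (χ : Matrix.SpecialLinearGroup (Fin 2) F → ℂ) (-1) = (χ : Matrix.SpecialLinearGroup (Fin 2) F → ℂ) 1 ∧ (χ : Matrix.SpecialLinearGroup (Fin 2) F → ℂ) 1 ≠ (Fintype.card F : ℂ)} (P : Subgroup (Matrix.SpecialLinearGroup (Fin 2) F)) ∧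
      Cfsg.IsDefectGroup p M {χ : Cfsg.IrrCharacter (Matrix.SpecialLinearGroup (Fin 2) F) | (χ : Matrix.SpecialLinearGroup (Fin 2) F → ℂ) (-1) = -(χ : Matrix.SpecialLinearGroup (Fin 2) F → ℂ) 1} (P : Subgroup (Matrix.SpecialLinearGroup (Fin 2) F)) := by
  classical
  have h2 : (2 : F) ≠ 0 := two_ne_zero_of_char p hp
  let S : IrrCharacter SL(2, F) := ⟨St F, irr_St⟩
  have dz : DZ p S := by
    rw [dz_iff_pow_dvd Fact.out, CChar.CharInt.charDegree_eq St_one, ← Nat.card_eq_fintype_card,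
      ← card_U (F := F), ← sylowU_coe (F := F) p, Sylow.card_eq_multiplicity]
  have bS := (blockOf_eq_singleton_iff hM).2 dz
  have B1 : {χ : IrrCharacter SL(2, F) | χ.1 1 = (Fintype.card F : ℂ)} = {S} := by
    ext χ
    exact ⟨fun h => Subtype.ext (eq_St χ.2 h), by rintro rfl; exact St_one⟩
  have Sneg : S.1 (-1) = S.1 1 := by
    change St F _ = St F _
    rw [← tr_neg_one_zero, St_central (by simp), St_one]
  have cc : ∀ (χ : IrrCharacter SL(2, F)) (w : ℂ), χ.1 (-1) = w * χ.1 1 →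
      centralChar χ.1 (-1) = w := by
    intro χ w h
    have : Subgroup.centralizer ({-1} : Set SL(2, F)) = ⊤ := by
      rw [eq_top_iff]; intro x _; rw [Subgroup.mem_centralizer_singleton_iff]; simp
    rw [centralChar, this, h, Subgroup.index_top, Nat.cast_one, one_mul,
      mul_div_cancel_right₀ _ (irr_apply_one_ne_zero χ.2)]
  have diff : ∀ χ ψ : IrrCharacter SL(2, F), χ.1 (-1) = χ.1 1 → ψ.1 (-1) = -ψ.1 1 →
      ¬ SameBlock M χ.1 ψ.1 := by
    intro χ ψ h1 h3 h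
    have := (sameBlock_iff_res hM χ ψ).1 h (-1)
    rw [cc χ 1 (by rw [h1, one_mul]), cc ψ (-1) (by rw [h3, neg_one_mul]),
      res_eq_res_iff (one_mem _) (neg_mem (one_mem _))] at this
    have h4 : (1 : ℂ) - -1 = (2 : ℕ) := by norm_num
    rw [h4, v_natCast_lt_one_iff hM] at this
    exact hp ((Nat.prime_dvd_prime_iff_eq Fact.out Nat.prime_two).1 this)
  have nb : ∀ χ : IrrCharacter SL(2, F), χ.1 (-1) = χ.1 1 → χ.1 (-1) = -χ.1 1 → False := by
    intro χ a b
    exact irr_apply_one_ne_zero χ.2 (by linear_combination (1 / 2) * b - (1 / 2) * a)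
  have nq : ∀ χ : IrrCharacter SL(2, F), χ.1 (-1) = -χ.1 1 → χ.1 1 ≠ Fintype.card F := by
    intro χ a b
    obtain rfl : χ = S := Subtype.ext (eq_St χ.2 b)
    exact nb _ Sneg a
  have s1 : ∀ χ : IrrCharacter SL(2, F), χ.1 (-1) = χ.1 1 → ∀ g, χ.1 (-g) = 1 * χ.1 g := by
    intro χ a
    obtain ⟨w, rfl | rfl, hw⟩ := sign χ
    · exact hw
    · exact (nb χ a (by simpa using hw 1)).elim
  have s2 : ∀ χ : IrrCharacter SL(2, F), χ.1 (-1) = -χ.1 1 → ∀ g, χ.1 (-g) = -1 * χ.1 g := by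
    intro χ a
    obtain ⟨w, rfl | rfl, hw⟩ := sign χ
    · exact (nb χ (by simpa using hw 1) a).elim
    · exact hw
  have s3 : ∀ χ : IrrCharacter SL(2, F), χ.1 (-1) = χ.1 1 ∨ χ.1 (-1) = -χ.1 1 := by
    intro χ
    obtain ⟨w, rfl | rfl, hw⟩ := sign χ
    · exact Or.inl (by simpa using hw 1)
    · exact Or.inr (by simpa using hw 1)
  have B2 : ∀ χ : IrrCharacter SL(2, F), χ.1 (-1) = χ.1 1 → χ.1 1 ≠ Fintype.card F →
      blockOf M χ.1 = {χ : IrrCharacter SL(2, F) | χ.1 (-1) = χ.1 1 ∧ χ.1 1 ≠ Fintype.card F} := by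
    intro χ a b
    ext ψ
    refine ⟨fun h => ⟨(s3 ψ).resolve_right fun e => diff χ ψ a e h, fun e => ?_⟩,
      fun h => same p hM χ ψ b h.2 (Or.inl rfl) (s1 χ a) (s1 ψ h.1)⟩
    obtain rfl : ψ = S := Subtype.ext (eq_St ψ.2 e)
    have : χ ∈ blockOf M S.1 := sameBlock_symm hM h
    rw [bS] at this
    obtain rfl : χ = S := this
    exact b St_one
  have B3 : ∀ χ : IrrCharacter SL(2, F), χ.1 (-1) = -χ.1 1 →
      blockOf M χ.1 = {χ : IrrCharacter SL(2, F) | χ.1 (-1) = -χ.1 1} := by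
    intro χ a
    ext ψ
    exact ⟨fun h => (s3 ψ).resolve_left fun e => diff ψ χ e a (sameBlock_symm hM h),
      fun h => same p hM χ ψ (nq χ a) (nq ψ h) (Or.inr rfl) (s2 χ a) (s2 ψ h)⟩
  let O : IrrCharacter SL(2, F) := ⟨1, irr_one'⟩
  have O1 : O.1 (-1) = O.1 1 := rfl
  have O2 : O.1 1 ≠ Fintype.card F := by
    have := Fintype.one_lt_card (α := F)
    change (1 : ℂ) ≠ _
    exact_mod_cast this.ne
  obtain ⟨N, hN⟩ : ∃ N : IrrCharacter SL(2, F), N.1 (-1) = -N.1 1 := by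
    by_contra hc
    push Not at hc
    exact neg_one_ne_one h2 (eq_one_of_forall_irr fun χ hχ => (s3 ⟨χ, hχ⟩).resolve_right (hc _))
  have main : ∀ B : Set (IrrCharacter SL(2, F)), IsPBlock M B ↔
      (B = {χ : IrrCharacter SL(2, F) | χ.1 1 = (Fintype.card F : ℂ)} ∨
       B = {χ : IrrCharacter SL(2, F) | χ.1 (-1) = χ.1 1 ∧ χ.1 1 ≠ Fintype.card F} ∨
       B = {χ : IrrCharacter SL(2, F) | χ.1 (-1) = -χ.1 1}) := by
    intro B
    constructor
    · rintro ⟨χ, rfl⟩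
      by_cases h : χ.1 1 = Fintype.card F
      · obtain rfl : χ = S := Subtype.ext (eq_St χ.2 h)
        exact Or.inl (bS.trans B1.symm)
      · exact Or.inr ((s3 χ).imp (fun a => B2 χ a h) (B3 χ))
    · rintro (rfl | rfl | rfl)
      · exact ⟨S, B1.trans bS.symm⟩
      · exact ⟨O, (B2 O O1 O2).symm⟩
      · exact ⟨N, (B3 N hN).symm⟩
  refine ⟨main, ?_, fun P => ⟨?_, ?_⟩⟩
  · simp only [main]
    have e : ∀ {X : Type _} (a b c : X), a ≠ b → a ≠ c → b ≠ c →
        Nat.card {x // x = a ∨ x = b ∨ x = c} = 3 := by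
      intro X a b c h1 h3 h4
      have := Set.ncard_eq_three.2 ⟨a, b, c, h1, h3, h4, rfl⟩
      exact this
    refine e _ _ _ (fun h => ?_) (fun h => ?_) (fun h => ?_)
    · exact ((Set.ext_iff.1 h S).1 St_one).2 St_one
    · exact nb S Sneg ((Set.ext_iff.1 h S).1 St_one)
    · exact nb O O1 ((Set.ext_iff.1 h O).1 ⟨O1, O2⟩)
  · obtain ⟨n, hn, hd⟩ := not_dvd_deg p O O2
    exact sylow_defect hM ((main _).2 (Or.inr (Or.inl rfl))) (χ := O) ⟨O1, O2⟩ hn hd P
  · obtain ⟨n, hn, hd⟩ := not_dvd_deg p N (nq N hN)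
    exact sylow_defect hM ((main _).2 (Or.inr (Or.inr rfl))) (χ := N) hN hn hd P

end Cfsg.Agent.S2439
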