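import Cfsg.Statements.S4538
import Cfsg.Agent.Lib.Lie.H12Dual
import Cfsg.Agent.Lib.Lie.H22ModA
import Cfsg.Agent.S2439

set_option autoImplicit false
open Cfsg

namespace Cfsg.Agent.S4538

open CA.Chev CA.H12Dual CA.BlkZero CA.BlkHeight CA.SL2Char CA.SL2Unip
open scoped MatrixGroups

theorem aux {F : Type*} [Field F] [Fintype F] (n : ℕ) (hn : 2 ≤ n) (p : ℕ) [Fact p.Prime] [CharP F p] {M : Ideal AlgInt}
    (hM : IsPModular p M) : (∃! χ : IrrCharacter SL(n, F), DZ p χ) ∧
    (∀ B : Set (IrrCharacter SL(n, F)), IsPBlock M B →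
      blockDefect p B = 0 ∨ blockDefect p B = (Nat.card SL(n, F)).factorization p) ∧
    Nat.card {B : Set (IrrCharacter SL(n, F)) // IsPBlock M B} = Nat.card (Subgroup.center SL(n, F)) + 1 := by
  classical
  obtain rfl | hn := hn.eq_or_lt
  · have dz : DZ p (⟨St F, irr_St⟩ : IrrCharacter SL(2, F)) := by
      rw [dz_iff_pow_dvd Fact.out, CChar.CharInt.charDegree_eq St_one, ← Nat.card_eq_fintype_card,
        ← card_U (F := F), ← sylowU_coe (F := F) p, Sylow.card_eq_multiplicity]
    have hU : U F ≠ ⊥ := fun e => one_ne_zero (u_eq_one_iff.1 (Subgroup.mem_bot.1 (e.le (u_mem_U (1 : F)))))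
    have h1 : ∃! χ : IrrCharacter SL(2, F), DZ p χ := ⟨_, dz, fun χ (h : DZ p χ) => Subtype.ext (eq_St χ.2 (by_contra fun e => by
      obtain ⟨d, h1, h2⟩ := S2439.not_dvd_deg p χ e
      rw [dz_iff_pow_dvd Fact.out, CChar.CharInt.charDegree_eq h1, ← (sylowU F p).card_eq_multiplicity, sylowU_coe] at h
      exact h2 (((isPGroup_U p).card_eq_or_dvd.resolve_left (by rwa [Subgroup.card_eq_one])).trans h)))⟩
    have h2 : ∀ B : Set (IrrCharacter SL(2, F)), IsPBlock M B →
        blockDefect p B = 0 ∨ blockDefect p B = (Nat.card SL(2, F)).factorization p := fun B hB => by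
      have hχ := CA.BlkRob.rep_mem hM hB
      by_cases e : (CA.BlkRob.rep B).1 1 = Fintype.card F
      · exact Or.inl ((blockDefect_eq_zero_iff_dz hM hB hχ).2 (by rwa [show CA.BlkRob.rep B = ⟨St F, irr_St⟩ from
          Subtype.ext (eq_St (CA.BlkRob.rep B).2 e)]))
      · obtain ⟨d, h1, h2⟩ := S2439.not_dvd_deg p _ e
        rw [← factorization_card_defectGroup hM hB (S2439.sylow_defect hM hB hχ h1 h2 (sylowU F p)),
          Sylow.card_eq_multiplicity, Nat.factorization_pow_self Fact.out]
        exact Or.inr rfl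
    refine ⟨h1, h2, card_blocks hM (CA.SylIn.isSylowIn_top (sylowU F p)) hU ?_ (fun c hc hc' => ?_) h1 h2⟩
    · rw [CA.SL2Basic.card_center]
      exact fun e => not_dvd_sub_one p (e.trans (Nat.gcd_dvd_right _ _))
    · have key : ∀ x ∈ U F, ¬ p ∣ orderOf x → x = 1 := fun x hx h => by
        obtain ⟨k, hk⟩ := IsPGroup.iff_orderOf.1 (isPGroup_U (F := F) p) ⟨x, hx⟩
        rw [Subgroup.orderOf_mk] at hk
        rcases k with _ | k
        · exact orderOf_eq_one_iff.1 hk
        · exact (h (hk ▸ dvd_pow_self p k.succ_ne_zero)).elim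
      rw [CA.SL2Basic.mem_center_iff]
      refine ((mem_C_u one_ne_zero).1 (Subgroup.mem_centralizer_singleton_iff.2 (hc _ (u_mem_U 1)).symm)).imp
        (key c · hc') fun h => ?_
      have : c * c = 1 := key _ (by simpa using mul_mem h h) fun e => hc' (e.trans (by rw [← sq]; exact orderOf_pow_dvd 2))
      by_cases h2 : (2 : F) = 0
      · rw [neg_eq_self_of_two h2] at h ⊢
        exact key c h hc'
      · refine neg_eq_iff_eq_neg.1 (key _ h fun e => ?_)
        have h3 : orderOf (-c) ∣ 2 := orderOf_dvd_of_pow_eq_one (by rw [sq, neg_mul_neg, this])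
        exact h2 (by exact_mod_cast (CharP.cast_eq_zero_iff F p 2).2 (e.trans h3))
  · obtain ⟨l, rfl⟩ : ∃ l, n = l + 1 := ⟨n - 1, by omega⟩
    obtain ⟨e, -⟩ := exists_slA (l := l) (hl := by omega) (K := F)
    have hG := congr_G _ e stC_G
    exact ⟨existsUnique_dz _ hG, fun _ => defect_eq _ hG hM, card_blocks_eq _ hG hM⟩

/-- Let F be a finite field of characteristic p and n ≥ 2. Relative to a maximal ideal M of the algebraic integers containing p, the group SL(n, F) has exactly one p-block of defect zero, and every other p-block has full defect (its defect equals the exponent of p in the order of the group, so its defect groups are Sylow p-subgroups). -/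
theorem result {F : Type*} [Field F] [Fintype F] (n : ℕ) (hn : 2 ≤ n) (p : ℕ) [Fact p.Prime] [CharP F p] (M : Ideal Cfsg.AlgInt) (hM : Cfsg.IsPModular p M) : Nat.card {B : Set (Cfsg.IrrCharacter (Matrix.SpecialLinearGroup (Fin n) F)) // Cfsg.IsPBlock M B ∧ Cfsg.blockDefect p B = 0} = 1 ∧ ∀ B : Set (Cfsg.IrrCharacter (Matrix.SpecialLinearGroup (Fin n) F)), Cfsg.IsPBlock M B → Cfsg.blockDefect p B = 0 ∨ Cfsg.blockDefect p B = (Nat.card (Matrix.SpecialLinearGroup (Fin n) F)).factorization p := by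
  obtain ⟨h1, h2, -⟩ := aux (F := F) n hn p hM
  exact ⟨card_zero hM h1, h2⟩

end Cfsg.Agent.S4538
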