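import Cfsg.Statements.S2444
import Cfsg.Agent.Lib.Lin.Lev7
import Cfsg.Agent.Lib.Lin.FieldIso
import Cfsg.Agent.Lib.Lin.SLnGen

set_option autoImplicit false
open Cfsg

namespace Cfsg.Agent.S2444

open CA.Lev CA.Rcf Matrix Module Polynomial

section
variable {K : Type} [Field K]

theorem blocks2 (h2 : ∀ c : K, c ≠ 0 → c = 1) (n : ℕ) : ∀ {V : Type} [AddCommGroup V] [Module K V]
    [FiniteDimensional K V] {g : End K V}, finrank K V = n → 1 ≤ n → LinearMap.det g ≠ 0 →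
    US 1 g ∧ (US 2 g ∨ ∃ f, Sim g (toLin' (comp f n))) := by
  induction n using Nat.strong_induction_on with | _ n ih => ?_
  intro V _ _ _ g hn h1 hd
  obtain ⟨k, m, f, B, p1, p2, s, -⟩ := split g (by omega)
  rw [s.det_eq, det_prod] at hd
  have u := us_cyc (cycV_comp f k) (h2 _ (left_ne_zero_of_mul hd)) (by simpa)
  rcases Nat.eq_zero_or_pos m with rfl | hm
  · obtain rfl : k = n := by omega
    replace s := s.trans (sim_prod_zero _ _)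
    exact ⟨u.of_sim s.symm, .inr ⟨f, s⟩⟩
  · have := (u.prod (ih m (by omega) (by simp) hm (right_ne_zero_of_mul hd)).1).of_sim s.symm
    exact ⟨this.mono one_le_two, .inl this⟩

theorem extract (n : ℕ) : ∀ {V : Type} [AddCommGroup V] [Module K V] [FiniteDimensional K V] {g : End K V},
    finrank K V = n → LinearMap.det g ≠ 1 → ∃ (k m : ℕ) (f : K[X]) (B : End K (Fin m → K)), 1 ≤ k ∧
      k + m = n ∧ Sim g ((toLin' (comp f k)).prodMap B : End K (_ × _)) ∧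
      LinearMap.det (toLin' (comp f k)) ≠ 1 := by
  induction n using Nat.strong_induction_on with | _ n ih => ?_
  intro V _ _ _ g hn hd
  obtain ⟨k, m, f, B, p1, p2, s, -⟩ := split g (by
    by_contra! h
    exact hd (LinearMap.det_eq_one_of_finrank_eq_zero (by omega) g))
  by_cases h : LinearMap.det (toLin' (comp f k)) = 1
  swap; · exact ⟨k, m, f, B, p1, p2.trans hn, s, h⟩
  obtain ⟨k', m', f', B', q1, q2, s', q3⟩ := ih m (by omega) (g := B) (by simp)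
    (by rwa [s.det_eq, det_prod, h, one_mul] at hd)
  let E : ((Fin k → K) × (Fin m' → K)) ≃ₗ[K] (Fin (k + m') → K) := LinearEquiv.ofFinrankEq _ _ (by simp)
  refine ⟨k', k + m', f', E.conj ((toLin' (comp f k)).prodMap B'), q1, by omega,
    (s.trans ((Sim.refl _).prodMap s')).trans (Sim.trans ?_ ((Sim.refl _).prodMap (sim_conj E _))), q3⟩
  exact ⟨(LinearEquiv.prodAssoc K _ _ _).symm.trans (((LinearEquiv.prodComm K _ _).prodCongr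
    (LinearEquiv.refl K _)).trans (LinearEquiv.prodAssoc K _ _ _)), fun _ => rfl⟩

theorem comp1 (f : K[X]) : CA.Lev.comp f 1 = !![-f.coeff 0] := by ext i j; fin_cases i; fin_cases j; rfl

theorem comp3 (f : K[X]) : CA.Lev.comp f 3 = !![0, 0, -f.coeff 0; 1, 0, -f.coeff 1; 0, 1, -f.coeff 2] := by
  ext i j; fin_cases i <;> fin_cases j <;> rfl

theorem comp4 (f : K[X]) : CA.Lev.comp f 4 = !![0, 0, 0, -f.coeff 0; 1, 0, 0, -f.coeff 1; 0, 1, 0, -f.coeff 2;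
    0, 0, 1, -f.coeff 3] := by ext i j; fin_cases i <;> fin_cases j <;> rfl

theorem blk22 (a b c d : K) : Sim ((toLin' !![0, a; 1, b]).prodMap (toLin' !![0, c; 1, d]) : End K (_ × _))
    (toLin' !![0, a, 0, 0; 1, b, 0, 0; 0, 0, 0, c; 0, 0, 1, d]) := by
  convert sim_fromBlocks !![0, a; 1, b] !![0, c; 1, d]
  ext i j; fin_cases i <;> fin_cases j <;> rfl

theorem blk31 (a b c d : K) : Sim ((toLin' !![0, 0, a; 1, 0, b; 0, 1, c]).prodMap (toLin' !![d]) : End K (_ × _))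
    (toLin' !![0, 0, a, 0; 1, 0, b, 0; 0, 1, c, 0; 0, 0, 0, d]) := by
  convert sim_fromBlocks !![0, 0, a; 1, 0, b; 0, 1, c] !![d]
  ext i j; fin_cases i <;> fin_cases j <;> rfl

theorem sim_two {V : Type} [AddCommGroup V] [Module K V] [FiniteDimensional K V] {g : End K V}
    (hn : finrank K V = 2) (hd : LinearMap.det g = -1) (h : ∀ a b : K, a * b = -1 → a + b = 0)
    {c : K} (ht : LinearMap.trace K V g = c) (c0 : c ≠ 0) : Sim g (toLin' !![0, 1; 1, c]) := by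
  have tr : ∀ {M : Matrix (Fin 2) (Fin 2) K}, Sim g (toLin' M) → M.trace = c ∧ M.det = -1 := fun s => by
    obtain ⟨E, hE⟩ := s.eq_conj
    rw [← Matrix.trace_toLin'_eq, ← LinearMap.det_toLin', ← s.det_eq, hE, LinearMap.trace_conj']
    exact ⟨ht, hd⟩
  obtain ⟨a, b, s | ⟨-, s⟩⟩ := enum2 g hn
  · obtain ⟨h1, h2⟩ := tr s
    simp at h1 h2
    exact h1 ▸ h2 ▸ s
  · obtain ⟨h1, h2⟩ := tr s
    simp at h1 h2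
    exact absurd (h1.symm.trans (h a b h2)) c0

end

abbrev T (n p : ℕ) := Matrix (Fin n) (Fin n) (ZMod p) × Matrix (Fin n) (Fin n) (ZMod p) ×
  Matrix (Fin n) (Fin n) (ZMod p) × Matrix (Fin n) (Fin n) (ZMod p) × Matrix (Fin n) (Fin n) (ZMod p)

abbrev Ok {n p : ℕ} (L : List (T n p)) (a : Matrix (Fin n) (Fin n) (ZMod p)) : Prop :=
  ∀ t ∈ L, t.2.1 * t.2.2.1 = 1 ∧ t.2.2.2.1 * t.2.2.2.2 = 1 ∧
    t.1 * (t.2.2.2.1 * a * t.2.2.2.2) = t.2.1 * a * t.2.2.1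

theorem Ok.cd {n p : ℕ} [Fact p.Prime] {L : List (T n p)} {a M : Matrix (Fin n) (Fin n) (ZMod p)} (h : Ok L a)
    (hM : ∃ t ∈ L, t.1 = M) : ∃ b, CD (toLin' M) b ∧ Sim (toLin' a) b := by
  obtain ⟨t, ht, rfl⟩ := hM
  exact cd_matrix' (h t ht).1 (h t ht).2.1 (h t ht).2.2

theorem Ok.top {n p : ℕ} [Fact p.Prime] {L : List (T n p)} {a M : Matrix (Fin n) (Fin n) (ZMod p)} (h : Ok L a)
    (hM : ∃ t ∈ L, t.1 = M) (h1 : a.det = 1) (h2 : Flex (toLin' a)) : Top (toLin' M) := by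
  obtain ⟨b, h3, h4⟩ := h.cd hM
  exact ⟨b, h3, by rw [← h4.det_eq, LinearMap.det_toLin', h1], h2.of_sim h4⟩

def t23 : List (T 3 2) :=
  [(!![0, 0, 1; 1, 0, 0; 0, 1, 0], !![0, 0, 1; 1, 1, 0; 1, 0, 1], !![1, 0, 1; 1, 1, 1; 1, 0, 0], !![0, 1, 0; 1, 0, 1; 0, 1, 1], !![1, 1, 1; 1, 0, 0; 1, 0, 1]),
  (!![0, 0, 1; 1, 0, 0; 0, 1, 1], !![1, 1, 1; 1, 1, 0; 1, 0, 0], !![0, 0, 1; 0, 1, 1; 1, 1, 0], !![1, 0, 1; 0, 1, 1; 0, 0, 1], !![1, 0, 1; 0, 1, 1; 0, 0, 1]),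
  (!![0, 0, 1; 1, 0, 1; 0, 1, 0], !![0, 1, 1; 1, 1, 0; 0, 0, 1], !![1, 1, 1; 1, 0, 1; 0, 0, 1], !![0, 1, 0; 1, 1, 0; 1, 0, 1], !![1, 1, 0; 1, 0, 0; 1, 1, 1]),
  (!![0, 0, 1; 1, 0, 1; 0, 1, 1], !![0, 1, 0; 1, 1, 1; 1, 1, 0], !![1, 0, 1; 1, 0, 0; 0, 1, 1], !![1, 1, 0; 1, 0, 1; 1, 1, 1], !![1, 1, 1; 0, 1, 1; 1, 0, 1])]

def t24 : List (T 4 2) :=
  [(!![0, 0, 0, 1; 1, 0, 0, 0; 0, 1, 0, 0; 0, 0, 1, 0], !![1, 0, 1, 1; 1, 0, 1, 0; 0, 1, 0, 1; 1, 0, 0, 0], !![0, 0, 0, 1; 1, 1, 1, 0; 0, 1, 0, 1; 1, 1, 0, 0], !![1, 0, 0, 1; 1, 1, 0, 1; 1, 1, 0, 0; 1, 1, 1, 0], !![1, 1, 1, 0; 1, 1, 0, 0; 0, 0, 1, 1; 0, 1, 1, 0]),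
  (!![0, 0, 0, 1; 1, 0, 0, 0; 0, 1, 0, 0; 0, 0, 1, 1], !![1, 0, 1, 1; 0, 0, 0, 1; 0, 1, 0, 0; 0, 1, 1, 1], !![1, 0, 1, 1; 0, 0, 1, 0; 0, 1, 1, 1; 0, 1, 0, 0], !![0, 1, 1, 0; 0, 1, 0, 1; 1, 1, 1, 0; 0, 0, 1, 0], !![1, 0, 1, 0; 1, 0, 0, 1; 0, 0, 0, 1; 1, 1, 0, 1]),
  (!![0, 0, 0, 1; 1, 0, 0, 0; 0, 1, 0, 1; 0, 0, 1, 0], !![1, 1, 1, 0; 0, 0, 0, 1; 1, 0, 0, 1; 0, 0, 1, 0], !![0, 1, 1, 0; 1, 1, 1, 1; 0, 0, 0, 1; 0, 1, 0, 0], !![1, 1, 1, 0; 1, 1, 0, 1; 1, 0, 1, 1; 0, 1, 1, 1], !![1, 1, 1, 0; 1, 1, 0, 1; 1, 0, 1, 1; 0, 1, 1, 1]),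
  (!![0, 0, 0, 1; 1, 0, 0, 0; 0, 1, 0, 1; 0, 0, 1, 1], !![0, 0, 1, 0; 1, 0, 1, 0; 1, 1, 1, 0; 0, 1, 1, 1], !![1, 1, 0, 0; 0, 1, 1, 0; 1, 0, 0, 0; 1, 1, 1, 1], !![0, 1, 0, 0; 1, 1, 1, 0; 1, 1, 0, 1; 1, 1, 1, 1], !![1, 1, 1, 1; 1, 0, 0, 0; 0, 0, 1, 1; 0, 1, 0, 1]),
  (!![0, 0, 0, 1; 1, 0, 0, 1; 0, 1, 0, 0; 0, 0, 1, 0], !![0, 1, 0, 1; 1, 1, 1, 0; 1, 0, 0, 0; 0, 0, 0, 1], !![0, 0, 1, 0; 1, 0, 0, 1; 1, 1, 1, 1; 0, 0, 0, 1], !![1, 0, 1, 1; 0, 1, 1, 0; 0, 1, 0, 1; 0, 1, 1, 1], !![1, 1, 1, 0; 0, 1, 1, 1; 0, 0, 1, 1; 0, 1, 0, 1]),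
  (!![0, 0, 0, 1; 1, 0, 0, 1; 0, 1, 0, 0; 0, 0, 1, 1], !![1, 0, 1, 0; 0, 1, 0, 0; 1, 1, 0, 1; 1, 0, 1, 1], !![1, 1, 1, 1; 0, 1, 0, 0; 0, 1, 1, 1; 1, 0, 0, 1], !![1, 1, 1, 1; 1, 0, 1, 1; 1, 1, 0, 0; 0, 0, 0, 1], !![1, 1, 1, 0; 1, 1, 0, 0; 1, 0, 1, 1; 0, 0, 0, 1]),
  (!![0, 0, 0, 1; 1, 0, 0, 1; 0, 1, 0, 1; 0, 0, 1, 0], !![0, 1, 1, 1; 0, 0, 0, 1; 0, 1, 0, 1; 1, 1, 1, 0], !![1, 1, 0, 1; 0, 1, 1, 0; 1, 0, 1, 0; 0, 1, 0, 0], !![1, 1, 0, 0; 0, 1, 0, 1; 1, 1, 1, 0; 1, 0, 1, 0], !![1, 0, 1, 1; 0, 0, 1, 1; 1, 0, 1, 0; 0, 1, 1, 1]),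
  (!![0, 0, 0, 1; 1, 0, 0, 1; 0, 1, 0, 1; 0, 0, 1, 1], !![0, 1, 0, 1; 1, 0, 0, 1; 0, 1, 1, 0; 0, 0, 0, 1], !![0, 1, 0, 1; 1, 0, 0, 1; 1, 0, 1, 1; 0, 0, 0, 1], !![1, 1, 1, 1; 0, 1, 1, 0; 0, 0, 0, 1; 1, 0, 1, 1], !![1, 1, 1, 0; 1, 0, 0, 1; 1, 1, 0, 1; 0, 0, 1, 0])]

def t34 : List (T 4 3) :=
  [(!![0, 1, 0, 0; 1, 0, 0, 0; 0, 0, 0, 1; 0, 0, 1, 0], !![0, 1, 0, 1; 1, 2, 0, 0; 1, 0, 0, 2; 1, 1, 2, 1], !![2, 2, 2, 0; 2, 1, 2, 0; 0, 2, 2, 2; 2, 2, 1, 0], !![0, 2, 1, 1; 2, 1, 1, 1; 0, 1, 1, 0; 0, 1, 2, 1], !![2, 2, 1, 2; 2, 0, 2, 1; 1, 0, 2, 2; 2, 0, 0, 2]),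
  (!![0, 1, 0, 0; 1, 0, 0, 0; 0, 0, 0, 1; 0, 0, 1, 1], !![1, 1, 2, 1; 2, 2, 1, 1; 2, 1, 1, 0; 0, 1, 2, 1], !![1, 0, 0, 2; 1, 2, 2, 0; 0, 1, 2, 2; 2, 2, 0, 0], !![2, 2, 1, 1; 1, 0, 1, 1; 2, 1, 1, 0; 2, 1, 2, 2], !![1, 0, 0, 1; 0, 1, 0, 1; 1, 2, 1, 0; 1, 2, 2, 2]),
  (!![0, 1, 0, 0; 1, 0, 0, 0; 0, 0, 0, 1; 0, 0, 1, 2], !![0, 0, 0, 2; 1, 2, 1, 2; 2, 0, 0, 0; 0, 0, 1, 0], !![0, 0, 2, 0; 1, 2, 2, 1; 0, 0, 0, 1; 2, 0, 0, 0], !![1, 2, 0, 0; 0, 0, 0, 2; 0, 1, 0, 1; 0, 0, 1, 0], !![1, 1, 1, 0; 0, 1, 1, 0; 0, 0, 0, 1; 0, 2, 0, 0]),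
  (!![0, 1, 0, 0; 1, 1, 0, 0; 0, 0, 0, 1; 0, 0, 1, 0], !![0, 0, 0, 2; 0, 0, 2, 2; 2, 0, 1, 1; 2, 2, 2, 2], !![0, 2, 2, 0; 0, 2, 1, 2; 1, 2, 0, 0; 2, 0, 0, 0], !![0, 2, 0, 2; 0, 1, 2, 2; 1, 0, 2, 2; 1, 0, 2, 0], !![2, 2, 2, 2; 2, 0, 1, 2; 2, 2, 2, 1; 0, 0, 2, 1]),
  (!![0, 1, 0, 0; 1, 1, 0, 0; 0, 0, 0, 1; 0, 0, 1, 1], !![0, 1, 0, 2; 2, 0, 0, 2; 0, 2, 1, 1; 0, 1, 2, 1], !![0, 2, 1, 1; 1, 0, 2, 2; 1, 0, 1, 0; 0, 0, 2, 2], !![1, 1, 2, 1; 1, 2, 1, 0; 0, 0, 0, 1; 1, 1, 1, 0], !![2, 2, 1, 0; 0, 1, 0, 2; 1, 0, 2, 2; 0, 0, 1, 0]),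
  (!![0, 1, 0, 0; 1, 1, 0, 0; 0, 0, 0, 1; 0, 0, 1, 2], !![0, 0, 2, 1; 1, 1, 2, 2; 0, 1, 1, 2; 1, 0, 1, 1], !![1, 2, 1, 2; 1, 0, 1, 0; 2, 2, 1, 1; 0, 2, 1, 1], !![0, 0, 1, 0; 1, 0, 2, 2; 2, 1, 2, 1; 0, 1, 0, 1], !![2, 0, 2, 1; 2, 1, 1, 0; 1, 0, 0, 0; 1, 2, 2, 1]),
  (!![0, 1, 0, 0; 1, 2, 0, 0; 0, 0, 0, 1; 0, 0, 1, 0], !![0, 1, 2, 1; 1, 0, 0, 2; 1, 1, 1, 0; 2, 2, 2, 1], !![0, 1, 1, 1; 2, 1, 1, 2; 1, 1, 2, 0; 0, 0, 1, 1], !![1, 2, 2, 1; 2, 0, 1, 0; 0, 0, 1, 2; 0, 0, 1, 0], !![0, 2, 0, 1; 2, 2, 2, 1; 0, 0, 0, 1; 0, 0, 2, 1]),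
  (!![0, 1, 0, 0; 1, 2, 0, 0; 0, 0, 0, 1; 0, 0, 1, 1], !![1, 1, 2, 2; 0, 0, 0, 1; 0, 1, 2, 1; 2, 0, 1, 0], !![1, 2, 2, 0; 1, 1, 0, 1; 1, 2, 2, 1; 0, 1, 0, 0], !![0, 1, 0, 0; 2, 0, 0, 1; 1, 2, 2, 2; 1, 1, 1, 1], !![0, 0, 2, 2; 1, 0, 0, 0; 2, 2, 2, 0; 0, 1, 2, 2]),
  (!![0, 1, 0, 0; 1, 2, 0, 0; 0, 0, 0, 1; 0, 0, 1, 2], !![0, 0, 1, 0; 1, 0, 2, 0; 2, 1, 1, 1; 0, 0, 0, 1], !![1, 1, 0, 0; 0, 1, 1, 2; 1, 0, 0, 0; 0, 0, 0, 1], !![1, 2, 2, 0; 0, 0, 1, 1; 0, 1, 0, 0; 2, 0, 1, 1], !![0, 1, 0, 2; 0, 0, 1, 0; 2, 1, 2, 2; 1, 0, 1, 1]),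
  (!![0, 0, 2, 0; 1, 0, 0, 0; 0, 1, 0, 0; 0, 0, 0, 2], !![2, 1, 2, 2; 0, 0, 2, 0; 0, 1, 2, 0; 2, 0, 1, 0], !![0, 2, 0, 2; 0, 2, 1, 0; 0, 2, 0, 0; 2, 1, 1, 1], !![2, 2, 1, 2; 2, 0, 1, 2; 0, 2, 2, 1; 0, 0, 1, 0], !![1, 1, 2, 0; 2, 1, 0, 0; 0, 0, 0, 1; 2, 1, 1, 1]),
  (!![0, 0, 2, 0; 1, 0, 0, 0; 0, 1, 1, 0; 0, 0, 0, 2], !![0, 2, 2, 1; 1, 1, 0, 1; 1, 2, 2, 1; 1, 1, 2, 2], !![2, 0, 1, 0; 2, 2, 0, 1; 2, 0, 2, 1; 2, 2, 2, 2], !![1, 1, 1, 0; 1, 0, 2, 2; 1, 2, 1, 2; 1, 2, 2, 2], !![1, 2, 1, 0; 0, 1, 0, 2; 0, 0, 2, 1; 1, 1, 2, 2]),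
  (!![0, 0, 2, 0; 1, 0, 0, 0; 0, 1, 2, 0; 0, 0, 0, 2], !![1, 1, 1, 2; 1, 2, 0, 0; 2, 0, 0, 2; 0, 0, 1, 2], !![2, 2, 0, 1; 2, 1, 0, 1; 1, 1, 2, 0; 1, 1, 2, 2], !![2, 2, 1, 1; 2, 1, 1, 2; 1, 2, 0, 0; 0, 1, 1, 0], !![2, 2, 2, 2; 2, 2, 1, 2; 1, 1, 2, 2; 1, 0, 1, 2]),
  (!![0, 0, 2, 0; 1, 0, 1, 0; 0, 1, 0, 0; 0, 0, 0, 2], !![0, 0, 1, 1; 1, 1, 2, 0; 0, 2, 2, 0; 0, 2, 0, 2], !![1, 1, 0, 1; 1, 0, 1, 1; 2, 0, 1, 2; 2, 0, 2, 1], !![1, 0, 1, 0; 1, 1, 1, 0; 0, 1, 2, 2; 1, 0, 0, 1], !![1, 1, 2, 2; 2, 1, 0, 0; 0, 2, 1, 1; 2, 2, 1, 2]),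
  (!![0, 0, 2, 0; 1, 0, 1, 0; 0, 1, 1, 0; 0, 0, 0, 2], !![1, 0, 0, 0; 1, 2, 2, 2; 2, 2, 1, 2; 0, 2, 0, 1], !![1, 0, 0, 0; 0, 2, 2, 1; 1, 1, 2, 0; 0, 2, 2, 2], !![2, 1, 1, 1; 0, 1, 1, 2; 1, 0, 2, 2; 2, 1, 2, 1], !![2, 2, 2, 2; 1, 0, 1, 0; 2, 0, 0, 1; 0, 2, 1, 1]),
  (!![0, 0, 2, 0; 1, 0, 1, 0; 0, 1, 2, 0; 0, 0, 0, 2], !![2, 0, 2, 0; 1, 2, 0, 0; 1, 2, 1, 1; 2, 0, 2, 2], !![0, 1, 2, 2; 0, 0, 2, 2; 2, 2, 1, 1; 1, 0, 0, 2], !![2, 2, 0, 1; 1, 1, 0, 0; 0, 1, 1, 1; 0, 1, 0, 2], !![2, 0, 0, 2; 1, 1, 0, 1; 1, 1, 1, 2; 1, 1, 0, 0]),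
  (!![0, 0, 2, 0; 1, 0, 2, 0; 0, 1, 0, 0; 0, 0, 0, 2], !![0, 0, 2, 2; 1, 2, 2, 0; 0, 2, 1, 2; 2, 1, 2, 0], !![1, 1, 2, 0; 1, 2, 2, 2; 0, 1, 0, 1; 2, 2, 0, 2], !![2, 1, 2, 0; 2, 0, 2, 2; 2, 1, 0, 0; 0, 2, 1, 0], !![2, 0, 0, 2; 2, 0, 1, 2; 2, 0, 1, 0; 2, 2, 2, 1]),
  (!![0, 0, 2, 0; 1, 0, 2, 0; 0, 1, 1, 0; 0, 0, 0, 2], !![0, 1, 0, 2; 2, 0, 2, 0; 0, 1, 2, 1; 2, 1, 2, 0], !![1, 1, 1, 1; 0, 2, 0, 1; 2, 1, 2, 2; 2, 2, 0, 1], !![0, 1, 0, 2; 0, 2, 2, 0; 2, 1, 2, 2; 1, 2, 0, 2], !![0, 2, 1, 2; 2, 1, 2, 2; 1, 1, 1, 1; 1, 1, 2, 2]),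
  (!![0, 0, 2, 0; 1, 0, 2, 0; 0, 1, 2, 0; 0, 0, 0, 2], !![2, 2, 0, 1; 2, 1, 2, 2; 2, 0, 1, 1; 0, 1, 2, 1], !![1, 0, 1, 1; 2, 1, 0, 2; 0, 2, 1, 1; 1, 1, 1, 0], !![2, 2, 0, 1; 1, 2, 0, 1; 0, 1, 0, 0; 1, 1, 2, 2], !![1, 2, 0, 0; 0, 0, 1, 0; 2, 0, 0, 2; 2, 2, 1, 0])]

def u34 : List (T 4 3) :=
  [(!![0, 1, 0, 0; 1, 1, 0, 0; 0, 0, 0, 1; 0, 0, 1, 2], !![1, 2, 2, 1; 1, 1, 1, 0; 1, 2, 1, 2; 0, 2, 2, 0], !![0, 1, 0, 1; 1, 1, 1, 1; 2, 2, 2, 1; 1, 2, 0, 1], !![2, 2, 0, 2; 0, 0, 1, 1; 2, 0, 2, 0; 2, 1, 0, 1], !![1, 0, 0, 1; 0, 2, 2, 1; 2, 0, 2, 2; 1, 1, 1, 1])]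

attribute [local instance 2000] List.decidableBAll List.decidableBEx

theorem ok23 : Ok t23 !![1, 1, 0; 0, 1, 1; 0, 0, 1] := by decide +kernel
theorem ok24 : Ok t24 !![1, 0, 0, 0; 0, 1, 1, 0; 0, 0, 1, 1; 0, 0, 0, 1] := by decide +kernel
theorem ok34 : Ok t34 !![1, 0, 0, 0; 0, 0, 0, 1; 0, 1, 0, 1; 0, 0, 1, 0] := by decide +kernel
theorem oku : Ok u34 !![1, 0, 0, 0; 0, 1, 1, 0; 0, 0, 1, 1; 0, 0, 0, 1] := by decide +kernel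
theorem all23 : ∀ b c, ∃ t ∈ t23, t.1 = !![0, 0, 1; 1, 0, b; 0, 1, c] := by decide +kernel
theorem all24 : ∀ b c d, ∃ t ∈ t24, t.1 = !![0, 0, 0, 1; 1, 0, 0, b; 0, 1, 0, c; 0, 0, 1, d] := by decide +kernel
theorem all22 : ∀ b c, ∃ t ∈ t34, t.1 = !![0, 1, 0, 0; 1, b, 0, 0; 0, 0, 0, 1; 0, 0, 1, c] := by decide +kernel
theorem all31 : ∀ b c, ∃ t ∈ t34, t.1 = !![0, 0, -1, 0; 1, 0, b, 0; 0, 1, c, 0; 0, 0, 0, -1] := by decide +kernel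

theorem top2 {n : ℕ} (hn : 3 ≤ n) {g : End (ZMod 2) (Fin n → ZMod 2)} (hd : LinearMap.det g = 1) : Top g := by
  have h2 : ∀ c : ZMod 2, c ≠ 0 → c = 1 := by decide
  have fl : ∀ {m : ℕ} (a : End (ZMod 2) (Fin m → ZMod 2)), Flex a := fun a c hc =>
    ⟨LinearEquiv.refl _ _, fun _ => rfl, by simp [h2 c hc]⟩
  obtain h | ⟨f, s⟩ := (blocks2 h2 n (g := g) (by simp) (by omega) (hd ▸ one_ne_zero)).2
  · exact h.top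
  rw [s.det_eq] at hd
  refine Top.of_sim ?_ s.symm
  obtain rfl | rfl | h : n = 3 ∨ n = 4 ∨ 5 ≤ n := by omega
  · rw [comp3] at hd ⊢
    rw [h2 (-f.coeff 0) fun h => by simp [h, det_fin_three] at hd]
    exact ok23.top (all23 _ _) (by simp [det_fin_three]) (fl _)
  · rw [comp4] at hd ⊢
    rw [h2 (-f.coeff 0) fun h => by simp [h, det_succ_row_zero, Fin.sum_univ_four] at hd]
    exact ok24.top (all24 _ _ _) (by simp [det_succ_row_zero, Fin.sum_univ_succ, Fin.succAbove]) (fl _)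
  · exact ((cs_two (cycV_comp f n) (by simp; omega) 1).us hd
      (.inl fun c hc => by rw [hc (by simpa)]; decide)).top

theorem h3 : ∀ c : ZMod 3, c ≠ 0 → c ≠ 1 → c = -1 := by decide

theorem top34 {M : Matrix (Fin 4) (Fin 4) (ZMod 3)} (h : ∃ t ∈ t34, t.1 = M) : Top (toLin' M) := by
  refine ok34.top h (by simp [det_succ_row_zero, Fin.sum_univ_succ, Fin.succAbove]) ?_
  refine ((flex_smul_one (V := Fin 1 → ZMod 3) (by simp) 1).prod (toLin' !![0, 0, 1; 1, 0, 1; 0, 1, 0])).of_sim ?_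
  have := sim_fromBlocks (1 : Matrix (Fin 1) (Fin 1) (ZMod 3)) !![0, 0, 1; 1, 0, 1; 0, 1, 0]
  rw [toLin'_one, show reindex finSumFinEquiv finSumFinEquiv (fromBlocks 1 0 0 !![0, 0, 1; 1, 0, 1; 0, 1, 0]) =
    (!![1, 0, 0, 0; 0, 0, 0, 1; 0, 1, 0, 1; 0, 0, 1, 0] : Matrix (Fin 4) (Fin 4) (ZMod 3)) by decide +kernel] at this
  rwa [one_smul]

theorem top33 {V W : Type} [AddCommGroup V] [Module (ZMod 3) V] [FiniteDimensional (ZMod 3) V]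
    [AddCommGroup W] [Module (ZMod 3) W] [FiniteDimensional (ZMod 3) W] {g : End (ZMod 3) V}
    {g' : End (ZMod 3) W} {e : V} {e' : W} (he : CycV g e) (he' : CycV g' e') (hn : finrank (ZMod 3) V = 3)
    (hn' : finrank (ZMod 3) W = 3) (hd : LinearMap.det g = -1) (hd' : LinearMap.det g' = -1) :
    Top (g.prodMap g' : End (ZMod 3) (V × W)) := by
  obtain ⟨φ, p1, p2, p3⟩ := exists_step he (by omega) 1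
  obtain ⟨ψ, q1, q2, q3⟩ := exists_step he' (by omega) 2
  have s1 := sim_two (by have := finrank_ker_rho p1; omega) ((det_schur (rho_sq p1) _).trans hd) (by decide)
    (p3 hn.ge) (by decide)
  have s2 := sim_two (by have := finrank_ker_rho q1; omega) ((det_schur (rho_sq q1) _).trans hd') (by decide)
    (q3 hn'.ge) (by decide)
  refine (us_prod (rho_sq p1) _ (rho_sq q1) _ (finrank_range_rho p1).ge (finrank_range_rho q1).ge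
    (U0.of_sim ?_ ((s1.prodMap s2).trans (blk22 _ _ _ _)).symm)).top
  obtain ⟨b, h1, h2⟩ := oku.cd ⟨_, List.mem_singleton_self _, rfl⟩
  exact ⟨b, h1, h2.isNilpotent ⟨3, (toLin'_sub_one_pow _ 3).2 (by decide +kernel)⟩⟩

theorem pair {f f' : (ZMod 3)[X]} {k k' : ℕ} (h1 : 1 ≤ k') (h2 : k' ≤ k)
    (hd : LinearMap.det (toLin' (comp f k)) = -1) (hd' : LinearMap.det (toLin' (comp f' k')) = -1) :
    Top ((toLin' (comp f k)).prodMap (toLin' (comp f' k')) : End (ZMod 3) (_ × _)) := by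
  have gl : ∀ {r t}, CS r (toLin' (comp f k)) t → US r ((toLin' (comp f k)).prodMap (toLin' (comp f' k')) :
      End (ZMod 3) (_ × _)) := fun h =>
    glue (c := 2) (by decide) (by decide) h (cycV_comp f' k') (by simpa) (by simp only [hd, hd']; decide)
  by_cases h4 : 4 ≤ k
  · exact (gl (cs_two (cycV_comp f k) (by simpa) 0)).top
  rcases Nat.even_or_odd (k + k') with ⟨m, h⟩ | h
  swap
  · exact (gl (cs_one (cycV_comp f k) (by obtain ⟨m, h⟩ := h; simp; omega) 0)).top_odd (by decide) (by simpa)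
  obtain ⟨rfl, rfl⟩ | ⟨rfl, rfl⟩ | ⟨rfl, rfl⟩ | ⟨rfl, rfl⟩ :
    (k = 1 ∧ k' = 1) ∨ (k = 2 ∧ k' = 2) ∨ (k = 3 ∧ k' = 1) ∨ (k = 3 ∧ k' = 3) := by omega
  · convert top_scalar (V := (Fin 1 → ZMod 3) × (Fin 1 → ZMod 3)) (K := ZMod 3) (c := -1) (by simp) (by simp)
    rw [comp1] at hd hd'
    simp only [LinearMap.det_toLin', det_unique, Fin.default_eq_zero, of_apply, cons_val', cons_val_fin_one] at hd hd'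
    rw [comp1, comp1, hd, hd']
    ext <;> simp [Pi.single_apply, eq_iff_true_of_subsingleton]
  · rw [comp2] at hd hd'
    rw [comp2, comp2, show -f.coeff 0 = 1 by simpa [neg_eq_iff_eq_neg] using hd,
      show -f'.coeff 0 = 1 by simpa [neg_eq_iff_eq_neg] using hd']
    exact (top34 (all22 _ _)).of_sim (blk22 _ _ _ _).symm
  · rw [comp3] at hd
    rw [comp1] at hd'
    rw [comp3, comp1, show -f.coeff 0 = -1 by simpa [det_fin_three] using hd,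
      show -f'.coeff 0 = -1 by simpa using hd']
    exact (top34 (all31 _ _)).of_sim (blk31 _ _ _ _).symm
  · exact top33 (cycV_comp _ _) (cycV_comp _ _) (by simp) (by simp) hd hd'

theorem main3 (n : ℕ) : ∀ {V : Type} [AddCommGroup V] [Module (ZMod 3) V] [FiniteDimensional (ZMod 3) V]
    {g : End (ZMod 3) V}, finrank (ZMod 3) V = n → LinearMap.det g = 1 →
    W0 g ∧ (1 ≤ n → Top g ∨ (n = 2 ∧ US 1 g)) := by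
  induction n using Nat.strong_induction_on with | _ n ih => ?_
  intro V _ _ _ g hn hd
  rcases Nat.eq_zero_or_pos n with rfl | h0
  · exact ⟨(u0_le_one (by omega) hd).w0, by omega⟩
  obtain ⟨k, m, f, B, p1, p2, s, -⟩ := split g (by omega)
  rw [s.det_eq, det_prod] at hd
  suffices Top g ∨ (n = 2 ∧ US 1 g ∧ W0 g) from
    ⟨this.elim Top.w0 fun h => h.2.2, fun _ => this.imp_right fun h => ⟨h.1, h.2.1⟩⟩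
  by_cases h : LinearMap.det (toLin' (comp f k)) = 1
  · have w := (u0_cyc3 (c := 2) (by decide) (by decide) (cycV_comp f k) h).w0
    have u := us_cyc (cycV_comp f k) h (by simpa)
    obtain ⟨q1, q2⟩ := ih m (by omega) (g := B) (by simp) (by rwa [h, one_mul] at hd)
    by_cases hk : k = 2
    · rcases Nat.eq_zero_or_pos m with rfl | hm
      · replace s := (s.trans (sim_prod_zero _ _)).symm
        exact .inr ⟨by omega, u.of_sim s, w.of_sim s⟩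
      · exact .inl (Top.of_sim ((q2 hm).elim w.prod_top fun h => (u.prod h.2).top) s.symm)
    refine .inl (Top.of_sim (Top.prod ?_ q1) s.symm)
    rcases Nat.even_or_odd k with ⟨j, h'⟩ | h'
    · exact ((cs_two (cycV_comp f k) (by simp; omega) 0).us h (.inr ⟨2, by decide, by decide⟩)).top
    · exact u.top_odd (by decide) (by simpa)
  have d1 := h3 _ (left_ne_zero_of_mul_eq_one hd) h
  obtain ⟨k', m', f', B', q1, q2, s', q3⟩ := extract m (g := B) (by simp) fun h' => h (by rwa [h', mul_one] at hd)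
  rw [s'.det_eq, det_prod] at hd
  have d2 := h3 _ (left_ne_zero_of_mul (right_ne_zero_of_mul_eq_one hd)) q3
  have w := (ih m' (by omega) (g := B') (by simp) (by simpa [d1, d2] using hd)).1
  refine .inl (Top.of_sim (Top.prod ((le_total k' k).elim (fun h => pair q1 h d1 d2) fun h =>
    (pair p1 h d2 d1).of_sim (sim_swap _ _)) w) (Sim.trans ?_ (s.trans ((Sim.refl _).prodMap s')).symm))
  exact ⟨LinearEquiv.prodAssoc _ _ _ _, fun _ => rfl⟩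

theorem transfer {F K : Type*} [Field F] [Field K] {n : ℕ} (e : F ≃+* K)
    (h : ∀ g : SpecialLinearGroup (Fin n) K, Top (toLin' g.1)) (g : SpecialLinearGroup (Fin n) F) :
    ∃ a b, g = a * b * a⁻¹ * b⁻¹ := by
  obtain ⟨a, b, h⟩ := (h (CA.FieldIso.slEquiv e g)).comm
  exact ⟨(CA.FieldIso.slEquiv e).symm a, (CA.FieldIso.slEquiv e).symm b,
    (CA.FieldIso.slEquiv e).injective (by simp [h])⟩

/-- In the special linear group SL(n,F) over a finite field F, with n ≥ 2 and (n, |F|) not (2,2) or (2,3), every element is a commutator a·b·a⁻¹·b⁻¹ of two elements of SL(n,F). -/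
theorem result {F : Type*} [Field F] [Fintype F] (n : ℕ) (hn : 2 ≤ n) (hex : n = 2 → 4 ≤ Fintype.card F) :
    ∀ g : Matrix.SpecialLinearGroup (Fin n) F, ∃ a b : Matrix.SpecialLinearGroup (Fin n) F, g = a * b * a⁻¹ * b⁻¹ := by
  intro g
  have h1 : 1 < Fintype.card F := Fintype.one_lt_card
  obtain h | h | h : Fintype.card F = 2 ∨ Fintype.card F = 3 ∨ 4 ≤ Fintype.card F := by omega
  · obtain ⟨e⟩ := CA.FieldIso.nonempty_zmod (F := F) 2 (by simpa)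
    exact transfer e (fun g => top2 (by omega) (by simp)) g
  · obtain ⟨e⟩ := CA.FieldIso.nonempty_zmod (F := F) 3 (by simpa)
    exact transfer e (fun g => ((main3 n (by simp) (by simp)).2 (by omega)).resolve_right (by omega)) g
  by_cases hs : ∃ c : F, g.1 = c • (1 : Matrix (Fin n) (Fin n) F)
  · obtain ⟨c, hc⟩ := hs
    refine Top.comm ?_
    rw [hc, map_smul, toLin'_one]
    exact top_scalar (by simp; omega) (by simpa [hc] using g.2)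
  obtain ⟨l, l0, l2⟩ := CA.SLnGen.exists_sq_ne_one (F := F) (by simpa)
  exact (top_four l0 (sq l ▸ l2) (four_of_card (by simpa)) (by simpa) (by simp) (ns_toLin' hs)).comm

end Cfsg.Agent.S2444
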