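import Cfsg.Statements.S2445
import Cfsg.Agent.Lib.Lin.H19SpD3
import Cfsg.Agent.Lib.Lin.Lev5
import Mathlib.LinearAlgebra.Matrix.BilinearForm
import Mathlib.FieldTheory.IsAlgClosed.AlgebraicClosure

set_option autoImplicit false
open Cfsg

namespace Cfsg.Agent.S2445


open Matrix CA.H19SpD Polynomial

section
variable {F : Type*} [Field F] {m : ℕ}

abbrev Ix (m : ℕ) := Fin m ⊕ Fin m
abbrev Sp (m : ℕ) (F : Type*) [Field F] := Matrix.symplecticGroup (Fin m) F
abbrev Mt (m : ℕ) (F : Type*) := Matrix (Fin m) (Fin m) F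

noncomputable def om (m : ℕ) (F : Type*) [Field F] : LinearMap.BilinForm F (Ix m → F) :=
  Matrix.toBilin' (J (Fin m) F)

theorem om_apply (u v : Ix m → F) : om m F u v = u ⬝ᵥ J (Fin m) F *ᵥ v :=
  Matrix.toBilin'_apply' _ _ _

noncomputable def sy (g : Sp m F) : Sg F (Ix m → F) where
  ω := om m F
  alt v := by
    rw [om_apply, J, fromBlocks_mulVec]
    conv_lhs => arg 1; rw [← Sum.elim_comp_inl_inr v]
    rw [sumElim_dotProduct_sumElim]
    simp [neg_mulVec, dotProduct_comm]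
  nd v h := by
    have : J (Fin m) F *ᵥ v = 0 := by
      funext i
      simpa [om_apply] using h (Pi.single i 1)
    have h2 := congrArg (J (Fin m) F *ᵥ ·) this
    simpa [mulVec_mulVec, J_squared, neg_mulVec] using h2
  g := Matrix.toLin' g.1
  h := Matrix.toLin' (g⁻¹).1
  gh v := by
    rw [Matrix.toLin'_apply, Matrix.toLin'_apply, mulVec_mulVec, ← Submonoid.coe_mul, mul_inv_cancel]
    simp
  hg v := by
    rw [Matrix.toLin'_apply, Matrix.toLin'_apply, mulVec_mulVec, ← Submonoid.coe_mul, inv_mul_cancel]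
    simp
  iso u v := by
    have h := SymplecticGroup.mem_iff'.1 g.2
    rw [om_apply, om_apply, Matrix.toLin'_apply, Matrix.toLin'_apply]
    conv_rhs => rw [← h]
    rw [← Matrix.mulVec_mulVec, ← Matrix.mulVec_mulVec, Matrix.dotProduct_mulVec u,
      Matrix.vecMul_transpose]

theorem gram (P M : Matrix (Ix m) (Ix m) F) (a b : Ix m) :
    (Pᵀ * J (Fin m) F * M) a b = om m F (fun i => P i a) (fun i => M i b) := by
  rw [om_apply, Matrix.mul_assoc, Matrix.mul_apply]
  rfl

theorem ul (g : Sp m F) {a : ℕ} {Z : Prop} (h : (sy g).Nb m a Z) :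
    ∃ P : Sp m F, (P⁻¹ * g * P).1.toBlocks₁₁ = diagonal (fun j : Fin m => sg F a j) ∧
      (Z → (P⁻¹ * g * P).1.toBlocks₂₁ = 0) := by
  obtain ⟨e, f, h1, h2, h3, h4, h5⟩ := h
  have h3' : ∀ i j, (sy g).ω (e i) (f j) = - if j = i then 1 else 0 := fun i j => by
    rw [(sy g).skew, h3]
  change ∀ i j, om m F _ _ = _ at h1 h2 h3 h4 h3'
  change Z → ∀ i j, om m F _ _ = _ at h5
  let c : Ix m → Ix m → F := Sum.elim e f
  let P : Matrix (Ix m) (Ix m) F := Matrix.of fun i j => c j i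
  have hP : P ∈ Sp m F := by
    rw [SymplecticGroup.mem_iff']
    ext a b
    rw [gram]
    change om m F (c a) (c b) = _
    rcases a with a | a <;> rcases b with b | b <;> simp [c, J, h1, h2, h3, h3', one_apply, eq_comm]
  have e1 : ((⟨P, hP⟩ : Sp m F)⁻¹ * g * ⟨P, hP⟩).1 =
      -J (Fin m) F * (Pᵀ * J (Fin m) F * (g.1 * P)) := by
    rw [Submonoid.coe_mul, Submonoid.coe_mul, SymplecticGroup.coe_inv]
    simp only [Matrix.mul_assoc]
  have e2 : ∀ a b, (Pᵀ * J (Fin m) F * (g.1 * P)) a b = om m F (c a) ((sy g).g (c b)) := by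
    intro a b
    rw [gram]
    rfl
  refine ⟨⟨P, hP⟩, ?_, fun z => ?_⟩
  · rw [e1]
    ext i j
    rw [Matrix.toBlocks₁₁, Matrix.of_apply, Matrix.mul_apply]
    simp only [e2]
    simp [J, c, Fintype.sum_sum_type, one_apply, h4, diagonal_apply]
    split_ifs with h
    · rw [h]
    · rfl
  · rw [e1]
    ext i j
    rw [Matrix.toBlocks₂₁, Matrix.of_apply, Matrix.mul_apply]
    simp only [e2]
    simp [J, c, Fintype.sum_sum_type, one_apply, h5 z]

def D : GL (Fin m) F →* Sp m F where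
  toFun B := ⟨fromBlocks B.1 0 0 (B⁻¹).1ᵀ, by
    rw [SymplecticGroup.fromBlocks_mem_iff]
    simp [← Matrix.transpose_mul]⟩
  map_one' := Subtype.ext (by simp)
  map_mul' A B := Subtype.ext (by simp [fromBlocks_multiply, Matrix.mul_inv_rev])

def L (X : Mt m F) (h : Xᵀ = X) : Sp m F := ⟨fromBlocks 1 0 X 1, by
  rw [SymplecticGroup.fromBlocks_mem_iff]; simp [h]⟩

def U (X : Mt m F) (h : Xᵀ = X) : Sp m F := ⟨fromBlocks 1 X 0 1, by
  rw [SymplecticGroup.fromBlocks_mem_iff]; simp [h]⟩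

theorem gauss (g : Sp m F) (M : GL (Fin m) F) (h : g.1.toBlocks₁₁ = M.1) :
    ∃ X hX Y hY, g = L X hX * D M * U Y hY ∧ X = g.1.toBlocks₂₁ * (M⁻¹).1 := by
  obtain ⟨g, hg⟩ := g
  obtain ⟨B, C, E, rfl⟩ : ∃ B C E, g = fromBlocks M.1 B C E :=
    ⟨_, _, _, by rw [← h, fromBlocks_toBlocks]⟩
  have ht := SymplecticGroup.transpose_mem hg
  rw [fromBlocks_transpose, SymplecticGroup.fromBlocks_mem_iff] at ht
  obtain ⟨h1, -, h3⟩ := SymplecticGroup.fromBlocks_mem_iff.1 hg
  have h4 := ht.1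
  simp only [transpose_transpose] at h4
  obtain ⟨M, N, hMN, hNM⟩ := M
  simp only at h1 h3 h4
  have t1 : Nᵀ * Mᵀ = 1 := by rw [← Matrix.transpose_mul, hMN, transpose_one]
  have t2 : Mᵀ * Nᵀ = 1 := by rw [← Matrix.transpose_mul, hNM, transpose_one]
  refine ⟨C * N, ?_, N * B, ?_, Subtype.ext ?_, rfl⟩
  · calc (C * N)ᵀ = Nᵀ * (Cᵀ * M) * N := by
          rw [Matrix.transpose_mul]; simp only [Matrix.mul_assoc, hMN, Matrix.mul_one]
      _ = C * N := by rw [← h1, ← Matrix.mul_assoc, t1, Matrix.one_mul]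
  · calc (N * B)ᵀ = N * (M * Bᵀ) * Nᵀ := by
          rw [Matrix.transpose_mul, ← Matrix.mul_assoc, hNM, Matrix.one_mul]
      _ = N * B := by rw [h4]; simp only [Matrix.mul_assoc, t2, Matrix.mul_one]
  · have hE : E = C * N * B + Nᵀ := by
      calc E = Nᵀ * (Mᵀ * E) := by rw [← Matrix.mul_assoc, t1, Matrix.one_mul]
        _ = Nᵀ * (Cᵀ * M * N * B + 1) := by
          rw [Matrix.mul_assoc Cᵀ, hMN, Matrix.mul_one, ← h3]; simp
        _ = _ := by
          rw [← h1, Matrix.mul_add, Matrix.mul_one]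
          simp only [← Matrix.mul_assoc, t1, Matrix.one_mul]
    change fromBlocks M B C E = fromBlocks 1 0 (C * N) 1 * fromBlocks M 0 0 Nᵀ * fromBlocks 1 (N * B) 0 1
    simp only [fromBlocks_multiply, Matrix.mul_one, Matrix.one_mul, Matrix.mul_zero, Matrix.zero_mul,
      add_zero, zero_add]
    rw [Matrix.mul_assoc C, hNM, Matrix.mul_one, ← Matrix.mul_assoc M, hMN, Matrix.one_mul, hE,
      Matrix.mul_assoc C]

def Nf (B : Mt m F) : Prop := ∀ Z : Mt m F, Bᵀ * Z * B = Z → Z = 0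

theorem Nf.fp [Finite F] {B : Mt m F} (h : Nf B) (X : Mt m F) (hX : Xᵀ = X) :
    ∃ Z : Mt m F, Zᵀ = Z ∧ Z - Bᵀ * Z * B = X := by
  let φ : {Z : Mt m F // Zᵀ = Z} → {Z : Mt m F // Zᵀ = Z} := fun Z => ⟨Z.1 - Bᵀ * Z.1 * B, by
    rw [transpose_sub, Matrix.transpose_mul, Matrix.transpose_mul, Z.2, transpose_transpose,
      Matrix.mul_assoc]⟩
  have hφ : Function.Injective φ := by
    intro Z W e
    have h' : Z.1 - Bᵀ * Z.1 * B = W.1 - Bᵀ * W.1 * B := congrArg Subtype.val e
    refine Subtype.ext (sub_eq_zero.1 (h _ ?_))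
    rw [Matrix.mul_sub, Matrix.sub_mul]
    rw [sub_eq_sub_iff_add_eq_add] at h' ⊢
    rw [add_comm, ← h', add_comm]
  obtain ⟨Z, hZ⟩ := Finite.injective_iff_surjective.1 hφ ⟨X, hX⟩
  exact ⟨Z.1, Z.2, congrArg Subtype.val hZ⟩

theorem Nf.inv {A : GL (Fin m) F} (h : Nf A.1) : Nf (A⁻¹).1 := fun Z e => h Z (by
  conv_lhs => rw [← e]
  rw [← Matrix.mul_assoc, ← Matrix.mul_assoc, ← Matrix.transpose_mul, Matrix.mul_assoc _ _ A.1,
    ← Units.val_mul, inv_mul_cancel]
  simp)

theorem conjL [Finite F] (A : GL (Fin m) F) (h : Nf A.1) (X : Mt m F) (hX : Xᵀ = X) :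
    IsConj (D A) (L X hX * D A) := by
  obtain ⟨Z, hZ, rfl⟩ := h.inv.fp X hX
  refine isConj_iff.2 ⟨L Z hZ, mul_inv_eq_of_eq_mul (Subtype.ext ?_)⟩
  obtain ⟨M, N, hMN, hNM⟩ := A
  change fromBlocks 1 0 Z 1 * fromBlocks M 0 0 Nᵀ =
    fromBlocks 1 0 (Z - Nᵀ * Z * N) 1 * fromBlocks M 0 0 Nᵀ * fromBlocks 1 0 Z 1
  simp only [fromBlocks_multiply, Matrix.mul_one, Matrix.one_mul, Matrix.mul_zero, Matrix.zero_mul,
    add_zero, zero_add]
  rw [Matrix.sub_mul, Matrix.mul_assoc _ N, hNM, Matrix.mul_one, sub_add_cancel]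

theorem conjU0 (A : GL (Fin m) F) (Z : Mt m F) (hZ : Zᵀ = Z) (X : Mt m F) (hX : Xᵀ = X)
    (e : Z - (A⁻¹).1 * Z * (A⁻¹).1ᵀ = X) : IsConj (D A) (D A * U X hX) := by
  subst e
  refine (isConj_iff.2 ⟨U Z hZ, mul_inv_eq_of_eq_mul (Subtype.ext ?_)⟩ : IsConj _ _).symm
  obtain ⟨M, N, hMN, hNM⟩ := A
  change fromBlocks 1 Z 0 1 * (fromBlocks M 0 0 Nᵀ * fromBlocks 1 (Z - N * Z * Nᵀ) 0 1) =
    fromBlocks M 0 0 Nᵀ * fromBlocks 1 Z 0 1
  simp only [fromBlocks_multiply, Matrix.mul_one, Matrix.one_mul, Matrix.mul_zero, Matrix.zero_mul,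
    add_zero, zero_add, transpose_transpose]
  rw [Matrix.mul_sub, ← Matrix.mul_assoc, ← Matrix.mul_assoc, hMN, Matrix.one_mul, sub_add_cancel]

def Cm {G : Type*} [Group G] (g : G) : Prop := ∃ a b : G, g = a * b * a⁻¹ * b⁻¹

theorem Cm.conj {G : Type*} [Group G] {g h : G} (hg : Cm g) (e : IsConj g h) : Cm h := by
  obtain ⟨a, b, rfl⟩ := hg
  obtain ⟨c, rfl⟩ := isConj_iff.1 e
  exact ⟨c * a * c⁻¹, c * b * c⁻¹, by group⟩

theorem key [Finite F] (g : Sp m F) (A1 A2 : GL (Fin m) F) (hB : g.1.toBlocks₁₁ = (A1 * A2⁻¹).1)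
    (f1 : Nf A1.1) (f2 : Nf A2.1ᵀ) (c : IsConj (D A1) (D A2)) : Cm g := by
  obtain ⟨X, hX, Y, hY, e, -⟩ := gauss g _ hB
  obtain ⟨Z, hZ, hZ'⟩ := f2.fp Y hY
  obtain ⟨u, hu⟩ := isConj_iff.1 (c.symm.trans (conjL A1 f1 X hX))
  obtain ⟨v, hv⟩ := isConj_iff.1 (conjU0 A2⁻¹ Z hZ Y hY (by rw [inv_inv]; simpa using hZ'))
  refine ⟨u * D A2 * u⁻¹, v * u⁻¹, ?_⟩
  have : g = (L X hX * D A1) * (D A2⁻¹ * U Y hY) := by rw [e, map_mul]; simp only [mul_assoc]
  rw [this, ← hu, ← hv, map_inv]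
  group

def Tri (B : Mt m F) (k : ℕ) (c c0 : F) : Prop := B ^ m = c • B ^ k + c0 • 1

theorem Tri.nf {B : Mt m F} {k : ℕ} {c c0 : F} (h : Tri B k c c0) (hk : k ≤ m)
    (hc : IsCoprime (X ^ m - C c * X ^ k - C c0 : F[X]) (C c0 * X ^ m + C c * X ^ (m - k) - 1)) :
    Nf B := by
  intro Z hZ
  have hp : ∀ j : ℕ, Bᵀ ^ j * Z * B ^ j = Z := by
    intro j
    induction j with
    | zero => simp
    | succ j ih =>
      rw [pow_succ, pow_succ', Matrix.mul_assoc _ Bᵀ, ← Matrix.mul_assoc, Matrix.mul_assoc _ _ B, hZ, ih]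
  have h1 : aeval Bᵀ (X ^ m - C c * X ^ k - C c0 : F[X]) = 0 := by
    have := congrArg transpose h
    rw [transpose_add, transpose_smul, transpose_smul, transpose_pow, transpose_pow, transpose_one] at this
    simp [this, Algebra.algebraMap_eq_smul_one]
  have h2 : aeval Bᵀ (C c0 * X ^ m + C c * X ^ (m - k) - 1 : F[X]) * Z = 0 := by
    have e := hp m
    rw [h, Matrix.mul_add, Matrix.mul_smul, Matrix.mul_smul, Matrix.mul_one] at e
    have e2 : Bᵀ ^ m * Z * B ^ k = Bᵀ ^ (m - k) * Z := by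
      conv_rhs => rw [← hp k]
      rw [← Matrix.mul_assoc, ← Matrix.mul_assoc, ← pow_add, Nat.sub_add_cancel hk]
    rw [e2] at e
    simp only [map_sub, map_add, map_mul, aeval_C, aeval_X_pow, map_one, Algebra.algebraMap_eq_smul_one,
      Matrix.sub_mul, Matrix.add_mul, Matrix.smul_mul, Matrix.one_mul]
    rw [add_comm, e, sub_self]
  obtain ⟨x, y, hxy⟩ := hc
  have := congrArg (fun p => aeval Bᵀ p * Z) hxy
  simp only [map_add, map_mul, h1, mul_zero, zero_add, map_one, Matrix.one_mul, Matrix.mul_assoc,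
    h2] at this
  exact this.symm

theorem Tri.tr {B : Mt m F} {k : ℕ} {c c0 : F} (h : Tri B k c c0) : Tri Bᵀ k c c0 := by
  have := congrArg transpose h
  rwa [transpose_add, transpose_smul, transpose_smul, transpose_pow, transpose_pow, transpose_one] at this

theorem Tri.conj {A P : GL (Fin m) F} {k : ℕ} {c c0 : F} (h : Tri A.1 k c c0) :
    Tri (P * A * P⁻¹).1 k c c0 := by
  unfold Tri at h ⊢
  rw [← Units.val_pow_eq_pow_val, ← Units.val_pow_eq_pow_val, conj_pow, conj_pow, Units.val_mul,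
    Units.val_mul, Units.val_mul, Units.val_mul, Units.val_pow_eq_pow_val, Units.val_pow_eq_pow_val, h]
  simp [Matrix.mul_add, Matrix.add_mul]

def dg (σ : Fin m → F) (h : ∀ i, σ i * σ i = 1) : GL (Fin m) F :=
  ⟨diagonal σ, diagonal σ, by simp [diagonal_mul_diagonal, h], by simp [diagonal_mul_diagonal, h]⟩

theorem sg_sq (a j : ℕ) : sg F a j * sg F a j = 1 := by unfold sg; split_ifs <;> simp

theorem prod_sg (a : ℕ) : ∀ j : ℕ, ∏ i ∈ Finset.range j, sg F a i = (-1) ^ (j - a)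
  | 0 => by simp
  | j + 1 => by
    rw [Finset.prod_range_succ, prod_sg a j, sg]
    split_ifs with h
    · rw [show j + 1 - a = j - a by omega, mul_one]
    · rw [show j + 1 - a = j - a + 1 by omega, pow_succ]

theorem tri_case [Finite F] (g : Sp m F) {a b : ℕ} (hab : a + 2 * b = m)
    (hg : g.1.toBlocks₁₁ = diagonal fun j : Fin m => sg F a j) {k : ℕ} {c c0 : F} (hk : k < m)
    (h0 : c0 ≠ 0) (h1 : c = 0 ∨ (1 ≤ k ∧ (-1 : F) ^ (k - a) = 1))
    (hc : IsCoprime (X ^ m - C c * X ^ k - C c0 : F[X]) (C c0 * X ^ m + C c * X ^ (m - k) - 1)) :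
    Cm g := by
  let f : F[X] := X ^ m - C c * X ^ k - C c0
  have hlt : (C c * X ^ k + C c0 : F[X]).degree < m := by
    refine (degree_add_le _ _).trans_lt (max_lt ((degree_C_mul_X_pow_le _ _).trans_lt ?_)
      (degree_C_le.trans_lt ?_))
    · exact_mod_cast hk
    · exact_mod_cast (by omega : 0 < m)
  have hf : f = X ^ m - (C c * X ^ k + C c0) := by simp only [f]; ring
  have hm : f.Monic := hf ▸ monic_X_pow_sub hlt
  have hd : f.natDegree = m := by
    rw [hf]
    exact natDegree_eq_of_degree_eq_some (by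
      rw [degree_sub_eq_left_of_degree_lt (by rwa [degree_X_pow]), degree_X_pow])
  have ht : Tri (CA.Lev.comp f m) k c c0 := by
    have := CA.Lev.aeval_comp hm hd
    simp only [f, map_sub, map_mul, aeval_X_pow, aeval_C, Algebra.algebraMap_eq_smul_one,
      Matrix.smul_mul, Matrix.one_mul] at this
    rw [sub_sub, sub_eq_zero] at this
    exact this
  have hu : IsUnit (CA.Lev.comp f m) := by
    refine IsUnit.of_mul_eq_one (c0⁻¹ • (CA.Lev.comp f m ^ (m - 1) - c • CA.Lev.comp f m ^ (k - 1))) ?_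
    have e : c • (CA.Lev.comp f m * CA.Lev.comp f m ^ (k - 1)) = c • CA.Lev.comp f m ^ k := by
      rcases h1 with h | h
      · simp [h]
      · rw [← pow_succ', Nat.sub_add_cancel h.1]
    rw [Matrix.mul_smul, Matrix.mul_sub, Matrix.mul_smul, e, ← pow_succ',
      Nat.sub_add_cancel (by omega), ht, add_sub_cancel_left, smul_smul, inv_mul_cancel₀ h0, one_smul]
  obtain ⟨A, hA⟩ := hu
  let δ : Fin m → F := fun j => (-1) ^ ((j : ℕ) + 1 - a)
  let P : GL (Fin m) F := dg δ fun i => by simp only [δ]; rw [← mul_pow]; simp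
  let M : GL (Fin m) F := dg (fun j : Fin m => sg F a j) fun i => sg_sq _ _
  have hδ : ∀ j : ℕ, (-1 : F) ^ (j + 1 - a) = (-1) ^ (j - a) * sg F a j := fun j => by
    rw [← prod_sg, Finset.prod_range_succ, prod_sg]
  have e : M * A = P * A * P⁻¹ := by
    rw [eq_mul_inv_iff_mul_eq]
    refine Units.ext ?_
    rw [Units.val_mul, Units.val_mul, Units.val_mul, hA]
    change diagonal _ * _ * diagonal δ = diagonal δ * _
    ext i j
    rw [mul_diagonal, diagonal_mul, diagonal_mul]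
    simp only [CA.Lev.comp, CA.SLTv.ofCols, of_apply, δ]
    split_ifs with h
    · simp only [CA.SLTv.e]
      split_ifs with h'
      · rw [hδ i, h']; ring
      · simp
    · have hj : (j : ℕ) + 1 - a = 2 * b := by omega
      rw [hj, pow_mul, neg_one_sq, one_pow, mul_one, hδ i]
      have co : f.coeff i = -(if (i : ℕ) = k then c else 0) - if (i : ℕ) = 0 then c0 else 0 := by
        simp [f, coeff_X_pow, coeff_C, i.2.ne]
      beta_reduce
      rw [co]
      by_cases h2 : (i : ℕ) = 0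
      · simp [h2]
      · by_cases h3 : (i : ℕ) = k
        · rcases h1 with h4 | h4
          · simp [h2, h4]
          · rw [h3, h4.2, one_mul]
        · simp [h2, h3]
  refine key g (M * A) A (by rw [mul_inv_cancel_right]; exact hg) ?_ ((hA ▸ ht).tr.nf hk.le hc) ?_
  · rw [e]; exact (Tri.conj (hA ▸ ht)).nf hk.le hc
  · exact D.map_isConj (isConj_iff.2 ⟨P, e.symm⟩).symm

theorem cop {k : ℕ} {c c0 : F} (h : ∀ x : AlgebraicClosure F,
    x ^ m = algebraMap F _ c * x ^ k + algebraMap F _ c0 →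
    algebraMap F _ c0 * x ^ m + algebraMap F _ c * x ^ (m - k) = 1 → False) :
    IsCoprime (X ^ m - C c * X ^ k - C c0 : F[X]) (C c0 * X ^ m + C c * X ^ (m - k) - 1) := by
  refine (Polynomial.isCoprime_iff_aeval_ne_zero_of_isAlgClosed F (AlgebraicClosure F) _ _).2 fun x => ?_
  by_contra! e
  simp only [map_sub, map_add, map_mul, aeval_X_pow, aeval_C, map_one] at e
  exact h x (by linear_combination e.1) (by linear_combination e.2)

theorem invol [Fintype F] (h2 : (2 : F) ≠ 0) (g : Sp m F) (a : ℕ) (hg : g * g = 1)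
    (h11 : g.1.toBlocks₁₁ = diagonal fun j : Fin m => sg F a j) (h21 : g.1.toBlocks₂₁ = 0) : Cm g := by
  let M : GL (Fin m) F := dg (fun j : Fin m => sg F a j) fun i => sg_sq _ _
  obtain ⟨X, hX, Y, hY, e, e'⟩ := gauss g M h11
  rw [h21, Matrix.zero_mul] at e'
  subst e'
  have hL : L (0 : Mt m F) hX = 1 := Subtype.ext (by simp [L])
  rw [hL, one_mul] at e
  have hMM : M.1 * M.1 = 1 := M.3
  have hMt : M.1ᵀ = M.1 := diagonal_transpose _
  have hy : M.1 * Y * M.1 = -Y := by
    have := congrArg (fun z : Sp m F => z.1.toBlocks₁₂) hg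
    rw [e] at this
    change (fromBlocks M.1 0 0 M.1ᵀ * fromBlocks 1 Y 0 1 *
      (fromBlocks M.1 0 0 M.1ᵀ * fromBlocks 1 Y 0 1)).toBlocks₁₂ = (1 : Matrix (Ix m) (Ix m) F).toBlocks₁₂
      at this
    rw [← fromBlocks_one, hMt] at this
    simp only [fromBlocks_multiply, Matrix.mul_one, Matrix.one_mul, Matrix.mul_zero, Matrix.zero_mul,
      add_zero, zero_add, toBlocks_fromBlocks₁₂] at this
    rw [← Matrix.mul_assoc, hMM, Matrix.one_mul] at this
    exact eq_neg_of_add_eq_zero_right this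
  refine Cm.conj ?_ (e ▸ conjU0 M ((2 : F)⁻¹ • Y) (by rw [transpose_smul, hY]) Y hY ?_)
  swap
  · change _ - M.1 * _ * M.1ᵀ = Y
    rw [hMt, Matrix.mul_smul, Matrix.smul_mul, hy, smul_neg, sub_neg_eq_add, ← two_smul F, smul_smul,
      mul_inv_cancel₀ h2, one_smul]
  have hodd : Fintype.card F % 2 = 1 :=
    FiniteField.odd_card_of_char_ne_two (fun e => h2 (by
      have := (ringChar.spec F 2).2 (by rw [e])
      exact_mod_cast this))
  obtain ⟨α, β, hab⟩ := FiniteField.exists_root_sum_quadratic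
    (f := X ^ 2 + 1) (g := X ^ 2) (by compute_degree!) (by compute_degree!) hodd
  simp only [eval_add, eval_pow, eval_X, eval_one] at hab
  let p : Fin m → F := fun j => if (j : ℕ) < a then 1 else 0
  let n : Fin m → F := fun j => if (j : ℕ) < a then 0 else 1
  have ha : fromBlocks (diagonal p) (diagonal (-n)) (diagonal n) (diagonal p) ∈ Sp m F := by
    rw [SymplecticGroup.fromBlocks_mem_iff]
    simp only [diagonal_transpose, diagonal_mul_diagonal, diagonal_sub, ← diagonal_one,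
      diagonal_eq_diagonal_iff, Pi.neg_apply, p, n]
    refine ⟨fun i => ?_, fun i => ?_, fun i => ?_⟩ <;> split_ifs <;> simp
  have hb : fromBlocks (diagonal fun j => p j + n j * α) (diagonal fun j => n j * β)
      (diagonal fun j => n j * β) (diagonal fun j => p j - n j * α) ∈ Sp m F := by
    rw [SymplecticGroup.fromBlocks_mem_iff]
    simp only [diagonal_transpose, diagonal_mul_diagonal, diagonal_sub, ← diagonal_one,
      diagonal_eq_diagonal_iff, p, n]
    refine ⟨fun i => ?_, fun i => ?_, fun i => ?_⟩ <;> split_ifs <;>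
      first | ring1 | linear_combination -hab
  refine ⟨⟨_, ha⟩, ⟨_, hb⟩, ?_⟩
  rw [eq_mul_inv_iff_mul_eq, eq_mul_inv_iff_mul_eq]
  refine Subtype.ext ?_
  change fromBlocks (diagonal fun j : Fin m => sg F a j) 0 0 (diagonal fun j : Fin m => sg F a j)ᵀ *
    fromBlocks _ _ _ _ * fromBlocks _ _ _ _ = fromBlocks _ _ _ _ * fromBlocks _ _ _ _
  simp only [fromBlocks_multiply, diagonal_transpose, diagonal_mul_diagonal, Matrix.zero_mul,
    add_zero, zero_add, diagonal_add, fromBlocks_inj, diagonal_eq_diagonal_iff, Pi.neg_apply, p, n, sg]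
  refine ⟨fun i => ?_, fun i => ?_, fun i => ?_, fun i => ?_⟩ <;> split_ifs <;> ring

theorem spec [Finite F] (h3 : (3 : F) = 0) (g : Sp 2 F)
    (hg : g.1.toBlocks₁₁ = diagonal fun j : Fin 2 => sg F 0 j) : Cm g := by
  let A : GL (Fin 2) F := ⟨!![0, 1; 1, 1], !![-1, 1; 1, 0], by
    ext i j; fin_cases i <;> fin_cases j <;> simp [Matrix.mul_apply, Fin.sum_univ_two], by
    ext i j; fin_cases i <;> fin_cases j <;> simp [Matrix.mul_apply, Fin.sum_univ_two]⟩
  have ht : Tri A.1 1 1 1 := by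
    unfold Tri
    ext i j; fin_cases i <;> fin_cases j <;> simp [A, pow_two, Matrix.mul_apply, Fin.sum_univ_two]
  have h3' : (3 : AlgebraicClosure F) = 0 := by
    rw [← map_ofNat (algebraMap F (AlgebraicClosure F)) 3, h3, map_zero]
  have hc := cop (F := F) (m := 2) (k := 1) (c := 1) (c0 := 1) fun x e1 e2 => by
    simp only [map_one, one_mul] at e1 e2
    have hx : x = 0 ∨ (2 : AlgebraicClosure F) = 0 := by
      rw [← mul_eq_zero]; linear_combination e2 - e1
    rcases hx with hx | hx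
    · simp [hx] at e1
    · exact one_ne_zero (by linear_combination h3' - hx : (1 : AlgebraicClosure F) = 0)
  refine key g (-A) A ?_ (fun Z e => ht.nf one_le_two hc Z (by simpa using e))
    (ht.tr.nf one_le_two hc) ?_
  · rw [hg, neg_mul, mul_inv_cancel]
    ext i j; fin_cases i <;> fin_cases j <;> simp [sg]
  · have hP : fromBlocks (0 : Mt 2 F) !![0, 1; -1, 0] !![0, -1; 1, 0] 0 ∈ Sp 2 F := by
      rw [SymplecticGroup.fromBlocks_mem_iff]
      refine ⟨by simp, by simp, ?_⟩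
      ext i j; fin_cases i <;> fin_cases j <;> simp [Matrix.mul_apply, Fin.sum_univ_two]
    refine isConj_iff.2 ⟨⟨_, hP⟩, mul_inv_eq_of_eq_mul (Subtype.ext ?_)⟩
    change fromBlocks _ _ _ _ * fromBlocks (- !![0, 1; 1, 1]) 0 0 (- !![-1, 1; 1, 0])ᵀ =
      fromBlocks !![0, 1; 1, 1] 0 0 !![-1, 1; 1, 0]ᵀ * fromBlocks _ _ _ _
    simp only [fromBlocks_multiply, Matrix.mul_zero, Matrix.zero_mul, add_zero, zero_add, fromBlocks_inj,
      true_and, and_true]
    constructor <;> ext i j <;> fin_cases i <;> fin_cases j <;>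
      simp [Matrix.mul_apply, Fin.sum_univ_two]

end

/-- In the symplectic group Sp(2m,F) over a finite field F (m ≥ 1), other than Sp(2,2), Sp(2,3) and Sp(4,2), every element is a commutator a·b·a⁻¹·b⁻¹ of two elements of Sp(2m,F). -/
theorem result {F : Type*} [Field F] [Fintype F] (m : ℕ) (hm : 1 ≤ m) (h1 : m = 1 → 4 ≤ Fintype.card F)
    (h2 : m = 2 → 3 ≤ Fintype.card F) : ∀ g : Matrix.symplecticGroup (Fin m) F, ∃ a b : Matrix.symplecticGroup (Fin m) F, g = a * b * a⁻¹ * b⁻¹ := by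
  classical
  intro g
  change Cm g
  rcases (sy g).norm (m := m) (by simp [two_mul]) with ⟨a, b, hab, hb, h⟩ | ⟨h0, hg, a, h⟩
  swap
  · obtain ⟨P, p1, p2⟩ := ul g h
    have : g * g = 1 := Subtype.ext (Matrix.toLin'.injective (by
      rw [Submonoid.coe_mul, Matrix.toLin'_mul, Submonoid.coe_one, Matrix.toLin'_one]
      exact LinearMap.ext hg))
    refine (invol h0 _ a ?_ p1 (p2 trivial)).conj (isConj_iff.2 ⟨P, by group⟩)
    rw [show P⁻¹ * g * P * (P⁻¹ * g * P) = P⁻¹ * (g * g) * P by group, this]; simp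
  obtain ⟨P, p1, -⟩ := ul g h
  refine Cm.conj (g := P⁻¹ * g * P) ?_ (isConj_iff.2 ⟨P, by group⟩)
  generalize P⁻¹ * g * P = g' at p1
  by_cases hq : ∃ c0 : F, c0 ≠ 0 ∧ c0 * c0 ≠ 1
  · obtain ⟨c0, h0, h1⟩ := hq
    refine tri_case g' hab p1 (k := 0) (c := 0) hm h0 (Or.inl rfl) (cop fun x e1 e2 => h1 ?_)
    simp only [map_zero, zero_mul, zero_add, add_zero] at e1 e2
    rw [e1, ← map_mul] at e2
    exact (algebraMap F (AlgebraicClosure F)).injective (by rw [e2, map_one])
  push Not at hq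
  have hsub : (Finset.univ : Finset F) ⊆ {0, 1, -1} := fun x _ => by
    by_cases hx : x = 0
    · simp [hx]
    · rcases mul_self_eq_one_iff.1 (hq x hx) with h | h <;> simp [h]
  have hcard := (Finset.card_le_card hsub).trans Finset.card_le_three
  rw [Finset.card_univ] at hcard
  have hm1 : m ≠ 1 := fun e => by have := h1 e; omega
  by_cases hc : (2 : F) = 0
  · have hm2 : m ≠ 2 := fun e => by
      have h5 : (Finset.univ : Finset F) ⊆ {0, 1} := fun x hx => by
        have := hsub hx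
        rw [show (-1 : F) = 1 by linear_combination -hc] at this
        simpa using this
      have := (Finset.card_le_card h5).trans Finset.card_le_two
      rw [Finset.card_univ] at this
      have := h2 e
      omega
    have hc' : (2 : AlgebraicClosure F) = 0 := by
      rw [← map_ofNat (algebraMap F (AlgebraicClosure F)) 2, hc, map_zero]
    have hn1 : ∀ j : ℕ, (-1 : F) ^ j = 1 := fun j => by
      rw [show (-1 : F) = 1 by linear_combination -hc, one_pow]
    have three : ∀ (x : AlgebraicClosure F) (j : ℕ), x ^ 2 + x + 1 = 0 → x ^ j = 1 → 3 ∣ j := by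
      intro x j e1 e2
      have e3 : x ^ 3 = 1 := by linear_combination (x - 1) * e1
      have hx : x ≠ 1 := fun e => by
        rw [e] at e1
        exact one_ne_zero (by linear_combination e1 - hc' : (1 : AlgebraicClosure F) = 0)
      haveI : Fact (Nat.Prime 3) := ⟨Nat.prime_three⟩
      rw [← orderOf_eq_prime e3 hx]
      exact orderOf_dvd_of_pow_eq_one e2
    by_cases h3 : 3 ∣ m - 2
    · refine tri_case g' hab p1 (k := 2) (c := 1) (by omega) one_ne_zero (Or.inr ⟨by omega, hn1 _⟩)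
        (cop fun x e1 e2 => ?_)
      simp only [map_one, one_mul] at e1 e2
      obtain ⟨j, rfl⟩ : ∃ j, m = j + 5 := ⟨m - 5, by omega⟩
      rw [show j + 5 - 2 = j + 3 by omega] at e2
      have hx : x ≠ 0 := fun e => by simp [e] at e1
      have e3 : x ^ (j + 1) = 1 := by
        have : x ^ 2 * (x ^ (j + 1) - 1) = 0 := by linear_combination e2 - e1 - x ^ 2 * hc'
        exact sub_eq_zero.1 ((mul_eq_zero.1 this).resolve_left (pow_ne_zero _ hx))
      have e4 : (x ^ 2 + x + 1) ^ 2 = 0 := by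
        linear_combination e1 - x ^ 4 * e3 + (x ^ 3 + 2 * x ^ 2 + x + 1) * hc'
      have := three x _ (pow_eq_zero_iff two_ne_zero |>.1 e4) e3
      omega
    · refine tri_case g' hab p1 (k := 1) (c := 1) (by omega) one_ne_zero (Or.inr ⟨le_rfl, hn1 _⟩)
        (cop fun x e1 e2 => ?_)
      simp only [map_one, one_mul] at e1 e2
      obtain ⟨j, rfl⟩ : ∃ j, m = j + 2 := ⟨m - 2, by omega⟩
      rw [show j + 2 - 1 = j + 1 by omega] at e2
      have hx : x ≠ 0 := fun e => by simp [e] at e1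
      have e3 : x ^ j = 1 := by
        have : x * (x ^ j - 1) = 0 := by linear_combination e2 - e1 - x * hc'
        exact sub_eq_zero.1 ((mul_eq_zero.1 this).resolve_left hx)
      have e4 : x ^ 2 + x + 1 = 0 := by linear_combination e1 - x ^ 2 * e3 + (x + 1) * hc'
      exact h3 (by simpa using three x _ e4 e3)
  have h3 : (3 : F) = 0 := by
    rcases mul_self_eq_one_iff.1 (hq 2 hc) with h | h
    · exact absurd (by linear_combination h : (1 : F) = 0) one_ne_zero
    · linear_combination h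
  have h3' : (3 : AlgebraicClosure F) = 0 := by
    rw [← map_ofNat (algebraMap F (AlgebraicClosure F)) 3, h3, map_zero]
  have h2' : (2 : AlgebraicClosure F) ≠ 0 := fun e =>
    one_ne_zero (by linear_combination h3' - e : (1 : AlgebraicClosure F) = 0)
  rcases Nat.eq_zero_or_pos a with rfl | ha
  · by_cases hm2 : m = 2
    · subst hm2
      exact spec h3 g' p1
    · refine tri_case g' hab p1 (k := 2) (c := 1) (by omega) one_ne_zero
        (Or.inr ⟨by omega, by simp⟩) (cop fun x e1 e2 => ?_)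
      simp only [map_one, one_mul] at e1 e2
      obtain ⟨j, rfl⟩ : ∃ j, m = 2 * j + 4 := ⟨b - 2, by omega⟩
      rw [show 2 * j + 4 - 2 = 2 * j + 2 by omega] at e2
      have hx : x ≠ 0 := fun e => by simp [e] at e1
      have e3 : x ^ (2 * j) = -1 := by
        have : x ^ 2 * (x ^ (2 * j) + 1) = 0 := by linear_combination e2 - e1
        exact eq_neg_of_add_eq_zero_left ((mul_eq_zero.1 this).resolve_left (pow_ne_zero _ hx))
      have e4 : (x ^ 2 - 1) ^ 2 = 0 := by linear_combination -e1 + x ^ 4 * e3 - x ^ 2 * h3'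
      rw [pow_mul, sub_eq_zero.1 (pow_eq_zero_iff two_ne_zero |>.1 e4), one_pow] at e3
      exact h2' (by linear_combination e3)
  · refine tri_case g' hab p1 (k := 1) (c := 1) (by omega) one_ne_zero
      (Or.inr ⟨le_rfl, by rw [show 1 - a = 0 by omega, pow_zero]⟩) (cop fun x e1 e2 => ?_)
    simp only [map_one, one_mul] at e1 e2
    obtain ⟨j, rfl⟩ : ∃ j, m = j + 2 := ⟨m - 2, by omega⟩
    rw [show j + 2 - 1 = j + 1 by omega] at e2
    have hx : x ≠ 0 := fun e => by simp [e] at e1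
    have e3 : x ^ j = -1 := by
      have : x * (x ^ j + 1) = 0 := by linear_combination e2 - e1
      exact eq_neg_of_add_eq_zero_left ((mul_eq_zero.1 this).resolve_left hx)
    have e4 : (x - 1) ^ 2 = 0 := by linear_combination -e1 + x ^ 2 * e3 - x * h3'
    rw [sub_eq_zero.1 (pow_eq_zero_iff two_ne_zero |>.1 e4), one_pow] at e3
    exact h2' (by linear_combination e3)

end Cfsg.Agent.S2445
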