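import Cfsg.Statements.S2450
import Cfsg.Agent.Lib.Lin.SL2Prod

set_option autoImplicit false
open Cfsg

namespace Cfsg.Agent.S2450

open CA.SL2Basic CA.SL2Torus CA.SL2Unip CA.SL2Embed CA.PSL2Struct CA.SL2Prod CA.Mat2

theorem three {F : Type*} [Field F] [Fintype F] (h4 : 4 ≤ Fintype.card F) (α c : F)
    (h : ∀ γ, γ ≠ α → γ ^ 2 = c ^ 2) : False := by
  classical
  have := Finset.card_le_card (show Finset.univ ⊆ ({α, c, -c} : Finset F) from fun γ _ => by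
    have := h γ
    rw [sq_eq_sq_iff_eq_or_eq_neg] at this
    simp only [Finset.mem_insert, Finset.mem_singleton]; tauto)
  have := Finset.card_le_three (a := α) (b := c) (c := -c)
  simp only [Finset.card_univ] at *; omega

/-- The Arad–Herzog conjecture for PSL(2,q): let F be a finite field with q ≥ 4 elements. For any two non-identity elements a, b of PSL(2,F), the set of products of a conjugate of a with a conjugate of b is not a single conjugacy class. -/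
theorem result {F : Type*} [Field F] [Fintype F] (h4 : 4 ≤ Fintype.card F)
    (a b : Matrix.ProjectiveSpecialLinearGroup (Fin 2) F) (ha : a ≠ 1) (hb : b ≠ 1) (c : Matrix.ProjectiveSpecialLinearGroup (Fin 2) F) :
    {g : Matrix.ProjectiveSpecialLinearGroup (Fin 2) F | ∃ u v : Matrix.ProjectiveSpecialLinearGroup (Fin 2) F, g = (u * a * u⁻¹) * (v * b * v⁻¹)} ≠ {g | IsConj c g} := by
  intro H
  obtain ⟨C, rfl⟩ := pr_surj c
  have key : ∀ X Y, (∃ u, pr F X = u * a * u⁻¹) → (∃ v, pr F Y = v * b * v⁻¹) → (X * Y).1.trace ^ 2 = C.1.trace ^ 2 := by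
    rintro X Y ⟨u, hu⟩ ⟨v, hv⟩
    exact (sq_of_isConj (H.le ⟨u, v, by rw [map_mul, hu, hv]⟩)).symm
  have red : ∀ x : Matrix.ProjectiveSpecialLinearGroup (Fin 2) F, x ≠ 1 →
      ∃ X, (∃ u, pr F X = u * x * u⁻¹) ∧ NS X.1 ∧ (SS X ∨ ∃ s, s ≠ 0 ∧ X = u s) := fun x hx => by
    rcases ss_or_conj_u hx with ⟨X, h, rfl⟩ | ⟨y, s, hs, h⟩
    exacts [⟨X, ⟨1, by simp⟩, h.ns, .inl h⟩, ⟨u s, ⟨y, h.symm⟩, NS_u hs, .inr ⟨s, hs, rfl⟩⟩]
  have tr : ∀ {x : Matrix.ProjectiveSpecialLinearGroup (Fin 2) F} {X Z}, (∃ u, pr F X = u * x * u⁻¹) →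
      (∃ u, pr F Z = u * pr F X * u⁻¹) → ∃ u, pr F Z = u * x * u⁻¹ := by
    rintro x X Z ⟨u, hu⟩ ⟨v, hv⟩
    exact ⟨v * u, by rw [hv, hu]; group⟩
  obtain ⟨A, a1, a2, a3⟩ := red a ha
  obtain ⟨B, b1, b2, b3⟩ := red b hb
  rcases a3 with a3 | ⟨s, hs, rfl⟩
  · refine three h4 A.1.trace C.1.trace fun γ hγ => ?_
    obtain ⟨Z, z1, rfl⟩ := exists_tr b2 A.1.trace γ (b3.imp id (by rintro ⟨s, -, rfl⟩; exact ⟨trace_u s, .inl hγ⟩))
    exact key _ _ (tr a1 (conj_of_tr a3 (.inl z1))) b1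
  rcases b3 with b3 | ⟨t, ht, rfl⟩
  · refine three h4 B.1.trace C.1.trace fun γ hγ => ?_
    obtain ⟨Z, z1, rfl⟩ := exists_tr a2 B.1.trace γ (.inr ⟨trace_u s, .inl hγ⟩)
    rw [Matrix.SpecialLinearGroup.coe_mul, Matrix.trace_mul_comm]
    exact key _ _ a1 (tr b1 (conj_of_tr b3 (.inl z1)))
  have h0 := key _ _ a1 b1
  have h1 : ∀ r : Fˣ, s * t * r ^ 2 = 4 := fun r => by
    have := key _ _ a1 (tr b1 ⟨pr F (w0 * dg r), (show pr F (l (-(r ^ 2 * t))) = pr F (w0 * dg r * u t * (w0 * dg r)⁻¹) by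
      rw [← w0_conj_u, ← dg_conj_u]; congr 1; group).trans (by simp only [map_mul, map_inv])⟩)
    rw [← h0, ← u_add, trace_u, u, l, mk2_mul, trace_mk2] at this
    exact mul_left_cancel₀ (mul_ne_zero (mul_ne_zero hs ht) (pow_ne_zero 2 r.ne_zero)) (by linear_combination this)
  obtain ⟨r, hr⟩ := exists_sq_ne_one F (by rwa [Nat.card_eq_fintype_card])
  exact hr (mul_left_cancel₀ (mul_ne_zero hs ht) (by simpa using (h1 r).trans (h1 1).symm))

end Cfsg.Agent.S2450
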