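import Cfsg.Statements.S2455
import Cfsg.Agent.Lib.Lin.SL2Prod

set_option autoImplicit false
open Cfsg

namespace Cfsg.Agent.S2455

open CA.SL2Basic CA.SL2Torus CA.PSL2Struct CA.SL2Prod

/-- A strong covering result in the direction of Thompson's conjecture (non-identity elements) for PSL(2,q), q odd: let F be a finite field of odd characteristic p with at least 5 elements and let x ∈ PSL(2,F) have order greater than 2 and not divisible by p (so x is not unipotent). Then every non-identity element of PSL(2,F) is a product of two conjugates of x. -/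
theorem result {F : Type*} [Field F] [Fintype F] (p : ℕ) [Fact p.Prime] [CharP F p] (hp : p ≠ 2) (h5 : 5 ≤ Fintype.card F)
    (x : Matrix.ProjectiveSpecialLinearGroup (Fin 2) F) (hx2 : 2 < orderOf x) (hxp : ¬ p ∣ orderOf x) : ∀ g : Matrix.ProjectiveSpecialLinearGroup (Fin 2) F, g ≠ 1 → ∃ u v : Matrix.ProjectiveSpecialLinearGroup (Fin 2) F, g = (u * x * u⁻¹) * (v * x * v⁻¹) := by
  have h1 : x ≠ 1 := by rintro rfl; simp at hx2
  obtain ⟨X, hX, rfl⟩ := exists_ss_of_pow h1 (by rwa [Ne, CharP.cast_eq_zero_iff F p]) (pow_orderOf_eq_one x)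
  refine fun g hg => sq_class hX (.inl (mul_ne_zero (two_ne_zero_of_char p hp) fun h => ?_)) hg
  exact hx2.not_ge (orderOf_le_of_pow_eq_one two_pos (by rw [sq, pr_mul_self_of_trace h]))

end Cfsg.Agent.S2455
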