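import Cfsg.Statements.S2456
import Cfsg.Agent.Lib.Lin.SL2Prod

set_option autoImplicit false
open Cfsg

namespace Cfsg.Agent.S2456

open CA.SL2Basic CA.SL2Torus CA.PSL2Struct CA.SL2Prod

/-- A strong covering result in the direction of Thompson's conjecture (non-identity elements) for PSL(2,q), q even: let F be a finite field of characteristic 2 with q ≥ 4 elements and let x ∈ PSL(2,F) have order greater than 2 and not dividing q + 1. Then every non-identity element of PSL(2,F) is a product of two conjugates of x. -/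
theorem result {F : Type*} [Field F] [Fintype F] [CharP F 2] (h4 : 4 ≤ Fintype.card F)
    (x : Matrix.ProjectiveSpecialLinearGroup (Fin 2) F) (hx2 : 2 < orderOf x) (hxq : ¬ orderOf x ∣ Fintype.card F + 1) : ∀ g : Matrix.ProjectiveSpecialLinearGroup (Fin 2) F, g ≠ 1 → ∃ u v : Matrix.ProjectiveSpecialLinearGroup (Fin 2) F, g = (u * x * u⁻¹) * (v * x * v⁻¹) := by
  have h1 : x ≠ 1 := by rintro rfl; simp at hx2
  have h2 : (2 : F) = 0 := CharP.cast_eq_zero F 2
  obtain ⟨X, hX, rfl⟩ := exists_ss_of_pow h1 (fun h => hx2.ne' (orderOf_eq_char 2 h)) (pow_orderOf_eq_one x)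
  refine fun g hg => sq_class hX (.inr (hX.cases.resolve_right fun h => hxq ?_)) hg
  have := orderOf_dvd_card_Tb X
  rwa [card_Tb_aniso h, dd_even h2, Nat.div_one, Nat.card_eq_fintype_card] at this

end Cfsg.Agent.S2456
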