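import Cfsg.Statements.S2459
import Cfsg.Agent.Lib.Lin.Lev5
import Cfsg.Agent.Lib.Lin.FieldIso

set_option autoImplicit false
open Cfsg

namespace Cfsg.Agent.S2459

open CA.Lev CA.Rcf Matrix Module Polynomial

theorem sim_one {K V : Type*} [Field K] [AddCommGroup V] [Module K V] [FiniteDimensional K V]
    (h : finrank K V = 1) (c : K) : Sim (toLin' !![c]) (c • (1 : End K V)) :=
  ⟨LinearEquiv.ofFinrankEq _ _ (by simp [h]), fun v => by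
    rw [show toLin' !![c] v = c • v by ext i; fin_cases i; simp [vecHead]]; simp⟩

section
universe u
variable {K : Type*} [Field K] {V : Type u} [AddCommGroup V] [Module K V] [FiniteDimensional K V]
  {g : End K V}

theorem step {e : V} {φ : Dual K V} (h1 : φ e = 1) (h2 : φ (g e) = 1)
    {δ : End K (LinearMap.ker (φ.smulRight e))} (hδ : CD (schur (rho_g h2)) δ) {q : K[X]} {c : K}
    (hc : IsCoprime (X - C c) q) (hq : aeval δ q = 0) {n : ℕ} {D : Matrix (Fin n) (Fin n) K}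
    (s : Sim (toLin' D) δ) : ∃ a, CD g a ∧ aeval a ((X - C c) * q) = 0 ∧ Flex a ∧
      Sim (toLin' (reindex finSumFinEquiv finSumFinEquiv (fromBlocks !![c] 0 0 D))) a := by
  obtain ⟨a, p1, p2⟩ := cd_block (rho_sq h1) _ hδ hc (aeval_smul_one c) hq
  exact ⟨a, p1, aeval_of_sim p2 (aeval_prod (aeval_smul_one c) hq),
    ((flex_smul_one (by rw [finrank_range_rho h1]; simp) c).prod δ).of_sim p2,
    (sim_fromBlocks _ _).symm.trans (((sim_one (finrank_range_rho h1) c).prodMap s).trans p2)⟩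

theorem dim2 (hn : finrank K V = 2) (hd : LinearMap.det g = 1) (hs : NS g) {b c : K} (h : b ≠ c) :
    ∃ a, CD g a ∧ aeval a ((X - C b) * (X - C c)) = 0 ∧ Sim (toLin' !![b, 0; 0, c]) a := by
  obtain ⟨e, φ, h1, h2, -⟩ := sourour_step (surj_of_det (by rw [hd]; exact one_ne_zero)) hs
  have f1 : finrank K (LinearMap.ker (φ.smulRight e)) = 1 := by have := finrank_ker_rho h1; omega
  obtain ⟨a, p1, p2, -, p3⟩ := step h1 h2 (δ := c • 1)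
    (by rw [eq_one_of_finrank_one f1 ((det_schur (rho_sq h1) _).trans hd)]; exact cd_one _)
    (coprime_lin h) (aeval_smul_one _) (sim_one f1 c)
  refine ⟨a, p1, p2, ?_⟩
  rwa [show reindex finSumFinEquiv finSumFinEquiv (fromBlocks !![b] 0 0 !![c]) = !![b, 0; 0, c] by
    ext i j; fin_cases i <;> fin_cases j <;> rfl] at p3

theorem dim3 (hn : finrank K V = 3) (hd : LinearMap.det g = 1) (hs : NS g) {a b c : K} (h1 : a ≠ b)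
    (h2 : a ≠ c) (h3 : b ≠ c) : ∃ u, CD g u ∧ Flex u ∧ Sim (toLin' !![a, 0, 0; 0, b, 0; 0, 0, c]) u := by
  obtain ⟨e, φ, p1, p2, p3⟩ := sourour_step (surj_of_det (by rw [hd]; exact one_ne_zero)) hs
  obtain ⟨u, q1, q2, q3⟩ := dim2 (by have := finrank_ker_rho p1; omega)
    ((det_schur (rho_sq p1) _).trans hd) (p3 hn.ge) h3
  obtain ⟨v, r1, -, r2, r3⟩ := step p1 p2 q1 ((coprime_lin h1).mul_right (coprime_lin h2)) q2 q3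
  refine ⟨v, r1, r2, ?_⟩
  rwa [show reindex finSumFinEquiv finSumFinEquiv (fromBlocks !![a] 0 0 !![b, 0; 0, c]) =
    !![a, 0, 0; 0, b, 0; 0, 0, c] by ext i j; fin_cases i <;> fin_cases j <;> rfl] at r3

end

theorem big {F : Type*} [Field F] {l : F} (l0 : l ≠ 0) (l2 : l * l ≠ 1) (x g : SpecialLinearGroup (Fin 3) F)
    (hx : x.1 = !![l, 0, 0; 0, l⁻¹, 0; 0, 0, 1]) (hs : NS (toLin' g.1)) :
    ∃ u v, g = u * x * u⁻¹ * (v * x * v⁻¹) := by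
  have l1 : l ≠ 1 := fun h => l2 (by rw [h, mul_one])
  have l3 : l ≠ l⁻¹ := fun h => l2 (by nth_rw 2 [h]; exact mul_inv_cancel₀ l0)
  obtain ⟨a, ⟨a', p1, p2⟩, fl, s⟩ := dim3 (by simp) (by rw [LinearMap.det_toLin', g.2]) hs l3 l1
    (inv_ne_one.2 l1)
  rw [← hx] at s
  replace fl := fl.of_sim s.symm
  have da : LinearMap.det a = 1 := by rw [← s.det_eq, LinearMap.det_toLin', x.2]
  let A : SpecialLinearGroup (Fin 3) F := ⟨LinearMap.toMatrix' a, by rwa [LinearMap.det_toMatrix']⟩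
  let A' : SpecialLinearGroup (Fin 3) F :=
    ⟨LinearMap.toMatrix' a', by rwa [LinearMap.det_toMatrix', ← p2.det_eq]⟩
  obtain ⟨u, hu⟩ := isConj_iff.1 (isConj_SL (g := x) (h := A) (by simpa [A] using s) fl)
  obtain ⟨v, hv⟩ := isConj_iff.1 (isConj_SL (g := x) (h := A') (by simpa [A'] using s.trans p2) fl)
  have e1 : g * A' = A := Subtype.ext (toLin'.injective (by
    change toLin' (g.1 * LinearMap.toMatrix' a') = toLin' (LinearMap.toMatrix' a)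
    rw [toLin'_mul, toLin'_toMatrix', toLin'_toMatrix', ← p1]; rfl))
  let w : SpecialLinearGroup (Fin 3) F := ⟨!![0, 1, 0; 1, 0, 0; 0, 0, -1], by simp [det_fin_three]⟩
  have e2 : x * w * x = w := Subtype.ext (by
    change x.1 * w.1 * x.1 = w.1
    ext i j; fin_cases i <;> fin_cases j <;> simp [hx, w, Matrix.mul_apply, Fin.sum_univ_three, l0])
  refine ⟨u, v * w, ?_⟩
  have e3 : w * x = x⁻¹ * w := by rw [eq_inv_mul_iff_mul_eq, ← mul_assoc, e2]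
  rw [hu, eq_mul_inv_of_mul_eq e1, ← hv, mul_assoc v w, e3]
  group

abbrev M3 := Matrix (Fin 3) (Fin 3) (ZMod 3)

def x3 : M3 := !![1, 0, 0; 0, 0, 2; 0, 1, 0]

def tab : List (M3 × M3 × M3 × M3 × M3) :=
  [(!![0, 0, 1; 1, 0, 0; 0, 1, 0], !![0, 0, 1; 0, 1, 1; 2, 1, 1], !![0, 1, 2; 2, 1, 0; 1, 0, 0], !![1, 1, 1; 0, 1, 0; 2, 2, 0], !![0, 2, 2; 0, 1, 0; 1, 0, 1]),
  (!![0, 0, 1; 1, 0, 0; 0, 1, 1], !![0, 0, 1; 0, 1, 1; 2, 2, 0], !![1, 2, 2; 2, 1, 0; 1, 0, 0], !![1, 1, 1; 0, 1, 0; 2, 2, 0], !![0, 2, 2; 0, 1, 0; 1, 0, 1]),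
  (!![0, 0, 1; 1, 0, 0; 0, 1, 2], !![0, 0, 1; 0, 1, 1; 2, 0, 2], !![2, 0, 2; 2, 1, 0; 1, 0, 0], !![1, 1, 1; 0, 1, 0; 2, 2, 0], !![0, 2, 2; 0, 1, 0; 1, 0, 1]),
  (!![0, 0, 1; 1, 0, 1; 0, 1, 0], !![0, 0, 1; 0, 1, 0; 2, 0, 2], !![2, 0, 2; 0, 1, 0; 1, 0, 0], !![1, 1, 1; 1, 0, 1; 1, 1, 0], !![2, 1, 1; 1, 2, 0; 1, 0, 2]),
  (!![0, 0, 1; 1, 0, 1; 0, 1, 1], !![0, 0, 1; 0, 1, 0; 2, 1, 1], !![1, 1, 2; 0, 1, 0; 1, 0, 0], !![1, 1, 1; 1, 0, 1; 1, 1, 0], !![2, 1, 1; 1, 2, 0; 1, 0, 2]),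
  (!![0, 0, 1; 1, 0, 1; 0, 1, 2], !![0, 0, 1; 0, 1, 0; 2, 2, 0], !![0, 2, 2; 0, 1, 0; 1, 0, 0], !![1, 1, 1; 1, 0, 1; 1, 1, 0], !![2, 1, 1; 1, 2, 0; 1, 0, 2]),
  (!![0, 0, 1; 1, 0, 2; 0, 1, 0], !![0, 0, 1; 0, 1, 0; 2, 1, 0], !![0, 1, 2; 0, 1, 0; 1, 0, 0], !![1, 1, 1; 2, 0, 2; 2, 2, 0], !![2, 2, 2; 1, 1, 0; 1, 0, 1]),
  (!![0, 0, 1; 1, 0, 2; 0, 1, 1], !![0, 0, 1; 0, 1, 0; 2, 2, 2], !![2, 2, 2; 0, 1, 0; 1, 0, 0], !![1, 1, 1; 2, 0, 2; 2, 2, 0], !![2, 2, 2; 1, 1, 0; 1, 0, 1]),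
  (!![0, 0, 1; 1, 0, 2; 0, 1, 2], !![0, 0, 1; 0, 1, 0; 2, 0, 1], !![1, 0, 2; 0, 1, 0; 1, 0, 0], !![1, 1, 1; 2, 0, 2; 2, 2, 0], !![2, 2, 2; 1, 1, 0; 1, 0, 1]),
  (!![1, 0, 0; 0, 0, 2; 0, 1, 0], !![0, 0, 1; 0, 1, 0; 2, 0, 1], !![1, 0, 2; 0, 1, 0; 1, 0, 0], !![1, 1, 1; 1, 2, 1; 1, 1, 2], !![0, 2, 2; 2, 1, 0; 2, 0, 1]),
  (!![1, 0, 0; 0, 0, 2; 0, 1, 1], !![0, 0, 1; 0, 1, 0; 2, 1, 2], !![2, 1, 2; 0, 1, 0; 1, 0, 0], !![1, 1, 1; 1, 2, 1; 1, 1, 2], !![0, 2, 2; 2, 1, 0; 2, 0, 1]),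
  (!![1, 0, 0; 0, 0, 2; 0, 1, 2], !![0, 0, 1; 0, 1, 0; 2, 2, 0], !![0, 2, 2; 0, 1, 0; 1, 0, 0], !![1, 1, 1; 1, 2, 1; 1, 1, 2], !![0, 2, 2; 2, 1, 0; 2, 0, 1]),
  (!![2, 0, 0; 0, 0, 1; 0, 1, 0], !![0, 0, 1; 0, 1, 0; 2, 2, 0], !![0, 2, 2; 0, 1, 0; 1, 0, 0], !![1, 1, 1; 2, 1, 2; 2, 2, 1], !![0, 1, 1; 2, 2, 0; 2, 0, 2]),
  (!![2, 0, 0; 0, 0, 1; 0, 1, 1], !![0, 0, 1; 0, 1, 0; 2, 1, 2], !![2, 1, 2; 0, 1, 0; 1, 0, 0], !![1, 1, 1; 2, 1, 2; 2, 2, 1], !![0, 1, 1; 2, 2, 0; 2, 0, 2]),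
  (!![2, 0, 0; 0, 0, 1; 0, 1, 2], !![0, 0, 1; 0, 1, 0; 2, 0, 1], !![1, 0, 2; 0, 1, 0; 1, 0, 0], !![1, 1, 1; 2, 1, 2; 2, 2, 1], !![0, 1, 1; 2, 2, 0; 2, 0, 2]),
  (!![1, 0, 0; 0, 1, 0; 0, 0, 1], !![0, 0, 1; 0, 1, 0; 2, 0, 0], !![0, 0, 2; 0, 1, 0; 1, 0, 0], !![0, 0, 1; 0, 2, 0; 1, 0, 0], !![0, 0, 1; 0, 2, 0; 1, 0, 0]),
  (!![1, 0, 0; 0, 2, 0; 0, 0, 2], !![1, 0, 0; 0, 0, 1; 0, 2, 0], !![1, 0, 0; 0, 0, 2; 0, 1, 0], !![1, 0, 0; 0, 0, 1; 0, 2, 0], !![1, 0, 0; 0, 0, 2; 0, 1, 0]),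
  (!![2, 0, 0; 0, 1, 0; 0, 0, 2], !![0, 0, 1; 1, 0, 0; 0, 1, 0], !![0, 1, 0; 0, 0, 1; 1, 0, 0], !![0, 0, 1; 1, 0, 0; 0, 1, 0], !![0, 1, 0; 0, 0, 1; 1, 0, 0]),
  (!![2, 0, 0; 0, 2, 0; 0, 0, 1], !![0, 0, 1; 0, 1, 0; 2, 0, 0], !![0, 0, 2; 0, 1, 0; 1, 0, 0], !![0, 0, 1; 0, 1, 0; 2, 0, 0], !![0, 0, 2; 0, 1, 0; 1, 0, 0])]

attribute [local instance 2000] List.decidableBAll List.decidableBEx

theorem tab_ok : ∀ t ∈ tab, t.2.1 * t.2.2.1 = 1 ∧ t.2.2.2.1 * t.2.2.2.2 = 1 ∧ t.2.1.det = 1 ∧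
    t.2.2.2.1.det = 1 ∧ t.1 = t.2.1 * x3 * t.2.2.1 * (t.2.2.2.1 * x3 * t.2.2.2.2) := by
  simp only [det_fin_three]; decide +kernel

theorem tab_all : ∀ a b c : ZMod 3, ∀ M ∈ [!![0, 0, a; 1, 0, b; 0, 1, c], !![a, 0, 0; 0, 0, b; 0, 1, c],
    !![a, 0, 0; 0, b, 0; 0, 0, c]], M.det = 1 → ∃ t ∈ tab, t.1 = M := by
  simp only [det_fin_three]; decide +kernel

theorem small (x g : SpecialLinearGroup (Fin 3) (ZMod 3)) (hx : x.1 = x3) :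
    ∃ u v, g = u * x * u⁻¹ * (v * x * v⁻¹) := by
  obtain ⟨M, h1, s⟩ : ∃ M ∈ tab.map Prod.fst, Sim (toLin' g.1) (toLin' M) := by
    obtain ⟨a, b, c, h | h | h⟩ := enum3 (toLin' g.1) (by simp) <;>
    exact ⟨_, List.mem_map.2 (tab_all a b c _ (by simp) (by
      rw [← LinearMap.det_toLin', ← h.det_eq, LinearMap.det_toLin', g.2])), h⟩
  obtain ⟨⟨M, u, u', v, v'⟩, h2, rfl⟩ := List.mem_map.1 h1
  obtain ⟨p1, p2, p3, p4, p5⟩ := tab_ok _ h2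
  simp only at p1 p2 p3 p4 p5 s
  let U : SpecialLinearGroup (Fin 3) (ZMod 3) := ⟨u, p3⟩
  let W : SpecialLinearGroup (Fin 3) (ZMod 3) := ⟨v, p4⟩
  have i1 : (U⁻¹).1 = u' := left_inv_eq_right_inv (congrArg Subtype.val (inv_mul_cancel U)) p1
  have i2 : (W⁻¹).1 = v' := left_inv_eq_right_inv (congrArg Subtype.val (inv_mul_cancel W)) p2
  obtain ⟨z, hz⟩ := isConj_iff.1 (isConj_SL (g := U * x * U⁻¹ * (W * x * W⁻¹)) (h := g) (by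
    change Sim (toLin' (u * x.1 * (U⁻¹).1 * (v * x.1 * (W⁻¹).1))) _
    rw [i1, i2, hx, ← p5]; exact s.symm) fun c hc =>
      ⟨LinearEquiv.smulOfNeZero _ _ c hc, fun y => by simp, by
        change LinearMap.det (c • (1 : End (ZMod 3) (Fin 3 → ZMod 3))) = c
        rw [LinearMap.det_smul]
        simp only [finrank_fin_fun, map_one, mul_one]; revert c; decide⟩)
  exact ⟨z * U, z * W, by rw [← hz]; group⟩

/-- A form of Thompson's conjecture for PSL(3,q), q > 2 (covering the non-identity elements), with a semisimple class: for F a finite field of characteristic p with more than 2 elements there is an element x of PSL(3,F) of order prime to p such that every non-identity element of PSL(3,F) is a product of two conjugates of x. -/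
theorem result {F : Type*} [Field F] [Fintype F] (p : ℕ) [Fact p.Prime] [CharP F p] (h3 : 3 ≤ Fintype.card F) :
    ∃ x : Matrix.ProjectiveSpecialLinearGroup (Fin 3) F, ¬ p ∣ orderOf x ∧ ∀ g : Matrix.ProjectiveSpecialLinearGroup (Fin 3) F, g ≠ 1 → ∃ u v : Matrix.ProjectiveSpecialLinearGroup (Fin 3) F, g = (u * x * u⁻¹) * (v * x * v⁻¹) := by
  suffices h : ∃ (x : SpecialLinearGroup (Fin 3) F) (m : ℕ), (m : F) ≠ 0 ∧ x ^ m = 1 ∧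
      ∀ g : SpecialLinearGroup (Fin 3) F, NS (toLin' g.1) → ∃ u v, g = u * x * u⁻¹ * (v * x * v⁻¹) by
    obtain ⟨x, m, h1, h2, h⟩ := h
    refine ⟨x, fun hp => h1 ((CharP.cast_eq_zero_iff F p m).2 (hp.trans (orderOf_dvd_of_pow_eq_one
      (by rw [← QuotientGroup.mk_pow, h2]; rfl)))), fun g hg => ?_⟩
    obtain ⟨g, rfl⟩ := QuotientGroup.mk_surjective g
    obtain ⟨u, v, e⟩ := h g (ns_toLin' fun ⟨c, hc⟩ => hg ((QuotientGroup.eq_one_iff _).2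
      (Subgroup.mem_center_iff.2 fun y => Subtype.ext (by
        change y.1 * g.1 = g.1 * y.1
        simp [hc]))))
    exact ⟨u, v, by rw [e]; rfl⟩
  rcases h3.eq_or_lt with h3 | h3
  · obtain ⟨e⟩ := CA.FieldIso.nonempty_zmod (F := F) 3 (by rw [Nat.card_eq_fintype_card, h3])
    let x : SpecialLinearGroup (Fin 3) (ZMod 3) := ⟨x3, by rw [det_fin_three]; decide⟩
    let E := (CA.FieldIso.slEquiv (n := Fin 3) e).symm
    refine ⟨E x, 4, fun h => ?_, ?_, fun g _ => ?_⟩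
    · have := congrArg e h
      rw [map_natCast, map_zero] at this
      revert this; decide
    · rw [← map_pow, show x ^ 4 = 1 from Subtype.ext (by change x3 ^ 4 = 1; decide +kernel), map_one]
    · obtain ⟨u, v, h⟩ := small x (E.symm g) rfl
      exact ⟨E u, E v, by simpa using congrArg E h⟩
  obtain ⟨l, l0, l2⟩ := CA.SLnGen.exists_sq_ne_one (F := F) (by rwa [Nat.card_eq_fintype_card])
  refine ⟨⟨!![l, 0, 0; 0, l⁻¹, 0; 0, 0, 1], by simp [det_fin_three, l0]⟩, Fintype.card F - 1, ?_, ?_,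
    fun g hg => big l0 (by rwa [← sq]) _ g rfl hg⟩
  · rw [Nat.cast_sub Fintype.card_pos, FiniteField.cast_card_eq_zero]; simp
  · refine Subtype.ext ?_
    refine (Matrix.SpecialLinearGroup.coe_pow _ _).trans ?_
    change !![l, 0, 0; 0, l⁻¹, 0; 0, 0, 1] ^ _ = 1
    rw [show !![l, 0, 0; 0, l⁻¹, 0; 0, 0, 1] = diagonal ![l, l⁻¹, 1] by
      ext i j; fin_cases i <;> fin_cases j <;> rfl, diagonal_pow, ← diagonal_one]
    congr 1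
    ext i; fin_cases i <;> simp [FiniteField.pow_card_sub_one_eq_one l l0]

end Cfsg.Agent.S2459
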