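import Cfsg.Statements.S2460
import Cfsg.Agent.Lib.Lin.H19Sp4
import Mathlib.LinearAlgebra.Matrix.BilinearForm
import Mathlib.LinearAlgebra.Matrix.CharP
import Mathlib.LinearAlgebra.Matrix.Charpoly.Coeff
import Mathlib.Algebra.CharP.Lemmas
import Mathlib.Tactic.NoncommRing

set_option autoImplicit false
open Cfsg

namespace Cfsg.Agent.S2460


open Matrix CA.H19Sp4

section
variable {F : Type*} [Field F]

abbrev Ix := Fin 2 ⊕ Fin 2
abbrev Sp (F : Type*) [Field F] := Matrix.symplecticGroup (Fin 2) F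
abbrev M2 (F : Type*) := Matrix (Fin 2) (Fin 2) F

noncomputable def om (F : Type*) [Field F] : (Ix → F) →ₗ[F] (Ix → F) →ₗ[F] F :=
  Matrix.toBilin' (J (Fin 2) F)

theorem om_apply (u v : Ix → F) : om F u v = u ⬝ᵥ J (Fin 2) F *ᵥ v := Matrix.toBilin'_apply' _ _ _

theorem om_eq (u v : Ix → F) : om F u v = u (.inr 0) * v (.inl 0) + u (.inr 1) * v (.inl 1)
    - u (.inl 0) * v (.inr 0) - u (.inl 1) * v (.inr 1) := by
  rw [om_apply]
  simp [J, Matrix.mulVec, dotProduct, Fintype.sum_sum_type, Fin.sum_univ_two, Matrix.one_apply]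
  ring

noncomputable def sy (F : Type*) [Field F] : Sy F (Ix → F) where
  ω := om F
  alt v := by rw [om_eq]; ring
  E1 := Pi.single (.inl 0) 1
  E2 := Pi.single (.inl 1) 1
  F1 := Pi.single (.inr 0) 1
  F2 := Pi.single (.inr 1) 1
  std := by constructor <;> simp [om_eq]
  exp0 v := by
    funext i
    rcases i with i | i <;> fin_cases i <;> simp [om_eq]

theorem gram (P M : Matrix Ix Ix F) (a b : Ix) :
    (Pᵀ * J (Fin 2) F * M) a b = om F (fun i => P i a) (fun i => M i b) := by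
  rw [om_apply, Matrix.mul_assoc, Matrix.mul_apply]
  rfl

theorem iso (g : Sp F) : (sy F).Iso (Matrix.toLin' g.1) := fun u v => by
  have h := SymplecticGroup.mem_iff'.1 g.2
  change om F _ _ = om F _ _
  rw [om_apply, om_apply, Matrix.toLin'_apply, Matrix.toLin'_apply]
  conv_rhs => rw [← h]
  rw [← Matrix.mulVec_mulVec, ← Matrix.mulVec_mulVec, Matrix.dotProduct_mulVec u, Matrix.vecMul_transpose]

theorem ul (g : Sp F) {a b c d : F} (h : Nice (om F) (Matrix.toLin' g.1) a b c d) :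
    ∃ P : Sp F, (P⁻¹ * g * P).1.toBlocks₁₁ = !![a, b; c, d] := by
  obtain ⟨e1, e2, f1, f2, B, h1, h2, h3, h4⟩ := h
  have k1 := (sy F).skew e1 f1
  have k2 := (sy F).skew e2 f2
  have k3 := (sy F).skew e1 f2
  have k4 := (sy F).skew e2 f1
  have k5 := (sy F).skew e2 e1
  have k6 := (sy F).skew f2 f1
  have al := (sy F).alt
  change om F _ _ = - om F _ _ at k1 k2 k3 k4 k5 k6
  change ∀ v, om F v v = 0 at al
  rw [B.h11] at k1
  rw [B.h22] at k2
  rw [B.h21, neg_zero] at k3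
  rw [B.h12, neg_zero] at k4
  rw [B.ee, neg_zero] at k5
  rw [B.ff, neg_zero] at k6
  let c : Ix → Ix → F := Sum.elim ![e1, e2] ![f1, f2]
  let P : Matrix Ix Ix F := Matrix.of fun i j => c j i
  have hP : P ∈ Sp F := by
    rw [SymplecticGroup.mem_iff']
    ext a b
    rw [gram]
    change om F (c a) (c b) = _
    rcases a with a | a <;> rcases b with b | b <;> fin_cases a <;> fin_cases b <;>
      simp [c, J, al, k1, k2, k3, k4, k5, k6, B.ee, B.ff, B.h11, B.h22, B.h12, B.h21]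
  refine ⟨⟨P, hP⟩, ?_⟩
  have e : ((⟨P, hP⟩ : Sp F)⁻¹ * g * ⟨P, hP⟩).1 = -J (Fin 2) F * (Pᵀ * J (Fin 2) F * (g.1 * P)) := by
    rw [Submonoid.coe_mul, Submonoid.coe_mul, SymplecticGroup.coe_inv]
    simp only [Matrix.mul_assoc]
  have e2 : ∀ a b, (Pᵀ * J (Fin 2) F * (g.1 * P)) a b = om F (c a) (Matrix.toLin' g.1 (c b)) := by
    intro a b
    rw [gram]
    rfl
  rw [e]
  ext i j
  rw [Matrix.toBlocks₁₁, Matrix.of_apply, Matrix.mul_apply]
  simp only [e2]
  fin_cases i <;> fin_cases j <;>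
    simp [J, c, Fintype.sum_sum_type, Fin.sum_univ_two, Matrix.one_apply] <;>
    simpa using ‹_›

def D : GL (Fin 2) F →* Sp F where
  toFun B := ⟨fromBlocks B.1 0 0 (B⁻¹).1ᵀ, by
    rw [SymplecticGroup.fromBlocks_mem_iff]
    simp [← Matrix.transpose_mul]⟩
  map_one' := Subtype.ext (by simp)
  map_mul' A B := Subtype.ext (by simp [fromBlocks_multiply, Matrix.mul_inv_rev])

theorem D_val (B : GL (Fin 2) F) : (D B).1 = fromBlocks B.1 0 0 (B⁻¹).1ᵀ := rfl

def L (X : M2 F) (h : Xᵀ = X) : Sp F := ⟨fromBlocks 1 0 X 1, by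
  rw [SymplecticGroup.fromBlocks_mem_iff]; simp [h]⟩

def U (X : M2 F) (h : Xᵀ = X) : Sp F := ⟨fromBlocks 1 X 0 1, by
  rw [SymplecticGroup.fromBlocks_mem_iff]; simp [h]⟩

theorem gauss (g : Sp F) (M : GL (Fin 2) F) (h : g.1.toBlocks₁₁ = M.1) :
    ∃ X hX Y hY, g = L X hX * D M * U Y hY := by
  obtain ⟨g, hg⟩ := g
  obtain ⟨B, C, E, rfl⟩ : ∃ B C E, g = fromBlocks M.1 B C E :=
    ⟨_, _, _, by rw [← h, fromBlocks_toBlocks]⟩
  have ht := SymplecticGroup.transpose_mem hg
  rw [fromBlocks_transpose, SymplecticGroup.fromBlocks_mem_iff] at ht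
  obtain ⟨h1, -, h3⟩ := SymplecticGroup.fromBlocks_mem_iff.1 hg
  have h4 := ht.1
  simp only [transpose_transpose] at h4
  obtain ⟨M, N, hMN, hNM⟩ := M
  simp only at h1 h3 h4
  have t1 : Nᵀ * Mᵀ = 1 := by rw [← Matrix.transpose_mul, hMN, transpose_one]
  have t2 : Mᵀ * Nᵀ = 1 := by rw [← Matrix.transpose_mul, hNM, transpose_one]
  refine ⟨C * N, ?_, N * B, ?_, Subtype.ext ?_⟩
  · calc (C * N)ᵀ = Nᵀ * (Cᵀ * M) * N := by
          rw [Matrix.transpose_mul]; simp only [Matrix.mul_assoc, hMN, Matrix.mul_one]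
      _ = C * N := by rw [← h1, ← Matrix.mul_assoc, t1, Matrix.one_mul]
  · calc (N * B)ᵀ = N * (M * Bᵀ) * Nᵀ := by
          rw [Matrix.transpose_mul, ← Matrix.mul_assoc, hNM, Matrix.one_mul]
      _ = N * B := by rw [h4]; simp only [Matrix.mul_assoc, t2, Matrix.mul_one]
  · have hE : E = C * N * B + Nᵀ := by
      calc E = Nᵀ * (Mᵀ * E) := by rw [← Matrix.mul_assoc, t1, Matrix.one_mul]
        _ = Nᵀ * (Cᵀ * M * N * B + 1) := by
          rw [Matrix.mul_assoc Cᵀ, hMN, Matrix.mul_one, ← h3]; simp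
        _ = _ := by
          rw [← h1, Matrix.mul_add, Matrix.mul_one]
          simp only [← Matrix.mul_assoc, t1, Matrix.one_mul]
    change fromBlocks M B C E = fromBlocks 1 0 (C * N) 1 * fromBlocks M 0 0 Nᵀ * fromBlocks 1 (N * B) 0 1
    simp only [fromBlocks_multiply, Matrix.mul_one, Matrix.one_mul, Matrix.mul_zero, Matrix.zero_mul,
      add_zero, zero_add]
    rw [Matrix.mul_assoc C, hNM, Matrix.mul_one, ← Matrix.mul_assoc M, hMN, Matrix.one_mul, hE,
      Matrix.mul_assoc C]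

def Fp (B : M2 F) : Prop := ∀ X : M2 F, Xᵀ = X → ∃ Z : M2 F, Zᵀ = Z ∧ Z - Bᵀ * Z * B = X

theorem conjL (A : GL (Fin 2) F) (h : Fp (A⁻¹).1) (X : M2 F) (hX : Xᵀ = X) :
    IsConj (D A) (L X hX * D A) := by
  obtain ⟨Z, hZ, rfl⟩ := h X hX
  refine isConj_iff.2 ⟨L Z hZ, mul_inv_eq_of_eq_mul (Subtype.ext ?_)⟩
  obtain ⟨M, N, hMN, hNM⟩ := A
  change fromBlocks 1 0 Z 1 * fromBlocks M 0 0 Nᵀ =
    fromBlocks 1 0 (Z - Nᵀ * Z * N) 1 * fromBlocks M 0 0 Nᵀ * fromBlocks 1 0 Z 1
  simp only [fromBlocks_multiply, Matrix.mul_one, Matrix.one_mul, Matrix.mul_zero, Matrix.zero_mul,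
    add_zero, zero_add]
  rw [Matrix.sub_mul, Matrix.mul_assoc _ N, hNM, Matrix.mul_one, sub_add_cancel]

theorem conjU (A : GL (Fin 2) F) (h : Fp (A⁻¹).1ᵀ) (X : M2 F) (hX : Xᵀ = X) :
    IsConj (D A) (D A * U X hX) := by
  obtain ⟨Z, hZ, rfl⟩ := h X hX
  refine (isConj_iff.2 ⟨U Z hZ, mul_inv_eq_of_eq_mul (Subtype.ext ?_)⟩ : IsConj _ _).symm
  obtain ⟨M, N, hMN, hNM⟩ := A
  change fromBlocks 1 Z 0 1 * (fromBlocks M 0 0 Nᵀ * fromBlocks 1 (Z - Nᵀᵀ * Z * Nᵀ) 0 1) =
    fromBlocks M 0 0 Nᵀ * fromBlocks 1 Z 0 1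
  simp only [fromBlocks_multiply, Matrix.mul_one, Matrix.one_mul, Matrix.mul_zero, Matrix.zero_mul,
    add_zero, zero_add, transpose_transpose]
  rw [Matrix.mul_sub, ← Matrix.mul_assoc, ← Matrix.mul_assoc, hMN, Matrix.one_mul, sub_add_cancel]

abbrev mk : Sp F →* PSp 2 F := QuotientGroup.mk' _

def Cov (x g : PSp 2 F) : Prop := ∃ u v : PSp 2 F, g = (u * x * u⁻¹) * (v * x * v⁻¹)

theorem key (x : PSp 2 F) (g : Sp F) {a b c d : F} (h : Nice (om F) (Matrix.toLin' g.1) a b c d)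
    (B1 B2 : GL (Fin 2) F) (hB : (B1 * B2).1 = !![a, b; c, d]) (f1 : Fp (B1⁻¹).1)
    (f2 : Fp (B2⁻¹).1ᵀ) (c1 : IsConj x (mk (D B1))) (c2 : IsConj x (mk (D B2))) : Cov x (mk g) := by
  obtain ⟨P, hP⟩ := ul g h
  obtain ⟨X, hX, Y, hY, e⟩ := gauss _ (B1 * B2) (hP.trans hB.symm)
  obtain ⟨u, hu⟩ := isConj_iff.1 (c1.trans (mk.map_isConj (conjL B1 f1 X hX)))
  obtain ⟨v, hv⟩ := isConj_iff.1 (c2.trans (mk.map_isConj (conjU B2 f2 Y hY)))
  refine ⟨mk P * u, mk P * v, ?_⟩
  have : g = P * ((L X hX * D B1) * (D B2 * U Y hY)) * P⁻¹ := by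
    have e' : (L X hX * D B1) * (D B2 * U Y hY) = P⁻¹ * g * P := by
      rw [e, map_mul]; simp only [mul_assoc]
    rw [e']; group
  rw [this, map_mul, map_mul, map_mul, ← hu, ← hv, map_inv]
  group

def ng (g : Sp F) : Sp F := ⟨-g.1, SymplecticGroup.neg_mem g.2⟩

theorem mk_ng (g : Sp F) : mk (ng g) = mk g := by
  have : ng g = g * ng 1 := Subtype.ext (by simp [ng])
  rw [this, map_mul]
  have h : mk (ng (1 : Sp F)) = 1 := (QuotientGroup.eq_one_iff _).2 (by
    rw [Subgroup.mem_center_iff]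
    intro y
    exact Subtype.ext (by simp [ng]))
  rw [h, mul_one]

theorem finish (x : PSp 2 F)
    (h1 : ∀ g : Sp F, Nice (om F) (Matrix.toLin' g.1) 1 0 0 1 → Cov x (mk g))
    (h2 : (2 : F) ≠ 0 → ∀ g : Sp F, Nice (om F) (Matrix.toLin' g.1) 0 1 (-1) 0 → Cov x (mk g))
    (g : PSp 2 F) (hg : g ≠ 1) : Cov x g := by
  obtain ⟨g, rfl⟩ := QuotientGroup.mk'_surjective _ g
  have e : Matrix.toLin' (ng g).1 = - Matrix.toLin' g.1 := by simp [ng]
  have one : ∀ y : Sp F, (∀ v, Matrix.toLin' y.1 v = v) → y = 1 := fun y hy =>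
    Subtype.ext (Matrix.toLin'.injective (by
      rw [Submonoid.coe_one, Matrix.toLin'_one]; exact LinearMap.ext hy))
  have := (sy F).main (iso g) (fun h => hg (by rw [one g h, map_one])) (fun h => hg (by
    change mk g = 1
    rw [← mk_ng, one (ng g) (fun v => by rw [e, LinearMap.neg_apply, h, neg_neg]), map_one]))
  change Cov x (mk g)
  rcases this with h | h | ⟨h0, h | h⟩
  · exact h1 g h
  · rw [← mk_ng]; exact h1 _ (by rw [e]; exact h)
  · exact h2 h0 g h
  · rw [← mk_ng]; exact h2 h0 _ (by rw [e]; exact h)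

theorem fp_scalar {β : F} (h : β * β ≠ 1) : Fp (β • (1 : M2 F)) := fun X hX =>
  ⟨(1 - β * β)⁻¹ • X, by rw [transpose_smul, hX], by
    have : (1 - β * β) ≠ 0 := sub_ne_zero.2 h.symm
    simp only [transpose_smul, transpose_one, Matrix.smul_mul, Matrix.mul_smul, Matrix.one_mul,
      Matrix.mul_one, smul_smul, ← sub_smul]
    rw [show (1 - β * β)⁻¹ - β * ((1 - β * β)⁻¹ * β) = 1 by
      linear_combination inv_mul_cancel₀ this, one_smul]⟩

theorem ch (B : M2 F) (hd : B.det = -1) : B * (B - B.trace • (1 : M2 F)) = 1 := by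
  rw [Matrix.det_fin_two] at hd
  ext i j
  fin_cases i <;> fin_cases j <;> simp [Matrix.mul_apply, Fin.sum_univ_two, Matrix.trace_fin_two] <;>
    first | ring1 | linear_combination -hd

theorem fp_odd [Finite F] (h2 : (2 : F) ≠ 0) (B : M2 F) (hd : B.det = -1) (ht : B.trace ≠ 0) :
    Fp B := by
  have inj : ∀ Z : M2 F, Zᵀ = Z → Z - Bᵀ * Z * B = 0 → Z = 0 := by
    intro Z hZ h
    have h1 : B.trace • Z = Z * B - Bᵀ * Z := by
      have e : Z * (B - B.trace • (1 : M2 F)) = Bᵀ * Z := by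
        conv_lhs => rw [sub_eq_zero.1 h]
        rw [Matrix.mul_assoc, ch B hd, Matrix.mul_one]
      rw [← e, Matrix.mul_sub, Matrix.mul_smul, Matrix.mul_one, sub_sub_cancel]
    have h3 := congrArg transpose h1
    rw [transpose_smul, transpose_sub, Matrix.transpose_mul, Matrix.transpose_mul, hZ,
      transpose_transpose] at h3
    have : (2 * B.trace) • Z = 0 := by
      rw [two_mul, add_smul]
      nth_rewrite 1 [h1]
      rw [h3]; abel
    exact (smul_eq_zero.1 this).resolve_left (mul_ne_zero h2 ht)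
  let φ : {Z : M2 F // Zᵀ = Z} → {Z : M2 F // Zᵀ = Z} := fun Z => ⟨Z.1 - Bᵀ * Z.1 * B, by
    rw [transpose_sub, Matrix.transpose_mul, Matrix.transpose_mul, Z.2, transpose_transpose,
      Matrix.mul_assoc]⟩
  have hφ : Function.Injective φ := by
    intro Z W h
    have h' : Z.1 - Bᵀ * Z.1 * B = W.1 - Bᵀ * W.1 * B := congrArg Subtype.val h
    refine Subtype.ext (sub_eq_zero.1 (inj _ (by rw [transpose_sub, Z.2, W.2]) ?_))
    rw [Matrix.mul_sub, Matrix.sub_mul, sub_eq_zero]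
    rw [sub_eq_sub_iff_add_eq_add] at h' ⊢
    rw [h', add_comm]
  intro X hX
  obtain ⟨Z, hZ⟩ := Finite.injective_iff_surjective.1 hφ ⟨X, hX⟩
  exact ⟨Z.1, Z.2, congrArg Subtype.val hZ⟩

def cA (t : F) : GL (Fin 2) F := ⟨!![0, 1; 1, t], !![-t, 1; 1, 0], by
  ext i j; fin_cases i <;> fin_cases j <;> simp [Matrix.mul_apply, Fin.sum_univ_two], by
  ext i j; fin_cases i <;> fin_cases j <;> simp [Matrix.mul_apply, Fin.sum_univ_two]⟩

theorem cls0 {t : F} (h4 : t ^ 2 + 4 ≠ 0) (B : GL (Fin 2) F) (hd : B.1.det = -1) (ht : B.1.trace = t) :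
    IsConj (cA t) B := by
  have hd' := hd
  rw [Matrix.det_fin_two] at hd'
  rw [Matrix.trace_fin_two] at ht
  have main : ∀ x y : F, x * (B.1 1 0 * x + B.1 1 1 * y) - (B.1 0 0 * x + B.1 0 1 * y) * y ≠ 0 →
      IsConj (cA t) B := by
    intro x y h
    let P : M2 F := !![x, B.1 0 0 * x + B.1 0 1 * y; y, B.1 1 0 * x + B.1 1 1 * y]
    have hP : P.det ≠ 0 := by rwa [Matrix.det_fin_two_of]
    refine isConj_iff.2 ⟨Matrix.GeneralLinearGroup.mkOfDetNeZero P hP,
      mul_inv_eq_of_eq_mul (Units.ext ?_)⟩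
    change P * !![0, 1; 1, t] = B.1 * P
    ext i j
    fin_cases i <;> fin_cases j <;> simp [P, Matrix.mul_apply, Fin.sum_univ_two, ← ht]
    · linear_combination x * hd'
    · linear_combination y * hd'
  by_cases h1 : B.1 1 0 = 0
  · by_cases h2 : B.1 0 1 = 0
    · refine main 1 1 fun h => h4 ?_
      rw [h1, h2] at h hd'
      linear_combination (B.1 1 1 - B.1 0 0) * h + 4 * hd' - (t + B.1 0 0 + B.1 1 1) * ht
    · exact main 0 1 (by simpa using h2)
  · exact main 1 0 (by simpa using h1)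

theorem cls {t : F} (h4 : t ^ 2 + 4 ≠ 0) (B : GL (Fin 2) F) (hd : B.1.det = -1)
    (ht : B.1.trace = t ∨ B.1.trace = -t) : IsConj (mk (D (cA t))) (mk (D B)) := by
  rcases ht with ht | ht
  · exact mk.map_isConj (D.map_isConj (cls0 h4 B hd ht))
  · have e : D (-B) = ng (D B) := Subtype.ext (by
      change fromBlocks (-B).1 0 0 ((-B)⁻¹).1ᵀ = -fromBlocks B.1 0 0 (B⁻¹).1ᵀ
      rw [inv_neg, Units.val_neg, Units.val_neg, fromBlocks_neg, neg_zero, transpose_neg])
    rw [← mk_ng (D B), ← e]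
    refine mk.map_isConj (D.map_isConj (cls0 h4 _ ?_ ?_))
    · rw [Units.val_neg, Matrix.det_neg, hd]; simp
    · rw [Units.val_neg, Matrix.trace_neg, ht, neg_neg]

theorem inv_facts (B : GL (Fin 2) F) (hd : B.1.det = -1) :
    (B⁻¹).1.det = -1 ∧ (B⁻¹).1.trace = -B.1.trace := by
  have e : (B⁻¹).1 = B.1 - B.1.trace • (1 : M2 F) := by
    rw [← Matrix.mul_one (B⁻¹).1]
    conv_lhs => rw [← ch B.1 hd]
    rw [← Matrix.mul_assoc, ← Units.val_mul, inv_mul_cancel, Units.val_one, Matrix.one_mul]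
  rw [e]
  rw [Matrix.det_fin_two] at hd ⊢
  simp [Matrix.trace_fin_two]
  exact ⟨by linear_combination hd, by ring⟩

theorem key_odd [Finite F] (h2 : (2 : F) ≠ 0) {t : F} (h0 : t ≠ 0) (h4 : t ^ 2 + 4 ≠ 0) (g : Sp F)
    {a b c d : F} (h : Nice (om F) (Matrix.toLin' g.1) a b c d) (B1 B2 : GL (Fin 2) F)
    (hB : (B1 * B2⁻¹).1 = !![a, b; c, d]) (d1 : B1.1.det = -1) (t1 : B1.1.trace = t)
    (d2 : B2.1.det = -1) (t2 : B2.1.trace = t) : Cov (mk (D (cA t))) (mk g) := by
  refine key _ g h B1 B2⁻¹ hB (fp_odd h2 _ (inv_facts B1 d1).1 ?_) (fp_odd h2 _ ?_ ?_)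
    (cls h4 _ d1 (Or.inl t1)) (cls h4 _ (inv_facts B2 d2).1 (Or.inr ?_))
  · rw [(inv_facts B1 d1).2, t1]; exact neg_ne_zero.2 h0
  · rw [inv_inv, det_transpose, d2]
  · rw [inv_inv, trace_transpose, t2]; exact h0
  · rw [(inv_facts B2 d2).2, t2]

theorem ord_cA (p : ℕ) [hp : Fact p.Prime] [CharP F p] [Finite F] {t : F} (h4 : t ^ 2 + 4 ≠ 0)
    (h2 : (2 : F) ≠ 0) : ¬ p ∣ orderOf (cA t) := by
  intro h
  have hpow : ∀ k : ℕ, ∃ a b : F, (cA t ^ k).1 = !![a, b; b, a + t * b] := by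
    intro k
    induction k with
    | zero => exact ⟨1, 0, by ext i j; fin_cases i <;> fin_cases j <;> simp⟩
    | succ k ih =>
      obtain ⟨a, b, e⟩ := ih
      refine ⟨b, a + t * b, ?_⟩
      rw [pow_succ, Units.val_mul, e]
      ext i j
      fin_cases i <;> fin_cases j <;> simp [cA, Matrix.mul_apply, Fin.sum_univ_two] <;> ring
  have ho := orderOf_pow_orderOf_div (orderOf_pos (cA t)).ne' h
  obtain ⟨a, b, e⟩ := hpow (orderOf (cA t) / p)
  set y := cA t ^ (orderOf (cA t) / p)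
  have hy : y.1 ^ p = 1 := by rw [← Units.val_pow_eq_pow_val, ← ho, pow_orderOf_eq_one, Units.val_one]
  have hN : (y.1 - 1) ^ p = 0 := by
    rw [sub_pow_char_of_commute p (Commute.one_right _), hy, one_pow, sub_self]
  have tr : (y.1 - 1).trace = 0 := (Matrix.isNilpotent_trace_of_isNilpotent ⟨p, hN⟩).eq_zero
  have dt : (y.1 - 1).det = 0 := by
    have := congrArg Matrix.det hN
    rw [Matrix.det_pow, Matrix.det_zero] at this
    exact pow_eq_zero_iff hp.out.ne_zero |>.1 this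
  rw [e] at tr dt
  simp [Matrix.trace_fin_two, Matrix.det_fin_two] at tr dt
  have hb : b = 0 := by
    have : b ^ 2 * (t ^ 2 + 4) = 0 := by
      linear_combination (-4) * dt + (2 * (a - 1) + t * b) * tr
    exact pow_eq_zero_iff two_ne_zero |>.1 ((mul_eq_zero.1 this).resolve_right h4)
  have ha : a = 1 := by
    have : 2 * (a - 1) = 0 := by rw [hb] at tr; linear_combination tr
    exact sub_eq_zero.1 ((mul_eq_zero.1 this).resolve_left h2)
  have : y = 1 := Units.ext (by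
    rw [e, ha, hb]; ext i j; fin_cases i <;> fin_cases j <;> simp)
  rw [this, orderOf_one] at ho
  exact hp.out.ne_one ho.symm

end

/-- A form of Thompson's conjecture for the simple groups PSp(4,q), q ≥ 3 (covering the non-identity elements), with a semisimple class: for F a finite field of characteristic p with at least 3 elements there is an element x of PSp(4,F) of order prime to p such that every non-identity element of PSp(4,F) is a product of two conjugates of x. -/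
theorem result {F : Type*} [Field F] [Fintype F] (p : ℕ) [Fact p.Prime] [CharP F p] (h3 : 3 ≤ Fintype.card F) :
    ∃ x : Cfsg.PSp 2 F, ¬ p ∣ orderOf x ∧ ∀ g : Cfsg.PSp 2 F, g ≠ 1 → ∃ u v : Cfsg.PSp 2 F, g = (u * x * u⁻¹) * (v * x * v⁻¹) := by
  classical
  by_cases h2 : (2 : F) = 0
  · obtain ⟨α, h0, h1⟩ : ∃ α : F, α ≠ 0 ∧ α ≠ 1 := by
      by_contra! h
      have : (Finset.univ : Finset F) ⊆ {0, 1} := fun x _ => by
        by_cases hx : x = 0 <;> simp [hx, h x]
      have := (Finset.card_le_card this).trans Finset.card_le_two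
      rw [Finset.card_univ] at this
      omega
    have hα : α * α ≠ 1 := fun e => h1 (by
      have : (α - 1) ^ 2 = 0 := by linear_combination e + (1 - α) * h2
      exact sub_eq_zero.1 (pow_eq_zero_iff two_ne_zero |>.1 this))
    have hα' : α⁻¹ * α⁻¹ ≠ 1 := fun e => hα (by rw [← mul_inv, inv_eq_one] at e; exact e)
    let A : GL (Fin 2) F := ⟨α • 1, α⁻¹ • 1, by simp [smul_smul, h0], by simp [smul_smul, h0]⟩
    refine ⟨mk (D A), fun h => ?_, finish _ (fun g hg => ?_) (fun h => absurd h2 h)⟩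
    · have h5 : A ^ (Fintype.card F - 1) = 1 := Units.ext (by
        rw [Units.val_pow_eq_pow_val]
        change (α • (1 : M2 F)) ^ _ = 1
        rw [_root_.smul_pow, FiniteField.pow_card_sub_one_eq_one α h0, one_pow, one_smul])
      have h6 := (h.trans ((orderOf_map_dvd _ _).trans (orderOf_map_dvd _ _))).trans
        (orderOf_dvd_of_pow_eq_one h5)
      have h7 : p ∣ Fintype.card F := (CharP.cast_eq_zero_iff F p _).1 (FiniteField.cast_card_eq_zero F)
      have := (Nat.dvd_sub_iff_right (by omega) h7).1 h6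
      exact (Fact.out : p.Prime).ne_one (Nat.dvd_one.1 this)
    · refine key _ g hg A A⁻¹ (by rw [mul_inv_cancel]; ext i j; fin_cases i <;> fin_cases j <;> simp)
        (fp_scalar hα') ?_ (IsConj.refl _) (mk.map_isConj ?_)
      · rw [inv_inv]
        change Fp (α • (1 : M2 F))ᵀ
        rw [transpose_smul, transpose_one]
        exact fp_scalar hα
      · refine isConj_iff.2 ⟨SymplecticGroup.symJ _ _, mul_inv_eq_of_eq_mul (Subtype.ext ?_)⟩
        change J (Fin 2) F * fromBlocks (α • 1) 0 0 (α⁻¹ • 1)ᵀ =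
          fromBlocks (α⁻¹ • 1) 0 0 (α • 1)ᵀ * J (Fin 2) F
        simp [J, fromBlocks_multiply]
  · obtain ⟨t, h0, h4⟩ : ∃ t : F, t ≠ 0 ∧ t ^ 2 + 4 ≠ 0 := by
      by_cases h5 : (1 : F) ^ 2 + 4 = 0
      · refine ⟨2, h2, fun e => h2 ?_⟩
        have : (2 : F) ^ 3 = 0 := by linear_combination e
        exact pow_eq_zero_iff three_ne_zero |>.1 this
      · exact ⟨1, one_ne_zero, h5⟩
    have dA : (cA t).1.det = -1 := by simp [cA]
    have tA : (cA t).1.trace = t := by simp [cA]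
    refine ⟨mk (D (cA t)), fun h => ord_cA p h4 h2
      (h.trans ((orderOf_map_dvd _ _).trans (orderOf_map_dvd _ _))), finish _ (fun g hg => ?_)
      (fun _ g hg => ?_)⟩
    · exact key_odd h2 h0 h4 g hg (cA t) (cA t)
        (by rw [mul_inv_cancel]; ext i j; fin_cases i <;> fin_cases j <;> simp) dA tA dA tA
    · have hodd : Fintype.card F % 2 = 1 :=
        FiniteField.odd_card_of_char_ne_two (fun e => h2 (by
          have := (ringChar.spec F 2).2 (by rw [e])
          exact_mod_cast this))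
      obtain ⟨a, b, hab⟩ := FiniteField.exists_root_sum_quadratic
        (f := Polynomial.X ^ 2 - Polynomial.C t * Polynomial.X - 1)
        (g := Polynomial.X ^ 2 + Polynomial.C t * Polynomial.X) (by compute_degree!)
        (by compute_degree!) hodd
      simp only [Polynomial.eval_add, Polynomial.eval_sub, Polynomial.eval_pow, Polynomial.eval_X,
        Polynomial.eval_mul, Polynomial.eval_C, Polynomial.eval_one] at hab
      have d2 : (!![a, b; b + t, t - a] : M2 F).det = -1 := by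
        rw [Matrix.det_fin_two_of]; linear_combination -hab
      have d1 : (!![b + t, t - a; -a, -b] : M2 F).det = -1 := by
        rw [Matrix.det_fin_two_of]; linear_combination -hab
      let B2 := Matrix.GeneralLinearGroup.mkOfDetNeZero _ (d2.trans_ne (neg_ne_zero.2 one_ne_zero))
      let B1 := Matrix.GeneralLinearGroup.mkOfDetNeZero _ (d1.trans_ne (neg_ne_zero.2 one_ne_zero))
      refine key_odd h2 h0 h4 g hg B1 B2 ?_ d1 ?_ d2 ?_
      · have e : B1.1 = !![0, 1; -1, 0] * B2.1 := by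
          change !![b + t, t - a; -a, -b] = !![0, 1; -1, 0] * !![a, b; b + t, t - a]
          ext i j; fin_cases i <;> fin_cases j <;> simp [Matrix.mul_apply, Fin.sum_univ_two]
        rw [Units.val_mul, e, Matrix.mul_assoc, ← Units.val_mul, mul_inv_cancel, Units.val_one,
          Matrix.mul_one]
      · change (!![b + t, t - a; -a, -b] : M2 F).trace = t
        simp
      · change (!![a, b; b + t, t - a] : M2 F).trace = t
        simp

end Cfsg.Agent.S2460
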