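import Cfsg.Statements.S2466
import Cfsg.Agent.Lib.Perm.SnCyc

set_option autoImplicit false
open Cfsg

namespace Cfsg.Agent.S2466

open CA.SnCyc

/-- Adjacency of odd primes in the prime graph of the alternating groups: let r ≠ s be odd primes at most n. The alternating group of degree n has an element of order r·s if and only if r + s ≤ n. -/
theorem result (n r s : ℕ) (hr : r.Prime) (hs : s.Prime) (hr2 : r ≠ 2) (hs2 : s ≠ 2) (hrs : r ≠ s) (hrn : r ≤ n) (hsn : s ≤ n) :
    (r * s ∈ Set.range (orderOf : alternatingGroup (Fin n) → ℕ)) ↔ r + s ≤ n := by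
  rw [mem_range_orderOf_alt, Fintype.card_fin]
  constructor
  · rintro ⟨m, h1, h2, -, h3⟩
    obtain ⟨a, ha, h4⟩ := exists_mem_of_prime_dvd_lcm hr (h3 ▸ dvd_mul_right r s)
    obtain ⟨b, hb, h5⟩ := exists_mem_of_prime_dvd_lcm hs (h3 ▸ dvd_mul_left s r)
    have a2 := h2 a ha
    have b2 := h2 b hb
    obtain ⟨m, rfl⟩ := Multiset.exists_cons_of_mem ha
    rw [Multiset.sum_cons] at h1
    rcases Multiset.mem_cons.1 hb with rfl | hb
    · have := Nat.le_of_dvd (by omega) (((Nat.coprime_primes hr hs).2 hrs).mul_dvd_of_dvd_of_dvd h4 h5)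
      have := Nat.add_le_mul hr.two_le hs.two_le
      omega
    · have := Multiset.single_le_sum (fun _ _ => Nat.zero_le _) b hb
      have := Nat.le_of_dvd (by omega) h4
      have := Nat.le_of_dvd (by omega) h5
      omega
  · intro h
    refine ⟨{r, s}, by simpa using h, by simp [hr.two_le, hs.two_le], ?_, ?_⟩
    · simpa using ((hr.odd_of_ne_two hr2).add_odd (hs.odd_of_ne_two hs2)).add even_two
    · simpa using! ((Nat.coprime_primes hr hs).2 hrs).lcm_eq_mul

end Cfsg.Agent.S2466
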