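import Cfsg.Statements.S2467
import Cfsg.Agent.Lib.Perm.SnCyc

set_option autoImplicit false
open Cfsg

namespace Cfsg.Agent.S2467

open CA.SnCyc

/-- Adjacency of 2 and an odd prime in the prime graph of the alternating groups: let r be an odd prime at most n, with n ≥ 4. The alternating group of degree n has an element of order 2r if and only if r + 4 ≤ n. -/
theorem result (n r : ℕ) (hn : 4 ≤ n) (hr : r.Prime) (hr2 : r ≠ 2) (hrn : r ≤ n) :
    (2 * r ∈ Set.range (orderOf : alternatingGroup (Fin n) → ℕ)) ↔ r + 4 ≤ n := by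
  rw [mem_range_orderOf_alt, Fintype.card_fin]
  have ho := hr.odd_of_ne_two hr2
  have r2 := hr.two_le
  have key : ∀ m : Multiset ℕ, (∀ a ∈ m, 2 ≤ a) → Odd (m.sum + Multiset.card m) → 2 ≤ m.sum :=
    fun m h1 h2 => by
      obtain ⟨b, hb⟩ := Multiset.exists_mem_of_ne_zero (s := m) (by rintro rfl; simp at h2)
      exact (h1 b hb).trans (Multiset.single_le_sum (fun _ _ => Nat.zero_le _) b hb)
  constructor
  · rintro ⟨m, h1, h2, h0, h3⟩
    obtain ⟨a, ha, h4⟩ := exists_mem_of_prime_dvd_lcm hr (h3 ▸ dvd_mul_left r 2)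
    obtain ⟨b, hb, h5⟩ := exists_mem_of_prime_dvd_lcm Nat.prime_two (h3 ▸ dvd_mul_right 2 r)
    have a2 := h2 a ha
    have b2 := h2 b hb
    obtain ⟨m, rfl⟩ := Multiset.exists_cons_of_mem ha
    rw [Multiset.sum_cons] at h1
    rw [Multiset.sum_cons, Multiset.card_cons, Nat.even_iff] at h0
    by_cases h6 : 2 ∣ a
    · have := Nat.le_of_dvd (by omega)
        (((Nat.coprime_primes Nat.prime_two hr).2 hr2.symm).mul_dvd_of_dvd_of_dvd h6 h4)
      have := key m (fun x hx => h2 x (Multiset.mem_cons_of_mem hx)) (Nat.odd_iff.2 (by omega))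
      omega
    · obtain ⟨m, rfl⟩ := Multiset.exists_cons_of_mem
        ((Multiset.mem_cons.1 hb).resolve_left fun e => h6 (e ▸ h5))
      rw [Multiset.sum_cons] at h1
      rw [Multiset.sum_cons, Multiset.card_cons] at h0
      have := Nat.le_of_dvd (by omega) h4
      have := key m (fun x hx => h2 x (Multiset.mem_cons_of_mem (Multiset.mem_cons_of_mem hx)))
        (Nat.odd_iff.2 (by omega))
      omega
  · intro h
    refine ⟨{r, 2, 2}, by simpa using h, by simp [hr.two_le], ?_, ?_⟩
    · obtain ⟨k, rfl⟩ := ho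
      exact ⟨k + 4, by simp; ring⟩
    · simpa [mul_comm] using! ((Nat.coprime_primes hr Nat.prime_two).2 hr2).lcm_eq_mul

end Cfsg.Agent.S2467
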