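import Cfsg.Statements.S2474
import Cfsg.Agent.Lib.Lin.SpecE

set_option autoImplicit false
open Cfsg

namespace Cfsg.Agent.S2474

open CA.CForm CA.CForm.Form CA.Rcf Module Polynomial in
/-- For q odd and n ≥ 3 the simple groups PΩ(2n+1,q) and PSp(2n,q) (which have the same order but different sets of element orders) have the same prime graph: for all distinct primes r, s, one of them has an element of order r·s if and only if the other does. -/
theorem result {F : Type*} [Field F] [Fintype F] (hodd : Odd (Fintype.card F)) (n : ℕ) (hn : 3 ≤ n) (r s : ℕ) (hr : r.Prime) (hs : s.Prime) (hrs : r ≠ s) :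
    (r * s ∈ Set.range (orderOf : Cfsg.POmega F (Cfsg.quadFormOdd n F) → ℕ)) ↔ (r * s ∈ Set.range (orderOf : Cfsg.PSp n F → ℕ)) := by
  obtain ⟨p, hp⟩ := CharP.exists F
  have hp := CharP.char_is_prime F p
  have := Fact.mk hp
  rw [← Nat.card_eq_fintype_card] at hodd
  rw [omega_spec p (fun H => not_odd_card H hodd) hn, psp_spec p (by omega)]
  refine ⟨fun h => h.mono fun _ _ => trivial, fun ⟨k, N, S, h1, h2, h3, h4, h5⟩ => ?_⟩
  by_cases h : ∃ t, S = {t} ∧ k ≠ 0 ∧ 2 * t.1 + cst p k = 2 * n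
  swap
  · exact ⟨k, N, S, h1, h2, h3, h4, fun t h6 _ h7 => h5 t h6
      ⟨by_contra fun h8 => h ⟨t, h6, h8, h7⟩, hodd⟩ h7⟩
  obtain ⟨t, rfl, h6, h7⟩ := h
  obtain ⟨j, rfl⟩ := Nat.exists_eq_succ_of_ne_zero h6
  have h8 := Nat.pow_pos (n := j) hp.pos
  simp only [cst, tl_singleton] at h7 h4
  by_cases h9 : p ∣ r * s
  · obtain ⟨u, h10, h11, h12⟩ : ∃ u, u.Prime ∧ r * s = u * p ∧ u ≠ p := by
      rcases (Nat.Prime.dvd_mul hp).1 h9 with H | H
      · obtain rfl := (Nat.prime_dvd_prime_iff_eq hp hr).1 H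
        exact ⟨s, hs, mul_comm _ _, hrs.symm⟩
      · obtain rfl := (Nat.prime_dvd_prime_iff_eq hp hs).1 H
        exact ⟨r, hr, rfl, hrs⟩
    rw [h11] at h3 ⊢
    have h13 := (((Nat.coprime_primes h10 hp).2 h12).pow_right _).dvd_of_dvd_mul_right
      ((dvd_mul_right _ _).trans h3) |>.trans h4
    by_cases h14 : u = 2
    · exact ⟨1, 2, {(1, false)}, by simp, by simp [cst]; omega, by simp [h14],
        tl_singleton ▸ two_dvd_tor hodd (1, false), by
          rintro t H -; simp [cst, ← Multiset.singleton_inj.1 H]; omega⟩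
    · exact ⟨1, u, {t}, h1, by simp [cst]; omega, by simp, tl_singleton ▸ h13, fun t' H _ _ =>
        Multiset.singleton_inj.1 H ▸ ((Nat.coprime_primes Nat.prime_two h10).2
          (Ne.symm h14)).mul_dvd_of_dvd_of_dvd (two_dvd_tor hodd t) h13⟩
  · exact ⟨0, N, {t}, h1, by simp [cst]; omega, by
      simpa using (((Nat.Prime.coprime_iff_not_dvd hp).2 h9).symm.pow_right _).dvd_of_dvd_mul_right h3,
      tl_singleton ▸ h4, by
        rintro t H -; simp [cst, ← Multiset.singleton_inj.1 H]; omega⟩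

end Cfsg.Agent.S2474
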