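import Cfsg.Statements.S2478
import Cfsg.Agent.Lib.Lin.ClsLin

set_option autoImplicit false
open Cfsg

namespace Cfsg.Agent.S2478

section
open PowerSeries Finset CA.LayCnt

/-- nonnegative coefficients -/
def NN (f : ℤ⟦X⟧) : Prop := ∀ n, 0 ≤ coeff n f

theorem NN.mul {f g : ℤ⟦X⟧} (h : NN f) (h' : NN g) : NN (f * g) := fun n => by
  rw [coeff_mul]; exact sum_nonneg fun _ _ => mul_nonneg (h _) (h' _)

theorem NN.add {f g : ℤ⟦X⟧} (h : NN f) (h' : NN g) : NN (f + g) := fun n => by
  rw [map_add]; exact add_nonneg (h _) (h' _)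

theorem NN_X (i : ℕ) : NN (X ^ i) := fun n => by rw [coeff_X_pow]; positivity

theorem NN_C (r : ℕ) : NN (C (r : ℤ)) := fun n => by rw [coeff_C]; positivity

variable (r : ℕ)

/-- `1 / (1 - q X ^ (i + 1))` -/
noncomputable def Gs (i : ℕ) : ℤ⟦X⟧ := invOfUnit (1 - C ((r : ℤ) + 1) * X ^ (i + 1)) 1

theorem mul_Gs (i : ℕ) : (1 - C ((r : ℤ) + 1) * X ^ (i + 1)) * Gs r i = 1 :=
  mul_invOfUnit _ _ (by simp)

theorem coeff_Gs (i n : ℕ) : coeff n (Gs r i) = (if n = 0 then 1 else 0) +
    ((r : ℤ) + 1) * if i + 1 ≤ n then coeff (n - (i + 1)) (Gs r i) else 0 := by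
  have := congrArg (coeff n) (mul_Gs r i)
  rw [sub_mul, one_mul, map_sub, mul_assoc, coeff_C_mul, coeff_X_pow_mul', coeff_one] at this
  linarith

theorem NN_Gs (i : ℕ) : NN (Gs r i) := fun n => by
  induction n using Nat.strong_induction_on with | _ n ih
  rw [coeff_Gs]
  refine add_nonneg (by positivity) (mul_nonneg (by positivity) ?_)
  split_ifs with h
  · exact ih _ (by omega)
  · rfl

theorem coeff_Gs_zero (n : ℕ) : coeff n (Gs r 0) = ((r : ℤ) + 1) ^ n := by
  induction n with
  | zero => rw [coeff_Gs]; simp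
  | succ n ih => rw [coeff_Gs]; simp [ih, pow_succ']

/-- `(1 - X ^ (i + 1)) / (1 - q X ^ (i + 1))` -/
noncomputable def As (i : ℕ) : ℤ⟦X⟧ := (1 - X ^ (i + 1)) * Gs r i

theorem NN_As (i : ℕ) : NN (As r i) := by
  have : As r i = X ^ 0 + C (r : ℤ) * (X ^ (i + 1) * Gs r i) := by
    have := mul_Gs r i
    rw [map_add, map_one] at this
    rw [As]; linear_combination this
  rw [this]
  exact (NN_X 0).add ((NN_C r).mul ((NN_X _).mul (NN_Gs r i)))

theorem NN_prod (a d : ℕ) : NN (∏ i ∈ range d, As r (a + i)) :=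
  prod_induction _ _ (fun _ _ => NN.mul) (by simpa using NN_X 0) fun _ _ => NN_As r _

theorem key (d : ℕ) : ∀ a, NN (Gs r 0 - (1 - C ((r : ℤ) + 1) * X ^ (a + 1)) *
    ((∏ i ∈ range d, As r (a + i)) * Gs r (a + d)) * Gs r 0) := by
  induction d with
  | zero => intro a n; rw [prod_range_zero, one_mul, add_zero, mul_Gs, one_mul, sub_self, map_zero]
  | succ d ih =>
    intro a
    have h := (ih (a + 1)).add ((NN_X (a + 1)).mul ((NN_prod r (a + 1) d).mul (NN_Gs r (a + 1 + d))))
    convert h using 1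
    rw [prod_range_succ', add_zero, As, show a + (d + 1) = a + 1 + d by ring]
    rw [prod_congr rfl fun i _ => congrArg (As r) (show a + (i + 1) = a + 1 + i by ring)]
    generalize ∏ i ∈ range d, As r (a + 1 + i) = P
    have h1 := mul_Gs r a
    have h2 := mul_Gs r 0
    linear_combination (-(1 - X ^ (a + 1)) * P * Gs r (a + 1 + d) * Gs r 0) * h1 +
      (X ^ (a + 1) * P * Gs r (a + 1 + d)) * h2

theorem coeff_prod_le (d n : ℕ) : coeff n (∏ i ∈ range (d + 1), As r i) ≤ ((r : ℤ) + 1) ^ n := by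
  have h := ((key r d 0).add ((NN_X (d + 1)).mul ((NN_prod r 0 d).mul (NN_Gs r d)))) n
  have e : Gs r 0 - (1 - C ((r : ℤ) + 1) * X ^ (0 + 1)) *
    ((∏ i ∈ range d, As r (0 + i)) * Gs r (0 + d)) * Gs r 0 +
      X ^ (d + 1) * ((∏ i ∈ range d, As r (0 + i)) * Gs r d) = Gs r 0 - ∏ i ∈ range (d + 1), As r i := by
    simp only [zero_add]
    rw [prod_range_succ, As]
    have h2 := mul_Gs r 0
    linear_combination (-(∏ i ∈ range d, As r i) * Gs r d) * h2
  rw [e, map_sub, coeff_Gs_zero] at h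
  linarith

theorem step (m : ℕ) (a : ℕ → ℕ) :
    (PowerSeries.mk fun n => ((∑ k ∈ range (n / (m + 1) + 1), cf r (r + 1) k * a (n - (m + 1) * k) : ℕ) : ℤ)) =
      As r m * PowerSeries.mk fun n => (a n : ℤ) := by
  have h := mul_Gs r m
  suffices H : (1 - C ((r : ℤ) + 1) * X ^ (m + 1)) * (PowerSeries.mk fun n => ((∑ k ∈ range (n / (m + 1) + 1),
      cf r (r + 1) k * a (n - (m + 1) * k) : ℕ) : ℤ)) = (1 - X ^ (m + 1)) * PowerSeries.mk fun n => (a n : ℤ) by
    rw [As]
    linear_combination Gs r m * H - (PowerSeries.mk fun n => ((∑ k ∈ range (n / (m + 1) + 1),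
      cf r (r + 1) k * a (n - (m + 1) * k) : ℕ) : ℤ)) * h
  ext n
  simp only [sub_mul, one_mul, map_sub, mul_assoc, coeff_C_mul, coeff_X_pow_mul', coeff_mk]
  split_ifs with hn
  · obtain ⟨n, rfl⟩ := Nat.exists_eq_add_of_le hn
    rw [Nat.add_div_left _ m.succ_pos, sum_range_succ', sum_range_succ', Nat.add_sub_cancel_left,
      sum_range_succ']
    simp only [cf, show ∀ k, m + 1 + n - (m + 1) * (k + 1 + 1) = n - (m + 1) * (k + 1) from
      fun k => by rw [mul_add (m + 1) (k + 1) 1]; omega]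
    push_cast
    simp only [mul_zero, Nat.sub_zero, zero_add, mul_one, Nat.add_sub_cancel_left, pow_zero, one_mul,
      mul_add, mul_sum]
    have : ∀ k, (r : ℤ) * (r + 1) ^ (k + 1) * a (n - ((m + 1) * k + (m + 1))) =
        (r + 1) * (r * (r + 1) ^ k * a (n - ((m + 1) * k + (m + 1)))) := fun k => by ring
    simp only [this]
    ring
  · simp [Nat.div_eq_of_lt (not_le.1 hn), cf]

theorem mk_lb (E : ℕ) :
    (PowerSeries.mk fun n => (lb (cf r (r + 1)) E n : ℤ)) = ∏ i ∈ range E, As r (i + 1) := by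
  induction E with
  | zero => ext n; simp [lb, coeff_one]
  | succ E ih => rw [prod_range_succ, ← ih, mul_comm, ← step]; rfl

theorem bound (E n : ℕ) :
    ∑ k ∈ range (n + 1), cf r (r + 1) k * lb (cf r (r + 1)) E (n - k) ≤ (r + 1) ^ n := by
  have h := congrArg (coeff n) (step r 0 (lb (cf r (r + 1)) E))
  rw [mk_lb, mul_comm, ← prod_range_succ', coeff_mk] at h
  have := coeff_prod_le r E n
  rw [← h] at this
  simp only [zero_add, Nat.div_one, one_mul] at this
  exact_mod_cast this

end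

/-- The number of conjugacy classes of GL(n,q): for F a finite field with q elements and n ≥ 1, the number k of conjugacy classes of GL(n,F) satisfies q^n − q^(n−1) ≤ k ≤ q^n. -/
theorem result {F : Type*} [Field F] [Fintype F] (n : ℕ) (hn : 1 ≤ n) :
    Fintype.card F ^ n - Fintype.card F ^ (n - 1) ≤ Nat.card (ConjClasses (Matrix.GeneralLinearGroup (Fin n) F)) ∧ Nat.card (ConjClasses (Matrix.GeneralLinearGroup (Fin n) F)) ≤ Fintype.card F ^ n := by
  open CA.Rcf CA.LayCnt CA.CForm Polynomial Module in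
  classical
  have hq : 2 ≤ Fintype.card F := Fintype.one_lt_card
  constructor
  · obtain ⟨n, rfl⟩ : ∃ m, n = m + 1 := ⟨n - 1, by omega⟩
    have h := card_monic_coeff_zero (F := F) n (· ≠ 0)
    have h1 : Nat.card {a : F // a ≠ 0} = Fintype.card F - 1 := by
      rw [Nat.card_eq_fintype_card, Fintype.card_subtype_compl]; simp
    rw [h1, Nat.card_eq_fintype_card (α := F), Nat.sub_mul, ← pow_succ', one_mul] at h
    rw [Nat.add_sub_cancel, ← h]
    choose g hg using fun χ : {f : F[X] // (f.Monic ∧ f.natDegree = n + 1) ∧ f.coeff 0 ≠ 0} =>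
      exists_ss_equiv (V := Fin (n + 1) → F) χ.2.1.1 (by simpa using χ.2.1.2) χ.2.2
    refine Nat.card_le_card_of_injective (fun χ => ConjClasses.mk (glEquiv.symm (g χ))) fun χ ψ e => ?_
    have := (isConj_iff_sim.1 (by simpa using (glEquiv.toMonoidHom.map_isConj
      (ConjClasses.mk_eq_mk_iff_isConj.1 e)))).charpoly_eq
    exact Subtype.ext ((hg χ).2.symm.trans (this.trans (hg ψ).2))
  · have := Fintype.ofFinite (ConjClasses (GL (Fin n) F))
    let f : ConjClasses (GL (Fin n) F) → ℕ → F[X] := fun c =>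
      lay (edivs (glEquiv c.out : End F (Fin n → F)))
    have hf : Function.Injective f := fun c d e => by
      have := eq_of_lay (fun _ => isPrim_of_mem_edivs) (fun _ => isPrim_of_mem_edivs) e
      have := glEquiv.symm.toMonoidHom.map_isConj (isConj_iff_edivs.2 this)
      rw [← Quotient.out_eq c, ← Quotient.out_eq d]
      exact ConjClasses.mk_eq_mk_iff_isConj.2 (by simpa using this)
    have L := lay_gl (F := F)
    rw [Nat.card_eq_fintype_card (α := F)] at L
    obtain ⟨r, hr⟩ : ∃ r, Fintype.card F = r + 1 := ⟨Fintype.card F - 1, by omega⟩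
    rw [hr] at L ⊢
    have hs : ∀ y ∈ Finset.univ.image f,
        LD 1 natDegree (fun p : F[X] => p.Monic ∧ p.coeff 0 ≠ 0) n n y := fun y hy => by
      obtain ⟨c, -, rfl⟩ := Finset.mem_image.1 hy
      have h1 := sum_natDegree_edivs (glEquiv c.out : End F (Fin n → F))
      rw [finrank_fin_fun] at h1
      refine ⟨fun i => ⟨lay_monic (fun _ => isPrim_of_mem_edivs) i, lay_coeff_ne
        (fun _ => isPrim_of_mem_edivs) (fun _ => not_X_dvd_of_mem_edivs _) i⟩,
        fun i hi => lay_eq_one (fun _ => isPrim_of_mem_edivs) (by omega), ?_⟩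
      rw [sum_natDegree_lay (fun _ => isPrim_of_mem_edivs) (by omega), h1]
    have := card_le_sum_lb L.deg_one L.P_one L.card_le_cf _ hs (cf r (r + 1)) fun k z t ht =>
      L.card_le_cf k t fun a ha => ⟨by simpa using (hs _ (ht a ha).2).1 0, (ht a ha).1⟩
    rw [Finset.card_image_of_injective _ hf, Finset.card_univ, ← Nat.card_eq_fintype_card] at this
    exact this.trans (bound r n n)

end Cfsg.Agent.S2478
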