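import Cfsg.Statements.S2482
import Cfsg.Agent.Lib.Lin.LayCnt2
import Cfsg.Agent.S2385

set_option autoImplicit false
open Cfsg

namespace Cfsg.Agent.S2482

open CA.CForm CA.CForm.Form CA.Rcf Module Polynomial in
/-- The number of conjugacy classes of Sp(2n,q), q odd: for F a finite field of odd order q and n ≥ 1, the number k of conjugacy classes of Sp(2n,F) satisfies q^n ≤ k ≤ 10.8·q^n. -/
theorem result {F : Type*} [Field F] [Fintype F] (hodd : Odd (Fintype.card F)) (n : ℕ) (hn : 1 ≤ n) :
    Fintype.card F ^ n ≤ Nat.card (ConjClasses (Matrix.symplecticGroup (Fin n) F)) ∧ 5 * Nat.card (ConjClasses (Matrix.symplecticGroup (Fin n) F)) ≤ 54 * Fintype.card F ^ n := by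
  obtain ⟨p, hp⟩ := CharP.exists F
  have := Fact.mk (CharP.char_is_prime F p)
  refine ⟨S2385.result (F := F) rfl p n ▸ Finite.card_subtype_le _, ?_⟩
  have := (sympStd_nondeg F n).symp_card_classes_le (two_ne_zero_iff_odd.2 hodd) (three_le_card hodd)
    (finrank_plus n)
  rw [← card_classes_congr (spEquiv F n), Nat.card_eq_fintype_card (α := F)] at this
  rw [← Nat.cast_le (α := ℝ)]
  push_cast
  linarith

end Cfsg.Agent.S2482
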