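import Cfsg.Statements.S2485
import Cfsg.Agent.Lib.Lin.PSL2Struct

set_option autoImplicit false
open scoped Pointwise
open Cfsg

namespace Cfsg.Agent.S2485

open Matrix CA.Mat2 CA.SL2Unip CA.PSL2Struct

variable {F : Type*} [Field F]

theorem anti {W A : Matrix (Fin 2) (Fin 2) F} (h1 : W.trace = 0) (h2 : A.trace = 0) (h3 : (W * A).trace = 0) :
    W * A = -(A * W) := by
  obtain ⟨a, b, c, d, rfl⟩ := ex4 W
  obtain ⟨e, f, g, h, rfl⟩ := ex4 A
  simp only [trace_fin_two_of, mul_fin_two, neg_of, neg_cons, neg_empty] at *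
  exact eq_iff4.2 ⟨by linear_combination h3 + e * h1 - d * h2,
    by linear_combination f * h1 + b * h2, by linear_combination g * h1 + c * h2,
    by linear_combination h3 + h * h1 - a * h2⟩

theorem exists_W {A B : Matrix (Fin 2) (Fin 2) F} (hA : Aniso A) (h1 : A.trace = 0) (h2 : B.trace = 0) :
    ∃ W : GL (Fin 2) F, W.1.trace = 0 ∧ W.1 * A = -(A * W.1) ∧ W.1 * B = -(B * W.1) := by
  obtain ⟨W, hW, h0⟩ := (Submodule.ne_bot_iff _).1 (LinearMap.ker_ne_bot_of_finrank_lt
    (f := (traceLinearMap (Fin 2) F F).prod (((traceLinearMap (Fin 2) F F).comp (LinearMap.mulRight F A)).prod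
      ((traceLinearMap (Fin 2) F F).comp (LinearMap.mulRight F B)))) (by simp [Module.finrank_matrix]))
  obtain ⟨w1, w2, w3⟩ : W.trace = 0 ∧ (W * A).trace = 0 ∧ (W * B).trace = 0 := by simpa [Prod.ext_iff] using hW
  refine ⟨GeneralLinearGroup.mkOfDetNeZero W fun hd => h0 ?_, w1, anti w1 h1 w2, anti w1 h2 w3⟩
  obtain ⟨v, v0, hv⟩ := exists_mulVec_eq_zero_iff.2 hd
  have hw : W *ᵥ A *ᵥ v = 0 := by rw [mulVec_mulVec, anti w1 h1 w2, neg_mulVec, ← mulVec_mulVec, hv, mulVec_zero, neg_zero]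
  have li : LinearIndependent F ![v, A *ᵥ v] := (LinearIndependent.pair_iff' v0).2 fun c h => (aniso_iff A).1 hA c v v0 h.symm
  exact toLin'.injective ((basisOfLinearIndependentOfCardEqFinrank li (by simp)).ext fun i => by
    rw [coe_basisOfLinearIndependentOfCardEqFinrank, map_zero]; fin_cases i; exacts [hv, hw])

abbrev π (F : Type*) [Field F] := QuotientGroup.mk' (Subgroup.center (GL (Fin 2) F))

theorem comm_of_anti {W A : GL (Fin 2) F} (h : W.1 * A.1 = -(A.1 * W.1)) : π F W * π F A = π F A * π F W := by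
  rw [← map_mul, ← map_mul, show W * A = A * W * -1 from Units.ext (by simpa), map_mul]
  exact mul_eq_left.2 ((QuotientGroup.eq_one_iff _).2 (Subgroup.mem_center_iff.2 (by simp)))

theorem pgrp [Finite F] {k : ℕ} (hk : Nat.card F + 1 = 2 ^ k) {A : GL (Fin 2) F} (hA : Aniso A.1) :
    IsPGroup 2 (Subgroup.centralizer {π F A}) := by
  rintro ⟨b, hb⟩
  obtain ⟨B, rfl⟩ := QuotientGroup.mk_surjective b
  obtain ⟨z, hz, e⟩ := (QuotientGroup.mk'_eq_mk' _).1 (show π F (B * A) = π F (A * B) from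
    Subgroup.mem_centralizer_singleton_iff.1 hb)
  obtain ⟨c, hc⟩ := (not_NS_iff _).1 ((mem_center_GL z).1 hz)
  have h1 : c ^ 2 = 1 := by
    have := congrArg GeneralLinearGroup.det e
    rw [map_mul, map_mul, map_mul, mul_comm (GeneralLinearGroup.det A), mul_eq_left] at this
    simpa [hc] using congrArg Units.val this
  have h2 : B * B ∈ Subgroup.centralizer {A} := Subgroup.mem_centralizer_singleton_iff.2 (Units.ext (by
    have e' : A.1 * B.1 = c • (B.1 * A.1) := by simpa [hc] using (congrArg Units.val e).symm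
    rw [Units.val_mul, Units.val_mul, Units.val_mul, Units.val_mul, ← Matrix.mul_assoc A.1, e', smul_mul_assoc, Matrix.mul_assoc _ A.1, e',
      mul_smul_comm, smul_smul, ← sq c, h1, one_smul, Matrix.mul_assoc]))
  have h3 := ((Subgroup.center (GL (Fin 2) F)).subgroupOf (Subgroup.centralizer {A})).index_mul_card
  rw [Nat.card_congr (Subgroup.subgroupOfEquivOfLe (Subgroup.center_le_centralizer _)).toEquiv, hA.card_centralizer_GL, CA.SLnCard.card_center_GL, Nat.card_units, CA.SLnCard.sq_sub_one,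
    Nat.mul_left_inj (by have := CA.SLnCard.two_le_card F; omega), hk] at h3
  refine ⟨k + 1, Subtype.ext ((QuotientGroup.eq_one_iff (B ^ 2 ^ (k + 1))).2 ?_)⟩
  rw [pow_succ', pow_mul, sq, ← h3]
  exact Subgroup.pow_relIndex_mem _ h2

/-- Let q = 2^k − 1 ≥ 7 be a prime and let G = PGL(2,q), the general linear group of degree 2 over the field with q elements modulo its centre. Then any two Sylow 2-subgroups of G have a non-trivial intersection: for a Sylow 2-subgroup H and every x ∈ G, H ∩ H^x ≠ 1. -/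
theorem result {q k : ℕ} [Fact q.Prime] (hk : q + 1 = 2 ^ k) (hq : 7 ≤ q)
    (H : Sylow 2 (GL (Fin 2) (ZMod q) ⧸ Subgroup.center (GL (Fin 2) (ZMod q))))
    (x : GL (Fin 2) (ZMod q) ⧸ Subgroup.center (GL (Fin 2) (ZMod q))) :
    (H : Subgroup (GL (Fin 2) (ZMod q) ⧸ Subgroup.center (GL (Fin 2) (ZMod q)))) ⊓ MulAut.conj x • (H : Subgroup _) ≠ ⊥ := by
  have hc : Nat.card (ZMod q) = q := Nat.card_zmod q
  have h4 : q % 4 = 3 := by
    obtain ⟨j, rfl⟩ : ∃ j, k = j + 2 := ⟨k - 2, by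
      by_contra h
      have : k < 2 := by omega
      interval_cases k <;> omega⟩
    rw [pow_add] at hk; omega
  have hA : Aniso (w0 : SpecialLinearGroup (Fin 2) (ZMod q)).1 := aniso_of_trace_zero trace_w0 (hc.symm ▸ h4)
  obtain ⟨P, hP⟩ := (pgrp (A := SpecialLinearGroup.toGL w0) (hc.symm ▸ hk) hA).exists_le_sylow
  obtain ⟨g, rfl⟩ := MulAction.exists_smul_eq (GL (Fin 2) (ZMod q) ⧸ Subgroup.center (GL (Fin 2) (ZMod q))) P H
  obtain ⟨g, rfl⟩ := QuotientGroup.mk_surjective g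
  obtain ⟨x, rfl⟩ := QuotientGroup.mk_surjective x
  have ht : ∀ y : GL (Fin 2) (ZMod q), (y * SpecialLinearGroup.toGL w0 * y⁻¹).1.trace = (w0 : SpecialLinearGroup (Fin 2) (ZMod q)).1.trace :=
    fun y => by rw [Units.val_mul, Units.val_mul, trace_mul_cycle, Units.inv_mul, one_mul]; rfl
  obtain ⟨W, w1, w2, w3⟩ := exists_W (hA.of_eq (ht g).symm (by simp [g.det_ne_zero])) ((ht g).trans trace_w0) ((ht (x * g)).trans trace_w0)
  have key : ∀ y : GL (Fin 2) (ZMod q), π _ W * π _ (y * SpecialLinearGroup.toGL w0 * y⁻¹) =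
      π _ (y * SpecialLinearGroup.toGL w0 * y⁻¹) * π _ W → (π _ y)⁻¹ * π _ W * π _ y ∈ P := fun y h => hP (by
    rw [Subgroup.mem_centralizer_singleton_iff]
    simp only [map_mul, map_inv] at h
    calc _ = (π _ y)⁻¹ * (π _ W * (π _ y * π _ (SpecialLinearGroup.toGL w0) * (π _ y)⁻¹)) * π _ y := by group
      _ = _ := by rw [h]; group)
  refine (Subgroup.ne_bot_iff_exists_ne_one).2 ⟨⟨π _ W, ?_, ?_⟩, fun h => ?_⟩
  · exact ⟨_, key g (comm_of_anti w2), by simp [mul_assoc]⟩
  · exact ⟨_, ⟨_, key (x * g) (comm_of_anti w3), rfl⟩, by simp [mul_assoc]⟩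
  · obtain ⟨c, h⟩ := (not_NS_iff _).1 ((mem_center_GL W).1 ((QuotientGroup.eq_one_iff W).1 (congrArg Subtype.val h)))
    have h2 : (2 : ZMod q) ≠ 0 := CA.SL2Basic.two_ne_zero_of_odd (by rw [hc, Nat.odd_iff]; omega)
    have : c = 0 := by simpa [h, h2] using w1
    simpa [h, this] using W.det_ne_zero

end Cfsg.Agent.S2485
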