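import Cfsg.Statements.S2486
import Cfsg.Agent.Lib.Lie.H23Uni7
import Cfsg.Agent.Lib.Odd.BG1b

set_option autoImplicit false
open scoped Pointwise
open Cfsg

namespace Cfsg.Agent.S2486

open Subgroup CA.BG CA.Chev
set_option maxHeartbeats 400000

theorem key0 {G : Type*} [Group G] [Finite G] {N U V P : Subgroup G} [hN : N.Normal] (hidx : N.index = 2)
    (hB : N ⊓ 𝓝(U) ≤ U) (hV : ∀ g ∈ N, U ⊓ cj g U = ⊥ → ∃ u ∈ U, cj g U = cj u V) (hP : Syl 2 P ⊤)
    (e : P ⊓ N = U) (x : G) : P ⊓ cj x P ≠ ⊥ := fun h => by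
  have p2 := Nat.prime_two
  have nN : ∀ g : G, g ∈ 𝓝(N) := fun g => le_normalizer_of_normal (K := ⊤) (mem_top g)
  have hU : Syl 2 U N := e ▸ hP.inf_normal le_top fun g _ => nN g
  have UP : U ≤ P := e ▸ inf_le_left
  have key : ∀ a ∈ P, ∃ u ∈ U, cj a (cj x U) = cj u V := fun a ha => by
    obtain ⟨g, hg, e1⟩ := hU.syl_conj p2 ((hU.cj_norm (nN x)).cj_norm (nN a))
    rw [← e1]
    refine hV g hg (le_bot_iff.1 ?_)
    rw [e1, ← cj_bot a, ← h, cj_inf, cj_of_mem ha]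
    exact inf_le_inf UP (cj_mono a (cj_mono x UP))
  have : ¬ P ≤ N := fun l => hP.not_dvd p2 (by rw [relIndex_top_right, ← hidx]; exact index_dvd_of_le l)
  obtain ⟨a, ha, haN⟩ := SetLike.not_le_iff_exists.1 this
  obtain ⟨u, hu, e1⟩ := key 1 (one_mem _)
  obtain ⟨v, hv, e2⟩ := key a ha
  rw [cj_one] at e1
  have kP : u * v⁻¹ * a ∈ P := mul_mem (mul_mem (UP hu) (inv_mem (UP hv))) ha
  have kN : u * v⁻¹ * a ∉ N := fun h => haN ((mul_mem_cancel_left (hU.le (mul_mem hu (inv_mem hv)))).1 h)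
  have k1 : x⁻¹ * (u * v⁻¹ * a) * x ∈ 𝓝(U) := by
    rw [mem_norm_iff_cj, cj_mul, cj_mul, cj_mul, cj_mul, e2, cj_inv_cj, ← e1, cj_inv_cj]
  have aU : a ∈ 𝓝(U) := e ▸ norm_inf (le_norm_self P) (fun g _ => nN g) ha
  have k2 : x⁻¹ * (u * v⁻¹ * a) * x * a⁻¹ ∈ N := by
    rw [mul_mem_iff_of_index_two hidx, inv_mem_iff]
    refine iff_of_false (fun h => kN ?_) haN
    simpa [mul_assoc] using hN.conj_mem _ h x
  have k3 := mul_mem (UP (hB ⟨k2, 𝓝(U).mul_mem k1 (𝓝(U).inv_mem aU)⟩)) ha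
  rw [inv_mul_cancel_right] at k3
  exact kN (mem_bot.1 (h.le ⟨kP, mem_cj.2 k3⟩) ▸ one_mem N)

theorem key {G : Type*} [Group G] [Finite G] (N : Subgroup G) [hN : N.Normal] (hidx : N.index = 2)
    {D : Cfsg.Lie.ChevalleyDatum} [Good D] {K : Type*} [Field K] [Fintype K] (hK : Fintype.card K = 2) {Γ : Type*} [Group Γ]
    {A : Sys D K Γ} (M : Mod A N) (H : Sylow 2 G) (x : G) :
    (H : Subgroup G) ⊓ (H : Subgroup G).map (MulAut.conj x).toMonoidHom ≠ ⊥ := by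
  have p2 := Nat.prime_two
  haveI : CharP K 2 := by
    obtain ⟨p, hp⟩ := CharP.exists K
    obtain ⟨n, h1, h2⟩ := FiniteField.card K p
    rw [hK] at h2
    obtain rfl := ((Nat.prime_dvd_prime_iff_eq h1 p2).1 (h2 ▸ dvd_pow_self p n.ne_zero))
    exact hp
  obtain ⟨S, hS⟩ := M.exists_sylow 2
  have hU := syl_map p2 S
  rw [hS] at hU
  have hP := syl_top p2 H
  obtain ⟨n, hn, e⟩ := (hP.inf_normal (N := N) le_top le_normalizer_of_normal).syl_conj p2 hU
  rw [cj_inf, cj_of_mem hn] at e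
  have := key0 (V := M.V.map N.subtype) hidx ?_ ?_ (hP.cj_mem (mem_top n)) e (n * x * n⁻¹)
  · intro h
    apply this
    rw [cj_mul, cj_mul, cj_inv_cj, ← cj_inf, cj_eq_bot]
    exact h
  · rintro g ⟨h1, h2⟩
    obtain ⟨u, hu, h, hh, e⟩ := M.mem_B (M.mem_B_of_conj (g := ⟨g, h1⟩) fun y hy => by
      obtain ⟨z, hz, e⟩ := conj_mem_of_mem_norm h2 (mem_map_of_mem N.subtype hy)
      exact (show z = ⟨g, h1⟩ * y * (⟨g, h1⟩ : N)⁻¹ from Subtype.ext e) ▸ hz)
    have := M.H_pow hh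
    rw [hK, pow_one] at this
    rw [this, mul_one] at e
    exact ⟨u, hu, congrArg Subtype.val e.symm⟩
  · intro g hg h
    obtain ⟨u, hu, e⟩ := M.exists_opp_U (g := ⟨g, hg⟩) fun y hy h1 => by
      have := mem_bot.1 (h.le (x := g * y * g⁻¹) ⟨mem_map_of_mem N.subtype h1, conj_mem_cj.2 (mem_map_of_mem N.subtype hy)⟩)
      exact Subtype.ext (conj_eq_one_iff.1 this)
    refine ⟨u, mem_map_of_mem N.subtype hu, le_antisymm (fun y hy => ?_) fun y hy => ?_⟩
    · obtain ⟨_, ⟨z, hz, rfl⟩, rfl⟩ := mem_cj'.1 hy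
      obtain ⟨w, hw, e⟩ := (e z).2 hz
      exact mem_cj'.2 ⟨w, mem_map_of_mem N.subtype hw, congrArg Subtype.val e⟩
    · obtain ⟨_, ⟨z, hz, rfl⟩, rfl⟩ := mem_cj'.1 hy
      refine mem_cj.2 (mem_map_of_mem N.subtype ((e ((⟨g, hg⟩ : N)⁻¹ * (u * z * u⁻¹) * ⟨g, hg⟩)).1 ⟨z, hz, ?_⟩))
      simp [mul_assoc]

/-- Let n ≥ 4 and let G be a finite group with a normal subgroup N of index 2 isomorphic to SL(n,2) and with trivial centralizer in G (so G is the extension of the simple group L_n(2) by its inverse-transpose automorphism, its full automorphism group). Then any two Sylow 2-subgroups of G have a non-trivial intersection: for a Sylow 2-subgroup H and every x ∈ G, H ∩ H^x ≠ 1. -/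
theorem result {G : Type*} [Group G] [Finite G] {n : ℕ} (hn : 4 ≤ n) (N : Subgroup G) [N.Normal]
    (e : N ≃* Matrix.SpecialLinearGroup (Fin n) (ZMod 2)) (hidx : N.index = 2)
    (hC : Subgroup.centralizer (N : Set G) = ⊥)
    (H : Sylow 2 G) (x : G) :
    (H : Subgroup G) ⊓ MulAut.conj x • (H : Subgroup G) ≠ ⊥ := by
  obtain ⟨l, rfl⟩ : ∃ l, n = l + 1 := ⟨n - 1, by omega⟩
  have hc : center (Matrix.SpecialLinearGroup (Fin (l + 1)) (ZMod 2)) = ⊥ := eq_bot_iff.2 fun A hA => by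
    obtain ⟨r, h1, h2⟩ := Matrix.SpecialLinearGroup.mem_center_iff.1 hA
    have : r = 1 := by
      have : ∀ r : ZMod 2, r = 0 ∨ r = 1 := by decide
      rcases this r with rfl | rfl
      · simp at h1
      · rfl
    subst this
    exact mem_bot.2 (Subtype.ext (by simpa using h2.symm))
  exact key N hidx (ZMod.card 2) ((mod0 _ (ZMod 2)).congr (e.trans ((QuotientGroup.quotientBot.symm.trans
    (QuotientGroup.quotientMulEquivOfEq hc.symm)).trans (equiv_PSL (l := l) (by omega)).some.symm))) H x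

end Cfsg.Agent.S2486
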