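import Cfsg.Statements.S2487
import Cfsg.Agent.S2486
import Cfsg.Agent.Lib.Lin.CFormOSub

set_option autoImplicit false
open scoped Pointwise
open Cfsg

namespace Cfsg.Agent.S2487

open CA.CForm CA.CForm.Form CA.Chev

/-- Let m ≥ 4 and let G be the full isometry group of the hyperbolic quadratic form x₁y₁ + ⋯ + x_m y_m on the 2m-dimensional space over the field with 2 elements (the orthogonal group O⁺(2m,2), which contains Ω⁺(2m,2) with index 2). Then any two Sylow 2-subgroups of G have a non-trivial intersection: for a Sylow 2-subgroup H and every x ∈ G, H ∩ H^x ≠ 1. -/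
theorem result {F : Type*} [Field F] [Fintype F] (hF : Fintype.card F = 2) {m : ℕ} (hm : 4 ≤ m)
    (H : Sylow 2 (Cfsg.isometryGroup F (Cfsg.quadFormPlus m F)))
    (x : Cfsg.isometryGroup F (Cfsg.quadFormPlus m F)) :
    (H : Subgroup (Cfsg.isometryGroup F (Cfsg.quadFormPlus m F))) ⊓ MulAut.conj x • (H : Subgroup _) ≠ ⊥ := by
  have hf := plusForm_nondeg F m
  have hg : (plusForm F m).Good := good_of_five_le (by rw [finrank_plus]; omega)
  have h2 : (2 : F) = 0 := by
    have := FiniteField.cast_card_eq_zero F
    rwa [hF] at this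
  haveI : Nontrivial (Fin m ⊕ Fin m → F) := by
    obtain ⟨k, rfl⟩ : ∃ k, m = k + 1 := ⟨m - 1, by omega⟩
    infer_instance
  have hi := (index_omega (plusForm F m)).trans (hf.index_commutator_of_two_eq_zero hg h2)
  have hc := hf.card_center_omega hg (by rw [finrank_plus]; omega)
  rw [if_neg (by simp [h2]), Subgroup.card_eq_one] at hc
  have hc' : Subgroup.center (Omega F (plusForm F m).Q) = ⊥ := eq_bot_iff.2 fun x hx => by
    have : omegaEquiv (plusForm F m) x ∈ Subgroup.center _ := (MulEquivClass.apply_mem_center_iff _).2 hx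
    rw [hc, Subgroup.mem_bot, map_eq_one_iff _ (omegaEquiv _).injective] at this
    exact this
  exact S2486.key (Omega F (quadFormPlus m F)) hi hF ((mod0 _ F).congr ((QuotientGroup.quotientBot.symm.trans
    (QuotientGroup.quotientMulEquivOfEq hc'.symm)).trans (equiv_D (m := m) (by omega)).some.symm)) H x

end Cfsg.Agent.S2487
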