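import Cfsg.Statements.S2490
import Cfsg.Agent.Lib.Grp.H25Adj

set_option autoImplicit false
open Cfsg

namespace Cfsg.Agent.S2490

open Subgroup H25Adj
open scoped Pointwise

section
variable {G : Type*} [Group G] [Finite G]

theorem sub_le (H : Subgroup G) (p n : ℕ) [Fact p.Prime] (h : p ^ n ∣ Nat.card H) :
    ∃ R : Subgroup G, R ≤ H ∧ Nat.card R = p ^ n := by
  obtain ⟨K, hK⟩ := Sylow.exists_subgroup_card_pow_prime (G := H) p h
  exact ⟨K.map H.subtype, map_subtype_le _, by
    rw [card_map_of_injective H.subtype_injective, hK]⟩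

/-- adjacency implies the same side -/
def HA (G : Type*) [Group G] (A : Set ℕ) : Prop :=
  ∀ a b : ℕ, a.Prime → b.Prime → a ∣ 7920 → b ∣ 7920 → (∃ g : G, orderOf g = a * b) →
    (a ∈ A ↔ b ∈ A)

def Conn (A : Set ℕ) : Prop := (2 ∈ A ↔ 11 ∈ A) ∧ (3 ∈ A ↔ 11 ∈ A) ∧ (5 ∈ A ↔ 11 ∈ A)

theorem HA.comm {A : Set ℕ} (hA : HA G A) {y q : G} {r p : ℕ} (hr : r.Prime) (hp : p.Prime)
    (h1 : r ∣ 7920) (h2 : p ∣ 7920) (hy : orderOf y = r) (hq : orderOf q = p)
    (hc : Commute y q) : r ∈ A ↔ p ∈ A := by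
  by_cases h : r = p
  · rw [h]
  · exact hA r p hr hp h1 h2 (adj_of_comm hr hp h hy hq hc)

theorem HA.norm {A : Set ℕ} (hA : HA G A) (hG : Nat.card G = 7920) (K H : Subgroup G)
    (hH : H ≤ normalizer (K : Set G)) (r a p b : ℕ) (hr : r.Prime) (hp : p.Prime)
    (ha : r ^ (a + 1) ∣ Nat.card H) (hrK : ¬ r ∣ Nat.card K) (hpK : p ∣ Nat.card K)
    (hb : ¬ p ^ (b + 1) ∣ Nat.card K) (hd : ∀ c, 1 ≤ c → c ≤ b → ¬ r ^ (a + 1) ∣ p ^ c - 1) :
    r ∈ A ↔ p ∈ A := by
  haveI := Fact.mk hr
  haveI := Fact.mk hp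
  obtain ⟨R, hRH, hR⟩ := sub_le H r (a + 1) ha
  obtain ⟨y, -, q, -, hy, hq, hc⟩ := comm_pair' K R r p (IsPGroup.of_card hR) (hRH.trans hH) hrK
    hpK b hb (by rwa [hR])
  refine hA.comm hr hp ?_ ?_ hy hq hc
  · rw [← hG, ← hy]; exact orderOf_dvd_natCard _
  · rw [← hG, ← hq]; exact orderOf_dvd_natCard _

theorem card_syl (hG : Nat.card G = 7920) (p : ℕ) [hp : Fact p.Prime] (h : p = 5 ∨ p = 11)
    (P : Sylow p G) : Nat.card P = p := by
  rw [P.card_eq_multiplicity, hG]
  rcases h with rfl | rfl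
  · have : (7920 : ℕ) = 5 * 1584 := rfl
    rw [this, Nat.factorization_mul (by norm_num) (by norm_num)]
    simp [hp.out.factorization_self, Nat.factorization_eq_zero_of_not_dvd (show ¬ 5 ∣ 1584 by norm_num)]
  · have : (7920 : ℕ) = 11 * 720 := rfl
    rw [this, Nat.factorization_mul (by norm_num) (by norm_num)]
    simp [hp.out.factorization_self, Nat.factorization_eq_zero_of_not_dvd (show ¬ 11 ∣ 720 by norm_num)]

theorem prop_aux {a2 a3 a5 a11 d2 d3 d5 d16 : Prop} (e2 : d2 → (a11 ↔ a2)) (e3 : d3 → (a11 ↔ a3))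
    (e5 : d5 → (a11 ↔ a5)) (e53 : ¬ d5 → d3 → (a5 ↔ a3)) (e35 : ¬ d3 → d5 → (a3 ↔ a5))
    (e32 : ¬ d3 → d2 → (a3 ↔ a2)) (e23 : ¬ d2 → d3 → (a2 ↔ a3)) (e25 : ¬ d2 → d5 → (a2 ↔ a5))
    (e52 : ¬ d5 → d2 → ¬ d16 → (a5 ↔ a2))
    (e7 : ¬ d5 → d16 → (a5 ↔ a2) ∨ (a5 ↔ a3) ∨ (a5 ↔ a11)) (hne : d2 ∨ d3 ∨ d5) :
    (a2 ↔ a11) ∧ (a3 ↔ a11) ∧ (a5 ↔ a11) := by
  by_cases h2 : d2 <;> by_cases h3 : d3 <;> by_cases h5 : d5 <;> by_cases h16 : d16 <;>
    simp only [h2, h3, h5, h16, not_true, not_false_iff, forall_true_left, false_implies,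
      implies_true, or_self] at e2 e3 e5 e53 e35 e32 e23 e25 e52 e7 hne <;> tauto

theorem caseI (hG : Nat.card G = 7920) {A : Set ℕ} (hA : HA G A) (N : Subgroup G) [N.Normal]
    (h1 : N ≠ ⊥) (h11 : ¬ 11 ∣ Nat.card N) : Conn A := by
  have hdv : Nat.card N ∣ 7920 := hG ▸ N.card_subgroup_dvd_card
  have hT : (⊤ : Subgroup G) ≤ normalizer (N : Set G) := by rw [normalizer_eq_top]
  have hc : Nat.card (⊤ : Subgroup G) = 7920 := by rw [card_top, hG]
  have n2 : ¬ 2 ^ (4 + 1) ∣ Nat.card N := fun h => absurd (h.trans hdv) (by norm_num)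
  have n3 : ¬ 3 ^ (2 + 1) ∣ Nat.card N := fun h => absurd (h.trans hdv) (by norm_num)
  have n5 : ¬ 5 ^ (1 + 1) ∣ Nat.card N := fun h => absurd (h.trans hdv) (by norm_num)
  have p11 : Nat.Prime 11 := by norm_num
  have p5 : Nat.Prime 5 := by norm_num
  have e2 : 2 ∣ Nat.card N → (11 ∈ A ↔ 2 ∈ A) := fun h =>
    hA.norm hG N ⊤ hT 11 0 2 4 p11 Nat.prime_two (by rw [hc]; norm_num) h11 h n2
      (fun c h1 h2 => by interval_cases c <;> norm_num)
  have e3 : 3 ∣ Nat.card N → (11 ∈ A ↔ 3 ∈ A) := fun h =>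
    hA.norm hG N ⊤ hT 11 0 3 2 p11 Nat.prime_three (by rw [hc]; norm_num) h11 h n3
      (fun c h1 h2 => by interval_cases c <;> norm_num)
  have e5 : 5 ∣ Nat.card N → (11 ∈ A ↔ 5 ∈ A) := fun h =>
    hA.norm hG N ⊤ hT 11 0 5 1 p11 p5 (by rw [hc]; norm_num) h11 h n5
      (fun c h1 h2 => by interval_cases c <;> norm_num)
  have e53 : ¬ 5 ∣ Nat.card N → 3 ∣ Nat.card N → (5 ∈ A ↔ 3 ∈ A) := fun h' h =>
    hA.norm hG N ⊤ hT 5 0 3 2 p5 Nat.prime_three (by rw [hc]; norm_num) h' h n3
      (fun c h1 h2 => by interval_cases c <;> norm_num)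
  have e35 : ¬ 3 ∣ Nat.card N → 5 ∣ Nat.card N → (3 ∈ A ↔ 5 ∈ A) := fun h' h =>
    hA.norm hG N ⊤ hT 3 0 5 1 Nat.prime_three p5 (by rw [hc]; norm_num) h' h n5
      (fun c h1 h2 => by interval_cases c <;> norm_num)
  have e32 : ¬ 3 ∣ Nat.card N → 2 ∣ Nat.card N → (3 ∈ A ↔ 2 ∈ A) := fun h' h =>
    hA.norm hG N ⊤ hT 3 1 2 4 Nat.prime_three Nat.prime_two (by rw [hc]; norm_num) h' h n2
      (fun c h1 h2 => by interval_cases c <;> norm_num)
  have e23 : ¬ 2 ∣ Nat.card N → 3 ∣ Nat.card N → (2 ∈ A ↔ 3 ∈ A) := fun h' h =>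
    hA.norm hG N ⊤ hT 2 3 3 2 Nat.prime_two Nat.prime_three (by rw [hc]; norm_num) h' h n3
      (fun c h1 h2 => by interval_cases c <;> norm_num)
  have e25 : ¬ 2 ∣ Nat.card N → 5 ∣ Nat.card N → (2 ∈ A ↔ 5 ∈ A) := fun h' h =>
    hA.norm hG N ⊤ hT 2 3 5 1 Nat.prime_two p5 (by rw [hc]; norm_num) h' h n5
      (fun c h1 h2 => by interval_cases c <;> norm_num)
  have e52 : ¬ 5 ∣ Nat.card N → 2 ∣ Nat.card N → ¬ 2 ^ (3 + 1) ∣ Nat.card N →
      (5 ∈ A ↔ 2 ∈ A) := fun h' h h16 =>
    hA.norm hG N ⊤ hT 5 0 2 3 p5 Nat.prime_two (by rw [hc]; norm_num) h' h h16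
      (fun c h1 h2 => by interval_cases c <;> norm_num)
  have e7 : ¬ 5 ∣ Nat.card N → 2 ^ (3 + 1) ∣ Nat.card N →
      (5 ∈ A ↔ 2 ∈ A) ∨ (5 ∈ A ↔ 3 ∈ A) ∨ (5 ∈ A ↔ 11 ∈ A) := by
    intro h5 h16
    haveI := Fact.mk p5
    obtain ⟨P⟩ : Nonempty (Sylow 5 G) := inferInstance
    have hP := card_syl hG 5 (Or.inl rfl) P
    obtain ⟨y, hy, hs, hd⟩ := exists_norm_prime (p := 5) (m := 1584) hG (by norm_num) (by decide) P
    have hz : zpowers y ≤ normalizer ((P : Subgroup G) : Set G) := by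
      rw [zpowers_le]; exact hy
    have hs' : orderOf y = 2 ∨ orderOf y = 3 ∨ orderOf y = 11 := by
      have : (1584 : ℕ) = 2 ^ 4 * (3 ^ 2 * 11) := rfl
      rw [this] at hd
      rcases (hs.dvd_mul).1 hd with h | h
      · exact Or.inl ((Nat.prime_dvd_prime_iff_eq hs Nat.prime_two).1 (hs.dvd_of_dvd_pow h))
      rcases (hs.dvd_mul).1 h with h | h
      · exact Or.inr (Or.inl
          ((Nat.prime_dvd_prime_iff_eq hs Nat.prime_three).1 (hs.dvd_of_dvd_pow h)))
      · exact Or.inr (Or.inr ((Nat.prime_dvd_prime_iff_eq hs p11).1 h))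
    rcases hs' with h | h | h
    · left
      have hyN : y ∈ N := by
        have h1 := N.card_mul_index
        obtain ⟨k, hk⟩ := h16
        have h2 : N.index ∣ 495 := by
          rw [hk, hG] at h1
          refine ⟨k, ?_⟩
          have h7 : 16 * (N.index * k) = 16 * 495 := by rw [show 16 * 495 = 7920 from rfl, ← h1]; ring
          exact (Nat.eq_of_mul_eq_mul_left (by norm_num) h7).symm
        have h3 : orderOf (QuotientGroup.mk' N y) ∣ 2 := h ▸ orderOf_map_dvd _ _
        have h4 : orderOf (QuotientGroup.mk' N y) ∣ 495 :=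
          (_root_.orderOf_dvd_natCard _).trans h2
        have h5 : orderOf (QuotientGroup.mk' N y) = 1 :=
          Nat.eq_one_of_dvd_coprimes (by norm_num) h3 h4
        rw [orderOf_eq_one_iff] at h5
        exact (QuotientGroup.eq_one_iff y).1 h5
      obtain ⟨q, hq⟩ := exists_prime_orderOf_dvd_card' (G := P) 5 (by rw [hP])
      have hdis : N ⊓ (P : Subgroup G) = ⊥ := by
        apply Disjoint.eq_bot
        apply disjoint_of_coprime_natCard
        rw [hP]
        exact ((Nat.Prime.coprime_iff_not_dvd p5).2 h5).symm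
      have hcm : y * q * y⁻¹ * (q : G)⁻¹ = 1 := by
        rw [← mem_bot, ← hdis]
        constructor
        · have := N.mul_mem hyN (Subgroup.Normal.conj_mem inferInstance _ (N.inv_mem hyN) (q : G))
          simpa [mul_assoc] using this
        · exact (P : Subgroup G).mul_mem ((mem_normalizer_iff.1 (hz (mem_zpowers y)) _).1 q.2)
            ((P : Subgroup G).inv_mem q.2)
      refine (hA.comm Nat.prime_two p5 (by norm_num) (by norm_num) h
        ((orderOf_coe q).trans hq) ?_).symm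
      rw [Commute, SemiconjBy]
      calc y * q = (y * q * y⁻¹ * (q : G)⁻¹) * (q * y) := by group
        _ = q * y := by rw [hcm, one_mul]
    · right; left
      exact (hA.norm hG P (zpowers y) hz 3 0 5 1 Nat.prime_three p5
        (by rw [Nat.card_zpowers, h]; norm_num) (by rw [hP]; norm_num) (by rw [hP])
        (by rw [hP]; norm_num) (fun c h1 h2 => by interval_cases c <;> norm_num)).symm
    · right; right
      exact (hA.norm hG P (zpowers y) hz 11 0 5 1 p11 p5
        (by rw [Nat.card_zpowers, h]; norm_num) (by rw [hP]; norm_num) (by rw [hP])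
        (by rw [hP]; norm_num) (fun c h1 h2 => by interval_cases c <;> norm_num)).symm
  have hne : 2 ∣ Nat.card N ∨ 3 ∣ Nat.card N ∨ 5 ∣ Nat.card N := by
    have h0 : Nat.card N ≠ 1 := fun h => h1 (card_eq_one.1 h)
    obtain ⟨s, hs, hd⟩ := Nat.exists_prime_and_dvd h0
    have hd' := hd.trans hdv
    have : (7920 : ℕ) = 2 ^ 4 * (3 ^ 2 * (5 * 11)) := rfl
    rw [this] at hd'
    rcases (hs.dvd_mul).1 hd' with h | h
    · exact Or.inl ((Nat.prime_dvd_prime_iff_eq hs Nat.prime_two).1 (hs.dvd_of_dvd_pow h) ▸ hd)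
    rcases (hs.dvd_mul).1 h with h | h
    · exact Or.inr (Or.inl
        ((Nat.prime_dvd_prime_iff_eq hs Nat.prime_three).1 (hs.dvd_of_dvd_pow h) ▸ hd))
    rcases (hs.dvd_mul).1 h with h | h
    · exact Or.inr (Or.inr ((Nat.prime_dvd_prime_iff_eq hs p5).1 h ▸ hd))
    · exact absurd ((Nat.prime_dvd_prime_iff_eq hs p11).1 h ▸ hd) h11
  exact prop_aux e2 e3 e5 e53 e35 e32 e23 e25 e52 e7 hne

theorem eq_of_mem (hG : Nat.card G = 7920) [Fact (Nat.Prime 11)] {P Q : Sylow 11 G} {y : G}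
    (hy : y ∈ (P : Subgroup G)) (hy1 : y ≠ 1) (hQ : y ∈ normalizer (Q : Set G)) : P = Q := by
  have hP := card_syl hG 11 (Or.inr rfl) P
  have h1 : y ∈ (P : Subgroup G) ⊓ Q := by
    rw [← P.2.inf_normalizer_sylow Q]; exact ⟨hy, hQ⟩
  have h2 : Nat.card ((P : Subgroup G) ⊓ Q : Subgroup G) ∣ 11 := (card_dvd_of_le inf_le_left).trans hP.dvd
  rcases (Nat.dvd_prime (by norm_num)).1 h2 with h | h
  · rw [card_eq_one] at h
    rw [h] at h1
    exact absurd (mem_bot.1 h1) hy1
  · have h3 : (P : Subgroup G) ⊓ Q = P := eq_of_le_of_card_ge inf_le_left (by rw [h, hP])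
    exact Sylow.ext (P.3 Q.2 (inf_eq_left.1 h3)).symm

theorem cent_of_comm (hG : Nat.card G = 7920) [Fact (Nat.Prime 11)] {P : Sylow 11 G} {d q : G}
    (hq : q ∈ (P : Subgroup G)) (hq1 : q ≠ 1) (hc : Commute d q) :
    (P : Subgroup G) ≤ centralizer {d} := by
  have hP := card_syl hG 11 (Or.inr rfl) P
  have h1 : q ∈ (P : Subgroup G) ⊓ centralizer {d} :=
    ⟨hq, mem_centralizer_singleton_iff.2 hc.symm⟩
  have h2 : Nat.card ((P : Subgroup G) ⊓ centralizer {d} : Subgroup G) ∣ 11 :=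
    (card_dvd_of_le inf_le_left).trans hP.dvd
  rcases (Nat.dvd_prime (by norm_num)).1 h2 with h | h
  · rw [card_eq_one] at h
    rw [h] at h1
    exact absurd (mem_bot.1 h1) hq1
  · have h3 : (P : Subgroup G) ⊓ centralizer {d} = P :=
      eq_of_le_of_card_ge inf_le_left (by rw [h, hP])
    exact inf_eq_left.1 h3

theorem caseII (hG : Nat.card G = 7920) {A : Set ℕ} (hA : HA G A) [Fact (Nat.Prime 11)]
    (P : Sylow 11 G) (m : ℕ) (hm : m = 1584 ∨ m = 132)
    (hN : Nat.card (normalizer (P : Set G)) = 5 * m) : Conn A := by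
  have hP := card_syl hG 11 (Or.inr rfl) P
  have p11 : Nat.Prime 11 := by norm_num
  have p5 : Nat.Prime 5 := by norm_num
  haveI := Fact.mk p5
  set H := normalizer (P : Set G) with hH
  have e2 : 2 ∈ A ↔ 11 ∈ A :=
    hA.norm hG P H le_rfl 2 1 11 1 Nat.prime_two p11
      (by rw [hN]; rcases hm with rfl | rfl <;> norm_num) (by rw [hP]; norm_num) (by rw [hP])
      (by rw [hP]; norm_num) (fun c h1 h2 => by interval_cases c <;> norm_num)
  have e3 : 3 ∈ A ↔ 11 ∈ A :=
    hA.norm hG P H le_rfl 3 0 11 1 Nat.prime_three p11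
      (by rw [hN]; rcases hm with rfl | rfl <;> norm_num) (by rw [hP]; norm_num) (by rw [hP])
      (by rw [hP]; norm_num) (fun c h1 h2 => by interval_cases c <;> norm_num)
  refine ⟨e2, e3, ?_⟩
  obtain ⟨Q⟩ : Nonempty (Sylow 5 H) := inferInstance
  obtain ⟨y, hy, hs, hd⟩ := exists_norm_prime (p := 5) (m := m) hN
    (by rcases hm with rfl | rfl <;> norm_num) (by rcases hm with rfl | rfl <;> decide) Q
  have hQ : Nat.card Q = 5 := by
    rw [Q.card_eq_multiplicity, hN]
    have h0 : ¬ 5 ∣ m := by rcases hm with rfl | rfl <;> norm_num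
    rw [Nat.factorization_mul (by norm_num) (by rintro rfl; exact h0 (dvd_zero _))]
    simp [p5.factorization_self, Nat.factorization_eq_zero_of_not_dvd h0]
  obtain ⟨q, hq⟩ := exists_prime_orderOf_dvd_card' (G := Q) 5 (by rw [hQ])
  have hq' : orderOf ((q : H) : G) = 5 := by rw [orderOf_coe, orderOf_coe, hq]
  obtain ⟨z, hz⟩ := exists_prime_orderOf_dvd_card' (G := P) 11 (by rw [hP])
  have hz' : orderOf (z : G) = 11 := by rw [orderOf_coe, hz]
  haveI : IsCyclic P := isCyclic_of_prime_card hP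
  -- the commutator centralizes `P`
  let f : H →* MulAut P := (P : Subgroup G).normalizerMonoidHom
  have hcomm : ∀ a b : MulAut P, a * b = b * a := fun a b => by
    have e := IsCyclic.mulAutMulEquiv P
    apply e.injective
    rw [map_mul, map_mul, mul_comm]
  have hw : f (y * q * y⁻¹ * (q : H)⁻¹) = 1 := by
    simp only [map_mul, map_inv]
    rw [hcomm (f y) (f q)]; group
  have hwQ : y * q * y⁻¹ * (q : H)⁻¹ ∈ (Q : Subgroup H) :=
    (Q : Subgroup H).mul_mem ((mem_set_normalizer_iff.1 hy _).1 q.2) ((Q : Subgroup H).inv_mem q.2)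
  by_cases hw1 : y * q * y⁻¹ * (q : H)⁻¹ = 1
  · have hc : Commute (y : G) ((q : H) : G) := by
      have h1 : y * q = q * y := by
        calc y * q = (y * q * y⁻¹ * (q : H)⁻¹) * (q * y) := by group
          _ = q * y := by rw [hw1, one_mul]
      exact congrArg Subtype.val h1
    have hd' : orderOf y ∣ 1584 := hd.trans (by rcases hm with rfl | rfl <;> norm_num)
    have h1 := hA.comm hs p5 (hd'.trans (by norm_num)) (by norm_num) (orderOf_coe y) hq' hc
    have : (1584 : ℕ) = 2 ^ 4 * (3 ^ 2 * 11) := rfl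
    rw [this] at hd'
    rcases (hs.dvd_mul).1 hd' with h | h
    · rw [(Nat.prime_dvd_prime_iff_eq hs Nat.prime_two).1 (hs.dvd_of_dvd_pow h)] at h1
      exact h1.symm.trans e2
    rcases (hs.dvd_mul).1 h with h | h
    · rw [(Nat.prime_dvd_prime_iff_eq hs Nat.prime_three).1 (hs.dvd_of_dvd_pow h)] at h1
      exact h1.symm.trans e3
    · rw [(Nat.prime_dvd_prime_iff_eq hs p11).1 h] at h1
      exact h1.symm
  · set w := y * q * y⁻¹ * (q : H)⁻¹ with hwdef
    have h1 : orderOf (w : G) = 5 := by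
      rw [orderOf_coe]
      have h2 : orderOf w ∣ 5 := hQ ▸ (Q : Subgroup H).orderOf_dvd_natCard hwQ
      exact ((Nat.dvd_prime p5).1 h2).resolve_left (fun h => hw1 (orderOf_eq_one_iff.1 h))
    refine hA.comm p5 p11 (by norm_num) (by norm_num) h1 hz' ?_
    have h2 : ((f w z : P) : G) = z := by rw [hw]; rfl
    have h3 : ((f w z : P) : G) = w * z * (w : G)⁻¹ := rfl
    rw [Commute, SemiconjBy]
    calc (w : G) * z = (w * z * (w : G)⁻¹) * w := by group
      _ = z * w := by rw [← h3, h2]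

theorem caseIV (hG : Nat.card G = 7920) [Fact (Nat.Prime 11)] (h144 : Nat.card (Sylow 11 G) = 144)
    (N : Subgroup G) [N.Normal] (hN : N ≠ ⊤) (h11 : 11 ∣ Nat.card N) : False := by
  obtain ⟨R, hRN, hR⟩ := sub_le N 11 1 (by simpa using h11)
  obtain ⟨P, hRP⟩ := (IsPGroup.of_card hR).exists_le_sylow
  have hP := card_syl hG 11 (Or.inr rfl) P
  have hPN : (P : Subgroup G) ≤ N := by
    rw [← eq_of_le_of_card_ge hRP (by rw [hP, hR]; norm_num)]; exact hRN
  have hM : Nat.card (normalizer (P : Set G)) = 55 := by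
    have := (normalizer (P : Set G)).card_mul_index
    rw [← P.card_eq_index_normalizer, h144, hG] at this
    omega
  have hF := P.normalizer_sup_eq_top' hPN
  have hidx : N.index ∣ 55 := by
    rw [← relIndex_top_right, ← hF, relIndex_sup_right, ← hM]
    exact relIndex_dvd_card _ _
  have hinf : normalizer (P : Set G) ⊓ N = P := by
    symm
    refine eq_of_le_of_card_ge (le_inf le_normalizer hPN) ?_
    have h1 : Nat.card (normalizer (P : Set G) ⊓ N : Subgroup G) ∣ 55 :=
      hM ▸ card_dvd_of_le inf_le_left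
    have h2 : 11 ∣ Nat.card (normalizer (P : Set G) ⊓ N : Subgroup G) :=
      hP.symm.dvd.trans (card_dvd_of_le (le_inf le_normalizer hPN))
    have h3 : Nat.card (normalizer (P : Set G) ⊓ N : Subgroup G) ≠ 55 := by
      intro h
      have h4 : normalizer (P : Set G) ⊓ N = normalizer (P : Set G) :=
        eq_of_le_of_card_ge inf_le_left (by rw [h, hM])
      rw [sup_eq_right.2 (inf_eq_left.1 h4)] at hF
      exact hN hF
    rw [hP]
    have h5 := Nat.le_of_dvd (by norm_num) h1
    generalize Nat.card (normalizer (P : Set G) ⊓ N : Subgroup G) = n at *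
    interval_cases n <;> simp_all
  haveI : IsCyclic P := isCyclic_of_prime_card hP
  have hB : normalizer ((P.subtype hPN : Sylow 11 N) : Set N) ≤
      centralizer ((P.subtype hPN : Sylow 11 N) : Set N) := by
    intro x hx
    have hx' : (x : G) ∈ (P : Subgroup G) := by
      rw [← hinf]
      refine mem_inf.2 ⟨?_, x.2⟩
      rw [← Sylow.smul_eq_iff_mem_normalizer] at hx ⊢
      rw [Sylow.smul_subtype] at hx
      exact Sylow.subtype_injective hx
    rw [mem_centralizer_iff]
    intro h hh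
    have hh' : (h : G) ∈ (P : Subgroup G) := hh
    have := IsCyclic.commGroup (α := P) |>.mul_comm ⟨h, hh'⟩ ⟨x, hx'⟩
    have h5 : (h : G) * x = x * h := congrArg Subtype.val this
    exact Subtype.ext h5
  have hC := MonoidHom.ker_transferSylow_isComplement' (P.subtype hPN) hB
  have hC2 := MonoidHom.not_dvd_card_ker_transferSylow (P.subtype hPN) hB
  set K := (MonoidHom.transferSylow (P.subtype hPN) hB).ker with hK
  haveI : K.Normal := MonoidHom.normal_ker _
  have hc1 := hC.card_mul_card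
  have hc2 : Nat.card ((P.subtype hPN : Sylow 11 N) : Subgroup N) = 11 := by
    rw [Sylow.coe_subtype]
    exact (Nat.card_congr (subgroupOfEquivOfLe hPN).toEquiv).trans hP
  have hc3 := N.card_mul_index
  rw [← hc1, hc2, hG] at hc3
  have hK' : Nat.card (K.map N.subtype) = Nat.card K :=
    card_map_of_injective N.subtype_injective
  have hev : 2 ∣ Nat.card K := by
    have h1 : 2 ∣ Nat.card K * 11 * N.index := by rw [hc3]; norm_num
    rcases (Nat.prime_two.dvd_mul).1 h1 with h | h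
    · exact ((Nat.prime_two.dvd_mul).1 h).resolve_right (by norm_num)
    · exact absurd (h.trans hidx) (by norm_num)
  have hnm : (P : Subgroup G) ≤ normalizer ((K.map N.subtype : Subgroup G) : Set G) := by
    refine hPN.trans ?_
    have key : ∀ y ∈ N, ∀ x ∈ K.map N.subtype, y * x * y⁻¹ ∈ K.map N.subtype := by
      rintro y hy x ⟨x, hx, rfl⟩
      exact ⟨_, Subgroup.Normal.conj_mem inferInstance x hx ⟨y, hy⟩, rfl⟩
    intro y hy
    rw [mem_normalizer_iff]
    intro x
    refine ⟨key y hy x, fun h => ?_⟩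
    have := key y⁻¹ (N.inv_mem hy) _ h
    simpa [mul_assoc] using this
  obtain ⟨y, hy, q, -, hy1, hq, hc⟩ := comm_pair' (K.map N.subtype) P 11 2 P.2 hnm
    (by rwa [hK']) (by rwa [hK']) 4 (by
      intro h
      exact absurd (h.trans (hG ▸ (K.map N.subtype).card_subgroup_dvd_card)) (by norm_num))
    (fun c h1 h2 => by rw [hP]; interval_cases c <;> norm_num)
  have h1 := cent_of_comm hG hy (by rintro rfl; simp at hy1) hc.symm
  have h2 : q ∈ normalizer (P : Set G) := by
    apply centralizer_le_normalizer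
    rw [mem_centralizer_iff]
    intro h hh
    exact mem_centralizer_singleton_iff.1 (h1 hh)
  have h3 := (normalizer (P : Set G)).orderOf_dvd_natCard h2
  rw [hq, hM] at h3
  norm_num at h3

theorem caseIII (hG : Nat.card G = 7920) [Fact (Nat.Prime 11)] (h45 : Nat.card (Sylow 11 G) = 45) :
    ∃ N : Subgroup G, N.Normal ∧ N ≠ ⊥ ∧ ¬ 11 ∣ Nat.card N := by
  classical
  haveI : Nontrivial (Sylow 11 G) := Finite.one_lt_card_iff_nontrivial.1 (by rw [h45]; norm_num)
  obtain ⟨P, Q, hPQ⟩ := exists_pair_ne (Sylow 11 G)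
  have hP := card_syl hG 11 (Or.inr rfl) P
  set H := normalizer (P : Set G) with hH
  have hM : Nat.card H = 176 := by
    have := H.card_mul_index
    rw [← P.card_eq_index_normalizer, h45, hG] at this
    omega
  -- the stabilizer of `Q` in `H`
  set T := H ⊓ normalizer (Q : Set G) with hT
  have hT4 : 4 ≤ Nat.card T := by
    have h1 : Nat.card (MulAction.orbit H Q) ≤ 44 := by
      have h2 : MulAction.orbit H Q ⊆ Set.univ \ {P} := by
        rintro R ⟨h, rfl⟩
        refine ⟨trivial, fun h3 => hPQ ?_⟩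
        have h4 : (h : G) • Q = P := h3
        have h5 : (h : G) • P = P := Sylow.smul_eq_iff_mem_normalizer.2 h.2
        exact smul_left_cancel (h : G) (h5.trans h4.symm)
      have h3 := Set.ncard_le_ncard h2
      rw [Set.ncard_sdiff_singleton_of_mem (Set.mem_univ _), Set.ncard_univ, h45] at h3
      rwa [Nat.card_coe_set_eq]
    have h2 : Nat.card (MulAction.orbit H Q) * Nat.card (MulAction.stabilizer H Q) = 176 := by
      rw [← hM, ← Nat.card_prod]
      exact Nat.card_congr (MulAction.orbitProdStabilizerEquivGroup H Q)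
    have h3 : Nat.card (MulAction.stabilizer H Q) ≤ Nat.card T := by
      refine Nat.card_le_card_of_injective
        (fun x => ⟨x.1.1, mem_inf.2 ⟨x.1.2, Sylow.smul_eq_iff_mem_normalizer.1 x.2⟩⟩) ?_
      intro a b hab
      have h5 : (a.1.1 : G) = b.1.1 := congrArg (fun t : T => (t : G)) hab
      exact Subtype.ext (Subtype.ext h5)
    by_contra h4
    have : Nat.card (MulAction.orbit H Q) * Nat.card (MulAction.stabilizer H Q) ≤ 44 * 3 :=
      Nat.mul_le_mul h1 (by omega)
    omega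
  have ord11 : ∀ (R : Sylow 11 G) (y : G), orderOf y = 11 → y ∈ normalizer (R : Set G) →
      y ∈ (R : Subgroup G) := by
    intro R y hy hR
    have h1 : IsPGroup 11 (zpowers y) := IsPGroup.of_card (n := 1) (by rw [Nat.card_zpowers, hy]; rfl)
    have h2 : y ∈ zpowers y ⊓ normalizer (R : Set G) := ⟨mem_zpowers y, hR⟩
    rw [h1.inf_normalizer_sylow R] at h2
    exact h2.2
  have hT11 : ¬ 11 ∣ Nat.card T := by
    intro h
    obtain ⟨y, hy⟩ := exists_prime_orderOf_dvd_card' (G := T) 11 h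
    have hy' : orderOf (y : G) = 11 := by rw [orderOf_coe, hy]
    exact hPQ (eq_of_mem hG (ord11 P y hy' y.2.1) (by intro h; rw [h] at hy'; simp at hy') y.2.2)
  have hTd : Nat.card T ∣ 2 ^ 4 := by
    have h1 : Nat.card T ∣ 2 ^ 4 * 11 := (card_dvd_of_le inf_le_left).trans hM.dvd
    exact Nat.Coprime.dvd_of_dvd_mul_right
      ((Nat.Prime.coprime_iff_not_dvd (by norm_num)).2 hT11).symm h1
  obtain ⟨k, hk4, hk⟩ := (Nat.dvd_prime_pow Nat.prime_two).1 hTd
  obtain ⟨d, hd, q, hq, hd2, hq11, hc⟩ := comm_pair' P T 2 11 (IsPGroup.of_card hk) inf_le_left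
    (by rw [hP]; norm_num) (by rw [hP]) 1 (by rw [hP]; norm_num) (fun a h1 h2 => by
      rw [hk] at hT4 ⊢
      interval_cases a
      interval_cases k <;> simp_all)
  have hPd := cent_of_comm hG hq (by rintro rfl; simp at hq11) hc
  -- fixed points of `d`
  let F := {R : Sylow 11 G | d • R = R}
  have hF : ∀ R, R ∈ F ↔ d ∈ normalizer (R : Set G) := fun R => Sylow.smul_eq_iff_mem_normalizer
  have hcF : ∀ c ∈ centralizer {d}, ∀ R ∈ F, c • R ∈ F := by
    intro c hc R hR
    have h1 : c * d = d * c := mem_centralizer_singleton_iff.1 hc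
    change d • c • R = c • R
    rw [← mul_smul, ← h1, mul_smul, show d • R = R from hR]
  have hF11 : 11 ≤ Nat.card F := by
    refine hP.symm.le.trans <| Nat.card_le_card_of_injective
      (fun p : P => (⟨(p : G) • Q, hcF p (hPd p.2) Q ((hF Q).2 hd.2)⟩ : F)) ?_
    intro a b hab
    have h1 : (a : G) • Q = (b : G) • Q := congrArg Subtype.val hab
    by_contra hne
    refine hPQ (eq_of_mem hG (y := (b : G)⁻¹ * a) (P.1.mul_mem (P.1.inv_mem b.2) a.2) ?_ ?_)
    · intro h; apply hne; exact Subtype.ext (inv_mul_eq_one.1 h).symm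
    · rw [← Sylow.smul_eq_iff_mem_normalizer, mul_smul, h1, inv_smul_smul]
  have hall : ∀ R ∈ F, (R : Subgroup G) ≤ centralizer {d} := by
    intro R hR
    by_contra hn
    have hRc := card_syl hG 11 (Or.inr rfl) R
    have h1 : Nat.card ((F \ {R} : Set _) × R) ≤ Nat.card (Set.univ \ {R} : Set (Sylow 11 G)) := by
      refine Nat.card_le_card_of_injective (fun x => ⟨(x.2 : G) • x.1.1, trivial, fun h => ?_⟩) ?_
      · have h4 : (x.2 : G) • x.1.1 = R := h
        have h5 : (x.2 : G) • R = R := Sylow.smul_eq_iff_mem_normalizer.2 (le_normalizer x.2.2)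
        exact x.1.2.2 (smul_left_cancel (x.2 : G) (h4.trans h5.symm))
      · rintro ⟨⟨R1, hR1, hR1'⟩, a⟩ ⟨⟨R2, hR2, hR2'⟩, b⟩ hab
        have h1 : (a : G) • R1 = (b : G) • R2 := congrArg Subtype.val hab
        have hab : a = b := by
          by_contra hne
          set u : G := (b : G)⁻¹ * a with hu
          have huR : u ∈ (R : Subgroup G) := R.1.mul_mem (R.1.inv_mem b.2) a.2
          have hu1 : u ≠ 1 := by
            intro h; apply hne; exact Subtype.ext (inv_mul_eq_one.1 h).symm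
          have h2 : u • R1 = R2 := by rw [hu, mul_smul, h1, inv_smul_smul]
          have h3 : (u⁻¹ * (d * u * d⁻¹)) • R1 = R1 := by
            have h4 : d⁻¹ • R1 = R1 := inv_smul_eq_iff.2 (show d • R1 = R1 from hR1).symm
            rw [mul_smul, mul_smul, mul_smul, h4, h2, show d • R2 = R2 from hR2, ← h2,
              inv_smul_smul]
          have h5 : u⁻¹ * (d * u * d⁻¹) ∈ (R : Subgroup G) :=
            R.1.mul_mem (R.1.inv_mem huR) ((mem_set_normalizer_iff.1 ((hF R).1 hR) _).1 huR)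
          have h6 : u⁻¹ * (d * u * d⁻¹) ≠ 1 := by
            intro h
            apply hn
            refine cent_of_comm hG huR hu1 ?_
            rw [Commute, SemiconjBy]
            calc d * u = u * (u⁻¹ * (d * u * d⁻¹)) * d := by group
              _ = u * d := by rw [h, mul_one]
          exact hR1' (eq_of_mem hG h5 h6 (Sylow.smul_eq_iff_mem_normalizer.1 h3)).symm
        subst hab
        have := smul_left_cancel _ h1
        subst this
        rfl
    rw [Nat.card_prod, hRc, Nat.card_coe_set_eq, Nat.card_coe_set_eq,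
      Set.ncard_sdiff_singleton_of_mem (Set.mem_univ _), Set.ncard_univ, h45,
      Set.ncard_sdiff_singleton_of_mem hR, ← Nat.card_coe_set_eq] at h1
    omega
  have hPF : P ∈ F := (hF P).2 hd.1
  have hcard : Nat.card F = Nat.card (Sylow 11 (centralizer ({d} : Set G))) := by
    refine Nat.card_eq_of_bijective (fun R => R.1.subtype (hall R.1 R.2)) ⟨?_, ?_⟩
    · intro a b hab
      exact Subtype.ext (Sylow.subtype_injective hab)
    · intro R
      obtain ⟨c, hc⟩ := MulAction.exists_smul_eq (centralizer ({d} : Set G)) (P.subtype hPd) R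
      rw [Sylow.smul_subtype] at hc
      exact ⟨⟨(c : G) • P, hcF c c.2 P hPF⟩, hc⟩
  have hmod : Nat.card F ≡ 1 [MOD 11] := hcard ▸ card_sylow_modEq_one 11 _
  have hdv : Nat.card F ∣ 7920 := by
    rw [hcard, ← hG]
    exact ((P.subtype hPd).card_dvd_index.trans (index_dvd_card _)).trans
      (card_subgroup_dvd_card _)
  have hodd : 45 ≡ Nat.card F [MOD 2] := by
    have h1 : IsPGroup 2 (zpowers d) := IsPGroup.of_card (n := 1) (by rw [Nat.card_zpowers, hd2]; rfl)
    have h2 := h1.card_modEq_card_fixedPoints (Sylow 11 G)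
    rw [h45] at h2
    have h3 : MulAction.fixedPoints (zpowers d) (Sylow 11 G) = F := by
      ext R
      rw [Subgroup.sylow_mem_fixedPoints_iff, zpowers_le, hF]
    rwa [h3] at h2
  have hle : Nat.card F ≤ 45 := by
    rw [← h45]; exact Nat.card_le_card_of_injective _ Subtype.val_injective
  have h45' : Nat.card F = 45 := by
    have key : ∀ n : ℕ, 11 ≤ n → n ≤ 45 → n % 11 = 1 % 11 → 45 % 2 = n % 2 → n ∣ 7920 →
        n = 45 := by
      intro n h1 h2 h3 h4 h5
      have h6 : n = 23 ∨ n = 45 := by omega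
      rcases h6 with rfl | rfl
      · norm_num at h5
      · rfl
    exact key _ hF11 hle hmod hodd hdv
  have hFu : F = Set.univ := by
    apply Set.eq_of_subset_of_ncard_le (Set.subset_univ _)
    rw [Set.ncard_univ, h45, ← Nat.card_coe_set_eq, h45']
  refine ⟨(MulAction.toPermHom G (Sylow 11 G)).ker, inferInstance, ?_, ?_⟩
  · intro h
    have h1 : d ∈ (MulAction.toPermHom G (Sylow 11 G)).ker := by
      rw [MonoidHom.mem_ker]
      ext1 R
      have : R ∈ F := hFu ▸ Set.mem_univ R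
      exact this
    rw [h, mem_bot] at h1
    rw [h1] at hd2; simp at hd2
  · intro h
    obtain ⟨y, hy⟩ := exists_prime_orderOf_dvd_card'
      (G := (MulAction.toPermHom G (Sylow 11 G)).ker) 11 h
    have hy' : orderOf (y : G) = 11 := by rw [orderOf_coe, hy]
    have h1 : ∀ R : Sylow 11 G, (y : G) ∈ normalizer (R : Set G) := fun R => by
      rw [← Sylow.smul_eq_iff_mem_normalizer]
      exact congrArg (fun e : Equiv.Perm (Sylow 11 G) => e R) (MonoidHom.mem_ker.1 y.2)
    exact hPQ (eq_of_mem hG (ord11 P y hy' (h1 P)) (by intro h; rw [h] at hy'; simp at hy') (h1 Q))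

end

/-- Let G be a finite group of order 7920 = 2⁴·3²·5·11 (the order of the smallest Mathieu group) and suppose its prime graph (vertices the prime divisors of the order, distinct p, q joined when there is an element of order pq) is disconnected: the prime divisors split into two non-empty parts with no element of order pq for p in one part and q in the other. Then G is simple. -/
theorem result {G : Type*} [Group G] [Finite G] (hord : Nat.card G = 7920)
    (hdisc : (∃ A : Set ℕ, (∃ a ∈ A, a.Prime ∧ a ∣ Nat.card G) ∧ (∃ b ∉ A, b.Prime ∧ b ∣ Nat.card G) ∧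
      ∀ a ∈ A, ∀ b ∉ A, a.Prime → b.Prime → a ∣ Nat.card G → b ∣ Nat.card G → ¬ ∃ g : G, orderOf g = a * b)) :
    IsSimpleGroup G := by
  obtain ⟨A, ⟨a, haA, ha, had⟩, ⟨b, hbA, hb, hbd⟩, hdis⟩ := hdisc
  rw [hord] at had hbd hdis
  have hA : HA G A := by
    intro p q hp hq h1 h2 ⟨g, hg⟩
    by_cases h3 : p ∈ A <;> by_cases h4 : q ∈ A
    · exact iff_of_true h3 h4
    · exact absurd ⟨g, hg⟩ (hdis p h3 q h4 hp hq h1 h2)
    · exact absurd ⟨g, hg.trans (mul_comm _ _)⟩ (hdis q h4 p h3 hq hp h2 h1)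
    · exact iff_of_false h3 h4
  have hC : ¬ Conn A := by
    rintro ⟨e2, e3, e5⟩
    have key : ∀ s : ℕ, s.Prime → s ∣ 7920 → (s ∈ A ↔ 11 ∈ A) := by
      intro s hs hd'
      have : (7920 : ℕ) = 2 ^ 4 * (3 ^ 2 * (5 * 11)) := rfl
      rw [this] at hd'
      rcases (hs.dvd_mul).1 hd' with h | h
      · rw [(Nat.prime_dvd_prime_iff_eq hs Nat.prime_two).1 (hs.dvd_of_dvd_pow h)]; exact e2
      rcases (hs.dvd_mul).1 h with h | h
      · rw [(Nat.prime_dvd_prime_iff_eq hs Nat.prime_three).1 (hs.dvd_of_dvd_pow h)]; exact e3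
      rcases (hs.dvd_mul).1 h with h | h
      · rw [(Nat.prime_dvd_prime_iff_eq hs (by norm_num)).1 h]; exact e5
      · rw [(Nat.prime_dvd_prime_iff_eq hs (by norm_num)).1 h]
    exact hbA ((key b hb hbd).2 ((key a ha had).1 haA))
  haveI : Nontrivial G := Finite.one_lt_card_iff_nontrivial.1 (by rw [hord]; norm_num)
  haveI : Fact (Nat.Prime 11) := ⟨by norm_num⟩
  refine ⟨fun N hN => ?_⟩
  by_contra hne
  push Not at hne
  have h11 : 11 ∣ Nat.card N := by
    by_contra h
    exact hC (caseI hord hA N hne.1 h)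
  obtain ⟨P⟩ : Nonempty (Sylow 11 G) := inferInstance
  have hP := card_syl hord 11 (Or.inr rfl) P
  have h1 := card_sylow_modEq_one 11 G
  have h2 : Nat.card (Sylow 11 G) ∣ 720 := by
    have h3 := (P : Subgroup G).card_mul_index
    rw [hP, hord] at h3
    have h4 : (P : Subgroup G).index = 720 := by omega
    exact h4 ▸ P.card_dvd_index
  have h3 := (normalizer (P : Set G)).card_mul_index
  rw [← P.card_eq_index_normalizer, hord] at h3
  have h4 : Nat.card (Sylow 11 G) = 1 ∨ Nat.card (Sylow 11 G) = 12 ∨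
      Nat.card (Sylow 11 G) = 45 ∨ Nat.card (Sylow 11 G) = 144 := by
    have h5 : Nat.card (Sylow 11 G) ∈ (Nat.divisors 720).filter (fun n => n % 11 = 1) :=
      Finset.mem_filter.2 ⟨Nat.mem_divisors.2 ⟨h2, by norm_num⟩, h1⟩
    have h6 : (Nat.divisors 720).filter (fun n => n % 11 = 1) = {1, 12, 45, 144} := by
      decide +kernel
    rw [h6] at h5
    simpa using h5
  rcases h4 with h | h | h | h
  · exact hC (caseII hord hA P 1584 (Or.inl rfl) (by rw [h] at h3; omega))
  · exact hC (caseII hord hA P 132 (Or.inr rfl) (by rw [h] at h3; omega))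
  · obtain ⟨M, hM, hM1, hM2⟩ := caseIII hord h
    exact hC (caseI hord hA M hM1 hM2)
  · exact caseIV hord h N hne.2 h11

end Cfsg.Agent.S2490
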