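import Cfsg.Statements.S2495
import Cfsg.Agent.Lib.Lin.H23Spec
import Cfsg.Agent.Lib.Grp.Zsig

set_option autoImplicit false
open Cfsg

namespace Cfsg.Agent.S2495

open CA.Rcf CA.H23Spec CA.PSLOrd CA.PSUOrd Polynomial

theorem dvd_T_iff {q g a : ℕ} (hq : 2 ≤ q) (h : g ∣ q - 1) : g ∣ (q ^ a - 1) / (q - 1) ↔ g ∣ a := by
  have h2 : (q : ZMod g) = 1 := by
    have := (ZMod.natCast_eq_zero_iff _ _).2 h
    rwa [Nat.cast_sub (by omega), Nat.cast_one, sub_eq_zero] at this
  rw [← Nat.geomSum_eq hq, ← ZMod.natCast_eq_zero_iff, ← ZMod.natCast_eq_zero_iff]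
  simp [h2]

/-- Let q be an odd prime power, n ≥ 4 even, and L = PSL(n,q). Then L has an element of order q^(n/2) + 1 if and only if the 2-part of n exceeds the 2-part of q − 1. -/
theorem result {F : Type*} [Field F] [Fintype F] {q : ℕ} (hF : Fintype.card F = q) (hodd : Odd q)
    {n : ℕ} (hn : 4 ≤ n) (heven : Even n) :
    (∃ g : Matrix.ProjectiveSpecialLinearGroup (Fin n) F, orderOf g = q ^ (n / 2) + 1) ↔
      padicValNat 2 (q - 1) < padicValNat 2 n := by
  subst hF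
  have hq : 2 ≤ Fintype.card F := Fintype.one_lt_card
  obtain ⟨p, hp⟩ := CharP.exists F
  have := Fact.mk (CharP.char_is_prime F p)
  obtain ⟨m, rfl⟩ := even_iff_exists_two_mul.1 heven
  rw [Nat.mul_div_cancel_left _ two_pos]
  obtain ⟨r, hr, k2, k3⟩ := CA.Zsig.zsigmondy _ (2 * m) hq (by omega) (fun H => absurd (H.1 ▸ hodd) (by decide)) (by omega)
  have h1 := (hr.dvd_mul.1 (CA.CForm.Form.sq_sub_one_eq _ _ ▸ k2)).resolve_left (k3 m (by omega) (by omega))
  have h3 : (Fintype.card F ^ (2 * m) - 1) / (Fintype.card F - 1) =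
      (Fintype.card F ^ m - 1) / (Fintype.card F - 1) * (Fintype.card F ^ m + 1) := by
    rw [← CA.CForm.Form.sq_sub_one_eq, Nat.div_mul_right_comm (Nat.sub_one_dvd_pow_sub_one _ _)]
  obtain ⟨z, hz⟩ := singer_PSL (F := F) (n := 2 * m) (by omega)
  have hd := fun g a => dvd_T_iff (g := g) (a := a) hq
  have h0 : 0 < (Fintype.card F ^ (2 * m) - 1) / (Fintype.card F - 1) := Nat.div_pos (Nat.le_of_dvd
    (Nat.sub_pos_of_lt (Nat.one_lt_pow (by omega) hq)) (Nat.sub_one_dvd_pow_sub_one _ _)) (by omega)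
  have hg := Nat.gcd_dvd_right ((Fintype.card F ^ (2 * m) - 1) / (Fintype.card F - 1)) (Fintype.card F - 1)
  have hg' := Nat.gcd_dvd_left ((Fintype.card F ^ (2 * m) - 1) / (Fintype.card F - 1)) (Fintype.card F - 1)
  constructor
  · rintro ⟨g, h⟩
    obtain ⟨s, k1, k4, k5, k6⟩ := (sp_PSL (F := F) (r := 1)).of g
    rw [h] at k6
    obtain ⟨N, e, φ, l1, l2, l3, l4⟩ := exists_of_prime_dvd p (fun d hd => (k1 d hd).1) (fun d hd => (k1 d hd).2) hr
      fun M h => h1.trans ((k6 M).2 h)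
    have l5 : 2 * m ≤ φ.natDegree := by
      by_contra H
      refine k3 _ (mem_cycT.1 l2).1.natDegree_pos (not_le.1 H) ((l4.resolve_right fun H => natCast_ne_zero (by omega) k2
        ((CharP.cast_eq_zero_iff F p _).2 H.1.symm.dvd)).trans ((orderOf_dvd_iff_dvd (by omega)).1 ?_))
      rw [natDegree_cyc l1 l2, Nat.card_eq_fintype_card]
    obtain ⟨s', rfl⟩ := Multiset.exists_cons_of_mem l3
    rw [dg, Multiset.map_cons, Multiset.sum_cons, natDegree_pow, add_mul] at k4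
    obtain rfl : e = 0 := (Nat.mul_eq_zero.1 (show e * φ.natDegree = 0 by omega)).resolve_right (by omega)
    obtain rfl : s' = 0 := Multiset.eq_zero_of_forall_notMem fun d hd => by
      have := (k1 d (Multiset.mem_cons_of_mem hd)).1.natDegree_pos
      have := Multiset.single_le_sum (by simp) _ (Multiset.mem_map_of_mem natDegree hd)
      omega
    have l6 : φ.natDegree = 2 * m := by omega
    have l10 := root_pow (e := 0) (mem_cycT.1 l2).1 (mem_cycT.1 l2).2.1 (by simpa [l6] using k5)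
    rw [zero_add, one_mul, l6] at l10
    obtain ⟨u, hu⟩ := hg
    obtain ⟨w, hw⟩ := hg'
    obtain ⟨c, hc⟩ := (exists_scalar_iff (mem_cycT.1 l2).1 (not_X_dvd_cyc (ne_zero_of_cast l1) l2) w).2 (by
      rw [hu, ← mul_assoc, mul_comm w, ← hw, pow_mul, l10, one_pow])
    have l11 := (k6 w).2 ⟨c, by simpa using hc⟩
    have l12 := (hd _ m ⟨u, hu⟩).1 (Nat.dvd_of_mul_dvd_mul_right (Nat.add_one_pos _)
      (by rw [← h3]; nth_rw 2 [hw]; exact mul_dvd_mul_left _ l11))
    by_contra H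
    have l13 : 2 ^ padicValNat 2 (2 * m) ∣ Fintype.card F - 1 := (padicValNat_dvd_iff_le (by omega)).2 (by omega)
    have := (padicValNat_dvd_iff_le (by omega)).1 ((Nat.dvd_gcd ((hd _ _ l13).2 pow_padicValNat_dvd) l13).trans l12)
    rw [padicValNat.mul two_ne_zero (by omega), padicValNat_self] at this
    omega
  · intro h
    refine mem_range_of_dvd z ?_
    have l4 := Nat.dvd_gcd (dvd_mul_left _ (orderOf z)) ((hz _).1 dvd_rfl)
    rw [Nat.gcd_mul_left] at l4
    obtain ⟨w, hw⟩ := (hd _ _ hg).1 hg'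
    have hg0 := Nat.pos_of_dvd_of_pos hg' h0
    obtain ⟨w, rfl⟩ : 2 ∣ w := by
      by_contra H
      rw [hw, padicValNat.mul hg0.ne' (by rintro rfl; simp at H), padicValNat.eq_zero_of_not_dvd H] at h
      exact h.not_ge ((padicValNat_dvd_iff_le (by omega)).1 (pow_padicValNat_dvd.trans hg))
    obtain ⟨v, hv⟩ := (hd _ m hg).2 ⟨w, by linarith⟩
    refine Nat.dvd_of_mul_dvd_mul_right hg0 (Dvd.dvd.trans ⟨v, ?_⟩ l4)
    nth_rw 1 [h3, hv]
    ring

end Cfsg.Agent.S2495
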