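import Cfsg.Statements.S2496
import Cfsg.Agent.Lib.Lin.PSUOrd
import Cfsg.Agent.Lib.Grp.Zsig

set_option autoImplicit false
open Cfsg

namespace Cfsg.Agent.S2496

section
open CA.PSUOrd

theorem dvd_T_iff {q g a : ℕ} (hq : 1 ≤ q) (h : g ∣ q + 1) : g ∣ T q a ↔ g ∣ a := by
  have h1 : (T q a : ℤ) = (-1) ^ (a + 1) * ∑ i ∈ Finset.range a, (-(q : ℤ)) ^ i := by
    refine mul_left_cancel₀ (show (q : ℤ) + 1 ≠ 0 by omega) ?_
    have := mul_geom_sum (-(q : ℤ)) a
    have h2 := congrArg (Nat.cast : ℕ → ℤ) (mul_T (a := a) hq)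
    rw [cast_U hq] at h2
    push_cast at h2
    rw [h2]
    rcases Nat.even_or_odd a with h | h
    · rw [h.neg_pow] at this
      rw [pow_succ, h.neg_one_pow]
      linear_combination -this
    · rw [h.neg_pow] at this
      rw [pow_succ, h.neg_one_pow]
      linear_combination this
  have h2 : -(q : ZMod g) = 1 := by
    rw [neg_eq_iff_add_eq_zero]; exact_mod_cast (ZMod.natCast_eq_zero_iff _ _).2 h
  have h3 := congrArg (Int.cast : ℤ → ZMod g) h1
  push_cast at h3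
  rw [← ZMod.natCast_eq_zero_iff, ← ZMod.natCast_eq_zero_iff, h3, h2]
  rcases Nat.even_or_odd (a + 1) with h | h <;> simp [h.neg_one_pow]

theorem exists_prim {q m : ℕ} (hq : 2 ≤ q) (hodd : Odd q) (hm : 2 ≤ m) : ∃ r, r.Prime ∧
    (r ∣ if Even m then q ^ m + 1 else q ^ m - 1) ∧ orderOf (-(q : ZMod r)) = 2 * m := by
  have h1 : 1 ≤ q := by omega
  have h6 : ∀ k, ¬(q = 2 ∧ k = 6) := fun k H => absurd (H.1 ▸ hodd) (by decide)
  have key : ∀ r, r ∣ q ^ (2 * m) - 1 → (∀ o, 0 < o → o ≤ m → o ∣ 2 * m → ¬r ∣ U q o) →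
      orderOf (-(q : ZMod r)) = 2 * m := fun r h h' => by
    have h2 := (dvd_U_iff h1).1 (U_even (q := q) (even_two_mul m) ▸ h)
    by_contra H
    refine h' _ (Nat.pos_of_dvd_of_pos h2 (by omega)) ?_ h2 ((dvd_U_iff h1).2 dvd_rfl)
    obtain ⟨c, hc⟩ := h2
    obtain rfl | rfl | h3 : c = 0 ∨ c = 1 ∨ 2 ≤ c := by omega
    · omega
    · omega
    · have := Nat.mul_le_mul_left (orderOf (-(q : ZMod r))) h3
      omega
  split_ifs with h
  · obtain ⟨r, k1, k2, k3⟩ := CA.Zsig.zsigmondy q (2 * m) hq (by omega) (h6 _) (by omega)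
    refine ⟨r, k1, (k1.dvd_mul.1 (CA.CForm.Form.sq_sub_one_eq _ _ ▸ k2)).resolve_left
      (k3 m (by omega) (by omega)), key r k2 fun o l1 l2 l3 l4 => ?_⟩
    rcases l2.eq_or_lt with rfl | l2
    · exact k3 o l1 (by omega) (U_even h ▸ l4)
    · exact k3 (2 * o) (by omega) (by omega)
        (U_even (q := q) (even_two_mul o) ▸ l4.trans (U_dvd_U h1 (dvd_mul_left _ _)))
  · obtain ⟨r, k1, k2, k3⟩ := CA.Zsig.zsigmondy q m hq (by omega) (h6 _) fun H => h (H.1 ▸ even_two)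
    refine ⟨r, k1, k2, key r (CA.CForm.Form.sq_sub_one_eq _ _ ▸ k2.mul_right _) fun o l1 l2 l3 l4 => ?_⟩
    rcases Nat.even_or_odd o with l5 | l5
    · exact k3 o l1 (lt_of_le_of_ne l2 fun H => h (H ▸ l5)) (U_even l5 ▸ l4)
    · have l6 := l4.trans (U_dvd_U h1 (l5.coprime_two_right.dvd_of_dvd_mul_left l3))
      rw [U_odd (Nat.not_even_iff_odd.1 h)] at l6
      have l7 := Nat.dvd_sub l6 k2
      rw [show q ^ m + 1 - (q ^ m - 1) = 2 by have := Nat.one_le_pow m q h1; omega,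
        Nat.prime_dvd_prime_iff_eq k1 Nat.prime_two] at l7
      exact k3 1 one_pos (by omega) (by rw [l7, pow_one]; obtain ⟨j, rfl⟩ := hodd; simp)

end

open CA.CForm CA.CForm.Form CA.Rcf Module Polynomial CA.PSUOrd in
/-- Let q be an odd prime power, n ≥ 4 even, and U = PSU(n,q) (realised over the field with q² elements). Then U has an element of order q^(n/2) + (−1)^(n/2) — that is, q^(n/2) + 1 when n/2 is even and q^(n/2) − 1 when n/2 is odd — if and only if the 2-part of n exceeds the 2-part of q + 1. -/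
theorem result {F : Type*} [Field F] [Fintype F] {q : ℕ} (hF : Fintype.card F = q ^ 2) (hodd : Odd q)
    {n : ℕ} (hn : 4 ≤ n) (heven : Even n) :
    (∃ g : Cfsg.PSU n F q, orderOf g = if Even (n / 2) then q ^ (n / 2) + 1 else q ^ (n / 2) - 1) ↔
      padicValNat 2 (q + 1) < padicValNat 2 n := by
  classical
  have hq := two_le_of_card_sq hF
  obtain ⟨p, hp⟩ := CharP.exists F
  have := Fact.mk (CharP.char_is_prime F p)
  obtain ⟨m, rfl⟩ := even_iff_exists_two_mul.1 heven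
  rw [Nat.mul_div_cancel_left _ two_pos]
  obtain ⟨r, hr, h1, h2⟩ := exists_prim hq hodd (m := m) (by omega)
  have h3 : T q (2 * m) = T q m * if Even m then q ^ m + 1 else q ^ m - 1 := by
    refine Nat.eq_of_mul_eq_mul_left q.add_one_pos ?_
    rw [← mul_assoc, mul_T (by omega), mul_T (by omega), U_even (even_two_mul m), ← sq_sub_one_eq, U]
    split_ifs
    exacts [rfl, mul_comm _ _]
  generalize (if Even m then q ^ m + 1 else q ^ m - 1) = t at *
  have h4 : T q (2 * m) ∣ U q (2 * m) := ⟨_, by rw [← mul_T (by omega), mul_comm]⟩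
  have h5 : ∀ N, N ∣ T q (2 * m) → (N : F) ≠ 0 := fun N h H => coprime_U hF p (a := 2 * m) (by omega)
    ((CharP.cast_eq_zero_iff F p _).2 (((CharP.cast_eq_zero_iff F p _).1 H).trans (h.trans h4)))
  have h6 : ∀ N, r ∣ N → 2 * m ∣ orderOf (-(q : ZMod N)) := fun N h =>
    h2 ▸ (dvd_U_iff (by omega)).1 (h.trans ((dvd_U_iff (by omega)).2 dvd_rfl))
  have h7 := h1.trans (h3 ▸ dvd_mul_left _ _ : t ∣ T q (2 * m))
  have h0 : 0 < T q (2 * m) := Nat.pos_of_dvd_of_pos h4 (U_pos hq (by omega))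
  have ht : 0 < t := Nat.pos_of_mul_pos_left (h3 ▸ h0)
  have hg := Nat.gcd_dvd_right (T q (2 * m)) (q + 1)
  have hg' := Nat.gcd_dvd_left (T q (2 * m)) (q + 1)
  have hodd2 : ¬Odd (2 * m) := by simp
  constructor
  · intro h
    obtain ⟨s, k1, k2, k3, k4⟩ := (psu_iff hF (by omega)).1 h
    obtain ⟨N, e, φ, l1, l2, l3, l4⟩ := exists_of_prime_dvd p k1.1 k1.2.1 hr fun M h =>
      h1.trans ((k4 M).2 h)
    have l5 := Nat.le_of_dvd (ord_pos hF l1) (h6 N (l4.resolve_right fun H =>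
      h5 r h7 ((CharP.cast_eq_zero_iff F p _).2 H.1.symm.dvd)))
    obtain ⟨s', rfl, l6⟩ := exists_cl_add (conj_conj hF) k1.2.2 l3 (k1.1 _ l3).monic
    rw [dg, Multiset.map_add, Multiset.sum_add, ← dg, dg_cl_pow hF l1 l2, add_mul] at k2
    obtain rfl : e = 0 := (Nat.mul_eq_zero.1 (show e * orderOf (-(q : ZMod N)) = 0 by omega)).resolve_right
      (by omega)
    obtain rfl : s' = 0 := dg_zero hF ⟨fun d hd => k1.1 d (Multiset.mem_add.2 (Or.inr hd)),
      fun d hd => k1.2.1 d (Multiset.mem_add.2 (Or.inr hd)), l6⟩ (by unfold dg; omega)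
    obtain ⟨c, l7, l8, l9⟩ := blk_c hF l1 l2
    rw [show orderOf (-(q : ZMod N)) = 2 * m by omega] at l8 l9
    rw [zero_add, pow_one, add_zero] at k3 k4
    rw [k3, if_neg hodd2, pow_mul, neg_one_sq, one_pow, eq_comm, inv_eq_one] at l9
    subst l9
    have l10 := (cyc_dvd_iff l1 l2 _).1 (l8 _ self_mem_cl)
    obtain ⟨u, hu⟩ := hg
    obtain ⟨w, hw⟩ := hg'
    have l11 := (k4 w).2 ((kl_cl hF l1 l2 _).2 (l10.trans ⟨u, by rw [hu]; nth_rw 2 [hw]; ring⟩))
    have l12 := (dvd_T_iff (by omega) ⟨u, hu⟩).1 (Nat.dvd_of_mul_dvd_mul_right ht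
      (by rw [← h3]; nth_rw 2 [hw]; exact mul_dvd_mul_left _ l11))
    by_contra H
    have l13 : 2 ^ padicValNat 2 (2 * m) ∣ q + 1 := (padicValNat_dvd_iff_le (by omega)).2 (by omega)
    have := (padicValNat_dvd_iff_le (by omega)).1
      ((Nat.dvd_gcd ((dvd_T_iff (by omega) l13).2 pow_padicValNat_dvd) l13).trans l12)
    rw [padicValNat.mul two_ne_zero (by omega), padicValNat_self] at this
    omega
  · intro h
    have l1 := h5 _ dvd_rfl
    obtain ⟨φ, l2⟩ := exists_mem_cycT (F := F) h0.ne'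
    obtain ⟨c, l7, l8, l9⟩ := blk_c hF l1 l2
    have l3 := Nat.dvd_antisymm ((dvd_U_iff (by omega)).1 h4) (h6 _ h7)
    rw [l3] at l8 l9
    have := Fact.mk (mem_cycT.1 l2).1
    obtain rfl : c = 1 := by
      have h4 := (dvd_X_pow_sub_C_iff _ _ _).1 (l8 _ self_mem_cl)
      rwa [(isPrimitiveRoot_root l1 l2).pow_eq_one, eq_comm,
        map_eq_one_iff _ (algebraMap F _).injective] at h4
    refine exists_psu hF (by omega) (adm_cl hF l1 l2) (by rw [dg_cl hF l1 l2, l3])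
      (by rw [l9, if_neg hodd2]; simp) fun M hM => ?_
    have l4 := Nat.dvd_gcd (dvd_mul_right _ M) ((kl_cl hF l1 l2 M).1 hM)
    rw [Nat.gcd_mul_right] at l4
    obtain ⟨w, hw⟩ := (dvd_T_iff (by omega) hg).1 hg'
    have hg0 := Nat.pos_of_dvd_of_pos hg q.add_one_pos
    obtain ⟨w, rfl⟩ : 2 ∣ w := by
      by_contra H
      rw [hw, padicValNat.mul hg0.ne' (by rintro rfl; simp at H), padicValNat.eq_zero_of_not_dvd H] at h
      exact h.not_ge ((padicValNat_dvd_iff_le (by omega)).1 (pow_padicValNat_dvd.trans hg))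
    obtain ⟨v, hv⟩ := (dvd_T_iff (a := m) (by omega) hg).2 ⟨w, by linarith⟩
    refine Nat.dvd_of_mul_dvd_mul_left hg0 (Dvd.dvd.trans ⟨v, ?_⟩ l4)
    nth_rw 1 [h3, hv]
    ring

end Cfsg.Agent.S2496
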