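import Cfsg.Statements.S2503
import Cfsg.Agent.Lib.Lin.PSL2Struct

set_option autoImplicit false
open Cfsg

namespace Cfsg.Agent.S2503

open CA.PSL2Struct CA.SL2Basic CA.SL2Torus CA.SL2Unip CA.Mat2 CA.SL2Embed
open scoped MatrixGroups

theorem key {F : Type*} [Field F] [Finite F] (h2 : (2 : F) = 0) {t : F} (ht : Aniso (comp t 1))
    (g : SL(2, F)) : ∃ c ∈ C (mk2 0 (-1) 1 t (by simp)), ∃ b, ∃ d ∈ C (mk2 0 (-1) 1 t (by simp)),
      g = c * u b * d := by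
  set a : SL(2, F) := mk2 0 (-1) 1 t (by simp) with ha
  have h1 : (g * a * g⁻¹).1.trace = t := by rw [CA.SL2Torus.trace_conj, ha, trace_mk2, zero_add]
  obtain ⟨p, q, r, s, hd, h3⟩ := sl_ex4 (g * a * g⁻¹)
  rw [h3, trace_mk2] at h1
  obtain ⟨x, y, hxy, h4⟩ : ∃ x y : F, (x ≠ 0 ∨ y ≠ 0) ∧ (1 + r) * x ^ 2 = (1 + q) * y ^ 2 := by
    obtain ⟨k, hk⟩ := isSquare_of_two_eq_zero h2 (1 + r)
    obtain ⟨n, hn⟩ := isSquare_of_two_eq_zero h2 (1 + q)
    by_cases h : k = 0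
    · exact ⟨1, 0, Or.inl one_ne_zero, by simp [hk, h]⟩
    · exact ⟨n, k, Or.inr h, by rw [hk, hn]; ring⟩
  have h5 := ht.det_lin_ne hxy
  rw [det_lin, trace_comp, det_comp] at h5
  obtain ⟨m, hm⟩ := isSquare_of_two_eq_zero h2 (x ^ 2 + t * x * y + 1 * y ^ 2)⁻¹
  have h6 : (m * x) ^ 2 + t * (m * x) * (m * y) + (m * y) ^ 2 = 1 := by
    rw [← mul_inv_cancel₀ h5, hm]; ring
  have h7 : (1 + r) * (m * x) ^ 2 = (1 + q) * (m * y) ^ 2 := by linear_combination m ^ 2 * h4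
  generalize m * x = X at h6 h7
  generalize m * y = Y at h6 h7
  let c : SL(2, F) := mk2 X (-Y) Y (X + t * Y) (by linear_combination h6)
  have hc : c ∈ C a := by
    rw [mem_C_iff]
    simp only [c, ha, mk2_mul, mk2_eq_iff]
    refine ⟨?_, ?_, ?_, ?_⟩ <;> ring
  have h8 : ∀ M : SL(2, F), M.1.trace = t → M.1 1 0 = 1 → ∃ b, M = u b * a * (u b)⁻¹ := by
    intro M hM hM'
    obtain ⟨p, q, r, s, hd, rfl⟩ := sl_ex4 M
    rw [trace_mk2] at hM
    obtain rfl : r = 1 := hM'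
    refine ⟨p, ?_⟩
    simp only [u, ha, mk2_mul, mk2_inv, mk2_eq_iff]
    refine ⟨by ring, ?_, by ring, ?_⟩
    · linear_combination -hd + p * hM
    · linear_combination hM
  obtain ⟨b, hb⟩ := h8 (c⁻¹ * (g * a * g⁻¹) * c⁻¹⁻¹) (by
    rw [CA.SL2Torus.trace_conj, h3, trace_mk2, h1]) (by
    rw [h3, inv_inv]
    simp only [c, mk2_mul, mk2_inv]
    show (-Y * p + X * r) * X + (-Y * q + X * s) * Y = 1
    linear_combination h6 + h7 + X * Y * h1 + (-X * Y * p - X ^ 2) * h2)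
  refine ⟨c, hc, b, (c * u b)⁻¹ * g, mem_C_iff'.2 ?_, by group⟩
  calc _ = (u b)⁻¹ * (c⁻¹ * (g * a * g⁻¹) * c⁻¹⁻¹) * u b := by group
    _ = _ := by rw [hb]; group

/-- Let F be a finite field with q = 2^t ≥ 4 elements and L = PSL(2,F). Then L has a cyclic subgroup A of order q + 1 and an elementary abelian 2-subgroup B of order q such that L = ABA: every element of L is a product a·b·a' with a, a' ∈ A and b ∈ B. -/
theorem result {F : Type*} [Field F] [Fintype F]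
    (h2 : 2 ∣ Fintype.card F) (h4 : 4 ≤ Fintype.card F) :
    ∃ A B : Subgroup (Matrix.ProjectiveSpecialLinearGroup (Fin 2) F),
      IsCyclic A ∧ Nat.card A = Fintype.card F + 1 ∧ IsMulCommutative B ∧ (∀ b ∈ B, b * b = 1) ∧
        Nat.card B = Fintype.card F ∧
        ∀ g : Matrix.ProjectiveSpecialLinearGroup (Fin 2) F, ∃ a ∈ A, ∃ b ∈ B, ∃ c ∈ A, g = a * b * c := by
  rw [← Nat.card_eq_fintype_card] at h2 ⊢
  have h0 : (2 : F) = 0 := two_eq_zero_of_even (even_iff_two_dvd.2 h2)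
  obtain ⟨t, ht⟩ := exists_aniso (one_ne_zero (α := F))
  have ha : Aniso (mk2 0 (-1) 1 t (by simp) : SL(2, F)).1 := ht
  refine ⟨Tb _, Ub F, isCyclic_Tb (SS.of_aniso ha), by rw [card_Tb_aniso ha, dd_even h0, Nat.div_one],
    ⟨⟨fun a b => Subtype.ext (Ub_comm a.2 b.2)⟩⟩, fun b hb => ?_, card_Ub, fun g => ?_⟩
  · obtain ⟨b, rfl⟩ := mem_Ub.1 hb
    rw [← map_mul, ← u_add, ← two_mul, h0, zero_mul, u_zero, map_one]
  · obtain ⟨g, rfl⟩ := pr_surj g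
    obtain ⟨c, hc, b, d, hd, rfl⟩ := key h0 ht g
    exact ⟨_, mem_Tb.2 hc, _, mem_Ub.2 ⟨b, rfl⟩, _, mem_Tb.2 hd, rfl⟩

end Cfsg.Agent.S2503
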