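import Cfsg.Statements.S2506
import Cfsg.Agent.Lib.Perm.AbSn

set_option autoImplicit false
open scoped Pointwise
open Cfsg

namespace Cfsg.Agent.S2506

section
open Equiv Equiv.Perm Finset MulAction CA.AbSn

theorem N_four : ∀ n, n % 3 = 2 → 4 * N n < N (n + 4)
  | 2, _ | 5, _ | 8, _ => by decide
  | 0, h | 1, h | 3, h | 4, h | 6, h | 7, h => by omega
  | n + 9, _ => by
    have := N_four (n + 6) (by omega)
    rw [show n + 9 + 4 = n + 4 + 9 by ring, N_add, N_add, show n + 4 + 6 = n + 6 + 4 by ring]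
    linarith

variable {α : Type*} [Fintype α] [DecidableEq α] {A B : Subgroup (Perm α)} {s : Finset α} {x : α}

/-- extremal abelian subgroups of the alternating group on `s` -/
def Ext (A : Subgroup (Perm α)) (s : Finset α) : Prop :=
  Sup A s ∧ Cm A ∧ A ≤ alternatingGroup α ∧ Nat.card A = N s.card

theorem Ext.orb (h : Ext A s) (h5 : s.card ≠ 5) (hx : x ∈ s) (h3 : 3 ≤ (ob A x).card) :
    (ob A x).card ≤ 4 ∧ Ext (st A x) (s \ ob A x) ∧
      (ob A x).card * N (s \ ob A x).card = N s.card := by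
  obtain ⟨h1, h2, h4, h6⟩ := h
  have a1 := h1.card_add hx
  have a2 := card_le_N _ _ _ rfl (h1.st h2 x) (h2.mono inf_le_left) (inf_le_left.trans h4)
  have a3 := N_mul (ob A x).card (s \ ob A x).card (by omega)
  have a4 := Nat.mul_le_mul_left (ob A x).card a2
  rw [card_eq A x] at h6
  rw [a1] at a3
  refine ⟨not_lt.1 fun h7 => ?_, ⟨h1.st h2 x, h2.mono inf_le_left, inf_le_left.trans h4,
    Nat.eq_of_mul_eq_mul_left (ob_pos (A := A) (x := x)) (by omega)⟩, by omega⟩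
  have := N_lt (n := (s \ ob A x).card) h7 (by omega)
  rw [a1] at this
  omega

theorem Ext.ex (h : Ext A s) (h3 : 3 ≤ s.card) : ∃ x ∈ s, 3 ≤ (ob A x).card := by
  by_contra! H
  have := card_le_two _ A s rfl h.1 h.2.1 h.2.2.1 fun x hx => by have := H x hx; omega
  have := two_pow_lt _ h3
  have := h.2.2.2
  omega

theorem ex_orb (n : ℕ) : ∀ (A : Subgroup (Perm α)) (s : Finset α), s.card = n → Ext A s → 3 ≤ n →
    n ≠ 5 → ∃ x ∈ s, (ob A x).card = if n % 3 = 0 then 3 else 4 := by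
  induction n using Nat.strong_induction_on with | _ n ih
  intro A s hn h h3 h5
  obtain ⟨x, hx, h1⟩ := h.ex (by omega)
  obtain ⟨a1, a2, a3⟩ := h.orb (by omega) hx h1
  have a4 := h.1.card_add hx
  split_ifs with h0
  · refine ⟨x, hx, by_contra fun h2 => ?_⟩
    have := N_four (s \ ob A x).card (by omega)
    rw [show (ob A x).card = 4 by omega] at a3 a4
    rw [a4] at this
    omega
  by_cases h2 : (ob A x).card = 4
  · exact ⟨x, hx, h2⟩
  rw [show (ob A x).card = 3 by omega] at a3 a4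
  by_cases h6 : (s \ ob A x).card = 5
  · rw [← a4, h6] at a3; exact absurd a3 (by decide)
  by_cases h7 : (s \ ob A x).card = 1
  · rw [← a4, h7] at a3; exact absurd a3 (by decide)
  obtain ⟨y, hy, h8⟩ := ih _ (by omega) _ _ rfl a2 (by omega) h6
  rw [if_neg (by omega)] at h8
  have h9 : (ob (st A x) y).card ≤ (ob A y).card := card_le_card (ob_mono inf_le_left)
  have := (h.orb (by omega) (mem_sdiff.1 hy).1 (by omega)).1
  exact ⟨y, (mem_sdiff.1 hy).1, by omega⟩

/-- permutations supported on `O` -/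
def fx (O : Finset α) : Subgroup (Perm α) where
  carrier := {g | ∀ y, y ∉ O → g y = y}
  mul_mem' ha hb y hy := by rw [Perm.mul_apply, hb y hy, ha y hy]
  one_mem' _ _ := rfl
  inv_mem' ha y hy := by rw [Perm.inv_eq_iff_eq, ha y hy]

theorem Ext.split (h : Ext A s) (h5 : s.card ≠ 5) (hx : x ∈ s) (h3 : 3 ≤ (ob A x).card)
    (h2 : (s \ ob A x).card % 3 ≠ 2) :
    (∀ g ∈ A, ∃ d ∈ A ⊓ fx (ob A x), ∃ c ∈ st A x, g = d * c) ∧
      (ob A x).card ≤ Nat.card (A ⊓ fx (ob A x) : Subgroup _) := by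
  obtain ⟨-, a2, a3⟩ := h.orb h5 hx h3
  let A' : Subgroup (Perm α) :=
    { carrier := {g' | ∃ g ∈ A, (∀ y ∈ ob A x, g' y = y) ∧ ∀ y, y ∉ ob A x → g' y = g y}
      mul_mem' := by
        rintro a b ⟨a', ha, a1, a2⟩ ⟨b', hb, b1, b2⟩
        exact ⟨a' * b', mul_mem ha hb, fun y hy => by rw [Perm.mul_apply, b1 y hy, a1 y hy],
          fun y hy => by rw [Perm.mul_apply, b2 y hy, a2 _ (mt (apply_mem_ob hb).1 hy), Perm.mul_apply]⟩
      one_mem' := ⟨1, one_mem _, fun _ _ => rfl, fun _ _ => rfl⟩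
      inv_mem' := by
        rintro a ⟨a', ha, a1, a2⟩
        exact ⟨a'⁻¹, inv_mem ha, fun y hy => by rw [Perm.inv_eq_iff_eq, a1 y hy], fun y hy => by
          rw [Perm.inv_eq_iff_eq, a2 _ (mt (apply_mem_ob (inv_mem ha)).1 hy)]; simp⟩ }
  have b1 : st A x ≤ A' := fun c hc =>
    ⟨c, hc.1, fun y hy => a2.1 c hc y (by simp [hy]), fun _ _ => rfl⟩
  have b2 : Nat.card A' ≤ Nat.card (st A x) := by
    rw [a2.2.2.2, ← M_eq_N _ h2]
    refine card_le_M _ _ _ rfl ?_ ?_
    · rintro a ⟨a', ha, a1, a2⟩ y hy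
      by_cases h1 : y ∈ ob A x
      · exact a1 y h1
      · rw [a2 y h1, h.1 a' ha y fun h2 => hy (mem_sdiff.2 ⟨h2, h1⟩)]
    · rintro a ⟨a', ha, a1, a2⟩ b ⟨b', hb, b1, b2⟩
      ext y
      by_cases h1 : y ∈ ob A x
      · simp [a1 y h1, b1 y h1]
      · rw [Perm.mul_apply, Perm.mul_apply, b2 y h1, a2 y h1, a2 _ (mt (apply_mem_ob hb).1 h1),
          b2 _ (mt (apply_mem_ob ha).1 h1), ← Perm.mul_apply, h.2.1 a' ha b' hb, Perm.mul_apply]
  have b3 := Subgroup.eq_of_le_of_card_ge b1 b2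
  have b4 : ∀ g ∈ A, ∃ d ∈ A ⊓ fx (ob A x), ∃ c ∈ st A x, g = d * c := fun g hg => by
    have hp : ∀ y, g y ∉ ob A x ↔ y ∉ ob A x := fun y => (apply_mem_ob hg).not
    have hc : ofSubtype (g.subtypePerm (p := (· ∉ ob A x)) hp) ∈ st A x := b3 ▸ ⟨g, hg,
      fun y hy => ofSubtype_subtypePerm_of_not_mem hp (not_not.2 hy),
      fun y hy => ofSubtype_subtypePerm_of_mem hp hy⟩
    refine ⟨_, ⟨A.mul_mem hg (A.inv_mem hc.1), fun y hy => ?_⟩, _, hc, (inv_mul_cancel_right _ _).symm⟩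
    rw [Perm.mul_apply, ← Perm.eq_inv_iff_eq, Perm.inv_eq_iff_eq,
      ofSubtype_subtypePerm_of_mem (p := (· ∉ ob A x)) hp (mt (apply_mem_ob (inv_mem hg)).1 hy)]
    simp
  refine ⟨b4, ?_⟩
  have b5 := Nat.card_le_card_of_surjective (fun p : (A ⊓ fx (ob A x) : Subgroup _) × st A x =>
    (⟨p.1 * p.2, mul_mem p.1.2.1 p.2.2.1⟩ : A)) fun g => by
      obtain ⟨d, hd, c, hc, e⟩ := b4 g g.2
      exact ⟨(⟨d, hd⟩, ⟨c, hc⟩), Subtype.ext e.symm⟩
  rw [Nat.card_prod, card_eq A x] at b5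
  exact Nat.le_of_mul_le_mul_right b5 Nat.card_pos

theorem comm_small {O : Finset α} (h : O.card = 3 ∨ O.card = 4) {g k : Perm α} (hg : g ∈ fx O)
    (hk : k ∈ fx O) (g1 : sign g = 1) (k1 : sign k = 1) (g2 : g ^ O.card = 1) (k2 : k ^ O.card = 1) :
    g * k = k * g := by
  have key : ∀ a, O.card = a → (∀ g k : Perm (Fin a), sign g = 1 → sign k = 1 → g ^ a = 1 → k ^ a = 1 →
      g * k = k * g) → g * k = k * g := by
    rintro _ rfl H
    have ex : ∀ g ∈ fx O, ∃ g0, extendDomainHom O.equivFin.symm g0 = g := fun g hg => by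
      have hp : ∀ y, g y ∈ O ↔ y ∈ O := fun y => ⟨fun h => by_contra fun h1 => h1 (hg y h1 ▸ h),
        fun h => by_contra fun h1 => h1 ((g.injective (hg _ h1)).symm ▸ h)⟩
      refine ⟨O.equivFin.permCongr (g.subtypePerm hp), Equiv.ext fun y => ?_⟩
      by_cases hy : y ∈ O
      · simp [extendDomain_apply_subtype _ _ hy]
      · simp [extendDomain_apply_not_subtype _ _ hy, hg y hy]
    obtain ⟨g, rfl⟩ := ex g hg
    obtain ⟨k, rfl⟩ := ex k hk
    rw [← map_pow, map_eq_one_iff _ (extendDomainHom_injective _)] at g2 k2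
    rw [← map_mul, H g k ((sign_extendDomain _ _).symm.trans g1) ((sign_extendDomain _ _).symm.trans k1)
      g2 k2, map_mul]
  rcases h with h | h
  · exact key 3 h (by decide)
  · exact key 4 h (by decide +kernel)

theorem uniq {O : Finset α} (h : O.card = 3 ∨ O.card = 4) (hA : Cm A) (hB : Cm B)
    (a1 : A ≤ alternatingGroup α) (b1 : B ≤ alternatingGroup α) (a2 : A ≤ fx O) (b2 : B ≤ fx O)
    (a3 : O.card ≤ Nat.card A) (b3 : O.card ≤ Nat.card B) : A ≤ B := by
  have hN : N O.card = O.card := by rcases h with h | h <;> rw [h] <;> rfl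
  have a4 := (card_le_N _ A O rfl a2 hA a1).trans hN.le
  have b4 := (card_le_N _ B O rfl b2 hB b1).trans hN.le
  have hc : ∀ a ∈ A, ∀ b ∈ B, a * b = b * a := fun a ha b hb => comm_small h (a2 ha) (b2 hb) (a1 ha)
    (b1 hb) (by rw [← le_antisymm a4 a3]; exact congrArg Subtype.val (pow_card_eq_one' (x := (⟨a, ha⟩ : A))))
    (by rw [← le_antisymm b4 b3]; exact congrArg Subtype.val (pow_card_eq_one' (x := (⟨b, hb⟩ : B))))
  have h1 : ∀ g ∈ A ⊔ B, A ⊔ B ≤ Subgroup.centralizer {g} := fun g hg => by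
    have h2 : ∀ k, k ∈ A ∨ k ∈ B → A ⊔ B ≤ Subgroup.centralizer {k} := fun k hk => sup_le
      (fun a ha => Subgroup.mem_centralizer_singleton_iff.2 (hk.elim (hA a ha k) (hc a ha k)))
      (fun b hb => Subgroup.mem_centralizer_singleton_iff.2
        (hk.elim (fun hk => (hc k hk b hb).symm) (hB b hb k)))
    exact sup_le (fun a ha => Subgroup.mem_centralizer_singleton_iff.2
      (Subgroup.mem_centralizer_singleton_iff.1 (h2 a (.inl ha) hg)).symm)
      (fun a ha => Subgroup.mem_centralizer_singleton_iff.2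
      (Subgroup.mem_centralizer_singleton_iff.1 (h2 a (.inr ha) hg)).symm)
  have h2 := (card_le_N _ (A ⊔ B) O rfl (sup_le a2 b2 : A ⊔ B ≤ fx O) (fun g hg k hk =>
    Subgroup.mem_centralizer_singleton_iff.1 (h1 k hk hg)) (sup_le a1 b1)).trans hN.le
  rw [Subgroup.eq_of_le_of_card_ge (le_sup_right : B ≤ A ⊔ B) (h2.trans b3)]
  exact le_sup_left

theorem mv {O O' : Finset α} (h : O ⊆ s) (h' : O' ⊆ s) (hc : O.card = O'.card) (h2 : 2 ≤ O.card) :
    ∃ g ∈ alternatingGroup α ⊓ fx s, ∀ y, y ∈ O ↔ g y ∈ O' := by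
  obtain ⟨σ, hσ⟩ := Equiv.Perm.exists_map_finset_eq (O.subtype (· ∈ s)) (O'.subtype (· ∈ s)) (by
    rw [card_subtype, card_subtype, filter_true_of_mem h, filter_true_of_mem h', hc])
  have h1 : ofSubtype σ ∈ fx s := fun y hy => ofSubtype_apply_of_not_mem σ hy
  have h3 : ∀ y, y ∈ O ↔ ofSubtype σ y ∈ O' := fun y => by
    by_cases hy : y ∈ s
    · rw [ofSubtype_apply_of_mem σ hy, ← mem_subtype, ← hσ]; simp
    · rw [h1 y hy]; exact iff_of_false (mt (@h y) hy) (mt (@h' y) hy)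
  rcases Int.units_eq_one_or (sign (ofSubtype σ)) with h4 | h4
  · exact ⟨_, ⟨h4, h1⟩, h3⟩
  obtain ⟨u, hu, v, hv, huv⟩ := one_lt_card.1 h2
  refine ⟨ofSubtype σ * swap u v, ⟨?_, mul_mem h1 fun y hy => swap_apply_of_ne_of_ne ?_ ?_⟩, fun y => ?_⟩
  · show sign _ = 1
    rw [map_mul, h4, sign_swap huv]; rfl
  · rintro rfl; exact hy (h hu)
  · rintro rfl; exact hy (h hv)
  · rw [Perm.mul_apply, ← h3, swap_apply_def]
    split_ifs <;> simp_all

theorem main (n : ℕ) : ∀ (A B : Subgroup (Perm α)) (s : Finset α), s.card = n → n ≠ 5 → Ext A s →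
    Ext B s → ∃ g ∈ alternatingGroup α ⊓ fx s, ∀ a ∈ A, g * a * g⁻¹ ∈ B := by
  induction n using Nat.strong_induction_on with | _ n ih
  intro A B s hn h5 hA hB
  rcases le_or_gt n 2 with h3 | h3
  · refine ⟨1, one_mem _, fun a ha => ?_⟩
    rw [hA.1.eq_bot' hA.2.2.1 (by omega), Subgroup.mem_bot] at ha
    simp [ha]
  obtain ⟨x, hx, a1⟩ := ex_orb n A s hn hA h3 h5
  obtain ⟨y, hy, b1⟩ := ex_orb n B s hn hB h3 h5
  have c0 : (ob B y).card = 3 ∨ (ob B y).card = 4 := by rw [b1]; split_ifs <;> simp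
  obtain ⟨g, ⟨g1, g2⟩, g3⟩ := mv (hA.1.ob_subset hx) (hB.1.ob_subset hy) (a1.trans b1.symm) (by omega)
  let A' := A.map (MulAut.conj g).toMonoidHom
  have m1 : ∀ a, a ∈ A' ↔ g⁻¹ * a * g ∈ A := fun a =>
    ⟨by rintro ⟨b, hb, rfl⟩; simpa [mul_assoc] using hb, fun h => ⟨_, h, by simp [mul_assoc]⟩⟩
  have hA' : Ext A' s := by
    refine ⟨fun a ha z hz => ?_, fun a ha b hb => ?_, fun a ha => ?_, ?_⟩
    · have := hA.1 _ ((m1 a).1 ha) z hz
      rwa [Perm.mul_apply, Perm.mul_apply, g2 z hz, Perm.inv_eq_iff_eq, g2 z hz] at this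
    · have := hA.2.1 _ ((m1 a).1 ha) _ ((m1 b).1 hb)
      refine mul_right_cancel (b := g) ?_
      simpa [mul_assoc] using this
    · have g1' : g ∈ alternatingGroup α := g1
      have := mul_mem (mul_mem g1' (hA.2.2.1 ((m1 a).1 ha))) (inv_mem g1')
      rwa [show g * (g⁻¹ * a * g) * g⁻¹ = a by group] at this
    · rw [Subgroup.card_map_of_injective (MulAut.conj g).injective, hA.2.2.2]
  have m2 : ob A' (g x) = ob B y := by
    ext z
    obtain ⟨z, rfl⟩ := g.surjective z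
    rw [← g3, mem_ob, mem_ob]
    exact ⟨fun ⟨a, ha, e⟩ => ⟨_, (m1 a).1 ha, by simp [e]⟩,
      fun ⟨a, ha, e⟩ => ⟨g * a * g⁻¹, ⟨a, ha, rfl⟩, by simp [e]⟩⟩
  have hx' : g x ∈ s := hB.1.ob_subset hy (m2 ▸ self_mem_ob)
  have c1 := hB.1.card_add hy
  have c2 : (s \ ob B y).card % 3 ≠ 2 := by rw [b1] at c1; split_ifs at c1 <;> omega
  obtain ⟨d1, d2⟩ := hA'.split (by omega) hx' (by rw [m2]; omega) (by rwa [m2])
  obtain ⟨e1, e2⟩ := hB.split (by omega) hy (by omega) c2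
  have d3 := (hA'.orb (by omega) hx' (by rw [m2]; omega)).2.1
  rw [m2] at d1 d2 d3
  obtain ⟨k, ⟨k1, k2⟩, k3⟩ := ih _ (by omega) _ _ _ rfl (by omega) d3
    (hB.orb (by omega) hy (by omega)).2.1
  have u := uniq c0 (hA'.2.1.mono inf_le_left) (hB.2.1.mono inf_le_left) (inf_le_left.trans hA'.2.2.1)
    (inf_le_left.trans hB.2.2.1) inf_le_right inf_le_right d2 e2
  refine ⟨k * g, ⟨mul_mem k1 g1, mul_mem (fun z hz => k2 z (by simp [hz])) g2⟩, fun a ha => ?_⟩
  obtain ⟨d, hd, c, hc, e⟩ := d1 (g * a * g⁻¹) ⟨a, ha, rfl⟩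
  have hdk : k * d = d * k := Disjoint.commute fun z => by
    by_cases hz : z ∈ ob B y
    · exact .inl (k2 z (by simp [hz]))
    · exact .inr (hd.2 z hz)
  rw [show k * g * a * (k * g)⁻¹ = k * (g * a * g⁻¹) * k⁻¹ by group, e, ← mul_assoc, hdk, mul_assoc,
    mul_assoc, ← mul_assoc k]
  exact mul_mem (u hd).1 (k3 c hc).1

end

/-- In the alternating group of any degree, any two abelian subgroups of the largest possible order (among abelian subgroups) are conjugate. -/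
theorem result (n : ℕ)
    (A B : Subgroup (alternatingGroup (Fin n))) (hA : IsMulCommutative A) (hB : IsMulCommutative B)
    (hAmax : ∀ C : Subgroup (alternatingGroup (Fin n)), IsMulCommutative C → Nat.card C ≤ Nat.card A)
    (hBmax : ∀ C : Subgroup (alternatingGroup (Fin n)), IsMulCommutative C → Nat.card C ≤ Nat.card B) :
    ∃ g : alternatingGroup (Fin n), B = MulAut.conj g • A := by
  have key : ∀ A : Subgroup (alternatingGroup (Fin n)), IsMulCommutative A →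
      (∀ C : Subgroup (alternatingGroup (Fin n)), IsMulCommutative C → Nat.card C ≤ Nat.card A) →
      Nat.card A = CA.AbSn.N n := fun A h h' => by
    obtain ⟨⟨C, h1, h2⟩, h3⟩ := CA.AbSn.greatest_N n
    exact le_antisymm (h3 ⟨A, h, rfl⟩) (h2 ▸ h' C h1)
  have a1 := key A hA hAmax
  have b1 := key B hB hBmax
  by_cases h5 : n = 5
  · subst h5
    have := Fact.mk Nat.prime_five
    have h : Nat.card (alternatingGroup (Fin 5)) = 60 := by
      rw [nat_card_alternatingGroup, Nat.card_eq_fintype_card, Fintype.card_fin]; rfl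
    have h' : CA.AbSn.N 5 = 5 ^ (Nat.card (alternatingGroup (Fin 5))).factorization 5 := by
      rw [h, Nat.factorization_def _ Nat.prime_five, show 60 = 5 * 12 from rfl,
        padicValNat.mul (by norm_num) (by norm_num), padicValNat.eq_zero_of_not_dvd (n := 12) (by norm_num)]
      simp; rfl
    obtain ⟨g, hg⟩ := MulAction.exists_smul_eq (alternatingGroup (Fin 5)) (Sylow.ofCard A (a1.trans h'))
      (Sylow.ofCard B (b1.trans h'))
    exact ⟨g, (congrArg Sylow.toSubgroup hg).symm⟩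
  have ext : ∀ A : Subgroup (alternatingGroup (Fin n)), IsMulCommutative A → Nat.card A = CA.AbSn.N n →
      Ext (A.map (alternatingGroup (Fin n)).subtype) Finset.univ := fun A h h' =>
    ⟨fun _ _ _ h => absurd (Finset.mem_univ _) h, CA.AbSn.cm_map h, Subgroup.map_subtype_le _, by
      rw [Subgroup.card_map_of_injective (Subgroup.subtype_injective _), h']; simp⟩
  obtain ⟨g, ⟨g1, -⟩, g2⟩ := main n _ _ _ (by simp) h5 (ext A hA a1) (ext B hB b1)
  refine ⟨⟨g, g1⟩, (Subgroup.eq_of_le_of_card_ge ?_ ?_).symm⟩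
  · rintro _ ⟨a, ha, rfl⟩
    obtain ⟨b, hb, e⟩ := g2 a ⟨a, ha, rfl⟩
    have e' : b = ⟨g, g1⟩ * a * (⟨g, g1⟩ : alternatingGroup (Fin n))⁻¹ := Subtype.ext e
    exact (e' ▸ hb : ⟨g, g1⟩ * a * (⟨g, g1⟩ : alternatingGroup (Fin n))⁻¹ ∈ B)
  · rw [b1, ← a1]
    exact (Subgroup.card_map_of_injective (MulAut.conj _).injective).ge

end Cfsg.Agent.S2506
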