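import Cfsg.Statements.S2507
import Cfsg.Agent.Lib.Lin.PSL2Struct

set_option autoImplicit false
open Cfsg

namespace Cfsg.Agent.S2507

/-- Let F be a finite field with q = 2^f ≥ 4 elements. The conjugacy class sizes of PSL(2,F) are exactly 1, q(q − 1), q² − 1 and q(q + 1). -/
theorem result {F : Type*} [Field F] [Fintype F]
    (h2 : 2 ∣ Fintype.card F) (h4 : 4 ≤ Fintype.card F) :
    Set.range (fun g : (Matrix.ProjectiveSpecialLinearGroup (Fin 2) F) => (Subgroup.centralizer ({g} : Set (Matrix.ProjectiveSpecialLinearGroup (Fin 2) F))).index) =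
      {1, Fintype.card F * (Fintype.card F - 1), Fintype.card F ^ 2 - 1, Fintype.card F * (Fintype.card F + 1)} := by
  open CA.PSL2Struct CA.SL2Torus CA.SL2Basic CA.SL2Unip in
  rw [← Nat.card_eq_fintype_card] at h4 h2 ⊢
  have h0 : (2 : F) = 0 := two_eq_zero_of_even (even_iff_two_dvd.2 h2)
  have hG := card_PSL (F := F)
  rw [dd_even h0, one_mul, CA.SLnCard.sq_sub_one] at hG
  have key : ∀ g : Matrix.SpecialLinearGroup (Fin 2) F, SS g → C (pr F g) = Tb g := by
    intro g hg
    refine C_eq_Tb hg (self_mem_Tb g) fun h => hg.inv_ne ?_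
    rw [← map_mul, ← map_one (pr F)] at h
    exact inv_eq_of_mul_eq_one_left (pr_injective h0 h)
  have e1 : ∀ g : Matrix.SpecialLinearGroup (Fin 2) F, CA.Mat2.Split g.1 →
      (C (pr F g)).index = Nat.card F * (Nat.card F + 1) := by
    intro g hg
    have := (C (pr F g)).index_mul_card
    nth_rewrite 2 [key g (SS.of_split hg)] at this
    rw [card_Tb_split hg, dd_even h0, Nat.div_one, hG] at this
    exact Nat.eq_of_mul_eq_mul_right (by omega : 0 < Nat.card F - 1) (this.trans (by ring))
  have e2 : ∀ g : Matrix.SpecialLinearGroup (Fin 2) F, CA.Mat2.Aniso g.1 →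
      (C (pr F g)).index = Nat.card F * (Nat.card F - 1) := by
    intro g hg
    have := (C (pr F g)).index_mul_card
    nth_rewrite 2 [key g (SS.of_aniso hg)] at this
    rw [card_Tb_aniso hg, dd_even h0, Nat.div_one, hG] at this
    exact Nat.eq_of_mul_eq_mul_right (by omega : 0 < Nat.card F + 1) (this.trans (by ring))
  have e3 : ∀ b : F, b ≠ 0 → (C (pr F (u b))).index = Nat.card F ^ 2 - 1 := by
    intro b hb
    rw [C_pr_u hb, ← index_Ub, dd_even h0, one_mul]
  ext m
  simp only [Set.mem_range, Set.mem_insert_iff, Set.mem_singleton_iff]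
  constructor
  · rintro ⟨x, rfl⟩
    by_cases hx : x = 1
    · left; subst hx; simp
    rcases ss_or_conj_u hx with ⟨g, hg, rfl⟩ | ⟨y, b, hb, h⟩
    · rcases hg.cases with h | h
      · exact Or.inr (Or.inr (Or.inr (e1 g h)))
      · exact Or.inr (Or.inl (e2 g h))
    · right; right; left
      rw [← e3 b hb, ← h, C_conj]
      exact (Subgroup.index_map_equiv (C x) (MulAut.conj y)).symm
  · rintro (rfl | rfl | rfl | rfl)
    · exact ⟨1, by simp⟩
    · obtain ⟨g, hg⟩ := exists_aniso_SL F
      exact ⟨_, e2 g hg⟩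
    · exact ⟨_, e3 1 one_ne_zero⟩
    · obtain ⟨g, hg⟩ := exists_split_SL F h4
      exact ⟨_, e1 g hg⟩

end Cfsg.Agent.S2507
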