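import Cfsg.Statements.S2508
import Cfsg.Agent.Lib.Lin.PSL2Struct

set_option autoImplicit false
open Cfsg

namespace Cfsg.Agent.S2508

open CA.PSL2Struct CA.SL2Torus CA.SL2Basic CA.SL2Unip CA.Mat2
open scoped MatrixGroups

theorem aux {F : Type*} [Field F] [Finite F] (h0 : (2 : F) ≠ 0) (h7 : 7 ≤ Nat.card F) (i : ℕ)
    (hi : ∀ g : SL(2, F), g.1.trace = 0 → (Db g).index = i) (m : ℕ) :
    (∃ x : PSL(2, F), (C x).index = m) ↔ m = 1 ∨ m = (Nat.card F ^ 2 - 1) / 2 ∨ m = i ∨
      m = Nat.card F * (Nat.card F - 1) ∨ m = Nat.card F * (Nat.card F + 1) := by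
  have hG := card_PSL (F := F)
  obtain ⟨k, hk⟩ := odd_card_of_two_ne_zero h0
  rw [dd_odd h0, CA.SLnCard.sq_sub_one] at hG
  have e1 : ∀ g : SL(2, F), Split g.1 → (Tb g).index = Nat.card F * (Nat.card F + 1) := by
    intro g hg
    have := (Tb g).index_mul_card
    rw [card_Tb_split hg, dd_odd h0, show (Nat.card F - 1) / 2 = k by omega] at this
    rw [← this, show Nat.card F - 1 = 2 * k by omega] at hG
    exact Nat.eq_of_mul_eq_mul_right (by omega : 0 < 2 * k) (by linarith)
  have e2 : ∀ g : SL(2, F), Aniso g.1 → (Tb g).index = Nat.card F * (Nat.card F - 1) := by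
    intro g hg
    have := (Tb g).index_mul_card
    rw [card_Tb_aniso hg, dd_odd h0, show (Nat.card F + 1) / 2 = k + 1 by omega] at this
    rw [← this, show Nat.card F + 1 = 2 * (k + 1) by omega] at hG
    exact Nat.eq_of_mul_eq_mul_right (by omega : 0 < 2 * (k + 1)) (by linarith)
  have e3 : ∀ b : F, b ≠ 0 → (C (pr F (u b))).index = (Nat.card F ^ 2 - 1) / 2 := by
    intro b hb
    rw [C_pr_u hb, ← index_Ub, dd_odd h0]; simp
  have e4 : ∀ g : SL(2, F), SS g → 3 ≤ Nat.card (Tb g) → ∃ x : PSL(2, F), C x = Tb g := by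
    intro g hg h3
    obtain ⟨x, hx, ho⟩ := exists_orderOf_of_dvd hg dvd_rfl
    refine ⟨x, C_eq_Tb hg hx fun h => ?_⟩
    have := Nat.le_of_dvd two_pos (orderOf_dvd_of_pow_eq_one (sq x ▸ h))
    omega
  constructor
  · rintro ⟨x, rfl⟩
    by_cases hx : x = 1
    · left; subst hx; simp
    rcases ss_or_conj_u hx with ⟨g, hg, rfl⟩ | ⟨y, b, hb, h⟩
    · by_cases h2 : pr F g * pr F g = 1
      · rw [C_eq_Db hg (self_mem_Tb g) hx h2, hi g (trace_of_involution h0 hx h2)]
        simp
      · rw [C_eq_Tb hg (self_mem_Tb g) h2]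
        rcases hg.cases with h | h
        · simp [e1 g h]
        · simp [e2 g h]
    · right; left
      rw [← e3 b hb, ← h, C_conj]
      exact (Subgroup.index_map_equiv (C x) (MulAut.conj y)).symm
  · rintro (rfl | rfl | rfl | rfl | rfl)
    · exact ⟨1, by simp⟩
    · exact ⟨_, e3 1 one_ne_zero⟩
    · have hs := SS_of_trace_zero h0 (trace_w0 (F := F))
      exact ⟨pr F w0, by
        rw [C_eq_Db hs (self_mem_Tb _) (pr_ne_one_iff.2 hs.ns) (pr_mul_self_of_trace trace_w0),
          hi _ trace_w0]⟩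
    · obtain ⟨g, hg⟩ := exists_aniso_SL F
      obtain ⟨x, hx⟩ := e4 g (SS.of_aniso hg) (by rw [card_Tb_aniso hg, dd_odd h0]; omega)
      exact ⟨x, by rw [hx, e2 g hg]⟩
    · obtain ⟨g, hg⟩ := exists_split_SL F (by omega)
      obtain ⟨x, hx⟩ := e4 g (SS.of_split hg) (by rw [card_Tb_split hg, dd_odd h0]; omega)
      exact ⟨x, by rw [hx, e1 g hg]⟩

/-- Let F be a finite field with q elements, q odd and q ≥ 7. If q ≡ 1 (mod 4) the conjugacy class sizes of PSL(2,F) are exactly 1, (q² − 1)/2, q(q + 1)/2, q(q − 1) and q(q + 1); if q ≡ 3 (mod 4) they are exactly 1, (q² − 1)/2, q(q − 1)/2, q(q + 1) and q(q − 1). -/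
theorem result {F : Type*} [Field F] [Fintype F]
    (hodd : ¬ 2 ∣ Fintype.card F) (h7 : 7 ≤ Fintype.card F) :
    (Fintype.card F % 4 = 1 →
      Set.range (fun g : (Matrix.ProjectiveSpecialLinearGroup (Fin 2) F) => (Subgroup.centralizer ({g} : Set (Matrix.ProjectiveSpecialLinearGroup (Fin 2) F))).index) =
        {1, (Fintype.card F ^ 2 - 1) / 2, Fintype.card F * (Fintype.card F + 1) / 2,
          Fintype.card F * (Fintype.card F - 1), Fintype.card F * (Fintype.card F + 1)}) ∧
    (Fintype.card F % 4 = 3 →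
      Set.range (fun g : (Matrix.ProjectiveSpecialLinearGroup (Fin 2) F) => (Subgroup.centralizer ({g} : Set (Matrix.ProjectiveSpecialLinearGroup (Fin 2) F))).index) =
        {1, (Fintype.card F ^ 2 - 1) / 2, Fintype.card F * (Fintype.card F - 1) / 2,
          Fintype.card F * (Fintype.card F + 1), Fintype.card F * (Fintype.card F - 1)}) := by
  rw [← Nat.card_eq_fintype_card] at h7 hodd ⊢
  have h0 : (2 : F) ≠ 0 := two_ne_zero_of_odd (Nat.odd_iff.2 (by omega))
  have hG := card_PSL (F := F)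
  obtain ⟨k, hk⟩ := odd_card_of_two_ne_zero h0
  rw [dd_odd h0, CA.SLnCard.sq_sub_one] at hG
  constructor
  · intro h4
    ext m
    simp only [Set.mem_range, Set.mem_insert_iff, Set.mem_singleton_iff]
    refine aux h0 h7 _ (fun g hg => ?_) m
    have := (Db g).index_mul_card
    rw [card_Db (SS_of_trace_zero h0 hg), card_Tb_split (split_of_trace_zero hg h4), dd_odd h0,
      show (Nat.card F - 1) / 2 = k by omega] at this
    rw [← this, show Nat.card F - 1 = 2 * k by omega] at hG
    have : 2 * (Db g).index = Nat.card F * (Nat.card F + 1) :=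
      Nat.eq_of_mul_eq_mul_right (by omega : 0 < 2 * k) (by linarith)
    omega
  · intro h4
    ext m
    simp only [Set.mem_range, Set.mem_insert_iff, Set.mem_singleton_iff]
    rw [aux h0 h7 (Nat.card F * (Nat.card F - 1) / 2) (fun g hg => ?_) m]
    · tauto
    have := (Db g).index_mul_card
    rw [card_Db (SS_of_trace_zero h0 hg), card_Tb_aniso (aniso_of_trace_zero hg h4), dd_odd h0,
      show (Nat.card F + 1) / 2 = k + 1 by omega] at this
    rw [← this, show Nat.card F + 1 = 2 * (k + 1) by omega] at hG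
    have : 2 * (Db g).index = Nat.card F * (Nat.card F - 1) :=
      Nat.eq_of_mul_eq_mul_right (by omega : 0 < 2 * (k + 1)) (by linarith)
    omega

end Cfsg.Agent.S2508
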