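import Cfsg.Statements.S2512
import Cfsg.Agent.Lib.Lin.H23Spec

set_option autoImplicit false
open Cfsg

namespace Cfsg.Agent.S2512

open CA.Rcf CA.H23Spec CA.CForm.Form

/-- Let F be a finite field of odd order q = p^a, n ≥ 2 (with q ≥ 3 automatic), and L = PSp(2n, F). Then for every m the direct product L × L × L × (ℤ/2)^m has the same set of element orders as L × L × L; and if 2n − 1 is not a power of p, then already L × L × (ℤ/2)^m has the same set of element orders as L × L. -/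
theorem result {F : Type*} [Field F] [Fintype F] (p a n m : ℕ) (hp : p.Prime) (ha : 1 ≤ a) (hF : Fintype.card F = p ^ a) (hodd : Odd (Fintype.card F))
    (hn : 2 ≤ n) :
    Set.range (orderOf : Cfsg.PSp n F × Cfsg.PSp n F × Cfsg.PSp n F × Multiplicative (Fin m → ZMod 2) → ℕ) = Set.range (orderOf : Cfsg.PSp n F × Cfsg.PSp n F × Cfsg.PSp n F → ℕ) ∧
    ((¬ ∃ j : ℕ, 2 * n - 1 = p ^ j) →
      Set.range (orderOf : Cfsg.PSp n F × Cfsg.PSp n F × Multiplicative (Fin m → ZMod 2) → ℕ) = Set.range (orderOf : Cfsg.PSp n F × Cfsg.PSp n F → ℕ)) := by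
  haveI := Fact.mk hp
  haveI : CharP F p := charP_of_card_eq_prime_pow hF
  have sp := fun o => psp_spec (F := F) (o := o) p hn
  rw [Nat.card_eq_fintype_card] at sp
  generalize Fintype.card F = q at *
  have hp2 : Odd p := (Nat.odd_pow_iff (by omega)).1 (hF ▸ hodd)
  have ev : ∀ t : ℕ × Bool, 2 ∣ tor q t := fun ⟨i, b⟩ => by
    obtain ⟨j, hj⟩ := hodd.pow (n := i)
    cases b <;> simp [hj]
  have hs : ∀ b, ∃ s : PSp n F, orderOf s = tor q (n, b) / 2 := fun b => (sp _).2 ⟨0, tor q (n, b) / 2, {(n, b)}, by simp; omega,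
    by simp [cst], by simp, by simpa using Nat.div_dvd_of_dvd (ev _), fun t ht _ _ => by
      rw [← Multiset.singleton_inj.1 ht, Nat.mul_div_cancel' (ev _)]⟩
  obtain ⟨b, hb⟩ : ∃ b, 2 ∣ tor q (n, !b) / 2 := by
    obtain ⟨j, hj⟩ := hodd.pow (n := n)
    by_cases h : 2 ∣ j
    · exact ⟨true, by simp [hj, h]⟩
    · exact ⟨false, by simp [hj]; omega⟩
  obtain ⟨s, h1⟩ := hs b
  obtain ⟨z, h2⟩ := hs !b
  have k : ∀ u : PSp n F, (∀ j, 2 * n - 1 = p ^ j → p ^ (j + 1) ∣ orderOf u) → ∀ g : PSp n F,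
      Good (PSp n F) 2 (orderOf g) ∨ orderOf g ∣ (orderOf s).lcm (orderOf u) := fun u hu g => by
    obtain ⟨k, N, S, l1, l2, l3, l4, l5⟩ := (sp _).1 ⟨g, rfl⟩
    by_cases H : ∃ t, S = {t} ∧ k = 0 ∧ 2 * t.1 + cst p k = 2 * n
    · obtain ⟨⟨i, c⟩, rfl, rfl, H⟩ := H
      have l6 := l5 _ rfl ⟨rfl, hodd⟩ H
      obtain rfl : i = n := by simpa [cst] using H
      have l7 : orderOf g ∣ tor q (i, c) / 2 := (by simpa using l3 : orderOf g ∣ N).trans
        ((Nat.dvd_div_iff_mul_dvd (ev _)).2 l6)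
      by_cases e : c = b
      · exact .inr (Nat.dvd_lcm_of_dvd_left (h1 ▸ e ▸ l7) _)
      · exact .inl ⟨z, by rw [h2, ← Bool.eq_not.2 e]; exact l7, h2 ▸ hb⟩
    by_cases h0 : S = 0
    swap
    · obtain ⟨g', hg'⟩ := (sp _).2 ⟨k, _, S, l1, l2, dvd_rfl, dvd_rfl, fun t ht hk e => absurd ⟨t, ht, hk.1, e⟩ H⟩
      obtain ⟨t, ht⟩ := Multiset.exists_mem_of_ne_zero h0
      exact .inl ⟨g', hg' ▸ l3.trans (Nat.mul_dvd_mul_right l4 _), hg' ▸ ((ev t).trans (tor_dvd_tl ht)).mul_right _⟩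
    subst h0
    rw [tl_zero, Nat.dvd_one] at l4
    rw [l4, one_mul] at l3
    by_cases l6 : 2 + cst p k ≤ 2 * n
    · obtain ⟨g', hg'⟩ := (sp _).2 ⟨k, _, {(1, false)}, by simp, by simpa using l6, dvd_rfl, dvd_rfl, fun t ht hk e => by
        rw [← Multiset.singleton_inj.1 ht, hk.1] at e
        simp [cst] at e
        omega⟩
      exact .inl ⟨g', hg' ▸ l3.mul_left _, hg' ▸ (tl_singleton ▸ ev (1, false)).mul_right _⟩
    rcases k with - | k
    · simp [cst] at l6; omega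
    obtain ⟨j, hj⟩ := hp2.pow (n := k)
    simp only [cst, wt_zero] at l2 l6
    exact .inr (Nat.dvd_lcm_of_dvd_right (l3.trans (hu k (by omega))) _)
  have k2 := fun H : ¬∃ j, 2 * n - 1 = p ^ j => k z fun j hj => absurd ⟨j, hj⟩ H
  refine ⟨?_, fun H => two (ord_elem m) (k2 H) (h2 ▸ hb)⟩
  by_cases H : ∃ j, 2 * n - 1 = p ^ j
  · obtain ⟨j, hj⟩ := H
    obtain ⟨u, hu⟩ := (sp (p ^ (j + 1))).2 ⟨j + 1, 1, 0, by simp, by simp [cst]; omega, by simp, by simp, by simp⟩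
    exact three (ord_elem m) (k u fun i hi => by rw [hu, Nat.pow_right_injective hp.two_le (hi.symm.trans hj)]) (h2 ▸ hb)
  · exact three (ord_elem m) (k2 H) (h2 ▸ hb)

end Cfsg.Agent.S2512
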