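import Cfsg.Statements.S2513
import Cfsg.Agent.Lib.Lin.H23Spec

set_option autoImplicit false
open Cfsg

namespace Cfsg.Agent.S2513

open CA.Rcf CA.H23Spec CA.PSLOrd CA.PSUOrd Polynomial

theorem aux {F : Type*} [Field F] [Fintype F] (hF : Fintype.card F = 2) {n k : ℕ} (hn : 2 ≤ n) (hk : (n + 3) / 2 ≤ k) :
    ∃ y : Fin k → Matrix.ProjectiveSpecialLinearGroup (Fin n) F, ∀ g : Matrix.ProjectiveSpecialLinearGroup (Fin n) F,
      orderOf g ∣ orderOf y := by
  haveI : CharP F 2 := charP_of_card_eq_prime hF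
  have hy : ∀ i : ℕ, ∃ y : Matrix.ProjectiveSpecialLinearGroup (Fin n) F,
      (i = 0 → 2 ^ Nat.clog 2 n ∣ orderOf y) ∧ (i ≠ 0 → n / 2 + i ≤ n → 2 ^ (n / 2 + i) - 1 ∣ orderOf y) := fun i => by
    by_cases h0 : i = 0
    · obtain ⟨j, rfl⟩ := Nat.exists_eq_add_of_le' (one_le_two.trans hn)
      obtain ⟨u, hu⟩ := (sp_PSL (F := F) (n := j + 1) (r := 1)).ex _ ((sp_PSL (n := 1) (r := 1)).un j)
        (by simp [dg, -natDegree_pow, natDegree_X_sub_one_pow]) (by simp [coeff_zero_eq_eval_zero])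
      obtain ⟨c, hc⟩ := (hu _).1 dvd_rfl
      exact ⟨u, fun _ => unip 2 (hc _ (by simp)), absurd h0⟩
    by_cases h1 : n / 2 + i ≤ n
    swap
    · exact ⟨1, fun h => absurd h h0, fun _ h => absurd h h1⟩
    have h2 := natCast_ne_zero (F := F) (k := n / 2 + i) (by omega) dvd_rfl
    obtain ⟨φ, h3⟩ := exists_mem_cycT (F := F) (ne_zero_of_cast h2)
    have h4 := natDegree_cyc h2 h3
    have h5 := ord_T (F := F) (n := n / 2 + i) (by omega)
    rw [Nat.card_eq_fintype_card] at h4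
    rw [hF] at h2 h3 h4 h5
    rw [show 2 - 1 = 1 from rfl, Nat.div_one, ← h4] at h5
    obtain ⟨g, hg⟩ := CA.PSLOrd.exists_lin (n := n) (m := {φ}) (by simpa using isPrim_of_mem_cycT h3)
      (by simpa using not_X_dvd_cyc (ne_zero_of_cast h2) h3) (by simpa [h5] using h1) (t := 2 ^ (n / 2 + i) - 1)
      (by simpa using cyc_dvd_iff h2 h3)
    obtain ⟨x, hx⟩ := exists_PSL g (by simp [hF])
    exact ⟨x, fun h => absurd h h0, fun _ _ => by rw [hx, hg]⟩
  choose y h1 h2 using hy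
  refine ⟨fun i => y i, fun g => ?_⟩
  have h3 : ∀ i < k, orderOf (y i) ∣ orderOf fun i : Fin k => y i := fun i hi => orderOf_apply_dvd_orderOf (⟨i, hi⟩ : Fin k)
  generalize orderOf (fun i : Fin k => y i) = M at h3 ⊢
  obtain ⟨m, l1, l2, -, l3⟩ := (sp_PSL (F := F) (r := 1)).of g
  obtain ⟨M, rfl⟩ := (h1 0 rfl).trans (h3 0 (by omega))
  refine (l3 _).2 ⟨1, fun d hd => ?_⟩
  obtain ⟨⟨φ, e, k1, k2, rfl⟩, k3⟩ := l1 d hd
  obtain ⟨N, k4, k5⟩ := exists_cyc k2 k1 fun H => k3 (H.trans (dvd_pow_self _ e.succ_ne_zero))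
  have k6 : (e + 1) * φ.natDegree ≤ n := by
    rw [← l2, ← natDegree_pow]
    exact Multiset.single_le_sum (by simp) _ (Multiset.mem_map_of_mem _ hd)
  have k0 := k2.natDegree_pos
  have k7 : N ∣ 2 ^ φ.natDegree - 1 := (orderOf_dvd_iff_dvd one_le_two).1 (by
    rw [natDegree_cyc k4 k5, Nat.card_eq_fintype_card, hF])
  obtain ⟨c, k8, k9⟩ : ∃ c, n / 2 < φ.natDegree * c ∧ φ.natDegree * c ≤ n := by
    have := Nat.le_mul_of_pos_left φ.natDegree e.add_one_pos
    have := Nat.div_add_mod n φ.natDegree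
    have := Nat.mod_lt n k0
    have := Nat.le_mul_of_pos_right φ.natDegree (Nat.div_pos (by omega : φ.natDegree ≤ n) k0)
    exact ⟨n / φ.natDegree, by omega, by omega⟩
  obtain ⟨i, hi⟩ := Nat.exists_eq_add_of_lt k8
  have k10 := ((h2 (i + 1) (by omega) (by omega)).trans (h3 _ (by omega)))
  rw [← add_assoc, ← hi, pow_mul] at k10
  have k11 := (Nat.Coprime.pow_right _ ((Nat.prime_two.coprime_iff_not_dvd.2
    (mt (CharP.cast_eq_zero_iff F 2 _).2 k4)).symm)).dvd_of_dvd_mul_left ((k7.trans (Nat.sub_one_dvd_pow_sub_one _ _)).trans k10)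
  have := dvd_of_pow 2 (c := 1) ((cyc_dvd_iff k4 k5 M).2 k11)
    (((Nat.le_mul_of_pos_right _ k0).trans k6).trans (Nat.le_pow_clog one_lt_two n))
  rwa [one_pow, mul_comm] at this

theorem aux2 {G ι κ : Type*} [Group G] {y : κ → G} (h : ∀ g : G, orderOf g ∣ orderOf y) (x : ι → G) :
    orderOf x ∣ orderOf y := orderOf_dvd_iff_pow_eq_one.2 (funext fun i => orderOf_dvd_iff_pow_eq_one.1 (h (x i)))

/-- Let F be the field with two elements, n ≥ 2, L = PSL(n, F) and k₀ = ⌊(n + 3)/2⌋. Then for every k ≥ k₀ the direct product of k copies of L has the same set of element orders as the direct product of k₀ copies of L. -/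
theorem result {F : Type*} [Field F] [Fintype F] (hF : Fintype.card F = 2) (n k : ℕ) (hn : 2 ≤ n) (hk : (n + 3) / 2 ≤ k) :
    Set.range (orderOf : (Fin k → Matrix.ProjectiveSpecialLinearGroup (Fin n) F) → ℕ) = Set.range (orderOf : (Fin ((n + 3) / 2) → Matrix.ProjectiveSpecialLinearGroup (Fin n) F) → ℕ) := by
  obtain ⟨y, hy⟩ := aux hF hn hk
  obtain ⟨z, hz⟩ := aux hF hn le_rfl
  exact range_eq (fun x => ⟨z, aux2 hz x⟩) fun x => ⟨y, aux2 hy x⟩

end Cfsg.Agent.S2513
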