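import Cfsg.Statements.S2514
import Cfsg.Agent.Lib.Lin.H23Spec

set_option autoImplicit false
open Cfsg

namespace Cfsg.Agent.S2514

theorem exists_max {G : Type*} [Group G] [Finite G] (g : G) : ∃ x : G, orderOf g ∣ orderOf x ∧
    ∀ m ∈ Set.range (orderOf : G → ℕ), orderOf x ∣ m → m = orderOf x := by
  obtain ⟨x, h1, h2⟩ := Set.exists_max_image {x : G | orderOf g ∣ orderOf x} orderOf (Set.toFinite _) ⟨g, dvd_rfl⟩
  exact ⟨x, h1, fun _ ⟨y, hy⟩ h => hy ▸ (h2 y (hy ▸ h1.trans h :)).antisymm (Nat.le_of_dvd (orderOf_pos y) (hy ▸ h))⟩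

/-- For a finite group X write μ(X) for the set of element orders of X that are maximal under divisibility. Let G and H be finite groups and k ≥ 1 such that μ(H) ⊆ μ(G) and μ(G) has fewer than k elements outside μ(H). Then the direct product of k copies of G has the same set of element orders as the direct product of k − 1 copies of G with H. -/
theorem result {G H : Type*} [Group G] [Finite G] [Group H] [Finite H] (k : ℕ) (hk : 1 ≤ k)
    (hsub : {n : ℕ | n ∈ Set.range (orderOf : H → ℕ) ∧ ∀ m ∈ Set.range (orderOf : H → ℕ), n ∣ m → m = n} ⊆ {n : ℕ | n ∈ Set.range (orderOf : G → ℕ) ∧ ∀ m ∈ Set.range (orderOf : G → ℕ), n ∣ m → m = n})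
    (hfew : ({n : ℕ | n ∈ Set.range (orderOf : G → ℕ) ∧ ∀ m ∈ Set.range (orderOf : G → ℕ), n ∣ m → m = n} \ {n : ℕ | n ∈ Set.range (orderOf : H → ℕ) ∧ ∀ m ∈ Set.range (orderOf : H → ℕ), n ∣ m → m = n}).ncard < k) :
    Set.range (orderOf : (Fin k → G) → ℕ) = Set.range (orderOf : (Fin (k - 1) → G) × H → ℕ) := by
  obtain ⟨k, rfl⟩ := Nat.exists_eq_add_of_le' hk
  refine CA.H23Spec.range_eq (fun x => ?_) fun ⟨x, y⟩ => ?_
  · choose f h1 h2 using fun i => exists_max (x i)
    have k : ∀ j (y : H), (orderOf (f j) ∣ orderOf y ∨ ∃ i, orderOf (f j) ∣ orderOf (f (j.succAbove i))) →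
        ∃ y : (Fin k → G) × H, orderOf x ∣ orderOf y := fun j y h => by
      refine ⟨(fun i => f (j.succAbove i), y), orderOf_dvd_iff_pow_eq_one.2 (funext fun i =>
        orderOf_dvd_iff_pow_eq_one.1 ((h1 i).trans ?_))⟩
      have := fun i => (orderOf_apply_dvd_orderOf (x := fun i => f (j.succAbove i)) i).trans
        (orderOf_fst_dvd_orderOf (x := (fun i => f (j.succAbove i), y)))
      obtain rfl | ⟨i, rfl⟩ := Fin.eq_self_or_eq_succAbove j i
      · exact h.elim (·.trans (orderOf_snd_dvd_orderOf (x := (fun l => f (i.succAbove l), y)))) fun ⟨i, h⟩ => h.trans (this i)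
      · exact this i
    by_contra H0
    refine hfew.not_ge ((Set.ncard_le_ncard_of_injOn (s := Set.univ) (fun i => orderOf (f i)) (fun i _ => ?_) (fun i _ j _ e => ?_)
      ((Set.finite_range _).subset fun _ h => h.1.1)).trans' (by simp))
    · exact ⟨⟨⟨_, rfl⟩, h2 i⟩, fun ⟨⟨y, hy⟩, _⟩ => H0 (k i y (.inl hy.symm.dvd))⟩
    by_contra h
    obtain ⟨l, rfl⟩ := Fin.exists_succAbove_eq h
    exact H0 (k j 1 (.inr ⟨l, e.symm.dvd⟩))
  · obtain ⟨z, h1, h2⟩ := exists_max y
    obtain ⟨⟨w, hw⟩, -⟩ := hsub ⟨⟨z, rfl⟩, h2⟩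
    have := fun i => orderOf_dvd_iff_pow_eq_one.1 (orderOf_apply_dvd_orderOf (x := (Fin.cons w x : Fin (k + 1) → G)) i)
    exact ⟨Fin.cons w x, orderOf_dvd_iff_pow_eq_one.2 (Prod.ext (funext fun i => this (Fin.succ i))
      (orderOf_dvd_iff_pow_eq_one.1 (h1.trans (hw ▸ orderOf_dvd_iff_pow_eq_one.2 (this 0)))))⟩

end Cfsg.Agent.S2514
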