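import Cfsg.Statements.S2516

set_option autoImplicit false
open Cfsg

namespace Cfsg.Agent.S2516

/-- Let F be a field of characteristic p > 0, V a non-zero finite-dimensional F-vector space, G a finite group and ρ a representation of G on V; form the semidirect product V ⋊ G. For g ∈ G of order k, the coset Vg contains an element of order pk if and only if the minimal polynomial of ρ(g) does not divide 1 + X + ⋯ + X^(k−1). -/
theorem result {F : Type*} [Field F] (p : ℕ) [Fact p.Prime] [CharP F p] {V : Type*} [AddCommGroup V] [Module F V] [FiniteDimensional F V] [Nontrivial V]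
    {G : Type*} [Group G] [Finite G] (ρ : Representation F G V) (g : G) :
    (∃ x : Multiplicative V ⋊[(MulAutMultiplicative V).symm.toMonoidHom.comp
        ((DistribMulAction.toAddAut ((V →ₗ[F] V)ˣ) V).comp ρ.asGroupHom)] G,
        x.right = g ∧ orderOf x = p * orderOf g) ↔
      ¬ (minpoly F (ρ g) ∣ ∑ i ∈ Finset.range (orderOf g), (Polynomial.X : Polynomial F) ^ i) := by
  have hp : p.Prime := Fact.out
  set φ := (MulAutMultiplicative V).symm.toMonoidHom.comp
    ((DistribMulAction.toAddAut ((V →ₗ[F] V)ˣ) V).comp ρ.asGroupHom) with hφ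
  have hφ' : ∀ (a : G) (v : Multiplicative V), (φ a v).toAdd = ρ a v.toAdd := fun a v => rfl
  have hpow : ∀ (x : Multiplicative V ⋊[φ] G) (k : ℕ),
      (x ^ k).left.toAdd = (∑ i ∈ Finset.range k, ρ x.right ^ i) x.left.toAdd := fun x k => by
    induction k with
    | zero => simp
    | succ k ih =>
      rw [pow_succ, SemidirectProduct.mul_left, toAdd_mul, ih, hφ', Finset.sum_range_succ,
        LinearMap.add_apply, ← map_pow]
      congr 2
      exact congrArg ρ (map_pow SemidirectProduct.rightHom x k)
  have hord : ∀ x : Multiplicative V ⋊[φ] G, orderOf x = p * orderOf x.right ↔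
      (∑ i ∈ Finset.range (orderOf x.right), ρ x.right ^ i) x.left.toAdd ≠ 0 := fun x => by
    have h0 : 0 < orderOf x.right := orderOf_pos _
    have hd : orderOf x.right ∣ orderOf x := orderOf_map_dvd SemidirectProduct.rightHom x
    have hr : (x ^ orderOf x.right).right = 1 :=
      (map_pow SemidirectProduct.rightHom x _).trans (pow_orderOf_eq_one x.right)
    have he : x ^ orderOf x.right = SemidirectProduct.inl (x ^ orderOf x.right).left :=
      SemidirectProduct.ext rfl hr
    have ho : orderOf x = orderOf (x ^ orderOf x.right).left * orderOf x.right := by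
      rw [← orderOf_injective (SemidirectProduct.inl : _ →* Multiplicative V ⋊[φ] G)
        SemidirectProduct.inl_injective, ← he,
        orderOf_pow_of_dvd h0.ne' hd, Nat.div_mul_cancel hd]
    rw [← hpow, ho, Nat.mul_left_inj h0.ne']
    generalize (x ^ orderOf x.right).left = v
    constructor
    · intro h e
      rw [show v = 1 from e, orderOf_one] at h
      exact hp.ne_one h.symm
    · intro h
      refine orderOf_eq_prime ?_ h
      change p • v.toAdd = 0
      rw [← Nat.cast_smul_eq_nsmul F, CharP.cast_eq_zero, zero_smul]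
  rw [minpoly.dvd_iff]
  simp only [map_sum, map_pow, Polynomial.aeval_X]
  constructor
  · rintro ⟨x, rfl, hx⟩ h
    exact (hord x).1 hx (by rw [h]; rfl)
  · intro h
    obtain ⟨v, hv⟩ : ∃ v, (∑ i ∈ Finset.range (orderOf g), ρ g ^ i) v ≠ 0 := by
      by_contra h'
      push Not at h'
      exact h (LinearMap.ext h')
    exact ⟨⟨Multiplicative.ofAdd v, g⟩, rfl, (hord ⟨Multiplicative.ofAdd v, g⟩).2 hv⟩

end Cfsg.Agent.S2516
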