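import Cfsg.Statements.S2519
import Cfsg.Agent.Lib.Lie.SSG2
-- import your own Cfsg.Agent.* helpers here

set_option autoImplicit false
open Cfsg

namespace Cfsg.Agent.S2519

open CA.Chev Cfsg.Lie

theorem anti {p q : ℕ} (hp : p.Prime) (h5 : 5 ≤ q) (h3 : p ∣ q) : ∀ n, (n ∈ [p * (q + 1), p * (q - 1),
    q ^ 2 - 1, q ^ 2 + q + 1, q ^ 2 - q + 1] ∨ (p = 3 ∨ p = 5) ∧ n = p ^ 2) → ∀ k, (k ∈ [p * (q + 1), p * (q - 1),
    q ^ 2 - 1, q ^ 2 + q + 1, q ^ 2 - q + 1] ∨ (p = 3 ∨ p = 5) ∧ k = p ^ 2) → n ∣ k → k = n := by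
  obtain ⟨s, rfl⟩ : ∃ s, q = s + 1 := ⟨q - 1, by omega⟩
  have e1 : (s + 1) ^ 2 - 1 = (s + 1) * s + s := by rw [sq, Nat.mul_succ]; rfl
  have e2 : (s + 1) ^ 2 - (s + 1) = (s + 1) * s := by rw [sq, Nat.mul_succ, Nat.add_sub_cancel]
  have h0 := hp.one_lt
  have c1 : ¬ p ∣ s := fun h => hp.not_dvd_one ((Nat.dvd_add_right h).1 h3)
  have c2 : ¬ p ∣ s + 1 + 1 := fun h => hp.not_dvd_one ((Nat.dvd_add_right h3).1 h)
  have c3 : ∀ n ∈ [(s + 1) * s + s, (s + 1) ^ 2 + (s + 1) + 1, (s + 1) * s + 1], ¬ p ∣ n ∧ s * s + s < n ∧ n ≤ s * s + 3 * s + 3 := by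
    simp only [List.mem_cons, List.not_mem_nil, or_false, forall_eq_or_imp, forall_eq]
    exact ⟨⟨fun h => c1 ((Nat.dvd_add_right (h3.mul_right s)).1 h), by nlinarith, by nlinarith⟩,
      ⟨fun h => hp.not_dvd_one ((Nat.dvd_add_right (dvd_add (dvd_pow h3 two_ne_zero) h3)).1 h), by nlinarith, by nlinarith⟩,
      fun h => hp.not_dvd_one ((Nat.dvd_add_right (h3.mul_right s)).1 h), by nlinarith, by nlinarith⟩
  have c4 : ∀ n, n ∈ [p * (s + 1 + 1), p * s, (s + 1) * s + s, (s + 1) ^ 2 + (s + 1) + 1, (s + 1) * s + 1] ∨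
      (p = 3 ∨ p = 5) ∧ n = p ^ 2 → (∃ m, n = p * m ∧ ¬ p ∣ m ∧ s ≤ m ∧ m ≤ s + 2) ∨
      (¬ p ∣ n ∧ s * s + s < n ∧ n ≤ s * s + 3 * s + 3) ∨ n = p * p := fun n h => by
    simp only [List.mem_cons (a := n) (b := p * _)] at h
    rcases h with (rfl | rfl | h) | h
    exacts [.inl ⟨_, rfl, c2, by omega, le_rfl⟩, .inl ⟨_, rfl, c1, le_rfl, by omega⟩, .inr (.inl (c3 n h)),
      .inr (.inr (sq p ▸ h.2))]
  rw [e1, e2, Nat.add_sub_cancel]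
  intro n hn k hk h
  have hs : 4 * s ≤ s * s := Nat.mul_le_mul_right s (by omega)
  rcases c4 n hn with ⟨m, rfl, a1, a2, a3⟩ | ⟨a1, a2, a3⟩ | rfl <;> rcases c4 k hk with ⟨l, rfl, b1, b2, b3⟩ | ⟨b1, b2, b3⟩ | rfl
  · rw [Nat.eq_of_dvd_of_lt_two_mul (by omega) (Nat.dvd_of_mul_dvd_mul_left hp.pos h) (by omega)]
  · exact absurd ((dvd_mul_right _ _).trans h) b1
  · rcases (Nat.dvd_prime hp).1 (Nat.dvd_of_mul_dvd_mul_left hp.pos h) with rfl | rfl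
    exacts [by omega, rfl]
  · have := Nat.le_of_dvd (by omega) ((hp.coprime_iff_not_dvd.2 a1).symm.dvd_of_dvd_mul_left h); omega
  · exact Nat.eq_of_dvd_of_lt_two_mul (by omega) h (by omega)
  · have := ((hp.coprime_iff_not_dvd.2 a1).symm.mul_right (hp.coprime_iff_not_dvd.2 a1).symm).eq_one_of_dvd h; omega
  · exact absurd (Nat.dvd_of_mul_dvd_mul_left hp.pos h) b1
  · exact absurd ((dvd_mul_right _ _).trans h) b1
  · rfl

/-- Let F be a finite field of odd order q = p^a ≥ 5. The element orders of the Chevalley group G₂(F) that are maximal under divisibility are exactly p(q + 1), p(q − 1), q² − 1, q² + q + 1, q² − q + 1, together with p² when p is 3 or 5. -/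
theorem result {F : Type*} [Field F] [Fintype F] (p a : ℕ) (hp : p.Prime) (hp2 : p ≠ 2) (ha : 1 ≤ a) (hF : Fintype.card F = p ^ a) (hq5 : 5 ≤ Fintype.card F) :
    {n : ℕ | n ∈ Set.range (orderOf : ↥(Cfsg.Lie.chevG2.group F) → ℕ) ∧ ∀ m ∈ Set.range (orderOf : ↥(Cfsg.Lie.chevG2.group F) → ℕ), n ∣ m → m = n} =
      ({p * (p ^ a + 1), p * (p ^ a - 1), p ^ (2 * a) - 1, p ^ (2 * a) + p ^ a + 1, p ^ (2 * a) - p ^ a + 1} : Set ℕ) ∪
        (if p = 3 ∨ p = 5 then ({p ^ 2} : Set ℕ) else ∅) := by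
  have := Fact.mk hp
  have := charP_of_card_eq_prime_pow hF
  have h1 := G2.exists_ord p hF
  have h2 := (G2.exists_ord' (F := F) p).2
  rw [hF] at hq5
  simp only [pow_mul']
  have h3 : p ∣ p ^ a := dvd_pow_self p (by omega)
  generalize p ^ a = q at *
  have h5 : ∀ n, n ∈ ({p * (q + 1), p * (q - 1), q ^ 2 - 1, q ^ 2 + q + 1, q ^ 2 - q + 1} : Set ℕ) ∪
      (if p = 3 ∨ p = 5 then ({p ^ 2} : Set ℕ) else ∅) ↔ n ∈ [p * (q + 1), p * (q - 1), q ^ 2 - 1, q ^ 2 + q + 1,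
      q ^ 2 - q + 1] ∨ (p = 3 ∨ p = 5) ∧ n = p ^ 2 := fun n => by split_ifs with h <;> simp [h, or_comm]
  have h6 : ∀ x : chevG2.group F, ∃ n, (n ∈ [p * (q + 1), p * (q - 1), q ^ 2 - 1, q ^ 2 + q + 1, q ^ 2 - q + 1] ∨
      (p = 3 ∨ p = 5) ∧ n = p ^ 2) ∧ orderOf x ∣ n := fun x => by
    rcases G2.ord_dvd p hF x with h | h | h | h | h | ⟨h, -⟩ | h
    iterate 5 exact ⟨_, by simp, h⟩
    · omega
    by_cases e : p = 3 ∨ p = 5
    · exact ⟨_, .inr ⟨e, rfl⟩, h 2 (by rcases e with rfl | rfl <;> decide)⟩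
    · have : p ≠ 4 := by rintro rfl; exact absurd hp (by decide)
      exact ⟨p * (q + 1), by simp, (h 1 (by have := hp.two_le; rw [pow_one]; omega)).trans (by simp)⟩
  have h7 : ∀ n, n ∈ [p * (q + 1), p * (q - 1), q ^ 2 - 1, q ^ 2 + q + 1, q ^ 2 - q + 1] ∨ (p = 3 ∨ p = 5) ∧ n = p ^ 2 →
      ∃ x : chevG2.group F, orderOf x = n := fun n h => h.elim (h1 n) fun h => h.2 ▸ h2 h.1
  ext n
  rw [h5]
  refine ⟨fun ⟨⟨x, hx⟩, hn⟩ => ?_, fun hn => ⟨h7 n hn, fun m ⟨x, hx⟩ hd => ?_⟩⟩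
  · obtain ⟨m, a, b⟩ := h6 x
    exact hn m (h7 m a) (hx ▸ b) ▸ a
  obtain ⟨k, a, b⟩ := h6 x
  exact Nat.dvd_antisymm (anti hp hq5 h3 n hn k a (hd.trans (hx ▸ b)) ▸ hx ▸ b) hd

end Cfsg.Agent.S2519
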