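import Cfsg.Statements.S2520
import Cfsg.Agent.Lib.Lie.SSG2
-- import your own Cfsg.Agent.* helpers here

set_option autoImplicit false
open Cfsg

namespace Cfsg.Agent.S2520

open CA.Chev Cfsg.Lie

/-- Let F be a finite field with q = 2^a ≥ 4 elements and G₂(F) the Chevalley group of type G₂ over it. Every element order of G₂(F) maximal under divisibility lies in the set {8, 12, 2(q + 1), 2(q − 1), q² − 1, q² + q + 1, q² − q + 1}, and every member of that set is an element order of G₂(F). -/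
theorem result {F : Type*} [Field F] [Fintype F] (a : ℕ) (ha : 2 ≤ a) (hF : Fintype.card F = 2 ^ a) :
    {n : ℕ | n ∈ Set.range (orderOf : ↥(Cfsg.Lie.chevG2.group F) → ℕ) ∧ ∀ m ∈ Set.range (orderOf : ↥(Cfsg.Lie.chevG2.group F) → ℕ), n ∣ m → m = n} ⊆ ({8, 12, 2 * (2 ^ a + 1), 2 * (2 ^ a - 1), 2 ^ (2 * a) - 1, 2 ^ (2 * a) + 2 ^ a + 1, 2 ^ (2 * a) - 2 ^ a + 1} : Set ℕ) ∧
    ({8, 12, 2 * (2 ^ a + 1), 2 * (2 ^ a - 1), 2 ^ (2 * a) - 1, 2 ^ (2 * a) + 2 ^ a + 1, 2 ^ (2 * a) - 2 ^ a + 1} : Set ℕ) ⊆ Set.range (orderOf : ↥(Cfsg.Lie.chevG2.group F) → ℕ) := by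
  have := charP_of_card_eq_prime_pow hF
  have h1 := G2.exists_ord 2 hF
  have h2 := (G2.exists_ord' (F := F) 2).1 rfl
  simp only [List.mem_cons, List.not_mem_nil, or_false, forall_eq_or_imp, forall_eq, ← pow_mul'] at h1
  obtain ⟨a1, a2, a3, a4, a5⟩ := h1
  refine ⟨fun n ⟨⟨x, hx⟩, hn⟩ => ?_, fun n hn => ?_⟩
  · simp only [Set.mem_insert_iff, Set.mem_singleton_iff]
    have := G2.ord_dvd 2 hF x
    simp only [← pow_mul', hx] at this
    rcases this with h | h | h | h | h | ⟨-, h⟩ | h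
    exacts [by simp [← hn _ a1 h], by simp [← hn _ a2 h], by simp [← hn _ a3 h], by simp [← hn _ a4 h],
      by simp [← hn _ a5 h], by simp [← hn _ h2.2 h], by simp [← hn _ h2.1 (h 3 (by decide))]]
  · rcases hn with rfl | rfl | rfl | rfl | rfl | rfl | rfl
    exacts [h2.1, h2.2, a1, a2, a3, a4, a5]

end Cfsg.Agent.S2520
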