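import Cfsg.Statements.S2521

set_option autoImplicit false
open Cfsg

namespace Cfsg.Agent.S2521

/-- Let B be a finite group that is the semidirect product of a nilpotent normal subgroup U by an abelian subgroup T (U ∩ T = 1, UT = B), and let t ∈ T have centralizer exactly T. Then every element of the coset tU is conjugate to t in B: for each u ∈ U there is b ∈ B with b t b⁻¹ = t u. -/
theorem result {B : Type*} [Group B] [Finite B] (U T : Subgroup B) [U.Normal] (hU : Group.IsNilpotent ↥U) (hT : IsMulCommutative ↥T)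
    (hcompl : Subgroup.IsComplement' U T) (t : B) (ht : t ∈ T) (hreg : Subgroup.centralizer ({t} : Set B) = T) (u : B) (hu : u ∈ U) :
    ∃ b : B, b * t * b⁻¹ = t * u := by
  have hm : ∀ b : U, t⁻¹ * b * t * (b : B)⁻¹ ∈ U := fun b =>
    U.mul_mem (by simpa using (inferInstance : U.Normal).conj_mem _ b.2 t⁻¹) (U.inv_mem b.2)
  let f : U → U := fun b => ⟨_, hm b⟩
  have hf : Function.Injective f := fun a b h => by
    have h1 : t⁻¹ * a * t * (a : B)⁻¹ = t⁻¹ * b * t * (b : B)⁻¹ := congrArg Subtype.val h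
    have h2 : (b : B)⁻¹ * a ∈ Subgroup.centralizer ({t} : Set B) := by
      rw [Subgroup.mem_centralizer_singleton_iff]
      calc (b : B)⁻¹ * a * t = (b : B)⁻¹ * t * (t⁻¹ * a * t * (a : B)⁻¹) * a := by group
        _ = t * ((b : B)⁻¹ * a) := by rw [h1]; group
    rw [hreg] at h2
    have := hcompl.disjoint.le_bot (show (b : B)⁻¹ * a ∈ U ⊓ T from ⟨U.mul_mem (U.inv_mem b.2) a.2, h2⟩)
    exact (Subtype.ext (inv_mul_eq_one.1 (Subgroup.mem_bot.1 this))).symm
  obtain ⟨b, hb⟩ := Finite.surjective_of_injective hf ⟨u, hu⟩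
  have h1 : t⁻¹ * b * t * (b : B)⁻¹ = u := congrArg Subtype.val hb
  exact ⟨b, by rw [← h1]; group⟩

end Cfsg.Agent.S2521
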