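import Cfsg.Statements.S2522
import Cfsg.Agent.Lib.Lin.Lev3

set_option autoImplicit false
open Cfsg

namespace Cfsg.Agent.S2522

open CA.Lev CA.Rcf Matrix

/-- Let K be a field with at least four elements (finite or infinite), n ≥ 3, and J ∈ GL(n, K) the regular unipotent matrix (ones on the diagonal and the superdiagonal, zeros elsewhere). Then every non-scalar g ∈ GL(n, K) with det g = 1 is a product of two GL(n, K)-conjugates of J. -/
theorem result {K : Type*} [Field K] (hK : 4 ≤ Cardinal.mk K) (n : ℕ) (hn : 3 ≤ n) (J g : GL (Fin n) K)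
    (hJ : ∀ i j : Fin n, (J : Matrix (Fin n) (Fin n) K) i j = if i = j then 1 else if j.val = i.val + 1 then 1 else 0)
    (hg : ¬ ∃ c : K, (g : Matrix (Fin n) (Fin n) K) = c • (1 : Matrix (Fin n) (Fin n) K))
    (hdet : (g : Matrix (Fin n) (Fin n) K).det = 1) :
    ∃ x y : GL (Fin n) K, g = (x * J * x⁻¹) * (y * J * y⁻¹) := by
  obtain ⟨L, U, h1, h2, h3⟩ := two_reg (g := toLin' g.1) (four_of_card hK) (by simpa)
    (by rwa [LinearMap.det_toLin']) (ns_toLin' hg)
  have e : J.1 = (Cfsg.jordanBlock n K)ᵀ := by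
    ext i j; simp [hJ, Cfsg.jordanBlock, Fin.ext_iff, eq_comm]
  have key : ∀ A : Module.End K (Fin n → K), Reg A → ∃ x : GL (Fin n) K, toLin' (x * J * x⁻¹).1 = A := by
    intro A hA
    have s := hA.sim_cyc
    rw [Module.finrank_fin_fun] at s
    obtain ⟨x, hx⟩ := (isConj_matrix_iff (A := J.1) (B := LinearMap.toMatrix' A)).2 (by
      rw [toLin'_toMatrix', e]
      exact ((s.trans (sim_jordanBlock n)).trans (sim_transpose _)).symm)
    refine ⟨x, ?_⟩
    rw [Units.val_mul, Units.val_mul, hx.eq, Units.mul_inv_cancel_right, toLin'_toMatrix']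
  obtain ⟨x, hx⟩ := key L h2
  obtain ⟨y, hy⟩ := key U h3
  exact ⟨x, y, Units.ext (toLin'.injective (by rw [h1, Units.val_mul, toLin'_mul, hx, hy]; rfl))⟩

end Cfsg.Agent.S2522
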