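import Cfsg.Statements.S2524
import Cfsg.Agent.Lib.Lin.SpW5
-- import your own Cfsg.Agent.* helpers here

set_option autoImplicit false
open Cfsg

namespace Cfsg.Agent.S2524

open CA.CForm CA.DegLS CChar.CharFun CChar.CharRep

/-- Let F be a finite field of odd order q and G = Sp(2n, F) with n ≥ 2. Then G has exactly four irreducible complex characters of degree (q^n + 1)/2 or (q^n − 1)/2 (two of each), and every other non-principal irreducible character has degree at least (q^n − 1)(q^n − q)/(2(q + 1)). -/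
theorem result {F : Type*} [Field F] [Fintype F] (hodd : Odd (Fintype.card F)) (n : ℕ) (hn : 2 ≤ n) :
    Nat.card {χ : Cfsg.IrrCharacter ↥(Matrix.symplecticGroup (Fin n) F) // (χ : ↥(Matrix.symplecticGroup (Fin n) F) → ℂ) 1 = (((Fintype.card F) ^ n + 1 : ℕ) : ℂ) / 2} = 2 ∧
    Nat.card {χ : Cfsg.IrrCharacter ↥(Matrix.symplecticGroup (Fin n) F) // (χ : ↥(Matrix.symplecticGroup (Fin n) F) → ℂ) 1 = (((Fintype.card F) ^ n - 1 : ℕ) : ℂ) / 2} = 2 ∧
    ∀ χ : Cfsg.IrrCharacter ↥(Matrix.symplecticGroup (Fin n) F),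
      (χ : ↥(Matrix.symplecticGroup (Fin n) F) → ℂ) 1 ≠ 1 →
      (χ : ↥(Matrix.symplecticGroup (Fin n) F) → ℂ) 1 ≠ (((Fintype.card F) ^ n + 1 : ℕ) : ℂ) / 2 →
      (χ : ↥(Matrix.symplecticGroup (Fin n) F) → ℂ) 1 ≠ (((Fintype.card F) ^ n - 1 : ℕ) : ℂ) / 2 →
      (((Fintype.card F) ^ n - 1 : ℕ) : ℝ) * (((Fintype.card F) ^ n - Fintype.card F : ℕ) : ℝ) / (2 * ((Fintype.card F : ℕ) + 1 : ℝ)) ≤ ‖(χ : ↥(Matrix.symplecticGroup (Fin n) F) → ℂ) 1‖ := by
  obtain ⟨χ, h1, h2, h3, h4, h5⟩ := CA.SpW.main (F := F) (two_ne_zero_iff_odd.2 hodd) hn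
  let e := spEquiv F n
  have q2 : 2 ≤ Fintype.card F := Fintype.one_lt_card
  have q3 : 3 ≤ Fintype.card F := by obtain ⟨_, h⟩ := hodd; omega
  have q4 : 3 * Fintype.card F ≤ Fintype.card F ^ n := le_trans (by nlinarith) (Nat.pow_le_pow_right (by omega) hn)
  let θ (i j) : IrrCharacter (Matrix.symplecticGroup (Fin n) F) := ⟨_, irr_comp_mulEquiv (h1 i j) e⟩
  have t1 : ∀ i j, (θ i j).1 1 = χ i j 1 := fun i j => by simp [θ]
  have k : ∀ φ : IrrCharacter (Matrix.symplecticGroup (Fin n) F), ∀ d : ℕ, φ.1 1 = d → d ≠ 1 →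
      (Fintype.card F + 1) * 2 * d < (Fintype.card F ^ n - 1) * (Fintype.card F ^ n - Fintype.card F) → ∃ i j, φ = θ i j := fun φ d hd d1 h => by
    obtain ⟨i, j, h⟩ := h5 _ (irr_comp_mulEquiv φ.2 e.symm) d (by simpa using hd) d1 h
    exact ⟨i, j, Subtype.ext (funext fun g => by simp [θ, ← h])⟩
  have l : ∀ i, ∀ m : ℕ, (∀ j, χ i j 1 = (m : ℂ) / 2) → (∀ i' j, χ i' j 1 = (m : ℂ) / 2 → i' = i) → Fintype.card F ^ n - 1 ≤ m → m ≤ Fintype.card F ^ n + 1 →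
      Nat.card {φ : IrrCharacter (Matrix.symplecticGroup (Fin n) F) // φ.1 1 = (m : ℂ) / 2} = 2 := fun i m a1 a2 a3 a4 => by
    refine Nat.card_eq_two_iff.2 ⟨⟨θ i 0, (t1 _ _).trans (a1 0)⟩, ⟨θ i 1, (t1 _ _).trans (a1 1)⟩, fun h => h2 i (funext fun g => ?_), Set.eq_univ_of_forall fun ⟨φ, hφ⟩ => ?_⟩
    · simpa [θ] using congrFun (congrArg (fun φ => φ.1.1) h) (e.symm g)
    obtain ⟨d, hd⟩ := char_apply_one (char_of_irr φ.2)
    obtain rfl : d * 2 = m := by rw [hd, eq_div_iff two_ne_zero] at hφ; exact_mod_cast hφ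
    obtain ⟨i', j, rfl⟩ := k φ d hd (by omega) (CA.SpW.arith2 q3 q4 a4)
    obtain rfl := a2 i' j ((t1 _ _).symm.trans hφ)
    fin_cases j <;> simp
  have ne : ((Fintype.card F ^ n + 1 : ℕ) : ℂ) / 2 ≠ ((Fintype.card F ^ n - 1 : ℕ) : ℂ) / 2 := fun h => by
    have := Nat.cast_injective (R := ℂ) ((div_left_inj' two_ne_zero).1 h)
    omega
  refine ⟨l 0 _ h3 (Fin.forall_fin_two.2 ⟨fun _ _ => rfl, fun j h => (ne (h.symm.trans (h4 j))).elim⟩) (by omega) le_rfl,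
    l 1 _ h4 (Fin.forall_fin_two.2 ⟨fun j h => (ne ((h3 j).symm.trans h)).elim, fun _ _ => rfl⟩) le_rfl (by omega), fun φ a1 a2 a3 => ?_⟩
  obtain ⟨d, hd⟩ := char_apply_one (char_of_irr φ.2)
  rw [hd, Complex.norm_natCast, div_le_iff₀ (by positivity)]
  have : (Fintype.card F ^ n - 1) * (Fintype.card F ^ n - Fintype.card F) ≤ d * (2 * (Fintype.card F + 1)) := by
    by_contra! H
    obtain ⟨i, j, rfl⟩ := k φ d hd (by rintro rfl; exact a1 (by simpa using hd)) (by linarith)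
    fin_cases i
    · exact a2 ((t1 _ _).trans (h3 j))
    · exact a3 ((t1 _ _).trans (h4 j))
  exact_mod_cast this

end Cfsg.Agent.S2524
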