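import Cfsg.Statements.S2525
import Cfsg.Agent.Lib.Lie.SSF4b
-- import your own Cfsg.Agent.* helpers here

set_option autoImplicit false
open Cfsg

namespace Cfsg.Agent.S2525

open CA.Chev Cfsg.Lie Matrix

variable {K : Type*} [Field K] [IsAlgClosed K] [CharP K 2] {q : ℕ}

/-- elements of prime order in a torus -/
def El (K : Type*) [Field K] (q : ℕ) (L : List (Fin 4)) (d : ℕ) (P : Prop) : Prop := ∀ r : ℕ, r.Prime → r ≠ 2 →
  orderOf (q : ZMod r) = d → ∃ c : Nd chevF4 → Kˣ, mact (wM (D := chevF4) (wd (D := chevF4) L)) c ^ q = c ∧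
    orderOf (tor c) = r ∧ (P → (47 : Fin 48) ∈ Psi c)

theorem el {L : List (Fin 4)} {S : ℕ → ℕ} {e d : ℕ} {f μ : ℕ → ℤ} {V : ℕ → ℕ → ℤ} {P : Prop}
    (h : subChk tabF4 (L.map Fin.val) id S e 1 f (fun _ => V) (fun _ => μ) 1 = true)
    (hP : P → (allLt e fun k => decide (sumLt tabF4.l (fun i => V k i * tabF4.wt 47 i) = 0)) = true)
    (hd : ∀ (r : ℕ) [Fact r.Prime], orderOf (q : ZMod r) = d → ((ev (e + 1) f q : ℤ) : ZMod r) = 0) : El K q L d P :=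
  fun r hr h2 e => by
  have := Fact.mk hr
  obtain ⟨c, h3, h4, h5⟩ := exists_elt (K := K) tab_F4 L (ι := id) (fun _ => rfl) h q (m := r) (fun e => h2
    ((Nat.prime_dvd_prime_iff_eq Nat.prime_two hr).1 ((CharP.cast_eq_zero_iff K 2 r).1 e)).symm)
    ((ZMod.intCast_zmod_eq_zero_iff_dvd _ r).1 (hd r e))
  exact ⟨c, h3, h4, fun h => h5 _ (hP h)⟩

theorem ela1 : El K q [1, 2, 0] 1 False :=
  el (S := getN [13, 37, 17, 31]) (e := 1) (f := getG 0 [-1, 1]) (μ := getG 0 [0, 0, 0, -1]) (V := (tb8 [0x81828180, 0x0, 0x81828180]))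
    (by decide +kernel) False.elim fun r _ h => by
      simp [ev_eq, Finset.sum_range_succ, getG_eq]; linear_combination root_of_ord.1 h
theorem ela2 : El K q [1, 2, 0] 2 True :=
  el (S := getN [13, 37, 17, 31]) (e := 1) (f := getG 0 [1, 1]) (μ := getG 0 [0, 0, 0, 1]) (V := (tb8 [0x800001, 0x0, 0x10080]))
    (by decide +kernel) (fun _ => by decide +kernel) fun r _ h => by
      simp [ev_eq, Finset.sum_range_succ, getG_eq]; linear_combination root_of_ord.2.1 h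
theorem ela6 : El K q [1, 2, 0] 6 True :=
  el (S := getN [13, 37, 17, 31]) (e := 2) (f := getG 0 [1, -1, 1]) (μ := getG 0 [1, 1, 0, 0]) (V := (tb8 [0x100, 0x20101, 0x0, 0x8000]))
    (by decide +kernel) (fun _ => by decide +kernel) fun r _ h => by
      simp [ev_eq, Finset.sum_range_succ, getG_eq]; linear_combination root_of_ord.2.2.2.2.1 h
theorem elb1 : El K q [1, 2, 1, 2, 0] 1 False :=
  el (S := getN [10, 35, 22, 32]) (e := 1) (f := getG 0 [-1, 1]) (μ := getG 0 [0, 0, 0, 1]) (V := (tb8 [0x2030201, 0x0, 0x2030201]))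
    (by decide +kernel) False.elim fun r _ h => by
      simp [ev_eq, Finset.sum_range_succ, getG_eq]; linear_combination root_of_ord.1 h
theorem elb2 : El K q [1, 2, 1, 2, 0] 2 True :=
  el (S := getN [10, 35, 22, 32]) (e := 1) (f := getG 0 [1, 1]) (μ := getG 0 [0, 1, 0, 0]) (V := (tb8 [0x800000, 0x0, 0x10000]))
    (by decide +kernel) (fun _ => by decide +kernel) fun r _ h => by
      simp [ev_eq, Finset.sum_range_succ, getG_eq]; linear_combination root_of_ord.2.1 h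
theorem elb4 : El K q [1, 2, 1, 2, 0] 4 True :=
  el (S := getN [10, 35, 22, 32]) (e := 2) (f := getG 0 [1, 0, 1]) (μ := getG 0 [-1, -1, 0, 0]) (V := (tb8 [0x808080, 0x10100, 0x0, 0x10101]))
    (by decide +kernel) (fun _ => by decide +kernel) fun r _ h => by
      simp [ev_eq, Finset.sum_range_succ, getG_eq]; linear_combination root_of_ord.2.2.2.1 h
theorem elc1 : El K q [3, 1, 0] 1 False :=
  el (S := getN [13, 33, 31, 23]) (e := 1) (f := getG 0 [-1, 1]) (μ := getG 0 [0, 0, -1, 0]) (V := (tb8 [0x82858381, 0x0, 0x82858381]))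
    (by decide +kernel) False.elim fun r _ h => by
      simp [ev_eq, Finset.sum_range_succ, getG_eq]; linear_combination root_of_ord.1 h
theorem elc2 : El K q [3, 1, 0] 2 False :=
  el (S := getN [13, 33, 31, 23]) (e := 1) (f := getG 0 [1, 1]) (μ := getG 0 [0, 0, 1, 0]) (V := (tb8 [0x80000000, 0x0, 0x1000000]))
    (by decide +kernel) False.elim fun r _ h => by
      simp [ev_eq, Finset.sum_range_succ, getG_eq]; linear_combination root_of_ord.2.1 h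
theorem elc3 : El K q [3, 1, 0] 3 False :=
  el (S := getN [13, 33, 31, 23]) (e := 2) (f := getG 0 [1, 1, 1]) (μ := getG 0 [1, 1, 1, 0]) (V := (tb8 [0x8000, 0x8080, 0x0, 0x100]))
    (by decide +kernel) False.elim fun r _ h => by
      simp [ev_eq, Finset.sum_range_succ, getG_eq]; linear_combination root_of_ord.2.2.1 h
theorem eld1 : El K q [1, 0] 1 True :=
  el (S := getN [13, 33, 30, 24]) (e := 1) (f := getG 0 [-1, 1]) (μ := getG 0 [0, 0, 2, 1]) (V := (tb8 [0x30201, 0x0, 0x30201]))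
    (by decide +kernel) (fun _ => by decide +kernel) fun r _ h => by
      simp [ev_eq, Finset.sum_range_succ, getG_eq]; linear_combination root_of_ord.1 h
theorem eld3 : El K q [1, 0] 3 True :=
  el (S := getN [13, 33, 30, 24]) (e := 2) (f := getG 0 [1, 1, 1]) (μ := getG 0 [2, 5, 4, 0]) (V := (tb8 [0x80, 0x100, 0x0, 0x1]))
    (by decide +kernel) (fun _ => by decide +kernel) fun r _ h => by
      simp [ev_eq, Finset.sum_range_succ, getG_eq]; linear_combination root_of_ord.2.2.1 h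
theorem ele8 : El K q [1, 3, 2, 0, 1, 2] 8 False :=
  el (S := getN [29, 33, 5, 45]) (e := 4) (f := getG 0 [1, 0, 0, 0, 1]) (μ := getG 0 [0, 1, 0, 0]) (V := (tb8 [0x800000, 0x1010101, 0x2030201, 0x1030201, 0x0, 0x10000]))
    (by decide +kernel) False.elim fun r _ h => by
      simp [ev_eq, Finset.sum_range_succ, getG_eq]; linear_combination root_of_ord.2.2.2.2.2.1 h
theorem elf12 : El K q [0, 1, 2, 3] 12 False :=
  el (S := getN [27, 35, 24, 5]) (e := 4) (f := getG 0 [1, 0, -1, 0, 1]) (μ := getG 0 [1, 2, 1, 0]) (V := (tb8 [0x80000000, 0x1010101, 0x1010100, 0x10000, 0x0, 0x1000000]))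
    (by decide +kernel) False.elim fun r _ h => by
      simp [ev_eq, Finset.sum_range_succ, getG_eq]; linear_combination root_of_ord.2.2.2.2.2.2 h

theorem els : (∀ d ∈ ({1, 2, 3, 4, 6} : Finset ℕ), ∃ L, wd (D := chevF4) L (47 : Fin 48) = (47 : Fin 48) ∧ El K q L d True) ∧
    ∀ E ∈ ([{1, 2, 4}, {1, 2, 3}, {1, 2, 6}, {8}, {12}] : List (Finset ℕ)), ∃ L, ∀ d ∈ E, ∃ P, El K q L d P := by
  have k : ∀ L : List (Fin 4), apW tabF4 (L.map Fin.val) 47 = 47 → wd (D := chevF4) L (47 : Fin 48) = (47 : Fin 48) :=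
    fun L h => Fin.ext ((apW_eq (D := chevF4) L (47 : Fin 48)).symm.trans (tab_F4 ▸ h))
  simp only [Finset.mem_insert, Finset.mem_singleton, forall_eq_or_imp, forall_eq, List.mem_cons, List.not_mem_nil, or_false]
  exact ⟨⟨⟨_, k _ (by decide +kernel), eld1⟩, ⟨_, k _ (by decide +kernel), ela2⟩, ⟨_, k _ (by decide +kernel), eld3⟩,
    ⟨_, k _ (by decide +kernel), elb4⟩, ⟨_, k _ (by decide +kernel), ela6⟩⟩, ⟨_, ⟨_, elb1⟩, ⟨_, elb2⟩, _, elb4⟩,
    ⟨_, ⟨_, elc1⟩, ⟨_, elc2⟩, _, elc3⟩, ⟨_, ⟨_, ela1⟩, ⟨_, ela2⟩, _, ela6⟩, ⟨_, _, ele8⟩, _, _, elf12⟩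

omit [IsAlgClosed K] [CharP K 2] in
theorem typ {w} (hw : w ∈ W chevF4) {c : Nd chevF4 → Kˣ} (hc : mact (wM w) c ^ q = c) (hq : 2 ∣ q ∧ ∀ r, r.Prime → r ∣ q → r = 2) :
    ∃ E ∈ ([{1, 2, 4}, {1, 2, 3}, {1, 2, 6}, {8}, {12}] : List (Finset ℕ)), ((wM w).det ≠ 1 → 1 ∈ E) ∧
      ∀ r, r.Prime → r ≠ 2 → r ∣ orderOf (tor c) → orderOf (q : ZMod r) ∈ E := by
  have k : ∀ {n : ℤ}, c ^ n = 1 → ∀ r, r ∣ orderOf (tor c) → (n : ZMod r) = 0 := fun h r hr =>
    (ZMod.intCast_zmod_eq_zero_iff_dvd _ r).2 ((Int.natCast_dvd_natCast.2 (hr.trans (orderOf_map_dvd _ _))).trans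
      (orderOf_dvd_iff_zpow_eq_one.2 h))
  have k' := fun r (hr : r.Prime) (h2 : r ≠ 2) => @ord_mem_of r ⟨hr⟩ q h2 fun e =>
    h2 (hq.2 r hr ((ZMod.natCast_eq_zero_iff q r).1 e))
  rcases exp_F4 (W_le_RA hw) hc with h | h | h | ⟨h | h, h'⟩
  · exact ⟨{1, 2, 4}, by simp, by simp, fun r a b c => (k' r a b).1 (by simpa using k h r c)⟩
  · exact ⟨{1, 2, 3}, by simp, by simp, fun r a b c => (k' r a b).2.1 (by have := k h r c; push_cast at this; exact this)⟩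
  · exact ⟨{1, 2, 6}, by simp, by simp, fun r a b c => (k' r a b).2.2.1 (by have := k h r c; push_cast at this; exact this)⟩
  · exact ⟨{8}, by simp, by simp [h'], fun r a b c => Finset.mem_singleton.2 ((k' r a b).2.2.2.1 (by simpa using k h r c))⟩
  · exact ⟨{12}, by simp, by simp [h'], fun r a b c => Finset.mem_singleton.2 ((k' r a b).2.2.2.2 (by simpa using k h r c))⟩

/-- Let F be a finite field with q = 2^n elements and G = F₄(F). For an odd prime r let e(r, q) be the multiplicative order of q modulo r. Two distinct primes r, s dividing the order of G are non-adjacent in the prime graph of G (no element of order rs) if and only if, up to swapping r and s, either r = 2 and e(s, q) ∈ {8, 12}, or r, s are both odd with k = e(r, q) < l = e(s, q) and one of: l ∈ {8, 12}; l = 6 and k ∈ {3, 4}; l = 4 and k = 3. -/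
theorem result {F : Type*} [Field F] [Fintype F] (n : ℕ) (hn : 1 ≤ n) (hF : Fintype.card F = 2 ^ n)
    (r s : ℕ) (hr : r.Prime) (hs : s.Prime) (hrs : r ≠ s) (hrG : r ∣ Nat.card ↥(Cfsg.Lie.chevF4.group F)) (hsG : s ∣ Nat.card ↥(Cfsg.Lie.chevF4.group F)) :
    (¬ ∃ x : ↥(Cfsg.Lie.chevF4.group F), orderOf x = r * s) ↔
      ((r = 2 ∧ orderOf ((Fintype.card F : ℕ) : ZMod s) ∈ ({8, 12} : Finset ℕ)) ∨ (s = 2 ∧ orderOf ((Fintype.card F : ℕ) : ZMod r) ∈ ({8, 12} : Finset ℕ)) ∨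
       (r ≠ 2 ∧ s ≠ 2 ∧
         ((orderOf ((Fintype.card F : ℕ) : ZMod r) < orderOf ((Fintype.card F : ℕ) : ZMod s) ∧ (orderOf ((Fintype.card F : ℕ) : ZMod s) ∈ ({8, 12} : Finset ℕ) ∨ (orderOf ((Fintype.card F : ℕ) : ZMod s) = 6 ∧ orderOf ((Fintype.card F : ℕ) : ZMod r) ∈ ({3, 4} : Finset ℕ)) ∨ (orderOf ((Fintype.card F : ℕ) : ZMod s) = 4 ∧ orderOf ((Fintype.card F : ℕ) : ZMod r) = 3))) ∨
          (orderOf ((Fintype.card F : ℕ) : ZMod s) < orderOf ((Fintype.card F : ℕ) : ZMod r) ∧ (orderOf ((Fintype.card F : ℕ) : ZMod r) ∈ ({8, 12} : Finset ℕ) ∨ (orderOf ((Fintype.card F : ℕ) : ZMod r) = 6 ∧ orderOf ((Fintype.card F : ℕ) : ZMod s) ∈ ({3, 4} : Finset ℕ)) ∨ (orderOf ((Fintype.card F : ℕ) : ZMod r) = 4 ∧ orderOf ((Fintype.card F : ℕ) : ZMod s) = 3)))))) := by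
  have := charP_of_card_eq_prime_pow hF
  obtain ⟨τ, Φ, h1, h2, h3, -, -⟩ := form_untw (p := 2) (D := chevF4) (by simp) F
  set q := Fintype.card F
  have hq : 2 ∣ q ∧ ∀ r, r.Prime → r ∣ q → r = 2 := ⟨hF ▸ dvd_pow_self 2 (by omega), fun r a b =>
    (Nat.prime_dvd_prime_iff_eq a Nat.prime_two).1 (a.dvd_of_dvd_pow (hF ▸ b))⟩
  have hG : ∀ r, r.Prime → r ≠ 2 → r ∣ Nat.card (chevF4.group F) →
      orderOf (q : ZMod r) ∈ ({1, 2, 3, 4, 6, 8, 12} : Finset ℕ) := fun r a b c => by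
    have k : ∀ n, r ∣ q ^ n - 1 → 0 < n → orderOf (q : ZMod r) ∈ n.divisors := fun n h hn =>
      Nat.mem_divisors.2 ⟨orderOf_dvd_of_pow_eq_one (by
        simpa [Nat.one_le_pow n q Fintype.card_pos, sub_eq_zero] using (ZMod.natCast_eq_zero_iff _ r).2 h), hn.ne'⟩
    rw [← one_mul (Nat.card _), card_group_F4, Nat.card_eq_fintype_card] at c
    simp only [a.dvd_mul] at c
    rcases c with c | ((c | c) | c) | c
    · exact (b (hq.2 r a (a.dvd_of_dvd_pow c))).elim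
    all_goals refine Finset.mem_of_subset ?_ (k _ c (by omega)); decide
  have two : ∀ s, s.Prime → s ≠ 2 → s ∣ Nat.card (chevF4.group F) →
      ((¬ ∃ x : chevF4.group F, orderOf x = 2 * s) ↔ orderOf (q : ZMod s) ∈ ({8, 12} : Finset ℕ)) := fun s a b c => by
    refine ⟨fun h => ?_, fun h ⟨x, hx⟩ => ?_⟩
    · by_contra h'
      obtain ⟨L, h4, h5⟩ := (els (K := AlgebraicClosure F) (q := q)).1 _
        ((by decide : ∀ d ∈ ({1, 2, 3, 4, 6, 8, 12} : Finset ℕ), d ∉ ({8, 12} : Finset ℕ) → _) _ (hG s a b c) h')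
      obtain ⟨c, h6, h7, h8⟩ := h5 s a b rfl
      obtain ⟨x, hx⟩ := Φ.ord_mixed (wd_mem L) ((h3 _ _).2 h6) (r := (47 : Fin 48)) (show 24 ≤ 47 by decide) (h8 trivial)
        (by rw [h2]; exact h4) Fintype.one_lt_card (h1 _)
      exact h ⟨x, by rw [hx, h7, ((Nat.coprime_primes a Nat.prime_two).2 b).lcm_eq_mul, mul_comm]⟩
    obtain ⟨w, hw, c, hc, v, -, e, h4, ⟨k, h5⟩, h6⟩ := Φ.ord_typ x
    obtain ⟨t, -, ht⟩ := h6 (by
      rintro rfl
      rw [orderOf_one, Nat.lcm_one_right, hx] at e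
      simpa using h4.symm.eq_one_of_dvd (e ▸ dvd_mul_right 2 s))
    have h7 : s ∣ orderOf (tor c) := (a.dvd_lcm.1 (e ▸ hx ▸ dvd_mul_left s 2)).resolve_right fun h =>
      b ((Nat.prime_dvd_prime_iff_eq a Nat.prime_two).1 (a.dvd_of_dvd_pow (h5 ▸ h)))
    have key : ∀ w ∈ W chevF4, c ∈ τ.TW w → (wM w).det = 1 := fun w hw hc => by
      by_contra h8
      obtain ⟨E, h9, h10, h11⟩ := typ hw ((h3 _ _).1 hc) hq
      exact (by decide : ∀ E ∈ ([{1, 2, 4}, {1, 2, 3}, {1, 2, 6}, {8}, {12}] : List (Finset ℕ)), 1 ∈ E →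
        ∀ d ∈ ({8, 12} : Finset ℕ), d ∉ E) E h9 (h10 h8) _ h (h11 s a b h7)
    have := key _ (mul_mem (refl_mem t) hw) (τ.TW_mul (refl_mem_RA t) (mact_refl ht) hc)
    rw [wM_mul (refl_mem_RA t), det_mul, key w hw hc, det_wM_refl] at this
    omega
  by_cases r2 : r = 2
  · subst r2; rw [two s hs hrs.symm hsG]; simp [hrs.symm]
  by_cases s2 : s = 2
  · subst s2; rw [mul_comm, two r hr hrs hrG]; simp [hrs]
  have : (∃ x : chevF4.group F, orderOf x = r * s) ↔ ∃ E ∈ ([{1, 2, 4}, {1, 2, 3}, {1, 2, 6}, {8}, {12}] : List (Finset ℕ)),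
      orderOf (q : ZMod r) ∈ E ∧ orderOf (q : ZMod s) ∈ E := by
    refine ⟨fun ⟨x, hx⟩ => ?_, fun ⟨E, h4, h5, h6⟩ => ?_⟩
    · obtain ⟨w, hw, c, hc, v, -, e, -, ⟨k, h5⟩, -⟩ := Φ.ord_typ x
      obtain ⟨E, h9, -, h11⟩ := typ hw ((h3 _ _).1 hc) hq
      have h7 : ∀ s, s.Prime → s ≠ 2 → s ∣ orderOf x → s ∣ orderOf (tor c) := fun s a b h =>
        (a.dvd_lcm.1 (e ▸ h)).resolve_right fun h =>
          b ((Nat.prime_dvd_prime_iff_eq a Nat.prime_two).1 (a.dvd_of_dvd_pow (h5 ▸ h)))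
      exact ⟨E, h9, h11 r hr r2 (h7 r hr r2 (hx ▸ dvd_mul_right r s)), h11 s hs s2 (h7 s hs s2 (hx ▸ dvd_mul_left s r))⟩
    obtain ⟨L, h⟩ := (els (K := AlgebraicClosure F) (q := q)).2 E h4
    obtain ⟨_, h7⟩ := h _ h5
    obtain ⟨_, h8⟩ := h _ h6
    obtain ⟨c, a1, a2, -⟩ := h7 r hr r2 rfl
    obtain ⟨d, b1, b2, -⟩ := h8 s hs s2 rfl
    obtain ⟨x, hx⟩ := Φ.ord_ss (wd_mem L) (c := c * d) ((τ.TW _).mul_mem ((h3 _ c).2 a1) ((h3 _ d).2 b1))
    exact ⟨x, by rw [hx, map_mul, (show Commute (tor c) (tor d) from mul_comm _ _).orderOf_mul_eq_mul_orderOf_of_coprime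
      (by rw [a2, b2]; exact (Nat.coprime_primes hr hs).2 hrs), a2, b2]⟩
  rw [this]
  simp only [r2, s2, false_and, false_or, ne_eq, not_false_eq_true, true_and]
  exact (by decide +kernel : ∀ k ∈ ({1, 2, 3, 4, 6, 8, 12} : Finset ℕ), ∀ l ∈ ({1, 2, 3, 4, 6, 8, 12} : Finset ℕ),
    (¬ ∃ E ∈ ([{1, 2, 4}, {1, 2, 3}, {1, 2, 6}, {8}, {12}] : List (Finset ℕ)), k ∈ E ∧ l ∈ E) ↔
    (k < l ∧ (l ∈ ({8, 12} : Finset ℕ) ∨ l = 6 ∧ k ∈ ({3, 4} : Finset ℕ) ∨ l = 4 ∧ k = 3) ∨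
    l < k ∧ (k ∈ ({8, 12} : Finset ℕ) ∨ k = 6 ∧ l ∈ ({3, 4} : Finset ℕ) ∨ k = 4 ∧ l = 3))) _ (hG r hr r2 hrG) _ (hG s hs s2 hsG)

end Cfsg.Agent.S2525
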