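import Cfsg.Statements.S2558
import Cfsg.Agent.Lib.Lin.LayCnt2

set_option autoImplicit false
open Cfsg

namespace Cfsg.Agent.S2558

open CA.CForm CA.CForm.Form CA.Rcf Module Polynomial in
/-- The number of conjugacy classes of the full orthogonal groups O⁺(2n,q) and O⁻(2n,q), q odd, 2n ≥ 4: for F a finite field of odd order q and n ≥ 2, the number k of conjugacy classes of the isometry group of the hyperbolic quadratic form Σ xᵢyᵢ on F^{2n}, and likewise of the elliptic form Σ xᵢyᵢ + (z₁² + a z₁z₂ + b z₂²) with anisotropic binary part, satisfies q^n/2 ≤ k ≤ 9.5·q^n. -/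
theorem result {F : Type*} [Field F] [Fintype F] (hodd : Odd (Fintype.card F)) (n : ℕ) (hn : 2 ≤ n) (a b : F) (hab : ∀ z₁ z₂ : F, z₁ ^ 2 + a * z₁ * z₂ + b * z₂ ^ 2 = 0 → z₁ = 0 ∧ z₂ = 0) :
    (Fintype.card F ^ n ≤ 2 * Nat.card (ConjClasses ↥(Cfsg.isometryGroup F (Cfsg.quadFormPlus n F))) ∧
      2 * Nat.card (ConjClasses ↥(Cfsg.isometryGroup F (Cfsg.quadFormPlus n F))) ≤ 19 * Fintype.card F ^ n) ∧
    (Fintype.card F ^ n ≤ 2 * Nat.card (ConjClasses ↥(Cfsg.isometryGroup F (Cfsg.quadFormMinus (n - 1) F a b))) ∧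
      2 * Nat.card (ConjClasses ↥(Cfsg.isometryGroup F (Cfsg.quadFormMinus (n - 1) F a b))) ≤ 19 * Fintype.card F ^ n) := by
  have h2 := two_ne_zero_iff_odd.2 hodd
  have h3 : finrank F ((Fin (n - 1) ⊕ Fin (n - 1)) ⊕ Fin 2 → F) = 2 * n := by
    rw [finrank_minus]; omega
  rw [← Nat.card_eq_fintype_card, ← plusForm_Q, ← minusForm_Q, card_classes_congr (orthEquiv _),
    card_classes_congr (orthEquiv _)]
  exact ⟨⟨(plusForm_nondeg F n).orth_le_card_classes h2 (finrank_plus n) hn,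
    (plusForm_nondeg F n).orth_even_card_classes_le h2 (three_le_card hodd) (finrank_plus n)⟩,
    (minusForm_nondeg _ hab).orth_le_card_classes h2 h3 hn,
    (minusForm_nondeg _ hab).orth_even_card_classes_le h2 (three_le_card hodd) h3⟩

end Cfsg.Agent.S2558
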