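import Cfsg.Statements.S2560
import Cfsg.Agent.Lib.Lin.OmegaCnt
import Cfsg.Agent.Lib.Lin.CFormOBr

set_option autoImplicit false
open Cfsg

namespace Cfsg.Agent.S2560

open CA.CForm CA.CForm.Form CA.Rcf Module Polynomial in
/-- The number of conjugacy classes of Ω(2n+1,q), q odd, n ≥ 2: for F a finite field of odd order q, the number k of conjugacy classes of the commutator subgroup of the isometry group of the quadratic form x₀² + Σ xᵢyᵢ on F^{2n+1} satisfies q^n/2 ≤ k ≤ 7.3·q^n. -/
theorem result {F : Type*} [Field F] [Fintype F] (hodd : Odd (Fintype.card F)) (n : ℕ) (hn : 2 ≤ n) :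
    Fintype.card F ^ n ≤ 2 * Nat.card (ConjClasses ↥(Cfsg.Omega F (Cfsg.quadFormOdd n F))) ∧
      10 * Nat.card (ConjClasses ↥(Cfsg.Omega F (Cfsg.quadFormOdd n F))) ≤ 73 * Fintype.card F ^ n := by
  have h2 := two_ne_zero_iff_odd.2 hodd
  obtain ⟨n, rfl⟩ := Nat.exists_eq_add_of_le' (show 1 ≤ n by omega)
  have h3 := three_le_card hodd
  rw [← Nat.card_eq_fintype_card] at hodd ⊢
  rw [← oddForm_Q, card_classes_congr (omegaEquiv _)]
  exact ⟨(oddForm_nondeg h2 _).omega_le_card_classes h2 (finrank_odd _),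
    (oddForm_nondeg h2 _).omega_card_classes_le h2 (by obtain ⟨k, hk⟩ := hodd; omega)
      (finrank_odd _) (by omega)⟩

end Cfsg.Agent.S2560
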