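import Cfsg.Statements.S2603
import Cfsg.Agent.Lib.Lin.AutForm9

set_option autoImplicit false
open Cfsg

namespace Cfsg.Agent.S2603

open CA.AutForm CA.CForm CA.AutGam CA.AutFld CA.AutOut SemidirectProduct

/-- Structure of the outer automorphism group of PSU_n(q), n ≥ 3, (n, q) ≠ (3, 2), q = p^f, realised over the field with q² elements: it has a normal cyclic subgroup of order gcd(n, q + 1) (diagonal automorphisms) with cyclic quotient of order 2f (generated by the Frobenius field automorphism of the field with q² elements, whose f-th power is the graph automorphism). -/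
theorem result {K : Type*} [Field K] [Fintype K] {p f q n : ℕ} [Fact p.Prime] (hf : 1 ≤ f) (hq : q = p ^ f) (hK : Fintype.card K = q ^ 2) (hn : 3 ≤ n) (h32 : ¬ (n = 3 ∧ q = 2)) : ∃ φ : Cfsg.Out (Cfsg.PSU n K q) →* Multiplicative (ZMod (2 * f)), Function.Surjective φ ∧ IsCyclic φ.ker ∧ Nat.card φ.ker = Nat.gcd n (q + 1) := by
  have h := embSU hK hn h32
  obtain ⟨χ, h1, h2, -⟩ := h.exists_chi_top (h.Ph_surjective (genSU hK))
    (fun σ => ⟨1, 1, inr_mem_SU hK σ⟩)
  obtain ⟨e⟩ := nonempty_ringAut_zmod (F := K) (p := p) (f := 2 * f)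
    (by rw [hK, hq, ← pow_mul, mul_comm])
  obtain ⟨ρ, h3, h4, -⟩ := exists_chi_SU hK (show 1 ≤ n by omega)
  obtain ⟨χ', h5, h6⟩ := h.exists_hom_im h.range_le (GU_le hK) ρ h3 h4
  rw [← h.inn_eq_im] at h6
  obtain ⟨φ, h7, ⟨e'⟩⟩ := exists_quot_hom _ _ (e.toMonoidHom.comp χ) (e.surjective.comp h1)
    (by rw [im_GU hK hn h32, ← h2]; exact MonoidHom.ker_mulEquiv_comp χ e)
    (by rw [im_GU hK hn h32, h.inn_eq_im]; exact h.im_mono h.range_le) χ' h5 h6
  haveI : IsCyclic (UN K q ⧸ (powMonoidHom n : UN K q →* UN K q).range) :=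
    isCyclic_of_surjective _ (QuotientGroup.mk'_surjective _)
  exact ⟨φ, h7, isCyclic_of_surjective _ e'.symm.surjective,
    by rw [Nat.card_congr e'.toEquiv, card_quot_UN hK]⟩

end Cfsg.Agent.S2603
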