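import Cfsg.Statements.S2648
import Cfsg.Agent.Lib.Lin.H13Wr

set_option autoImplicit false
open Cfsg

namespace Cfsg.Agent.S2648

open CA.H13Wr CA.H10Syl CA.H10Dl CA.CForm Subgroup
open scoped MatrixGroups

/-- Let q be odd, F a field with q elements and n ≥ 1. A Sylow 2-subgroup R of the symplectic group Sp_{2n}(F) has derived length exactly k + 1, where 2^k ≤ 2n < 2^{k+1}: the (k+1)-st term of its derived series is trivial and the k-th is not. -/
theorem result {F : Type*} [Field F] [Fintype F] [DecidableEq F] (q : ℕ) (hF : Fintype.card F = q) (hq : Odd q) (n : ℕ) (hn : 1 ≤ n) (R : Sylow 2 ↥(Matrix.symplecticGroup (Fin n) F)) : derivedSeries ↥(R : Subgroup ↥(Matrix.symplecticGroup (Fin n) F)) (Nat.log 2 (2 * n) + 1) = ⊥ ∧ derivedSeries ↥(R : Subgroup ↥(Matrix.symplecticGroup (Fin n) F)) (Nat.log 2 (2 * n)) ≠ ⊥ := by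
  have h2 : (2 : F) ≠ 0 := two_ne_zero_iff_odd.2 (hF ▸ hq)
  constructor
  · let ρ : Representation F R (Fin n ⊕ Fin n → F) :=
      (Matrix.toLinAlgEquiv' (R := F)).toMulEquiv.toMonoidHom.comp ((Submonoid.subtype _).comp (Subgroup.subtype _))
    obtain ⟨f, hf⟩ := embed ρ ((Matrix.toLinAlgEquiv' (R := F)).injective.comp
      (Subtype.val_injective.comp Subtype.val_injective)) (n := 2 * n) (finrank_plus n).le
    have := cop (K := AlgebraicClosure F) (p := 2) (by
      rw [← map_natCast (algebraMap F (AlgebraicClosure F)), map_ne_zero]; exact h2) (2 * n + 1)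
      (Nat.log 2 (2 * n) + 1) R _ (mrep (algebraMap F _) f) R.2 (by simp)
      (by simpa using Nat.lt_pow_succ_log_self one_lt_two (2 * n))
    rwa [(MonoidHom.ker_eq_bot_iff _).2 (mrep_inj _ hf), le_bot_iff] at this
  · obtain ⟨⟨W⟩, -⟩ := exists_sp h2 n
    obtain ⟨p, hc⟩ := CharP.exists F
    have := Fact.mk (CharP.char_is_prime F p)
    obtain ⟨φ, hφ⟩ := CA.SL2Sylow2.exists_quaternionHom (F := F) p (by
      rintro rfl; exact h2 (CharP.cast_eq_zero F 2))
    rw [mul_comm, Nat.log_mul_base one_lt_two (by omega), add_comm]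
    refine der_ne W (IsPGroup.of_card (n := 3) (by simp [QuaternionGroup.card])) φ hφ (fun e => ?_)
      (by simpa using Nat.pow_log_le_self 2 (by omega)) R
    have := mem_bot.1 (e.le (commutator_mem_commutator (mem_top (QuaternionGroup.a 1)) (mem_top (QuaternionGroup.xa 0))))
    exact absurd this (by decide)

end Cfsg.Agent.S2648
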