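import Cfsg.Statements.S2686
import Cfsg.Agent.Lib.Lin.AutGr2

set_option autoImplicit false
open Cfsg

namespace Cfsg.Agent.S2686

open CA.AutForm CA.CForm CA.AutGam CA.AutFld CA.AutOut CA.AutLang CA.AutPhi CA.AutPSL SemidirectProduct

/-- A criterion for the failure of local balance in almost simple groups with linear socle. Let F be a finite field of characteristic r and K = PSL_n(F) (n ≥ 2) simple. Let A be a group of automorphisms of K containing all inner automorphisms (an almost simple group with socle K), and β ∈ A an automorphism of prime order p ≠ r that is not inner-diagonal (not induced by conjugation by an invertible matrix). Then the largest normal subgroup of C_A(β) of order prime to p is nontrivial if and only if β is the composite of an inner-diagonal automorphism with the automorphism induced by a field automorphism applied entrywise (β is of field type) and p does not divide the number of fixed points of β on K. -/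
theorem result
    (F : Type*) [Field F] [Fintype F] (r : ℕ) [Fact r.Prime] [CharP F r] (n : ℕ) (hn : 2 ≤ n)
    (hK : IsSimpleGroup (Matrix.ProjectiveSpecialLinearGroup (Fin n) F))
    (𝒢 : Subgroup (MulAut (Matrix.ProjectiveSpecialLinearGroup (Fin n) F))) (hinn : ∀ k : Matrix.ProjectiveSpecialLinearGroup (Fin n) F, MulAut.conj k ∈ 𝒢)
    (p : ℕ) [Fact p.Prime] (hpr : p ≠ r) (β : MulAut (Matrix.ProjectiveSpecialLinearGroup (Fin n) F)) (hβ : β ∈ 𝒢) (hord : orderOf β = p)
    (hnot : ¬ Cfsg.IsInnerDiagonalAutPSL β) :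
    Cfsg.pPrimeCore p ↥(𝒢 ⊓ Subgroup.centralizer {β}) ≠ ⊥ ↔
      ((∃ γ φ : MulAut (Matrix.ProjectiveSpecialLinearGroup (Fin n) F), Cfsg.IsInnerDiagonalAutPSL γ ∧ Cfsg.IsFieldAutPSL φ ∧ β = φ.trans γ) ∧
        Nat.Coprime p (Nat.card ↥(MonoidHom.eqLocus β.toMonoidHom (MonoidHom.id (Matrix.ProjectiveSpecialLinearGroup (Fin n) F))))) := by
  have hr : p ≠ ringChar F := by rwa [ringChar.eq F r]
  have hinj : Function.Injective (MulAut.conj : Matrix.ProjectiveSpecialLinearGroup (Fin n) F →* _) := by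
    rw [← MonoidHom.ker_eq_bot_iff]
    refine (MonoidHom.normal_ker _).eq_bot_or_eq_top.resolve_right fun H => hnot ?_
    refine (innerDiag_iff _).2 ⟨1, ?_⟩
    have h1 : ∀ g, Ph (inl (Matrix.SpecialLinearGroup.toGL g) : GT n F) = 1 := fun g => by
      have h2 : Ph (inl (Matrix.SpecialLinearGroup.toGL g) : GT n F) ∈ Cfsg.Inn _ :=
        inn_of_det hn (Units.ext (by simp))
      obtain ⟨k, hk⟩ := h2
      exact hk ▸ (H ▸ Subgroup.mem_top k : k ∈ MonoidHom.ker _)
    haveI : Subsingleton (Matrix.ProjectiveSpecialLinearGroup (Fin n) F) := ⟨fun a b => by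
      have h2 : ∀ a : Matrix.ProjectiveSpecialLinearGroup (Fin n) F, a = 1 := fun a => by
        obtain ⟨g, rfl⟩ := QuotientGroup.mk_surjective a
        exact (QuotientGroup.eq_one_iff _).2 (mem_center_of_j _ Matrix.SpecialLinearGroup.toGL_injective
          ((Ph_inl_eq_one hn).1 (h1 g)))
      rw [h2 a, h2 b]⟩
    exact MulEquiv.ext fun _ => Subsingleton.elim _ _
  obtain ⟨⟨a, σ, ε⟩, rfl, hx⟩ := exists_Ph hn β
  have hx' : ε = 1 ∨ 3 ≤ n := by
    by_cases h : n = 2
    · exact .inl (hx h)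
    · exact .inr (by omega)
  have h1 := right_pow hn (y := ⟨a, σ, ε⟩) hx' (hord ▸ pow_orderOf_eq_one _)
  refine bal_iff hinj hinn hord fun O hO hne => ?_
  rcases c2_cases ε with rfl | rfl
  swap
  · obtain rfl : p = 2 := by
      by_contra h2
      obtain ⟨m, rfl⟩ := (Fact.out : p.Prime).odd_of_ne_two h2
      have h3 := congrArg Prod.snd h1
      rw [Prod.pow_snd, pow_succ, pow_mul, sq, c2_mul_c2, one_pow, one_mul] at h3
      exact c2_ne_one h3
    exact absurd (bal_graph (hx'.resolve_left c2_ne_one) (ringChar_ne_two_iff.1 hr.symm)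
      (orderOf_dvd_iff_pow_eq_one.1 hord.dvd) hO) hne
  have hσ : orderOf σ = p := orderOf_eq_prime (congrArg Prod.fst h1) fun h => hnot (by
    subst h; exact (innerDiag_iff _).2 ⟨a, rfl⟩)
  refine ⟨⟨Ph (inl a), Ph (inr (σ, 1)), (innerDiag_iff _).2 ⟨a, rfl⟩, ⟨σ, (stdField_iff σ _).2 rfl⟩, Ph_mk _ _⟩,
    fun γ hγ hc ho => hne ?_⟩
  obtain ⟨δ, -, hδ⟩ := lang_field hn σ (Ph (inl a)) (inndiag_eq (F := F) (n := n) ▸ mem_inndiag_iff.2 ⟨a, rfl⟩)
    (by rw [← Ph_mk, hσ, ← hord, pow_orderOf_eq_one])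
  have h2 := hO.conj δ⁻¹
  rw [Ph_mk, hδ] at h2 hc
  rw [show δ⁻¹ * (δ * Ph (inr (σ, 1) : GT n F) * δ⁻¹) * δ⁻¹⁻¹ = Ph (inr (σ, 1)) by group] at h2
  have h3 : Commute (Ph (inr (σ, 1) : GT n F)) (δ⁻¹ * γ * δ⁻¹⁻¹) := by
    simpa [mul_assoc] using hc.map (MulAut.conj δ⁻¹)
  have h4 : δ⁻¹ * γ * δ⁻¹⁻¹ ∈ Cfsg.Inn _ := Subgroup.Normal.conj_mem inferInstance _ hγ _
  have h5 : orderOf (δ⁻¹ * γ * δ⁻¹⁻¹) = p := ho ▸ MulEquiv.orderOf_eq (MulAut.conj δ⁻¹) γ
  refine (Subgroup.map_eq_bot_iff_of_injective (f := (MulAut.conj δ⁻¹).toMonoidHom) _ (MulAut.conj δ⁻¹).injective).1 ?_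
  by_cases h : n = 2
  · subst h; exact bal_fld_two hr hσ h2 h4 h3 h5
  · exact bal_fld_three (by omega) (fixF_range σ) hσ h2 h4 h3 h5

end Cfsg.Agent.S2686
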