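import Cfsg.Statements.S2687
import Cfsg.Agent.Lib.Lin.AutGr1
import Cfsg.Agent.S0282

set_option autoImplicit false
open Cfsg

namespace Cfsg.Agent.S2687

open CA.AutForm CA.CForm CA.AutGam CA.AutFld CA.AutOut CA.AutLang CA.AutPhi SemidirectProduct

/-- A criterion for the failure of local balance in almost simple groups with unitary socle. Let F be a finite field of characteristic r with q² elements and K = PSU_n(q) (n ≥ 3, the central quotient of the determinant-one isometries of the standard Hermitian form) simple. Let A be a group of automorphisms of K containing all inner automorphisms, and β ∈ A an automorphism of prime order p ≠ r that is not inner-diagonal (not induced by conjugation by a matrix of the general unitary group). Then the largest normal subgroup of C_A(β) of order prime to p is nontrivial if and only if β is the composite of an inner-diagonal automorphism with the automorphism induced by a field automorphism of F applied entrywise and p does not divide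 the number of fixed points of β on K. -/
theorem result
    (F : Type*) [Field F] [Fintype F] (r : ℕ) [Fact r.Prime] [CharP F r] (q : ℕ) (hF : Fintype.card F = q ^ 2)
    (n : ℕ) (hn : 3 ≤ n) (hK : IsSimpleGroup (Cfsg.PSU n F q))
    (𝒢 : Subgroup (MulAut (Cfsg.PSU n F q))) (hinn : ∀ k : Cfsg.PSU n F q, MulAut.conj k ∈ 𝒢)
    (p : ℕ) [Fact p.Prime] (hpr : p ≠ r) (β : MulAut (Cfsg.PSU n F q)) (hβ : β ∈ 𝒢) (hord : orderOf β = p)
    (hnot : ¬ Cfsg.IsInnerDiagonalAutPSU β) :
    Cfsg.pPrimeCore p ↥(𝒢 ⊓ Subgroup.centralizer {β}) ≠ ⊥ ↔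
      ((∃ γ φ : MulAut (Cfsg.PSU n F q), Cfsg.IsInnerDiagonalAutPSU γ ∧ (∃ σ : F ≃+* F, Cfsg.IsFieldAutPSUOf σ φ) ∧ β = φ.trans γ) ∧
        Nat.Coprime p (Nat.card ↥(MonoidHom.eqLocus β.toMonoidHom (MonoidHom.id (Cfsg.PSU n F q))))) := by
  have hs : ¬ (n = 3 ∧ q = 2) := by
    rintro ⟨rfl, rfl⟩
    obtain ⟨h1, h2⟩ := Cfsg.Agent.S0282.result (F := F) hF
    have h3 := IsSimpleGroup.comm_iff_isSolvable.2 h2
    letI : CommGroup (Cfsg.PSU 3 F 2) := { (inferInstance : Group (Cfsg.PSU 3 F 2)) with mul_comm := h3 }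
    have h4 := IsSimpleGroup.prime_card (α := Cfsg.PSU 3 F 2)
    rw [h1] at h4
    norm_num at h4
  have E := embSU hF hn hs
  haveI := E.finite_K
  haveI : Nonempty (Fin n) := ⟨⟨0, by omega⟩⟩
  have hr : p ≠ ringChar F := by rwa [ringChar.eq F r]
  have hG := E.Ph_surjective (genSU hF)
  obtain ⟨g, hg, σ, rfl⟩ := exists_Ph_SU hF hn hs β
  have hy : σ ≠ 1 := fun h => hnot (((inndiagSU hF hn hs).1 _).mpr
    ((E.Ph_mem_im (GU_le hF) _).mpr ⟨h, Subgroup.mem_sup_left hg⟩))
  refine bal_iff E.conj_injective hinn hord fun O hO hne => ⟨⟨E.Ph ⟨inl g, GU_le hF hg⟩, E.Ph ⟨inr σ, 1, inr_mem_SU hF σ⟩,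
    ((inndiagSU hF hn hs).1 _).mpr ((E.mem_im (GU_le hF)).mpr ⟨g, hg, rfl⟩), ⟨σ, (E.ind_inr _ _).mpr rfl⟩, ?_⟩, ?_⟩
  · show _ = E.Ph _ * E.Ph _
    rw [← map_mul]
    exact congrArg _ (Subtype.ext (mk_eq_inl_mul_inr _ _))
  by_cases h2 : p = 2
  · subst h2
    exact absurd (E.bal_herm_two (conj_ne_id hF) hG (herm_Eich_eq hF E.nice.nondeg (by simp; omega))
      (ringChar_ne_two_iff.1 hr.symm) hy hord hO) hne
  · exact E.bal_herm (conj_ne_id hF) (.inl hG) hr h2 hy hord hO hne

end Cfsg.Agent.S2687
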