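import Cfsg.Statements.S2730
import Cfsg.Agent.Lib.Lin.AutBal2
import Cfsg.Agent.Lib.Lin.AutSp4

set_option autoImplicit false
open Cfsg

namespace Cfsg.Agent.S2730

open CA.AutForm CA.CForm CA.AutGam CA.AutFld CA.AutOut CA.AutLang CA.AutPhi SemidirectProduct

/-- A criterion for the failure of local balance in almost simple groups whose socle is a projective symplectic group PSp_{2m}(F) (m ≥ 2, (2m, |F|) ≠ (4, 2)). Let F be a finite field of characteristic r and K the (simple) group in question; let A be a group of automorphisms of K containing all inner automorphisms, and x ∈ A an automorphism of prime order p ≠ r that is not inner-diagonal (not induced by a conformal symplectic matrix). Then the largest normal subgroup of C_A(x) of order prime to p is nontrivial if and only if x is a field automorphism of K (conjugate under Aut(K) to a non-identity standard field automorphism) and p does not divide the number of fixed points of x on K. -/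
theorem result {F : Type*} [Field F] [Fintype F] {r : ℕ} [Fact r.Prime] [CharP F r] {m : ℕ} (hm : 2 ≤ m) (hs : m = 2 → 3 ≤ Fintype.card F) (hK : IsSimpleGroup (Cfsg.PSp m F)) (A : Subgroup (MulAut (Cfsg.PSp m F))) (hinn : ∀ k : Cfsg.PSp m F, MulAut.conj k ∈ A) {p : ℕ} [Fact p.Prime] (hpr : p ≠ r) (x : MulAut (Cfsg.PSp m F)) (hxA : x ∈ A) (hord : orderOf x = p) (hnot : ¬ Cfsg.IsInnerDiagonalAutPSp x) :
    Cfsg.pPrimeCore p ↥(A ⊓ Subgroup.centralizer {x}) ≠ ⊥ ↔ (Cfsg.IsFieldAutClassPSp x ∧ Nat.Coprime p (Nat.card ↥(MonoidHom.eqLocus x.toMonoidHom (MonoidHom.id (Cfsg.PSp m F))))) := by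
  have E := embSp (F := F) hm
  haveI := E.finite_K
  have hr : p ≠ ringChar F := by rwa [ringChar.eq F r]
  have hG : E.Exc := Or.inr ⟨1, by rw [card_ker_π_symp, pow_one], fun n hn => by
    rw [finrank_plus] at hn
    obtain ⟨j, rfl⟩ : ∃ j, n = j + 2 := ⟨n - 2, by omega⟩
    rw [Nat.choose_succ_succ' (j + 1) 1, Nat.choose_one_right]; omega⟩
  obtain ⟨y, rfl⟩ : x ∈ E.Ph.range := by
    by_cases h : 3 ≤ m ∨ (2 : F) ≠ 0
    · exact E.Ph_surjective (genSp h) x
    obtain rfl : m = 2 := by omega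
    have h2 : ringChar F = 2 := by
      by_contra h2
      exact h (Or.inr (ringChar_ne_two_iff.mp h2))
    by_contra h3
    exact h3 (mem_of_pow_mem (n := 2) (hord ▸ (coprime_two_pow (h2 ▸ hr) 1).symm) (by
      simpa [sq] using inv_mul_mem_Sp4 h3 (β' := x⁻¹) (by simpa using h3)))
  have hl := left_mem_Sim y (inr_mem_Sp _)
  have hy : y.1.right ≠ 1 := fun h => hnot (((inndiagSp hm).1 _).mpr
    ((E.Ph_mem_im le_rfl y).mpr ⟨h, Subgroup.mem_sup_left hl⟩))
  refine bal_iff E.conj_injective hinn hord fun O hO hne =>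
    ⟨?_, (E.bal_symp hG hr hy hord hO hne).2⟩
  have h1 : E.Ph ⟨inl y.1.left, hl⟩ * E.Ph ⟨_, inr_mem_Sp y.1.right⟩ = E.Ph y := by
    rw [← map_mul]; exact congrArg E.Ph (Subtype.ext (inl_left_mul_inr_right _))
  obtain ⟨a, -, ha⟩ := lang_Sp hm y.1.right _ ((E.mem_im le_rfl).mpr ⟨_, hl, rfl⟩)
    (by rw [h1, E.orderOf_right hy hord, ← hord, pow_orderOf_eq_one])
  exact ⟨a⁻¹, y.1.right, hy, (E.ind_inr (inr_mem_Sp _) _).mpr (by rw [← h1, ha]; group)⟩

end Cfsg.Agent.S2730
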