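import Cfsg.Statements.S2731
import Cfsg.Agent.Lib.Lin.AutBal2

set_option autoImplicit false
open Cfsg

namespace Cfsg.Agent.S2731

open CA.AutForm CA.CForm CA.AutGam CA.AutFld CA.AutOut CA.AutLang CA.AutPhi SemidirectProduct

/-- A criterion for the failure of local balance in almost simple groups whose socle is an odd-dimensional orthogonal group Ω_{2m+1}(F) (m ≥ 3, |F| odd; the form x₀² + Σ xᵢ yᵢ). Let F be a finite field of characteristic r and K the (simple) group in question; let A be a group of automorphisms of K containing all inner automorphisms, and x ∈ A an automorphism of prime order p ≠ r that is not inner-diagonal (not induced by a similarity of the form). Then the largest normal subgroup of C_A(x) of order prime to p is nontrivial if and only if x is a field automorphism of K (conjugate under Aut(K) to a non-identity standard field automorphism) and p does not divide the number of fixed points of x on K. -/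
theorem result {F : Type*} [Field F] [Fintype F] {r : ℕ} [Fact r.Prime] [CharP F r] (hodd : Odd (Fintype.card F)) {m : ℕ} (hm : 3 ≤ m) (hK : IsSimpleGroup (Cfsg.POmega F (Cfsg.quadFormOdd m F))) (A : Subgroup (MulAut (Cfsg.POmega F (Cfsg.quadFormOdd m F)))) (hinn : ∀ k : Cfsg.POmega F (Cfsg.quadFormOdd m F), MulAut.conj k ∈ A) {p : ℕ} [Fact p.Prime] (hpr : p ≠ r) (x : MulAut (Cfsg.POmega F (Cfsg.quadFormOdd m F))) (hxA : x ∈ A) (hord : orderOf x = p) (hnot : ¬ Cfsg.IsInnerDiagonalAutPOmegaOdd m x) :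
    Cfsg.pPrimeCore p ↥(A ⊓ Subgroup.centralizer {x}) ≠ ⊥ ↔ (Cfsg.IsFieldAutClassPOmega (Cfsg.quadFormOdd m F) x ∧ Nat.Coprime p (Nat.card ↥(MonoidHom.eqLocus x.toMonoidHom (MonoidHom.id (Cfsg.POmega F (Cfsg.quadFormOdd m F)))))) := by
  have h2 := two_ne_zero_iff_odd.mpr hodd
  have hm' : 2 ≤ m := by omega
  have E := embOdd h2 hm'
  haveI := E.finite_K
  have hr : p ≠ ringChar F := by rwa [ringChar.eq F r]
  have hs := E.Ph_surjective (genOdd h2)
  obtain ⟨y, rfl⟩ := hs x
  have hσ : inr y.1.right ∈ Gam (oddForm F m) := ⟨1, inr_mem_odd m _⟩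
  have hl := left_mem_Sim y hσ
  have hy : y.1.right ≠ 1 := fun h => hnot (((pgoAut_eq E).1 _).mpr
    ((E.Ph_mem_im le_rfl y).mpr ⟨h, Subgroup.mem_sup_left hl⟩))
  refine bal_iff E.conj_injective hinn hord fun O hO hne =>
    ⟨?_, (E.bal_orth (big_odd h2 hm') (Or.inl hs) hr hy hord hO hne).2⟩
  have h1 : E.Ph ⟨inl y.1.left, hl⟩ * E.Ph ⟨_, hσ⟩ = E.Ph y := by
    rw [← map_mul]; exact congrArg E.Ph (Subtype.ext (inl_left_mul_inr_right _))
  obtain ⟨a, -, ha⟩ := lang_odd h2 hm' y.1.right _ ((E.mem_im le_rfl).mpr ⟨_, hl, rfl⟩)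
    (by rw [h1, E.orderOf_right hy hord, ← hord, pow_orderOf_eq_one])
  exact ⟨a⁻¹, _, y.1.right, hy, (E.ind_inr hσ _).mpr rfl, by rw [← h1, ha]; group⟩

end Cfsg.Agent.S2731
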