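import Cfsg.Statements.S2733
import Cfsg.Agent.Lib.Lin.AutGr3

set_option autoImplicit false
open Cfsg

namespace Cfsg.Agent.S2733

open CA.AutForm CA.CForm CA.AutGam CA.AutFld CA.AutOut CA.AutLang CA.AutPhi SemidirectProduct

theorem aux {F F₀ : Type*} [Field F] [Fintype F] [Field F₀] [Finite F₀] {m : ℕ} (hm : 2 ≤ m) {a b : F} (hab : Aniso a b)
    {i : F₀ →+* F} {y : Gam (minusForm m a b)} (h1 : ∀ a, (∃ c, i c = a) ↔ y.1.right a = a) (hy : y.1.right ≠ 1)
    (ho : (embMinus hab hm).Ph y ^ orderOf y.1.right = 1) :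
    Cfsg.IsFieldAutClassPOmegaMinus m ((embMinus hab hm).Ph y) := by
  have E := embMinus hab hm
  have hf := bigE_minus hm hab
  haveI := E.nonempty
  have hi := not_isIndex_minus (m := m) hab
  have h0 := fun a => (h1 _).1 ⟨a, rfl⟩
  obtain ⟨f₀, c, h2⟩ := hf.exists_desc E h1 ho
  obtain ⟨l, hl⟩ := h2.ext
  obtain ⟨a₀, b₀, h3⟩ := exists_aniso (F := F₀)
  obtain ⟨g, hg⟩ := exists_ss_of_equivalent ((bigE_minus hm h3).equivalent (hl.tr.bigE hf)
    (iff_of_false (fun H => absurd (H.unique (minusForm_isIndex m h3)) (by omega)) fun H => hi (hl.tr.isIndex hf H)))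
  obtain ⟨⟨μ, h4⟩, d, h5⟩ := (h2.mul_right (kmap_orth _) h0 hg rfl).conj_of stdO (kmap_orth _)
    (desc_inr (ext_minus i a₀ b₀) y.1.right) rfl
  have h6 : Aniso (i a₀) (i b₀) := by_contra fun H => hi (h4.inv.trO.isIndex hf (isIndex_of_not_aniso m (by
    have := (map_ne_zero i).2 (disc_ne_zero_of_anisotropic h3)
    simpa [map_ofNat] using this) H))
  have E' := embMinus h6 hm
  obtain ⟨ψ, hψ⟩ := E.exists_equiv E' h4
  have hσ : inr y.1.right ∈ Gam (minusForm m (i a₀) (i b₀)) :=
    ⟨1, by simpa only [h0] using inr_mem_minus m (i a₀) (i b₀) y.1.right⟩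
  exact ⟨_, _, ψ, y.1.right, h6, hy, h0 _, h0 _, (E'.ind_inr hσ _).2 ((hψ y).trans
    ((congrArg E'.Ph (Subtype.ext h5.symm)).trans (E'.Ph_scalar_mul d ⟨_, hσ⟩)))⟩

/-- A criterion for the failure of local balance in almost simple groups whose socle is a minus-type orthogonal group PΩ⁻_{2m+2}(F) (m ≥ 3; the form Σ xᵢ yᵢ + z₁² + a z₁ z₂ + b z₂² with anisotropic binary part). Let F be a finite field of characteristic r and K the (simple) group in question; let A be a group of automorphisms of K containing all inner automorphisms, and x ∈ A an automorphism of prime order p ≠ r that is not inner-diagonal (not induced by a class-preserving similarity, classes read over a quadratic extension). Then the largest normal subgroup of C_A(x) of order prime to p is nontrivial if and only if x is a field automorphism of K (conjugate under Aut(K) to a non-identity standard field automorphism) and p does not divide the number of fixed points of x on K. -/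
theorem result {F : Type*} [Field F] [Fintype F] {r : ℕ} [Fact r.Prime] [CharP F r] {m : ℕ} (hm : 3 ≤ m) (a b : F) (hab : (∀ z₁ z₂ : F, z₁ ^ 2 + a * z₁ * z₂ + b * z₂ ^ 2 = 0 → z₁ = 0 ∧ z₂ = 0)) (hK : IsSimpleGroup (Cfsg.POmega F (Cfsg.quadFormMinus m F a b))) (A : Subgroup (MulAut (Cfsg.POmega F (Cfsg.quadFormMinus m F a b)))) (hinn : ∀ k : Cfsg.POmega F (Cfsg.quadFormMinus m F a b), MulAut.conj k ∈ A) {p : ℕ} [Fact p.Prime] (hpr : p ≠ r) (x : MulAut (Cfsg.POmega F (Cfsg.quadFormMinus m F a b))) (hxA : x ∈ A) (hord : orderOf x = p) (hnot : ¬ Cfsg.IsInnerDiagonalAutPOmegaMinus m a b x) :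
    Cfsg.pPrimeCore p ↥(A ⊓ Subgroup.centralizer {x}) ≠ ⊥ ↔ (Cfsg.IsFieldAutClassPOmegaMinus m x ∧ Nat.Coprime p (Nat.card ↥(MonoidHom.eqLocus x.toMonoidHom (MonoidHom.id (Cfsg.POmega F (Cfsg.quadFormMinus m F a b)))))) := by
  have hm' : 2 ≤ m := by omega
  have E := embMinus hab hm'
  have hf := bigE_minus hm' hab
  haveI := E.finite_K
  have hr : p ≠ ringChar F := by rwa [ringChar.eq F r]
  have hs := E.Ph_surjective (genMinus hab)
  obtain ⟨y, rfl⟩ := hs x
  refine bal_iff E.conj_injective hinn hord fun O hO hne => ?_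
  by_cases hy : y.1.right = 1
  · obtain ⟨g, rfl, -⟩ := exists_inlG hy
    have hP : g.1 ∉ hf.SimP := fun h => hnot (((inndiagMinus hm' hab).1 _).2 ((E.mem_im hf.SimP_le).2 ⟨_, h, rfl⟩))
    have h1 := orderOf_dvd_iff_pow_eq_one.1 hord.dvd
    obtain rfl : p = 2 := by
      by_contra h2
      obtain ⟨j, rfl⟩ := (Fact.out : p.Prime).odd_of_ne_two h2
      rw [E.Ph_pow_eq_one_iff] at h1
      have h3 := hf.mem_SimP.1 (show (g ^ (2 * j + 1)).1 ∈ hf.SimP from hf.center_le (inl_mem_ZG.1 (by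
        rw [Subgroup.coe_pow, map_pow]; exact h1)))
      rw [map_pow, pow_succ, pow_mul, Int.units_sq, one_pow, one_mul] at h3
      exact hP (hf.mem_SimP.2 h3)
    exact absurd (E.bal_inv (ringChar_ne_two_iff.1 hr.symm) hf (not_isIndex_minus hab) hs (hg := g.2) hP h1 hO) hne
  exact ⟨aux hm' hab (fixF_range _) hy (by rw [E.orderOf_right hy hord, ← hord, pow_orderOf_eq_one]),
    (E.bal_orth hf.toBig (.inl hs) hr hy hord hO hne).2⟩

end Cfsg.Agent.S2733
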