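import Cfsg.Statements.S2896
import Cfsg.Agent.Lib.Loc.AmbChar
import Cfsg.Agent.Lib.Loc.AmbFs
-- import your own Cfsg.Agent.* helpers here

set_option autoImplicit false
open Cfsg

namespace Cfsg.Agent.S2896

/-- Let p be a prime dividing the order of the finite group G, S a Sylow p-subgroup of G and X a subgroup of S. (i) If some nontrivial element z of the centre of X has F*(C_G(z)) = O_p(C_G(z)), then F*(N_G(X)) = O_p(N_G(X)). (ii) G has parabolic characteristic p if and only if F*(C_G(z)) = O_p(C_G(z)) for every nontrivial z ∈ Ω₁(Z(S)). (iii) If F*(C_G(z)) = O_p(C_G(z)) for every element z of S of order p, then G has local characteristic p. -/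
theorem result {G : Type*} [Group G] [Finite G] {p : ℕ} [Fact p.Prime] (hdiv : p ∣ Nat.card G) (S : Sylow p G) (X : Subgroup G) (hX : X ≤ (S : Subgroup G)) : (∀ z : G, z ≠ 1 → z ∈ X → (∀ x ∈ X, x * z = z * x) → Cfsg.generalizedFittingSubgroup ↥(Subgroup.centralizer ({z} : Set G)) = Cfsg.pCore p ↥(Subgroup.centralizer ({z} : Set G)) → Cfsg.generalizedFittingSubgroup ↥(Subgroup.normalizer (X : Set G)) = Cfsg.pCore p ↥(Subgroup.normalizer (X : Set G))) ∧ (Cfsg.IsOfParabolicCharacteristic p G ↔ ∀ z : G, z ≠ 1 → z ∈ Cfsg.omegaOne p ((S : Subgroup G) ⊓ Subgroup.centralizer ((S : Subgroup G) : Set G)) → Cfsg.generalizedFittingSubgroup ↥(Subgroup.centralizer ({z} : Set G)) = Cfsg.pCore p ↥(Subgroup.centralizer ({z} : Set G))) ∧ ((∀ z : G, z ∈ (S : Subgroup G) → orderOf z = p → Cfsg.generalizedFittingSubgroup ↥(Subgroup.centralizer ({z} : Set G)) = Cfsg.pCore p ↥(Subgroup.centralizer ({z} : Set G))) → Cfsg.IsOfLocalCharacteristic p G) := by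
  open Subgroup Cfsg CA.Amb CA.AmbSyl CA.AmbCore CA.AmbRes CA.AmbChar CA.AmbWC CA.AmbSpe CA.AmbRed CA.AmbFs in
  open scoped commutatorElement in
  (
    refine ⟨fun z _ hz _ h => fstar_iff_charP.2
      (charP_normalizer_of_elem ((sylIn_top S).pg.to_le hX) hz (fstar_iff_charP.1 h)), ?_, fun h => ?_⟩
    · rw [parab_top_iff]
      refine ⟨fun h z h1 hz => ?_, fun h => parab_of_cent (sylIn_top S) fun z hz h1 => ?_⟩
      · have := h.cent (sylIn_top S) (OZ_le _ _ hz) (OZ_le_cent _ _ hz) h1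
        rwa [top_inf_eq, ← fstar_iff_charP] at this
      · rw [top_inf_eq, ← fstar_iff_charP]; exact h z h1 hz
    · refine locP_top_iff.2 ⟨hdiv, locP_of_cent (sylIn_top S) fun z hz ho => ?_⟩
      rw [top_inf_eq, ← fstar_iff_charP]; exact h z hz ho)

end Cfsg.Agent.S2896
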