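import Cfsg.Statements.S2898
import Cfsg.Agent.Lib.Loc.AmbChar
import Cfsg.Agent.Lib.Loc.AmbFs
-- import your own Cfsg.Agent.* helpers here

set_option autoImplicit false
open Cfsg

namespace Cfsg.Agent.S2898

/-- Let G be a finite group of even order with parabolic characteristic 2. If the centre of G ⧸ O(G) is trivial, then O(G) = 1. -/
theorem result {G : Type*} [Group G] [Finite G] (h2 : 2 ∣ Nat.card G) (hG : Cfsg.IsOfParabolicCharacteristic 2 G) [hN : (Cfsg.oddCore G).Normal] (hZ : Subgroup.center (G ⧸ Cfsg.oddCore G) = ⊥) : Cfsg.oddCore G = ⊥ := by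
  open Subgroup Cfsg CA.Amb CA.AmbSyl CA.AmbCore CA.AmbRes CA.AmbChar CA.AmbWC CA.AmbSpe CA.AmbRed CA.AmbFs in
  open scoped commutatorElement in
  (
    haveI : Fact (Nat.Prime 2) := ⟨Nat.prime_two⟩
    by_contra hne
    obtain ⟨S, hS⟩ := exists_sylIn 2 (⊤ : Subgroup G)
    have hO : (Nat.card (oddCore G)).Coprime 2 := CA.Core.coprime_pPrimeCore
    have hinv : ∀ z ∈ OZ 2 S, z ≠ 1 → ∀ x ∈ oddCore G, z * x * z⁻¹ = x⁻¹ := by
      intro z hz h1 x hx
      have h3 := (parab_top_iff.1 hG).cent hS (OZ_le _ _ hz) (OZ_le_cent _ _ hz) h1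
      rw [top_inf_eq] at h3
      refine inverts_of_fpf (by rw [← pow_two]; exact (mem_OZ.1 hz).2.2) (norm_of_normal (mem_top z)) ?_ hx
      exact h3.eq_bot_of_coprime inf_le_right
        (norm_inf norm_of_normal (norm_of_le (pCoreOf_le _ _)))
        (CA.Core.coprime_card_of_le inf_le_left hO)
    have hnc : ∀ z ∈ OZ 2 S, z ≠ 1 → z ∉ 𝐂 (oddCore G) := by
      intro z hz h1 hc
      obtain ⟨x, hx, hx1⟩ := exists_ne_one_of_ne_bot hne
      have h3 := hinv z hz h1 x hx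
      rw [← hc x hx, mul_inv_cancel_right] at h3
      have h4 : IsPGroup 2 (zpowers x) :=
        isPGroup_zpowers' (by rw [pow_two]; nth_rewrite 1 [h3]; exact inv_mul_cancel x)
      have h5 := CA.Core.inf_eq_bot_of_isPGroup_of_coprime h4 hO
      exact hx1 (mem_bot.1 (h5 ▸ (⟨mem_zpowers x, hx⟩ : x ∈ zpowers x ⊓ oddCore G)))
    have hC : 𝐂 (oddCore G) ≤ oddCore G := by
      have hn : (⊤ : Subgroup G) ≤ 𝐍 (𝐂 (oddCore G)) := norm_centralizer norm_of_normal
      haveI := normal_iff_top_le.2 hn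
      refine CA.Core.le_pPrimeCore ((Nat.Prime.coprime_iff_not_dvd Nat.prime_two).2 fun hd => ?_).symm
      have h3 := (hS.inf_norm le_top hn).ne_bot hd
      obtain ⟨z, hz, h1⟩ := exists_ne_one_of_ne_bot (inf_OZ_ne_bot hS.pg inf_le_left
        (norm_inf le_normalizer (le_top.trans hn)) h3)
      exact hnc z hz.2 h1 hz.1.2
    obtain ⟨z, hz, h1⟩ := exists_ne_one_of_ne_bot
      (OZ_ne_bot hS.pg (hS.ne_bot (by rwa [card_top])))
    have h3 : (QuotientGroup.mk z : G ⧸ oddCore G) ∈ center (G ⧸ oddCore G) := by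
      rw [mem_center_iff]
      intro g
      obtain ⟨g, rfl⟩ := QuotientGroup.mk_surjective g
      rw [← QuotientGroup.mk_mul, ← QuotientGroup.mk_mul, QuotientGroup.eq]
      apply hC
      intro x hx
      have e1 := hinv z hz h1 _ (hN.conj_mem _ hx g)
      have e2 := hinv z hz h1 _ (hN.conj_mem _ hx z⁻¹)
      rw [inv_inv] at e2
      have e3 : z⁻¹ * x * z = x⁻¹ := by
        have : z * (z⁻¹ * x * z) * z⁻¹ = x := by group
        rw [this] at e2
        rw [← inv_inv (z⁻¹ * x * z), ← e2]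
      have e4 : z⁻¹ * x⁻¹ * z = x := by
        have : z⁻¹ * x⁻¹ * z = (z⁻¹ * x * z)⁻¹ := by group
        rw [this, e3, inv_inv]
      calc x * ((g * z)⁻¹ * (z * g)) = (z⁻¹ * x⁻¹ * z) * ((g * z)⁻¹ * (z * g)) := by rw [e4]
        _ = z⁻¹ * g⁻¹ * (g * x * g⁻¹)⁻¹ * z * g := by group
        _ = (g * z)⁻¹ * (z * g) * x := by rw [← e1]; group
    rw [hZ, mem_bot, QuotientGroup.eq_one_iff] at h3
    have h4 := CA.Core.inf_eq_bot_of_isPGroup_of_coprime (isPGroup_OZ 2 S) hO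
    exact h1 (mem_bot.1 (h4 ▸ (⟨hz, h3⟩ : z ∈ OZ 2 S ⊓ oddCore G))))

end Cfsg.Agent.S2898
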