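import Cfsg.Statements.S2905
import Cfsg.Agent.Lib.Loc.AmbChar
import Cfsg.Agent.Lib.Loc.AmbM
-- import your own Cfsg.Agent.* helpers here

set_option autoImplicit false
open Cfsg

namespace Cfsg.Agent.S2905

/-- Let P be a finite p-minimal group (a Sylow p-subgroup S is not normal and lies in a unique maximal subgroup M of P) and let F be the normal core of M. Then: every subnormal subgroup N of P contained in M satisfies N ∩ S ≤ O_p(P); if O^p(P) has a normal Sylow p-subgroup then the order of P has at most two prime divisors; every normal subgroup N of P either contains O^p(P) or is contained in F; and O^p(P)F ⧸ F is a minimal normal subgroup of P ⧸ F. -/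
theorem result {P : Type*} [Group P] [Finite P] {p : ℕ} [Fact p.Prime] (hP : Cfsg.IsPMinimal p P) (S : Sylow p P) (M : Subgroup P) (hM : IsCoatom M) (hSM : (S : Subgroup P) ≤ M) [hF : M.normalCore.Normal] : (∀ N : Subgroup P, N.IsSubnormal → N ≤ M → N ⊓ (S : Subgroup P) ≤ Cfsg.pCore p P) ∧ ((∀ T : Sylow p ↥(Cfsg.pResidual p P), (T : Subgroup ↥(Cfsg.pResidual p P)).Normal) → (Nat.card P).primeFactors.card ≤ 2) ∧ (∀ N : Subgroup P, N.Normal → Cfsg.pResidual p P ≤ N ∨ N ≤ M.normalCore) ∧ (∀ N : Subgroup P, N.Normal → M.normalCore ≤ N → N ≤ Cfsg.pResidual p P ⊔ M.normalCore → N = M.normalCore ∨ N = Cfsg.pResidual p P ⊔ M.normalCore) ∧ M.normalCore < Cfsg.pResidual p P ⊔ M.normalCore := by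
  open Subgroup Cfsg CA.Amb CA.AmbSyl CA.AmbCore CA.AmbRes CA.AmbChar CA.AmbWC CA.AmbSpe CA.AmbRed CA.AmbFs CA.AmbM in
  open scoped commutatorElement in
  (
    have hS := sylIn_top S
    obtain ⟨hn, M', hM'⟩ := (isPMinimal_top_iff hS).1 hP
    have hU : UMax (S : Subgroup P) M ⊤ := umax_of_coatom (hP S).2 hM hSM
    have h3 : ∀ N : Subgroup P, N.Normal → pResidual p P ≤ N ∨ N ≤ M.normalCore := by
      intro N hN
      by_cases h : N ≤ M
      · exact Or.inr (normal_le_normalCore.2 h)
      · left
        rw [← res_top]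
        exact res_le_of_le_sup hS.pg norm_of_normal
          (hU.eq_of_not_le le_sup_left le_top fun e => h (le_sup_right.trans e)).ge
    have h5 : ¬ pResidual p P ≤ M := fun h =>
      hU.not_le (le_of_syl_of_res hS hSM (by rwa [res_top]))
    refine ⟨fun N hN hNM => ?_, fun h => ?_, h3, fun N hN h1 h2 => ?_,
      left_lt_sup.2 (fun h => h5 (h.trans (normalCore_le M))) |>.trans_eq (sup_comm _ _)⟩
    · set J := ⨆ K : {K : Subgroup P // SN ⊤ K ∧ K ≤ M}, K.1 with hJ
      have hJs : SN ⊤ J := sn_iSup fun K => K.2.1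
      have hJM : J ≤ M := iSup_le fun K => K.2.2
      have hmax : ∀ K, SN ⊤ K → K ≤ M → K ≤ J := fun K a b => le_iSup_of_le ⟨K, a, b⟩ le_rfl
      have hMJ : M ≤ 𝐍 J := le_normalizer_iff_cj.2 fun g hg =>
        hmax _ (hJs.conj_norm (norm_of_normal (mem_top g))) (cj_le_of_mem hJM hg)
      have hJn : ⊤ ≤ 𝐍 J := by
        by_contra hne
        obtain ⟨x, -, h1, h2⟩ := CA.Subn.SN.exists_conj (SN.toS hJs) hne
        exact h1 (mem_normalizer_of_cj_le (hmax _ (hJs.conj_norm (norm_of_normal (mem_top x)))
          (h2.trans (hU.max' (hSM.trans hMJ) le_top hne))))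
      have := UMax.inf_le_pCoreOf hU hS hJM hJn
      rw [pCoreOf_top] at this
      exact le_trans (le_inf inf_le_right (inf_le_left.trans (hmax N (sn_top_iff.2 hN) hNM))) this
    · have hR : IsPClosed p (pResidualOf p (⊤ : Subgroup P)) := by rw [res_top]; exact h
      have hRn := norm_res p (⊤ : Subgroup P)
      set R := pResidualOf p (⊤ : Subgroup P) with hRd
      let f := QuotientGroup.mk' (pCore p P)
      have hf : Function.Surjective f := QuotientGroup.mk'_surjective _
      have hk : f.ker = pCore p P := QuotientGroup.ker_mk' _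
      have htop := map_top_of_surjective f hf
      have hU' := hU.map f (by
        rw [hk]; exact inf_le_right.trans ((CA.AmbCore.pCore_le_sylow S).trans hSM))
      have hRc : (Nat.card (R.map f)).Coprime p := by
        rw [CA.Fitting.coprime_iff_not_dvd]
        intro hd
        refine ((isPClosed_iff_syl.1 hR).map f).ne_bot hd ((Subgroup.map_eq_bot_iff _).2 ?_)
        rw [hk, ← pCoreOf_top]; exact pCoreOf_le_of_norm le_top hRn
      have hcop : (Nat.card ((S : Subgroup P).map f)).Coprime (Nat.card (R.map f)) :=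
        (coprime_card_of_isPGroup (hS.pg.map f) hRc).symm
      have hex : ∃ q : ℕ, q.Prime ∧ IsPGroup q (R.map f) := by
        by_contra hne
        have h1 : R.map f ≤ M.map f := CA.Coprime2.le_of_forall_invariant_sylow
          (norm_map f (le_top.trans hRn)) hcop (Or.inl (isSolvable_of_isPGroup (hS.pg.map f)))
          fun q hq Q _ hQ hSQ => by
            have hQ' : SylIn q Q (R.map f) := sylIn_iff.2 hQ
            by_contra hQM
            have h1 := hU'.eq_of_not_le (le_sup_left : _ ≤ _ ⊔ Q) (htop ▸ le_top)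
              fun e => hQM (le_sup_right.trans e)
            have h2 := sup_inf_of_norm' hSQ hQ'.le
            rw [h1, htop, top_inf_eq, CA.Core.inf_eq_bot_of_isPGroup_of_coprime (hS.pg.map f) hRc,
              bot_sup_eq] at h2
            exact hne ⟨q, hq.out, h2 ▸ hQ'.pg⟩
        exact h5 (by
          rw [← res_top]
          exact le_of_map_le le_top le_top (by
            rw [hk]; exact inf_le_right.trans ((CA.AmbCore.pCore_le_sylow S).trans hSM)) h1)
      obtain ⟨q, hq, hQ⟩ := hex
      haveI : Fact q.Prime := ⟨hq⟩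
      refine (Finset.card_le_card (t := {p, q}) fun r hr => ?_).trans Finset.card_le_two
      have hr' := Nat.prime_of_mem_primeFactors hr
      haveI : Fact r.Prime := ⟨hr'⟩
      obtain ⟨x, hx⟩ := exists_prime_orderOf_dvd_card' r (Nat.dvd_of_mem_primeFactors hr)
      by_cases e : r = p
      · simp [e]
      have hxp : (orderOf x).Coprime p := hx ▸ (Nat.coprime_primes hr' Fact.out).2 e
      obtain ⟨k, hk'⟩ := isPGroup_iff_mem.1 hQ _ (mem_map_of_mem f (mem_res (mem_top x) hxp))
      rw [← map_pow, ← MonoidHom.mem_ker, hk] at hk'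
      obtain ⟨j, hj⟩ := isPGroup_iff_mem.1 (CA.AmbCore.isPGroup_pCore p P) _ hk'
      rw [← pow_mul, ← orderOf_dvd_iff_pow_eq_one, hx] at hj
      rcases (Nat.Prime.dvd_mul hr').1 hj with h1 | h1
      · simp [(Nat.prime_dvd_prime_iff_eq hr' hq).1 (hr'.dvd_of_dvd_pow h1)]
      · exact absurd ((Nat.prime_dvd_prime_iff_eq hr' Fact.out).1 (hr'.dvd_of_dvd_pow h1)) e
    · rcases h3 N hN with h | h
      · exact Or.inr (le_antisymm h2 (sup_le h h1))
      · exact Or.inl (le_antisymm h h1))

end Cfsg.Agent.S2905
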