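import Cfsg.Statements.S2906
import Cfsg.Agent.Lib.Loc.AmbChar
import Cfsg.Agent.Lib.Loc.AmbFs
-- import your own Cfsg.Agent.* helpers here

set_option autoImplicit false
open Cfsg

namespace Cfsg.Agent.S2906

/-- Let P be a finite p-minimal group with O_p(P) = 1, S a Sylow p-subgroup of P and K a component of P. Then O^p(P) = F*(P) = E(P) is generated by the S-conjugates of K, and the subgroup K·N_S(K) is again p-minimal. -/
theorem result {P : Type*} [Group P] [Finite P] {p : ℕ} [Fact p.Prime] (hP : Cfsg.IsPMinimal p P) (hOp : Cfsg.pCore p P = ⊥) (S : Sylow p P) (K : Subgroup P) (hK : Cfsg.IsComponent K) : Cfsg.pResidual p P = Cfsg.generalizedFittingSubgroup P ∧ Cfsg.generalizedFittingSubgroup P = Cfsg.layer P ∧ Cfsg.layer P = ⨆ s : ↥(S : Subgroup P), K.map (MulAut.conj (s : P)).toMonoidHom ∧ Cfsg.IsPMinimal p ↥(K ⊔ ((S : Subgroup P) ⊓ Subgroup.normalizer (K : Set P))) := by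
  open Subgroup Cfsg CA.Amb CA.AmbSyl CA.AmbCore CA.AmbRes CA.AmbChar CA.AmbWC CA.AmbSpe CA.AmbRed CA.AmbFs in
  open scoped commutatorElement in
  (
    have hO' : pCoreOf p (⊤ : Subgroup P) = ⊥ := by rwa [pCoreOf_top]
    have hS := sylIn_top S
    obtain ⟨hn, M, hM⟩ := (isPMinimal_top_iff hS).1 hP
    have hKp := CA.Comp.comp_perfect hK
    have hKE := CA.Comp.le_layer hK
    have hE0 : ncl K ⊤ ≤ layer P := ncl_le hKE norm_of_normal
    have hnil : ∀ N : Subgroup P, ⊤ ≤ 𝐍 N → K ≤ N → p ∣ Nat.card N := by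
      intro N h1 h2
      by_contra hd
      have := UMax.isNilpotent hM hS.pg le_top h1 (CA.Fitting.coprime_iff_not_dvd.2 hd)
      exact CA.Quasi.qs_not_le_solvable hK.2 inferInstance h2
    have hKd : p ∣ Nat.card K := by
      by_contra hd
      exact CA.Fitting.not_dvd_card_pPrimeCore (hnil _ norm_of_normal
        (CA.Core.le_pPrimeCore_of_subnormal hK.1 (CA.Fitting.coprime_iff_not_dvd.2 hd)))
    have h1 : ¬ ncl K ⊤ ≤ M := fun h => by
      have h2 := UMax.inf_le_pCoreOf hM hS h (norm_ncl _ _)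
      exact (hS.inf_norm le_top (norm_ncl K ⊤)).ne_bot (hnil _ (norm_ncl _ _) (le_ncl _ _))
        (le_bot_iff.1 (hO' ▸ h2))
    have h2 : (S : Subgroup P) ⊔ ncl K ⊤ = ⊤ :=
      hM.eq_of_not_le le_sup_left le_top fun e => h1 (le_sup_right.trans e)
    have h3 : ncl K ⊤ = ncl K S := by
      refine le_antisymm (ncl_le_iff.2 fun g hg => ?_) (ncl_mono le_rfl le_top)
      rw [← h2] at hg
      obtain ⟨s, hs, e, he, rfl⟩ := (mem_sup_of_norm (le_top.trans (norm_ncl K ⊤))).1 hg
      rw [← cj_cj, cj_eq_self (CA.Comp.layer_le_normalizer hK (hE0 he))]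
      exact cj_le_ncl K hs
    have h4 : pResidual p P ≤ ncl K ⊤ := by
      rw [← res_top]; exact res_le_of_le_sup hS.pg (le_top.trans (norm_ncl _ _)) h2.ge
    have h5 : generalizedFittingSubgroup P ≤ pResidual p P := by
      have := FS_le_res hO'
      rwa [FS_top, res_top] at this
    have h6 := CA.Fstar.layer_le_fstar (G := P)
    refine ⟨le_antisymm (h4.trans (hE0.trans h6)) h5, le_antisymm (h5.trans (h4.trans hE0)) h6, ?_, ?_⟩
    · change _ = ncl K S
      rw [← h3]; exact le_antisymm (h6.trans (h5.trans h4)) hE0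
    have hSK := (sn_top_iff.2 hK.1).sylIn_inf hS
    set S₀ := (S : Subgroup P) ⊓ 𝐍 K with hS₀
    have hSK0 : (S : Subgroup P) ⊓ K ≤ S₀ := inf_le_inf_left _ le_normalizer
    have h7 : SylIn p S₀ (K ⊔ S₀) := by
      have := sylIn_sup (inf_le_right : S₀ ≤ 𝐍 K) hSK (sylIn_self (hS.pg.to_le inf_le_left))
        (hS.pg.to_le (sup_le inf_le_left inf_le_left))
      rwa [sup_eq_left.2 hSK0, sup_comm] at this
    refine (isPMinimal_iff h7).2 ⟨fun h => ?_, (K ⊔ S₀) ⊓ M, le_inf le_sup_right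
      (inf_le_left.trans hM.le), lt_of_le_of_ne inf_le_left fun e => h1 ?_, fun Y hY hY' => ?_⟩
    · have h8 : S₀ ⊓ K ≤ pCoreOf p K := le_pCoreOf inf_le_right (h7.pg.to_le inf_le_left)
        (norm_inf (le_sup_left.trans h) le_normalizer)
      rw [SN.pCoreOf_eq_bot (sn_top_iff.2 hK.1) hO'] at h8
      exact hSK.ne_bot hKd (le_bot_iff.1 ((le_inf hSK0 inf_le_right).trans h8))
    · rw [h3]
      exact ncl_le (le_sup_left.trans (e.ge.trans inf_le_right)) (norm_of_le hM.le)
    · have h8 : Y = S₀ ⊔ (K ⊓ Y) := by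
        rw [← sup_inf_of_norm (inf_le_right : S₀ ≤ 𝐍 K) hY, sup_comm, inf_eq_right.2 hY'.le]
      refine le_inf hY'.le (h8.le.trans (sup_le (inf_le_left.trans hM.le) ?_))
      refine (le_ncl _ (S : Subgroup P)).trans (le_sup_right.trans (hM.max'
        (le_sup_left : (S : Subgroup P) ≤ (S : Subgroup P) ⊔ ncl (K ⊓ Y) S) le_top fun e => ?_))
      have h9 : K ≤ ncl (K ⊓ Y) S := by
        refine hKE.trans (h6.trans (h5.trans ?_))
        rw [← res_top]; exact res_le_of_le_sup hS.pg (norm_ncl _ _) e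
      have h10 : K ⊓ Y = K := by
        refine eq_of_perfect_of_le_sup_cent hKp inf_le_left (h9.trans (ncl_le_iff.2 fun s hs => ?_))
        by_cases h11 : s ∈ 𝐍 K
        · have h12 : S₀ ≤ 𝐍 (K ⊓ Y) := norm_inf inf_le_right (norm_of_le hY)
          exact le_sup_of_le_left (cj_eq_self (h12 ⟨hs, h11⟩)).le
        · exact le_sup_of_le_right ((cj_mono s inf_le_left).trans
            (CA.Comp.comp_le_centralizer_of_ne (CA.Comp.comp_map_conj hK s) hK
              fun e => h11 (cj_eq_self_iff.1 e)))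
      exact hY'.not_ge (sup_le (h10.ge.trans inf_le_right) hY))

end Cfsg.Agent.S2906
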