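import Cfsg.Statements.S2907
import Cfsg.Agent.Lib.Loc.AmbChar
import Cfsg.Agent.Lib.Loc.AmbTr
import Cfsg.Agent.Lib.Grp.PGBasic
import Cfsg.Agent.Lib.Grp.PGFrattini
import Cfsg.Agent.Lib.Grp.PGClassTwo
import Cfsg.Agent.Lib.Grp.PGCritical
-- import your own Cfsg.Agent.* helpers here

set_option autoImplicit false
open Cfsg

namespace Cfsg.Agent.S2907

/-- Let X be a finite semi-extraspecial p-group and x an element of X outside the centre. Then the index of C_X(x) in X equals the order of Z(X), and the commutators [x, y], y ∈ X, form exactly the centre Z(X). -/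
theorem result {X : Type*} [Group X] [Finite X] {p : ℕ} [Fact p.Prime] (hX : Cfsg.IsSemiExtraspecial p X) (x : X) (hx : x ∉ Subgroup.center X) : (Subgroup.centralizer ({x} : Set X)).index = Nat.card ↥(Subgroup.center X) ∧ {z : X | ∃ y : X, z = x * y * x⁻¹ * y⁻¹} = (Subgroup.center X : Set X) := by
  open Subgroup Cfsg CA CA.Amb CA.AmbSyl CA.AmbCore CA.AmbRes CA.AmbChar CA.AmbIso CA.AmbTr in
  open scoped commutatorElement in
  (
    obtain ⟨⟨h1, h2, h3⟩, h4⟩ := hX
    let f := PGClassTwo.commHomRight h3.le x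
    have hr : f.range ≤ center X := fun _ ⟨y, hy⟩ => hy ▸ h3.le (PGClassTwo.comm_mem_commutator x y)
    have key : f.range = center X := by
      by_contra hne
      obtain ⟨M, hM, m1⟩ := AmbWC.exists_coatom (X := f.range.subgroupOf (center X))
        fun h => hne (le_antisymm hr (subgroupOf_eq_top.1 h))
      obtain ⟨_, ⟨-, -, k⟩, -⟩ := h4 (M.map (center X).subtype) (map_subtype_le _)
        (by rwa [subgroupOf, comap_map_eq_self_of_injective (subtype_injective _)])
      have : (x : X ⧸ M.map (center X).subtype) ∈ center _ := PGCritical.mk_mem_center_iff.2 fun g =>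
        ⟨⟨_, hr ⟨g, rfl⟩⟩, m1 ⟨g, rfl⟩, rfl⟩
      rw [← k, _root_.commutator, ← map_top_of_surjective _ (QuotientGroup.mk'_surjective _),
        ← map_commutator] at this
      obtain ⟨y, y1, y2⟩ := this
      have y3 := map_subtype_le _ (QuotientGroup.eq.1 y2)
      exact hx (by simpa using mul_mem (h3.le y1) y3)
    refine ⟨by rw [← key, ← index_ker, PGClassTwo.commHomRight_ker], ?_⟩
    rw [← key]
    ext z
    exact ⟨fun ⟨y, hy⟩ => ⟨y, hy.symm⟩, fun ⟨y, hy⟩ => ⟨y, hy.symm⟩⟩)

end Cfsg.Agent.S2907
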