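import Cfsg.Statements.S2908
import Cfsg.Agent.Lib.Loc.AmbChar
import Cfsg.Agent.Lib.Loc.AmbWC
-- import your own Cfsg.Agent.* helpers here

set_option autoImplicit false
open Cfsg

namespace Cfsg.Agent.S2908

/-- Let P be a p-subgroup of a finite group, normalized by a p-subgroup A and by a subgroup B of order prime to p that commutes elementwise with A. If [P, B] ≤ [P, A], then B centralizes P. -/
theorem result {G : Type*} [Group G] [Finite G] {p : ℕ} [Fact p.Prime] (P A B : Subgroup G) (hP : IsPGroup p ↥P) (hA : IsPGroup p ↥A) (hB : ¬ p ∣ Nat.card ↥B) (hnA : A ≤ Subgroup.normalizer (P : Set G)) (hnB : B ≤ Subgroup.normalizer (P : Set G)) (hAB : ⁅A, B⁆ = ⊥) (hcomm : ⁅P, B⁆ ≤ ⁅P, A⁆) : ⁅P, B⁆ = ⊥ := by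
  open Subgroup Cfsg CA.Amb CA.AmbSyl CA.AmbCore CA.AmbRes CA.AmbChar CA.AmbWC in
  (
    have hc : (Nat.card B).Coprime p := ((Nat.Prime.coprime_iff_not_dvd Fact.out).2 hB).symm
    have hBB : pResidualOf p B = B := le_antisymm (res_le _ _) (le_res_of_coprime le_rfl hc)
    have hW := comm_comm_of_res_eq hP hnB hBB
    have hAB' : A ≤ 𝐍 B := norm_of_centralizer (commutator_eq_bot_iff_le_centralizer.1 hAB)
    have hBA' : B ≤ 𝐍 A := norm_of_centralizer (commutator_eq_bot_iff'.1 hAB)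
    have hS : IsPGroup p ↥(A ⊔ P) := isPGroup_sup_of_norm hA hP hnA
    have hSW : A ⊔ P ≤ 𝐍 ⁅P, B⁆ := sup_le (norm_commutator hnA hAB') (norm_comm_left _ _)
    refine eq_bot_of_le_commutator hS (hP.to_le (commutator_le_left_of_norm hnB)) hSW ?_
    have h1 : ⁅⁅P, A⁆, B⁆ ≤ ⁅⁅P, B⁆, A ⊔ P⁆ := by
      refine three_subgroups (le_sup_right.trans (norm_comm_right _ _))
        (le_sup_left.trans (norm_comm_right _ _))
        (norm_commutator (norm_comm_right _ _) (norm_sup hBA' hnB)) ?_ ?_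
      · rw [hAB, commutator_bot_left]; exact bot_le
      · rw [commutator_comm B P]; exact commutator_mono le_rfl le_sup_left
    calc ⁅P, B⁆ = ⁅⁅P, B⁆, B⁆ := hW.symm
      _ ≤ ⁅⁅P, A⁆, B⁆ := commutator_mono hcomm le_rfl
      _ ≤ _ := h1)

end Cfsg.Agent.S2908
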