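import Cfsg.Statements.S2909
import Cfsg.Agent.Lib.Loc.AmbChar
import Cfsg.Agent.Lib.Loc.AmbM
-- import your own Cfsg.Agent.* helpers here

set_option autoImplicit false
open Cfsg

namespace Cfsg.Agent.S2909

/-- Let p be a prime, E a normal p-subgroup of the finite group G, and U a non-cyclic elementary abelian p-subgroup of G such that either C_E(U) = C_E(u) for every nontrivial u ∈ U, or [E, U] = [E, ⟨u⟩] for every nontrivial u ∈ U. If R is a subgroup of order prime to p normalized by U, then [R, U] centralizes E. -/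
theorem result {G : Type*} [Group G] [Finite G] {p : ℕ} [Fact p.Prime] (E : Subgroup G) [E.Normal] (hE : IsPGroup p ↥E) (U : Subgroup G) (hU : Cfsg.IsElementaryAbelian p U) (hnc : ¬ IsCyclic ↥U) (hcond : (∀ u ∈ U, u ≠ 1 → E ⊓ Subgroup.centralizer (U : Set G) = E ⊓ Subgroup.centralizer ({u} : Set G)) ∨ (∀ u ∈ U, u ≠ 1 → ⁅E, U⁆ = ⁅E, Subgroup.zpowers u⁆)) (R : Subgroup G) (hR : ¬ p ∣ Nat.card ↥R) (hRU : U ≤ Subgroup.normalizer (R : Set G)) : ⁅R, U⁆ ≤ Subgroup.centralizer (E : Set G) := by
  open Subgroup Cfsg CA.Amb CA.AmbSyl CA.AmbCore CA.AmbRes CA.AmbChar CA.AmbWC CA.AmbSpe CA.AmbRed CA.AmbFs CA.AmbM in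
  open scoped commutatorElement in
  (
    have hR' := CA.Fitting.coprime_iff_not_dvd.2 hR
    have hCn : (⊤ : Subgroup G) ≤ 𝐍 (𝐂 E) := norm_centralizer norm_of_normal
    haveI := normal_iff_top_le.2 hCn
    let f := QuotientGroup.mk' (𝐂 E)
    have hk : f.ker = 𝐂 E := QuotientGroup.ker_mk' _
    have hiff : ∀ X : Subgroup G, X ≤ (𝐂 (U.map f)).comap f ↔ ⁅X, U⁆ ≤ 𝐂 E := fun X => by
      rw [← map_le_iff_le_comap, ← commutator_eq_bot_iff', ← map_commutator, Subgroup.map_eq_bot_iff, hk,
        commutator_comm]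
    refine (hiff R).1 (CA.Coprime2.le_of_forall_centralizer_singleton hU.1 hnc hRU
      (coprime_card_of_isPGroup (ea_pg hU) hR').symm fun u hu h1 => (hiff _).2 ?_)
    rw [← centralizer_zpowers]
    set D := R ⊓ 𝐂 (zpowers u) with hD
    have hu' : zpowers u ≤ U := zpowers_le.2 hu
    have hup := (ea_pg hU).to_le hu'
    have hAD : ⁅D, U⁆ ≤ D := commutator_le_left_of_norm (norm_inf hRU (norm_centralizer
      (norm_of_centralizer ((ea_le_cent hU).trans (centralizer_anti hu')))))
    have hAc : (Nat.card (⁅D, U⁆ : Subgroup G)).Coprime p :=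
      CA.Core.coprime_card_of_le (hAD.trans inf_le_left) hR'
    have hAu : ⁅D, U⁆ ≤ 𝐂 (zpowers u) := hAD.trans inf_le_right
    rcases hcond with h | h
    · refine CA.Coprime2.p_times_q hup hAc hE (cent_symm hAu) norm_of_normal norm_of_normal ?_
      have h2 : E ⊓ 𝐂 (zpowers u) = E ⊓ 𝐂 U := by rw [centralizer_zpowers, h u hu h1]
      have h3 : D ≤ 𝐍 (E ⊓ 𝐂 U) :=
        h2 ▸ norm_inf norm_of_normal (norm_centralizer (norm_of_centralizer inf_le_right))
      rw [h2, ← commutator_eq_bot_iff', ← le_bot_iff]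
      refine three_subgroups norm_of_normal norm_of_normal norm_of_normal ?_ ?_
      · rw [comm_eq_bot_of_le' inf_le_right, commutator_bot_left]
      · exact (commutator_mono (commutator_le_left_of_norm h3) le_rfl).trans
          (comm_eq_bot_of_le inf_le_right).le
    · set A := ⁅D, U⁆ with hA
      have h2 : ⁅E, A⁆ ≤ ⁅E, zpowers u⁆ := by
        have h3 : D ≤ 𝐍 ⁅E, zpowers u⁆ := norm_commutator norm_of_normal (norm_of_centralizer inf_le_right)
        rw [commutator_comm]
        refine three_subgroups h3 (h u hu h1 ▸ norm_comm_right E U) (norm_comm_left _ _) ?_ ?_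
        · rw [commutator_comm U E, h u hu h1]; exact commutator_le_left_of_norm h3
        · exact (commutator_mono (commutator_le_left _ _) le_rfl).trans (h u hu h1).le
      have hcop : (Nat.card A).Coprime (Nat.card E) := coprime_card_of_isPGroup hE hAc
      have hs : Group.IsSolvable A ∨ Group.IsSolvable E := Or.inr (isSolvable_of_isPGroup hE)
      have h3 := comm_sup_cent_coprime norm_of_normal hcop hs
      have h4 := comm_comm_coprime norm_of_normal hcop hs
      set V := ⁅E, A⁆ with hV
      have hVE : V ≤ E := commutator_le_left _ _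
      set P := zpowers u ⊔ E with hP
      have hPp : IsPGroup p P := isPGroup_sup_of_norm hup hE norm_of_normal
      have hPV : P ≤ 𝐍 V := sup_le (norm_commutator norm_of_normal (norm_of_centralizer (cent_symm hAu)))
        (norm_comm_left _ _)
      have hAW : A ≤ 𝐍 ⁅V, P⁆ := norm_commutator (norm_comm_right _ _)
        (norm_sup (norm_of_centralizer hAu) norm_of_normal)
      have hEW : E ≤ 𝐍 ⁅V, P⁆ := le_sup_right.trans (norm_comm_right _ _)
      rw [← commutator_eq_bot_iff']
      refine eq_bot_of_le_commutator hPp (hE.to_le hVE) hPV ?_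
      have h5 : V ≤ ⁅V, P⁆ ⊔ (E ⊓ 𝐂 A) := by
        refine h2.trans ?_
        nth_rewrite 1 [← h3]
        have h6 : E ≤ 𝐍 (⁅V, P⁆ ⊔ (E ⊓ 𝐂 A)) := by
          refine h3.ge.trans (sup_le (norm_of_commutator_le ?_) (norm_of_le le_sup_right))
          rw [commutator_comm]
          exact (commutator_mono le_rfl (sup_le (comm_le_of_le (hVE.trans le_sup_right) le_rfl)
            (le_sup_of_le_right inf_le_left))).trans le_sup_left
        refine comm_sup_le (hVE.trans h6) (inf_le_left.trans h6)
          (le_sup_of_le_left (commutator_mono le_rfl le_sup_left)) (le_sup_of_le_right ?_)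
        exact commutator_le_left_of_norm (norm_inf norm_of_normal
          (norm_centralizer (norm_of_centralizer (cent_symm hAu))))
      refine h4.ge.trans ((commutator_mono h5 le_rfl).trans (comm_sup_le le_normalizer
        (inf_le_left.trans hEW) (commutator_le_left_of_norm hAW)
        ((comm_eq_bot_of_le inf_le_right).le.trans bot_le))))

end Cfsg.Agent.S2909
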