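import Cfsg.Statements.S2910
import Cfsg.Agent.Lib.Loc.AmbChar
import Cfsg.Agent.Lib.Loc.AmbTr
import Cfsg.Agent.Lib.Grp.PGBasic
import Cfsg.Agent.Lib.Grp.PGFrattini
import Cfsg.Agent.Lib.Grp.Fus3
import Cfsg.Agent.Lib.Grp.Quasi
-- import your own Cfsg.Agent.* helpers here

set_option autoImplicit false
open Cfsg

namespace Cfsg.Agent.S2910

/-- Let p be an odd prime dividing the order of the finite group G and P a Sylow p-subgroup of G. If Ω₁(P) (generated by the elements of order dividing p) is contained in the centre of G, then G has a normal p-complement. In particular, if G is quasisimple then Ω₁(P) is not central in G. -/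
theorem result {G : Type*} [Group G] [Finite G] {p : ℕ} [Fact p.Prime] (hp : p ≠ 2) (hdiv : p ∣ Nat.card G) (P : Sylow p G) (hZ : Cfsg.omegaOne p (P : Subgroup G) ≤ Subgroup.center G) : Cfsg.HasNormalPComplement p G ∧ ¬ Cfsg.IsQuasisimple G := by
  open Subgroup Cfsg CA CA.Amb CA.AmbSyl CA.AmbCore CA.AmbRes CA.AmbChar CA.AmbIso CA.AmbTr in
  open scoped commutatorElement in
  (
    have h : HasNormalPComplement p G := Fus3.hasNPC_of_controls_small P fun a ha h g _ => by
      have : a ∈ center G := hZ (Subgroup.subset_closure ⟨ha, h.resolve_right fun h => hp h.1⟩)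
      exact ⟨1, one_mem _, by rw [mem_center_iff.1 this g]; simp⟩
    refine ⟨h, fun hq => PRes.hasNPC_iff_not_dvd.1 h ?_⟩
    have : pResidual p G = ⊤ := by
      rw [PRes.pResidual_eq_top_iff_le_commutator P, (Quasi.qs_perfect hq).commutator_eq_top]
      exact le_top
    rwa [this, card_top])

end Cfsg.Agent.S2910
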