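import Cfsg.Statements.S2912
import Cfsg.Agent.Lib.Solv.HH1
import Cfsg.Agent.Lib.Odd.BGRep5

set_option autoImplicit false
open Cfsg

namespace Cfsg.Agent.S2912

open CA Subgroup CA.BG CA.BGRep Module

theorem sum_le {k W ι : Type*} [Field k] [AddCommGroup W] [Module k W] [FiniteDimensional k W] [Fintype ι]
    {f : ι → Submodule k W} (h : iSupIndep f) : ∑ i, finrank k (f i) ≤ finrank k W := by
  classical
  rw [← Module.finrank_directSum]
  exact LinearMap.finrank_le_finrank_of_injective (f := DirectSum.coeLinearMap f) h.dfinsupp_lsum_injective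

theorem dimE {G : Type*} [Group G] [Finite G] {D E : Subgroup G} {k W : Type*} [Field k] [IsAlgClosed k] [AddCommGroup W]
    [Module k W] [FiniteDimensional k W] (ρ : Representation k D W) (hE : E ≤ D) (hk : (♯E : k) ≠ 0) {z : G} {m : ℕ}
    (hz : (orderOf z).Prime) (h1 : 𝓩(E) = zpowers z) (h2 : ⁅E, E⁆ ≤ zpowers z) (h3 : (zpowers z).relIndex E = m ^ 2)
    {μ : k} (h4 : μ ≠ 1) (h5 : (rp ρ z).HasEigenvalue μ) : m ≤ finrank k ((rp ρ z).eigenspace μ) := by
  have z1 : z ∈ 𝓩(E) := h1 ▸ mem_zpowers z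
  obtain ⟨U, hU, a, b, c⟩ := exists_irr_res (ρ := ρ) hE (U := (rp ρ z).eigenspace μ) (fun x hx w hw => by
    rw [Module.End.mem_eigenspace_iff] at hw ⊢
    rw [← rp_mul_apply ρ (hE z1.1) (hE hx), ← BG.mem_cent.1 z1.2 x hx, rp_mul_apply ρ (hE hx) (hE z1.1), hw, map_smul]) h5
  haveI := Submodule.nontrivial_iff_ne_bot.2 b
  have e1 : rp (res ρ hE U hU) z = μ • 1 := LinearMap.ext fun w => Subtype.ext (by
    rw [coe_rp_res hE hU z1.1]; exact Module.End.mem_eigenspace_iff.1 (a w.2))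
  have e2 : ∀ y ∈ zpowers z, ∃ c : k, rp (res ρ hE U hU) y = c • 1 := fun y hy => by
    obtain ⟨i, rfl⟩ := mem_powers_iff_mem_zpowers.2 hy
    exact ⟨μ ^ i, by dsimp only; rw [rp_pow _ z1.1, e1, smul_pow, one_pow]⟩
  have e3 : rker (res ρ hE U hU) ⊓ zpowers z = ⊥ := by
    haveI : Fact (♯(zpowers z)).Prime := ⟨Nat.card_zpowers z ▸ hz⟩
    refine subgroupOf_eq_bot.1 (((rker (res ρ hE U hU)).subgroupOf (zpowers z)).eq_bot_or_eq_top_of_prime_card.resolve_right
      fun e => h4 ?_) |>.eq_bot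
    obtain ⟨w, hw⟩ := exists_ne (0 : U)
    have := congrArg (· w) (e1.symm.trans (mem_rker.1 (subgroupOf_eq_top.1 e (mem_zpowers z))).2)
    simp only [LinearMap.smul_apply, Module.End.one_apply] at this
    exact smul_left_injective k hw (this.trans (one_smul k w).symm)
  have := sq_finrank_eq_relIndex (ρ := res ρ hE U hU) le_rfl hk
    (fun T hT => c.schur T fun x hx => ((mem_Fix_linHom le_rfl).1 hT x hx).symm) (h1.ge.trans inf_le_left) e2 fun g hg hn =>
    HH.trace_eq_zero le_rfl (fun y hy => e2 y (h2 hy)) hg fun e => hn (h1.le ⟨hg, zpowers_le.1 (comm_eq_bot_iff.1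
      (BG.eq_bot_mono (le_inf ((le_Zr_iff le_rfl (zpowers_le.2 hg)).1 (zpowers_le.2 e))
        ((comm_mono (zpowers_le.2 hg) le_rfl).trans h2)) e3))⟩)
  rw [h3] at this
  rw [← Nat.pow_left_injective two_ne_zero this]
  exact Submodule.finrank_mono a

/-- Let p and r be distinct primes, let E be an extraspecial subgroup of order p^(2w+1) of a finite group, and let A be an elementary abelian r-subgroup normalized by E on which E acts faithfully (C_E(A) = 1). If n ≥ 1 is least with p dividing rⁿ − 1 (the smallest dimension of a faithful representation of a group of order p over the field with r elements), then the order of A is at least r^(n·p^w). -/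
theorem result {G : Type*} [Group G] [Finite G] {p r : ℕ} [Fact p.Prime] [hr : Fact r.Prime] (hpr : p ≠ r) (E A : Subgroup G) (w : ℕ) (hE : Cfsg.IsExtraspecial p ↥E) (hEcard : Nat.card ↥E = p ^ (2 * w + 1)) (hA : Cfsg.IsElementaryAbelian r A) (hnorm : E ≤ Subgroup.normalizer (A : Set G)) (hfaith : E ⊓ Subgroup.centralizer (A : Set G) = ⊥) (n : ℕ) (hn : 1 ≤ n) (hdiv : p ∣ r ^ n - 1) (hmin : ∀ k : ℕ, 1 ≤ k → p ∣ r ^ k - 1 → n ≤ k) : r ^ (n * p ^ w) ≤ Nat.card ↥A := by
  have hp : p.Prime := Fact.out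
  have c1 : ♯(𝓩(E) : Subgroup G) = p := by rw [← map_center, card_map_of_injective E.subtype_injective, hE.2]
  haveI : Fact (♯(𝓩(E) : Subgroup G)).Prime := ⟨c1 ▸ hp⟩
  obtain ⟨z, hz⟩ := exists_zpowers_of_cyc (isCyclic_of_prime_card (p := ♯(𝓩(E) : Subgroup G)) rfl : IsCyclic (𝓩(E) : Subgroup G))
  have z0 : orderOf z = p := by rw [← Nat.card_zpowers, hz, c1]
  have z1 : z ∈ E := (hz.le (mem_zpowers z)).1
  have hk : ∀ i, ((p ^ i : ℕ) : Fb r) ≠ 0 := fun i => cast_ne_zero_Fb fun e =>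
    hpr ((Nat.prime_dvd_prime_iff_eq hr.out hp).1 (hr.out.dvd_of_dvd_pow e)).symm
  set T := rp (krep hA) z with hT
  obtain ⟨μ, m1, m2⟩ : ∃ μ, μ ≠ 1 ∧ T.HasEigenvalue μ := by
    by_contra! e
    have := (isSemisimple_rp (ρ := krep hA) hnorm (hEcard ▸ hk _) z1).iSup_eigenspace_eq_top
    have a : T.eigenspace 1 = ⊤ := top_le_iff.1 (this.ge.trans (iSup_le fun μ => by
      by_cases b : μ = 1
      · rw [b]
      · exact (not_not.1 (e μ b) : T.eigenspace μ = ⊥).le.trans bot_le))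
    have b : z ∈ rker (krep hA) := mem_rker.2 ⟨hnorm z1, LinearMap.ext fun w => by
      simpa using Module.End.mem_eigenspace_iff.1 (a.ge (Submodule.mem_top (x := w)))⟩
    rw [rker_krep] at b
    rw [mem_bot.1 (hfaith.le ⟨z1, b⟩), orderOf_one] at z0
    exact hp.one_lt.ne z0
  have m3 : orderOf μ = p := orderOf_eq_prime (by
    obtain ⟨v, hv⟩ := m2.exists_hasEigenvector
    have := hv.pow_apply p
    rw [hT, ← rp_pow _ (hnorm z1), ← z0, pow_orderOf_eq_one, rp_one, z0] at this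
    exact smul_left_injective _ hv.2 (this.symm.trans (one_smul _ v).symm)) m1
  have m4 : ∀ i, T.HasEigenvalue (μ ^ r ^ i) := fun i => by
    induction i with
    | zero => simpa
    | succ i ih =>
      rw [hT, rp_bc _ (hnorm z1), Module.End.hasEigenvalue_iff_isRoot_charpoly] at ih ⊢
      erw [LinearMap.charpoly_baseChange] at ih ⊢
      rw [Polynomial.IsRoot, Polynomial.eval_map_algebraMap] at ih ⊢
      have := Polynomial.aeval_algHom_apply (FiniteField.frobeniusAlgHom (ZMod r) (Fb r)) (μ ^ r ^ i)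
        (LinearMap.charpoly (rp (erep hA) z))
      rw [ih, map_zero, FiniteField.frobeniusAlgHom_apply, ZMod.card] at this
      rwa [pow_succ, pow_mul]
  have hc : ∀ i, p.Coprime (r ^ i) := fun i => ((Nat.coprime_primes hp hr.out).2 hpr).pow_right i
  have m5 : Function.Injective fun i : Fin n => μ ^ r ^ (i : ℕ) := by
    have : ∀ i j : Fin n, i < j → μ ^ r ^ (i : ℕ) ≠ μ ^ r ^ (j : ℕ) := fun i j h e => by
      obtain ⟨d, hd⟩ := Nat.exists_eq_add_of_lt (show (i : ℕ) < j from h)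
      have a := (Nat.modEq_iff_dvd' (Nat.pow_le_pow_right hr.out.pos h.le)).1 (m3 ▸
        (isOfFinOrder_iff_pow_eq_one.2 ⟨p, hp.pos, m3 ▸ pow_orderOf_eq_one μ⟩).pow_eq_pow_iff_modEq.1 e)
      rw [hd, add_assoc, pow_add, ← Nat.mul_sub_one] at a
      have := hmin _ (by omega) ((hc i).dvd_of_dvd_mul_left a)
      omega
    exact fun i j e => by_contra fun h => (lt_or_gt_of_ne h).elim (this i j · e) (this j i · e.symm)
  rw [← pow_finrank_krep (hV := hA)]
  refine Nat.pow_le_pow_right hr.out.pos (le_trans ?_ (sum_le (T.eigenspaces_iSupIndep.comp m5)))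
  rw [show n * p ^ w = ∑ i : Fin n, p ^ w by simp]
  refine Finset.sum_le_sum fun i _ => dimE _ hnorm (hEcard ▸ hk _) (z0 ▸ hp) hz.symm ?_ ?_ (fun e => ?_) (m4 i)
  · rw [hz, ← map_center, ← hE.1.2.2, map_subtype_commutator]
  · have := card_mul_relIndex (zpowers_le.2 z1)
    rw [hz, c1, hEcard, pow_succ', ← hz] at this
    rw [Nat.eq_of_mul_eq_mul_left hp.pos this, ← pow_mul, mul_comm]
  · exact hp.one_lt.ne' ((hc i).eq_one_of_dvd (m3 ▸ orderOf_dvd_of_pow_eq_one e))

end Cfsg.Agent.S2912
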