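import Cfsg.Statements.S2924
import Cfsg.Agent.Lib.Loc.AmbChar
import Cfsg.Agent.Lib.Loc.ZN6
-- import your own Cfsg.Agent.* helpers here

set_option autoImplicit false
open Cfsg

namespace Cfsg.Agent.S2924

section Aux
open Subgroup Cfsg CA CA.Amb CA.AmbSyl CA.AmbCore CA.AmbRes CA.AmbChar CA.AmbSpe CA.AmbIso CA.AmbFs CA.AmbSI CA.ZN6
open scoped commutatorElement

theorem inv_core {G : Type*} [Group G] [Finite G] {z : G} (hz : z * z = 1) {N : Subgroup G} (n : z ∈ 𝐍 N)
    (h : CharP 2 (𝐍 N ⊓ centralizer {z})) (c : (Nat.card N).Coprime 2) {x : G} (hx : x ∈ N) : z * x * z⁻¹ = x⁻¹ :=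
  inverts_of_fpf hz n (h.eq_bot_of_coprime (inf_le_inf_right _ le_normalizer) ((pCoreOf_le 2 _).trans
    (norm_inf inf_le_left (norm_of_le inf_le_right))) (c.coprime_dvd_left (card_dvd_of_le inf_le_left))) hx

theorem layer_bot {G : Type*} [Group G] [Finite G] {z : G} (hz : z * z = 1) (h : CharP 2 (centralizer {z}))
    (hE : layer G = ⊥) : pLayer 2 G = ⊥ := by
  refine PComp.pLayer_eq_bot_iff_forall.2 fun K k => ?_
  have k1 := PComp.PCp.top_iff.2 k
  have i : ∀ x ∈ pPrimeCore 2 G, z * x * z⁻¹ = x⁻¹ := fun x => inv_core hz (norm_of_normal (L := ⊤) (mem_top z))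
    (by rwa [normalizer_eq_top, top_inf_eq]) Core.coprime_pPrimeCore
  have c : ∀ g, ⁅z, g⁆ ∈ 𝐂 (pPrimeCore 2 G) := fun g x hx => by
    have h1 := i _ ((inferInstance : (pPrimeCore 2 G).Normal).conj_mem' x hx g)
    have h2 := i _ (inv_mem hx)
    rw [commutatorElement_def, inv_eq_of_mul_eq_one_right hz]
    calc x * (z * g * z * g⁻¹) = z * x⁻¹ * z⁻¹ * (z * g * z * g⁻¹) := by rw [h2, inv_inv]
      _ = z * g * (g⁻¹ * x * g)⁻¹ * z * g⁻¹ := by group
      _ = _ := by rw [← h1]; group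
  have n := PGBasic.normal_sup_zpowers c
  rcases PComp.pcomp_le_or_commutator_le k n.isSubnormal with l | l
  · have l1 : K ≤ 𝐂 (pPrimeCore 2 G) := by
      exact (PComp.pcomp_perfect k).ge.trans ((commutator_mono l le_top).trans (PGBasic.commutator_sup_zpowers_le c))
    have := (Comp.Cp.top_iff.1 (k1.cp_of_qs (k1.qs_iff.2 (by
      rw [commutator_comm]
      exact commutator_eq_bot_iff'.2 (l1.trans (centralizer_anti ((SN.OQ_le (sn_top_iff.2 k.1)).trans OQ_top.le)))))))
    exact k1.ne_bot (le_bot_iff.1 ((Comp.le_layer this).trans hE.le))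
  have c1 := PLoc.coprime_ker_mk_pPrimeCore (p := 2) (G := G)
  have k2 := (k1.map_of_coprime c1).mono (L := (centralizer {z}).map (QuotientGroup.mk' _)) (by
    rw [PLoc.map_centralizer_singleton_p (QuotientGroup.mk'_surjective _) c1 (k := padicValNat 2 (orderOf z)) (by
      rcases (Nat.dvd_prime Nat.prime_two).1 (orderOf_dvd_of_pow_eq_one (x := z) (by rwa [pow_two])) with e | e <;> simp [e])]
    rintro _ ⟨x, x1, rfl⟩
    have := (QuotientGroup.eq_one_iff _).2 (l (commutator_mem_commutator x1 (mem_sup_right (mem_zpowers z))))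
    exact mem_centralizer_singleton_iff.2 (commutatorElement_eq_one_iff_mul_comm.1 this)) (map_mono le_top)
  obtain ⟨K', k3, -⟩ := PComp.PCp.exists_of_map (c1.coprime_dvd_left (card_dvd_of_le inf_le_right)) k2
  obtain ⟨e1, e2⟩ := charP_iff_bot.1 h
  exact k3.ne_bot (le_bot_iff.1 (EL_le_iff.1 e1.le _ (k3.cp_of_eq_bot
    ((map_eq_bot_iff_of_injective _ (subtype_injective _)).1 e2))))

end Aux

/-- Let X be a finite group and Y an elementary abelian 2-subgroup of X of order at least 8 such that C_X(x) has no components (E(C_X(x)) = 1) for every nontrivial x ∈ Y, and F*(C_X(z)) = O₂(C_X(z)) for some nontrivial z ∈ Y. Then the subgroup generated by the cores O(C_X(y)), y ∈ Y nontrivial, has odd order and is normalized by N_X(Y). -/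
theorem result {X : Type*} [Group X] [Finite X] (Y : Subgroup X) (hY : Cfsg.IsElementaryAbelian 2 Y) (h8 : 8 ≤ Nat.card ↥Y) (hE : ∀ x ∈ Y, x ≠ 1 → Cfsg.layer ↥(Subgroup.centralizer ({x} : Set X)) = ⊥) (hz : ∃ z ∈ Y, z ≠ 1 ∧ Cfsg.generalizedFittingSubgroup ↥(Subgroup.centralizer ({z} : Set X)) = Cfsg.pCore 2 ↥(Subgroup.centralizer ({z} : Set X))) : Odd (Nat.card ↥(⨆ y : {y : X // y ∈ Y ∧ y ≠ 1}, (Cfsg.oddCore ↥(Subgroup.centralizer ({(y : X)} : Set X))).map (Subgroup.centralizer ({(y : X)} : Set X)).subtype)) ∧ Subgroup.normalizer (Y : Set X) ≤ Subgroup.normalizer ((⨆ y : {y : X // y ∈ Y ∧ y ≠ 1}, (Cfsg.oddCore ↥(Subgroup.centralizer ({(y : X)} : Set X))).map (Subgroup.centralizer ({(y : X)} : Set X)).subtype : Subgroup X) : Set X) := by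
  open Subgroup Cfsg CA CA.Amb CA.AmbSyl CA.AmbCore CA.AmbRes CA.AmbChar CA.AmbSpe CA.AmbIso CA.AmbFs CA.AmbSI CA.ZN6 in
  open scoped commutatorElement in
  (
    obtain ⟨z, z1, z2, z3⟩ := hz
    rw [fstar_iff_charP] at z3
    refine ⟨?_, norm_W' Y⟩
    have zz := mul_self_of_ea hY z1
    have m : ∀ a ∈ Y, ∀ b ∈ Y, b ∈ centralizer {a} := fun a ha => le_cent_of_mem (ea_le_cent hY ha)
    have c : ∀ a ∈ Y, CharP 2 (centralizer {a} ⊓ centralizer {z}) := fun a ha => by
      rw [inf_comm, ← centralizer_zpowers a]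
      exact z3.inf_centralizer (isPGroup_zpowers' (ea_pow hY ha)) (zpowers_le.2 (m z z1 a ha))
    have b : ∀ a ∈ Y, a ≠ 1 → ∀ b ∈ Y, b ≠ 1 →
        centralizerPPrimeCore 2 a ⊓ centralizer {b} ≤ centralizerPPrimeCore 2 b := fun a ha a1 b hb b1 => by
      refine Bal2.cpc_inf_le_of_pLayer (layer_bot (z := ⟨z, m b hb z z1⟩) (Subtype.ext zz) ?_ (hE b hb b1))
        (m b hb a ha) (k := 1) (by simpa using orderOf_eq_of_pow (ea_pow hY ha) a1)
      have := (charP_subgroupOf_iff inf_le_left).2 (c b hb)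
      rwa [show (centralizer {b} ⊓ centralizer {z}).subgroupOf (centralizer {b}) = centralizer {⟨z, m b hb z z1⟩} from
        ext fun x => by simp only [mem_subgroupOf, mem_inf, x.2, true_and, mem_centralizer_singleton_iff,
          Subtype.ext_iff, coe_mul]] at this
    have ab : ∀ a ∈ Y, a ≠ 1 → centralizerPPrimeCore 2 a ≤ 𝐂 (centralizerPPrimeCore 2 a) := fun a ha a1 x hx y hy => by
      have i : ∀ x ∈ centralizerPPrimeCore 2 a, z * x * z⁻¹ = x⁻¹ := fun x => inverts_of_fpf zz (norm_θ a (m a ha z z1))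
        ((c a ha).eq_bot_of_coprime (inf_le_inf_right _ (Bal.centralizerPPrimeCore_le a)) ((pCoreOf_le 2 _).trans
          (norm_inf (inf_le_left.trans (norm_θ a)) (norm_of_le inf_le_right)))
          ((Bal2.coprime_cpc a).coprime_dvd_left (card_dvd_of_le inf_le_left)))
      have := i _ (mul_mem hx hy)
      rw [← conj_mul, i x hx, i y hy, ← mul_inv_rev, inv_inj] at this
      exact this
    have y0 : Y ≠ ⊥ := ne_bot_of_mem z1 z2
    have cm : ∀ a ∈ Y, a ≠ 1 → ∀ b ∈ Y, b ≠ 1 → centralizerPPrimeCore 2 a ≤ 𝐂 (centralizerPPrimeCore 2 b) :=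
      fun a ha a1 d hd d1 => Hyp.le_of_forall_hyperplane hY y0 (fun x hx => norm_θ a (m a ha x hx)) (Bal2.coprime_cpc a)
        fun B l i => cent_symm (Hyp.le_of_forall_hyperplane hY y0 (fun x hx => norm_θ d (m d hd x hx))
          (Bal2.coprime_cpc d) fun D l' i' => by
          obtain ⟨w, w1, w2⟩ := exists_ne_one_of_ne_bot (Hyp.inf_ne_bot_of_relIndex hY.1 l l' i.dvd
            (Hyp.pow_le_card_of_relIndex l' i'.dvd h8))
          exact (((inf_le_inf_left _ (Hyp.centralizer_le_singleton w1.2)).trans (b d hd d1 w (l w1.1) w2)).trans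
            (ab w (l w1.1) w2)).trans (centralizer_anti ((inf_le_inf_left _ (Hyp.centralizer_le_singleton w1.1)).trans
              (b a ha a1 w (l w1.1) w2))))
    exact Nat.coprime_two_right.1 ((coprime_OQ 2 (W Y)).coprime_dvd_left (card_dvd_of_le (W_le fun a ha a1 =>
      le_OQ (le_W ha a1) (norm_of_centralizer (W_le fun d hd d1 => cm d hd d1 a ha a1)) (Bal2.coprime_cpc a)))))

end Cfsg.Agent.S2924
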