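import Cfsg.Statements.S2925
import Cfsg.Agent.Lib.Loc.AmbChar
import Cfsg.Agent.Lib.Loc.AmbFs
-- import your own Cfsg.Agent.* helpers here

set_option autoImplicit false
open Cfsg

namespace Cfsg.Agent.S2925

/-- Let K be a component of the finite group X and T a Sylow 2-subgroup of X. If some abelian normal subgroup Y of T does not normalize K, then K ⧸ Z(K) has abelian Sylow 2-subgroups. -/
theorem result {X : Type*} [Group X] [Finite X] (K : Subgroup X) (hK : Cfsg.IsComponent K) (T : Sylow 2 X) (Y : Subgroup X) (hYT : Y ≤ (T : Subgroup X)) (hYn : (Y.subgroupOf (T : Subgroup X)).Normal) (hYab : IsMulCommutative ↥Y) (hnot : ¬ Y ≤ Subgroup.normalizer (K : Set X)) (P : Sylow 2 (↥K ⧸ Subgroup.center ↥K)) : IsMulCommutative ↥(P : Subgroup (↥K ⧸ Subgroup.center ↥K)) := by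
  open Subgroup Cfsg CA.Amb CA.AmbSyl CA.AmbCore CA.AmbRes CA.AmbChar CA.AmbWC CA.AmbSpe CA.AmbRed CA.AmbFs in
  open scoped commutatorElement in
  (
    haveI : Fact (Nat.Prime 2) := ⟨Nat.prime_two⟩
    obtain ⟨y, hy, hyn⟩ := SetLike.not_le_iff_exists.1 hnot
    have hTY : (T : Subgroup X) ≤ 𝐍 Y := le_normalizer_of_normal_subgroupOf hYT
    have hc : cj y K ≤ 𝐂 K := CA.Comp.comp_le_centralizer_of_ne (CA.Comp.comp_map_conj hK y) hK
      fun e => hyn (cj_eq_self_iff.1 e)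
    have hS := (sn_top_iff.2 hK.1).sylIn_inf (sylIn_top T)
    have key : ∀ s ∈ (T : Subgroup X) ⊓ K, ∀ t ∈ (T : Subgroup X) ⊓ K, ⁅s, t⁆ ∈ 𝐂 K := by
      intro s hs t ht
      have h1 : ∀ s ∈ (T : Subgroup X) ⊓ K, s * (y * s * y⁻¹)⁻¹ ∈ Y := fun s hs => by
        have : s * (y * s * y⁻¹)⁻¹ = (s * y * s⁻¹) * y⁻¹ := by group
        rw [this]; exact mul_mem (conj_mem_of_mem_normalizer (hTY hs.1) hy) (inv_mem hy)
      have h2 := CA.Coprime2.mul_comm_of_mem hYab (h1 s hs) (h1 t ht)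
      have hs' : y * s * y⁻¹ ∈ 𝐂 K := hc (conj_mem_cj.2 hs.2)
      have ht' : y * t * y⁻¹ ∈ 𝐂 K := hc (conj_mem_cj.2 ht.2)
      generalize y * s * y⁻¹ = a at h2 hs'
      generalize y * t * y⁻¹ = b at h2 ht'
      have e1 : t * a⁻¹ = a⁻¹ * t := inv_mem hs' t ht.2
      have e2 : s * b⁻¹ = b⁻¹ * s := inv_mem ht' s hs.2
      have e3 : s * t * (a⁻¹ * b⁻¹) = t * s * (b⁻¹ * a⁻¹) := by
        calc s * t * (a⁻¹ * b⁻¹) = s * (t * a⁻¹) * b⁻¹ := by group
          _ = s * a⁻¹ * (t * b⁻¹) := by rw [e1]; group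
          _ = t * (b⁻¹ * s) * a⁻¹ := by rw [h2]; group
          _ = _ := by rw [← e2]; group
      have e4 : (t * s)⁻¹ * (s * t) = (b⁻¹ * a⁻¹) * (a⁻¹ * b⁻¹)⁻¹ := by
        rw [eq_mul_inv_iff_mul_eq, mul_assoc, e3]; group
      have e5 : (t * s)⁻¹ * (s * t) ∈ 𝐂 K := e4 ▸ mul_mem (mul_mem (inv_mem ht') (inv_mem hs'))
        (inv_mem (mul_mem (inv_mem hs') (inv_mem ht')))
      have e6 : ⁅s, t⁆ = (t * s) * ((t * s)⁻¹ * (s * t)) * (t * s)⁻¹ := by
        simp only [commutatorElement_def]; group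
      rw [e6]
      exact conj_mem_of_mem_normalizer (norm_centralizer le_normalizer (mul_mem ht.2 hs.2)) e5
    have h1 := ((sylIn_subgroupOf_iff hS.le le_rfl).2 hS).map (QuotientGroup.mk' (center K))
    rw [subgroupOf_self, map_top_of_surjective _ (QuotientGroup.mk'_surjective _)] at h1
    obtain ⟨g, -, e⟩ := h1.exists_conj (sylIn_top P)
    rw [← le_centralizer_iff_isMulCommutative, ← commutator_eq_bot_iff', ← e, ← cj_commutator, cj_eq_bot,
      ← map_commutator, Subgroup.map_eq_bot_iff, QuotientGroup.ker_mk', commutator_le]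
    intro a ha b hb
    rw [mem_center_iff]
    intro k
    exact Subtype.ext (key a ha b hb k k.2))

end Cfsg.Agent.S2925
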