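import Cfsg.Statements.S5405
import Cfsg.Agent.Lib.Lin.CFormOBr

set_option autoImplicit false
open scoped MatrixGroups
open Cfsg

namespace Cfsg.Agent.S5405

open CA.CForm CA.CForm.Form Matrix
open scoped commutatorElement

section
variable {V : Type*} [AddCommGroup V] [Module (ZMod 2) V] (f : Form (Kind.orth (ZMod 2)) V)

theorem z2 : ∀ a : ZMod 2, a ≠ 0 → a = 1 := by decide

theorem z01 : ∀ a : ZMod 2, a = 0 ∨ a = 1 := by decide

theorem rf {a : V} (ha : f.Q a = 1) (x : V) :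
    (f.refl a : V ≃ₗ[ZMod 2] V) x = x + f.B a x • a := by
  rw [refl_apply, ha, inv_one, one_mul, ZModModule.sub_eq_add]

theorem Bs (a : V) : f.B a a = 0 := by
  rw [f.orth_B_self]; exact mul_eq_zero_of_left rfl _

/-- crossed homomorphism on the commutator subgroup -/
def Cr (D : f.Isom → V) : Prop :=
  ∀ g ∈ commutator f.Isom, ∀ h ∈ commutator f.Isom, D (g * h) = D g + (g : V ≃ₗ[ZMod 2] V) (D h)

variable {f}

theorem Cr.one {D : f.Isom → V} (hD : Cr f D) : D 1 = 0 := by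
  have := hD 1 (one_mem _) 1 (one_mem _)
  rw [one_mul, isom_one_apply] at this
  exact left_eq_add.1 this

variable [FiniteDimensional (ZMod 2) V] (hf : f.Nondeg)
include hf

theorem mem_com {a b : V} (ha : f.Q a = 1) (hb : f.Q b = 1) :
    f.refl a * f.refl b ∈ commutator f.Isom := by
  have := hf.reflProd_mem_commutator (l := [a, b]) (by simp [ha, hb]) (by simp) (by simp [ha, hb])
  simpa using this

omit [FiniteDimensional (ZMod 2) V] hf in
theorem refl_add {a b : V} (ha : f.Q a = 1) (hab : f.B a b = 1) :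
    f.refl a * f.refl (a + b) = f.refl b * f.refl a := by
  have h1 := f.conj_refl (f.refl a) b
  rw [rf f ha, hab, one_smul, add_comm, refl_inv] at h1
  rw [← h1, ← mul_assoc, ← mul_assoc, refl_mul_self, one_mul]

omit [FiniteDimensional (ZMod 2) V] hf in
theorem refl_sq {a b : V} (ha : f.Q a = 1) (hb : f.Q b = 1) (hab : f.B a b = 1) :
    (f.refl a * f.refl b) * (f.refl a * f.refl b) = f.refl b * f.refl a := by
  have h1 := refl_add ha hab
  have h2 := refl_add hb ((f.orth_symm a b).trans hab)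
  rw [add_comm] at h2
  calc _ = f.refl a * (f.refl b * f.refl a) * f.refl b := by group
    _ = f.refl a * (f.refl a * f.refl (a + b)) * f.refl b := by rw [h1]
    _ = f.refl (a + b) * f.refl b := by rw [← mul_assoc (f.refl a), refl_mul_self, one_mul]
    _ = f.refl b * (f.refl b * f.refl (a + b)) * f.refl b := by
      rw [← mul_assoc (f.refl b), refl_mul_self, one_mul]
    _ = f.refl b * (f.refl a * f.refl b) * f.refl b := by rw [h2]
    _ = f.refl b * f.refl a := by rw [mul_assoc, mul_assoc, refl_mul_self, mul_one]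

theorem Cr.span {D : f.Isom → V} (hD : Cr f D) {a b : V} (ha : f.Q a = 1) (hb : f.Q b = 1)
    (hab : f.B a b = 1) : ∃ μ ν : ZMod 2, D (f.refl a * f.refl b) = μ • a + ν • b ∧
      D (f.refl b * f.refl a) = (μ + ν) • a + μ • b := by
  have hba : f.B b a = 1 := (f.orth_symm a b).trans hab
  have h1 := hD _ (mem_com hf ha hb) _ (mem_com hf ha hb)
  have h2 := hD _ (mem_com hf ha hb) _ (mem_com hf hb ha)
  rw [refl_sq ha hb hab] at h1
  rw [mul_assoc, ← mul_assoc (f.refl b), refl_mul_self, one_mul, refl_mul_self, hD.one, h1] at h2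
  set x := D (f.refl a * f.refl b)
  simp only [isom_mul_apply, rf f ha, rf f hb, map_add, map_smul, Bs, hab, hba, smul_eq_mul] at h1 h2
  have e1 : x = f.B b x • a + f.B a x • b := by
    generalize f.B a x = α at *
    generalize f.B b x = β at *
    rcases z01 α with rfl | rfl <;> rcases z01 β with rfl | rfl <;>
    · linear_combination (norm := skip) h2
      match_scalars <;> decide
  refine ⟨f.B b x, f.B a x, e1, ?_⟩
  rw [h1]
  generalize f.B a x = α at *
  generalize f.B b x = β at *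
  rcases z01 α with rfl | rfl <;> rcases z01 β with rfl | rfl <;>
  · match_scalars <;> decide

/-- the value at `a` -/
def al (D : f.Isom → V) (a b : V) : ZMod 2 := f.B (a + b) (D (f.refl a * f.refl b))

theorem Cr.al_add {D : f.Isom → V} (hD : Cr f D) {a b : V} (ha : f.Q a = 1) (hb : f.Q b = 1)
    (hab : f.B a b = 1) : al D a (a + b) = al D a b ∧ al D (a + b) a = al D a b + al D b a ∧
      D (f.refl a * f.refl b) = (al D a b + al D b a) • a + al D b a • b := by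
  have hba : f.B b a = 1 := (f.orth_symm a b).trans hab
  obtain ⟨μ, ν, h1, h2⟩ := hD.span hf ha hb hab
  have h3 : f.refl (a + b) * f.refl a = f.refl a * f.refl b := by
    have := congrArg (·⁻¹) (refl_add ha hab)
    simpa only [_root_.mul_inv_rev, refl_inv] using this
  simp only [al, refl_add ha hab, h3, h1, h2, map_add, map_smul, B_add_left, Bs, hab, hba,
    smul_eq_mul]
  rcases z01 μ with rfl | rfl <;> rcases z01 ν with rfl | rfl <;>
  · refine ⟨by decide, by decide, ?_⟩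
    match_scalars <;> decide

theorem Cr.al_eq0 {D : f.Isom → V} (hD : Cr f D) {a b c : V} (ha : f.Q a = 1) (hb : f.Q b = 1)
    (hc : f.Q c = 1) (hab : f.B a b = 1) (hac : f.B a c = 1) (hbc : f.B b c = 0) :
    al D a b = al D a c := by
  by_cases hne : b = c
  · rw [hne]
  have hba : f.B b a = 1 := (f.orth_symm a b).trans hab
  have hca : f.B c a = 1 := (f.orth_symm a c).trans hac
  have hcb : f.B c b = 0 := (f.orth_symm b c).trans hbc
  obtain ⟨μ, ν, h1, h2⟩ := hD.span hf ha hb hab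
  obtain ⟨μ', ν', h1', -⟩ := hD.span hf ha hc hac
  have h3 := hD _ (mem_com hf hb ha) _ (mem_com hf ha hc)
  rw [mul_assoc, ← mul_assoc (f.refl a), refl_mul_self, one_mul] at h3
  have h4 := hD _ (mem_com hf hb hc) _ (mem_com hf hb hc)
  have h5 : f.refl b * f.refl c * (f.refl b * f.refl c) = 1 := by
    have h6 := f.conj_refl (f.refl b) c
    rw [rf f hb, hbc, zero_smul, add_zero, refl_inv] at h6
    rw [← mul_assoc, h6, refl_mul_self]
  rw [h5, hD.one] at h4
  have h7 : f.B b (D (f.refl b * f.refl c)) = 0 := by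
    set x := D (f.refl b * f.refl c)
    simp only [isom_mul_apply, rf f hb, rf f hc, map_add, map_smul, hbc, smul_eq_mul] at h4
    generalize f.B b x = α at *
    generalize f.B c x = β at *
    rcases z01 α with rfl | rfl
    · rfl
    exfalso
    rcases z01 β with rfl | rfl
    · have : b = 0 := by
        linear_combination (norm := skip) h4
        match_scalars <;> decide
      rw [this] at hb
      simp at hb
    · apply hne
      linear_combination (norm := skip) h4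
      match_scalars <;> decide
  rw [h3] at h7
  simp only [al, h1, h1', h2, isom_mul_apply, rf f ha, rf f hb, map_add, map_smul, B_add_left, Bs,
    hab, hba, hac, hca, hbc, hcb, smul_eq_mul] at h7 ⊢
  clear h1 h2 h1' h3
  revert μ ν μ' ν'
  decide

theorem Cr.al_eq {D : f.Isom → V} (hD : Cr f D) {a b c : V} (ha : f.Q a = 1) (hb : f.Q b = 1)
    (hc : f.Q c = 1) (hab : f.B a b = 1) (hac : f.B a c = 1) : al D a b = al D a c := by
  rcases z01 (f.B b c) with h | h
  · exact hD.al_eq0 hf ha hb hc hab hac h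
  · rw [← (hD.al_add hf ha hb hab).1]
    refine hD.al_eq0 hf ha ?_ hc ?_ hac ?_
    · rw [f.orth_Q_add, ha, hb, hab]; decide
    · rw [map_add, Bs, hab, zero_add]
    · rw [B_add_left, hac, h]; decide

theorem Cr.princ {D : f.Isom → V} (hD : Cr f D) (hg : f.Good)
    (H : ∀ φ : V → ZMod 2, (∀ a b, f.Q a = 1 → f.Q b = 1 → f.Q (a + b) = 1 →
      φ (a + b) = φ a + φ b) → ∃ v, ∀ a, f.Q a = 1 → φ a = f.B a v) :
    ∃ v, ∀ g ∈ commutator f.Isom, D g = (g : V ≃ₗ[ZMod 2] V) v - v := by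
  classical
  let φ : V → ZMod 2 := fun a =>
    if h : ∃ b, f.Q b = 1 ∧ f.B a b = 1 then al D a h.choose else 0
  have hφ : ∀ a b, f.Q a = 1 → f.Q b = 1 → f.B a b = 1 → φ a = al D a b := by
    intro a b ha hb hab
    have h : ∃ b, f.Q b = 1 ∧ f.B a b = 1 := ⟨b, hb, hab⟩
    simp only [φ, dif_pos h]
    exact hD.al_eq hf ha h.choose_spec.1 hb h.choose_spec.2 hab
  obtain ⟨v, hv⟩ := H φ (fun a b ha hb hab => by
    have h1 : f.B a b = 1 := by
      rw [f.orth_Q_add, ha, hb] at hab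
      rw [← hab, show (1 : ZMod 2) + 1 = 0 from rfl, zero_add]
    have hba : f.B b a = 1 := (f.orth_symm a b).trans h1
    rw [hφ a b ha hb h1, hφ b a hb ha hba, hφ (a + b) a hab ha (by rw [B_add_left, Bs, hba, zero_add]),
      (hD.al_add hf ha hb h1).2.1])
  refine ⟨v, ?_⟩
  let K : Subgroup f.Isom :=
    { carrier := {g | g ∈ commutator f.Isom ∧ D g = (g : V ≃ₗ[ZMod 2] V) v - v}
      one_mem' := ⟨one_mem _, by rw [hD.one, isom_one_apply, sub_self]⟩
      mul_mem' := fun {g h} hg hh => ⟨mul_mem hg.1 hh.1, by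
        rw [hD g hg.1 h hh.1, hg.2, hh.2, isom_mul_apply, map_sub]; abel⟩
      inv_mem' := fun {g} hg => ⟨inv_mem hg.1, by
        have h1 := hD _ (inv_mem hg.1) _ hg.1
        rw [inv_mul_cancel, hD.one, hg.2, map_sub, isom_inv_apply_apply] at h1
        linear_combination (norm := abel1) -h1⟩ }
  let S : Subgroup f.Isom := Subgroup.closure
    {g | ∃ a b, f.Q a = 1 ∧ f.Q b = 1 ∧ f.B a b = 1 ∧ g = f.refl a * f.refl b}
  have hSK : S ≤ K := by
    rw [Subgroup.closure_le]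
    rintro _ ⟨a, b, ha, hb, hab, rfl⟩
    have hba : f.B b a = 1 := (f.orth_symm a b).trans hab
    refine ⟨mem_com hf ha hb, ?_⟩
    rw [(hD.al_add hf ha hb hab).2.2, ← hφ a b ha hb hab, ← hφ b a hb ha hba, hv a ha, hv b hb]
    simp only [isom_mul_apply, rf f ha, rf f hb, map_add, map_smul, hab, smul_eq_mul]
    generalize f.B a v = α
    generalize f.B b v = β
    rcases z01 α with rfl | rfl <;> rcases z01 β with rfl | rfl <;>
    · match_scalars <;> decide
  haveI : S.Normal := by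
    refine ⟨fun n hn g => ?_⟩
    have : S.map (MulAut.conj g).toMonoidHom ≤ S := by
      rw [MonoidHom.map_closure]
      apply Subgroup.closure_mono
      rintro _ ⟨_, ⟨a, b, ha, hb, hab, rfl⟩, rfl⟩
      refine ⟨(g : V ≃ₗ[ZMod 2] V) a, (g : V ≃ₗ[ZMod 2] V) b, (g.2.2 a).trans ha,
        (g.2.2 b).trans hb, (g.2.1 a b).trans hab, ?_⟩
      rw [← f.conj_refl, ← f.conj_refl]
      simp [mul_assoc]
    exact this ⟨n, hn, rfl⟩
  have c1 : ∀ a b, f.Q a = 1 → f.Q b = 1 →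
      Commute (QuotientGroup.mk' S (f.refl a)) (QuotientGroup.mk' S (f.refl b)) := by
    intro a b ha hb
    rcases z01 (f.B a b) with h | h
    · have h6 := f.conj_refl (f.refl a) b
      rw [rf f ha, h, zero_smul, add_zero] at h6
      have : Commute (f.refl a) (f.refl b) := mul_inv_eq_iff_eq_mul.1 h6
      exact this.map _
    · have h1 : QuotientGroup.mk' S (f.refl a * f.refl b) = 1 :=
        (QuotientGroup.eq_one_iff _).2 (Subgroup.subset_closure ⟨a, b, ha, hb, h, rfl⟩)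
      have h2 : QuotientGroup.mk' S (f.refl b * f.refl a) = 1 :=
        (QuotientGroup.eq_one_iff _).2 (Subgroup.subset_closure
          ⟨b, a, hb, ha, (f.orth_symm a b).trans h, rfl⟩)
      rw [map_mul] at h1 h2
      exact h1.trans h2.symm
  have c2 : ∀ a, f.Q a = 1 → ∀ g,
      Commute (QuotientGroup.mk' S (f.refl a)) (QuotientGroup.mk' S g) := by
    intro a ha g
    have := hf.eq_top_of_refl hg (G := (Subgroup.centralizer
      {QuotientGroup.mk' S (f.refl a)}).comap (QuotientGroup.mk' S)) (fun b hb =>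
        Subgroup.mem_centralizer_singleton_iff.2 (c1 a b ha (z2 _ hb)).symm)
    have h1 : g ∈ (Subgroup.centralizer
      {QuotientGroup.mk' S (f.refl a)}).comap (QuotientGroup.mk' S) := this ▸ Subgroup.mem_top g
    exact (Subgroup.mem_centralizer_singleton_iff.1 h1).symm
  have c3 : ∀ h g, Commute (QuotientGroup.mk' S h) (QuotientGroup.mk' S g) := by
    intro h g
    have := hf.eq_top_of_refl hg (G := (Subgroup.centralizer
      {QuotientGroup.mk' S g}).comap (QuotientGroup.mk' S)) (fun b hb =>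
        Subgroup.mem_centralizer_singleton_iff.2 (c2 b (z2 _ hb) g))
    have h1 : h ∈ (Subgroup.centralizer
      {QuotientGroup.mk' S g}).comap (QuotientGroup.mk' S) := this ▸ Subgroup.mem_top h
    exact Subgroup.mem_centralizer_singleton_iff.1 h1
  have c4 : commutator f.Isom ≤ S := by
    rw [commutator_def, Subgroup.commutator_le]
    intro g _ h _
    rw [← QuotientGroup.eq_one_iff, ← QuotientGroup.mk'_apply, map_commutatorElement,
      commutatorElement_eq_one_iff_commute]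
    exact c3 g h
  exact fun g hg => (hSK (c4 hg)).2

end

/-- bit vectors -/
def vec {ι : Type} (ix : ι → ℕ) (n : ℕ) : ι → ZMod 2 := fun i => if n.testBit (ix i) then 1 else 0

theorem vec_xor {ι : Type} (ix : ι → ℕ) (m n : ℕ) : vec ix (m ^^^ n) = vec ix m + vec ix n := by
  funext i
  simp only [vec, Nat.testBit_xor, Pi.add_apply]
  cases m.testBit (ix i) <;> cases n.testBit (ix i) <;> decide

theorem vec_surj {ι : Type} [Fintype ι] [DecidableEq ι] (ix : ι → ℕ) (d : ℕ) (h1 : ∀ i, ix i < d)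
    (h2 : Function.Injective ix) (x : ι → ZMod 2) : ∃ n < 2 ^ d, vec ix n = x := by
  rw [← Finset.univ_sum_single x]
  refine Finset.sum_induction _ (fun y => ∃ n < 2 ^ d, vec ix n = y) ?_ ?_ ?_
  · rintro _ _ ⟨m, hm, rfl⟩ ⟨n, hn, rfl⟩
    exact ⟨m ^^^ n, Nat.xor_lt_two_pow hm hn, vec_xor _ _ _⟩
  · exact ⟨0, by positivity, by funext i; simp [vec]⟩
  · intro i _
    rcases z01 (x i) with h | h
    · exact ⟨0, by positivity, by funext j; simp [vec, h]⟩
    · refine ⟨2 ^ ix i, Nat.pow_lt_pow_right (by norm_num) (h1 i), ?_⟩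
      funext j
      simp only [vec, Nat.testBit_two_pow, h, h2.eq_iff, Pi.single_apply, decide_eq_true_eq]
      exact if_congr eq_comm rfl rfl

/-- certificate check -/
def good (q : ℕ → Bool) (E : List ℕ) : List ℕ → Bool
  | [] => true
  | n :: r => q n && (E.contains n || E.any (fun e => r.contains (n ^^^ e))) && good q E r

theorem good_sound {q : ℕ → Bool} {E : List ℕ} {P : ℕ → Prop} (hE : ∀ e ∈ E, P e)
    (hs : ∀ m e, P m → P e → q (m ^^^ e) = true → P (m ^^^ e)) :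
    ∀ L, good q E L = true → ∀ n ∈ L, P n := by
  intro L
  induction L with
  | nil => simp
  | cons n r ih =>
    intro h
    simp only [good, Bool.and_eq_true, Bool.or_eq_true, List.contains_iff_mem,
      List.any_eq_true] at h
    obtain ⟨⟨h1, h2⟩, h3⟩ := h
    intro m hm
    rcases List.mem_cons.1 hm with rfl | hm
    · rcases h2 with h2 | ⟨e, he, h2⟩
      · exact hE _ h2
      · have h4 : m = (m ^^^ e) ^^^ e := by rw [Nat.xor_assoc, Nat.xor_self, Nat.xor_zero]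
        rw [h4]
        exact hs _ _ (ih h3 _ h2) (hE e he) (h4 ▸ h1)
    · exact ih h3 m hm

theorem lin {ι : Type} [Fintype ι] [DecidableEq ι] (f : Form (Kind.orth (ZMod 2)) (ι → ZMod 2))
    (Q : (ι → ZMod 2) → ZMod 2) (hQ : f.Q = Q)
    (ix : ι → ℕ) (d : ℕ) (h1 : ∀ i, ix i < d) (h2 : Function.Injective ix) (e w : Fin d → ℕ)
    (L : List ℕ) (h3 : ∀ i j, Q (vec ix (e i ^^^ w j)) + Q (vec ix (e i)) + Q (vec ix (w j)) =
      if i = j then 1 else 0)
    (h4 : ∀ i, Q (vec ix (e i)) = 1)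
    (h5 : good (fun n => decide (Q (vec ix n) = 1)) (List.ofFn e) L = true)
    (h6 : ((List.range (2 ^ d)).all fun n => !decide (Q (vec ix n) = 1) || L.contains n) = true)
    (ψ : (ι → ZMod 2) → ZMod 2) (hψ : ∀ a b, f.Q a = 1 → f.Q b = 1 → f.Q (a + b) = 1 →
      ψ (a + b) = ψ a + ψ b) : ∃ v, ∀ a, f.Q a = 1 → ψ a = f.B a v := by
  subst hQ
  refine ⟨∑ j, ψ (vec ix (e j)) • vec ix (w j), fun a ha => ?_⟩
  have hB : ∀ i j, f.B (vec ix (e i)) (vec ix (w j)) = if i = j then 1 else 0 := by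
    intro i j
    rw [← h3, vec_xor, f.orth_Q_add]
    generalize f.B _ _ = x
    generalize f.Q _ = y
    generalize f.Q _ = z
    revert x y z; decide
  have := good_sound (P := fun n => f.Q (vec ix n) = 1 ∧
    ψ (vec ix n) = f.B (vec ix n) (∑ j, ψ (vec ix (e j)) • vec ix (w j))) ?_ ?_ L h5
  · obtain ⟨n, hn, rfl⟩ := vec_surj ix d h1 h2 a
    rw [List.all_eq_true] at h6
    have h7 := h6 n (List.mem_range.2 hn)
    simp only [ha, decide_true, Bool.not_true, Bool.false_or, List.contains_iff_mem] at h7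
    exact (this n h7).2
  · intro x hx
    obtain ⟨i, rfl⟩ := List.mem_ofFn.1 hx
    refine ⟨h4 i, ?_⟩
    simp [map_sum, hB]
  · intro m x hm hx hq
    have hq' : f.Q (vec ix (m ^^^ x)) = 1 := of_decide_eq_true hq
    refine ⟨hq', ?_⟩
    rw [vec_xor] at hq' ⊢
    rw [hψ _ _ hm.1 hx.1 hq', B_add_left, hm.2, hx.2]

theorem fin {ι : Type} [Fintype ι] [DecidableEq ι] (f : Form (Kind.orth (ZMod 2)) (ι → ZMod 2))
    (hf : f.Nondeg) (hg : f.Good)
    (H : ∀ φ : (ι → ZMod 2) → ZMod 2, (∀ a b, f.Q a = 1 → f.Q b = 1 → f.Q (a + b) = 1 →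
      φ (a + b) = φ a + φ b) → ∃ v, ∀ a, f.Q a = 1 → φ a = f.B a v)
    (c : Cfsg.Omega (ZMod 2) f.Q → ι → ZMod 2)
    (hc : ∀ g h : Cfsg.Omega (ZMod 2) f.Q, c (g * h) = c g +
      (((g : Cfsg.isometryGroup (ZMod 2) f.Q) : GL ι (ZMod 2)) : Matrix ι ι (ZMod 2)) *ᵥ c h) :
    ∃ v : ι → ZMod 2, ∀ g : Cfsg.Omega (ZMod 2) f.Q, c g =
      (((g : Cfsg.isometryGroup (ZMod 2) f.Q) : GL ι (ZMod 2)) : Matrix ι ι (ZMod 2)) *ᵥ v - v := by
  classical
  let D : f.Isom → ι → ZMod 2 := fun g =>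
    if h : g ∈ commutator f.Isom then c ((omegaEquiv f).symm ⟨g, h⟩) else 0
  have hD : ∀ g : Cfsg.Omega (ZMod 2) f.Q, D (omegaEquiv f g) = c g := fun g => by
    simp only [D, dif_pos (omegaEquiv f g).2, Subtype.coe_eta, MulEquiv.symm_apply_apply]
  have hCr : Cr f D := by
    intro g hg h hh
    obtain ⟨g', hg'⟩ := (omegaEquiv f).surjective ⟨g, hg⟩
    obtain ⟨h', hh'⟩ := (omegaEquiv f).surjective ⟨h, hh⟩
    obtain rfl : (omegaEquiv f g' : f.Isom) = g := congrArg Subtype.val hg'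
    obtain rfl : (omegaEquiv f h' : f.Isom) = h := congrArg Subtype.val hh'
    rw [← Subgroup.coe_mul, ← map_mul, hD, hD, hD, hc, coe_omegaEquiv, orthEquiv_apply]
  obtain ⟨v, hv⟩ := hCr.princ hf hg H
  refine ⟨v, fun g => ?_⟩
  rw [← hD, hv _ (omegaEquiv f g).2, coe_omegaEquiv, orthEquiv_apply]

/-- coordinates -/
def ixm (m : ℕ) : (Fin m ⊕ Fin m) ⊕ Fin 2 → ℕ
  | .inl (.inl i) => i
  | .inl (.inr i) => m + i
  | .inr i => 2 * m + i

/-- coordinates -/
def ixp (m : ℕ) : Fin m ⊕ Fin m → ℕ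
  | .inl i => i
  | .inr i => m + i

theorem an : ∀ z₁ z₂ : ZMod 2, z₁ ^ 2 + 1 * z₁ * z₂ + 1 * z₂ ^ 2 = 0 → z₁ = 0 ∧ z₂ = 0 := by decide

/-- Vanishing of first cohomology on the natural module for three small orthogonal groups over the field with two elements: for the commutator subgroup of the isometry group of the elliptic quadratic form in dimension 4, of the elliptic form in dimension 6, and of the hyperbolic form in dimension 8, every crossed homomorphism into the natural module (a map f with f(gh) = f(g) + g·f(h)) is principal (of the form g ↦ g·v − v). -/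
theorem result : (∀ f : ↥(Cfsg.Omega (ZMod 2) (Cfsg.quadFormMinus 1 (ZMod 2) 1 1)) → ((Fin 1 ⊕ Fin 1) ⊕ Fin 2 → ZMod 2), (∀ g h : ↥(Cfsg.Omega (ZMod 2) (Cfsg.quadFormMinus 1 (ZMod 2) 1 1)), f (g * h) = f g + Matrix.mulVec (((g : ↥(Cfsg.isometryGroup (ZMod 2) (Cfsg.quadFormMinus 1 (ZMod 2) 1 1))) : GL ((Fin 1 ⊕ Fin 1) ⊕ Fin 2) (ZMod 2)) : Matrix ((Fin 1 ⊕ Fin 1) ⊕ Fin 2) ((Fin 1 ⊕ Fin 1) ⊕ Fin 2) (ZMod 2)) (f h)) → ∃ v : (Fin 1 ⊕ Fin 1) ⊕ Fin 2 → ZMod 2, ∀ g : ↥(Cfsg.Omega (ZMod 2) (Cfsg.quadFormMinus 1 (ZMod 2) 1 1)), f g = Matrix.mulVec (((g : ↥(Cfsg.isometryGroup (ZMod 2) (Cfsg.quadFormMinus 1 (ZMod 2) 1 1))) : GL ((Fin 1 ⊕ Fin 1) ⊕ Fin 2) (ZMod 2)) : Matrix ((Fin 1 ⊕ Fin 1) ⊕ Fin 2) ((Fin 1 ⊕ Fin 1) ⊕ Fin 2) (ZMod 2)) v - v) ∧ (∀ f : ↥(Cfsg.Omega (ZMod 2) (Cfsg.quadFormMinus 2 (ZMod 2) 1 1)) → ((Fin 2 ⊕ Fin 2) ⊕ Fin 2 → ZMod 2), (∀ g h : ↥(Cfsg.Omega (ZMod 2) (Cfsg.quadFormMinus 2 (ZMod 2) 1 1)), f (g * h) = f g + Matrix.mulVec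 (((g : ↥(Cfsg.isometryGroup (ZMod 2) (Cfsg.quadFormMinus 2 (ZMod 2) 1 1))) : GL ((Fin 2 ⊕ Fin 2) ⊕ Fin 2) (ZMod 2)) : Matrix ((Fin 2 ⊕ Fin 2) ⊕ Fin 2) ((Fin 2 ⊕ Fin 2) ⊕ Fin 2) (ZMod 2)) (f h)) → ∃ v : (Fin 2 ⊕ Fin 2) ⊕ Fin 2 → ZMod 2, ∀ g : ↥(Cfsg.Omega (ZMod 2) (Cfsg.quadFormMinus 2 (ZMod 2) 1 1)), f g = Matrix.mulVec (((g : ↥(Cfsg.isometryGroup (ZMod 2) (Cfsg.quadFormMinus 2 (ZMod 2) 1 1))) : GL ((Fin 2 ⊕ Fin 2) ⊕ Fin 2) (ZMod 2)) : Matrix ((Fin 2 ⊕ Fin 2) ⊕ Fin 2) ((Fin 2 ⊕ Fin 2) ⊕ Fin 2) (ZMod 2)) v - v) ∧ (∀ f : ↥(Cfsg.Omega (ZMod 2) (Cfsg.quadFormPlus 4 (ZMod 2))) → (Fin 4 ⊕ Fin 4 → ZMod 2), (∀ g h : ↥(Cfsg.Omega (ZMod 2) (Cfsg.quadFormPlus 4 (ZMod 2))), f (g * h) = f g + Matrix.mulVec (((g : ↥(Cfsg.isometryGroup (ZMod 2) (Cfsg.quadFormPlus 4 (ZMod 2)))) : GL (Fin 4 ⊕ Fin 4) (ZMod 2)) : Matrix (Fin 4 ⊕ Fin 4) (Fin 4 ⊕ Fin 4) (ZMod 2)) (f h)) → ∃ v : Fin 4 ⊕ Fin 4 → ZMod 2, ∀ g : ↥(Cfsg.Omega (ZMod 2) (Cfsg.quadFormPlus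 4 (ZMod 2))), f g = Matrix.mulVec (((g : ↥(Cfsg.isometryGroup (ZMod 2) (Cfsg.quadFormPlus 4 (ZMod 2)))) : GL (Fin 4 ⊕ Fin 4) (ZMod 2)) : Matrix (Fin 4 ⊕ Fin 4) (Fin 4 ⊕ Fin 4) (ZMod 2)) v - v) := by
  refine ⟨fin (minusForm 1 1 1) (minusForm_nondeg 1 an) ?_ ?_,
    fin (minusForm 2 1 1) (minusForm_nondeg 2 an) ?_ ?_,
    fin (plusForm (ZMod 2) 4) (plusForm_nondeg _ 4) ?_ ?_⟩
  · exact Or.inr (Or.inr fun h => absurd (h.unique (minusForm_isIndex 1 an)) (by norm_num))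
  · exact lin _ (Cfsg.quadFormMinus 1 (ZMod 2) 1 1) rfl (ixm 1) 4 (by decide) (by decide)
      ![5, 4, 8, 3] ![3, 11, 4, 1] [10, 14, 9, 12, 6, 13, 3, 8, 4, 5]
      (by decide +kernel) (by decide +kernel) (by decide +kernel) (by decide +kernel)
  · exact Or.inr (Or.inl (by simp))
  · exact lin _ (Cfsg.quadFormMinus 2 (ZMod 2) 1 1) rfl (ixm 2) 6 (by decide) (by decide)
      ![18, 13, 32, 17, 54, 44] ![11, 44, 61, 40, 3, 46] [40, 11, 57, 25, 52, 38, 47, 20, 24, 16, 10, 5, 34, 56, 19, 7, 48, 60, 35, 51, 41, 14, 63, 22, 49, 33, 28, 36, 50, 31, 44, 54, 17, 32, 13, 18]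
      (by decide +kernel) (by decide +kernel) (by decide +kernel) (by decide +kernel)
  · exact Or.inr (Or.inl (by simp))
  · exact lin _ (Cfsg.quadFormPlus 4 (ZMod 2)) rfl (ixp 4) 8 (by decide) (by decide)
      ![50, 162, 232, 221, 211, 34, 81, 47] ![197, 190, 192, 148, 226, 109, 178, 212] [143, 92, 173, 119, 178, 254, 69, 212, 38, 226, 17, 227, 109, 42, 197, 35, 209, 152, 106, 251, 49, 62, 136, 79, 247, 114, 203, 57, 201, 58, 200, 31, 168, 89, 19, 147, 39, 91, 156, 214, 167, 166, 216, 84, 149, 223, 233, 27, 154, 228, 107, 21, 78, 61, 138, 177, 188, 121, 244, 116, 122, 137, 54, 70, 196, 71, 182, 124, 187, 253, 142, 184, 198, 181, 68, 108, 145, 238, 98, 158, 86, 169, 43, 163, 229, 25, 100, 23, 101, 94, 83, 46, 172, 151, 191, 76, 77, 139, 248, 241, 242, 140, 199, 202, 53, 141, 113, 127, 29, 99, 239, 218, 47, 81, 34, 211, 221, 232, 162, 50]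
      (by decide +kernel) (by decide +kernel) (by decide +kernel) (by decide +kernel)

end Cfsg.Agent.S5405
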