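import Cfsg.Statements.S2931
import Cfsg.Agent.S5405
import Cfsg.Agent.Lib.Fi.We6
import Cfsg.Agent.Lib.Lin.FieldIso

set_option autoImplicit false
open Cfsg

namespace Cfsg.Agent.S2931

open CA.CForm CA.CForm.Form Matrix Subgroup Cfsg.Agent.S5405
open scoped Pointwise

theorem sup_two {G : Type*} [Group G] [Finite G] (H : Subgroup G) (x : G)
    (hx : ∀ h ∈ H, x * h * x ∈ H) (h2 : x * x = 1) :
    Nat.card (H ⊔ closure {x} : Subgroup G) ≤ 2 * Nat.card H := by
  have hi : x⁻¹ = x := inv_eq_of_mul_eq_one_right h2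
  let K : Subgroup G :=
    { carrier := {g | g ∈ H ∨ x * g ∈ H}
      one_mem' := Or.inl H.one_mem
      mul_mem' := fun {a b} ha hb => by
        rcases ha with ha | ha <;> rcases hb with hb | hb
        · exact Or.inl (H.mul_mem ha hb)
        · right
          have := H.mul_mem (hx a ha) hb
          rwa [mul_assoc, ← mul_assoc x x, h2, one_mul, mul_assoc] at this
        · right; rw [← mul_assoc]; exact H.mul_mem ha hb
        · left
          have := H.mul_mem (hx _ ha) hb
          rwa [← mul_assoc x x, h2, one_mul, mul_assoc, ← mul_assoc x x, h2, one_mul] at this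
      inv_mem' := fun {a} ha => by
        rcases ha with ha | ha
        · exact Or.inl (H.inv_mem ha)
        · right
          have := hx _ (H.inv_mem ha)
          rwa [_root_.mul_inv_rev, hi, mul_assoc, mul_assoc, h2, mul_one] at this }
  have h1 : H ⊔ closure {x} ≤ K :=
    sup_le (fun g hg => Or.inl hg) ((closure_le _).2 (by
      rintro _ rfl; right; rw [h2]; exact H.one_mem))
  refine (card_le_of_le h1).trans ?_
  rw [show 2 * Nat.card H = Nat.card (Bool × H) by simp]
  refine Nat.card_le_card_of_surjective (fun p : Bool × H => (⟨if p.1 then p.2 else x * p.2, by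
    cases p.1
    · right; simp [← mul_assoc, h2]
    · left; simp⟩ : K)) ?_
  rintro ⟨g, hg | hg⟩
  · exact ⟨(true, ⟨g, hg⟩), rfl⟩
  · exact ⟨(false, ⟨_, hg⟩), Subtype.ext (by simp [← mul_assoc, h2])⟩

theorem clo_succ {G : Type*} [Group G] (g : ℕ → G) {n m : ℕ} (h : m + 1 ≤ n) :
    closure (g '' Set.Ico (n - (m + 1)) n) =
      closure (g '' Set.Ico (n - m) n) ⊔ closure {g (n - (m + 1))} := by
  rw [← Subgroup.closure_union, ← Set.image_singleton, ← Set.image_union]
  congr 2
  ext i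
  simp only [Set.mem_Ico, Set.mem_union, Set.mem_singleton_iff]
  omega

theorem card_up {G : Type*} [Group G] [Finite G] (g : ℕ → G) (n : ℕ) (σ : ℕ → ℕ → ℕ)
    (h1 : ∀ i < n, g i * g i = 1)
    (h2 : ∀ i < n, ∀ j < n, i < j → i < σ i j ∧ σ i j < n ∧ g i * g j = g (σ i j) * g i) :
    ∀ m ≤ n, Nat.card (closure (g '' Set.Ico (n - m) n)) ≤ 2 ^ m := by
  intro m
  induction m with
  | zero => intro _; simp
  | succ m ih =>
    intro hm
    rw [clo_succ g hm, pow_succ']
    have hx := h1 (n - (m + 1)) (by omega)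
    refine (sup_two _ _ (fun h hh => ?_) hx).trans (Nat.mul_le_mul_left _ (ih (by omega)))
    induction hh using closure_induction with
    | mem y hy =>
      obtain ⟨j, hj, rfl⟩ := hy
      obtain ⟨a, b, c⟩ := h2 (n - (m + 1)) (by omega) j hj.2 (by have := hj.1; omega)
      rw [c, mul_assoc, hx, mul_one]
      exact subset_closure ⟨_, ⟨by omega, b⟩, rfl⟩
    | one => rw [mul_one, hx]; exact one_mem _
    | mul a b _ _ ha hb =>
      have := mul_mem ha hb
      rwa [mul_assoc, mul_assoc, ← mul_assoc (g _) (g _ * b), ← mul_assoc (g _) (g _), hx, one_mul,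
        ← mul_assoc a, ← mul_assoc] at this
    | inv a _ ha =>
      have := inv_mem ha
      rwa [_root_.mul_inv_rev, _root_.mul_inv_rev, inv_eq_of_mul_eq_one_right hx, ← mul_assoc] at this

theorem card_low {G X : Type*} [Group G] [Finite G] [Finite X] [MulAction G X] (g : ℕ → G) (n : ℕ)
    (T : ℕ → Set X) (h1 : ∀ i < n, ∀ j < n, i < j → ∀ x ∈ T i, g j • x ∈ T i)
    (h2 : ∀ i < n, ∃ x ∈ T i, g i • x ∉ T i) :
    ∀ m ≤ n, 2 ^ m ≤ Nat.card (closure (g '' Set.Ico (n - m) n)) := by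
  intro m
  induction m with
  | zero => intro _; exact Nat.card_pos
  | succ m ih =>
    intro hm
    have hlt : closure (g '' Set.Ico (n - m) n) < closure (g '' Set.Ico (n - (m + 1)) n) := by
      rw [clo_succ g hm]
      refine lt_of_le_of_ne le_sup_left fun h => ?_
      have h3 : closure (g '' Set.Ico (n - m) n) ≤ MulAction.stabilizer G (T (n - (m + 1))) := by
        rw [closure_le]
        rintro _ ⟨j, hj, rfl⟩
        refine (MulAction.mem_stabilizer_set_iff_smul_set_subset (Set.toFinite _)).2 ?_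
        rintro _ ⟨x, hx, rfl⟩
        exact h1 _ (by omega) j hj.2 (by have := hj.1; omega) x hx
      obtain ⟨x, hx, hx'⟩ := h2 (n - (m + 1)) (by omega)
      have h4 : g (n - (m + 1)) • T (n - (m + 1)) = T (n - (m + 1)) :=
        h3 (h ▸ mem_sup_right (subset_closure rfl))
      exact hx' (h4 ▸ Set.smul_mem_smul_set hx)
    obtain ⟨k, hk⟩ := card_dvd_of_le hlt.le
    have h5 : k ≠ 1 := by
      rintro rfl
      exact hlt.ne (eq_of_le_of_card_ge hlt.le (by rw [hk, mul_one]))
    have h6 : k ≠ 0 := by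
      rintro rfl
      exact Nat.card_pos.ne' hk
    rw [hk, pow_succ]
    exact Nat.mul_le_mul (ih (by omega)) (by omega)

theorem inj_of {D G : Type*} [Group D] [Group G] [Finite D] (ψ : D →* G)
    (h : Nat.card D ≤ Nat.card ψ.range) : Function.Injective ψ := by
  have h1 := (Nat.bijective_iff_surjective_and_card ψ.rangeRestrict).2
    ⟨ψ.rangeRestrict_surjective, le_antisymm h
      (Nat.card_le_card_of_surjective _ ψ.rangeRestrict_surjective)⟩
  exact fun a b hab => h1.1 (Subtype.ext hab)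

theorem syl_iso {D G : Type*} [Group D] [Group G] [Finite G] (P : Sylow 2 G) (ψ : D →* G)
    (hψ : Function.Injective ψ) {k m : ℕ} (hD : Nat.card D = 2 ^ k) (hG : Nat.card G = 2 ^ k * m)
    (hm : ¬ 2 ∣ m) : Nonempty (P ≃* D) := by
  have h1 : Nat.card ψ.range = 2 ^ (Nat.card G).factorization 2 := by
    rw [← Nat.card_congr (ψ.ofInjective hψ).toEquiv, hD, hG,
      Nat.factorization_mul (by positivity) (by rintro rfl; simp at hm)]
    simp [Nat.prime_two.factorization_pow, Nat.factorization_eq_zero_of_not_dvd hm]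
  exact ⟨(P.equiv (Sylow.ofCard _ h1)).trans (ψ.ofInjective hψ).symm⟩

/-- the form -/
noncomputable abbrev f : Form (Kind.orth (ZMod 2)) ((Fin 2 ⊕ Fin 2) ⊕ Fin 2 → ZMod 2) :=
  minusForm 2 1 1
/-- the form -/
abbrev Q := Cfsg.quadFormMinus 2 (ZMod 2) 1 1
/-- coordinates -/
abbrev v := vec (ixm 2)

theorem hQ (x : (Fin 2 ⊕ Fin 2) ⊕ Fin 2 → ZMod 2) : Q x = f.Q x :=
  (congrFun (minusForm_Q 2 1 1) x).symm

/-- coded reflection -/
def tb (a n : ℕ) : ℕ := if Q (v (a ^^^ n)) + Q (v a) + Q (v n) = 1 then n ^^^ a else n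

theorem tb_spec {a : ℕ} (ha : Q (v a) = 1) (n : ℕ) :
    (f.refl (v a) : _ ≃ₗ[ZMod 2] _) (v n) = v (tb a n) := by
  have h1 : Q (v (a ^^^ n)) + Q (v a) + Q (v n) = f.B (v a) (v n) := by
    rw [hQ, hQ, hQ, v, vec_xor, f.orth_Q_add]
    generalize f.B _ _ = x
    generalize f.Q _ = y
    generalize f.Q _ = z
    revert x y z; decide
  rw [rf f ((hQ _).symm.trans ha), tb, h1]
  rcases z01 (f.B (v a) (v n)) with h | h
  · rw [h, if_neg (by decide), zero_smul, add_zero]
  · rw [h, if_pos rfl, one_smul]; exact (vec_xor _ _ _).symm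

theorem act_spec (l : List ℕ) (hl : ∀ a ∈ l, Q (v a) = 1) (n : ℕ) :
    (f.reflProd (l.map v) : _ ≃ₗ[ZMod 2] _) (v n) = v (l.foldr tb n) := by
  induction l with
  | nil => rfl
  | cons a l ih =>
    rw [List.map_cons, reflProd_cons, isom_mul_apply, ih (fun b hb => hl b (List.mem_cons_of_mem _ hb)),
      tb_spec (hl a List.mem_cons_self), List.foldr_cons]

theorem eq_of_act {l l' : List ℕ} (hl : ∀ a ∈ l, Q (v a) = 1) (hl' : ∀ a ∈ l', Q (v a) = 1)
    (h : ∀ n < 64, l.foldr tb n = l'.foldr tb n) : f.reflProd (l.map v) = f.reflProd (l'.map v) := by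
  refine f.isom_ext fun x => ?_
  obtain ⟨n, hn, rfl⟩ := vec_surj (ixm 2) 6 (by decide) (by decide) x
  rw [act_spec l hl, act_spec l' hl', h n hn]

/-- words -/
def L (i : ℕ) : List ℕ := [[24, 50], [34, 35], [16, 17], [10], [11], [32], [33]].getD i []
/-- permutations -/
def A (i : ℕ) : Equiv.Perm (Fin 8) :=
  [Equiv.swap 0 4 * Equiv.swap 1 5 * Equiv.swap 2 6 * Equiv.swap 3 7,
    Equiv.swap 0 2 * Equiv.swap 1 3, Equiv.swap 4 6 * Equiv.swap 5 7, Equiv.swap 0 1,
    Equiv.swap 2 3, Equiv.swap 4 5, Equiv.swap 6 7].getD i 1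
/-- conjugation table -/
def sg (i j : ℕ) : ℕ := ([[0, 2, 1, 5, 6, 3, 4], [0, 0, 2, 4, 3, 5, 6], [0, 0, 0, 3, 4, 6, 5],
  [0, 0, 0, 0, 4, 5, 6], [0, 0, 0, 0, 0, 5, 6], [0, 0, 0, 0, 0, 0, 6],
  [0, 0, 0, 0, 0, 0, 0]].getD i []).getD j 0
/-- invariant sets -/
def TA (i : ℕ) : List (Fin 8) := [[0, 1, 2, 3], [0, 1], [4, 5], [0], [2], [4], [6]].getD i []
/-- invariant sets -/
def TB (i : ℕ) : List ℕ := [[10, 11], [10], [32], [2, 9], [2], [20], [4]].getD i []
/-- generators -/
noncomputable def gg (i : ℕ) : Equiv.Perm (Fin 8) × f.Isom := (A i, f.reflProd ((L i).map v))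

theorem hL : ∀ i < 7, ∀ a ∈ L i, Q (v a) = 1 := by decide +kernel

theorem hL2 {i j : ℕ} (hi : i < 7) (hj : j < 7) : ∀ a ∈ L i ++ L j, Q (v a) = 1 := fun a ha =>
  (List.mem_append.1 ha).elim (hL i hi a) (hL j hj a)

instance : Finite f.Isom := Finite.of_equiv _ (orthEquiv f).toEquiv

/-- the graph subgroup -/
noncomputable abbrev D : Subgroup (Equiv.Perm (Fin 8) × f.Isom) := closure (gg '' Set.Ico (7 - 7) 7)

theorem D_up : Nat.card D ≤ 2 ^ 7 := by
  refine card_up gg 7 sg (fun i hi => Prod.ext ?_ ?_) (fun i hi j hj hij => ?_) 7 le_rfl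
  · exact (by decide +kernel : ∀ i < 7, A i * A i = 1) i hi
  · change f.reflProd _ * f.reflProd _ = f.reflProd (([] : List ℕ).map v)
    rw [← reflProd_append, ← List.map_append]
    exact eq_of_act (hL2 hi hi) (by simp)
      ((by decide +kernel : ∀ i < 7, ∀ n < 64, (L i ++ L i).foldr tb n = n) i hi)
  · obtain ⟨a, b, c, d⟩ := (by decide +kernel : ∀ i < 7, ∀ j < 7, i < j → i < sg i j ∧ sg i j < 7 ∧
      A i * A j = A (sg i j) * A i ∧
      ∀ n < 64, (L i ++ L j).foldr tb n = (L (sg i j) ++ L i).foldr tb n) i hi j hj hij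
    refine ⟨a, b, Prod.ext c ?_⟩
    change f.reflProd _ * f.reflProd _ = f.reflProd _ * f.reflProd _
    rw [← reflProd_append, ← List.map_append, ← reflProd_append, ← List.map_append]
    exact eq_of_act (hL2 hi hj) (hL2 b hi) d

theorem range_eq {G H : Type*} [Group G] [Group H] (g : ℕ → G) (S : Set ℕ) (π : G →* H) :
    (π.comp (closure (g '' S)).subtype).range = closure ((fun i => π (g i)) '' S) := by
  rw [MonoidHom.range_comp, range_subtype, MonoidHom.map_closure, Set.image_image]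

set_option synthInstance.maxSize 2000 in
theorem low1 : 2 ^ 7 ≤ Nat.card ((MonoidHom.fst _ _).comp D.subtype).range := by
  rw [range_eq]
  exact card_low (X := Fin 8) A 7 (fun i => {x | x ∈ TA i})
    (by decide +kernel : ∀ i < 7, ∀ j < 7, i < j → ∀ x ∈ TA i, A j x ∈ TA i)
    (by decide +kernel : ∀ i < 7, ∃ x ∈ TA i, A i x ∉ TA i) 7 le_rfl

theorem low2 : 2 ^ 7 ≤ Nat.card ((MonoidHom.snd _ _).comp D.subtype).range := by
  rw [range_eq]
  refine card_low (X := (Fin 2 ⊕ Fin 2) ⊕ Fin 2 → ZMod 2) (fun i => f.reflProd ((L i).map v)) 7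
    (fun i => {x | x ∈ (TB i).map v}) (fun i hi j hj hij x hx => ?_) (fun i hi => ?_) 7 le_rfl
  · obtain ⟨n, hn, rfl⟩ := List.mem_map.1 hx
    rw [isom_smul_def, act_spec _ (hL j hj)]
    exact List.mem_map_of_mem ((by decide +kernel : ∀ i < 7, ∀ j < 7, i < j → ∀ x ∈ TB i,
      (L j).foldr tb x ∈ TB i) i hi j hj hij n hn)
  · obtain ⟨n, hn, h⟩ := (by decide +kernel : ∀ i < 7, ∃ x ∈ TB i,
      v ((L i).foldr tb x) ∉ (TB i).map v) i hi
    refine ⟨v n, List.mem_map_of_mem hn, ?_⟩
    rw [isom_smul_def, act_spec _ (hL i hi)]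
    exact h

theorem inj1 : Function.Injective ((MonoidHom.fst _ _).comp D.subtype) := inj_of _ (D_up.trans low1)
theorem inj2 : Function.Injective ((MonoidHom.snd _ _).comp D.subtype) := inj_of _ (D_up.trans low2)
theorem D_card : Nat.card D = 2 ^ 7 := le_antisymm D_up
  (low1.trans (Nat.card_le_card_of_surjective _ (MonoidHom.rangeRestrict_surjective _)))

theorem hf : f.Nondeg := minusForm_nondeg 2 an
theorem hg : f.Good := Or.inr (Or.inl (by simp))

theorem eq_clo {G H U : Type*} [Group G] [Group H] [Group U] (a : G →* U) (b : H →* U)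
    (S : Set (G × H)) (h : ∀ x ∈ S, b x.2 = a x.1) : ∀ x ∈ closure S, b x.2 = a x.1 :=
  fun _ hx => MonoidHom.eqOn_closure (f := b.comp (MonoidHom.snd G H))
    (g := a.comp (MonoidHom.fst G H)) (s := S) (fun x hx => h x hx) hx

theorem sgn (d : D) : hf.dick hg d.1.2 = Equiv.Perm.sign d.1.1 := by
  refine eq_clo Equiv.Perm.sign (hf.dick hg) _ ?_ d.1 d.2
  rintro _ ⟨i, hi, rfl⟩
  have h1 := hf.dick_reflProd hg ((L i).map v) (fun w hw => by
    obtain ⟨a, ha, rfl⟩ := List.mem_map.1 hw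
    rw [← hQ, hL i hi.2 a ha]; exact one_ne_zero)
  rw [List.length_map] at h1
  exact h1.trans
    ((by decide +kernel : ∀ i < 7, (-1 : ℤˣ) ^ (L i).length = Equiv.Perm.sign (A i)) i hi.2)

/-- the even part -/
noncomputable abbrev E : Subgroup D :=
  (Equiv.Perm.sign.comp ((MonoidHom.fst _ _).comp D.subtype)).ker

theorem E_card : Nat.card E = 2 ^ 6 := by
  have h1 := E.card_mul_index
  rw [index_ker, D_card, MonoidHom.range_eq_top.2, card_top] at h1
  · rw [show Nat.card ℤˣ = 2 by simp] at h1; omega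
  · intro u
    rcases Int.units_eq_one_or u with rfl | rfl
    · exact ⟨1, map_one _⟩
    · exact ⟨⟨gg 3, subset_closure ⟨3, by simp, rfl⟩⟩, by
        change Equiv.Perm.sign (A 3) = -1
        decide +kernel⟩

/-- The Sylow 2-subgroups of the alternating group of degree 8 and of PSp₄(3) are isomorphic, and so are the Sylow 2-subgroups of the symmetric group of degree 8 and of the full isometry group of a non-degenerate quadratic form of minus type in dimension 6 over the field with 2 elements. -/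
theorem result (F : Type) [Field F] [Fintype F] (hF : Fintype.card F = 3) (K : Type) [Field K] [Fintype K] (hK : Fintype.card K = 2) (a b : K) (hab : ∀ z₁ z₂ : K, z₁ ^ 2 + a * z₁ * z₂ + b * z₂ ^ 2 = 0 → z₁ = 0 ∧ z₂ = 0) (P : Sylow 2 ↥(alternatingGroup (Fin 8))) (Q : Sylow 2 (Cfsg.PSp 2 F)) (P' : Sylow 2 (Equiv.Perm (Fin 8))) (Q' : Sylow 2 ↥(Cfsg.isometryGroup K (Cfsg.quadFormMinus 2 K a b))) : Nonempty (↥(P : Subgroup ↥(alternatingGroup (Fin 8))) ≃* ↥(Q : Subgroup (Cfsg.PSp 2 F))) ∧ Nonempty (↥(P' : Subgroup (Equiv.Perm (Fin 8))) ≃* ↥(Q' : Subgroup ↥(Cfsg.isometryGroup K (Cfsg.quadFormMinus 2 K a b)))) := by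
  obtain ⟨i⟩ := CA.FieldIso.nonempty_zmod (F := K) 2 (by rw [Nat.card_eq_fintype_card, hK])
  have ha : i a = 1 ∧ i b = 1 := by
    have h1 : ∀ z₁ z₂ : ZMod 2, z₁ ^ 2 + i a * z₁ * z₂ + i b * z₂ ^ 2 = 0 → z₁ = 0 ∧ z₂ = 0 := by
      intro z₁ z₂ h
      obtain ⟨z₁, rfl⟩ := i.surjective z₁
      obtain ⟨z₂, rfl⟩ := i.surjective z₂
      obtain ⟨rfl, rfl⟩ := hab z₁ z₂ (i.injective (by simpa using h))
      simp
    revert h1
    generalize i a = x
    generalize i b = y
    revert x y
    decide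
  let e1 : Cfsg.isometryGroup K (Cfsg.quadFormMinus 2 K a b) ≃* CA.We6.W :=
    CA.FieldIso.isomEquiv i _ _ (fun w => by
      rw [← CA.FieldIso.quadFormMinus_map i 2 a b w, ha.1, ha.2])
  let e2 : CA.We6.W ≃* f.Isom := orthEquiv f
  have hc : Nat.card f.Isom = 51840 := by rw [← Nat.card_congr e2.toEquiv, CA.We6.cardW]
  constructor
  · obtain ⟨e3⟩ := CA.We6.isoW.2.2
    haveI : Fintype (GaloisField 2 2) := Fintype.ofFinite _
    have h4 : Fintype.card (GaloisField 2 2) = 4 := by
      rw [← Nat.card_eq_fintype_card, GaloisField.card 2 2 (by norm_num)]; norm_num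
    obtain ⟨-, ⟨e4⟩⟩ := CA.We6.isoU _ h4
    obtain ⟨e5⟩ := CA.We6.isoS _ F h4 hF
    let N : Subgroup f.Isom :=
      ((CA.We6.C.grp CA.We6.prs).subgroupOf (CA.We6.C.grp CA.We6.gens)).map (e3.trans e2).toMonoidHom
    let e6 : N ≃* Cfsg.PSp 2 F := (((Subgroup.equivMapOfInjective _ _ (e3.trans e2).injective).symm.trans
      (subgroupOfEquivOfLe CA.We6.P_le)).trans e4).trans e5
    have hP : Nat.card (Cfsg.PSp 2 F) = 25920 := by
      rw [← Nat.card_congr (e4.trans e5).toEquiv, CA.We6.cardP]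
    have hN : N.index = 2 := by
      have := N.card_mul_index
      rw [Nat.card_congr e6.toEquiv, hP, hc] at this
      omega
    have hcom : commutator f.Isom ≤ N := by
      rw [commutator_def, commutator_le]
      intro x _ y _
      simp only [commutatorElement_def, mul_mem_iff_of_index_two hN, inv_mem_iff]
      tauto
    haveI : Finite (Cfsg.PSp 2 F) := Nat.finite_of_card_ne_zero (by rw [hP]; norm_num)
    obtain ⟨p1⟩ := syl_iso P ((((MonoidHom.fst _ _).comp D.subtype).comp E.subtype).codRestrict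
      (alternatingGroup (Fin 8)) (fun d => d.2)) (fun x y h => Subtype.ext (inj1
        (congrArg Subtype.val h))) E_card (m := 315) (by
          have := two_mul_nat_card_alternatingGroup (α := Fin 8)
          rw [Nat.card_perm, Nat.card_fin] at this
          norm_num [Nat.factorial] at this ⊢
          omega) (by norm_num)
    obtain ⟨p2⟩ := syl_iso Q (e6.toMonoidHom.comp
      ((((MonoidHom.snd _ _).comp D.subtype).comp E.subtype).codRestrict N (fun d => hcom
        ((hf.mem_commutator_iff hg _).2 ⟨(sgn d.1).trans d.2, hf.spin_of_two_eq_zero hg rfl _⟩))))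
      (fun x y h => Subtype.ext (inj2 (congrArg Subtype.val (e6.injective h)))) E_card (m := 405)
      (by rw [hP]; norm_num) (by norm_num)
    exact ⟨p1.trans p2.symm⟩
  · haveI : Finite (Cfsg.isometryGroup K (Cfsg.quadFormMinus 2 K a b)) :=
      Finite.of_equiv _ (e1.trans e2).symm.toEquiv
    obtain ⟨p1⟩ := syl_iso P' _ inj1 D_card (m := 315) (by
      rw [Nat.card_perm, Nat.card_fin]; norm_num [Nat.factorial]) (by norm_num)
    obtain ⟨p2⟩ := syl_iso Q' ((e1.trans e2).symm.toMonoidHom.comp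
      ((MonoidHom.snd _ _).comp D.subtype)) ((e1.trans e2).symm.injective.comp inj2) D_card
      (m := 405) (by rw [Nat.card_congr (e1.trans e2).toEquiv, hc]; norm_num) (by norm_num)
    exact ⟨p1.trans p2.symm⟩

end Cfsg.Agent.S2931
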