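import Cfsg.Statements.S2932
import Cfsg.Agent.Lib.Loc.H19Nat4

set_option autoImplicit false
open Cfsg

namespace Cfsg.Agent.S2932

/-- Let p be a prime. Inside a finite ambient group let V be an elementary abelian p-subgroup and G a subgroup normalizing V and acting faithfully on it (G ∩ C(V) = 1), and let L ≤ G act on V as SL₂(F) on its natural module, F a finite field of characteristic p, with L ≅ SL₂(F). If every Sylow p-subgroup of N_G(L) is a Sylow p-subgroup of G, then either L is normal in G, or F has 4 elements and G is isomorphic to the alternating group of degree 7. -/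
theorem result {X : Type*} [Group X] [Finite X] {p : ℕ} [Fact p.Prime] (F : Type) [Field F] [Fintype F] [CharP F p] (V G L : Subgroup X) (hV : Cfsg.IsElementaryAbelian p V) (hGV : G ≤ Subgroup.normalizer (V : Set X)) (hfaith : G ⊓ Subgroup.centralizer (V : Set X) = ⊥) (hLG : L ≤ G) (hnat : Cfsg.IsNaturalSL2Module F V L) (hLiso : Nonempty (↥L ≃* Matrix.SpecialLinearGroup (Fin 2) F)) (hSyl : ∀ S : Sylow p ↥(G ⊓ Subgroup.normalizer (L : Set X)), ∀ P : Sylow p ↥G, Nat.card S = Nat.card P) : (L.subgroupOf G).Normal ∨ (Fintype.card F = 4 ∧ Nonempty (↥G ≃* ↥(alternatingGroup (Fin 7)))) := by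
  obtain ⟨-, ρ, ψ, hρ, -, hact⟩ := hnat
  obtain ⟨e⟩ := hLiso
  let χ : G →* MulAut V := V.normalizerMonoidHom.comp (Subgroup.inclusion hGV)
  have hχ : ∀ (g : G) (v : V), ((χ g v : V) : X) = g * v * (g : X)⁻¹ := fun g v => rfl
  letI : DistribMulAction G (Fin 2 → F) :=
    { smul := fun g v => ψ (Additive.ofMul (χ g (ψ.symm v).toMul))
      one_smul := fun v => by
        show ψ (Additive.ofMul (χ 1 (ψ.symm v).toMul)) = v
        simp
      mul_smul := fun a b v => by
        show ψ (Additive.ofMul (χ (a * b) (ψ.symm v).toMul)) =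
          ψ (Additive.ofMul (χ a (ψ.symm (ψ (Additive.ofMul (χ b (ψ.symm v).toMul)))).toMul))
        simp
      smul_zero := fun a => by
        show ψ (Additive.ofMul (χ a (ψ.symm 0).toMul)) = 0
        simp
      smul_add := fun a v w => by
        show ψ (Additive.ofMul (χ a (ψ.symm (v + w)).toMul)) =
          ψ (Additive.ofMul (χ a (ψ.symm v).toMul)) + ψ (Additive.ofMul (χ a (ψ.symm w).toMul))
        simp }
  have hs : ∀ (g : G) (v : Fin 2 → F), g • v = ψ (Additive.ofMul (χ g (ψ.symm v).toMul)) := fun _ _ => rfl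
  have hl : ∀ (l : L) (v : Fin 2 → F), (⟨l, hLG l.2⟩ : G) • v = (ρ l).1.mulVec v := fun l v => by
    obtain ⟨w, hw, hw'⟩ := hact l (ψ.symm v).toMul
    rw [hs, show χ ⟨l, hLG l.2⟩ (ψ.symm v).toMul = w from Subtype.ext ((hχ _ _).trans hw.symm), hw']
    simp
  have h : CA.H19Nat.NatL F (L.subgroupOf G) := by
    refine ⟨fun g hg => Subtype.ext ?_, fun l h => ⟨ρ ⟨l, h⟩, hl ⟨l, h⟩⟩, fun A => ?_⟩
    · have : (g : X) ∈ G ⊓ Subgroup.centralizer (V : Set X) := ⟨g.2, fun v hv => by
        have h1 := hg (ψ (Additive.ofMul ⟨v, hv⟩))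
        rw [hs, ψ.symm_apply_apply] at h1
        have h2 : χ g ⟨v, hv⟩ = ⟨v, hv⟩ := ψ.injective h1
        have h3 := (hχ g ⟨v, hv⟩).symm.trans (congrArg Subtype.val h2)
        exact (mul_inv_eq_iff_eq_mul.1 h3).symm⟩
      rwa [hfaith, Subgroup.mem_bot] at this
    · obtain ⟨l, rfl⟩ := hρ A
      exact ⟨⟨l, hLG l.2⟩, l.2, hl l⟩
  rw [← Nat.card_eq_fintype_card]
  refine h.main' (p := p) ((Subgroup.subgroupOfEquivOfLe hLG).trans e) fun Q hQ hQL => ?_
  let ι := Subgroup.inclusion (inf_le_left : G ⊓ Subgroup.normalizer (L : Set X) ≤ G)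
  have hι : Function.Injective ι := Subgroup.inclusion_injective _
  obtain ⟨S, hS⟩ := (hQ.comap_of_injective ι hι).exists_le_sylow
  obtain ⟨P, hP⟩ := (S.2.map ι).exists_le_sylow
  have e1 : (S : Subgroup _).map ι = P := Subgroup.eq_of_le_of_card_ge hP (by
    rw [Subgroup.card_map_of_injective hι]; exact (hSyl S P).ge)
  refine ⟨P, fun q hq => hP ⟨⟨q, q.2, Subgroup.le_normalizer (hQL hq)⟩, hS hq, rfl⟩, ?_⟩
  rw [← e1]
  rintro _ ⟨s, -, rfl⟩
  exact Subgroup.mem_normalizer_iff.2 fun x => Subgroup.mem_normalizer_iff.1 s.2.2 x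

end Cfsg.Agent.S2932
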