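import Cfsg.Statements.S2939
import Cfsg.Agent.Lib.Loc.AmbChar
import Cfsg.Agent.Lib.Loc.AmbSI
-- import your own Cfsg.Agent.* helpers here

set_option autoImplicit false
open Cfsg

namespace Cfsg.Agent.S2939

/-- Let p be a prime dividing the order of the finite group G and 𝓕 a family of subgroups of G closed under conjugation, with conjugates taken as X^g = g⁻¹Xg. Then 𝓕 controls Sylow p-intersections in G (any two distinct Sylow p-subgroups S and T with S ∩ T ≠ 1 are joined by a chain S = S₀, S₁, …, Sₙ = T of Sylow p-subgroups where, for each i, some member Xᵢ of 𝓕 meets both S_{i-1} and Sᵢ in Sylow p-subgroups of Xᵢ, satisfies S ∩ T ≤ Sᵢ ∩ Xᵢ, and contains an element xᵢ with Sᵢ^{xᵢ} = S_{i-1}) if and only if 𝓕 strongly controls p-fusion in G (whenever A is a subset of a Sylow p-subgroup S, A contains an element other than 1, and A^g ⊆ S, the element g factorises as g = y₁⋯yₙy with y ∈ N_G(S) and each yᵢ in a member Yᵢ of 𝓕 that meets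 S in a Sylow p-subgroup of Yᵢ, with A^{y₁⋯yᵢ} ⊆ S ∩ Yᵢ for each i). -/
theorem result {G : Type*} [Group G] [Finite G] {p : ℕ} [Fact p.Prime] (hdiv : p ∣ Nat.card G) (𝓕 : Set (Subgroup G)) (h𝓕 : Cfsg.IsNormalSet 𝓕) : Cfsg.ControlsSylowIntersections p 𝓕 ↔ Cfsg.FamilyStronglyControlsFusion p 𝓕 := by
  open Subgroup Cfsg CA.Amb CA.AmbSyl CA.AmbCore CA.AmbRes CA.AmbChar CA.AmbSpe CA.AmbSI Relation in
  open scoped commutatorElement in
  (
    rw [ctl_iff]
    rw [normalSet_iff] at h𝓕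
    let r : Subgroup G → Set G → G → G → Prop := fun S A a b =>
      ∃ Y ∈ 𝓕, SylIn p (S ⊓ Y) Y ∧ a⁻¹ * b ∈ Y ∧ A ⊆ cj b (S ⊓ Y)
    constructor
    · intro h S A g h1 ⟨a, ha, a1⟩ h2
      replace h2 := (conjRight_subset (S := (S : Subgroup G))).1 h2
      have key : ∀ T, Ch p 𝓕 ((S : Subgroup G) ⊓ cj g S) S T → ∃ k, ReflTransGen (r S A) 1 k ∧ cj k S = T := by
        intro T hT
        induction hT with
        | refl => exact ⟨1, .refl, cj_one _⟩
        | tail _ e ih =>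
          obtain ⟨k, k1, rfl⟩ := ih
          obtain ⟨X, x1, x2, x, x3, rfl, x4⟩ := e
          refine ⟨x * k, k1.tail ⟨cj k⁻¹ X, h𝓕 X x1 _, ?_, mem_cj_inv.2 (by simpa [mul_assoc] using x3), ?_⟩,
            (cj_cj _ _ _).symm⟩
          · have := x2.conj k⁻¹
            rwa [cj_inf, cj_inv_cj] at this
          · rw [cj_inf, ← cj_cj x k (cj _ _), cj_cj_inv, cj_eq_self_of_mem x3, ← cj_cj]
            exact fun a ha => x4 ⟨h1 ha, h2 ha⟩
      obtain ⟨k, k1, k2⟩ := key _ (h _ _ (sylIn_top S) ((sylIn_top S).conj_mem (mem_top g))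
        fun e => a1 (e.le ⟨h1 ha, h2 ha⟩))
      obtain ⟨n, y, rfl, h3⟩ := rtg_iff_prod.1 k1
      choose Y a b c d using h3
      refine ⟨n, Y, y, (List.ofFn y).prod⁻¹ * g, cj_eq_self_iff.1 (by rw [← cj_cj, ← k2, cj_inv_cj]),
        fun i => ⟨mem_sylowMembers.2 ⟨a i, b i⟩, by simpa using c i⟩, by simp, fun i => ?_⟩
      rw [take_succ_prod]
      exact conjRight_subset.2 (d i)
    · intro h S T hS hT hne
      obtain ⟨g, -, rfl⟩ := hS.exists_conj hT
      obtain ⟨S, rfl⟩ := sylIn_top_iff.1 hS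
      obtain ⟨⟨a, ha⟩, a1⟩ := ne_bot_iff_exists_ne_one.1 hne
      obtain ⟨n, Y, y, y₀, h1, h2, h3, h4⟩ := h S ((S : Subgroup G) ⊓ cj g S : Subgroup G) g
        (fun _ h => h.1) ⟨a, ha, fun e => a1 (Subtype.ext e)⟩ (conjRight_subset.2 fun _ h => h.2)
      have k : ReflTransGen (r S ((S : Subgroup G) ⊓ cj g S : Subgroup G)) 1 (List.ofFn y).prod :=
        rtg_iff_prod.2 ⟨n, y, rfl, fun i => ⟨Y i, (h2 i).1.1, (mem_sylowMembers.1 (h2 i).1).2,
          by simpa using (h2 i).2, by rw [← take_succ_prod]; exact conjRight_subset.1 (h4 i)⟩⟩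
      have := rtg_lift (s := Step p 𝓕 ((S : Subgroup G) ⊓ cj g S)) (fun k => cj k (S : Subgroup G))
        (fun a b ⟨Y, y1, y2, y3, y4⟩ => ⟨cj a Y, h𝓕 Y y1 a, by rw [← cj_inf]; exact y2.conj a, b * a⁻¹,
          mem_cj.2 (by simpa [mul_assoc] using y3), by rw [cj_cj, inv_mul_cancel_right], by
          rw [← cj_eq_self_of_mem y3, cj_cj, mul_inv_cancel_left, ← cj_inf]; exact y4⟩) k
      have e : cj (List.ofFn y).prod (S : Subgroup G) = cj g S := by rw [h3, ← cj_cj, cj_eq_self h1]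
      rwa [cj_one, e] at this)

end Cfsg.Agent.S2939
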