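import Cfsg.Statements.S2955
import Cfsg.Agent.Lib.Loc.AmbChar
import Cfsg.Agent.Lib.Loc.AmbSI
-- import your own Cfsg.Agent.* helpers here

set_option autoImplicit false
open Cfsg

namespace Cfsg.Agent.S2955

/-- Let p be a prime dividing the order of the finite group G and 𝓕 a conjugation-closed family of subgroups that controls Sylow p-intersections in G. Suppose the Sylow p-subgroups of G are chain-connected: any two of them are joined by a chain of Sylow p-subgroups, consecutive ones distinct with nontrivial intersection, all containing the intersection of the two ends (equivalently, the graph on the Sylow p-subgroups whose edges are the distinct pairs meeting nontrivially is connected). Then for every Sylow p-subgroup S, G is generated by N_G(S) together with the members of 𝓕 that meet S in a Sylow p-subgroup of themselves. -/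
theorem result {G : Type*} [Group G] [Finite G] (p : ℕ) [Fact p.Prime] (hdiv : p ∣ Nat.card G)
    (𝓕 : Set (Subgroup G)) (h𝓕 : Cfsg.IsNormalSet 𝓕) (hc : Cfsg.ControlsSylowIntersections p 𝓕)
    (hconn : Cfsg.IsSylowChainConnected p G) (S : Sylow p G) :
    (⨆ X ∈ Cfsg.sylowMembers p 𝓕 (S : Subgroup G), X) ⊔ Subgroup.normalizer ((S : Subgroup G) : Set G) = ⊤ := by
  open Subgroup Cfsg CA.Amb CA.AmbSyl CA.AmbCore CA.AmbRes CA.AmbChar CA.AmbSpe CA.AmbSI Relation in
  open scoped commutatorElement in
  (
    rw [ctl_iff] at hc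
    rw [normalSet_iff] at h𝓕
    set H := (⨆ X ∈ sylowMembers p 𝓕 (S : Subgroup G), X) ⊔ 𝐍 (S : Subgroup G)
    have key : ∀ D U T, Ch p 𝓕 D U T → (∃ k ∈ H, cj k S = U) → ∃ k ∈ H, cj k S = T := by
      intro D U T hT hU
      induction hT with
      | refl => exact hU
      | tail _ e ih =>
        obtain ⟨k, k1, rfl⟩ := ih
        obtain ⟨X, x1, x2, x, x3, rfl, -⟩ := e
        have := x2.conj k⁻¹
        rw [cj_inf, cj_inv_cj] at this
        have h1 : cj k⁻¹ X ≤ H := le_trans (le_iSup₂_of_le (cj k⁻¹ X)
          (mem_sylowMembers.2 ⟨h𝓕 X x1 _, this⟩) le_rfl) le_sup_left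
        exact ⟨x * k, by simpa [mul_assoc] using mul_mem k1 (h1 (conj_mem_cj.2 x3)), (cj_cj _ _ _).symm⟩
    refine top_le_iff.1 fun g _ => ?_
    obtain ⟨n, c, h1, h2, -, h3⟩ := hconn S (g • S)
    have : ∀ i, ∃ k ∈ H, cj k S = c i := fun i => by
      induction i using Fin.induction with
      | zero => exact ⟨1, one_mem _, by rw [h1, cj_one]⟩
      | succ i ih => exact key _ _ _ (hc _ _ (sylIn_top _) (sylIn_top _) (h3 i).2) ih
    obtain ⟨k, k1, k2⟩ := this (Fin.last n)
    rw [h2, coe_smul_sylow] at k2
    have : k⁻¹ * g ∈ H := mem_sup_right (cj_eq_self_iff.1 (by rw [← cj_cj, ← k2, cj_inv_cj]))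
    simpa using mul_mem k1 this)

end Cfsg.Agent.S2955
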