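import Cfsg.Statements.S2956
import Cfsg.Agent.Lib.Loc.AmbChar
import Cfsg.Agent.Lib.Loc.AmbSI
-- import your own Cfsg.Agent.* helpers here

set_option autoImplicit false
open Cfsg

namespace Cfsg.Agent.S2956

/-- Let p be a prime dividing the order of the finite group G, and f an assignment to every p-subgroup P of a set f(P) of subgroups of P, each normalized by N_G(P), compatible with conjugation, such that for P ≠ 1 the members of f(P) are nontrivial. Let 𝓕 be the family of the normalizers N_G(F) of the members F of f(S) over the Sylow p-subgroups S of G, and 𝓕' the family of the maximal p-local subgroups M of G that are singular for f (the corresponding family of normalizers inside M does not control Sylow p-intersections in M). Then 𝓕 ∪ 𝓕' controls Sylow p-intersections in G. -/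
theorem result {G : Type*} [Group G] [Finite G] (p : ℕ) [Fact p.Prime] (hdiv : p ∣ Nat.card G)
    (f : Subgroup G → Set (Subgroup G)) (hf : Cfsg.IsNormalizerFunctor p f)
    (hf1 : ∀ P : Subgroup G, IsPGroup p ↥P → P ≠ ⊥ → ∀ F ∈ f P, F ≠ ⊥)
    (𝓕 𝓕' : Set (Subgroup G)) (h𝓕 : 𝓕 = Cfsg.functorFamily p f ⊤)
    (h𝓕' : 𝓕' = {M | Cfsg.IsMaximalPLocal p M ∧ ¬ Cfsg.IsFunctorRegular p f M}) :
    Cfsg.ControlsSylowIntersections p (𝓕 ∪ 𝓕') := by
  open Subgroup Cfsg CA.Amb CA.AmbSyl CA.AmbCore CA.AmbRes CA.AmbChar CA.AmbSpe CA.AmbSI Relation in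
  open scoped commutatorElement in
  (
    rw [ctl_iff]
    set F := 𝓕 ∪ 𝓕'
    suffices ∀ D : Subgroup G, D ≠ ⊥ → ∀ S T, SylIn p S ⊤ → SylIn p T ⊤ → D ≤ S → D ≤ T → Ch p F D S T from
      fun S T hS hT hne => this _ hne S T hS hT inf_le_left inf_le_right
    intro D
    induction D using WellFoundedGT.induction with
    | ind D ih =>
    intro hD
    have ih' : ∀ E S T, D < E → SylIn p S ⊤ → SylIn p T ⊤ → E ≤ S → E ≤ T → Ch p F D S T :=
      fun E S T h a b c d => (ih E h (ne_bot_of_gt h) S T a b c d).mono le_rfl h.le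
    let R : Subgroup G → Subgroup G → Prop := fun A B =>
      ∀ S T, SylIn p S ⊤ → SylIn p T ⊤ → A ≤ S → B ≤ T → Ch p F D S T
    have mk : ∀ A B S T, D < A → D < B → SylIn p S ⊤ → SylIn p T ⊤ → A ≤ S → B ≤ T → Ch p F D S T → R A B :=
      fun A B S T a b c d e f g S' T' c' d' e' f' => ((ih' A S' S a c' c e' e).trans g).trans (ih' B T T' b d d' f f')
    have up : ∀ A B A' B', D < A → D < B → A ≤ A' → B ≤ B' → IsPGroup p A' → IsPGroup p B' → R A' B' → R A B :=
      fun A B A' B' a b c d e f g => by
        obtain ⟨S, s1, s2⟩ := exists_sylIn_ge e le_top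
        obtain ⟨T, t1, t2⟩ := exists_sylIn_ge f le_top
        exact mk A B S T a b s1 t1 (c.trans s2) (d.trans t2) (g S T s1 t1 s2 t2)
    have key : ∀ n, ∀ H A B : Subgroup G, IsPLocal p H → A ≤ H → B ≤ H → IsPGroup p A → IsPGroup p B → D < A → D < B →
        (∀ P, SylIn p P H → Nat.card G < Nat.card P + n) → R A B := by
      intro n
      induction n with
      | zero =>
        intro H A B _ _ _ _ _ _ _ h
        obtain ⟨P, hP⟩ := exists_sylIn p H
        exact absurd (h P hP) (not_lt.2 (card_le_card_group P))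
      | succ n ihn =>
        intro H A B h1 h2 h3 h4 h5 h6 h7 h8
        obtain ⟨M, m1, m2⟩ := Finite.exists_le_maximal h1
        obtain ⟨P, p1, p2⟩ := exists_sylIn_ge h4 (h2.trans m1)
        obtain ⟨Q, q1, q2⟩ := exists_sylIn_ge h5 (h3.trans m1)
        refine up A B P Q h6 h7 p2 q2 p1.pg q1.pg ?_
        have p3 := h6.trans_le p2
        have q3 := h7.trans_le q2
        by_cases hr : IsFunctorRegular p f M
        · have hc := (regular_iff.1 hr).ch p1 q1 p3.le q3.le hD
          suffices R P Q ∧ SylIn p Q M ∧ D < Q from this.1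
          clear q1 q2 q3
          induction hc with
          | refl => exact ⟨fun S T a b c d => ih' P S T p3 a b c d, p1, p3⟩
          | @tail U _ _ e ih2 =>
            obtain ⟨r1, r2, r3⟩ := ih2
            obtain ⟨A', a1, x, hx, rfl, a2⟩ := e.family hf r2
            have r4 := r2.conj_mem hx.1
            have r5 : D < cj x U := lt_of_le_of_ne a2 fun e => (card_lt_of_lt r3).ne (by rw [e, card_cj])
            refine ⟨fun S T a b c d => ?_, r4, r5⟩
            obtain ⟨V, v1, v2⟩ := exists_sylIn_ge r2.pg le_top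
            refine (r1 S V a v1 c v2).trans ?_
            obtain ⟨b1, b2⟩ := (hf U r2.pg).1 A' a1
            by_cases hU : SylIn p U ⊤
            · rw [hU.max v1.pg v2 le_top]
              refine (Ch.mono (ReflTransGen.single (step_of hf hU a1 hx.2 a2)) (h𝓕 ▸ Set.subset_union_left) le_rfl).trans
                (ih' _ _ _ r5 (hU.conj_mem (mem_top x)) b le_rfl d)
            · refine ihn (𝐍 A') U (cj x U) ⟨A', r2.pg.to_le b1, hf1 U r2.pg (ne_bot_of_gt r3) A' a1, rfl⟩
                (le_normalizer.trans b2) (cj_le_of_mem (le_normalizer.trans b2) hx.2) r2.pg r4.pg r3 r5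
                (fun W hW => ?_) V T v1 b v2 d
              obtain ⟨P', hP'⟩ := exists_sylIn p H
              have c1 := h8 P' hP'
              have c2 := r2.card_le hP'.pg (hP'.le.trans m1)
              have c3 := lt_inf_normalizer v1.pg (lt_of_le_of_ne v2 fun e => hU (e ▸ v1))
              have c4 := (card_lt_of_lt c3).trans_le (hW.card_le (v1.pg.to_le inf_le_left) (inf_le_right.trans b2))
              omega
        · obtain ⟨x, hx, rfl⟩ := p1.exists_conj q1
          obtain ⟨S, s1, s2⟩ := exists_sylIn_ge p1.pg le_top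
          refine mk _ _ S (cj x S) p3 q3 s1 (s1.conj_mem (mem_top x)) s2 (cj_mono x s2) (.single ⟨M, Or.inr (by
            rw [h𝓕']; exact ⟨⟨m2.1, fun N a b => le_antisymm (m2.2 a b) b⟩, hr⟩), ?_, x, hx, rfl,
            q3.le.trans (le_inf (cj_mono x s2) q1.le)⟩)
          rwa [p1.max (s1.pg.to_le inf_le_left) (le_inf s2 p1.le) inf_le_right]
    intro S T hS hT h1 h2
    rcases h1.eq_or_lt with rfl | h1
    · rw [hS.max hT.pg h2 le_top]
    rcases h2.eq_or_lt with rfl | h2
    · rw [hT.max hS.pg h1.le le_top]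
    exact key (Nat.card G) (𝐍 D) _ _ ⟨D, hS.pg.to_le h1.le, hD, rfl⟩ inf_le_right inf_le_right
      (hS.pg.to_le inf_le_left) (hT.pg.to_le inf_le_left) (lt_inf_normalizer hS.pg h1) (lt_inf_normalizer hT.pg h2)
      (fun P _ => by have := Nat.card_pos (α := P); omega) S T hS hT inf_le_left inf_le_left)

end Cfsg.Agent.S2956
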