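import Cfsg.Statements.S2957
import Cfsg.Agent.Lib.Loc.AmbChar
import Cfsg.Agent.Lib.Loc.AmbSI
-- import your own Cfsg.Agent.* helpers here

set_option autoImplicit false
open Cfsg

namespace Cfsg.Agent.S2957

/-- Let p be a prime dividing the order of the finite group G, f an equivariant assignment of a set of subgroups f(P) of P to every p-subgroup P, each normalized by N_G(P), and S a Sylow p-subgroup. If G = G₁G₂ for subgroups G₁, G₂ both containing S and both regular for f (in each Gᵢ, the family of normalizers in Gᵢ of the members of f(P), P a Sylow p-subgroup of Gᵢ, controls Sylow p-intersections), then G itself is regular for f. -/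
theorem result {G : Type*} [Group G] [Finite G] (p : ℕ) [Fact p.Prime] (hdiv : p ∣ Nat.card G)
    (f : Subgroup G → Set (Subgroup G)) (hf : Cfsg.IsNormalizerFunctor p f) (S : Sylow p G)
    (G₁ G₂ : Subgroup G) (h₁ : (S : Subgroup G) ≤ G₁) (h₂ : (S : Subgroup G) ≤ G₂)
    (hprod : ∀ g : G, ∃ g₁ ∈ G₁, ∃ g₂ ∈ G₂, g = g₁ * g₂)
    (hr₁ : Cfsg.IsFunctorRegular p f G₁) (hr₂ : Cfsg.IsFunctorRegular p f G₂) :
    Cfsg.IsFunctorRegular p f ⊤ := by
  open Subgroup Cfsg CA.Amb CA.AmbSyl CA.AmbCore CA.AmbRes CA.AmbChar CA.AmbSpe CA.AmbSI Relation in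
  open scoped commutatorElement in
  (
    rw [regular_iff] at *
    have hS := sylIn_top S
    have cjc : ∀ {D U T} (g : G), Ch p (functorFamily p f ⊤) D U T →
        Ch p (functorFamily p f ⊤) (cj g D) (cj g U) (cj g T) := fun g h =>
      h.map (conj_injective g) fun X hX => cj_mem_family hf hX g
    have key : ∀ g : G, (S : Subgroup G) ⊓ cj g S ≠ ⊥ →
        Ch p (functorFamily p f ⊤) ((S : Subgroup G) ⊓ cj g S) S (cj g S) := fun g hne => by
      obtain ⟨U, u1, u2, u3⟩ := exists_syl_between hS h₁ h₂ hprod g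
      have a := u3.trans inf_le_left
      have b := le_cj_iff.1 (u3.trans inf_le_right)
      have c := u1.conj_mem (mem_top g⁻¹)
      refine ((hr₁.ch (hS.mono h₁ le_top) (u1.mono a le_top) inf_le_left u2 hne).up hf hS h₁).trans ?_
      have := cjc g ((hr₂.ch (c.mono b le_top) (hS.mono h₂ le_top) (cj_mono g⁻¹ u2)
        (le_cj_iff.1 inf_le_right) (by rwa [Ne, cj_eq_bot])).up hf c b)
      rwa [cj_cj_inv, cj_cj_inv] at this
    intro U T hU hT hne
    obtain ⟨a, -, rfl⟩ := hS.exists_conj hU
    obtain ⟨b, -, rfl⟩ := hS.exists_conj hT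
    have := cjc a (key (a⁻¹ * b) fun e => hne (by
      rw [← cj_eq_bot (g := a), cj_inf, cj_cj, mul_inv_cancel_left] at e; exact e))
    rwa [cj_inf, cj_cj, mul_inv_cancel_left] at this)

end Cfsg.Agent.S2957
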