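import Cfsg.Statements.S2958
import Cfsg.Agent.Lib.Loc.AmbChar
import Cfsg.Agent.Lib.Loc.AmbRed
-- import your own Cfsg.Agent.* helpers here

set_option autoImplicit false
open Cfsg

namespace Cfsg.Agent.S2958

/-- Let X, A, B be subgroups of a group G such that G is generated by the conjugates of X and every conjugate of X is contained in A or in B. Then A = G or B = G. -/
theorem result {G : Type*} [Group G] (X A B : Subgroup G) (hgen : (⨆ g : G, X.map (MulAut.conj g).toMonoidHom) = ⊤) (hcover : ∀ g : G, X.map (MulAut.conj g).toMonoidHom ≤ A ∨ X.map (MulAut.conj g).toMonoidHom ≤ B) : A = ⊤ ∨ B = ⊤ := by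
  open Subgroup Cfsg CA.Amb CA.AmbSyl CA.AmbCore CA.AmbRes CA.AmbChar CA.AmbWC CA.AmbSpe CA.AmbRed in
  (
    by_contra hne
    push Not at hne
    -- the sets of `g` with `X^g ≤ A` resp. `X^g ≤ B`
    have hA : ∃ g, ¬ cj g X ≤ A := by
      by_contra h; push Not at h
      exact hne.1 (top_le_iff.1 (hgen.ge.trans (iSup_le h)))
    have hB : ∃ g, ¬ cj g X ≤ B := by
      by_contra h; push Not at h
      exact hne.2 (top_le_iff.1 (hgen.ge.trans (iSup_le h)))
    obtain ⟨a, ha⟩ := hA
    obtain ⟨b, hb⟩ := hB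
    have haB : cj a X ≤ B := (hcover a).resolve_left ha
    have hbA : cj b X ≤ A := (hcover b).resolve_right hb
    -- the join `D` of the conjugates outside `A` is normalized by `A` and by itself
    set D : Subgroup G := ⨆ g : {g : G // ¬ cj g X ≤ A}, cj g.1 X with hD
    have hDB : D ≤ B := iSup_le fun g => (hcover g.1).resolve_left g.2
    have hAD : A ≤ 𝐍 D := by
      rw [le_normalizer_iff_cj]
      intro x hx
      rw [hD, cj_iSup, iSup_le_iff]
      intro g
      rw [cj_cj]
      refine le_iSup (fun g : {g : G // ¬ cj g X ≤ A} => cj g.1 X) ⟨x * g.1, fun h => g.2 ?_⟩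
      rw [← cj_cj, cj_le_iff, cj_eq_self_of_mem (A.inv_mem hx)] at h
      exact h
    have hDn : (⊤ : Subgroup G) ≤ 𝐍 D := by
      refine hgen.ge.trans (iSup_le fun g => ?_)
      by_cases h : cj g X ≤ A
      · exact h.trans hAD
      · exact (le_iSup (fun g : {g : G // ¬ cj g X ≤ A} => cj g.1 X) ⟨g, h⟩).trans le_normalizer
    have h1 : cj a X ≤ D := le_iSup (fun g : {g : G // ¬ cj g X ≤ A} => cj g.1 X) ⟨a, ha⟩
    have h2 := cj_le_of_le h1 (hDn (mem_top (b * a⁻¹)))
    rw [cj_cj, inv_mul_cancel_right] at h2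
    exact hb (h2.trans hDB))

end Cfsg.Agent.S2958
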