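import Cfsg.Statements.S2960
import Cfsg.Agent.Lib.Loc.AmbChar
import Cfsg.Agent.Lib.Loc.AmbWC
-- import your own Cfsg.Agent.* helpers here

set_option autoImplicit false
open Cfsg

namespace Cfsg.Agent.S2960

/-- Let G be a finite group of characteristic p (C_G(O_p(G)) ≤ O_p(G)), p prime, T a Sylow p-subgroup of G and Q a normal subgroup of T with C_T(Q) ≤ Q. Then C_G(Q) ≤ Q. -/
theorem result {G : Type*} [Group G] [Finite G] {p : ℕ} [Fact p.Prime] (hG : Subgroup.centralizer (Cfsg.pCore p G : Set G) ≤ Cfsg.pCore p G) (T : Sylow p G) (Q : Subgroup G) (hQT : Q ≤ (T : Subgroup G)) (hQn : (T : Subgroup G) ≤ Subgroup.normalizer (Q : Set G)) (hC : (T : Subgroup G) ⊓ Subgroup.centralizer (Q : Set G) ≤ Q) : Subgroup.centralizer (Q : Set G) ≤ Q := by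
  open Subgroup Cfsg CA.Amb CA.AmbSyl CA.AmbCore CA.AmbRes CA.AmbChar CA.AmbWC in
  (
    have h1 := (charP_top_iff.2 hG).inf_centralizer (T.2.to_le hQT) le_top
    rw [top_inf_eq] at h1
    have h2 : pCoreOf p (𝐂 Q) ≤ Q := by
      refine le_trans (le_inf ?_ (pCoreOf_le _ _)) hC
      exact (sylIn_top T).le_of_norm (isPGroup_pCoreOf _ _) le_top
        (norm_pCoreOf_of_norm (norm_centralizer hQn))
    exact (h1.le_of_cent le_rfl (centralizer_anti h2)).trans h2)

end Cfsg.Agent.S2960
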