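import Cfsg.Statements.S2961
import Cfsg.Agent.Lib.Loc.AmbChar
import Cfsg.Agent.Lib.Loc.AmbWC
import Cfsg.Agent.S2960
-- import your own Cfsg.Agent.* helpers here

set_option autoImplicit false
open Cfsg

namespace Cfsg.Agent.S2961

/-- Let G be a finite group of characteristic p (C_G(O_p(G)) ≤ O_p(G)), p prime, T a Sylow p-subgroup of G and Q a normal subgroup of T with C_T(Q) ≤ Q. Then every subgroup L of G containing Q has characteristic p: C_L(O_p(L)) ≤ O_p(L). -/
theorem result {G : Type*} [Group G] [Finite G] {p : ℕ} [Fact p.Prime] (hG : Subgroup.centralizer (Cfsg.pCore p G : Set G) ≤ Cfsg.pCore p G) (T : Sylow p G) (Q : Subgroup G) (hQT : Q ≤ (T : Subgroup G)) (hQn : (T : Subgroup G) ≤ Subgroup.normalizer (Q : Set G)) (hC : (T : Subgroup G) ⊓ Subgroup.centralizer (Q : Set G) ≤ Q) (L : Subgroup G) (hQL : Q ≤ L) : Subgroup.centralizer (Cfsg.pCore p ↥L : Set ↥L) ≤ Cfsg.pCore p ↥L := by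
  open Subgroup Cfsg CA.Amb CA.AmbSyl CA.AmbCore CA.AmbRes CA.AmbChar CA.AmbWC in
  (
    have hCQ := Cfsg.Agent.S2960.result hG T Q hQT hQn hC
    have hQ : IsPGroup p Q := T.2.to_le hQT
    have hG' := charP_top_iff.2 hG
    rw [← CA.AmbChar.charP_iff, charP_iff_res]
    set D := pResidualOf p (L ⊓ 𝐂 (pCoreOf p L)) with hD
    have hDD : pResidualOf p D = D := res_res _ _
    have hDL : D ≤ L := (res_le _ _).trans inf_le_left
    have hDC : D ≤ 𝐂 (pCoreOf p L) := (res_le _ _).trans inf_le_right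
    have hLD : L ≤ 𝐍 D :=
      norm_res_of_norm (norm_inf le_normalizer (norm_centralizer (norm_pCoreOf p L)))
    have hn : ∀ X : Subgroup G, X ≤ 𝐍 (pCoreOf p (⊤ : Subgroup G)) := fun X =>
      le_top.trans (norm_pCoreOf p ⊤)
    have hO : pCoreOf p ⊤ ≤ 𝐍 Q := (pCoreOf_le_syl (sylIn_top T)).trans hQn
    have h1 : ⁅Q, pCoreOf p ⊤⁆ ≤ pCoreOf p L :=
      (le_inf ((commutator_le_left_of_norm hO).trans hQL)
        (commutator_le_right_of_norm (hn _))).trans (inf_pCoreOf_le le_top)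
    have h2 : ⁅ncl Q D, pCoreOf p ⊤⁆ ≤ pCoreOf p L :=
      comm_ncl_le (hn _) (hDL.trans (norm_pCoreOf p L)) (hQL.trans (norm_pCoreOf p L)) h1
    have h3 : pResidualOf p (ncl Q D) ≤ D :=
      res_le_of_le_sup hQ (hQL.trans hLD) (ncl_le le_sup_left (norm_of_le le_sup_right))
    have hP : IsPGroup p (ncl Q D) := by
      rw [← res_eq_bot_iff]
      refine hG'.res_eq_bot le_top (res_le_cent_of_comm_le (isPGroup_pCoreOf p ⊤) (hn _) ?_)
      rw [commutator_comm]
      exact ((commutator_mono (res_le _ _) le_rfl).trans h2).trans (cent_symm (h3.trans hDC))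
    have hPL : ncl Q D ≤ L := ncl_le hQL (norm_of_le hDL)
    have h4 : ⁅ncl Q D, D⁆ ≤ pCoreOf p L := by
      refine le_trans ?_ (pCoreOf_le_of_norm hDL hLD)
      exact le_pCoreOf (commutator_le_right_of_norm (hPL.trans hLD))
        (hP.to_le (commutator_le_left_of_norm (norm_ncl Q D))) (norm_comm_right _ _)
    have h5 := res_le_cent_of_comm_le hP (norm_ncl Q D) (by rw [hDD]; exact h4.trans (cent_symm hDC))
    rw [hDD] at h5
    rw [← hDD]
    exact res_eq_bot_of_isPGroup (hQ.to_le ((h5.trans (centralizer_anti (le_ncl Q D))).trans hCQ)))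

end Cfsg.Agent.S2961
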