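import Cfsg.Statements.S2963

set_option autoImplicit false
open Cfsg

namespace Cfsg.Agent.S2963

open MulAction Pointwise

/-- Let n be odd. If the symmetric group of degree n is a minimal parabolic group for the prime 2, that is, a Sylow 2-subgroup is not normal and lies in exactly one maximal subgroup, then n = 2^m + 1 for some natural number m. -/
theorem result (n : ℕ) (hn : Odd n) (h : Cfsg.IsPMinimal 2 (Equiv.Perm (Fin n))) : ∃ m : ℕ, n = 2 ^ m + 1 := by
  haveI := Fact.mk Nat.prime_two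
  obtain ⟨S⟩ : Nonempty (Sylow 2 (Equiv.Perm (Fin n))) := inferInstance
  obtain ⟨hN, M, -, hM⟩ := h S
  obtain ⟨a, ha⟩ := S.2.nonempty_fixed_point_of_prime_not_dvd_card (Fin n)
    (by simpa [← even_iff_two_dvd] using hn)
  have hne : ∃ b, b ≠ a := by
    by_contra! q
    exact hN ⟨fun x hx g => by rwa [show g * x * g⁻¹ = x from Equiv.ext fun y => (q _).trans (q _).symm]⟩
  obtain ⟨b, hb⟩ := hne
  haveI : Nontrivial (Fin n) := ⟨b, a, hb⟩
  have hs : (S : Subgroup _) ≤ stabilizer (Equiv.Perm (Fin n)) a := fun g hg => ha ⟨g, hg⟩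
  have e1 := hM _ ⟨IsPreprimitive.isCoatom_stabilizer_of_isPreprimitive _ a, hs⟩
  have na : a ∉ orbit (S : Subgroup (Equiv.Perm (Fin n))) b := fun ⟨g, e⟩ =>
    hb ((smul_left_cancel_iff g).1 (e.trans (ha g).symm))
  have key : ∀ c, c ≠ a → c ∈ orbit (S : Subgroup (Equiv.Perm (Fin n))) b := fun c hc => by_contra fun nc => by
    let H := stabilizer (Equiv.Perm (Fin n)) (orbit (S : Subgroup (Equiv.Perm (Fin n))) b)
    obtain ⟨M', m1, m2⟩ := (eq_top_or_exists_le_coatom H).resolve_left fun e => na (by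
      have := (mem_stabilizer_set.1 (e.ge (Subgroup.mem_top (Equiv.swap a b))) b).2 (mem_orbit_self b)
      simpa using this)
    have : Equiv.swap a c ∈ H := mem_stabilizer_set.2 fun x => by
      by_cases h1 : x = a
      · simp [h1, na, nc]
      by_cases h2 : x = c
      · simp [h2, na, nc]
      simp [Equiv.swap_apply_of_ne_of_ne h1 h2]
    have e2 := hM M' ⟨m1, fun g hg => m2 (smul_orbit (⟨g, hg⟩ : (S : Subgroup (Equiv.Perm (Fin n)))) b :)⟩
    have := e1.ge (e2.le (m2 this))
    exact hc (by simpa using this)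
  obtain ⟨m, hm⟩ := S.2.card_orbit b
  refine ⟨m, ?_⟩
  have : orbit (S : Subgroup (Equiv.Perm (Fin n))) b = {a}ᶜ := Set.ext fun c => ⟨fun h e => na (e ▸ h), key c⟩
  rw [← hm, this, Nat.card_coe_set_eq, ← Set.ncard_singleton a, add_comm, Set.ncard_add_ncard_compl]
  simp

end Cfsg.Agent.S2963
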