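import Cfsg.Statements.S2989
import Cfsg.Agent.Lib.Loc.H6CL

set_option autoImplicit false
open Cfsg

set_option linter.unusedVariables false
set_option linter.unusedSimpArgs false
set_option linter.style.haveILetI false

namespace Cfsg.Agent.S2989

open CA CA.H6Nat CA.H6Nat2 CA.H6Core CA.H6Core2 CA.H6E0 CA.H6Bau CA.H6CL CA.AmbCD
open CA.Amb CA.AmbSyl CA.AmbCore CA.AmbRes CA.AmbSpe CA.AmbWC Subgroup
open scoped commutatorElement MatrixGroups

/-- Let G be a finite group and S a Sylow p-subgroup of G in the basic pushing-up situation (G ≠ 1, C_G(O_p(G)) ≤ O_p(G), S lies in a unique maximal subgroup of G, and some quotient of G is isomorphic to PSL₂ over a field of order a power of p), and suppose that S centralizes Z(J(S)), where J(S) is generated by the abelian subgroups of S of largest order (that is, J̃(S) = C_S(Z(J(S))) = S). Call a subgroup R of S centrally large if |R|·|Z(R)| is as large as possible among subgroups of S, and let S_Φ be the subgroup generated by the Frattini subgroups Φ(Q) of those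 minimal centrally large subgroups Q of S whose Ω₁(Z(Q)) has the largest order among minimal centrally large subgroups. Then Z(S) or S_Φ is normal in G; and if S_Φ = 1, the minimal centrally large subgroups of S are exactly the abelian subgroups of S of largest order, and at least one of them is elementary abelian. -/
theorem result {G : Type*} [Group G] [Finite G] {p : ℕ} [Fact p.Prime] (S : Subgroup G) (hE : Cfsg.IsPushingUpSituation p S) (hJ : S ≤ Subgroup.centralizer (Cfsg.centerThompsonAOf S : Set G)) : ((S ⊓ Subgroup.centralizer (S : Set G)).Normal ∨ ((Cfsg.frattiniOfMinimalCLJoin p ↥S).map S.subtype).Normal) ∧ (Cfsg.frattiniOfMinimalCLJoin p ↥S = ⊥ → (∀ Q : Subgroup ↥S, Cfsg.IsMinimalCentrallyLarge Q ↔ Q ∈ Cfsg.maxAbelianSubgroups ↥S) ∧ ∃ A ∈ Cfsg.maxAbelianSubgroups ↥S, Cfsg.IsElementaryAbelian p A) := by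
  obtain ⟨F, _, _, _, M, hR, hc⟩ := of_pus hE
  refine ⟨?_, fun h => ?_⟩
  · by_cases hnt : ⊤ ≤ 𝐂 (OZ 0 S)
    · exact Or.inl (normal_iff_top_le.2 (by rw [← OZ_zero]; exact norm_of_centralizer hnt))
    rw [map_SP hR.syl.pg]
    exact Or.inr (normal_iff_top_le.2 (norm_SP hR hc hnt (J_not_le hR hc hnt hJ) rfl))
  obtain ⟨Q, hQ⟩ := exists_MX p S
  obtain ⟨Q, h1, rfl⟩ := hQ.1.lift
  have h2 : IsElementaryAbelian p Q :=
    (PGFrattini.map_frattini_eq_bot_iff (hR.syl.pg.to_subgroup _)).1 (le_bot_iff.1 (h ▸
      le_iSup_of_le (f := fun Q : {Q : Subgroup S // IsMinimalCentrallyLarge Q ∧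
        Nat.card (omegaOneCenter p Q) = maxOmegaCenterOfMinimalCL p S} =>
        (frattini Q.1).map Q.1.subtype) ⟨Q, MX_iff.2 hQ⟩ le_rfl))
  simp only [mcl_iff, ma_iff]
  exact ⟨fun R => h1.ma_iff (ea_le_cent h2), Q, (h1.ma_iff (ea_le_cent h2)).1 h1, h2⟩

end Cfsg.Agent.S2989
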