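import Cfsg.Statements.S2998
import Cfsg.Agent.Lib.Loc.AmbChar
import Cfsg.Agent.Lib.Loc.AmbIso
-- import your own Cfsg.Agent.* helpers here

set_option autoImplicit false
open Cfsg

namespace Cfsg.Agent.S2998

/-- Let G be a finite group, p a prime, P a Sylow p-subgroup of G and x ∈ P an element such that N_G(R) ≤ C_G(x) for every nontrivial subgroup R of P. Then P ≤ C_G(x); every G-conjugate of x lying in P equals x (so g ∈ C_G(x) whenever g x g⁻¹ ∈ P); and for every normal subgroup N of G, the image of x in G ⧸ N has the same property with respect to the image of P: the normalizer of every nontrivial subgroup of the image of P centralizes the image of x. -/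
theorem result {G : Type*} [Group G] [Finite G] {p : ℕ} [Fact p.Prime] (P : Sylow p G) (x : G) (hxP : x ∈ (P : Subgroup G)) (hlc : ∀ R : Subgroup G, R ≤ (P : Subgroup G) → R ≠ ⊥ → Subgroup.normalizer (R : Set G) ≤ Subgroup.centralizer ({x} : Set G)) : (P : Subgroup G) ≤ Subgroup.centralizer ({x} : Set G) ∧ (∀ g : G, g * x * g⁻¹ ∈ (P : Subgroup G) → g * x * g⁻¹ = x) ∧ ∀ (N : Subgroup G) [N.Normal], ∀ R : Subgroup (G ⧸ N), R ≤ (P : Subgroup G).map (QuotientGroup.mk' N) → R ≠ ⊥ → Subgroup.normalizer (R : Set (G ⧸ N)) ≤ Subgroup.centralizer ({(QuotientGroup.mk x : G ⧸ N)} : Set (G ⧸ N)) := by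
  open Subgroup Cfsg CA.Amb CA.AmbSyl CA.AmbCore CA.AmbRes CA.AmbChar CA.AmbWC CA.AmbSpe CA.AmbRed CA.AmbFs CA.AmbM CA.AmbIso in
  open scoped commutatorElement in
  (
    have hS := sylIn_top P
    have h1 : (P : Subgroup G) ≤ centralizer ({x} : Set G) := by
      by_cases e : (P : Subgroup G) = ⊥
      · exact e.le.trans bot_le
      · exact le_normalizer.trans (hlc P le_rfl e)
    refine ⟨h1, fun g hg => ?_, fun N _ R hR hR1 => ?_⟩
    · by_cases e : x = 1
      · rw [e]; group
      have h2 : cj g (centralizer {x}) ≤ centralizer {x} := by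
        rw [cj_centralizer_singleton, ← centralizer_zpowers]
        exact (centralizer_le_normalizer _).trans (hlc _ (zpowers_le.2 hg) fun e' =>
          e (conj_eq_one_iff.1 (zpowers_eq_bot.1 e')))
      obtain ⟨n, h3, h4⟩ := (hS.mono h1 le_top).frattini le_rfl (mem_normalizer_of_cj_le h2)
      have h5 := mul_mem h3 (hlc P le_rfl (ne_bot_of_mem hxP e) h4)
      rw [mul_inv_cancel_left] at h5
      exact mem_cent_iff.1 h5
    · set f := QuotientGroup.mk' N with hf
      set K := R.comap f with hK
      have hNK : N ≤ K := (QuotientGroup.ker_mk' N).ge.trans (ker_le_comap f R)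
      have hKP : K ≤ (P : Subgroup G) ⊔ N := (comap_mono hR).trans (by rw [comap_map_eq, QuotientGroup.ker_mk'])
      have h2 : SylIn p ((P : Subgroup G) ⊓ K) K :=
        (sn_of_sup P.2 rfl norm_of_normal hNK hKP).sylIn_inf (hS.mono le_sup_left le_top)
      have h3 : ((P : Subgroup G) ⊓ K).map f = R := map_inf_comap f hR
      intro y hy
      obtain ⟨g, rfl⟩ := QuotientGroup.mk'_surjective N y
      have hg : g ∈ 𝐍 K := norm_comap f (le_refl (𝐍 R)) hy
      obtain ⟨n, h4, h5⟩ := h2.frattini le_rfl hg
      obtain ⟨a, ha, e⟩ := h3.ge (mem_comap.1 h4)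
      have hc := hlc _ inf_le_left (fun e => hR1 (by rw [← h3, e, Subgroup.map_bot]))
      have h6 := mul_mem (h1 (mem_inf.1 ha).1) (hc h5)
      have h7 := congrArg f (mem_centralizer_singleton_iff.1 h6)
      simp only [map_mul, map_inv, e, mul_inv_cancel_left] at h7
      exact mem_centralizer_singleton_iff.2 h7)

end Cfsg.Agent.S2998
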