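import Cfsg.Statements.S2999
import Cfsg.Agent.Lib.Loc.H6Core2

set_option autoImplicit false
open Cfsg

set_option linter.unusedVariables false
set_option linter.unusedSimpArgs false
set_option linter.style.haveILetI false

namespace Cfsg.Agent.S2999

open CA CA.H6Nat CA.H6Nat2 CA.H6Core CA.H6Core2 CA.Amb CA.AmbSyl CA.AmbCore CA.AmbRes CA.AmbSpe CA.AmbWC Subgroup
open scoped commutatorElement MatrixGroups

/-- Let p be a prime and let P and V be subgroups of a finite group with V elementary abelian, P normalizing V and acting faithfully on it (P ∩ C(V) = 1). Suppose P is p-minimal (a Sylow p-subgroup T of P is not normal and lies in a unique maximal subgroup M of P) and A ≤ T is an elementary abelian subgroup such that: |V/C_V(A)| ≤ |A| while |A₀|·|C_V(A₀)| < |A|·|C_V(A)| for every nontrivial proper subgroup A₀ of A; [C_V(T), P] ≠ 1; and P = ⟨A, xAx⁻¹⟩ for every x ∈ P outside M. Then, with q = |A|, there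 is a field F with q elements such that P ≅ SL₂(F), C_V(A) = [V, A]·C_V(P), and P acts on V/C_V(P) as SL₂(F) on its natural two-dimensional module. -/
theorem result {G : Type*} [Group G] [Finite G] {p : ℕ} [Fact p.Prime] (V P : Subgroup G) (hV : Cfsg.IsElementaryAbelian p V) (hPV : P ≤ Subgroup.normalizer (V : Set G)) (hfaith : P ⊓ Subgroup.centralizer (V : Set G) = ⊥) (hmin : Cfsg.IsPMinimal p ↥P) (T : Sylow p ↥P) (M : Subgroup ↥P) (hM : IsCoatom M) (hTM : (T : Subgroup ↥P) ≤ M) (A : Subgroup G) (hAT : A ≤ ((T : Subgroup ↥P).map P.subtype)) (hAel : Cfsg.IsElementaryAbelian p A) (hi : Nat.card ↥V ≤ Nat.card ↥A * Nat.card ↥(V ⊓ Subgroup.centralizer ((A : Subgroup G) : Set G)) ∧ ∀ A₀ : Subgroup G, A₀ ≤ A → A₀ ≠ ⊥ → A₀ ≠ A → Nat.card ↥A₀ * Nat.card ↥(V ⊓ Subgroup.centralizer ((A₀ : Subgroup G) : Set G)) < Nat.card ↥A * Nat.card ↥(V ⊓ Subgroup.centralizer ((A : Subgroup G) : Set G))) (hii : ⁅(V ⊓ Subgroup.centralizer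 ((((T : Subgroup ↥P).map P.subtype) : Subgroup G) : Set G)), P⁆ ≠ ⊥) (hiii : ∀ x : ↥P, x ∉ M → A ⊔ A.map (MulAut.conj (x : G)).toMonoidHom = P) : ∃ (F : Type) (_ : Field F) (_ : Fintype F), Fintype.card F = Nat.card ↥A ∧ Nonempty (↥P ≃* Matrix.SpecialLinearGroup (Fin 2) F) ∧ (V ⊓ Subgroup.centralizer ((A : Subgroup G) : Set G)) = ⁅V, A⁆ ⊔ (V ⊓ Subgroup.centralizer ((P : Subgroup G) : Set G)) ∧ Cfsg.ActsAsSL2OnSection F ⊤ P V (V ⊓ Subgroup.centralizer ((P : Subgroup G) : Set G)) := by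
  set T' := (T : Subgroup ↥P).map P.subtype with hT'
  have hT : SylIn p T' P := sylIn_sylow T
  obtain ⟨-, M₀, hM₀⟩ := (AmbFs.isPMinimal_iff hT).1 hmin
  have hM' := umax_of_coatom' hM₀ hM (map_mono hTM)
  have hVc := ea_le_cent hV
  have hAP : A ≤ P := hAT.trans hT.le
  have hnt : ¬ P ≤ 𝐂 (V ⊓ 𝐂 T') := fun h => hii (comm_eq_bot_of_le' h)
  have hgen : ∀ x ∈ P, x ∉ M.map P.subtype → P ≤ A ⊔ cj x A ⊔ (P ⊓ 𝐂 V) := fun x hx hxM =>
    (hiii ⟨x, hx⟩ fun h => hxM ⟨_, h, rfl⟩).ge.trans le_sup_left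
  have hmax : ∀ B, B ≤ A → H6Off.fm V B ≤ H6Off.fm V A := fun B hB => by
    by_cases h1 : B = ⊥
    · rw [h1, H6Off.fm_bot]; exact hi.1
    by_cases h2 : B = A
    · rw [h2]
    exact (hi.2 B hB h1 h2).le
  have hAC : A ⊓ 𝐂 V = ⊥ := le_bot_iff.1 (hfaith ▸ inf_le_inf_right _ hAP)
  have hA1 : ¬ A ≤ 𝐂 V := fun h => by
    obtain ⟨x, hx, hxM⟩ := SetLike.not_le_iff_exists.1 hM'.not_le
    refine hnt ((hgen x hx hxM).trans (le_trans ?_ (centralizer_anti inf_le_left)))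
    exact sup_le (sup_le h (cj_le_of_le h (norm_centralizer hPV hx))) inf_le_right
  have hab : ⁅A, A⁆ ≤ 𝐂 V := by rw [comm_eq_bot_of_le (ea_le_cent hAel)]; exact bot_le
  have hq : ⁅V, A⁆ ≤ 𝐂 A := by
    refine cent_symm (inf_eq_left.1 ?_)
    by_contra hne
    refine (hi.2 _ inf_le_left (fun h => repl_not_le hVc (ea_pg hV) (ea_pg hAel) (hAP.trans hPV) hab
      hmax hA1 (h ▸ bot_le)) hne).ne ?_
    exact (H6Off.timmesfeld (isMulComm hVc) (hAP.trans hPV) hab hmax le_rfl).1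
  have hW := hyp_W hVc hPV hT hM' hAT hq hgen hnt
  have hc : A ⊓ 𝐂 (ncl (V ⊓ 𝐂 T') P) = ⊥ := by
    by_contra hne
    exact (hi.2 _ inf_le_left hne fun h => hW.not_le (cent_symm (inf_eq_left.1 h))).not_ge
      (fm_le_of_idx hVc (ncl_le inf_le_left hPV) hW.idx_le)
  have hoff : (𝐂 A).relIndex V ≤ (𝐂 V).relIndex A := fm_iff.1 (by rw [hAC, card_bot, one_mul]; exact hi.1)
  have h := hyp_V hVc hPV hT hM' hAT hq hgen hnt (hc ▸ bot_le) hoff
  have hidx : (𝐂 V).relIndex A = Nat.card A := by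
    rw [← inf_relIndex_left, hAC, relIndex_bot_left]
  obtain ⟨n, hn⟩ := (IsPGroup.iff_card.1 (ea_pg hAel))
  obtain ⟨F, _, _, hF⟩ := exists_field (p := p) (n := n) (by
    rintro rfl
    exact hA1 (by rw [card_eq_one.1 (hn.trans (pow_zero p))]; exact bot_le))
  have hq' : Nat.card F = p ^ n := by rw [Nat.card_eq_fintype_card, hF]
  haveI := charP_of_card hq'
  have hN := h.nt_of hoff F (by rw [le_antisymm hoff h.idx_le, hidx, hn, hq'])
  have hK := Kn_le_cent hVc hPV hT hM' (ea_pg hV) hnt hN h.Kn_le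
  have hK' : P ⊓ Kn V (V ⊓ 𝐂 P) = ⊥ := le_bot_iff.1 (hfaith ▸ le_inf inf_le_left hK)
  refine ⟨F, inferInstance, inferInstance, hF.trans hn.symm, hN.equiv hK', ?_, hN⟩
  have hc := hN.cov hT
  have hk : ¬ A ≤ Kn V (V ⊓ 𝐂 P) := fun h' => hA1 ((le_inf hAP h').trans hK)
  rw [← h.Fx_eq, hc.Fx_eq hAT hk]
  exact le_antisymm (hc.Fx_le_of hAT hk le_sup_right le_sup_left)
    (sup_le ((commutator_mono le_rfl hAT).trans hc.quad) (hN.le_Fx hT.le))

end Cfsg.Agent.S2999
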