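import Cfsg.Statements.S3000
import Cfsg.Agent.Lib.Loc.H6TV8

set_option autoImplicit false
open Cfsg

set_option linter.unusedVariables false
set_option linter.unusedSimpArgs false
set_option linter.style.haveILetI false

namespace Cfsg.Agent.S3000

open CA CA.H6Core2 CA.H6TV3 CA.H6TV7 CA.H6TV8 CA.Amb CA.AmbSyl CA.AmbCore CA.AmbRes CA.AmbSpe CA.AmbWC Subgroup
open scoped commutatorElement MatrixGroups


/-- Let p be a prime and let P and V be subgroups of a finite group with V elementary abelian, P normalizing V and acting faithfully on it (P ∩ C(V) = 1). Suppose P is p-minimal (a Sylow p-subgroup T of P is not normal and lies in a unique maximal subgroup M of P), O_p(P) = 1, C_P(C_V(T)) ≤ M, and P has a best offender on V: a subgroup A not centralizing V, with A/C_A(V) elementary abelian, such that |B|·|C_V(B)| ≤ |A|·|C_V(A)| for every subgroup B of A. Then there are subgroups E₁, …, E_r of P (r ≥ 1), pairwise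 commuting and forming with T a product P = (E₁ × ⋯ × E_r)T (internal direct product of the E_i), any two of which are conjugate by an element of T, such that V = C_V(E₁⋯E_r)·∏[V, E_i] with [V, E_i, E_j] = 1 for i ≠ j, and for each i there is n ≥ 1 with either E_i ≅ SL₂(pⁿ) acting on [V, E_i]/C_{[V,E_i]}(E_i) as on its natural two-dimensional module, or p = 2 and E_i isomorphic to the symmetric group of degree 2ⁿ + 1 acting on [V, E_i]/C_{[V,E_i]}(E_i) as on its even-weight permutation module. -/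
theorem result {G : Type*} [Group G] [Finite G] {p : ℕ} [Fact p.Prime] (V P : Subgroup G) (hV : Cfsg.IsElementaryAbelian p V) (hPV : P ≤ Subgroup.normalizer (V : Set G)) (hfaith : P ⊓ Subgroup.centralizer (V : Set G) = ⊥) (hmin : Cfsg.IsPMinimal p ↥P) (T : Sylow p ↥P) (M : Subgroup ↥P) (hM : IsCoatom M) (hTM : (T : Subgroup ↥P) ≤ M) (hOp : Cfsg.pCore p ↥P = ⊥) (hoff : ∃ A : Subgroup G, A ≤ P ∧ ¬ A ≤ Subgroup.centralizer (V : Set G) ∧ Cfsg.IsBestOffenderOn p V A) (hCT : P ⊓ Subgroup.centralizer ((V ⊓ Subgroup.centralizer ((((T : Subgroup ↥P).map P.subtype) : Subgroup G) : Set G)) : Set G) ≤ M.map P.subtype) : ∃ (r : ℕ) (E : Fin r → Subgroup G), 1 ≤ r ∧ (∀ i, E i ≤ P) ∧ (∀ i j, i ≠ j → ⁅E i, E j⁆ = ⊥) ∧ (∀ i, E i ⊓ (⨆ j ∈ {j | j ≠ i}, E j) = ⊥) ∧ (⨆ i, E i) ⊔ ((T : Subgroup ↥P).map P.subtype) = P ∧ (∀ i j, ∃ t ∈ ((T : Subgroup ↥P).map P.subtype), (E i).map (MulAut.conj t).toMonoidHom = E j) ∧ (V ⊓ Subgroup.centralizer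 (((⨆ i, E i) : Subgroup G) : Set G)) ⊔ (⨆ i, ⁅V, E i⁆) = V ∧ (∀ i j, i ≠ j → ⁅⁅V, E i⁆, E j⁆ = ⊥) ∧ ∀ i, ∃ n : ℕ, 1 ≤ n ∧ ((∃ (F : Type) (_ : Field F) (_ : Fintype F), Fintype.card F = p ^ n ∧ Nonempty (↥(E i) ≃* Matrix.SpecialLinearGroup (Fin 2) F) ∧ Cfsg.ActsAsSL2OnSection F ⊤ (E i) ⁅V, E i⁆ (⁅V, E i⁆ ⊓ Subgroup.centralizer ((E i : Subgroup G) : Set G))) ∨ (p = 2 ∧ Nonempty (↥(E i) ≃* Equiv.Perm (Fin (2 ^ n + 1))) ∧ Cfsg.ActsAsOddPermModuleOnSection (2 ^ n + 1) ⊤ (E i) ⁅V, E i⁆ (⁅V, E i⁆ ⊓ Subgroup.centralizer ((E i : Subgroup G) : Set G)))) := by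
  set T' := (T : Subgroup ↥P).map P.subtype with hT'
  have hT : SylIn p T' P := sylIn_sylow T
  obtain ⟨-, M₀, hM₀⟩ := (AmbFs.isPMinimal_iff hT).1 hmin
  have hM' := umax_of_coatom' hM₀ hM (map_mono hTM)
  have hf : FH p V P := ⟨hV, hPV, hfaith⟩
  have g := gh_of_umax hf hT hM' (pCoreOf_eq_bot_iff.2 hOp) hCT
  obtain ⟨A, a1, a2, a3⟩ := hoff
  obtain ⟨B, -, m⟩ := mo_of_best hf a1 a2 a3
  have d := dec (g.cl m) hM' mem_Cls
  obtain ⟨r, E, hE, e⟩ := ex_enum (Es (Cls P B) T')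
  rw [← e] at d
  have hm := fun i => Set.mem_range_self (f := E) i
  obtain ⟨_, i₀, -⟩ := d.ne
  refine ⟨r, E, i₀.pos, fun i => d.sub _ (hm i), fun i j h => comm_eq_bot_of_le (d.cent (hm i) (hm j) (hE.ne h)),
    fun i => d.inf_eq (hm i) (iSup₂_le fun j hj => cent_symm (d.comm _ (hm i) _ (hm j) (hE.ne (Ne.symm hj)))),
    sSup_range (f := E) ▸ d.gen, fun i j => d.tr _ (hm i) _ (hm j), le_antisymm (sup_le inf_le_left
      (iSup_le fun i => commutator_le_left_of_norm ((d.sub _ (hm i)).trans hPV))) ?_,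
    fun i j h => comm_eq_bot_of_le (d.comm _ (hm i) _ (hm j) (hE.ne h)), fun i => (d.typ _ (hm i)).out⟩
  refine d.span.trans (sup_le_sup (by rw [sSup_range]) (iSup_le ?_))
  rintro ⟨_, i, rfl⟩
  exact le_iSup (fun i => ⁅V, E i⁆) i

end Cfsg.Agent.S3000
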