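import Cfsg.Statements.S3003
import Cfsg.Agent.Lib.Loc.AmbChar
import Cfsg.Agent.Lib.Loc.AmbM
-- import your own Cfsg.Agent.* helpers here

set_option autoImplicit false
open Cfsg

namespace Cfsg.Agent.S3003

/-- Let G be a finite group, p a prime and Q a large p-subgroup of G: C_G(Q) ≤ Q and N_G(U) ≤ N_G(Q) for every nontrivial subgroup U of C_G(Q). Let Q ≤ G₁ ≤ G, let R be a subgroup of order prime to p normalized by G₁, and let U ≤ G₁ be a p-subgroup. If U contains a nontrivial element which is G₁-conjugate to an element of Z(Q), then C_R(U) = 1. In particular, if U is elementary abelian of order at least p² and every maximal subgroup of U contains a nontrivial element G₁-conjugate into Z(Q), then R = 1. -/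
theorem result {G : Type*} [Group G] [Finite G] {p : ℕ} [Fact p.Prime] (Q : Subgroup G) (hQp : IsPGroup p ↥Q) (hlarge : Cfsg.IsLarge Q) (G₁ : Subgroup G) (hQG : Q ≤ G₁) (R : Subgroup G) (hR : (Nat.card ↥R).Coprime p) (hGR : G₁ ≤ Subgroup.normalizer (R : Set G)) (U : Subgroup G) (hUG : U ≤ G₁) (hUp : IsPGroup p ↥U) : ((∃ x ∈ U, x ≠ 1 ∧ ∃ g ∈ G₁, g * x * g⁻¹ ∈ Q ⊓ Subgroup.centralizer (Q : Set G)) → R ⊓ Subgroup.centralizer (U : Set G) = ⊥) ∧ (Cfsg.IsElementaryAbelian p U → p ^ 2 ≤ Nat.card ↥U → (∀ U₀ : Subgroup G, U₀ ≤ U → IsCoatom (U₀.subgroupOf U) → ∃ x ∈ U₀, x ≠ 1 ∧ ∃ g ∈ G₁, g * x * g⁻¹ ∈ Q ⊓ Subgroup.centralizer (Q : Set G)) → R = ⊥) := by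
  open Subgroup Cfsg CA.Amb CA.AmbSyl CA.AmbCore CA.AmbRes CA.AmbChar CA.AmbWC CA.AmbSpe CA.AmbRed CA.AmbFs CA.AmbM in
  open scoped commutatorElement in
  (
    have h1 : ∀ x : G, (∃ g ∈ G₁, g * x * g⁻¹ ∈ Q ⊓ 𝐂 Q) → x ≠ 1 → R ⊓ centralizer {x} = ⊥ := by
      rintro x ⟨g, hg, h⟩ h1
      rw [← cj_eq_bot (g := g), cj_inf, cj_eq_self (hGR hg), cj_centralizer_singleton]
      have h2 : R ⊓ centralizer {g * x * g⁻¹} ≤ 𝐍 Q := by
        refine inf_le_right.trans (le_trans ?_ (hlarge.2 (zpowers (g * x * g⁻¹)) (zpowers_le.2 h.2) ?_))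
        · rw [← centralizer_zpowers]; exact norm_of_centralizer le_rfl
        · rw [Ne, zpowers_eq_bot]; simpa using h1
      have h0 := CA.Core.inf_eq_bot_of_isPGroup_of_coprime hQp hR
      have h3 : R ⊓ centralizer {g * x * g⁻¹} ≤ 𝐂 Q := commutator_eq_bot_iff'.1 (le_bot_iff.1
        (h0 ▸ le_inf (commutator_le_left_of_norm h2) ((commutator_mono le_rfl inf_le_left).trans
          (commutator_le_right_of_norm (hQG.trans hGR)))))
      exact le_bot_iff.1 (h0 ▸ le_inf (h3.trans hlarge.1) inf_le_left)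
    have h2 : ∀ U : Subgroup G, (∃ x ∈ U, x ≠ 1 ∧ ∃ g ∈ G₁, g * x * g⁻¹ ∈ Q ⊓ 𝐂 Q) → R ⊓ 𝐂 U = ⊥ := by
      rintro U ⟨x, hx, hx1, h⟩
      refine le_bot_iff.1 (h1 x h hx1 ▸ inf_le_inf_left _ ?_)
      rw [← centralizer_zpowers]; exact centralizer_anti (zpowers_le.2 hx)
    refine ⟨h2 U, fun hU hc h => le_bot_iff.1 (CA.Coprime2.le_of_forall_cocyclic hU.1 (hUG.trans hGR)
      (coprime_card_of_isPGroup hUp hR).symm fun B hB => ?_)⟩
    have hp : p.Prime := Fact.out
    have h3 : ∃ U₀, U₀ ≤ B ∧ IsCoatom (U₀.subgroupOf U) := by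
      rcases (Nat.dvd_prime hp).1 (hB.relIndex_dvd hU.1 hU.2) with e | e
      · have hB' := relIndex_eq_one.1 e
        have : (⊥ : Subgroup U) ≠ ⊤ := by
          intro e'
          have := Subgroup.card_top (G := U)
          rw [← e', card_bot] at this
          have := hp.two_le
          nlinarith
        obtain ⟨M, hM, -⟩ := exists_coatom this
        exact ⟨M.map U.subtype, (map_subtype_le _).trans hB', by
          rwa [subgroupOf, comap_map_eq_self_of_injective U.subtype_injective]⟩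
      · exact ⟨B, le_rfl, CA.PGBasic.isCoatom_of_index_prime hp e⟩
    obtain ⟨U₀, h4, h5⟩ := h3
    exact (h2 U₀ (h U₀ (h4.trans hB.1) h5)) ▸ inf_le_inf_left _ (centralizer_anti h4))

end Cfsg.Agent.S3003
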