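import Cfsg.Statements.S3006
import Cfsg.Agent.Lib.Loc.AmbChar
import Cfsg.Agent.Lib.Loc.AmbCD
-- import your own Cfsg.Agent.* helpers here

set_option autoImplicit false
open scoped Pointwise
open Cfsg

namespace Cfsg.Agent.S3006

/-- Let P be a finite p-group, Q a centrally large subgroup of P (|Q|·|Z(Q)| maximal among subgroups of P) and A an abelian subgroup of P of largest order. Then QA = AQ is a centrally large subgroup of P, C_{QA}(Q ∩ A) = Z(Q)·A, and the subgroup generated by all centrally large subgroups of P contains C_P(Z(J(P))), where J(P) is generated by the abelian subgroups of largest order. -/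
theorem result {p : ℕ} [Fact p.Prime] (P : Type*) [Group P] [Finite P] (hP : IsPGroup p P) (Q A : Subgroup P) (hQ : Cfsg.IsCentrallyLarge Q) (hA : A ∈ Cfsg.maxAbelianSubgroups P) : ((Q ⊔ A : Subgroup P) : Set P) = (Q : Set P) * (A : Set P) ∧ Cfsg.IsCentrallyLarge (Q ⊔ A) ∧ (Q ⊔ A) ⊓ Subgroup.centralizer ((Q ⊓ A : Subgroup P) : Set P) = (Q ⊓ Subgroup.centralizer (Q : Set P)) ⊔ A ∧ (((Q ⊓ Subgroup.centralizer (Q : Set P)) ⊔ A : Subgroup P) : Set P) = ((Q ⊓ Subgroup.centralizer (Q : Set P)) : Set P) * (A : Set P) ∧ Subgroup.centralizer ((Cfsg.thompsonSubgroupA P ⊓ Subgroup.centralizer (Cfsg.thompsonSubgroupA P : Set P) : Subgroup P) : Set P) ≤ Cfsg.centrallyLargeJoin P := by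
  open Subgroup Cfsg CA.Amb CA.AmbSyl CA.AmbCore CA.AmbRes CA.AmbChar CA.AmbSpe CA.AmbCD in
  open scoped commutatorElement in
  (
    rw [cl_iff] at hQ
    rw [ma_iff] at hA
    obtain ⟨h1, h2, -⟩ := hQ.ma hA
    obtain ⟨h3, h4⟩ := pm_of_forall (le_inf (hQ.2.trans le_sup_left) (centralizer_anti inf_le_left))
      (le_inf le_sup_right (hA.1.trans (centralizer_anti inf_le_right))) (hQ.cent_ma hA)
    have h5 : CL (centrallyLargeJoin P) := cl_sSup ⟨Q, cl_iff.2 hQ⟩ fun A hA => cl_iff.1 hA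
    have e : Q ⊓ 𝐂 Q = 𝐂 Q := inf_eq_right.2 hQ.2
    refine ⟨h2.coe, cl_iff.2 h1, by rw [e, h4], ?_, h5.cent_Z_J_le.trans (le_sSup (cl_iff.2 h5.sup_J))⟩
    change _ = ((Q ⊓ 𝐂 Q : Subgroup P) : Set P) * (A : Set P)
    rw [e, h3.coe])

end Cfsg.Agent.S3006
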