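import Cfsg.Statements.S3008
import Cfsg.Agent.Lib.Loc.AmbChar
import Cfsg.Agent.Lib.Loc.AmbCD
-- import your own Cfsg.Agent.* helpers here

set_option autoImplicit false
open Cfsg

namespace Cfsg.Agent.S3008

/-- Let P be a finite p-group, with J(P) generated by its abelian subgroups of largest order and J̃(P) = C_P(Z(J(P))); call R ≤ P centrally large if |R|·|Z(R)| is as large as possible, and let P_MCL be generated by the minimal centrally large subgroups. Then: for every centrally large Q, Q·J(P) ⊇ J̃(P); some minimal centrally large subgroup of P is normalized by both J(P) and P_MCL; if P = J(P) and d(P)² = |P|·|Z(P)|, where d(P) is the largest order of an abelian subgroup, then every minimal centrally large subgroup of P is abelian; and if every minimal centrally large subgroup is abelian then J̃(P) = J(P). -/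
theorem result {p : ℕ} [Fact p.Prime] (P : Type*) [Group P] [Finite P] (hP : IsPGroup p P) : (∀ Q : Subgroup P, Cfsg.IsCentrallyLarge Q → Subgroup.centralizer ((Cfsg.thompsonSubgroupA P ⊓ Subgroup.centralizer (Cfsg.thompsonSubgroupA P : Set P) : Subgroup P) : Set P) ≤ Q ⊔ Cfsg.thompsonSubgroupA P) ∧ (∃ Q : Subgroup P, Cfsg.IsMinimalCentrallyLarge Q ∧ Cfsg.thompsonSubgroupA P ≤ Subgroup.normalizer (Q : Set P) ∧ Cfsg.minimalCentrallyLargeJoin P ≤ Subgroup.normalizer (Q : Set P)) ∧ (Cfsg.thompsonSubgroupA P = ⊤ → (∀ A ∈ Cfsg.maxAbelianSubgroups P, Nat.card ↥A ^ 2 = Nat.card P * Nat.card ↥(Subgroup.center P)) → ∀ Q : Subgroup P, Cfsg.IsMinimalCentrallyLarge Q → IsMulCommutative ↥Q) ∧ ((∀ Q : Subgroup P, Cfsg.IsMinimalCentrallyLarge Q → IsMulCommutative ↥Q) → Subgroup.centralizer ((Cfsg.thompsonSubgroupA P ⊓ Subgroup.centralizer (Cfsg.thompsonSubgroupA P : Set P) : Subgroup P) : Set P) = Cfsg.thompsonSubgroupA P) := by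
  open Subgroup Cfsg CA.Amb CA.AmbSyl CA.AmbCore CA.AmbRes CA.AmbChar CA.AmbSpe CA.AmbCD in
  open scoped commutatorElement in
  (
    obtain ⟨Q, h1, h2, h3⟩ := exists_mcl_norm hP
    refine ⟨fun Q h => (cl_iff.1 h).cent_Z_J_le, ⟨Q, mcl_iff.2 h1, sSup_le fun A hA => h2 A (ma_iff.1 hA),
      sSup_le fun A hA => h3 A (mcl_iff.1 hA)⟩, fun hJ hd R hR => ?_, fun h => ?_⟩
    · have k := h1.1.sup_J
      rw [hJ, sup_top_eq] at k
      obtain ⟨A, hA⟩ := exists_ma P
      obtain ⟨B, b1, b2⟩ := (cl_of_card k.1 le_rfl hA.1 (by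
        rw [ms, CA.Amb.centralizer_top, card_top, ← hd A (ma_iff.2 hA), sq])).1.exists_mcl
      refine comm_iff.2 (commutator_eq_bot_iff'.1 ?_)
      rw [(mcl_iff.1 hR).der_eq b2]
      exact comm_eq_bot_of_le (b1.trans (hA.1.trans (centralizer_anti b1)))
    · have k := h1.1.cent_Z_J_le
      exact le_antisymm (k.trans (sup_le (le_sSup (ma_iff.2 ((h1.ma_iff (comm_iff.1 (h Q (mcl_iff.2 h1)))).1 h1)))
        le_rfl)) (cent_symm inf_le_right))

end Cfsg.Agent.S3008
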