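import Cfsg.Statements.S3011
import Cfsg.Agent.Lib.Loc.AmbChar
import Cfsg.Agent.Lib.Loc.AmbIso
-- import your own Cfsg.Agent.* helpers here

set_option autoImplicit false
open Cfsg

namespace Cfsg.Agent.S3011

section Aux
open Subgroup Cfsg CA.Amb CA.AmbSyl CA.AmbCore CA.AmbRes CA.AmbChar CA.AmbWC CA.AmbSpe CA.AmbRed CA.AmbFs CA.AmbM CA.AmbIso
open scoped commutatorElement

theorem four {G : Type*} [Group G] [Finite G] {V : Subgroup G} (hV : IsElementaryAbelian 2 V)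
    (h4 : Nat.card V ≤ 4) {a b u : G} (ha : a ∈ V) (hb : b ∈ V) (hu : u ∈ V) (h1 : a ≠ 1) (h2 : b ≠ 1)
    (h3 : a ≠ b) (h5 : u ≠ 1) : u = a ∨ u = b ∨ u = a * b := by
  classical
  by_contra hne
  push Not at hne
  have e1 : a * b ≠ 1 := fun e => h3 ((eq_inv_of_mul_eq_one_left e).trans
    (eq_inv_of_mul_eq_one_left (mul_self_of_ea hV hb)).symm)
  have e2 : a * b ≠ a := by simpa using h2
  have e3 : a * b ≠ b := by simpa using h1
  have : ({1, a, b, a * b, u} : Set G).ncard ≤ 4 := by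
    refine le_trans (Set.ncard_le_ncard (t := (V : Set G)) ?_ (Set.toFinite _)) h4
    rintro y (rfl | rfl | rfl | rfl | rfl)
    exacts [one_mem V, ha, hb, mul_mem ha hb, hu]
  rw [Set.ncard_insert_of_notMem (by simp [h1.symm, h2.symm, e1.symm, h5.symm]),
    Set.ncard_insert_of_notMem (by simp [h3, e2.symm, hne.1.symm, h2]),
    Set.ncard_insert_of_notMem (by simp [e3.symm, hne.2.1.symm, h1]),
    Set.ncard_insert_of_notMem (by simp [hne.2.2.symm]), Set.ncard_singleton] at this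
  omega

theorem core {G : Type*} [Group G] [Finite G] {V : Subgroup G} (hV : IsElementaryAbelian 2 V)
    (hS : IsSidkiPair V) (h4 : Nat.card V ≤ 4) {a b h k : G} (ha : a ∈ V) (hb : b ∈ V) (h1 : a ≠ 1)
    (h2 : b ≠ 1) (hh : h ≠ 1) (hk : k ≠ 1) (oh : Odd (orderOf h)) (ok : Odd (orderOf k))
    (ah : a * h * a⁻¹ = h⁻¹) (bh : b * h * b⁻¹ = h) (ak : a * k * a⁻¹ = k) (bk : b * k * b⁻¹ = k⁻¹) :
    False := by
  have h3 : a ≠ b := by rintro rfl; exact hh (eq_one_of_inv oh (bh.symm.trans ah))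
  have hc : h * k = k * h := by
    have e : a * (k * h * k⁻¹) * a⁻¹ = (k * h * k⁻¹)⁻¹ := by
      have : a * (k * h * k⁻¹) * a⁻¹ = a * k * a⁻¹ * (a * h * a⁻¹) * (a * k * a⁻¹)⁻¹ := by group
      rw [this, ak, ah]; group
    have e2 : b * (k * h * k⁻¹) * b⁻¹ = k⁻¹ * h * k := by
      have : b * (k * h * k⁻¹) * b⁻¹ = b * k * b⁻¹ * (b * h * b⁻¹) * (b * k * b⁻¹)⁻¹ := by group
      rw [this, bk, bh]; group
    obtain ⟨u, hu, hu1, hu2⟩ := hS _ a ha (odd_conj oh k) e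
    replace hu2 := mul_inv_eq_iff_eq_mul.2 hu2
    refine (mem_centralizer_singleton_iff.1 (mem_of_pow_mem_of_coprime (n := 4)
      ((Nat.coprime_two_right.2 ok).pow_right 2) (mem_cent_iff.2 ?_))).symm
    rcases four hV h4 ha hb hu h1 h2 h3 hu1 with rfl | rfl | rfl
    · exact absurd (conj_eq_one_iff.1 (eq_one_of_inv (odd_conj oh k) (hu2.symm.trans e))) hh
    · have e3 : k ^ 2 * h * (k ^ 2)⁻¹ = h := by
        have : k ^ 2 * h * (k ^ 2)⁻¹ = k * (k * h * k⁻¹) * k⁻¹ := by rw [pow_two]; group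
        rw [this, ← hu2, e2]; group
      have : k ^ 4 * h * (k ^ 4)⁻¹ = k ^ 2 * (k ^ 2 * h * (k ^ 2)⁻¹) * (k ^ 2)⁻¹ := by group
      rw [this, e3, e3]
    · have e3 : k ^ 2 * h * (k ^ 2)⁻¹ = h⁻¹ := by
        have : k ^ 2 * h * (k ^ 2)⁻¹ = k * (k * h * k⁻¹) * k⁻¹ := by rw [pow_two]; group
        rw [this, ← hu2]
        have : a * b * (k * h * k⁻¹) * (a * b)⁻¹ = a * (b * (k * h * k⁻¹) * b⁻¹) * a⁻¹ := by group
        rw [this, e2]
        have : a * (k⁻¹ * h * k) * a⁻¹ = (a * k * a⁻¹)⁻¹ * (a * h * a⁻¹) * (a * k * a⁻¹) := by group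
        rw [this, ak, ah]; group
      have : k ^ 4 * h * (k ^ 4)⁻¹ = k ^ 2 * (k ^ 2 * h * (k ^ 2)⁻¹) * (k ^ 2)⁻¹ := by group
      rw [this, e3]
      have : k ^ 2 * h⁻¹ * (k ^ 2)⁻¹ = (k ^ 2 * h * (k ^ 2)⁻¹)⁻¹ := by group
      rw [this, e3, inv_inv]
  obtain ⟨u, hu, hu1, hu2⟩ := hS (h * k) (a * b) (mul_mem ha hb) (odd_mul oh ok hc) (by
    have : a * b * (h * k) * (a * b)⁻¹ = a * (b * h * b⁻¹) * a⁻¹ * (a * (b * k * b⁻¹) * a⁻¹) := by group
    rw [this, bh, bk, ah, hc]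
    have : a * k⁻¹ * a⁻¹ = (a * k * a⁻¹)⁻¹ := by group
    rw [this, ak]; group)
  obtain ⟨e1, e2⟩ := cent_mul_inv ok bh bk (comm_of_ea hV hb hu) hu2
  replace e1 := mul_inv_eq_iff_eq_mul.2 e1
  replace e2 := mul_inv_eq_iff_eq_mul.2 e2
  rcases four hV h4 ha hb hu h1 h2 h3 hu1 with rfl | rfl | rfl
  · exact hh (eq_one_of_inv oh (e1.symm.trans ah))
  · exact hk (eq_one_of_inv ok (e2.symm.trans bk))
  · refine hh (eq_one_of_inv oh (e1.symm.trans ?_))
    rw [← ah]; nth_rewrite 2 [← bh]; group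

end Aux

/-- Let G be a finite group and V a nontrivial elementary abelian 2-subgroup of G of order at most 4 such that, whenever an element of V inverts an element h of G of odd order, some nontrivial element of V commutes with h. Then V meets O₂(G) nontrivially. (The case of order at most 4 has a short argument from the Baer–Suzuki theorem.) -/
theorem result {G : Type*} [Group G] [Finite G] (V : Subgroup G) (hV : Cfsg.IsElementaryAbelian 2 V) (hV1 : V ≠ ⊥) (hS : Cfsg.IsSidkiPair V) (h4 : Nat.card V ≤ 4) : V ⊓ Cfsg.pCore 2 G ≠ ⊥ := by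
  open Subgroup Cfsg CA.Amb CA.AmbSyl CA.AmbCore CA.AmbRes CA.AmbChar CA.AmbWC CA.AmbSpe CA.AmbRed CA.AmbFs CA.AmbM CA.AmbIso in
  open scoped commutatorElement in
  (
    intro e
    have hn : ∀ v ∈ V, v ≠ 1 → v ∉ pCore 2 G := fun v hv h1 h2 => h1 (e.le (mem_inf.2 ⟨hv, h2⟩))
    obtain ⟨a, ha, h1⟩ := exists_ne_one_of_ne_bot hV1
    obtain ⟨h, hh, oh, ah⟩ := exists_inverted (mul_self_of_ea hV ha) (hn a ha h1)
    obtain ⟨b, hb, h2, bh⟩ := hS h a ha oh ah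
    replace bh := mul_inv_eq_iff_eq_mul.2 bh
    obtain ⟨k, hk, ok, bk⟩ := exists_inverted (mul_self_of_ea hV hb) (hn b hb h2)
    obtain ⟨w, hw, h3, wk⟩ := hS k b hb ok bk
    replace wk := mul_inv_eq_iff_eq_mul.2 wk
    refine core hV hS h4 hw hb h3 h2 hh hk oh ok ?_ bh wk bk
    have h5 : a ≠ b := by rintro rfl; exact hh (eq_one_of_inv oh (bh.symm.trans ah))
    rcases four hV h4 ha hb hw h1 h2 h5 h3 with rfl | rfl | rfl
    · exact ah
    · exact absurd (eq_one_of_inv ok (wk.symm.trans bk)) hk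
    · rw [← ah]; nth_rewrite 2 [← bh]; group)

end Cfsg.Agent.S3011
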