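import Cfsg.Statements.S3014
import Cfsg.Agent.Lib.Loc.AmbChar
import Cfsg.Agent.Lib.Loc.AmbIso
-- import your own Cfsg.Agent.* helpers here

set_option autoImplicit false
open Cfsg

namespace Cfsg.Agent.S3014

/-- Let G be a finite group and H ≤ M ≤ G subgroups such that for every g ∈ G the subgroup generated by H and g H g⁻¹ meets M exactly in H. If H is a maximal subgroup of M and M is a maximal subgroup of G, then the normal closure of H in G meets M exactly in H. -/
theorem result {G : Type*} [Group G] [Finite G] (H M : Subgroup G) (hHM : H ≤ M) (hcl : ∀ g : G, (H ⊔ H.map (MulAut.conj g).toMonoidHom) ⊓ M = H) (hmaxH : IsCoatom (H.subgroupOf M)) (hmaxM : IsCoatom M) : Subgroup.normalClosure (H : Set G) ⊓ M = H := by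
  open Subgroup Cfsg CA.Amb CA.AmbSyl CA.AmbCore CA.AmbRes CA.AmbChar CA.AmbWC CA.AmbSpe CA.AmbRed CA.AmbFs CA.AmbM CA.AmbIso in
  open scoped commutatorElement in
  (
    have hmax : ∀ K : Subgroup G, H ≤ K → K ⊓ M = H ∨ M ≤ K := fun K hK => by
      by_cases e : M ≤ K
      · exact Or.inr e
      · have := hmaxH.le_iff.1 (comap_mono hK : H.subgroupOf M ≤ K.subgroupOf M)
        rcases this with h | h
        · exact absurd (subgroupOf_eq_top.1 h) e
        · left
          have : (K.subgroupOf M).map M.subtype = _ := congrArg (map M.subtype) h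
          rwa [subgroupOf_map_subtype, subgroupOf_map_subtype, inf_eq_left.2 hHM] at this
    have hMH : ¬ M ≤ H := fun e => hmaxH.1 (subgroupOf_eq_top.2 e)
    have hle : ∀ g, cj g H ≤ M → cj g H ≤ H := fun g e =>
      (le_inf le_sup_right e).trans (hcl g).le
    have hMn : M ≤ 𝐍 H := le_normalizer_iff_cj.2 fun g hg => hle g (cj_le_of_mem hHM hg)
    refine (hmax _ le_normalClosure).resolve_right fun hM => ?_
    have hnn : ¬ ⊤ ≤ 𝐍 H := fun e => by
      haveI := normal_iff_top_le.2 e
      rw [normalClosure_eq_self] at hM; exact hMH hM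
    have hN : 𝐍 H = M := (hmaxM.le_iff.1 hMn).resolve_left fun e => hnn e.ge
    have htop : normalClosure (H : Set G) = ⊤ := (hmaxM.le_iff.1 hM).resolve_right fun e =>
      hnn (normal_iff_top_le.1 (normal_iff_cj.2 fun g => hle g (e ▸ cj_le_of_le le_normalClosure
        (norm_of_normal (mem_top g)))))
    have key : ∀ g, g ∉ M → M ⊓ cj g M ≤ H := fun g hg => by
      have hD : M ⊓ cj g M ≤ 𝐍 (H ⊔ cj g H) := norm_sup (inf_le_left.trans hMn)
        (inf_le_right.trans (by rw [← cj_normalizer]; exact cj_mono g hMn))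
      rcases hmax ((M ⊓ cj g M) ⊔ (H ⊔ cj g H)) (le_sup_left.trans le_sup_right) with e | e
      · exact (le_inf le_sup_left inf_le_left).trans e.le
      · rcases hmaxM.le_iff.1 e with e' | e'
        · haveI := normal_iff_top_le.2 (e'.ge.trans (sup_le hD le_normalizer))
          have : H ⊔ cj g H = ⊤ := top_le_iff.1 (htop.ge.trans (normalClosure_le_normal
            (le_sup_left : H ≤ H ⊔ cj g H)))
          have h2 := hcl g
          change (H ⊔ cj g H) ⊓ M = H at h2
          rw [this, top_inf_eq] at h2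
          exact absurd h2.le hMH
        · exact absurd (hN.le (mem_normalizer_of_cj_le (hle g
            ((le_sup_right.trans le_sup_right).trans e'.le)))) hg
    obtain ⟨y, hy, hyH⟩ := SetLike.not_le_iff_exists.1 hMH
    obtain ⟨p, hp, -, x, hx, hxH, k, hk⟩ := CA.Fus3.exists_prime_pow_not_mem hyH
    haveI := Fact.mk hp
    have hxM : x ∈ M := zpowers_le.2 hy hx
    have hsup : zpowers x ⊔ H = M := le_antisymm (sup_le (zpowers_le.2 hxM) hHM)
      ((hmax _ le_sup_right).resolve_left fun e => hxH (e.le (mem_inf.2 ⟨mem_sup_left (mem_zpowers x), hxM⟩)))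
    obtain ⟨P, hP, hxP⟩ := exists_sylIn_ge (isPGroup_zpowers hk) (zpowers_le.2 hxM)
    have hP' : SylIn p P ⊤ := sylIn_of_normalizer (hP.mono (le_inf le_top le_normalizer) fun g hg => by
      by_contra e
      exact hxH (key g e (mem_inf.2 ⟨hxM, cj_mono g hP.le ((cj_eq_self (mem_inf.1 hg).2).ge
        (hxP (mem_zpowers x)))⟩)))
    have hi : ¬ p ∣ M.index := fun e => hP'.not_dvd (by
      rw [relIndex_top_right]; exact e.trans (index_dvd_of_le hP.le))
    haveI := normal_subgroupOf_of_norm hMn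
    haveI : IsMulCommutative (M ⧸ H.subgroupOf M) :=
      Normal.quotient_commutative_iff_commutator_le.2 (by
        have := comm_sup_sup_le (A := (zpowers x).subgroupOf M) (B := (zpowers x).subgroupOf M)
          (D := H.subgroupOf M)
        rwa [← subgroupOf_sup (zpowers_le.2 hxM) hHM, hsup, subgroupOf_self,
          comm_eq_bot_of_le (le_centralizer ((zpowers x).subgroupOf M)), bot_sup_eq] at this)
    letI : CommGroup (M ⧸ H.subgroupOf M) := { mul_comm := fun a b => mul_comm' a b }
    set φ : M →* M ⧸ H.subgroupOf M := QuotientGroup.mk' _ with hφ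
    have h1 : ∀ a : M, φ a = 1 ↔ (a : G) ∈ H := fun a => QuotientGroup.eq_one_iff a
    have tr : ∀ g : M, MonoidHom.transfer φ g = φ g ^ M.index := fun g =>
      CA.Trf.transfer_eq_pow_of φ g _ fun k _ t h => by
        by_cases e : t ∈ M
        · have : (⟨_, h⟩ : M) = ⟨t, e⟩ * g ^ k * ⟨t, e⟩⁻¹ := rfl
          rw [this, map_mul, map_mul, map_inv, map_pow, mul_inv_cancel_comm]
        · rw [← map_pow, (h1 _).2 (key t e (mem_inf.2 ⟨h, conj_mem_cj.2 (pow_mem g.2 k)⟩)),
            (h1 _).2 (key t⁻¹ (fun e' => e (inv_mem_iff.1 e')) (mem_inf.2 ⟨(g ^ k).2, mem_cj_inv.2 h⟩))]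
    have h2 : normalClosure (H : Set G) ≤ (MonoidHom.transfer φ).ker :=
      normalClosure_le_normal fun g hg => by
        show MonoidHom.transfer φ g = 1
        rw [tr ⟨g, hHM hg⟩, (h1 _).2 hg, one_pow]
    have h3 : φ ⟨x, hxM⟩ ^ M.index = 1 := by rw [← tr]; exact h2 (htop.ge (mem_top x))
    have h4 : φ ⟨x, hxM⟩ ^ p ^ k = 1 := by
      rw [← map_pow, show (⟨x, hxM⟩ : M) ^ p ^ k = 1 from Subtype.ext hk, map_one]
    refine hxH ((h1 ⟨x, hxM⟩).1 (orderOf_eq_one_iff.1 (Nat.eq_one_of_dvd_coprimes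
      ((CA.PRes.coprime_iff_not_dvd.2 hi).pow_right k) (orderOf_dvd_of_pow_eq_one h3)
      (orderOf_dvd_of_pow_eq_one h4)))))

end Cfsg.Agent.S3014
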