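import Cfsg.Statements.S3015
import Cfsg.Agent.Lib.Loc.AmbChar
import Cfsg.Agent.Lib.Loc.AmbIso
import Cfsg.Agent.S3014
import Cfsg.Agent.Lib.Grp.PGBasic
-- import your own Cfsg.Agent.* helpers here

set_option autoImplicit false
open Cfsg

namespace Cfsg.Agent.S3015

/-- Let G be a finite non-abelian simple group, M a maximal subgroup of G and H a normal subgroup of M of prime index in M. Then G is generated by H together with one of its conjugates. -/
theorem result {G : Type*} [Group G] [Finite G] [IsSimpleGroup G] (hG : ¬ IsMulCommutative G) (M H : Subgroup G) (hmaxM : IsCoatom M) (hHM : H ≤ M) (hHn : (H.subgroupOf M).Normal) (hidx : (H.relIndex M).Prime) : ∃ g : G, H ⊔ H.map (MulAut.conj g).toMonoidHom = ⊤ := by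
  open Subgroup Cfsg CA.Amb CA.AmbSyl CA.AmbCore CA.AmbRes CA.AmbChar CA.AmbWC CA.AmbSpe CA.AmbRed CA.AmbFs CA.AmbM CA.AmbIso in
  open scoped commutatorElement in
  (
    set p := H.relIndex M with hp
    haveI := Fact.mk hidx
    have hMn : M ≤ 𝐍 H := (normal_subgroupOf_iff_le_normalizer hHM).1 hHn
    have simp' : ∀ K : Subgroup G, ⊤ ≤ 𝐍 K → K = ⊥ ∨ K = ⊤ := fun K h =>
      (normal_iff_top_le.2 h).eq_bot_or_eq_top
    have hM : ∀ K, M ≤ K → ¬ K ≤ M → ⊤ ≤ K := fun K h1 h2 =>
      ((hmaxM.le_iff.1 h1).resolve_right fun e => h2 e.le).ge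
    have hnp : ¬ IsPGroup p G := fun h => by
      haveI := h.center_nontrivial
      rcases (inferInstance : (center G).Normal).eq_bot_or_eq_top with e | e
      · exact (nontrivial_iff_ne_bot _).1 this e
      · exact hG ⟨⟨fun a b => mem_center_iff.1 (e.ge (mem_top b)) a⟩⟩
    have hMM : 𝐍 M ≤ M := by
      by_contra e
      rcases simp' M (hM _ le_normalizer e) with e | e
      · subst e; rw [relIndex_bot_right] at hp; exact hidx.ne_one hp
      · exact hmaxM.1 e
    by_contra hne
    push Not at hne
    by_cases hH : H = ⊥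
    · subst hH
      rw [relIndex_bot_left] at hp
      haveI := isCyclic_of_prime_card hp.symm
      have hS : SylIn p M ⊤ := sylIn_of_normalizer ((sylIn_self (IsPGroup.of_card
        (hp.symm.trans (pow_one p).symm))).eq_of_isPGroup (IsPGroup.of_card
        (hp.symm.trans (pow_one p).symm)) ▸ by
          rw [top_inf_eq, le_antisymm hMM le_normalizer]
          exact sylIn_self (IsPGroup.of_card (hp.symm.trans (pow_one p).symm)))
      have h1 := CA.PRes.hasNPC_iff_not_dvd.1 (CA.PRes.hasNPC_of_normalizer_le_centralizer hS.toSylowTop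
        (hMM.trans (le_centralizer M)))
      rcases (inferInstance : (pResidual p G).Normal).eq_bot_or_eq_top with e | e
      · exact hnp (CA.PRes.pResidual_eq_bot_iff.1 e)
      · rw [e] at h1; exact h1 (hp ▸ card_dvd_of_le le_top)
    have hco := CA.PGBasic.isCoatom_of_index_prime (N := H.subgroupOf M) hidx rfl
    have hnc : normalClosure (H : Set G) = ⊤ := (inferInstance : (normalClosure (H : Set G)).Normal).eq_bot_or_eq_top.resolve_left
      fun e => hH (le_bot_iff.1 (le_normalClosure.trans e.le))
    have hMH : ¬ M ≤ H := fun e => hco.1 (subgroupOf_eq_top.2 e)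
    have h1 : ¬ ∀ g : G, (H ⊔ cj g H) ⊓ M = H := fun h => by
      have := Cfsg.Agent.S3014.result H M hHM h hco hmaxM
      rw [hnc, top_inf_eq] at this; exact hMH this.le
    push Not at h1
    obtain ⟨g, hg⟩ := h1
    have h2 : M ≤ H ⊔ cj g H := by
      rcases hco.le_iff.1 (comap_mono le_sup_left : H.subgroupOf M ≤ (H ⊔ cj g H).subgroupOf M) with h | h
      · exact subgroupOf_eq_top.1 h
      · have : ((H ⊔ cj g H).subgroupOf M).map M.subtype = _ := congrArg (map M.subtype) h
        rw [subgroupOf_map_subtype, subgroupOf_map_subtype, inf_eq_left.2 hHM] at this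
        exact absurd this hg
    have h3 : cj g H ≤ M := by
      by_contra e
      exact hne g (top_le_iff.1 (hM _ h2 fun e' => e (le_sup_right.trans e')))
    have hgM : g ∉ M := fun e => hMH (by rwa [cj_eq_self (hMn e), sup_idem] at h2)
    have h4 : ¬ cj g M ≤ M := fun e => hgM (hMM (mem_normalizer_of_cj_le e))
    have hR : pResidualOf p M ≤ H := res_le_of_pow fun x hx => ⟨1, by
      rw [pow_one]; exact pow_index_mem (H.subgroupOf M) ⟨x, hx⟩⟩
    have h5 : g ∈ 𝐍 (pResidualOf p M) := mem_normalizer_of_cj_le (by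
      rw [← res_eq_of_le hR hHM, cj_res, res_eq_of_le hR hHM]; exact res_mono h3)
    have h6 : IsPGroup p M := by
      rcases simp' _ (hM _ (norm_res p M) fun e => hgM (e h5)) with e | e
      · exact res_eq_bot_iff.1 e
      · exact absurd (top_le_iff.1 (e.ge.trans (res_le p M))) hmaxM.1
    have h7 : cj g H < M := lt_of_le_of_ne h3 fun e => hMH (eq_of_le_of_card_ge hHM (by
      rw [← e, card_cj])).ge
    have h8 : M ≤ 𝐍 (cj g H) := by
      have hi : (cj g H).relIndex M = p := by
        have e1 := card_mul_relIndex h3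
        have e2 := card_mul_relIndex hHM
        rw [card_cj, ← e2] at e1
        exact Nat.eq_of_mul_eq_mul_left Nat.card_pos e1
      have hc := CA.PGBasic.isCoatom_of_index_prime (N := (cj g H).subgroupOf M) hidx hi
      obtain ⟨y, h1, h2, h3'⟩ := exists_mem_normalizer_not_mem h6 h7
      rcases hc.le_iff.1 (comap_mono le_normalizer : (cj g H).subgroupOf M ≤ (𝐍 (cj g H)).subgroupOf M) with h | h
      · exact subgroupOf_eq_top.1 h
      · exact absurd (h.le (show (⟨y, h1⟩ : M) ∈ _ from h2)) h3'
    rcases simp' _ (hM _ h8 fun e => h4 (le_trans (by rw [← cj_normalizer]; exact cj_mono g hMn) e)) with e | e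
    · exact hH (cj_eq_bot.1 e)
    · exact hmaxM.1 (top_le_iff.1 (e.ge.trans h3)))

end Cfsg.Agent.S3015
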