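import Cfsg.Statements.S3020
import Cfsg.Agent.Lib.Loc.AmbChar
import Cfsg.Agent.Lib.Loc.AmbIso
-- import your own Cfsg.Agent.* helpers here

set_option autoImplicit false
open Cfsg

namespace Cfsg.Agent.S3020

/-- Let G be a finite group, p a prime and H an abelian p-subgroup of G that is extremely closed (for every g, the subgroup generated by H and g H g⁻¹ meets N_G(H) exactly in H). Then for every g ∈ G, the subgroup T generated by H and g H g⁻¹ is the product of H with O_{p'}(T), and H meets O_{p'}(T) trivially; that is, O_{p'}(T) is a normal p-complement of H in T. -/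
theorem result {G : Type*} [Group G] [Finite G] {p : ℕ} [Fact p.Prime] (H : Subgroup G) (hHp : IsPGroup p H) (hHab : IsMulCommutative H) (hcl : Cfsg.IsExtremelyClosed H) (g : G) (T : Subgroup G) (hT : T = H ⊔ H.map (MulAut.conj g).toMonoidHom) : H ⊔ (Cfsg.pPrimeCore p ↥T).map T.subtype = T ∧ H ⊓ (Cfsg.pPrimeCore p ↥T).map T.subtype = ⊥ := by
  open Subgroup Cfsg CA.Amb CA.AmbSyl CA.AmbCore CA.AmbRes CA.AmbChar CA.AmbWC CA.AmbSpe CA.AmbRed CA.AmbFs CA.AmbM CA.AmbIso in
  open scoped commutatorElement in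
  (
    have hHT : H ≤ T := hT ▸ le_sup_left
    have e : T ⊓ 𝐍 H = H := hT ▸ hcl g
    have hS : SylIn p H T := sylIn_of_normalizer (by rw [e]; exact sylIn_self hHp)
    have hN : HasNormalPComplement p T := CA.PRes.hasNPC_of_normalizer_le_centralizer hS.toSylow (by
      show 𝐍 (hS.toSylow : Subgroup T) ≤ 𝐂 (hS.toSylow : Subgroup T)
      rw [hS.coe_toSylow, CA.Amb.normalizer_subgroupOf hHT, CA.Amb.centralizer_subgroupOf hHT]
      exact fun y hy => le_centralizer H (e.le (mem_inf.2 ⟨y.2, hy⟩)))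
    refine ⟨?_, CA.Core.inf_eq_bot_of_isPGroup_of_coprime hHp (coprime_OQ p T)⟩
    rw [← CA.Fus2.pResidual_eq_pPrimeCore hN]
    exact syl_sup_res hS)

end Cfsg.Agent.S3020
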