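import Cfsg.Statements.S3021
import Cfsg.Agent.Lib.Loc.AmbChar
import Cfsg.Agent.Lib.Loc.AmbIso
-- import your own Cfsg.Agent.* helpers here

set_option autoImplicit false
open Cfsg

namespace Cfsg.Agent.S3021

/-- Let G be a finite group, p a prime and H a p-subgroup of G that is extremely closed (for every g, the subgroup generated by H and g H g⁻¹ meets N_G(H) exactly in H). Then every p-subgroup Q of G containing H has N_G(Q) ≤ N_G(H); in particular every Sylow p-subgroup P of G containing H normalizes H, and H is strongly closed in P with respect to G. -/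
theorem result {G : Type*} [Group G] [Finite G] {p : ℕ} [Fact p.Prime] (H : Subgroup G) (hHp : IsPGroup p H) (hcl : Cfsg.IsExtremelyClosed H) : (∀ Q : Subgroup G, IsPGroup p Q → H ≤ Q → Subgroup.normalizer (Q : Set G) ≤ Subgroup.normalizer (H : Set G)) ∧ ∀ P : Sylow p G, H ≤ (P : Subgroup G) → (P : Subgroup G) ≤ Subgroup.normalizer (H : Set G) ∧ Cfsg.IsStronglyClosed H (P : Subgroup G) := by
  open Subgroup Cfsg CA.Amb CA.AmbSyl CA.AmbCore CA.AmbRes CA.AmbChar CA.AmbWC CA.AmbSpe CA.AmbRed CA.AmbFs CA.AmbM CA.AmbIso in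
  open scoped commutatorElement in
  (
    have h1 : ∀ Q : Subgroup G, IsPGroup p Q → H ≤ Q → 𝐍 Q ≤ 𝐍 H := fun Q hQ h g hg =>
      mem_normalizer_of_cj_le (le_sup_right.trans (eq_of_inf_normalizer_le
        (hQ.to_le (sup_le h (cj_le_of_le h hg))) le_sup_left (hcl g).le).ge)
    refine ⟨h1, fun P hP => ?_⟩
    have h2 := le_normalizer.trans (h1 P P.2 hP)
    exact ⟨h2, hP, fun x hx g hg => (hcl g).le (mem_inf.2 ⟨mem_sup_right (conj_mem_cj.2 hx), h2 hg⟩)⟩)

end Cfsg.Agent.S3021
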