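import Cfsg.Statements.S3022
import Cfsg.Agent.Lib.Loc.H6Odd

set_option autoImplicit false
open Cfsg

set_option linter.unusedVariables false
set_option linter.unusedSimpArgs false
set_option linter.style.haveILetI false

namespace Cfsg.Agent.S3022

open CA Subgroup CA.Amb CA.AmbSyl CA.AmbCore CA.AmbRes CA.AmbWC CA.AmbSpe CA.H6Nat CA.H6Nat2
open CA.H6Core CA.H6Core2 CA.H6J CA.H6Bau CA.H6Pull CA.H6E0 CA.H6Am1 CA.H6Am2 CA.H6Am3 CA.H6Exp CA.H6Odd
open scoped commutatorElement MatrixGroups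

/-- elements inducing automorphisms from `B` -/
def ind {G H : Type*} [Group G] [Group H] (f : G →* H) (T : Subgroup G) (B : Subgroup (MulAut T)) :
    Subgroup H where
  carrier := {σ | ∃ a ∈ B, ∀ s : T, σ * f s * σ⁻¹ = f (a s)}
  one_mem' := ⟨1, one_mem _, by simp⟩
  mul_mem' := by
    rintro σ τ ⟨a, ha, h⟩ ⟨b, hb, h'⟩
    exact ⟨a * b, mul_mem ha hb, fun s => by rw [MulAut.mul_apply, ← h, ← h']; group⟩
  inv_mem' := by
    rintro σ ⟨a, ha, h⟩
    refine ⟨a⁻¹, inv_mem ha, fun s => ?_⟩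
    have := h (a⁻¹ s)
    rw [MulAut.apply_inv_self] at this
    rw [← this]; group

theorem conj_le {G : Type*} [Group G] [Finite G] {p : ℕ} [Fact p.Prime] {V T M X M' : Subgroup G}
    {F : Type*} [Field F] [Finite F] [CharP F p] (s : SS p V T M) (h : VS p F X (Bm p T) M')
    (r : ⁅pCoreOf p X, pResidualOf p X⁆ ≤ Zo p X) (hQ : pCoreOf p ⊤ ≤ 𝐍 X)
    (hK : ¬ pResidualOf p X ≤ M) {t : G} (ht : t ∈ T) : cj t (Zo p X) ≤ pCoreOf p X := by
  haveI := s.nor
  have hV := ea_pg s.ea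
  have n1 : X ≤ 𝐍 ⁅V, pResidualOf p X⁆ := norm_commutator norm_of_normal (norm_res p X)
  have e := AmbChar.comm_res_comm_res (L := X) hV norm_of_normal
  have l1 : ⁅V, pResidualOf p X⁆ ≤ V := commutator_le_left _ _
  have l2 : ⁅V, pResidualOf p X⁆ ≤ Zo p X := by
    rw [← e]
    exact (commutator_mono (le_pCoreOf ((commutator_le_right_of_norm ((s.le_Q.trans hQ).trans
      (normalizer_le_res p X))).trans (res_le p X)) (hV.to_le l1) n1) le_rfl).trans r
  have l3 : Zo p X ≤ (V ⊓ Bm p T) ⊔ OZ p (Bm p T) := by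
    refine (h.nat.le_sup l2 n1 fun hle => hK (le_trans ?_ s.cV)).trans (sup_le_sup
      (le_inf l1 (l2.trans (Zo_le_syl h.r1.syl))) ?_)
    · refine commutator_eq_bot_iff'.1 ?_
      rw [← e]
      exact comm_eq_bot_of_le ((hle.trans inf_le_right).trans (centralizer_anti (res_le p X)))
    · rw [← h.Fx_eq]; exact h.nat.le_Fx h.r1.syl.le
  have n2 : T ≤ 𝐍 (Bm p T) := norm_Bm le_normalizer
  have l4 := cj_le_of_le l3 (norm_sup (norm_inf norm_of_normal n2) (norm_OZ n2) ht)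
  refine h.le_Q (l4.trans (sup_le inf_le_right (OZ_le _ _))) (l4.trans (le_trans ?_ (centralizer_anti l3)))
  rw [centralizer_sup]
  exact sup_le (le_inf ((inf_le_left.trans (ea_le_cent s.ea)).trans (centralizer_anti inf_le_left))
    (inf_le_right.trans (le_cent_OZ _ _))) (le_inf ((OZ_le_cent _ _).trans (centralizer_anti inf_le_right))
    (OZ_cent _ _))


/-- Let G be a finite group all of whose non-abelian simple sections are known simple groups, such that a Sylow 2-subgroup of G lies in exactly one maximal subgroup of G and C_G(O₂(G)) ≤ O₂(G). Let S be a Sylow 2-subgroup of G and A a group of automorphisms of S of odd order. Then some nontrivial A-invariant subgroup of S is normal in G. -/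
theorem result {G : Type*} [Group G] [Finite G] (hK : Cfsg.IsKGroup G) (hirr : ∀ S : Sylow 2 G, ∃! M : Subgroup G, IsCoatom M ∧ (S : Subgroup G) ≤ M) (hchar : Subgroup.centralizer (Cfsg.pCore 2 G : Set G) ≤ Cfsg.pCore 2 G) (S : Sylow 2 G) (A : Subgroup (MulAut ↥(S : Subgroup G))) (hA : Odd (Nat.card A)) : ∃ U : Subgroup G, U ≠ ⊥ ∧ U.Normal ∧ U ≤ (S : Subgroup G) ∧ ∀ a ∈ A, ∀ x : ↥(S : Subgroup G), (x : G) ∈ U → ((a x : ↥(S : Subgroup G)) : G) ∈ U := by
  by_contra hcon
  have hT := sylIn_top S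
  obtain ⟨M, hM⟩ := unique_coatom_iff_umax.1 (hirr S)
  revert A
  generalize (S : Subgroup G) = T at hT hM
  intro A hA hcon
  have hf := H6PU.reg_injective (G := G)
  set f := H6PU.reg G with hfd
  set I := (MulAut.conj : T →* MulAut T).range with hI
  haveI : I.Normal := ⟨by
    rintro _ ⟨t, rfl⟩ a
    exact ⟨a t, by ext x; simp⟩⟩
  set Γ := ind f T (A ⊔ I) with hΓ
  have g1 : Γ ≤ 𝐍 (T.map f) := by
    rintro σ ⟨a, -, h⟩
    refine mem_normalizer_of_cj_le (cj_le_iff'.2 ?_)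
    rintro _ ⟨t, ht, rfl⟩
    exact ⟨_, (a ⟨t, ht⟩).2, (h ⟨t, ht⟩).symm⟩
  have g2 : ∀ W, W ≤ T → W ≠ ⊥ → Γ ≤ 𝐍 (W.map f) → 𝐍 W ≤ M := fun W h1 h2 h3 => by
    refine (umax_top_iff.1 hM).2.2 _ (fun t ht => ?_) fun e => hcon ⟨W, h2, normalizer_eq_top_iff.1 e,
      h1, fun a ha x hx => ?_⟩
    · have := norm_comap f (h3.trans' (zpowers_le.2 (show f t ∈ Γ from
        ⟨_, mem_sup_right ⟨⟨t, ht⟩, rfl⟩, fun s => by simp⟩)))
      rw [comap_map_eq_self_of_injective hf] at this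
      exact this (mem_zpowers _)
    · obtain ⟨σ, hσ⟩ := H6PU.exists_perm T a
      have := conj_mem_of_mem_normalizer (h3 ⟨a, mem_sup_left ha, hσ⟩) (mem_map_of_mem f hx)
      rw [hσ] at this
      exact (mem_map_iff_mem hf).1 this
  have hc := AmbChar.charP_top_iff.2 hchar
  have h0 : T ≠ ⊥ := fun e => hM.not_le (le_trans (fun x _ => ?_) ((pCoreOf_le_syl hT).trans hM.le))
  swap
  · refine hc ⟨trivial, mem_centralizer_sub.2 fun y hy => ?_⟩
    rw [mem_bot.1 (e.le (pCoreOf_le_syl hT hy))]; simp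
  have s : SS 2 (OZ 2 (pCoreOf 2 ⊤)) T M := ⟨rfl, hc, hT, hM, le_trans (centralizer_le_normalizer _)
    (g2 _ (OZ_le _ _) (OZ_ne_bot hT.pg h0) (by rw [map_OZ hf]; exact norm_OZ g1)),
    g2 _ (J_le _ _) (J_ne_bot dvd_rfl (dvd_card_of_ne_bot hT.pg h0)) (by rw [← J_map hf]; exact norm_J g1)⟩
  have g3 : Γ ≤ 𝐍 ((Bm 2 T).map f) := by
    have := norm_Bm (n := 2) g1
    convert this using 3
    rw [Bm, Bm, J_map hf, ← map_OZ hf, map_inf _ _ _ hf, map_centralizer_of_injective hf, ← inf_assoc,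
      inf_eq_left.2 (map_le_range _ _)]
  obtain ⟨F, _, _, _, X, h, ho, hQ, hK⟩ := H6Exp.exp s fun W h1 h2 h3 =>
    g2 W (h1.trans inf_le_left) h2 (g3.trans (norm_of_char hf h1 h3))
  have r := (ho.resolve_right (by rintro ⟨_, _, o⟩; exact absurd o.three (by decide))).res
  have hcore := core (Γ := Γ) (VS.map hf h) (by
    rw [← map_pCoreOf_of_injective hf, ← map_res_of_injective hf, ← map_Zo hf, ← map_commutator]
    exact map_mono r) g3 ?_
  · set U := ncl (Zo 2 (X.map f)) Γ with hU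
    have l1 : U ≤ T.map f := ncl_le (by
      rw [← map_Zo hf]; exact map_mono ((Zo_le_syl h.r1.syl).trans inf_le_left)) g1
    have e : (U.comap f).map f = U := map_comap_eq_self (l1.trans (map_le_range _ _))
    refine hK (le_trans ?_ (g2 (U.comap f) ((comap_mono l1).trans (comap_map_eq_self_of_injective hf T).le)
      (fun e' => ?_) (by rw [e]; exact norm_ncl _ _)))
    · rw [← map_res_of_injective hf] at hcore
      exact (map_le_iff_le_comap.1 hcore).trans (norm_comap _ le_rfl)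
    · rw [e', Subgroup.map_bot] at e
      exact (VS.map hf h).nat.not_le (((le_ncl _ _).trans e.ge).trans bot_le)
  · rintro σ ⟨a, ha, hσ⟩
    refine ⟨_, hA, ?_⟩
    have p1 : ∀ (k : ℕ) (s : T), σ ^ k * f s * (σ ^ k)⁻¹ = f ((a ^ k) s) := fun k => by
      induction k with
      | zero => simp
      | succ k ih => intro s; rw [pow_succ a, MulAut.mul_apply, ← ih, ← hσ, pow_succ]; group
    obtain ⟨b, hb, i, hi, rfl⟩ := (mem_sup_of_norm norm_of_normal).1 ha
    have p2 : (b * i) ^ Nat.card A ∈ I := by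
      rw [← QuotientGroup.eq_one_iff, QuotientGroup.mk_pow, QuotientGroup.mk_mul,
        (QuotientGroup.eq_one_iff i).2 hi, mul_one, ← QuotientGroup.mk_pow,
        show b ^ Nat.card A = 1 from congrArg Subtype.val (pow_card_eq_one' (x := (⟨b, hb⟩ : A)))]
      rfl
    obtain ⟨t, ht⟩ := p2
    rw [← map_Zo hf, ← map_pCoreOf_of_injective hf, cj_le_iff']
    rintro _ ⟨z, hz, rfl⟩
    rw [p1 _ ⟨z, ((Zo_le_syl h.r1.syl).trans inf_le_left) hz⟩, ← ht]
    exact mem_map_of_mem f (cj_le_iff'.1 (conj_le s h r hQ hK t.2) z hz)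

end Cfsg.Agent.S3022
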