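import Cfsg.Statements.S3025
import Cfsg.Agent.Lib.Loc.AmbChar
import Cfsg.Agent.Lib.Loc.AmbTr
import Cfsg.Agent.Lib.Grp.PGBasic
import Cfsg.Agent.Lib.Grp.PGFrattini
-- import your own Cfsg.Agent.* helpers here

set_option autoImplicit false
open Cfsg

namespace Cfsg.Agent.S3025

/-- Let F be a finite group and H a nontrivial subgroup of F that is contained in every nontrivial subgroup of F which H normalizes. Then F has a nontrivial normal subgroup N contained in every nontrivial normal subgroup of F (a unique minimal normal subgroup), N is simple, and one of the following holds: C_F(N) = 1; or H = N has prime order p, C_F(N) is cyclic of order a power of p, and F/C_F(N) is cyclic of order dividing p − 1; or H = N has order 2, N is central in F, and F is a generalized quaternion group. -/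
theorem result {F : Type*} [Group F] [Finite F] (H : Subgroup F) (hH : H ≠ ⊥)
    (hmin : ∀ R : Subgroup F, R ≠ ⊥ → H ≤ Subgroup.normalizer (R : Set F) → H ≤ R) :
    ∃ N : Subgroup F, N.Normal ∧ N ≠ ⊥ ∧ (∀ M : Subgroup F, M.Normal → M ≠ ⊥ → N ≤ M) ∧ IsSimpleGroup ↥N ∧
      (Subgroup.centralizer (N : Set F) = ⊥ ∨
       (H = N ∧ (Nat.card N).Prime ∧ IsCyclic ↥(Subgroup.centralizer (N : Set F)) ∧
          (∃ k : ℕ, 1 ≤ k ∧ Nat.card ↥(Subgroup.centralizer (N : Set F)) = Nat.card N ^ k) ∧
          (∃ g : F, Subgroup.centralizer (N : Set F) ⊔ Subgroup.zpowers g = ⊤) ∧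
          (Subgroup.centralizer (N : Set F)).index ∣ Nat.card N - 1) ∨
       (H = N ∧ Nat.card N = 2 ∧ Subgroup.centralizer (N : Set F) = ⊤ ∧
          ∃ k : ℕ, 1 ≤ k ∧ Nonempty (F ≃* QuaternionGroup (2 ^ k)))) := by
  open Subgroup Cfsg CA CA.Amb CA.AmbSyl CA.AmbCore CA.AmbRes CA.AmbChar CA.AmbIso CA.AmbTr in
  open scoped commutatorElement in
  (
    have h1 : ∀ M : Subgroup F, M.Normal → M ≠ ⊥ → normalClosure (H : Set F) ≤ M := fun M _ h =>
      normalClosure_le_normal (hmin M h norm_of_normal)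
    have hHN : H ≤ normalClosure (H : Set F) := le_normalClosure
    have hNn : (normalClosure (H : Set F)).Normal := inferInstance
    have h2 : ∀ M, M ≤ normalClosure (H : Set F) → normalClosure (H : Set F) ≤ 𝐍 M → M ≠ ⊥ →
        normalClosure (H : Set F) ≤ M := fun M m1 m2 m3 => by
      rw [← ncl_top, ncl_le_iff]
      intro g _
      rw [cj_le_iff]
      refine hmin _ (mt cj_eq_bot.1 m3) (hHN.trans ?_)
      rw [← cj_normalizer, ← cj_eq_self_of_normal g⁻¹ (normalClosure _)]
      exact cj_mono _ m2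
    generalize normalClosure (H : Set F) = N at *
    have hN1 : N ≠ ⊥ := fun h => hH (le_bot_iff.1 (h ▸ hHN))
    have hs : IsSimpleGroup N := by
      have := (nontrivial_iff_ne_bot N).2 hN1
      refine ⟨fun M _ => or_iff_not_imp_left.2 fun h => ?_⟩
      have := h2 _ (map_subtype_le M) (norm_map_subtype M) (mt (map_eq_bot_iff_of_injective _ (subtype_injective _)).1 h)
      exact eq_top_iff.2 fun x _ => by obtain ⟨y, y1, y2⟩ := this x.2; rwa [← Subtype.ext y2]
    refine ⟨N, hNn, hN1, h1, hs, or_iff_not_imp_left.2 fun hC => ?_⟩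
    have hNC : N ≤ 𝐂 N := h1 _ inferInstance hC
    have hc : IsMulCommutative N := le_centralizer_iff_isMulCommutative.1 hNC
    have hp : (Nat.card N).Prime := by
      open scoped IsMulCommutative in exact IsSimpleGroup.prime_card
    have hHN' : H = N := le_antisymm hHN (h2 H hHN (norm_of_centralizer (hNC.trans (centralizer_anti hHN))) hH)
    subst hHN'
    generalize hq : Nat.card H = p at *
    have : Fact p.Prime := ⟨hp⟩
    have h3 : ∀ x ∈ 𝐂 H, (orderOf x).Prime → zpowers x = H ∧ orderOf x = p := fun x hx h => by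
      have k := hmin (zpowers x) (zpowers_ne_bot.2 fun e => by simp [e] at h; exact absurd h Nat.not_prime_one)
        (norm_of_centralizer (cent_symm (zpowers_le.2 hx)))
      have k2 := card_dvd_of_le k
      rw [hq, Nat.card_zpowers, Nat.prime_dvd_prime_iff_eq hp h] at k2
      exact ⟨(PGBasic.eq_of_le_of_card_le k (by rw [hq, Nat.card_zpowers, k2])).symm, k2.symm⟩
    have hP : IsPGroup p (𝐂 H) := by
      refine IsPGroup.of_card (Nat.eq_prime_pow_of_unique_prime_dvd Nat.card_pos.ne' fun {q} q1 q2 => ?_)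
      have : Fact q.Prime := ⟨q1⟩
      obtain ⟨x, x1, rfl⟩ := exists_orderOf_eq_of_dvd q2
      exact (h3 x x1 q1).2
    have hcyc : IsCyclic (𝐂 H) → (H = H ∧ p.Prime ∧ IsCyclic (𝐂 H) ∧ (∃ k : ℕ, 1 ≤ k ∧ Nat.card (𝐂 H) = p ^ k) ∧
        (∃ g : F, 𝐂 H ⊔ zpowers g = ⊤) ∧ (𝐂 H).index ∣ p - 1) := fun h => by
      have hH : IsCyclic H := isCyclic_of_prime_card hq
      let φ := (IsCyclic.mulAutMulEquiv H).toMonoidHom.comp (MulAut.conjNormal (H := H))
      have hk : φ.ker = 𝐂 H := by
        rw [← MonoidHom.comap_ker, (MonoidHom.ker_eq_bot_iff _).2 (MulEquiv.injective _), MonoidHom.comap_bot]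
        ext g
        simp only [MonoidHom.mem_ker, MulEquiv.ext_iff, Subtype.ext_iff, MulAut.conjNormal_apply,
          mem_centralizer_sub, MulAut.one_apply, Subtype.forall, mul_inv_eq_iff_eq_mul]
        exact forall₂_congr fun _ _ => eq_comm
      obtain ⟨k, hk'⟩ := hP.exists_card_eq
      have : Fact (Nat.card H).Prime := ⟨hq ▸ hp⟩
      refine ⟨rfl, hp, h, ⟨k, Nat.pos_of_ne_zero fun e => hC (card_eq_one.1 (by simp [hk', e])), hk'⟩, ?_, ?_⟩
      · obtain ⟨⟨_, g, rfl⟩, hg⟩ := IsCyclic.exists_generator (α := φ.range)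
        refine ⟨g, eq_top_iff.2 fun x _ => ?_⟩
        obtain ⟨i, hi⟩ := hg ⟨_, x, rfl⟩
        replace hi : φ g ^ i = φ x := by simpa using congrArg Subtype.val hi
        rw [show x = (x * (g ^ i)⁻¹) * g ^ i by group]
        exact mul_mem_sup (hk.le (by simp [MonoidHom.mem_ker, hi])) ⟨i, rfl⟩
      · rw [← hk, index_ker, ← Nat.totient_prime hp, ← hq, ← IsCyclic.card_mulAut,
          Nat.card_congr (IsCyclic.mulAutMulEquiv H).toEquiv]
        exact card_subgroup_dvd_card _
    rcases cyc_or_quat_of_rank hP (fun A a1 a2 => by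
      rw [← hq]
      refine card_le_of_le fun x hx => ?_
      rcases eq_or_ne x 1 with rfl | h
      · exact one_mem _
      · exact (h3 x (a1 hx) (by rwa [orderOf_eq_prime (a2.2 x hx) h])).1 ▸ mem_zpowers x) with h | ⟨rfl, n, ⟨e⟩⟩
    · exact .inl (hcyc h)
    · rcases Nat.eq_zero_or_pos n with rfl | hn
      · have := QuaternionGroup.quaternionGroup_one_isCyclic
        exact .inl (hcyc (isCyclic_of_surjective e.symm.toMonoidHom e.symm.surjective))
      · have hT : 𝐂 H = ⊤ := eq_top_iff.2 fun g _ x hx => by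
          rcases eq_or_ne x 1 with rfl | h
          · simp
          · obtain ⟨y, -, hy⟩ := (Nat.card_eq_two_iff' (1 : H)).1 hq
            have := (hy ⟨x, hx⟩ fun e => h (congrArg Subtype.val e)).trans
              (hy ⟨_, hNn.conj_mem x hx g⟩ fun e => h (conj_eq_one_iff.1 (congrArg Subtype.val e))).symm
            exact eq_mul_inv_iff_mul_eq.1 (congrArg Subtype.val this)
        exact .inr ⟨rfl, rfl, hT, n, hn, ⟨(topEquiv.symm.trans (MulEquiv.subgroupCongr hT.symm)).trans e⟩⟩)

end Cfsg.Agent.S3025
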