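import Cfsg.Statements.S3027
import Cfsg.Agent.Lib.Loc.AmbChar
import Cfsg.Agent.Lib.Loc.AmbM
-- import your own Cfsg.Agent.* helpers here

set_option autoImplicit false
open Cfsg

namespace Cfsg.Agent.S3027

section Aux
open Subgroup Cfsg CA.Amb CA.AmbSyl CA.AmbCore CA.AmbRes CA.AmbChar CA.AmbWC CA.AmbSpe CA.AmbRed CA.AmbFs CA.AmbM
open scoped commutatorElement

theorem aux {G : Type*} [Group G] [Finite G] (D : Subgroup G) [D.Normal] (L : Subgroup G)
    (h : L ≤ ⁅L, L⁆ ⊔ D) : ∃ B, B ≤ L ∧ 𝐍 L ≤ 𝐍 B ∧ L ≤ B ⊔ D ∧ ∀ B', SN L B' → L ≤ B' ⊔ D → B ≤ B' := by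
  induction L using WellFoundedLT.induction with | _ L ih
  obtain ⟨B, ⟨b1, b2, b3⟩, hmin⟩ := WellFounded.has_min (wellFounded_lt (α := Subgroup G))
    {B | B ≤ L ∧ L ≤ 𝐍 B ∧ L ≤ B ⊔ D} ⟨L, le_rfl, le_normalizer, le_sup_left⟩
  have h1 : ∀ B', B' ≤ L → L ≤ 𝐍 B' → L ≤ B' ⊔ D → B ≤ B' := by
    intro B' c1 c2 c3
    by_contra hne
    refine hmin (B ⊓ B') ⟨inf_le_left.trans b1, norm_inf b2 c2, h.trans (sup_le
      ((commutator_mono b3 c3).trans (comm_sup_sup_le.trans (sup_le_sup_right ?_ _))) le_sup_right)⟩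
      (inf_lt_left.2 hne)
    exact le_inf (commutator_le_left_of_norm (c1.trans b2)) (commutator_le_right_of_norm (b1.trans c2))
  refine ⟨B, b1, fun g hg => mem_normalizer_of_le_cj (h1 _ (cj_le_of_le b1 hg) ?_ ?_), b3,
    fun B' hs c3 => ?_⟩
  · rw [← cj_normalizer, ← cj_eq_self hg]; exact cj_mono g b2
  · rw [← cj_eq_self hg, ← cj_eq_self_of_normal g D, ← cj_sup]; exact cj_mono g b3
  · rcases hs.eq_or_exists with e | ⟨N, n1, n2, n3, n4⟩
    · exact e ▸ b1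
    have n5 : L ≤ N ⊔ D := c3.trans (sup_le_sup_right n1 _)
    obtain ⟨C, d1, d2, d3, d4⟩ := ih N n2 (n2.le.trans (h.trans (sup_le
      ((commutator_mono n5 n5).trans comm_sup_sup_le) le_sup_right)))
    exact (h1 C (d1.trans n2.le) (n3.trans d2) (n5.trans (sup_le d3 le_sup_right))).trans
      (d4 B' n4 (n2.le.trans c3))

end Aux

/-- Let G be a finite group and D a normal subgroup of G such that G/D is perfect (that is, G = G′D). Then among the subnormal subgroups B of G with BD = G there is a least one, and it is normal in G. -/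
theorem result {G : Type*} [Group G] [Finite G] (D : Subgroup G) [D.Normal] (hperf : ⁅(⊤ : Subgroup G), (⊤ : Subgroup G)⁆ ⊔ D = ⊤) :
    ∃ B : Subgroup G, B.Normal ∧ B ⊔ D = ⊤ ∧ ∀ B' : Subgroup G, B'.IsSubnormal → B' ⊔ D = ⊤ → B ≤ B' := by
  open Subgroup Cfsg CA.Amb CA.AmbSyl CA.AmbCore CA.AmbRes CA.AmbChar CA.AmbWC CA.AmbSpe CA.AmbRed CA.AmbFs CA.AmbM in
  open scoped commutatorElement in
  (
    obtain ⟨B, -, h1, h2, h3⟩ := aux D ⊤ hperf.ge
    exact ⟨B, normal_iff_top_le.2 (le_normalizer.trans h1), top_le_iff.1 h2,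
      fun B' a b => h3 B' (sn_top_iff.2 a) b.ge⟩)

end Cfsg.Agent.S3027
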