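import Cfsg.Statements.S3032
import Cfsg.Agent.Lib.Solv.HSub

set_option autoImplicit false
open Cfsg

namespace Cfsg.Agent.S3032

open Subgroup CA CA.BG

/-- Let G be a finite group and E a normal subgroup with G/E supersolvable. Suppose that for every prime p and every non-cyclic Sylow p-subgroup P of E there is a subgroup D of P with 1 < |D| < |P| such that every subgroup F of P of order |D|, and also every subgroup F of P of order 4 when |D| = 2, satisfies g F g⁻¹ ∩ N_G(F) ≤ F for all g ∈ G. Then G is supersolvable. -/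
theorem result {G : Type*} [Group G] [Finite G] (E : Subgroup G) [E.Normal] (hGE : Cfsg.IsSupersolvable (G ⧸ E))
    (h : ∀ (p : ℕ), p.Prime → ∀ P : Subgroup G, P ≤ E → IsPGroup p P → ¬ p ∣ P.relIndex E → ¬ IsCyclic ↥P →
      ∃ D : Subgroup G, D ≤ P ∧ 1 < Nat.card D ∧ Nat.card D < Nat.card P ∧
        ∀ F : Subgroup G, F ≤ P → (Nat.card F = Nat.card D ∨ (Nat.card D = 2 ∧ Nat.card F = 4)) →
          ∀ g : G, F.map (MulAut.conj g).toMonoidHom ⊓ Subgroup.normalizer (F : Set G) ≤ F) :
    Cfsg.IsSupersolvable G := by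
  have h1 := HSub.ch_top ‹E.Normal› fun p hp P hP => or_iff_not_imp_left.2
    (h p hp P hP.le (hP.pi.isPGroup hp) (hP.not_dvd hp))
  have h2 := Ch.comap (QuotientGroup.mk' E) (by rwa [QuotientGroup.ker_mk']) (X := ⊤)
    ((ss_iff_top.1 hGE).mono le_top) (by simp)
  exact ss_iff_top.2 h2

end Cfsg.Agent.S3032
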