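import Cfsg.Statements.S3044
import Cfsg.Agent.Lib.Loc.H6Iso

set_option autoImplicit false
open Cfsg

set_option linter.unusedVariables false
set_option linter.unusedSimpArgs false
set_option linter.style.haveILetI false

namespace Cfsg.Agent.S3044

open CA Subgroup CA.Amb CA.AmbSyl CA.AmbCore CA.AmbRes CA.AmbFs CA.AmbM CA.H6Iso CA.Comp
open scoped commutatorElement

/-- Let G be a finite group, p a prime, S a Sylow p-subgroup of G and P a p-minimal subgroup of G containing S (S is not normal in P and lies in exactly one maximal subgroup of P). Let L be the subgroup generated by N_G(S) and all p-minimal subgroups of G containing S other than P, and suppose P is isolated: O_p(L) is not contained in O_p(P). Put Y for the normal closure of O^p(P) in G. Then G = YL; P is again isolated in the subgroup YS (the subgroup L₀ generated by N_{YS}(S) and the p-minimal subgroups of YS containing S other than P has O_p(L₀) not contained in O_p(P));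 and either Y = O^p(P), or p divides |Y/O_p(Y)|, Y/O_p(Y) is generated by its components (a central product of quasisimple groups), and S permutes these components transitively by conjugation. -/
theorem result {G : Type*} [Group G] [Finite G] {p : ℕ} [Fact p.Prime] (S : Sylow p G) (P : Subgroup G) (hSP : (S : Subgroup G) ≤ P) (hPmin : Cfsg.IsPMinimal p ↥P)
    (L Y : Subgroup G)
    (hL : L = Subgroup.normalizer ((S : Subgroup G) : Set G) ⊔ ⨆ P' : {P' : Subgroup G // (S : Subgroup G) ≤ P' ∧ Cfsg.IsPMinimal p ↥P' ∧ P' ≠ P}, (P' : Subgroup G))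
    (hiso : ¬ (Cfsg.pCore p ↥L).map L.subtype ≤ (Cfsg.pCore p ↥P).map P.subtype)
    (hY : Y = Subgroup.normalClosure (((Cfsg.pResidual p ↥P).map P.subtype : Subgroup G) : Set G)) :
    Y ⊔ L = ⊤ ∧
    ¬ (Cfsg.pCore p ↥((Subgroup.normalizer ((S : Subgroup G) : Set G) ⊓ (Y ⊔ (S : Subgroup G))) ⊔
          ⨆ P' : {P' : Subgroup G // (S : Subgroup G) ≤ P' ∧ P' ≤ Y ⊔ (S : Subgroup G) ∧ Cfsg.IsPMinimal p ↥P' ∧ P' ≠ P}, (P' : Subgroup G))).map
        (Subgroup.subtype _) ≤ (Cfsg.pCore p ↥P).map P.subtype ∧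
    ((Cfsg.pResidual p ↥P).map P.subtype = Y ∨
     ∃ _ : (Cfsg.pCore p ↥Y).Normal,
       p ∣ Nat.card (↥Y ⧸ Cfsg.pCore p ↥Y) ∧ Cfsg.layer (↥Y ⧸ Cfsg.pCore p ↥Y) = ⊤ ∧
       ∀ K₁ K₂ : Subgroup (↥Y ⧸ Cfsg.pCore p ↥Y), Cfsg.IsComponent K₁ → Cfsg.IsComponent K₂ →
         ∃ s ∈ (S : Subgroup G), ((K₂.comap (QuotientGroup.mk' (Cfsg.pCore p ↥Y))).map Y.subtype) = (((K₁.comap (QuotientGroup.mk' (Cfsg.pCore p ↥Y))).map Y.subtype)).map (MulAut.conj s).toMonoidHom) := by
  have h := iso_of (sylIn_top S) hSP hPmin hL hiso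
  rw [← ncl_top] at hY
  change Y = ncl (pResidualOf p P) ⊤ at hY
  have n : ⊤ ≤ 𝐍 Y := hY ▸ norm_ncl _ _
  refine ⟨hY ▸ h.gen, fun e => hiso ((pCoreOf_le_pCoreOf_of_le ?_ (h.aS.trans (le_sup_of_le_left
    (le_inf le_normalizer le_sup_right)))).trans e), ?_⟩
  · rw [hL]
    exact sup_le_sup inf_le_left (iSup_le fun P' => le_iSup_of_le ⟨P', P'.2.1, P'.2.2.2⟩ le_rfl)
  obtain ⟨q, e⟩ := h.quo
  have hO := pCore_quotient_pCore p G
  rw [← hY] at e
  by_cases c : p ∣ Nat.card (Y.map (QuotientGroup.mk' (pCore p G)))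
  swap
  · exact .inl (hY ▸ h.eq_of (hY ▸ e ▸ (q.cop hO (e ▸ ((Nat.Prime.coprime_iff_not_dvd Fact.out).2 c).symm)).1))
  have e1 := q.dvd hO (e ▸ c)
  have tr := @q.trans _ _ _ _ _ _ _ _ _ hO e1
  rw [e] at e1 tr
  set f := QuotientGroup.mk' (pCore p G)
  let φ := quotEquiv f Y _ (ker_eq n)
  refine .inr ⟨inferInstance, by rwa [Nat.card_congr φ.toEquiv], ?_, fun K₁ K₂ k1 k2 => ?_⟩
  · rw [← map_layer_equiv φ.symm, map_layer_eq_self_iff.1 e1, map_top_of_surjective _ φ.symm.surjective]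
  have k : ∀ K : Subgroup (Y ⧸ pCore p Y), (K.comap (QuotientGroup.mk' _)).map Y.subtype =
      Y ⊓ ((K.map φ.toMonoidHom).map (Y.map f).subtype).comap f := fun K => by
    ext x
    constructor
    · rintro ⟨y, hy, rfl⟩
      exact ⟨y.2, _, ⟨_, hy, rfl⟩, rfl⟩
    · rintro ⟨hx, _, ⟨k, hk, rfl⟩, e'⟩
      obtain rfl : k = QuotientGroup.mk' _ ⟨x, hx⟩ := φ.injective (Subtype.ext e')
      exact ⟨_, hk, rfl⟩
  obtain ⟨_, ⟨s, hs, rfl⟩, e2⟩ := tr (Cp.map_subtype (comp_map_equiv k1 φ)) (Cp.map_subtype (comp_map_equiv k2 φ))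
  refine ⟨s, hs, ?_⟩
  rw [k, k, e2]
  change _ = cj s _
  rw [cj_inf, cj_eq_self (n (mem_top s))]
  congr 1
  ext x
  rw [mem_comap, mem_cj, mem_cj, mem_comap, map_mul, map_mul, map_inv]

end Cfsg.Agent.S3044
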