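import Cfsg.Statements.S3045
import Cfsg.Agent.Lib.Loc.H6Iso

set_option autoImplicit false
open Cfsg

set_option linter.unusedVariables false
set_option linter.unusedSimpArgs false
set_option linter.style.haveILetI false

namespace Cfsg.Agent.S3045

open CA Subgroup CA.Amb CA.AmbSyl CA.AmbCore CA.AmbRes CA.AmbFs CA.AmbM CA.H6Iso CA.Comp
open scoped commutatorElement

/-- Let G be a finite group, p a prime, S a Sylow p-subgroup of G and P a p-minimal subgroup of G containing S. Let L be the subgroup generated by N_G(S) and all p-minimal subgroups of G containing S other than P, and suppose O_p(L) is not contained in O_p(P). Put Y for the normal closure of O^p(P) in G. Then O^p(P) is contained in the preimage in G of F*(G/O_p(G)); and if Y is solvable, then Y = O^p(P) and Y/O_p(Y) is a t-group of nilpotency class at most 2 for some prime t ≠ p. -/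
theorem result {G : Type*} [Group G] [Finite G] {p : ℕ} [Fact p.Prime] (S : Sylow p G) (P : Subgroup G) (hSP : (S : Subgroup G) ≤ P) (hPmin : Cfsg.IsPMinimal p ↥P)
    (L Y : Subgroup G)
    (hL : L = Subgroup.normalizer ((S : Subgroup G) : Set G) ⊔ ⨆ P' : {P' : Subgroup G // (S : Subgroup G) ≤ P' ∧ Cfsg.IsPMinimal p ↥P' ∧ P' ≠ P}, (P' : Subgroup G))
    (hiso : ¬ (Cfsg.pCore p ↥L).map L.subtype ≤ (Cfsg.pCore p ↥P).map P.subtype)
    (hY : Y = Subgroup.normalClosure (((Cfsg.pResidual p ↥P).map P.subtype : Subgroup G) : Set G)) [hn : (Cfsg.pCore p G).Normal] :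
    (Cfsg.pResidual p ↥P).map P.subtype ≤ (Cfsg.generalizedFittingSubgroup (G ⧸ Cfsg.pCore p G)).comap (QuotientGroup.mk' (Cfsg.pCore p G)) ∧
    (Group.IsSolvable ↥Y → (Cfsg.pResidual p ↥P).map P.subtype = Y ∧
       ∃ _ : (Cfsg.pCore p ↥Y).Normal, ∃ t : ℕ, t.Prime ∧ t ≠ p ∧ IsPGroup t (↥Y ⧸ Cfsg.pCore p ↥Y) ∧
         ∃ _ : Group.IsNilpotent (↥Y ⧸ Cfsg.pCore p ↥Y), Group.nilpotencyClass (↥Y ⧸ Cfsg.pCore p ↥Y) ≤ 2) := by
  have h := iso_of (sylIn_top S) hSP hPmin hL hiso
  rw [← ncl_top] at hY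
  change Y = ncl (pResidualOf p P) ⊤ at hY
  have n : ⊤ ≤ 𝐍 Y := hY ▸ norm_ncl _ _
  obtain ⟨q, e⟩ := h.quo
  have hO := pCore_quotient_pCore p G
  rw [← hY] at e
  refine ⟨map_le_iff_le_comap.1 ((le_ncl _ ⊤).trans ((q.le_FS hO).trans FS_top.le)), fun hs => ?_⟩
  set f := QuotientGroup.mk' (pCore p G)
  let φ := quotEquiv f Y _ (ker_eq n)
  have c : ¬ p ∣ Nat.card (Y.map f) := fun c => by
    have e1 := q.dvd hO (e ▸ c)
    rw [e, EL, layer_eq_bot_of_isSolvable (Group.isSolvable_of_surjective (f.subgroupMap_surjective Y)),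
      Subgroup.map_bot] at e1
    exact q.nle (((le_ncl _ ⊤).trans (e.le.trans e1.ge)).trans bot_le)
  obtain ⟨a, b, t, t1, t2, t3⟩ := q.cop hO (e ▸ ((Nat.Prime.coprime_iff_not_dvd Fact.out).2 c).symm)
  rw [e] at a b t3
  haveI := Fact.mk t1
  have t4 := t3.of_equiv φ.symm
  refine ⟨hY ▸ h.eq_of (hY ▸ a), inferInstance, t, t1, t2, t4, t4.isNilpotent, ?_⟩
  haveI := t4.isNilpotent
  rw [← Subgroup.lowerCentralSeries_eq_bot_iff_nilpotencyClass_le, ← map_eq_bot_iff_of_injective _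
    (f := (Y.map f).subtype.comp φ.toMonoidHom) ((Y.map f).subtype_injective.comp φ.injective)]
  change Subgroup.map _ ⁅⁅⊤, ⊤⁆, ⊤⁆ = ⊥
  rw [map_commutator, map_commutator, ← Subgroup.map_map, map_top_of_surjective _ φ.surjective, map_subtype_top]
  exact comm_eq_bot_of_le b

end Cfsg.Agent.S3045
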