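import Cfsg.Statements.S3048
import Cfsg.Agent.Lib.Loc.AmbChar
import Cfsg.Agent.Lib.Loc.AmbIso
import Cfsg.Agent.Lib.Grp.Bal
-- import your own Cfsg.Agent.* helpers here

set_option autoImplicit false
universe u
open Cfsg

namespace Cfsg.Agent.S3048

/-- Minimal counterexample reduction for the Sidki pair problem. Let G be a finite group and V a nontrivial elementary abelian 2-subgroup satisfying the Sidki pair condition with V ∩ O₂(G) = 1. Suppose that for every finite group H of smaller order, every nontrivial elementary abelian 2-subgroup W of H satisfying the Sidki pair condition meets O₂(H) nontrivially, and that the same holds in G for every such subgroup W of order smaller than that of V. Then the generalized Fitting subgroup F*(G) is a non-abelian simple group and G = V F*(G). -/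
theorem result {G : Type u} [Group G] [Finite G] (V : Subgroup G) (hV : Cfsg.IsElementaryAbelian 2 V) (hV1 : V ≠ ⊥) (hS : Cfsg.IsSidkiPair V) (hVO : V ⊓ Cfsg.pCore 2 G = ⊥) (hminG : ∀ (H : Type u) [Group H] [Finite H] (W : Subgroup H), Nat.card H < Nat.card G → Cfsg.IsElementaryAbelian 2 W → W ≠ ⊥ → Cfsg.IsSidkiPair W → W ⊓ Cfsg.pCore 2 H ≠ ⊥) (hminV : ∀ W : Subgroup G, Nat.card W < Nat.card V → Cfsg.IsElementaryAbelian 2 W → W ≠ ⊥ → Cfsg.IsSidkiPair W → W ⊓ Cfsg.pCore 2 G ≠ ⊥) : IsSimpleGroup ↥(Cfsg.generalizedFittingSubgroup G) ∧ ¬ IsMulCommutative ↥(Cfsg.generalizedFittingSubgroup G) ∧ V ⊔ Cfsg.generalizedFittingSubgroup G = ⊤ := by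
  open Subgroup Cfsg CA.Amb CA.AmbSyl CA.AmbCore CA.AmbRes CA.AmbChar CA.AmbWC CA.AmbSpe CA.AmbRed CA.AmbFs CA.AmbM CA.AmbIso in
  open scoped commutatorElement in
  (
    have hV2 := ea_pg hV
    have hO : pCore 2 G = ⊥ := by
      by_contra e
      refine hminG (G ⧸ pCore 2 G) (V.map (QuotientGroup.mk' _)) (CA.H13ZRed.card_quotient_lt e) (ea_map _ hV)
        (fun e' => hV1 (by
          rw [Subgroup.map_eq_bot_iff, QuotientGroup.ker_mk'] at e'; rw [← hVO, inf_eq_left.2 e']))
        (sidki_map (QuotientGroup.mk'_surjective _) hV hS (by rw [QuotientGroup.ker_mk']; exact hVO)) ?_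
      rw [CA.AmbCore.pCore_quotient_pCore, inf_bot_eq]
    have hO' : ∀ N : Subgroup G, SN ⊤ N → pCoreOf 2 N = ⊥ := fun N hN =>
      SN.pCoreOf_eq_bot hN (by rwa [pCoreOf_top])
    have sub : ∀ C W N : Subgroup G, C ≠ ⊤ → W ≤ C → W ≤ V → W ≠ ⊥ → IsSidkiPair (W.subgroupOf C) →
        N ≤ C → C ≤ 𝐍 N → pCoreOf 2 N = ⊥ → W ⊓ 𝐂 N ≠ ⊥ := fun C W N h1 h2 h3 h4 h5 h6 h7 h8 e => by
      refine hminG C (W.subgroupOf C) (CA.H13ZRed.card_lt_of_ne_top h1)
        ((ea_subgroupOf_iff h2).2 (ea_of_le hV h3)) (fun e' => h4 (by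
          rw [← inf_eq_left.2 h2, ← subgroupOf_map_subtype, e', Subgroup.map_bot])) h5
        (le_bot_iff.1 fun w hw => Subtype.ext (e.le (mem_inf.2 ⟨(mem_inf.1 hw).1, ?_⟩)))
      have e' : zpowers (w : G) ≤ pCoreOf 2 C := zpowers_le.2 (mem_pCoreOf_iff.2 (mem_inf.1 hw).2)
      refine commutator_eq_bot_iff'.1 (le_bot_iff.1 ?_) (mem_zpowers (w : G))
      rw [← h8, pCoreOf_eq_inf_of_norm h6 h7]
      exact le_inf (commutator_le_left_of_norm (zpowers_le.2 (h7 w.2))) ((commutator_mono le_rfl e').trans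
        (commutator_le_right_of_norm (h6.trans (norm_pCoreOf _ _))))
    have sub' : ∀ N : Subgroup G, N.Normal → V ⊔ N ≠ ⊤ → V ⊓ 𝐂 N ≠ ⊥ := fun N hN h =>
      sub (V ⊔ N) V N h le_sup_left le_rfl hV1 (sidki_subgroupOf fun x _ v hv _ h1 h2 => by
        obtain ⟨w, a, b, c⟩ := hS x v hv h1 h2
        exact ⟨w, a, mem_sup_left a, b, c⟩) le_sup_right norm_of_normal (hO' N (SN.of_norm le_top norm_of_normal))
    set L := generalizedFittingSubgroup G with hL
    have hF2 : ∀ W : Subgroup G, W ≤ V → W ≤ fittingSubgroup G → W = ⊥ := fun W h1 h2 =>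
      le_bot_iff.1 ((CA.Fitting.le_pCore_of_le_fitting h2 (hV2.to_le h1)).trans hO.le)
    have hCL : V ⊓ 𝐂 L = ⊥ := hF2 _ inf_le_left (inf_le_right.trans CA.Fstar.centralizer_fstar_le_fitting)
    have hVL : V ⊔ L = ⊤ := by
      by_contra e; exact sub' L inferInstance e hCL
    have hodd : ∀ h : G, Odd (orderOf h) → h ∈ L := fun h ho =>
      res_le_of_le_sup hV2 norm_of_normal hVL.ge (mem_res (mem_top h) (Nat.coprime_two_right.2 ho))
    have hZ : center G = ⊥ := by
      by_contra e
      have h1 : V ⊓ center G = ⊥ := hF2 _ inf_le_left (inf_le_right.trans CA.Fitting.center_le_fitting)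
      refine hminG (G ⧸ center G) (V.map (QuotientGroup.mk' _)) (CA.H13ZRed.card_quotient_lt e) (ea_map _ hV)
        (fun e' => hV1 (by
          rw [Subgroup.map_eq_bot_iff, QuotientGroup.ker_mk'] at e'; rw [← h1, inf_eq_left.2 e']))
        (sidki_map (QuotientGroup.mk'_surjective _) hV hS (by rw [QuotientGroup.ker_mk']; exact h1)) ?_
      refine le_bot_iff.1 ?_
      rintro _ ⟨⟨v, hv, rfl⟩, h2⟩
      set M := (pCore 2 (G ⧸ center G)).comap (QuotientGroup.mk' (center G)) with hM
      have hMn : Group.IsNilpotent M := by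
        haveI : Group.IsNilpotent (pCore 2 (G ⧸ center G)) := (CA.AmbCore.isPGroup_pCore 2 _).isNilpotent
        refine Subgroup.isNilpotent_of_ker_le_center ((QuotientGroup.mk' (center G)).subgroupComap _) fun y hy => ?_
        have : (y : G) ∈ center G := (QuotientGroup.eq_one_iff _).1 (congrArg Subtype.val hy)
        exact mem_center_iff.2 fun g => Subtype.ext (mem_center_iff.1 this g)
      have := hF2 (V ⊓ M) inf_le_left (inf_le_right.trans (CA.Core.le_fitting hMn))
      rw [mem_bot.1 (this.le (mem_inf.2 ⟨hv, h2⟩)), map_one]; exact one_mem _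
    have main : ∀ N : Subgroup G, N.Normal → L ≤ N ⊔ 𝐂 N → N ≠ ⊥ → V ⊔ N = ⊤ := fun N hN h1 hN1 => by
      by_contra e
      have hU := sub' N hN e
      have hON := hO' N (SN.of_norm le_top norm_of_normal)
      by_cases e2 : V ≤ 𝐂 N
      · have hc : 𝐂 N ≠ ⊤ := fun e' => hN1 (le_bot_iff.1 (le_trans (by
          rw [← CA.Amb.centralizer_top]; exact cent_symm e'.ge) hZ.le))
        refine hminG (𝐂 N) (V.subgroupOf _) (CA.H13ZRed.card_lt_of_ne_top hc) ((ea_subgroupOf_iff e2).2 hV)
          (fun e' => hV1 (by rw [← inf_eq_left.2 e2, ← subgroupOf_map_subtype, e', Subgroup.map_bot]))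
          (sidki_subgroupOf fun x _ v hv _ h1 h2 => by
            obtain ⟨w, a, b, c⟩ := hS x v hv h1 h2
            exact ⟨w, a, e2 a, b, c⟩) ?_
        rw [pCoreOf_eq_bot_iff.1 (hO' _ (SN.of_norm le_top norm_of_normal)), inf_bot_eq]
      have h2 : ¬ IsSidkiPair (V ⊓ 𝐂 N) := fun h => hminV _ (card_lt_of_lt (inf_lt_left.2 e2))
        (ea_of_le hV inf_le_left) hU h (by rw [hO, inf_bot_eq])
      simp only [IsSidkiPair, not_forall] at h2
      obtain ⟨h, w, hw, ho, hi, h3⟩ := h2
      have hw1 : w ≠ 1 := by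
        rintro rfl
        obtain ⟨u, hu, hu1⟩ := exists_ne_one_of_ne_bot hU
        exact h3 ⟨u, hu, hu1, by rw [eq_one_of_inv ho (by simpa using hi)]; simp⟩
      have hhN : h ∈ 𝐂 N := mem_of_sq ho (by
        obtain ⟨n, hn, c, hc, rfl⟩ := (mem_sup_of_norm norm_of_normal).1 (h1 (hodd h ho))
        have e1 := mem_centralizer_sub.1 (mem_inf.1 hw).2 n hn
        have e2 : (n * c) ^ 2 = n * (c * (w * c⁻¹ * w⁻¹)) * n⁻¹ := by
          rw [pow_two]; nth_rewrite 2 [← inv_inv (n * c)]; rw [← hi]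
          have : w * (n * c) * w⁻¹ = n * (w * c * w⁻¹) := by rw [← mul_assoc, ← e1]; group
          rw [this]; group
        rw [e2]
        exact (inferInstance : (𝐂 N).Normal).conj_mem _ (mul_mem hc
          ((inferInstance : (𝐂 N).Normal).conj_mem _ (inv_mem hc) w)) n)
      obtain ⟨h4, h5⟩ := sidki_cent hV hS (mem_inf.1 hw).1 ho hi
      obtain ⟨u, hu, hu1⟩ := exists_ne_one_of_ne_bot (sub _ _ N (fun e' => hw1 (mem_bot.1 (hZ.le
        (mem_center_iff.2 fun g => mem_centralizer_singleton_iff.1 (mem_inf.1 (e'.ge (mem_top g))).1))))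
        inf_le_left inf_le_right h4 h5 (le_inf (le_cent_of_mem (mem_inf.1 hw).2) (le_cent_of_mem hhN))
        norm_of_normal hON)
      have hu' := mem_inf.1 (mem_inf.1 hu).1
      exact h3 ⟨u, mem_inf.2 ⟨hu'.2, (mem_inf.1 hu).2⟩, hu1, mem_centralizer_singleton_iff.1 (mem_inf.1 hu'.1).2⟩
    have hF : fittingSubgroup G = ⊥ := by
      by_contra e
      set N := fittingSubgroup G ⊓ 𝐂 (fittingSubgroup G) with hN
      have hN1 : N ≠ ⊥ := fun e' => e (by
        haveI : Group.IsNilpotent (fittingSubgroup G) := by rw [← FL_top]; exact isNilpotent_FL _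
        by_contra e2
        haveI := (nontrivial_iff_ne_bot _).2 e2
        rw [hN, ← map_subtype_center] at e'
        exact Group.IsNilpotent.center_ne_bot _
          ((Subgroup.map_eq_bot_iff_of_injective _ (Subgroup.subtype_injective _)).1 e'))
      have hLN : L ≤ 𝐂 N := CA.Fstar.fstar_le (CA.Comp.layer_le_centralizer_fitting.trans
        (centralizer_anti inf_le_left)) (cent_symm inf_le_right)
      obtain ⟨v, hv, hv1⟩ := exists_ne_one_of_ne_bot hV1
      have key : ∀ v ∈ V, v ≠ 1 → N ⊓ centralizer {v} = ⊥ := fun v hv hv1 => by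
        by_contra e'
        have hn : ⊤ ≤ 𝐍 (N ⊓ centralizer {v}) := hVL.ge.trans (sup_le (norm_inf norm_of_normal
          (norm_of_le (le_cent_of_mem (ea_le_cent hV hv))))
          (norm_of_centralizer (hLN.trans (centralizer_anti inf_le_left))))
        have := main _ (normal_iff_top_le.2 hn) ((hLN.trans (centralizer_anti inf_le_left)).trans le_sup_right) e'
        exact hv1 (mem_bot.1 (hZ.le (mem_center_iff.2 fun g => mem_centralizer_singleton_iff.1
          (sup_le (le_cent_of_mem (ea_le_cent hV hv)) inf_le_right (this.ge (mem_top g))))))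
      obtain ⟨y, hy, hy1⟩ := exists_ne_one_of_ne_bot hN1
      obtain ⟨w, a, b, c⟩ := hS y v hv (Nat.coprime_two_right.1 (CA.PLoc.coprime_orderOf_of_mem
        (by rw [← FL_top]; exact coprime_FL (by rwa [pCoreOf_top])) (mem_inf.1 hy).1))
        (inverts_of_fpf (mul_self_of_ea hV hv) (norm_of_normal (mem_top v)) (key v hv hv1) hy)
      exact hy1 ((key w a b).le (mem_inf.2 ⟨hy, mem_centralizer_singleton_iff.2 c.symm⟩))
    have hLE : L = layer G := CA.Fstar.fstar_eq_layer_of_fitting_eq_bot hF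
    obtain ⟨K, hK⟩ := CA.Comp.exists_comp_of_layer_ne_bot (G := G) fun e => by
      rw [hLE, e, sup_bot_eq] at hVL
      rw [← pCoreOf_top, ← hVL, pCoreOf_eq_self hV2] at hO; exact hV1 hO
    have hKL : K ≤ L := CA.Fstar.comp_le_fstar hK
    have hKZ : K ⊓ 𝐂 K = ⊥ := le_bot_iff.1 ((CA.Comp.comp_inf_centralizer_le_fitting hK).trans hF.le)
    have hLK : L ≤ 𝐍 K := CA.Fstar.fstar_le_normalizer_comp hK
    have hcj : ∀ g, g ∉ 𝐍 K → cj g K ≤ 𝐂 K := fun g hg =>
      CA.Comp.comp_le_centralizer_of_ne (CA.Comp.comp_map_conj hK g) hK fun e' => hg (cj_eq_self_iff.1 e')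
    have hKn : K.Normal := by
      refine normal_iff_top_le.2 (hVL.ge.trans (sup_le (fun v hv => ?_) hLK))
      by_contra hvn
      have hNL : ncl K ⊤ = L := by
        have hn : (ncl K ⊤).Normal := normal_iff_top_le.2 (norm_ncl K ⊤)
        have h1 := main _ hn (hLE.le.trans (CA.Comp.layer_le fun K' hK' =>
          (CA.Comp.comp_le_or_le_centralizer hK' hn.isSubnormal).elim (fun e => e.trans le_sup_left)
            fun e => e.trans le_sup_right)) fun e => CA.Comp.comp_ne_bot hK (le_bot_iff.1 ((le_ncl K ⊤).trans e.le))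
        exact le_antisymm (ncl_le hKL norm_of_normal) (hLE.le.trans ((le_res_of_perfect (p := 2) CA.Comp.layer_perfect
          le_top).trans (res_le_of_le_sup hV2 norm_of_normal h1.ge)))
      by_cases hB : V ⊓ 𝐍 K = ⊥
      · have hB' : ∀ u ∈ V, u ≠ 1 → cj u K ≤ 𝐂 K := fun u hu h1 =>
          hcj u fun e => h1 (hB.le (mem_inf.2 ⟨hu, e⟩))
        have hv1 : v ≠ 1 := fun e => hvn (e ▸ one_mem _)
        obtain ⟨k, hk, hk1⟩ := exists_ne_one_of_ne_bot (K := pResidualOf 2 K) (by
          rw [res_eq_of_perfect (CA.Comp.comp_perfect hK)]; exact CA.Comp.comp_ne_bot hK)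
        obtain ⟨k, hk, ok, hk1⟩ : ∃ k ∈ K, Odd (orderOf k) ∧ k ≠ 1 := by
          by_contra e
          push Not at e
          exact hk1 (res_le_iff.2 (fun g hg h => mem_bot.2 (e g hg (Nat.coprime_two_right.1 h))) hk)
        have hv2 := mul_self_of_ea hV hv
        have hc := mem_centralizer_sub.1 (hB' v hv hv1 (conj_mem_cj.2 (inv_mem hk))) k hk
        have hinv : v * (k * (v * k⁻¹ * v⁻¹)) * v⁻¹ = (k * (v * k⁻¹ * v⁻¹))⁻¹ := by
          have : v * (k * (v * k⁻¹ * v⁻¹)) * v⁻¹ = v * k * v⁻¹ * (v * v) * k⁻¹ * (v * v)⁻¹ := by group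
          rw [this, hv2]; group
        have ho := odd_mul ok (odd_conj (by rwa [orderOf_inv]) v) hc
        obtain ⟨w, a, b, c⟩ := hS _ v hv ho hinv
        replace c := mul_inv_eq_iff_eq_mul.2 c
        refine hk1 (hKZ.le (mem_inf.2 ⟨hk, ?_⟩))
        by_cases e : w = v
        · subst e
          have := eq_one_of_inv ho (c.symm.trans hinv)
          rw [eq_inv_of_mul_eq_one_left this]
          exact inv_mem (hB' w a b (conj_mem_cj.2 (inv_mem hk)))
        · have : k = w * k * w⁻¹ * (w * v * k⁻¹ * (w * v)⁻¹) * (v * k * v⁻¹) := by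
            calc k = k * (v * k⁻¹ * v⁻¹) * (v * k * v⁻¹) := by group
              _ = _ := by rw [← c]; group
          rw [this]
          exact mul_mem (mul_mem (hB' w a b (conj_mem_cj.2 hk)) (hB' _ (mul_mem a hv) (fun e' => e
            ((eq_inv_of_mul_eq_one_left e').trans (eq_inv_of_mul_eq_one_left hv2).symm))
            (conj_mem_cj.2 (inv_mem hk)))) (hB' v hv hv1 (conj_mem_cj.2 hk))
      · have h1 := sub ((V ⊓ 𝐍 K) ⊔ K) _ K (fun e => hvn (sup_le inf_le_right le_normalizer (e.ge (mem_top v))))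
          le_sup_left inf_le_left hB (sidki_subgroupOf fun x hx u hu _ h1 h2 => by
            have hxK : x ∈ K := res_le_of_le_sup (hV2.to_le inf_le_left) inf_le_right le_rfl
              (mem_res hx (Nat.coprime_two_right.2 h1))
            by_cases e : x = 1
            · obtain ⟨w, a, b⟩ := exists_ne_one_of_ne_bot hB
              exact ⟨w, a, mem_sup_left a, b, by rw [e]; simp⟩
            obtain ⟨w, a, b, c⟩ := hS x u (mem_inf.1 hu).1 h1 h2
            have hw : w ∈ V ⊓ 𝐍 K := mem_inf.2 ⟨a, by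
              by_contra e'
              exact e (hKZ.le (mem_inf.2 ⟨hxK, hcj w e' (by
                rw [← mul_inv_eq_iff_eq_mul.2 c]; exact conj_mem_cj.2 hxK)⟩))⟩
            exact ⟨w, hw, mem_sup_left hw, b, c⟩)
          le_sup_right (sup_le inf_le_right le_normalizer) (hO' K (sn_top_iff.2 hK.1))
        refine h1 (le_bot_iff.1 (le_trans (le_inf (inf_le_left.trans inf_le_left) ?_) hCL.le))
        refine cent_symm (hNL.ge.trans (ncl_le_iff.2 fun g _ => ?_))
        obtain ⟨u, hu, l, hl, rfl⟩ := (mem_sup_of_norm norm_of_normal).1 (hVL.ge (mem_top g))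
        rw [← cj_cj, cj_eq_self (hLK hl)]
        exact cj_le_of_le (cent_symm inf_le_right) (norm_centralizer (norm_of_centralizer
          ((ea_le_cent hV).trans (centralizer_anti (inf_le_left.trans inf_le_left)))) hu)
    have hKL' : L = K := le_antisymm (hLE.le.trans ((le_res_of_perfect (p := 2) CA.Comp.layer_perfect
      le_top).trans (res_le_of_le_sup hV2 norm_of_normal (main K hKn (hLE.le.trans (CA.Comp.layer_le fun K' hK' =>
          (CA.Comp.comp_le_or_le_centralizer hK' hKn.isSubnormal).elim (fun e => e.trans le_sup_left)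
            fun e => e.trans le_sup_right)) (CA.Comp.comp_ne_bot hK)).ge))) hKL
    refine ⟨?_, ?_, hVL⟩ <;> rw [hKL']
    · rw [← map_subtype_center] at hKZ
      exact CA.Quasi.simple_of_qs_of_center_eq_bot hK.2
        ((Subgroup.map_eq_bot_iff_of_injective _ K.subtype_injective).1 hKZ)
    · exact fun e => CA.Quasi.qs_not_isSolvable hK.2 (CA.Core.isSolvable_of_isMulCommutative e))

end Cfsg.Agent.S3048
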