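import Cfsg.Statements.S3049
import Cfsg.Agent.Lib.Loc.AmbChar
import Cfsg.Agent.Lib.Loc.AmbIso
import Cfsg.Agent.Lib.Grp.Bal
-- import your own Cfsg.Agent.* helpers here

set_option autoImplicit false
open Cfsg

namespace Cfsg.Agent.S3049

/-- Let G be a finite group and p an odd prime with O_{p'}(G) = 1. Suppose that G has p-rank at most 2 (no elementary abelian subgroup of order p³) and that some element x of order p is isolated in G (no G-conjugate of x other than x commutes with x) and not central. Then the generalized Fitting subgroup F*(G) is a non-abelian simple group. Since O_{p'}(G) = 1, such an x is not central modulo O_{p'}(G): the hypotheses describe a counterexample to the Z*_p statement in p-rank at most 2. -/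
theorem result {G : Type*} [Group G] [Finite G] {p : ℕ} [Fact p.Prime] (hp : p ≠ 2) (hcore : Cfsg.pPrimeCore p G = ⊥)
    (hrank : Cfsg.PRankLE p 2 G) (x : G) (hx : orderOf x = p) (hiso : Cfsg.IsIsolated x) (hnc : x ∉ Subgroup.center G) :
    IsSimpleGroup ↥(Cfsg.generalizedFittingSubgroup G) ∧ ¬ IsMulCommutative ↥(Cfsg.generalizedFittingSubgroup G) := by
  open Subgroup Cfsg CA.Amb CA.AmbSyl CA.AmbCore CA.AmbRes CA.AmbChar CA.AmbWC CA.AmbSpe CA.AmbRed CA.AmbFs CA.AmbM CA.AmbIso in
  open scoped commutatorElement in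
  (
    have hk := pow_one_of_orderOf hx
    obtain ⟨S, hS, hxS⟩ := exists_sylIn_ge (isPGroup_zpowers hk) (le_top : zpowers x ≤ ⊤)
    replace hxS : x ∈ S := hxS (mem_zpowers x)
    have hSc := Iso.le_cent hiso hS.pg hxS
    have hOS : pCore p G ≤ S := by rw [← pCoreOf_top]; exact pCoreOf_le_syl hS
    have hF := CA.Fstar.fstar_eq_layer_sup_pCore hcore
    have hdvd : ∀ L : Subgroup G, IsComponent L → p ∣ Nat.card L := fun L hL => by
      by_contra e
      exact CA.Comp.comp_ne_bot hL (le_bot_iff.1 ((CA.Core.le_pPrimeCore_of_subnormal hL.1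
        (CA.PRes.coprime_iff_not_dvd.2 e)).trans hcore.le))
    obtain ⟨L, hL, hxL⟩ : ∃ L : Subgroup G, IsComponent L ∧ x ∉ 𝐂 L := by
      by_contra e
      push Not at e
      have h1 : x ∈ pCore p G := CA.Fstar.centralizer_layer_inf_centralizer_pCore_le hcore (mem_inf.2
        ⟨mem_cent_of_le (CA.Comp.layer_le fun K hK => le_cent_of_mem (e K hK)), mem_cent_of_le (hOS.trans hSc)⟩)
      exact hnc (central_of_iso hiso h1 (mem_cent_of_le (hOS.trans hSc)))
    have hLs : SN ⊤ L := sn_top_iff.2 hL.1
    have hT := hLs.sylIn_inf hS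
    have hLp := CA.Comp.comp_perfect hL
    have hxN : x ∈ 𝐍 L := by
      by_contra e
      have h1 : S ⊓ L ≤ 𝐂 L := (le_cj_of_cent inf_le_right (mem_cent_of_le (inf_le_left.trans hSc))).trans
        (CA.Comp.comp_le_centralizer_of_ne (CA.Comp.comp_map_conj hL x) hL fun e' => e (cj_eq_self_iff.1 e'))
      exact hT.not_dvd ((CA.Quasi.prime_dvd_relIndex_centralizer_of_perfect hLp Fact.out (hdvd L hL)).trans
        (relIndex_dvd_of_le h1 L))
    have key : ∀ z ∈ S, z ∈ 𝐂 L → orderOf z ≠ p := by
      intro z hz hzL ho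
      have hzp : z ^ p = 1 := ho ▸ pow_orderOf_eq_one z
      have kk : ∀ c : G, c ^ p = 1 → IsElementaryAbelian p (zpowers c) := fun c hc =>
        ⟨inferInstance, fun y hy => by
          obtain ⟨n, rfl⟩ := mem_zpowers_iff.1 hy
          rw [← zpow_natCast, ← zpow_mul, mul_comm, zpow_mul, zpow_natCast, hc, one_zpow]⟩
      set A := zpowers x ⊔ zpowers z with hA
      have hxz : zpowers x ≤ 𝐂 (zpowers z) := cent_symm (by
        rw [centralizer_zpowers]; exact zpowers_le.2 (hSc hz))
      have hE : IsElementaryAbelian p A := ea_sup (kk x (by rwa [pow_one] at hk)) (kk z hzp) hxz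
      have hAS : A ≤ S := sup_le (zpowers_le.2 hxS) (zpowers_le.2 hz)
      have hzA : zpowers z < A := lt_of_le_of_ne le_sup_right fun e =>
        hxL (zpowers_le.2 hzL (e.ge (mem_sup_left (mem_zpowers x))))
      have grow : ∀ B C : Subgroup G, IsPGroup p C → B < C → p * Nat.card B ≤ Nat.card C := fun B C hC h => by
        rw [← card_mul_relIndex h.le, mul_comm]
        exact Nat.mul_le_mul_left _ (Nat.le_of_dvd (Nat.pos_of_ne_zero (relIndex_ne_zero B C))
          (CA.Coprime2.le_relIndex_of_isPGroup hC h.not_ge))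
      have hΩ : ∀ y ∈ S, y ∈ 𝐂 A → y ^ p = 1 → y ∈ A := fun y hy h1 h2 => by
        by_contra e
        have hE2 := ea_sup (kk y h2) hE (zpowers_le.2 h1)
        have h3 := grow _ _ (ea_pg hE2) (lt_of_le_of_ne le_sup_right fun e' =>
          e (e'.ge (mem_sup_left (mem_zpowers y))))
        have h4 := grow _ _ (ea_pg hE) hzA
        have h5 := hrank _ hE2.1 hE2.2
        rw [Nat.card_zpowers, ho] at h4
        have := (Fact.out : p.Prime).one_lt
        nlinarith
      have hAL : A ≤ 𝐍 L := sup_le (zpowers_le.2 hxN) (norm_of_centralizer (zpowers_le.2 hzL))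
      have hR := sylIn_sup hAL hT (sylIn_self (ea_pg hE)) (hS.pg.to_le (sup_le hAS inf_le_left))
      have hRc : A ⊔ S ⊓ L ≤ 𝐂 A := sup_le (ea_le_cent hE) (cent_symm (sup_le
        (zpowers_le.2 (mem_cent_of_le (inf_le_left.trans hSc)))
        (zpowers_le.2 (centralizer_anti inf_le_right hzL))))
      have hXz : A ⊔ L ≤ 𝐂 (zpowers z) := sup_le ((ea_le_cent hE).trans (centralizer_anti le_sup_right))
        (cent_symm (zpowers_le.2 hzL))
      have hN : HasNormalPComplement p ↥(A ⊔ L) := CA.Hyperfocal.hasNPC_of_forall_le_in (sylIn_iff.1 hR)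
        fun Q hQ _ g hg hgQ hc => CA.Fus2.mem_centralizer_of_omega (hR.pg.to_le hQ) hgQ hc fun y hy h => by
          have hy1 := h.resolve_right fun e => hp e.1
          have hQA : ∀ y ∈ Q, y ^ p = 1 → y ∈ A := fun y hy h =>
            hΩ y (sup_le hAS inf_le_left (hQ hy)) (hRc (hQ hy)) h
          by_cases e : y ∈ zpowers z
          · exact mul_inv_eq_iff_eq_mul.2 (mem_centralizer_sub.1 (hXz hg) y e).symm
          · have e1 : zpowers y ⊔ zpowers z = A := by
              refine eq_of_le_of_card_ge (sup_le (zpowers_le.2 (hQA y hy hy1)) le_sup_right) ?_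
              have h3 := grow _ _ ((ea_pg hE).to_le (sup_le (zpowers_le.2 (hQA y hy hy1)) le_sup_right))
                (lt_of_le_of_ne le_sup_right fun e' => e (e'.ge (mem_sup_left (mem_zpowers y))))
              rw [Nat.card_zpowers, ho] at h3
              exact (hrank _ hE.1 hE.2).trans (by rwa [pow_two])
            have e2 : g ∈ 𝐍 A := mem_normalizer_of_cj_le (by
              conv_lhs => rw [← e1, cj_sup, cj_zpowers, cj_eq_self (centralizer_le_normalizer _ (hXz hg))]
              exact sup_le (zpowers_le.2 (hQA _ (conj_mem_of_mem_normalizer hgQ hy) (conj_pow_eq_one hy1 g)))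
                le_sup_right)
            have e3 : g ∈ 𝐂 A := by
              rw [hA, CA.Amb.centralizer_sup, centralizer_zpowers]
              exact mem_inf.2 ⟨Iso.normalizer_le hiso (ea_pg hE) (mem_sup_left (mem_zpowers x)) e2, hXz hg⟩
            exact mul_inv_eq_iff_eq_mul.2 (mem_centralizer_sub.1 e3 y (hQA y hy hy1)).symm
      have h1 := CA.PRes.hasNPC_iff_not_dvd.1 (CA.PRes.hasNPC_of_le hN le_sup_right)
      rw [← CA.Coprime.card_map_subtype, ← pResidualOf_def, res_eq_of_perfect hLp] at h1
      exact h1 (hdvd L hL)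
    have hO : pCore p G = ⊥ := by
      by_contra e
      obtain ⟨z, h1, h2⟩ := exists_orderOf_eq_of_ne_bot (CA.AmbCore.isPGroup_pCore p G) e
      exact key z (hOS h1) (cent_symm ((CA.Comp.le_layer hL).trans (CA.Comp.layer_le_centralizer_pCore p)) h1) h2
    have hE : layer G = L := le_antisymm (CA.Comp.layer_le fun K hK => by
      by_contra e
      have hT' := (sn_top_iff.2 hK.1).sylIn_inf hS
      obtain ⟨z, h1, h2⟩ := exists_orderOf_eq_of_ne_bot hT'.pg (hT'.ne_bot (hdvd K hK))
      exact key z (mem_inf.1 h1).1 (CA.Comp.comp_le_centralizer_of_ne hK hL (fun e' => e e'.le)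
        (mem_inf.1 h1).2) h2) (CA.Comp.le_layer hL)
    rw [hF, hO, hE, sup_bot_eq]
    have hZ : center L = ⊥ := by
      have := CA.Bal.inf_centralizer_le_pCore hcore hL.1
      rw [hO, ← map_subtype_center] at this
      exact (Subgroup.map_eq_bot_iff_of_injective _ L.subtype_injective).1 (le_bot_iff.1 this)
    exact ⟨CA.Quasi.simple_of_qs_of_center_eq_bot hL.2 hZ, fun e =>
      CA.Quasi.qs_not_isSolvable hL.2 (CA.Core.isSolvable_of_isMulCommutative e)⟩)

end Cfsg.Agent.S3049
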