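import Cfsg.Statements.S3050
import Cfsg.Agent.Lib.Lin.Hig3b

set_option autoImplicit false
open Cfsg

namespace Cfsg.Agent.S3050

open Subgroup Matrix
open scoped IsMulCommutative

/-- Let G be a finite group with a normal 2-subgroup Q such that G/Q is isomorphic to SL(2, 2ⁿ) with n ≥ 2, and suppose some element of G of order 3 fixes no nonidentity element of Q under conjugation. Then Q is elementary abelian and is the direct product of normal subgroups of G on each of which G acts as SL(2, 2ⁿ) acts on its natural two-dimensional module (a Galois twist of the natural action allowed). -/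
theorem result {G : Type*} [Group G] [Finite G]
    (Q : Subgroup G) [Q.Normal] (hQ : IsPGroup 2 ↥Q) (n : ℕ) (hn : 2 ≤ n)
    (K : Type*) [Field K] [Fintype K] (hK : Fintype.card K = 2 ^ n)
    (e : G ⧸ Q ≃* Matrix.SpecialLinearGroup (Fin 2) K)
    (x : G) (hx : orderOf x = 3) (hfpf : ∀ q ∈ Q, x * q * x⁻¹ = q → q = 1) :
    Cfsg.IsElementaryAbelian 2 Q ∧
      ∃ (k : ℕ) (V : Fin k → Subgroup G), (∀ i, V i ≤ Q ∧ (V i).Normal ∧
        Cfsg.ActsAsSL2OnSection K ⊤ ⊤ (V i) ⊥) ∧ iSupIndep V ∧ ⨆ i, V i = Q := by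
  have : CharP K 2 := charP_of_card_eq_prime_pow hK
  have h4 : 4 ≤ Nat.card K := by
    rw [Nat.card_eq_fintype_card, hK]; exact Nat.pow_le_pow_right (n := 2) two_pos hn
  let π := e.toMonoidHom.comp (QuotientGroup.mk' Q)
  have hπ : Function.Surjective π := e.surjective.comp (QuotientGroup.mk'_surjective Q)
  obtain ⟨h5, k, θ, hθ⟩ := CA.Hig3.main hQ h4 π hπ (by
      rw [MonoidHom.ker_comp_of_injective _ _ e.injective, QuotientGroup.ker_mk']) (x := x) (hx ▸ pow_orderOf_eq_one x)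
    (fun h => by simp [h] at hx) (eq_bot_iff.2 fun q hq => hfpf q hq.1 (mul_inv_eq_iff_eq_mul.2 (mem_centralizer_singleton_iff.1 hq.2).symm))
  have := h5.1
  let P : Set (Fin k) → Subgroup Q := fun s =>
    { carrier := {v | ∀ j ∈ s, (θ v).toAdd j = 0}
      one_mem' := fun j _ => by simp
      mul_mem' := fun {a b} ha hb j hj => by simp [ha j hj, hb j hj]
      inv_mem' := fun {a} ha j hj => by simp [ha j hj] }
  have hP : ∀ s g v, v ∈ P s → MulAut.conjNormal g v ∈ P s := fun s g v hv j hj => by rw [hθ, hv j hj, mulVec_zero]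
  have hN : ∀ s, ((P s).map Q.subtype).Normal := fun s => ⟨by
    rintro _ ⟨v, hv, rfl⟩ g
    exact ⟨_, hP s g v hv, rfl⟩⟩
  have hs : ∀ i y, θ.symm (.ofAdd (Pi.single i y)) ∈ P {i}ᶜ := fun i y j hj => by
    simp [Pi.single_eq_of_ne (show j ≠ i from hj)]
  refine ⟨h5, k, fun i => (P {i}ᶜ).map Q.subtype, fun i => ⟨map_subtype_le _, hN _, ?_, bot_le, π.comp (Subgroup.subtype ⊤),
    (AddMonoidHom.toMultiplicative (Pi.evalAddMonoidHom (fun _ => Fin 2 → K) i)).comp
      (θ.toMonoidHom.comp (inclusion (map_subtype_le _))), ?_, fun y => ?_, fun v => ?_, fun g v => ?_⟩, fun i => ?_, ?_⟩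
  · have := hN {i}ᶜ
    rw [normalizer_eq_top]
  · exact MonoidHom.range_eq_top.2 (hπ.comp fun g => ⟨⟨g, trivial⟩, rfl⟩)
  · refine ⟨⟨_, _, hs i y.toAdd, rfl⟩, ?_⟩
    change Multiplicative.ofAdd ((θ (θ.symm _)).toAdd i) = y
    simp
  · obtain ⟨_, v, hv, rfl⟩ := v
    change (θ v).toAdd i = 0 ↔ (v : G) = 1
    rw [OneMemClass.coe_eq_one]
    refine ⟨fun h => θ.map_eq_one_iff.1 (funext fun j => ?_), fun h => by simp [h]⟩
    by_cases hj : j = i
    · rw [hj]; exact h
    · exact hv j hj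
  · obtain ⟨_, v, hv, rfl⟩ := v
    exact ⟨⟨_, _, hP _ g v hv, rfl⟩, rfl, hθ g v i⟩
  · have h6 : ⨆ j, ⨆ (_ : j ≠ i), (P {j}ᶜ).map Q.subtype ≤ (P {i}).map Q.subtype :=
      iSup₂_le fun j hj => map_mono fun v hv l hl => hv l (by rw [hl]; exact hj.symm)
    refine Disjoint.mono_right h6 (disjoint_map Q.subtype_injective (disjoint_def.2 fun {v} h1 h2 => θ.map_eq_one_iff.1 (funext fun j => ?_)))
    by_cases hj : j = i
    · exact h2 j hj
    · exact h1 j hj
  · rw [← Subgroup.map_iSup]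
    refine le_antisymm (map_subtype_le _) fun v hv => ⟨⟨v, hv⟩, ?_, rfl⟩
    have : (⟨v, hv⟩ : Q) = ∏ i, θ.symm (.ofAdd (Pi.single i ((θ ⟨v, hv⟩).toAdd i))) := by
      rw [← map_prod, ← ofAdd_sum, Finset.univ_sum_single]; simp
    rw [this]
    exact prod_mem fun i _ => mem_iSup_of_mem i (hs i _)

end Cfsg.Agent.S3050
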