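import Cfsg.Statements.S3053
import Cfsg.Agent.Lib.Loc.AmbChar
import Cfsg.Agent.Lib.Loc.AmbTr
import Cfsg.Agent.Lib.Grp.PGBasic
import Cfsg.Agent.Lib.Grp.PGFrattini
import Cfsg.Agent.Lib.Grp.PGClassTwo
import Cfsg.Agent.Lib.Grp.PGNormalCyclic
-- import your own Cfsg.Agent.* helpers here

set_option autoImplicit false
open Cfsg

namespace Cfsg.Agent.S3053

section Aux
open Subgroup Cfsg CA CA.Amb CA.AmbSyl CA.AmbCore CA.AmbRes CA.AmbChar CA.AmbIso CA.AmbTr
open scoped commutatorElement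

theorem aux1 {P : Type*} [Group P] [Finite P] {p : ℕ} [Fact p.Prime] (hE : IsExtraspecial p P) {x z : P}
    (hx : x ∉ center P) (hz : z ∈ center P) : ∃ a, a * x * a⁻¹ = x * z := by
  obtain ⟨⟨-, -, h3⟩, h4⟩ := hE
  let f := PGClassTwo.commHomRight h3.le x
  have hr : f.range ≤ center P := fun _ ⟨y, hy⟩ => hy ▸ h3.le (PGClassTwo.comm_mem_commutator x y)
  rcases (Fact.out : p.Prime).eq_one_or_self_of_dvd _ (h4 ▸ card_dvd_of_le hr) with h | h
  · refine absurd (mem_center_iff.2 fun g => ?_) hx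
    have : f g ∈ f.range := ⟨g, rfl⟩
    rw [card_eq_one.1 h, mem_bot] at this
    exact (commutatorElement_eq_one_iff_mul_comm.1 this).symm
  · obtain ⟨a, ha⟩ := (PGBasic.eq_of_le_of_card_le hr (by rw [h, h4])).ge (inv_mem hz)
    refine ⟨a, ?_⟩
    rw [← mem_center_iff.1 hz x |>.symm, ← inv_inv z, ← ha, PGClassTwo.commHomRight_apply, commutatorElement_def]
    group

theorem aux2 {P : Type*} [Group P] [Finite P] {p : ℕ} [Fact p.Prime] (hp : p ≠ 2) (hE : IsExtraspecial p P)
    (hcard : Nat.card P = p ^ 3) (hexp : Monoid.exponent P = p ^ 2) {x z : P}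
    (hx : x ∉ center P) (hxp : x ^ p = 1) (hz : z ∈ center P) (hz1 : z ≠ 1) (φ : MulAut P)
    (h1 : φ x = x⁻¹) (h2 : φ z = z⁻¹) : False := by
  have hpp : p.Prime := Fact.out
  have hodd := hpp.odd_of_ne_two hp
  obtain ⟨⟨k1, k2, k3⟩, k4⟩ := hE
  have ho : orderOf z = p := (hpp.eq_one_or_self_of_dvd _ (k4 ▸ orderOf_dvd_natCard _ hz)).resolve_left
    (by rwa [orderOf_eq_one_iff])
  have hZ : zpowers z = center P := PGBasic.eq_of_le_of_card_le (zpowers_le.2 hz) (by rw [k4, Nat.card_zpowers, ho])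
  have hφ : ∀ c ∈ center P, φ c = c⁻¹ := fun c hc => by
    obtain ⟨i, rfl⟩ := hZ.ge hc
    simp [h2]
  obtain ⟨a1, a2⟩ := PGNormalCyclic.four_of_commute hpp ho hxp (hZ ▸ hx) (mem_center_iff.1 hz x).symm
  have hA : IsCoatom (zpowers z ⊔ zpowers x) := PGBasic.isCoatom_of_index_prime hpp (by
    have := (zpowers z ⊔ zpowers x).card_mul_index
    rw [a2, hcard, pow_succ p 2] at this
    exact Nat.eq_of_mul_eq_mul_left (pow_pos hpp.pos _) this)
  obtain ⟨y, hy⟩ : ∃ y : P, y ^ p ≠ 1 := by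
    by_contra! h
    have := Nat.le_of_dvd hpp.pos (hexp ▸ Monoid.exponent_dvd_of_forall_pow_eq_one h)
    nlinarith [hpp.two_le]
  have e1 : closure {u : P | u ^ p = 1} = zpowers z ⊔ zpowers x := ((hA.ne_top_iff_eq fun u hu =>
    Subgroup.subset_closure (a1.2 u hu)).1 fun h =>
      hy (PGClassTwo.pow_eq_one_of_mem_closure k3.le hodd (h ▸ mem_top y)))
  have e2 : centralizer {x} = zpowers z ⊔ zpowers x := ((hA.ne_top_iff_eq (sup_le (zpowers_le.2
    (mem_centralizer_singleton_iff.2 (mem_center_iff.1 hz x).symm)) (zpowers_le.2 (self_mem_cent x)))).1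
      fun h => hx (mem_center_iff.2 fun g => mem_centralizer_singleton_iff.1 (h ▸ mem_top g)))
  have hc : ∀ a b : P, ⁅a, b⁆ ∈ center P := fun a b => k3.le (PGClassTwo.comm_mem_commutator a b)
  have hc' : ∀ a b c : P, Commute c ⁅a, b⁆ := fun a b c => PGClassTwo.commute_of_mem_center (hc a b) c
  have hcp : ∀ c ∈ center P, c ^ p = 1 := fun c h => orderOf_dvd_iff_pow_eq_one.1 (k4 ▸ orderOf_dvd_natCard _ h)
  have hu : (y * φ y) ^ p = 1 := by
    rw [PGClassTwo.mul_pow_odd (hc' _ _ _) (hc' _ _ _) hodd (hcp _ (hc _ _)), ← map_pow,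
      hφ _ (k2 ▸ PGFrattini.pow_mem_frattini k1 y), mul_inv_cancel]
  have hu2 : ⁅y * φ y, x⁆ = 1 := commutatorElement_eq_one_iff_mul_comm.2
    (mem_centralizer_singleton_iff.1 (e2.ge (e1.le (Subgroup.subset_closure hu))))
  have e3 : ⁅φ y, x⁆ = ⁅y, x⁆ := by
    have := hφ _ (hc y x⁻¹)
    rw [map_commutatorElement, map_inv, h1, inv_inv, ← zpow_neg_one x,
      PGClassTwo.comm_zpow_right (hc' _ _ _)] at this
    simpa using this
  rw [PGClassTwo.comm_mul_left (hc' _ _ _), e3, ← sq] at hu2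
  have := pow_gcd_eq_one.2 ⟨hu2, hcp _ (hc y x)⟩
  rw [(Nat.coprime_two_left.2 hodd).gcd_eq_one, pow_one, commutatorElement_eq_one_iff_mul_comm] at this
  exact hy (a1.2 y (e2.le (mem_centralizer_singleton_iff.2 this)))

end Aux

/-- Let p be an odd prime and G a finite group with a Sylow p-subgroup P that is extraspecial of order p³ and exponent p². Then the centre of P is strongly closed in P with respect to G: a G-conjugate of an element of Z(P) that lies in P already lies in Z(P). In particular a nontrivial central element of P is conjugate in G to no noncentral element of P. -/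
theorem result {G : Type*} [Group G] [Finite G]
    {p : ℕ} [Fact p.Prime] (hp : p ≠ 2) (P : Sylow p G) (hE : Cfsg.IsExtraspecial p ↥P)
    (hcard : Nat.card P = p ^ 3) (hexp : Monoid.exponent ↥P = p ^ 2) :
    Cfsg.IsStronglyClosed ((Subgroup.center ↥P).map (P : Subgroup G).subtype) (P : Subgroup G) := by
  open Subgroup Cfsg CA CA.Amb CA.AmbSyl CA.AmbCore CA.AmbRes CA.AmbChar CA.AmbIso CA.AmbTr in
  open scoped commutatorElement in
  (
    replace hE : IsExtraspecial p (P : Subgroup G) := hE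
    change IsStronglyClosed ((center (P : Subgroup G)).map (P : Subgroup G).subtype) _
    refine ⟨map_subtype_le _, ?_⟩
    rintro _ ⟨z, hz, rfl⟩ g hg
    replace hz : z ∈ center _ := hz
    by_contra hx
    have hz1 : z ≠ 1 := by rintro rfl; exact hx (by simpa using one_mem _)
    have hzd : orderOf z ∣ p := (orderOf_dvd_natCard _ hz).trans hE.2.dvd
    have hzp : (z : G) ^ p = 1 := congrArg Subtype.val (orderOf_dvd_iff_pow_eq_one.1 hzd)
    have hzc : (P : Subgroup G) ≤ centralizer {(z : G)} := fun y hy =>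
      mem_centralizer_singleton_iff.2 (congrArg Subtype.val (mem_center_iff.1 hz ⟨y, hy⟩))
    simp only [Subgroup.coe_subtype] at hg hx
    obtain ⟨x, hxd⟩ : ∃ x, x = g * z * g⁻¹ := ⟨_, rfl⟩
    rw [← hxd] at hx hg
    have hx' : (⟨_, hg⟩ : (P : Subgroup G)) ∉ center _ := fun h => hx ⟨_, h, rfl⟩
    have hxz : x * z = z * x := mem_centralizer_singleton_iff.1 (hzc hg)
    set A := zpowers (z : G) ⊔ zpowers x with hAd
    have hAP : A ≤ P := sup_le (zpowers_le.2 z.2) (zpowers_le.2 hg)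
    obtain ⟨c, c1, c2⟩ := (((sylIn_top P).conj_mem (mem_top g)).mono (K := centralizer {x})
      (hxd ▸ cj_centralizer_singleton g z ▸ cj_mono g hzc) le_top).exists_le_conj (P.isPGroup'.to_le hAP)
      (sup_le (zpowers_le.2 (mem_centralizer_singleton_iff.2 hxz.symm)) (zpowers_le.2 (self_mem_cent x)))
    rw [cj_cj] at c2
    have hh : c * g * z * (c * g)⁻¹ = x := by rw [← mem_cent_iff.1 c1, hxd]; group
    generalize c * g = h at *
    have hxp : x ^ p = 1 := hxd ▸ conj_pow_eq_one hzp g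
    have z1 := mem_cj.1 (c2 (mem_sup_left (mem_zpowers _)))
    have hpp : p.Prime := Fact.out
    have ho : orderOf z = p := (hpp.eq_one_or_self_of_dvd _ hzd).resolve_left
      (by rwa [orderOf_eq_one_iff])
    have hZ : zpowers z = center _ :=
      PGBasic.eq_of_le_of_card_le (zpowers_le.2 hz) (by rw [hE.2, Nat.card_zpowers, ho])
    have z2 : (⟨_, z1⟩ : (P : Subgroup G)) ∉ center _ := fun h1 => by
      obtain ⟨i, hi⟩ := hZ.ge h1
      replace hi : (z : G) ^ i = h⁻¹ * z * h := by simpa using congrArg Subtype.val hi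
      have h2 : zpowers (z : G) ≤ cj h (zpowers (z : G)) := zpowers_le.2 (mem_cj.2 ⟨i, hi⟩)
      obtain ⟨j, hj⟩ := conj_mem_of_mem_normalizer (mem_normalizer_of_le_cj h2) (mem_zpowers _)
      exact hx' (hZ.le ⟨j, Subtype.ext (by simpa [hh] using hj)⟩)
    obtain ⟨a, ha⟩ := aux1 hE hx' hz
    obtain ⟨b, hb⟩ := aux1 hE z2 (inv_mem hz)
    replace ha : (a : G) * x * (a : G)⁻¹ = x * z := congrArg Subtype.val ha
    replace hb : (b : G) * (h⁻¹ * z * h) * (b : G)⁻¹ = h⁻¹ * z * h * (z : G)⁻¹ := congrArg Subtype.val hb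
    have ha' : (a : G) * z * (a : G)⁻¹ = z := mem_cent_iff.1 (hzc a.2)
    have b1 : MulAut.conj (h * b * h⁻¹) x = x := by
      rw [MulAut.conj_apply, ← hh, show h * b * h⁻¹ * (h * z * h⁻¹) * (h * b * h⁻¹)⁻¹ = h * (b * z * (b : G)⁻¹) * h⁻¹ by
        group, mem_cent_iff.1 (hzc b.2)]
    have b2 : MulAut.conj (h * b * h⁻¹) z = z * x⁻¹ := by
      rw [MulAut.conj_apply, show h * b * h⁻¹ * z * (h * b * h⁻¹)⁻¹ = h * (b * (h⁻¹ * z * h) * (b : G)⁻¹) * h⁻¹ by
        group, hb, ← hh]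
      group
    generalize h * b * h⁻¹ = b' at *
    rw [← MulAut.conj_apply] at ha ha'
    have w1 : MulAut.conj (a * b' * a) x = z := by
      simp only [map_mul, MulAut.mul_apply, ha, ha', b1, b2, map_inv]
      rw [mul_inv_rev, mul_inv_cancel_left, hxz, mul_inv_cancel_right]
    have w2 : MulAut.conj (a * b' * a) z = x⁻¹ := by
      simp only [map_mul, MulAut.mul_apply, ha, ha', b1, b2, map_inv]
      group
    generalize (a : G) * b' * a = w at *
    have v1 : MulAut.conj (w * w) x = x⁻¹ := by rw [map_mul, MulAut.mul_apply, w1, w2]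
    have v2 : MulAut.conj (w * w) z = (z : G)⁻¹ := by rw [map_mul, MulAut.mul_apply, w2, map_inv, w1]
    generalize w * w = v at *
    have hAc : IsMulCommutative A := by
      refine H6Basic.isMulCommutative_sup inferInstance inferInstance ?_
      rw [centralizer_zpowers, zpowers_le]
      exact mem_centralizer_singleton_iff.2 hxz.symm
    have hv : ∀ u ∈ A, v * u * v⁻¹ = u⁻¹ := fun u hu => by
      obtain ⟨_, ⟨i, rfl⟩, _, ⟨j, rfl⟩, rfl⟩ := (mem_sup_of_norm (norm_of_centralizer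
        (le_sup_left.trans (A.le_centralizer.trans (centralizer_anti le_sup_right))))).1 hu
      rw [← MulAut.conj_apply, map_mul, map_zpow, map_zpow, v1, v2, inv_zpow, inv_zpow, ← mul_inv_rev,
        ((Commute.zpow_zpow hxz j i).eq)]
    have hvA : v ∈ 𝐍 A := H6Basic.mem_normalizer_of_conj_mem fun u hu => hv u hu ▸ inv_mem hu
    have hPA : (P : Subgroup G) ≤ 𝐍 A := norm_of_commutator_le ((commutator_mono hAP le_rfl).trans (by
      rw [← map_subtype_commutator, hE.1.2.2, ← hZ, MonoidHom.map_zpowers]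
      exact le_sup_left))
    have hvK : v ∈ 𝐍 ((P : Subgroup G) ⊔ 𝐂 A) := by
      refine mem_normalizer_of_cj_le ?_
      rw [cj_sup, cj_eq_self (normalizer_le_normalizer_centralizer _ hvA)]
      refine sup_le (cj_le_iff'.2 fun y hy => ?_) le_sup_right
      rw [show v * y * v⁻¹ = y * (y⁻¹ * (v * y * v⁻¹)) by group]
      refine mul_mem_sup hy fun u hu => ?_
      have e1 := hv _ (inv_conj_mem_of_mem_normalizer hvA hu)
      have e2 := hv _ (conj_mem_of_mem_normalizer (hPA hy) (inv_conj_mem_of_mem_normalizer hvA hu))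
      have e3 : v⁻¹ * u * v = u⁻¹ := by rw [← inv_inv (v⁻¹ * u * v), ← e1]; group
      calc u * (y⁻¹ * (v * y * v⁻¹)) = y⁻¹ * (y * (v⁻¹ * u * v) * y⁻¹)⁻¹ * (v * y * v⁻¹) := by rw [e3]; group
        _ = _ := by rw [← e2]; group
    obtain ⟨k, k1, k2⟩ := (sylIn_of_le P le_sup_left).frattini' (zpowers_le.2 hvK) (mem_zpowers v)
    rw [sup_comm] at k1
    obtain ⟨c', c3, y, y1, rfl⟩ := (mem_sup_of_norm' (norm_centralizer hPA)).1 k1
    have hn : v * c' ∈ 𝐍 (P : Subgroup G) := by
      simpa [mul_assoc] using mul_mem k2 (inv_mem (le_normalizer y1))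
    have hn' : ∀ u ∈ A, v * c' * u * (v * c')⁻¹ = u⁻¹ := fun u hu => by
      rw [← hv u hu, mul_assoc v, ← c3 u hu]; group
    exact aux2 hp hE hcard hexp hx' (Subtype.ext hxp) hz hz1
      ((P : Subgroup G).normalizerMonoidHom ⟨_, hn⟩) (Subtype.ext (hn' _ (mem_sup_right (mem_zpowers _))))
      (Subtype.ext (hn' _ (mem_sup_left (mem_zpowers _)))))

end Cfsg.Agent.S3053
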