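import Cfsg.Statements.S3054
import Cfsg.Agent.Lib.Loc.H13Xp

set_option autoImplicit false
open Cfsg

namespace Cfsg.Agent.S3054

open Subgroup CA.BG CA.H7Ext CA.H13Xp

theorem aut {A : Type*} [Group A] [Finite A] {p : ℕ} [hp : Fact p.Prime] (hc : ∀ a b : A, a * b = b * a)
    (he : ∀ a : A, a ^ p = 1) {x z : A} (hz : z ∉ zpowers x) (hx : x ≠ 1) :
    ∃ φ : MulAut A, orderOf φ = p ∧ φ z = z * x := by
  obtain ⟨l, l1, l2, l3⟩ := exists_hom (p := p) (zpowers x)
    (fun a b => by rw [commutatorElement_eq_one_iff_mul_comm.2 (hc a b)]; exact one_mem _)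
    (fun a => by rw [he]; exact one_mem _) hz
  have ad : ∀ s t : ZMod p, x ^ (s + t).val = x ^ s.val * x ^ t.val := fun s t => by
    rw [ZMod.val_add, ← pow_eq_pow_mod _ (he x), pow_add]
  have k : ∀ a (s : ZMod p), l (a * x ^ s.val) = l a := fun a s => by
    rw [l1, l2 _ (pow_mem (mem_zpowers x) _), add_zero]
  let φ : MulAut A :=
    { toFun := fun a => a * x ^ (l a).val
      invFun := fun a => a * x ^ (-l a).val
      left_inv := fun a => by simp only [k, mul_assoc, ← ad]; simp
      right_inv := fun a => by simp only [k, mul_assoc, ← ad]; simp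
      map_mul' := fun a b => by
        simp only [l1, ad, mul_assoc]
        rw [← mul_assoc b, hc b, mul_assoc] }
  have e : φ z = z * x := by
    change z * x ^ (l z).val = _
    rw [l3, ZMod.val_one, pow_one]
  have pw : ∀ (n : ℕ) a, (φ ^ n) a = a * x ^ (n * l a).val := fun n => by
    induction n with
    | zero => simp
    | succ n ih =>
      intro a
      rw [pow_succ', MulAut.mul_apply, ih]
      change _ * x ^ (l _).val = _
      rw [k, mul_assoc, ← ad]
      push_cast
      ring_nf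
  refine ⟨φ, orderOf_eq_prime (MulEquiv.ext fun a => by simp [pw]) fun h => hx ?_, e⟩
  simpa [h] using e

theorem plane {G : Type*} [Group G] [Finite G] {p : ℕ} [hp : Fact p.Prime] {P A : Subgroup G}
    (c : Cov p P (Fin 2 → ZMod p)) (hz : center P = zpowers (c.ζ 1)) (he : ∀ x : P, x ^ p = 1)
    (hA : A ≤ P) (h : ♯A = p ^ 2)
    (hSL : ∀ φ : MulAut A, orderOf φ = p → ∃ g : G, ∀ a : A, (φ a : G) = g * (a : G) * g⁻¹) :
    ∃ x : P, c.π x ≠ 0 ∧ A = (c.pre (Submodule.span (ZMod p) {c.π x})).map P.subtype ∧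
      ∃ g : G, g * c.ζ 1 * g⁻¹ = x := by
  have hc : ∀ a b : A, a * b = b * a := (IsPGroup.isMulCommutative_of_card_eq_prime_sq h).is_comm.comm
  have h1 : (c.ζ 1 : G) ∈ A := by
    by_contra n
    have inj : Function.Injective fun a : A => c.π ⟨a, hA a.2⟩ := fun a b e => by
      obtain ⟨t, ht⟩ := c.π_eq_iff.1 e
      have e1 : (a : G) = b * c.ζ t := congrArg Subtype.val ht
      by_cases t0 : t = 0
      · exact Subtype.ext (by simpa [t0, c.ζ_zero] using e1)
      have e2 := A.pow_mem ((A.mul_mem_cancel_left b.2).1 (e1 ▸ a.2)) (t⁻¹).val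
      rw [← coe_pow, ← c.ζ_nsmul] at e2
      simp [t0] at e2
      exact absurd e2 n
    have sj := (inj.bijective_of_nat_card_le (by simp [h])).2
    have := c.nondeg_iff.2 hz (Pi.single 0 1) fun v => by
      obtain ⟨a, ha⟩ := sj (Pi.single 0 1)
      obtain ⟨b, rfl⟩ := sj v
      rw [← ha]
      exact c.b_eq_zero.2 (Subtype.ext (congrArg A.subtype (hc a b)))
    simpa using congrFun this 0
  obtain ⟨x, hx, x0⟩ : ∃ x : P, x.1 ∈ A ∧ c.π x ≠ 0 := by
    by_contra! n
    have := card_le_of_le' (show A ≤ (c.pre ⊥).map P.subtype from fun a ha => ⟨⟨a, hA ha⟩, n _ ha, rfl⟩)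
    rw [card_subtype, c.card_pre', h, finrank_bot] at this
    have := (Nat.pow_le_pow_iff_right hp.1.one_lt).1 this
    omega
  obtain ⟨φ, e1, e2⟩ := aut (p := p) hc (fun a => Subtype.ext (congrArg P.subtype (he ⟨a, hA a.2⟩)))
    (x := ⟨x, hx⟩) (z := ⟨_, h1⟩) (fun m => by
      obtain ⟨k, hk⟩ := (mem_powers_iff_mem_zpowers.2 m)
      have e : x ^ k = c.ζ 1 := Subtype.ext (congrArg A.subtype hk)
      have := congrArg c.π e
      rw [c.π_pow, c.π_ζ, ← Nat.cast_smul_eq_nsmul (ZMod p), smul_eq_zero_iff_left x0,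
        ZMod.natCast_eq_zero_iff] at this
      obtain ⟨m, rfl⟩ := this
      rw [pow_mul, he, one_pow] at e
      exact one_ne_zero (c.ζ_eq_one.1 e.symm))
    fun e => x0 (by rw [show x = 1 from Subtype.ext (congrArg A.subtype e), c.π_one])
  obtain ⟨g, hg⟩ := hSL φ e1
  have e3 : c.π (c.ζ 1 * x) = c.π x := by rw [c.π_mul, c.π_ζ, zero_add]
  refine ⟨c.ζ 1 * x, e3 ▸ x0, (eq_of_le_of_card_eq ?_ ?_).symm, g, ?_⟩
  · rintro _ ⟨y, hy, rfl⟩
    obtain ⟨s, hs⟩ := Submodule.mem_span_singleton.1 hy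
    obtain ⟨t, rfl⟩ := c.π_eq_iff.1 (show c.π y = c.π (x ^ s.val) by
      rw [← hs, e3, c.π_pow, ← Nat.cast_smul_eq_nsmul (ZMod p), ZMod.natCast_val, ZMod.cast_id', id])
    rw [c.ζ_eq]
    exact A.mul_mem (A.pow_mem hx _) (A.pow_mem h1 _)
  · rw [card_subtype, c.card_pre', h, e3, finrank_span_singleton x0]
  · rw [← hg ⟨_, h1⟩, e2]
    rfl

/-- Let p be an odd prime and G a finite group with a Sylow p-subgroup P that is extraspecial of order p³ and exponent p. Suppose P contains three distinct subgroups A of order p² (each is elementary abelian of rank 2) such that every automorphism of A of order p is induced by conjugation by an element of G; equivalently the automorphism group induced on A by its normalizer contains the special linear group of A. Then p ≤ 13. -/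
theorem result {G : Type*} [Group G] [Finite G]
    {p : ℕ} [Fact p.Prime] (hp : p ≠ 2) (P : Sylow p G) (hE : Cfsg.IsExtraspecial p ↥P)
    (hcard : Nat.card P = p ^ 3) (hexp : Monoid.exponent ↥P = p)
    (A : Fin 3 → Subgroup G) (hA : Function.Injective A) (hAP : ∀ i, A i ≤ (P : Subgroup G))
    (hAcard : ∀ i, Nat.card ↥(A i) = p ^ 2)
    (hSL : ∀ i, ∀ φ : MulAut ↥(A i), orderOf φ = p → ∃ g : G, ∀ a : ↥(A i), (φ a : G) = g * (a : G) * g⁻¹) :
    p ≤ 13 := by
  by_contra! h
  obtain ⟨c, hz⟩ := exists_cov hE hcard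
  choose x x0 hx g hg using fun i => plane c hz (fun x => (congrArg (x ^ ·) hexp).symm.trans
    (Monoid.pow_exponent_eq_one x))
    (hAP i) (hAcard i) (hSL i)
  have := main' c (syl_top Fact.out P) hz (by omega) (I := Fin 3) (by simp) x x0
    (fun i j hij t e => hij (hA ?_)) fun i => ⟨g i, hg i⟩
  · omega
  rw [hx i, hx j, e, Submodule.span_singleton_smul_eq
    (IsUnit.mk0 t fun t0 => x0 j (by rw [e, t0, zero_smul]))]

end Cfsg.Agent.S3054
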