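import Cfsg.Statements.S3055
import Cfsg.Agent.Lib.Loc.H13Xp

set_option autoImplicit false
open Cfsg

namespace Cfsg.Agent.S3055

open Subgroup CA.BG CA.H7Ext CA.H13Xp

/-- Let p be an odd prime and G a finite group with a Sylow p-subgroup P that is extraspecial of order p³ and exponent p. If all nonidentity elements of P are conjugate in G, then p ≤ 7. -/
theorem result {G : Type*} [Group G] [Finite G]
    {p : ℕ} [Fact p.Prime] (hp : p ≠ 2) (P : Sylow p G) (hE : Cfsg.IsExtraspecial p ↥P)
    (hcard : Nat.card P = p ^ 3) (hexp : Monoid.exponent ↥P = p)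
    (hconj : ∀ x y : ↥P, x ≠ 1 → y ≠ 1 → ∃ g : G, g * (x : G) * g⁻¹ = (y : G)) :
    p ≤ 7 := by
  by_contra! h
  have h11 : 11 ≤ p := by
    have := (Fact.out : p.Prime)
    by_contra! h'
    interval_cases p <;> norm_num at this
  obtain ⟨c, hz⟩ := exists_cov hE hcard
  let v : Option (ZMod p) → Fin 2 → ZMod p := fun o => o.elim ![0, 1] fun t => ![1, t]
  have v0 : ∀ o, v o ≠ 0 := fun o e => by
    rcases o with _ | t
    exacts [one_ne_zero (congrFun e 1), one_ne_zero (congrFun e 0)]
  have := main' c (syl_top Fact.out P) hz h11 (I := Option (ZMod p)) (by simp; omega) (fun o => c.s (v o))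
    (fun o => by rw [c.π_s]; exact v0 o) (fun i j hij t e => by
      rw [c.π_s, c.π_s] at e
      have a := congrFun e 0
      have b := congrFun e 1
      rcases i with _ | i <;> rcases j with _ | j <;> simp [v] at a b hij
      · rw [← a, zero_mul] at b; exact one_ne_zero b
      · rw [← a, one_mul] at b; exact hij b.symm) fun o =>
    hconj _ _ (fun e => one_ne_zero (c.ζ_eq_one.1 e)) fun e => v0 o (by rw [← c.π_s (v o), e, c.π_one])
  simp at this
  omega

end Cfsg.Agent.S3055
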