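import Cfsg.Statements.S3057
import Cfsg.Agent.Lib.Loc.AmbChar
import Cfsg.Agent.Lib.Loc.AmbIso
import Cfsg.Agent.Lib.Grp.H12PSolv
-- import your own Cfsg.Agent.* helpers here

set_option autoImplicit false
open Cfsg

namespace Cfsg.Agent.S3057

/-- Let p be a prime and G a finite p-solvable group of order divisible by p, with Sylow p-subgroup P. Then the Sylow p-subgroups of G fail to be chain-connected through nontrivial intersections (equivalently, G has a strongly p-embedded subgroup) if and only if O_p(G) = 1 and P is cyclic or, for p = 2, generalized quaternion. -/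
theorem result {G : Type*} [Group G] [Finite G]
    (p : ℕ) [Fact p.Prime] (hdiv : p ∣ Nat.card G) (hsol : Cfsg.IsPSolvable p G) (P : Sylow p G) :
    ¬ Cfsg.IsSylowChainConnected p G ↔
      Cfsg.pCore p G = ⊥ ∧ (IsCyclic ↥P ∨ (p = 2 ∧ ∃ n : ℕ, Nonempty (↥P ≃* QuaternionGroup (2 ^ n)))) := by
  open Subgroup Cfsg CA.Amb CA.AmbSyl CA.AmbCore CA.AmbRes CA.AmbChar CA.AmbWC CA.AmbSpe CA.AmbRed CA.AmbFs CA.AmbM CA.AmbIso in
  open scoped commutatorElement in
  (
    rw [not_chain_iff]
    have hS := sylIn_top P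
    constructor
    · rintro ⟨M, hM⟩
      have hO := hM.pCoreOf_eq_bot
      rw [pCoreOf_top] at hO
      refine ⟨hO, cyc_or_quat_of_rank P.2 fun A h1 hA => ?_⟩
      by_contra hc
      have hnc : ¬ IsCyclic A := fun e => by
        obtain ⟨⟨a, ha⟩, e⟩ := e.exists_generator
        refine hc ?_
        rw [← orderOf_eq_card_of_forall_mem_zpowers e, ← orderOf_coe]
        exact Nat.le_of_dvd (Fact.out : p.Prime).pos (orderOf_dvd_of_pow_eq_one (hA.2 a ha))
      obtain ⟨T, hT⟩ := exists_sylIn p M
      obtain ⟨g, -, hg⟩ := (hM.sylIn hT).exists_le_conj (ea_pg hA) le_top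
      have hM' := hM.conj g
      rw [cj_top] at hM'
      have hAM : A ≤ cj g M := hg.trans (cj_mono g hT.le)
      have h2 : pPrimeCore p G ≤ cj g M := CA.Coprime2.le_of_forall_centralizer_singleton hA.1 hnc
        norm_of_normal (coprime_card_of_isPGroup (ea_pg hA) CA.Core.coprime_pPrimeCore).symm
        fun a ha h1 => (inf_le_inf_right _ le_top).trans (hM'.cent_le (k := 1)
          (by rw [pow_one]; exact hA.2 a ha) h1 (hAM ha))
      have h3 := hM'.map (QuotientGroup.mk' (pPrimeCore p G)) (by
        rw [top_inf_eq, QuotientGroup.ker_mk']; exact h2)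
      rw [map_top_of_surjective _ (QuotientGroup.mk'_surjective _)] at h3
      have h4 := h3.pCoreOf_eq_bot
      rw [pCoreOf_top] at h4
      have := CA.H12PSolv.core_ne_bot (CA.H12PSolv.psolv_quotient hsol (pPrimeCore p G))
        (M := ⊤) (ne_bot_of_gt h3.lt)
      rw [h4, CA.Core.pPrimeCore_quotient_pPrimeCore, inf_bot_eq] at this
      exact this.elim (fun e => e rfl) fun e => e rfl
    · rintro ⟨hO, h⟩
      have hU : Uniq p (P : Subgroup G) := by
        rcases h with h | ⟨-, n, ⟨e⟩⟩
        · exact uniq_of_isCyclic h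
        · exact (uniq_of_quaternion P.2 e).2
      exact ⟨_, hU.spe hS (hS.ne_bot (by rwa [card_top])) (by rwa [pCoreOf_top])⟩)

end Cfsg.Agent.S3057
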