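import Cfsg.Statements.S3058
import Cfsg.Agent.Lib.Loc.AmbChar
import Cfsg.Agent.Lib.Loc.AmbIso
import Cfsg.Agent.Lib.Grp.PLoc
-- import your own Cfsg.Agent.* helpers here

set_option autoImplicit false
open Cfsg

namespace Cfsg.Agent.S3058

/-- Let p be a prime and G a finite group whose Sylow p-subgroups are not chain-connected through nontrivial intersections (so G has a strongly p-embedded subgroup). If N and M are normal subgroups of G whose orders are both divisible by p, then the order of N ∩ M is divisible by p. Consequently, among the normal subgroups of G whose order is divisible by p there is a smallest one (the intersection of all of them). -/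
theorem result {G : Type*} [Group G] [Finite G]
    (p : ℕ) [Fact p.Prime] (hG : ¬ Cfsg.IsSylowChainConnected p G)
    (N M : Subgroup G) [N.Normal] [M.Normal] (hN : p ∣ Nat.card N) (hM : p ∣ Nat.card M) :
    p ∣ Nat.card ↥(N ⊓ M) := by
  open Subgroup Cfsg CA.Amb CA.AmbSyl CA.AmbCore CA.AmbRes CA.AmbChar CA.AmbWC CA.AmbSpe CA.AmbRed CA.AmbFs CA.AmbM CA.AmbIso in
  open scoped commutatorElement in
  (
    obtain ⟨H, hH⟩ := not_chain_iff.1 hG
    by_contra hc
    obtain ⟨T, hT⟩ := exists_sylIn p H
    have hS := hH.sylIn hT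
    have h1 := hS.inf_norm le_top (norm_of_normal (H := N))
    have h2 := hS.inf_norm le_top (norm_of_normal (H := M))
    have h3 : ⁅T ⊓ N, T ⊓ M⁆ = ⊥ := eq_bot_of_not_dvd (hT.pg.to_le (comm_le_of_le inf_le_left inf_le_left))
      ((commutator_mono inf_le_right inf_le_right).trans (commutator_le_inf N M)) hc
    obtain ⟨a, ha, ha1⟩ := exists_orderOf_eq_of_ne_bot h1.pg (h1.ne_bot hN)
    obtain ⟨b, hb, hb1⟩ := exists_orderOf_eq_of_ne_bot h2.pg (h2.ne_bot hM)
    have hab : a * b = b * a := mem_centralizer_sub.1 (commutator_eq_bot_iff'.1 h3 hb) a ha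
    have hcop : (Nat.card ↥(N ⊓ M)).Coprime p := CA.PRes.coprime_iff_not_dvd.2 hc
    set A := zpowers a ⊔ zpowers b with hA
    have hAT : A ≤ T := sup_le (zpowers_le.2 (mem_inf.1 ha).1) (zpowers_le.2 (mem_inf.1 hb).1)
    have hE : IsElementaryAbelian p A := by
      have k : ∀ c : G, orderOf c = p → IsElementaryAbelian p (zpowers c) := fun c hc =>
        ⟨inferInstance, fun y hy => by rw [← hc]; exact orderOf_dvd_iff_pow_eq_one.1 (orderOf_dvd_of_mem_zpowers hy)⟩
      exact ea_sup (k a ha1) (k b hb1) (zpowers_le.2 (by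
        rw [centralizer_zpowers]; exact mem_centralizer_singleton_iff.2 hab))
    have hnc : ¬ IsCyclic A := fun e => by
      have := CA.NPC2.eq_of_card_eq_of_isCyclic e (le_sup_left : zpowers a ≤ A) le_sup_right
        (by rw [Nat.card_zpowers, Nat.card_zpowers, ha1, hb1])
      exact hc (dvd_card_iff_exists.2 ⟨a, mem_inf.2 ⟨(mem_inf.1 ha).2,
        zpowers_le.2 (mem_inf.1 hb).2 (this.le (mem_zpowers a))⟩, ha1⟩)
    have h4 : N ⊓ M ≤ H := CA.Coprime2.le_of_forall_centralizer_singleton hE.1 hnc
      norm_of_normal (coprime_card_of_isPGroup (ea_pg hE) hcop).symm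
      fun c hc h1 => (inf_le_inf_right _ le_top).trans (hH.cent_le (k := 1)
        (by rw [pow_one]; exact hE.2 c hc) h1 (hT.le (hAT hc)))
    set f := QuotientGroup.mk' (N ⊓ M) with hf
    have hk : f.ker = N ⊓ M := QuotientGroup.ker_mk' _
    have h5 := hH.map f (by rw [top_inf_eq, hk]; exact h4)
    have ho : ∀ c : G, orderOf c = p → orderOf (f c) = p := fun c hc => by
      rw [CA.PLoc.orderOf_map_of_coprime_ker (k := 1) (by rw [hk]; exact hcop) (by rw [pow_one]; exact hc), hc]
    refine h5.not_le (norm_map f (norm_of_normal (H := M)))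
      (dvd_card_iff_exists.2 ⟨f b, mem_map_of_mem f (mem_inf.1 hb).2, ho b hb1⟩)
      (le_trans (le_inf (map_mono le_top) ?_) (h5.cent_le (pow_one_of_orderOf (ho a ha1))
        (ne_one_of_orderOf (ho a ha1)) (mem_map_of_mem f (hT.le (mem_inf.1 ha).1))))
    refine le_cent_of_mem (commutator_eq_bot_iff'.1 ?_ (mem_map_of_mem f (mem_inf.1 ha).2))
    rw [← map_commutator, Subgroup.map_eq_bot_iff, hk, inf_comm]
    exact commutator_le_inf M N)

end Cfsg.Agent.S3058
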