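import Cfsg.Statements.S3062
import Cfsg.Agent.Lib.Loc.H6DS

set_option autoImplicit false
open Cfsg

set_option linter.unusedVariables false
set_option linter.unusedSimpArgs false
set_option linter.style.haveILetI false

namespace Cfsg.Agent.S3062

open CA CA.H6DS CA.H6Op CA.Amb CA.AmbSyl CA.AmbCore CA.AmbRes CA.AmbChar Subgroup
open CA.H6J hiding Z
open scoped commutatorElement

/-- Let S be a finite p-group, J(S) the subgroup generated by the abelian subgroups of S of largest order and Z(J(S)) its centre. Then Z(S) ≤ D*(S) ≤ Z(J(S)), and every maximal normal abelian subgroup of S contains D*(S). -/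
theorem result {S : Type*} [Group S] [Finite S] {p : ℕ} [Fact p.Prime]
    (hS : IsPGroup p S) :
    Subgroup.center S ≤ Cfsg.dStar S ∧
    Cfsg.dStar S ≤ Cfsg.thompsonSubgroupA S ⊓ Subgroup.centralizer (Cfsg.thompsonSubgroupA S : Set S) ∧
    ∀ A : Subgroup S, A.Normal → IsMulCommutative A →
      (∀ B : Subgroup S, B.Normal → IsMulCommutative B → A ≤ B → B = A) → Cfsg.dStar S ≤ A := by
  rw [dStar_eq, thompsonSubgroupA_eq]
  haveI := hS.isNilpotent
  refine ⟨Z_top.ge.trans (Z_le_DS ⊤), DS_le_ZJ (hS.to_subgroup ⊤), fun A h1 h2 h3 => ?_⟩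
  exact DS_le_of_cent (hS.to_subgroup ⊤) le_top h2 norm_of_normal
    (inf_le_right.trans (PGBasic.centralizer_eq_of_maximal h3).le)

end Cfsg.Agent.S3062
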