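import Cfsg.Statements.S3064
import Cfsg.Agent.Lib.Loc.AmbChar
import Cfsg.Agent.Lib.Loc.AmbIso
import Cfsg.Agent.S0035
import Cfsg.Agent.Lib.Grp.Frob
-- import your own Cfsg.Agent.* helpers here

set_option autoImplicit false
open Cfsg

namespace Cfsg.Agent.S3064

section Aux
open Subgroup Cfsg CA.Amb CA.AmbSyl CA.AmbCore CA.AmbRes CA.AmbChar CA.AmbWC CA.AmbSpe CA.AmbRed CA.AmbFs CA.AmbM CA.AmbIso
open scoped commutatorElement

theorem aux.{v} {p : ℕ} [Fact p.Prime] (n : ℕ) : ∀ {G : Type v} [Group G] [Finite G], Nat.card G ≤ n →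
    ∀ {x : G} {k : ℕ}, x ^ p ^ k = 1 → IsIsolated x →
    (∀ H : Subgroup G, (Nat.card H).Coprime p → x ∈ 𝐍 H → x ∈ 𝐂 H) → x ∈ center G := by
  induction n with
  | zero => intro G _ _ h; exact absurd h (by have := Nat.card_pos (α := G); omega)
  | succ n ih =>
  intro G _ _ hn x k hk hi hb
  have sub : ∀ H : Subgroup G, x ∈ H → H ≠ ⊤ → H ≤ centralizer {x} := fun H hx hH g hg => by
    have := ih (G := H) (by have := CA.H13ZRed.card_lt_of_ne_top hH; omega) (x := ⟨x, hx⟩) (k := k)
      (Subtype.ext hk) (iso_subgroup hi hx) fun K h1 h2 => by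
        have h3 := hb (K.map H.subtype) (by rwa [CA.Coprime.card_map_subtype])
          (norm_map H.subtype le_rfl (mem_map_of_mem _ h2))
        exact mem_centralizer_sub.2 fun y hy =>
          Subtype.ext (mem_centralizer_sub.1 h3 y (mem_map_of_mem _ hy))
    exact mem_centralizer_singleton_iff.2 (congrArg Subtype.val (mem_center_iff.1 this ⟨g, hg⟩))
  have quo : ∀ (N : Subgroup G) [N.Normal], N ≠ ⊥ → (∀ H : Subgroup (G ⧸ N), (Nat.card H).Coprime p →
      x ∈ 𝐍 (H.comap (QuotientGroup.mk' N)) → x ∈ 𝐂 (H.comap (QuotientGroup.mk' N))) →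
      ∀ g, g * x * g⁻¹ * x⁻¹ ∈ N := fun N _ hN h g => by
    have := ih (G := G ⧸ N) (by have := CA.H13ZRed.card_quotient_lt hN; omega)
      (x := QuotientGroup.mk' N x) (k := k) (by rw [← map_pow, hk, map_one])
      (Iso.map hi hk (QuotientGroup.mk'_surjective N)) fun K h1 h2 => by
        have h3 := cent_map (QuotientGroup.mk' N) (zpowers_le.2 (h K h1 (norm_comap _ le_rfl h2)))
          (mem_map_of_mem _ (mem_zpowers x))
        rwa [map_comap_eq_self_of_surjective (QuotientGroup.mk'_surjective N)] at h3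
    rw [← QuotientGroup.eq_one_iff, QuotientGroup.mk_mul, QuotientGroup.mk_mul, QuotientGroup.mk_mul]
    have e := mem_center_iff.1 this g
    rw [QuotientGroup.mk'_apply] at e
    rw [e]; simp
  by_contra hx
  have hO : pPrimeCore p G = ⊥ := by
    by_contra e
    have h1 := quo _ e fun H h1 h2 => hb _ (CA.Core.coprime_card_comap h1 _ (by
      rw [QuotientGroup.ker_mk']; exact CA.Core.coprime_pPrimeCore)) h2
    have h2 := hb _ CA.Core.coprime_pPrimeCore (norm_of_normal (mem_top x))
    refine hx (mem_center_iff.2 fun g => mul_inv_eq_iff_eq_mul.1 (hi g ?_))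
    have h3 := mem_centralizer_sub.1 h2 _ (h1 g)
    show x * (g * x * g⁻¹) = g * x * g⁻¹ * x
    calc x * (g * x * g⁻¹) = x * (g * x * g⁻¹ * x⁻¹) * x := by group
      _ = g * x * g⁻¹ * x := by rw [← h3]; group
  have hZ : center G = ⊥ := by
    by_contra e
    have hZp : center G ≤ pCore p G := by
      have := FL_le_sup (p := p) (⊤ : Subgroup G)
      rw [FL_top, pCoreOf_top, OQ_top, hO, sup_bot_eq] at this
      exact CA.Fitting.center_le_fitting.trans this
    have hZp' := (CA.AmbCore.isPGroup_pCore p G).to_le hZp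
    have h1 := quo _ e fun H h1 h2 => by
      set M := H.comap (QuotientGroup.mk' (center G)) with hM
      have hNM : center G ≤ M := (QuotientGroup.ker_mk' _).ge.trans (ker_le_comap _ H)
      have hS : SylIn p (center G) M := sylIn_of_not_dvd hNM hZp' (by
        have : (center G).relIndex M = Nat.card H := by
          conv_lhs => rw [← QuotientGroup.ker_mk' (center G), ← MonoidHom.comap_bot, hM, relIndex_comap,
            map_comap_eq_self_of_surjective (QuotientGroup.mk'_surjective _), relIndex_bot_left]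
        rw [this]; exact CA.PRes.coprime_iff_not_dvd.1 h1)
      have hc : HasNormalPComplement p M := CA.Fus3.hasNPC_of_le_centralizer (sylIn_iff.1 hS)
        (by rw [← CA.Amb.centralizer_top]; exact centralizer_anti le_top)
      have h3 := hb (pResidualOf p M) (by
        rw [pResidualOf_def, CA.Coprime.card_map_subtype]
        exact CA.PRes.coprime_iff_not_dvd.2 (CA.PRes.hasNPC_iff_not_dvd.1 hc)) (normalizer_le_res p M h2)
      exact mem_cent_of_le (le_of_syl_of_res hS (fun z hz => mem_centralizer_singleton_iff.2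
        (mem_center_iff.1 hz x).symm) (le_cent_of_mem h3))
    refine hx (mem_center_iff.2 fun g => mul_inv_eq_iff_eq_mul.1 (hi g ?_))
    have h3 := mem_center_iff.1 (h1 g) x
    show x * (g * x * g⁻¹) = g * x * g⁻¹ * x
    calc x * (g * x * g⁻¹) = x * (g * x * g⁻¹ * x⁻¹) * x := by group
      _ = g * x * g⁻¹ * x := by rw [h3]; group
  have hC : centralizer ({x} : Set G) ≠ ⊤ := fun e => hx (mem_center_iff.2 fun g =>
    mem_centralizer_singleton_iff.1 (e.ge (mem_top g)))
  have hx1 : x ≠ 1 := fun e => hx (e ▸ one_mem _)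
  have hF : IsFrobeniusComplement (centralizer ({x} : Set G)) :=
    CA.Frob.isFrob_iff.2 ⟨ne_bot_of_mem (self_mem_cent x) hx1, hC, fun g h h1 h2 h3 => by
      have h4 := sub (centralizer {g * h * g⁻¹}) (mem_cent_symm h3) fun e => h2 (conj_eq_one_iff.1
        (mem_bot.1 (hZ.le (mem_center_iff.2 fun y => mem_centralizer_singleton_iff.1 (e.ge (mem_top y))))))
      refine mem_cent_iff.2 (hi g (mem_centralizer_singleton_iff.1 (h4 ?_)).symm)
      rw [← cj_centralizer_singleton]; exact conj_mem_cj.2 (mem_cent_symm h1)⟩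
  obtain ⟨N, -, hN, hc⟩ := Cfsg.Agent.S0035.result _ hF
  have h1 : (Nat.card N).Coprime p := by
    rw [← hc.index_eq_card]
    exact ((CA.Frob.coprime_card_index hF).symm.coprime_dvd_right (dvd_card_of_le (isPGroup_zpowers hk)
      (fun e => hx1 (zpowers_eq_bot.1 e)) (zpowers_le.2 (self_mem_cent x))))
  have h2 := (CA.Core.le_pPrimeCore h1).trans hO.le
  have h3 := hc.sup_eq_top
  rw [le_bot_iff.1 h2, bot_sup_eq] at h3
  exact hC h3

end Aux

/-- Let S be a Sylow p-subgroup of the finite group G and x an element of S such that (i) x is the only G-conjugate of x lying in S, and (ii) x centralizes every subgroup of order prime to p that it normalizes. Then x lies in the centre of G. -/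
theorem result {G : Type*} [Group G] [Finite G] {p : ℕ} [Fact p.Prime]
    (S : Sylow p G) (x : G) (hx : x ∈ S)
    (hU : ∀ g : G, g⁻¹ * x * g ∈ S → g⁻¹ * x * g = x)
    (hb : ∀ H : Subgroup G, (Nat.card H).Coprime p → (∀ h ∈ H, x * h * x⁻¹ ∈ H) → ∀ h ∈ H, x * h = h * x) :
    x ∈ Subgroup.center G := by
  open Subgroup Cfsg CA.Amb CA.AmbSyl CA.AmbCore CA.AmbRes CA.AmbChar CA.AmbWC CA.AmbSpe CA.AmbRed CA.AmbFs CA.AmbM CA.AmbIso in
  open scoped commutatorElement in
  (
    obtain ⟨k, hk⟩ := isPGroup_iff_mem.1 S.2 x hx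
    refine aux _ le_rfl hk (iso_of_sylow (sylIn_top S) hx fun g hg => ?_) fun H h1 h2 =>
      mem_centralizer_sub.2 fun h hh => (hb H h1 (fun y hy => conj_mem_of_mem_normalizer h2 hy) h hh).symm
    simpa using hU g⁻¹ (by rw [inv_inv]; exact hg))

end Cfsg.Agent.S3064
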