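import Cfsg.Statements.S3065
import Cfsg.Agent.Lib.Loc.AmbChar
import Cfsg.Agent.Lib.Loc.LBal
import Cfsg.Agent.S0227
-- import your own Cfsg.Agent.* helpers here

set_option autoImplicit false
open Cfsg

namespace Cfsg.Agent.S3065

/-- Let G be a finite non-abelian simple group with a nontrivial Sylow 2-subgroup S (that is, G has even order). If the automorphism group of S is solvable, then the outer automorphism group Out(G) = Aut(G)/Inn(G) is solvable. -/
theorem result {G : Type*} [Group G] [Finite G] [IsSimpleGroup G]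
    (hG : ¬ IsMulCommutative G) (S : Sylow 2 G) (hS1 : (S : Subgroup G) ≠ ⊥) (hS : Group.IsSolvable (MulAut ↥S)) :
    Group.IsSolvable (Cfsg.Out G) := by
  open Subgroup Cfsg CA CA.Amb CA.AmbSyl CA.AmbCore CA.AmbRes CA.AmbChar Subgroup Cfsg CA CA.Amb CA.AmbSyl CA.AmbCore CA.AmbRes CA.AmbChar CA.AmbFs CA.PComp CA.LBal in
  open scoped commutatorElement in
  (
    let N : Subgroup (MulAut G) :=
      { carrier := {φ | ∀ x, x ∈ S ↔ φ x ∈ S}
        one_mem' := fun _ => Iff.rfl
        mul_mem' := fun {a b} ha hb x => (hb x).trans (ha _)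
        inv_mem' := fun {a} ha x => by rw [ha (a⁻¹ x), MulAut.apply_inv_self] }
    let r : N →* MulAut S := MonoidHom.mk' (fun φ =>
      { toFun := fun s => ⟨φ.1 s, (φ.2 s).1 s.2⟩
        invFun := fun s => ⟨φ.1⁻¹ s, (φ⁻¹.2 s).1 s.2⟩
        left_inv := fun s => Subtype.ext (MulAut.inv_apply_self _ _ _)
        right_inv := fun s => Subtype.ext (MulAut.apply_inv_self _ _ _)
        map_mul' := fun s t => Subtype.ext (map_mul φ.1 _ _) }) fun _ _ => rfl
    have hC := (Cfsg.Agent.S0227.result (G := G) (fun M hM ho => (hM.eq_bot_or_eq_top).resolve_right fun e => by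
      subst e
      exact (Nat.not_even_iff_odd.2 ho) (even_iff_two_dvd.2 (dvd_card_of_le S.2 hS1 le_top))) S (r.ker.map N.subtype)
      fun φ => ⟨by
        rintro ⟨φ, h, rfl⟩ s hs
        exact congrArg Subtype.val (DFunLike.congr_fun h (⟨s, hs⟩ : S)), fun h => ⟨⟨φ, fun x => ⟨fun hx => by rwa [h x hx],
          fun hx => by rwa [φ.injective (h _ hx)] at hx⟩⟩, MulEquiv.ext fun s => Subtype.ext (h s s.2), rfl⟩⟩).2
    have h1 : Group.IsSolvable r.ker :=
      Group.isSolvable_of_surjective (f := ((r.ker.equivMapOfInjective _ (subtype_injective N)).symm).toMonoidHom)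
        (MulEquiv.surjective _)
    have h2 : Group.IsSolvable N := Group.isSolvable_of_ker_le_range r.ker.subtype r (by simp)
    refine Group.isSolvable_of_surjective (f := (QuotientGroup.mk' (Inn G)).comp N.subtype) fun q => ?_
    obtain ⟨φ, rfl⟩ := QuotientGroup.mk_surjective q
    have := ((sylIn_top S).map_injective (f := φ.toMonoidHom) φ.injective)
    rw [← MonoidHom.range_eq_map, MonoidHom.range_eq_top.2 φ.surjective] at this
    obtain ⟨g, -, e⟩ := this.exists_conj (sylIn_top S)
    refine ⟨⟨MulAut.conj g * φ, fun x => ?_⟩, ?_⟩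
    · show x ∈ (S : Subgroup G) ↔ g * φ x * g⁻¹ ∈ (S : Subgroup G)
      conv_rhs => rw [← e]
      exact (mem_map_iff_mem (f := φ.toMonoidHom) φ.injective).symm.trans conj_mem_cj.symm
    · exact (QuotientGroup.mk_mul _ _ _).trans (by
        rw [(QuotientGroup.eq_one_iff (N := Inn G) (MulAut.conj g)).2 ⟨g, rfl⟩, one_mul]))

end Cfsg.Agent.S3065
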