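import Cfsg.Statements.S3067
import Cfsg.Agent.Lib.Grp.H19Aut3

set_option autoImplicit false
open Cfsg

namespace Cfsg.Agent.S3067

/-- Let G be a finite non-abelian simple group, τ an involution of G, and α a nontrivial automorphism of G whose order is coprime to the order of G. Then α moves some element of the centralizer of τ: α does not fix C_G(τ) elementwise. -/
theorem result {G : Type*} [Group G] [Finite G] [IsSimpleGroup G]
    (hG : ¬ IsMulCommutative G) (τ : G) (hτ : orderOf τ = 2) (α : MulAut G) (hα : α ≠ 1)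
    (hcop : (orderOf α).Coprime (Nat.card G)) :
    ∃ c ∈ Subgroup.centralizer ({τ} : Set G), α c ≠ c := by
  by_contra hh
  push Not at hh
  letI : MulDistribMulAction (Subgroup.zpowers α) G :=
    MulDistribMulAction.compHom G (Subgroup.zpowers α).subtype
  have h2 : τ * τ = 1 := by rw [← pow_two, ← hτ, pow_orderOf_eq_one]
  have hy : CA.H19Aut.Hy (Subgroup.zpowers α) τ := by
    refine ⟨by rwa [Nat.card_zpowers], inferInstance, fun e => ?_, h2, fun c hc => ?_⟩
    · rw [e, orderOf_one] at hτ; omega
    · rw [CA.H19Aut.mem_HH]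
      rintro ⟨a, ha⟩
      exact (show Subgroup.zpowers α ≤ MulAction.stabilizer (MulAut G) c from
        Subgroup.zpowers_le.2 (hh c hc)) ha
  have hO : pPrimeCore 2 G = ⊥ := by
    rcases IsSimpleGroup.eq_bot_or_eq_top_of_normal (pPrimeCore 2 G) inferInstance with e | e
    · exact e
    · exfalso
      have := CA.Core.pPrimeCore_eq_top_iff.1 e
      have hd : 2 ∣ Nat.card G := hτ ▸ orderOf_dvd_natCard τ
      exact absurd (Nat.Coprime.eq_one_of_dvd this.symm hd) (by norm_num)
  refine hα (MulEquiv.ext fun g => ?_)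
  have := CA.H19Aut.main _ G τ rfl hy ⟨α, Subgroup.mem_zpowers α⟩ g
  rw [hO, Subgroup.mem_bot, inv_mul_eq_one] at this
  exact this.symm

end Cfsg.Agent.S3067
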