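import Cfsg.Statements.S3068
import Cfsg.Agent.Lib.Loc.H6JT
import Cfsg.Agent.Lib.Grp.NPC2
import Cfsg.Agent.S1972

set_option autoImplicit false
open Cfsg

set_option linter.unusedVariables false
set_option linter.unusedSimpArgs false
set_option linter.style.haveILetI false

namespace Cfsg.Agent.S3068

open CA CA.H6JT CA.H6NPC CA.Amb CA.AmbSyl CA.AmbCore CA.AmbRes Subgroup
open CA.H6J hiding Z
open scoped commutatorElement

/-- Let p ≥ 7 be a prime, S a Sylow p-subgroup of the finite group G, J(S) the subgroup generated by the abelian subgroups of S of largest order and M = N_G(J(S)). Then G/O^p(G) ≅ M/O^p(M): the largest p-factor group of G is that of M (here O^p(X) is the subgroup generated by the elements of X of order prime to p). -/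
theorem result {G : Type*} [Group G] [Finite G] {p : ℕ} [Fact p.Prime]
    (hp : 7 ≤ p) (S : Sylow p G)
    [hn : (Cfsg.pResidual p G).Normal]
    [hm : (Cfsg.pResidual p ↥(Subgroup.normalizer (Cfsg.thompsonSubgroupAOf (S : Subgroup G) : Set G))).Normal] :
    Nonempty (G ⧸ Cfsg.pResidual p G ≃*
      ↥(Subgroup.normalizer (Cfsg.thompsonSubgroupAOf (S : Subgroup G) : Set G)) ⧸
        Cfsg.pResidual p ↥(Subgroup.normalizer (Cfsg.thompsonSubgroupAOf (S : Subgroup G) : Set G))) := by
  have h := Cfsg.Agent.S1972.result (G := G) _ (charP_J (p := p)) (fun K R _ _ T hT =>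
    loc_of_seven hp T (by rwa [← map_thompsonSubgroupA_subtype])) ⊤ ⊥
  rw [show Cfsg.inducedFunctor (fun Q _ => Cfsg.thompsonSubgroupA Q) = J 0 from
    funext fun T => map_thompsonSubgroupA_subtype T] at h
  have h1 := L0K.TC.of_equiv (L0K.topBot G) (W' := J 0) (fun e T => J_map e.injective 0 T) h S
  revert hm
  rw [thompsonSubgroupAOf_eq]
  intro hm
  have hS := le_normalizer_J 0 (S : Subgroup G)
  have h2 := NPC2.tate_of_commutator S hS (by
    rw [inf_comm]; exact h1.le.trans (inf_le_right.trans le_sup_left))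
  generalize 𝐍 (J 0 (S : Subgroup G)) = M at *
  let f := (QuotientGroup.mk' (Cfsg.pResidual p G)).comp M.subtype
  have h3 : Function.Surjective f := fun q => by
    obtain ⟨g, rfl⟩ := QuotientGroup.mk_surjective q
    have k := (syl_sup_res (sylIn_top S)).ge (mem_top g)
    rw [res_top] at k
    obtain ⟨s, hs, r, hr, rfl⟩ := (mem_sup_of_norm norm_of_normal).1 k
    exact ⟨⟨s, hS hs⟩, QuotientGroup.eq.2 (by simpa using hr)⟩
  have h4 : Cfsg.pResidual p M = f.ker := by
    rw [← MonoidHom.comap_ker, QuotientGroup.ker_mk', ← comap_map_eq_self_of_injective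
      M.subtype_injective (Cfsg.pResidual p M), ← h2]
    exact inf_subgroupOf_right _ _
  exact ⟨((QuotientGroup.quotientMulEquivOfEq h4).trans
    (QuotientGroup.quotientKerEquivOfSurjective f h3)).symm⟩

end Cfsg.Agent.S3068
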