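import Cfsg.Statements.S3069
import Cfsg.Agent.Lib.Loc.H6JT
import Cfsg.Agent.S1991

set_option autoImplicit false
open Cfsg

set_option linter.unusedVariables false
set_option linter.unusedSimpArgs false
set_option linter.style.haveILetI false

namespace Cfsg.Agent.S3069

open CA CA.H6JT CA.H6NPC CA.Amb CA.AmbSyl CA.AmbCore CA.AmbRes Subgroup
open CA.H6J hiding Z
open scoped commutatorElement

/-- Let p ≥ 7 be a prime and S a nontrivial Sylow p-subgroup of the finite group G. If N_G(S)/C_G(S) is a p-group (every element of N_G(S) of order prime to p centralizes S), then O^p(G) < G, i.e. G has a nontrivial p-factor group. -/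
theorem result {G : Type*} [Group G] [Finite G] {p : ℕ} [Fact p.Prime]
    (hp : 7 ≤ p) (S : Sylow p G) (hS : (S : Subgroup G) ≠ ⊥)
    (hN : ∀ g ∈ Subgroup.normalizer ((S : Subgroup G) : Set G), (orderOf g).Coprime p →
      g ∈ Subgroup.centralizer ((S : Subgroup G) : Set G)) :
    Cfsg.pResidual p G ≠ ⊤ := by
  obtain ⟨N, _, h⟩ := Cfsg.Agent.S1991.result (by omega) S hS hN
  intro e
  have h1 : Cfsg.pResidual p G ≤ N := by
    rw [← res_top]
    exact res_le_of_pow fun x _ => ⟨1, by rw [pow_one, ← h]; exact N.pow_index_mem x⟩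
  rw [e, top_le_iff] at h1
  rw [h1, index_top] at h
  omega

end Cfsg.Agent.S3069
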