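import Cfsg.Statements.S3070
import Cfsg.Agent.Lib.Loc.H6JT

set_option autoImplicit false
open Cfsg

set_option linter.unusedVariables false
set_option linter.unusedSimpArgs false
set_option linter.style.haveILetI false

namespace Cfsg.Agent.S3070

open CA CA.H6JT CA.H6NPC CA.Amb CA.AmbSyl CA.AmbCore CA.AmbRes Subgroup
open CA.H6J hiding Z
open scoped commutatorElement

/-- Let p ≥ 5 be a prime, S a Sylow p-subgroup of the finite group G and J(S) the subgroup generated by the abelian subgroups of S of largest order. Then G has a normal p-complement if and only if N_G(J(S))/C_G(J(S)) is a p-group (every element of N_G(J(S)) of order prime to p centralizes J(S)). -/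
theorem result {G : Type*} [Group G] [Finite G] {p : ℕ} [Fact p.Prime]
    (hp : 5 ≤ p) (S : Sylow p G) :
    Cfsg.HasNormalPComplement p G ↔
      ∀ g ∈ Subgroup.normalizer (Cfsg.thompsonSubgroupAOf (S : Subgroup G) : Set G), (orderOf g).Coprime p →
        g ∈ Subgroup.centralizer (Cfsg.thompsonSubgroupAOf (S : Subgroup G) : Set G) := by
  rw [thompsonSubgroupAOf_eq]
  refine ⟨fun h g => PRes.mem_centralizer_of_hasNPC h (S.isPGroup'.to_le (J_le 0 _)), fun h => ?_⟩
  refine npc_of_fn (fun _ _ => True) (fun _ _ _ _ _ => trivial) (fun _ _ _ _ _ _ => trivial)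
    (fn_J (dvd_zero p)) (fun X _ _ T _ a b c d => J_normal_of_coatom hp a b c d) G S trivial
    (sylIn_top S) (npc_norm (sylIn_top S) (le_normalizer_J 0 _) (fun x hx => ?_) h)
  obtain ⟨A, hA⟩ := mx_nonempty 0 (S : Subgroup G)
  exact le_J hA (mem_mx_of_mem_centralizer_J hA hx.1 hx.2 (pow_zero x))

end Cfsg.Agent.S3070
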