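import Cfsg.Statements.S3071
import Cfsg.Agent.Lib.Loc.H6Ctl

set_option autoImplicit false
open Cfsg

set_option linter.unusedVariables false
set_option linter.unusedSimpArgs false
set_option linter.style.haveILetI false

namespace Cfsg.Agent.S3071

open CA CA.H6Ctl CA.H6QdA CA.H6NPC CA.H6PSolv CA.H6Stab CA.H6ZJ CA.H6Op CA.Amb CA.AmbSyl CA.AmbCore CA.AmbRes CA.AmbChar Subgroup
open CA.H6J hiding Z
open scoped MatrixGroups

/-- Let p be an odd prime and S a Sylow p-subgroup of the finite group G such that, for every subgroup P with Z(S) ≤ P ≤ S, the normalizer N_G(P) has no section isomorphic to SL₂(p). Let J(S) be the subgroup generated by the abelian subgroups of S of largest order. Then two elements of S are conjugate in G if and only if they are conjugate in N_G(Z(J(S))). -/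
theorem result {G : Type*} [Group G] [Finite G] {p : ℕ} [Fact p.Prime]
    (hp : p ≠ 2) (S : Sylow p G)
    (hfree : ∀ P : Subgroup G, (S : Subgroup G) ⊓ Subgroup.centralizer ((S : Subgroup G) : Set G) ≤ P → P ≤ S →
      ¬ ∃ (H K : Subgroup G) (hK : (K.subgroupOf H).Normal), H ≤ Subgroup.normalizer (P : Set G) ∧
        Nonempty ((H ⧸ K.subgroupOf H) ≃* Matrix.SpecialLinearGroup (Fin 2) (ZMod p))) :
    ∀ x ∈ S, ∀ y ∈ S, (∃ g : G, g * x * g⁻¹ = y) ↔
      ∃ n ∈ Subgroup.normalizer (Cfsg.centerThompsonAOf (S : Subgroup G) : Set G), n * x * n⁻¹ = y := by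
  have hF := fn_ZJ (p := p) (dvd_zero p)
  have hS := sylIn_top S
  have h : Ctl ⊤ (S : Subgroup G) (𝐍 (H6J.Z (J 0 (S : Subgroup G)))) := by
    refine ctl_tower hS (fun T => H6J.Z (J 0 T)) (fun T _ => hF.le T)
      (fun T g h _ => hF.cj (hS.pg.to_le h) g) (fun Q => H6J.Z (S : Subgroup G) ≤ Q) ?_ ?_ ?_
    · exact fun D h1 h2 => (inf_le_inf_left _ (centralizer_anti h1)).trans h2
    · exact fun T h1 h2 => (le_inf h2 (inf_le_right.trans (centralizer_anti h1))).trans
        (Z_le_Z_J_zero T)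
    · intro Q T h1 h2 h3 h4
      have h5 := ctl_of_free hp (dvd_zero p) fn_id (G := 𝐍 Q) (fun h => hfree Q h1 (h2.trans h3)
        (sec_iff.1 (sec_top_iff.1 (sec_SL2_of_qd h)))) (sylIn_subgroupOf_top h4) le_rfl (sc_self _ _)
      have e := hF.subgroupOf h4.pg h4.le
      beta_reduce at e h5
      rw [e, Amb.normalizer_subgroupOf ((hF.le T).trans h4.le)] at h5
      exact h5.of_subgroupOf h4.le
  intro x hx y hy
  rw [centerThompsonAOf_eq]
  refine ⟨?_, fun ⟨n, _, h⟩ => ⟨n, h⟩⟩
  rintro ⟨g, rfl⟩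
  obtain ⟨m, hm, k⟩ := h.elem hx (mem_top g) hy
  exact ⟨m, hm.2, k⟩

end Cfsg.Agent.S3071
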