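import Cfsg.Statements.S3073
import Cfsg.Agent.Lib.Loc.H6JT

set_option autoImplicit false
universe u
open Cfsg

set_option linter.unusedVariables false
set_option linter.unusedSimpArgs false
set_option linter.style.haveILetI false

namespace Cfsg.Agent.S3073

open CA CA.H6JT CA.H6NPC CA.Amb CA.AmbSyl CA.AmbCore CA.AmbRes Subgroup
open CA.H6J hiding Z
open scoped commutatorElement

/-- For an odd prime p, every finite p-group S has a characteristic subgroup K with C_S(K) ≤ K such that, whenever S is (isomorphic to) a Sylow p-subgroup of a finite group G, G has a normal p-complement if and only if N_G(K)/C_G(K) is a p-group, i.e. every element of N_G(K) of order prime to p centralizes K (K transported into G along the isomorphism). -/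
theorem result (p : ℕ) [Fact p.Prime] (hp : p ≠ 2)
    (S : Type u) [Group S] [Finite S] (hS : IsPGroup p S) :
    ∃ K : Subgroup S, K.Characteristic ∧ Subgroup.centralizer (K : Set S) ≤ K ∧
      ∀ (G : Type u) [Group G] [Finite G] (P : Sylow p G) (e : ↥(P : Subgroup G) ≃* S),
        Cfsg.HasNormalPComplement p G ↔
          ∀ g ∈ Subgroup.normalizer (((K.comap (e : ↥(P : Subgroup G) →* S)).map (P : Subgroup G).subtype : Subgroup G) : Set G),
            (orderOf g).Coprime p →
              g ∈ Subgroup.centralizer (((K.comap (e : ↥(P : Subgroup G) →* S)).map (P : Subgroup G).subtype : Subgroup G) : Set G) := by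
  refine ⟨L0K.KL ⊤, characteristic_iff_map_eq.2 fun φ => ?_, ?_, fun G _ _ P e => ?_⟩
  · rw [← L0K.KL_map φ.injective, L0K.map_top_equiv]
  · simpa using (L0K.cent_K_le (hS.to_subgroup ⊤).isNilpotent).1
  have h1 : ((L0K.KL ⊤).comap (e : ↥(P : Subgroup G) →* S)).map (P : Subgroup G).subtype =
      L0K.KL (P : Subgroup G) := by
    rw [← L0K.map_top_equiv e, L0K.KL_map e.injective]
    erw [comap_map_eq_self_of_injective e.injective]
    rw [← L0K.KL_map (P : Subgroup G).subtype_injective, map_subtype_top]
  rw [h1]
  refine ⟨fun h g => PRes.mem_centralizer_of_hasNPC h (P.isPGroup'.to_le L0K.KL_le), fun h => ?_⟩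
  exact npc_of_fn (fun _ _ => True) (fun _ _ _ _ _ => trivial) (fun _ _ _ _ _ _ => trivial)
    fn_KL (fun X _ _ T _ a b c d => KL_normal_of_coatom hp a b c d) G P trivial
    (sylIn_top P) (npc_norm (sylIn_top P) (le_normalizer.trans (L0K.normalizer_le_KL _))
      (L0K.cent_K_le P.isPGroup'.isNilpotent).1 h)

end Cfsg.Agent.S3073
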