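import Cfsg.Statements.S3074
import Cfsg.Agent.Lib.Loc.H6Qd

set_option autoImplicit false
open Cfsg

set_option linter.unusedVariables false
set_option linter.unusedSimpArgs false
set_option linter.style.haveILetI false

namespace Cfsg.Agent.S3074

open CA CA.H6Qd CA.H6Stab CA.H6Op CA.Amb CA.AmbSyl CA.AmbCore CA.AmbRes CA.AmbChar CA.SL2Unip Subgroup
open scoped MatrixGroups

/-- Let p be an odd prime. A Sylow p-subgroup of Qd(p), the split extension of an elementary abelian group of order p² by SL₂(p) acting naturally, is extraspecial of order p³ and exponent p. -/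
theorem result (p : ℕ) [Fact p.Prime] (hp : p ≠ 2) (P : Sylow p ↥(Cfsg.qd p)) :
    Cfsg.IsExtraspecial p ↥P ∧ Nat.card P = p ^ 3 ∧ Monoid.exponent ↥P = p := by
  obtain ⟨g, hg⟩ := exists_cj_T0 (F := ZMod p) (sylIn_top P)
  have e : T0 (ZMod p) ≃* P := (cjEquiv g _).trans (MulEquiv.subgroupCongr hg.symm)
  have h := isExtraspecial_congr e (extraspecial_T0 hp)
  refine ⟨h, ?_, ?_⟩
  · rw [← Nat.card_congr e.toEquiv, card_T0, Nat.card_zmod]
  · refine (Monoid.exponent_eq_of_mulEquiv e).symm.trans ?_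
    have : Nontrivial (T0 (ZMod p)) := (nontrivial_iff_ne_bot _).2 fun h =>
      V_ne_bot (eq_bot_iff.2 (V_le_T0.trans h.le))
    exact (Monoid.exponent_eq_prime_iff Fact.out).2 fun g hg => orderOf_eq_prime (T0_pow hp g) hg

end Cfsg.Agent.S3074
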