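import Cfsg.Statements.S3075
import Cfsg.Agent.Lib.Loc.AmbChar
import Cfsg.Agent.Lib.Loc.AmbTr
import Cfsg.Agent.Lib.Grp.PGBasic
import Cfsg.Agent.Lib.Grp.PGFrattini
import Cfsg.Agent.Lib.Lin.SL2Unip
import Cfsg.Agent.Lib.Grp.Coprime2
-- import your own Cfsg.Agent.* helpers here

set_option autoImplicit false
open Cfsg

namespace Cfsg.Agent.S3075

section Aux
open Subgroup Cfsg CA CA.Amb CA.AmbSyl CA.AmbCore CA.AmbRes CA.AmbChar CA.AmbIso CA.AmbTr
open scoped commutatorElement

theorem cyc {G : Type*} [Group G] {X U : Subgroup G} (h : IsCyclic X) (hU : U ≤ 𝐍 X) : ⁅U, U⁆ ≤ 𝐂 X := by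
  rw [commutator_le]
  intro a ha b hb x hx
  let e := IsCyclic.mulAutMulEquiv X
  have : X.normalizerMonoidHom (⟨a, hU ha⟩ * ⟨b, hU hb⟩) = X.normalizerMonoidHom (⟨b, hU hb⟩ * ⟨a, hU ha⟩) :=
    e.injective (by simp only [map_mul]; exact mul_comm _ _)
  have h2 := congrArg (fun φ : MulAut X => (φ ⟨_, inv_conj_mem_of_mem_normalizer (mul_mem (hU hb) (hU ha)) hx⟩ : G)) this
  simp only [normalizerMonoidHom_apply_apply_coe, Subgroup.coe_mul] at h2
  rw [commutatorElement_def]
  calc x * (a * b * a⁻¹ * b⁻¹) = b * a * ((b * a)⁻¹ * x * (b * a)) * (b * a)⁻¹ * (a * b * a⁻¹ * b⁻¹) := by group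
    _ = _ := by rw [← h2]; group

end Aux

/-- Let p be an odd prime and N a finite group with a normal elementary abelian subgroup A of order p² that is its own centralizer in N, such that N/A is isomorphic to SL₂(p) (over any field F with p elements). Then N splits over A: some subgroup U of N satisfies A ∩ U = 1 and AU = N. -/
theorem result {N : Type*} [Group N] [Finite N] {p : ℕ} [Fact p.Prime] (hp : p ≠ 2)
    (A : Subgroup N) [A.Normal] (hAcomm : IsMulCommutative A) (hAcard : Nat.card A = p ^ 2) (hAexp : Monoid.exponent ↥A = p)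
    (hAself : Subgroup.centralizer (A : Set N) = A)
    {F : Type*} [Field F] [Fintype F] (hF : Fintype.card F = p) (e : N ⧸ A ≃* Matrix.SpecialLinearGroup (Fin 2) F) :
    ∃ U : Subgroup N, A ⊓ U = ⊥ ∧ A ⊔ U = ⊤ := by
  open Subgroup Cfsg CA CA.Amb CA.AmbSyl CA.AmbCore CA.AmbRes CA.AmbChar CA.AmbIso CA.AmbTr in
  open scoped commutatorElement in
  (
    have hpp : p.Prime := Fact.out
    have hodd := hpp.odd_of_ne_two hp
    have h2 : (2 : F) ≠ 0 := SL2Basic.two_ne_zero_of_odd (by rwa [Nat.card_eq_fintype_card, hF])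
    let f := e.toMonoidHom.comp (QuotientGroup.mk' A)
    have hs : Function.Surjective f := e.surjective.comp (QuotientGroup.mk'_surjective A)
    have hk : ∀ x, f x = 1 ↔ x ∈ A := fun x => by simp [f]
    obtain ⟨y, hy⟩ := hs (-1)
    have ht : f (y ^ p) = -1 := by rw [map_pow, hy, hodd.neg_one_pow]
    have ht2 : (y ^ p) ^ 2 = 1 := by
      rw [← pow_mul, mul_comm, pow_mul, ← hAexp]
      exact congrArg Subtype.val (Monoid.pow_exponent_eq_one (⟨_, (hk _).1 (by simp [hy])⟩ : A))
    generalize y ^ p = t at *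
    have hcop : (Nat.card (zpowers t)).Coprime (Nat.card A) := by
      rw [hAcard, Nat.card_zpowers]
      exact ((Nat.coprime_two_left.2 hodd).coprime_dvd_left (orderOf_dvd_of_pow_eq_one ht2)).pow_right _
    have hU : ∀ g, ∃ u ∈ 𝐂 (zpowers t), ∃ a ∈ A, a * u = g := fun g => by
      obtain ⟨n, n1, n2⟩ := Coprime.exists_mul_mem_centralizer (k := g) norm_of_normal hcop
        (.inl (isSolvable_zpowers t)) fun _ ⟨i, hi⟩ => (hk _).1 (by
          have : Commute (f (t ^ i)) (f g) := by
            rw [map_zpow, ht]; exact (Commute.neg_one_left _).zpow_left _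
          simp only [← hi, map_mul, map_inv, this.eq]
          group)
      exact ⟨_, n2, n⁻¹, inv_mem n1, by group⟩
    refine ⟨𝐂 (zpowers t), ?_, eq_top_iff.2 fun g _ => ?_⟩
    · by_contra hX
      have h3 := Coprime2.centralizer_inf_commutator norm_of_normal hcop
      have h4 := Coprime2.centralizer_sup_commutator norm_of_normal hcop
      have hc : ∀ X, X ≤ A → X ≠ A → IsCyclic X := fun X h1 h2 => by
        obtain ⟨i, i1, i2⟩ := (Nat.dvd_prime_pow hpp).1 (hAcard ▸ card_dvd_of_le h1)
        refine isCyclic_of_card_dvd_prime (p := p) ?_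
        interval_cases i
        · simp [i2]
        · simp [i2]
        · exact absurd (PGBasic.eq_of_le_of_card_le h1 (by rw [i2, hAcard])) h2
      have c1 := cyc (hc _ inf_le_left fun h => SL2Basic.neg_one_ne_one h2 (ht.symm.trans ((hk t).2
        (hAself ▸ cent_symm (inf_eq_left.1 h) (mem_zpowers t)))))
        (norm_inf (L := 𝐂 (zpowers t)) norm_of_normal le_normalizer)
      have c2 := cyc (hc _ (commutator_le_left_of_norm norm_of_normal) fun h => hX
        (by rwa [h, inf_eq_left.2 inf_le_left] at h3))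
        (norm_commutator (L := 𝐂 (zpowers t)) norm_of_normal (centralizer_le_normalizer _))
      have c3 := le_inf c1 c2
      rw [← Amb.centralizer_sup, h4, hAself] at c3
      obtain ⟨g, hg⟩ := hs (SL2Unip.u 1)
      obtain ⟨k, hk'⟩ := hs (SL2Unip.l 1)
      obtain ⟨u, u1, a, a1, rfl⟩ := hU g
      obtain ⟨v, v1, b, b1, rfl⟩ := hU k
      rw [map_mul, (hk _).2 a1, one_mul] at hg
      rw [map_mul, (hk _).2 b1, one_mul] at hk'
      have := (hk _).2 (c3 (commutator_mem_commutator u1 v1))
      rw [map_commutatorElement, commutatorElement_eq_one_iff_mul_comm, hg, hk'] at this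
      have := congrArg (fun g : Matrix.SpecialLinearGroup (Fin 2) F => g.1 0 0) this
      simp [SL2Unip.sl_mul_apply, SL2Unip.u_coe, SL2Unip.l_coe] at this
    · obtain ⟨u, u1, a, a1, rfl⟩ := hU g
      exact mul_mem_sup a1 u1)

end Cfsg.Agent.S3075
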