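import Cfsg.Statements.S3078
import Cfsg.Agent.Lib.Loc.AmbChar
import Cfsg.Agent.Lib.Loc.AmbTr
import Cfsg.Agent.Lib.Grp.PGBasic
import Cfsg.Agent.Lib.Grp.PGFrattini
import Cfsg.Agent.Lib.Loc.H6Repl
import Cfsg.Agent.Lib.Loc.H6J
-- import your own Cfsg.Agent.* helpers here

set_option autoImplicit false
open Cfsg

namespace Cfsg.Agent.S3078

/-- A replacement Theorem for abelian subgroups of p-groups, p odd. Let G be a finite p-group with p odd, A an abelian subgroup of G, and B a subgroup of nilpotency class at most 2 with [B, B] ≤ A, such that A normalizes B but B does not normalize A. Then there is an abelian subgroup A* of G of the same order as A with A ∩ B strictly contained in A* ∩ B, A* contained in N_G(A) and in the normal closure of A, the exponent of A* dividing the exponent of A, and with the subgroup generated by the elements of order dividing p in A of order at most that of the corresponding subgroup of A* (the rank of A is at most the rank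 of A*). -/
theorem result {G : Type*} [Group G] [Finite G] {p : ℕ} [Fact p.Prime] (hp : p ≠ 2) (hG : IsPGroup p G) (A B : Subgroup G) (hA : IsMulCommutative A) (hB2 : ⁅⁅B, B⁆, B⁆ = ⊥) (hBA : ⁅B, B⁆ ≤ A) (hAB : A ≤ Subgroup.normalizer (B : Set G)) (hBnA : ¬ B ≤ Subgroup.normalizer (A : Set G)) : ∃ Astar : Subgroup G, IsMulCommutative Astar ∧ Nat.card Astar = Nat.card A ∧ A ⊓ B < Astar ⊓ B ∧ Astar ≤ Subgroup.normalizer (A : Set G) ∧ Astar ≤ Subgroup.normalClosure (A : Set G) ∧ Monoid.exponent Astar ∣ Monoid.exponent A ∧ Nat.card (Cfsg.omegaOne p A) ≤ Nat.card (Cfsg.omegaOne p Astar) := by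
  open Subgroup Cfsg CA CA.Amb CA.AmbSyl CA.AmbCore CA.AmbRes CA.AmbChar CA.AmbIso CA.AmbTr in
  open scoped commutatorElement in
  (
    have hn : Group.IsNilpotent ↥(A ⊔ B) := (hG.to_subgroup _).isNilpotent
    obtain ⟨b, hb, hbN, hbc⟩ := PGBasic.exists_layer (P := (A ⊔ B) ⊓ 𝐍 A) (N := (A ⊔ B) ⊓ 𝐍 A) hn inf_le_left
      le_sup_right (inf_le_left.trans (sup_le hAB le_normalizer)) (fun h => hBnA (h.trans inf_le_right))
    have hbA : b ∉ 𝐍 A := fun h => hbN ⟨mem_sup_right hb, h⟩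
    have hbNN : b ∈ 𝐍 ((A ⊔ B) ⊓ 𝐍 A) := H6Basic.mem_normalizer_of_conj_mem fun g hg => by
      simpa [commutatorElement_def] using mul_mem (hbc g hg) hg
    have hAN : A ≤ (A ⊔ B) ⊓ 𝐍 A := le_inf le_sup_left le_normalizer
    have h1 : cj b⁻¹ A ≤ 𝐍 A := (cj_le_of_le hAN (inv_mem hbNN)).trans inf_le_right
    have h2 : A ≤ 𝐍 (cj b⁻¹ A) := by
      rw [← cj_normalizer, le_cj_iff, inv_inv]
      exact (cj_le_of_le hAN hbNN).trans inf_le_right
    have hx : ∀ x ∈ A, x ∈ B → b * x * b⁻¹ ∈ A ∧ b * x * b⁻¹ ∈ B := fun x x1 x2 =>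
      ⟨by simpa [commutatorElement_def] using mul_mem (hBA (commutator_mem_commutator hb x2)) x1,
        mul_mem (mul_mem hb x2) (inv_mem hb)⟩
    have hb' : b ∈ 𝐍 (A ⊓ B) := H6Basic.mem_normalizer_of_conj_mem fun x h => hx x h.1 h.2
    have hodd : ∀ w : G, w ^ 2 = 1 → w = 1 := fun w =>
      H6Repl.eq_one_of_sq_eq_one hp (hG.to_subgroup ⊤) (mem_top w)
    have hO := H6J.isAb_omegaOne p hA
    have hO1 := H6J.omegaOne_le p A
    have k1 : cj b⁻¹ (omegaOne p A) ≤ 𝐍 (omegaOne p A) :=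
      ((cj_mono _ hO1).trans h1).trans (H6J.normalizer_le_normalizer_omegaOne p A)
    have k2 : omegaOne p A ≤ 𝐍 (cj b⁻¹ (omegaOne p A)) := by
      have := H6J.normalizer_le_normalizer_omegaOne p (cj b⁻¹ A)
      rw [H6J.omegaOne_cj] at this
      exact (hO1.trans h2).trans this
    refine ⟨H6Repl.star b A, H6Repl.isMulCommutative_star hA h1 h2 hAB
      (comm_eq_bot_of_le (hBA.trans A.le_centralizer)) hb fun w _ => hodd w, H6Repl.card_star hA h1 h2 hAB hb hb',
      H6Repl.inf_lt_star_inf hAB hb hb' hbA, H6Repl.star_le_normalizer h1,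
      H6Repl.star_le_sup.trans (sup_le le_normalClosure (cj_le_of_le le_normalClosure
        (norm_of_normal (mem_top _)))), Monoid.exponent_dvd_of_forall_pow_eq_one fun x => Subtype.ext
        (H6Repl.pow_eq_one_of_mem_sup hA h1 h2 (fun a ha => congrArg Subtype.val
          (Monoid.pow_exponent_eq_one (⟨a, ha⟩ : A))) (fun w _ => hodd w) x (H6Repl.star_le_sup x.2)), ?_⟩
    rw [← H6Repl.card_star hO.1 k1 k2 (hO1.trans hAB) hb (H6Basic.mem_normalizer_of_conj_mem fun x h =>
      ⟨H6J.mem_omegaOne (hx x (hO1 h.1) h.2).1 (conj_pow_eq_one (hO.2 x h.1) b), (hx x (hO1 h.1) h.2).2⟩)]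
    refine card_le_of_le fun x h => H6J.mem_omegaOne (sup_le_sup (inf_le_inf hO1 (cj_mono _ hO1))
      (H6Repl.cm_le_iff.2 fun a ha => H6Repl.mem_cm (hO1 ha)) h)
      (H6Repl.pow_eq_one_of_mem_sup hO.1 k1 k2 hO.2 (fun w _ => hodd w) x (H6Repl.star_le_sup h)))

end Cfsg.Agent.S3078
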