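import Cfsg.Statements.S3082
import Cfsg.Agent.Lib.Loc.H6Ctl

set_option autoImplicit false
open Cfsg

set_option linter.unusedVariables false
set_option linter.unusedSimpArgs false
set_option linter.style.haveILetI false

namespace Cfsg.Agent.S3082

open CA CA.H6Ctl CA.H6QdA CA.H6NPC CA.H6PSolv CA.H6Stab CA.H6ZJ CA.H6Op CA.Amb CA.AmbSyl CA.AmbCore CA.AmbRes CA.AmbChar Subgroup
open CA.H6J hiding Z
open scoped MatrixGroups

universe u

theorem key {p : ℕ} [Fact p.Prime] (hp : p ≠ 2) {n : ℕ} (hn : p ∣ n)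
    {V : ∀ {G : Type u} [Group G], Subgroup G → Subgroup G} (hV : Fn p V)
    {G : Type u} [Group G] [Finite G] {S D : Subgroup G} (hS : SylIn p S ⊤) (hDS : D ≤ S)
    (hD : SC ⊤ S D) (h : HasNormalPComplement p (𝐍 (V (H6J.Z (J n D))))) :
    HasNormalPComplement p G := by
  have hF := hV.comp (fn_ZJ (p := p) hn)
  refine npc_generic (fun _ _ => True) (fun G _ S => ∃ D, D ≤ S ∧ SC ⊤ S D ∧
    HasNormalPComplement p (𝐍 (V (H6J.Z (J n D))))) (fun _ _ _ _ _ => trivial)
    (fun _ _ _ _ _ _ => trivial) ?_ ?_ ?_ ?_ G S trivial hS ⟨D, hDS, hD, h⟩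
  · rintro G _ _ S H hS hH ⟨D, h1, h2, h3⟩
    refine ⟨D.subgroupOf H, comap_mono h1, SC.subgroupOf fun x hx g _ => h2 x hx g (mem_top g), ?_⟩
    exact (hF.npc_norm_subgroupOf (hS.pg.to_le h1) (h1.trans hH)).2
      (PRes.hasNPC_of_le h3 inf_le_right)
  · rintro G _ _ S hS ⟨D, h1, h2, h3⟩
    have h4 := h2.map (f := π p G) (by rw [top_inf_eq]; exact π_cop) hS.pg le_top h1
    rw [map_top_of_surjective _ π_surj] at h4
    exact ⟨D.map (π p G), map_mono h1, h4, hF.npc_norm_quot (hS.pg.to_le h1) h3⟩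
  · intro G _ _ L T hT h0 h
    exact ⟨_, le_rfl, sc_self _ _, (hF.npc_norm_subgroupOf hT.pg hT.le).2
      (h _ (hF.le T) (hF.ne_bot hT.pg h0) (hF.norm hT.pg))⟩
  · rintro G _ _ S - hS ⟨D, h1, h2, h3⟩ hc hq hm
    have h4 : ⊤ ≤ 𝐍 (V (H6J.Z (J n D))) := zj hp hn hS h1 h2 hc
      (fun U _ h4 h5 => stab_of_coatom hp hS hm hq h5 h4) (hV.le _) (inf_le_right.trans
      ((normalizer_le_normalizer_Z _).trans
        (hV.norm ((hS.pg.to_le h1).to_le ((fn_ZJ (p := p) hn).le _)))))
    exact PRes.hasNPC_top_iff.1 (PRes.hasNPC_of_le h3 h4)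


/-- The Glauberman–Thompson normal p-complement criterion for strongly closed subgroups, p odd. Let G be a finite group, P a Sylow p-subgroup and D a subgroup of P strongly closed in P with respect to G. If N_G(Z(J(D))) has a normal p-complement (J(D) generated by the abelian subgroups of D of largest order), or N_G(Ω₁(Z(J_e(D)))) has one (J_e(D) generated by the elementary abelian subgroups of largest order), then G has a normal p-complement. -/
theorem result {G : Type*} [Group G] [Finite G] {p : ℕ} [Fact p.Prime] (hp : p ≠ 2) (P : Sylow p G) (D : Subgroup G) (hD : Cfsg.IsStronglyClosed D (P : Subgroup G)) (h : Cfsg.HasNormalPComplement p ↥(Subgroup.normalizer ((Cfsg.centerThompsonAOf D) : Set G)) ∨ Cfsg.HasNormalPComplement p ↥(Subgroup.normalizer ((Cfsg.omegaOne p (Cfsg.centerThompsonOf p D)) : Set G))) : Cfsg.HasNormalPComplement p G := by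
  have h1 : SC ⊤ (P : Subgroup G) D := fun x hx g _ => hD.2 x hx g
  rw [centerThompsonAOf_eq, centerThompsonOf_eq] at h
  rcases h with h | h
  · exact key hp (dvd_zero p) fn_id (sylIn_top P) hD.1 h1 h
  · exact key hp (dvd_refl p) fn_omega (sylIn_top P) hD.1 h1 h

end Cfsg.Agent.S3082
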