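import Cfsg.Statements.S3087
import Cfsg.Agent.Lib.Loc.AmbChar
import Cfsg.Agent.Lib.Loc.AmbCD
-- import your own Cfsg.Agent.* helpers here

set_option autoImplicit false
open Cfsg

namespace Cfsg.Agent.S3087

/-- Let p be a prime, G a finite group acting linearly on a finite vector space V over the field with p elements, W a G-invariant subspace, and A a subgroup of G with |A|·|C_V(A)| ≥ |B|·|C_V(B)| for every subgroup B of A. Then |A|·|C_W(A)| ≥ |B|·|C_W(B)| for every subgroup B of A that contains C_A(W); that is, the image of A in the group induced on W satisfies the same maximality condition. -/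
theorem result {G V : Type*} [Group G] [Finite G] [AddCommGroup V] [Finite V] (p : ℕ) [Fact p.Prime] [Module (ZMod p) V]
    (ρ : Representation (ZMod p) G V) (W : Submodule (ZMod p) V) (hW : ∀ g : G, ∀ w ∈ W, ρ g w ∈ W)
    (A : Subgroup G)
    (hP : ∀ B : Subgroup G, B ≤ A →
      Nat.card ↥B * Nat.card {v : V // ∀ b ∈ B, ρ b v = v} ≤ Nat.card ↥A * Nat.card {v : V // ∀ a ∈ A, ρ a v = v})
    (B : Subgroup G) (hBA : B ≤ A) (hCB : ∀ a ∈ A, (∀ w ∈ W, ρ a w = w) → a ∈ B) :
    Nat.card ↥B * Nat.card {w : W // ∀ b ∈ B, ρ b w = w} ≤ Nat.card ↥A * Nat.card {w : W // ∀ a ∈ A, ρ a w = w} := by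
  open Subgroup Cfsg CA.Amb CA.AmbSyl CA.AmbCore CA.AmbRes CA.AmbChar CA.AmbSpe CA.AmbCD in
  open scoped commutatorElement in
  (
    let fx : Subgroup G → Subgroup (Multiplicative V) := fun S =>
      { carrier := {v | ∀ b ∈ S, ρ b v.toAdd = v.toAdd}
        one_mem' := fun b _ => map_zero _
        mul_mem' := fun h k b hb => by rw [toAdd_mul, map_add, h b hb, k b hb]
        inv_mem' := fun h b hb => by rw [toAdd_inv, map_neg, h b hb] }
    let W' : Subgroup (Multiplicative V) := W.toAddSubgroup.toSubgroup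
    have e1 : ∀ S, Nat.card {v : V // ∀ b ∈ S, ρ b v = v} = № (fx S) := fun S => rfl
    have e2 : ∀ S, Nat.card {w : W // ∀ b ∈ S, ρ b w = w} = № (W' ⊓ fx S) := fun S =>
      Nat.card_congr ⟨fun w => ⟨Multiplicative.ofAdd w.1.1, w.1.2, w.2⟩, fun w => ⟨⟨w.1.toAdd, w.2.1⟩, w.2.2⟩,
        fun _ => rfl, fun _ => rfl⟩
    have h1 : fx A ≤ fx B := fun v hv b hb => hv b (hBA hb)
    have h2 := card_mul_le' (inf_le_right : W' ⊓ fx B ≤ _) h1
    have h3 := hP B hBA
    rw [inf_assoc, inf_eq_right.2 h1] at h2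
    rw [e1, e1] at h3
    rw [e2, e2]
    refine Nat.le_of_mul_le_mul_right ?_ (Nat.card_pos (α := fx A))
    calc _ = № B * (№ (W' ⊓ fx B) * № (fx A)) := by ring
      _ ≤ № B * (№ (fx B) * № (W' ⊓ fx A)) := Nat.mul_le_mul_left _ h2
      _ = № B * № (fx B) * № (W' ⊓ fx A) := by ring
      _ ≤ _ := Nat.mul_le_mul_right _ h3
      _ = _ := by ring)

end Cfsg.Agent.S3087
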