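import Cfsg.Statements.S3116
import Cfsg.Agent.Lib.Grp.Two3

set_option autoImplicit false
open Cfsg

namespace Cfsg.Agent.S3116


open Subgroup CA.MC2 CA.MC3 CA.Two3

/-- The automorphism group of a dihedral 2-group of order at least 8, or of a quasi-dihedral (semidihedral) 2-group of order at least 16, is a 2-group. -/
theorem result {X : Type*} [Group X] [Finite X] (h2 : IsPGroup 2 X)
    (h : (∃ n : ℕ, 4 ≤ n ∧ Nonempty (X ≃* DihedralGroup n)) ∨ Cfsg.IsQuasiDihedral X) : IsPGroup 2 (MulAut X) := by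
  rcases h with ⟨n, hn, ⟨e⟩⟩ | h
  · obtain ⟨m, rfl⟩ := eq_pow_of_dihedral h2 (by omega) e
    obtain ⟨a, y, h, e⟩ := exists_of_dihedral_top e
    refine isPGroup_mulAut_top h ?_ (fun h => absurd h (by decide)) e
    rcases m with _ | m <;> omega
  · obtain ⟨m, a, y, hm, h, e⟩ := exists_of_qd_top h
    exact isPGroup_mulAut_top h (by omega) (fun _ => hm) e

end Cfsg.Agent.S3116
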