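import Cfsg.Statements.S3153
import Cfsg.Agent.Lib.Inv.H13Std

set_option autoImplicit false
open Cfsg

namespace Cfsg.Agent.S3153

open Subgroup CA.BG CA.GW CA.H13Std
open scoped commutatorElement
set_option maxHeartbeats 400000

theorem aux {X : Type*} [Group X] [Finite X] {P S : Subgroup X} (hP : IsStandardSubgroup P) (hr : R1 𝓒(P))
    (hZ : Od (P ⊓ 𝓒(P))) (hS : Syl 2 S 𝓝(P)) {t g : X} (ht : orderOf t = 2) (htS : t ∈ S) (htP : t ∈ 𝓒(P))
    (hgN : g ∈ 𝓝(S)) (hgS : g ∉ S) (hg2 : g * g ∈ S) (hgt : g * t * g⁻¹ ∈ P ⊔ 𝓒(P)) : P ≤ 𝓒(pPrimeCore 2 X) := by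
  have p2 := Nat.prime_two
  have gN : g ∉ 𝓝(P) := fun h => by
    have c := CA.BG4.card_sup_zpowers p2 hgN hgS (by rwa [sq])
    obtain ⟨k, hk⟩ := hS.pi.exists_card p2
    have := hS.eq_of_le (isPi_of_card_eq_pow p2 (k := k + 1) (by rw [c, hk, pow_succ])) le_sup_left
      (sup_le hS.le (zp_le.2 h))
    exact hgS (this.le (mem_sup_right (mem_zpowers g)))
  have tc : S ≤ 𝓒₁(t) := by
    have n : S ⊓ 𝓒(P) ≠ ⊥ := fun e => ne_one_of_ord ht (mem_bot.1 (e.le ⟨htS, htP⟩))
    have := hS.pi.meet_cent (hS.pi.inf_left _) (norm_inf (le_norm_self S) (norm_cent hS.le)) n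
    obtain ⟨z, hz, oz⟩ := exists_inv (K := S ⊓ 𝓒(P) ⊓ 𝓒(S)) fun h =>
      this (((hS.pi.inf_left _).inf_left _).eq_bot h)
    rw [hr t htP z hz.1.2 ht oz (hz.2 t htS)]
    exact le_cent1_iff.2 hz.2
  set s := g * t * g⁻¹ with hs
  have sS : s ∈ S := conj_mem_of_mem_norm hgN htS
  have os : orderOf s = 2 := by rw [hs, ord_conj, ht]
  have sP : s ∉ 𝓒(P) := fun h => gN (norm_of_inv hP os h (by rw [hs]; simpa [mul_assoc] using htP))
  have c : t * s = s * t := (mem_centralizer_singleton_iff.1 (tc sS)).symm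
  have e2 : g * s * g⁻¹ = t := by
    have := conj_eq_of_cent (tc hg2)
    rw [hs]; simp only [mul_inv_rev, mul_assoc] at this ⊢; exact this
  obtain ⟨p, hp, d, hd, e⟩ := (mem_sup_norm' (cent_le_norm P)).1 hgt
  have pd : Commute p d := hd p hp
  have ss := sq_of_ord os
  have h2 : p * p ∈ P ⊓ 𝓒(P) := by
    refine ⟨mul_mem hp hp, ?_⟩
    have : p * p = (d * d)⁻¹ := by
      rw [eq_inv_iff_mul_eq_one, ← ss, ← e, mul_assoc, mul_assoc, ← mul_assoc p d d, ← mul_assoc d p d, pd.eq]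
    rw [this]; exact 𝓒(P).inv_mem (mul_mem hd hd)
  obtain ⟨m, hm⟩ := hZ.odd
  have sm : s = p ^ (2 * m + 1) * d ^ (2 * m + 1) := by
    rw [← pd.mul_pow, e, pow_succ, pow_mul, sq, ss, one_pow, one_mul]
  have uu : p ^ (2 * m + 1) * p ^ (2 * m + 1) = 1 := by
    rw [← (Commute.refl p).mul_pow, ← hm]
    exact orderOf_dvd_iff_pow_eq_one.1 (orderOf_dvd_card_of_mem h2)
  have pd' := pd.pow_pow (2 * m + 1) (2 * m + 1)
  have hu := pow_mem hp (2 * m + 1)
  have hw := pow_mem hd (2 * m + 1)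
  generalize p ^ (2 * m + 1) = u at *
  generalize d ^ (2 * m + 1) = w at *
  have ww : w * w = 1 := by
    have := ss
    rw [sm, mul_assoc, ← mul_assoc w u w, ← pd'.eq, mul_assoc, ← mul_assoc, uu, one_mul] at this
    exact this
  refine core hP.1 ht htP (cent_le hP ht htP) rfl e2 c hu ?_ sP
  by_cases w1 : w = 1
  · left; rw [← hs, sm, w1, mul_one]
  · right
    rw [← hs, sm, hr t htP w hw ht (ord_two ww w1) ?_]
    rw [sm, ← mul_assoc, ← htP u hu, mul_assoc, mul_assoc] at c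
    exact mul_left_cancel c

/-- Let X be a finite group and P a standard subgroup of X whose centralizer has 2-rank at most 1 and whose centre has odd order. Let S be a Sylow 2-subgroup of N_X(P) and t an involution of S centralizing P. Suppose some element g of X normalizes S, does not lie in S, has its square in S, and conjugates t into P·C_X(P). Then P commutes elementwise with the largest normal odd-order subgroup O(X) of X; consequently every t-invariant 2-component of X containing P is quasisimple. -/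
theorem result {X : Type*} [Group X] [Finite X] (P : Subgroup X) (hP : Cfsg.IsStandardSubgroup P)
    (hr : Cfsg.PRankLE 2 1 ↥(Subgroup.centralizer (P : Set X))) (hZ : Odd (Nat.card ↥(Subgroup.center ↥P)))
    (S : Sylow 2 ↥(Subgroup.normalizer (P : Set X))) (t : X) (ht : orderOf t = 2) (htS : t ∈ (S : Subgroup ↥(Subgroup.normalizer (P : Set X))).map (Subgroup.normalizer (P : Set X)).subtype)
    (htP : t ∈ Subgroup.centralizer (P : Set X))
    (g : X) (hgN : ∀ s ∈ (S : Subgroup ↥(Subgroup.normalizer (P : Set X))).map (Subgroup.normalizer (P : Set X)).subtype, g * s * g⁻¹ ∈ (S : Subgroup ↥(Subgroup.normalizer (P : Set X))).map (Subgroup.normalizer (P : Set X)).subtype)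
    (hgS : g ∉ (S : Subgroup ↥(Subgroup.normalizer (P : Set X))).map (Subgroup.normalizer (P : Set X)).subtype) (hg2 : g ^ 2 ∈ (S : Subgroup ↥(Subgroup.normalizer (P : Set X))).map (Subgroup.normalizer (P : Set X)).subtype)
    (hgt : g * t * g⁻¹ ∈ P ⊔ Subgroup.centralizer (P : Set X)) :
    ⁅P, Cfsg.oddCore X⁆ = ⊥ ∧
      ∀ L : Subgroup X, Cfsg.IsPComponent 2 L → P ≤ L → (∀ l ∈ L, t * l * t⁻¹ ∈ L) → Cfsg.IsQuasisimple ↥L := by
  have h : P ≤ 𝓒(pPrimeCore 2 X) := by
    refine aux hP (r1_of_rank hr) (od_iff.2 ?_) (syl_map Nat.prime_two S) ht htS htP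
      (mem_norm_of_cj_le fun x hx => ?_) hgS (by rwa [← sq]) hgt
    · have : P ⊓ 𝓒(P) = (center P).map P.subtype := by
        ext x
        constructor
        · rintro ⟨h1, h2⟩
          exact ⟨⟨x, h1⟩, mem_center_iff.2 fun y => Subtype.ext (h2 y y.2), rfl⟩
        · rintro ⟨y, hy, rfl⟩
          exact ⟨y.2, fun z hz => congrArg Subtype.val (mem_center_iff.1 hy ⟨z, hz⟩)⟩
      rwa [this, card_map_of_injective P.subtype_injective]
    · obtain ⟨y, hy, rfl⟩ := mem_cj'.1 hx
      exact hgN y hy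
  exact ⟨comm_eq_bot_iff.2 h, fun L hL l _ => qs_of_le hP.1 h hL l⟩

end Cfsg.Agent.S3153
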