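import Cfsg.Statements.S3154
import Cfsg.Agent.Lib.Odd.BG4x3
import Cfsg.Agent.Lib.Lin.FieldIso
import Cfsg.Agent.Lib.Lin.SLnCard

set_option autoImplicit false
open Cfsg

namespace Cfsg.Agent.S3154

open Matrix Subgroup
open scoped MatrixGroups

theorem iso_of_compl {G : Type*} [Group G] {A C D N : Subgroup G} (hN : N ≤ normalizer (A : Set G))
    (hC : A ⊓ C = ⊥) (hC' : A ⊔ C = N) (hD : A ⊓ D = ⊥) (hD' : A ⊔ D = N) : Nonempty (C ≃* D) := by
  have : (A.subgroupOf N).Normal := normal_subgroupOf_of_le_normalizer hN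
  have key : ∀ C : Subgroup G, A ⊓ C = ⊥ → A ⊔ C = N → Nonempty (C ≃* N ⧸ A.subgroupOf N) := by
    intro C h1 h2
    have hCN : C ≤ N := h2 ▸ le_sup_right
    have hAN : A ≤ N := h2 ▸ le_sup_left
    refine ⟨MulEquiv.ofBijective ((QuotientGroup.mk' _).comp (inclusion hCN)) ⟨?_, ?_⟩⟩
    · rw [injective_iff_map_eq_one]
      intro x hx
      have h3 : (x : G) ∈ A := (QuotientGroup.eq_one_iff (N := A.subgroupOf N) _).1 hx
      exact Subtype.ext (mem_bot.1 (h1 ▸ (⟨h3, x.2⟩ : (x : G) ∈ A ⊓ C)))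
    · intro y
      obtain ⟨y, rfl⟩ := QuotientGroup.mk_surjective y
      have h3 : y ∈ A.subgroupOf N ⊔ C.subgroupOf N := by
        rw [← subgroupOf_sup hAN hCN, h2]; exact y.2
      rw [sup_comm] at h3
      obtain ⟨c, hc, a, ha, rfl⟩ := (mem_sup_of_normal_right).1 h3
      exact ⟨⟨c, hc⟩, (QuotientGroup.mk_mul_of_mem c ha).symm⟩
  obtain ⟨e⟩ := key C hC hC'
  obtain ⟨f⟩ := key D hD hD'
  exact ⟨e.trans f.symm⟩

variable {F : Type*} [Field F]

def ut3 (a b c : F) : SL(3, F) := ⟨!![1, a, c; 0, 1, b; 0, 0, 1], by simp [Matrix.det_fin_three]⟩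

theorem ut3_mul (a b c a' b' c' : F) : ut3 a b c * ut3 a' b' c' = ut3 (a + a') (b + b') (c + c' + a * b') :=
  Subtype.ext (by
    rw [Matrix.SpecialLinearGroup.coe_mul]
    ext i j; fin_cases i <;> fin_cases j <;> simp [ut3, Matrix.mul_apply, Fin.sum_univ_three] <;> ring)

theorem ut3_zero : ut3 (0 : F) 0 0 = 1 := Subtype.ext (by ext i j; fin_cases i <;> fin_cases j <;> simp [ut3])

def emb0 (M : SL(2, F)) : SL(3, F) := ⟨!![1, 0, 0; 0, M.1 0 0, M.1 0 1; 0, M.1 1 0, M.1 1 1], by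
    have := M.2
    rw [det_fin_two] at this
    simp [det_fin_three, this]⟩

theorem emb0_val (M : SL(2, F)) : (emb0 M).1 = !![1, 0, 0; 0, M.1 0 0, M.1 0 1; 0, M.1 1 0, M.1 1 1] := rfl

def emb : SL(2, F) →* SL(3, F) := MonoidHom.mk' emb0 fun M N => Subtype.ext (by
    rw [Matrix.SpecialLinearGroup.coe_mul (emb0 M), emb0_val, emb0_val, emb0_val, Matrix.SpecialLinearGroup.coe_mul]
    ext i j; fin_cases i <;> fin_cases j <;> simp [Matrix.mul_apply, Fin.sum_univ_three, Fin.sum_univ_two])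

theorem ut3_val (a b c : F) : (ut3 a b c).1 = !![1, a, c; 0, 1, b; 0, 0, 1] := rfl

theorem emb_val (M : SL(2, F)) : (emb M).1 = !![1, 0, 0; 0, M.1 0 0, M.1 0 1; 0, M.1 1 0, M.1 1 1] := rfl

theorem mk_eq {g h : SL(3, F)} (e : (g : PSL(3, F)) = h) : ∃ r : F, r ^ 3 = 1 ∧ h.1 = r • g.1 := by
  obtain ⟨r, hr, e⟩ := Matrix.SpecialLinearGroup.mem_center_iff.1 (QuotientGroup.eq.1 e)
  refine ⟨r, by simpa using hr, ?_⟩
  have : h = g * (g⁻¹ * h) := by group
  rw [this, Matrix.SpecialLinearGroup.coe_mul, ← e, scalar_apply, ← smul_one_eq_diagonal]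
  simp

theorem mk_eq' {g h : SL(3, F)} (e : (g : PSL(3, F)) = h) (h1 : g.1 0 0 = 1) (h2 : h.1 0 0 = 1) : g = h := by
  obtain ⟨r, -, e⟩ := mk_eq e
  have := congrFun (congrFun e 0) 0
  rw [Matrix.smul_apply, h1, h2, smul_eq_mul, mul_one] at this
  rw [← this, one_smul] at e
  exact Subtype.ext e.symm

def v (a b c : F) : PSL(3, F) := (ut3 a b c : SL(3, F))

theorem v_mul (a b c a' b' c' : F) : v a b c * v a' b' c' = v (a + a') (b + b') (c + c' + a * b') := by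
  rw [v, v, ← QuotientGroup.mk_mul, ut3_mul]; rfl

theorem v_zero : v (0 : F) 0 0 = 1 := by rw [v, ut3_zero]; rfl

theorem v_inj {a b c a' b' c' : F} (h : v a b c = v a' b' c') : a = a' ∧ b = b' ∧ c = c' := by
  have h := mk_eq' h rfl rfl
  exact ⟨congrArg (fun g => g.1 0 1) h, congrArg (fun g => g.1 1 2) h, congrArg (fun g => g.1 0 2) h⟩

theorem v_inv (a b c : F) : (v a b c)⁻¹ = v (-a) (-b) (a * b - c) :=
  inv_eq_of_mul_eq_one_right (by rw [v_mul, ← v_zero]; congr 1 <;> ring)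

def d : SL(2, F) →* PSL(3, F) := (QuotientGroup.mk' _).comp emb

theorem v_eq_d {a c : F} {M : SL(2, F)} (h : v a 0 c = d M) : M = 1 := by
  have h := mk_eq' (g := ut3 a 0 c) (h := emb M) h rfl rfl
  have e := fun i j => congrArg (fun g : SL(3, F) => g.1 i j) h
  ext i j
  fin_cases i <;> fin_cases j
  · exact (e 1 1).symm
  · exact (e 1 2).symm
  · exact (e 2 1).symm
  · exact (e 2 2).symm

theorem v_d (a c : F) (M : SL(2, F)) :
    v a 0 c * d M = d M * v (a * M.1 0 0 + c * M.1 1 0) 0 (a * M.1 0 1 + c * M.1 1 1) := by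
  change ((ut3 a 0 c * emb M : SL(3, F)) : PSL(3, F)) = (emb M * ut3 _ 0 _ : SL(3, F))
  congr 1
  apply Subtype.ext
  rw [Matrix.SpecialLinearGroup.coe_mul, Matrix.SpecialLinearGroup.coe_mul, emb_val]
  ext i j; fin_cases i <;> fin_cases j <;> simp [ut3, Matrix.mul_apply, Fin.sum_univ_three]

theorem norm_v (hF : ∀ r : F, r ≠ 0 → r ^ 3 = 1) {y : PSL(3, F)} {a c : F} (h : y * v 1 0 0 = v a 0 c * y) :
    ∃ a c M, y = v a 0 c * d M := by
  obtain ⟨g, rfl⟩ := QuotientGroup.mk_surjective y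
  obtain ⟨r, -, e⟩ := mk_eq (g := g * ut3 1 0 0) (h := ut3 a 0 c * g) h
  rw [Matrix.SpecialLinearGroup.coe_mul, Matrix.SpecialLinearGroup.coe_mul, ut3_val, ut3_val] at e
  have e := fun i j => congrFun (congrFun e i) j
  have e10 := e 1 0; have e11 := e 1 1; have e12 := e 1 2
  have e20 := e 2 0; have e21 := e 2 1; have e22 := e 2 2
  simp only [Matrix.mul_apply, Fin.sum_univ_three, Matrix.smul_apply,
    smul_eq_mul, of_apply, cons_val', cons_val, cons_val_zero, cons_val_one, cons_val_fin_one, mul_one, one_mul,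
    mul_zero, zero_mul, add_zero, zero_add] at e10 e11 e12 e20 e21 e22
  have hd := g.2
  rw [det_fin_three] at hd
  have hr : r = 1 := by
    by_contra h1
    have h1' : 1 - r ≠ 0 := sub_ne_zero.2 (Ne.symm h1)
    have a10 : g.1 1 0 = 0 := (mul_eq_zero.1 (show (1 - r) * g.1 1 0 = 0 by linear_combination e10)).resolve_left h1'
    have a12 : g.1 1 2 = 0 := (mul_eq_zero.1 (show (1 - r) * g.1 1 2 = 0 by linear_combination e12)).resolve_left h1'
    have a11 : g.1 1 1 = 0 := (mul_eq_zero.1 (show (1 - r) * g.1 1 1 = 0 by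
      linear_combination e11 + r * a10)).resolve_left h1'
    simp [a10, a11, a12] at hd
  subst hr
  have a10 : g.1 1 0 = 0 := by linear_combination -e11
  have a20 : g.1 2 0 = 0 := by linear_combination -e21
  rw [a10, a20] at hd
  have h0 : g.1 0 0 ≠ 0 := fun h => by simp [h] at hd
  have h3 := hF _ h0
  set α := g.1 0 0 with hα
  let M : SL(2, F) := ⟨!![α ^ 2 * g.1 1 1, α ^ 2 * g.1 1 2; α ^ 2 * g.1 2 1, α ^ 2 * g.1 2 2], by
    rw [det_fin_two_of]; linear_combination α ^ 3 * hd + h3⟩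
  refine ⟨g.1 0 1 * g.1 2 2 * α - g.1 0 2 * g.1 2 1 * α, g.1 0 2 * g.1 1 1 * α - g.1 0 1 * g.1 1 2 * α, M, ?_⟩
  change (g : PSL(3, F)) = (ut3 _ 0 _ * emb M : SL(3, F))
  rw [QuotientGroup.eq, Matrix.SpecialLinearGroup.mem_center_iff]
  refine ⟨α ^ 2, by simp; linear_combination (α ^ 3 + 1) * h3, ?_⟩
  have : (ut3 (g.1 0 1 * g.1 2 2 * α - g.1 0 2 * g.1 2 1 * α) 0 (g.1 0 2 * g.1 1 1 * α - g.1 0 1 * g.1 1 2 * α) *
      emb M).1 = α ^ 2 • g.1 := by
    rw [Matrix.SpecialLinearGroup.coe_mul, emb_val]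
    ext i j; fin_cases i <;> fin_cases j <;> simp [ut3, M, Matrix.mul_apply, Fin.sum_univ_three, a10, a20, ← hα]
    · linear_combination -h3
    · linear_combination α ^ 2 * g.1 0 1 * hd
    · linear_combination α ^ 2 * g.1 0 2 * hd
  rw [Matrix.SpecialLinearGroup.coe_mul, this, Matrix.mul_smul, ← Matrix.SpecialLinearGroup.coe_mul, inv_mul_cancel,
    scalar_apply, ← smul_one_eq_diagonal]
  rfl

def tau0 : SL(3, F) →* SL(3, F) :=
  MonoidHom.mk' (fun g => ⟨((g⁻¹).1ᵀ).submatrix Fin.revPerm Fin.revPerm, by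
      rw [det_submatrix_equiv_self, det_transpose, (g⁻¹).2]⟩) fun g h => Subtype.ext (by
      change ((g * h)⁻¹).1ᵀ.submatrix _ _ = (g⁻¹).1ᵀ.submatrix _ _ * (h⁻¹).1ᵀ.submatrix _ _
      rw [submatrix_mul_equiv, _root_.mul_inv_rev, ← transpose_mul]; rfl)

theorem tau0_tau0 (g : SL(3, F)) : tau0 (tau0 g) = g := by
  apply Subtype.ext
  change ((tau0 g)⁻¹).1ᵀ.submatrix Fin.revPerm Fin.revPerm = _
  rw [← map_inv]
  change ((g⁻¹⁻¹).1ᵀ.submatrix Fin.revPerm Fin.revPerm)ᵀ.submatrix Fin.revPerm Fin.revPerm = _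
  rw [inv_inv]
  ext i j
  simp

def tau : SL(3, F) ≃* SL(3, F) := { tau0 with invFun := tau0, left_inv := tau0_tau0, right_inv := tau0_tau0 }

theorem tau_v (a b c : F) : CA.FieldIso.quotCenter tau (v a b c) = v (-b) (-a) (a * b - c) := by
  rw [v, CA.FieldIso.quotCenter_mk, v]
  congr 1
  apply Subtype.ext
  have : (ut3 a b c)⁻¹ = ut3 (-a) (-b) (a * b - c) :=
    inv_eq_of_mul_eq_one_right (by rw [ut3_mul, ← ut3_zero]; congr 1 <;> ring)
  change ((ut3 a b c)⁻¹).1ᵀ.submatrix Fin.revPerm Fin.revPerm = _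
  rw [this]
  ext i j; fin_cases i <;> fin_cases j <;> rfl

variable (F) in
def A : Subgroup PSL(3, F) where
  carrier := {y | ∃ a c, y = v a 0 c}
  one_mem' := ⟨0, 0, v_zero.symm⟩
  mul_mem' := by rintro _ _ ⟨a, c, rfl⟩ ⟨a', c', rfl⟩; exact ⟨_, _, by rw [v_mul, add_zero]⟩
  inv_mem' := by rintro _ ⟨a, c, rfl⟩; exact ⟨_, _, by rw [v_inv, neg_zero]⟩

variable (F) in
def U : Subgroup PSL(3, F) where
  carrier := {y | ∃ a b c, y = v a b c}
  one_mem' := ⟨0, 0, 0, v_zero.symm⟩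
  mul_mem' := by rintro _ _ ⟨a, b, c, rfl⟩ ⟨a', b', c', rfl⟩; exact ⟨_, _, _, v_mul ..⟩
  inv_mem' := by rintro _ ⟨a, b, c, rfl⟩; exact ⟨_, _, _, v_inv ..⟩

theorem conj_d (M : SL(2, F)) (a c : F) : ∃ a' c', d M * v a 0 c * (d M)⁻¹ = v a' 0 c' := by
  have := v_d a c M⁻¹
  exact ⟨_, _, by rw [mul_assoc, ← map_inv, this, ← mul_assoc, ← map_mul, mul_inv_cancel, map_one, one_mul]⟩

theorem norm_A [Finite F] (hF : ∀ r : F, r ≠ 0 → r ^ 3 = 1) :
    A F ⊔ (d (F := F)).range = normalizer (A F : Set PSL(3, F)) := by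
  refine le_antisymm (sup_le le_normalizer ?_) fun y hy => ?_
  · rintro _ ⟨M, rfl⟩
    refine mem_normalizer_fintype ?_
    rintro _ ⟨a, c, rfl⟩
    exact conj_d M a c
  · obtain ⟨a, c, e⟩ := (mem_normalizer_iff.1 hy (v 1 0 0)).1 ⟨1, 0, rfl⟩
    obtain ⟨a', c', M, rfl⟩ := norm_v hF (mul_inv_eq_iff_eq_mul.1 e)
    exact mul_mem_sup ⟨a', c', rfl⟩ ⟨M, rfl⟩

theorem trans_A {a c : F} (h : a ≠ 0 ∨ c ≠ 0) : ∃ M, v a 0 c = (d M)⁻¹ * v 1 0 0 * d M := by
  obtain ⟨M, h0, h1⟩ : ∃ M : SL(2, F), M.1 0 0 = a ∧ M.1 0 1 = c := by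
    by_cases ha : a = 0
    · have hc := h.resolve_left (not_not.2 ha)
      exact ⟨⟨!![a, c; -c⁻¹, 0], by simp [det_fin_two, hc]⟩, rfl, rfl⟩
    · exact ⟨⟨!![a, c; 0, a⁻¹], by simp [det_fin_two, ha]⟩, rfl, rfl⟩
  exact ⟨M, by rw [mul_assoc, v_d, inv_mul_cancel_left, h0, h1]; simp⟩

variable {X : Type*} [Group X] {π : X →* PSL(3, F)} {H K : Subgroup X}

theorem elem (h2 : (2 : F) = 0) {w : F} (w0 : w ≠ 0) (w1 : 1 + w ≠ 0) (hπ : Function.Surjective π)
    (hk : ∀ x, π x = 1 ↔ x ∈ center X) (hZ : ∀ z ∈ center X, z ^ 2 = 1)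
    (hH : ∀ x, x ∈ H ↔ ∃ a c, π x = v a 0 c) : IsElementaryAbelian 2 H := by
  obtain ⟨x₀, h₀⟩ := hπ (v 1 0 0)
  have hsq : ∀ x a c, π x = v a 0 c → x * x ∈ center X := fun x a c e => by
    rw [← hk, map_mul, e, v_mul, ← v_zero]; congr 1
    · linear_combination a * h2
    · ring
    · linear_combination c * h2
  have key : ∀ x a c, π x = v a 0 c → (a ≠ 0 ∨ c ≠ 0) → x * x = x₀ * x₀ := fun x a c e h => by
    obtain ⟨M, hM⟩ := trans_A h
    obtain ⟨n, hn⟩ := hπ (d M)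
    have hz' : (n⁻¹ * x₀ * n)⁻¹ * x ∈ center X := by
      rw [← hk, map_mul, map_inv, map_mul, map_mul, map_inv, hn, h₀, ← hM, e, inv_mul_cancel]
    obtain ⟨z, hz, rfl⟩ : ∃ z ∈ center X, x = n⁻¹ * x₀ * n * z := ⟨_, hz', by group⟩
    have h1 := mem_center_iff.1 hz (n⁻¹ * x₀ * n)
    have h3 := mem_center_iff.1 (hsq x₀ 1 0 h₀) n
    calc _ = n⁻¹ * x₀ * n * (z * (n⁻¹ * x₀ * n)) * z := by group
      _ = n⁻¹ * (x₀ * x₀ * n) * z ^ 2 := by rw [← h1, pow_two]; group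
      _ = _ := by rw [← h3, hZ z hz]; group
  obtain ⟨y, hy⟩ := hπ (v 0 0 1)
  obtain ⟨t, ht⟩ := hπ (v 0 0 w)
  set s := x₀ * x₀ with hs
  have hsc : s ∈ center X := hsq x₀ 1 0 h₀
  have hs2 : s * s = 1 := by rw [← pow_two, hZ s hsc]
  have comm : ∀ y c, π y = v 0 0 c → c ≠ 0 → y * x₀ = x₀ * y * s := fun y c e hc => by
    have a1 := key y 0 c e (Or.inr hc)
    have a2 := key (x₀ * y) 1 c (by rw [map_mul, h₀, e, v_mul]; congr 1 <;> ring) (Or.inl one_ne_zero)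
    have a3 : x₀⁻¹ = x₀ * s := by
      rw [inv_eq_iff_mul_eq_one, ← mul_assoc, ← hs, hs2]
    have a4 : y⁻¹ = y * s := by
      rw [inv_eq_iff_mul_eq_one, ← mul_assoc, a1, hs2]
    calc y * x₀ = x₀⁻¹ * (x₀ * y * (x₀ * y)) * y⁻¹ := by group
      _ = x₀ * (s * s) * y * s := by rw [a2, a3, a4]; simp only [mul_assoc]
      _ = _ := by rw [hs2, mul_one]
  have c1 := comm y 1 hy one_ne_zero
  have c2 := comm t w ht w0
  have c3 := comm (y * t) (1 + w) (by rw [map_mul, hy, ht, v_mul]; congr 1 <;> ring) w1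
  have hs1 : s = 1 := by
    have : y * t * x₀ = x₀ * (y * t) := by
      calc y * t * x₀ = y * (t * x₀) := mul_assoc _ _ _
        _ = y * x₀ * t * s := by rw [c2]; simp only [mul_assoc]
        _ = x₀ * y * (s * t) * s := by rw [c1]; simp only [mul_assoc]
        _ = x₀ * (y * t) * (s * s) := by rw [← mem_center_iff.1 hsc t]; simp only [mul_assoc]
        _ = _ := by rw [hs2, mul_one]
    rw [this] at c3
    exact (mul_eq_left.1 c3.symm)
  have he : ∀ x ∈ H, x ^ 2 = 1 := fun x hx => by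
    obtain ⟨a, c, e⟩ := (hH x).1 hx
    by_cases h : a ≠ 0 ∨ c ≠ 0
    · rw [pow_two, key x a c e h, hs1]
    · push Not at h
      rw [h.1, h.2, v_zero] at e
      exact hZ x ((hk x).1 e)
  refine ⟨⟨⟨fun x y => Subtype.ext ?_⟩⟩, he⟩
  have a1 := he _ (x * y).2
  have a2 := he _ x.2
  have a3 := he _ y.2
  rw [pow_two] at a1 a2 a3
  change (x : X) * y = y * x
  refine (eq_inv_of_mul_eq_one_left a1).trans ?_
  change ((x : X) * y)⁻¹ = _
  rw [_root_.mul_inv_rev, ← eq_inv_of_mul_eq_one_left a2, ← eq_inv_of_mul_eq_one_left a3]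

theorem sup_eq (hπ : Function.Surjective π) (hH : ∀ x, x ∈ H ↔ ∃ a c, π x = v a 0 c)
    (hK : ∀ x, x ∈ K ↔ ∃ b c, π x = v 0 b c) (x : X) : x ∈ H ⊔ K ↔ π x ∈ U F := by
  constructor
  · refine fun hx => (show H ⊔ K ≤ (U F).comap π from sup_le (fun y hy => ?_) fun y hy => ?_) hx
    · obtain ⟨a, c, e⟩ := (hH y).1 hy
      exact ⟨a, 0, c, e⟩
    · obtain ⟨a, c, e⟩ := (hK y).1 hy
      exact ⟨0, a, c, e⟩
  · rintro ⟨a, b, c, e⟩
    obtain ⟨k, hk⟩ := hπ (v 0 b 0)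
    have : x = x * k⁻¹ * k := by group
    rw [this]
    refine mul_mem_sup ((hH _).2 ⟨a, c - a * b, ?_⟩) ((hK _).2 ⟨b, 0, hk⟩)
    rw [map_mul, map_inv, e, hk, v_inv, v_mul]; congr 1 <;> ring

theorem compl [Finite F] [Finite X] (h2 : (2 : F) = 0) (hF : ∀ r : F, r ≠ 0 → r ^ 3 = 1)
    (hπ : Function.Surjective π) (hH : ∀ x, x ∈ H ↔ ∃ a c, π x = v a 0 c)
    (hK : ∀ x, x ∈ K ↔ ∃ b c, π x = v 0 b c) (eH : IsElementaryAbelian 2 H) (eK : IsElementaryAbelian 2 K)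
    (hi : ¬ 2 ∣ (H ⊔ K).index) :
    ∃ C : Subgroup X, C ≤ normalizer (H : Set X) ∧ C ⊓ H = ⊥ ∧ H ⊔ C = normalizer (H : Set X) ∧
      Nonempty (C ≃* PSL(2, F)) := by
  have hA : H = (A F).comap π := by ext x; exact hH x
  have hN : normalizer (H : Set X) = (normalizer (A F : Set PSL(3, F))).comap π := by
    rw [hA, comap_normalizer_eq_of_surjective _ hπ]
  have hUN : H ⊔ K ≤ normalizer (H : Set X) := by
    refine sup_le le_normalizer fun k hk => mem_normalizer_fintype fun x hx => ?_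
    obtain ⟨b, c, e⟩ := (hK k).1 hk
    obtain ⟨a, c', e'⟩ := (hH x).1 hx
    exact (hH _).2 ⟨a, c' - a * b, by rw [map_mul, map_mul, map_inv, e, e', v_inv, v_mul, v_mul]; congr 1 <;> ring⟩
  obtain ⟨W, hW, w1, w2⟩ := CA.BG4.exists_compl_elem Nat.prime_two eK (inf_le_right (a := H))
  have : Fact (Nat.Prime 2) := ⟨Nat.prime_two⟩
  obtain ⟨k, hk⟩ := (IsPGroup.iff_card (p := 2) (G := H)).1 fun x => ⟨1, Subtype.ext (eH.2 x x.2)⟩
  obtain ⟨C, hC, c1, c2⟩ := CA.BG4.gaschutz (K := H) (U := H ⊔ K) (A := W) le_sup_left hUN le_rfl eH.1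
    (by
      rw [hk]
      exact Nat.Coprime.pow_left _ ((Nat.Prime.coprime_iff_not_dvd Nat.prime_two).2 fun h =>
        hi (h.trans (relIndex_dvd_index_of_le hUN))))
    (hW.trans le_sup_right) (by rw [← w1, inf_assoc, inf_eq_right.2 hW])
    (by
      refine le_antisymm (sup_le_sup_left hW _) (sup_le le_sup_left ?_)
      rw [← w2]
      exact sup_le_sup_right inf_le_left _)
  refine ⟨C, hC, by rw [inf_comm, c1], c2, ?_⟩
  have hAm : H.map π = A F := by rw [hA, map_comap_eq_self_of_surjective hπ]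
  have hker : ∀ x ∈ C, π x ∈ A F → x = 1 := fun x hx h => mem_bot.1 (c1 ▸ (⟨(hH x).2 h, hx⟩ : x ∈ H ⊓ C))
  have d1 : A F ⊓ C.map π = ⊥ := by
    rw [eq_bot_iff]
    rintro _ ⟨h, x, hx, rfl⟩
    rw [hker x hx h, map_one]; exact one_mem _
  have d2 : A F ⊔ C.map π = normalizer (A F : Set PSL(3, F)) := by
    rw [← hAm, ← Subgroup.map_sup, c2, hN, hAm, map_comap_eq_self_of_surjective hπ]
  have d3 : A F ⊓ (d (F := F)).range = ⊥ := by
    rw [eq_bot_iff]
    rintro _ ⟨⟨a, c, e⟩, M, rfl⟩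
    rw [v_eq_d e.symm, map_one]; exact one_mem _
  obtain ⟨e1⟩ := iso_of_compl le_rfl d1 d2 d3 (norm_A hF)
  have e0 : C ≃* C.map π := MulEquiv.ofBijective (π.subgroupMap C) ⟨by
    rw [injective_iff_map_eq_one]
    intro x hx
    have : π x = 1 := congrArg Subtype.val hx
    exact Subtype.ext (hker x x.2 (this ▸ one_mem _)), π.subgroupMap_surjective C⟩
  have e2 : SL(2, F) ≃* (d (F := F)).range := MonoidHom.ofInjective (by
    rw [injective_iff_map_eq_one]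
    exact fun M h => v_eq_d (v_zero.trans h.symm))
  have e3 : SL(2, F) ≃* PSL(2, F) := MulEquiv.ofBijective (QuotientGroup.mk' _) ⟨by
    rw [injective_iff_map_eq_one]
    intro M h
    obtain ⟨r, hr, e⟩ := Matrix.SpecialLinearGroup.mem_center_iff.1 ((QuotientGroup.eq_one_iff M).1 h)
    have h1 : r = 1 := by
      have : (r - 1) ^ 2 = 0 := by rw [Fintype.card_fin] at hr; linear_combination hr + (1 - r) * h2
      exact sub_eq_zero.1 (pow_eq_zero_iff two_ne_zero |>.1 this)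
    exact Subtype.ext (by rw [← e, h1]; simp), QuotientGroup.mk'_surjective _⟩
  exact ⟨e0.trans (e1.trans (e2.symm.trans e3))⟩

theorem main [Finite F] [Finite X] (h2 : (2 : F) = 0) (hF : ∀ r : F, r ≠ 0 → r ^ 3 = 1) {w : F} (w0 : w ≠ 0)
    (w1 : 1 + w ≠ 0) (hπ : Function.Surjective π) (hk : ∀ x, π x = 1 ↔ x ∈ center X)
    (hZ : ∀ z ∈ center X, z ^ 2 = 1) (hH : ∀ x, x ∈ H ↔ ∃ a c, π x = v a 0 c)
    (hK : ∀ x, x ∈ K ↔ ∃ b c, π x = v 0 b c) (hi : ¬ 2 ∣ (H ⊔ K).index) :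
    IsElementaryAbelian 2 H ∧ IsElementaryAbelian 2 K ∧ H ⊓ K = (center ↥(H ⊔ K)).map (H ⊔ K).subtype ∧
    (∃ C : Subgroup X, C ≤ normalizer (H : Set X) ∧ C ⊓ H = ⊥ ∧ H ⊔ C = normalizer (H : Set X) ∧
      Nonempty (C ≃* PSL(2, F))) ∧
    ∃ C : Subgroup X, C ≤ normalizer (K : Set X) ∧ C ⊓ K = ⊥ ∧ K ⊔ C = normalizer (K : Set X) ∧
      Nonempty (C ≃* PSL(2, F)) := by
  let σ : PSL(3, F) ≃* PSL(3, F) := CA.FieldIso.quotCenter tau
  let π' : X →* PSL(3, F) := σ.toMonoidHom.comp π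
  have hπ' : Function.Surjective π' := σ.surjective.comp hπ
  have key : ∀ x a b c, π' x = v a b c ↔ π x = v (-b) (-a) (a * b - c) := fun x a b c => by
    rw [← σ.injective.eq_iff (a := π x), tau_v]
    change σ (π x) = _ ↔ _
    rw [neg_neg, neg_neg, show -b * -a - (a * b - c) = c by ring]
  have hk' : ∀ x, π' x = 1 ↔ x ∈ center X := fun x => (map_eq_one_iff σ σ.injective).trans (hk x)
  have hK' : ∀ x, x ∈ K ↔ ∃ a c, π' x = v a 0 c := fun x => by
    rw [hK]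
    exact ⟨fun ⟨b, c, e⟩ => ⟨-b, -c, by rw [key, e]; simp⟩, fun ⟨a, c, e⟩ => ⟨_, _, by rw [(key ..).1 e, neg_zero]⟩⟩
  have hH' : ∀ x, x ∈ H ↔ ∃ b c, π' x = v 0 b c := fun x => by
    rw [hH]
    exact ⟨fun ⟨b, c, e⟩ => ⟨-b, -c, by rw [key, e]; simp⟩, fun ⟨a, c, e⟩ => ⟨_, _, by rw [(key ..).1 e, neg_zero]⟩⟩
  have eH := elem h2 w0 w1 hπ hk hZ hH
  have eK := elem h2 w0 w1 hπ' hk' hZ hK'
  refine ⟨eH, eK, ?_, compl h2 hF hπ hH hK eH eK hi, compl h2 hF hπ' hK' hH' eK eH (sup_comm H K ▸ hi)⟩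
  ext x
  constructor
  · rintro ⟨h1, h3⟩
    refine ⟨⟨x, mem_sup_left h1⟩, mem_center_iff.2 fun y => Subtype.ext ?_, rfl⟩
    have : H ⊔ K ≤ centralizer {x} := sup_le
      (fun z hz => mem_centralizer_singleton_iff.2 (congrArg Subtype.val (eH.1.1.1 ⟨z, hz⟩ ⟨x, h1⟩)))
      (fun z hz => mem_centralizer_singleton_iff.2 (congrArg Subtype.val (eK.1.1.1 ⟨z, hz⟩ ⟨x, h3⟩)))
    exact mem_centralizer_singleton_iff.1 (this y.2)
  · rintro ⟨x, hx, rfl⟩
    obtain ⟨a, b, c, e⟩ := (sup_eq hπ hH hK x).1 x.2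
    obtain ⟨y, hy⟩ := hπ (v 1 0 0)
    obtain ⟨z, hz⟩ := hπ (v 0 1 0)
    have a1 := congrArg (fun t : ↥(H ⊔ K) => π t)
      (mem_center_iff.1 hx ⟨y, mem_sup_left ((hH y).2 ⟨1, 0, hy⟩)⟩)
    have a2 := congrArg (fun t : ↥(H ⊔ K) => π t)
      (mem_center_iff.1 hx ⟨z, mem_sup_right ((hK z).2 ⟨1, 0, hz⟩)⟩)
    simp only [Subgroup.coe_mul, map_mul, e, hy, hz, v_mul] at a1 a2
    have b0 : b = 0 := by linear_combination (v_inj a1).2.2
    have a0 : a = 0 := by linear_combination -(v_inj a2).2.2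
    exact ⟨(hH _).2 ⟨a, c, b0 ▸ e⟩, (hK _).2 ⟨b, c, a0 ▸ e⟩⟩

theorem cases [Finite F] (h2 : (2 : F) = 0) (hc : Nat.card F = 4) {E : Subgroup PSL(3, F)} (hE : E ≤ U F)
    (h1 : ∀ x ∈ E, x ^ 2 = 1) (h16 : Nat.card E = 16) :
    (∀ x, x ∈ E ↔ ∃ a c, x = v a 0 c) ∨ ∀ x, x ∈ E ↔ ∃ b c, x = v 0 b c := by
  have hsq : ∀ a b c, v a b c ∈ E → a * b = 0 := fun a b c h => by
    have := h1 _ h
    rw [pow_two, v_mul, ← v_zero] at this
    linear_combination (v_inj this).2.2 - c * h2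
  have fin : ∀ f : F × F → PSL(3, F), (∀ x ∈ E, ∃ p, x = f p) → ∀ p, f p ∈ E := fun f hf => by
    have : (E : Set PSL(3, F)) = Set.range f := by
      refine Set.eq_of_subset_of_ncard_le (fun x hx => (hf x hx).imp fun _ e => e.symm) ?_
      rw [← Nat.card_coe_set_eq (E : Set PSL(3, F)), SetLike.coe_sort_coe, h16, ← Set.image_univ]
      refine (Set.ncard_image_le Set.finite_univ).trans ?_
      rw [Set.ncard_univ, Nat.card_prod, hc]
    exact fun p => (Set.ext_iff.1 this _).2 ⟨p, rfl⟩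
  by_cases h : ∀ a b c, v a b c ∈ E → b = 0
  · have : ∀ x ∈ E, ∃ p : F × F, x = v p.1 0 p.2 := fun x hx => by
      obtain ⟨a, b, c, rfl⟩ := hE hx
      exact ⟨(a, c), by rw [h a b c hx]⟩
    exact Or.inl fun x => ⟨fun hx => (this x hx).elim fun p e => ⟨_, _, e⟩,
      fun ⟨a, c, e⟩ => e ▸ fin (fun p => v p.1 0 p.2) this (a, c)⟩
  · push Not at h
    obtain ⟨a₀, b₀, c₀, h0, hb⟩ := h
    have ha : a₀ = 0 := (mul_eq_zero.1 (hsq _ _ _ h0)).resolve_right hb
    have : ∀ x ∈ E, ∃ p : F × F, x = v 0 p.1 p.2 := fun x hx => by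
      obtain ⟨a, b, c, rfl⟩ := hE hx
      have a1 := hsq _ _ _ hx
      have a2 := hsq _ _ _ (v_mul a b c a₀ b₀ c₀ ▸ E.mul_mem hx h0)
      have a3 : a * b₀ = 0 := by rw [ha] at a2; linear_combination a2 - a1
      exact ⟨(b, c), by rw [(mul_eq_zero.1 a3).resolve_right hb]⟩
    exact Or.inr fun x => ⟨fun hx => (this x hx).elim fun p e => ⟨_, _, e⟩,
      fun ⟨a, c, e⟩ => e ▸ fin (fun p => v 0 p.1 p.2) this (a, c)⟩

/-- Let X be a finite quasisimple group whose centre is an elementary abelian 2-group and whose central quotient is isomorphic to the projective special linear group of dimension 3 over the field with 4 elements. Let T be a Sylow 2-subgroup of X and H ≠ K subgroups of T containing the centre Z(X) whose images in X/Z(X) are elementary abelian of order 16 (the two such subgroups of a Sylow 2-subgroup of the quotient). Then H and K are elementary abelian, H ∩ K is the centre of the subgroup they generate,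 and each of N_X(H), N_X(K) is a split extension of H, respectively K, by the projective special linear group of dimension 2 over the field with 4 elements (there is a complement isomorphic to that group). -/
theorem result {X : Type*} [Group X] [Finite X] (hq : Cfsg.IsQuasisimple X) (hZ : Cfsg.IsElementaryAbelian 2 (Subgroup.center X))
    {F : Type*} [Field F] [Fintype F] (hF : Fintype.card F = 4) (hXL : Nonempty ((X ⧸ Subgroup.center X) ≃* Matrix.ProjectiveSpecialLinearGroup (Fin 3) F))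
    (T : Sylow 2 X) (H K : Subgroup X) (hHK : H ≠ K) (hHT : H ≤ T) (hKT : K ≤ T) (hZH : Subgroup.center X ≤ H) (hZK : Subgroup.center X ≤ K)
    (hH : Cfsg.IsElementaryAbelian 2 (H.map (QuotientGroup.mk' (Subgroup.center X))) ∧ Nat.card ↥(H.map (QuotientGroup.mk' (Subgroup.center X))) = 16)
    (hK : Cfsg.IsElementaryAbelian 2 (K.map (QuotientGroup.mk' (Subgroup.center X))) ∧ Nat.card ↥(K.map (QuotientGroup.mk' (Subgroup.center X))) = 16) :
    Cfsg.IsElementaryAbelian 2 H ∧ Cfsg.IsElementaryAbelian 2 K ∧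
      H ⊓ K = (Subgroup.center ↥(H ⊔ K)).map (H ⊔ K).subtype ∧
      (∃ C : Subgroup X, C ≤ Subgroup.normalizer (H : Set X) ∧ C ⊓ H = ⊥ ∧ H ⊔ C = Subgroup.normalizer (H : Set X) ∧
        Nonempty (↥C ≃* Matrix.ProjectiveSpecialLinearGroup (Fin 2) F)) ∧
      (∃ C : Subgroup X, C ≤ Subgroup.normalizer (K : Set X) ∧ C ⊓ K = ⊥ ∧ K ⊔ C = Subgroup.normalizer (K : Set X) ∧
        Nonempty (↥C ≃* Matrix.ProjectiveSpecialLinearGroup (Fin 2) F)) := by
  classical
  have hcF : Nat.card F = 4 := by rw [Nat.card_eq_fintype_card, hF]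
  have h2 : (2 : F) = 0 := by
    have : (2 : F) ^ 2 = 0 := by
      have := FiniteField.cast_card_eq_zero F
      rw [hF] at this
      have h4 : (4 : F) = 0 := by exact_mod_cast this
      linear_combination h4
    exact (pow_eq_zero_iff two_ne_zero).1 this
  have h3 : ∀ r : F, r ≠ 0 → r ^ 3 = 1 := fun r hr => by
    have := FiniteField.pow_card_sub_one_eq_one r hr
    rwa [hF] at this
  obtain ⟨w, w0, w1⟩ : ∃ w : F, w ≠ 0 ∧ 1 + w ≠ 0 := by
    obtain ⟨w, hw⟩ : ∃ w : F, w ∉ ({0, -1} : Finset F) := by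
      by_contra h
      push Not at h
      have := Finset.card_le_card (show Finset.univ ⊆ ({0, -1} : Finset F) from fun x _ => h x)
      have := Finset.card_le_two (a := (0 : F)) (b := -1)
      rw [Finset.card_univ, hF] at *
      omega
    simp only [Finset.mem_insert, Finset.mem_singleton, not_or] at hw
    exact ⟨w, hw.1, fun h => hw.2 (by linear_combination h)⟩
  have hc : Nat.card PSL(3, F) = 20160 := by
    have h1 := CA.SLnCard.card_PSL (F := F) 3 (by norm_num)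
    have h2 := CA.SLnCard.card_SL (F := F) 3 (by norm_num)
    rw [← h1, hcF, Fin.prod_univ_three] at h2
    generalize Nat.card PSL(3, F) = N at h2 ⊢
    norm_num at h2
    omega
  have hU : Nat.card (U F) = 2 ^ (Nat.card PSL(3, F)).factorization 2 := by
    rw [← Nat.card_congr (Equiv.ofBijective (fun x : F × F × F => (⟨v x.1 x.2.1 x.2.2, _, _, _, rfl⟩ : U F))
      ⟨fun x y e => by simpa [Prod.ext_iff] using v_inj (congrArg Subtype.val e),
        by rintro ⟨_, a, b, c, rfl⟩; exact ⟨(a, b, c), rfl⟩⟩), Nat.card_prod, Nat.card_prod, hcF, hc,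
      show 20160 = 2 ^ 6 * 315 from rfl, Nat.factorization_eq_of_coprime_left (a := 2 ^ 6) (b := 315) (by norm_num) (by simp),
      Nat.Prime.factorization_pow Nat.prime_two]
    simp
  obtain ⟨e⟩ := hXL
  let π₀ : X →* PSL(3, F) := e.toMonoidHom.comp (QuotientGroup.mk' _)
  have hπ₀ : Function.Surjective π₀ := e.surjective.comp (QuotientGroup.mk'_surjective _)
  obtain ⟨g, hg⟩ := MulAction.exists_smul_eq PSL(3, F) (T.mapSurjective hπ₀) (Sylow.ofCard (U F) hU)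
  let e' : (X ⧸ center X) ≃* PSL(3, F) := e.trans (MulAut.conj g)
  let π : X →* PSL(3, F) := e'.toMonoidHom.comp (QuotientGroup.mk' _)
  have hπ : Function.Surjective π := e'.surjective.comp (QuotientGroup.mk'_surjective _)
  have hk : ∀ x, π x = 1 ↔ x ∈ center X := fun x =>
    (map_eq_one_iff e' e'.injective).trans (QuotientGroup.eq_one_iff x)
  have hT : (T : Subgroup X).map π = U F := by
    have := congrArg (fun P : Sylow 2 PSL(3, F) => (P : Subgroup PSL(3, F))) hg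
    simp only [Sylow.coe_subgroup_smul, Sylow.coe_mapSurjective, Sylow.coe_ofCard] at this
    rw [← this]
    exact (Subgroup.map_map (T : Subgroup X) (MulAut.conj g).toMonoidHom π₀).symm
  have hmem : ∀ L : Subgroup X, center X ≤ L → ∀ x, x ∈ L ↔ π x ∈ L.map π := fun L hL x => by
    refine ⟨mem_map_of_mem π, fun ⟨y, hy, e⟩ => ?_⟩
    have : y⁻¹ * x ∈ L := hL ((hk _).1 (by rw [map_mul, map_inv, e, inv_mul_cancel]))
    exact (L.mul_mem_cancel_left (L.inv_mem hy)).1 this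
  have hcase : ∀ L : Subgroup X, L ≤ T → center X ≤ L →
      IsElementaryAbelian 2 (L.map (QuotientGroup.mk' (center X))) ∧
        Nat.card (L.map (QuotientGroup.mk' (center X))) = 16 →
      (∀ x, x ∈ L ↔ ∃ a c, π x = v a 0 c) ∨ ∀ x, x ∈ L ↔ ∃ b c, π x = v 0 b c := fun L h1 h4 h5 => by
    have := cases h2 hcF (E := L.map π) (hT ▸ map_mono h1) (by
      rintro _ ⟨x, hx, rfl⟩
      change e' (QuotientGroup.mk' _ x) ^ 2 = 1
      rw [← map_pow, h5.1.2 _ ⟨x, hx, rfl⟩, map_one]) (by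
      rw [← h5.2, ← Subgroup.map_map]
      exact card_map_of_injective e'.injective)
    exact this.imp (fun h x => (hmem L h4 x).trans (h _)) fun h x => (hmem L h4 x).trans (h _)
  have hidx : ∀ H K : Subgroup X, (∀ x, x ∈ H ↔ ∃ a c, π x = v a 0 c) → (∀ x, x ∈ K ↔ ∃ b c, π x = v 0 b c) →
      ¬ 2 ∣ (H ⊔ K).index := fun H K h1 h4 => by
    have : H ⊔ K = T := by
      ext x
      rw [sup_eq hπ h1 h4, hmem T (hZH.trans hHT), hT]
    rw [this]
    exact T.not_dvd_index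
  rcases hcase H hHT hZH hH with a | a <;> rcases hcase K hKT hZK hK with b | b
  · exact absurd (Subgroup.ext fun x => (a x).trans (b x).symm) hHK
  · exact main h2 h3 w0 w1 hπ hk hZ.2 a b (hidx H K a b)
  · obtain ⟨c1, c2, c3, c4, c5⟩ := main h2 h3 w0 w1 hπ hk hZ.2 b a (hidx K H b a)
    exact ⟨c2, c1, by rw [inf_comm, sup_comm, c3], c5, c4⟩
  · exact absurd (Subgroup.ext fun x => (a x).trans (b x).symm) hHK

end Cfsg.Agent.S3154
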