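import Cfsg.Statements.S3156
import Cfsg.Agent.Lib.Grp.Rk3

set_option autoImplicit false
open Cfsg

namespace Cfsg.Agent.S3156

open Subgroup CA.Rk2
open scoped commutatorElement

theorem eq_one {T : Type*} [Group T] {ρ : MulAut T} (h : U34 ρ) {α : MulAut T} (h3 : α ^ 3 = 1)
    (hz : ∀ z ∈ center T, α z = z) : α = 1 := by
  refine CA.PGCritical.eq_one_of_stabilizes h.isPGroup
    (Nat.Coprime.coprime_dvd_left (orderOf_dvd_of_pow_eq_one h3) (by norm_num)) hz fun x => ?_
  have e3 : α (α (α x)) = x := by simpa [pow_succ] using congrArg (fun ψ : MulAut T => ψ x) h3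
  have e : x⁻¹ * α x * α (x⁻¹ * α x) * α (α (x⁻¹ * α x)) = 1 := by simp [e3, mul_assoc]
  refine h.no_q8 (b := α (x⁻¹ * α x)) (by rw [← map_mul α (x⁻¹ * α x), hz _ (h.sq _)]) ?_
  rw [h.sq_eq_of (e ▸ one_mem _), ← map_mul α (α (x⁻¹ * α x)), ← map_mul α (x⁻¹ * α x),
    hz _ (h.sq _), hz _ (h.sq _)]

/-- If a finite group T is isomorphic to a Sylow 2-subgroup of the projective special unitary group of dimension 3 with parameter 4 (realised over the field with 16 elements), then no subgroup of the automorphism group of T is isomorphic to the symmetric group of degree 3. -/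
theorem result {T : Type*} [Group T] [Finite T] (hT : (∃ (F : Type) (_ : Field F) (_ : Fintype F), Fintype.card F = 16 ∧ ∃ S : Sylow 2 (Cfsg.PSU 3 F 4), Nonempty (T ≃* ↥(S : Subgroup (Cfsg.PSU 3 F 4))))) (H : Subgroup (MulAut T)) : ¬ Nonempty (↥H ≃* Equiv.Perm (Fin 3)) := by
  obtain ⟨F, _, _, hF, S, ⟨e⟩⟩ := hT
  obtain ⟨ρ, h⟩ := CA.Rk3.u34_sylow hF S
  have h' := h.map e.symm
  rintro ⟨f⟩
  let g : Equiv.Perm (Fin 3) →* MulAut T := H.subtype.comp f.symm.toMonoidHom
  have hg : Function.Injective g := H.subtype_injective.comp f.symm.injective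
  have key : ∀ s : Equiv.Perm (Fin 3), s * s = 1 → ∀ z ∈ center T, g s z = z := fun s hs z hz =>
    h'.no_swap (fun x => by rw [← MulAut.mul_apply, ← map_mul, hs, map_one]; simp) hz
  have := eq_one h' (α := g (Equiv.swap 0 1 * Equiv.swap 1 2))
    (by rw [← map_pow, show (Equiv.swap 0 1 * Equiv.swap 1 2 : Equiv.Perm (Fin 3)) ^ 3 = 1 by decide,
      map_one]) fun z hz => by
    rw [map_mul, MulAut.mul_apply, key _ (by decide) z hz, key _ (by decide) z hz]
  exact absurd (hg (this.trans (map_one g).symm)) (by decide)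

end Cfsg.Agent.S3156
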