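import Cfsg.Statements.S3157
import Cfsg.Agent.Lib.Grp.H8L34

set_option autoImplicit false
open Cfsg

namespace Cfsg.Agent.S3157

open CA.H8L34 CA.SmallF Subgroup
open scoped commutatorElement

/-- Let T be a non-abelian group of order 64 admitting automorphisms ρ of order 3 and x of order 2 with x ρ x⁻¹ = ρ⁻¹ (so they generate a symmetric group of degree 3), where ρ fixes only the identity. Then T is isomorphic to a Sylow 2-subgroup of the projective special linear group of dimension 3 over the field with 4 elements, and the subgroup of fixed points of x is dihedral of order 8 or quaternion of order 8. -/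
theorem result {T : Type*} [Group T] [Finite T] (hT : Nat.card T = 64) (hna : ¬ IsMulCommutative T) (ρ x : MulAut T) (hρ : orderOf ρ = 3) (hx : orderOf x = 2)
    (hxr : x * ρ * x⁻¹ = ρ⁻¹) (hfp : ∀ y : T, ρ y = y → y = 1) (C : Subgroup T) (hC : ∀ y : T, y ∈ C ↔ x y = y) :
    (∃ (F : Type) (_ : Field F) (_ : Fintype F), Fintype.card F = 4 ∧
        ∃ S : Sylow 2 (Matrix.ProjectiveSpecialLinearGroup (Fin 3) F), Nonempty (T ≃* ↥(S : Subgroup (Matrix.ProjectiveSpecialLinearGroup (Fin 3) F)))) ∧
      (Nonempty (↥C ≃* DihedralGroup 4) ∨ Nonempty (↥C ≃* QuaternionGroup 2)) := by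
  have r : ρ ^ 3 = 1 := hρ ▸ pow_orderOf_eq_one ρ
  have s : x ^ 2 = 1 := hx ▸ pow_orderOf_eq_one x
  have H : HH ρ := ⟨fun y => by
      have := MonoidHom.FixedPointFree.prod_pow_eq_one (φ := ρ) hfp (n := 3) (funext fun z => DFunLike.congr_fun r z) y
      simpa [List.range_succ, mul_assoc] using this, hfp, fun a b => by
      have : ⁅commutator T, ⊤⁆ = ⊥ := (Cfsg.Agent.S3779.result Nat.prime_three ρ hρ hfp).2.1 rfl
      rw [commutator_eq_bot_iff_le_centralizer, coe_top, centralizer_univ] at this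
      exact this (commutator_mem_commutator (mem_top a) (mem_top b)), hT⟩
  obtain ⟨u, v, h⟩ : ∃ u v : T, ⁅u, v⁆ ≠ 1 := by
    by_contra! k
    exact hna ⟨⟨fun a b => commutatorElement_eq_one_iff_mul_comm.1 (k a b)⟩⟩
  have e : x * ρ = ρ * ρ * x := by
    rw [← mul_inv_eq_iff_eq_mul, hxr]; exact inv_eq_of_mul_eq_one_left (by rw [← r, pow_three'])
  obtain ⟨a, b⟩ := H.main (fun y => DFunLike.congr_fun e y) (fun y => DFunLike.congr_fun s y) h hC
  exact ⟨⟨F4, inferInstance, inferInstance, card_F4, a⟩, b⟩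

end Cfsg.Agent.S3157
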