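import Cfsg.Statements.S3161
import Cfsg.Agent.Lib.Grp.Tcs3

set_option autoImplicit false
open Cfsg

namespace Cfsg.Agent.S3161

open Subgroup CA.Tcs CA.Higman

/-- Let Q be a non-abelian finite 2-group admitting commuting automorphisms α of order 2 and ρ of order 2^n − 1, where n ≥ 2, such that the fixed points of α form an elementary abelian subgroup of order 2^n on whose nonidentity elements the group generated by ρ acts transitively. Then Q is isomorphic to a Sylow 2-subgroup of the projective special unitary group of dimension 3 with parameter 2^n (realised over the field with 4^n elements) or of the projective special linear group of dimension 3 over the field with 2^n elements. -/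
theorem result {Q : Type*} [Group Q] [Finite Q] (hQ : IsPGroup 2 Q) (hna : ¬ IsMulCommutative Q) (n : ℕ) (hn : 2 ≤ n)
    (α ρ : MulAut Q) (hα : orderOf α = 2) (hρ : orderOf ρ = 2 ^ n - 1) (hc : Commute α ρ)
    (C : Subgroup Q) (hC : ∀ x : Q, x ∈ C ↔ α x = x) (hCE : Cfsg.IsElementaryAbelian 2 C ∧ Nat.card ↥C = 2 ^ n)
    (htr : ∀ x y : Q, x ∈ C → y ∈ C → x ≠ 1 → y ≠ 1 → ∃ k : ℕ, (ρ ^ k) x = y) :
    (∃ (F : Type) (_ : Field F) (_ : Fintype F), Fintype.card F = 4 ^ n ∧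
        ∃ S : Sylow 2 (Cfsg.PSU 3 F (2 ^ n)), Nonempty (Q ≃* ↥(S : Subgroup (Cfsg.PSU 3 F (2 ^ n))))) ∨
      (∃ (F : Type) (_ : Field F) (_ : Fintype F), Fintype.card F = 2 ^ n ∧
        ∃ S : Sylow 2 (Matrix.ProjectiveSpecialLinearGroup (Fin 3) F), Nonempty (Q ≃* ↥(S : Subgroup (Matrix.ProjectiveSpecialLinearGroup (Fin 3) F)))) := by
  have hi : ∀ x, α (α x) = x := fun x => by rw [← MulAut.mul_apply, ← pow_two, ← hα, pow_orderOf_eq_one]; rfl
  have hcom : ∀ x, α (ρ x) = ρ (α x) := fun x => DFunLike.congr_fun hc.eq x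
  have hcn : ∀ (k : ℕ) x, α ((ρ ^ k) x) = (ρ ^ k) (α x) := fun k x => DFunLike.congr_fun (hc.pow_right k).eq x
  have hfix : ∀ N : Subgroup Q, (∀ x ∈ N, α x ∈ N) → N ≠ ⊥ → ∃ c ∈ N, c ≠ 1 ∧ c ∈ C := fun N h1 h2 => by
    obtain ⟨g, h3, h4, h5⟩ := coset hQ hi (H := ⊥) (fun x hx => by rw [mem_bot.1 hx, map_one]; exact one_mem _) h1
      (bot_lt_iff_ne_bot.2 h2)
    exact ⟨g, h3, fun e => h4 (mem_bot.2 e), (hC g).2 (inv_mul_eq_one.1 (mem_bot.1 h5)).symm⟩
  have hxy : ∃ x y : Q, x * y ≠ y * x := by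
    by_contra! k
    exact hna ⟨⟨k⟩⟩
  have hnt : Nontrivial Q := by
    obtain ⟨x, y, e⟩ := hxy
    exact ⟨_, _, e⟩
  have h4 : 4 ≤ 2 ^ n := Nat.pow_le_pow_right (n := 2) (by omega) hn
  have hcz : ∀ (σ : MulAut Q), ∀ x ∈ center Q, σ x ∈ center Q := fun σ x hx => mem_center_iff.2 fun y => by
    obtain ⟨y, rfl⟩ := σ.surjective y
    rw [← map_mul, ← map_mul, mem_center_iff.1 hx]
  have hS : St α ρ C := ⟨hQ, hi, hcom, hC, fun x hx => (pow_two x).symm.trans (hCE.1.2 x hx), fun z hz x => by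
      obtain ⟨c, h1, h2, h3⟩ := hfix (center Q) (hcz α) ((nontrivial_iff_ne_bot _).1 hQ.center_nontrivial)
      by_cases h0 : z = 1
      · simp [h0]
      obtain ⟨k, rfl⟩ := htr c z h3 hz h2 h0
      exact (mem_center_iff.1 (hcz _ c h1) x).symm,
    fun k x e => by
      refine or_iff_not_imp_left.2 fun h0 => ?_
      obtain ⟨c, h1, h2, h3⟩ := hfix ((ρ ^ k).toMonoidHom.eqLocus (MonoidHom.id Q))
        (fun y hy => (hcn k y).symm.trans (congrArg α hy)) fun h => h0 (mem_bot.1 (h ▸ (e : x ∈ _)))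
      have h5 := Nat.card_congr (MulAction.orbitProdStabilizerEquivGroup (zpowers ρ) c)
      have h6 : Nat.card (MulAction.orbit (zpowers ρ) c) = 2 ^ n - 1 := by
        have : MulAction.orbit (zpowers ρ) c = (C : Set Q) \ {1} := by
          ext y
          refine ⟨?_, fun hy => ?_⟩
          · rintro ⟨⟨σ, hσ⟩, rfl⟩
            obtain ⟨j, rfl⟩ := mem_powers_iff_mem_zpowers.2 hσ
            exact ⟨(hC _).2 ((hcn j c).trans (congrArg _ ((hC c).1 h3))), fun h => h2 ((ρ ^ j).map_eq_one_iff.1 h)⟩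
          · obtain ⟨j, rfl⟩ := htr c y h3 hy.1 h2 hy.2
            exact ⟨⟨ρ ^ j, npow_mem_zpowers ρ j⟩, rfl⟩
        rw [this, Nat.card_coe_set_eq, Set.ncard_sdiff_singleton_of_mem C.one_mem, ← hCE.2]; rfl
      rw [Nat.card_prod, h6, Nat.card_zpowers, hρ, Nat.mul_eq_left (by omega), card_eq_one] at h5
      have h7 : (⟨ρ ^ k, npow_mem_zpowers ρ k⟩ : zpowers ρ) ∈ MulAction.stabilizer (zpowers ρ) c := h1
      rw [h5, mem_bot, Subtype.ext_iff] at h7
      exact h7,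
    by rw [hCE.2, hρ]; omega, by rw [hCE.2]; omega⟩
  obtain ⟨F, _, _, _, hF⟩ := CA.Higman3.exists_F (hS.hig le_rfl hS.iC hS.invC)
  obtain ⟨A, hP⟩ := hS.exists_pr hF hxy
  obtain ⟨cZ, l, hZ⟩ := hP.hig.exists_crd hF hP.CA hS.iC (hP.hig.max_Z hF)
  obtain ⟨cA, hcA⟩ := hP.hig.crd_ab hF hP.ab hZ
  obtain ⟨π, c, m, h⟩ := hP.exists_qd hF hcA hZ hxy (by
    rw [hρ]; exact Nat.Even.sub_odd (by omega) (Nat.even_pow.2 ⟨even_two, by omega⟩) odd_one)
  exact target (hF.trans hCE.2) h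

end Cfsg.Agent.S3161
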