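import Cfsg.Statements.S5425
import Cfsg.Agent.Lib.Spor.M24Iso
import Cfsg.Agent.Lib.Spor.CGNorm
import Cfsg.Agent.Lib.Grp.H7Lge

set_option autoImplicit false
open Cfsg

namespace Cfsg.Agent.S5425

open Cfsg CA.NatBits CA.OrbBfs CA.CGroup CA.CGConstr CA.CGParts CA.CGCert CA.CGRank CA.CGDec CA.Perm24 CA.Golay
open CA.M24Core CA.M24Sub CA.M24Tools MulAction
open scoped Pointwise
open CA.M24St2 CA.M24Syl CA.M24Cls CA.CGIso CA.CGLin CA.CGLin2 CA.M24Iso CA.CGNorm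
set_option maxRecDepth 100000

open CA.H7Lge

/-- generators of `O₂(C(z))` -/
def lQ : List ℕ := gE4 ++ [123660725668589980790683938928827293131008202171819954446, 75287219599944505256839797805063258647228716037691477521, 25576895464362010398424392307633973710341769975348336386]

/-- three trios -/
def B3 : List (List ℕ) := [[628112, 7612992, 8536111], [1351424, 6889680, 8536111], [2460752, 5780352, 8536111]]

theorem okQ : mG.Ok lQ := ok_of (by decide +kernel)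

theorem inQ : mG.In lQ (Subgroup.centralizer {elt c2A}) :=
  stabilizer_toCj (elt c2A) ▸ inS0 mCj okQ (sCj c2A (by decide +kernel)) (by decide +kernel)

theorem nrm : Nat.card (mG.gen lQ) = 128 ∧ ∀ g ∈ mG.gen gC2Ax, ∀ x ∈ mG.gen lQ, g * x * g⁻¹ ∈ mG.gen lQ :=
  nrmOK_spec (cj := cj24) R_cj R_inj okQ (by decide +kernel)

theorem nrm' : ∀ g ∈ Subgroup.centralizer {elt c2A}, ∀ x ∈ mG.gen lQ, g * x * g⁻¹ ∈ mG.gen lQ :=
  fun g hg => nrm.2 g (stC2A.gen.ge hg)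

theorem fxQ : Fx (Subgroup.centralizer {elt c2A}) (B3.map dss) = mG.gen lQ := by
  have h1 := lowc_spec (A := mSS 3) (xs := B3.map dss) (L := (B3.map (pack 24)).zip
    [[[3, 0, 2], [1, 2, 2, 1, 2]], [[0, 0, 3], [1, 3, 3, 1, 2, 2], [2, 0, 2, 1, 2, 1, 3], [0, 3, 0, 3, 1], [1, 1, 3, 3, 3]], []])
    (forall₂_ss (ls := B3) (by decide)) stC2A.inn (N := 168) (by decide +kernel)
  rw [stC2A.card] at h1
  refine (Subgroup.eq_of_le_of_card_ge (fun g hg => mem_Fx.2 ⟨inQ.gen_le hg, fun x hx => ?_⟩)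
    (by rw [nrm.1]; omega)).symm
  obtain ⟨l, hl, rfl⟩ := List.mem_map.1 hx
  obtain ⟨h2, h3⟩ := (by decide +kernel : ∀ l ∈ B3, (l.Pairwise (· < ·) ∧ ∀ m ∈ l, m < 2 ^ 24) ∧
    allL lQ (fun a => Nat.beq (imgS l.length a (pack 24 l)) (pack 24 l)) = true) l hl
  exact (inS0 (mSS _) okQ (sSS h2) h3).gen_le hg

theorem elts {g : M24} (hg : g ∈ mG.gen lQ) : ∃ c, mG.R c g ∧ (mul24 c c = id24 ∨ mul24 c c = c2A) ∧
    (c = id24 ∨ c = c2A ∨ ∃ a ∈ lQ, mul24 a c ≠ mul24 c a) ∧ (c = id24 ∨ ap8 c 4 ≠ 4 ∨ ap8 c 0 ≠ 0) := by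
  obtain ⟨t, n, h1, -, -, h2⟩ := CA.H28CG.elts_spec R_inj okQ (k := fun t _ => t.all fun c _ =>
    decide ((mul24 c c = id24 ∨ mul24 c c = c2A) ∧ (c = id24 ∨ c = c2A ∨ ∃ a ∈ lQ, mul24 a c ≠ mul24 c a) ∧
      (c = id24 ∨ ap8 c 4 ≠ 4 ∨ ap8 c 0 ≠ 0))) (by decide +kernel)
  obtain ⟨c, v, h3, h4⟩ := h2 _ h1 g hg
  exact ⟨c, h3, of_decide_eq_true h4⟩

theorem zz : elt c2A * elt c2A = 1 := by rw [← pow_two, ← ord2A, pow_orderOf_eq_one]

theorem ctr : mG.gen lQ ⊓ Subgroup.centralizer (mG.gen lQ : Set M24) ≤ Subgroup.zpowers (elt c2A) := by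
  intro g hg
  obtain ⟨c, h1, -, h2 | h2 | ⟨a, ha, h2⟩, -⟩ := elts hg.1
  · rw [(R_eq_iff h1 R_one).2 h2]; exact one_mem _
  · rw [(R_eq_iff h1 R2A).2 h2]; exact Subgroup.mem_zpowers _
  · obtain ⟨x, hx⟩ := okQ a ha
    exact absurd ((R_eq_iff (R_mul hx h1) (R_mul h1 hx)).1 (hg.2 x (CG.mem_gen ha hx))) h2

theorem ex : EX (mG.gen lQ) (elt c2A) where
  mem := mem_of_word okQ.in_gen R2A [4, 2, 0] (by decide +kernel)
  ne := elt_ne_one (by decide +kernel)
  sq := zz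
  cent := inQ.gen_le
  pow x hx := by
    obtain ⟨c, h1, h2 | h2, -⟩ := elts hx
    · rw [(R_eq_iff (R_mul h1 h1) R_one).2 h2]; exact one_mem _
    · rw [(R_eq_iff (R_mul h1 h1) R2A).2 h2]; exact Subgroup.mem_zpowers _
  inv c hc _ := ctr hc
  ctr := ctr
  nc h := by
    have h1 := Subgroup.card_le_of_le ((le_inf le_rfl (Subgroup.le_centralizer _)).trans ctr)
    rw [nrm.1, Nat.card_zpowers, ord2A] at h1
    omega

theorem fix_dss {g : M24} {l : List ℕ} (h : ∀ m ∈ l, g • ds m = ds m) : g • dss l = dss l := by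
  rw [Finset.smul_finset_def (s := dss l)]
  refine (Finset.image_congr (g := id) fun x hx => ?_).trans Finset.image_id
  obtain ⟨m, hm, rfl⟩ := mem_dss.1 hx
  exact h m hm

theorem fx_word {l : List ℕ} (hl : mG.Ok l) {g : M24} (hg : g ∈ Subgroup.centralizer (mG.gen l : Set M24)) (w : List ℕ) (m : ℕ)
    (h : allLt 24 (fun i => Nat.beq (ap8 (evalW mul24 inv24 id24 l w) i) i == tb m i) = true) : g • ds m = ds m := by
  obtain ⟨y, hy, h3⟩ := evalW_mem hl.in_gen w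
  rw [mG_mul, mG_inv, mG_one] at h3
  rw [← fx_R h3 m h]
  exact centralizer_le_fx y (Subgroup.mem_centralizer_singleton_iff.2 (hg y hy).symm)

theorem chkW : ∀ l ∈ B3, ∀ m ∈ l, ∃ w ∈ [[6], [10, 8], [12, 8], [10, 9], [12, 9], [10, 4], [10, 2, 0]],
    allLt 24 (fun i => Nat.beq (ap8 (evalW mul24 inv24 id24 lQ w) i) i == tb m i) = true := by decide +kernel

theorem centQ : Subgroup.centralizer (mG.gen lQ : Set M24) ≤ mG.gen lQ := by
  intro g hg
  refine fxQ.le (mem_Fx.2 ⟨Subgroup.mem_centralizer_singleton_iff.2 (hg _ ex.mem).symm, fun x hx => ?_⟩)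
  obtain ⟨l, hl, rfl⟩ := List.mem_map.1 hx
  refine fix_dss fun m hm => ?_
  obtain ⟨w, -, h2⟩ := chkW l hl m hm
  exact fx_word okQ hg w m h2

theorem core : (pCore 2 (Subgroup.centralizer ({elt c2A} : Set M24))).map (Subgroup.subtype _) = mG.gen lQ := by
  refine le_antisymm (fun g hg => ?_) ?_
  · obtain ⟨t, n, h1, h2⟩ := orb_spec (A := mSS 3) stC2A.ok (sSS (l := [628112, 7612992, 8536111]))
      (k := fun t n => Nat.beq n 7 && allL (B3.map (pack 24)) t.mem) (by decide +kernel)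
    rw [Bool.and_eq_true, beq_iff] at h1
    rw [stC2A.gen] at h2
    rw [← fxQ]
    refine mem_Fx.2 ⟨Subgroup.map_subtype_le _ hg, fun x hx => normal_pgroup_fixes (p := 2) ?_
      (Subgroup.map_subtype_le _) (CA.Core.isPGroup_pCore.map _) (by rw [h2.ncard, h1.1]; decide) x ?_ g hg⟩
    · rintro k hk _ ⟨y, hy, rfl⟩
      exact ⟨_, (inferInstance : (pCore 2 _).Normal).conj_mem y hy ⟨k, hk⟩, rfl⟩
    · obtain ⟨l, hl, rfl⟩ := List.mem_map.1 hx
      obtain ⟨h3, h4⟩ := (by decide : ∀ l ∈ B3, l.length = 3 ∧ l.Pairwise (· < ·) ∧ ∀ m ∈ l, m < 2 ^ 24) l hl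
      exact (h2.mem_iff (h3 ▸ sSS h4)).2 (allL_iff.1 h1.2 _ (List.mem_map_of_mem hl))
  · rw [← Subgroup.map_subgroupOf_eq_of_le inQ.gen_le]
    have := normal_subgroupOf nrm'
    exact Subgroup.map_mono (CA.Core.le_pCore (IsPGroup.of_card (n := 7) ((card_subgroupOf inQ.gen_le).trans nrm.1)))

/-- generators -/
def gK1 : List ℕ := [124043851083793593075205277202332413631187444833394229506, 565402195574663968755954144199318849494723795728503869696]

theorem stK1 : St gK1 (Subgroup.centralizer {elt c2A} ⊓ stabilizer M24 (some 4 : GolayPt)) 1344 :=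
  stabM mPt stC2A (sPt (some 4)) 16
    [[0, 2, 0, 2], [0, 2, 2, 0, 2, 2, 1, 2]] [(6, [[1, 1, 1, 1, 3, 3, 0, 2, 0, 2, 2, 0, 2], [0, 0, 0, 3, 0, 2]]), (7, [[1, 3, 1, 1, 2], [1, 1], [3, 1, 2, 1, 3, 0]]), (0, [])] (by decide +kernel)

/-- generators -/
def gK2 : List ℕ := [75292105359912049198308908511808645447761330913611219456, 564922916624904344906875102413543542560305308721864573696]

theorem stK2 : St gK2 (Subgroup.centralizer {elt c2A} ⊓ stabilizer M24 (some 4 : GolayPt) ⊓ stabilizer M24 (some 0 : GolayPt)) 168 :=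
  stabM mPt stK1 (sPt (some 0)) 8
    [[1, 1, 3, 0, 0, 0, 0, 2], [3]] [(6, [[0, 0, 2], [0, 3, 3, 0, 2]]), (7, [])] (by decide +kernel)

/-- labels -/
noncomputable def cx (v : Fin 3 → ZMod 2) : ℕ := nth 0 [0, 1, 2, 23, 3, 5, 14, 17] ((v 0).val + 2 * (v 1).val + 4 * (v 2).val)

theorem iso : Nonempty (mG.gen gK2 ≃* Matrix.SpecialLinearGroup (Fin 3) (ZMod 2)) := by
  obtain ⟨φ, h, -⟩ := label_SL mPt cx (by decide +kernel) (fun v => ⟨_, sPt' ((by decide +kernel : ∀ v, cx v < 24) v)⟩)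
    stK2.ok rfl [!![0, 0, 1; 1, 1, 1; 0, 1, 0], !![0, 1, 0; 0, 1, 1; 1, 1, 0]] (by decide +kernel)
    [(1, [[0, 3, 0, 0], [2, 2, 1, 1, 1]]), (2, [[2, 0], [0, 3, 0, 2, 2]]), (3, [])] (by decide +kernel) card_SL32
    (by decide +kernel)
  exact iso_of_surj φ h (by rw [stK2.gen, stK2.card, card_SL32])

theorem leK : mG.gen gK2 ≤ Subgroup.centralizer {elt c2A} := stK2.gen.le.trans (inf_le_left.trans inf_le_left)

theorem inf0 : mG.gen lQ ⊓ mG.gen gK2 = ⊥ := eq_bot_iff.2 fun g hg => by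
  have h0 := stK2.gen.le hg.2
  obtain ⟨c, h1, -, -, h2 | h2 | h2⟩ := elts hg.1
  · exact (R_eq_iff h1 R_one).2 h2
  · exact absurd ((R_pt h1 (some 4)).symm.trans (congrArg gix h0.1.2)) h2
  · exact absurd ((R_pt h1 (some 0)).symm.trans (congrArg gix h0.2)) h2

theorem sup0 : mG.gen lQ ⊔ mG.gen gK2 = Subgroup.centralizer {elt c2A} :=
  le_antisymm (sup_le inQ.gen_le leK) ((gen_eq_of_lowM (in_append inQ (stK2.ok.in_gen.mono leK))
    [(4, [[3, 5, 7, 14, 3, 8, 6, 17, 15, 11], [7, 5, 17, 6, 9, 6]]), (6, [[3, 1, 1, 2, 0, 3, 1], [1]]), (7, [[1, 3, 1, 1, 2], [1, 1], [3, 1, 2, 1, 3, 0]]), (0, [])]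
    stC2A.card (by decide +kernel)).ge.trans
      (in_append (okQ.in_gen.mono le_sup_left) (stK2.ok.in_gen.mono le_sup_right)).gen_le)

/-- a fusing element -/
def cf : ℕ := 50005917249142108894679571236597055769891019648558765841

theorem Rf : mG.R (cj24 cf c2A) (elt cf * elt c2A * (elt cf)⁻¹) := R_cj (elt_R (by decide +kernel)) R2A

/-- In the Mathieu group of degree 24 (the automorphism group of the length-24 binary Golay code, acting on the 24 coordinates), let z be an involution whose fixed points form an octad (the support of a code word of weight 8), and let Q be the largest normal 2-subgroup of the centralizer C of z. Then Q is extraspecial of order 2^7 with an elementary abelian subgroup of order 16 (plus type), Q is a large extraspecial 2-subgroup, and C is the split extension of Q by the special linear group of degree 3 over the field with two elements. -/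
theorem result (z : ↥Cfsg.M24) (hz : orderOf z = 2) (hfix : (Finset.univ.filter fun p : Cfsg.GolayPt => (z : Equiv.Perm Cfsg.GolayPt) p = p) ∈ Cfsg.octads) (Q : Subgroup ↥Cfsg.M24) (hQ : Q = (Cfsg.pCore 2 ↥(Subgroup.centralizer ({z} : Set ↥Cfsg.M24))).map (Subgroup.centralizer ({z} : Set ↥Cfsg.M24)).subtype) : Cfsg.IsExtraspecial 2 ↥Q ∧ Nat.card ↥Q = 2 ^ 7 ∧ (∃ E : Subgroup ↥Cfsg.M24, E ≤ Q ∧ Cfsg.IsElementaryAbelian 2 E ∧ Nat.card ↥E = 2 ^ 4) ∧ Cfsg.IsLargeExtraspecial Q ∧ ∃ K : Subgroup ↥Cfsg.M24, K ≤ Subgroup.centralizer ({z} : Set ↥Cfsg.M24) ∧ Q ⊓ K = ⊥ ∧ Q ⊔ K = Subgroup.centralizer ({z} : Set ↥Cfsg.M24) ∧ Nonempty (↥K ≃* Matrix.SpecialLinearGroup (Fin 3) (ZMod 2)) := by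
  obtain ⟨r, hr, k, -, rfl⟩ := cls2.of_order (by norm_num) (Subgroup.mem_top z) hz
  change fx _ ∈ octads at hfix
  rw [fx_conj, smul_mem_octads] at hfix
  obtain rfl : r = c2A := (List.mem_cons.1 hr).resolve_right fun e => by
    rw [List.mem_singleton.1 e, fx2B, ds_mem_octads (by decide)] at hfix
    exact absurd hfix (by decide +kernel)
  have h1 : Q = CA.BG.cj k (mG.gen lQ) := by
    rw [hQ, ← core, CA.BG.cj_def, CA.Core.map_map_pCore (MulAut.conj k).injective, ← CA.BG.cj_def, CA.BG.cj_cent1]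
  have h2 := (ex.lx (le_normalizer_of nrm') centQ).cj k
  have h3 : Nat.card Q = 128 := by rw [h1, CA.BG.card_cj, nrm.1]
  rw [← CA.BG.cj_cent1]
  rw [h1] at h3 ⊢
  refine ⟨(ex.cj k).extra, h3, ⟨CA.BG.cj k (mG.gen gE4), CA.BG.cj_mono k (CG.gen_mono fun c hc => List.mem_append_left _ hc),
    ?_, by rw [CA.BG.card_cj, stE4.gen, stE4.card]; rfl⟩,
    ((ex.cj k).large_of_fused h2.norm h2.cent_le (by omega) (g := k * elt cf * k⁻¹) ?_ ?_).2,
    CA.BG.cj k (mG.gen gK2), CA.BG.cj_mono k leK, by rw [← CA.BG.cj_inf, inf0, CA.BG.cj_bot],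
    by rw [← CA.BG.cj_sup, sup0], iso.map (CA.BG.cjEquiv k _).symm.trans⟩
  · have h4 : ∀ x ∈ CA.BG.cj k (mG.gen gE4), x * x = 1 := by
      rintro _ ⟨x, hx, rfl⟩
      rw [← map_mul, sq_eq_one_of_gens rfl (by decide +kernel) x hx, map_one]
    refine ⟨⟨⟨fun a b => Subtype.ext ?_⟩⟩, fun a ha => (pow_two a).trans (h4 a ha)⟩
    have h5 : ∀ x ∈ CA.BG.cj k (mG.gen gE4), x⁻¹ = x := fun x hx => inv_eq_of_mul_eq_one_right (h4 x hx)
    show a.1 * b.1 = b.1 * a.1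
    rw [← h5 _ (mul_mem a.2 b.2), mul_inv_rev, h5 _ a.2, h5 _ b.2]
  · rw [show k * elt cf * k⁻¹ * (k * elt c2A * k⁻¹) * (k * elt cf * k⁻¹)⁻¹ = k * (elt cf * elt c2A * (elt cf)⁻¹) * k⁻¹ by group,
      CA.BG.conj_mem_cj]
    exact mem_of_word okQ.in_gen Rf [0] (by decide +kernel)
  · rw [show k * elt cf * k⁻¹ * (k * elt c2A * k⁻¹) * (k * elt cf * k⁻¹)⁻¹ = k * (elt cf * elt c2A * (elt cf)⁻¹) * k⁻¹ by group,
      ne_eq, mul_left_inj, mul_right_inj, R_eq_iff Rf R2A]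
    decide +kernel

end Cfsg.Agent.S5425
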