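import Cfsg.Statements.S3171
import Cfsg.Agent.S5425
import Cfsg.Agent.Lib.Grp.PGBasic

set_option autoImplicit false
open Cfsg

namespace Cfsg.Agent.S3171

open Cfsg CA.NatBits CA.OrbBfs CA.CGroup CA.CGConstr CA.CGParts CA.CGCert CA.CGRank CA.CGDec CA.Perm24 CA.Golay
open CA.M24Core CA.M24Sub CA.M24Tools MulAction
open scoped Pointwise
open CA.M24St2 CA.M24Syl CA.M24Cls CA.CGIso CA.CGLin CA.CGLin2 CA.M24Iso CA.CGNorm
set_option maxRecDepth 100000
open Cfsg.Agent.S5425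

/-- a Sylow 2-subgroup -/
abbrev PP : Subgroup M24 := mG.gen g24c3

theorem cardP : Nat.card PP = 1024 := by rw [PP, st24c3.gen, st24c3.card]

theorem inQP : mG.In lQ PP := in_of_wordsM st24c3.ok.in_gen
  (ws := [[5, 3, 5, 2], [7, 4, 1, 4, 0], [4, 1, 5, 6, 0], [4, 4, 2, 2], [5, 3, 0, 0], [6, 5, 6, 2, 0, 0], [0, 4, 2, 0]])
  (by decide +kernel)

/-- commuting modulo the centre -/
def Cm (a g : M24) : Prop := a * g * a⁻¹ = g ∨ a * g * a⁻¹ = g * elt c2A

/-- the test for `Cm` -/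
noncomputable def cmc (a c : ℕ) : Bool := force (cj24 a c) fun d => Nat.beq d c || Nat.beq d (mul24 c c2A)

theorem cm_iff {a c : ℕ} {x g : M24} (ha : mG.R a x) (hc : mG.R c g) : Cm x g ↔ cmc a c = true := by
  rw [cmc, force_eq, Bool.or_eq_true, beq_iff, beq_iff, Cm, R_eq_iff (R_cj ha hc) hc,
    R_eq_iff (R_cj ha hc) (R_mul hc R2A)]

theorem cnt_spec' {D : Type*} [Group D] [Finite D] {G : CG D} (hi : ∀ {c d : ℕ} {x : D}, G.R c x → G.R d x → c = d)
    {l : List ℕ} (hl : G.Ok l) {k : T → ℕ → Bool} (h : orb G.mul l G.one k = true) :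
    ∃ t n, k t n = true ∧ ∀ (H : Subgroup D) (f : ℕ → Bool), H ≤ G.gen l →
      (∀ c g, g ∈ H → G.R c g → f c = true) → Nat.card H ≤ t.cnt f := by
  obtain ⟨t, n, h1, h2⟩ := orb_spec (A := mulAct G hi) hl G.R_one h
  rw [orbit_one] at h2
  refine ⟨t, n, h1, fun H f hH hf => ?_⟩
  rw [← h2.ncard_filter (P := fun g => ∃ c, G.R c g ∧ f c = true) fun c g _ r =>
    ⟨fun ⟨d, r', e⟩ => hi r' r ▸ e, fun e => ⟨c, r, e⟩⟩]
  exact Set.ncard_le_ncard (s := (H : Set D)) (fun g hg => ⟨hH hg,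
    let ⟨c, _, r⟩ := h2.complete g (hH hg); ⟨c, r, hf c g hg r⟩⟩) (Set.toFinite _)

theorem cnt_spec {l : List ℕ} (hl : mG.Ok l) {k : T → ℕ → Bool} (h : orb mul24 l id24 k = true) :
    ∃ t n, k t n = true ∧ ∀ (H : Subgroup M24) (f : ℕ → Bool), H ≤ mG.gen l →
      (∀ c g, g ∈ H → mG.R c g → f c = true) → Nat.card H ≤ t.cnt f :=
  cnt_spec' R_inj hl (by rw [mG_mul, mG_one]; exact h)

theorem small {H : Subgroup M24} (hH : H ≤ PP)
    (h : ∀ g ∈ H, ∀ a ∈ PP, ∀ b ∈ PP, Cm a g ∨ Cm b g ∨ Cm (a * b) g) : Nat.card H ≤ 24 := by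
  obtain ⟨t, n, h1, h2⟩ := cnt_spec st24c3.ok (k := fun t _ => Nat.ble (t.cnt fun c => allL g24c3 fun a => cmc a c ||
    allL g24c3 fun b => cmc b c || cmc (mul24 a b) c) 24) (by decide +kernel)
  refine (h2 H _ hH fun c g hg r => allL_iff.2 fun a ha => ?_).trans (ble_iff.1 h1)
  obtain ⟨x, hx⟩ := st24c3.ok a ha
  rw [Bool.or_eq_true, ← cm_iff hx r, or_iff_not_imp_left, allL_iff]
  intro h3 b hb
  obtain ⟨y, hy⟩ := st24c3.ok b hb
  rw [Bool.or_eq_true, ← cm_iff hy r, ← cm_iff (R_mul hx hy) r]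
  exact (h g hg x (CG.mem_gen ha hx) y (CG.mem_gen hb hy)).resolve_left h3

/-- representatives of the non-trivial cosets of `Q` -/
def ts : List ℕ := [345106714305558676257339293964841418809425658101502115841, 75094918085859345698471381848010246691995593263242613006, 577334160358854765418146623336720792239256911074102801, 124137031952095739946916352346173056912188698540594364951, 25099495988714742873402135232399739638123147219190159106, 51148552900968775156083793637362863426330559811883042051, 418660151504010601971335133349083357767439938612420805381]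

theorem inT : mG.In ts PP := in_of_wordsM st24c3.ok.in_gen
  (ws := [[2, 0], [6, 2], [0, 6], [7, 1], [6, 3, 0, 0], [1, 2, 0, 0], [2, 2, 0, 0]]) (by decide +kernel)

theorem RT {a : ℕ} (ha : a ∈ ts) : mG.R a (elt a) := elt_R' (inT.ok a ha)

theorem cover {g : M24} (hg : g ∈ PP) : g ∈ mG.gen lQ ∨ ∃ a ∈ ts, elt a * g ∈ mG.gen lQ := by
  obtain ⟨u, n, h1, -, h2, -⟩ := CA.H28CG.elts_spec R_inj okQ (k := fun u _ => orb mG.mul g24c3 mG.one fun t _ =>
    t.all fun c _ => u.mem c || anyL ts fun a => u.mem (mul24 a c)) (by decide +kernel)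
  obtain ⟨t, n', h3, -, -, h4⟩ := CA.H28CG.elts_spec R_inj st24c3.ok h1
  obtain ⟨c, v, r, h5⟩ := h4 _ h3 g hg
  rw [Bool.or_eq_true, anyL_iff] at h5
  exact h5.imp (h2 c g r).2 fun ⟨a, ha, h6⟩ => ⟨a, ha, (h2 _ _ (R_mul (RT ha) r)).2 h6⟩

/-- bounds -/
noncomputable def bd (a b : ℕ) : ℕ := if a = b then 32 else if a = nth 0 ts 0 ∧ b = nth 0 ts 1 then 8 else 16

theorem bnd {H : Subgroup M24} (hH : H ≤ mG.gen lQ) {a b : ℕ} (ha : a ∈ ts) (hb : b ∈ ts)
    (h : ∀ q ∈ H, Cm (elt a) q ∧ Cm (elt b) q) : Nat.card H ≤ bd a b := by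
  obtain ⟨t, n, h1, h2⟩ := cnt_spec okQ (k := fun t _ => allL ts fun a => allL ts fun b =>
    Nat.ble (t.cnt fun c => cmc a c && cmc b c) (bd a b)) (by decide +kernel)
  refine (h2 H _ hH fun c g hg r => ?_).trans (ble_iff.1 (allL_iff.1 (allL_iff.1 h1 a ha) b hb))
  rw [Bool.and_eq_true, ← cm_iff (RT ha) r, ← cm_iff (RT hb) r]
  exact h g hg

theorem uniq (hc : ∀ a ∈ PP, ∀ g ∈ PP, ∀ q ∈ PP, Cm (a * g) q → Cm g q → Cm a q)
    (hQ : ∀ a ∈ mG.gen lQ, ∀ g ∈ mG.gen lQ, Cm a g) {H : Subgroup M24} (hH : H ≤ PP) (hN : Nat.card H = 128)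
    (h : ∀ a ∈ H, ∀ g ∈ H, Cm a g) : H = mG.gen lQ := by
  classical
  obtain ⟨I, hI, h1⟩ : ∃ I ∈ ts.sublists, ∀ a, a ∈ I ↔ a ∈ ts ∧ ∃ g ∈ H, elt a * g ∈ mG.gen lQ :=
    ⟨ts.filter fun a => ∃ g ∈ H, elt a * g ∈ mG.gen lQ, List.mem_sublists.2 List.filter_sublist, fun a => by simp⟩
  rcases (by decide +kernel : ∀ I ∈ ts.sublists, I = [] ∨ ∃ a ∈ I, ∃ b ∈ I, (I.length + 1) * bd a b < 128) I hI with
    e | ⟨a, ha, b, hb, h2⟩
  · refine Subgroup.eq_of_le_of_card_ge (fun g hg => (cover (hH hg)).resolve_right fun ⟨a, ha, h3⟩ => ?_)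
      (nrm.1.trans hN.symm).le
    exact absurd (e ▸ (h1 a).2 ⟨ha, g, hg, h3⟩) List.not_mem_nil
  have h3 : ∀ a ∈ I, ∀ q ∈ H ⊓ mG.gen lQ, Cm (elt a) q := fun a ha q hq => by
    obtain ⟨h4, g, hg, h5⟩ := (h1 a).1 ha
    exact hc _ (inT.gen_le (CG.mem_gen h4 (RT h4))) g (hH hg) q (hH hq.1) (hQ _ h5 q hq.2) (h g hg q hq.1)
  have h4 := bnd inf_le_right ((h1 a).1 ha).1 ((h1 b).1 hb).1 fun q hq => ⟨h3 a ha q hq, h3 b hb q hq⟩
  have h5 := card_le_orbit_mul H ((1 : M24) : M24 ⧸ mG.gen lQ) (Y := ↑(((1 : M24) :: I.map fun a => (elt a)⁻¹).toFinset.image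
    fun x : M24 => (x : M24 ⧸ mG.gen lQ))) (Finset.finite_toSet _) fun g hg => by
      rw [Finset.mem_coe, Finset.mem_image, MulAction.Quotient.smul_mk, smul_eq_mul, mul_one]
      rcases cover (hH hg) with h6 | ⟨c, hc', h6⟩
      · exact ⟨1, by simp, QuotientGroup.eq.2 (by simpa using h6)⟩
      · exact ⟨(elt c)⁻¹, List.mem_toFinset.2 (List.mem_cons_of_mem _ (List.mem_map_of_mem ((h1 c).2 ⟨hc', g, hg, h6⟩))),
          QuotientGroup.eq.2 (by simpa using h6)⟩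
  rw [MulAction.stabilizer_quotient, Set.ncard_coe_finset, hN] at h5
  have h6 := (Finset.card_image_le (f := fun x : M24 => (x : M24 ⧸ mG.gen lQ))).trans
    (List.toFinset_card_le ((1 : M24) :: I.map fun a => (elt a)⁻¹))
  rw [List.length_cons, List.length_map] at h6
  exact absurd (h5.trans (Nat.mul_le_mul h6 h4)) (not_le.2 h2)

theorem zP : elt c2A ∈ PP := inQP.gen_le ex.mem

theorem main {Γ : Type*} [Group Γ] (π : PP →* Γ) (hs : Function.Surjective π)
    (hk : ∀ g, π g = 1 ↔ (g : M24) = 1 ∨ (g : M24) = elt c2A) :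
    (∀ M : Subgroup Γ, IsCoatom M → Nat.card (Subgroup.center M) ≤ 8) ∧
      (∃ A : Subgroup Γ, IsElementaryAbelian 2 A ∧ Nat.card A = 64) ∧
      ∀ A B : Subgroup Γ, IsMulCommutative A → Nat.card A = 64 → IsMulCommutative B → Nat.card B = 64 → A = B := by
  have hf := Finite.of_surjective π hs
  have hc : ∀ a g : PP, Commute (π a) (π g) ↔ Cm a g := fun a g => by
    rw [Cm, ← inv_mul_eq_iff_eq_mul, ← inv_mul_eq_one (a := (g : M24)) |>.trans eq_comm, commute_iff_eq]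
    refine Iff.trans ?_ (hk (g⁻¹ * (a * g * a⁻¹)))
    rw [map_mul, map_mul, map_mul, map_inv, map_inv, inv_mul_eq_one, eq_mul_inv_iff_mul_eq, eq_comm]
  have h2 : Nat.card π.ker = 2 := Nat.card_eq_two_iff.2 ⟨1, ⟨⟨_, zP⟩, (hk _).2 (Or.inr rfl)⟩,
    fun e => ex.ne (congrArg (fun x : π.ker => (x : M24)) e).symm, Set.eq_univ_of_forall fun x =>
      ((hk x).1 x.2).imp (fun e => Subtype.ext (Subtype.ext e)) fun e => Subtype.ext (Subtype.ext e)⟩
  have h3 : Nat.card Γ = 512 := by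
    have := card_ker_mul π
    rw [MonoidHom.range_eq_top.2 hs, Subgroup.card_top, h2, cardP] at this
    omega
  have h4 : ∀ A : Subgroup Γ, Nat.card ((A.comap π).map PP.subtype) = 2 * Nat.card A := fun A => by
    have h5 := (A.comap π).index_mul_card
    have h6 := A.index_mul_card
    rw [Subgroup.index_comap_of_surjective _ hs, cardP] at h5
    rw [Subgroup.card_map_of_injective PP.subtype_injective]
    refine Nat.eq_of_mul_eq_mul_left (Nat.pos_of_ne_zero A.index_ne_zero_of_finite) ?_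
    rw [h5, mul_left_comm, h6, h3]
    norm_num
  have h5 : ∀ x ∈ ((mG.gen lQ).subgroupOf PP).map π, x ^ 2 = 1 := by
    rintro _ ⟨q, hq, rfl⟩
    obtain ⟨c, r, h5, -⟩ := elts hq
    rw [← map_pow, hk, pow_two]
    exact h5.imp (R_eq_iff (R_mul r r) R_one).2 (R_eq_iff (R_mul r r) R2A).2
  have h6 : IsMulCommutative (((mG.gen lQ).subgroupOf PP).map π) := ⟨⟨fun a b =>
    Commute.of_orderOf_dvd_two (fun g => orderOf_dvd_of_pow_eq_one (Subtype.ext (h5 g g.2))) a b⟩⟩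
  have h7 : ∀ A : Subgroup Γ, IsMulCommutative A → ∀ a ∈ (A.comap π).map PP.subtype,
      ∀ g ∈ (A.comap π).map PP.subtype, Cm a g := by
    rintro A hA _ ⟨a, ha, rfl⟩ _ ⟨g, hg, rfl⟩
    exact (hc a g).1 (congrArg Subtype.val (hA.is_comm.comm ⟨_, ha⟩ ⟨_, hg⟩))
  have h8 : ((((mG.gen lQ).subgroupOf PP).map π).comap π).map PP.subtype = mG.gen lQ := by
    rw [Subgroup.comap_map_eq, sup_of_le_left, Subgroup.map_subgroupOf_eq_of_le inQP.gen_le]
    intro g hg
    rcases (hk g).1 hg with e | e <;> rw [Subgroup.mem_subgroupOf, e]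
    exacts [one_mem _, ex.mem]
  have h9 : ∀ A : Subgroup Γ, IsMulCommutative A → Nat.card A = 64 → (A.comap π).map PP.subtype = mG.gen lQ :=
    fun A hA hN => uniq (fun a ha g hg q hq h h' => (hc ⟨a, ha⟩ ⟨q, hq⟩).1 (by
      have := ((hc (⟨a, ha⟩ * ⟨g, hg⟩) ⟨q, hq⟩).2 h).mul_left ((hc ⟨g, hg⟩ ⟨q, hq⟩).2 h').inv_left
      rwa [map_mul, mul_inv_cancel_right] at this))
      (h8 ▸ h7 _ h6) (Subgroup.map_subtype_le _) (by rw [h4, hN]) (h7 A hA)
  refine ⟨fun M hM => ?_, ⟨_, ⟨h6, h5⟩, ?_⟩, fun A B hA hA' hB hB' => Subgroup.comap_injective hs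
    (Subgroup.map_injective PP.subtype_injective ((h9 A hA hA').trans (h9 B hB hB').symm))⟩
  · have hi := CA.PGBasic.index_eq_of_isCoatom (IsPGroup.of_card (p := 2) (n := 9) h3) hM
    have h10 : ∀ a g : PP, π a ∈ M → π g ∈ (Subgroup.center M).map M.subtype → Cm a g := by
      rintro a g ha ⟨m, hm, e⟩
      refine (hc a g).1 ?_
      rw [← e]
      exact congrArg Subtype.val (Subgroup.mem_center_iff.1 hm ⟨_, ha⟩)
    have h11 := small (H := (((Subgroup.center M).map M.subtype).comap π).map PP.subtype) (Subgroup.map_subtype_le _) (by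
      rintro _ ⟨g, hg, rfl⟩ a ha b hb
      have h12 := Subgroup.mul_mem_iff_of_index_two hi (a := π ⟨a, ha⟩) (b := π ⟨b, hb⟩)
      rw [← map_mul] at h12
      have := fun h => h10 ⟨a, ha⟩ g h hg
      have := fun h => h10 ⟨b, hb⟩ g h hg
      have := fun h => h10 (⟨a, ha⟩ * ⟨b, hb⟩) g h hg
      tauto)
    have h12 := Subgroup.card_subgroup_dvd_card ((Subgroup.center M).map M.subtype)
    rw [h4] at h11
    rw [h3] at h12
    rw [← Subgroup.card_map_of_injective M.subtype_injective]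
    exact (by decide +kernel : ∀ m ∈ Nat.divisors 512, 2 * m ≤ 24 → m ≤ 8) _ (Nat.mem_divisors.2 ⟨h12, by norm_num⟩) h11
  · have := h4 (((mG.gen lQ).subgroupOf PP).map π)
    rw [h8, nrm.1] at this
    omega

theorem ctrP (g : PP) : g ∈ Subgroup.center PP ↔ (g : M24) = 1 ∨ (g : M24) = elt c2A := by
  refine ⟨fun h => ?_, fun h => Subgroup.mem_center_iff.2 fun x => Subtype.ext ?_⟩
  · have h1 : (g : M24) ∈ Subgroup.centralizer (mG.gen lQ : Set M24) := fun x hx =>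
      congrArg Subtype.val (Subgroup.mem_center_iff.1 h ⟨x, inQP.gen_le hx⟩)
    obtain ⟨c, r, -, h2 | h2 | ⟨a, ha, h2⟩, -⟩ := elts (centQ h1)
    · exact Or.inl ((R_eq_iff r R_one).2 h2)
    · exact Or.inr ((R_eq_iff r R2A).2 h2)
    · obtain ⟨x, hx⟩ := okQ a ha
      exact absurd ((R_eq_iff (R_mul hx r) (R_mul r hx)).1 (h1 x (CG.mem_gen ha hx))) h2
  · rcases h with h | h <;> rw [Subgroup.coe_mul, Subgroup.coe_mul, h]
    · rw [mul_one, one_mul]
    · exact Subgroup.mem_centralizer_singleton_iff.1 (stabilizer_toCj (elt c2A) ▸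
        (inS0 mCj st24c3.ok (sCj c2A (by decide +kernel)) (by decide +kernel)).gen_le x.2)

/-- Let P be a Sylow 2-subgroup of the Mathieu group of degree 24 and S the quotient of P by its centre. Then the centre of every maximal subgroup of S has order at most 8; S has an elementary abelian subgroup of order 64; and S has only one abelian subgroup of order 64. -/
theorem result (P : Sylow 2 ↥Cfsg.M24) :
    (∀ M : Subgroup (↥(P : Subgroup ↥Cfsg.M24) ⧸ Subgroup.center ↥(P : Subgroup ↥Cfsg.M24)), IsCoatom M →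
        Nat.card ↥(Subgroup.center ↥M) ≤ 8) ∧
      (∃ A : Subgroup (↥(P : Subgroup ↥Cfsg.M24) ⧸ Subgroup.center ↥(P : Subgroup ↥Cfsg.M24)),
        Cfsg.IsElementaryAbelian 2 A ∧ Nat.card ↥A = 64) ∧
      ∀ A B : Subgroup (↥(P : Subgroup ↥Cfsg.M24) ⧸ Subgroup.center ↥(P : Subgroup ↥Cfsg.M24)),
        IsMulCommutative ↥A → Nat.card ↥A = 64 → IsMulCommutative ↥B → Nat.card ↥B = 64 → A = B := by
  obtain ⟨e⟩ := sylow_equiv (K := ⊤) (P := PP) (a := 10) (m := 239085) le_top cardP card_top (by norm_num)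
    Subgroup.topEquiv P
  refine main ((QuotientGroup.mk' _).comp e.symm.toMonoidHom)
    ((QuotientGroup.mk'_surjective _).comp e.symm.surjective) fun g => ?_
  rw [← ctrP, MonoidHom.comp_apply, QuotientGroup.mk'_apply, QuotientGroup.eq_one_iff]
  exact MulEquivClass.apply_mem_center_iff e.symm

end Cfsg.Agent.S3171
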