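import Cfsg.Statements.S3175
import Cfsg.Agent.Lib.Loc.H6Ru
import Cfsg.Agent.S2007

set_option autoImplicit false
open Cfsg

set_option linter.unusedVariables false
set_option linter.unusedSimpArgs false
set_option linter.style.haveILetI false

namespace Cfsg.Agent.S3175

open CA Subgroup CA.H6Ru
open scoped commutatorElement


/-- Let G be a finite group whose Sylow 2-subgroup T has order at least 2^14 and whose upper central series has fourth term of order 16; let W be the centralizer in T of the third term, and suppose the Frattini subgroup of W has order at most 8 and lies in every subgroup of W of index at most 16. Then the normalizer of T in G has a normal 2-complement, and W is weakly closed in T with respect to G. -/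
theorem result {G : Type*} [Group G] [Finite G]
    (T : Sylow 2 G) (ha : 2 ^ 14 ≤ Nat.card ↥(T : Subgroup G))
    (hb : Nat.card ↥(Subgroup.upperCentralSeries ↥(T : Subgroup G) 4) = 16)
    (W : Subgroup ↥(T : Subgroup G))
    (hW : W = Subgroup.centralizer ((Subgroup.upperCentralSeries ↥(T : Subgroup G) 3 : Subgroup ↥(T : Subgroup G)) : Set ↥(T : Subgroup G)))
    (hc : Nat.card ↥(frattini ↥W) ≤ 8)
    (hd : ∀ U : Subgroup ↥W, U.index ≤ 16 → frattini ↥W ≤ U) :
    Cfsg.HasNormalPComplement 2 ↥(Subgroup.normalizer ((T : Subgroup G) : Set G)) ∧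
      Cfsg.IsWeaklyClosed (W.map (T : Subgroup G).subtype) (T : Subgroup G) := by
  haveI : Fact (Nat.Prime 2) := ⟨Nat.prime_two⟩
  have h : Hyp (T : Subgroup G) W := ⟨T.isPGroup', ha, hb, hW, hc, hd⟩
  constructor
  · refine S2007.result T T le_rfl le_normalizer inf_le_left fun g hg ho x hx => ?_
    let α := (T : Subgroup G).normalizerMonoidHom ⟨g, hg⟩
    have hα : α ^ orderOf g = 1 := by
      rw [← map_pow, show (⟨g, hg⟩ : normalizer ((T : Subgroup G) : Set G)) ^ orderOf g = 1 from
        Subtype.ext (pow_orderOf_eq_one g), map_one]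
    have := congrArg Subtype.val (h.aut (Nat.coprime_two_right.1 ho) hα ⟨x, hx⟩)
    have e : g * x * g⁻¹ = x := this
    exact (mul_inv_eq_iff_eq_mul.1 e).symm
  refine ⟨map_subtype_le _, fun g hg => ?_⟩
  set W' := W.map (T : Subgroup G).subtype with hW'
  set X := W'.map (MulAut.conj g).toMonoidHom with hX
  have e1 : W ≃* W' := W.equivMapOfInjective _ (subtype_injective _)
  have e2 : W' ≃* X := W'.equivMapOfInjective _ (MulAut.conj g).injective
  have pW : IsPGroup 2 W' := T.isPGroup'.to_le (map_subtype_le _)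
  have pX : IsPGroup 2 X := T.isPGroup'.to_le hg
  have cX : Nat.card X = Nat.card W' := (Nat.card_congr e2.toEquiv).symm
  have i1 : W'.relIndex T = 8 := by
    rw [← h.reg.1, relIndex, subgroupOf, comap_map_eq_self_of_injective (subtype_injective _)]
  have i2 : (W' ⊓ X).relIndex X ≤ 8 := by
    rw [inf_relIndex_right, ← i1]
    exact relIndex_le_of_le_right hg (by omega)
  have i3 : (W' ⊓ X).relIndex W' ≤ 8 := by
    have a1 := PGBasic.card_mul_relIndex (inf_le_left : W' ⊓ X ≤ W')
    have a2 := PGBasic.card_mul_relIndex (inf_le_right : W' ⊓ X ≤ X)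
    rw [cX, ← a1] at a2
    rwa [← Nat.eq_of_mul_eq_mul_left Nat.card_pos a2]
  have k1 := (key pW (h.d.map e1) inf_le_left i3).trans
    (PGFrattini.map_frattini_mono pX inf_le_right)
  have z1 : frattini W ≤ center W := by
    rw [← map_le_map_iff_of_injective (subtype_injective W), h.zw, h.reg.2.2.1]
  have z2 : frattini X ≤ center X := by
    rw [← PGFrattini.map_frattini_equiv (e1.trans e2)]
    rintro _ ⟨y, hy, rfl⟩
    rw [mem_center_iff]
    intro x
    obtain ⟨x, rfl⟩ := (e1.trans e2).surjective x
    show _ * (e1.trans e2) y = (e1.trans e2) y * _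
    rw [← map_mul, ← map_mul, mem_center_iff.1 (z1 hy) x]
  rw [← PGFrattini.map_map_frattini _ (h.p.to_subgroup W), h.reg.2.2.1] at k1
  refine PGBasic.eq_of_le_of_card_le (fun x hx => ?_) cX.ge
  refine ⟨⟨x, hg hx⟩, ?_, rfl⟩
  rw [h.w]
  intro z hz
  obtain ⟨y, hy, e⟩ := k1 ⟨z, hz, rfl⟩
  have := congrArg Subtype.val (mem_center_iff.1 (z2 hy) ⟨x, hx⟩)
  apply Subtype.ext
  have e' : (y : G) = z := e
  show (z : G) * x = x * z
  rw [← e']
  exact this.symm

end Cfsg.Agent.S3175
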