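import Cfsg.Statements.S3178
import Cfsg.Agent.Lib.Grp.MC3

set_option autoImplicit false
open Cfsg

namespace Cfsg.Agent.S3178

open Subgroup CA.SylIn CA.PRes CA.Two CA.MC2 CA.MC3 CA.PGBasic CA.PGCyclicMax

/-- Groups with a modular Sylow 2-subgroup have a normal 2-complement. Let S, of order 2^(n+1) with n ≥ 3, be a Sylow 2-subgroup of a finite group G, and suppose S contains an element a of order 2^n and an involution b with b a b⁻¹ = a^(2^(n-1) + 1); so S is the non-abelian 2-group with a cyclic subgroup of index 2 that is neither dihedral, semidihedral nor generalized quaternion. Then G has a normal 2-complement. -/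
theorem result {G : Type*} [Group G] [Finite G]
    (S : Sylow 2 G) (n : ℕ) (hn : 3 ≤ n) (hS : Nat.card ↥(S : Subgroup G) = 2 ^ (n + 1))
    (a b : G) (ha : a ∈ (S : Subgroup G)) (hb : b ∈ (S : Subgroup G))
    (hao : orderOf a = 2 ^ n) (hbo : orderOf b = 2) (hrel : b * a * b⁻¹ = a ^ (2 ^ (n - 1) + 1)) :
    Cfsg.HasNormalPComplement 2 G := by
  obtain ⟨k, rfl⟩ : ∃ k, n = k + 3 := ⟨n - 3, by omega⟩
  have hb2 : b ^ 2 = 1 := by rw [← hbo, pow_orderOf_eq_one]
  have hrel' : b * a * b⁻¹ = a ^ (2 ^ (k + 2) + 1 : ℤ) := by rw [hrel, ← zpow_natCast]; simp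
  have heq : ∀ i j : ℤ, a ^ i = a ^ j ↔ (2 : ℤ) ^ (k + 3) ∣ i - j := fun i j => by
    simpa using zpow_eq_zpow hao (i := i) (j := j)
  have hone : ∀ i : ℤ, a ^ i = 1 ↔ (2 : ℤ) ^ (k + 3) ∣ i := fun i => by simpa using heq i 0
  have hbA : b ∉ zpowers a := fun hm => by
    rw [commute_of_mem_zpowers hm, mul_inv_cancel_right] at hrel'
    have := (heq (2 ^ (k + 2) + 1) 1).1 (by rw [← hrel', zpow_one])
    rw [add_sub_cancel_right] at this
    have := (pow_dvd_pow_iff (by norm_num) (by norm_num [Int.isUnit_iff])).1 this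
    omega
  have hN : ∀ i : ℤ, b ∈ normalizer (zpowers (a ^ i) : Set G) := fun i =>
    mem_normalizer_zpowers (u := 2 ^ (k + 2) + 1) (by rw [conj_zpow_eq hrel', ← zpow_mul, mul_comm])
  have hmem : ∀ (j : ℤ) (g : G), g ∈ zpowers (a ^ j) ⊔ zpowers b ↔
      ∃ i : ℤ, g = a ^ (j * i) ∨ g = a ^ (j * i) * b := fun j g => by
    rw [mem_sup_two (hN j) (hb2 ▸ one_mem _)]
    simp only [zpow_mul]
    constructor
    · rintro (⟨i, hi⟩ | ⟨i, hi⟩)
      exacts [⟨i, .inl hi.symm⟩, ⟨i, .inr (by rw [show (a ^ j) ^ i = _ from hi]; simp)⟩]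
    · rintro ⟨i, rfl | rfl⟩
      exacts [.inl (zpow_mem_zpowers _ i), .inr (by simp)]
  have e : zpowers (a ^ (1 : ℤ)) ⊔ zpowers b = S := by
    refine eq_of_le_of_card_le (sup_le (zpowers_le.2 (zpow_mem ha 1)) (zpowers_le.2 hb)) ?_
    rw [card_sup_zpowers Nat.prime_two (hN 1) (by rwa [zpow_one]) (hb2 ▸ one_mem _), hS,
      Nat.card_zpowers, zpow_one, hao]
    rfl
  have hsq : ∀ i : ℤ, (a ^ i * b) ^ 2 = a ^ (2 * i * (1 + 2 ^ (k + 1))) := fun i => by
    rw [show (a ^ i * b) ^ 2 = a ^ i * (b * a ^ i * b⁻¹) * b ^ 2 by rw [pow_two, pow_two]; group,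
      conj_zpow_eq hrel', hb2, mul_one, ← zpow_add]
    congr 1; ring
  have hom : ∀ (j l : ℕ), j + l = k + 2 → ∀ g ∈ (S : Subgroup G), (g ^ 2) ^ 2 ^ l = 1 →
      g ∈ zpowers (a ^ (2 ^ j : ℤ)) ⊔ zpowers b := fun j l hjl g hg h2 => by
    have hd : ∀ i : ℤ, (2 : ℤ) ^ (k + 3) ∣ 2 * i * 2 ^ l → ∃ c, i = 2 ^ j * c := fun i hi => by
      rw [show k + 3 = 1 + j + l by omega, pow_add, pow_add, pow_one,
        mul_dvd_mul_iff_right (by positivity), mul_dvd_mul_iff_left (by norm_num)] at hi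
      exact hi
    obtain ⟨i, rfl | rfl⟩ := (hmem 1 g).1 (e.ge hg) <;> rw [one_mul] at h2 ⊢
    · rw [← zpow_natCast, ← zpow_natCast, ← zpow_mul, ← zpow_mul, hone] at h2
      obtain ⟨c, rfl⟩ := hd i (by convert h2 using 1; push_cast; ring)
      exact (hmem _ _).2 ⟨c, .inl rfl⟩
    · rw [hsq, ← zpow_natCast, ← zpow_mul, hone] at h2
      obtain ⟨c, rfl⟩ := hd i (two_pow_dvd_of_mul (s := -2 ^ k) (by
        convert h2 using 1; push_cast; ring))
      exact (hmem _ _).2 ⟨c, .inr rfl⟩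
  have hcomm : ∀ i : ℤ, b * a ^ (2 * i) = a ^ (2 * i) * b := fun i => by
    rw [← mul_inv_eq_iff_eq_mul, conj_zpow_eq hrel', heq]
    exact ⟨i, by ring⟩
  refine hasNPC_of_not_act S fun D hD hC => not_act_iff.2 fun n hn ho => ?_
  set c := a ^ (2 ^ (k + 1) : ℤ) with hc
  set z := a ^ (2 ^ (k + 2) : ℤ) with hz
  have hcz : c ^ 2 = z := by rw [← zpow_natCast, ← zpow_mul]; congr 1
  have hz2 : z ^ 2 = 1 := by rw [← zpow_natCast, ← zpow_mul, hone]; exact ⟨1, by push_cast; ring⟩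
  have hz1 : z ≠ 1 := fun h => by
    have := (pow_dvd_pow_iff (by norm_num) (by norm_num [Int.isUnit_iff])).1 ((hone _).1 h)
    omega
  have hcD : c ∈ D := hC ⟨zpow_mem ha _, mem_centralizer_iff.2 fun g hg => by
    obtain ⟨i, rfl | rfl⟩ := (hmem 1 g).1 (e.ge (hD hg))
    · rw [hc]; group
    · rw [hc, pow_succ', mul_assoc, hcomm]; group⟩
  have hsqE : ∀ g ∈ zpowers c ⊔ zpowers b, g ^ 2 ∈ zpowers z := fun g hg => by
    obtain ⟨i, rfl | rfl⟩ := (hmem _ g).1 hg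
    · rw [← zpow_natCast, ← zpow_mul]
      exact zpow_mem_zpowers_of_dvd a ⟨i, by push_cast; ring⟩
    · rw [hsq]
      exact zpow_mem_zpowers_of_dvd a ⟨i * (1 + 2 ^ (k + 1)), by ring⟩
  have hsqT : ∀ g ∈ zpowers z ⊔ zpowers b, g ^ 2 = 1 := fun g hg => by
    obtain ⟨i, rfl | rfl⟩ := (hmem _ g).1 hg
    · rw [← zpow_natCast, ← zpow_mul, hone]
      exact ⟨i, by push_cast; ring⟩
    · rw [hsq, hone]
      exact ⟨i * (1 + 2 ^ (k + 1)), by ring⟩
  have hE4 : ∀ g ∈ zpowers c ⊔ zpowers b, (g ^ 2) ^ 2 ^ 1 = 1 := fun g hg => by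
    rcases (mem_zpowers_two hz2).1 (hsqE g hg) with h | h <;> rw [h]
    exacts [one_pow _, hz2]
  have hnE : n ∈ normalizer ((D ⊓ (zpowers c ⊔ zpowers b) : Subgroup G) : Set G) :=
    mem_normalizer_of_forall fun x hx => ⟨conj_mem_of_mem_normalizer hn hx.1,
      hom (k + 1) 1 rfl _ (hD (conj_mem_of_mem_normalizer hn hx.1))
        (by rw [conj_pow, conj_pow, hE4 x hx.2]; group)⟩
  have hnT : n ∈ normalizer ((D ⊓ (zpowers z ⊔ zpowers b) : Subgroup G) : Set G) :=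
    mem_normalizer_of_forall fun x hx => ⟨conj_mem_of_mem_normalizer hn hx.1,
      hom (k + 2) 0 rfl _ (hD (conj_mem_of_mem_normalizer hn hx.1))
        (by rw [conj_pow, hsqT x hx.2]; group)⟩
  have h1 : n ∈ centralizer (zpowers z : Set G) := by
    refine CA.PGNormalCyclic.mem_centralizer_zpowers ?_
    have := hsqE _ (conj_mem_of_mem_normalizer hnE ⟨hcD, mem_sup_left (mem_zpowers c)⟩).2
    rw [conj_pow, hcz] at this
    have := ((mem_zpowers_two hz2).1 this).resolve_left (by simpa using hz1)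
    exact (mul_inv_eq_iff_eq_mul.1 this).symm
  have h2 := cent_of_two (K := D ⊓ (zpowers z ⊔ zpowers b)) (CA.Fus2.isPGroup_zpowers (k := 1) hz2) (fun x hx y hy hx' hy' =>
    mul_mem_of_relIndex_two (relIndex_sup_zpowers Nat.prime_two (hN _)
      (fun h => hbA (zpowers_pow_le a _ h)) (hb2 ▸ one_mem _)) hx.2 hy.2 hx' hy') ho hnT h1
  have h3 := cent_of_two (K := D ⊓ (zpowers c ⊔ zpowers b)) (S.isPGroup'.to_le (inf_le_left.trans hD)) (fun x hx y hy hx' hy' => by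
    refine mem_inf.2 ⟨mul_mem hx.1 hy.1, hom (k + 2) 0 rfl _ (hD (mul_mem hx.1 hy.1)) ?_⟩
    have hx2 := ((mem_zpowers_two hz2).1 (hsqE x hx.2)).resolve_left fun h =>
      hx' ⟨hx.1, hom (k + 2) 0 rfl _ (hD hx.1) (by simp [h])⟩
    have hy2 := ((mem_zpowers_two hz2).1 (hsqE y hy.2)).resolve_left fun h =>
      hy' ⟨hy.1, hom (k + 2) 0 rfl _ (hD hy.1) (by simp [h])⟩
    haveI : IsMulCommutative ↥(zpowers c ⊔ zpowers b) := isMulCommutative_sup_zpowers
      (CA.PGNormalCyclic.mem_centralizer_zpowers (by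
        rw [hc, pow_succ']; exact (hcomm _).symm))
    rw [(show Commute x y from CA.Coprime2.mul_comm_of_mem this hx.2 hy.2).mul_pow, hx2, hy2,
      ← pow_two, hz2, one_pow]) ho hnE h2
  refine CA.Fus2.mem_centralizer_of_omega (S.isPGroup'.to_le hD) hn ho fun x hx h4 => ?_
  have := mem_centralizer_iff.1 h3 x ⟨hx, hom (k + 1) 1 rfl x (hD hx) (by
    rcases h4 with h | ⟨-, h⟩
    · rw [h, one_pow]
    · rw [← pow_mul]; exact h)⟩
  rw [← this, mul_inv_cancel_right]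

end Cfsg.Agent.S3178
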