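import Cfsg.Statements.S3179
import Mathlib
import Cfsg.Agent.S0280
import Cfsg.Agent.S1163
import Cfsg.Agent.Lib.Lin.PSL2Struct
import Cfsg.Agent.Lib.Perm.PermMulti

set_option autoImplicit false
open Cfsg

namespace Cfsg.Agent.S3179

theorem cardGL : Nat.card (GL (Fin 5) (ZMod 2)) = 9999360 := by
  rw [Matrix.card_GL_field]
  simp [Fin.prod_univ_succ]

theorem no9 (x : GL (Fin 5) (ZMod 2)) : orderOf x ≠ 9 := by
  classical
  intro hx
  let φ : GL (Fin 5) (ZMod 2) →* ((Fin 5 → ZMod 2) ≃ₗ[ZMod 2] (Fin 5 → ZMod 2)) :=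
    (LinearMap.GeneralLinearGroup.generalLinearEquiv _ _).toMonoidHom.comp
      Matrix.GeneralLinearGroup.toLin.toMonoidHom
  have hφ : Function.Injective φ := (LinearMap.GeneralLinearGroup.generalLinearEquiv _ _).injective.comp
    Matrix.GeneralLinearGroup.toLin.injective
  rw [← orderOf_injective φ hφ] at hx
  generalize φ x = g at hx
  let W : AddSubgroup (Fin 5 → ZMod 2) := ((g ^ 3 : _ ≃ₗ[ZMod 2] _).toLinearMap.toAddMonoidHom).eqLocus
    (AddMonoidHom.id _)
  have hW : ∀ v, v ∈ W ↔ (g ^ 3) • v = v := fun v => Iff.rfl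
  have h1 := CA.PermBasic.card_dvd_of_semiregular_on (Subgroup.zpowers g) (W : Set (Fin 5 → ZMod 2))ᶜ
    (Set.toFinite _) (by
      rintro _ ⟨k, rfl⟩ v hv h
      refine hv ((hW v).2 (MulAction.injective (g ^ k) ?_))
      have := (hW _).1 h
      simp only at this ⊢
      rwa [← mul_smul, ← (((Commute.refl g).zpow_left k).pow_right 3).eq, mul_smul] at this) (by
      intro h hh v hv e
      obtain ⟨k, hk, rfl⟩ := Finset.mem_image.1 ((IsOfFinOrder.mem_zpowers_iff_mem_range_orderOf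
        (orderOf_pos_iff.1 (by omega))).1 hh)
      rw [hx, Finset.mem_range] at hk
      by_contra h1
      have h9 : g ^ 9 = 1 := hx ▸ pow_orderOf_eq_one g
      obtain ⟨a, b, hab⟩ : ∃ a b, k * a = 3 + 9 * b := by
        interval_cases k
        exacts [absurd (pow_zero g) h1, ⟨3, 0, rfl⟩, ⟨6, 1, rfl⟩, ⟨1, 0, rfl⟩, ⟨3, 1, rfl⟩, ⟨6, 3, rfl⟩,
          ⟨2, 1, rfl⟩, ⟨3, 2, rfl⟩, ⟨6, 5, rfl⟩]
      have := pow_mem (show g ^ k ∈ MulAction.stabilizer _ v from e) a
      rw [← pow_mul, hab, pow_add, pow_mul g 9, h9, one_pow, mul_one] at this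
      exact hv this)
  have h2 := W.card_addSubgroup_dvd_card
  have h3 : Nat.card (Fin 5 → ZMod 2) = 32 := by simp
  rw [Nat.card_zpowers, hx, Set.ncard_compl, h3, ← Nat.card_coe_set_eq] at h1
  have h4 : Nat.card W ≠ 32 := fun h => by
    have h5 := AddSubgroup.eq_top_of_card_eq W (h.trans h3.symm)
    have := orderOf_dvd_of_pow_eq_one (CA.PermMulti.eq_one_of_forall_smul (X := Fin 5 → ZMod 2)
      (g := g ^ 3) fun v => (hW v).1 (h5 ▸ trivial))
    rw [hx] at this
    norm_num at this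
  rw [h3] at h2
  change 9 ∣ 32 - Nat.card W at h1
  have := Nat.le_of_dvd (by norm_num) h2
  generalize Nat.card W = n at *
  interval_cases n <;> omega

theorem bound {n a : ℕ} (h : 2 ^ n * a ∣ 9999360) : n ≤ 10 := by
  by_contra hn
  have := (pow_dvd_pow 2 (show 11 ≤ n by omega)).trans (dvd_of_mul_right_dvd h)
  norm_num at this

/-- Let X be a section of the general linear group GL(5, 2), that is, a quotient of a subgroup of it. If X is isomorphic to PSL(2, 2^n) for some n ≥ 2, to a Suzuki group over the field with 2^(2m+1) elements for some m ≥ 1, or to PSU(3, 2^n) for some n ≥ 2, then X is isomorphic to PSL(2, 4). -/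
theorem result {H : Subgroup (GL (Fin 5) (ZMod 2))}
    {K : Subgroup ↥H} [K.Normal]
    (hX : (∃ (n : ℕ) (F : Type) (_ : Field F) (_ : Fintype F), 2 ≤ n ∧ Fintype.card F = 2 ^ n ∧
        Nonempty (↥H ⧸ K ≃* Matrix.ProjectiveSpecialLinearGroup (Fin 2) F)) ∨
      (∃ (m : ℕ) (F : Type) (_ : Field F) (_ : Fintype F), 1 ≤ m ∧ Fintype.card F = 2 ^ (2 * m + 1) ∧
        Nonempty (↥H ⧸ K ≃* ↥(Cfsg.Lie.Sz F (2 ^ (m + 1))))) ∨
      (∃ (n : ℕ) (F : Type) (_ : Field F) (_ : Fintype F), 2 ≤ n ∧ Fintype.card F = 4 ^ n ∧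
        Nonempty (↥H ⧸ K ≃* Cfsg.PSU 3 F (2 ^ n)))) :
    ∃ (F : Type) (_ : Field F) (_ : Fintype F), Fintype.card F = 4 ∧
      Nonempty (↥H ⧸ K ≃* Matrix.ProjectiveSpecialLinearGroup (Fin 2) F) := by
  have hd : Nat.card (H ⧸ K) ∣ 9999360 :=
    (Subgroup.card_quotient_dvd_card K).trans (cardGL ▸ H.card_subgroup_dvd_card)
  rcases hX with ⟨n, F, _, _, hn, hF, ⟨e⟩⟩ | ⟨m, F, _, _, hm, hF, ⟨e⟩⟩ | ⟨n, F, _, _, hn, hF, ⟨e⟩⟩
  · refine ⟨F, inferInstance, inferInstance, ?_, ⟨e⟩⟩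
    have hF' : Nat.card F = 2 ^ n := by rw [Nat.card_eq_fintype_card, hF]
    have hev : Even (Nat.card F) := hF' ▸ Nat.even_pow.2 ⟨even_two, by omega⟩
    have h1 := CA.PSL2Struct.card_PSL (F := F)
    rw [CA.PSL2Struct.dd_even (CA.SL2Basic.two_eq_zero_of_even hev), one_mul, ← Nat.card_congr e.toEquiv, hF'] at h1
    rw [h1] at hd
    have h2 := bound hd
    by_cases h3 : n = 3
    · exfalso
      subst h3
      obtain ⟨g, hg⟩ := CA.SL2Torus.exists_aniso_SL F
      obtain ⟨y, -, hy⟩ := CA.PSL2Struct.exists_orderOf_of_dvd (CA.SL2Torus.SS.of_aniso hg) dvd_rfl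
      rw [CA.PSL2Struct.card_Tb_aniso hg, CA.PSL2Struct.dd_even (CA.SL2Basic.two_eq_zero_of_even hev), hF', ← e.symm.orderOf_eq] at hy
      obtain ⟨x, hx⟩ := QuotientGroup.mk'_surjective K (e.symm y)
      have h4 := orderOf_map_dvd (QuotientGroup.mk' K) x
      rw [hx, hy, ← Subgroup.orderOf_coe] at h4
      exact no9 _ (orderOf_pow_orderOf_div (orderOf_pos _).ne' h4)
    rw [hF]
    interval_cases n <;> first | rfl | omega
  · have h1 := (Cfsg.Agent.S1163.result hm hF).1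
    rw [Nat.card_congr e.toEquiv, h1, ← pow_mul, mul_assoc] at hd
    have h2 := bound hd
    obtain rfl | rfl : m = 1 ∨ m = 2 := by omega
    all_goals norm_num at hd
  · have h1 := Cfsg.Agent.S0280.result (q := 2 ^ n) (F := F)
      (by rw [hF, ← pow_mul, mul_comm, pow_mul]; norm_num) 3 (by norm_num)
    rw [← Nat.card_congr e.toEquiv] at h1
    simp only [Finset.prod_range_succ, Finset.prod_range_zero] at h1
    norm_num at h1
    have h2 : (2 ^ n) ^ 3 ∣ 3 * ((2 ^ n + 1) * 9999360) := by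
      refine (Dvd.intro _ h1.symm).trans (mul_dvd_mul (Nat.gcd_dvd_left _ _) (mul_dvd_mul_left _ hd))
    have h3 : n ≤ 3 := by
      have c : Nat.Coprime ((2 ^ n) ^ 3) (3 * (2 ^ n + 1)) := by
        refine Nat.Coprime.pow_left _ (Nat.Coprime.mul_right (Nat.Coprime.pow_left _ (by norm_num)) ?_)
        simp
      rw [← mul_assoc] at h2
      have := bound (n := n * 3) (a := 1) (by rw [mul_one, pow_mul]; exact c.dvd_of_dvd_mul_left h2)
      omega
    generalize Nat.card (H ⧸ K) = N at h1 hd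
    interval_cases n <;> norm_num at h1
    · obtain rfl : N = 62400 := by omega
      norm_num at hd
    · obtain rfl : N = 5515776 := by omega
      norm_num at hd

end Cfsg.Agent.S3179
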