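import Cfsg.Statements.S3183
import Cfsg.Agent.Lib.Grp.H13Misc

set_option autoImplicit false
open Cfsg

namespace Cfsg.Agent.S3183

/-- Let G be a finite group in which the intersection of any two distinct Sylow 2-subgroups is contained in the centre of some Sylow 2-subgroup, and let S be a Sylow 2-subgroup. Then for every x in S the centralizer of x in S is a Sylow 2-subgroup of the centralizer of x in G (no 2-subgroup centralizing x is larger), and for every other Sylow 2-subgroup T the intersection S ∩ T lies in both the centre of S and the centre of T. -/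
theorem result {G : Type*} [Group G] [Finite G]
    (hCI : ∀ S T : Sylow 2 G, S ≠ T → ∃ U : Sylow 2 G,
      (S : Subgroup G) ⊓ (T : Subgroup G) ≤ (Subgroup.center ↥(U : Subgroup G)).map (U : Subgroup G).subtype)
    (S : Sylow 2 G) :
    (∀ x ∈ (S : Subgroup G), ∀ P : Subgroup G, IsPGroup 2 ↥P → P ≤ Subgroup.centralizer ({x} : Set G) →
        Nat.card ↥P ≤ Nat.card ↥((S : Subgroup G) ⊓ Subgroup.centralizer ({x} : Set G))) ∧
    (∀ T : Sylow 2 G, T ≠ S →
        (S : Subgroup G) ⊓ (T : Subgroup G) ≤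
          (Subgroup.center ↥(S : Subgroup G)).map (S : Subgroup G).subtype ⊓
            (Subgroup.center ↥(T : Subgroup G)).map (T : Subgroup G).subtype) := by
  open Subgroup CA.SylIn CA.H13Misc in
  have hZ : ∀ (U : Subgroup G) (x : G), x ∈ (center U).map U.subtype ↔
      x ∈ U ∧ U ≤ centralizer ({x} : Set G) := fun U x =>
    ⟨by
      rintro ⟨y, hy, rfl⟩
      exact ⟨y.2, fun u hu => mem_centralizer_singleton_iff.2
        (congrArg Subtype.val (mem_center_iff.1 hy ⟨u, hu⟩))⟩,
    fun h => ⟨⟨x, h.1⟩, mem_center_iff.2 fun u =>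
      Subtype.ext (mem_centralizer_singleton_iff.1 (h.2 u.2)), rfl⟩⟩
  -- every element of a proper intersection is central in `S`
  have key : ∀ S T : Sylow 2 G, S ≠ T → ∀ x ∈ (S : Subgroup G) ⊓ (T : Subgroup G),
      (S : Subgroup G) ≤ centralizer ({x} : Set G) := by
    intro S T hST x hx
    obtain ⟨U, hU⟩ := hCI S T hST
    have hUx := ((hZ _ _).1 (hU hx)).2
    by_contra hne
    -- `C_S(x)` lies in a Sylow subgroup `W ≤ C(x)`, `W ≠ S`
    obtain ⟨c, hc, h1⟩ := (isSylowIn_of_le U hUx).exists_conj_le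
      (S.isPGroup'.to_le (inf_le_left : (S : Subgroup G) ⊓ centralizer {x} ≤ _)) inf_le_right
    have h2 : (S : Subgroup G) ⊓ centralizer {x} ≤ (c⁻¹ • U : Sylow 2 G) := by
      rw [coe_smul_sylow]; exact conj_le_iff_le_inv_conj.1 h1
    have h3 : ((c⁻¹ • U : Sylow 2 G) : Subgroup G) ≤ centralizer {x} := by
      rw [coe_smul_sylow]
      exact (conj_mono _ hUx).trans (conj_eq_of_mem (inv_mem hc)).le
    obtain ⟨V, hV⟩ := hCI S (c⁻¹ • U) (fun h => hne (h ▸ h3))
    -- so `D = C_S(x)` is central in a Sylow subgroup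
    set D := (S : Subgroup G) ⊓ centralizer {x} with hD
    have hVD : (V : Subgroup G) ≤ centralizer (D : Set G) := fun v hv d hd =>
      (mem_centralizer_singleton_iff.1 (((hZ _ _).1 (hV ⟨hd.1, h2 hd⟩)).2 hv)).symm
    have hlt : D < S := lt_of_le_of_ne inf_le_left fun h => hne (h.ge.trans inf_le_right)
    obtain ⟨R, hR⟩ := (S.isPGroup'.to_le
      (inf_le_left : (S : Subgroup G) ⊓ normalizer (D : Set G) ≤ _))
      |> fun h => (isSylowIn_of_le V (hVD.trans (centralizer_le_normalizer _))).exists_conj_le h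
        inf_le_right
    obtain ⟨s, hs, hs'⟩ := SetLike.exists_of_lt (lt_inf_normalizer S.isPGroup' hlt)
    have h4 := hVD (conj_le_iff.1 hR.2 s hs)
    have h5 := h4 _ (conj_mem_of_mem_normalizer hR.1 (x := x) ⟨hx.1,
      mem_centralizer_singleton_iff.2 rfl⟩)
    exact hs' ⟨hs.1, mem_centralizer_singleton_iff.2 (commute_of_conj h5).symm⟩
  refine ⟨fun x hx P hP hPx => ?_, fun T hT x hx =>
    ⟨(hZ _ _).2 ⟨hx.1, key S T hT.symm x hx⟩, (hZ _ _).2 ⟨hx.2, key T S hT x ⟨hx.2, hx.1⟩⟩⟩⟩
  obtain ⟨k, hk⟩ := CA.Fus2.exists_pow_eq_one S.isPGroup' hx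
  obtain ⟨T, hT⟩ := (IsPGroup.to_sup_of_normal_left' (CA.Fus2.isPGroup_zpowers hk) hP
    (hPx.trans ((CA.H13BS.centralizer_zpowers x).ge.trans
      (centralizer_le_normalizer _)))).exists_le_sylow
  by_cases h : S = T
  · exact card_le_of_le (le_inf (h ▸ le_sup_right.trans hT) hPx)
  · rw [inf_eq_left.2 (key S T h x ⟨hx, hT (mem_sup_left (mem_zpowers x))⟩)]
    exact (isSylowIn_top S).card_le hP le_top

end Cfsg.Agent.S3183
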