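import Cfsg.Statements.S3184
import Cfsg.Agent.Lib.Block.H13Zstar
import Cfsg.Agent.Lib.Grp.SylIn

set_option autoImplicit false
open Cfsg

namespace Cfsg.Agent.S3184

open Subgroup CA.SylIn

/-- Let G be a finite group in which the intersection of any two distinct Sylow 2-subgroups is contained in the centre of some Sylow 2-subgroup, and let S be a Sylow 2-subgroup. If C is a nontrivial cyclic characteristic subgroup of S, then the involution of C is central modulo the largest normal subgroup of odd order of G: each of its conjugates has the same image in G/O(G). -/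
theorem result {G : Type*} [Group G] [Finite G]
    (hCI : ∀ S T : Sylow 2 G, S ≠ T → ∃ U : Sylow 2 G,
      (S : Subgroup G) ⊓ (T : Subgroup G) ≤ (Subgroup.center ↥(U : Subgroup G)).map (U : Subgroup G).subtype)
    (S : Sylow 2 G) (C : Subgroup ↥(S : Subgroup G)) (hC : C ≠ ⊥) (hCc : IsCyclic ↥C) (hCh : C.Characteristic)
    (c : ↥(S : Subgroup G)) (hc : c ∈ C) (hc2 : orderOf c = 2) :
    ∀ g : G, (QuotientGroup.mk (s := Cfsg.oddCore G) (g * (c : G) * g⁻¹)) =
      QuotientGroup.mk (s := Cfsg.oddCore G) (c : G) := by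
  classical
  haveI : Fact (Nat.Prime 2) := ⟨Nat.prime_two⟩
  have hc2' : orderOf (c : G) = 2 := by rw [Subgroup.orderOf_coe]; exact hc2
  -- elements normalising `S` fix `c`
  have hN : ∀ n : G, n ∈ normalizer ((S : Subgroup G) : Set G) → n * c * n⁻¹ = c := by
    intro n hn
    let φ : MulAut ↥(S : Subgroup G) := (S : Subgroup G).normalizerMonoidHom ⟨n, hn⟩
    have hφ : ((φ c : ↥(S : Subgroup G)) : G) = n * c * n⁻¹ := rfl
    have hmem : φ c ∈ C := by
      have := (Subgroup.characteristic_iff_le_comap.1 hCh φ) hc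
      exact this
    have ho : orderOf (φ c) = 2 := by rw [MulEquiv.orderOf_eq]; exact hc2
    have h1 : (⟨φ c, hmem⟩ : C) = ⟨c, hc⟩ := by
      haveI := hCc
      haveI := Fintype.ofFinite C
      have o1 : orderOf (⟨c, hc⟩ : C) = 2 := by rw [← Subgroup.orderOf_coe]; exact hc2
      have o2 : orderOf (⟨φ c, hmem⟩ : C) = 2 := by rw [← Subgroup.orderOf_coe]; exact ho
      have hcard := IsCyclic.card_orderOf_eq_totient (α := C) (d := 2) (by have := orderOf_dvd_card (x := (⟨c, hc⟩ : C)); rwa [o1] at this)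
      rw [Nat.totient_two, Finset.card_eq_one] at hcard
      obtain ⟨a, ha⟩ := hcard
      have h : ∀ x : C, orderOf x = 2 → x = a := fun x hx => by
        rw [← Finset.mem_singleton, ← ha]; simpa using hx
      rw [h _ o1, h _ o2]
    rw [← hφ]
    exact congrArg (fun x : C => ((x : ↥(S : Subgroup G)) : G)) h1
  have hcS : (S : Subgroup G) ≤ centralizer {(c : G)} := by
    intro s hs
    rw [mem_centralizer_singleton_iff]
    have := hN s (le_normalizer hs)
    rw [mul_inv_eq_iff_eq_mul] at this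
    exact this
  have hk : ∀ U : Sylow 2 G, (U : Subgroup G) ≤ centralizer {(c : G)} →
      ∃ k : G, k * c * k⁻¹ = c ∧ k •ᶜ (S : Subgroup G) = U := by
    intro U hU
    obtain ⟨k, hk, e⟩ := (isSylowIn_of_le S hcS).exists_conj_eq (isSylowIn_of_le U hU)
    refine ⟨k, ?_, e⟩
    rw [mem_centralizer_singleton_iff] at hk
    rw [hk]; group
  have key : ∀ g : G, ∀ U : Sylow 2 G, (U : Subgroup G) ≤ centralizer {(c : G)} →
      (U : Subgroup G) ≤ centralizer {g * (c : G) * g⁻¹} → g * c * g⁻¹ = c := by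
    intro g U h1 h2
    obtain ⟨k, hk1, hk2⟩ := hk U h1
    obtain ⟨m, hm1, hm2⟩ := hk (g⁻¹ • U) (by
      rw [coe_smul_sylow, ← le_conj_iff_inv_conj_le, conj_centralizer_singleton]; exact h2)
    rw [coe_smul_sylow, ← hk2] at hm2
    have h3 : k⁻¹ * g * m ∈ normalizer ((S : Subgroup G) : Set G) := by
      rw [mem_normalizer_iff_conj_eq, ← conj_conj, hm2, conj_conj, conj_conj]
      have : k⁻¹ * g * g⁻¹ * k = 1 := by group
      rw [this, one_conj]
    have h4 := hN _ h3
    calc g * c * g⁻¹ = k * (k⁻¹ * g * m * (m⁻¹ * (m * c * m⁻¹) * m) * (k⁻¹ * g * m)⁻¹) * k⁻¹ := by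
          rw [hm1]; group
      _ = k * (k⁻¹ * g * m * c * (k⁻¹ * g * m)⁻¹) * k⁻¹ := by group
      _ = c := by rw [h4, hk1]
  have hcc : (c : G) * c = 1 := by
    have := pow_orderOf_eq_one (c : G)
    rwa [hc2', pow_two] at this
  have hZ : Cfsg.InZStar 2 (c : G) := by
    refine CA.H13Zstar.zstar_sylow S hcc fun g hg => ?_
    have hgS : ((g • S : Sylow 2 G) : Subgroup G) ≤ centralizer {g * (c : G) * g⁻¹} := by
      rw [coe_smul_sylow, ← conj_centralizer_singleton]; exact conj_mono g hcS
    have hcd : zpowers (c : G) ≤ centralizer {g * (c : G) * g⁻¹} := by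
      rw [zpowers_le, mem_centralizer_singleton_iff]
      exact (mem_centralizer_singleton_iff.1 (hcS hg)).symm
    have hp : IsPGroup 2 (zpowers (c : G)) := S.isPGroup'.to_le (by simpa using c.2)
    obtain ⟨h, hh, hle⟩ := (isSylowIn_of_le (g • S) hgS).exists_conj_le hp hcd
    have hT : ((h⁻¹ • g • S : Sylow 2 G) : Subgroup G) ≤ centralizer {g * (c : G) * g⁻¹} := by
      rw [coe_smul_sylow, ← conj_eq_of_mem (inv_mem hh)]
      exact conj_mono _ hgS
    have hcT : (c : G) ∈ ((h⁻¹ • g • S : Sylow 2 G) : Subgroup G) := by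
      rw [coe_smul_sylow]
      exact conj_le_iff_le_inv_conj.1 hle (mem_zpowers _)
    have hdT : g * (c : G) * g⁻¹ ∈ ((h⁻¹ • g • S : Sylow 2 G) : Subgroup G) := by
      have h1 : g * (c : G) * g⁻¹ ∈ ((g • S : Sylow 2 G) : Subgroup G) := by
        rw [coe_smul_sylow]; exact conj_mem_conj.2 c.2
      rw [coe_smul_sylow, mem_conj_inv]
      rw [mem_centralizer_singleton_iff] at hh
      rw [hh]; simpa using h1
    by_cases e : S = h⁻¹ • g • S
    · exact key g S hcS (le_of_eq_of_le (congrArg _ e) hT)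
    · obtain ⟨U, hU⟩ := hCI _ _ e
      have aux : ∀ x : G, x ∈ (center ↥(U : Subgroup G)).map (U : Subgroup G).subtype →
          (U : Subgroup G) ≤ centralizer {x} := by
        rintro _ ⟨x, hx, rfl⟩ u hu
        rw [mem_centralizer_singleton_iff]
        exact congrArg Subtype.val (mem_center_iff.1 hx ⟨u, hu⟩)
      exact key g U (aux _ (hU ⟨c.2, hcT⟩)) (aux _ (hU ⟨hg, hdT⟩))
  intro g
  have hn : (Cfsg.pPrimeCore 2 G).Normal := inferInstance
  rw [QuotientGroup.eq]
  have := hn.conj_mem _ (inv_mem (hZ g)) (c : G)⁻¹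
  convert this using 1
  group

end Cfsg.Agent.S3184
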