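import Cfsg.Statements.S3189
import Cfsg.Agent.Lib.Walt.Hyp0
import Cfsg.Agent.Lib.Walt.Ab2

set_option autoImplicit false
open Cfsg

namespace Cfsg.Agent.S3189

open CA.BG CA.Wa

/-- Let G be a non-abelian finite simple group whose Sylow 2-subgroup S is elementary abelian of order 8, and suppose the centralizer of every involution of G is solvable. Then the normalizer of S modulo the centralizer of S has order 7. -/
theorem result {G : Type*} [Group G] [Finite G]
    [IsSimpleGroup G] (hG : ¬ IsMulCommutative G) (S : Sylow 2 G)
    (hS : Cfsg.IsElementaryAbelian 2 (S : Subgroup G)) (hS8 : Nat.card ↥(S : Subgroup G) = 8)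
    (hC : ∀ t : G, orderOf t = 2 → Group.IsSolvable ↥(Subgroup.centralizer ({t} : Set G))) :
    (Subgroup.centralizer ((S : Subgroup G) : Set G)).relIndex (Subgroup.normalizer ((S : Subgroup G) : Set G)) = 7 := by
  exact e8_seven hyps hG (syl_top Nat.prime_two S) hS hS8 hC

end Cfsg.Agent.S3189
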