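import Cfsg.Statements.S3190
import Cfsg.Agent.Lib.GW.GW1

set_option autoImplicit false
open Cfsg

namespace Cfsg.Agent.S3190

open Subgroup CA.BG CA.GW
open scoped commutatorElement

/-- Let p be an odd prime and, inside a finite group, let P be a p-subgroup normalized by a Klein four-group T. Let R be a subgroup of P, normal in P and normalized by T, such that P is the product of R with the centralizer of T in P. If T centralizes the centre of P, then T centralizes the centre of R. -/
theorem result {X : Type*} [Group X] [Finite X]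
    {p : ℕ} (hp : p.Prime) (hodd : Odd p) (P T R : Subgroup X) (hP : IsPGroup p ↥P) (hT : IsKleinFour ↥T)
    (hTP : T ≤ Subgroup.normalizer (P : Set X)) (hRP : R ≤ P) (hRn : (R.subgroupOf P).Normal)
    (hTR : T ≤ Subgroup.normalizer (R : Set X)) (hfac : R ⊔ (P ⊓ Subgroup.centralizer (T : Set X)) = P)
    (hZ : T ≤ Subgroup.centralizer (((Subgroup.center ↥P).map P.subtype : Subgroup X) : Set X)) :
    T ≤ Subgroup.centralizer (((Subgroup.center ↥R).map R.subtype : Subgroup X) : Set X) := by
  rw [map_center] at hZ ⊢
  have pP := isPi_of_isPGroup hp hP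
  have zP : 𝓩(R) ≤ P := inf_le_left.trans hRP
  have nP : P ≤ 𝓝(R) := (normal_subgroupOf_iff_le_normalizer hRP).1 hRn
  have nT := hTR.trans (norm_center R)
  have w := comm_le_left nT
  have c : (♯𝓩(R)).Coprime ♯T := (pP.of_le zP).coprime_ne (isPi_of_card_eq_pow Nat.prime_two (k := 2) hT.card_four)
    (by rintro rfl; exact absurd hodd (by decide))
  refine cent_symm (comm_eq_bot_iff.1 (by_contra fun h => pP.meet_cent (pP.of_le (w.trans zP)) ?_ h ?_))
  · exact hfac.ge.trans (sup_le (norm_of_cent (cent_symm (w.trans inf_le_right)))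
      (norm_comm (inf_le_left.trans (nP.trans (norm_center R))) (norm_of_cent inf_le_right)))
  · exact CA.BG.eq_bot_mono (le_inf inf_le_left ((inf_le_inf_right _ (w.trans zP)).trans (cent_symm hZ)))
      (coprime_abel_cent_TI nT c (comm_center R))

end Cfsg.Agent.S3190
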