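import Cfsg.Statements.S3195
import Cfsg.Agent.Lib.GW.GW2
import Cfsg.Agent.Lib.Lin.PSL2Four
import Cfsg.Agent.Lib.Loc.AmbIso

set_option autoImplicit false
open Cfsg

namespace Cfsg.Agent.S3195

open Subgroup CA.BG CA.GW

variable {G : Type*} [Group G] [Finite G] {a b x y : G}

theorem sq {K : Subgroup G} (ho : Odd (orderOf x)) (h : x * x ∈ K) : x ∈ K :=
  zp_le.2 (pow_two x ▸ h) (mem_zpowers_pow_iff.2 (Nat.coprime_two_left.2 ho))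

theorem ne (ho : Odd (orderOf x)) (e : a * x * a⁻¹ = x⁻¹) (h : x ∈ 𝓒₁(a)) : x = 1 :=
  sq (K := ⊥) ho (by rw [mem_bot, mul_eq_one_iff_eq_inv, ← e, conj_eq_of_cent (mem_cent1_symm.1 h)])

theorem step (ho : Odd (orderOf x)) (e : a * x * a⁻¹ = x⁻¹) (h1 : a ∈ 𝓒₁(b)) (h2 : x⁻¹ * a * x⁻¹⁻¹ ∈ 𝓒₁(b)) : x ∈ 𝓒₁(b) :=
  sq ho ((mul_mem_cancel_left h1).1 (by rwa [inv_inv, ← e, inv_mul_cancel_right, mul_assoc] at h2))

theorem main (f : Four a b) (H : ∀ u ∈ V4 a b, u ≠ 1 → ∀ g, ∃ v ∈ V4 a b, v ≠ 1 ∧ g * u * g⁻¹ ∈ 𝓒₁(v))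
    (x1 : Odd (orderOf x)) (x2 : a * x * a⁻¹ = x⁻¹) (x3 : x ∈ 𝓒₁(b)) (x4 : x ≠ 1)
    (y1 : Odd (orderOf y)) (y2 : b * y * b⁻¹ = y⁻¹) (y3 : y ∈ 𝓒₁(a)) (y4 : y ≠ 1) : False := by
  have cv : ∀ {u v}, u ∈ V4 a b → v ∈ V4 a b → u ∈ 𝓒₁(v) := fun hu hv => cent_le_cent1 hv (f.le_cent hu)
  have k : ∀ h ∈ 𝓒₁(b), a * h * a⁻¹ = h⁻¹ → h * h ∈ 𝓒₁(y) ∨ a * b * (h * h) ∈ 𝓒₁(y) := fun h h1 h2 => by
    obtain ⟨v, v1, v2, v3⟩ := H b (right_mem_V4 a b) f.b1 (h * y⁻¹)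
    have := mem_cent1_symm.1 (step y1 y2 (b := h⁻¹ * v * h⁻¹⁻¹) (cj_cent1 h⁻¹ v ▸ mem_cj_inv.2 ((conj_eq_of_cent h1).symm ▸
      cv (right_mem_V4 a b) v1)) (cj_cent1 h⁻¹ v ▸ mem_cj_inv.2 (by convert v3 using 1; group)))
    have e : h⁻¹ * a * h⁻¹⁻¹ = a * (h * h) := by rw [inv_inv, ← h2]; group
    rcases f.mem v1 with e1 | rfl | rfl | rfl
    · exact absurd e1 v2
    · exact .inl ((mul_mem_cancel_left (mem_cent1_symm.1 y3)).1 (e ▸ this))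
    · exact absurd (ne y1 y2 (mem_cent1_symm.1 (conj_eq_of_cent (inv_mem h1) ▸ this))) y4
    · refine .inr (by
        convert this using 1
        rw [mul_assoc a, ← mem_cent1.1 (mul_mem h1 h1), ← mul_assoc, ← e, mul_assoc _ _ b, inv_inv, mem_cent1.1 h1]; group)
  have c : x ∈ 𝓒₁(y) := sq x1 ((k x x3 x2).elim id fun h1 => (k x⁻¹ (inv_mem x3) (by rw [← conj_inv, x2])).elim
    (fun h2 => by simpa using inv_mem h2) fun h2 => sq (K := 𝓒₁(y)) (by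
      rw [← pow_two]; exact x1.of_dvd_nat (orderOf_pow_dvd 2)) (by convert mul_mem (inv_mem h2) h1 using 1; simp [mul_assoc]))
  have o : Odd (orderOf (x * y)) := (x1.mul y1).of_dvd_nat (Commute.orderOf_mul_dvd_mul_orderOf (mem_cent1.1 c))
  have i : a * b * (x * y) * (a * b)⁻¹ = (x * y)⁻¹ := by
    calc _ = a * (b * x * b⁻¹) * a⁻¹ * (a * (b * y * b⁻¹) * a⁻¹) := by group
      _ = _ := by rw [conj_eq_of_cent (mem_cent1_symm.1 x3), x2, y2, conj_eq_of_cent (mem_cent1_symm.1 (inv_mem y3)), mem_cent1.1 c, mul_inv_rev]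
  obtain ⟨v, v1, v2, v3⟩ := H _ (mul_mem_V4 a b) (ne_one_of_ord f.oc) (x * y)⁻¹
  have := step o i (cv (mul_mem_V4 a b) v1) v3
  rcases f.mem v1 with e1 | rfl | rfl | rfl
  · exact v2 e1
  · exact x4 (ne x1 x2 ((mul_mem_cancel_right y3).1 this))
  · exact y4 (ne y1 y2 ((mul_mem_cancel_left x3).1 this))
  · exact x4 (ne x1 x2 (eq_inv_of_mul_eq_one_left (ne o i this) ▸ inv_mem y3))

/-- Let A be a Klein four-subgroup of a finite group G. If every G-conjugate of every involution of A commutes with some involution of A (its centralizer meets A nontrivially), then A meets the largest normal 2-subgroup O₂(G) nontrivially. -/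
theorem result {G : Type*} [Group G] [Finite G]
    (A : Subgroup G) (hA : IsKleinFour ↥A)
    (h : ∀ a ∈ A, a ≠ 1 → ∀ g : G, A ⊓ Subgroup.centralizer ({g * a * g⁻¹} : Set G) ≠ ⊥) :
    A ⊓ Cfsg.pCore 2 G ≠ ⊥ := by
  intro e
  have H : ∀ u ∈ A, u ≠ 1 → ∀ g, ∃ v ∈ A, v ≠ 1 ∧ g * u * g⁻¹ ∈ 𝓒₁(v) := fun u h1 h2 g =>
    let ⟨v, hv, v1⟩ := exists_ne_one (h u h1 h2 g)
    ⟨v, hv.1, v1, mem_cent1_symm.1 hv.2⟩
  obtain ⟨a, b, f, rfl⟩ : ∃ a b, Four a b ∧ V4 a b = A :=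
    let ⟨a, ha, b, hb, p⟩ := CA.PSL2Four.exists_pair A
    have f : Four a b := ⟨ord_two p.aa p.1, ord_two p.bb p.2, p.comm, p.3⟩
    ⟨a, b, f, eq_of_le_of_card_eq (V4_le ha hb) (f.card.trans hA.card_four.symm)⟩
  have k : ∀ u ∈ V4 a b, u ≠ 1 → ∃ x, x ≠ 1 ∧ Odd (orderOf x) ∧ u * x * u⁻¹ = x⁻¹ ∧ ∃ v ∈ V4 a b, Four u v ∧ V4 u v = V4 a b ∧
      x ∈ 𝓒₁(v) := fun u h1 h2 => by
    obtain ⟨x, x1, x2, x3⟩ := CA.AmbIso.exists_inverted (f.sq h1) fun e' => h2 (mem_bot.1 (e.le ⟨h1, e'⟩))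
    obtain ⟨v, v1, v2, v3⟩ := H u h1 h2 x⁻¹
    have c := cent_le_cent1 v1 (f.le_cent h1)
    have := step x2 x3 c v3
    have f' : Four u v := ⟨ord_two (f.sq h1) h2, ord_two (f.sq v1) v2, mem_cent1.1 c, fun e => x1 (ne x2 x3 (e ▸ this))⟩
    exact ⟨x, x1, x2, x3, v, v1, f', f.eq_of_le f' (V4_le h1 v1), this⟩
  obtain ⟨x, x1, x2, x3, v, v1, f1, e1, x4⟩ := k a (left_mem_V4 a b) f.a1
  obtain ⟨y, y1, y2, y3, w, w1, f2, -, y4⟩ := k v v1 f1.b1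
  rw [← e1] at H w1
  rcases f1.mem w1 with e2 | rfl | rfl | rfl
  · exact f2.b1 e2
  · exact main f1 H x2 x3 x4 x1 y2 y3 y4 y1
  · exact y1 (ne y2 y3 y4)
  · refine main f1.rot.symm (by rwa [V4_comm, V4_rot]) x2 ?_ x4 x1 y2 y3 y4 y1
    rw [← x3, mul_assoc a, ← mem_cent1.1 x4]; group

end Cfsg.Agent.S3195
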