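import Cfsg.Statements.S3196
import Cfsg.Agent.Lib.Odd.BG6a
import Cfsg.Agent.Lib.Odd.BGMisc

set_option autoImplicit false
open Cfsg

namespace Cfsg.Agent.S3196

open Subgroup CA.BG

/-- Let p be a prime and K a set of subgroups of order p of a finite group G, closed under conjugation, such that at least two distinct members of K commute elementwise, and whenever two distinct members X, Y of K commute: every subgroup of order p of the group XY they generate belongs to K, and every member W of K has centralizer meeting XY nontrivially. Then some member V of K commutes elementwise with every member of K and lies in O_p(G); in particular G is not simple. -/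
theorem result {G : Type*} [Group G] [Finite G]
    {p : ℕ} (hp : p.Prime) (K : Set (Subgroup G)) (hK : ∀ X ∈ K, Nat.card ↥X = p)
    (hKc : ∀ X ∈ K, ∀ g : G, X.map (MulAut.conj g).toMonoidHom ∈ K)
    (hex : ∃ X ∈ K, ∃ Y ∈ K, X ≠ Y ∧ ∀ x ∈ X, ∀ y ∈ Y, x * y = y * x)
    (ha : ∀ X ∈ K, ∀ Y ∈ K, X ≠ Y → (∀ x ∈ X, ∀ y ∈ Y, x * y = y * x) →
      ∀ Z : Subgroup G, Z ≤ X ⊔ Y → Nat.card ↥Z = p → Z ∈ K)
    (hb : ∀ X ∈ K, ∀ Y ∈ K, X ≠ Y → (∀ x ∈ X, ∀ y ∈ Y, x * y = y * x) →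
      ∀ W ∈ K, (X ⊔ Y) ⊓ Subgroup.centralizer (W : Set G) ≠ ⊥) :
    (∃ V ∈ K, (∀ W ∈ K, ∀ v ∈ V, ∀ w ∈ W, v * w = w * v) ∧ V ≤ Cfsg.pCore p G) ∧ ¬ IsSimpleGroup G := by
  have pi : ∀ X ∈ K, IsPi {p} X := fun X h => isPi_of_card_eq hp (hK X h)
  have pr : ∀ X ∈ K, (♯X).Prime := fun X h => (hK X h).symm ▸ hp
  have ab : ∀ X ∈ K, X ≤ 𝓒(X) := fun X h => comm_iff_le_cent.1 (comm_of_cyclic (isCyclic_of_prime (pr X h)))
  have cv : ∀ {X Y : Subgroup G}, X ≤ 𝓒(Y) → ∀ x ∈ X, ∀ y ∈ Y, x * y = y * x := fun h x hx y hy => (mem_cent.1 (h hx) y hy).symm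
  have cd : ∀ X ∈ K, ∀ Y ∈ K, X ≠ Y → X ≤ 𝓒(Y) → ♯(X ⊔ Y) = p * p := fun X hX Y hY n c => by
    rw [card_sup_of_disjoint (norm_of_cent c) (inf_eq_bot_of_prime_not_le (pr X hX) fun e =>
      n (eq_of_le_of_card_eq e ((hK X hX).trans (hK Y hY).symm))), hK X hX, hK Y hY]
  have la : ∀ X ∈ K, ∀ Y ∈ K, X ≤ 𝓒(Y) → X ⊔ Y ≤ 𝓒(X ⊔ Y) := fun X hX Y hY c =>
    sup_le (le_cent_sup (ab X hX) c) (le_cent_sup (cent_symm c) (ab Y hY))
  have F2 : ∀ X ∈ K, ∀ Y ∈ K, X ≠ Y → X ≤ 𝓒(Y) → ∀ U ∈ K, ∀ V ∈ K, U ≠ V → U ≤ X ⊔ Y → V ≤ X ⊔ Y → U ⊔ V = X ⊔ Y :=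
    fun X hX Y hY n c U hU V hV n' u v => eq_of_le_of_card_eq (sup_le u v)
      ((cd U hU V hV n' (le_cent_mono (la X hX Y hY c) u v)).trans (cd X hX Y hY n c).symm)
  have F3 : ∀ X ∈ K, ∀ Y ∈ K, X ≠ Y → X ≤ 𝓒(Y) → ∀ W ∈ K, ∃ V ∈ K, V ≤ X ⊔ Y ∧ V ≤ 𝓒(W) := fun X hX Y hY n c W hW =>
    let ⟨V, v1, v2⟩ := (((pi X hX).sup (pi Y hY) (norm_of_cent c)).inf_left _).exists_card_eq (hb X hX Y hY n (cv c) W hW)
    ⟨V, ha X hX Y hY n (cv c) V (v1.trans inf_le_left) v2, v1.trans inf_le_left, v1.trans inf_le_right⟩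
  have zp : ∀ X ∈ K, ∀ x ∈ X, x ≠ 1 → ∀ {H : Subgroup G}, x ∈ H → X ≤ H := fun X hX x hx x1 H h =>
    eq_zpowers_of_prime (pr X hX) hx x1 ▸ zpowers_le.2 h
  have F4 : ∀ X ∈ K, ∀ W ∈ K, ∀ x ∈ X, x ≠ 1 → cj x W = W → X ≤ 𝓒(W) := fun X hX W hW x hx x1 e =>
    prime_cent_of_norm hp (pi X hX) (hK W hW) (zp X hX x hx x1 (mem_norm_iff_cj.2 e))
  obtain ⟨X₀, hX₀, Y₀, hY₀, n₀, c₀⟩ := hex
  replace c₀ : X₀ ≤ 𝓒(Y₀) := fun x hx => mem_cent.2 fun y hy => (c₀ x hx y hy).symm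
  obtain ⟨V, hV, h⟩ : ∃ V ∈ K, ∀ W ∈ K, V ≤ 𝓒(W) := by
    by_contra! nd
    have A : ∀ X ∈ K, ∀ W ∈ K, ¬ X ≤ 𝓒(W) → ∀ x ∈ X, x ≠ 1 → ¬ W ≤ 𝓒(cj x W) := fun X hX W hW n x hx x1 c => by
      have hW' : cj x W ∈ K := hKc W hW x
      have n1 : W ≠ cj x W := fun e => n (F4 X hX W hW x hx x1 e.symm)
      obtain ⟨U, hU, u1, u2⟩ := F3 W hW _ hW' n1 c X hX
      have f := F2 W hW _ hW' n1 c
      have u3 : W ≠ U := fun e => n (cent_symm (e ▸ u2))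
      have u4 : cj x W ≠ U := fun e => n (cent_symm (cj_le_cj.1 (e ▸ (cj_cent x X).symm ▸ (cj_of_mem hx).symm ▸ u2)))
      have u5 := le_cent_mono (la W hW _ hW' c) u1 le_rfl
      have u6 : X ≠ U := fun e => n (e ▸ u5.trans (cent_anti le_sup_left))
      obtain ⟨T, hT, t⟩ := nd U hU
      obtain ⟨X₁, hX₁, a1, a2⟩ := F3 X hX U hU u6 (cent_symm u2) T hT
      obtain ⟨W₁, hW₁, b1, b2⟩ := F3 W hW _ hW' n1 c T hT
      have e1 := F2 X hX U hU u6 (cent_symm u2) X₁ hX₁ U hU (fun e => t (e ▸ a2)) a1 le_sup_right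
      have e2 := f W₁ hW₁ U hU (fun e => t (e ▸ b2)) b1 u1
      have nm : X₁ ≤ 𝓝(W ⊔ cj x W) := a1.trans (sup_le (zp X hX x hx x1 (mem_norm_iff_cj.2 (by
        conv_lhs => rw [← f W hW U hU u3 le_sup_left u1, cj_sup, cj_of_mem_cent (cent_symm u2 hx)]
        exact f _ hW' U hU u4 le_sup_right u1))) (le_norm_of_le u1))
      obtain ⟨a, h1, h2⟩ := exists_ne_one (ne_bot_of_prime (pr X₁ hX₁))
      have := F4 X₁ hX₁ W₁ hW₁ a h1 h2 (by_contra fun e => t (u1.trans ((f _ (hKc W₁ hW₁ a) W₁ hW₁ e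
        ((cj_mono a b1).trans (cj_of_mem_norm (nm h1)).le) b1).ge.trans (sup_le (cj_le_of_mem (a2 h1) b2) b2))))
      exact n (le_sup_left.trans (e1.ge.trans (sup_le ((le_cent_sup this (le_cent_mono (la X hX U hU (cent_symm u2)) a1
        le_sup_right)).trans (cent_anti (le_sup_left.trans e2.ge))) (u5.trans (cent_anti le_sup_left)))))
    obtain ⟨W, hW, w⟩ := nd X₀ hX₀
    obtain ⟨Z, hZ, z1, z2⟩ := F3 X₀ hX₀ Y₀ hY₀ n₀ c₀ W hW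
    have l := la X₀ hX₀ Y₀ hY₀ c₀
    obtain ⟨T, hT, t⟩ := nd Z hZ
    have z3 : Z ≠ W := fun e => w (e ▸ le_cent_mono l le_sup_left z1)
    obtain ⟨W₁, hW₁, b1, b2⟩ := F3 Z hZ W hW z3 z2 T hT
    obtain ⟨X₁, hX₁, a1, a2⟩ := F3 X₀ hX₀ Y₀ hY₀ n₀ c₀ T hT
    have e1 := F2 X₀ hX₀ Y₀ hY₀ n₀ c₀ X₁ hX₁ Z hZ (fun e => t (e ▸ a2)) a1 z1
    have e2 := F2 Z hZ W hW z3 z2 W₁ hW₁ Z hZ (fun e => t (e ▸ b2)) b1 le_sup_left
    have z4 := le_cent_mono (la Z hZ W hW z2) le_sup_left b1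
    obtain ⟨x, x1, x2⟩ := exists_ne_one (ne_bot_of_prime (pr X₁ hX₁))
    obtain ⟨z, h1, h2⟩ := exists_ne_one (ne_bot_of_prime (pr Z hZ))
    have k : x * z ∈ 𝓒(T) → False := fun e => t (zp Z hZ z h1 h2 ((mul_mem_cancel_left (a2 x1)).1 e))
    have m := mul_mem (a1 x1) (z1 h1)
    obtain ⟨Y, y1, y2⟩ := (((pi _ hX₀).sup (pi _ hY₀) (norm_of_cent c₀)).of_le (zpowers_le.2 m)).exists_card_eq
      (ne_bot_of_mem (mem_zpowers _) fun e => k (e ▸ one_mem _))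
    have hY := ha _ hX₀ _ hY₀ n₀ (cv c₀) Y (y1.trans (zpowers_le.2 m)) y2
    have y3 : x * z ∈ Y := (eq_of_le_of_card_le y1 (by
      rw [y2, Nat.card_zpowers]
      refine Nat.le_of_dvd hp.pos (orderOf_dvd_of_pow_eq_one ?_)
      obtain ⟨a, h3, b, h4, e⟩ := (mem_sup_norm (norm_of_cent c₀)).1 m
      rw [← e, Commute.mul_pow (cv c₀ a h3 b h4), orderOf_dvd_iff_pow_eq_one.1 (hK _ hX₀ ▸ orderOf_dvd_card_of_mem h3),
        orderOf_dvd_iff_pow_eq_one.1 (hK _ hY₀ ▸ orderOf_dvd_card_of_mem h4), mul_one])).ge (mem_zpowers _)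
    have t1 : T ≠ W₁ := fun e => t (e ▸ z4)
    obtain ⟨U, hU, u1, u2⟩ := F3 T hT W₁ hW₁ t1 (cent_symm b2) Y hY
    have e3 := F2 T hT W₁ hW₁ t1 (cent_symm b2) T hT U hU (fun e => k (cent_symm (e ▸ u2) y3)) le_sup_left u1
    refine A X₁ hX₁ W₁ hW₁ (fun e => w (le_sup_left.trans (e1.ge.trans (sup_le ((le_cent_sup e (le_cent_mono l a1 z1)).trans
      (cent_anti (le_sup_right.trans e2.ge))) z2)))) x x1 x2 (le_sup_right.trans (e3.ge.trans (sup_le ?_ ?_)))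
    · exact cent_symm (cj_le_of_mem (a2 x1) b2)
    · rw [← cj_of_mem_cent (z4 h1), ← cj_mul]
      exact cent_symm (cj_le_of_mem (cent_symm u2 y3) (le_cent_mono (la T hT W₁ hW₁ (cent_symm b2)) le_sup_right u1))
  have : V ≤ pCore p G := by
    have := baer_suzuki hp (le_top (a := V)) fun g _ => (pi V hV).sup (pi _ (hKc V hV g)) (norm_of_cent (h _ (hKc V hV g)))
    rwa [core_p_eq hp, CA.Core.map_pCore_top] at this
  refine ⟨⟨V, hV, fun W hW => cv (h W hW), this⟩, fun s => ?_⟩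
  have e := (inferInstance : (pCore p G).Normal).eq_bot_or_eq_top.resolve_left (ne_bot_mono this (ne_bot_of_prime (pr V hV)))
  haveI : Group.IsSolvable (⊤ : Subgroup G) := e ▸ core_p_top (G := G) hp ▸ (core_pi _ _).isSolvable hp
  have c := IsSimpleGroup.comm_iff_isSolvable.2 (solvable_of_surjective (f := (⊤ : Subgroup G).subtype) fun x => ⟨⟨x, trivial⟩, rfl⟩)
  have k : ∀ X ∈ K, X = ⊤ := fun X hX => (Normal.eq_bot_or_eq_top ⟨fun a ha g => by rwa [c g, mul_inv_cancel_right]⟩).resolve_left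
    (ne_bot_of_prime (pr X hX))
  exact n₀ ((k _ hX₀).trans (k _ hY₀).symm)

end Cfsg.Agent.S3196
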