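import Cfsg.Statements.S3200
import Cfsg.Agent.Lib.Solv.SS4

set_option autoImplicit false
open Cfsg

namespace Cfsg.Agent.S3200

open Subgroup CA.BG

theorem aux {X : Type*} [Group X] [Finite X] {D : Subgroup X} (h : Hall {2}ᶜ D ⊤) (hD : IsMulCommutative D) :
    ∃ (P : Sylow 2 X) (D : Subgroup X), IsMulCommutative D ∧ IsComplement' (P : Subgroup X) D :=
  let ⟨P⟩ : Nonempty (Sylow 2 X) := inferInstance
  have hP := syl_top Nat.prime_two P
  ⟨P, D, hD, isComplement'_of_coprime ((hP.card_mul_compl h).trans card_top) (hP.pi.coprime h.pi)⟩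

/-- Let H be a finite group in which a Sylow 2-subgroup has an abelian complement (an abelian subgroup meeting it trivially whose product with it is all of H). Then H is solvable, and every subgroup and every quotient group of H again has a Sylow 2-subgroup with an abelian complement. -/
theorem result {H : Type*} [Group H] [Finite H]
    (S : Sylow 2 H) (C : Subgroup H) (hC : IsMulCommutative ↥C) (hSC : Subgroup.IsComplement' (S : Subgroup H) C) :
    Group.IsSolvable H ∧
    (∀ L : Subgroup H, ∃ (P : Sylow 2 ↥L) (D : Subgroup ↥L), IsMulCommutative ↥D ∧ Subgroup.IsComplement' (P : Subgroup ↥L) D) ∧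
    (∀ (N : Subgroup H) [N.Normal], ∃ (P : Sylow 2 (H ⧸ N)) (D : Subgroup (H ⧸ N)),
      IsMulCommutative ↥D ∧ Subgroup.IsComplement' (P : Subgroup (H ⧸ N)) D) := by
  have hS := syl_top Nat.prime_two S
  have h := hS.compl_of_card le_top (hSC.card_mul.trans card_top.symm)
  have s : Group.IsSolvable H := kegel_wielandt (hS.pi.isNilpotent Nat.prime_two) (nil_of_comm hC) fun g => by
    obtain ⟨⟨a, b⟩, e⟩ := hSC.2 g
    exact ⟨a, a.2, b, b.2, e.symm⟩
  refine ⟨s, fun L => ?_, fun N _ => ?_⟩
  · obtain ⟨D, hD⟩ := hall_exists {2}ᶜ (H := (⊤ : Subgroup L)) inferInstance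
    obtain ⟨g, -, e⟩ := h.conj_le inferInstance (K := D.map L.subtype) (by
      have := hD.pi.nat
      rwa [← card_subtype, ← isPi_iff] at this) le_top
    have := (isComm_cj g).1 (comm_of_le hC e)
    exact aux hD ⟨⟨fun a b => Subtype.ext (Subtype.ext (mem_cent.1 (comm_iff_le_cent.1 this (mem_map_of_mem _ b.2))
      _ (mem_map_of_mem _ a.2)))⟩⟩
  · have := h.mim ((QuotientGroup.mk' N).comp (⊤ : Subgroup H).subtype) le_rfl
    rw [CA.OQuo.mim_dom, MonoidHom.range_comp, range_subtype, map_top_of_surjective _ (QuotientGroup.mk'_surjective N)] at this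
    exact aux this (CA.OQuo.isMulCommutative_mim _ hC)

end Cfsg.Agent.S3200
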