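import Cfsg.Statements.S3201
import Cfsg.Agent.Lib.Grp.H13Qz
import Cfsg.Agent.Lib.Grp.PGBasic
import Cfsg.Agent.Lib.Grp.PGDihedral
import Cfsg.Agent.S0218

set_option autoImplicit false
open Cfsg

namespace Cfsg.Agent.S3201

open Subgroup CA.H13Qz CA.Amb

/-- Let S be a finite 2-group whose centre Z(S) has n ≥ 2 distinct maximal subgroups C₁, …, Cₙ with trivial intersection such that each quotient S/Cᵢ is a non-abelian group with exactly one involution (a generalized quaternion group). Then S is the internal direct product of an elementary abelian subgroup and a non-abelian subgroup with exactly one involution. -/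
theorem result {S : Type*} [Group S] [Finite S]
    (hS : IsPGroup 2 S) (n : ℕ) (hn : 2 ≤ n) (C : Fin n → Subgroup ↥(Subgroup.center S))
    (hCmax : ∀ i, IsCoatom (C i)) (hCinj : Function.Injective C) (hCint : ⨅ i, C i = ⊥)
    (hCq : ∀ i, ∃ (_ : ((C i).map (Subgroup.center S).subtype).Normal),
      ¬ IsMulCommutative (S ⧸ (C i).map (Subgroup.center S).subtype) ∧
      ∃! x : S ⧸ (C i).map (Subgroup.center S).subtype, orderOf x = 2) :
    ∃ E Q : Subgroup S, Cfsg.IsInternalDirectProduct E Q ⊤ ∧ Cfsg.IsElementaryAbelian 2 E ∧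
      ¬ IsMulCommutative ↥Q ∧ ∃! x : ↥Q, orderOf x = 2 := by
  classical
  have hi : ∀ i, (C i).index = 2 := fun i =>
    CA.PGBasic.index_eq_of_isCoatom (hS.to_subgroup _) (hCmax i)
  have h0 : ∀ z : center S, (∀ i, z ∈ C i) → z = 1 := fun z hz =>
    mem_bot.1 (hCint ▸ mem_iInf.2 hz)
  have h1 : ∀ z ∈ center S, z * z = 1 := fun z hz =>
    congrArg Subtype.val (h0 (⟨z, hz⟩ * ⟨z, hz⟩) fun i => mul_self_mem_of_index_two (hi i) _)
  have h3 : ∀ s ∉ center S, ∀ hs : s * s ∈ center S, ∀ i, ⟨s * s, hs⟩ ∉ C i := fun s s1 hs i hc => by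
    obtain ⟨hn, -, u, -, hu⟩ := hCq i
    obtain ⟨z, hz⟩ : ∃ z, z ∉ C i := by
      by_contra! h
      exact (hCmax i).1 (eq_top_iff.2 fun z _ => h z)
    have k : ∀ t : S, t ∉ (C i).map (center S).subtype → t * t ∈ (C i).map (center S).subtype →
        (t : S ⧸ (C i).map (center S).subtype) = u := fun t t1 t2 =>
      hu _ (orderOf_eq_prime (by rw [pow_two, ← QuotientGroup.mk_mul, QuotientGroup.eq_one_iff]; exact t2)
        (by rwa [Ne, QuotientGroup.eq_one_iff]))
    have e := (k z (fun h => hz ((mem_map_iff_mem (subtype_injective _)).1 h))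
      (by rw [h1 z z.2]; exact one_mem _)).trans
      (k s (fun h => s1 (map_subtype_le _ h)) ⟨_, hc, rfl⟩).symm
    exact s1 (by simpa using mul_mem z.2 (map_subtype_le _ (QuotientGroup.eq.1 e)))
  have h4 : ∀ s ∉ center S, s * s ∈ center S → ∀ t ∉ center S, t * t ∈ center S → s * s = t * t :=
    fun s s1 hs t t1 ht => by
      have := congrArg Subtype.val (h0 (⟨_, hs⟩ * ⟨_, ht⟩) fun i =>
        (mul_mem_iff_of_index_two (hi i)).2 (iff_of_false (h3 s s1 hs i) (h3 t t1 ht i)))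
      exact (eq_inv_of_mul_eq_one_left this).trans (inv_eq_of_mul_eq_one_right (h1 _ ht))
  let o : Fin n := ⟨0, by omega⟩
  obtain ⟨hn0, hna, hu⟩ := hCq o
  obtain ⟨x, y, hd, h⟩ := gens hS _ hna hu
  have hD := map_subtype_le (H := center S) (C o)
  have nc : ¬ Commute x y := fun c => hna ⟨⟨fun a b => by
    obtain ⟨a, rfl⟩ := QuotientGroup.mk'_surjective _ a
    obtain ⟨b, rfl⟩ := QuotientGroup.mk'_surjective _ b
    exact comm_all hD h (QuotientGroup.mk' _) (c.map _) a b⟩⟩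
  have cen : ∀ c, Commute c x → Commute c y → c ∈ center S := fun c a b =>
    mem_center_iff.2 fun s => (comm_of hD h (MonoidHom.id S) a b s).symm
  set d := y * x * y⁻¹ * x with hd0
  have hc : ∀ s, s * d = d * s := mem_center_iff.1 (hD hd)
  have e1 : y * x * y⁻¹ = d * x⁻¹ := by rw [hd0]; group
  clear_value d
  have y1 : y ∉ center S := fun hy => nc (mem_center_iff.1 hy x)
  have y2 : y * y ∈ center S := cen _ (by
    refine mul_inv_eq_iff_eq_mul.1 ?_
    calc y * y * x * (y * y)⁻¹ = y * (y * x * y⁻¹) * y⁻¹ := by group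
      _ = (y * d) * y⁻¹ * (y * x * y⁻¹)⁻¹ := by nth_rw 1 [e1]; group
      _ = x := by
        rw [hc y, e1, mul_inv_cancel_right, mul_inv_rev, inv_inv, ← mul_assoc, ← hc x,
          mul_inv_cancel_right]) ((Commute.refl y).mul_left (Commute.refl y))
  have e2 : y * x * (y * x) = d * (y * y) := by
    calc y * x * (y * x) = (y * x * y⁻¹) * (y * y * x) := by group
      _ = _ := by rw [e1, ← mem_center_iff.1 y2 x]; group
  have d1 : d = 1 := by
    have := h4 (y * x) (fun hy => nc (by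
      have := mem_center_iff.1 hy x
      rwa [← mul_assoc, mul_left_inj] at this)) (e2 ▸ mul_mem (hD hd) y2) y y1 y2
    rwa [e2, mul_eq_right] at this
  rw [d1, one_mul] at e1
  have ex : ∃ j, x ^ 2 ^ j ∈ center S := let ⟨k, hk⟩ := hS x; ⟨k, hk ▸ one_mem _⟩
  obtain ⟨m, hm⟩ : ∃ m, Nat.find ex = m + 1 := Nat.exists_eq_succ_of_ne_zero fun e => by
    have := Nat.find_spec ex
    rw [e, pow_zero, pow_one] at this
    exact nc (mem_center_iff.1 this y).symm
  have m1 := Nat.find_spec ex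
  have m2 := Nat.find_min ex (m := m) (by omega)
  rw [hm] at m1
  have m3 : x ^ 2 ^ m * x ^ 2 ^ m = x ^ 2 ^ (m + 1) := by rw [← pow_add, ← two_mul, ← pow_succ']
  have e3 : y ^ 2 = x ^ 2 ^ (m + 1) := by rw [pow_two, ← m3, h4 _ m2 (m3 ▸ m1) y y1 y2]
  have w1 : y * y ∉ (C o).map (center S).subtype := fun hy =>
    h3 y y1 y2 o ((mem_map_iff_mem (subtype_injective _)).1 hy)
  have w2 : y * y ≠ 1 := fun e => w1 (e ▸ one_mem _)
  have ho : orderOf x = 2 * 2 ^ (m + 1) := by
    rw [← pow_succ']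
    refine orderOf_eq_prime_pow (by rwa [← e3, pow_two]) ?_
    rw [pow_succ, pow_mul, pow_two, h1 _ m1]
  obtain ⟨e⟩ := CA.PGDihedral.nonempty_subgroup_mulEquiv_quaternion ho (fun ⟨k, hk⟩ => nc
    (hk ▸ (Commute.refl x).zpow_right k)) e3 e1
  have xQ : x ∈ zpowers x ⊔ zpowers y := mem_sup_left (mem_zpowers x)
  have yQ : y ∈ zpowers x ⊔ zpowers y := mem_sup_right (mem_zpowers y)
  obtain ⟨⟨u, u1⟩, u2⟩ := Nat.card_eq_one_iff_exists.1 (S0218.result m)
  have uq : ∀ a b : ↥(zpowers x ⊔ zpowers y), orderOf a = 2 → orderOf b = 2 → a = b :=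
    fun a b ha hb => e.injective (congrArg Subtype.val ((u2 ⟨e a, by rwa [e.orderOf_eq]⟩).trans
      (u2 ⟨e b, by rwa [e.orderOf_eq]⟩).symm))
  have ow : orderOf (⟨y * y, mul_mem yQ yQ⟩ : ↥(zpowers x ⊔ zpowers y)) = 2 :=
    orderOf_eq_prime (Subtype.ext ((pow_two _).trans (h1 _ y2))) fun e => w2 (congrArg Subtype.val e)
  refine ⟨(C o).map (center S).subtype, zpowers x ⊔ zpowers y, ⟨le_top, le_top,
    fun a ha b _ => (mem_center_iff.1 (hD ha) b).symm, eq_bot_iff.2 fun a ha => mem_bot.2 ?_,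
    eq_top_iff.2 fun s _ => ?_⟩, ⟨⟨⟨fun a b => Subtype.ext (mem_center_iff.1 (hD b.2) a)⟩⟩,
    fun a ha => (pow_two a).trans (h1 a (hD ha))⟩,
    fun hc => nc (congrArg Subtype.val (hc.1.1 ⟨x, xQ⟩ ⟨y, yQ⟩)), _, ow, fun b hb => uq _ _ hb ow⟩
  · by_contra a1
    have := congrArg Subtype.val (uq ⟨a, ha.2⟩ _ (orderOf_eq_prime
      (Subtype.ext ((pow_two _).trans (h1 _ (hD ha.1)))) fun e => a1 (congrArg Subtype.val e)) ow)
    exact w1 ((show a = y * y from this) ▸ ha.1)
  · obtain ⟨k, f, hf, rfl | rfl⟩ := h s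
    · exact mul_mem (mem_sup_right (pow_mem xQ k)) (mem_sup_left hf)
    · exact mul_mem (mem_sup_right (mul_mem yQ (pow_mem xQ k))) (mem_sup_left hf)

end Cfsg.Agent.S3201
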