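import Cfsg.Statements.S3202
import Cfsg.Agent.Lib.Grp.H13Qz

set_option autoImplicit false
open Cfsg

namespace Cfsg.Agent.S3202

open Subgroup CA.H13Qz CA.Amb

/-- Let S be a finite 2-group of 2-rank exactly 2 and D a maximal subgroup of the centre of S such that S/D is a non-abelian group with exactly one involution (a generalized quaternion group). Then S has a nontrivial cyclic characteristic subgroup. -/
theorem result {S : Type*} [Group S]
    [Finite S] (hS : IsPGroup 2 S) (hr2 : Cfsg.PRankLE 2 2 S) (hr1 : ¬ Cfsg.PRankLE 2 1 S)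
    (D : Subgroup ↥(Subgroup.center S)) (hD : IsCoatom D)
    (hq : ∃ (_ : (D.map (Subgroup.center S).subtype).Normal),
      ¬ IsMulCommutative (S ⧸ D.map (Subgroup.center S).subtype) ∧
      ∃! x : S ⧸ D.map (Subgroup.center S).subtype, orderOf x = 2) :
    ∃ C : Subgroup S, C ≠ ⊥ ∧ IsCyclic ↥C ∧ C.Characteristic := by
  obtain ⟨hn, h1, h2⟩ := hq
  obtain ⟨x, y, hd, h⟩ := gens hS _ h1 h2
  have hD' := map_subtype_le (H := center S) D
  set d := y * x * y⁻¹ * x with hd0
  have hc : ∀ s, s * d = d * s := mem_center_iff.1 (hD' hd)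
  have e1 : y * x * y⁻¹ = d * x⁻¹ := by rw [hd0]; group
  clear_value d
  have c1 : Commute (d * x⁻¹ * x⁻¹) x :=
    ((show Commute d x from (hc x).symm).mul_left (Commute.refl x).inv_left).mul_left
      (Commute.refl x).inv_left
  have c2 : y * (d * x⁻¹ * x⁻¹) * y⁻¹ = (d * x⁻¹ * x⁻¹)⁻¹ := by
    calc y * (d * x⁻¹ * x⁻¹) * y⁻¹ = (y * d) * y⁻¹ * (y * x * y⁻¹)⁻¹ * (y * x * y⁻¹)⁻¹ := by group
      _ = (d * x) * d⁻¹ * (x * d⁻¹) := by rw [hc y, e1]; group
      _ = _ := by rw [← hc x]; simp only [mul_assoc, mul_inv_cancel_left, mul_inv_rev, inv_inv]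
  haveI : (zpowers (d * x⁻¹ * x⁻¹)).Normal := normal_iff_cj.2 fun s => by
    rw [cj_zpowers, zpowers_le]
    obtain ⟨k, f, hf, e⟩ := h s
    have c3 : Commute (d * x⁻¹ * x⁻¹) (x ^ k * f) :=
      (c1.pow_right k).mul_right (mem_center_iff.1 (hD' hf) _)
    rcases e with rfl | rfl
    · rw [← c3.eq, mul_inv_cancel_right]; exact mem_zpowers _
    · rw [mul_assoc y, mul_assoc y, ← c3.eq, show y * (d * x⁻¹ * x⁻¹ * (x ^ k * f)) *
        (y * (x ^ k * f))⁻¹ = y * (d * x⁻¹ * x⁻¹) * y⁻¹ by group, c2]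
      exact inv_mem (mem_zpowers _)
  have hle : commutator S ≤ zpowers (d * x⁻¹ * x⁻¹) :=
    Normal.quotient_commutative_iff_commutator_le.1 ⟨⟨fun a b => by
      obtain ⟨a, rfl⟩ := QuotientGroup.mk'_surjective _ a
      obtain ⟨b, rfl⟩ := QuotientGroup.mk'_surjective _ b
      refine comm_all hD' h (QuotientGroup.mk' _) (Commute.symm ?_) a b
      rw [← commutatorElement_eq_one_iff_commute, ← map_commutatorElement]
      refine (QuotientGroup.eq_one_iff _).2 ?_
      rw [commutatorElement_def, e1]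
      exact mem_zpowers _⟩⟩
  refine ⟨commutator S, fun e => h1 (Normal.quotient_commutative_iff_commutator_le.2 ?_),
    isCyclic_of_le hle, inferInstance⟩
  rw [e]
  exact bot_le

end Cfsg.Agent.S3202
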