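import Cfsg.Statements.S3206
import Cfsg.Agent.Lib.Walt.H8R2

set_option autoImplicit false
open Cfsg

namespace Cfsg.Agent.S3206

open CA.BG CA.Wa CA.JRow

/-- Let G be a non-abelian finite simple group with abelian Sylow 2-subgroups, and let t be an involution of G whose centralizer is a maximal subgroup of G and is the direct product of the subgroup generated by t with a subgroup E having a normal subgroup isomorphic to PSL(2, q), q odd and greater than 3, with trivial centralizer in E. Then every finite perfect group having a central 2-subgroup with quotient isomorphic to G has that central subgroup trivial (G has no nontrivial perfect central extension by a 2-group), and every automorphism of G of 2-power order that fixes every element of some Sylow 2-subgroup of G is inner. -/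
theorem result {G : Type*} [Group G] [Finite G] [IsSimpleGroup G]
    (hG : ¬ IsMulCommutative G) (hab : ∀ S : Sylow 2 G, IsMulCommutative ↥(S : Subgroup G))
    (t : G) (ht : orderOf t = 2) (hmax : IsCoatom (Subgroup.centralizer ({t} : Set G)))
    (E : Subgroup G) (hE : Cfsg.IsInternalDirectProduct (Subgroup.zpowers t) E (Subgroup.centralizer ({t} : Set G)))
    {F : Type*} [Field F] [Fintype F] (hFo : Odd (Fintype.card F)) (hF3 : 3 < Fintype.card F)
    (N : Subgroup ↥E) [N.Normal] (hN : Nonempty (↥N ≃* Matrix.ProjectiveSpecialLinearGroup (Fin 2) F))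
    (hNc : Subgroup.centralizer (N : Set ↥E) = ⊥) :
    (∀ (L : Type) (_ : Group L) (_ : Finite L) (Z : Subgroup L) (_ : Z.Normal), commutator L = ⊤ → Z ≤ Subgroup.center L →
        IsPGroup 2 ↥Z → Nonempty (L ⧸ Z ≃* G) → Z = ⊥) ∧
    (∀ (φ : G ≃* G) (k : ℕ), φ ^ (2 ^ k) = 1 → (∃ S : Sylow 2 G, ∀ s ∈ (S : Subgroup G), φ s = s) →
        ∃ g : G, ∀ x : G, φ x = g * x * g⁻¹) := by
  obtain ⟨e⟩ := hN
  have hle : N.map E.subtype ≤ E := Subgroup.map_subtype_le N
  have hs : (N.map E.subtype).subgroupOf E = N := Subgroup.comap_map_eq_self_of_injective E.subtype_injective N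
  obtain ⟨K, _, _, ι, h⟩ := exists_jr hG (ab2_of_syl (syl_top Nat.prime_two default) (hab _)) ht hE hle
    ((Subgroup.normal_subgroupOf_iff_le_normalizer hle).1 (hs.symm ▸ inferInstance))
    (eq_bot_iff.2 fun x hx => by
      have : (⟨x, hx.1⟩ : E) ∈ Subgroup.centralizer (N : Set ↥E) := fun y hy => Subtype.ext (hx.2 _ ⟨y, hy, rfl⟩)
      rw [hNc, Subgroup.mem_bot] at this
      exact congrArg Subtype.val this)
    (K := F) (by rwa [Nat.card_eq_fintype_card]) ((N.equivMapOfInjective _ E.subtype_injective).symm.trans e)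
  refine ⟨fun L _ _ Z _ hp hz h2 ⟨f⟩ => ?_, fun φ k hk ⟨S, hS⟩ => aut h φ hk (syl_top Nat.prime_two S) hS⟩
  have hk : (f.toMonoidHom.comp (QuotientGroup.mk' Z)).ker = Z := by
    rw [← MonoidHom.comap_ker, (MonoidHom.ker_eq_bot_iff _).2 f.injective]
    exact QuotientGroup.ker_mk' Z
  rw [← hk]
  exact cover h.e8 _ (f.surjective.comp (QuotientGroup.mk'_surjective Z)) hp (hk.symm ▸ hz) (hk.symm ▸ h2)

end Cfsg.Agent.S3206
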