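import Cfsg.Statements.S3208
import Cfsg.Agent.Lib.Grp.H13Misc

set_option autoImplicit false
open Cfsg

namespace Cfsg.Agent.S3208

/-- Let j be an involution of a finite group G, H a subgroup of G, and T a Sylow 2-subgroup of H ∩ C_G(j) containing j such that ⟨j⟩ is a characteristic subgroup of T. Then T is a Sylow 2-subgroup of H. -/
theorem result {G : Type*} [Group G] [Finite G]
    (j : G) (hj : orderOf j = 2) (H T : Subgroup G) (hT : T ≤ H ⊓ Subgroup.centralizer ({j} : Set G)) (h2 : IsPGroup 2 ↥T)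
    (hSyl : ¬ 2 ∣ T.relIndex (H ⊓ Subgroup.centralizer ({j} : Set G))) (hjT : j ∈ T)
    (hchar : ((Subgroup.zpowers j).subgroupOf T).Characteristic) :
    ¬ 2 ∣ T.relIndex H := by
  open Subgroup CA.SylIn CA.H13Misc in
  have h1 : IsSylowIn 2 T (H ⊓ centralizer ({j} : Set G)) := ⟨hT, h2, hSyl⟩
  obtain ⟨Q, hQ, hTQ⟩ := exists_isSylowIn_ge h2 (hT.trans inf_le_left)
  by_cases h3 : T = Q
  · exact h3 ▸ hQ.not_dvd
  exfalso
  refine (lt_inf_normalizer hQ.isPGroup (lt_of_le_of_ne hTQ h3)).ne' (h1.eq_of_le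
    (hQ.isPGroup.to_le inf_le_left) (le_inf hTQ le_normalizer)
    (le_inf (inf_le_left.trans hQ.le) fun n hn => mem_centralizer_singleton_iff.2 ?_))
  have h4 := hchar.fixed (T.normalizerMonoidHom ⟨n, hn.2⟩)
  have h5 : (⟨j, hjT⟩ : T) ∈ (zpowers j).subgroupOf T := mem_zpowers j
  rw [← h4] at h5
  have h6 : n * j * n⁻¹ ∈ zpowers j := h5
  rcases eq_of_mem_zpowers hj h6 with h7 | h7
  · exact absurd (by simpa using h7) (CA.H13Inv.ne_one hj)
  · exact mul_inv_eq_iff_eq_mul.1 h7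

end Cfsg.Agent.S3208
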