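import Cfsg.Statements.S3209
import Cfsg.Agent.Lib.Inv.H13SK

set_option autoImplicit false
set_option maxHeartbeats 400000
open Cfsg

namespace Cfsg.Agent.S3209

open CA.BG CA.GW CA.H13SK

/-- Let L₁ ≅ SL₂(q₁) and L₂ ≅ SL₂(q₂), q₁ and q₂ odd, be elementwise-commuting subgroups of a finite group meeting in ⟨j⟩ for an involution j. Then L₁L₂ has exactly two conjugacy classes of involutions: the central involution j, and one further class (there is an involution x ≠ j in L₁L₂, and every involution of L₁L₂ other than j is conjugate to x by an element of L₁L₂). -/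
theorem result {G : Type*} [Group G] [Finite G]
    {F₁ : Type*} [Field F₁] [Fintype F₁] {F₂ : Type*} [Field F₂] [Fintype F₂]
    (hF₁ : Odd (Fintype.card F₁)) (hF₂ : Odd (Fintype.card F₂)) (L₁ L₂ : Subgroup G)
    (e₁ : ↥L₁ ≃* Matrix.SpecialLinearGroup (Fin 2) F₁) (e₂ : ↥L₂ ≃* Matrix.SpecialLinearGroup (Fin 2) F₂)
    (hc : ∀ x ∈ L₁, ∀ y ∈ L₂, x * y = y * x) (j : G) (hj : orderOf j = 2) (hm : L₁ ⊓ L₂ = Subgroup.zpowers j) :
    ∃ x ∈ L₁ ⊔ L₂, orderOf x = 2 ∧ x ≠ j ∧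
      ∀ y ∈ L₁ ⊔ L₂, orderOf y = 2 → y = j ∨ ∃ g ∈ L₁ ⊔ L₂, g * x * g⁻¹ = y := by
  have h := cp_of hF₁ hF₂ e₁ e₂ hc hj hm
  obtain ⟨a, ha, a2⟩ := h.l.ex
  obtain ⟨b, hb, b2⟩ := h.r.ex
  have n : a * b ∉ Subgroup.zpowers j := fun e => ((mem_zp h.l.jj).1 (h.mul ha hb e)).elim
    (fun e => ne_one_of_ord hj (by rw [← a2, e, mul_one])) fun e => ne_one_of_ord hj (by rw [← a2, e, h.l.jj])
  refine ⟨a * b, h.mem.2 ⟨a, ha, b, hb, rfl⟩, ord_two (by rw [h.sq ha hb, a2, b2, h.l.jj]) fun e => n (e ▸ one_mem _),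
    fun e => n (e ▸ Subgroup.mem_zpowers j), fun y hy y2 => ?_⟩
  obtain ⟨c, hc, d, hd, rfl⟩ := h.mem.1 hy
  refine (h.inv hc hd (sq_of_ord y2)).imp (fun e => ((mem_zp h.l.jj).1 e).resolve_left (ne_one_of_ord y2)) fun ⟨c2, d2⟩ => ?_
  obtain ⟨g, hg, rfl⟩ := h.l.conj a ha c hc a2 c2
  obtain ⟨k, hk, rfl⟩ := h.r.conj b hb d hd b2 d2
  refine ⟨g * k, h.mem.2 ⟨g, hg, k, hk, rfl⟩, ?_⟩
  calc g * k * (a * b) * (g * k)⁻¹ = g * (k * a) * k⁻¹ * (k * b * k⁻¹ * g⁻¹) := by group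
    _ = _ := by rw [h.comm ha hk, h.comm (inv_mem hg) hd]; group

end Cfsg.Agent.S3209
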