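import Cfsg.Statements.S3210
import Cfsg.Agent.Lib.Inv.H13SK

set_option autoImplicit false
set_option maxHeartbeats 400000
open Cfsg

namespace Cfsg.Agent.S3210

open Subgroup CA.BG CA.GW CA.H13SK

/-- Let G be a finite group with subgroups L₁ ≅ SL₂(q₁) and L₂ ≅ SL₂(q₂), q₁ and q₂ odd prime powers, which commute elementwise and meet in ⟨j⟩ for an involution j, and suppose L₁L₂ has index 2 in C_G(j). Then every element n of C_G(j) outside L₁L₂ either normalizes both L₁ and L₂, or conjugates L₁ onto L₂; in the second case q₁ = q₂ and there is an element n′ of C_G(j) outside L₁L₂ conjugating L₁ onto L₂ with n′² ∈ ⟨j⟩. -/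
theorem result {G : Type*} [Group G] [Finite G]
    {F₁ : Type*} [Field F₁] [Fintype F₁] {F₂ : Type*} [Field F₂] [Fintype F₂]
    (hF₁ : Odd (Fintype.card F₁)) (hF₂ : Odd (Fintype.card F₂)) (L₁ L₂ : Subgroup G)
    (e₁ : ↥L₁ ≃* Matrix.SpecialLinearGroup (Fin 2) F₁) (e₂ : ↥L₂ ≃* Matrix.SpecialLinearGroup (Fin 2) F₂)
    (hc : ∀ x ∈ L₁, ∀ y ∈ L₂, x * y = y * x) (j : G) (hj : orderOf j = 2) (hm : L₁ ⊓ L₂ = Subgroup.zpowers j)
    (hle : L₁ ⊔ L₂ ≤ Subgroup.centralizer ({j} : Set G)) (hi : (L₁ ⊔ L₂).relIndex (Subgroup.centralizer ({j} : Set G)) = 2) (n : G) (hn : n ∈ Subgroup.centralizer ({j} : Set G)) (hn' : n ∉ L₁ ⊔ L₂) :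
    (L₁.map (MulAut.conj n).toMonoidHom = L₁ ∧ L₂.map (MulAut.conj n).toMonoidHom = L₂) ∨
      (L₁.map (MulAut.conj n).toMonoidHom = L₂ ∧ Fintype.card F₁ = Fintype.card F₂ ∧
        ∃ n' ∈ Subgroup.centralizer ({j} : Set G), n' ∉ L₁ ⊔ L₂ ∧ L₁.map (MulAut.conj n').toMonoidHom = L₂ ∧ n' ^ 2 ∈ Subgroup.zpowers j) := by
  have h := cp_of hF₁ hF₂ e₁ e₂ hc hj hm
  change cj n L₁ = L₁ ∧ cj n L₂ = L₂ ∨ cj n L₁ = L₂ ∧ _ ∧ ∃ n' ∈ _, _ ∧ cj n' L₁ = L₂ ∧ _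
  have nn : n ∈ 𝓝(L₁ ⊔ L₂) := by
    haveI := normal_of_index_eq_two hi
    exact (normal_subgroupOf_iff_le_normalizer hle).1 inferInstance hn
  have ji : cj n L₁ ⊓ cj n L₂ = zpowers j := by rw [← cj_inf, hm, cj_zpowers, conj_eq_of_cent hn]
  have k : ∀ {A B C : Subgroup G}, A ≤ C → B ≤ C → A ⊔ B = L₁ ⊔ L₂ → L₁ ⊔ L₂ ≤ C := fun h1 h2 e => e ▸ sup_le h1 h2
  have es : cj n L₁ ⊔ cj n L₂ = L₁ ⊔ L₂ := by rw [← cj_sup, cj_of_mem_norm nn]
  have q : ∀ {A B : Subgroup G}, cj n A ≤ A → cj n A = A := fun e => eq_of_le_of_card_eq e (card_cj _ _)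
  rcases h.dich nn with a | a <;> rcases h.symm.dich (sup_comm L₁ L₂ ▸ nn) with b | b
  rotate_left
  · exact absurd (h.i ▸ le_inf le_rfl (q (B := ⊥) b ▸ a)) h.l.not_le
  · exact absurd (h.symm.i ▸ le_inf le_rfl (q (B := ⊥) a ▸ b)) h.r.not_le
  · exact .inl ⟨q (B := ⊥) b, q (B := ⊥) a⟩
  have c : ♯L₁ = ♯L₂ := le_antisymm (card_cj n L₁ ▸ card_le_of_le' a) (card_cj n L₂ ▸ card_le_of_le' b)
  have a' := eq_of_le_of_card_eq a ((card_cj _ _).trans c)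
  refine .inr ⟨a', ?_, ?_⟩
  · rw [Nat.card_congr e₁.toEquiv, Nat.card_congr e₂.toEquiv, CA.SLnCard.card_SL2, CA.SLnCard.card_SL2,
      Nat.card_eq_fintype_card, Nat.card_eq_fintype_card] at c
    have m : ∀ x y : ℕ, 1 < x → x < y → x * (x ^ 2 - 1) < y * (y ^ 2 - 1) := fun x y h1 h2 =>
      Nat.mul_lt_mul'' h2 (by have := Nat.pow_lt_pow_left h2 two_ne_zero; have : 0 < x ^ 2 := by positivity
                              omega)
    exact le_antisymm (not_lt.1 fun e => (m _ _ Fintype.one_lt_card e).ne' c) (not_lt.1 fun e => (m _ _ Fintype.one_lt_card e).ne c)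
  obtain ⟨x, hx, y, hy, e⟩ := h.mem.1 (mem_subgroupOf.1 (mul_self_mem_of_index_two hi ⟨n, hn⟩))
  have x1 : n * x * n⁻¹ ∈ L₂ := a (conj_mem_cj.2 hx)
  have y1 : n * y * n⁻¹ ∈ L₁ := b (conj_mem_cj.2 hy)
  have e1 : x⁻¹ * (n * y * n⁻¹) * (n * x * n⁻¹ * y⁻¹) = 1 := by
    have : n * (x * y) * n⁻¹ = x * y := by rw [show x * y = n * n from e]; group
    rw [mul_assoc, ← mul_assoc (n * y * n⁻¹), ← h.comm y1 x1, show n * x * n⁻¹ * (n * y * n⁻¹) = n * (x * y) * n⁻¹ by group,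
      this]; group
  have e2 := h.symm.mul (mul_mem x1 (inv_mem hy)) (mul_mem (inv_mem hx) y1) (by
    rw [h.comm (mul_mem (inv_mem hx) y1) (mul_mem x1 (inv_mem hy)), e1]; exact one_mem _)
  refine ⟨n * x⁻¹, mul_mem hn (hle (mem_sup_left (inv_mem hx))), fun e => hn' ((mul_mem_cancel_right
    (mem_sup_left (inv_mem hx))).1 e), by rw [cj_mul, cj_of_mem (inv_mem hx), a'], ?_⟩
  have : (n * x⁻¹) ^ 2 = y⁻¹ * (n * x * n⁻¹ * y⁻¹)⁻¹ * y := by
    calc (n * x⁻¹) ^ 2 = (n * x * n⁻¹)⁻¹ * (n * n) * x⁻¹ := by rw [pow_two]; group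
      _ = _ := by rw [← show x * y = n * n from e, ← h.comm hx hy]; group
  rw [this]
  exact conj_mem_of_mem_norm' (norm_of_cent (cent_zpowers j ▸ le_sup_right.trans hle) hy) (inv_mem e2)

end Cfsg.Agent.S3210
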