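import Cfsg.Statements.S3211
import Cfsg.Agent.Lib.Inv.H13SK

set_option autoImplicit false
set_option maxHeartbeats 400000
open Cfsg

namespace Cfsg.Agent.S3211

open Subgroup CA.BG CA.GW CA.H13SK CA.Gold

theorem exp {G : Type*} [Group G] [Finite G] {L : Subgroup G} {j : G} (h : SK L j) :
    ∃ m, (∃ c ∈ L, c ^ 2 ^ (m + 1) = j) ∧ ∀ l ∈ L, ∀ k, l ^ 2 ^ k = 1 → l ^ 2 ^ (m + 1) ∈ zpowers j := by
  classical
  have bd : ∀ m, (∃ c ∈ L, c ^ 2 ^ (m + 1) = j) → m ≤ Nat.card G := fun m ⟨c, _, e⟩ => by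
    haveI := Fact.mk Nat.prime_two
    have := orderOf_eq_prime_pow (x := c) (p := 2) (n := m + 1) (e ▸ ne_one_of_ord h.j2) (by rw [pow_succ, pow_mul, e, pow_two, h.jj])
    have h1 : orderOf c ≤ Nat.card G := Nat.le_of_dvd Nat.card_pos (orderOf_dvd_natCard c)
    have := Nat.lt_two_pow_self (n := m + 1 + 1)
    omega
  obtain ⟨a, ha, e⟩ := h.ex
  have s := Nat.findGreatest_spec (P := fun m => ∃ c ∈ L, c ^ 2 ^ (m + 1) = j) (Nat.zero_le (Nat.card G)) ⟨a, ha, by simpa [pow_two]⟩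
  refine ⟨_, s, fun l hl k hk => by_contra fun hn => ?_⟩
  have key : ∀ i, l ^ 2 ^ (Nat.findGreatest (fun m => ∃ c ∈ L, c ^ 2 ^ (m + 1) = j) (Nat.card G) + 1 + i) ∉ zpowers j := by
    intro i
    induction i with
    | zero => exact hn
    | succ i ih =>
      intro e
      rcases (mem_zp h.jj).1 e with e | e
      · exact ih (h.inv _ (L.pow_mem hl _) (by rw [← pow_two, ← pow_mul, ← pow_succ]; exact e))
      · rw [← add_assoc] at e
        have := Nat.le_findGreatest (P := fun m => ∃ c ∈ L, c ^ 2 ^ (m + 1) = j) (bd _ ⟨l, hl, e⟩) ⟨l, hl, e⟩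
        omega
  exact key k (by rw [add_comm, pow_add, pow_mul, hk, one_pow]; exact one_mem _)

/-- Let G be a finite group with subgroups L₁ ≅ SL₂(q₁) and L₂ ≅ SL₂(q₂), q₁ and q₂ odd prime powers, which commute elementwise and meet in ⟨j⟩ for an involution j, and suppose L₁L₂ has index 2 in C_G(j). If some n ∈ C_G(j) with n² = j interchanges L₁ and L₂ under conjugation (so that C_G(j) = L₁L₂⟨n⟩), then G = C_G(j)O(G). -/
theorem result {G : Type*} [Group G] [Finite G]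
    {F₁ : Type*} [Field F₁] [Fintype F₁] {F₂ : Type*} [Field F₂] [Fintype F₂]
    (hF₁ : Odd (Fintype.card F₁)) (hF₂ : Odd (Fintype.card F₂)) (L₁ L₂ : Subgroup G)
    (e₁ : ↥L₁ ≃* Matrix.SpecialLinearGroup (Fin 2) F₁) (e₂ : ↥L₂ ≃* Matrix.SpecialLinearGroup (Fin 2) F₂)
    (hc : ∀ x ∈ L₁, ∀ y ∈ L₂, x * y = y * x) (j : G) (hj : orderOf j = 2) (hm : L₁ ⊓ L₂ = Subgroup.zpowers j)
    (hle : L₁ ⊔ L₂ ≤ Subgroup.centralizer ({j} : Set G)) (hi : (L₁ ⊔ L₂).relIndex (Subgroup.centralizer ({j} : Set G)) = 2) (n : G) (hn : n ∈ Subgroup.centralizer ({j} : Set G))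
    (hn2 : n ^ 2 = j) (hswap : L₁.map (MulAut.conj n).toMonoidHom = L₂) :
    Subgroup.centralizer ({j} : Set G) ⊔ Cfsg.oddCore G = ⊤ := by
  have h := cp_of hF₁ hF₂ e₁ e₂ hc hj hm
  change cj n L₁ = L₂ at hswap
  rw [pow_two] at hn2
  have jj := h.l.jj
  have cz : ∀ x ∈ L₁ ⊔ L₂, x * j * x⁻¹ = j := fun x hx => conj_eq_of_cent (hle hx)
  have s2 : cj n L₂ = L₁ := by rw [← hswap, ← cj_mul, hn2, cj_of_mem (h.zl (mem_zpowers j))]
  have out : ∀ w ∈ 𝓒₁(j), w * w = 1 → w ∈ L₁ ⊔ L₂ := fun w hw w2 => by_contra fun hn' => by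
    obtain ⟨x, hx, y, hy, e⟩ := h.mem.1 (mem_subgroupOf.1 ((mul_mem_iff_of_index_two hi (a := ⟨w, hw⟩) (b := ⟨n, hn⟩⁻¹)).2
      (iff_of_false hn' fun e => h.not_mem hswap.le (inv_mem_iff.1 e))))
    obtain rfl : w = x * y * n := by rw [e]; simp
    have x1 : n * x * n⁻¹ ∈ L₂ := hswap.le (conj_mem_cj.2 hx)
    have y1 : n * y * n⁻¹ ∈ L₁ := s2.le (conj_mem_cj.2 hy)
    have e1 : x * (n * y * n⁻¹) * (y * (n * x * n⁻¹)) = j := by
      rw [← inv_of_sq jj, ← hn2, eq_inv_iff_mul_eq_one, ← w2, mul_assoc x, ← h.comm y1 (mul_mem hy x1)]; group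
    have e2 := h.mul (mul_mem hx y1) (mul_mem hy x1) (e1 ▸ mem_zpowers j)
    have e3 : y * (n * x * n⁻¹) = x * (n * y * n⁻¹) := by
      have c1 := mem_cent.1 (cent_zpowers j ▸ hn) _ e2
      have c2 := mem_cent.1 (cent_zpowers j ▸ hle (mem_sup_right hy)) _ e2
      have c3 : j * y = y * j := (mem_cent1.1 (hle (mem_sup_right hy))).symm
      calc y * (n * x * n⁻¹) = y * (n * x * n⁻¹ * ((n * n) * y) * (n * n)⁻¹) * y⁻¹ := by rw [hn2, c3]; group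
        _ = y * (n * (x * (n * y * n⁻¹)) * n⁻¹) * y⁻¹ := by group
        _ = _ := by rw [← c1, mul_inv_cancel_right, ← c2, mul_inv_cancel_right]
    rw [e3] at e1
    exact ((mem_zp jj).1 e2).elim (fun e => ne_one_of_ord hj (by rw [← e1, e, mul_one])) fun e =>
      ne_one_of_ord hj (by rw [← e1, e, jj])
  obtain ⟨m, ⟨c, hc, c1⟩, hm1⟩ := exp h.l
  have hm2 : ∀ l ∈ L₂, ∀ k, l ^ 2 ^ k = 1 → l ^ 2 ^ (m + 1) ∈ zpowers j := fun l hl k e => by
    have := hm1 _ (s2.le (conj_mem_cj.2 hl)) k (by rw [conj_pow, e]; simp)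
    rwa [conj_pow, ← conj_eq_of_cent hn, ← cj_zpowers, conj_mem_cj] at this
  have iso : IsIsolated j := fun g cm => by_contra fun ne => by
    obtain ⟨a, ha, b, hb, e⟩ := h.mem.1 (out _ (mem_cent1.2 cm.eq.symm) (conj_sq jj g))
    obtain ⟨a2, b2⟩ := (h.inv ha hb (e ▸ conj_sq jj g)).resolve_left fun e' => ((mem_zp jj).1 (e ▸ e')).elim
      (conj_ne_one (ne_one_of_ord hj) g) ne
    obtain ⟨k, hk, rfl⟩ := h.l.conj _ (L₁.pow_mem hc (2 ^ m)) a ha (by rw [← pow_two, ← pow_mul, ← pow_succ, c1]) a2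
    have d1 : k * c * k⁻¹ ∈ L₁ := mul_mem (mul_mem hk hc) (inv_mem hk)
    have d2 : (k * c * k⁻¹) ^ 2 ^ (m + 1) = j := by rw [conj_pow, c1, cz k (mem_sup_left hk)]
    have d3 : k * c * k⁻¹ * (k * c ^ 2 ^ m * k⁻¹) = k * c ^ 2 ^ m * k⁻¹ * (k * c * k⁻¹) := by group
    generalize k * c * k⁻¹ = d at d1 d2 d3
    generalize k * c ^ 2 ^ m * k⁻¹ = a at ha a2 e d3
    obtain ⟨y, hy, y2, y3⟩ := h.l.tor a ha a2
    obtain ⟨z, hz, z2, z3⟩ := h.r.tor b hb b2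
    have u1 : y * z * (y * z) = 1 := by rw [h.sq hy hz, y2, z2, jj]
    have u2 : d * (y * z) * (d * (y * z)) = 1 := by
      rw [← mul_assoc d y z, h.sq (mul_mem d1 hy) hz, show d * y * (d * y) = d * (y * d * y⁻¹) * (y * y) by group, y3 d d1 d3,
        y2, z2, mul_inv_cancel, one_mul, jj]
    have u3 : y * z ∈ 𝓒₁(a * b) := mem_cent1_of_conj (by
      calc y * z * (a * b) * (y * z)⁻¹ = y * (z * a) * z⁻¹ * (z * b * z⁻¹ * y⁻¹) := by group
        _ = y * a * y⁻¹ * (z * b * z⁻¹) := by rw [h.comm ha hz, z3 b hb rfl, h.comm (inv_mem hy) (inv_mem hb)]; group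
        _ = _ := by rw [y3 a ha rfl, z3 b hb rfl, ← h.comm (inv_mem ha) (inv_mem hb), ← mul_inv_rev, e, inv_of_sq (conj_sq jj g)])
    have u4 : d ∈ 𝓒₁(a * b) := mem_cent1.2 (by rw [← mul_assoc, d3, mul_assoc, ← h.comm d1 hb, mul_assoc])
    have k0 : ∀ w ∈ 𝓒₁(a * b), w * w = 1 → g⁻¹ * w * g ∈ L₁ ⊔ L₂ := fun w hw w2 =>
      out _ (mem_cj.1 (cj_cent1 g j ▸ e ▸ hw)) (by simpa using conj_sq w2 g⁻¹)
    obtain ⟨p, hp, q, hq, e5⟩ := h.mem.1 (mul_mem (k0 _ (mul_mem u4 u3) u2) (inv_mem (k0 _ u3 u1)))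
    have cm : Commute p q := (h.comm hp hq).symm
    have e6 : ∀ i, p ^ i * q ^ i = g⁻¹ * d ^ i * g := fun i => by
      rw [← cm.mul_pow, e5, show g⁻¹ * (d * (y * z)) * g * (g⁻¹ * (y * z) * g)⁻¹ = g⁻¹ * d * g⁻¹⁻¹ by group, conj_pow, inv_inv]
    have e7 : p ^ 2 ^ (m + 2) * q ^ 2 ^ (m + 2) ∈ zpowers j := by
      rw [e6, pow_succ 2 (m + 1), pow_mul, d2, pow_two, jj]; simp
    have f : ∀ x : G, x ^ 2 ^ (m + 2) ∈ zpowers j → x ^ 2 ^ (m + 3) = 1 := fun x e => by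
      rw [pow_succ 2 (m + 2), pow_mul, pow_two]
      exact ((mem_zp jj).1 e).elim (fun e => by rw [e, mul_one]) fun e => by rw [e, jj]
    have p1 := h.mul (pow_mem hp _) (pow_mem hq _) e7
    have := mul_mem (hm1 p hp _ (f p p1)) (hm2 q hq _ (f q ((mul_mem_cancel_left p1).1 e7)))
    rw [e6, d2] at this
    exact ((mem_zp jj).1 this).elim (fun e => conj_ne_one (ne_one_of_ord hj) g⁻¹ (by rwa [inv_inv])) fun e => ne (by
      calc g * j * g⁻¹ = g * (g⁻¹ * j * g) * g⁻¹ := by rw [e]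
        _ = j := by group)
  have := sup_cent_of_comm (X := ⊤) trivial jj ((comm_zp_le jj).2 fun g _ => core_p'_top (G := G) Nat.prime_two ▸ CA.H13Zstar.zstar jj iso g)
  rwa [sup_comm, top_inf_eq, core_p'_top Nat.prime_two] at this

end Cfsg.Agent.S3211
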