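import Cfsg.Statements.S3213
import Cfsg.Agent.Lib.Lin.FieldIso

set_option autoImplicit false
open Cfsg

namespace Cfsg.Agent.S3213

open Matrix Module LinearMap

theorem z5 : ∀ a b c d : ZMod 5, a * d - b * c = 1 → !![a, b; c, d] ^ 3 = 1 → !![a, b; c, d] ≠ 1 →
    ∃ t : ZMod 5, ((!![a, b; c, d] * (!![1, t; 0, 1] * !![a, b; c, d] * !![1, -t; 0, 1])) ^ 2) ^ 5 = 1 ∧
      (!![a, b; c, d] * (!![1, t; 0, 1] * !![a, b; c, d] * !![1, -t; 0, 1])) ^ 2 ≠ 1 := by
  decide +kernel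

theorem gen {R : Type*} [CommRing R] (y : SpecialLinearGroup (Fin 2) R) (t : R)
    (h3 : ((y.1 * (!![1, t; 0, 1] * y.1 * !![1, -t; 0, 1])) ^ 2) ^ 5 = 1)
    (h4 : (y.1 * (!![1, t; 0, 1] * y.1 * !![1, -t; 0, 1])) ^ 2 ≠ 1) :
    ∃ g, ((y * (g * y * g⁻¹)) ^ 2) ^ 5 = 1 ∧ (y * (g * y * g⁻¹)) ^ 2 ≠ 1 := by
  let g : SpecialLinearGroup (Fin 2) R := ⟨!![1, t; 0, 1], by simp [det_fin_two]⟩
  let g' : SpecialLinearGroup (Fin 2) R := ⟨!![1, -t; 0, 1], by simp [det_fin_two]⟩
  have hg : g⁻¹ = g' := inv_eq_of_mul_eq_one_right (Subtype.ext (by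
    show !![1, t; 0, 1] * !![1, -t; 0, 1] = (1 : Matrix (Fin 2) (Fin 2) R)
    simp [one_fin_two]))
  exact ⟨g, hg ▸ Subtype.ext h3, hg ▸ fun h => h4 (congrArg Subtype.val h)⟩

theorem five {K : Type*} [Field K] [Fintype K] (hK : Fintype.card K = 5)
    (x : SpecialLinearGroup (Fin 2) K) (hx : orderOf x = 3) :
    ∃ g, ((x * (g * x * g⁻¹)) ^ 2) ^ 5 = 1 ∧ (x * (g * x * g⁻¹)) ^ 2 ≠ 1 := by
  have : Fact (Nat.Prime 5) := ⟨by norm_num⟩
  let e := CA.FieldIso.slEquiv (n := Fin 2) (ZMod.ringEquivOfPrime K (by norm_num) hK)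
  obtain ⟨y, rfl⟩ := e.surjective x
  rw [MulEquiv.orderOf_eq] at hx
  have h1 : y ^ 3 = 1 := hx ▸ pow_orderOf_eq_one y
  have h2 : y ≠ 1 := fun h => by rw [h, orderOf_one] at hx; omega
  have ey := eta_fin_two y.1
  obtain ⟨t, h3, h4⟩ := z5 (y.1 0 0) (y.1 0 1) (y.1 1 0) (y.1 1 1) (by rw [← det_fin_two]; exact y.2)
    (by rw [← ey]; exact congrArg Subtype.val h1) (by rw [← ey]; exact fun h => h2 (Subtype.ext h))
  rw [← ey] at h3 h4
  obtain ⟨g, h5, h6⟩ := gen y t h3 h4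
  exact ⟨e g, by simpa only [map_mul, map_pow, map_inv, map_one] using congrArg e h5, fun h => h6
    (e.injective (by simpa only [map_mul, map_pow, map_inv, map_one] using h))⟩

theorem rk {F V : Type*} [Field F] [AddCommGroup V] [Module F V] [FiniteDimensional F V]
    (f : V →ₗ[F] V) (p : Submodule F V) : finrank F p ≤ finrank F (p.map f) + finrank F (ker f) := by
  rw [← (f.domRestrict p).finrank_range_add_finrank_ker, range_domRestrict, ker_domRestrict,
    ← Submodule.finrank_map_subtype_eq p]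
  exact Nat.add_le_add_left (Submodule.finrank_mono (Submodule.map_comap_le _ _)) _

/-- Let F be the field with 3 elements and K the field with 5 elements. For every injective homomorphism φ from SL₂(K) into the symplectic group Sp₄(F) (4 × 4 matrices g with g J gᵀ = J for the standard alternating matrix J) and every element x of order 3 of SL₂(K), the vectors of F⁴ fixed by φ(x) form a 2-dimensional subspace that is totally isotropic for the alternating form defined by J. -/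
theorem result {F : Type*} [Field F] [Fintype F] (hF : Fintype.card F = 3)
    {K : Type*} [Field K] [Fintype K] (hK : Fintype.card K = 5)
    (φ : Matrix.SpecialLinearGroup (Fin 2) K →* ↥(Matrix.symplecticGroup (Fin 2) F)) (hφ : Function.Injective φ)
    (x : Matrix.SpecialLinearGroup (Fin 2) K) (hx : orderOf x = 3) :
    Module.finrank F ↥(LinearMap.ker (Matrix.toLin' ((φ x : Matrix (Fin 2 ⊕ Fin 2) (Fin 2 ⊕ Fin 2) F)) - LinearMap.id)) = 2 ∧
      ∀ v w : Fin 2 ⊕ Fin 2 → F, (φ x : Matrix (Fin 2 ⊕ Fin 2) (Fin 2 ⊕ Fin 2) F).mulVec v = v →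
        (φ x : Matrix (Fin 2 ⊕ Fin 2) (Fin 2 ⊕ Fin 2) F).mulVec w = w →
          dotProduct v ((Matrix.J (Fin 2) F).mulVec w) = 0 := by
  classical
  have : Fact (Nat.Prime 5) := ⟨by norm_num⟩
  let ρ : SpecialLinearGroup (Fin 2) K →* Module.End F (Fin 2 ⊕ Fin 2 → F) :=
    ((toLinAlgEquiv' : Matrix (Fin 2 ⊕ Fin 2) (Fin 2 ⊕ Fin 2) F ≃ₐ[F] _).toMonoidHom.comp
      (symplecticGroup (Fin 2) F).subtype).comp φ
  have hρ : ∀ g, ρ g = 1 → g = 1 := fun g h => hφ (Subtype.ext (toLinAlgEquiv'.injective (by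
    rw [map_one]; exact h.trans (map_one _).symm)))
  have ρa : ∀ g v, ρ g v = (φ g).1 *ᵥ v := fun _ _ => rfl
  have h3 : (3 : F) = 0 := by simpa [hF] using FiniteField.cast_card_eq_zero F
  have d4 : finrank F (Fin 2 ⊕ Fin 2 → F) = 4 := by simp
  set N := ρ x - 1 with hN
  have mk : ∀ g v, v ∈ ker (ρ g - 1) ↔ ρ g v = v := fun g v => by
    rw [mem_ker, LinearMap.sub_apply, sub_eq_zero]; rfl
  have N3 : N ^ 3 = 0 := by
    have : ρ x ^ 3 = 1 := by rw [← map_pow, ← hx, pow_orderOf_eq_one, map_one]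
    have e : N ^ 3 = ρ x ^ 3 - 1 - (3 : F) • (ρ x ^ 2 - ρ x) := by
      simp only [hN, mul_sub, sub_mul, mul_one, one_mul, pow_succ, pow_zero]; module
    rw [e, this, h3]; simp
  have N0 : N ≠ 0 := fun h => by
    rw [hρ x (sub_eq_zero.1 h), orderOf_one] at hx; omega
  have dC : finrank F (ker N) = 2 := by
    refine le_antisymm (Nat.le_of_not_lt fun hl => ?_) ?_
    · obtain ⟨g, h5, h1⟩ := five hK x hx
      set y := g * x * g⁻¹ with hy
      have l1 : (ker N).map (ρ g) ≤ ker (ρ y - 1) := by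
        rintro _ ⟨v, hv, rfl⟩
        rw [mk, ← Module.End.mul_apply, ← map_mul, hy, inv_mul_cancel_right, map_mul,
          Module.End.mul_apply, (mk x v).1 hv]
      have l2 := rk (ρ g) (ker N)
      have l3 : ker (ρ g) = ⊥ := ker_eq_bot'.2 fun v hv => by
        have := congrArg (ρ g⁻¹) hv
        rwa [← Module.End.mul_apply, ← map_mul, inv_mul_cancel, map_one, map_zero] at this
      rw [l3, finrank_bot] at l2
      have l4 := Submodule.finrank_mono l1
      have l5 := Submodule.finrank_sup_add_finrank_inf_eq (ker N) (ker (ρ y - 1))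
      have l6 := Submodule.finrank_le (ker N ⊔ ker (ρ y - 1))
      have l7 : ker N ⊓ ker (ρ y - 1) ≤ ker (ρ ((x * y) ^ 2) - 1) := fun v ⟨a, b⟩ => by
        rw [mk, sq, map_mul, map_mul]
        simp only [Module.End.mul_apply, (mk x v).1 a, (mk y v).1 b]
      have l8 := Submodule.finrank_mono l7
      have l9 := Submodule.finrank_le (ker (ρ ((x * y) ^ 2) - 1))
      have m := Equiv.Perm.card_fixedPoints_modEq (α := Fin 2 ⊕ Fin 2 → F) (f := ⇑(ρ ((x * y) ^ 2)))
        (p := 5) (n := 1) (by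
          have := congrArg (fun t => ⇑(ρ t)) h5
          simp only [map_pow (ρ) _ 5, map_one, Module.End.coe_pow] at this
          exact this)
      have c1 : Fintype.card (Function.fixedPoints ⇑(ρ ((x * y) ^ 2))) =
          3 ^ finrank F (ker (ρ ((x * y) ^ 2) - 1)) := by
        rw [← hF, ← Nat.card_eq_fintype_card, ← Nat.card_eq_fintype_card, ← Module.natCard_eq_pow_finrank]
        exact Nat.card_congr (Equiv.subtypeEquivRight fun v => (mk _ v).symm)
      have c2 : finrank F (ker (ρ ((x * y) ^ 2) - 1)) ≠ 4 := fun h => h1 (hρ _ (sub_eq_zero.1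
        (ker_eq_top.1 (Submodule.eq_top_of_finrank_eq (h.trans d4.symm)))))
      erw [c1] at m
      rw [Fintype.card_fun, hF] at m
      generalize finrank F (ker (ρ ((x * y) ^ 2) - 1)) = k at *
      have : k = 2 ∨ k = 3 := by omega
      rcases this with rfl | rfl <;> revert m <;> decide
    · have a1 := rk N ⊤
      have a2 := rk N (Submodule.map N ⊤)
      have a3 : finrank F (Submodule.map N (Submodule.map N ⊤)) ≤ finrank F (ker N) :=
        Submodule.finrank_mono (by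
          rintro _ ⟨_, ⟨v, -, rfl⟩, rfl⟩
          exact congrArg (fun t : Module.End F _ => t v) N3)
      rw [finrank_top] at a1
      omega
  refine ⟨dC, fun v w hv hw => by_contra fun hB => ?_⟩
  obtain ⟨u, u0, u1, s, hs⟩ : ∃ u, u ≠ 0 ∧ N u = 0 ∧ ∃ s, N s = u := by
    obtain ⟨s, hs⟩ : ∃ s, N s ≠ 0 := by_contra fun h => N0 (LinearMap.ext fun s => by_contra fun h' => h ⟨s, h'⟩)
    by_cases h : N (N s) = 0
    · exact ⟨_, hs, h, s, rfl⟩
    · exact ⟨_, h, congrArg (fun t : Module.End F _ => t s) N3, _, rfl⟩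
  have inv : ∀ a b, ((φ x).1 *ᵥ a) ⬝ᵥ (J (Fin 2) F *ᵥ ((φ x).1 *ᵥ b)) = a ⬝ᵥ (J (Fin 2) F *ᵥ b) := fun a b => by
    rw [← vecMul_transpose, ← dotProduct_mulVec, mulVec_mulVec, mulVec_mulVec,
      SymplecticGroup.mem_iff'.1 (φ x).2]
  have alt : ∀ a b : Fin 2 ⊕ Fin 2 → F, a ⬝ᵥ (J (Fin 2) F *ᵥ b) = -(b ⬝ᵥ (J (Fin 2) F *ᵥ a)) := fun a b => by
    rw [dotProduct_mulVec, ← mulVec_transpose, J_transpose, neg_mulVec, neg_dotProduct, dotProduct_comm]
  have alt0 : ∀ a : Fin 2 ⊕ Fin 2 → F, a ⬝ᵥ (J (Fin 2) F *ᵥ a) = 0 := fun a => by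
    linear_combination (-1 : F) * alt a a + (a ⬝ᵥ (J (Fin 2) F *ᵥ a)) * h3
  have uc : ∀ c, (φ x).1 *ᵥ c = c → u ⬝ᵥ (J (Fin 2) F *ᵥ c) = 0 := fun c hc => by
    have := inv s c
    rw [hc] at this
    rw [← hs, hN, LinearMap.sub_apply, ρa, sub_dotProduct, this]
    exact sub_self _
  have li : LinearIndependent F ![(⟨u, u1⟩ : ker N), ⟨v, (mk x v).2 hv⟩, ⟨w, (mk x w).2 hw⟩] := by
    rw [Fintype.linearIndependent_iff]
    intro c hc
    have e : c 0 • u + c 1 • v + c 2 • w = 0 := by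
      simpa [Fin.sum_univ_three] using congrArg Subtype.val hc
    have e1 := congrArg (· ⬝ᵥ (J (Fin 2) F *ᵥ w)) e
    have e2 := congrArg (· ⬝ᵥ (J (Fin 2) F *ᵥ v)) e
    simp only [add_dotProduct, smul_dotProduct, uc w hw, uc v hv, alt0, alt w v, zero_dotProduct, smul_eq_mul,
      mul_zero, add_zero, zero_add, mul_eq_zero, hB, neg_eq_zero, or_false] at e1 e2
    rw [e1, e2] at e
    simp only [zero_smul, add_zero, smul_eq_zero, u0, or_false] at e
    intro i
    fin_cases i <;> assumption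
  have := li.fintype_card_le_finrank
  rw [dC] at this
  simp at this

end Cfsg.Agent.S3213
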