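import Cfsg.Statements.S3215
import Cfsg.Agent.Lib.GW.GW1
import Cfsg.Agent.Lib.Odd.BG3a
import Cfsg.Agent.Lib.Odd.BG2
import Cfsg.Agent.Lib.Odd.BG1b

set_option autoImplicit false
open Cfsg

namespace Cfsg.Agent.S3215

open Subgroup CA.BG CA.GW CA.OQuo
open scoped commutatorElement
set_option maxHeartbeats 400000

/-- Let H be a finite solvable group with no nontrivial normal subgroup of odd order in which the centralizer of every involution has a normal 2-complement. Let X be a Hall 2'-subgroup of H (odd order, index a power of 2) and Y = O₂(H). Then no non-identity element of X commutes with a non-identity element of Y (so for X ≠ 1 the group XY is a Frobenius group with kernel Y), every Sylow subgroup of X is cyclic, XY is normal in H, and H/XY is a cyclic 2-group. -/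
theorem result {H : Type*} [Group H] [Finite H] (hsol : Group.IsSolvable H)
    (hO : Cfsg.oddCore H = ⊥)
    (hI : ∀ t : H, orderOf t = 2 → Cfsg.HasNormalPComplement 2 ↥(Subgroup.centralizer ({t} : Set H)))
    (X : Subgroup H) (hXodd : Odd (Nat.card X)) (hXidx : ∃ k : ℕ, X.index = 2 ^ k) :
    (∀ x ∈ X, x ≠ 1 → ∀ y ∈ Cfsg.pCore 2 H, y ≠ 1 → x * y ≠ y * x) ∧
      (∀ (p : ℕ) [Fact p.Prime] (P : Sylow p ↥X), IsCyclic ↥(P : Subgroup ↥X)) ∧
      (X ⊔ Cfsg.pCore 2 H).Normal ∧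
      ∀ hN : (X ⊔ Cfsg.pCore 2 H).Normal, IsCyclic (H ⧸ (X ⊔ Cfsg.pCore 2 H)) ∧ IsPGroup 2 (H ⧸ (X ⊔ Cfsg.pCore 2 H)) := by
  have p2 := Nat.prime_two
  rw [← core_p_top p2]
  set Y := 𝓞({2}, (⊤ : Subgroup H))
  have o : Od X := od_iff.2 hXodd
  have s : Group.IsSolvable (⊤ : Subgroup H) := inferInstance
  have hO' : 𝓞({2}ᶜ, (⊤ : Subgroup H)) = ⊥ := (core_p'_top p2).trans hO
  have nY : ∀ K : Subgroup H, K ≤ 𝓝(Y) := fun K => le_top.trans (le_norm_core _ _)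
  have hX : Hall {2}ᶜ X ⊤ := Hall.mk' le_top o (by
    obtain ⟨k, e⟩ := hXidx
    rw [compl_compl, relIndex_top_right, e]; exact piNat_pow p2 k)
  have k : ∀ x ∈ X, x ≠ 1 → Od 𝓒₁(x) := fun x hx x1 => od_of_forall fun t ht t2 => x1 (mem_bot.1 (hO' ▸
    p'core_cent_pgroup p2 s (pi2_zp (sq_of_ord t2)) le_top (by
      rw [top_inf_eq, cent_zpowers]
      exact ((hasPC_iff p2).2 (hI t t2)).le_core (o.of_le (zp_le.2 hx)) (zp_le.2 (mem_cent1_symm.1 ht)) (mem_zpowers x))))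
  have r : SemiReg Y X := fun x hx x1 => (core_pi _ _).inf_eq_bot (k x hx x1)
  have c : ∀ p, p.Prime → ∀ P, P ≤ X → IsPi {p} P → IsCyclic P := fun p hp P h1 h2 => (em (P = ⊥)).elim (fun e => e ▸ cyc_bot)
    fun e => odd_regular_pgroup_cyclic hp h2 (odd_of_le hXodd h1) (fun e' => e (o.of_le h1 |>.eq_bot (by
      rw [compl_compl]; exact (core_pi _ _).of_le (le_trans (le_inf le_top (cent_symm (e'.le.trans bot_le))) (cent_pcore_le p2 s hO')))))
      (nY P) fun x hx => r x (h1 hx)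
  obtain ⟨x, h1, h2⟩ : ∃ x, ⊤ ≤ zpowers x ⊔ X ⊔ Y ∧ ⁅(⊤ : Subgroup H), ⊤⁆ ≤ X ⊔ Y := by
    by_cases e : ⊤ /ᵍ Y = ⊥
    · have := (quo_eq_bot_iff (nY _)).1 e
      exact ⟨1, this.trans le_sup_right, le_top.trans (this.trans le_sup_right)⟩
    obtain ⟨p, hp, p1⟩ := exists_core_ne_bot (solv_quo Y s) e
    have p3 : p ≠ 2 := fun e => p1 (e ▸ core_quo_core _ _)
    have hX' := hX.quo (nY _)
    have e1 : (X ⊓ mpre (qh Y) 𝓞({p}, ⊤ /ᵍ Y)) /ᵍ Y = 𝓞({p}, ⊤ /ᵍ Y) := by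
      rw [mim_inf_mpre, inf_eq_right.2 ((core_mono_pi (singleton_sub (ne_mem_compl p3)) _).trans hX'.core_le)]
    have c1 := isCyclic_mim (qh Y) (c p hp _ inf_le_left (isPi_of_mim (f := qh Y) (nY _) (by
      rw [mker_qh, (o.inf_left _).inf_eq_bot' (core_pi _ _)]; exact isPi_bot _) (e1.symm ▸ core_pi _ _)))
    rw [e1] at c1
    obtain ⟨R, r1, r2⟩ := (core_pi _ _).exists_card_eq p1
    have n : ⊤ /ᵍ Y ≤ 𝓝(R) := (le_norm_core _ _).trans (norm_le_norm_of_cyc c1 r1)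
    have e2 : (X ⊓ mpre (qh Y) R) /ᵍ Y = R := by
      rw [mim_inf_mpre, inf_eq_right.2 (r1.trans (e1.ge.trans (quo_mono Y inf_le_left)))]
    obtain ⟨a, a1, a2⟩ := exists_ne_one (X := X ⊓ mpre (qh Y) R) fun e => ne_bot_of_prime (r2.symm ▸ hp) (by rw [← e2, e, mim_bot])
    have l : ⊤ /ᵍ Y ⊓ 𝓒(R) ≤ X /ᵍ Y := hX'.le_of_norm' (by
      rw [← e2, ← cop_quo_cent'' (nY _) (nY _) (le_norm_of_le le_top) ((core_pi _ _).coprime (o.inf_left _)) (.inr (solv_of_le s le_top))]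
      exact ((k a a1.1 a2).of_le (inf_le_right.trans (cent_le_cent1 a1))).mim _) inf_le_left
      (norm_inf (le_norm_of_le hX'.le) (norm_cent (hX'.le.trans n)))
    haveI := isCyclic_of_prime (r2.symm ▸ hp)
    haveI : IsCyclic (ZMod ♯R)ˣ := ZMod.isCyclic_units_prime (r2.symm ▸ hp)
    haveI := isCyclic_of_surjective _ (IsCyclic.mulAutMulEquiv R).symm.surjective
    obtain ⟨g, e3⟩ := exists_zpowers_of_cyc (H := mim (cact R) (⊤ /ᵍ Y)) inferInstance
    obtain ⟨g, hg, rfl⟩ := (mem_mim_of_le n).1 (e3.le (mem_zpowers g))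
    obtain ⟨x, -, rfl⟩ := (mem_mim_of_le (nY _)).1 hg
    rw [← mim_zpowers _ (n hg)] at e3
    have := (mim_le_mim_iff' n (zp_le.2 (n hg))).1 e3.ge
    refine ⟨x, (quo_le_quo_iff' (nY _) (nY _)).1 ?_, (quo_le_quo_iff' (nY _) (nY _)).1 ?_⟩
    · rw [quo_sup (nY _) (nY _), mim_zpowers _ (nY ⊤ trivial)]
      rw [mker_cact] at this
      exact (le_inf this le_rfl).trans ((sup_inf_of_le_left (zp_le.2 (norm_cent n hg)) (zp_le.2 hg)).le.trans
        (sup_le_sup_left ((inf_comm _ _).le.trans l) _))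
    · rw [quo_comm (nY _) (nY _)]
      exact (le_inf (der_le _) (der_cent_cyclic inferInstance n)).trans l
  refine ⟨fun x hx x1 y hy y1 e => y1 (mem_bot.1 (r x hx x1 ▸ ⟨hy, mem_cent1.2 e.symm⟩)), fun p hp P => ?_,
    normalizer_eq_top_iff.1 (top_le_iff.1 (norm_of_der_le h2 le_top)), fun hN => ⟨?_, ?_⟩⟩
  · exact (MulEquiv.isCyclic (equivMapOfInjective _ _ X.subtype_injective)).2 (c p hp.1 _ (map_subtype_le _) (syl_map hp.1 P).pi)
  · refine isCyclic_iff_exists_zpowers_eq_top.2 ⟨QuotientGroup.mk' _ x, top_le_iff.1 ?_⟩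
    rw [← map_top_of_surjective _ (QuotientGroup.mk'_surjective (X ⊔ Y)), ← MonoidHom.map_zpowers, Subgroup.map_le_map_iff,
      QuotientGroup.ker_mk', ← sup_assoc]
    exact h1
  · obtain ⟨k, e⟩ := hXidx
    obtain ⟨j, -, e⟩ := (Nat.dvd_prime_pow p2).1 ((index_dvd_of_le (le_sup_left (b := Y))).trans e.dvd)
    exact IsPGroup.of_card e

end Cfsg.Agent.S3215
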