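import Cfsg.Statements.S3244
import Cfsg.Agent.Lib.Grp.H13Con

set_option autoImplicit false
open Cfsg

namespace Cfsg.Agent.S3244

open Subgroup CA.H13Con CA.H13Inv CA.H13Misc CA.SylIn CA.AmbCore CA.AmbChar

theorem eq_of_cyclic {G : Type*} [Group G] [Finite G] {Z : Subgroup G} (hZ : IsCyclic Z) {a b : G}
    (ha : a ∈ Z) (hb : b ∈ Z) (oa : orderOf a = 2) (ob : orderOf b = 2) : a = b := by
  obtain ⟨r, rfl⟩ := (Subgroup.isCyclic_iff_exists_zpowers_eq_top Z).1 hZ
  rw [(eq_pow_half_of_mem_zpowers oa ha).2, (eq_pow_half_of_mem_zpowers ob hb).2]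

theorem max_local {G : Type*} [Group G] [Finite G]
    (hch : ∀ t : G, orderOf t = 2 → CharP 2 (centralizer ({t} : Set G))) {M : Subgroup G}
    (hM : IsMaximalTwoLocal M) (hc : IsCyclic (center (pCore 2 M))) {z : G} (hz : orderOf z = 2)
    (hzM : z ∈ M) (hzc : pCoreOf 2 M ≤ centralizer ({z} : Set G)) :
    M = centralizer ({z} : Set G) := by
  have hc' : IsCyclic (pCoreOf 2 M ⊓ 𝐂 (pCoreOf 2 M) : Subgroup G) := by
    rw [← CA.Amb.map_subtype_center]
    exact isCyclic_of_surjective _ ((Subgroup.centerCongr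
      ((pCore 2 M).equivMapOfInjective _ M.subtype_injective)).trans
      ((center _).equivMapOfInjective _ (pCoreOf 2 M).subtype_injective)).surjective
  obtain ⟨T, hT, hT1, hMT⟩ := hM.1
  have h1 : pCoreOf 2 M ≠ ⊥ := fun e => hT1 (le_bot_iff.1 (e ▸ le_pCoreOf
    (hMT ▸ le_normalizer) hT hMT.le))
  obtain ⟨u, hu, huc, ou⟩ := exists_central (isPGroup_pCoreOf 2 M) h1
  have h2 : M ≤ centralizer ({u} : Set G) := fun m hm => by
    have hn := norm_pCoreOf 2 M hm
    exact mem_centralizer_singleton_iff.2 (mul_inv_eq_iff_eq_mul.1 (eq_of_cyclic hc'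
      ⟨conj_mem_of_mem_normalizer hn hu, conj_mem_of_mem_normalizer
        (normalizer_le_normalizer_centralizer _ hn) huc⟩ ⟨hu, huc⟩ (by rw [orderOf_conj, ou]) ou))
  have h3 := hM.2 _ (twoLocal_cent ou) h2
  have h4 : CharP 2 M := h3 ▸ hch u ou
  have h5 : z ∈ 𝐂 (pCoreOf 2 M) := fun y hy => mem_centralizer_singleton_iff.1 (hzc hy)
  rw [eq_of_cyclic hc' ⟨h4.le ⟨hzM, h5⟩, h5⟩ ⟨hu, huc⟩ hz ou, h3]

theorem norm_le {G : Type*} [Group G] [Finite G]
    (hch : ∀ t : G, orderOf t = 2 → CharP 2 (centralizer ({t} : Set G)))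
    (hc : ∀ M : Subgroup G, IsMaximalTwoLocal M → IsCyclic (center (pCore 2 M))) {z : G}
    (hz : orderOf z = 2) (S : Sylow 2 G) (hS : (S : Subgroup G) ≤ centralizer ({z} : Set G))
    (n : ℕ) : ∀ R : Subgroup G, Nat.card G - Nat.card R = n → IsPGroup 2 R → z ∈ R →
      R ≤ centralizer ({z} : Set G) → 𝐍 R ≤ centralizer ({z} : Set G) := by
  induction n using Nat.strong_induction_on with
  | _ n ih =>
  intro R hn hR hzR hRz
  obtain ⟨M, hM, hle⟩ := exists_maxTwoLocal (N := 𝐍 R)
    ⟨R, hR, fun e => ne_one hz (by simpa [e] using hzR), rfl⟩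
  obtain ⟨T, hT, hRT⟩ := CA.AmbSyl.exists_sylIn_ge (L := M ⊓ centralizer ({z} : Set G)) hR
    (le_inf (le_normalizer.trans hle) hRz)
  have h1 : CA.AmbSyl.SylIn 2 T M := by
    rcases hRT.eq_or_lt with rfl | hlt
    · have h2 : CA.AmbSyl.SylIn 2 R (centralizer ({z} : Set G)) :=
        CA.AmbSyl.sylIn_of_normalizer (hT.mono (le_inf hRz le_normalizer)
          (le_inf (inf_le_right.trans hle) inf_le_left))
      exact (h2.of_sylIn_le le_top (CA.AmbSyl.sylIn_top S) hS).mono (hT.le.trans inf_le_left) le_top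
    · have h2 := ih _ (by
        have := card_lt_of_lt hlt
        have := card_le_card_group T
        omega) T rfl hT.pg (hRT hzR) (hT.le.trans inf_le_right)
      exact CA.AmbSyl.sylIn_of_normalizer (hT.mono (le_inf (hT.le.trans inf_le_left) le_normalizer)
        (inf_le_inf_left _ h2))
  rw [← max_local hch hM (hc M hM) hz (hle (le_normalizer hzR))
    ((pCoreOf_le_syl h1).trans (hT.le.trans inf_le_right))]
  exact hle

/-- Say that a finite group G is of characteristic 2 type in the early sense when a Sylow 2-subgroup S of G has a self-centralizing normal subgroup of rank at least 3, S normalizes no nontrivial subgroup of odd order, and every 2-local subgroup of G is 2-constrained. If G is a non-abelian simple group of characteristic 2 type in this sense, then for some maximal 2-local subgroup M of G the centre of O₂(M) is not cyclic. -/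
theorem result {G : Type*} [Group G] [Finite G] [IsSimpleGroup G]
    (hG : ¬ IsMulCommutative G) (S : Sylow 2 G) (A : Subgroup G) (hA : Cfsg.IsSCN (S : Subgroup G) A) (hA3 : ¬ Cfsg.PRankLE 2 2 ↥A)
    (hinv : ∀ X : Subgroup G, Odd (Nat.card ↥X) → (S : Subgroup G) ≤ Subgroup.normalizer (X : Set G) → X = ⊥)
    (hcon : ∀ T : Subgroup G, IsPGroup 2 ↥T → T ≠ ⊥ → Cfsg.IsPConstrained 2 ↥(Subgroup.normalizer (T : Set G))) :
    ∃ M : Subgroup G, Cfsg.IsMaximalTwoLocal M ∧ ¬ IsCyclic ↥(Subgroup.center ↥(Cfsg.pCore 2 ↥M)) := by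
  have hc : A ≤ centralizer (A : Set G) := hA.2.2.ge.trans inf_le_right
  have hcon' : ∀ t : G, orderOf t = 2 → IsPConstrained 2 (centralizer ({t} : Set G)) := by
    intro t ht
    rw [← norm_zpowers_two ht]
    exact hcon _ (CA.PLoc.isPGroup_zpowers ht) (by simpa using ne_one ht)
  have hcA : ∀ a ∈ om A hc, a ≠ 1 → IsPConstrained 2 (centralizer ({a} : Set G)) :=
    fun a ha h1 => hcon' a (orderOf_eq_prime ha.2 h1)
  have h8 := eight_le_om hc hA3
  have hn := hA.2.1.trans (norm_om hc)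
  have hch : ∀ t : G, orderOf t = 2 → CharP 2 (centralizer ({t} : Set G)) := fun t ht =>
    charP_of_con (hcon' t ht) (cpc_eq_bot_iff.1 (cpc_eq_bot_all S (om_ea hc) h8 hn hcA
      (fun a ha h1 => cpc_eq_bot_of_inv S (om_ea hc) h8 hn hcA hinv ha h1) ht))
  by_contra hno
  have hcy : ∀ M : Subgroup G, IsMaximalTwoLocal M → IsCyclic (center (pCore 2 M)) :=
    fun M hM => by_contra fun h => hno ⟨M, hM, h⟩
  have hS1 : (S : Subgroup G) ≠ ⊥ := fun e => CA.Bal2.ne_bot_of_pow_le (by norm_num) h8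
    (le_bot_iff.1 (e ▸ (om_le hc).trans hA.1))
  obtain ⟨z, hzS, hzc, hz⟩ := exists_central S.isPGroup' hS1
  have hSz : (S : Subgroup G) ≤ centralizer ({z} : Set G) := fun y hy =>
    mem_centralizer_singleton_iff.2 (hzc y hy)
  obtain ⟨g, hcm, hne⟩ := CA.H13Zstar.exists_commute_conj (mul_self hz) (not_inZStar hG hz)
  have hz' : orderOf (g * z * g⁻¹) = 2 := by rw [orderOf_conj, hz]
  obtain ⟨R, hR, hle⟩ := CA.AmbSyl.exists_sylIn_ge
    (L := centralizer ({z} : Set G) ⊓ centralizer ({g * z * g⁻¹} : Set G))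
    (isPGroup_closure_pair_of_commute (mul_self hz) (mul_self hz') hcm) (by
      rw [closure_le]
      rintro x (rfl | rfl)
      · exact ⟨mem_centralizer_singleton_iff.2 rfl, mem_centralizer_singleton_iff.2 hcm⟩
      · exact ⟨mem_centralizer_singleton_iff.2 hcm.symm, mem_centralizer_singleton_iff.2 rfl⟩)
  have m1 : z ∈ R := hle (subset_closure (by simp))
  have m2 : g * z * g⁻¹ ∈ R := hle (subset_closure (by simp))
  have n1 := norm_le hch hcy hz S hSz _ R rfl hR.pg m1 (hR.le.trans inf_le_left)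
  have n2 := norm_le hch hcy hz' (g • S) (by
    rw [coe_smul_sylow, ← conj_centralizer_singleton]; exact conj_mono _ hSz) _ R rfl hR.pg m2
    (hR.le.trans inf_le_right)
  have h1 : CA.AmbSyl.SylIn 2 R ⊤ := CA.AmbSyl.sylIn_of_normalizer
    (hR.mono (le_inf le_top le_normalizer) (inf_le_right.trans (le_inf n1 n2)))
  obtain ⟨P, rfl⟩ := CA.AmbSyl.sylIn_top_iff.1 h1
  obtain ⟨n, hn, e⟩ := CA.Trf.exists_normalizer_conj_elt_of_weaklyClosed P
    (CA.Trf.isWeaklyClosed_self _) (x := z) (g := g)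
    (fun y hy => mem_centralizer_singleton_iff.1 (hR.le hy).1)
    (fun y hy => mem_centralizer_singleton_iff.1 (hR.le hy).2)
  exact hne (by rw [← e, mem_centralizer_singleton_iff.1 (n1 hn), mul_inv_cancel_right])

end Cfsg.Agent.S3244
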