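import Cfsg.Statements.S3245
import Cfsg.Agent.Lib.Cit.Ca

set_option autoImplicit false
open Cfsg

namespace Cfsg.Agent.S3245

open Subgroup CA.BG in
theorem se {G : Type*} [Group G] [Finite G] [IsSimpleGroup G] (hG : ¬ IsMulCommutative G)
    (h1 : ∀ M M' : Subgroup G, IsMaximalTwoLocal M → IsMaximalTwoLocal M' → ∃ g : G, M' = cj g M) :
    ∃ M : Subgroup G, IsStronglyEmbedded M := by
  obtain ⟨S, hS⟩ := syl_exists Nat.prime_two (⊤ : Subgroup G)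
  have S1 : S ≠ ⊥ := fun e => CA.Wa.not_solv hG (CA.GW.Od.solv ((e ▸ hS : Syl 2 ⊥ ⊤).isPi_compl_of_eq_bot))
  have loc : ∀ T : Subgroup G, IsPi {2} T → T ≠ ⊥ → ∃ M, 𝓝(T) ≤ M ∧ IsMaximalTwoLocal M := fun T h2 h3 =>
    exists_maximal_ge (P := IsTwoLocal) ⟨T, h2.isPGroup Nat.prime_two, h3, rfl⟩
  obtain ⟨M, hSM, hM⟩ := loc S hS.pi S1
  have syl : ∀ M' P, IsMaximalTwoLocal M' → Syl 2 P M' → Syl 2 P ⊤ ∧ 𝓝(P) ≤ M' := fun M' P h2 h3 => by
    obtain ⟨g, rfl⟩ := h1 M M' hM h2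
    obtain ⟨m, hm, rfl⟩ := ((hS.of_le (le_normalizer.trans hSM) le_top).cj g).syl_conj Nat.prime_two h3
    refine ⟨(hS.cj_mem (mem_top g)).cj_mem (mem_top m), ?_⟩
    rw [← cj_norm, ← cj_norm]
    exact cj_le_of_mem hm (cj_mono g hSM)
  have key : ∀ T : Subgroup G, IsPi {2} T → T ≠ ⊥ → ∀ M1 M2, IsMaximalTwoLocal M1 → IsMaximalTwoLocal M2 →
      T ≤ M1 → T ≤ M2 → M1 = M2 := fun T => by
    induction T using WellFoundedGT.induction with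
    | ind T ih =>
    intro h2 h3 M1 M2 h4 h5 h6 h7
    by_cases e : Syl 2 T ⊤
    · obtain ⟨g, rfl⟩ := h1 M1 M2 h4 h5
      obtain ⟨m, hm, e1⟩ := (e.of_le h6 le_top).syl_conj Nat.prime_two
        ((e.cj_mem (mem_top g⁻¹)).of_le (le_cj_iff.1 h7) le_top)
      have h8 := (syl M1 T h4 (e.of_le h6 le_top)).2 (mem_norm_iff_cj.2 (show cj (g * m) T = T by
        rw [cj_mul, e1, cj_cj_inv]))
      exact (cj_of_mem ((mul_mem_cancel_right hm).1 h8)).symm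
    obtain ⟨M3, h8, h9⟩ := loc T h2 h3
    have : ∀ M', IsMaximalTwoLocal M' → T ≤ M' → M' = M3 := fun M' h10 h11 => by
      obtain ⟨P, hP, h12⟩ := syl_superset Nat.prime_two h2 h11
      have h13 := lt_norm_of_pi hP.pi (h12.lt_of_ne fun e1 => e (e1 ▸ (syl M' P h10 hP).1))
      exact ih _ h13 (hP.pi.of_le inf_le_left) (ne_bot_of_gt h13) M' M3 h10 h9 (inf_le_left.trans hP.le)
        (inf_le_right.trans h8)
    rw [this M1 h4 h6, this M2 h5 h7]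
  refine ⟨M, CA.Bc.se_of ?_ hS S1 hSM fun t ht t1 t2 => ?_⟩
  · obtain ⟨T, h2, h3, rfl⟩ := hM.1
    exact CA.Wa.norm_ne hG h3 (solv_of_nil ((isPi_of_isPGroup Nat.prime_two h2).isNilpotent Nat.prime_two))
  · obtain ⟨M', h2, h3⟩ := loc _ (CA.GW.pi2_zp t2) (zpowers_ne_bot.2 t1)
    rw [key _ (CA.GW.pi2_zp t2) (zpowers_ne_bot.2 t1) M M' hM h3 (zpowers_le.2 (hSM (le_normalizer ht)))
      (le_normalizer.trans h2)]
    exact fun x hx => h2 (CA.GW.mem_norm_of_cent (by rwa [cent_zpowers]))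

/-- A finite non-abelian simple group in which all maximal 2-local subgroups are conjugate is isomorphic to L₂(2ⁿ), Sz(2ⁿ) or U₃(2ⁿ) for some n ≥ 2. -/
theorem result {G : Type*} [Group G] [Finite G] [IsSimpleGroup G] (hG : ¬ IsMulCommutative G)
    (h1 : ∀ M M' : Subgroup G, Cfsg.IsMaximalTwoLocal M → Cfsg.IsMaximalTwoLocal M' → ∃ g : G, M' = M.map (MulAut.conj g).toMonoidHom) :
    (∃ (F : Type) (_ : Field F) (_ : Fintype F) (n : ℕ), 2 ≤ n ∧ Fintype.card F = 2 ^ n ∧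
        Nonempty (G ≃* Matrix.ProjectiveSpecialLinearGroup (Fin 2) F)) ∨
      Cfsg.Lie.IsoSuzuki G ∨
      (∃ (F : Type) (_ : Field F) (_ : Fintype F) (n : ℕ), 2 ≤ n ∧ Fintype.card F = (2 ^ n) ^ 2 ∧ Nonempty (G ≃* Cfsg.PSU 3 F (2 ^ n))) := by
  obtain ⟨M, hM⟩ := se hG h1
  obtain ⟨t, Q, h2, -⟩ := CA.BendCor.setup_one hG hM
  haveI := CA.BendRed.faithful_quot hM.1
  rcases CA.SuzCor.simple_cases h2 (fun h => hG h.isMulCommutative) with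
    ⟨-, F, _, _, ⟨n, h3, h4⟩, h5⟩ | h3 | ⟨-, F, _, _, n, h3, h4, -, h5⟩
  · exact Or.inl ⟨F, _, _, n, h3, h4, h5⟩
  · exact Or.inr (Or.inl h3.2)
  · exact Or.inr (Or.inr ⟨F, _, _, n, h3, h4, h5⟩)

end Cfsg.Agent.S3245
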