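import Cfsg.Statements.S3246
import Cfsg.Agent.Lib.Grp.H13Con

set_option autoImplicit false
open Cfsg

namespace Cfsg.Agent.S3246

open CA.H13Con

/-- Let G be a finite group whose Sylow 2-subgroup S has a self-centralizing normal subgroup of rank at least 3. Suppose that either every maximal 2-local subgroup of G is 2-constrained with no nontrivial normal subgroup of odd order, or the centralizer of every involution of G is 2-constrained with no nontrivial normal subgroup of odd order. Then S normalizes no nontrivial subgroup of G of odd order and every 2-local subgroup of G is 2-constrained. -/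
theorem result {G : Type*} [Group G] [Finite G]
    (S : Sylow 2 G) (A : Subgroup G) (hA : Cfsg.IsSCN (S : Subgroup G) A) (hA3 : ¬ Cfsg.PRankLE 2 2 ↥A)
    (h : (∀ M : Subgroup G, Cfsg.IsMaximalTwoLocal M → Cfsg.IsPConstrained 2 ↥M ∧ Cfsg.oddCore ↥M = ⊥) ∨
      (∀ t : G, orderOf t = 2 → Cfsg.IsPConstrained 2 ↥(Subgroup.centralizer ({t} : Set G)) ∧
        Cfsg.oddCore ↥(Subgroup.centralizer ({t} : Set G)) = ⊥)) :
    (∀ X : Subgroup G, Odd (Nat.card ↥X) → (S : Subgroup G) ≤ Subgroup.normalizer (X : Set G) → X = ⊥) ∧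
      (∀ T : Subgroup G, IsPGroup 2 ↥T → T ≠ ⊥ → Cfsg.IsPConstrained 2 ↥(Subgroup.normalizer (T : Set G))) := by
  have h1 : ∀ t : G, orderOf t = 2 → CA.AmbChar.CharP 2 (Subgroup.centralizer ({t} : Set G)) := by
    intro t ht
    rcases h with h | h
    · obtain ⟨M, hM, hle⟩ := exists_maxTwoLocal (twoLocal_cent ht)
      have := (charP_of_con (h M hM).1 (h M hM).2).inf_centralizer (CA.PLoc.isPGroup_zpowers ht)
        (Subgroup.zpowers_le.2 (hle (Subgroup.mem_centralizer_singleton_iff.2 rfl)))
      rwa [cent_zpowers, inf_eq_right.2 hle] at this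
    · exact charP_of_con (h t ht).1 (h t ht).2
  have hc : A ≤ Subgroup.centralizer (A : Set G) := hA.2.2.ge.trans inf_le_right
  obtain ⟨U, hUA, hU, hn⟩ := exists_normal_klein S.isPGroup' (om_ea hc) ((om_le hc).trans hA.1)
    (hA.2.1.trans (norm_om hc)) (le_trans (by norm_num) (eight_le_om hc hA3))
  refine ⟨fun X hX hSX => inv_eq_bot S hU (hUA.trans ((om_le hc).trans hA.1)) hn
    (fun a ha ha1 => h1 a (orderOf_eq_prime (hUA ha).2 ha1)) hX hSX, fun T hT hT1 => ?_⟩
  exact con_norm_of_cent (fun x hx =>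
    CA.H6Con.isPConstrained_of_charP (CA.H6Con.charP_top_iff'.2 (h1 x hx))) hT hT1

end Cfsg.Agent.S3246
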