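import Cfsg.Statements.S3265
import Mathlib
import Cfsg.Agent.Lib.Grp.H13Inv

set_option autoImplicit false
open Cfsg

namespace Cfsg.Agent.S3265

section
open Finset
variable {α : Type*} [DecidableEq α] [Fintype α] {x y z x' z' : α → α} {S : Finset α}

def up (x : α → α) (a b : α) : α → α := fun i => if i = a then b else if i = b then a else x i
def rm (x : α → α) (T : Finset α) : α → α := fun i => if i ∈ T then i else x i
def Od (x z : α → α) : Prop := ∀ f : α → ℤ, (∀ i, f (x (z i)) = - f i) → ∀ i, f i = 0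
def ct (x : α → α) : ℕ := (univ.filter fun i => x i ≠ i).card
def Bad (S : Finset α) (x y : α → α) : Prop := S.card = 4 ∧ ∀ v ∈ S, x v ≠ v ∧ y v ≠ v ∧ x v ≠ y v
def Ok (S : Finset α) (x : α → α) : Prop := (∀ i, x (x i) = i) ∧ ∀ i ∉ S, x i = i
def Z (z : α → α) (v a b c d : α) : α → α := fun i => if i = d then v else if i = v then d else
  if i = b then c else if i = c then b else if i = a then (if z v = v then a else z v) else
  if i = z v then a else z i

theorem ct_eq (T : Finset α) (h1 : ∀ i ∉ T, (x i = i ↔ y i = i)) (h2 : ∀ i ∈ T, x i ≠ i ∧ y i = i) :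
    ct x = ct y + T.card := by
  rw [ct, ct, ← card_union_of_disjoint (disjoint_left.2 (by grind))]
  congr 1; ext i; grind

omit [Fintype α] in
theorem ins (T : Finset α) (h : Od x' z') (hx : Ok (S \ T) x') (hz : Ok (S \ T) z')
    (h1 : ∀ f : α → ℤ, (∀ i, f (x (z i)) = - f i) → (∀ i ∉ T, f (x' (z' i)) = - f i) ∧
      ((∀ i ∉ T, f i = 0) → ∀ t ∈ T, f t = 0)) : Od x z := fun f hf i => by
  obtain ⟨h2, h3⟩ := h1 f hf
  have := h (fun i => if i ∈ T then 0 else f i) fun i => by grind [Ok]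
  grind

omit [Fintype α] in
theorem bad4 (h : Bad S x y) (hx : Ok S x) (hy : Ok S y) {a : α} (ha : a ∈ S) :
    S = {a, x a, y a, y (x a)} ∧ x (y a) = y (x a) := by
  have h1 : S = {a, x a, y a, y (x a)} := by
    refine (eq_of_subset_of_card_le (by grind [Ok, Bad]) ?_).symm
    rw [h.1, card_insert_of_notMem (by grind [Ok, Bad]), card_insert_of_notMem (by grind [Ok, Bad]),
      card_pair (by grind [Ok, Bad])]
  have h2 : x (y a) ∈ S := by grind [Ok, Bad]
  refine ⟨h1, ?_⟩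
  rw [h1] at h2
  grind [Ok, Bad]

omit [Fintype α] in
theorem okZ {v a b c d : α} (hz : Ok (S \ {a, b, c, d}) z) (hv : v ∈ S \ {a, b, c, d})
    (h : a ∈ S ∧ b ∈ S ∧ c ∈ S ∧ d ∈ S ∧ a ≠ b ∧ a ≠ c ∧ a ≠ d ∧ b ≠ c ∧ b ≠ d ∧ c ≠ d) :
    Ok S (Z z v a b c d) := by
  constructor <;> intro i <;> grind (splits := 40) [Ok, Z]

omit [Fintype α] in
theorem ser {v a b c d : α} (hx : Ok S x) (hz : Ok (S \ {a, b, c, d}) z) (hv : v ∈ S \ {a, b, c, d})
    (h : a ≠ b ∧ a ≠ c ∧ a ≠ d ∧ b ≠ c ∧ b ≠ d ∧ c ≠ d) (h1 : x a = b) (h2 : x c = d)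
    (ho : Od (rm x {a, b, c, d}) z) :
    Od x (Z z v a b c d) := by
  refine ins {a, b, c, d} ho (by constructor <;> grind [Ok, rm]) hz fun f hf => ?_
  have := hf a; have := hf b; have := hf c; have := hf d; have := hf v; have := hf (z v)
  refine ⟨fun i => ?_, ?_⟩
  · have := hf i
    grind (splits := 40) [Ok, Z, rm]
  · grind (splits := 40) [Ok, Z]

def Gd (S : Finset α) (x y : α → α) : Prop := ∃ z, Ok S z ∧ Od x z ∧ Od y z

theorem path (ih : ∀ T ⊂ S, ∀ x y, Ok T x → Ok T y → ct x = ct y → ¬ Bad T x y → Gd T x y)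
    (hx : Ok S x) (hy : Ok S y) (hc : ct x = ct y) {a : α} (h1 : x a ≠ a) (h2 : y a = a) :
    Gd S x y := by
  have ha : a ∈ S := by grind [Ok]
  obtain ⟨b, hb⟩ : ∃ b, x a = b := ⟨_, rfl⟩
  have hx1 := ct_eq (x := x) (y := rm x {a, b}) {a, b} (by grind [rm]) (by grind [rm, Ok])
  rw [card_pair (by grind)] at hx1
  by_cases h3 : y b = b
  · obtain ⟨c, h4, h5⟩ : ∃ c, x c = c ∧ y c ≠ c := by
      by_contra! h
      have := eq_of_subset_of_card_le (s := univ.filter fun i => y i ≠ i)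
        (t := univ.filter fun i => x i ≠ i) (by grind) hc.le
      have := Finset.ext_iff.1 this a
      grind
    obtain ⟨d, hd⟩ : ∃ d, y c = d := ⟨_, rfl⟩
    have hy1 := ct_eq (x := y) (y := rm y {c, d}) {c, d} (by grind [rm]) (by grind [rm, Ok])
    rw [card_pair (by grind)] at hy1
    have k1 : Ok (S \ {a, b, c}) (rm x {a, b}) := by constructor <;> grind [Ok, rm]
    have k2 : Ok (S \ {a, b, c}) (rm y {c, d}) := by constructor <;> grind [Ok, rm]
    obtain ⟨z, hz, o1, o2⟩ := ih _ (by grind) _ _ k1 k2 (by omega) fun h => by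
      have := h.2 d; grind [Ok, rm]
    refine ⟨up z b c, by constructor <;> grind [Ok, up], ins _ o1 k1 hz fun f hf => ?_,
      ins _ o2 k2 hz fun f hf => ?_⟩
    all_goals
      have := hf a; have := hf b; have := hf c; have := hf (z d)
      exact ⟨fun i => by have := hf i; grind (splits := 40) [Ok, up, rm],
        by grind (splits := 40) [Ok, up]⟩
  obtain ⟨c, hd⟩ : ∃ c, y b = c := ⟨_, rfl⟩
  have hy1 := ct_eq (x := y) (y := rm y {b, c}) {b, c} (by grind [rm]) (by grind [rm, Ok])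
  rw [card_pair (by grind)] at hy1
  have k1 : Ok (S \ {a, b}) (rm x {a, b}) := by constructor <;> grind [Ok, rm]
  have k2 : Ok (S \ {a, b}) (rm y {b, c}) := by constructor <;> grind [Ok, rm]
  obtain ⟨z, hz, o1, o2⟩ := ih _ (by grind) _ _ k1 k2 (by omega) fun h => by
    have := h.2 c; grind [Ok, rm]
  refine ⟨up z a b, by constructor <;> grind [Ok, up], ins _ o1 k1 hz fun f hf => ?_,
    ins _ o2 k2 hz fun f hf => ?_⟩
  all_goals
    have := hf a; have := hf b; have := hf (z c)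
    exact ⟨fun i => by have := hf i; grind (splits := 40) [Ok, up, rm],
      by grind (splits := 40) [Ok, up]⟩

omit [Fintype α] in
theorem eight {a b c d e f g h : α} (hx : Ok S x) (hy : Ok S y) (hS : S = {a, b, c, d, e, f, g, h})
    (hn : [a, b, c, d, e, f, g, h].Nodup) (h1 : x a = b ∧ x c = d ∧ x e = f ∧ x g = h)
    (h2 : (y e = h ∧ y a = d ∧ y b = c ∧ y f = g) ∨ (y d = e ∧ y h = a ∧ y b = c ∧ y f = g)) :
    Gd S x y := by
  simp only [List.nodup_cons, List.mem_cons, not_or] at hn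
  have k : ∀ (u z : α → α), Ok S u → Ok S z → (∀ F : α → ℤ, (∀ i, F (u (z i)) = - F i) →
      F a = 0 ∧ F b = 0 ∧ F c = 0 ∧ F d = 0 ∧ F e = 0 ∧ F f = 0 ∧ F g = 0 ∧ F h = 0) → Od u z :=
    fun u z hu hz H F hF i => by
      have h3 := H F hF
      by_cases hi : i ∈ S
      · clear hF H hu hz hx hy h1 h2 hn; grind (splits := 20)
      · have := hF i; rw [hz.2 i hi, hu.2 i hi] at this; omega
  rcases h2 with h2 | h2
  · have hz : Ok S (up (up (up (up id a b) e h) c f) d g) := by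
      constructor <;> grind (splits := 40) [Ok, up]
    refine ⟨_, hz, k _ _ hx hz fun F hf => ?_, k _ _ hy hz fun F hf => ?_⟩
    all_goals
      have := hf a; have := hf b; have := hf c; have := hf d
      have := hf e; have := hf f; have := hf g; have := hf h
      grind (splits := 40) [Ok, up]
  · have hz : Ok S (up (up (up (up id a b) d e) h f) c g) := by
      constructor <;> grind (splits := 40) [Ok, up]
    refine ⟨_, hz, k _ _ hx hz fun F hf => ?_, k _ _ hy hz fun F hf => ?_⟩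
    all_goals
      have := hf a; have := hf b; have := hf c; have := hf d
      have := hf e; have := hf f; have := hf g; have := hf h
      grind (splits := 40) [Ok, up]

omit [Fintype α] in
theorem cyc {a b c d o e : α} (hy : ∀ i, y (y i) = i) (hz : Ok (S \ {a, b, c, d}) z)
    (n1 : a ≠ b ∧ a ≠ c ∧ a ≠ d ∧ b ≠ c ∧ b ≠ d ∧ c ≠ d)
    (n2 : o ∈ S \ {a, b, c, d} ∧ e ∈ S \ {a, b, c, d} ∧ o ≠ e) (h1 : y a = o) (h2 : y b = c)
    (h3 : y d = e) (o2 : Od (up (rm y {a, b, c, d}) o e) z) : Od y (Z z o b a d c) := by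
  intro f hf j
  have := hf a; have := hf b; have := hf c; have := hf d; have := hf o; have := hf (z o)
  have := hf (z e)
  have h6 := o2 (fun i => if i ∈ ({a, b, c, d} : Finset α) then 0 else if i = o then f b else f i)
    fun i => by have := hf i; grind (splits := 60) [Ok, up, rm, Z]
  have := h6 j; have := h6 o; have := h6 e
  grind (splits := 40) [Ok, Z]

theorem main (S : Finset α) : ∀ x y, Ok S x → Ok S y → ct x = ct y → ¬ Bad S x y → Gd S x y := by
  induction S using Finset.strongInduction with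
  | H S ih =>
  intro x y hx hy hc hb
  by_cases h1 : ∃ a, x a ≠ a ∧ y a = a
  · obtain ⟨a, h1, h2⟩ := h1
    exact path ih hx hy hc h1 h2
  have h2 : ∀ a, x a = a ↔ y a = a := fun a => by
    have := eq_of_subset_of_card_le (s := univ.filter fun i => x i ≠ i)
      (t := univ.filter fun i => y i ≠ i) (by grind) hc.ge
    have := Finset.ext_iff.1 this a
    grind
  by_cases h3 : ∀ a, x a = y a
  · refine ⟨x, hx, fun f hf i => ?_, fun f hf i => ?_⟩ <;> have := hf i <;> grind [Ok]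
  push Not at h3
  obtain ⟨a, h3⟩ := h3
  obtain ⟨b, hb1⟩ : ∃ b, x a = b := ⟨_, rfl⟩
  obtain ⟨c, hc1⟩ : ∃ c, y b = c := ⟨_, rfl⟩
  obtain ⟨d, hd1⟩ : ∃ d, x c = d := ⟨_, rfl⟩
  obtain ⟨o, ho1⟩ : ∃ o, y a = o := ⟨_, rfl⟩
  have n1 : a ∈ S ∧ b ∈ S ∧ c ∈ S ∧ d ∈ S ∧ a ≠ b ∧ a ≠ c ∧ a ≠ d ∧ b ≠ c ∧ b ≠ d ∧ c ≠ d := by
    grind [Ok]
  have hx1 := ct_eq (x := x) (y := rm x {a, b, c, d}) {a, b, c, d} (by grind [rm]) (by grind [rm, Ok])
  have k1 : Ok (S \ {a, b, c, d}) (rm x {a, b, c, d}) := by constructor <;> grind [Ok, rm]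
  by_cases h4 : o = d
  · subst h4
    have hy1 := ct_eq (x := y) (y := rm y {a, b, c, o}) {a, b, c, o} (by grind [rm])
      (by grind [rm, Ok])
    have k2 : Ok (S \ {a, b, c, o}) (rm y {a, b, c, o}) := by constructor <;> grind [Ok, rm]
    obtain ⟨v, hv⟩ : ∃ v, v ∈ S \ {a, b, c, o} := by
      by_contra! h
      have : S = {a, b, c, o} := by grind
      refine hb ⟨?_, by grind [Ok]⟩
      rw [this, card_insert_of_notMem (by grind), card_insert_of_notMem (by grind), card_pair (by grind)]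
    by_cases h5 : Bad (S \ {a, b, c, o}) (rm x {a, b, c, o}) (rm y {a, b, c, o})
    · obtain ⟨h6, h7⟩ := bad4 h5 k1 k2 hv
      have := h5.2 v hv
      refine eight (a := a) (b := b) (c := c) (d := o) (e := v) (f := x v) (g := y (x v)) (h := y v)
        hx hy ?_ ?_ ?_ (.inl ?_)
      · ext i; have := Finset.ext_iff.1 h6 i; grind [Ok, rm]
      all_goals grind (splits := 40) [Ok, rm]
    obtain ⟨z, hz, o1, o2⟩ := ih _ (by grind) _ _ k1 k2 (by omega) h5
    have e1 : ({c, o, b, a} : Finset α) = {a, b, c, o} := by grind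
    have e2 : ({c, b, o, a} : Finset α) = {a, b, c, o} := by grind
    refine ⟨Z z v c o b a, okZ (e1 ▸ hz) (e1 ▸ hv) (by grind), ser hx (e1 ▸ hz) (e1 ▸ hv) (by grind)
      hd1 (by grind [Ok]) (e1 ▸ o1), ?_⟩
    rw [show Z z v c o b a = Z z v c b o a by ext i; grind (splits := 40) [Z]]
    exact ser hy (e2 ▸ hz) (e2 ▸ hv) (by grind) (by grind [Ok]) (by grind [Ok]) (e2 ▸ o2)
  obtain ⟨e, he1⟩ : ∃ e, y d = e := ⟨_, rfl⟩
  have n2 : o ∈ S \ {a, b, c, d} ∧ e ∈ S \ {a, b, c, d} ∧ o ≠ e := by grind [Ok]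
  have hy1 := ct_eq (x := y) (y := up (rm y {a, b, c, d}) o e) {a, b, c, d} (by grind [rm, up, Ok])
    (by grind [rm, Ok, up])
  have k2 : Ok (S \ {a, b, c, d}) (up (rm y {a, b, c, d}) o e) := by
    constructor <;> grind (splits := 40) [Ok, rm, up]
  by_cases h5 : Bad (S \ {a, b, c, d}) (rm x {a, b, c, d}) (up (rm y {a, b, c, d}) o e)
  · obtain ⟨h6, h7⟩ := bad4 h5 k1 k2 n2.1
    have := h5.2 o n2.1
    have := h5.2 e n2.2.1
    refine eight (a := a) (b := b) (c := c) (d := d) (e := e) (f := x e) (g := x o) (h := o)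
      hx hy ?_ ?_ ?_ (.inr ?_)
    · ext i; have := Finset.ext_iff.1 h6 i; grind (splits := 40) [Ok, rm, up]
    all_goals grind (splits := 40) [Ok, rm, up]
  obtain ⟨z, hz, o1, o2⟩ := ih _ (by grind) _ _ k1 k2 (by omega) h5
  have e1 : ({b, a, d, c} : Finset α) = {a, b, c, d} := by grind
  refine ⟨Z z o b a d c, okZ (e1 ▸ hz) (e1 ▸ n2.1) (by grind), ser hx (e1 ▸ hz) (e1 ▸ n2.1) (by grind)
    (by grind [Ok]) (by grind [Ok]) (e1 ▸ o1), cyc hy.1 hz n1.2.2.2.2 n2 ho1 hc1 he1 o2⟩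

theorem odd_of {σ : Equiv.Perm α} (h : ∀ f : α → ℤ, (∀ i, f (σ i) = - f i) → ∀ i, f i = 0) :
    Odd (orderOf σ) := by
  rw [← Nat.not_even_iff_odd]
  rintro ⟨m, hm⟩
  have h0 := orderOf_pos σ
  obtain ⟨a, ha⟩ : ∃ a, (σ ^ m) a ≠ a := by
    by_contra! h
    exact pow_ne_one_of_lt_orderOf (by omega) (by omega) (Equiv.ext h : σ ^ m = 1)
  have h1 := h (fun i => ∑ k ∈ range (m + m), (-1) ^ k * if (σ ^ k) a = i then 1 else 0) (fun i => by
    have := sum_range_sub (fun k => (-1 : ℤ) ^ k * if (σ ^ k) a = σ i then 1 else 0) (m + m)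
    rw [← hm, pow_orderOf_eq_one, hm, Even.neg_one_pow ⟨m, rfl⟩, pow_zero, pow_zero, sub_self] at this
    rw [eq_neg_iff_add_eq_zero, ← sum_add_distrib, ← neg_eq_zero, ← sum_neg_distrib]
    refine (sum_congr rfl fun k _ => ?_).trans this
    simp only [pow_succ', Equiv.Perm.mul_apply, σ.injective.eq_iff]
    ring) a
  refine (sum_pos' (fun k _ => ?_) ⟨0, mem_range.2 (by omega), by simp⟩).ne' h1
  split_ifs with e
  · obtain he | ⟨l, rfl⟩ := Nat.even_or_odd k
    · simp [he.neg_one_pow]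
    refine (ha ?_).elim
    have := Equiv.Perm.pow_apply_eq_self_of_apply_eq_self e m
    rwa [← pow_mul, show (2 * l + 1) * m = (m + m) * l + m by ring, pow_add, pow_mul, ← hm,
      pow_orderOf_eq_one, one_pow, one_mul] at this
  · simp

open Equiv in
theorem pair {t : Perm α} (hn : 5 ≤ Fintype.card α) (h1 : t ≠ 1) (h2 : ∀ i, t (t i) = i) :
    ∃ g : Perm α, t * (g * t * g⁻¹) ≠ 1 ∧ (t * (g * t * g⁻¹)) ^ 2 = 1 := by
  obtain ⟨a, ha⟩ : ∃ a, t a ≠ a := by
    by_contra! h
    exact h1 (Equiv.ext h)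
  by_cases h : ∃ c, c ≠ a ∧ c ≠ t a ∧ t c ≠ c
  · obtain ⟨c, h3⟩ := h
    refine ⟨swap (t a) c, fun e => ?_, Equiv.ext fun i => ?_⟩
    · have := DFunLike.congr_fun e a
      simp only [Perm.mul_apply, swap_inv, swap_apply_def, Perm.one_apply] at this
      grind
    · simp only [sq, Perm.mul_apply, swap_inv, swap_apply_def, Perm.one_apply]
      grind (splits := 40)
  obtain ⟨c, hc, d, hd, h3⟩ := (one_lt_card (s := univ \ {a, t a})).1 (by
    have := card_le_two (a := a) (b := t a)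
    have := card_sdiff_add_card_eq_card (subset_univ {a, t a})
    rw [card_univ] at this; omega)
  refine ⟨swap a c * swap (t a) d, fun e => ?_, Equiv.ext fun i => ?_⟩
  · have := DFunLike.congr_fun e a
    simp only [Perm.mul_apply, swap_inv, swap_apply_def, Perm.one_apply, mul_inv_rev] at this
    grind
  · simp only [sq, Perm.mul_apply, swap_inv, swap_apply_def, Perm.one_apply, mul_inv_rev]
    grind (splits := 40)
end

/-- Let n ≥ 5 and let X be a conjugacy class of involutions of the symmetric group of degree n. The graph on X joining two distinct involutions whose product has odd order is connected and has diameter exactly 2. -/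
theorem result (n : ℕ) (hn : 5 ≤ n) (t : Equiv.Perm (Fin n)) (ht : orderOf t = 2) :
    (SimpleGraph.fromRel fun x y : {x : Equiv.Perm (Fin n) // IsConj t x} =>
        Odd (orderOf (x.1 * y.1))).Connected ∧
      (SimpleGraph.fromRel fun x y : {x : Equiv.Perm (Fin n) // IsConj t x} =>
        Odd (orderOf (x.1 * y.1))).diam = 2 := by
  have t2 : t * t = 1 := by rw [← sq, ← ht, pow_orderOf_eq_one]
  have k : ∀ x, IsConj t x → x * x = 1 ∧ ct x = t.support.card := fun x hx => by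
    obtain ⟨g, rfl⟩ := isConj_iff.1 hx
    exact ⟨by rw [conj_mul, t2]; simp, (Equiv.Perm.card_support_conj (σ := g)).symm ▸ by
      rw [ct]; congr 1⟩
  set G := SimpleGraph.fromRel fun x y : {x : Equiv.Perm (Fin n) // IsConj t x} =>
    Odd (orderOf (x.1 * y.1))
  have k1 : ∀ x y, Odd (orderOf (x.1 * y.1)) → G.edist x y ≤ 1 := fun x y h =>
    SimpleGraph.edist_le_one_iff_adj_or_eq.2 (or_iff_not_imp_right.2 fun e => ⟨e, .inl h⟩)
  have h1 : G.ediam ≤ 2 := SimpleGraph.ediam_le_of_edist_le fun x y => by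
    obtain ⟨z, hz, o1, o2⟩ := main Finset.univ x.1 y.1
      ⟨fun i => DFunLike.congr_fun (k _ x.2).1 i, by simp⟩
      ⟨fun i => DFunLike.congr_fun (k _ y.2).1 i, by simp⟩ ((k _ x.2).2.trans (k _ y.2).2.symm)
      fun h => by have := h.1; simp at this; omega
    set w := Function.Involutive.toPerm z hz.1
    have o3 : Odd (orderOf (x.1 * w)) := odd_of o1
    have hw := x.2.trans (CA.H13Inv.isConj_of_odd (k _ x.2).1 (Equiv.ext hz.1) o3)
    refine (SimpleGraph.edist_triangle (v := ⟨w, hw⟩)).trans ?_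
    rw [SimpleGraph.edist_comm (v := y), ← one_add_one_eq_two]
    exact add_le_add (k1 _ _ o3) (k1 _ _ (odd_of o2))
  have : Nonempty {x : Equiv.Perm (Fin n) // IsConj t x} := ⟨⟨t, .refl t⟩⟩
  refine ⟨SimpleGraph.connected_of_ediam_ne_top (ne_top_of_le_ne_top (by simp) h1), ?_⟩
  obtain ⟨g, h2, h3⟩ := pair (t := t) (by simpa) (by rintro rfl; simp at ht)
    fun i => DFunLike.congr_fun t2 i
  have h4 := orderOf_eq_prime h3 h2
  rw [SimpleGraph.diam, le_antisymm h1 (le_trans (not_lt.1 fun h => ?_) (SimpleGraph.edist_le_ediam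
    (u := ⟨t, .refl t⟩) (v := ⟨_, isConj_iff.2 ⟨g, rfl⟩⟩)))]; rfl
  rw [← one_add_one_eq_two, ENat.lt_add_one_iff (by simp), SimpleGraph.edist_le_one_iff_adj_or_eq] at h
  obtain ⟨-, h | h⟩ | h := h
  · exact absurd (h4 ▸ h) (by decide)
  · rw [← orderOf_inv, mul_inv_rev, inv_eq_of_mul_eq_one_right t2,
      inv_eq_of_mul_eq_one_right (k _ (isConj_iff.2 ⟨g, rfl⟩)).1, h4] at h
    exact absurd h (by decide)
  · exact h2 ((congrArg (t * ·) (Subtype.ext_iff.1 h)).symm.trans t2)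

end Cfsg.Agent.S3265
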