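import Cfsg.Statements.S3266


set_option autoImplicit false
open Cfsg

namespace Cfsg.Agent.S3266



variable {F : Type*} [Field F]

theorem exZ {x1 x2 x3 y1 y2 y3 b s r w : F} (h2 : (2 : F) ≠ 0) (hx : -x1 ^ 2 - x2 * x3 = 1)
    (hy : -y1 ^ 2 - y2 * y3 = 1) (hb : 2 * x1 * y1 + x2 * y3 + x3 * y2 = -2 * b)
    (hd : 1 - b ^ 2 ≠ 0) (hw : w ^ 2 = (1 - b ^ 2) * (1 - s ^ 2) - (r - b * s) ^ 2) :
    ∃ z1 z2 z3 : F, -z1 ^ 2 - z2 * z3 = 1 ∧ 2 * x1 * z1 + x2 * z3 + x3 * z2 = -2 * s ∧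
      2 * z1 * y1 + z2 * y3 + z3 * y2 = -2 * r := by
  obtain ⟨α, hα⟩ : ∃ α, α * (1 - b ^ 2) = s - b * r := ⟨_, div_mul_cancel₀ _ hd⟩
  obtain ⟨β, hβ⟩ : ∃ β, β * (1 - b ^ 2) = r - b * s := ⟨_, div_mul_cancel₀ _ hd⟩
  obtain ⟨γ, hγ⟩ : ∃ γ, γ * (2 * (1 - b ^ 2)) = w := ⟨_, div_mul_cancel₀ _ (mul_ne_zero h2 hd)⟩
  have e1 : α + b * β = s := mul_right_cancel₀ hd (by linear_combination hα + b * hβ)
  have e2 : b * α + β = r := mul_right_cancel₀ hd (by linear_combination b * hα + hβ)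
  have e3 : α ^ 2 + β ^ 2 + 2 * b * α * β + 4 * γ ^ 2 * (1 - b ^ 2) = 1 := by
    refine mul_right_cancel₀ hd ?_
    rw [← hγ, ← e1, ← e2] at hw
    linear_combination hw
  refine ⟨α * x1 + β * y1 + γ * (x2 * y3 - y2 * x3), α * x2 + β * y2 + γ * (2 * (x1 * y2 - x2 * y1)),
    α * x3 + β * y3 + γ * (2 * (x3 * y1 - x1 * y3)), ?_, ?_, ?_⟩
  · have : ∀ qx qy T : F, -x1 ^ 2 - x2 * x3 = qx → -y1 ^ 2 - y2 * y3 = qy →
        2 * x1 * y1 + x2 * y3 + x3 * y2 = T →
        -(α * x1 + β * y1 + γ * (x2 * y3 - y2 * x3)) ^ 2 -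
        (α * x2 + β * y2 + γ * (2 * (x1 * y2 - x2 * y1))) *
        (α * x3 + β * y3 + γ * (2 * (x3 * y1 - x1 * y3))) =
        α ^ 2 * qx + β ^ 2 * qy - α * β * T + γ ^ 2 * (4 * qx * qy - T ^ 2) := by
      rintro _ _ _ rfl rfl rfl; ring
    rw [this _ _ _ hx hy hb]
    linear_combination e3
  · linear_combination -2 * α * hx + β * hb - 2 * e1
  · linear_combination -2 * β * hy + α * hb - 2 * e2

theorem sq_neg [Fintype F] (h1 : ¬IsSquare (-1 : F)) {a : F} (ha : ¬IsSquare a) : IsSquare (-a) := by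
  classical
  have a0 : -a ≠ 0 := neg_ne_zero.2 fun h => ha (h ▸ IsSquare.zero)
  rw [← quadraticChar_one_iff_isSquare a0, ← neg_one_mul, map_mul,
    quadraticChar_neg_one_iff_not_isSquare.2 h1, quadraticChar_neg_one_iff_not_isSquare.2 ha]
  norm_num

theorem ex3 [Fintype F] (hF : 4 ≤ Fintype.card F) (a : F) : ∃ l : F, l ≠ 0 ∧ l ≠ 1 ∧ l ≠ a := by
  classical
  by_contra! h
  have : (Finset.univ : Finset F) ⊆ {0, 1, a} := fun l _ => by
    by_cases h0 : l = 0
    · simp [h0]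
    by_cases h1 : l = 1
    · simp [h1]
    simp [h l h0 h1]
  have := (Finset.card_le_card this).trans Finset.card_le_three
  rw [Finset.card_univ] at this
  omega

theorem exR [Fintype F] (hF : 4 ≤ Fintype.card F) (h1 : ¬IsSquare (-1 : F)) {b : F}
    (hb : ¬IsSquare (b ^ 2 - 1)) : ∃ s r w : F, IsSquare (s ^ 2 - 1) ∧ IsSquare (r ^ 2 - 1) ∧
      w ^ 2 = (1 - b ^ 2) * (1 - s ^ 2) - (r - b * s) ^ 2 := by
  classical
  have h2 : (2 : F) ≠ 0 := fun h => h1 ⟨1, by linear_combination -h⟩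
  have hφ : ∀ l : F, l ≠ 0 → ((l + l⁻¹) / 2) ^ 2 - 1 = ((l - l⁻¹) / 2) * ((l - l⁻¹) / 2) :=
    fun l hl => by field_simp; ring
  obtain ⟨l, l0, l1, l2⟩ := ex3 hF (-1)
  obtain ⟨s, u, hu, hs⟩ : ∃ s u : F, u ≠ 0 ∧ s ^ 2 - 1 = u * u := by
    refine ⟨_, _, div_ne_zero (fun h => ?_) h2, hφ l l0⟩
    have : (l - 1) * (l + 1) = 0 := by field_simp at h; linear_combination h
    rcases mul_eq_zero.1 this with h | h
    · exact l1 (sub_eq_zero.1 h)
    · exact l2 (eq_neg_of_add_eq_zero_left h)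
  obtain ⟨m, hm⟩ := sq_neg h1 hb
  have m0 : m ≠ 0 := fun h => hb ⟨0, by rw [h] at hm; linear_combination -hm⟩
  by_contra! H
  have k0 : m * u ≠ 0 := mul_ne_zero m0 hu
  set U : Finset F := Finset.univ.erase 0 with hU
  have cU : U.card + 1 = Fintype.card F := Finset.card_erase_add_one (Finset.mem_univ _)
  set ψ : F → F := fun l => b * s + m * u * ((l - l⁻¹) / 2) with hψ
  have key : ∀ r, IsSquare (r ^ 2 - 1) → r ∈ U.image ψ := fun r hr => by
    obtain ⟨w, hw⟩ := sq_neg h1 (a := (1 - b ^ 2) * (1 - s ^ 2) - (r - b * s) ^ 2)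
      fun ⟨w, hw⟩ => H s r w ⟨_, hs⟩ hr (by rw [hw, sq])
    have e : (w + (r - b * s)) * (w - (r - b * s)) = (m * u) ^ 2 := by
      linear_combination -hw + u ^ 2 * hm + (1 - b ^ 2) * hs
    have n0 : w + (r - b * s) ≠ 0 := fun h => pow_ne_zero 2 k0 (by rw [← e, h, zero_mul])
    refine Finset.mem_image.2 ⟨(w + (r - b * s)) / (m * u), by simp [hU, n0, m0, hu], ?_⟩
    simp only [hψ]
    field_simp
    linear_combination e
  have c1 : 2 * (U.image ψ).card ≤ U.card := Finset.mul_card_image_le_card _ _ fun r hr => by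
    obtain ⟨l, hl, rfl⟩ := Finset.mem_image.1 hr
    have l0 : l ≠ 0 := (Finset.mem_erase.1 hl).1
    refine Finset.one_lt_card.2 ⟨l, by simp [hl], -l⁻¹, ?_, fun h => h1 ⟨l, ?_⟩⟩
    · simp only [Finset.mem_filter, hU, hψ, Finset.mem_erase, Finset.mem_univ, and_true]
      refine ⟨by simpa using l0, ?_⟩
      rw [inv_neg, inv_inv]; ring
    · nth_rewrite 2 [h]
      field_simp
  set T : Finset F := (U.erase 1).erase (-1) with hT
  have cT : T.card + 2 = U.card := by
    have n1 : (-1 : F) ≠ 1 := fun h => h2 (by linear_combination -h)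
    rw [← Finset.card_erase_add_one (s := U) (a := 1) (by simp [hU]),
      ← Finset.card_erase_add_one (s := U.erase 1) (a := -1) (by simp [hU, n1])]
  set φ : F → F := fun l => (l + l⁻¹) / 2 with hφ'
  have c2 : T.card ≤ 2 * (T.image φ).card := Finset.card_le_mul_card_image _ _ fun r hr => by
    obtain ⟨l, hl, rfl⟩ := Finset.mem_image.1 hr
    refine (Finset.card_le_card (t := {l, l⁻¹}) fun a ha => ?_).trans Finset.card_le_two
    simp only [Finset.mem_filter, hT, hU, hφ', Finset.mem_erase] at ha hl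
    have a0 := ha.1.2.2.1
    have l0 := hl.2.2.1
    have h := ha.2
    have : (a - l) * (a * l - 1) = 0 := by field_simp at h; linear_combination h
    rcases mul_eq_zero.1 this with h | h
    · simp [sub_eq_zero.1 h]
    · simp [eq_inv_of_mul_eq_one_left (sub_eq_zero.1 h)]
  have n1 : ∀ e : F, e * e = 1 → e ∉ T.image φ := fun e he h => by
    obtain ⟨l, hl, h⟩ := Finset.mem_image.1 h
    simp only [hT, hU, hφ', Finset.mem_erase] at h hl
    have l0 := hl.2.2.1
    have : (l - e) ^ 2 = 0 := by field_simp at h; linear_combination h + he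
    have : l = e := sub_eq_zero.1 (pow_eq_zero_iff two_ne_zero |>.1 this)
    rcases mul_self_eq_one_iff.1 he with h | h
    · exact hl.2.1 (this.trans h)
    · exact hl.1 (this.trans h)
  have c3 : (insert 1 (insert (-1) (T.image φ))).card ≤ (U.image ψ).card :=
    Finset.card_le_card fun r hr => key r (by
      simp only [Finset.mem_insert] at hr
      rcases hr with rfl | rfl | hr
      · exact ⟨0, by ring⟩
      · exact ⟨0, by ring⟩
      · obtain ⟨l, hl, rfl⟩ := Finset.mem_image.1 hr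
        simp only [hT, hU, Finset.mem_erase] at hl
        exact ⟨_, hφ l hl.2.2.1⟩)
  rw [Finset.card_insert_of_notMem (by
      rw [Finset.mem_insert, not_or]
      exact ⟨fun h => h2 (by linear_combination h), n1 1 (by ring)⟩),
    Finset.card_insert_of_notMem (n1 _ (by ring))] at c3
  omega

abbrev S (F : Type*) [Field F] := Matrix.SpecialLinearGroup (Fin 2) F

def mk (X : S F) : Matrix.ProjectiveSpecialLinearGroup (Fin 2) F := QuotientGroup.mk X

theorem mk_mul (X Y : S F) : mk (X * Y) = mk X * mk Y := rfl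

theorem det' (X : S F) : X 0 0 * X 1 1 - X 0 1 * X 1 0 = 1 := by
  rw [← Matrix.det_fin_two]; exact X.2

theorem mul_ap (X Y : S F) (i j : Fin 2) : (X * Y) i j = X i 0 * Y 0 j + X i 1 * Y 1 j := by
  simp [Matrix.mul_apply, Fin.sum_univ_two]

theorem mk_eq_one (X : S F) : mk X = 1 ↔ X 0 1 = 0 ∧ X 1 0 = 0 ∧ X 0 0 = X 1 1 := by
  refine (QuotientGroup.eq_one_iff X).trans (Matrix.SpecialLinearGroup.mem_center_iff.trans
    ⟨fun ⟨r, _, h⟩ => ?_, fun ⟨a, b, c⟩ => ⟨X 0 0, ?_, ?_⟩⟩)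
  · have e : ∀ i j, X i j = Matrix.scalar (Fin 2) r i j := fun i j => by rw [h]
    simp [e]
  · have := det' X
    rw [a, ← c] at this
    simp only [Fintype.card_fin]
    linear_combination this
  · ext i j
    fin_cases i <;> fin_cases j <;> simp [a, b, c]

def Inv (X : S F) : Prop := X 1 1 = -X 0 0 ∧ mk X ≠ 1

theorem ord2 (X : S F) : orderOf (mk X) = 2 ↔ Inv X := by
  have d := det' X
  rw [orderOf_eq_prime_iff, sq, ← mk_mul, mk_eq_one, Inv]
  simp only [mul_ap]
  refine and_congr_left fun h => ⟨fun ⟨a, b, c⟩ => ?_, fun e => ?_⟩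
  · by_contra e
    have e : X 0 0 + X 1 1 ≠ 0 := fun h => e (by linear_combination h)
    exact h ((mk_eq_one X).2 ⟨mul_right_cancel₀ e (by linear_combination a),
      mul_right_cancel₀ e (by linear_combination b), mul_right_cancel₀ e (by linear_combination c)⟩)
  · rw [e]; refine ⟨by ring, by ring, by ring⟩

def Good (τ : F) : Prop := ∀ a b : F, a ^ 2 + b ^ 2 = 1 → τ = 2 * a → b = 0

theorem odd_crit [Finite F] (g : S F) (h : Good (g 0 0 + g 1 1)) : Odd (orderOf (mk g)) := by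
  rw [← Nat.not_even_iff_odd]
  rintro ⟨m, hm⟩
  have p : 0 < orderOf (mk g) := orderOf_pos _
  have m0 : 0 < m := by omega
  have o : orderOf (mk (g ^ m)) = 2 := by
    have : mk (g ^ m) = mk g ^ m := rfl
    rw [this, orderOf_pow' _ m0.ne', hm, ← two_mul, Nat.gcd_mul_left_left, Nat.mul_div_cancel _ m0]
  obtain ⟨w1, w2⟩ := (ord2 _).1 o
  have c : g * g ^ m = g ^ m * g := ((Commute.refl g).pow_right m).eq
  generalize g ^ m = W at w1 w2 c
  have c00 := congrArg (fun X : S F => X 0 0) c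
  have c01 := congrArg (fun X : S F => X 0 1) c
  have c10 := congrArg (fun X : S F => X 1 0) c
  simp only [mul_ap, w1] at c00 c01 c10
  have dW := det' W
  have dg := det' g
  rw [w1] at dW
  obtain ⟨b, b1, b2, b3⟩ : ∃ b, g 0 1 = b * W 0 1 ∧ g 1 0 = b * W 1 0 ∧
      g 1 1 = g 0 0 - 2 * b * W 0 0 := by
    rw [Ne, mk_eq_one, w1] at w2
    by_cases h1 : W 0 1 = 0
    · by_cases h2 : W 1 0 = 0
      · have h3 : 2 * W 0 0 ≠ 0 := fun h => w2 ⟨h1, h2, by linear_combination h⟩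
        obtain ⟨b, hb⟩ : ∃ b, b * (2 * W 0 0) = g 0 0 - g 1 1 := ⟨_, div_mul_cancel₀ _ h3⟩
        rw [h1] at c01
        rw [h2] at c10
        refine ⟨b, mul_right_cancel₀ h3 ?_, mul_right_cancel₀ h3 ?_, by linear_combination hb⟩
        · rw [h1]; linear_combination -c01
        · rw [h2]; linear_combination c10
      · obtain ⟨b, hb⟩ : ∃ b, b * W 1 0 = g 1 0 := ⟨_, div_mul_cancel₀ _ h2⟩
        exact ⟨b, mul_right_cancel₀ h2 (by linear_combination c00 - W 0 1 * hb), hb.symm,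
          mul_right_cancel₀ h2 (by linear_combination c10 + 2 * W 0 0 * hb)⟩
    · obtain ⟨b, hb⟩ : ∃ b, b * W 0 1 = g 0 1 := ⟨_, div_mul_cancel₀ _ h1⟩
      exact ⟨b, hb.symm, mul_right_cancel₀ h1 (by linear_combination -c00 - W 1 0 * hb),
        mul_right_cancel₀ h1 (by linear_combination -c01 + 2 * W 0 0 * hb)⟩
  have := h (g 0 0 - b * W 0 0) b (by rw [b1, b2, b3] at dg; linear_combination dg - b ^ 2 * dW)
    (by rw [b3]; ring)
  rw [(mk_eq_one g).2 ⟨by simp [b1, this], by simp [b2, this], by simp [b3, this]⟩, orderOf_one] at hm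
  omega

def sl (a b c : F) (h : -a ^ 2 - b * c = 1) : S F :=
  ⟨!![a, b; c, -a], by rw [Matrix.det_fin_two_of]; linear_combination h⟩

theorem key [Fintype F] (hF : 4 ≤ Fintype.card F) {X Y : S F} (hX : Inv X) (hY : Inv Y) :
    ∃ Z, Inv Z ∧ Odd (orderOf (mk X * mk Z)) ∧ Odd (orderOf (mk Z * mk Y)) := by
  have dX := det' X
  have dY := det' Y
  rw [hX.1] at dX
  rw [hY.1] at dY
  have fin : ∀ z1 z2 z3 : F, -z1 ^ 2 - z2 * z3 = 1 → (z2 = 0 → z3 = 0 → z1 ≠ -z1) →
      Good (2 * X 0 0 * z1 + X 0 1 * z3 + X 1 0 * z2) →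
      Good (2 * z1 * Y 0 0 + z2 * Y 1 0 + z3 * Y 0 1) →
      ∃ Z, Inv Z ∧ Odd (orderOf (mk X * mk Z)) ∧ Odd (orderOf (mk Z * mk Y)) :=
    fun z1 z2 z3 h n g1 g2 => by
      refine ⟨sl z1 z2 z3 h, ⟨rfl, fun e => ?_⟩, odd_crit (X * _) ?_, odd_crit (_ * Y) ?_⟩
      · obtain ⟨a, b, c⟩ := (mk_eq_one _).1 e
        exact n a b c
      · convert g1 using 1
        simp only [mul_ap, hX.1]
        simp [sl]; ring
      · convert g2 using 1
        simp only [mul_ap, hY.1]
        simp [sl]; ring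
  by_cases h2 : (2 : F) = 0
  · have G : ∀ τ : F, τ ≠ 0 → Good τ := fun τ h a b _ e => (h (by rw [e, h2, zero_mul])).elim
    have n : ∀ {X : S F}, Inv X → X 0 1 = 0 → X 1 0 ≠ 0 := fun {X} hX a b =>
      hX.2 ((mk_eq_one _).2 ⟨a, b, by rw [hX.1]; linear_combination X 0 0 * h2⟩)
    have f1 := fin 1 1 0 (by linear_combination -h2) (by simp)
    have f2 := fin 1 0 1 (by linear_combination -h2) (by simp)
    have f3 := fin 0 1 1 (by linear_combination -h2) (by simp)
    simp only [h2, zero_mul, mul_zero, zero_add, add_zero, mul_one, one_mul] at f1 f2 f3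
    by_cases a : X 0 1 = 0
    · by_cases b : Y 1 0 = 0
      · exact f3 (G _ (by simpa [a] using n hX a)) (G _ (by simpa [b] using fun h => n hY h b))
      · exact f1 (G _ (n hX a)) (G _ b)
    · by_cases b : Y 0 1 = 0
      · by_cases c : X 1 0 = 0
        · exact f3 (G _ (by simpa [c] using a)) (G _ (by simpa [b] using n hY b))
        · exact f1 (G _ c) (G _ (n hY b))
      · exact f2 (G _ a) (G _ b)
  obtain ⟨b, hb⟩ : ∃ b, 2 * X 0 0 * Y 0 0 + X 0 1 * Y 1 0 + X 1 0 * Y 0 1 = -2 * b :=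
    ⟨_, (mul_div_cancel₀ _ (neg_ne_zero.2 h2)).symm⟩
  have adj : Good (-2 * b) → ∃ Z, Inv Z ∧ Odd (orderOf (mk X * mk Z)) ∧
      Odd (orderOf (mk Z * mk Y)) := fun g => by
    refine ⟨X, hX, ?_, odd_crit (X * Y) ?_⟩
    · rw [← sq, (orderOf_eq_prime_iff.1 ((ord2 X).2 hX)).1, orderOf_one]; exact odd_one
    · convert g using 1
      simp only [mul_ap, hX.1, hY.1]
      linear_combination hb
  have fin2 : ∀ s r w : F, 1 - b ^ 2 ≠ 0 → w ^ 2 = (1 - b ^ 2) * (1 - s ^ 2) - (r - b * s) ^ 2 →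
      Good (-2 * s) → Good (-2 * r) →
      ∃ Z, Inv Z ∧ Odd (orderOf (mk X * mk Z)) ∧ Odd (orderOf (mk Z * mk Y)) :=
    fun s r w hd hw g1 g2 => by
      obtain ⟨z1, z2, z3, a1, a2, a3⟩ := exZ h2 (by linear_combination dX) (by linear_combination dY)
        hb hd hw
      refine fin z1 z2 z3 a1 (fun e _ e' => ?_) (a2 ▸ g1) (a3 ▸ g2)
      have : z1 = 0 := mul_left_cancel₀ h2 (by linear_combination e')
      rw [this, e] at a1
      simp at a1
  by_cases h1 : IsSquare (-1 : F)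
  · have G : ∀ s : F, 1 - s ^ 2 = 0 → Good (-2 * s) := fun s h a b e e' => by
      have : a = -s := mul_left_cancel₀ h2 (by linear_combination -e')
      rw [this] at e
      exact pow_eq_zero_iff two_ne_zero |>.1 (by linear_combination e + h)
    by_cases hd : 1 - b ^ 2 = 0
    · exact adj (G b hd)
    obtain ⟨i, hi⟩ := h1
    exact fin2 1 1 (i * (1 - b)) hd (by linear_combination -(1 - b) ^ 2 * hi) (G 1 (by ring))
      (G 1 (by ring))
  have G : ∀ s : F, IsSquare (s ^ 2 - 1) → Good (-2 * s) := fun s ⟨u, h⟩ a b e e' => by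
    have : a = -s := mul_left_cancel₀ h2 (by linear_combination -e')
    rw [this] at e
    by_contra b0
    exact h1 ⟨u / b, by field_simp; linear_combination h - e⟩
  by_cases hd : IsSquare (b ^ 2 - 1)
  · exact adj (G b hd)
  obtain ⟨s, r, w, a1, a2, a3⟩ := exR hF h1 hd
  exact fin2 s r w (fun h => hd ⟨0, by linear_combination -h⟩) a3 (G s a1) (G r a2)

theorem pair [Fintype F] (hF : 4 ≤ Fintype.card F) :
    ∃ X Y : S F, Inv X ∧ Inv Y ∧ Inv (X * Y) ∧ Inv (Y * X) := by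
  by_cases h2 : (2 : F) = 0
  · obtain ⟨c, c0, c1, -⟩ := ex3 hF (0 : F)
    have c2 : c + 1 ≠ 0 := fun h => c1 (by linear_combination h - h2)
    refine ⟨sl 1 1 0 (by linear_combination -h2), sl 1 c 0 (by linear_combination -h2), ⟨rfl, ?_⟩,
      ⟨rfl, ?_⟩, ⟨?_, ?_⟩, ?_, ?_⟩ <;> simp only [Ne, mk_eq_one, mul_ap] <;> simp [sl, c0]
    · linear_combination h2
    · exact fun h => (c1 (by linear_combination h)).elim
    · linear_combination h2
    · exact fun h => (c1 (by linear_combination -h)).elim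
  · obtain ⟨p, hp⟩ := CharP.exists F
    haveI : NeZero p := ⟨CharP.char_ne_zero_of_finite F p⟩
    obtain ⟨a, b, h⟩ := CharP.sq_add_sq F p (-1)
    have n : ∀ X : S F, X 1 1 = -X 0 0 → Inv X := fun X e => ⟨e, fun h => by
      obtain ⟨a, b, c⟩ := (mk_eq_one _).1 h
      have d := det' X
      have : X 0 0 = 0 := mul_left_cancel₀ h2 (by linear_combination c + e)
      rw [this, a] at d
      simp at d⟩
    refine ⟨sl 0 1 (-1) (by ring), sl a b b (by push_cast at h; linear_combination -h), n _ rfl,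
      n _ rfl, n _ ?_, n _ ?_⟩ <;> simp only [mul_ap] <;> simp [sl]

theorem conj_of_odd {G : Type*} [Group G] {x y : G} (hx : orderOf x = 2) (hy : orderOf y = 2)
    (h : Odd (orderOf (x * y))) : IsConj x y := by
  obtain ⟨k, hk⟩ := h
  have x2 : x * x = 1 := by rw [← sq, ← hx, pow_orderOf_eq_one]
  have y2 : y * y = 1 := by rw [← sq, ← hy, pow_orderOf_eq_one]
  have s : SemiconjBy x (x * y)⁻¹ (x * y) := by
    rw [SemiconjBy, mul_inv_rev, inv_eq_of_mul_eq_one_right x2,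
      inv_eq_of_mul_eq_one_right y2, mul_assoc]
  have e := pow_orderOf_eq_one (x * y)
  rw [hk, two_mul, pow_succ, pow_add] at e
  refine isConj_iff.2 ⟨(x * y) ^ k, ?_⟩
  rw [← inv_pow, mul_assoc, (s.pow_right k).eq, ← mul_assoc, eq_inv_of_mul_eq_one_left e,
    mul_inv_rev, inv_mul_cancel_right, inv_eq_of_mul_eq_one_right y2]

/-- Let F be a finite field with at least 4 elements and let X be a conjugacy class of involutions of PSL(2, F). The graph on X joining two distinct involutions whose product has odd order is connected and has diameter exactly 2. -/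
theorem result {F : Type*} [Field F] [Fintype F] (hF : 4 ≤ Fintype.card F)
    (t : Matrix.ProjectiveSpecialLinearGroup (Fin 2) F) (ht : orderOf t = 2) :
    (SimpleGraph.fromRel fun x y : {x : Matrix.ProjectiveSpecialLinearGroup (Fin 2) F // IsConj t x} =>
        Odd (orderOf (x.1 * y.1))).Connected ∧
      (SimpleGraph.fromRel fun x y : {x : Matrix.ProjectiveSpecialLinearGroup (Fin 2) F // IsConj t x} =>
        Odd (orderOf (x.1 * y.1))).diam = 2 := by
  have K : ∀ x y : Matrix.ProjectiveSpecialLinearGroup (Fin 2) F, orderOf x = 2 → orderOf y = 2 →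
      ∃ z, orderOf z = 2 ∧ Odd (orderOf (x * z)) ∧ Odd (orderOf (z * y)) := fun x y hx hy => by
    obtain ⟨X, rfl⟩ : ∃ X, mk X = x := QuotientGroup.mk_surjective x
    obtain ⟨Y, rfl⟩ : ∃ X, mk X = y := QuotientGroup.mk_surjective y
    obtain ⟨Z, a, b⟩ := key hF ((ord2 X).1 hx) ((ord2 Y).1 hy)
    exact ⟨mk Z, (ord2 Z).2 a, b⟩
  have C : ∀ y, orderOf y = 2 → IsConj t y := fun y hy => by
    obtain ⟨z, a, b, c⟩ := K t y ht hy
    exact (conj_of_odd ht a b).trans (conj_of_odd a hy c)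
  have O : ∀ y, IsConj t y → orderOf y = 2 := fun y hy => by
    obtain ⟨c, rfl⟩ := isConj_iff.1 hy
    exact ((MulAut.conj c).orderOf_eq t).trans ht
  set Γ := SimpleGraph.fromRel fun x y : {x : Matrix.ProjectiveSpecialLinearGroup (Fin 2) F //
    IsConj t x} => Odd (orderOf (x.1 * y.1)) with hΓ
  have e1 : ∀ x y, Odd (orderOf (x.1 * y.1)) → Γ.edist x y ≤ 1 := fun x y h =>
    SimpleGraph.edist_le_one_iff_adj_or_eq.2 (by
      by_cases e : x = y
      · exact Or.inr e
      · exact Or.inl ((SimpleGraph.fromRel_adj _ _ _).2 ⟨e, Or.inl h⟩))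
  have le : Γ.ediam ≤ 2 := SimpleGraph.ediam_le_of_edist_le fun x y => by
    obtain ⟨z, a, b, c⟩ := K x.1 y.1 (O _ x.2) (O _ y.2)
    exact SimpleGraph.edist_triangle.trans ((add_le_add (e1 x ⟨z, C z a⟩ b)
      (e1 ⟨z, C z a⟩ y c)).trans one_add_one_eq_two.le)
  haveI : Nonempty {x // IsConj t x} := ⟨⟨t, IsConj.refl t⟩⟩
  have ge : 2 ≤ Γ.ediam := by
    obtain ⟨X, Y, a, b, c, d⟩ := pair hF
    rw [← ord2] at a b c d
    refine le_trans ?_ (SimpleGraph.edist_le_ediam (u := ⟨mk X, C _ a⟩) (v := ⟨mk Y, C _ b⟩))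
    rw [← one_add_one_eq_two, ENat.add_one_le_iff ENat.one_ne_top, ← not_le,
      SimpleGraph.edist_le_one_iff_adj_or_eq, SimpleGraph.fromRel_adj]
    rw [mk_mul] at c d
    simp only [c, d, not_or]
    refine ⟨fun h => ?_, fun h => ?_⟩
    · exact absurd h.2 (by decide)
    · have h : mk X = mk Y := congrArg Subtype.val h
      rw [← h, ← sq, (orderOf_eq_prime_iff.1 a).1, orderOf_one] at c
      omega
  have e := le_antisymm le ge
  exact ⟨SimpleGraph.connected_of_ediam_ne_top (by rw [e]; decide), by rw [SimpleGraph.diam, e]; rfl⟩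

end Cfsg.Agent.S3266
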