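import Cfsg.Statements.S3269
import Cfsg.Agent.S0215
import Cfsg.Agent.Lib.Block.H13Zstar
import Mathlib.GroupTheory.NoncommCoprod

set_option autoImplicit false
open Cfsg

namespace Cfsg.Agent.S3269

open Subgroup
open scoped commutatorElement IsMulCommutative Pointwise

theorem exists_inv {G : Type*} [Group G] [Finite G] {S : Subgroup G} (hS : IsPGroup 2 S)
    {K : Subgroup G} (hK : K ≤ S) {y : G} (hy : y ∈ K) (h1 : y ≠ 1) :
    ∃ w ∈ K, orderOf w = 2 := by
  haveI : Fact (Nat.Prime 2) := ⟨Nat.prime_two⟩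
  obtain ⟨k, hk⟩ := hS ⟨y, hK hy⟩
  have hk' : y ^ 2 ^ k = 1 := by simpa using congrArg Subtype.val hk
  obtain ⟨j, -, hj⟩ := (Nat.dvd_prime_pow Nat.prime_two).1 (orderOf_dvd_of_pow_eq_one hk')
  rcases j with _ | j
  · exact absurd (orderOf_eq_one_iff.1 (by simpa using hj)) h1
  · refine ⟨y ^ 2 ^ j, pow_mem hy _, ?_⟩
    rw [orderOf_pow' _ (by positivity), hj, pow_succ, Nat.gcd_mul_right_left]
    exact Nat.mul_div_cancel_left _ (by positivity)

theorem quat_facts {G : Type*} [Group G] {Q : Subgroup G} {n : ℕ} (hn : 1 ≤ n)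
    (e : Q ≃* QuaternionGroup (2 ^ n)) :
    (∃ z ∈ Q, orderOf z = 2 ∧ ∀ w ∈ Q, orderOf w = 2 → w = z) ∧
      ∃ a ∈ Q, ∃ b ∈ Q, a * b ≠ b * a := by
  haveI : NeZero (2 ^ n) := ⟨by positivity⟩
  constructor
  · refine ⟨e.symm (.a (2 ^ n : ℕ)), (e.symm _).2, ?_, fun w hw h2 => ?_⟩
    · rw [orderOf_coe, MulEquiv.orderOf_eq]
      have := QuaternionGroup.orderOf_a (n := 2 ^ n) ((2 ^ n : ℕ) : ZMod (2 * 2 ^ n))
      rw [this, ZMod.val_natCast, Nat.mod_eq_of_lt (by have := Nat.two_pow_pos n; omega),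
        Nat.gcd_mul_left_left]
      exact Nat.mul_div_cancel _ (by positivity)
    · have h1 := CA.H13Zstar.quaternion_eq (n := 2 ^ n) (by positivity) (x := e ⟨w, hw⟩)
        (by rwa [MulEquiv.orderOf_eq, ← orderOf_coe])
      rw [← h1]; simp
  · refine ⟨e.symm (.a 1), (e.symm _).2, e.symm (.xa 0), (e.symm _).2, fun h => ?_⟩
    have h1 : e.symm (.a 1) * e.symm (.xa 0) = e.symm (.xa 0) * e.symm (.a 1) := Subtype.ext h
    rw [← map_mul, ← map_mul, e.symm.apply_eq_iff_eq, QuaternionGroup.a_mul_xa,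
      QuaternionGroup.xa_mul_a] at h1
    have h2 : (0 - 1 : ZMod (2 * 2 ^ n)) = 0 + 1 := by injection h1
    have h3 : ((2 : ℕ) : ZMod (2 * 2 ^ n)) = 0 := by
      push_cast; linear_combination -h2
    rw [ZMod.natCast_eq_zero_iff] at h3
    have := Nat.le_of_dvd (by norm_num) h3
    have h4 : 2 ≤ 2 ^ n := by
      calc 2 = 2 ^ 1 := rfl
        _ ≤ 2 ^ n := Nat.pow_le_pow_right (by norm_num) hn
    omega

/-- Let G be a finite group whose Sylow 2-subgroup S is an internal direct product Q × R with Q generalized quaternion (of order at least 8) and R a subgroup all of whose involutions are central in R. Then G is not simple. In particular no finite simple group has a Sylow 2-subgroup that is a direct product of one or more generalized quaternion groups. -/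
theorem result {G : Type*} [Group G] [Finite G]
    (S : Sylow 2 G) (Q R : Subgroup G) (hQR : Cfsg.IsInternalDirectProduct Q R (S : Subgroup G))
    (n : ℕ) (hn : 1 ≤ n) (eQ : ↥Q ≃* QuaternionGroup (2 ^ n))
    (hR : ∀ r ∈ R, orderOf r = 2 → ∀ s ∈ R, r * s = s * r) :
    ¬ IsSimpleGroup G := by
  classical
  intro hsimp
  haveI : Fact (Nat.Prime 2) := ⟨Nat.prime_two⟩
  obtain ⟨hQS, hRS, hc, hinf, hsup⟩ := hQR
  obtain ⟨⟨z, hzQ, hz2, huniq⟩, a, haQ, b, hbQ, hab⟩ := quat_facts hn eQ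
  have dec : ∀ s ∈ (S : Subgroup G), ∃ q ∈ Q, ∃ r ∈ R, s = q * r := by
    intro s hs
    rw [← hsup] at hs
    have hN : R ≤ normalizer (Q : Set G) := fun r hr => by
      rw [mem_normalizer_iff]
      intro x
      constructor
      · intro hx; rw [← hc x hx r hr]; simpa using hx
      · intro hx
        have h1 := hc _ hx r⁻¹ (inv_mem hr)
        have : x = r * x * r⁻¹ := by
          calc x = r⁻¹ * (r * x * r⁻¹) * r := by group
            _ = r * x * r⁻¹ * r⁻¹ * r := by rw [← h1]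
            _ = r * x * r⁻¹ := by group
        rw [this]; exact hx
    have : s ∈ ((Q : Set G) * (R : Set G)) := by
      rw [← coe_mul_of_right_le_normalizer_left _ _ hN]; exact hs
    obtain ⟨q, hq, r, hr, h⟩ := this
    exact ⟨q, hq, r, hr, h.symm⟩
  have sq2 : ∀ {w : G}, w * w = 1 → w = 1 ∨ orderOf w = 2 := by
    intro w hw
    by_cases h1 : w = 1
    · exact Or.inl h1
    · exact Or.inr (orderOf_eq_prime (by rw [sq, hw]) h1)
  have zc : ∀ q ∈ Q, q * z = z * q := by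
    intro q hq
    have := huniq (q * z * q⁻¹) (mul_mem (mul_mem hq hzQ) (inv_mem hq)) (by
      rw [← hz2]; exact ((MulAut.conj q).orderOf_eq z))
    exact mul_inv_eq_iff_eq_mul.1 this
  -- involutions of S are central
  have cen : ∀ w ∈ (S : Subgroup G), w * w = 1 → w ∈ centralizer ((S : Subgroup G) : Set G) := by
    intro w hw hw2
    obtain ⟨q, hq, r, hr, rfl⟩ := dec w hw
    have h1 : q * q = (r * r)⁻¹ := by
      have : q * q * (r * r) = 1 := by
        rw [← hw2]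
        calc q * q * (r * r) = q * (q * r) * r := by group
          _ = q * (r * q) * r := by rw [hc q hq r hr]
          _ = _ := by group
      exact eq_inv_of_mul_eq_one_left this
    have h2 : q * q = 1 := by
      have : q * q ∈ Q ⊓ R := mem_inf.2 ⟨mul_mem hq hq, by rw [h1]; exact inv_mem (mul_mem hr hr)⟩
      rwa [hinf, mem_bot] at this
    have h3 : r * r = 1 := by rw [h2] at h1; exact inv_eq_one.1 h1.symm
    have hq' : ∀ x ∈ Q, x * q = q * x := by
      intro x hx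
      rcases sq2 h2 with h | h
      · rw [h]; simp
      · rw [huniq q hq h]; exact zc x hx
    have hr' : ∀ x ∈ R, x * r = r * x := by
      intro x hx
      rcases sq2 h3 with h | h
      · rw [h]; simp
      · exact (hR r hr h x hx).symm
    rw [mem_centralizer_iff]
    intro s hs
    obtain ⟨q', hq1, r', hr1, rfl⟩ := dec s hs
    calc q' * r' * (q * r) = q' * (r' * q) * r := by group
      _ = q' * (q * r') * r := by rw [hc q hq r' hr1]
      _ = (q' * q) * (r' * r) := by group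
      _ = (q * q') * (r * r') := by rw [hq' q' hq1, hr' r' hr1]
      _ = q * (q' * r) * r' := by group
      _ = q * (r * q') * r' := by rw [hc q' hq1 r hr]
      _ = _ := by group
  have nS : ∀ g ∈ normalizer ((S : Subgroup G) : Set G), ∀ s ∈ (S : Subgroup G),
      g * s * g⁻¹ ∈ (S : Subgroup G) := fun g hg s hs => (mem_normalizer_iff.1 hg s).1 hs
  -- key claim
  have key : ∀ g ∈ normalizer ((S : Subgroup G) : Set G), g * z * g⁻¹ ∉ R → g * z * g⁻¹ = z := by
    intro g hg hzR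
    have ord : ∀ w : G, orderOf (g⁻¹ * w * g) = orderOf w := fun w => by
      simpa using (MulAut.conj g⁻¹).orderOf_eq w
    have uq : ∀ w : G, g⁻¹ * w * g ∈ Q → orderOf w = 2 → w = g * z * g⁻¹ := by
      intro w hw h2
      rw [← huniq _ hw (by rw [ord, h2])]; group
    let Q' : Subgroup G := Q.comap (MulAut.conj g⁻¹).toMonoidHom
    have mQ' : ∀ w, w ∈ Q' ↔ g⁻¹ * w * g ∈ Q := fun w => by simp [Q', mem_comap]
    have h1 : ∀ w ∈ Q', w ∈ R → w = 1 := by
      intro w hw hwR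
      by_contra hw1
      obtain ⟨u, hu, hu2⟩ := exists_inv S.isPGroup' (K := Q' ⊓ R) (inf_le_right.trans hRS)
        (mem_inf.2 ⟨hw, hwR⟩) hw1
      exact hzR (uq u ((mQ' u).1 hu.1) hu2 ▸ hu.2)
    have h2 : ∀ s ∈ (S : Subgroup G), ∀ w ∈ Q', s * w * s⁻¹ ∈ Q' := by
      intro s hs w hw
      rw [mQ'] at hw ⊢
      have hs' : g⁻¹ * s * g ∈ (S : Subgroup G) := by simpa using nS g⁻¹ (inv_mem hg) s hs
      obtain ⟨q, hq, r, hr, h⟩ := dec _ hs'
      have : g⁻¹ * (s * w * s⁻¹) * g = q * (g⁻¹ * w * g) * q⁻¹ := by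
        calc g⁻¹ * (s * w * s⁻¹) * g
            = (g⁻¹ * s * g) * (g⁻¹ * w * g) * (g⁻¹ * s * g)⁻¹ := by group
          _ = q * (r * (g⁻¹ * w * g)) * r⁻¹ * q⁻¹ := by rw [h]; group
          _ = q * ((g⁻¹ * w * g) * r) * r⁻¹ * q⁻¹ := by rw [hc _ hw r hr]
          _ = _ := by group
      rw [this]; exact mul_mem (mul_mem hq hw) (inv_mem hq)
    have ha' : g * a * g⁻¹ ∈ Q' := by rw [mQ']; simpa [mul_assoc] using haQ
    have hb' : g * b * g⁻¹ ∈ Q' := by rw [mQ']; simpa [mul_assoc] using hbQ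
    obtain ⟨q1, hq1, r1, hr1, e1⟩ := dec _ (nS g hg a (hQS haQ))
    obtain ⟨q2, hq2, r2, hr2, e2⟩ := dec _ (nS g hg b (hQS hbQ))
    rw [e1] at ha'; rw [e2] at hb'
    have h3 : r2 * r1 * r2⁻¹ * r1⁻¹ = 1 := by
      refine h1 _ ?_ (mul_mem (mul_mem (mul_mem hr2 hr1) (inv_mem hr2)) (inv_mem hr1))
      have h4 := mul_mem (inv_mem ha') (h2 _ (inv_mem (hRS hr1)) _ (h2 r2 (hRS hr2) _ ha'))
      have h5 := h2 _ (hRS hr1) _ (h2 _ (hRS hr1) _ h4)
      have : r1 * (r1 * ((q1 * r1)⁻¹ * (r1⁻¹ * (r2 * (q1 * r1) * r2⁻¹) * r1⁻¹⁻¹)) * r1⁻¹) * r1⁻¹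
          = r2 * r1 * r2⁻¹ * r1⁻¹ := by
        have c1 := hc q1 hq1 r1 hr1
        have c2 := hc q1 hq1 r2 hr2
        have c3 := hc q1⁻¹ (inv_mem hq1) r1⁻¹ (inv_mem hr1)
        calc _ = r1 * (q1⁻¹ * r1⁻¹) * (r2 * q1) * r1 * r2⁻¹ * r1⁻¹ := by group
          _ = r1 * (r1⁻¹ * q1⁻¹) * (q1 * r2) * r1 * r2⁻¹ * r1⁻¹ := by rw [c3, c2]
          _ = _ := by group
      rwa [this] at h5
    have h4 : r2 * r1 = r1 * r2 := by
      calc r2 * r1 = (r2 * r1 * r2⁻¹ * r1⁻¹) * (r1 * r2) := by group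
        _ = _ := by rw [h3, one_mul]
    have h5 : (q1 * r1) * (q2 * r2) * (q1 * r1)⁻¹ * (q2 * r2)⁻¹ = q1 * q2 * q1⁻¹ * q2⁻¹ := by
      have c1 := hc q2 hq2 r1 hr1
      have c2 := hc q1⁻¹ (inv_mem hq1) r2⁻¹ (inv_mem hr2)
      calc _ = q1 * (r1 * q2) * r2 * r1⁻¹ * (q1⁻¹ * r2⁻¹) * q2⁻¹ := by group
        _ = q1 * (q2 * r1) * r2 * r1⁻¹ * (r2⁻¹ * q1⁻¹) * q2⁻¹ := by rw [← c1, c2]
        _ = q1 * q2 * (r1 * r2) * r1⁻¹ * r2⁻¹ * q1⁻¹ * q2⁻¹ := by group
        _ = _ := by rw [← h4]; group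
    have h6 : q1 * q2 * q1⁻¹ * q2⁻¹ ∈ Q ⊓ Q' := mem_inf.2
      ⟨mul_mem (mul_mem (mul_mem hq1 hq2) (inv_mem hq1)) (inv_mem hq2), by
        rw [← h5]; exact mul_mem (mul_mem (mul_mem ha' hb') (inv_mem ha')) (inv_mem hb')⟩
    have h7 : q1 * q2 * q1⁻¹ * q2⁻¹ ≠ 1 := by
      rw [← h5, ← e1, ← e2]
      intro h
      apply hab
      calc a * b = g⁻¹ * (g * a * g⁻¹ * (g * b * g⁻¹) * (g * a * g⁻¹)⁻¹ * (g * b * g⁻¹)⁻¹) * g
          * (b * a) := by group
        _ = _ := by rw [h]; group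
    obtain ⟨u, hu, hu2⟩ := exists_inv S.isPGroup' (inf_le_left.trans hQS) h6 h7
    rw [← uq u ((mQ' u).1 hu.2) hu2]; exact huniq u hu.1 hu2
  -- the fixed involution
  let C : Subgroup G := (S : Subgroup G) ⊓ centralizer ((S : Subgroup G) : Set G)
  haveI : IsMulCommutative C := ⟨⟨fun x y => Subtype.ext (y.2.2 x x.2.1)⟩⟩
  have nC : ∀ g ∈ normalizer ((S : Subgroup G) : Set G), ∀ s ∈ C, g * s * g⁻¹ ∈ C := by
    intro g hg s hs
    refine ⟨nS g hg s hs.1, fun x hx => ?_⟩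
    have hx' : g⁻¹ * x * g ∈ (S : Subgroup G) := by simpa using nS g⁻¹ (inv_mem hg) x hx
    have := hs.2 _ hx'
    calc x * (g * s * g⁻¹) = g * (g⁻¹ * x * g * s) * g⁻¹ := by group
      _ = _ := by rw [this]; group
  have zz : z * z = 1 := by rw [← sq, ← hz2, pow_orderOf_eq_one]
  let z' : C := ⟨z, hQS hzQ, cen z (hQS hzQ) zz⟩
  haveI : Fintype C := Fintype.ofFinite _
  let X : Finset C := Finset.univ.filter fun x =>
    ∃ g ∈ normalizer ((S : Subgroup G) : Set G), g * z * g⁻¹ = x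
  have mX : ∀ x : C, x ∈ X ↔ ∃ g ∈ normalizer ((S : Subgroup G) : Set G), g * z * g⁻¹ = x :=
    fun x => by simp [X]
  have hzX : z' ∈ X := (mX _).2 ⟨1, one_mem _, by simp [z']⟩
  obtain ⟨t, ht⟩ : ∃ t : C, t = ∏ x ∈ X, x := ⟨_, rfl⟩
  have tfix : ∀ g ∈ normalizer ((S : Subgroup G) : Set G), g * t * g⁻¹ = t := by
    intro g hg
    let f : C →* C :=
      { toFun := fun x => ⟨g * x * g⁻¹, nC g hg x x.2⟩
        map_one' := Subtype.ext (by simp)
        map_mul' := fun x y => Subtype.ext (by simp [mul_assoc]) }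
    have hf : ∀ x : C, (f x : G) = g * x * g⁻¹ := fun x => rfl
    have : f t = t := by
      rw [ht, map_prod]
      refine Finset.prod_bij (fun x _ => f x) (fun x hx => ?_) (fun x _ y _ h => ?_)
        (fun y hy => ?_) (fun _ _ => rfl)
      · obtain ⟨k, hk, e⟩ := (mX x).1 hx
        exact (mX _).2 ⟨g * k, mul_mem hg hk, by rw [hf, ← e]; group⟩
      · have := congrArg Subtype.val h
        rw [hf, hf] at this
        exact Subtype.ext (by simpa using this)
      · obtain ⟨k, hk, e⟩ := (mX y).1 hy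
        refine ⟨⟨g⁻¹ * y * g⁻¹⁻¹, nC _ (inv_mem hg) y y.2⟩, (mX _).2 ⟨g⁻¹ * k,
          mul_mem (inv_mem hg) hk, by
            change _ = g⁻¹ * (y : G) * g⁻¹⁻¹
            rw [← e]; group⟩, Subtype.ext (by rw [hf]; group)⟩
    rw [← hf, this]
  have tt : (t : G) * t = 1 := by
    have : t * t = 1 := by
      rw [ht, ← Finset.prod_mul_distrib]
      refine Finset.prod_eq_one fun x hx => Subtype.ext ?_
      obtain ⟨k, -, e⟩ := (mX x).1 hx
      simp only [coe_mul, ← e, coe_one]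
      calc k * z * k⁻¹ * (k * z * k⁻¹) = k * (z * z) * k⁻¹ := by group
        _ = 1 := by rw [zz]; group
    exact congrArg Subtype.val this
  have t1 : (t : G) ≠ 1 := by
    intro h
    have h1 : ∏ x ∈ X.erase z', x ∈ R.subgroupOf C := by
      refine prod_mem fun x hx => ?_
      obtain ⟨hx1, hx2⟩ := Finset.mem_erase.1 hx
      obtain ⟨k, hk, e⟩ := (mX x).1 hx2
      rw [mem_subgroupOf, ← e]
      by_contra h2
      exact hx1 (Subtype.ext (by rw [← e]; exact key k hk h2))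
    have h2 : z' * ∏ x ∈ X.erase z', x = 1 := by
      rw [Finset.mul_prod_erase X (fun x => x) hzX, ← ht]; exact Subtype.ext h
    have h3 : z' ∈ R.subgroupOf C := by
      rw [eq_inv_of_mul_eq_one_left h2]; exact inv_mem h1
    have h4 : z ∈ Q ⊓ R := ⟨hzQ, h3⟩
    rw [hinf, mem_bot] at h4
    rw [h4] at hz2; simp at hz2
  have t2 : orderOf (t : G) = 2 := (sq2 tt).resolve_left t1
  obtain ⟨N, hN, hodd, hcomm⟩ := Cfsg.Agent.S0215.result S (t : G) t2 t.2.1 (fun g hg => by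
    have h1 : g * t * g⁻¹ * (g * t * g⁻¹) = 1 := by
      calc g * t * g⁻¹ * (g * t * g⁻¹) = g * (t * t) * g⁻¹ := by group
        _ = 1 := by rw [tt]; group
    obtain ⟨k, hk, e⟩ := S.conj_eq_normalizer_conj_of_mem_centralizer t g⁻¹ t.2.2
      (by simpa using cen _ hg h1)
    have := tfix k⁻¹ (inv_mem hk)
    simpa [this] using e.trans (by simpa using this))
  rcases hN.eq_bot_or_eq_top with rfl | rfl
  · have hc' : (t : G) ∈ center G := by
      rw [mem_center_iff]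
      intro g
      have := mem_bot.1 (hcomm g)
      calc g * t = (t * g * (t : G)⁻¹ * g⁻¹)⁻¹ * (t * g) := by group
        _ = _ := by rw [this]; group
    rcases (inferInstance : (center G).Normal).eq_bot_or_eq_top with h | h
    · rw [h] at hc'; exact t1 hc'
    · exact hab ((mem_center_iff.1 (h ▸ mem_top b : b ∈ center G)) a)
  · rw [card_top] at hodd
    exact (Nat.not_even_iff_odd.2 hodd) (even_iff_two_dvd.2 (t2 ▸ orderOf_dvd_natCard _))

end Cfsg.Agent.S3269
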