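import Cfsg.Statements.S3276
import Cfsg.Agent.Lib.Grp.H13Misc

set_option autoImplicit false
open Cfsg

namespace Cfsg.Agent.S3276

/-- Let x and y be commuting, non-conjugate involutions of a finite group G, and suppose that for every involution u commuting with x, each conjugate of y that commutes with u also commutes with y. Then the normal closure of y is a proper, normal, elementary abelian 2-subgroup of G; and if y is the only involution of that normal closure commuting with x, it has order at most 4. -/
theorem result {G : Type*} [Group G] [Finite G] (x y : G) (hx : orderOf x = 2) (hy : orderOf y = 2)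
    (hxy : Commute x y) (hnc : ¬ IsConj x y)
    (hstar : ∀ u : G, orderOf u = 2 → Commute u x → ∀ g : G, Commute (g * y * g⁻¹) u → Commute (g * y * g⁻¹) y) :
    Subgroup.normalClosure ({y} : Set G) ≠ ⊤ ∧ Cfsg.IsElementaryAbelian 2 (Subgroup.normalClosure ({y} : Set G)) ∧
      ((∀ u ∈ Subgroup.normalClosure ({y} : Set G), orderOf u = 2 → Commute u x → u = y) →
        Nat.card ↥(Subgroup.normalClosure ({y} : Set G)) ≤ 4) := by
  open Subgroup CA.H13Inv CA.H13Misc in
  have h1 : ∀ g : G, Commute (g * y * g⁻¹) y := fun g => by
    have hy' : orderOf (g * y * g⁻¹) = 2 := by rw [orderOf_conj, hy]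
    have he := even_of_not_isConj (mul_self hx) (mul_self hy')
      (fun h => hnc (h.trans (isConj_iff.2 ⟨g, rfl⟩).symm))
    exact hstar _ (orderOf_pow_half he) (commute_pow_half_left (mul_self hx) (mul_self hy') he) g
      (commute_pow_half_right (mul_self hx) (mul_self hy') he).symm
  have h0 : ∀ a ∈ Group.conjugatesOfSet ({y} : Set G), IsConj y a := fun a ha => by
    simpa [Group.mem_conjugatesOfSet_iff] using ha
  have h2 : ∀ a ∈ Group.conjugatesOfSet ({y} : Set G), ∀ b ∈ Group.conjugatesOfSet ({y} : Set G),
      a * b = b * a := by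
    intro a ha b hb
    obtain ⟨g, rfl⟩ := isConj_iff.1 (h0 a ha)
    obtain ⟨k, rfl⟩ := isConj_iff.1 (h0 b hb)
    have := commute_conj (h1 (k⁻¹ * g)) k
    convert this.eq using 2 <;> group
  have hc : IsMulCommutative (normalClosure ({y} : Set G)) := isMulCommutative_closure h2
  have hE : IsElementaryAbelian 2 (normalClosure ({y} : Set G)) := by
    refine ⟨hc, fun a ha => ?_⟩
    refine closure_induction (p := fun a _ => a ^ 2 = 1) ?_ (one_pow 2) ?_ ?_ ha
    · intro a ha
      rw [← hy, orderOf_eq_of_isConj (h0 a ha), pow_orderOf_eq_one]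
    · intro a b ha hb h1 h2
      rw [Commute.mul_pow (CA.PGBasic.isMulCommutative_iff.1 hc a ha b hb), h1, h2, one_mul]
    · intro a _ h1
      rw [inv_pow, h1, inv_one]
  refine ⟨fun h => ?_, hE, fun h => ?_⟩
  · haveI : (zpowers y).Normal := normal_of_le_center (zpowers_le.2 (mem_center_iff.2 fun g =>
      CA.PGBasic.isMulCommutative_iff.1 hc g (h ▸ mem_top g) y (h ▸ mem_top y)))
    have h3 : normalClosure ({y} : Set G) ≤ zpowers y :=
      normalClosure_le_normal (by simp)
    rcases eq_of_mem_zpowers hy (h3 (h ▸ mem_top x)) with h4 | h4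
    · exact ne_one hx h4
    · exact hnc (h4 ▸ IsConj.refl _)
  · refine (card_le_sq hE (mul_self hx) (by rw [normalizer_eq_top]; trivial)).trans ?_
    have h3 : normalClosure ({y} : Set G) ⊓ centralizer {x} ≤ zpowers y := fun u hu => by
      by_cases h4 : u = 1
      · rw [h4]; exact one_mem _
      · rw [h u hu.1 (orderOf_eq_prime (hE.2 u hu.1) h4) (mem_centralizer_singleton_iff.1 hu.2)]
        exact mem_zpowers y
    have := card_le_of_le h3
    rw [Nat.card_zpowers, hy] at this
    exact Nat.pow_le_pow_left this 2

end Cfsg.Agent.S3276
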