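import Cfsg.Statements.S3279
import Cfsg.Agent.Lib.Grp.H13Misc
import Cfsg.Agent.S3276

set_option autoImplicit false
open Cfsg

namespace Cfsg.Agent.S3279

/-- Let G be a finite simple group and x an involution of G whose centralizer contains at most three involutions. Then C_G(x) contains a Sylow 2-subgroup of G, and all involutions of G are conjugate. -/
theorem result {G : Type*} [Group G] [Finite G] [IsSimpleGroup G] (x : G) (hx : orderOf x = 2)
    (h3 : Nat.card {u : ↥(Subgroup.centralizer ({x} : Set G)) // orderOf u = 2} ≤ 3) :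
    (∃ S : Sylow 2 G, (S : Subgroup G) ≤ Subgroup.centralizer ({x} : Set G)) ∧
      ∀ u v : G, orderOf u = 2 → orderOf v = 2 → IsConj u v := by
  open Subgroup CA.H13Inv CA.H13Misc CA.SylIn in
  have four : ∀ a b c d : G, orderOf a = 2 → orderOf b = 2 → orderOf c = 2 → orderOf d = 2 →
      a * x = x * a → b * x = x * b → c * x = x * c → d * x = x * d →
      a = b ∨ a = c ∨ a = d ∨ b = c ∨ b = d ∨ c = d := fun a b c d ha hb hc hd ha' hb' hc' hd' => by
    simpa only [Subtype.ext_iff] using four_of_card_le_three h3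
      ⟨⟨a, mem_centralizer_singleton_iff.2 ha'⟩, by rwa [← orderOf_coe]⟩
      ⟨⟨b, mem_centralizer_singleton_iff.2 hb'⟩, by rwa [← orderOf_coe]⟩
      ⟨⟨c, mem_centralizer_singleton_iff.2 hc'⟩, by rwa [← orderOf_coe]⟩
      ⟨⟨d, mem_centralizer_singleton_iff.2 hd'⟩, by rwa [← orderOf_coe]⟩
  have h1 : ∃ S : Sylow 2 G, x ∈ (S : Subgroup G) ∧ (S : Subgroup G) ≤ centralizer {x} := by
    obtain ⟨S, hS⟩ := exists_sylow_mem_two (mul_self hx)
    by_cases hc : (S : Subgroup G) ≤ centralizer {x}
    · exact ⟨S, hS, hc⟩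
    obtain ⟨z, hzS, hz, hzc⟩ := CA.H13BS.exists_central_involution S.isPGroup'
      (fun h => ne_one hx (by rw [h] at hS; exact hS))
    by_cases hxz : IsConj z x
    · obtain ⟨g, rfl⟩ := isConj_iff.1 hxz
      refine ⟨g • S, by rw [coe_smul_sylow]; exact conj_mem_conj.2 hzS, ?_⟩
      rw [coe_smul_sylow, ← conj_centralizer_singleton]
      exact conj_mono g fun y hy => mem_centralizer_singleton_iff.2 (hzc y hy)
    exfalso
    obtain ⟨s, hs, hs1, hs2⟩ := exists_conj_ne S.isPGroup' hS hc
    have hne : x ≠ z := fun h => hxz (h ▸ IsConj.refl _)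
    have hxz2 := orderOf_mul_two hx hz (hzc x hS) hne
    have key : ∀ u, orderOf u = 2 → u * x = x * u → u = x ∨ u = z ∨ u = x * z := fun u hu hux => by
      rcases four u x z (x * z) hu hx hz hxz2 hux rfl (hzc x hS).symm
        (by rw [mul_assoc, ← hzc x hS]) with h | h | h | h | h | h
      · exact Or.inl h
      · exact Or.inr (Or.inl h)
      · exact Or.inr (Or.inr h)
      · exact absurd h hne
      · exact absurd (left_eq_mul.1 h) (ne_one hz)
      · exact absurd (right_eq_mul.1 h) (ne_one hx)
    have key2 : ∀ u, orderOf u = 2 → u * x = x * u → Commute u z := fun u hu hux => by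
      rcases key u hu hux with rfl | rfl | rfl
      · exact hzc _ hS
      · rfl
      · exact hzc _ (mul_mem hS hzS)
    have h4 := (Cfsg.Agent.S3276.result x z hx hz (hzc x hS) (fun h => hxz h.symm)
      (fun u hu hux g hg => by
        rcases key u hu hux with rfl | rfl | rfl
        · exact key2 _ (by rw [orderOf_conj, hz]) hg
        · exact hg
        · have h5 : s * x * s⁻¹ = x * z := by
            rcases key _ (by rw [orderOf_conj, hx]) hs1.symm with h | h | h
            · exact absurd h hs2
            · exact absurd (isConj_iff.2 ⟨s, h⟩).symm hxz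
            · exact h
          rw [← h5] at hg
          have h6 := commute_conj (key2 (s⁻¹ * (g * z * g⁻¹) * s⁻¹⁻¹)
            (by rw [orderOf_conj, orderOf_conj, hz]) (by
              have := commute_conj hg s⁻¹
              convert this.eq using 2 <;> group)) s
          rw [hzc s hs, mul_inv_cancel_right] at h6
          convert h6 using 1; group)).1
    rcases (inferInstance : (normalClosure ({z} : Set G)).Normal).eq_bot_or_eq_top with h | h
    · exact ne_one hz (by simpa [h] using subset_normalClosure (s := ({z} : Set G)) rfl)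
    · exact h4 h
  obtain ⟨S, hxS, hS⟩ := h1
  refine ⟨⟨S, hS⟩, ?_⟩
  by_cases hZ : ∃ w : G, orderOf w = 2 ∧ InZStar 2 w
  · obtain ⟨w, hw, hZ⟩ := hZ
    have h2 : ∀ u, orderOf u = 2 → u = w := fun u hu =>
      (eq_of_mem_zpowers hw ((top_eq_of_inZStar hw hZ).ge (mem_top u))).resolve_left (ne_one hu)
    intro u v hu hv
    rw [h2 u hu, h2 v hv]
  push Not at hZ
  have h2 : ∀ u, orderOf u = 2 → IsConj x u := fun u hu => by
    obtain ⟨g, hg⟩ := exists_conj_mem_sylow S (mul_self hu)
    have hu' : orderOf (g * u * g⁻¹) = 2 := by rw [orderOf_conj, hu]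
    refine IsConj.trans ?_ (isConj_iff.2 ⟨g, rfl⟩).symm
    generalize g * u * g⁻¹ = v at hg hu'
    obtain ⟨a, ha, ha'⟩ := CA.H13Zstar.exists_conj_mem_sylow_ne S (mul_self hx) (hZ x hx)
    obtain ⟨b, hb, hb'⟩ := CA.H13Zstar.exists_conj_mem_sylow_ne S (mul_self hu') (hZ v hu')
    rcases four x _ v _ hx (by rw [orderOf_conj, hx]) hu' (by rw [orderOf_conj, hu']) rfl
      (mem_centralizer_singleton_iff.1 (hS ha)) (mem_centralizer_singleton_iff.1 (hS hg))
      (mem_centralizer_singleton_iff.1 (hS hb)) with h | h | h | h | h | h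
    · exact absurd h.symm ha'
    · rw [h]
    · exact (isConj_iff.2 ⟨b, h.symm⟩).symm
    · exact isConj_iff.2 ⟨a, h⟩
    · exact (isConj_iff.2 ⟨a, h⟩).trans (isConj_iff.2 ⟨b, rfl⟩).symm
    · exact absurd h.symm hb'
  exact fun u v hu hv => (h2 u hu).symm.trans (h2 v hv)

end Cfsg.Agent.S3279
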