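import Cfsg.Statements.S3282
import Cfsg.Agent.Lib.Grp.H13BSW2
import Cfsg.Agent.Lib.Grp.H13Misc

set_option autoImplicit false
open Cfsg

namespace Cfsg.Agent.S3282

/-- The abstract form of the Brauer–Suzuki–Wall Theorem. Let G be a finite group with an involution t and an abelian subgroup K of H = C_G(t) containing t, such that H = K⟨s⟩ for an involution s ∉ K with C_K(s) = ⟨t⟩ and s inverting every element of K, K ∩ K^g = 1 for every g outside H, and all involutions of G conjugate. Then G has a subgroup Q, of order q say, with |G| = q(q+1)(q−1)/2, C_G(x) = Q for every non-identity x ∈ Q, N_G(Q) = QD for an abelian subgroup D of order (q−1)/2 meeting Q trivially, and for every nontrivial subgroup X of D, N_G(X) = N_G(D) = D⟨u⟩ for some involution u ∉ D inverting D. -/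
theorem result {G : Type*} [Group G] [Finite G] (t : G) (ht : orderOf t = 2)
    (K : Subgroup G) (hKab : IsMulCommutative ↥K) (hKH : K ≤ Subgroup.centralizer ({t} : Set G)) (htK : t ∈ K)
    (s : G) (hs : orderOf s = 2) (hsH : s ∈ Subgroup.centralizer ({t} : Set G)) (hsK : s ∉ K)
    (hH : K ⊔ Subgroup.zpowers s = Subgroup.centralizer ({t} : Set G)) (hCK : K ⊓ Subgroup.centralizer ({s} : Set G) = Subgroup.zpowers t)
    (hinv : ∀ x ∈ K, s * x * s⁻¹ = x⁻¹)
    (hTI : ∀ g : G, g ∉ Subgroup.centralizer ({t} : Set G) → K ⊓ K.map (MulAut.conj g).toMonoidHom = ⊥)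
    (hconj : ∀ x y : G, orderOf x = 2 → orderOf y = 2 → IsConj x y) :
    ∃ Q D : Subgroup G, 2 * Nat.card G = Nat.card ↥Q * (Nat.card ↥Q + 1) * (Nat.card ↥Q - 1) ∧
      (∀ x ∈ Q, x ≠ 1 → Subgroup.centralizer ({x} : Set G) = Q) ∧
      IsMulCommutative ↥D ∧ 2 * Nat.card ↥D + 1 = Nat.card ↥Q ∧ Q ⊓ D = ⊥ ∧
      Subgroup.normalizer (Q : Set G) = Q ⊔ D ∧
      ∀ X : Subgroup G, X ≤ D → X ≠ ⊥ →
        Subgroup.normalizer (X : Set G) = Subgroup.normalizer (D : Set G) ∧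
        ∃ u : G, orderOf u = 2 ∧ u ∉ D ∧ (∀ d ∈ D, u * d * u⁻¹ = d⁻¹) ∧
          Subgroup.normalizer (D : Set G) = D ⊔ Subgroup.zpowers u := by
  classical
  have := Fintype.ofFinite G
  have hcomm : ∀ x ∈ K, ∀ y ∈ K, x * y = y * x := fun x hx y hy =>
    congrArg Subtype.val (hKab.is_comm.comm (⟨x, hx⟩ : K) ⟨y, hy⟩)
  have hn : s ∈ Subgroup.normalizer (K : Set G) :=
    CA.SylIn.mem_normalizer_of_forall fun x hx => hinv x hx ▸ K.inv_mem hx
  have h : CA.H13BSW1.Hyp t K s := by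
    refine ⟨⟨hcomm, hs, hsK, hinv, fun g x hx h1 hg => ?_⟩, ht, htK, fun x hx h2 => ?_,
      fun x hx => hconj t x ht hx⟩
    · have h2 : g ∈ K ⊔ Subgroup.zpowers s := by
        rw [hH]
        by_contra h3
        exact CA.H13Dih.conj_ne_one h1 (Subgroup.mem_bot.1 ((hTI g h3).le
          ⟨hg, CA.SylIn.conj_mem_conj.2 hx⟩))
      rwa [CA.Two.mem_sup_two hn (by rw [pow_two, CA.H13Inv.mul_self hs]; exact K.one_mem),
        CA.H13Inv.inv_eq hs] at h2
    · refine CA.H13Misc.eq_of_mem_zpowers ht (hCK ▸ ⟨hx, ?_⟩)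
      refine CA.H13BSW2.mem_cent_symm (CA.H13BSW2.mem_cent.2 ?_)
      rw [hinv x hx, inv_eq_iff_mul_eq_one, h2]
  obtain ⟨Q, D, h1, -, h2, h3, h4, h5, h6⟩ := CA.H13BSW2.bsw h
  refine ⟨Q, D, h2, h1, ?_, h3, h4, h5, fun X hX h0 => ?_⟩
  · rcases h6 with rfl | ⟨u, hu⟩
    · infer_instance
    · exact ⟨⟨fun a b => Subtype.ext (hu.comm _ a.2 _ b.2)⟩⟩
  · have hD : D ≠ ⊥ := fun e => h0 (le_bot_iff.1 (e ▸ hX))
    obtain ⟨u, hu⟩ := h6.resolve_left hD
    exact ⟨(hu.normalizer_eq hX h0).trans (hu.normalizer_eq le_rfl hD).symm, u, hu.hu, hu.not_mem,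
      hu.inv, hu.normalizer_eq le_rfl hD⟩

end Cfsg.Agent.S3282
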