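import Cfsg.Statements.S3285
import Cfsg.Agent.Lib.Walt.H9K

set_option autoImplicit false
open Cfsg

namespace Cfsg.Agent.S3285

/-- Let G be a finite non-solvable group with no normal subgroup of index 2, and J an involution lying in the centre of a Sylow 2-subgroup of G whose centralizer is the internal direct product of ⟨J⟩ with a subgroup isomorphic to the alternating group of degree m. Then either m = 4 and G is isomorphic to the automorphism group PΓL(2, 8) of PSL(2, 8), or m = 5 and G is isomorphic to the first Janko group. -/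
theorem result {G : Type*} [Group G] [Finite G] (hns : ¬ Group.IsSolvable G) (h2 : ∀ N : Subgroup G, N.Normal → N.index ≠ 2)
    (J : G) (hJ : Cfsg.IsTwoCentralInvolution J) (m : ℕ) (T : Subgroup G)
    (hT : Nonempty (↥T ≃* ↥(alternatingGroup (Fin m))))
    (hd : Cfsg.IsInternalDirectProduct (Subgroup.zpowers J) T (Subgroup.centralizer ({J} : Set G))) :
    (m = 4 ∧ ∃ (F : Type) (_ : Field F) (_ : Fintype F), Fintype.card F = 8 ∧
        Nonempty (G ≃* MulAut (Matrix.ProjectiveSpecialLinearGroup (Fin 2) F))) ∨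
      (m = 5 ∧ Cfsg.Spor.IsoJ1 G) := by
  obtain ⟨j2, P, hP, hc⟩ := hJ
  obtain ⟨e⟩ := hT
  obtain ⟨-, d1, -, d2, d3⟩ := hd
  have h2' : ∀ N : Subgroup G, N.index ≠ 2 := fun N h => h2 N (Subgroup.normal_of_index_eq_two h) h
  have h3 : J ∉ T := fun h => CA.GW.ne_one_of_ord j2 (Subgroup.mem_bot.1 (d2.le ⟨Subgroup.mem_zpowers J, h⟩))
  have hc' : (P : Subgroup G) ≤ Subgroup.centralizer {J} := fun x hx => CA.BG.mem_cent1.2 (hc x hx)
  rcases CA.H9K.big_case h2' j2 P hP hc' e d1 h3 d3 with rfl | rfl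
  · exact Or.inl ⟨rfl, CA.H9K.four_case hns h2' j2 P hP hc' e d1 h3 d3⟩
  · obtain ⟨f⟩ := CA.H9J.prodE j2 h3 d1
    obtain ⟨c⟩ := CA.J1.ch_of_equiv j2 (((MulEquiv.subgroupCongr d3).symm.trans f).trans
      ((MulEquiv.refl _).prodCongr e))
    exact Or.inr ⟨rfl, (CA.J1.jt_of h2' j2 P hP hc c).iso⟩

end Cfsg.Agent.S3285
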