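import Cfsg.Statements.S3299
import Cfsg.Agent.Lib.Grp.H7Lge2
import Cfsg.Agent.Lib.Loc.AmbTr
import Cfsg.Agent.Lib.GW.GW2

set_option autoImplicit false
open Cfsg

namespace Cfsg.Agent.S3299

open Subgroup CA.BG CA.GW CA.H7Lge
open scoped commutatorElement
set_option maxHeartbeats 400000

variable {G : Type*} [Group G] [Finite G] {E T : Subgroup G} {z t g : G}

theorem setup (hz : orderOf z = 2) (hE : E = (pCore 2 𝓒₁(z)).map 𝓒₁(z).subtype) (hext : IsExtraspecial 2 E) (hcent : 𝓒(E) ≤ E) :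
    EX E z ∧ LX E z ∧ ∀ T, Syl 2 T 𝓒₁(z) → E ≤ T ∧ Syl 2 T ⊤ := by
  rw [← core_p_eq Nat.prime_two] at hE
  have c : E ≤ 𝓒₁(z) := hE ▸ core_le _ _
  have e := EX.of_mem hext ⟨hcent (le_cent1_iff.1 c), le_cent1_iff.1 c⟩ (ne_one_of_ord hz)
  have l := e.lx (hE ▸ le_norm_core _ _) hcent
  refine ⟨e, l, fun T hT => ⟨hE ▸ hT.core_le, hT.syl_of_norm_le Nat.prime_two le_top (inf_le_right.trans ((norm_center T).trans ?_))⟩⟩
  rw [l.center_eq e.ctr hT.pi (hE ▸ hT.core_le)]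
  exact norm_zpowers_le e.sq e.ne

theorem cent_cent (e : EX E z) (l : LX E z) (ht : t ∈ E) (t2 : t * t = 1) (h1 : g ∈ 𝓒₁(z)) (h2 : g ∈ 𝓒(E ⊓ 𝓒₁(t))) :
    g ∈ zpowers z ∨ g * t ∈ zpowers z := by
  have k : ∀ g ∈ E, g ∈ 𝓒(E ⊓ 𝓒₁(t)) → g ∈ zpowers z ∨ g * t ∈ zpowers z := fun g h1 h2 =>
    (e.cent_cent ht h1 h2).imp (fun h => e.ctr ⟨h1, h⟩) fun h => e.ctr ⟨mul_mem h1 ht, h⟩
  refine k g (l.stab g h1 fun q hq => ?_) h2
  obtain ⟨c1, c2⟩ := e.comm_mem inf_le_left (fun a ha b hb h3 h4 => ⟨mul_mem ha hb, e.mul_cent ht ha hb (fun h => h3 ⟨ha, h⟩)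
    fun h => h4 ⟨hb, h⟩⟩) (l.norm h1) h2 hq
  refine (k _ c1.1.1 c1.2).elim id fun h => c2 ?_
  have := e.zsq h
  rwa [mul_assoc, ← mul_assoc t, ← mem_cent1.1 c1.1.2, mul_assoc, t2, mul_one] at this

/-- Let G be a finite group with no nontrivial 2-group quotient (O^2(G) = G), z an involution of G with H = C_G(z), and suppose E = O_2(H) is extraspecial with C_G(E) ≤ E and of order 2^(2n+1) with n ≥ 2. Then E is contained in every normal subgroup of H of index 2. -/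
theorem result {G : Type*} [Group G] [Finite G] (hres : Cfsg.pResidual 2 G = ⊤) (z : G) (hz : orderOf z = 2)
    (E : Subgroup G) (hE : E = (Cfsg.pCore 2 ↥(Subgroup.centralizer ({z} : Set G))).map (Subgroup.centralizer ({z} : Set G)).subtype)
    (hext : Cfsg.IsExtraspecial 2 ↥E) (hcent : Subgroup.centralizer (E : Set G) ≤ E) (n : ℕ) (hn : 2 ≤ n) (hcard : Nat.card ↥E = 2 ^ (2 * n + 1))
    (K : Subgroup G) (hKH : K ≤ Subgroup.centralizer ({z} : Set G))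
    (hKn : ∀ h ∈ Subgroup.centralizer ({z} : Set G), K.map (MulAut.conj h).toMonoidHom = K)
    (hKi : K.relIndex (Subgroup.centralizer ({z} : Set G)) = 2) : E ≤ K := by
  have p2 := Nat.prime_two
  obtain ⟨e, l, hs⟩ := setup hz hE hext hcent
  have h8 := eight_lt hn hcard
  have sq : ∀ x ∈ 𝓒₁(z), x * x ∈ K := fun x hx => mem_subgroupOf.1 (mul_self_mem_of_index_two hKi ⟨x, hx⟩)
  have zK : zpowers z ≤ K := let ⟨x, hx, h⟩ := e.exists_sq h8 e.mem; zp_le.2 (h ▸ sq x (e.cent hx.1))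
  by_contra hn
  obtain ⟨t, tE, tK, t2⟩ : ∃ t ∈ E, t ∉ K ∧ t * t = 1 := by
    by_contra! h
    obtain ⟨a, ha, a1⟩ := SetLike.not_le_iff_exists.1 hn
    have k : ∀ b ∈ E, b ∉ K → b * b = z := fun b hb h1 => (e.mem_iff.1 (e.pow b hb)).resolve_left (h b hb h1)
    have i : Ivt a (K ⊓ E) := fun f hf => by
      have := (k _ (mul_mem ha hf.2) fun h => a1 ((K.mul_mem_cancel_right hf.1).1 h)).trans (k a ha a1).symm
      rw [mul_assoc, mul_left_cancel_iff, ← mul_assoc] at this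
      rw [mul_inv_eq_iff_eq_mul, eq_inv_mul_iff_mul_eq, ← mul_assoc, this]
    have h3 : (K ⊓ E).relIndex E = 2 := by
      rw [inf_relIndex_right]
      exact ((Nat.dvd_prime p2).1 (hKi ▸ relIndex_dvd_of_norm (fun h hh => mem_norm_iff_cj.2 (hKn h hh)) e.cent)).resolve_left
        fun h => hn (relIndex_eq_one.1 h)
    obtain ⟨h4, h5⟩ := CA.PX.abel_max p2 i.comm inf_le_right (e.norm_of ⟨zK (mem_zpowers z), e.mem⟩ inf_le_right) h3 e.nc
    have h6 := card_mul_relIndex h4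
    have h7 := card_mul_relIndex (inf_le_right : K ⊓ E ≤ E)
    have h9 := card_le_of_le' e.der
    rw [h5, e.center_eq, e.card] at h6
    rw [e.card] at h9
    rw [h3] at h7
    omega
  obtain ⟨S, hS, s1⟩ := syl_superset p2 (e.isPi.inf_left 𝓒₁(t)) (inf_le_inf_right _ e.cent)
  obtain ⟨T, hT⟩ := syl_exists p2 𝓒₁(z)
  have hT' := (hs T hT).2
  have s2 := hS.le.trans inf_le_left
  have zS : z ∈ S := s1 ⟨e.mem, mem_cent1_symm.1 (e.cent tE)⟩
  obtain ⟨g, g1, g2⟩ := CA.AmbTr.thompson_extremal hres (S := 𝓒₁(z)) (by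
    have := (piNat_compl_iff_coprime p2).1 (hT'.le_of_idx hT.le)
    rwa [relIndex_top_right, Nat.coprime_two_right] at this) hKH hKi (pow_two t ▸ t2) (hS.pi.isPGroup p2) (hS.le.trans inf_le_right)
  replace g2 : S ≤ 𝓒₁(g * z * g⁻¹) := cj_cent1 g z ▸ le_cj_iff.2 g2
  have k : ∀ w ∈ 𝓒(S), w ∈ zpowers z ∨ w * t ∈ zpowers z := fun w hw => cent_cent e l tE t2 (cent_le_cent1 zS hw) (cent_anti s1 hw)
  have y := (k _ (le_cent1_iff.1 g2)).resolve_left fun h => tK (by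
    have := mem_cent1_of_conj ((e.mem_iff.1 h).resolve_left (by simpa using e.ne))
    exact (mem_cj.2 g1 : t ∈ cj g K) |> (show cj g K = K from hKn g this).le)
  obtain ⟨x, hx, x2⟩ := e.exists_sq h8 tE
  have h1 := hS.syl_of_norm_le p2 g2 fun a ha => by
    have a1 : a ∈ 𝓒₁(z) := mem_cent1_of_conj ((e.mem_iff.1 ((k _ (conj_mem_of_mem_norm (mem_norm_cent ha.2)
      (le_cent1_iff.1 s2))).resolve_right fun h => tK ((mul_mem_cancel_left (by
        rw [← x2, ← conj_mul]; exact sq _ (s2 (conj_mem_of_mem_norm ha.2 (s1 hx))))).1 (zK h)))).resolve_left (by simpa using e.ne))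
    exact ⟨a1, mem_cent1_symm.1 ((mul_mem_cancel_left (mem_cent1_symm.1 ha.1)).1 (zp_le.2 (mem_cent1_symm.1 a1) y))⟩
  have h2 := (hT'.of_card_eq le_top ((h1.card_eq (cj_cent1 g z ▸ hT.cj g)).trans (card_cj g T))).le_of_norm' e.isPi le_top
    (s2.trans l.norm)
  exact tK (zK (e.ctr ⟨tE, le_cent1_iff.1 (h2.trans (hS.le.trans inf_le_right))⟩))

end Cfsg.Agent.S3299
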