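import Cfsg.Statements.S3300
import Cfsg.Agent.Lib.Grp.H8Lge5

set_option autoImplicit false
open Cfsg

namespace Cfsg.Agent.S3300

open Subgroup CA.BG CA.H7Lge CA.H8Lge


/-- Let G be a finite group with no nontrivial 2-group quotient (O^2(G) = G), z an involution of G with H = C_G(z), and suppose E = O_2(H) is extraspecial with C_G(E) ≤ E and of order 2^(2n+1) with n ≥ 3. If H has a normal subgroup of index 2, then z is conjugate in G to an element of E other than z. -/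
theorem result {G : Type*} [Group G] [Finite G] (hres : Cfsg.pResidual 2 G = ⊤) (z : G) (hz : orderOf z = 2)
    (E : Subgroup G) (hE : E = (Cfsg.pCore 2 ↥(Subgroup.centralizer ({z} : Set G))).map (Subgroup.centralizer ({z} : Set G)).subtype)
    (hext : Cfsg.IsExtraspecial 2 ↥E) (hcent : Subgroup.centralizer (E : Set G) ≤ E) (n : ℕ) (hn : 3 ≤ n) (hcard : Nat.card ↥E = 2 ^ (2 * n + 1))
    (K : Subgroup G) (hKH : K ≤ Subgroup.centralizer ({z} : Set G))
    (hKn : ∀ h ∈ Subgroup.centralizer ({z} : Set G), K.map (MulAut.conj h).toMonoidHom = K)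
    (hKi : K.relIndex (Subgroup.centralizer ({z} : Set G)) = 2) :
    ∃ g : G, g * z * g⁻¹ ∈ E ∧ g * z * g⁻¹ ≠ z := by
  by_contra! H
  have s := sys_of hres hz hE hext hcent hKH hKi
  have hz' : z ∈ {w | ∃ g, g * z * g⁻¹ = w} := ⟨1, by simp⟩
  have nK : 𝓒₁(z) ≤ 𝓝(K) := CA.AmbTr.norm_of_relIndex_two hKH hKi
  have nE : 𝓒₁(z) ≤ 𝓝(E) := (Cfsg.Agent.S3299.setup hz hE hext hcent).2.1.norm
  have h1 := Cfsg.Agent.S3299.result hres z hz E hE hext hcent n (by omega) hcard K hKH hKn hKi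
  refine wk_false ⟨s, ?_, ?_, ?_, ?_⟩
  · rintro _ ⟨g, rfl⟩ _ ⟨h, rfl⟩ a
    rw [At_eq nE, mem_cj] at a
    have := H (g⁻¹ * h) (by simpa only [mul_inv_rev, inv_inv, mul_assoc] using a)
    conv_rhs => rw [← this]
    group
  · rintro _ ⟨g, rfl⟩
    rw [At_eq nE, At_eq nK]; exact cj_mono g h1
  · rintro _ ⟨g, rfl⟩
    rw [At_eq nE, card_cj, hcard]
    exact (by norm_num : 32 < 2 ^ 7).trans_le (Nat.pow_le_pow_right two_pos (by omega))
  · rintro _ ⟨g, rfl⟩ _ ⟨h, rfl⟩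
    rw [At_eq nE, At_eq nE, card_cj, card_cj]


end Cfsg.Agent.S3300
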