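import Cfsg.Statements.S3301
import Cfsg.Agent.Lib.Grp.H8Lge2
import Mathlib.GroupTheory.FiniteAbelian.Duality
import Mathlib.RingTheory.RootsOfUnity.AlgebraicallyClosed
import Mathlib.Analysis.Complex.Polynomial.Basic

set_option autoImplicit false
open Cfsg

namespace Cfsg.Agent.S3301

open Subgroup CA.BG CA.H7Lge CA.H8Lge
open scoped commutatorElement

theorem sq_eq_sq_units {a b : ℂˣ} (h : a ^ 2 = b ^ 2) : a = b ∨ a = -b := by
  have := congrArg Units.val h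
  simp only [Units.val_pow_eq_pow_val] at this
  exact (sq_eq_sq_iff_eq_or_eq_neg.1 this).imp Units.ext fun h => Units.ext (by simpa using h)

theorem hom4 {H : Type*} [Group H] [Finite H] (q : Abelianization H) (k : ℕ) (hk : orderOf q = 2 ^ k) (h2 : q ^ 2 ≠ 1) :
    ∃ K L : Subgroup H, K.index = 2 ∧ L.Normal ∧ (∀ x, x * x ∈ L → x ∈ K) ∧ ∀ x y : H, ⁅x, y⁆ ∈ L := by
  haveI : NeZero (Monoid.exponent (Abelianization H) : ℂ) := ⟨Nat.cast_ne_zero.2 Monoid.exponent_ne_zero_of_finite⟩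
  obtain ⟨φ, hφ⟩ := CommGroup.exists_apply_ne_one_of_hasEnoughRootsOfUnity (Abelianization H) ℂ h2
  let χ : H →* ℂˣ := φ.comp Abelianization.of
  obtain ⟨u, hu⟩ : ∃ u : H, χ u ^ 2 = -1 := by
    obtain ⟨q0, rfl⟩ : ∃ q0, Abelianization.of q0 = q := QuotientGroup.mk_surjective q
    haveI : Fact (Nat.Prime 2) := ⟨Nat.prime_two⟩
    have h1 : χ q0 ^ 2 ^ k = 1 := by
      rw [← hk]; exact (map_pow φ _ _).symm.trans (by rw [pow_orderOf_eq_one, map_one])
    obtain ⟨j, -, hj⟩ := (Nat.dvd_prime_pow Nat.prime_two).1 (orderOf_dvd_of_pow_eq_one h1)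
    have h3 : χ q0 ^ 2 ≠ 1 := fun h => hφ ((map_pow φ _ _).trans h)
    have h4 : 2 ≤ j := by
      by_contra! h
      exact h3 (orderOf_dvd_iff_pow_eq_one.1 (hj ▸ (pow_dvd_pow 2 (by omega)).trans (pow_one 2).dvd))
    obtain ⟨i, rfl⟩ := Nat.exists_eq_add_of_le' h4
    refine ⟨q0 ^ 2 ^ i, ?_⟩
    rw [map_pow, ← pow_mul, ← pow_succ]
    refine (sq_eq_sq_units (b := 1) ?_).resolve_left fun h => ?_
    · rw [← pow_mul, ← pow_succ, ← hj, pow_orderOf_eq_one, one_pow]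
    · have := Nat.le_of_dvd (by positivity) (hj ▸ orderOf_dvd_of_pow_eq_one h)
      rw [pow_succ] at this
      have : 0 < 2 ^ (i + 1) := by positivity
      omega
  let S : ℕ → Subgroup H := fun n => (χ.range.map (powMonoidHom n)).comap χ
  have mS : ∀ n x, x ∈ S n ↔ ∃ y, χ y ^ n = χ x := fun n x =>
    ⟨fun ⟨_, ⟨y, rfl⟩, h⟩ => ⟨y, h⟩, fun ⟨y, h⟩ => ⟨_, ⟨y, rfl⟩, h⟩⟩
  refine ⟨S 2, S 4, ?_, inferInstance, fun x hx => ?_, fun x y => ?_⟩
  · haveI : Finite χ.range := Finite.of_surjective _ χ.rangeRestrict_surjective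
    haveI : IsCyclic χ.range := isCyclic_of_injective_ringHom ((Units.coeHom ℂ).comp χ.range.subtype)
      (Units.val_injective.comp Subtype.val_injective)
    obtain ⟨⟨_, g, rfl⟩, hg⟩ := IsCyclic.exists_generator (α := χ.range)
    have hg' : ∀ x, ∃ n : ℤ, χ g ^ n = χ x := fun x => by
      obtain ⟨n, hn⟩ := hg ⟨_, x, rfl⟩
      exact ⟨n, congrArg Subtype.val hn⟩
    have g2 : g ∉ S 2 := fun h => by
      obtain ⟨y, hy⟩ := (mS _ _).1 h
      have sj : Function.Surjective (fun c : χ.range => c ^ 2) := by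
        rintro ⟨_, x, rfl⟩
        obtain ⟨n, hn⟩ := hg' x
        refine ⟨⟨_, y ^ n, rfl⟩, Subtype.ext ?_⟩
        change χ (y ^ n) ^ 2 = χ x
        rw [map_zpow, ← hn, ← hy, ← zpow_natCast, ← zpow_natCast, ← zpow_mul, ← zpow_mul, mul_comm]
      have := Finite.injective_iff_surjective.2 sj (a₁ := ⟨_, u ^ 2, rfl⟩) (a₂ := 1) (Subtype.ext (by
        change χ (u ^ 2) ^ 2 = 1 ^ 2
        rw [map_pow, hu]; simp))
      have e : χ (u ^ 2) = 1 := congrArg Subtype.val this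
      rw [map_pow, hu] at e
      have := congrArg Units.val e
      norm_num at this
    refine index_eq_two_iff.2 ⟨g, fun b => ?_⟩
    have ev : ∀ x, ∀ j : ℤ, χ g ^ (2 * j) = χ x → x ∈ S 2 := fun x j h => (mS _ _).2 ⟨g ^ j, by
      rw [map_zpow, ← h, ← zpow_natCast, ← zpow_mul, mul_comm]; rfl⟩
    obtain ⟨n, hn⟩ := hg' b
    obtain ⟨j, rfl | rfl⟩ := Int.even_or_odd' n
    · exact Or.inr ⟨ev b j hn, fun h => g2 ((mul_mem_cancel_left (ev b j hn)).1 h)⟩
    · have := ev (b * g) (j + 1) (by rw [map_mul, ← hn, ← zpow_add_one]; congr 1; ring)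
      exact Or.inl ⟨this, fun h => g2 ((mul_mem_cancel_left h).1 this)⟩
  · obtain ⟨y, hy⟩ := (mS _ _).1 hx
    rw [map_mul, ← pow_two, show 4 = 2 * 2 from rfl, pow_mul] at hy
    rcases sq_eq_sq_units hy with h | h
    · exact (mS _ _).2 ⟨y, h⟩
    · exact (mS _ _).2 ⟨u * y, by rw [map_mul, mul_pow, hu, h]; simp⟩
  · exact (mS _ _).2 ⟨1, by simp [commutatorElement_def]⟩


/-- Let G be a finite group with no nontrivial 2-group quotient (O^2(G) = G), z an involution of G with H = C_G(z), and suppose E = O_2(H) is extraspecial with C_G(E) ≤ E. Then the Sylow 2-subgroups of H/[H, H] are elementary abelian: every element of 2-power order of the abelianization of H has order at most 2. -/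
theorem result {G : Type*} [Group G] [Finite G] (hres : Cfsg.pResidual 2 G = ⊤) (z : G) (hz : orderOf z = 2)
    (E : Subgroup G) (hE : E = (Cfsg.pCore 2 ↥(Subgroup.centralizer ({z} : Set G))).map (Subgroup.centralizer ({z} : Set G)).subtype)
    (hext : Cfsg.IsExtraspecial 2 ↥E) (hcent : Subgroup.centralizer (E : Set G) ≤ E) :
    ∀ q : Abelianization ↥(Subgroup.centralizer ({z} : Set G)), (∃ k : ℕ, orderOf q = 2 ^ k) → q ^ 2 = 1 := by
  rintro q ⟨k, hk⟩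
  by_contra h2
  obtain ⟨K, L, h1, h3, h4, h5⟩ := hom4 q k hk h2
  have i : (K.map 𝓒₁(z).subtype).relIndex 𝓒₁(z) = 2 := by
    rw [relIndex, subgroupOf, comap_map_eq_self_of_injective (subtype_injective _)]; exact h1
  have s := sys_of hres hz hE hext hcent (map_subtype_le K) i
  have hz' : z ∈ {w | ∃ g, g * z * g⁻¹ = w} := ⟨1, by simp⟩
  have nK : 𝓒₁(z) ≤ 𝓝(K.map 𝓒₁(z).subtype) := CA.AmbTr.norm_of_relIndex_two (map_subtype_le K) i
  have nL : 𝓒₁(z) ≤ 𝓝(L.map 𝓒₁(z).subtype) := CA.Amb.norm_map_subtype L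
  refine four_false s (L := At z (L.map 𝓒₁(z).subtype)) ⟨At_cj z _, ?_, ?_⟩
  · rintro _ ⟨g, rfl⟩ x hx
    rw [← cj_cent1, mem_cj'] at hx
    obtain ⟨x, hx, rfl⟩ := hx
    rw [At_eq nL, At_eq nK, conj_mul, conj_mem_cj, conj_mem_cj]
    rintro ⟨y, hy, e⟩
    exact ⟨⟨x, hx⟩, h4 _ ((Subtype.ext e : y = ⟨x, hx⟩ * ⟨x, hx⟩) ▸ hy), rfl⟩
  · rintro _ ⟨g, rfl⟩ x hx y hy
    rw [← cj_cent1, mem_cj'] at hx hy
    obtain ⟨x, hx, rfl⟩ := hx
    obtain ⟨y, hy, rfl⟩ := hy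
    rw [At_eq nL, ← conjugate_commutatorElement, conj_mem_cj]
    exact ⟨_, h5 ⟨x, hx⟩ ⟨y, hy⟩, rfl⟩


end Cfsg.Agent.S3301
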