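import Cfsg.Statements.S3304
import Cfsg.Agent.Lib.Grp.H13G48
import Cfsg.Agent.Lib.Loc.H6PSolv

set_option autoImplicit false
open Cfsg

namespace Cfsg.Agent.S3304

open Subgroup CA.SylIn CA.Two CA.H13QBig

theorem uniq {G : Type*} [Group G] [Finite G]
    (hI : ∀ S T : Sylow 2 G, S ≠ T → Cfsg.PRankLE 2 1 ↥((S : Subgroup G) ⊓ (T : Subgroup G)))
    (hN : ¬ ∃ P : Sylow 2 (G ⧸ Cfsg.oddCore G), (P : Subgroup (G ⧸ Cfsg.oddCore G)).Normal) :
    Uniq (pCore 2 (G ⧸ Cfsg.oddCore G)) := by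
  let π := QuotientGroup.mk' (Cfsg.oddCore G)
  have fs : Function.Surjective π := QuotientGroup.mk'_surjective _
  obtain ⟨S⟩ := Sylow.nonempty (p := 2) (G := G)
  have hD : pCore 2 (G ⧸ Cfsg.oddCore G) ≤ (S : Subgroup G).map π := CA.Fitting.pCore_le_sylow (S.mapSurjective fs)
  let K : Subgroup G := (pCore 2 (G ⧸ Cfsg.oddCore G)).comap π
  obtain ⟨g', hg⟩ : ∃ g', g' ∉ normalizer (((S : Subgroup G).map π : Subgroup _) : Set (G ⧸ Cfsg.oddCore G)) := by
    by_contra h
    push Not at h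
    exact hN ⟨S.mapSurjective fs, normalizer_eq_top_iff.1 (eq_top_iff.2 fun x _ => h x)⟩
  obtain ⟨g, rfl⟩ := fs g'
  obtain ⟨k, hk, n, hn, rfl⟩ := (isSylowIn_inf_normal S K).frattini
    (g := g) (by rw [normalizer_eq_top]; trivial)
  have hne : S ≠ n • S := fun e => hg (by
    rw [map_mul]
    refine mul_mem (le_normalizer (hD hk)) ?_
    exact le_normalizer_map π ⟨n, Sylow.smul_eq_iff_mem_normalizer.1 e.symm, rfl⟩)
  have hle : (S : Subgroup G) ⊓ K ≤ (S : Subgroup G) ⊓ (n • S : Sylow 2 G) := le_inf inf_le_left (by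
    rw [coe_smul_sylow, ← conj_eq_of_mem_normalizer hn]
    exact conj_mono n inf_le_left)
  have triv : ∀ x ∈ (S : Subgroup G), π x = 1 → x = 1 := fun x hx e => by
    have h1 : x ∈ Cfsg.oddCore G := (QuotientGroup.eq_one_iff x).1 e
    have h2 := orderOf_dvd_natCard (⟨x, h1⟩ : Cfsg.oddCore G)
    obtain ⟨j, hj⟩ := S.isPGroup' ⟨x, hx⟩
    have h3 : orderOf x ∣ 2 ^ j := orderOf_dvd_of_pow_eq_one (congrArg Subtype.val hj)
    rw [orderOf_mk] at h2
    exact orderOf_eq_one_iff.1 (Nat.eq_one_of_dvd_coprimes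
      ((CA.Core.coprime_pPrimeCore (p := 2) (G := G)).pow_right j) h2 h3)
  rintro ⟨a', ha'⟩ ⟨b', hb'⟩ ha hb hab
  obtain ⟨a, aS, rfl⟩ := hD ha'
  obtain ⟨b, bS, rfl⟩ := hD hb'
  rw [orderOf_mk] at ha hb
  have hab' : π a * π b = π b * π a := congrArg Subtype.val hab.eq
  have o2 : ∀ x ∈ (S : Subgroup G), orderOf (π x) = 2 → orderOf x = 2 := fun x hx e =>
    orderOf_eq_prime (triv _ (pow_mem hx 2) (by
      rw [map_pow]; exact orderOf_dvd_iff_pow_eq_one.1 e.dvd)) fun e' => by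
      rw [e', map_one, orderOf_one] at e; norm_num at e
  have hc : Commute a b := by
    have := triv (a * b * (b * a)⁻¹) (mul_mem (mul_mem aS bS) (inv_mem (mul_mem bS aS)))
      (by rw [map_mul, map_inv, map_mul, map_mul, hab', mul_inv_cancel])
    exact mul_inv_eq_one.1 this
  by_contra hne'
  have hne'' : a ≠ b := fun e => hne' (by subst e; rfl)
  let a1 : ↥((S : Subgroup G) ⊓ (n • S : Sylow 2 G)) := ⟨a, hle ⟨aS, ha'⟩⟩
  let b1 : ↥((S : Subgroup G) ⊓ (n • S : Sylow 2 G)) := ⟨b, hle ⟨bS, hb'⟩⟩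
  have hk4 := isKleinFour_sup (a := a1) (b := b1) (by rw [orderOf_mk]; exact o2 a aS ha)
    (by rw [orderOf_mk]; exact o2 b bS hb) (Subtype.ext hc.eq) fun e => hne'' (congrArg Subtype.val e)
  have := hI S _ hne _ (klein_comm hk4) fun x hx => klein_sq hk4 hx
  rw [klein_card hk4] at this
  norm_num at this

/-- Let G be a finite solvable group in which the intersection of any two distinct Sylow 2-subgroups has 2-rank at most 1 (contains no Klein four-group). Write Q = G/O(G), O(G) the largest normal subgroup of odd order. Then Q has a normal Sylow 2-subgroup; or Q is isomorphic to GL(2,3); or Q has order 48, centre of order 2 with central quotient isomorphic to the symmetric group of degree 4, and generalized quaternion Sylow 2-subgroups of order 16 (the binary octahedral group). The last two are the two representation groups of the symmetric group of degree 4. -/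
theorem result {G : Type*} [Group G] [Finite G] (hs : Group.IsSolvable G)
    (hI : ∀ S T : Sylow 2 G, S ≠ T → Cfsg.PRankLE 2 1 ↥((S : Subgroup G) ⊓ (T : Subgroup G))) :
    (∃ P : Sylow 2 (G ⧸ Cfsg.oddCore G), (P : Subgroup (G ⧸ Cfsg.oddCore G)).Normal) ∨
    Nonempty ((G ⧸ Cfsg.oddCore G) ≃* GL (Fin 2) (ZMod 3)) ∨
    (Nat.card (G ⧸ Cfsg.oddCore G) = 48 ∧ Nat.card ↥(Subgroup.center (G ⧸ Cfsg.oddCore G)) = 2 ∧
      Nonempty ((G ⧸ Cfsg.oddCore G) ⧸ Subgroup.center (G ⧸ Cfsg.oddCore G) ≃* Equiv.Perm (Fin 4)) ∧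
      ∀ P : Sylow 2 (G ⧸ Cfsg.oddCore G), Nonempty (↥(P : Subgroup (G ⧸ Cfsg.oddCore G)) ≃* QuaternionGroup 4)) := by
  by_cases hN : ∃ P : Sylow 2 (G ⧸ Cfsg.oddCore G), (P : Subgroup (G ⧸ Cfsg.oddCore G)).Normal
  · exact Or.inl hN
  exact CA.H13G48.main (CA.H6PSolv.centralizer_pCore_le CA.Core.pPrimeCore_quotient_pPrimeCore
    (CA.H6PSolv.isPSolvable_of_isSolvable inferInstance)) (uniq hI hN)

end Cfsg.Agent.S3304
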