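import Cfsg.Statements.S3305
import Cfsg.Agent.Lib.GW.GW1

set_option autoImplicit false
open Cfsg

namespace Cfsg.Agent.S3305

open Subgroup CA.BG CA.GW

/-- If any two distinct Sylow 2-subgroups of the finite group G intersect in a cyclic group, then the same holds in every quotient group G/H, H a normal subgroup of G. -/
theorem result {G : Type*} [Group G] [Finite G]
    (hC : ∀ S T : Sylow 2 G, S ≠ T → IsCyclic ↥((S : Subgroup G) ⊓ (T : Subgroup G))) (H : Subgroup G) [H.Normal] :
    ∀ S T : Sylow 2 (G ⧸ H), S ≠ T → IsCyclic ↥((S : Subgroup (G ⧸ H)) ⊓ (T : Subgroup (G ⧸ H))) := by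
  have p2 := Nat.prime_two
  let f := QuotientGroup.mk' H
  have fs : Function.Surjective f := QuotientGroup.mk'_surjective H
  have k : ∀ {X : Subgroup (G ⧸ H)} {R : Subgroup G}, IsPi {2} X → Syl 2 R (X.comap f) → R.map f = X := fun {X R} hX hR => by
    have := hR.sup_of_idx (K := (⊥ : Subgroup (G ⧸ H)).comap f) (comap_mono bot_le) (by
      rw [relIndex_comap, map_comap_eq_self_of_surjective fs, relIndex_bot_left]; exact hX.nat)
    rw [← map_comap_eq_self_of_surjective fs X, ← this, Subgroup.map_sup, map_comap_eq_self_of_surjective fs, sup_bot_eq]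
  have k2 : ∀ (S : Sylow 2 (G ⧸ H)) {R : Subgroup G}, IsPi {2} R → R ≤ comap f S → ∃ P : Sylow 2 G, R ≤ P ∧ map f P = S :=
    fun S R h1 h2 => by
    obtain ⟨P, hP, e⟩ := syl_superset p2 h1 h2
    obtain ⟨P, rfl⟩ := (hP.of_idx le_top (by
      have := (syl_top p2 S).idx
      rwa [relIndex_top_right, ← index_comap_of_surjective _ fs, ← relIndex_top_right] at this)).exists_sylow_top p2
    exact ⟨P, e, k (syl_top p2 S).pi hP⟩
  intro S T h
  obtain ⟨R, hR⟩ := syl_exists p2 (comap f (S ⊓ T : Subgroup (G ⧸ H)))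
  obtain ⟨P, p1, e1⟩ := k2 S hR.pi (hR.le.trans (comap_mono inf_le_left))
  obtain ⟨Q, q1, e2⟩ := k2 T hR.pi (hR.le.trans (comap_mono inf_le_right))
  haveI := cyc_of_le (hC P Q fun e => h (Sylow.ext (by rw [← e1, ← e2, e]))) (le_inf p1 q1)
  rw [← k ((syl_top p2 S).pi.inf_left _) hR]
  exact isCyclic_of_surjective _ (f.subgroupMap_surjective R)

end Cfsg.Agent.S3305
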