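import Cfsg.Statements.S3315
import Cfsg.Agent.Lib.Grp.AutSp2b

set_option autoImplicit false
open Cfsg

namespace Cfsg.Agent.S3315

open CA.AutSp2

/-- Let S be a Sylow 2-subgroup of SU₃(2ⁿ), n ≥ 2 (realised over the field with 4ⁿ elements). If a finite 2-group R contains a subgroup S' of index 2 isomorphic to S, then the centre of S' is contained in the centre of R. -/
theorem result {R : Type*} [Group R] [Finite R]
    (hR : IsPGroup 2 R) (n : ℕ) (hn : 2 ≤ n) {F : Type*} [Field F] [Fintype F] (hF : Fintype.card F = 4 ^ n)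
    (P : Sylow 2 ↥(Cfsg.SU 3 F (2 ^ n))) (S' : Subgroup R) (hS : Nonempty (↥S' ≃* ↥(P : Subgroup ↥(Cfsg.SU 3 F (2 ^ n)))))
    (hidx : S'.index = 2) :
    (Subgroup.center ↥S').map S'.subtype ≤ Subgroup.center R := by
  have : Fact (Nat.Prime 2) := ⟨Nat.prime_two⟩
  have h1 : Fintype.card F = (2 ^ n) ^ 2 := by rw [hF, ← pow_mul, pow_mul']; rfl
  have h2 : Fintype.card F = 2 ^ (2 * n) := by rw [hF, pow_mul]; rfl
  have : CharP F 2 := charP_of_card_eq_prime_pow h2
  obtain ⟨e⟩ := hS
  obtain ⟨e'⟩ := sylow_SU h1 P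
  have := Subgroup.normal_of_index_eq_two hidx
  rintro _ ⟨z, hz, rfl⟩
  refine Subgroup.mem_center_iff.2 fun r => ?_
  let f := e.trans e'
  have h3 := inv_fix (f.symm.trans ((MulAut.conjNormal r).trans f)) (fun x => by
    have : MulAut.conjNormal r (MulAut.conjNormal r (f.symm x)) =
        ⟨r * r, Subgroup.mul_self_mem_of_index_two hidx r⟩ * f.symm x * ⟨r * r, Subgroup.mul_self_mem_of_index_two hidx r⟩⁻¹ :=
      Subtype.ext (by simp [mul_assoc])
    simp only [MulEquiv.trans_apply, MulEquiv.symm_apply_apply, this, map_mul, map_inv, CA.SU3.mul_a, CA.SU3.inv_a,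
      MulEquiv.apply_symm_apply]
    ring) ((MulEquivClass.apply_mem_center_iff f).2 hz)
  simp only [MulEquiv.trans_apply, MulEquiv.symm_apply_apply, EmbeddingLike.apply_eq_iff_eq] at h3
  exact mul_inv_eq_iff_eq_mul.1 (congrArg Subtype.val h3)

end Cfsg.Agent.S3315
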