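import Cfsg.Statements.S3332
import Cfsg.Agent.Lib.Loc.AmbChar
import Cfsg.Agent.Lib.Loc.Dich
import Cfsg.Agent.S1221
import Cfsg.Agent.S0502
import Cfsg.Agent.Lib.Grp.Fus3

set_option autoImplicit false
open Cfsg

namespace Cfsg.Agent.S3332

open Subgroup CA CA.Amb CA.AmbSyl CA.AmbCore CA.AmbRes CA.AmbChar CA.AmbFs CA.AmbSpe CA.Dich in
/-- Let G be a finite group of 2-rank at least 4 with O_{2'}(G) = 1 whose Sylow 2-subgroup S has a normal abelian subgroup of rank at least 3 that is its own centralizer in S. If the centralizer of every involution of G is solvable, then O_{2'}(C_G(t)) = 1 for every involution t of G. -/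
theorem result {G : Type*} [Group G] [Finite G]
    (hrank : ¬ Cfsg.PRankLE 2 3 G) (hO : Cfsg.oddCore G = ⊥) (S : Sylow 2 G)
    (A : Subgroup G) (hAS : A ≤ S) (hAn : (A.subgroupOf S).Normal) (hAc : IsMulCommutative A)
    (hAself : (S : Subgroup G) ⊓ Subgroup.centralizer (A : Set G) = A) (hA3 : ¬ Cfsg.PRankLE 2 2 A)
    (hsol : ∀ t : G, orderOf t = 2 → Group.IsSolvable (Subgroup.centralizer ({t} : Set G))) :
    ∀ t : G, orderOf t = 2 → Cfsg.oddCore (Subgroup.centralizer ({t} : Set G)) = ⊥ := by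
  have s : Dich.Con G := fun t ht => PComp.pLayer_eq_bot_of_isSolvable (hsol t ht)
  have a : A.subgroupOf S ≤ 𝐂 (A.subgroupOf S) := fun x hx y hy =>
    Subtype.ext (congrArg (Subtype.val : A → G) (hAc.1.1 ⟨y, hy⟩ ⟨x, hx⟩))
  have n : (H13Con.om _ a).Normal := normal_iff_top_le.2 (norm_of_normal.trans (H13Con.norm_om a))
  have e := H13Con.om_ea a
  have c := H13Con.eight_le_om a fun h => hA3 (Fus3.prankLE_of_injective h
    (subgroupOfEquivOfLe hAS).symm.toMonoidHom (subgroupOfEquivOfLe hAS).symm.injective)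
  have h3 : ¬ PRankLE 2 2 G := fun h => hrank fun B h1 h2 => (h B h1 h2).trans (by norm_num)
  intro t ht
  refine (map_eq_bot_iff_of_injective _ (centralizer {t}).subtype_injective).1 (by_contra fun n => ?_)
  obtain ⟨M, h1, h2⟩ := s.main hO (eight_of_conn S (Cfsg.Agent.S0502.result S.2 _ e.1 e.2 c) h3) ht n
  exact h2 (le_bot_iff.1 ((Cfsg.Agent.S1221.result M h1).trans hO.le))

end Cfsg.Agent.S3332
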