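import Cfsg.Statements.S3366
import Cfsg.Agent.Lib.Loc.H6Heis
import Cfsg.Agent.Lib.Lin.FieldIso
import Cfsg.Agent.Lib.Grp.Core
import Cfsg.Agent.S0775
import Cfsg.Agent.S0245
import Cfsg.Agent.S0246

set_option autoImplicit false
open Cfsg

set_option linter.unusedVariables false
set_option linter.unusedSimpArgs false
set_option linter.style.haveILetI false

namespace Cfsg.Agent.S3366

open Subgroup CA.PGClassTwo CA.SL23 CA.H6Heis
open scoped commutatorElement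

abbrev SL3 := Matrix.SpecialLinearGroup (Fin 2) (ZMod 3)

def n0 : SL3 := ⟨!![2, 0; 0, 2], by decide⟩

theorem n0_sq : n0 * n0 = 1 := by decide
theorem n0_ne : n0 ≠ 1 := by decide
theorem n0_comm : ∀ g : SL3, g * n0 = n0 * g := by decide +kernel
theorem ex_m : ∀ T : SL3, T ≠ 1 → T * T * T = 1 → ∃ m : SL3, m * m = n0 ∧
    m * (T * m * T * T) * m = T * m * T * T ∧ T * (T * m * T * T) = m * (T * m * T * T) * T := by
  decide +kernel

section abstract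
variable {X : Type*} [Group X]

theorem eq_one_of_sq {x : X} (h3 : x ^ 3 = 1) (h2 : x * x = 1) : x = 1 := by
  rwa [pow_three', h2, one_mul] at h3

theorem cen_of (π : X →* SL3) (hs : Function.Surjective π) (Z : Subgroup X) (hZ : Nat.card Z = 3)
    (hn : Z.Normal) (hk : ∀ x, π x = 1 → ∀ ζ ∈ Z, Commute x ζ) : ∀ ζ ∈ Z, ∀ g, Commute g ζ := by
  intro ζ hζ g
  by_cases h1 : ζ = 1
  · rw [h1]; exact Commute.one_right _
  have : Fact (Nat.Prime 3) := ⟨by norm_num⟩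
  have h3 : ζ ^ 3 = 1 := by
    have := congrArg Subtype.val (pow_card_eq_one' (x := (⟨_, hζ⟩ : Z)))
    rwa [hZ] at this
  have sq : ∀ g : X, g * g ∈ centralizer {ζ} := fun g => by
    obtain ⟨i, hi⟩ := mem_zpowers_of_prime_card hZ (g := (⟨ζ, hζ⟩ : Z)) (g' := ⟨_, hn.conj_mem ζ hζ g⟩)
      (fun e => h1 (congrArg Subtype.val e))
    have e : ζ ^ i = g * ζ * g⁻¹ := congrArg Subtype.val hi
    have hi3 : ¬ 3 ∣ i := fun hd => h1 (by
      rw [zpow_of_dvd h3 hd] at e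
      exact conj_eq_one_iff.1 e.symm)
    rw [mem_centralizer_singleton_iff, ← mul_inv_eq_iff_eq_mul,
      show g * g * ζ * (g * g)⁻¹ = g * (g * ζ * g⁻¹) * g⁻¹ by group, ← e, ← conj_zpow, ← e, ← zpow_mul,
      zpow_congr h3 (j := 1), zpow_one]
    obtain ⟨m, rfl | rfl⟩ : ∃ m, i = 3 * m + 1 ∨ i = 3 * m + 2 := ⟨i / 3, by omega⟩
    · exact ⟨3 * m * m + 2 * m, by ring⟩
    · exact ⟨3 * m * m + 4 * m + 1, by ring⟩
  let D := (centralizer {ζ}).map π
  have sq' : ∀ s : SL3, s * s ∈ D := fun s => by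
    obtain ⟨g, rfl⟩ := hs s
    exact ⟨_, sq g, map_mul ..⟩
  have cu : ∀ s : SL3, s ^ 3 = 1 → s ∈ D := fun s h => by
    have := sq' (s * s)
    rwa [← mul_assoc, ← pow_three', h, one_mul] at this
  obtain ⟨c, w, t, hr, ht, hg⟩ := exists_rel_sl
  have htD := cu t ht
  have hcD : c ∈ D := by
    have := D.mul_mem htD (D.inv_mem (cu (w * t * w⁻¹) (by rw [conj_pow, ht]; group)))
    rwa [show t * (w * t * w⁻¹)⁻¹ = t * w * t⁻¹ * w⁻¹ by group, hr.tw, mul_inv_cancel_right] at this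
  have hwD : w ∈ D := hr.tc ▸ D.mul_mem (D.mul_mem htD hcD) (D.inv_mem htD)
  have : zpowers c ⊔ zpowers w ⊔ zpowers t ≤ D := by
    simp only [sup_le_iff, zpowers_le]; exact ⟨⟨hcD, hwD⟩, htD⟩
  obtain ⟨x, hx, e⟩ := this (hg ▸ mem_top (π g))
  have h2 := hk (g * x⁻¹) (by simp [e]) ζ hζ
  have h4 : Commute x ζ := mem_centralizer_singleton_iff.1 hx
  simpa using h2.mul_left h4

structure Ctx (R Z : Subgroup X) (π : X →* SL3) : Prop where
  ker : ∀ x, π x = 1 ↔ x ∈ R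
  surj : Function.Surjective π
  card : Nat.card R = 27
  exp : ∀ r ∈ R, r ^ 3 = 1
  le : Z ≤ R
  cardZ : Nat.card Z = 3
  memZ : ∀ r ∈ R, (∀ s ∈ R, Commute r s) → r ∈ Z
  cen : ∀ ζ ∈ Z, ∀ g, Commute g ζ
  comm : ∀ r ∈ R, ∀ s ∈ R, ⁅r, s⁆ ∈ Z
  o2 : ∀ u : X, u * u = 1 → (∀ g, Commute g u) → u = 1

namespace Ctx
variable {R Z : Subgroup X} {π : X →* SL3} (h : Ctx R Z π)
include h

theorem conj {r : X} (hr : r ∈ R) (g : X) : g * r * g⁻¹ ∈ R :=
  (h.ker _).1 (by simp [(h.ker r).2 hr])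

theorem hz {a b : X} (ha : a ∈ R) (hb : b ∈ R) : Hz a b :=
  ⟨h.exp a ha, h.exp b hb, h.cen _ (h.comm a ha b hb) a, h.cen _ (h.comm a ha b hb) b⟩

theorem nfR [Finite X] {a b : X} (ha : a ∈ R) (hb : b ∈ R) (hz : ⁅a, b⁆ ≠ 1) {r : X} (hr : r ∈ R) :
    ∃ i j k, r = nf a b i j k := by
  have : (h.hz ha hb).N = R := eq_of_le_of_card_ge (by rintro _ ⟨i, j, k, rfl⟩; exact nf_mem ha hb ..)
    (by rw [h.card, (h.hz ha hb).card_N hz])
  exact (h.hz ha hb).mem_N.1 (this.ge hr)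

theorem cent [Finite X] {a r : X} (ha : a ∈ R) (haZ : a ∉ Z) (hr : r ∈ R) (c : Commute a r) :
    ∃ (i : ℤ), ∃ ζ ∈ Z, r = a ^ i * ζ := by
  obtain ⟨b, hb, hab⟩ : ∃ b ∈ R, ¬ Commute a b := by
    by_contra hc
    push Not at hc
    exact haZ (h.memZ a ha hc)
  have hz : ⁅a, b⁆ ≠ 1 := fun e => hab (commutatorElement_eq_one_iff_commute.1 e)
  obtain ⟨i, j, k, rfl⟩ := h.nfR ha hb hz hr
  have := (h.hz ha hb).comm hz (i := 1) (j := 0) (k := 0) (i' := i) (j' := j) (k' := k) (by simpa [nf] using c)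
  refine ⟨i, _, Z.zpow_mem (h.comm a ha b hb) k, ?_⟩
  rw [nf, zpow_of_dvd (h.exp b hb) (by simpa using this), mul_one]

theorem sqZ {x : X} (hx : x ∈ R) (h2 : x * x ∈ Z) : x ∈ Z := by
  have := Z.mul_mem h2 h2
  rwa [← mul_assoc, ← pow_three', h.exp x hx, one_mul] at this

section u
variable {u : X} (hu : u * u = 1) (hπ : π u = n0)
include hu hπ

theorem conj_u (g : X) : ∃ r ∈ R, g * u * g⁻¹ = u * r ∧ u * r * u⁻¹ = r⁻¹ := by
  have hu' : u⁻¹ = u := inv_eq_of_mul_eq_one_right hu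
  refine ⟨u⁻¹ * (g * u * g⁻¹), (h.ker _).1 ?_, by group, ?_⟩
  · simp only [map_mul, map_inv, hπ, n0_comm (π g)]; group
  · calc _ = g * u * g⁻¹ * u⁻¹ := by group
      _ = g * u⁻¹ * g⁻¹ * u := by rw [hu']
      _ = _ := by group

theorem ex_inv : ∃ a ∈ R, a ∉ Z ∧ u * a * u⁻¹ = a⁻¹ := by
  by_contra hc
  push Not at hc
  have : u = 1 := h.o2 u hu fun g => by
    obtain ⟨r, hr, e, e'⟩ := h.conj_u hu hπ g
    have hrZ : r ∈ Z := by
      by_contra hn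
      exact hc r hr hn e'
    rw [(h.cen r hrZ u).eq, mul_inv_cancel_right] at e'
    have : r = 1 := eq_one_of_sq (h.exp r hr) (by nth_rewrite 2 [e']; simp)
    rw [this, mul_one, mul_inv_eq_iff_eq_mul] at e
    exact e
  exact n0_ne (by rw [← hπ, this, map_one])

theorem invZ [Finite X] {r : X} (hr : r ∈ R) : u * r * u⁻¹ * r ∈ Z := by
  obtain ⟨a, ha, haZ, ea⟩ := h.ex_inv hu hπ
  have hx := h.conj hr u
  obtain ⟨s, hs⟩ : ∃ s, s = u * r * u⁻¹ * r := ⟨_, rfl⟩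
  have hsR : s ∈ R := hs ▸ R.mul_mem hx hr
  have hζ := h.comm r hr _ hx
  obtain ⟨ζ, hζ, e⟩ : ∃ ζ ∈ Z, u * s * u⁻¹ = s * ζ := by
    refine ⟨_, hζ, ?_⟩
    rw [(h.cen _ hζ s).eq, hs, ← mul_eq_comm_mul]
    calc _ = (u * u) * r * (u * u)⁻¹ * (u * r * u⁻¹) := by group
      _ = _ := by rw [hu]; group
  have c : Commute a s := by
    have hz := h.comm a ha s hsR
    have e1 : ⁅a, s⁆ = ⁅a, s⁆⁻¹ := by
      rw [← comm_inv_left (h.cen _ hz a)]
      calc ⁅a, s⁆ = u * ⁅a, s⁆ * u⁻¹ := by rw [(h.cen _ hz u).eq]; group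
        _ = a⁻¹ * s * (ζ * a * ζ⁻¹) * s⁻¹ := by
          rw [conjugate_commutatorElement, ea, e, commutatorElement_def]; group
        _ = _ := by rw [← (h.cen _ hζ a).eq, commutatorElement_def]; group
    exact commutatorElement_eq_one_iff_commute.1
      (eq_one_of_sq (h.exp _ (h.le hz)) (by nth_rewrite 2 [e1]; exact mul_inv_cancel _))
  obtain ⟨i, ζ', hζ', e'⟩ := h.cent ha haZ hsR c
  rw [← hs, e']
  refine Z.mul_mem (h.sqZ (R.zpow_mem ha i) ?_) hζ'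
  rw [e', show u * (a ^ i * ζ') * u⁻¹ = (u * a * u⁻¹) ^ i * (u * ζ' * u⁻¹) by rw [conj_zpow]; group, ea,
    (h.cen _ hζ' u).eq] at e
  have : a ^ i * a ^ i = ζ' * (ζ' * ζ)⁻¹ := by
    calc _ = a ^ i * (a ^ i * ζ' * ζ) * (ζ' * ζ)⁻¹ := by group
      _ = _ := by rw [← e]; group
  exact this ▸ Z.mul_mem hζ' (Z.inv_mem (Z.mul_mem hζ' hζ))

theorem cenZ [Finite X] {r : X} (hr : r ∈ R) (c : Commute u r) : r ∈ Z := by
  have := h.invZ hu hπ hr
  rw [c.eq, mul_inv_cancel_right] at this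
  exact h.sqZ hr this

theorem fix [Finite X] {r : X} (hr : r ∈ R) : ∃ ζ ∈ Z, u * (r * ζ) * u⁻¹ = (r * ζ)⁻¹ := by
  have hζ := h.invZ hu hπ hr
  obtain ⟨ζ, e⟩ : ∃ ζ, ζ = u * r * u⁻¹ * r := ⟨_, rfl⟩
  rw [← e] at hζ
  refine ⟨ζ, hζ, ?_⟩
  have h3 := h.exp ζ (h.le hζ)
  calc u * (r * ζ) * u⁻¹ = (u * r * u⁻¹ * r) * r⁻¹ * (u * ζ * u⁻¹) := by group
    _ = ζ * (r⁻¹ * ζ) := by rw [← e, (h.cen _ hζ u).eq]; group
    _ = ζ ^ 3 * (r * ζ)⁻¹ := by rw [(h.cen _ hζ r⁻¹).eq, pow_three']; group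
    _ = _ := by rw [h3, one_mul]

omit hu hπ in
theorem uniq {r ζ : X} (hζ : ζ ∈ Z) (e : u * r * u⁻¹ = r⁻¹) (e' : u * (r * ζ) * u⁻¹ = (r * ζ)⁻¹) : ζ = 1 := by
  rw [show u * (r * ζ) * u⁻¹ = u * r * u⁻¹ * (u * ζ * u⁻¹) by group, e, (h.cen _ hζ u).eq, (h.cen _ hζ r).eq,
    mul_inv_cancel_right, mul_inv_rev, mul_right_inj] at e'
  exact eq_one_of_sq (h.exp _ (h.le hζ)) (by nth_rewrite 2 [e']; simp)

theorem dec (g : X) : ∃ r ∈ R, ∃ t, Commute u t ∧ g = r * t := by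
  obtain ⟨r, hr, e, e'⟩ := h.conj_u hu hπ g
  refine ⟨(r * r)⁻¹, R.inv_mem (R.mul_mem hr hr), r * r * g, ?_, by group⟩
  have h3 := h.exp r hr
  have hu' : u⁻¹ = u := inv_eq_of_mul_eq_one_right hu
  have e2 : r * u = u * r⁻¹ := by
    rw [← e', ← mul_assoc, ← mul_assoc, hu, hu', one_mul]
  symm
  calc r * r * g * u = r * (r * (g * u * g⁻¹)) * g := by group
    _ = r * (r * u) * r * g := by rw [e]; group
    _ = (r * u) * g := by nth_rewrite 1 [e2]; group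
    _ = u * (r ^ 3)⁻¹ * (r * r * g) := by rw [e2, pow_three']; group
    _ = _ := by rw [h3]; group

theorem lift_eq [Finite X] {x y : X} (cx : Commute u x) (cy : Commute u y) (e : π x = π y) (hx : x ^ 4 = 1)
    (hy : y ^ 4 = 1) : x = y := by
  have hζ : y⁻¹ * x ∈ Z := h.cenZ hu hπ ((h.ker _).1 (by simp [e])) (cy.inv_right.mul_right cx)
  have := (h.cen _ hζ y).mul_pow 4
  rw [mul_inv_cancel_left, hx, hy, one_mul, pow_succ, h.exp _ (h.le hζ), one_mul] at this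
  exact (inv_mul_eq_one.1 this.symm).symm

end u

theorem ex_u : ∃ u : X, u * u = 1 ∧ π u = n0 := by
  obtain ⟨x, hx⟩ := h.surj n0
  refine ⟨x ^ 3, ?_, ?_⟩
  · rw [← h.exp (x * x) ((h.ker _).1 (by rw [map_mul, hx, n0_sq])), (Commute.refl x).mul_pow]
  · rw [map_pow, hx, pow_three', n0_sq, one_mul]

theorem ex_E [Finite X] {E : Subgroup X} (hE : Nat.card E = 27) (c : ∀ x ∈ E, ∀ y ∈ E, Commute x y) :
    ∃ a ∈ E, a ∈ R ∧ a ∉ Z ∧ ∃ t ∈ E, t ∉ R := by
  have h1 : ∃ t ∈ E, t ∉ R := by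
    by_contra hc
    push Not at hc
    have e : E = R := eq_of_le_of_card_ge hc (by rw [hE, h.card])
    have := card_le_of_le (show R ≤ Z from fun r hr => h.memZ r hr (c r (e ▸ hr) · <| e ▸ ·))
    rw [h.card, h.cardZ] at this
    omega
  by_contra hc
  have h2 : ∀ a ∈ E, a ∈ R → a ∈ Z := fun a ha ha' => by
    by_contra hn
    exact hc ⟨a, ha, ha', hn, h1⟩
  let f := π.comp E.subtype
  have e1 : Nat.card f.ker * Nat.card f.range = 27 := by
    rw [← hE, ← f.ker.card_mul_index, index_ker]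
  have e2 : Nat.card f.range ∣ 24 := card_sl ▸ card_subgroup_dvd_card _
  have e3 : Nat.card f.ker ≤ 3 := by
    refine le_trans ?_ h.cardZ.le
    rw [← card_map_of_injective E.subtype_injective]
    refine card_le_of_le ?_
    rintro _ ⟨x, hx, rfl⟩
    exact h2 _ x.2 ((h.ker _).1 hx)
  have e4 : Nat.card f.range ∣ 3 := by
    simpa using Nat.dvd_gcd e2 (Dvd.intro_left _ e1)
  have := Nat.le_of_dvd (by omega) e4
  nlinarith

theorem ex_rl [Finite X] {E : Subgroup X} (hE : Nat.card E = 27) (cE : ∀ x ∈ E, ∀ y ∈ E, Commute x y)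
    (h3 : ∀ x ∈ E, x ^ 3 = 1) : ∃ a b c t : X, Rl a b c t ∧ ⁅a, b⁆ ≠ 1 := by
  obtain ⟨u, hu, hπ⟩ := h.ex_u
  obtain ⟨a₁, ha₁E, ha₁, ha₁Z, t₁, ht₁E, ht₁⟩ := h.ex_E hE cE
  obtain ⟨ζ, hζ, ea⟩ := h.fix hu hπ ha₁
  obtain ⟨a, haa⟩ : ∃ a, a = a₁ * ζ := ⟨_, rfl⟩
  rw [← haa] at ea
  have ha : a ∈ R := haa ▸ R.mul_mem ha₁ (h.le hζ)
  have haZ : a ∉ Z := fun hn => ha₁Z (by simpa [haa] using Z.mul_mem hn (Z.inv_mem hζ))
  have ct : Commute t₁ a := haa ▸ (cE _ ht₁E _ ha₁E).mul_right (h.cen _ hζ _)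
  obtain ⟨r, hr, t, cut, rfl⟩ := h.dec hu hπ t₁
  have hinv : ∀ g x : X, Commute u g → u * x * u⁻¹ = x⁻¹ → u * (g * x * g⁻¹) * u⁻¹ = (g * x * g⁻¹)⁻¹ :=
    fun g x c e => by
      calc _ = (u * g) * x * (u * g)⁻¹ := by group
        _ = g * (u * x * u⁻¹) * g⁻¹ := by rw [c.eq]; group
        _ = _ := by rw [e]; group
  have e1 : t * a * t⁻¹ = a * ⁅a⁻¹, r⁻¹⁆ := by
    calc _ = r⁻¹ * (r * t * a) * t⁻¹ := by group
      _ = _ := by rw [ct.eq, commutatorElement_def]; group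
  have e2 : ⁅a⁻¹, r⁻¹⁆ = 1 := h.uniq (h.comm _ (R.inv_mem ha) _ (R.inv_mem hr)) ea (e1 ▸ hinv t a cut ea)
  rw [e2, mul_one] at e1
  have car : Commute a r := by simpa using (commutatorElement_eq_one_iff_commute.1 e2).inv_inv
  have cta : Commute t a := mul_inv_eq_iff_eq_mul.1 e1
  obtain ⟨i, ζ', hζ', er⟩ := h.cent ha haZ hr car
  have ctr : Commute r t := (er ▸ (cta.zpow_right i).mul_right (h.cen _ hζ' t)).symm
  have t3 : t ^ 3 = 1 := by
    have := h3 _ ht₁E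
    rwa [ctr.mul_pow, h.exp r hr, one_mul] at this
  have hT : π t ≠ 1 := fun e => ht₁ (R.mul_mem hr ((h.ker _).1 e))
  have hT3 : π t * π t * π t = 1 := by rw [← pow_three', ← map_pow, t3, map_one]
  obtain ⟨m, m2, m3, m4⟩ := ex_m _ hT hT3
  obtain ⟨x, rfl⟩ := h.surj m
  obtain ⟨r', hr', c₁, cc₁, rfl⟩ := h.dec hu hπ x
  rw [map_mul, (h.ker _).2 hr', one_mul] at m2 m3 m4
  have hξ : u⁻¹ * (c₁ * c₁) ∈ Z := h.cenZ hu hπ ((h.ker _).1 (by simp [m2, hπ]))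
    ((Commute.refl u).inv_right.mul_right (cc₁.mul_right cc₁))
  obtain ⟨c, cc, c2, hc⟩ : ∃ c, Commute u c ∧ c * c = u ∧ π c = π c₁ := by
    obtain ⟨ξ, e⟩ : ∃ ξ, ξ = u⁻¹ * (c₁ * c₁) := ⟨_, rfl⟩
    rw [← e] at hξ
    refine ⟨c₁ * ξ, cc₁.mul_right (h.cen _ hξ u), ?_, by rw [map_mul, (h.ker _).2 (h.le hξ), mul_one]⟩
    calc _ = c₁ * (ξ * c₁) * ξ := by group
      _ = u * (u⁻¹ * (c₁ * c₁)) * ξ * ξ := by rw [← (h.cen _ hξ c₁).eq]; group
      _ = u * ξ ^ 3 := by rw [← e, pow_three']; group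
      _ = u := by rw [h.exp _ (h.le hξ), mul_one]
  rw [← hc] at m2 m3 m4
  have ti : (π t)⁻¹ = π t * π t := inv_eq_of_mul_eq_one_left hT3
  have c4 : c ^ 4 = 1 := by rw [← hu, ← c2]; simp only [pow_succ, pow_zero, one_mul, mul_assoc]
  have cw : Commute u (t * c * t⁻¹) := (cut.mul_right cc).mul_right cut.inv_right
  have w2 : (t * c * t⁻¹) ^ 2 = c ^ 2 := by rw [conj_pow, pow_two, c2, ← cut.eq]; group
  have wc : t * c * t⁻¹ * c * (t * c * t⁻¹)⁻¹ = c⁻¹ := by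
    refine h.lift_eq hu hπ ((cw.mul_right cc).mul_right cw.inv_right) cc.inv_right ?_
      (by rw [conj_pow, c4]; group) (by rw [inv_pow, c4, inv_one])
    rw [map_mul, map_mul, map_inv, map_inv, map_mul, map_mul, map_inv, ti, ← mul_assoc (π t * π c),
      mul_inv_eq_iff_eq_mul, eq_inv_mul_iff_mul_eq, ← mul_assoc, m3]
  have tw : t * (t * c * t⁻¹) * t⁻¹ = c * (t * c * t⁻¹) := by
    refine h.lift_eq hu hπ ((cut.mul_right cw).mul_right cut.inv_right) (cc.mul_right cw) ?_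
      (by rw [conj_pow, conj_pow, c4]; group) ?_
    · rw [map_mul, map_inv, mul_inv_eq_iff_eq_mul]
      simp only [map_mul, map_inv, ti, ← mul_assoc] at m4 ⊢
      exact m4
    · obtain ⟨w, hw⟩ : ∃ w, w = t * c * t⁻¹ := ⟨_, rfl⟩
      rw [← hw] at w2 wc ⊢
      have : (c * w) ^ 2 = c ^ 2 := by
        calc _ = c * (w * c * w⁻¹) * w ^ 2 := by simp only [pow_two]; group
          _ = _ := by rw [wc, w2]; group
      rw [show 4 = 2 * 2 by norm_num, pow_mul, this, ← pow_mul, c4]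
  have hb := h.conj ha c
  have cb : c * (c * a * c⁻¹) * c⁻¹ = a⁻¹ := by rw [← ea, ← c2]; group
  obtain ⟨b, eb⟩ : ∃ b, b = c * a * c⁻¹ := ⟨_, rfl⟩
  rw [← eb] at hb cb
  have hz : ⁅a, b⁆ ≠ 1 := fun e => by
    obtain ⟨j, η, hη, e'⟩ := h.cent ha haZ hb (commutatorElement_eq_one_iff_commute.1 e)
    have e3 : a⁻¹ = a ^ (j * j) * (η ^ j * η) := by
      rw [← cb]
      nth_rewrite 1 [e']
      rw [show c * (a ^ j * η) * c⁻¹ = (c * a * c⁻¹) ^ j * (c * η * c⁻¹) by rw [conj_zpow]; group, ← eb, e',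
        (h.cen _ hη c).eq, (h.cen _ hη _).mul_zpow, zpow_mul]
      group
    have e4 : a ^ (j * j + 1) ∈ Z := by
      have : a ^ (j * j + 1) = (η ^ j * η)⁻¹ := by
        calc _ = a * (a ^ (j * j) * (η ^ j * η)) * (η ^ j * η)⁻¹ := by group
          _ = _ := by rw [← e3]; group
      exact this ▸ Z.inv_mem (Z.mul_mem (Z.zpow_mem hη j) hη)
    obtain ⟨m, rfl | rfl | rfl⟩ : ∃ m, j = 3 * m ∨ j = 3 * m + 1 ∨ j = 3 * m + 2 := ⟨j / 3, by omega⟩
    · rw [zpow_congr (h.exp a ha) (j := 1) ⟨3 * m * m, by ring⟩, zpow_one] at e4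
      exact haZ e4
    · rw [zpow_congr (h.exp a ha) (j := 2) ⟨3 * m * m + 2 * m, by ring⟩, zpow_two] at e4
      exact haZ (h.sqZ ha e4)
    · rw [zpow_congr (h.exp a ha) (j := 2) ⟨3 * m * m + 4 * m + 1, by ring⟩, zpow_two] at e4
      exact haZ (h.sqZ ha e4)
  have H := h.hz ha hb
  refine ⟨a, b, c, t, ⟨H, eb.symm, cb, e1, ?_, t3, c4, w2, wc, rfl, tw⟩, hz⟩
  obtain ⟨i, j, k, ey⟩ := h.nfR ha hb hz (h.conj hb t)
  have hzZ := h.comm a ha b hb
  have ej : 3 ∣ j - 1 := by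
    have e3 : ⁅a, b⁆ = ⁅a, b⁆ ^ j := by
      calc ⁅a, b⁆ = t * ⁅a, b⁆ * t⁻¹ := by rw [(h.cen _ hzZ t).eq]; group
        _ = ⁅nf a b 1 0 0, nf a b i j k⁆ := by rw [conjugate_commutatorElement, e1, ey]; simp [nf]
        _ = nf a b 0 0 j := by
          rw [commutatorElement_def, H.inv, H.inv, H.mul, H.mul, H.mul]
          congr 1 <;> ring
        _ = _ := by simp [nf]
    exact dvd_of_zpow H.z3 hz (by rw [zpow_sub, ← e3, zpow_one, mul_inv_cancel])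
  rw [H.congr (i' := i) (j' := 1) (k' := k) (by simp) ej (by simp)] at ey
  have e5 : t * (t * b * t⁻¹) * t⁻¹ = c * (t * b * t⁻¹) * c⁻¹ := by
    have e6 : t⁻¹ * a * t = a := by rw [mul_assoc, ← cta.eq]; group
    calc _ = t * (t * c * t⁻¹) * t⁻¹ * (t * (t * a * t⁻¹) * t⁻¹) * (t * (t * c * t⁻¹) * t⁻¹)⁻¹ := by
          rw [eb]; group
      _ = c * t * c * (t⁻¹ * a * t) * c⁻¹ * t⁻¹ * c⁻¹ := by rw [e1, e1, tw]; group
      _ = _ := by rw [e6, eb]; group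
  have e7 : t * nf a b i 1 k * t⁻¹ = nf a b (i + i) 1 (k + k) := by
    calc _ = (t * a * t⁻¹) ^ i * (t * b * t⁻¹) * (t * ⁅a, b⁆ ^ k * t⁻¹) := by
          rw [conj_zpow, nf]; group
      _ = nf a b i 0 0 * nf a b i 1 k * nf a b 0 0 k := by
          rw [e1, ey, ((h.cen _ hzZ t).zpow_right k).eq]; simp [nf]
      _ = _ := by rw [H.mul, H.mul]; congr 1 <;> ring
  have e8 : c * nf a b i 1 k * c⁻¹ = nf a b (-1) i (k + i) := by
    calc _ = (c * a * c⁻¹) ^ i * (c * b * c⁻¹) * (c * ⁅a, b⁆ ^ k * c⁻¹) := by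
          rw [conj_zpow, nf]; group
      _ = nf a b 0 i 0 * nf a b (-1) 0 k := by
          rw [← eb, cb, ((h.cen _ hzZ c).zpow_right k).eq]; simp [nf, mul_assoc]
      _ = _ := by rw [H.mul]; congr 1 <;> ring
  rw [ey, e7, e8] at e5
  obtain ⟨d1, d2, d3⟩ := H.eq hz e5
  rw [ey, H.congr (i' := 1) (j' := 1) (k' := 1) (by omega) (by simp) (by omega)]
  simp [nf]

end Ctx

def Md (G : Type*) [Group G] : Prop :=
  Nat.card G = 25920 ∧ ∃ a b c t : G, Rl a b c t ∧ ⁅a, b⁆ ≠ 1 ∧ Nat.card (centralizer {⁅a, b⁆}) ≤ 648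

theorem Md.map {G H : Type*} [Group G] [Group H] (e : G ≃* H) (h : Md G) : Md H := by
  obtain ⟨h1, a, b, c, t, h2, h3, h4⟩ := h
  refine ⟨Nat.card_congr e.toEquiv ▸ h1, e a, e b, e c, e t, h2.map e.toMonoidHom, ?_, ?_⟩
  · rwa [← map_commutatorElement, Ne, e.map_eq_one_iff]
  · rw [← map_commutatorElement]
    refine Nat.card_congr (CA.FieldIso.subCongr e (centralizer {⁅a, b⁆}) _ fun x => ?_).toEquiv ▸ h4
    rw [mem_centralizer_singleton_iff, mem_centralizer_singleton_iff, ← map_mul, ← map_mul, e.apply_eq_iff_eq]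

theorem Md.fin {G : Type*} [Group G] (h : Md G) [Finite X] (hX : Nat.card X = 648) {a' b' c' t' : X}
    (h' : Rl a' b' c' t') (hz' : ⁅a', b'⁆ ≠ 1) :
    ∃ (c : G) (S : Sylow 3 G), orderOf c = 3 ∧ c ∈ (S : Subgroup G) ∧
      c ∈ Subgroup.centralizer ((S : Subgroup G) : Set G) ∧ Nonempty (X ≃* Subgroup.centralizer ({c} : Set G)) := by
  obtain ⟨h1, a, b, c, t, h2, h3, h4⟩ := h
  have : Finite G := Nat.finite_of_card_ne_zero (by omega)
  have : Fact (Nat.Prime 3) := ⟨by norm_num⟩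
  let C := centralizer ({⁅a, b⁆} : Set G)
  have m : ∀ x, Commute x ⁅a, b⁆ → x ∈ C := fun x hx => mem_centralizer_singleton_iff.2 hx
  have h5 : Rl (⟨a, m _ h2.hz.az⟩ : C) ⟨b, m _ h2.hz.bz⟩ ⟨c, m _ h2.cz⟩ ⟨t, m _ h2.tz⟩ :=
    Rl.of_inj C.subtype C.subtype_injective (by exact h2)
  have h6 : ⁅(⟨a, m _ h2.hz.az⟩ : C), (⟨b, m _ h2.hz.bz⟩ : C)⁆ ≠ 1 := fun e => h3 (congrArg Subtype.val e)
  have h7 : Nat.card C = 648 := h5.card_of_gen h6 (h5.gen h6 h4)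
  have ho := orderOf_eq_prime h2.hz.z3 h3
  obtain ⟨P, hP⟩ := (IsPGroup.of_card (p := 3) (n := 1) (G := zpowers (⟨⁅a, b⁆, m _ (Commute.refl _)⟩ : C))
    (by rw [Nat.card_zpowers, ← orderOf_coe]; exact ho)).exists_le_sylow
  have f1 : (648 : ℕ).factorization 3 = 4 := by
    rw [show 648 = 3 ^ 4 * 8 by norm_num, Nat.factorization_mul (by norm_num) (by norm_num),
      Nat.prime_three.factorization_pow]
    simp [Nat.factorization_eq_zero_of_not_dvd]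
  have f2 : (25920 : ℕ).factorization 3 = 4 := by
    rw [show 25920 = 3 ^ 4 * 320 by norm_num, Nat.factorization_mul (by norm_num) (by norm_num),
      Nat.prime_three.factorization_pow]
    simp [Nat.factorization_eq_zero_of_not_dvd]
  refine ⟨⁅a, b⁆, Sylow.ofCard ((P : Subgroup C).map C.subtype) ?_, ho, ⟨_, hP (mem_zpowers _), rfl⟩, ?_,
    h'.iso h5 hz' h6 hX.le h4⟩
  · rw [card_map_of_injective C.subtype_injective, P.card_eq_multiplicity, h7, h1, f1, f2]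
  · rintro _ ⟨x, -, rfl⟩
    exact mem_centralizer_singleton_iff.1 x.2

end abstract

section
open Matrix Sum

abbrev Sp := symplecticGroup (Fin 2) (ZMod 3)

def mA : Sp := ⟨fromBlocks !![1, 1; 0, 1] !![0, 0; 0, 0] !![0, 0; 0, 0] !![1, 0; 2, 1],
  SymplecticGroup.mem_iff.2 (by decide)⟩
def mB : Sp := ⟨fromBlocks !![1, 0; 0, 1] !![0, 2; 2, 0] !![0, 0; 0, 0] !![1, 0; 0, 1],
  SymplecticGroup.mem_iff.2 (by decide)⟩
def mZ : Sp := ⟨fromBlocks !![1, 0; 0, 1] !![1, 0; 0, 0] !![0, 0; 0, 0] !![1, 0; 0, 1],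
  SymplecticGroup.mem_iff.2 (by decide)⟩
def mC : Sp := ⟨fromBlocks !![1, 0; 0, 0] !![0, 0; 0, 1] !![0, 0; 0, 2] !![1, 0; 0, 0],
  SymplecticGroup.mem_iff.2 (by decide)⟩
def mT : Sp := ⟨fromBlocks !![1, 0; 0, 1] !![0, 0; 0, 0] !![0, 0; 0, 1] !![1, 0; 0, 1],
  SymplecticGroup.mem_iff.2 (by decide)⟩
def mW : Sp := ⟨fromBlocks !![1, 0; 0, 2] !![0, 0; 0, 1] !![0, 0; 0, 1] !![1, 0; 0, 1],
  SymplecticGroup.mem_iff.2 (by decide)⟩

theorem rl_sp : Rl mA mB mC mT ∧ ⁅mA, mB⁆ = mZ :=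
  Rl.of_mul (w := mW) (by decide +kernel) (by decide +kernel) (by decide +kernel) (by decide +kernel)
    (by decide +kernel) (by decide +kernel) (by decide +kernel) (by decide +kernel) (by decide +kernel)
    (by decide +kernel) (by decide +kernel) (by decide +kernel) (by decide +kernel) (by decide +kernel)
    (by decide +kernel)

theorem card_sp : Nat.card Sp = 51840 := by
  have := S0245.result (F := ZMod 3) (q := 3) (by simp) 2
  simpa [Finset.prod_range_succ] using this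

theorem card_cen : Nat.card (center Sp) = 2 := by
  have := S0246.result (F := ZMod 3) (q := 3) (by simp) 2 (by norm_num)
  simpa using this

def e0 : Fin 2 ⊕ Fin 2 → ZMod 3 := Pi.single (inl 0) 1

theorem stab {g : Sp} (h : g * mZ = mZ * g) {v : Fin 2 ⊕ Fin 2 → ZMod 3} (hv : v ∈ Submodule.span (ZMod 3) {e0}) :
    g.1 *ᵥ v ∈ Submodule.span (ZMod 3) {e0} := by
  obtain ⟨c, rfl⟩ := Submodule.mem_span_singleton.1 hv
  have k : ∀ y : Fin 2 ⊕ Fin 2 → ZMod 3, mZ.1 *ᵥ y - y = y (inr 0) • e0 := fun y => by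
    ext i
    rcases i with i | i <;> fin_cases i <;>
      simp [mZ, e0, Matrix.mulVec, dotProduct, Fintype.sum_sum_type, Fin.sum_univ_two]
  have k1 := k (Pi.single (inr 0) 1)
  rw [Pi.single_eq_same, one_smul] at k1
  rw [mulVec_smul]
  refine Submodule.smul_mem _ _ ?_
  nth_rewrite 2 [← k1]
  rw [mulVec_sub, mulVec_mulVec, show g.1 * mZ.1 = mZ.1 * g.1 from congrArg Subtype.val h, ← mulVec_mulVec, k]
  exact Submodule.smul_mem _ _ (Submodule.mem_span_singleton_self _)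

theorem md : Md (Cfsg.PSp 2 (ZMod 3)) := by
  let π := QuotientGroup.mk' (center Sp)
  have h1 : Nat.card (Cfsg.PSp 2 (ZMod 3)) = 25920 := by
    have := card_eq_card_quotient_mul_card_subgroup (center Sp)
    rw [card_sp, card_cen] at this
    change Nat.card (Sp ⧸ center Sp) = _
    omega
  have z3 : mZ ^ 3 = 1 := rl_sp.2 ▸ rl_sp.1.hz.z3
  have c2 : ∀ ζ ∈ center Sp, ζ * ζ = 1 := fun ζ hζ => by
    have := congrArg Subtype.val (pow_card_eq_one' (x := (⟨_, hζ⟩ : center Sp)))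
    rwa [card_cen, pow_two] at this
  refine ⟨h1, π mA, π mB, π mC, π mT, rl_sp.1.map π, ?_, ?_⟩
  · rw [← map_commutatorElement, rl_sp.2]
    exact fun e => absurd (eq_one_of_sq z3 (c2 _ ((QuotientGroup.eq_one_iff _).1 e))) (by decide +kernel)
  rw [← map_commutatorElement, rl_sp.2]
  have hne : e0 ≠ 0 := by decide
  have h2 := S0775.result (F := ZMod 3) (q := 3) (by simp) 2 1 (by norm_num) (Submodule.span (ZMod 3) {e0})
    (finrank_span_singleton hne) (fun u hu v hv => by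
      obtain ⟨c, rfl⟩ := Submodule.mem_span_singleton.1 hu
      obtain ⟨d, rfl⟩ := Submodule.mem_span_singleton.1 hv
      have : Cfsg.sympForm 2 (ZMod 3) e0 e0 = 0 := by decide
      simp only [Cfsg.sympForm, mulVec_smul, dotProduct_smul, smul_dotProduct] at this ⊢
      rw [this]; simp)
  have h3 : (centralizer {π mZ}).comap π ≤ Cfsg.stabilizing (Cfsg.spToMat 2 (ZMod 3))
      (Submodule.span (ZMod 3) {e0} : Submodule (ZMod 3) _) := fun g hg => by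
    have hg' := mem_centralizer_singleton_iff.1 (mem_comap.1 hg)
    have hζ : mZ⁻¹ * (g * mZ * g⁻¹) ∈ center Sp := by
      rw [← QuotientGroup.eq_one_iff]
      change π _ = 1
      simp only [map_mul, map_inv, hg']; group
    have e : mZ⁻¹ * (g * mZ * g⁻¹) = 1 := by
      refine eq_one_of_sq ?_ (c2 _ hζ)
      have c : Commute mZ (mZ⁻¹ * (g * mZ * g⁻¹)) := mem_center_iff.1 hζ mZ
      have := c.mul_pow 3
      rw [mul_inv_cancel_left, conj_pow, z3] at this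
      simpa using this.symm
    have e' : g * mZ = mZ * g := by rw [inv_mul_eq_one] at e; nth_rewrite 2 [e]; group
    intro v
    refine ⟨stab e', fun hv => ?_⟩
    have := stab (g := g⁻¹) (Commute.inv_left e') hv
    change g⁻¹.1 *ᵥ (g.1 *ᵥ v) ∈ _ at this
    rwa [mulVec_mulVec, ← Submonoid.coe_mul, inv_mul_cancel, Submonoid.coe_one, one_mulVec] at this
  have h4 : Nat.card ((centralizer {π mZ}).comap π) ≤ 1296 :=
    (card_le_of_le h3).trans (by rw [h2]; norm_num [Finset.prod_range_succ])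
  have h5 := ((centralizer {π mZ}).comap π).card_mul_index
  have h6 := (centralizer {π mZ}).card_mul_index
  rw [index_comap_of_surjective _ (QuotientGroup.mk'_surjective _), card_sp] at h5
  rw [show Nat.card (Sp ⧸ center Sp) = 25920 from h1] at h6
  have h7 : 40 ≤ (centralizer {π mZ}).index := by
    by_contra hc
    nlinarith
  by_contra hc
  nlinarith

end


/-- Let X be a finite group with O₃(X) extraspecial of order 27 and exponent 3, X/O₃(X) isomorphic to SL(2,3), O₂(X) = 1, and a Sylow 3-subgroup of X containing an elementary abelian subgroup of order 27. Then X is isomorphic to the centralizer in PSp(4,3) of a 3-central element of order 3 (an element of order 3 in the centre of a Sylow 3-subgroup). -/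
theorem result {X : Type*} [Group X] [Finite X]
    (hR : Cfsg.IsExtraspecial 3 (Cfsg.pCore 3 X)) (hRcard : Nat.card (Cfsg.pCore 3 X) = 27)
    (hRexp : ∀ r ∈ Cfsg.pCore 3 X, r ^ 3 = 1)
    (e : X ⧸ Cfsg.pCore 3 X ≃* Matrix.SpecialLinearGroup (Fin 2) (ZMod 3))
    (hO2 : Cfsg.pCore 2 X = ⊥)
    (hE : ∃ E : Subgroup X, IsMulCommutative E ∧ (∀ a ∈ E, a ^ 3 = 1) ∧ Nat.card E = 27)
    (F : Type*) [Field F] [Fintype F] (hF : Fintype.card F = 3) :
    ∃ (c : Cfsg.PSp 2 F) (S : Sylow 3 (Cfsg.PSp 2 F)), orderOf c = 3 ∧ c ∈ (S : Subgroup (Cfsg.PSp 2 F)) ∧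
      c ∈ Subgroup.centralizer ((S : Subgroup (Cfsg.PSp 2 F)) : Set (Cfsg.PSp 2 F)) ∧
      Nonempty (X ≃* Subgroup.centralizer ({c} : Set (Cfsg.PSp 2 F))) := by
  let R := Cfsg.pCore 3 X
  let π : X →* SL3 := e.toMonoidHom.comp (QuotientGroup.mk' R)
  have hs : Function.Surjective π := e.surjective.comp (QuotientGroup.mk'_surjective R)
  have hk : ∀ x, π x = 1 ↔ x ∈ R := fun x => by
    change e _ = 1 ↔ _
    rw [e.map_eq_one_iff, QuotientGroup.mk'_apply, QuotientGroup.eq_one_iff]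
  let Z := (center R).map R.subtype
  have hZ : Nat.card Z = 3 := (card_map_of_injective R.subtype_injective).trans hR.2
  have h : Ctx R Z π := by
    refine ⟨hk, hs, hRcard, hRexp, map_subtype_le _, hZ, fun r hr hc => ⟨⟨r, hr⟩, mem_center_iff.2 fun s =>
      Subtype.ext (hc s s.2).eq.symm, rfl⟩, cen_of π hs Z hZ inferInstance ?_, fun r hr s hs => ⟨⁅(⟨r, hr⟩ : R), ⟨s, hs⟩⁆,
        hR.1.2.2.le (comm_mem_commutator _ _), rfl⟩, fun u hu hc => ?_⟩
    · rintro x hx _ ⟨ζ, hζ, rfl⟩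
      exact congrArg Subtype.val (mem_center_iff.1 hζ ⟨x, (hk x).1 hx⟩)
    · have hn : (zpowers u).Normal := ⟨by
        rintro _ ⟨k, rfl⟩ g
        rw [((hc g).zpow_right k).eq, mul_inv_cancel_right]; exact zpow_mem_zpowers _ _⟩
      have hp : IsPGroup 2 (zpowers u) := by
        rintro ⟨_, k, rfl⟩
        refine ⟨1, Subtype.ext ?_⟩
        change (u ^ k) ^ (2 ^ 1) = 1
        rw [pow_one, pow_two, ← (Commute.refl u).mul_zpow, hu, one_zpow]
      have : zpowers u ≤ Cfsg.pCore 2 X := le_sSup ⟨hn, hp⟩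
      rw [hO2] at this
      exact mem_bot.1 (this (mem_zpowers u))
  obtain ⟨E, hE1, hE2, hE3⟩ := hE
  obtain ⟨a, b, c, t, h1, h2⟩ := h.ex_rl hE3 (fun x hx y hy =>
    congrArg Subtype.val (mul_comm' (⟨x, hx⟩ : E) ⟨y, hy⟩)) hE2
  have : Fact (Nat.Prime 3) := ⟨by norm_num⟩
  obtain ⟨f⟩ := CA.FieldIso.nonempty_zmod (F := F) 3 (by rw [Nat.card_eq_fintype_card, hF])
  refine (md.map (CA.FieldIso.pspEquiv f 2).symm).fin ?_ h1 h2
  rw [card_eq_card_quotient_mul_card_subgroup R, Nat.card_congr e.toEquiv, card_sl, hRcard]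

end Cfsg.Agent.S3366
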