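import Cfsg.Statements.S3377
import Mathlib
import Cfsg.Agent.Lib.Perm.SL25

set_option autoImplicit false
open Cfsg

namespace Cfsg.Agent.S3377

open CA.TriPres in
theorem aux {P : Type*} [Group P] (x y : P) (hx : x ^ 3 = 1) (hy : y ^ 5 = 1) (hxy : (x * y) ^ 2 = 1)
    (hgen : Subgroup.closure {x, y} = ⊤) (h1 : x * y ≠ 1) : Nonempty (P ≃* alternatingGroup (Fin 5)) := by
  obtain ⟨φ, hφ, e1, e2⟩ := exists_inj_A5 (x := x * y) (y := x⁻¹) hxy (by rw [inv_pow, hx, inv_one])
    (by rw [conj_pow, hy]; simp) h1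
  refine ⟨(MulEquiv.ofBijective φ ⟨hφ, ?_⟩).symm⟩
  rw [← MonoidHom.range_eq_top, eq_top_iff, ← hgen, Subgroup.closure_le]
  rintro _ (rfl | rfl)
  · exact ⟨b5⁻¹, by simp [e2]⟩
  · exact ⟨b5 * a5, by simp [e1, e2]⟩

/-- The alternating group of degree 5 has the presentation ⟨x, y | x³ = 1, y⁵ = 1, (xy)² = 1⟩: the group so presented is isomorphic to Alt(5). -/
theorem result :
    Nonempty (PresentedGroup ({FreeGroup.of (0 : Fin 2) ^ 3, FreeGroup.of (1 : Fin 2) ^ 5,
        (FreeGroup.of (0 : Fin 2) * FreeGroup.of 1) ^ 2} : Set (FreeGroup (Fin 2))) ≃* alternatingGroup (Fin 5)) := by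
  have hr : ∀ r ∈ ({FreeGroup.of (0 : Fin 2) ^ 3, FreeGroup.of (1 : Fin 2) ^ 5,
        (FreeGroup.of (0 : Fin 2) * FreeGroup.of 1) ^ 2} : Set (FreeGroup (Fin 2))),
      FreeGroup.lift ![CA.TriPres.b5⁻¹, CA.TriPres.b5 * CA.TriPres.a5] r = 1 := by
    rintro _ (rfl | rfl | rfl) <;> simp only [map_pow, map_mul, FreeGroup.lift_apply_of] <;> decide
  refine aux (PresentedGroup.of 0) (PresentedGroup.of 1)
    (PresentedGroup.one_of_mem (.inl rfl)) (PresentedGroup.one_of_mem (.inr (.inl rfl)))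
    (PresentedGroup.one_of_mem (.inr (.inr rfl))) ?_ fun e => ?_
  · rw [← PresentedGroup.closure_range_of]
    congr 1
    ext a
    simp [Fin.exists_fin_two, eq_comm]
  · have := congrArg (PresentedGroup.toGroup hr) e
    rw [map_mul, PresentedGroup.toGroup.of, PresentedGroup.toGroup.of, map_one] at this
    exact absurd this (by decide)

end Cfsg.Agent.S3377
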