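import Cfsg.Statements.S3378
import Mathlib
import Cfsg.Agent.Lib.Perm.FcMain

set_option autoImplicit false
open Cfsg

namespace Cfsg.Agent.S3378

open Subgroup CA.SL25

theorem solv {H : Type*} [Group H] [Finite H] (h : Nat.card H ∣ 120) (h1 : Nat.card H < 60) :
    Group.IsSolvable H := by
  by_cases e : Nat.card H = 30
  · have : IsZGroup H := IsZGroup.of_squarefree (by rw [e]; decide +kernel)
    infer_instance
  apply CChar.CharBurn.isSolvable_of_card_primeFactors_le
  generalize Nat.card H = n at *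
  interval_cases n <;> revert h e <;> decide +kernel

theorem solv_of {H : Type*} [Group H] (N : Subgroup H) [N.Normal] (h1 : Group.IsSolvable N)
    (h2 : Group.IsSolvable (H ⧸ N)) : Group.IsSolvable H :=
  Group.isSolvable_of_ker_le_range N.subtype (QuotientGroup.mk' N) (by simp)

theorem a5 {H : Type*} [Group H] [Finite H] (h : Nat.card H = 60) (hns : ¬ Group.IsSolvable H) :
    Nonempty (H ≃* alternatingGroup (Fin 5)) := by
  have : Nontrivial H := Finite.one_lt_card_iff_nontrivial.1 (by omega)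
  have : IsSimpleGroup H := ⟨fun N _ => by
    by_contra hN
    push Not at hN
    have e := N.card_mul_index
    have h1 : Nat.card N ≠ 1 := fun e => hN.1 (card_eq_one.1 e)
    have h2 : N.index ≠ 1 := fun e => hN.2 (index_eq_one.1 e)
    have h3 : 0 < Nat.card N := Nat.card_pos
    have h4 : N.index ≠ 0 := index_ne_zero_of_finite
    rw [h] at e
    refine hns (solv_of N (solv ⟨N.index * 2, by rw [← mul_assoc, e]; rfl⟩ ?_)
      (solv ⟨Nat.card N * 2, by rw [← index_eq_card, ← mul_assoc, mul_comm N.index, e]; rfl⟩ ?_))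
    · by_contra h5
      nlinarith [show 2 ≤ N.index by omega]
    · rw [← index_eq_card]
      by_contra h5
      nlinarith [show 2 ≤ Nat.card N by omega]⟩
  exact CA.H28Simp.simple_60 h

theorem not_simple {G : Type*} [Group G] [Finite G] [IsSimpleGroup G] (h : Nat.card G = 120) : False := by
  have hG : ¬ IsMulCommutative G := CA.H28Simp.not_comm_of_card (by rw [h]; norm_num)
  have : Fact (Nat.Prime 5) := ⟨by norm_num⟩
  obtain ⟨P⟩ := (inferInstance : Nonempty (Sylow 5 G))
  have h1 := CA.H28Simp.card_sylow_dvd (G := G) (p := 5) (a := 1) (m := 24) h (by decide)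
  have h2 := card_sylow_modEq_one 5 G
  have h3 := CA.H28Simp.card_sylow_ne_one hG (p := 5) (by rw [h]; decide)
  have h4 : Nat.card (Sylow 5 G) = 6 := by
    have := Nat.le_of_dvd (by decide) h1
    generalize Nat.card (Sylow 5 G) = n at *
    interval_cases n <;> revert h1 h2 h3 <;> decide
  rw [P.card_eq_index_normalizer] at h4
  have h4' : (normalizer ((P : Subgroup G) : Set G)).index = 6 := h4
  obtain ⟨f, hf⟩ := CA.H28Simp.embed_alt hG (normalizer ((P : Subgroup G) : Set G))
    (fun e => by rw [e, index_top] at h4'; omega)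
  replace hf : Function.Injective f := hf
  revert f
  rw [h4']
  intro f hf
  have : IsSimpleGroup (alternatingGroup (Fin 6)) := alternatingGroup.isSimpleGroup (by simp)
  have hc : Nat.card (alternatingGroup (Fin 6)) = 360 := by rw [nat_card_alternatingGroup, Nat.card_fin]; rfl
  have e := f.range.card_mul_index
  rw [← Nat.card_congr (MonoidHom.ofInjective hf).toEquiv, h, hc] at e
  have e3 : f.range.index = 3 := by omega
  have := CA.H28Simp.two_mul_card_dvd (CA.H28Simp.not_comm_of_card (by rw [hc]; norm_num)) f.range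
    (fun e => by rw [e, index_top] at e3; omega)
  rw [e3, hc] at this
  exact absurd this (by decide)

theorem part1 (G : Type*) [Group G] [Finite G] (h : Nat.card G = 120) (hns : ¬ Group.IsSolvable G)
    (hQ : ∀ P : Sylow 2 G, Nonempty ((P : Subgroup G) ≃* QuaternionGroup 2)) : Nonempty (G ≃* S5) := by
  have hu : ∀ a b : G, a * a = 1 → b * b = 1 → a ≠ 1 → b ≠ 1 → a * b = b * a → a = b := by
    intro a b ha hb a1 b1 c
    have hc : IsMulCommutative (closure ({a, b} : Set G)) := isMulCommutative_closure (by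
      rintro _ (rfl | rfl) _ (rfl | rfl)
      exacts [rfl, c, c.symm, rfl])
    have hp : IsPGroup 2 (closure ({a, b} : Set G)) := fun ⟨g, hg⟩ => ⟨1, Subtype.ext (by
      change g ^ 2 ^ 1 = 1
      induction hg using closure_induction with
      | mem x hx => rcases hx with rfl | rfl <;> simpa [pow_two]
      | one => simp
      | mul x y hx hy e1 e2 =>
        rw [Commute.mul_pow (congrArg Subtype.val (mul_comm' (⟨x, hx⟩ : closure ({a, b} : Set G)) ⟨y, hy⟩)),
          e1, e2, one_mul]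
      | inv x _ e => rw [inv_pow, e, inv_one])⟩
    obtain ⟨P, hP⟩ := hp.exists_le_sylow
    obtain ⟨e⟩ := hQ P
    have k : ∀ x y : QuaternionGroup 2, x * x = 1 → y * y = 1 → x ≠ 1 → y ≠ 1 → x = y := by decide
    have := k (e ⟨a, hP (subset_closure (.inl rfl))⟩) (e ⟨b, hP (subset_closure (.inr rfl))⟩)
      (by rw [← map_mul, e.map_eq_one_iff]; exact Subtype.ext ha)
      (by rw [← map_mul, e.map_eq_one_iff]; exact Subtype.ext hb)
      (by rw [Ne, e.map_eq_one_iff]; exact fun e => a1 (congrArg Subtype.val e))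
      (by rw [Ne, e.map_eq_one_iff]; exact fun e => b1 (congrArg Subtype.val e))
    exact congrArg Subtype.val (e.injective this)
  have : Nontrivial G := Finite.one_lt_card_iff_nontrivial.1 (by omega)
  obtain ⟨N, _, hN⟩ : ∃ N : Subgroup G, N.Normal ∧ N ≠ ⊥ ∧ N ≠ ⊤ := by
    by_contra hc
    push Not at hc
    have : IsSimpleGroup G := ⟨fun N hn => or_iff_not_imp_left.2 (hc N hn)⟩
    exact not_simple h
  have e := N.card_mul_index
  have h1 : Nat.card N ≠ 1 := fun e => hN.1 (card_eq_one.1 e)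
  have h2 : N.index ≠ 1 := fun e => hN.2 (index_eq_one.1 e)
  have h3 : 0 < Nat.card N := Nat.card_pos
  have h4 : N.index ≠ 0 := index_ne_zero_of_finite
  rw [h] at e
  have hs : Group.IsSolvable N := by
    by_contra hs
    have h5 : 60 ≤ Nat.card N := not_lt.1 fun h5 => hs (solv ⟨_, e.symm⟩ h5)
    obtain ⟨f⟩ := a5 (H := N) (by nlinarith [show 2 ≤ N.index by omega]) hs
    obtain ⟨a, b, k1, k2, k3, k4, k5, k6⟩ : ∃ a b : alternatingGroup (Fin 5),
      a * a = 1 ∧ b * b = 1 ∧ a ≠ 1 ∧ b ≠ 1 ∧ a * b = b * a ∧ a ≠ b :=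
      ⟨CA.TriPres.a5, ⟨Equiv.swap 0 2 * Equiv.swap 1 3, Equiv.Perm.mem_alternatingGroup.2 (by decide)⟩, by decide⟩
    refine k6 (f.symm.injective (Subtype.ext (hu _ _ ?_ ?_ ?_ ?_ ?_)))
    · rw [← coe_mul, ← map_mul, k1, map_one, coe_one]
    · rw [← coe_mul, ← map_mul, k2, map_one, coe_one]
    · exact fun e => k3 (f.symm.map_eq_one_iff.1 (Subtype.ext e))
    · exact fun e => k4 (f.symm.map_eq_one_iff.1 (Subtype.ext e))
    · rw [← coe_mul, ← map_mul, k5, map_mul, coe_mul]
  have hq : ¬ Group.IsSolvable (G ⧸ N) := fun hq => hns (solv_of N hs hq)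
  have h5 : 60 ≤ N.index := not_lt.1 fun h5 => hq (solv ⟨_, by rw [← index_eq_card, mul_comm, e]⟩ h5)
  have h6 : N.index = 60 := by nlinarith [show 2 ≤ Nat.card N by omega]
  have h7 : Nat.card N = 2 := by rw [h6] at e; omega
  obtain ⟨f⟩ := a5 (H := G ⧸ N) h6 hq
  obtain ⟨z, z1, hz⟩ := (Nat.card_eq_two_iff' (1 : N)).1 h7
  have sq : ∀ n ∈ N, n * n = 1 := fun n hn => by
    have : (⟨n, hn⟩ : N) ^ 2 = 1 := h7 ▸ pow_card_eq_one'
    rw [pow_two] at this
    exact congrArg Subtype.val this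
  have z1' : (z : G) ≠ 1 := fun e => z1 (Subtype.ext e)
  have hz' : ∀ a : G, a * a = 1 → a ≠ 1 → a = z := fun a ha a1 => hu a z ha (sq _ z.2) a1 z1' (by
    have := hz ⟨a * z * a⁻¹, ‹N.Normal›.conj_mem _ z.2 a⟩ (fun e => z1' (by simpa using congrArg Subtype.val e))
    exact mul_inv_eq_iff_eq_mul.1 (congrArg Subtype.val this))
  refine nonempty_of_hom (f.toMonoidHom.comp (QuotientGroup.mk' N))
    (f.surjective.comp (QuotientGroup.mk'_surjective N)) (fun g => ?_)
    fun a b ha hb a1 b1 => (hz' a ha a1).trans (hz' b hb b1).symm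
  rw [MonoidHom.comp_apply, MulEquiv.coe_toMonoidHom, f.map_eq_one_iff, QuotientGroup.mk'_apply,
    QuotientGroup.eq_one_iff]
  refine ⟨sq g, fun hg => ?_⟩
  by_cases g1 : g = 1
  · rw [g1]; exact one_mem _
  · rw [hz' g hg g1]; exact z.2

theorem part2 {P : Type*} [Group P] (x y z : P) (hx : x ^ 3 = 1) (hy : y ^ 5 = 1) (hz : z ^ 2 = 1)
    (hzx : z⁻¹ * x * z * x⁻¹ = 1) (hxy : (x * y) ^ 2 * z⁻¹ = 1) (hgen : closure {x, y, z} = ⊤) (h1 : z ≠ 1) :
    Nonempty (P ≃* S5) := by
  have e := mul_inv_eq_one.1 hxy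
  refine Rel.nonempty (t := x * y) (y := x⁻¹) ⟨by rw [e, ← pow_two, hz], ?_, by rw [inv_pow, hx, inv_one],
    by rw [conj_pow, hy]; simp⟩ ?_ (e ▸ h1)
  · rw [e]
    have : Commute z x := by
      rw [mul_inv_eq_one, mul_assoc, inv_mul_eq_iff_eq_mul] at hzx
      exact hzx.symm
    exact this.inv_right
  · rw [eq_top_iff, ← hgen, closure_le]
    have a : x * y ∈ closure ({x * y, x⁻¹} : Set P) := subset_closure (.inl rfl)
    have b : x⁻¹ ∈ closure ({x * y, x⁻¹} : Set P) := subset_closure (.inr rfl)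
    rintro _ (rfl | rfl | rfl)
    · simpa using inv_mem b
    · simpa using mul_mem b a
    · exact e ▸ pow_mem a 2

/-- Every non-solvable group of order 120 whose Sylow 2-subgroups are quaternion of order 8 is isomorphic to SL(2,5), and SL(2,5) has the presentation ⟨x, y, z | x³ = y⁵ = z² = 1, z⁻¹xz = x, z⁻¹yz = y, (xy)² = z⟩. -/
theorem result :
    (∀ (G : Type*) [Group G] [Finite G], Nat.card G = 120 → ¬ Group.IsSolvable G →
      (∀ P : Sylow 2 G, Nonempty ((P : Subgroup G) ≃* QuaternionGroup 2)) →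
      Nonempty (G ≃* Matrix.SpecialLinearGroup (Fin 2) (ZMod 5))) ∧
    Nonempty (PresentedGroup ({FreeGroup.of (0 : Fin 3) ^ 3, FreeGroup.of (1 : Fin 3) ^ 5, FreeGroup.of (2 : Fin 3) ^ 2,
        (FreeGroup.of (2 : Fin 3))⁻¹ * FreeGroup.of 0 * FreeGroup.of 2 * (FreeGroup.of (0 : Fin 3))⁻¹,
        (FreeGroup.of (2 : Fin 3))⁻¹ * FreeGroup.of 1 * FreeGroup.of 2 * (FreeGroup.of (1 : Fin 3))⁻¹,
        (FreeGroup.of (0 : Fin 3) * FreeGroup.of 1) ^ 2 * (FreeGroup.of (2 : Fin 3))⁻¹} : Set (FreeGroup (Fin 3)))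
      ≃* Matrix.SpecialLinearGroup (Fin 2) (ZMod 5)) := by
  refine ⟨part1, ?_⟩
  have hr : ∀ r ∈ ({FreeGroup.of (0 : Fin 3) ^ 3, FreeGroup.of (1 : Fin 3) ^ 5, FreeGroup.of (2 : Fin 3) ^ 2,
        (FreeGroup.of (2 : Fin 3))⁻¹ * FreeGroup.of 0 * FreeGroup.of 2 * (FreeGroup.of (0 : Fin 3))⁻¹,
        (FreeGroup.of (2 : Fin 3))⁻¹ * FreeGroup.of 1 * FreeGroup.of 2 * (FreeGroup.of (1 : Fin 3))⁻¹,
        (FreeGroup.of (0 : Fin 3) * FreeGroup.of 1) ^ 2 * (FreeGroup.of (2 : Fin 3))⁻¹} : Set (FreeGroup (Fin 3))),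
      FreeGroup.lift ![y0⁻¹, y0 * t0, t0 ^ 2] r = 1 := by
    rintro _ (rfl | rfl | rfl | rfl | rfl | rfl) <;>
      simp only [map_pow, map_mul, map_inv, FreeGroup.lift_apply_of] <;> decide
  refine part2 (PresentedGroup.of 0) (PresentedGroup.of 1) (PresentedGroup.of 2)
    (PresentedGroup.one_of_mem (.inl rfl)) (PresentedGroup.one_of_mem (.inr (.inl rfl)))
    (PresentedGroup.one_of_mem (.inr (.inr (.inl rfl))))
    (PresentedGroup.one_of_mem (.inr (.inr (.inr (.inl rfl)))))
    (PresentedGroup.one_of_mem (.inr (.inr (.inr (.inr (.inr rfl)))))) ?_ fun e => ?_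
  · rw [← PresentedGroup.closure_range_of]
    congr 1
    ext a
    simp [Fin.exists_fin_succ, eq_comm]
  · have := congrArg (PresentedGroup.toGroup hr) e
    rw [PresentedGroup.toGroup.of, map_one] at this
    exact absurd this (by decide)

end Cfsg.Agent.S3378
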