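import Cfsg.Statements.S3389
import Mathlib
import Cfsg.Agent.Lib.Perm.PermMulti

set_option autoImplicit false
open Cfsg

namespace Cfsg.Agent.S3389

open MulAction CA.PermBasic CA.PermMulti in

/-- Let G be a finite group acting faithfully and transitively on a finite set Ω with fixity k ≥ 1: every non-identity element fixes at most k points and some non-identity element fixes exactly k points. Then |Z(G)| divides k; if k = 2 then |G| is even; and for every prime p > k dividing |G| and every point α, either p does not divide |G_α| or G_α contains a Sylow p-subgroup of G. -/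
theorem result {G : Type*} [Group G] [Finite G] {Ω : Type*} [Fintype Ω] [MulAction G Ω] [FaithfulSMul G Ω]
    (htr : MulAction.IsPretransitive G Ω) (k : ℕ) (hk : 1 ≤ k)
    (hfix : ∀ g : G, g ≠ 1 → Nat.card (MulAction.fixedBy Ω g) ≤ k) (hex : ∃ g : G, g ≠ 1 ∧ Nat.card (MulAction.fixedBy Ω g) = k) :
    Nat.card (Subgroup.center G) ∣ k ∧ (k = 2 → 2 ∣ Nat.card G) ∧
      ∀ (p : ℕ), p.Prime → k < p → p ∣ Nat.card G → ∀ α : Ω,
        ¬ p ∣ Nat.card (MulAction.stabilizer G α) ∨ ¬ p ∣ (MulAction.stabilizer G α).index := by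
  classical
  obtain ⟨g, hg1, hg⟩ := hex
  have cf : ∀ x : G, Nat.card (fixedBy Ω x) = {y ∈ (Set.univ : Set Ω) | x • y = y}.ncard := fun x => by
    rw [Nat.card_coe_set_eq]; congr 1; ext y; simp
  refine ⟨?_, ?_, ?_⟩
  · rw [← hg, Nat.card_coe_set_eq]
    refine card_dvd_of_semiregular_on _ _ (Set.toFinite _) (fun z hz x hx => ?_) fun z hz x _ e => ?_
    · show g • z • x = z • x
      rw [← mul_smul, Subgroup.mem_center_iff.1 hz g, mul_smul, show g • x = x from hx]
    · refine eq_one_of_forall_smul (X := Ω) fun y => ?_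
      obtain ⟨u, rfl⟩ := exists_smul_eq G x y
      rw [← mul_smul, ← Subgroup.mem_center_iff.1 hz u, mul_smul, e]
  · rintro rfl
    by_contra hodd
    obtain ⟨p, hp, hd⟩ := Nat.exists_prime_and_dvd (n := orderOf g) (by simpa using hg1)
    have : Fact p.Prime := ⟨hp⟩
    set x := g ^ (orderOf g / p) with hx
    have hxo : orderOf x = p := orderOf_pow_orderOf_div (orderOf_pos g).ne' hd
    have hx1 : x ≠ 1 := fun h => by rw [h, orderOf_one] at hxo; exact hp.one_lt.ne hxo
    rw [Nat.card_coe_set_eq] at hg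
    have hfx : fixedBy Ω g = fixedBy Ω x := Set.eq_of_subset_of_ncard_le
      (by rw [hx, ← zpow_natCast]; exact fixedBy_subset_fixedBy_zpow Ω g _)
      (by rw [hg, ← Nat.card_coe_set_eq]; exact hfix x hx1)
    rw [hfx] at hg
    obtain ⟨a, b, hab, hs⟩ := Set.ncard_eq_two.1 hg
    have ha : x • a = a := show a ∈ fixedBy Ω x by rw [hs]; simp
    have hb : x • b = b := show b ∈ fixedBy Ω x by rw [hs]; simp
    have hz : IsPGroup p (Subgroup.zpowers x) := IsPGroup.of_card (n := 1) (by
      rw [Nat.card_zpowers, hxo, pow_one])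
    obtain ⟨P, hP, hle⟩ := exists_isSylowIn_ge hz (show Subgroup.zpowers x ≤ stabilizer G a by
      rw [Subgroup.zpowers_le]; exact ha)
    have hxP : x ∈ P := hle (Subgroup.mem_zpowers x)
    have h1 := ncard_modEq_fixedBy (p := p) (g := x) (k := 1) (by
      rw [pow_one, ← hxo, pow_orderOf_eq_one]) (Set.univ : Set Ω) (Set.toFinite _) (by simp)
    rw [← cf, Nat.card_coe_set_eq, hg] at h1
    have h2 : ({a}ᶜ : Set Ω).ncard + 1 = (Set.univ : Set Ω).ncard := by
      rw [← Set.ncard_singleton a, add_comm, Set.ncard_add_ncard_compl, Set.ncard_univ]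
    obtain ⟨c, hc, hcP⟩ := exists_fixed_of_not_dvd P hP.isPGroup ({a}ᶜ : Set Ω) (fun u hu y hy e =>
      hy ((smul_left_cancel_iff u).1 (e.trans (hP.1 hu).symm))) (fun h => by
        rw [← h2] at h1
        have h3 : ({a}ᶜ : Set Ω).ncard ≡ 1 [MOD p] := Nat.ModEq.add_right_cancel' 1 h1
        exact hp.one_lt.ne' (Nat.dvd_one.1 ((Nat.ModEq.dvd_iff h3 dvd_rfl).1 h)))
    have fx : ∀ y, x • y = y → y = a ∨ y = b := fun y hy => by
      have : y ∈ fixedBy Ω x := hy
      rw [hs] at this; simpa using this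
    have hcb : c = b := (fx c (hcP x hxP)).resolve_left hc
    subst hcb
    obtain ⟨h, hh, e⟩ := witt_sylow hP (a := a) (fun u hu => hP.1 hu) hcP
    have e2 : h • c = a := by
      refine (fx _ ?_).resolve_right fun e' => hab ((smul_left_cancel_iff h).1 (e.trans e'.symm))
      have : h⁻¹ * x * h ∈ P := by
        have := (Subgroup.mem_normalizer_iff.1 (Subgroup.inv_mem _ hh) x).1 hxP
        simpa using this
      have := hcP _ this
      rw [mul_smul, mul_smul, inv_smul_eq_iff] at this
      exact this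
    have e3 : ∀ m : ℕ, h ^ (2 * m + 1) • a = c := fun m => by
      induction m with
      | zero => simpa using e
      | succ m ih => rw [show 2 * (m + 1) + 1 = 1 + (1 + (2 * m + 1)) by ring, pow_add, pow_add,
          mul_smul, mul_smul, ih, pow_one, e2, e]
    obtain ⟨m, hm⟩ : Odd (Nat.card G) := Nat.not_even_iff_odd.1 fun h => hodd h.two_dvd
    have := e3 m
    rw [← hm, pow_card_eq_one', one_smul] at this
    exact hab this
  · intro p hp hkp _ α
    have : Fact p.Prime := ⟨hp⟩
    refine or_iff_not_imp_left.2 fun h h2 => ?_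
    obtain ⟨x, hx⟩ := exists_prime_orderOf_dvd_card' p (not_not.1 h)
    have hxo : orderOf (x : G) = p := by rw [Subgroup.orderOf_coe, hx]
    have hx1 : (x : G) ≠ 1 := fun h => by rw [h, orderOf_one] at hxo; exact hp.one_lt.ne hxo
    have h1 := ncard_modEq_fixedBy (p := p) (g := (x : G)) (k := 1) (by
      rw [pow_one, ← hxo, pow_orderOf_eq_one]) (Set.univ : Set Ω) (Set.toFinite _) (by simp)
    rw [← cf, Set.ncard_univ] at h1
    rw [index_stabilizer_of_transitive] at h2
    have h3 := (Nat.ModEq.dvd_iff h1 dvd_rfl).1 h2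
    have : Nonempty (fixedBy Ω (x : G)) := ⟨⟨α, x.2⟩⟩
    have h4 := Nat.le_of_dvd Nat.card_pos h3
    have := hfix x hx1
    omega

end Cfsg.Agent.S3389
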