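import Cfsg.Statements.S3391
import Cfsg.Agent.Lib.Lie.SzClass
import Cfsg.Agent.Lib.Lie.SzModel
import Cfsg.Agent.Lib.Odd.BGMisc
import Cfsg.Agent.Lib.Grp.H13Inv

set_option autoImplicit false
open Cfsg

namespace Cfsg.Agent.S3391

open CA.SzBasic CA.SzGroup CA.SzTori CA.SzSub CA.SzClass CA.TorusCount CA.BG Subgroup MulAction

variable {F : Type} [Field F] [Fintype F] {m : ℕ} [hy : Hyp F m]

theorem relIndex_Der {z : G F} (hz : z ∈ Der F) : (𝓒₁(z)).relIndex 𝓝(𝓒₁(z)) = 4 := by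
  obtain ⟨x, hx, y, hy', -, -, h1, h2, -, h3⟩ := exists_tori (F := F)
  have k : ∀ x ∈ Der F, z ∈ Cls 𝓒₁(x) → (𝓒₁(x)).relIndex 𝓝(𝓒₁(x)) = 4 → (𝓒₁(z)).relIndex 𝓝(𝓒₁(z)) = 4 := by
    rintro x hx ⟨h1, g, hg⟩ h
    have e : 𝓒₁(x) = cj g 𝓒₁(z) := (cc_cent hx).cent_eq h1 hg
    rwa [e, ← cj_norm, relIndex_cj] at h
  exact (h3 z hz).elim (k x hx · h1) (k y hy' · h2)

theorem main {Ω : Type*} [Fintype Ω] [MulAction (G F) Ω] (htr : IsPretransitive (G F) Ω)
    (hfix : ∀ g : G F, g ≠ 1 → Nat.card (fixedBy Ω g) ≤ 2) (hex : ∃ g : G F, g ≠ 1 ∧ Nat.card (fixedBy Ω g) = 2) :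
    (∃ α : Ω, stabilizer (G F) α = stabilizer (G F) (inf : Ov F)) ∨
      ∀ α : Ω, ♯(stabilizer (G F) α) = 2 ^ (2 * m + 1) - 1 := by
  have idx : ∀ (α : Ω) (x : G F) (S : Subgroup (G F)), x ≠ 1 → (∀ g ∈ S, g⁻¹ * x * g ∈ stabilizer (G F) α) →
      (stabilizer (G F) α).relIndex S = 1 ∨ (stabilizer (G F) α).relIndex S = 2 := by
    intro α x S h1 h
    have e : (stabilizer (G F) α).relIndex S = (orbit S α).ncard := index_stabilizer S α
    have h2 : (orbit S α).ncard ≤ (fixedBy Ω x).ncard := Set.ncard_le_ncard (by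
      rintro _ ⟨g, rfl⟩
      have : (g.1⁻¹ * x * g.1) • α = α := h g g.2
      show x • (g : G F) • α = (g : G F) • α
      rwa [mul_smul, mul_smul, inv_smul_eq_iff] at this)
    have h3 := hfix x h1
    have h4 := relIndex_ne_zero' (stabilizer (G F) α) S
    rw [Nat.card_coe_set_eq] at h3
    omega
  have sq : ∀ (α : Ω) (x : G F) (S : Subgroup (G F)), x ≠ 1 → (∀ g ∈ S, g⁻¹ * x * g ∈ stabilizer (G F) α) →
      ∀ g ∈ S, g * g ∈ stabilizer (G F) α := fun α x S h1 h g hg => by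
    rcases idx α x S h1 h with e | e
    · exact relIndex_eq_one.1 e (S.mul_mem hg hg)
    · exact mul_self_mem_of_index_two e ⟨g, hg⟩
  obtain ⟨g₀, hg₀, hc⟩ := hex
  by_cases hev : ∃ (α : Ω) (t : G F), t • α = α ∧ orderOf t = 2
  · obtain ⟨α, t, ht, h2⟩ := hev
    obtain ⟨-, k, hk⟩ := mem_cls_U (CA.H13Inv.ne_one h2) (n := 1) (by rw [pow_one, ← h2, pow_orderOf_eq_one])
    have h2' := (CA.H13Inv.orderOf_conj k t).trans h2
    have ht' : k * t * k⁻¹ ∈ stabilizer (G F) (k • α) := by simp [mul_smul, ht]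
    generalize k * t * k⁻¹ = s at hk h2' ht'
    generalize k • α = β at ht'
    obtain ⟨b, rfl⟩ := (sq_eq_one_iff hk).1 (CA.H13Inv.mul_self h2')
    have h1 := CA.H13Inv.ne_one h2'
    have hZ : Z F ≤ stabilizer (G F) β := by
      rintro _ ⟨c, rfl⟩
      obtain ⟨a, rfl⟩ := (Finite.injective_iff_surjective.1 fun a c (h : th F a * a = th F c * c) => mul_th_inj h) c
      rw [← T_sq a 0]
      refine sq β _ (U F) h1 ?_ _ (T_mem_U _ _)
      rintro _ ⟨x, y, rfl⟩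
      rwa [mul_assoc, (T_comm _ _ _ _).2 (by simp), inv_mul_cancel_left]
    have hB := sq β _ (stabilizer (G F) (inf : Ov F)) h1 fun g hg => hZ (by
      refine (sq_eq_one_iff (split.conj_mem' hg (T_mem_U _ _))).1 ?_
      calc _ = g⁻¹ * (T 0 b * T 0 b) * g := by group
        _ = 1 := by rw [CA.H13Inv.mul_self h2']; group)
    have hH : H F ≤ stabilizer (G F) β := by
      rintro _ ⟨μ, rfl⟩
      obtain ⟨ν, rfl⟩ := exists_sq μ
      rw [map_mul]
      exact hB _ (D_inf ν)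
    obtain ⟨μ, hμ⟩ := exists_unit_ne_one (F := F)
    have hU : U F ≤ stabilizer (G F) β := by
      have := hB (T 1 0 * D μ) (by simp [mul_smul])
      rw [mul_assoc, ← mul_assoc (D μ), D_mul_T, mul_assoc, ← mul_assoc (T 1 0), T_mul, ← D_mul,
        mul_mem_cancel_right (hH (D_mem_H _))] at this
      refine U_le_of_H_le hH (fun e => hμ (Units.ext (eq_one_of_th_eq_one ?_))) this
      linear_combination e - add_self (1 : F)
    have hle : stabilizer (G F) (inf : Ov F) ≤ stabilizer (G F) β := fun g hg => by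
      obtain ⟨a, b, μ, rfl⟩ := exists_eq_T_mul_D hg
      exact mul_mem (hU (T_mem_U _ _)) (hH (D_mem_H _))
    refine .inl ⟨β, le_antisymm ?_ hle⟩
    by_contra h
    have h3 := eq_top_of_le split U_ne_bot hU h
    have : Subsingleton Ω := ⟨fun x y => by
      obtain ⟨g, rfl⟩ := htr.exists_smul_eq β x
      obtain ⟨g', rfl⟩ := htr.exists_smul_eq β y
      rw [show g • β = β from (h3 ▸ mem_top g : g ∈ stabilizer (G F) β),
        show g' • β = β from (h3 ▸ mem_top g' : g' ∈ stabilizer (G F) β)]⟩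
    have := Finite.card_le_one_iff_subsingleton.2 (inferInstance : Subsingleton (fixedBy Ω g₀))
    omega
  right
  have hodd : ∀ α : Ω, Odd ♯(stabilizer (G F) α) := fun α =>
    CA.H13Inv.odd_card_iff.2 fun t ht h2 => hev ⟨α, t, ht, h2⟩
  have key : ∀ (α : Ω), ∀ x ∈ stabilizer (G F) α, x ≠ 1 → 𝓒₁(x) ≤ stabilizer (G F) α ∧
      ♯𝓒₁(x) = 2 ^ (2 * m + 1) - 1 ∧ ♯𝓝(𝓒₁(x)) = (2 ^ (2 * m + 1) - 1) * 2 := by
    intro α x hx h1
    have hU := not_cls_U_of_odd ((hodd α).of_dvd_nat (orderOf_dvd_card_of_mem hx))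
    obtain ⟨-, -, h3⟩ := cent_of_not_cls_U h1 hU
    have hle : 𝓒₁(x) ≤ stabilizer (G F) α := by
      rcases idx α x 𝓒₁(x) h1 (fun g hg => by rwa [mul_assoc, ← mem_cent1.1 hg, inv_mul_cancel_left]) with e | e
      · exact relIndex_eq_one.1 e
      · exact absurd (e ▸ relIndex_dvd_card' _ _) (odd_order (F := F) h3).not_two_dvd_nat
    refine ⟨hle, ?_⟩
    rcases cases_elt h1 with h | ⟨-, g, h⟩ | h
    · exact absurd h hU
    · have e : H F = cj g 𝓒₁(x) := cc_H.cent_eq h1 h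
      rw [← card_cj g, ← card_cj g 𝓝(𝓒₁(x)), cj_norm, ← e]
      exact ⟨card_H, card_normalizer_H⟩
    · exfalso
      have h4 := card_mul_relIndex (le_norm_self 𝓒₁(x))
      have h5 := card_inf_mul_relIndex (stabilizer (G F) α) 𝓝(𝓒₁(x))
      have h6 := ((hodd α).of_dvd_nat (card_dvd (inf_le_left (b := 𝓝(𝓒₁(x)))))).not_two_dvd_nat
      rw [relIndex_Der h] at h4
      rcases idx α x 𝓝(𝓒₁(x)) h1 (fun g hg => hle (conj_mem_of_mem_norm' hg (mem_cent1_self x))) with e | e <;>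
        rw [e] at h5 <;> omega
  intro α
  obtain ⟨x, hx, h1⟩ : ∃ x ∈ stabilizer (G F) α, x ≠ 1 := by
    obtain ⟨⟨β, hβ⟩⟩ := (Nat.card_ne_zero.1 (by omega : Nat.card (fixedBy Ω g₀) ≠ 0)).1
    obtain ⟨k, rfl⟩ := htr.exists_smul_eq β α
    exact ⟨k * g₀ * k⁻¹, by simp [mul_smul, show g₀ • β = β from hβ], conj_ne_one hg₀ k⟩
  obtain ⟨h2, h3, -⟩ := key α x hx h1
  refine Nat.dvd_antisymm ?_ (h3 ▸ card_dvd h2)
  rcases classify (stabilizer (G F) α) with h | ⟨g, L, hL, -⟩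
  · rcases solvable_cases h with ⟨a, ha⟩ | ⟨y, hy1, hy2, -, hy3⟩
    · obtain ⟨g, rfl⟩ := split.exists_smul (inf : Ov F) a
      have := card_dvd ha
      rw [stabilizer_smul_eq_stabilizer_map_conj, ← cj_def, card_cj, card_B, ← pow_mul] at this
      exact (Nat.coprime_two_right.2 (hodd α)).pow_right _ |>.dvd_of_dvd_mul_left this
    · have := card_dvd hy3
      rw [(key α y hy1 hy2).2.2] at this
      exact (Nat.coprime_two_right.2 (hodd α)).dvd_of_dvd_mul_right this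
  · have hJ : J F ∈ cj g (stabilizer (G F) α) := by rw [cj_def, hL]; exact J_mem_Sub
    refine (hev ⟨α, _, mem_cj.1 hJ, ?_⟩).elim
    simpa using (CA.H13Inv.orderOf_conj g⁻¹ (J F)).trans (CA.H13Inv.orderOf_eq_two_iff.2 ⟨J_mul_J, J_ne_one⟩)

/-- Let q = 2^{2m+1} ≥ 8 and let G be isomorphic to the Suzuki group Sz(q). If G acts faithfully and transitively on a finite set Ω with fixity 2 (every non-identity element fixes at most two points, and some fixes exactly two), then either |Ω| = q² + 1 and the action is 2-transitive, or |Ω| = q²(q² + 1) and the point stabilizers have order q − 1. -/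
theorem result {G : Type*} [Group G] [Finite G] (F : Type) [Field F] [Fintype F] (m : ℕ) (hm : 1 ≤ m) (hF : Fintype.card F = 2 ^ (2 * m + 1))
    (e : G ≃* ↥(Cfsg.Lie.Sz F (2 ^ (m + 1)))) {Ω : Type*} [Fintype Ω] [MulAction G Ω] [FaithfulSMul G Ω] (htr : MulAction.IsPretransitive G Ω)
    (hfix : ∀ g : G, g ≠ 1 → Nat.card (MulAction.fixedBy Ω g) ≤ 2) (hex : ∃ g : G, g ≠ 1 ∧ Nat.card (MulAction.fixedBy Ω g) = 2) :
    (Fintype.card Ω = Fintype.card F ^ 2 + 1 ∧ MulAction.IsMultiplyPretransitive G Ω 2) ∨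
    (Fintype.card Ω = Fintype.card F ^ 2 * (Fintype.card F ^ 2 + 1) ∧ ∀ α : Ω, Nat.card (MulAction.stabilizer G α) = Fintype.card F - 1) := by
  haveI : Hyp F m := ⟨hm, hF⟩
  let φ : CA.SzBasic.G F ≃* G := (CA.SzModel.szEquiv F).trans e.symm
  letI : MulAction (CA.SzBasic.G F) Ω := MulAction.compHom Ω φ.toMonoidHom
  have hs : ∀ (g : CA.SzBasic.G F) (α : Ω), g • α = φ g • α := fun _ _ => rfl
  have htr' : IsPretransitive (CA.SzBasic.G F) Ω := ⟨fun x y => by
    obtain ⟨g, hg⟩ := htr.exists_smul_eq x y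
    exact ⟨φ.symm g, by rw [hs, φ.apply_symm_apply, hg]⟩⟩
  have hi : ∀ α : Ω, (stabilizer (CA.SzBasic.G F) α).index = Fintype.card Ω := fun α => by
    rw [index_stabilizer_of_transitive, Nat.card_eq_fintype_card]
  obtain ⟨g₀, hg₀, hc⟩ := hex
  rcases main htr' (fun g hg => hfix (φ g) (by simpa using hg))
    ⟨φ.symm g₀, by simpa using hg₀, by rw [← hc, ← φ.apply_symm_apply g₀]; simp only [φ.symm_apply_apply]; rfl⟩
    with ⟨α, h⟩ | h
  · refine .inl ⟨by rw [← hi α, h, split.index_stabilizer' (pt_ne_inf 0 0), card_U, hF], ?_⟩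
    have k : ∀ g g' : CA.SzBasic.G F, g • α = g' • α ↔ g • (inf : Ov F) = g' • inf := fun g g' => by
      rw [← inv_smul_eq_iff, ← inv_smul_eq_iff (g := g'), ← mul_smul, ← mul_smul, ← mem_stabilizer_iff, h]; rfl
    refine CA.SplitOne2.two_iff.2 fun {b c d e} h1 h2 => ?_
    obtain ⟨b, rfl⟩ := htr'.exists_smul_eq α b
    obtain ⟨c, rfl⟩ := htr'.exists_smul_eq α c
    obtain ⟨d, rfl⟩ := htr'.exists_smul_eq α d
    obtain ⟨e, rfl⟩ := htr'.exists_smul_eq α e
    obtain ⟨g, h3, h4⟩ := (split (F := F)).two' (mt (k b c).2 h1) (mt (k d e).2 h2)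
    exact ⟨φ g, by rw [← hs, ← mul_smul, k, mul_smul, h3], by rw [← hs, ← mul_smul, k, mul_smul, h4]⟩
  · obtain ⟨⟨β, -⟩⟩ := (Nat.card_ne_zero.1 (by omega : Nat.card (fixedBy Ω g₀) ≠ 0)).1
    refine .inr ⟨?_, fun α => ?_⟩
    · have := (stabilizer (CA.SzBasic.G F) β).index_mul_card
      rw [hi, h, card_G, ← hF] at this
      exact Nat.eq_of_mul_eq_mul_right (by have := eight_le_card (F := F); omega) this
    · rw [hF, ← h α]
      exact Nat.card_congr (φ.toEquiv.subtypeEquiv fun g => Iff.rfl).symm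

end Cfsg.Agent.S3391
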