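import Cfsg.Statements.S3412
import Cfsg.Agent.Lib.Grp.H28L33c
import Cfsg.Agent.Lib.Grp.H28Cg
-- import your own Cfsg.Agent.* helpers here

set_option autoImplicit false
open Cfsg

namespace Cfsg.Agent.S3412

open Subgroup CA.H28L33 CA.H28Nse CA.H28Syl CA.H28SC

/-- Let H be a finite group whose commuting graph (vertices the non-identity elements, two joined when they commute) is isomorphic to that of PSL_3(3): there is a bijection between the non-identity elements of H and of PSL_3(3) under which two elements commute exactly when their images do. Then H ≅ PSL_3(3). -/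
theorem result {H : Type*} [Group H] [Finite H]
    (f : {h : H // h ≠ 1} ≃ {g : Matrix.ProjectiveSpecialLinearGroup (Fin 3) (ZMod 3) // g ≠ 1})
    (hf : ∀ x y : {h : H // h ≠ 1}, (x : H) * y = y * x ↔ ((f x) : Matrix.ProjectiveSpecialLinearGroup (Fin 3) (ZMod 3)) * (f y) = (f y) * (f x)) :
    Nonempty (H ≃* Matrix.ProjectiveSpecialLinearGroup (Fin 3) (ZMod 3)) := by
  classical
  have hc := (CA.H28Cg.card_eq f).trans card_L33
  obtain ⟨K, hK⟩ := index_L33
  have h1 := CA.H28Cg.sc f hf fun y hy => sc_of_index hK hy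
  obtain ⟨x, hx⟩ := exists_prime_orderOf_dvd_card' (G := H) 13 (by rw [hc]; decide)
  have h5 := ee13 hc (h1 x hx)
  have := simple_of_sc h1 hx (h5.1 ▸ Nat.prime_three) (by omega)
    (h5.2 ▸ pow_check (B := 8) (by decide) (by decide) (by decide +kernel))
  let F : H ≃ L33 := (Equiv.optionSubtypeNe 1).symm.trans (f.optionCongr.trans
    (Equiv.optionSubtypeNe 1))
  have F1 : F 1 = 1 := by simp [F]
  have F2 : ∀ (x : H) (hx : x ≠ 1), F x = f ⟨x, hx⟩ := fun x hx => by simp [F, hx]
  refine graph_L33 (F.trans slEquiv.symm.toEquiv) fun x y => ?_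
  rw [← slEquiv.injective.eq_iff]
  simp only [map_mul, Equiv.trans_apply, MulEquiv.toEquiv_eq_coe, EquivLike.coe_coe,
    MulEquiv.apply_symm_apply]
  by_cases h1 : x = 1
  · simp [h1, F1]
  by_cases h2 : y = 1
  · simp [h2, F1]
  rw [F2 x h1, F2 y h2]
  exact hf ⟨x, h1⟩ ⟨y, h2⟩

end Cfsg.Agent.S3412
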