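import Cfsg.Statements.S3413
import Cfsg.Agent.Lib.Grp.H28Cg
import Cfsg.Agent.Lib.Spor.M24Sub
-- import your own Cfsg.Agent.* helpers here

set_option autoImplicit false
open Cfsg

namespace Cfsg.Agent.S3413

open Subgroup CA.H28M11 CA.H28Nse CA.H28Syl CA.H28SC CA.M24Sub

/-- Let H be a finite group whose commuting graph (vertices the non-identity elements, two joined when they commute) is isomorphic to that of the Mathieu group M_11: there is a bijection between the non-identity elements of H and of M_11 under which two elements commute exactly when their images do. Then H ≅ M_11. -/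
theorem result {H : Type*} [Group H] [Finite H]
    (f : {h : H // h ≠ 1} ≃ {g : ↥Cfsg.Spor.M11 // g ≠ 1})
    (hf : ∀ x y : {h : H // h ≠ 1}, (x : H) * y = y * x ↔ ((f x) : ↥Cfsg.Spor.M11) * (f y) = (f y) * (f x)) :
    Nonempty (H ≃* ↥Cfsg.Spor.M11) := by
  have := simple_M11
  have hc := (CA.H28Cg.card_eq f).trans card_M11
  have h1 := CA.H28Cg.sc f hf fun y hy => (sc11 card_M11 hy).1
  obtain ⟨x, hx⟩ := exists_prime_orderOf_dvd_card' (G := H) 11 (by rw [hc]; decide)
  have h2 := (h1 x hx).card_eq
  have h3 := ee_dvd hx
  have h4 := card_sylow_modEq_one 11 H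
  have h5 : ee x = 5 ∧ Nat.card (Sylow 11 H) = 144 := by
    have := Nat.le_of_dvd (by decide) h3
    rw [Nat.ModEq] at h4
    rw [hc] at h2
    generalize ee x = e at *
    interval_cases e <;> omega
  have := simple_of_sc h1 hx (h5.1 ▸ fact5.out) (by omega)
    (h5.2 ▸ pow_check (B := 8) (by decide) (by decide) (by decide +kernel))
  exact uniq hc card_M11

end Cfsg.Agent.S3413
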