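import Cfsg.Statements.S3496
import Mathlib
import Cfsg.Agent.Lib.Lin.AutFld
import Cfsg.Agent.Lib.Perm.Semilin
import Cfsg.Agent.Lib.Perm.PrimSub
import Cfsg.Agent.Lib.Grp.H1Basic

set_option autoImplicit false
open Cfsg

namespace Cfsg.Agent.S3496

open MulAction CA.PermBasic CA.PrimSub Subgroup

/-- The soluble extremely primitive groups. Let a finite solvable group G act faithfully and primitively on a finite set Ω with p ^ d points (p prime), with non-trivial point stabilizers each acting primitively on every one of its orbits. Then there is a prime q such that every orbit of a point stabilizer G_α other than {α} has exactly q points, q divides p ^ d − 1 but no p ^ i − 1 with 0 < i < d, and G_α has a normal subgroup T of order q with G_α generated by T and one further element and the order of G_α dividing q·d (so G_α is cyclic of order q, or an extension of T by a cyclic group of order dividing d). -/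
theorem result {G : Type*} [Group G] [Finite G] {Ω : Type*} [Fintype Ω] [MulAction G Ω] [FaithfulSMul G Ω] [Group.IsSolvable G] (p d : ℕ) (hp : p.Prime) (hcard : Fintype.card Ω = p ^ d)
    (hprim : MulAction.IsPreprimitive G Ω) (hH : ∀ α : Ω, MulAction.stabilizer G α ≠ ⊥) (hep : ∀ (α : Ω) (ω : Ω), MulAction.IsPreprimitive (MulAction.stabilizer G α) (MulAction.orbit (MulAction.stabilizer G α) ω)) (α : Ω) :
    ∃ q : ℕ, q.Prime ∧ (∀ ω : Ω, ω ≠ α → Nat.card (MulAction.orbit (MulAction.stabilizer G α) ω) = q) ∧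
      q ∣ p ^ d - 1 ∧ (∀ i : ℕ, 0 < i → i < d → ¬ q ∣ p ^ i - 1) ∧
      ∃ T : Subgroup G, T ≤ MulAction.stabilizer G α ∧ MulAction.stabilizer G α ≤ Subgroup.normalizer (T : Set G) ∧ Nat.card T = q ∧
        (∃ h : G, MulAction.stabilizer G α = T ⊔ Subgroup.zpowers h) ∧ Nat.card (MulAction.stabilizer G α) ∣ q * d := by
  classical
  have := Fact.mk hp
  have hG : (⊤ : Subgroup G) ≠ ⊥ := fun e => hH α (eq_bot_iff.2 (e ▸ le_top))
  obtain ⟨N, hNn, -, hN, hNc⟩ := CA.H1Basic.exists_normal_comm (⊤ : Subgroup G) hG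
  have hNt : IsPretransitive N Ω := normal_pretransitive N hN
  have hNr : ∀ n ∈ N, n • α = α → n = 1 :=
    (subgroup_stabilizer_eq_bot_iff N α).1 (regular_of_comm N hNt hNc α)
  have inv := fun (M : Subgroup (stabilizer G α)) (hMn : M.Normal) (hM : M ≠ ⊥) =>
    And.intro (show M.map (stabilizer G α).subtype ≠ ⊥ from fun e =>
      hM ((map_eq_bot_iff_of_injective _ (subtype_injective _)).1 e))
    (show ∀ h ∈ stabilizer G α, ∀ m ∈ M.map (stabilizer G α).subtype,
      h * m * h⁻¹ ∈ M.map (stabilizer G α).subtype from by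
        rintro h hh _ ⟨m, hm, rfl⟩
        exact ⟨_, hMn.conj_mem m hm ⟨h, hh⟩, rfl⟩)
  have : Nontrivial (stabilizer G α) := (nontrivial_iff_ne_bot _).2 (hH α)
  obtain ⟨A, hAn, -, hA, hAc⟩ :=
    CA.H1Basic.exists_normal_comm (⊤ : Subgroup (stabilizer G α)) top_ne_bot
  obtain ⟨s, hsN, hs⟩ := (Subgroup.bot_or_exists_ne_one N).resolve_left hN
  obtain ⟨K, _, _, τ, τi, τN, τs, τa, τ1, hAτ, hτ⟩ := CA.Semilin.exists_field_conj N
    (A.map (stabilizer G α).subtype) hNc (fun a _ v hv => hNn.conj_mem v hv a) (by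
      rintro _ ⟨a, ha, rfl⟩ _ ⟨b, hb, rfl⟩
      exact congrArg (fun x : A => ((x : stabilizer G α) : G)) (hAc.1.1 ⟨a, ha⟩ ⟨b, hb⟩))
    (fun W hW h => invariant_subgroup hprim hH hep N hNc hNt (inv A hAn hA).1 (map_subtype_le _)
      (inv A hAn hA).2 hW h) hsN hs
  choose c hc σ hσ using fun g : stabilizer G α =>
    hτ g (fun v hv => hNn.conj_mem v hv g) ((inv A hAn hA).2 g g.2)
  have τ0 : τ 0 = 1 := by simpa using τa 0 0
  have hmul : ∀ g h x, c (g * h) * σ (g * h) x = c g * σ g (c h * σ h x) := fun g h x =>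
    τi (by rw [← hσ, ← hσ, ← hσ]; simp [mul_assoc])
  have hc2 : ∀ g h, c (g * h) = c g * σ g (c h) := fun g h => by simpa using hmul g h 1
  let φ : stabilizer G α →* RingAut K := MonoidHom.mk' σ fun g h => RingEquiv.ext fun x => by
    have h2 := hmul g h x
    rw [hc2, map_mul, mul_assoc] at h2
    exact mul_left_cancel₀ (by simpa using hc h) (mul_left_cancel₀ (hc g) h2)
  have hφ : ∀ g ∈ φ.ker, ∀ x, σ g x = x := fun g hg x => RingEquiv.congr_fun hg x
  have hK : Fintype.card K = p ^ d := by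
    rw [← hcard, ← Nat.card_eq_fintype_card, ← Nat.card_eq_fintype_card,
      ← card_eq_of_regular (G := N) α (regular_of_comm N hNt hNc α)]
    exact Nat.card_congr (Equiv.ofBijective (fun x => (⟨τ x, τN x⟩ : N))
      ⟨fun x y e => τi (congrArg Subtype.val e), fun v => (τs v v.2).imp fun x e => Subtype.ext e⟩)
  have hc1 : ∀ g ∈ φ.ker, c g = 1 → g = 1 := fun g hg e => Subtype.ext
    (eq_one_of_commute_of_fix N hNt (fun n hn => by
      obtain ⟨x, rfl⟩ := τs n hn
      have := hσ g x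
      rw [e, hφ g hg, one_mul, mul_inv_eq_iff_eq_mul] at this
      exact this.symm) g.2)
  have hM : ∀ M : Subgroup (stabilizer G α), M.Normal → M ≠ ⊥ → M ≤ φ.ker → ∀ w, w ≠ α →
      Nat.card (orbit (stabilizer G α) w) = Nat.card M := fun M hMn hM hle w hw => by
    rw [← orbit_eq_of_normal hprim hH hep (inv M hMn hM).1 (map_subtype_le _) (inv M hMn hM).2,
      ← card_map_of_injective (subtype_injective _),
      ← card_orbit_mul_card_stabilizer (G := M.map (stabilizer G α).subtype) w,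
      (subgroup_stabilizer_eq_bot_iff _ w).2, card_bot, mul_one]
    rintro _ ⟨g, hg, rfl⟩ e
    obtain ⟨n, hn, rfl⟩ := (subgroup_pretransitive_iff_base N α).1 hNt w
    have h1 := conj_eq_of_regular N hNr g.2 hn hn e
    obtain ⟨x, rfl⟩ := τs n hn
    rw [hσ, hφ g (hle hg)] at h1
    rw [hc1 g (hle hg) ((mul_eq_right₀ (by rintro rfl; simp [τ0] at hw)).1 (τi h1))]
    rfl
  let ψ : φ.ker →* Kˣ := MonoidHom.mk' (fun g => Units.mk0 (c g) (hc g)) fun g h =>
    Units.ext (by simp [hc2, hφ g g.2])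
  have hψ : Function.Injective ψ := (injective_iff_map_eq_one ψ).2 fun g e =>
    Subtype.ext (hc1 g g.2 (congrArg Units.val e))
  have hk : φ.ker ≠ ⊥ := fun e => hA (eq_bot_iff.2 (e ▸ fun a ha => by
    obtain ⟨b, -, hb⟩ := hAτ _ ⟨a, ha, rfl⟩
    have h1 := fun x => τi ((hσ a x).symm.trans (hb x))
    have h2 : c a = b := by simpa using h1 1
    exact RingEquiv.ext fun x => mul_left_cancel₀ (hc a) ((h1 x).trans (h2 ▸ rfl))))
  obtain ⟨q, hq, hqd⟩ := Nat.exists_prime_and_dvd ((one_lt_card_iff_ne_bot _).2 hk).ne'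
  have := Fact.mk hq
  obtain ⟨g, hg⟩ := exists_prime_orderOf_dvd_card' q hqd
  obtain ⟨z, hz⟩ := (isCyclic_of_injective ψ hψ).exists_zpow_surjective
  have hgn : (zpowers (g : stabilizer G α)).Normal := ⟨by
    rintro _ ⟨i, rfl⟩ h
    obtain ⟨j, hj⟩ := hz ⟨_, (inferInstance : φ.ker.Normal).conj_mem z z.2 h⟩
    obtain ⟨k, rfl⟩ := hz g
    have hj' : (z : stabilizer G α) ^ j = h * z * h⁻¹ := congrArg Subtype.val hj
    refine ⟨j * i, ?_⟩
    simp only [SubgroupClass.coe_zpow]
    rw [← zpow_mul, ← zpow_mul, ← conj_zpow, ← hj', ← zpow_mul]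
    congr 1; ring⟩
  obtain ⟨w, hw⟩ : ∃ w, w ≠ α := ⟨s • α, fun e => hs (hNr s hsN e)⟩
  have hkq : Nat.card φ.ker = q := by
    rw [← hM _ inferInstance hk le_rfl w hw, hM _ hgn (by
      rw [Ne, zpowers_eq_bot, OneMemClass.coe_eq_one, ← orderOf_eq_one_iff, hg]; exact hq.ne_one)
      (zpowers_le.2 g.2) w hw, Nat.card_zpowers, orderOf_coe, hg]
  refine ⟨q, hq, fun w hw => (hM _ inferInstance hk le_rfl w hw).trans hkq, ?_, fun i hi hid hqi => ?_,
    φ.ker.map (stabilizer G α).subtype, map_subtype_le _, fun h hh =>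
      mem_normalizer_fintype ((inv _ inferInstance hk).2 h hh),
    (card_map_of_injective (subtype_injective _)).trans hkq, ?_, ?_⟩
  · rw [← hkq, ← hK, ← Nat.card_eq_fintype_card, ← Nat.card_units]
    exact card_dvd_of_injective ψ hψ
  · have : CharP K p := charP_of_card_eq_prime_pow hK
    let W : Subgroup G := {
      carrier := τ '' {x | x ^ p ^ i = x}
      one_mem' := ⟨0, by simp [hp.ne_zero], τ0⟩
      mul_mem' := by
        rintro _ _ ⟨x, hx, rfl⟩ ⟨y, hy, rfl⟩
        exact ⟨x + y, by rw [Set.mem_setOf_eq, add_pow_char_pow, hx, hy], τa x y⟩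
      inv_mem' := by
        rintro _ ⟨x, hx, rfl⟩
        exact ⟨-x, by rw [Set.mem_setOf_eq, ← zero_sub, sub_pow_char_pow, hx, zero_pow (pow_pos hp.pos i).ne'],
          eq_inv_of_mul_eq_one_left (by rw [← τa, neg_add_cancel, τ0])⟩ }
    have hW := (invariant_subgroup hprim hH hep N hNc hNt (inv _ inferInstance hk).1 (map_subtype_le _)
      (inv _ inferInstance hk).2 (L := W) (by rintro _ ⟨x, -, rfl⟩; exact τN x) (by
        rintro _ ⟨m, hm, rfl⟩ _ ⟨x, hx, rfl⟩
        refine ⟨_, ?_, (hσ m x).symm⟩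
        have h1 : ψ ⟨m, hm⟩ ^ (p ^ i - 1) = 1 := by
          rw [← map_pow, orderOf_dvd_iff_pow_eq_one.1 ((hkq ▸ _root_.orderOf_dvd_natCard _).trans hqi), map_one]
        have h2 : c m ^ (p ^ i - 1) = 1 := congrArg Units.val h1
        rw [Set.mem_setOf_eq, hφ m hm, mul_pow, hx, ← Nat.sub_add_cancel (Nat.one_le_pow i p hp.pos),
          pow_succ, h2, one_mul])).resolve_left fun e => hs (mem_bot.1 (e ▸ ⟨1, one_pow _, τ1⟩))
    have h3 : ∀ x : Kˣ, x ^ (p ^ i - 1) = 1 := fun x => by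
      obtain ⟨y, hy, e⟩ : τ x ∈ W := hW ▸ τN x
      rw [τi e, Set.mem_setOf_eq, ← Nat.sub_add_cancel (Nat.one_le_pow i p hp.pos), pow_succ] at hy
      exact Units.ext (by simpa using hy)
    have h4 := Nat.le_of_dvd (Nat.sub_pos_of_lt (Nat.one_lt_pow hi.ne' hp.one_lt))
      (Monoid.exponent_dvd_of_forall_pow_eq_one h3)
    rw [IsCyclic.exponent_eq_card, Nat.card_units, Nat.card_eq_fintype_card, hK] at h4
    have := Nat.pow_lt_pow_right hp.one_lt hid
    have := Nat.one_le_pow i p hp.pos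
    omega
  · obtain ⟨⟨_, h, rfl⟩, hh⟩ := IsCyclic.exists_zpow_surjective (G := φ.range)
    refine ⟨h, le_antisymm (fun g hg => ?_) (sup_le (map_subtype_le _) (zpowers_le.2 h.2))⟩
    obtain ⟨k, hk⟩ := hh ⟨_, ⟨g, hg⟩, rfl⟩
    have hk' : φ h ^ k = φ ⟨g, hg⟩ := congrArg Subtype.val hk
    rw [← inv_mul_cancel_right g ((h : G) ^ k)]
    exact mul_mem_sup ⟨⟨g, hg⟩ * (h ^ k)⁻¹, by simp [hk'], rfl⟩ ⟨k, rfl⟩
  · rw [← φ.ker.card_mul_index, hkq, index_ker, ← CA.AutFld.card_ringAut hK]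
    exact Nat.mul_dvd_mul_left _ (card_subgroup_dvd_card _)

end Cfsg.Agent.S3496
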