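import Cfsg.Statements.S3497
import Mathlib
import Cfsg.Agent.Lib.Perm.PrimFit
import Cfsg.Agent.Lib.Grp.Fitting
import Cfsg.Agent.Lib.Loc.H6EA

set_option autoImplicit false
open Cfsg

namespace Cfsg.Agent.S3497

open MulAction CA.PermBasic CA.PermMulti CA.PrimSub CA.PrimFit

/-- Restrictions on the point stabilizer of an extremely primitive group. Let a finite group G act faithfully and primitively on a finite set Ω with point stabilizers H = G_α whose order is neither 1 nor a prime, each acting primitively on every one of its orbits. Then H has trivial center, the Fitting subgroup F(H) is an elementary abelian p-group for some prime p, and if F(H) ≠ 1 has order p ^ e then p ^ e divides the number of points minus one and H / F(H) embeds in GL_e(p) (there is a homomorphism from H to GL_e(p) with kernel exactly F(H)). -/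
theorem result {G : Type*} [Group G] [Finite G] {Ω : Type*} [Fintype Ω] [MulAction G Ω] [FaithfulSMul G Ω] (hprim : MulAction.IsPreprimitive G Ω) (hep : ∀ (α : Ω) (ω : Ω), MulAction.IsPreprimitive (MulAction.stabilizer G α) (MulAction.orbit (MulAction.stabilizer G α) ω)) (α : Ω)
    (hH1 : MulAction.stabilizer G α ≠ ⊥) (hHp : ¬ (Nat.card (MulAction.stabilizer G α)).Prime) :
    Subgroup.center (MulAction.stabilizer G α) = ⊥ ∧
    IsMulCommutative (Cfsg.fittingSubgroup (MulAction.stabilizer G α)) ∧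
    ∃ p e : ℕ, p.Prime ∧ Nat.card (Cfsg.fittingSubgroup (MulAction.stabilizer G α)) = p ^ e ∧
      (∀ x ∈ Cfsg.fittingSubgroup (MulAction.stabilizer G α), x ^ p = 1) ∧
      (Cfsg.fittingSubgroup (MulAction.stabilizer G α) ≠ ⊥ →
        p ^ e ∣ Fintype.card Ω - 1 ∧
        ∃ φ : MulAction.stabilizer G α →* GL (Fin e) (ZMod p), φ.ker = Cfsg.fittingSubgroup (MulAction.stabilizer G α)) := by
  classical
  have hH : ∀ a : Ω, stabilizer G a ≠ ⊥ := CA.PermNormal.stabilizer_ne_bot_of_exists ⟨α, hH1⟩
  obtain ⟨w, hw⟩ : ∃ w : Ω, w ≠ α := by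
    by_contra h
    push Not at h
    exact hH1 (eq_bot_iff.2 fun g _ => eq_one_of_forall_smul (X := Ω) fun x => by
      rw [h (g • x), h x])
  have key : Cfsg.fittingSubgroup (stabilizer G α) ≠ ⊥ → ∀ w : Ω, w ≠ α → _ := fun h w hw =>
    haveI := faithful_orbit hprim hH hep hw
    haveI := hep α w
    nilpotent_normal (X := orbit (stabilizer G α) w) _ h CA.Core.isNilpotent_fitting
  refine ⟨?_, ?_⟩
  · by_contra h
    have := faithful_orbit hprim hH hep hw
    have := hep α w
    obtain ⟨-, -, h1, h2, h3⟩ := nilpotent_normal (X := orbit (stabilizer G α) w) _ h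
      (isNilpotent_of_comm inferInstance)
    have h4 : Subgroup.center (stabilizer G α) = ⊤ := eq_top_iff.2 fun g _ =>
      h2 fun z hz => (Subgroup.mem_center_iff.1 hz g).symm
    have h5 : Nontrivial (orbit (stabilizer G α) w) := by
      rw [← Finite.one_lt_card_iff_nontrivial, ← h3, Subgroup.one_lt_card_iff_ne_bot]; exact h
    refine hHp (card_prime_of_regular this (a := ⟨w, mem_orbit_self w⟩) (eq_bot_iff.2 fun g hg => ?_))
    exact eq_one_of_commute_of_fix _ h1 (fun n hn => (Subgroup.mem_center_iff.1 hn g).symm) hg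
  by_cases h : Cfsg.fittingSubgroup (stabilizer G α) = ⊥
  · refine ⟨by rw [h]; infer_instance, 2, 0, Nat.prime_two, by rw [h]; simp, fun x hx => ?_,
      fun h' => absurd h h'⟩
    rw [h, Subgroup.mem_bot] at hx
    rw [hx, one_pow]
  obtain ⟨h1, ⟨p, hp, h2⟩, -, h3, -⟩ := key h w hw
  have := Fact.mk hp
  have hV : CA.H6J.IsAb p (Cfsg.fittingSubgroup (stabilizer G α)) := ⟨h1, h2⟩
  have h4 : Nat.card (Cfsg.fittingSubgroup (stabilizer G α)) =
      p ^ Module.finrank (ZMod p) (CA.H6EA.EA hV) := by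
    rw [← CA.H6EA.card_EA (hV := hV), Module.natCard_eq_pow_finrank (K := ZMod p), Nat.card_zmod]
  refine ⟨h1, p, _, hp, h4, h2, fun _ => ⟨?_, ?_⟩⟩
  · rw [← h4, ← Nat.card_eq_fintype_card, ← Set.ncard_singleton α, ← Set.ncard_compl]
    refine CA.Derange.dvd_ncard_of_orbits (stabilizer G α) _ (Set.toFinite _) (fun g hg x hx e => hx
      (MulAction.injective g (show g • x = g • α from e.trans hg.symm))) fun x hx => ?_
    rw [(key h x hx).2.2.2.2]
  · have hle : (⊤ : Subgroup (stabilizer G α)) ≤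
        Subgroup.normalizer (Cfsg.fittingSubgroup (stabilizer G α) : Set (stabilizer G α)) := by
      rw [Subgroup.normalizer_eq_top]
    let b := Module.finBasis (ZMod p) (CA.H6EA.EA hV)
    let ψ := ((LinearMap.toMatrixAlgEquiv b).toMulEquiv.toMonoidHom.comp
      ((CA.H6EA.rep hV hle).comp Subgroup.topEquiv.symm.toMonoidHom))
    refine ⟨ψ.toHomUnits, ?_⟩
    ext g
    rw [MonoidHom.mem_ker, Units.ext_iff]
    show LinearMap.toMatrixAlgEquiv b (CA.H6EA.rep hV hle ⟨g, trivial⟩) = 1 ↔ _
    rw [map_eq_one_iff _ (LinearMap.toMatrixAlgEquiv b).injective, CA.H6EA.rep_eq_one_iff]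
    exact ⟨fun e => h3 e, fun e x hx => congrArg Subtype.val
      (mul_comm' (⟨x, hx⟩ : Cfsg.fittingSubgroup (stabilizer G α)) ⟨g, e⟩)⟩

end Cfsg.Agent.S3497
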