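import Cfsg.Statements.S3508
import Mathlib

set_option autoImplicit false
open Cfsg

namespace Cfsg.Agent.S3508

open Polynomial in
theorem lin {p : ℕ} [Fact p.Prime] {V : Type*} [AddCommGroup V] [Module (ZMod p) V] [Finite V]
    (σ : Module.End (ZMod p) V) {r j : ℕ} (h : σ ^ p ^ r = 1)
    (hj : Module.finrank (ZMod p) V < p ^ j) :
    σ ^ p ^ j = 1 ∧ ∑ i ∈ Finset.range (p ^ j), σ ^ i = 0 := by
  have hX : ∀ k : ℕ, (X - 1 : (ZMod p)[X]) ^ p ^ k = X ^ p ^ k - 1 := fun k => by
    rw [sub_pow_char_pow, one_pow]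
  have h1 : IsNilpotent (σ - 1) := ⟨p ^ r, by
    have := congrArg (aeval σ) (hX r)
    simpa [h] using this⟩
  have h2 : (σ - 1) ^ Module.finrank (ZMod p) V = 0 := by
    have := LinearMap.aeval_self_charpoly (σ - 1)
    rwa [h1.charpoly_eq_X_pow_finrank, map_pow, aeval_X] at this
  have h3 : (∑ i ∈ Finset.range (p ^ j), X ^ i : (ZMod p)[X]) = (X - 1) ^ (p ^ j - 1) := by
    refine mul_right_cancel₀ (X_sub_C_ne_zero (1 : ZMod p)) ?_
    rw [map_one, geom_sum_mul, ← pow_succ, Nat.sub_add_cancel (by omega), hX]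
  have h4 : ∑ i ∈ Finset.range (p ^ j), σ ^ i = 0 := by
    have := congrArg (aeval σ) h3
    simp only [map_sum, map_pow, aeval_X, map_sub, map_one] at this
    rw [this, pow_eq_zero_of_le (by omega) h2]
  refine ⟨?_, h4⟩
  have := geom_sum_mul σ (p ^ j)
  rwa [h4, zero_mul, eq_comm, sub_eq_zero] at this

/-- Let a finite group G act faithfully on a set Ω with p ^ m points (p prime) and have an elementary abelian normal p-subgroup N acting regularly on Ω (so G is a group of affine transformations of an m-dimensional space over the field with p elements). If G contains an element of order p ^ r with r ≥ 1, then p ^ (r − 1) ≤ m. In particular an element of order p ^ m forces m ≤ 2, and m ≤ 1 when p is odd. -/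
theorem result {G : Type*} [Group G] [Finite G] {Ω : Type*} [Fintype Ω] [MulAction G Ω] [FaithfulSMul G Ω] (p m : ℕ) (hp : p.Prime) (hcard : Fintype.card Ω = p ^ m)
    (N : Subgroup G) [N.Normal] (hNc : IsMulCommutative N) (hNp : ∀ n ∈ N, n ^ p = 1)
    (hNtr : MulAction.IsPretransitive N Ω) (hNreg : ∀ ω : Ω, MulAction.stabilizer N ω = ⊥)
    (g : G) (r : ℕ) (hr : 1 ≤ r) (hg : orderOf g = p ^ r) :
    p ^ (r - 1) ≤ m ∧ (r = m → m ≤ 2 ∧ (2 < p → m ≤ 1)) := by
  have := Fact.mk hp
  have key : p ^ (r - 1) ≤ m := by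
    by_contra hlt
    let _ : CommGroup N := { (inferInstance : Group N) with mul_comm := mul_comm' }
    obtain ⟨_⟩ : Nonempty (Module (ZMod p) (Additive N)) :=
      ⟨AddCommGroup.zmodModule fun x => Additive.toMul.injective (Subtype.ext (hNp _ x.toMul.2))⟩
    obtain ⟨ω⟩ : Nonempty Ω := Fintype.card_pos_iff.1 (by rw [hcard]; exact pow_pos hp.pos _)
    have hinj : ∀ n n' : N, (n : G) • ω = (n' : G) • ω → n = n' := fun n n' h => by
      have : n'⁻¹ * n ∈ MulAction.stabilizer N ω := by
        rw [MulAction.mem_stabilizer_iff, mul_smul, inv_smul_eq_iff]; exact h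
      rw [hNreg, Subgroup.mem_bot, inv_mul_eq_one] at this
      exact this.symm
    have hc : Nat.card N = p ^ m := by
      rw [← hcard, ← Nat.card_eq_fintype_card]
      exact Nat.card_eq_of_bijective (fun n : N => (n : G) • ω)
        ⟨fun n n' h => hinj n n' h, fun y => hNtr.exists_smul_eq ω y⟩
    have hf : Module.finrank (ZMod p) (Additive N) = m := by
      have := Module.natCard_eq_pow_finrank (K := ZMod p) (V := Additive N)
      rw [Nat.card_zmod] at this
      exact Nat.pow_right_injective hp.two_le (this.symm.trans hc)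
    let σ : Module.End (ZMod p) (Additive N) :=
      (MonoidHom.toAdditive (MulAut.conjNormal g : N ≃* N).toMonoidHom).toZModLinearMap p
    have hσ : ∀ v, ((σ v).toMul : G) = g * v.toMul * g⁻¹ := fun v => rfl
    have hσk : ∀ (k : ℕ) v, (((σ ^ k) v).toMul : G) = g ^ k * v.toMul * (g ^ k)⁻¹ := by
      intro k
      induction k with
      | zero => simp
      | succ k ih => intro v; rw [pow_succ', Module.End.mul_apply, hσ, ih, pow_succ']; group
    have h1 : σ ^ p ^ r = 1 := LinearMap.ext fun v => Additive.toMul.injective (Subtype.ext (by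
      rw [hσk, ← hg, pow_orderOf_eq_one]; simp))
    obtain ⟨h2, h3⟩ := lin σ h1 (j := r - 1) (by omega)
    obtain ⟨a, ha⟩ := hNtr.exists_smul_eq ω (g • ω)
    have h4 : ∀ k : ℕ, g ^ k • ω =
        (((∑ i ∈ Finset.range k, σ ^ i) (Additive.ofMul a)).toMul : G) • ω := by
      intro k
      induction k with
      | zero => simp
      | succ k ih =>
        rw [Finset.sum_range_succ, add_comm (∑ i ∈ Finset.range k, σ ^ i), LinearMap.add_apply,
          toMul_add, Subgroup.coe_mul, mul_smul, ← ih, hσk, mul_smul, inv_smul_smul, mul_smul,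
          pow_succ, mul_smul, ← ha]
        rfl
    have h5 : g ^ p ^ (r - 1) = 1 := by
      refine FaithfulSMul.eq_of_smul_eq_smul (α := Ω) fun y => ?_
      obtain ⟨n, rfl⟩ := hNtr.exists_smul_eq ω y
      have e1 := hσk (p ^ (r - 1)) (Additive.ofMul n)
      have e2 := h4 (p ^ (r - 1))
      rw [h2] at e1
      rw [h3] at e2
      simp only [Module.End.one_apply, toMul_ofMul, LinearMap.zero_apply, toMul_zero,
        Subgroup.coe_one, one_smul] at e1 e2
      rw [one_smul, Subgroup.smul_def, ← mul_smul, mul_inv_eq_iff_eq_mul.1 e1.symm, mul_smul, e2]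
    have h6 := orderOf_dvd_of_pow_eq_one h5
    rw [hg, Nat.pow_dvd_pow_iff_le_right hp.one_lt] at h6
    omega
  refine ⟨key, fun e => ?_⟩
  subst e
  obtain ⟨k, rfl⟩ : ∃ k, r = k + 1 := ⟨r - 1, by omega⟩
  rw [Nat.add_sub_cancel] at key
  have h1 : ∀ q : ℕ, 2 ≤ q → ∀ k, 1 + k * (q - 1) + k * (k - 1) / 2 ≤ q ^ k := by
    intro q hq k
    induction k with
    | zero => simp
    | succ k ih =>
      have e : (k + 1) * (k + 1 - 1) / 2 = k * (k - 1) / 2 + k := by
        rw [← Finset.sum_range_id_mul_two, ← Finset.sum_range_id_mul_two, Finset.sum_range_succ]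
        omega
      obtain ⟨t, rfl⟩ : ∃ t, q = t + 2 := ⟨q - 2, by omega⟩
      rw [e, pow_succ]
      have : t + 2 - 1 = t + 1 := rfl
      rw [this] at ih ⊢
      nlinarith [Nat.zero_le (k * (k - 1) / 2), Nat.zero_le (k * t), Nat.zero_le (k * t * t)]
  have h2 := h1 p hp.two_le k
  have h3 : k * 1 ≤ k * (p - 1) := Nat.mul_le_mul_left _ (by have := hp.two_le; omega)
  constructor
  · by_contra h
    have : 2 * 1 ≤ k * (k - 1) := Nat.mul_le_mul (by omega) (by omega)
    omega
  · intro h
    have h4 : k * 2 ≤ k * (p - 1) := Nat.mul_le_mul_left _ (by omega)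
    omega

end Cfsg.Agent.S3508
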