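import Cfsg.Statements.S3511
import Mathlib

set_option autoImplicit false
open Cfsg

namespace Cfsg.Agent.S3511



/-- Let a finite group G act faithfully on a set Ω. If every element of G of square-free order has a regular cycle (an orbit of the cyclic group it generates with trivial stabilizer), then every element of G has a regular cycle. -/
theorem result {G : Type*} [Group G] [Finite G] {Ω : Type*} [MulAction G Ω] [FaithfulSMul G Ω]
    (h : ∀ g : G, Squarefree (orderOf g) → ∃ ω : Ω, MulAction.stabilizer (Subgroup.zpowers g) ω = ⊥) (g : G) :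
    ∃ ω : Ω, MulAction.stabilizer (Subgroup.zpowers g) ω = ⊥ := by
  classical
  set n := orderOf g with hn
  have hn0 : n ≠ 0 := (orderOf_pos g).ne'
  set r := UniqueFactorizationMonoid.radical n with hr
  have hrn : r ∣ n := UniqueFactorizationMonoid.radical_dvd_self
  obtain ⟨s, hs⟩ := hrn
  have hs0 : s ≠ 0 := by rintro rfl; simp at hs; exact hn0 hs
  have ho : orderOf (g ^ s) = r := by
    rw [orderOf_pow' _ hs0, ← hn, hs, Nat.gcd_eq_right (Dvd.intro_left r rfl), Nat.mul_div_cancel _ (Nat.pos_of_ne_zero hs0)]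
  obtain ⟨ω, hω⟩ := h (g ^ s) (by rw [ho]; exact UniqueFactorizationMonoid.squarefree_radical)
  refine ⟨ω, ?_⟩
  by_contra hne
  have hc : Nat.card (MulAction.stabilizer (Subgroup.zpowers g) ω) ≠ 1 := by
    rwa [Ne, Subgroup.card_eq_one]
  obtain ⟨p, hp, hpd⟩ := Nat.exists_prime_and_dvd hc
  haveI := Fact.mk hp
  obtain ⟨x, hx⟩ := exists_prime_orderOf_dvd_card' p hpd
  obtain ⟨⟨y, hy⟩, hyω⟩ := x
  have hyo : orderOf y = p := by
    rw [← hx, Subgroup.orderOf_mk, Subgroup.orderOf_mk]
  obtain ⟨k, rfl⟩ := (mem_powers_iff_mem_zpowers.2 hy)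
  have hpn : p ∣ n := by rw [← hyo]; exact orderOf_pow_dvd k
  have hpr : p ∣ r := (UniqueFactorizationMonoid.dvd_radical_iff_of_irreducible hp.prime.irreducible hn0).2 hpn
  obtain ⟨u, hu⟩ := hpr
  have hk : n ∣ k * p := by
    rw [hn, orderOf_dvd_iff_pow_eq_one, pow_mul, ← hyo]; exact pow_orderOf_eq_one _
  have hsk : s ∣ k := by
    rw [hs, hu] at hk
    have : s * p ∣ k * p := Dvd.dvd.trans ⟨u, by ring⟩ hk
    exact Nat.dvd_of_mul_dvd_mul_right hp.pos this
  obtain ⟨v, hv⟩ := hsk
  have hm : g ^ k ∈ Subgroup.zpowers (g ^ s) := by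
    rw [hv, pow_mul]; exact Subgroup.npow_mem_zpowers _ _
  have : (⟨g ^ k, hm⟩ : Subgroup.zpowers (g ^ s)) ∈ MulAction.stabilizer (Subgroup.zpowers (g ^ s)) ω := hyω
  rw [hω, Subgroup.mem_bot, Subtype.ext_iff] at this
  simp only [OneMemClass.coe_one] at this
  simp only at hyo
  rw [this, orderOf_one] at hyo
  exact hp.one_lt.ne hyo

end Cfsg.Agent.S3511
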