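import Cfsg.Statements.S3514
import Cfsg.Agent.Lib.Odd.BG1b
import Cfsg.Agent.Lib.Odd.BGMisc

set_option autoImplicit false
open Cfsg

namespace Cfsg.Agent.S3514

open CA.BG Subgroup

theorem orb {R V : Type*} [Semiring R] [AddCommMonoid V] [Module R V] (H : Subgroup (V ≃ₗ[R] V)) (v : V) :
    Nat.card {u : V | ∃ h ∈ H, h v = u} = (MulAction.stabilizer (V ≃ₗ[R] V) v).relIndex H := by
  have := MulAction.index_stabilizer H v
  rw [Subgroup.relIndex]
  have e : (MulAction.stabilizer (V ≃ₗ[R] V) v).subgroupOf H = MulAction.stabilizer H v := rfl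
  rw [e, this, Nat.card_coe_set_eq]
  congr 1
  ext u; constructor
  · rintro ⟨h, hh, rfl⟩; exact ⟨⟨h, hh⟩, rfl⟩
  · rintro ⟨⟨h, hh⟩, rfl⟩; exact ⟨h, hh, rfl⟩

/-- Let p be a prime, V a finite vector space over the field with p elements, and H a group of linear transformations of V all of whose orbits on V have size coprime to p. (i) Every normal subgroup K of H has all its orbits on V of size coprime to p. (ii) If N is a group of linear transformations of V of order coprime to p that is normalized by H, then the group generated by N and H has all its orbits on V of size coprime to p. -/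
theorem result (p : ℕ) [Fact p.Prime] {V : Type*} [AddCommGroup V] [Module (ZMod p) V] [Finite V]
    (H : Subgroup (V ≃ₗ[ZMod p] V)) (hH : ∀ v : V, ¬ p ∣ Nat.card {u : V | ∃ h ∈ H, h v = u}) :
    (∀ K : Subgroup (V ≃ₗ[ZMod p] V), K ≤ H → H ≤ Subgroup.normalizer (K : Set (V ≃ₗ[ZMod p] V)) →
        ∀ v : V, ¬ p ∣ Nat.card {u : V | ∃ k ∈ K, k v = u}) ∧
    (∀ N : Subgroup (V ≃ₗ[ZMod p] V), ¬ p ∣ Nat.card N → H ≤ Subgroup.normalizer (N : Set (V ≃ₗ[ZMod p] V)) →
        ∀ v : V, ¬ p ∣ Nat.card {u : V | ∃ x ∈ N ⊔ H, x v = u}) := by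
  have hp : p.Prime := Fact.out
  haveI : Finite (V ≃ₗ[ZMod p] V) := Finite.of_injective (fun e => (e : V → V)) DFunLike.coe_injective
  simp only [orb] at hH ⊢
  have key : ∀ v : V, ∃ P, Syl p P H ∧ P ≤ MulAction.stabilizer (V ≃ₗ[ZMod p] V) v := by
    intro v
    obtain ⟨P, hP⟩ := syl_exists hp (MulAction.stabilizer (V ≃ₗ[ZMod p] V) v ⊓ H)
    exact ⟨P, hP.of_idx inf_le_right ((piNat_compl_iff hp).2 (by rw [inf_relIndex_right]; exact hH v)),
      hP.le.trans inf_le_left⟩
  refine ⟨fun K hK hn v => ?_, fun N hN hn v => ?_⟩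
  · obtain ⟨P, hP, hv⟩ := key v
    exact not_dvd_relIndex_of_le hp (hP.inf_normal hK (hP.le.trans hn)) (inf_le_left.trans hv)
  · obtain ⟨P, hP, hv⟩ := key v
    rw [sup_comm]
    exact not_dvd_relIndex_of_le hp (hP.of_sup_normal hn ((isPi_compl_iff hp).2 hN)) hv

end Cfsg.Agent.S3514
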