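import Cfsg.Statements.S3515
import Mathlib

set_option autoImplicit false
open Cfsg

namespace Cfsg.Agent.S3515

theorem aux : ∀ x : Fin 2 → ZMod 2, x = 0 ∨ x = Pi.single 0 1 ∨ x = Pi.single 1 1 ∨ x = 1 := by
  decide

/-- Every primitive affine permutation group of degree p² is 3-closed. Let p be a prime and G a group of permutations of the plane V = F_p² consisting of affine maps x ↦ Ax + b, containing all translations, and acting primitively on V. Then any permutation σ of V that agrees on every triple of points with some element of G (σ preserves every G-orbit on ordered triples) already lies in G. -/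
theorem result (p : ℕ) [Fact p.Prime] (G : Subgroup (Equiv.Perm (Fin 2 → ZMod p)))
    (haff : (G : Set (Equiv.Perm (Fin 2 → ZMod p))) ⊆ {τ : Equiv.Perm (Fin 2 → ZMod p) | ∃ (A : (Fin 2 → ZMod p) ≃ₗ[ZMod p] (Fin 2 → ZMod p)) (b : Fin 2 → ZMod p), ∀ x, τ x = A x + b})
    (htrans : ∀ b : Fin 2 → ZMod p, ∃ g ∈ G, ∀ x, g x = x + b) (hprim : MulAction.IsPreprimitive G (Fin 2 → ZMod p))
    (σ : Equiv.Perm (Fin 2 → ZMod p)) (hσ : (∀ t : Fin 3 → (Fin 2 → ZMod p), ∃ g ∈ G, ∀ i, σ (t i) = g (t i))) : σ ∈ G := by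
  obtain ⟨g, hg, hg'⟩ := hσ ![0, Pi.single 0 1, Pi.single 1 1]
  have g0 : σ 0 = g 0 := hg' 0
  have g1 : σ (Pi.single 0 1) = g (Pi.single 0 1) := hg' 1
  have g2 : σ (Pi.single 1 1) = g (Pi.single 1 1) := hg' 2
  suffices h : σ = g from h ▸ hg
  by_cases hp2 : p = 2
  · subst hp2
    have h3 := aux
    have h4 : (g⁻¹ * σ).support.card ≤ 1 := by
      refine (Finset.card_le_card (t := {1}) fun x hx => ?_).trans (by simp)
      rw [Equiv.Perm.mem_support, Equiv.Perm.mul_apply, ne_eq, Equiv.Perm.inv_eq_iff_eq] at hx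
      rcases h3 x with rfl | rfl | rfl | rfl
      exacts [absurd g0 hx, absurd g1 hx, absurd g2 hx, Finset.mem_singleton_self _]
    exact (inv_mul_eq_one.1 (Equiv.Perm.card_support_le_one.1 h4)).symm
  have hline : ∀ (x y : Fin 2 → ZMod p) (t : ZMod p),
      σ (x + t • (y - x)) = σ x + t • (σ y - σ x) := by
    intro x y t
    obtain ⟨h, hh, hh'⟩ := hσ ![x, y, x + t • (y - x)]
    obtain ⟨A, b, hA⟩ := haff hh
    have e0 : σ x = h x := hh' 0
    have e1 : σ y = h y := hh' 1
    have e2 : σ (x + t • (y - x)) = h (x + t • (y - x)) := hh' 2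
    rw [e0, e1, e2, hA, hA, hA, map_add, map_smul, map_sub]
    module
  have h2 : (2 : ZMod p) ≠ 0 := by
    intro h
    have := (ZMod.natCast_eq_zero_iff 2 p).1 (by exact_mod_cast h)
    exact hp2 ((Nat.prime_dvd_prime_iff_eq Fact.out Nat.prime_two).1 this)
  obtain ⟨A, b, hA⟩ := haff hg
  ext1 x
  have e : x = (2 * x 0) • (Pi.single 0 1 : Fin 2 → ZMod p) +
      (2 : ZMod p)⁻¹ • ((2 * x 1) • Pi.single 1 1 - (2 * x 0) • Pi.single 0 1) := by
    ext i
    fin_cases i <;> simp <;> field_simp <;> ring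
  have hs : ∀ (t : ZMod p) y, σ y = g y → σ (t • y) = g (t • y) := by
    intro t y hy
    have := hline 0 y t
    rw [zero_add, sub_zero] at this
    rw [this, g0, hy, hA, hA, hA, map_smul, map_zero]
    module
  rw [e, hline, hs _ _ g1, hs _ _ g2, hA, hA, hA, map_add, map_smul A (2 : ZMod p)⁻¹, map_sub]
  module

end Cfsg.Agent.S3515
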