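import Cfsg.Statements.S3516
import Mathlib

set_option autoImplicit false
open Cfsg

namespace Cfsg.Agent.S3516

theorem affine_of {K V : Type*} [Field K] [AddCommGroup V] [Module K V] (h2 : (2 : K) ≠ 0) (σ : Equiv.Perm V)
    (h : ∀ t : Fin 3 → V, ∃ (A : V ≃ₗ[K] V) (b : V), ∀ i, σ (t i) = A (t i) + b) :
    ∃ (A : V ≃ₗ[K] V) (b : V), ∀ x, σ x = A x + b := by
  have key : ∀ (x y : V) (c : K), σ (x + c • (y - x)) = σ x + c • (σ y - σ x) := by
    intro x y c
    obtain ⟨A, b, hA⟩ := h ![x, y, x + c • (y - x)]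
    have a0 : σ x = A x + b := hA 0
    have a1 : σ y = A y + b := hA 1
    have a2 : σ (x + c • (y - x)) = A (x + c • (y - x)) + b := hA 2
    rw [a0, a1, a2, map_add, map_smul, map_sub]
    module
  have hs : ∀ (c : K) (y : V), σ (c • y) - σ 0 = c • (σ y - σ 0) := by
    intro c y
    have := key 0 y c
    simp only [sub_zero, zero_add] at this
    rw [this]; abel
  let L : V →ₗ[K] V :=
    { toFun := fun x => σ x - σ 0
      map_add' := fun x y => by
        have e : x + y = (2 : K) • (x + (2 : K)⁻¹ • (y - x)) := by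
          rw [smul_add, smul_smul, mul_inv_cancel₀ h2]; module
        rw [e, hs, key, smul_sub (2 : K), smul_add, smul_smul, mul_inv_cancel₀ h2]; module
      map_smul' := fun c x => hs c x }
  have hL : Function.Bijective L := (Equiv.subRight (σ 0)).bijective.comp σ.bijective
  exact ⟨LinearEquiv.ofBijective L hL, σ 0, fun x => by simp [L]⟩

/-- Let p be an odd prime, d ≥ 3, and G a group of affine permutations x ↦ Ax + b of V = F_p^d containing all translations and all maps x ↦ Ax with A of determinant 1. Then the 3-closure of G is the full affine group: a permutation σ of V agrees on every triple of points with some element of G if and only if σ is an affine map. -/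
theorem result (p : ℕ) [Fact p.Prime] (hp : p ≠ 2) (d : ℕ) (hd : 3 ≤ d) (G : Subgroup (Equiv.Perm (Fin d → ZMod p)))
    (haff : (G : Set (Equiv.Perm (Fin d → ZMod p))) ⊆ {τ : Equiv.Perm (Fin d → ZMod p) | ∃ (A : (Fin d → ZMod p) ≃ₗ[ZMod p] (Fin d → ZMod p)) (b : Fin d → ZMod p), ∀ x, τ x = A x + b})
    (htrans : ∀ b : Fin d → ZMod p, ∃ g ∈ G, ∀ x, g x = x + b)
    (hsl : ∀ A : (Fin d → ZMod p) ≃ₗ[ZMod p] (Fin d → ZMod p), LinearMap.det (A : (Fin d → ZMod p) →ₗ[ZMod p] (Fin d → ZMod p)) = 1 → ∃ g ∈ G, ∀ x, g x = A x)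
    (σ : Equiv.Perm (Fin d → ZMod p)) :
    (∀ t : Fin 3 → (Fin d → ZMod p), ∃ g ∈ G, ∀ i, σ (t i) = g (t i)) ↔ σ ∈ {τ : Equiv.Perm (Fin d → ZMod p) | ∃ (A : (Fin d → ZMod p) ≃ₗ[ZMod p] (Fin d → ZMod p)) (b : Fin d → ZMod p), ∀ x, τ x = A x + b} := by
  have h2 : (2 : ZMod p) ≠ 0 := by
    intro h
    have : p ∣ 2 := (ZMod.natCast_eq_zero_iff 2 p).1 (by exact_mod_cast h)
    exact hp ((Nat.prime_dvd_prime_iff_eq Fact.out Nat.prime_two).1 this)
  constructor
  · intro h
    refine affine_of h2 σ fun t => ?_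
    obtain ⟨g, hg, ht⟩ := h t
    obtain ⟨A, b, hA⟩ := haff hg
    exact ⟨A, b, fun i => by rw [ht, hA]⟩
  · rintro ⟨A, b, hA⟩ t
    have hlt : Submodule.span (ZMod p) (Set.range ![t 1 - t 0, t 2 - t 0]) < ⊤ := by
      rw [lt_top_iff_ne_top]
      intro h
      have := finrank_range_le_card (R := ZMod p) ![t 1 - t 0, t 2 - t 0]
      rw [Set.finrank, h] at this
      simp at this
      omega
    obtain ⟨f, hf0, hf⟩ := Submodule.exists_dual_map_eq_bot_of_lt_top hlt inferInstance
    have hf' : ∀ i, f (![t 1 - t 0, t 2 - t 0] i) = 0 := fun i => by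
      have : f (![t 1 - t 0, t 2 - t 0] i) ∈ Submodule.map f (Submodule.span (ZMod p) (Set.range ![t 1 - t 0, t 2 - t 0])) :=
        Submodule.mem_map_of_mem (Submodule.subset_span ⟨i, rfl⟩)
      rwa [hf, Submodule.mem_bot] at this
    obtain ⟨w, hw⟩ : ∃ w, f w ≠ 0 := by
      by_contra hh; push Not at hh; exact hf0 (LinearMap.ext hh)
    set c : (ZMod p)ˣ := (LinearEquiv.det A)⁻¹ with hc
    have hv : 1 + f ((((c : ZMod p) - 1) * (f w)⁻¹) • w) = c := by
      rw [map_smul, smul_eq_mul, mul_assoc, inv_mul_cancel₀ hw]; ring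
    let D := LinearEquiv.dilatransvection (f := f) (v := (((c : ZMod p) - 1) * (f w)⁻¹) • w) (by rw [hv]; exact c.isUnit)
    have hD : ∀ x, f x = 0 → D x = x := fun x hx => by
      rw [LinearEquiv.dilatransvection.apply, hx, zero_smul, add_zero]
    obtain ⟨g₁, hg₁, e₁⟩ := hsl (D ≪≫ₗ A) (by
      rw [LinearEquiv.coe_trans, LinearMap.det_comp, LinearEquiv.dilatransvection.coe_toLinearMap,
        LinearMap.transvection.det, hv, ← LinearEquiv.coe_det, hc, Units.mul_inv])
    obtain ⟨g₂, hg₂, e₂⟩ := htrans (σ (t 0) - A (D (t 0)))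
    refine ⟨g₂ * g₁, G.mul_mem hg₂ hg₁, fun i => ?_⟩
    have : D (t i - t 0) = t i - t 0 := by
      fin_cases i
      · simp
      · exact hD _ (hf' 0)
      · exact hD _ (hf' 1)
    rw [map_sub, sub_eq_iff_eq_add] at this
    rw [Equiv.Perm.mul_apply, e₂, e₁, LinearEquiv.trans_apply, this, hA, hA, map_add, map_sub]
    abel

end Cfsg.Agent.S3516
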