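import Cfsg.Statements.S3517
import Mathlib

set_option autoImplicit false
open Cfsg

namespace Cfsg.Agent.S3517

theorem ext_li {K V ι : Type*} [Field K] [AddCommGroup V] [Module K V] [Finite ι] {v w : ι → V}
    (hv : LinearIndependent K v) (hw : LinearIndependent K w) : ∃ g : V ≃ₗ[K] V, ∀ i, g (v i) = w i := by
  let f := hv.linearCombinationEquiv.symm ≪≫ₗ hw.linearCombinationEquiv
  have : FiniteDimensional K (Submodule.span K (Set.range v)) :=
    FiniteDimensional.span_of_finite K (Set.finite_range _)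
  obtain ⟨g, hg⟩ := Submodule.exists_linearEquiv_restrict_eq f
  refine ⟨g, fun i => ?_⟩
  have q1 : (hv.linearCombinationEquiv (Finsupp.single i 1) : V) = v i := by simp
  have q2 : (hw.linearCombinationEquiv (Finsupp.single i 1) : V) = w i := by simp
  rw [← q1, ← hg, ← q2]
  simp [f]

theorem one {K V : Type*} [Field K] [AddCommGroup V] [Module K V] {u v : V} (h : u = 0 ↔ v = 0) :
    ∃ g : V ≃ₗ[K] V, g u = v := by
  by_cases hu : u = 0
  · exact ⟨LinearEquiv.refl _ _, by rw [hu, h.1 hu]; rfl⟩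
  have hv : v ≠ 0 := fun e => hu (h.2 e)
  obtain ⟨g, hg⟩ := ext_li (K := K) (v := fun _ : Unit => u) (w := fun _ : Unit => v)
    (linearIndependent_unique_iff.2 hu) (linearIndependent_unique_iff.2 hv)
  exact ⟨g, hg ()⟩

theorem li2 {V : Type*} [AddCommGroup V] [Module (ZMod 2) V] {a b : V} (ha : a ≠ 0) (hb : b ≠ 0) (hab : a ≠ b) :
    LinearIndependent (ZMod 2) ![a, b] := by
  rw [LinearIndependent.pair_iff' ha]
  intro c
  have : c = 0 ∨ c = 1 := by revert c; decide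
  rcases this with rfl | rfl
  · simpa using hb.symm
  · simpa using hab

theorem two {V : Type*} [AddCommGroup V] [Module (ZMod 2) V] {a b c d : V} (h1 : a = 0 ↔ c = 0) (h2 : b = 0 ↔ d = 0)
    (h3 : a = b ↔ c = d) : ∃ g : V ≃ₗ[ZMod 2] V, g a = c ∧ g b = d := by
  by_cases ha : a = 0
  · obtain ⟨g, hg⟩ := one (K := ZMod 2) h2
    exact ⟨g, by rw [ha, h1.1 ha, map_zero], hg⟩
  by_cases hb : b = 0
  · obtain ⟨g, hg⟩ := one (K := ZMod 2) h1
    exact ⟨g, hg, by rw [hb, h2.1 hb, map_zero]⟩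
  by_cases hab : a = b
  · obtain ⟨g, hg⟩ := one (K := ZMod 2) h1
    exact ⟨g, hg, by rw [← hab, ← h3.1 hab, hg]⟩
  obtain ⟨g, hg⟩ := ext_li (li2 ha hb hab) (li2 (mt h1.2 ha) (mt h2.2 hb) (mt h3.2 hab))
  exact ⟨g, hg 0, hg 1⟩

/-- For d ≥ 3, the 3-closure of the affine group AGL_d(2) acting on F_2^d is the full symmetric group: every permutation of F_2^d agrees on every ordered triple of points with some affine map (AGL_d(2) is 3-transitive). -/
theorem result (d : ℕ) (hd : 3 ≤ d) (σ : Equiv.Perm (Fin d → ZMod 2)) (t : Fin 3 → (Fin d → ZMod 2)) :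
    ∃ (A : (Fin d → ZMod 2) ≃ₗ[ZMod 2] (Fin d → ZMod 2)) (b : Fin d → ZMod 2), ∀ i, σ (t i) = A (t i) + b := by
  obtain ⟨g, h1, h2⟩ := two (a := t 1 - t 0) (b := t 2 - t 0) (c := σ (t 1) - σ (t 0)) (d := σ (t 2) - σ (t 0))
    (by simp [sub_eq_zero]) (by simp [sub_eq_zero]) (by simp)
  rw [map_sub] at h1 h2
  refine ⟨g, σ (t 0) - g (t 0), fun i => ?_⟩
  fin_cases i
  · simp
  · show σ (t 1) = g (t 1) + _
    rw [← sub_eq_zero] at h1 ⊢; rw [← neg_eq_zero, ← h1]; abel
  · show σ (t 2) = g (t 2) + _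
    rw [← sub_eq_zero] at h2 ⊢; rw [← neg_eq_zero, ← h2]; abel

end Cfsg.Agent.S3517
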