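import Cfsg.Statements.S3518
import Cfsg.Agent.S0675
import Cfsg.Agent.Lib.Perm.PrimeDeg

set_option autoImplicit false
open Cfsg

namespace Cfsg.Agent.S3518

theorem aff_ext {p : ℕ} {σ τ : Equiv.Perm (ZMod p)} (hσ : σ ∈ Cfsg.affineGroup (ZMod p))
    (hτ : τ ∈ Cfsg.affineGroup (ZMod p)) (h0 : σ 0 = τ 0) (h1 : σ 1 = τ 1) : σ = τ := by
  obtain ⟨a, b, ha⟩ := hσ
  obtain ⟨c, d, hc⟩ := hτ
  rw [ha, hc] at h0 h1
  simp only [mul_zero, zero_add, mul_one] at h0 h1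
  rw [h0, add_left_inj] at h1
  ext x; rw [ha, hc, h0, h1]

theorem aff_mk {p : ℕ} [Fact p.Prime] (a b : ZMod p) (ha : a ≠ 0) :
    ∃ g ∈ Cfsg.affineGroup (ZMod p), ∀ x, g x = a * x + b :=
  ⟨(Equiv.mulLeft₀ a ha).trans (Equiv.addRight b), ⟨Units.mk0 a ha, b, fun _ => rfl⟩, fun _ => rfl⟩

/-- the 2-closure -/
def clo {α : Type*} (G : Subgroup (Equiv.Perm α)) : Subgroup (Equiv.Perm α) where
  carrier := {σ | ∀ x y, ∃ g ∈ G, σ x = g x ∧ σ y = g y}
  one_mem' := fun _ _ => ⟨1, G.one_mem, rfl, rfl⟩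
  mul_mem' := by
    intro σ τ hσ hτ x y
    obtain ⟨g, hg, a, b⟩ := hτ x y
    obtain ⟨h, hh, c, d⟩ := hσ (τ x) (τ y)
    exact ⟨h * g, G.mul_mem hh hg, by simp [c, ← a], by simp [d, ← b]⟩
  inv_mem' := by
    intro σ hσ x y
    obtain ⟨g, hg, a, b⟩ := hσ (σ⁻¹ x) (σ⁻¹ y)
    refine ⟨g⁻¹, G.inv_mem hg, ?_, ?_⟩
    · rw [Equiv.Perm.eq_inv_iff_eq, ← a]; simp
    · rw [Equiv.Perm.eq_inv_iff_eq, ← b]; simp

/-- Closures of subgroups of the one-dimensional affine group. Let p be a prime and G a group of permutations of F_p lying in the affine group AGL₁(p) = {x ↦ ax + b, a ≠ 0} and containing all translations. (1) If G is a proper subgroup of AGL₁(p), then G is 2-closed: a permutation of F_p agreeing on every ordered pair of points with some element of G lies in G. (2) Every permutation of F_p agrees on every ordered pair with some element of AGL₁(p) (the 2-closure of AGL₁(p) is the symmetric group). (3) AGL₁(p)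 is 3-closed: a permutation agreeing on every ordered triple with some affine map is affine. -/
theorem result (p : ℕ) [Fact p.Prime] (G : Subgroup (Equiv.Perm (ZMod p))) (hG : G ≤ Cfsg.affineGroup (ZMod p))
    (htrans : ∀ b : ZMod p, ∃ g ∈ G, ∀ x, g x = x + b) :
    (G ≠ Cfsg.affineGroup (ZMod p) → ∀ σ : Equiv.Perm (ZMod p), (∀ t : Fin 2 → ZMod p, ∃ g ∈ G, ∀ i, σ (t i) = g (t i)) → σ ∈ G) ∧
    (∀ σ : Equiv.Perm (ZMod p), (∀ t : Fin 2 → ZMod p, ∃ g ∈ Cfsg.affineGroup (ZMod p), ∀ i, σ (t i) = g (t i))) ∧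
    (∀ σ : Equiv.Perm (ZMod p), (∀ t : Fin 3 → ZMod p, ∃ g ∈ Cfsg.affineGroup (ZMod p), ∀ i, σ (t i) = g (t i)) → σ ∈ Cfsg.affineGroup (ZMod p)) := by
  have hp : p.Prime := Fact.out
  refine ⟨fun hne σ hσ => ?_, fun σ t => ?_, fun σ hσ => ?_⟩
  · have hσ' : σ ∈ clo G := fun x y => by
      obtain ⟨g, hg, h⟩ := hσ ![x, y]
      exact ⟨g, hg, h 0, h 1⟩
    have hle : G ≤ clo G := fun g hg x y => ⟨g, hg, rfl, rfl⟩
    haveI : MulAction.IsPretransitive (clo G) (ZMod p) := ⟨fun x y => by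
      obtain ⟨g, hg, h⟩ := htrans (y - x)
      exact ⟨⟨g, hle hg⟩, by show g x = y; rw [h]; ring⟩⟩
    have hcard : Nat.card (ZMod p) = p := Nat.card_zmod p
    rcases Cfsg.Agent.S0675.result (by rw [ZMod.card]; exact hp) (clo G) with hs | h2
    · obtain ⟨c, hcG, hc⟩ := htrans 1
      have hc' : ∀ j, (⟨c, hle hcG⟩ : clo G) • (Equiv.refl (ZMod p)) j = (Equiv.refl (ZMod p)) (j + 1) := hc
      have ho := CA.PrimeDeg.orderOf_coord hc'
      have hpg : IsPGroup p (Subgroup.zpowers (⟨c, hle hcG⟩ : clo G)) :=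
        IsPGroup.of_card (n := 1) (by rw [Nat.card_zpowers, ho, pow_one])
      obtain ⟨P, hP⟩ := hpg.exists_le_sylow
      have hPe : Subgroup.zpowers (⟨c, hle hcG⟩ : clo G) = P :=
        Subgroup.eq_of_le_of_card_ge hP (by rw [Nat.card_zpowers, ho, CA.PrimeDeg.card_sylow hcard P])
      have hn := (CA.PrimeDeg.isSolvable_iff hcard P).1 hs
      rw [← hPe] at hn
      obtain ⟨a, b, ha, hab⟩ := (CA.PrimeDeg.mem_normalizer_iff hc' (t := ⟨σ, hσ'⟩)).1
        (by rw [Subgroup.normalizer_eq_top]; trivial)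
      obtain ⟨g, hg, h0, h1⟩ := hσ' 0 1
      rw [aff_ext (σ := σ) ⟨Units.mk0 a ha, b, hab⟩ (hG hg) h0 h1]; exact hg
    · exfalso
      refine hne (le_antisymm hG fun τ hτ => ?_)
      obtain ⟨s, h0, h1⟩ := MulAction.is_two_pretransitive_iff.1 h2 (zero_ne_one (α := ZMod p))
        (τ.injective.ne (zero_ne_one (α := ZMod p)))
      obtain ⟨g, hg, a, b⟩ := s.2 0 1
      rw [aff_ext hτ (hG hg) (h0.symm.trans a) (h1.symm.trans b)]; exact hg
  · by_cases h : t 0 = t 1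
    · obtain ⟨g, hg, e⟩ := aff_mk 1 (σ (t 0) - t 0) one_ne_zero
      refine ⟨g, hg, fun i => ?_⟩
      fin_cases i
      · show σ (t 0) = g (t 0)
        rw [e]; ring
      · show σ (t 1) = g (t 1)
        rw [e, h]; ring
    · have h1 : t 1 - t 0 ≠ 0 := sub_ne_zero.2 (Ne.symm h)
      have h2 : σ (t 1) - σ (t 0) ≠ 0 := sub_ne_zero.2 (σ.injective.ne (Ne.symm h))
      obtain ⟨g, hg, e⟩ := aff_mk ((σ (t 1) - σ (t 0)) / (t 1 - t 0)) (σ (t 0) - (σ (t 1) - σ (t 0)) / (t 1 - t 0) * t 0)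
        (div_ne_zero h2 h1)
      refine ⟨g, hg, fun i => ?_⟩
      fin_cases i
      · show σ (t 0) = g (t 0)
        rw [e]; ring
      · show σ (t 1) = g (t 1)
        rw [e]; field_simp; ring
  · obtain ⟨g₀, hg₀, h₀⟩ := hσ ![0, 1, 0]
    have : σ = g₀ := by
      ext x
      obtain ⟨g, hg, h⟩ := hσ ![0, 1, x]
      have : g = g₀ := aff_ext hg hg₀ ((h 0).symm.trans (h₀ 0)) ((h 1).symm.trans (h₀ 1))
      rw [← this]; exact h 2
    rw [this]; exact hg₀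

end Cfsg.Agent.S3518
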