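import Cfsg.Statements.S3547
import Mathlib
import Cfsg.Agent.Lib.Perm.Derange

set_option autoImplicit false
open Cfsg

namespace Cfsg.Agent.S3547

open MulAction CA.Derange CA.PermBasic

/-- Let G act faithfully and transitively on a finite set Ω, let D be the subgroup generated by the derangements, and let r_G and r_D be the numbers of orbits of G and of D on ordered pairs of points (the permutation ranks). Then r_D − 1 = (r_G − 1)·[G : D]. -/
theorem result {G Ω : Type*} [Group G] [Finite G] [MulAction G Ω] [FaithfulSMul G Ω] [Finite Ω]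
    (htrans : MulAction.IsPretransitive G Ω) :
    Nat.card (MulAction.orbitRel.Quotient ↥(Subgroup.closure {g : G | ∀ ω : Ω, g • ω ≠ ω}) (Ω × Ω)) - 1 =
      (Nat.card (MulAction.orbitRel.Quotient G (Ω × Ω)) - 1) * (Subgroup.closure {g : G | ∀ ω : Ω, g • ω ≠ ω}).index := by
  classical
  rcases isEmpty_or_nonempty Ω with h | h
  · have e1 : Nat.card (orbitRel.Quotient G (Ω × Ω)) = 0 := Nat.card_of_isEmpty
    have e2 : Nat.card (orbitRel.Quotient (D G Ω) (Ω × Ω)) = 0 := Nat.card_of_isEmpty
    rw [e1, e2]; simp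
  have := Fintype.ofFinite G
  have h1 := sum_card_fixedBy (G := G) (X := Ω × Ω)
  rw [← Finset.sum_filter_add_sum_filter_not Finset.univ (· ∈ D G Ω),
    sum_fx_subgroup (X := Ω × Ω) (D G Ω), Finset.sum_congr rfl (g := fun _ => 1) (fun g hg => by
      have : fx Ω g = 1 := by
        by_contra e; exact (Finset.mem_filter.1 hg).2 (mem_D_of_fx_ne e)
      exact (fx_prod g).trans (by rw [this])), Finset.sum_const, smul_eq_mul, mul_one] at h1
  have h5 := Finset.card_filter_add_card_filter_not (s := (Finset.univ : Finset G)) (· ∈ D G Ω)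
  have h6 : (Finset.univ.filter (· ∈ D G Ω)).card = Nat.card (D G Ω) := by
    rw [Nat.card_eq_fintype_card, Fintype.card_subtype]
  rw [h6, Finset.card_univ, ← Nat.card_eq_fintype_card] at h5
  have h7 := (D G Ω).card_mul_index
  have : Nonempty (orbitRel.Quotient G (Ω × Ω)) := ⟨Quotient.mk'' (Classical.arbitrary _)⟩
  have : Nonempty (orbitRel.Quotient (D G Ω) (Ω × Ω)) := ⟨Quotient.mk'' (Classical.arbitrary _)⟩
  obtain ⟨a, ha⟩ := Nat.exists_eq_add_one_of_ne_zero (Nat.card_pos (α := orbitRel.Quotient G (Ω × Ω))).ne'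
  obtain ⟨b, hb⟩ := Nat.exists_eq_add_one_of_ne_zero (Nat.card_pos (α := orbitRel.Quotient (D G Ω) (Ω × Ω))).ne'
  show Nat.card (orbitRel.Quotient (D G Ω) (Ω × Ω)) - 1 = _ * (D G Ω).index
  rw [ha, hb] at h1 ⊢
  simp only [Nat.add_sub_cancel]
  have h8 : 0 < Nat.card (D G Ω) := Nat.card_pos
  apply Nat.eq_of_mul_eq_mul_left h8
  nlinarith

end Cfsg.Agent.S3547
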