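import Cfsg.Statements.S3548
import Mathlib
import Cfsg.Agent.Lib.Perm.Derange

set_option autoImplicit false
open Cfsg

namespace Cfsg.Agent.S3548

open MulAction CA.Derange CA.PermBasic CA.PermMulti

/-- Let G act faithfully and transitively on a finite set with n ≥ 2 points and let D be the subgroup generated by the derangements. Then the index of D in G divides n − 1, and if it equals n − 1 then n is a prime power. -/
theorem result {G Ω : Type*} [Group G] [Finite G] [MulAction G Ω] [FaithfulSMul G Ω] [Finite Ω]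
    (htrans : MulAction.IsPretransitive G Ω) (hΩ : 2 ≤ Nat.card Ω) :
    (Subgroup.closure {g : G | ∀ ω : Ω, g • ω ≠ ω}).index ∣ Nat.card Ω - 1 ∧
    ((Subgroup.closure {g : G | ∀ ω : Ω, g • ω ≠ ω}).index = Nat.card Ω - 1 → IsPrimePow (Nat.card Ω)) := by
  have : Nontrivial Ω := Finite.one_lt_card_iff_nontrivial.1 hΩ
  refine ⟨index_D_dvd, fun h => ?_⟩
  change (D G Ω).index = _ at h
  have key : ∀ a b : Ω, a ≠ b → Nat.card (orbit (stabilizer G a) b) = Nat.card Ω - 1 ∧
      orbit (stabilizer G a) b = {a}ᶜ := by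
    intro a b hab
    have : Nonempty (orbit (stabilizer G a) b) := ⟨⟨b, mem_orbit_self b⟩⟩
    have h1 := Nat.le_of_dvd Nat.card_pos (h ▸ index_D_dvd_orbit (G := G) hab)
    have h2 : orbit (stabilizer G a) b ⊆ {a}ᶜ := by
      rintro _ ⟨g, rfl⟩ e
      exact hab (MulAction.injective (g : G) (show (g : G) • a = (g : G) • b from g.2.trans e.symm))
    have h3 : ({a}ᶜ : Set Ω).ncard = Nat.card Ω - 1 := by
      rw [Set.ncard_compl, Set.ncard_singleton]
    have h4 := Set.eq_of_subset_of_ncard_le h2 (h3 ▸ h1)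
    exact ⟨by rw [Nat.card_coe_set_eq, h4, h3], h4⟩
  have key2 : ∀ a b : Ω, a ≠ b → ∀ g ∈ D G Ω, g • a = a → g • b = b := by
    intro a b hab g hg ha
    have h1 := (key a b hab).1
    rw [card_orbit_eq_index, ← h, ← Subgroup.relIndex_top_right (H := D G Ω),
      ← sup_stabilizer_eq_top (D G Ω) D_pretransitive a, Subgroup.relIndex_sup_left] at h1
    have h2 : stabilizer (stabilizer G a) b ≤ (D G Ω).subgroupOf (stabilizer G a) :=
      fun g hg => mem_D_of_fix_two hab g.2 hg
    have h3 := Subgroup.eq_of_le_of_card_ge h2 (by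
      have e1 := (stabilizer (stabilizer G a) b).card_mul_index
      have e2 := ((D G Ω).subgroupOf (stabilizer G a)).card_mul_index
      rw [h1, ← e2] at e1
      exact (Nat.eq_of_mul_eq_mul_right (Nat.pos_of_ne_zero Subgroup.index_ne_zero_of_finite) e1).ge)
    exact (h3.ge (show (⟨g, ha⟩ : stabilizer G a) ∈ _ from hg) :)
  obtain ⟨a⟩ : Nonempty Ω := inferInstance
  obtain ⟨p, j, hp, hj, e⟩ := CA.Sharp2.exists_card_eq_prime_pow (G := G) (X := Ω)
    ((two_iff_stab a).2 fun x y hx hy => by
      have h1 := (key a x hx.symm).2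
      obtain ⟨g, hg⟩ : y ∈ orbit (stabilizer G a) x := h1 ▸ hy
      exact ⟨g, g.2, hg⟩)
    (fun g a b hab ha hb => eq_one_of_forall_smul (X := Ω) fun x => by
      by_cases e : a = x
      · exact e ▸ ha
      · exact key2 a x e g (mem_D_of_fix_two hab ha hb) ha)
  rw [e]
  exact hp.isPrimePow.pow (by omega)

end Cfsg.Agent.S3548
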