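import Cfsg.Statements.S3549
import Mathlib
import Cfsg.Agent.Lib.Perm.Derange

set_option autoImplicit false
open Cfsg

namespace Cfsg.Agent.S3549

open MulAction CA.Derange CA.PermBasic CA.PermMulti

/-- Let G act faithfully, transitively but imprimitively on a finite set with n points, and let D be the subgroup generated by the derangements. Then the index of D in G is at most √n − 1. -/
theorem result {G Ω : Type*} [Group G] [Finite G] [MulAction G Ω] [FaithfulSMul G Ω] [Finite Ω]
    (htrans : MulAction.IsPretransitive G Ω) (himp : ¬ MulAction.IsPreprimitive G Ω) :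
    ((Subgroup.closure {g : G | ∀ ω : Ω, g • ω ≠ ω}).index : ℝ) ≤ Real.sqrt (Nat.card Ω) - 1 := by
  change ((D G Ω).index : ℝ) ≤ _
  have : Nontrivial Ω := by
    by_contra h
    rw [not_nontrivial_iff_subsingleton] at h
    exact himp ⟨fun _ => Or.inl (Set.subsingleton_of_subsingleton)⟩
  obtain ⟨a⟩ : Nonempty Ω := inferInstance
  rw [← isCoatom_stabilizer_iff_preprimitive G a, IsCoatom, not_and] at himp
  have h1 : stabilizer G a ≠ ⊤ := by
    intro e
    obtain ⟨b, hb⟩ := exists_ne a
    obtain ⟨g, hg⟩ := exists_smul_eq G a b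
    exact hb (hg.symm.trans (e ▸ Subgroup.mem_top g : g ∈ stabilizer G a))
  have h2 := himp h1
  push Not at h2
  obtain ⟨H, hH, hH'⟩ := h2
  have h3 : (D G Ω).index ∣ (orbit H a).ncard - 1 := index_D_dvd_ncard _ (mem_orbit_self a) (by
    rintro g hg _ ⟨k, rfl⟩
    exact ⟨⟨g, hH.le hg⟩ * k, mul_smul g (k : G) a⟩)
  have h4 : (D G Ω).index ∣ H.index - 1 := by
    refine (Subgroup.index_dvd_of_le (H := D G (G ⧸ H)) ?_).trans
      (index_D_dvd (G := G) (X := G ⧸ H))
    refine Subgroup.closure_mono fun g hg ω e => ?_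
    obtain ⟨x, rfl⟩ := exists_smul_eq G a ω
    refine hg (x : G ⧸ H) ?_
    rw [MulAction.Quotient.smul_mk, QuotientGroup.eq]
    refine hH.le ?_
    rw [mem_stabilizer_iff, smul_eq_mul, mul_smul, inv_smul_eq_iff, mul_smul, e]
  have h5 : (orbit H a).ncard * H.index = Nat.card Ω := by
    rw [← Nat.card_coe_set_eq, card_orbit_eq_index, ← index_stabilizer_of_transitive G a]
    exact Subgroup.relIndex_mul_index (H := stabilizer G a) (K := H) hH.le
  have h6 : 1 < H.index := Subgroup.one_lt_index_of_ne_top hH'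
  have h7 : 1 < (orbit H a).ncard := by
    obtain ⟨g, hg, hg'⟩ := SetLike.exists_of_lt hH
    exact (Set.one_lt_ncard (Set.toFinite _)).2 ⟨_, ⟨⟨g, hg⟩, rfl⟩, a, mem_orbit_self a, hg'⟩
  have h8 := Nat.le_of_dvd (by omega) h3
  have h9 := Nat.le_of_dvd (by omega) h4
  have h10 : ((D G Ω).index + 1) ^ 2 ≤ Nat.card Ω := by
    rw [← h5, sq]; exact Nat.mul_le_mul (by omega) (by omega)
  rw [le_sub_iff_add_le]
  exact Real.le_sqrt_of_sq_le (by exact_mod_cast h10)

end Cfsg.Agent.S3549
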