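import Cfsg.Statements.S3559
import Mathlib
import Cfsg.Agent.Lib.Perm.SRing2

set_option autoImplicit false
open Cfsg

namespace Cfsg.Agent.S3559

/-- Let G act faithfully and transitively on a finite set whose number of points n ≥ 2 is not a prime power, and suppose G has a cyclic subgroup acting regularly (transitively with trivial point stabilizers). Then G is imprimitive or doubly transitive. -/
theorem result {G Ω : Type*} [Group G] [Finite G] [MulAction G Ω] [FaithfulSMul G Ω] [Finite Ω]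
    (htrans : MulAction.IsPretransitive G Ω) (hn : 2 ≤ Nat.card Ω) (hnp : ¬ IsPrimePow (Nat.card Ω))
    (C : Subgroup G) (hcyc : IsCyclic ↥C) (hC : MulAction.IsPretransitive ↥C Ω ∧ ∀ a : Ω, MulAction.stabilizer ↥C a = ⊥) :
    ¬ MulAction.IsPreprimitive G Ω ∨ MulAction.IsMultiplyPretransitive G Ω 2 := by
  rw [or_iff_not_imp_left, not_not]
  intro hprim
  rw [isPrimePow_iff_unique_prime_dvd] at hnp
  obtain ⟨p, hp, hpn⟩ := Nat.exists_prime_and_dvd (n := Nat.card Ω) (by omega)
  obtain ⟨q, hq, hqp⟩ : ∃ q, (q.Prime ∧ q ∣ Nat.card Ω) ∧ q ≠ p := by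
    by_contra h
    push Not at h
    exact hnp ⟨p, ⟨hp, hpn⟩, h⟩
  exact CA.SRing2.two_of_cyclic hprim hq.1 hp hqp hq.2 hpn C hC.1 hC.2

end Cfsg.Agent.S3559
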