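import Cfsg.Statements.S3560
import Mathlib
import Cfsg.Agent.Lib.Perm.PermMulti

set_option autoImplicit false
open Cfsg

namespace Cfsg.Agent.S3560

open MulAction CA.PermBasic CA.PermMulti in

/-- Let K be a finite group isomorphic to a direct product of r ≥ 2 groups all of the same order m ≥ 3. Then K is not a B-group: there is a primitive but not doubly transitive permutation group (on some finite set) containing a regular subgroup isomorphic to K. -/
theorem result {K : Type*} [Group K] [Finite K] {ι : Type*} [Fintype ι] (F : ι → Type*) [∀ i, Group (F i)]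
    (hr : 2 ≤ Fintype.card ι) (m : ℕ) (hm : 3 ≤ m) (hcard : ∀ i, Nat.card (F i) = m) (e : K ≃* (∀ i, F i)) :
    ∃ (n : ℕ) (G R : Subgroup (Equiv.Perm (Fin n))), R ≤ G ∧ Nonempty (↥R ≃* K) ∧
      MulAction.IsPretransitive ↥R (Fin n) ∧ (∀ a : Fin n, MulAction.stabilizer ↥R a = ⊥) ∧
      MulAction.IsPreprimitive ↥G (Fin n) ∧ ¬ MulAction.IsMultiplyPretransitive ↥G (Fin n) 2 := by
  classical
  have : ∀ i, Finite (F i) := fun i => Nat.finite_of_card_ne_zero (by rw [hcard]; omega)
  let b : ∀ i, F i ≃ Fin m := fun i => Finite.equivFinOfCardEq (hcard i)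
  let ε := Finite.equivFin (ι → Fin m)
  let A : (ι → Fin m) → (ι → Fin m) → Prop := fun x y => ∃ i, ∀ j, j ≠ i → x j = y j
  let G₀ : Subgroup (Equiv.Perm (ι → Fin m)) :=
    { carrier := {σ | ∀ x y, A (σ x) (σ y) ↔ A x y}
      one_mem' := fun _ _ => Iff.rfl
      mul_mem' := fun ha hb x y => (ha _ _).trans (hb x y)
      inv_mem' := fun {σ} h x y => by simpa using (h (σ⁻¹ x) (σ⁻¹ y)).symm }
  have g1 : ∀ τ : ι → Equiv.Perm (Fin m), Equiv.piCongrRight τ ∈ G₀ := fun τ x y => by simp [A]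
  have g2 : ∀ τ : Equiv.Perm ι, τ.arrowCongr (.refl _) ∈ G₀ := fun τ x y =>
    ⟨fun ⟨i, h⟩ => ⟨τ.symm i, fun j e => by simpa using h (τ j) fun f => e (by simp [← f])⟩,
      fun ⟨i, h⟩ => ⟨τ i, fun j e => h _ fun f => e (by simp [← f])⟩⟩
  let ρ : K →* Equiv.Perm (ι → Fin m) := MonoidHom.mk' (fun k =>
    Equiv.piCongrRight fun i => (b i).permCongr (Equiv.mulLeft (e k i))) fun _ _ => by
      ext; simp [mul_assoc]
  have r1 : ∀ x y, ∃! k, ρ k x = y := fun x y =>
    ⟨e.symm fun i => (b i).symm (y i) * ((b i).symm (x i))⁻¹, by ext; simp [ρ], fun k hk =>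
      e.eq_symm_apply.2 (funext fun i => by simp [← hk, ρ])⟩
  let π := ε.permCongrHom
  have p : ∀ σ x, π σ (ε x) = ε (σ x) := fun σ x => by simp [π]
  let f := π.toMonoidHom.comp ρ
  obtain ⟨i, i', ii⟩ := Fintype.exists_pair_of_one_lt_card hr
  let c : Fin 3 → Fin m := Fin.castLE hm
  have c1 : c.Injective := Fin.castLE_injective hm
  have tr : ∀ x y, ∃ k, f k x = y := fun x y => by
    obtain ⟨k, hk, -⟩ := r1 (ε.symm x) (ε.symm y)
    exact ⟨k, show π (ρ k) x = y by simpa [hk] using p (ρ k) (ε.symm x)⟩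
  have le : f.range ≤ G₀.map π.toMonoidHom := fun _ ⟨k, e⟩ => ⟨ρ k, g1 _, e⟩
  have rg : ∀ k x, f k x = x → k = 1 := fun k x h => (r1 (ε.symm x) (ε.symm x)).unique
    (ε.injective ((p _ _).symm.trans (by simpa using show π (ρ k) x = x from h))) (by simp)
  have : IsPretransitive (G₀.map π.toMonoidHom) (Fin _) :=
    ⟨fun x y => let ⟨k, h⟩ := tr x y; ⟨⟨_, le ⟨k, rfl⟩⟩, h⟩⟩
  refine ⟨_, G₀.map π.toMonoidHom, f.range, le, ⟨(MonoidHom.ofInjective ((injective_iff_map_eq_one f).2
    fun k h => rg k (ε fun _ => c 0) (by simp [h]))).symm⟩, ⟨fun x y => let ⟨k, h⟩ := tr x y; ⟨⟨_, k, rfl⟩, h⟩⟩,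
    fun a => eq_bot_iff.2 (by rintro ⟨_, k, rfl⟩ h; exact Subtype.ext (by simp [rg k a h])),
    prim_of_rel fun r h1 h2 => or_iff_not_imp_left.2 fun h3 => ?_, fun h => ?_⟩
  · have h4 : ∀ σ ∈ G₀, ∀ x y, r (ε x) (ε y) → r (ε (σ x)) (ε (σ y)) := fun σ h x y e => by
      rw [← p, ← p]; exact h2 ⟨π σ, σ, h, rfl⟩ _ _ e
    push Not at h3
    obtain ⟨x, y, h5, h6⟩ := h3
    obtain ⟨x, rfl⟩ := ε.surjective x
    obtain ⟨y, rfl⟩ := ε.surjective y
    obtain ⟨j, hj⟩ := Function.ne_iff.1 fun f => h6 (congrArg ε f)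
    obtain ⟨z, z1, z2⟩ : ∃ z, z ≠ x j ∧ z ≠ y j := by
      by_contra! H
      have := Finset.card_le_card (s := Finset.univ) (t := {x j, y j}) fun z _ => by
        simpa [or_iff_not_imp_left] using H z
      have := Finset.card_le_two (a := x j) (b := y j)
      simp_all; omega
    have h7 : r (ε y) (ε (Function.update y j z)) := h1.trans (h1.symm h5) (by
      convert h4 _ (g1 (Pi.mulSingle j (Equiv.swap (y j) z))) _ _ h5 <;> ext k <;> by_cases f : k = j <;>
        simp [f, Equiv.swap_apply_of_ne_of_ne hj z1.symm])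
    have h8 : ∀ u k a, r (ε u) (ε (Function.update u k a)) := fun u k a => by
      by_cases f : a = u k
      · simpa [f] using h1.refl _
      obtain ⟨σ, s1, s2⟩ := two_iff.1 (Equiv.Perm.isMultiplyPretransitive (Fin m) 2) _ _ _ _ z2.symm (Ne.symm f)
      convert h4 _ (mul_mem (g1 (Function.update (fun l => Equiv.swap (y (Equiv.swap j k l)) (u l)) k σ))
        (g2 (Equiv.swap j k))) _ _ h7 <;> ext l <;> by_cases f : l = k <;>
        simp [f, ← s1, ← s2, Equiv.swap_apply_eq_iff]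
    have h9 : ∀ (S : Finset ι) u v, (∀ l, l ∉ S → u l = v l) → r (ε u) (ε v) := fun S => by
      induction S using Finset.induction with
      | empty => exact fun u v h => funext (by simpa using h) ▸ h1.refl _
      | insert k S _ ih => exact fun u v h => h1.trans (h8 u k (v k)) (ih _ _ fun l hl => by
          by_cases f : l = k <;> simp [f, h, hl])
    exact fun x y => by simpa using h9 Finset.univ (ε.symm x) (ε.symm y) (by simp)
  · obtain ⟨⟨_, σ, s, rfl⟩, s1, s2⟩ := two_iff.1 h (ε fun _ => c 0) (ε (Function.update (fun _ => c 0) i (c 1)))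
      (ε fun _ => c 0) (ε fun _ => c 1) (fun f => by simpa [c1.eq_iff] using congrFun (ε.injective f) i)
      fun f => by simpa [c1.eq_iff] using congrFun (ε.injective f) i
    obtain ⟨j, hj⟩ := (s _ _).2 (⟨i, fun j e => by simp [e]⟩ :
      A (fun _ => c 0) (Function.update (fun _ => c 0) i (c 1)))
    rw [ε.injective ((p _ _).symm.trans s1), ε.injective ((p _ _).symm.trans s2)] at hj
    by_cases f : i = j
    · simpa [c1.eq_iff] using hj i' (f ▸ ii.symm)
    · simpa [c1.eq_iff] using hj i f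

end Cfsg.Agent.S3560
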