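import Cfsg.Statements.S3571
import Cfsg.Agent.Lib.Perm.SylvLite
import Cfsg.Agent.Lib.Perm.HallSn3
import Cfsg.Agent.Lib.Perm.AutAn
import Cfsg.Agent.Lib.Perm.PermJordan

set_option autoImplicit false
open Cfsg

namespace Cfsg.Agent.S3571

open Equiv Equiv.Perm MulAction CA.HallSn Pointwise

variable {α : Type*} [Fintype α] [DecidableEq α]

theorem prim {K : Subgroup (Perm α)} (ht : IsPretransitive K α) {p : ℕ} (hp : p.Prime) {c : Perm α}
    (hc : Cy p c) (hcK : c ∈ K) (h2 : Fintype.card α < 2 * p) : IsPreprimitive K α := by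
  classical
  obtain ⟨x, hx⟩ : c.support.Nonempty := Finset.card_pos.1 (by rw [hc.2]; exact hp.pos)
  have : Nontrivial α := ⟨x, c x, (mem_support.1 hx).symm⟩
  refine IsPreprimitive.of_isTrivialBlock_base x fun {B} hxB hB => ?_
  by_cases hs : B.Subsingleton
  · exact Or.inl hs
  refine Or.inr (hB.eq_univ_of_card_lt ?_)
  have h1 : c.support ⊆ B.toFinset := hc.block hp hcK (fun g hg y hy hgy z hz => by
    rw [Set.mem_toFinset] at hy hgy hz ⊢
    have := hB.smul_eq_of_mem (g := (⟨g, hg⟩ : K)) hy hgy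
    rw [← this]
    exact Set.smul_mem_smul_set (a := (⟨g, hg⟩ : K)) hz) (by
      obtain ⟨a, ha, b, hb, hab⟩ := Set.not_subsingleton_iff.1 hs
      exact Finset.one_lt_card.2 ⟨a, Set.mem_toFinset.2 ha, b, Set.mem_toFinset.2 hb, hab⟩)
    (Set.mem_toFinset.2 hxB) hx
  have h3 := Finset.card_le_card h1
  rw [hc.2, ← Set.ncard_eq_toFinset_card'] at h3
  rw [Nat.card_eq_fintype_card]; omega

theorem exists_big {r : ℕ} (hr : r.Prime) (hn : r ≤ Fintype.card α) (h2 : r = 2 → 4 ∣ Fintype.card α) :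
    ∃ σ ∈ alternatingGroup α, orderOf σ = r ∧ σ.supportᶜ.card = Fintype.card α % r := by
  obtain ⟨σ, hσ⟩ := (exists_with_cycleType_iff α (m := Multiset.replicate (Fintype.card α / r) r)).2
    ⟨by rw [Multiset.sum_replicate, smul_eq_mul]; exact Nat.div_mul_le_self _ _,
      fun a ha => (Multiset.eq_of_mem_replicate ha).symm ▸ hr.two_le⟩
  have hj : 0 < Fintype.card α / r := Nat.div_pos hn hr.pos
  refine ⟨σ, ?_, ?_, ?_⟩
  · rw [mem_alternatingGroup, sign_of_cycleType, hσ, Multiset.sum_replicate, Multiset.card_replicate, smul_eq_mul]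
    apply Even.neg_one_pow
    rcases hr.eq_two_or_odd' with rfl | ho
    · obtain ⟨k, hk⟩ := h2 rfl
      exact ⟨3 * k, by omega⟩
    · rw [← Nat.mul_add_one]
      exact ho.add_one.mul_left _
  · rw [← lcm_cycleType, hσ]
    refine Nat.dvd_antisymm (Multiset.lcm_dvd.2 fun a ha => (Multiset.eq_of_mem_replicate ha).symm ▸ dvd_rfl)
      (Multiset.dvd_lcm (Multiset.mem_replicate.2 ⟨hj.ne', rfl⟩))
  · rw [Finset.card_compl, ← sum_cycleType, hσ, Multiset.sum_replicate, smul_eq_mul]
    have := Nat.div_add_mod' (Fintype.card α) r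
    omega

theorem inv_mod {r : ℕ} (hr : r.Prime) {σ : Perm α} (ho : orderOf σ = r) (hs : σ.supportᶜ.card = Fintype.card α % r)
    {D : Finset α} (hD : ∀ x, σ x ∈ D ↔ x ∈ D) : D.card % r ≤ Fintype.card α % r := by
  have := Fact.mk hr
  have h1 : (σ.subtypePerm (p := fun x => x ∈ D) hD) ^ r ^ 1 = 1 := by
    rw [pow_one, subtypePerm_pow]
    ext x
    simp [← ho, pow_orderOf_eq_one]
  have h2 := card_compl_support_modEq h1
  rw [Fintype.card_coe] at h2
  have h3 : (σ.subtypePerm (p := fun x => x ∈ D) hD).supportᶜ.card ≤ σ.supportᶜ.card := by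
    refine Finset.card_le_card_of_injOn Subtype.val (fun x hx => ?_) Subtype.val_injective.injOn
    simp only [Finset.coe_compl, Set.mem_compl_iff, Finset.mem_coe, mem_support, not_not] at hx ⊢
    exact congrArg Subtype.val hx
  rw [← h2]
  exact (Nat.mod_le _ _).trans (h3.trans hs.le)

theorem core (h5 : 5 ≤ Fintype.card α) {K : Subgroup (Perm α)} (hK : K ≤ alternatingGroup α) {r : ℕ}
    (hr : r.Prime) (hd : r ∣ K.relIndex (alternatingGroup α))
    (hmax : ∀ s : ℕ, s.Prime → s ∣ K.relIndex (alternatingGroup α) → s ≤ r)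
    (hall : ∀ σ ∈ alternatingGroup α, orderOf σ = r → ∃ a : Perm α, a * σ * a⁻¹ ∈ K)
    (hM : Fintype.card α ≠ 6 → ∀ D : Finset α, (∀ g ∈ K, ∀ x, g x ∈ D ↔ x ∈ D) → Fintype.card α < 2 * D.card →
      D ≠ Finset.univ → (∀ x ∈ D, ∀ y ∈ D, ∃ g ∈ K, g x = y) →
      ∀ g ∈ alternatingGroup α, (∀ x, g x ∈ D ↔ x ∈ D) → g ∈ K) : False := by
  classical
  set n := Fintype.card α with hn
  have hne : ¬ alternatingGroup α ≤ K := fun h => by
    rw [Subgroup.relIndex_eq_one.2 h] at hd
    exact hr.one_lt.ne' (Nat.dvd_one.1 hd)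
  have hbig : ∀ s : ℕ, s.Prime → r < s → ∀ σ ∈ alternatingGroup α, orderOf σ = s → ∃ a : Perm α, a * σ * a⁻¹ ∈ K := by
    intro s hs hrs σ hσ ho
    have := Fact.mk hs
    obtain ⟨g, -, hg⟩ := kp hs (fun h => absurd (hmax s hs h) (by omega))
      (IsPGroup.of_card (n := 1) (by rw [Nat.card_zpowers, ho, pow_one])) ((Subgroup.zpowers_le).2 hσ)
    exact ⟨g, hg σ (Subgroup.mem_zpowers σ)⟩
  have hcy : ∀ s : ℕ, s.Prime → r ≤ s → Odd s → s ≤ n → ∃ c ∈ K, Cy s c := by
    intro s hs hrs ho hsn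
    obtain ⟨c, hc, -⟩ := exists_cy (α := α) hs.two_le (U := Finset.univ) hsn
    rcases hrs.eq_or_lt with rfl | hrs
    · obtain ⟨a, ha⟩ := hall c (hc.alt ho) hc.orderOf
      exact ⟨_, ha, hc.conj a⟩
    · obtain ⟨a, ha⟩ := hbig s hs hrs c (hc.alt ho) hc.orderOf
      exact ⟨_, ha, hc.conj a⟩
  have hcard : Nat.card K * K.relIndex (alternatingGroup α) ∣ n.factorial := by
    have h1 := (K.subgroupOf (alternatingGroup α)).card_mul_index
    rw [Nat.card_congr (Subgroup.subgroupOfEquivOfLe hK).toEquiv] at h1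
    have h2 := Subgroup.card_subgroup_dvd_card (alternatingGroup α)
    rw [Nat.card_perm, Nat.card_eq_fintype_card (α := α)] at h2
    exact h1 ▸ h2
  have h2r : 2 * r ≤ n := by
    have := Fact.mk hr
    obtain ⟨x, hx⟩ := exists_prime_orderOf_dvd_card' r (hd.trans (Subgroup.index_dvd_card _))
    obtain ⟨a, ha⟩ := hall x x.2 (by rw [Subgroup.orderOf_coe, hx])
    have h1 : r ∣ Nat.card K := by
      have := orderOf_dvd_natCard (⟨_, ha⟩ : K)
      rw [Subgroup.orderOf_mk] at this
      have e := (MulAut.conj a).orderOf_eq (x : Perm α)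
      rw [MulAut.conj_apply, Subgroup.orderOf_coe, hx] at e
      exact e ▸ this
    have h2 : r ^ 2 ∣ n.factorial := (pow_two r ▸ Nat.mul_dvd_mul h1 hd).trans hcard
    by_contra hlt
    have h3 := (Nat.Prime.pow_dvd_factorial_iff hr (b := 2) (Nat.log_lt_of_lt_pow (by omega) (by
      have := hr.two_le; nlinarith))).1 h2
    have h4 : n / r < 2 := (Nat.div_lt_iff_lt_mul hr.pos).2 (by omega)
    simp at h3
    omega
  obtain ⟨p, hp, hp1, hp2⟩ := Nat.exists_prime_lt_and_le_two_mul (n / 2) (by omega)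
  obtain ⟨c, hcK, hc⟩ := hcy p hp (by omega) (hp.odd_of_ne_two (by omega)) (by omega)
  by_cases ht : IsPretransitive K α
  · have hpr := prim ht hp hc hcK (by omega)
    rcases hr.eq_two_or_odd' with rfl | ho
    · obtain ⟨d, hdK, hd⟩ := hcy 3 Nat.prime_three (by omega) (by decide) (by omega)
      exact hne (alternatingGroup_le_of_isPreprimitive_of_isThreeCycle_mem hpr
        (card_support_eq_three_iff.1 hd.2) hdK)
    · obtain ⟨d, hdK, hd⟩ := hcy r hr le_rfl ho (by omega)
      have := hr.two_le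
      have := Nat.odd_iff.1 ho
      exact hne (CA.PermJordan.alt_le_of_prime_cycle K hpr hr (by omega) hd.1 hd.2 hdK)
  obtain ⟨x, hx⟩ : c.support.Nonempty := Finset.card_pos.1 (by rw [hc.2]; exact hp.pos)
  let D : Finset α := Finset.univ.filter fun y => ∃ g ∈ K, g x = y
  have hmD : ∀ y, y ∈ D ↔ ∃ g ∈ K, g x = y := fun y => by simp [D]
  have hD : ∀ g ∈ K, ∀ y, g y ∈ D ↔ y ∈ D := fun g hg y => by
    rw [hmD, hmD]
    exact ⟨fun ⟨k, hk, e⟩ => ⟨g⁻¹ * k, K.mul_mem (K.inv_mem hg) hk, by simp [e]⟩,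
      fun ⟨k, hk, e⟩ => ⟨g * k, K.mul_mem hg hk, by simp [e]⟩⟩
  have hDt : ∀ y ∈ D, ∀ z ∈ D, ∃ g ∈ K, g y = z := fun y hy z hz => by
    obtain ⟨k, hk, rfl⟩ := (hmD y).1 hy
    obtain ⟨l, hl, rfl⟩ := (hmD z).1 hz
    exact ⟨l * k⁻¹, K.mul_mem hl (K.inv_mem hk), by simp⟩
  have hDu : D ≠ Finset.univ := fun h => ht ⟨fun y z => by
    obtain ⟨g, hg, e⟩ := hDt y (h ▸ Finset.mem_univ y) z (h ▸ Finset.mem_univ z)
    exact ⟨⟨g, hg⟩, e⟩⟩
  have hDp : p ≤ D.card := by
    rw [← hc.2]
    refine Finset.card_le_card fun y hy => ?_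
    obtain ⟨i, hi⟩ := hc.1.exists_pow_eq (mem_support.1 hx) (mem_support.1 hy)
    exact (hmD y).2 ⟨c ^ i, K.pow_mem hcK i, hi⟩
  have hDn : D.card < n := Finset.card_lt_card (Finset.ssubset_univ_iff.2 hDu)
  have hk : Dᶜ.card = n - D.card := Finset.card_compl D
  have fin : ∀ s : ℕ, s.Prime → r ≤ s → s ≤ n → (s = 2 → 4 ∣ n) → Dᶜ.card % s ≤ n % s := by
    intro s hs hrs hsn h4
    obtain ⟨σ, hσ, ho, hσs⟩ := exists_big (α := α) hs hsn h4
    have : ∃ a : Perm α, a * σ * a⁻¹ ∈ K := by
      rcases hrs.eq_or_lt with rfl | hrs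
      · exact hall σ hσ ho
      · exact hbig s hs hrs σ hσ ho
    obtain ⟨a, ha⟩ := this
    refine inv_mod hs (σ := a * σ * a⁻¹) ?_ ?_ fun y => ?_
    · have e := (MulAut.conj a).orderOf_eq σ
      rw [MulAut.conj_apply, ho] at e
      exact e
    · rw [← hσs, Finset.card_compl, Finset.card_compl, card_support_conj]
    · rw [Finset.mem_compl, Finset.mem_compl, hD _ ha]
  by_cases h6 : n = 6
  · have hp5 : p = 5 := by
      have : p ≠ 4 := by rintro rfl; exact absurd hp (by decide)
      have : p ≠ 6 := by rintro rfl; exact absurd hp (by decide)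
      omega
    have := fin 3 Nat.prime_three (by omega) (by omega) (by omega)
    omega
  have hfull := hM h6 D hD (by omega) hDu hDt
  have hidx : K.relIndex (alternatingGroup α) = n.choose Dᶜ.card := by
    let f : α → Bool := fun y => decide (y ∈ D)
    have e1 : K = Fx f ⊓ alternatingGroup α := by
      refine le_antisymm (le_inf (fun g hg y => ?_) hK) fun g hg => hfull g hg.2 fun y => ?_
      · simp [f, hD g hg]
      · simpa [f] using hg.1 y
    obtain ⟨a, ha, b, hb, hab⟩ := Finset.one_lt_card.1 (show 1 < D.card by have := hp.two_le; omega)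
    have e2 : swap a b ∈ Fx f := fun y => by
      by_cases h1 : y = a
      · simp [f, h1, ha, hb]
      by_cases h2 : y = b
      · simp [f, h2, ha, hb]
      rw [swap_apply_of_ne_of_ne h1 h2]
    rw [e1, Subgroup.inf_relIndex_right, relIndex_alt e2 (sign_swap hab)]
    have e3 := (Fx f).card_mul_index
    rw [card_Fx, Nat.card_perm, Nat.card_eq_fintype_card (α := α), Fintype.prod_bool] at e3
    have e4 : (Finset.univ.filter fun y => f y = true) = D := by ext y; simp [f]
    have e5 : (Finset.univ.filter fun y => f y = false) = Dᶜ := by ext y; simp [f]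
    rw [e4, e5, ← hn, ← Nat.choose_mul_factorial_mul_factorial (show Dᶜ.card ≤ n by omega),
      show n - Dᶜ.card = D.card by omega] at e3
    refine Nat.eq_of_mul_eq_mul_left (show 0 < D.card.factorial * Dᶜ.card.factorial by positivity) (e3.trans ?_)
    ring
  rw [hidx] at hd hmax
  obtain ⟨s, hs, hsd, hs'⟩ := CA.SylvLite.exists_prime (n := n) (k := Dᶜ.card) (by omega) (by omega)
  have hsr := hmax s hs hsd
  have h1 := CA.SylvLite.mod_lt hr hd (by omega) (hs'.imp (fun h => by omega) fun h =>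
    h.trans_le (Nat.mul_le_mul hsr hsr))
  refine absurd (fin r hr le_rfl (by omega) fun h2 => ?_) (by omega)
  subst h2
  have := hs.two_le
  obtain rfl : s = 2 := by omega
  have hk1 : Dᶜ.card = 1 := by omega
  rw [hk1, Nat.choose_one_right] at hmax
  have h3 : n = 2 ^ n.primeFactorsList.length := Nat.eq_prime_pow_of_unique_prime_dvd (by omega)
    fun {d} hd hdn => le_antisymm (hmax d hd hdn) hd.two_le
  generalize n.primeFactorsList.length = e at h3
  have : 2 ≤ e := by
    by_contra h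
    interval_cases e <;> omega
  rw [h3]
  exact pow_dvd_pow 2 this

/-- Let G be an almost simple group whose socle is an alternating group of degree m ≥ 5 (G has a normal subgroup T isomorphic to that alternating group with trivial centralizer), acting faithfully and primitively on a finite set Ω with at least two points, and let r be the largest prime divisor of the number of points. Then G contains an element of order r fixing no point. -/
theorem result {G Ω : Type*} [Group G] [Finite G] [MulAction G Ω] [FaithfulSMul G Ω] [Finite Ω]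
    (T : Subgroup G) (hT : T.Normal) (hTc : Subgroup.centralizer (T : Set G) = ⊥) (m : ℕ) (hm : 5 ≤ m)
    (eT : ↥T ≃* ↥(alternatingGroup (Fin m))) (hprim : MulAction.IsPreprimitive G Ω) (hΩ : 2 ≤ Nat.card Ω)
    (r : ℕ) (hr : r.Prime) (hrd : r ∣ Nat.card Ω) (hmax : ∀ s : ℕ, s.Prime → s ∣ Nat.card Ω → s ≤ r) :
    ∃ g : G, orderOf g = r ∧ ∀ ω : Ω, g • ω ≠ ω := by
  classical
  by_contra hcon
  push Not at hcon
  have hnt : Nontrivial Ω := Finite.one_lt_card_iff_nontrivial.1 hΩ
  obtain ⟨ω⟩ : Nonempty Ω := inferInstance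
  have hcm : Fintype.card (Fin m) = m := Fintype.card_fin m
  have hA : IsSimpleGroup (alternatingGroup (Fin m)) := alternatingGroup.isSimpleGroup (by simpa using hm)
  have hTs : IsSimpleGroup T := eT.isSimpleGroup
  have hTb : T ≠ ⊥ := (Subgroup.nontrivial_iff_ne_bot T).1 inferInstance
  have hTt : IsPretransitive T Ω := CA.PermBasic.normal_pretransitive T hTb
  let ι : T →* Perm (Fin m) := (alternatingGroup (Fin m)).subtype.comp eT.toMonoidHom
  have hι : ∀ t, ι t = (eT t).1 := fun _ => rfl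
  let K : Subgroup (Perm (Fin m)) := (stabilizer T ω).map ι
  have hmem : ∀ t : T, ι t ∈ K ↔ (t : G) • ω = ω := fun t =>
    Subgroup.mem_map_iff_mem (Subtype.val_injective.comp eT.injective)
  have hsur : ∀ g ∈ alternatingGroup (Fin m), ∃ t, ι t = g := fun g hg => ⟨eT.symm ⟨g, hg⟩, by simp [hι]⟩
  have hK : K ≤ alternatingGroup (Fin m) := by
    rintro _ ⟨t, -, rfl⟩; exact (eT t).2
  have hidx : K.relIndex (alternatingGroup (Fin m)) = Nat.card Ω := by
    have : K.subgroupOf (alternatingGroup (Fin m)) = (stabilizer T ω).map eT.toMonoidHom := by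
      ext g
      obtain ⟨t, rfl⟩ := eT.surjective g
      rw [Subgroup.mem_subgroupOf, ← hι, hmem]
      exact (Subgroup.mem_map_iff_mem (f := eT.toMonoidHom) (K := stabilizer T ω) (x := t) eT.injective).symm
    rw [Subgroup.relIndex, this, ← index_stabilizer_of_transitive T ω]
    exact Subgroup.index_map_equiv _ eT
  refine core (K := K) (by simpa using hm) hK hr (hidx ▸ hrd) (hidx ▸ hmax) (fun σ hσ ho => ?_) ?_
  · obtain ⟨t, rfl⟩ := hsur σ hσ
    obtain ⟨ω', h'⟩ := hcon t (by
      rw [Subgroup.orderOf_coe, ← ho, orderOf_injective ι (Subtype.val_injective.comp eT.injective)])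
    obtain ⟨a, rfl⟩ := exists_smul_eq T ω ω'
    refine ⟨ι a⁻¹, ?_⟩
    rw [← map_inv, ← map_mul, ← map_mul, hmem, inv_inv]
    change ((a : G)⁻¹ * t * a) • ω = ω
    rw [mul_smul, mul_smul]
    exact inv_smul_eq_iff.2 h'
  intro h6 D hD hD2 hDu hDt
  let S : Subgroup (Perm (Fin m)) :=
    { carrier := {g | ∀ x, g x ∈ D ↔ x ∈ D}
      mul_mem' := fun {a b} ha hb x => (ha (b x)).trans (hb x)
      one_mem' := fun _ => Iff.rfl
      inv_mem' := fun {a} ha x => by rw [← ha (a⁻¹ x)]; simp }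
  let M : Subgroup G := (S.comap ι).map T.subtype
  have hconj : ∀ g : G, ∃ s : Perm (Fin m), ∀ t : T, ι (MulAut.conjNormal g t) = s * ι t * s⁻¹ := fun g => by
    obtain ⟨s, hs⟩ := CA.AutAn.exists_conj (α := Fin m) (by simp; omega) h6
      ((eT.symm.trans (MulAut.conjNormal g)).trans eT)
    refine ⟨s, fun t => ?_⟩
    have := congrArg (fun β : MulAut (alternatingGroup (Fin m)) => (β (eT t)).1) hs
    simpa [hι] using this.symm
  have hHM : stabilizer G ω ≤ Subgroup.normalizer (M : Set G) := by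
    intro h hh
    refine Subgroup.mem_normalizer_fintype ?_
    rintro _ ⟨t, ht, rfl⟩
    obtain ⟨s, hs⟩ := hconj h
    refine ⟨MulAut.conjNormal h t, ?_, rfl⟩
    have hKs : ∀ k ∈ K, s * k * s⁻¹ ∈ K := by
      rintro _ ⟨u, hu, rfl⟩
      rw [← hs, hmem]
      have hu' : (u : G) • ω = ω := hu
      have hh' : h • ω = ω := hh
      change (h * u * h⁻¹) • ω = ω
      rw [mul_smul, mul_smul, inv_smul_eq_iff.2 hh'.symm, hu', hh']
    have hsD : ∀ x ∈ D, s x ∈ D := by
      obtain ⟨y, hy⟩ : (D ∩ D.map s.toEmbedding).Nonempty := by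
        rw [← Finset.card_pos]
        have h1 := Finset.card_union_add_card_inter D (D.map s.toEmbedding)
        have h2 := Finset.card_le_univ (D ∪ D.map s.toEmbedding)
        rw [Finset.card_map] at h1
        omega
      obtain ⟨hy1, hy2⟩ := Finset.mem_inter.1 hy
      obtain ⟨z, hz, rfl⟩ := Finset.mem_map.1 hy2
      intro x hx
      obtain ⟨k, hk, rfl⟩ := hDt z hz x hx
      have := (hD _ (hKs k hk) (s z)).2 hy1
      simpa using this
    have hsS : s ∈ S := fun x => ⟨fun hx => by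
      obtain ⟨y, hy, e⟩ := Finset.surj_on_of_inj_on_of_card_le (s := D) (t := D) (fun y _ => s y)
        (fun y hy => hsD y hy) (fun _ _ _ _ e => s.injective e) le_rfl _ hx
      rw [s.injective e]; exact hy, hsD x⟩
    change ι (MulAut.conjNormal h t) ∈ S
    rw [hs]
    exact S.mul_mem (S.mul_mem hsS ht) (S.inv_mem hsS)
  have hco := (isCoatom_stabilizer_iff_preprimitive G ω).2 hprim
  obtain ⟨x, hx⟩ : D.Nonempty := Finset.card_pos.1 (by omega)
  have hN : Subgroup.normalizer (M : Set G) = stabilizer G ω := by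
    refine (hco.le_iff.1 hHM).resolve_left fun h => ?_
    have hn : M.Normal := Subgroup.normalizer_eq_top_iff.1 h
    have hn' : (S.comap ι).Normal := by
      have := hn.subgroupOf T
      rwa [Subgroup.subgroupOf, Subgroup.comap_map_eq_self_of_injective T.subtype_injective] at this
    rcases hn'.eq_bot_or_eq_top with h1 | h1
    · obtain ⟨y, hy, hxy⟩ := Finset.exists_mem_ne (show 1 < D.card by omega) x
      obtain ⟨_, ⟨t, ht, rfl⟩, e⟩ := hDt x hx y hy
      have : t ∈ S.comap ι := hD _ ⟨t, ht, rfl⟩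
      rw [h1, Subgroup.mem_bot] at this
      rw [this, map_one] at e
      exact hxy e.symm
    · obtain ⟨y, hy⟩ : ∃ y, y ∉ D := by
        by_contra hc
        push Not at hc
        exact hDu (Finset.eq_univ_iff_forall.2 hc)
      have := alternatingGroup.isPretransitive_of_three_le_card (α := Fin m) (by simp; omega)
      obtain ⟨g, e⟩ := exists_smul_eq (alternatingGroup (Fin m)) x y
      obtain ⟨t, ht⟩ := hsur g g.2
      have h2 : t ∈ S.comap ι := h1 ▸ Subgroup.mem_top t
      have h3 := (h2 x).2 hx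
      rw [ht] at h3
      exact hy (e ▸ h3)
  intro g hg hgD
  obtain ⟨t, rfl⟩ := hsur g hg
  rw [hmem]
  have : (t : G) ∈ Subgroup.normalizer (M : Set G) := Subgroup.le_normalizer ⟨t, hgD, rfl⟩
  rwa [hN] at this

end Cfsg.Agent.S3571
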