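import Cfsg.Statements.S3572
import Cfsg.Agent.Lib.Perm.H4Dih3

set_option autoImplicit false
open Cfsg

namespace Cfsg.Agent.S3572

open CA.H4Dih in
/-- The dihedral group as a generalized dihedral group. -/
def psi (m : ℕ) : Dh (Multiplicative (ZMod m)) ≃* DihedralGroup m where
  toFun := fun | .r c => .r c.toAdd | .s c => .sr c.toAdd
  invFun := fun | .r i => .r (Multiplicative.ofAdd i) | .sr i => .s (Multiplicative.ofAdd i)
  left_inv := by rintro (a | a) <;> rfl
  right_inv := by rintro (a | a) <;> rfl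
  map_mul' := by rintro (a | a) (b | b) <;> simp [sub_eq_neg_add]

/-- A finite primitive permutation group containing a dihedral subgroup that acts regularly (transitively with trivial point stabilizers) is doubly transitive. -/
theorem result {G Ω : Type*} [Group G] [Finite G] [MulAction G Ω] [FaithfulSMul G Ω] [Finite Ω]
    (hprim : MulAction.IsPreprimitive G Ω) (D : Subgroup G) (m : ℕ) (hD : Nonempty (↥D ≃* DihedralGroup m))
    (hDreg : MulAction.IsPretransitive ↥D Ω ∧ ∀ a : Ω, MulAction.stabilizer ↥D a = ⊥) :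
    MulAction.IsMultiplyPretransitive G Ω 2 := by
  classical
  obtain ⟨e⟩ := hD
  obtain ⟨htr, hreg⟩ := hDreg
  rcases isEmpty_or_nonempty Ω with hΩ | ⟨⟨o⟩⟩
  · exact CA.PermBasic.two_iff.2 fun a => isEmptyElim a
  have hfin : Finite (DihedralGroup m) := Finite.of_equiv _ e.toEquiv
  have hm : m ≠ 0 := by
    rintro rfl
    exact not_finite (DihedralGroup 0)
  have : NeZero m := ⟨hm⟩
  let e' := (psi m).trans e.symm
  let φ : CA.H4Dih.Dh (Multiplicative (ZMod m)) →* G := D.subtype.comp e'.toMonoidHom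
  have hbij : Function.Bijective fun d => φ d • o := by
    constructor
    · intro d d' h
      have : (e' d')⁻¹ * e' d ∈ MulAction.stabilizer D o := by
        rw [MulAction.mem_stabilizer_iff, mul_smul, inv_smul_eq_iff]; exact h
      rw [hreg, Subgroup.mem_bot, inv_mul_eq_one] at this
      exact (e'.injective this).symm
    · intro x
      obtain ⟨d, hd⟩ := MulAction.exists_smul_eq D o x
      obtain ⟨d, rfl⟩ := e'.surjective d
      exact ⟨d, hd⟩
  have hSR := CA.H4Dih.SR_of_action hprim φ o hbij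
  have key : ∃ z, ∀ g, g ≠ 1 → ∃ u : G, u • o = o ∧ u • φ g • o = φ z • o := by
    rcases subsingleton_or_nontrivial (Multiplicative (ZMod m)) with hs | hs
    · refine ⟨.s 1, ?_⟩
      rintro (c | c) hc
      · exact absurd (by rw [Subsingleton.elim c 1]; rfl) hc
      · exact ⟨1, one_smul _ _, by rw [Subsingleton.elim c 1, one_smul]⟩
    · obtain ⟨z, hz⟩ := hSR.triv
      exact ⟨_, hz⟩
  obtain ⟨z, hz⟩ := key
  refine (CA.PermMulti.two_iff_stab o).2 fun x y hx hy => ?_
  obtain ⟨x, rfl⟩ := hbij.2 x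
  obtain ⟨y, rfl⟩ := hbij.2 y
  obtain ⟨g, h1, h2⟩ := hz x (by rintro rfl; simp at hx)
  obtain ⟨g', h1', h2'⟩ := hz y (by rintro rfl; simp at hy)
  exact ⟨g'⁻¹ * g, by rw [mul_smul, h1, inv_smul_eq_iff, h1'],
    by rw [mul_smul, h2, inv_smul_eq_iff, h2']⟩

end Cfsg.Agent.S3572
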