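import Cfsg.Statements.S3575


set_option autoImplicit false
open Cfsg

namespace Cfsg.Agent.S3575

open Equiv Finset

section
variable {X Y : Type*} [Fintype X] [DecidableEq X] [Fintype Y] [DecidableEq Y] {r : ℕ} [hr : Fact r.Prime]

theorem supp_eq {σ : Perm X} (h : σ ^ r = 1) : #σ.support = σ.cycleType.card * r := by
  rw [← Perm.sum_cycleType, Perm.cycleType_of_pow_prime_eq_one h]; simp

theorem ex (n c : ℕ) (h : c * r ≤ n) : ∃ ρ : Perm (Fin n), ρ ^ r = 1 ∧ #ρ.support = c * r := by
  obtain ⟨g, hg⟩ := (Perm.exists_with_cycleType_iff (Fin n) (m := Multiset.replicate c r)).2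
    ⟨by simpa using h, fun a ha => Multiset.eq_of_mem_replicate ha ▸ hr.1.two_le⟩
  exact ⟨g, Perm.pow_prime_eq_one_iff.2 fun c hc => Multiset.eq_of_mem_replicate (hg ▸ hc), by
    rw [← Perm.sum_cycleType, hg]; simp⟩

theorem transfer {σ : Perm X} {τ : Perm Y} (hc : Fintype.card X = Fintype.card Y) (h1 : σ ^ r = 1) (h2 : τ ^ r = 1)
    (h : #σ.support = #τ.support) : ∃ e : X ≃ Y, ∀ x, e (σ x) = τ (e x) := by
  let e := Fintype.equivOfCardEq hc
  have h3 : e.permCongr σ ^ r = 1 := by
    rw [← permCongrHom_coe, ← map_pow, h1, map_one]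
  have h4 : #(e.permCongr σ).support = #σ.support := by
    refine (card_bij (fun x _ => e x) (fun x hx => ?_) (fun _ _ _ _ h => e.injective h) fun y hy => ?_).symm
    · simpa using hx
    · exact ⟨e.symm y, by simpa [Equiv.apply_eq_iff_eq_symm_apply] using hy, by simp⟩
  have h5 : (e.permCongr σ).cycleType = τ.cycleType := by
    rw [Perm.cycleType_of_pow_prime_eq_one h3, Perm.cycleType_of_pow_prime_eq_one h2,
      Nat.eq_of_mul_eq_mul_right hr.1.pos ((supp_eq h3).symm.trans ((h4.trans h).trans (supp_eq h2)))]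
  obtain ⟨k, hk⟩ := isConj_iff.1 (Perm.isConj_iff_cycleType_eq.2 h5)
  exact ⟨e.trans k, fun x => by simp [← hk]⟩

omit hr in
theorem split (s : Finset X) (m N : ℕ) (h : N ≤ #s * m) : ∃ c : X → ℕ, (∀ j, c j ≤ m) ∧ ∑ j ∈ s, c j = N := by
  induction s using Finset.induction_on generalizing N with
  | empty => exact ⟨0, fun _ => m.zero_le, by simpa [eq_comm] using h⟩
  | insert x s hx ih =>
    rw [card_insert_of_notMem hx, add_mul, one_mul] at h
    obtain ⟨c, h1, h2⟩ := ih (N - m) (by omega)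
    refine ⟨Function.update c x (min N m), fun j => ?_, ?_⟩
    · by_cases e : j = x
      · simp [e]
      · simpa [e] using h1 j
    · rw [sum_insert hx, sum_update_of_notMem hx, h2, Function.update_self]; omega

/-- the numerical condition -/
def Cond (a b r c : ℕ) : Prop := ∃ t, t * r ≤ b ∧ t * a ≤ c ∧ c ≤ t * a + (b - t * r) * (a / r)

theorem cond_of {a b c : ℕ} (ha : 0 < a) {σ : Perm X} (h1 : σ ^ r = 1) (h2 : #σ.support = c * r) {f : X → Fin b}
    (hf : ∀ j, Nat.card {x // f x = j} = a) {π : Perm (Fin b)} (h : ∀ x, f (σ x) = π (f x)) : Cond a b r c := by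
  have h3 : ∀ (n : ℕ) x, f ((σ ^ n) x) = (π ^ n) (f x) := fun n => by
    induction n with
    | zero => simp
    | succ n ih => intro x; rw [pow_succ', pow_succ', Perm.mul_apply, h, ih, Perm.mul_apply]
  have h4 : π ^ r = 1 := Equiv.ext fun j => by
    obtain ⟨⟨x, rfl⟩⟩ := (Nat.card_pos_iff.1 (hf j ▸ ha)).1
    rw [← h3, h1]; rfl
  have h5 := supp_eq h4
  have hf' : ∀ j, #{x | f x = j} = a := fun j => by rw [← hf j, Nat.card_eq_fintype_card, Fintype.card_subtype]
  have h6 := card_eq_sum_card_fiberwise (s := σ.support) (t := univ) (f := f) fun _ _ => mem_univ _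
  rw [← sum_add_sum_compl π.support, sum_congr rfl (g := fun _ => a) fun j hj => by
    rw [← hf' j]
    congr 1
    ext x
    simp only [mem_filter, mem_univ, true_and, and_iff_right_iff_imp, Perm.mem_support]
    rintro rfl e
    exact Perm.mem_support.1 hj (by rw [← h, e]), sum_const, smul_eq_mul, h5, h2] at h6
  have h7 := sum_le_card_nsmul π.supportᶜ (fun j => #{x ∈ σ.support | f x = j}) (a / r * r) fun j hj => by
    have e0 : π j = j := by simpa using hj
    have e1 : ∀ x, f (σ x) = j ↔ f x = j := fun x => by rw [h, ← e0, π.apply_eq_iff_eq, e0]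
    have e2 : #{x ∈ σ.support | f x = j} = #(σ.subtypePerm (p := fun x => f x = j) e1).support := by
      rw [← card_map (Function.Embedding.subtype _)]
      congr 1
      ext x
      simp only [mem_filter, Perm.mem_support, mem_map, Function.Embedding.coe_subtype, Subtype.exists,
        Perm.subtypePerm_apply, ne_eq, Subtype.mk.injEq, exists_and_left, exists_prop, exists_eq_right_right]
    have e3 : σ.subtypePerm (p := fun x => f x = j) e1 ^ r = 1 := by
      rw [Perm.subtypePerm_pow]; ext x; simp [h1]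
    have e4 : #{x ∈ σ.support | f x = j} ≤ a := hf' j ▸ card_le_card (by intro x; simp)
    rw [e2, supp_eq e3] at e4 ⊢
    exact Nat.mul_le_mul_right _ ((Nat.le_div_iff_mul_le hr.1.pos).2 e4)
  rw [card_compl, h5, Fintype.card_fin, smul_eq_mul] at h7
  have h8 := card_le_univ π.support
  rw [h5, Fintype.card_fin] at h8
  refine ⟨_, h8, Nat.le_of_mul_le_mul_right ?_ hr.1.pos, Nat.le_of_mul_le_mul_right ?_ hr.1.pos⟩
  · rw [h6, mul_right_comm]; exact Nat.le_add_right _ _
  · nlinarith

theorem of_cond {a b c : ℕ} (h : Cond a b r c) {σ : Perm (Fin (a * b))} (h1 : σ ^ r = 1) (h2 : #σ.support = c * r) :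
    ∃ f : Fin (a * b) → Fin b, (∀ j : Fin b, Nat.card {x // f x = j} = a) ∧
      ∃ π : Perm (Fin b), ∀ x, f (σ x) = π (f x) := by
  obtain ⟨t, h3, h4, h5⟩ := h
  obtain ⟨π, h6, h7⟩ := ex (r := r) b t h3
  obtain ⟨d, h8, h9⟩ := split π.supportᶜ (a / r) (c - t * a) (by rw [card_compl, h7, Fintype.card_fin]; omega)
  choose ρ e1 e2 using fun j => ex (r := r) a (d j) ((Nat.le_div_iff_mul_le hr.1.pos).1 (h8 j))
  let ρ' : Fin b → Perm (Fin a) := fun j => if π j = j then ρ j else 1
  have e3 : ∀ j, ρ' (π j) = ρ' j := fun j => by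
    by_cases e : π j = j
    · rw [e]
    · simp [ρ', e]
  let τ : Perm (Fin b × Fin a) := prodShear π ρ'
  have e4 : ∀ (n : ℕ) j x, (τ ^ n) (j, x) = ((π ^ n) j, (ρ' j ^ n) x) := fun n => by
    induction n with
    | zero => simp
    | succ n ih =>
      intro j x
      rw [pow_succ, pow_succ, pow_succ, Perm.mul_apply, Perm.mul_apply, Perm.mul_apply]
      exact (ih _ _).trans (by rw [e3])
  have e5 : τ ^ r = 1 := Equiv.ext fun ⟨j, x⟩ => by
    rw [e4, h6, show ρ' j ^ r = 1 by by_cases e : π j = j <;> simp [ρ', e, e1]]; rfl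
  have e6 : #τ.support = c * r := by
    have e7 : ∀ j, #{z ∈ τ.support | z.1 = j} = #{x | π j = j → ρ' j x ≠ x} := fun j =>
      (card_bij (fun x _ => (j, x)) (fun x hx => by simpa [τ, prodShear] using hx)
        (fun _ _ _ _ h => (Prod.ext_iff.1 h).2) fun ⟨i, x⟩ hz => by
          obtain ⟨hz, rfl⟩ := mem_filter.1 hz
          exact ⟨x, by simpa [τ, prodShear] using hz, rfl⟩).symm
    rw [card_eq_sum_card_fiberwise (t := univ) (f := Prod.fst) fun _ _ => mem_univ _,
      ← sum_add_sum_compl π.support, sum_congr rfl (g := fun _ => a) fun j hj => by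
        rw [e7]; simp [Perm.mem_support.1 hj],
      sum_congr (s₁ := π.supportᶜ) rfl (g := fun j => d j * r) fun j hj => by
        have e : π j = j := by simpa using hj
        rw [e7, ← e2]; congr 1; ext x; simp [ρ', e], ← sum_mul, h9, sum_const, h7, smul_eq_mul, mul_right_comm,
      ← add_mul, Nat.add_sub_cancel' h4]
  obtain ⟨e, he⟩ := transfer (σ := σ) (τ := τ) (by simp [mul_comm]) h1 e5 (h2.trans e6.symm)
  refine ⟨fun x => (e x).1, fun j => ?_, π, fun x => by simp only [he]; rfl⟩
  rw [Nat.card_congr (e.subtypeEquiv (q := fun z => z.1 = j) fun _ => Iff.rfl),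
    Nat.card_congr (Equiv.prodSubtypeFstEquivSubtypeProd (p := fun i => i = j))]
  simp

end

theorem arith {a b r : ℕ} (ha : 2 ≤ a) (hb : 2 ≤ b) (hr : 2 ≤ r) (hab : r ≤ a * b) :
    (∀ c, 1 ≤ c → c * r ≤ a * b → Cond a b r c) ↔ (r ≤ a ∧ (a % r = 0 ∨ (b % r = 0 ∧ a % r = 1) ∨
        (a % r ≠ 0 ∧ b % r ≠ 0 ∧ (b % r) * (a % r) < r ∧ (b < r ∨ (b % r + r) * (a % r) ≤ (b % r) * a + r)))) := by
  have h1 := Nat.div_add_mod a r
  have h2 := Nat.div_add_mod b r
  have h3 := Nat.mod_lt a (show 0 < r by omega)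
  have h4 := Nat.mod_lt b (show 0 < r by omega)
  unfold Cond
  generalize a / r = m at *
  generalize a % r = l at *
  generalize b / r = s at *
  generalize b % r = k at *
  have hs : ∀ t, t * r ≤ b → t ≤ s := fun t ht => by_contra fun e => by nlinarith
  have hu : ∀ t, t ≤ s → t * a + (b - t * r) * m = b * m + t * l := fun t ht => by
    obtain ⟨u, rfl⟩ := Nat.exists_eq_add_of_le ht
    rw [show b - t * r = u * r + k by rw [← h2]; ring_nf; omega, ← h1, ← h2]; ring
  have key : (∀ c, 1 ≤ c → c * r ≤ a * b → ∃ t, t * r ≤ b ∧ t * a ≤ c ∧ c ≤ t * a + (b - t * r) * m) ↔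
      1 ≤ m ∧ k * l < r ∧ (s = 0 ∨ l ≤ k * m + 1) := by
    refine ⟨fun h => ?_, fun ⟨e1, e2, e3⟩ c hc hc' => ?_⟩
    · have e1 : 1 ≤ m := by
        obtain ⟨t, e1, e2, e3⟩ := h 1 le_rfl (by omega)
        obtain rfl : t = 0 := by_contra fun e => by nlinarith [Nat.pos_of_ne_zero e]
        exact Nat.pos_of_ne_zero (by rintro rfl; simp at e3)
      refine ⟨e1, by_contra fun e => ?_, by_contra fun e => ?_⟩
      · obtain ⟨t, e2, -, e3⟩ := h (b * m + s * l + 1) (by omega) (by rw [← h1, ← h2]; nlinarith)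
        rw [hu t (hs t e2)] at e3
        nlinarith [hs t e2]
      · push Not at e
        obtain ⟨s, rfl⟩ := Nat.exists_eq_succ_of_ne_zero e.1
        have e4 : b * m + s * l + 1 < (s + 1) * a := by rw [← h1, ← h2]; nlinarith
        obtain ⟨t, e2, e5, e3⟩ := h (b * m + s * l + 1) (by omega) (by nlinarith)
        rw [hu t (hs t e2)] at e3
        have : t ≤ s := by_contra fun e => by nlinarith
        nlinarith
    · by_cases e : s * a ≤ c
      · refine ⟨s, by nlinarith, e, ?_⟩
        rw [hu s le_rfl]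
        by_contra e4
        have e5 := Nat.mul_le_mul_right r (not_le.1 e4)
        subst h1 h2
        nlinarith
      · have e4 := Nat.div_add_mod c a
        have e5 := Nat.mod_lt c (show 0 < a by omega)
        have e6 : c / a < s := (Nat.div_lt_iff_lt_mul (by omega)).2 (not_le.1 e)
        generalize c / a = t at *
        obtain ⟨u, rfl⟩ := Nat.exists_eq_add_of_lt e6
        refine ⟨t, by nlinarith, by rw [mul_comm]; omega, ?_⟩
        rw [hu t (by omega)]
        have e7 := e3.resolve_left (by omega)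
        have e8 : (t + 1) * a ≤ b * m + t * l + 1 := by rw [← h1, ← h2]; nlinarith [Nat.zero_le (r * u * m)]
        nlinarith
  rw [key]
  have e1 : r ≤ a ↔ 1 ≤ m := ⟨fun e => Nat.pos_of_ne_zero (by rintro rfl; omega), fun e => by nlinarith⟩
  have e2 : b < r ↔ s = 0 := ⟨fun e => by_contra fun e' => by nlinarith [Nat.pos_of_ne_zero e'],
    by rintro rfl; omega⟩
  have e3 : (k + r) * l ≤ k * a + r ↔ l ≤ k * m + 1 := by
    rw [← h1]; exact ⟨fun e => by nlinarith, fun e => by nlinarith⟩
  rw [e1, e2, e3]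
  refine and_congr_right fun _ => ⟨fun ⟨e4, e5⟩ => ?_, ?_⟩
  · by_cases e6 : l = 0
    · exact Or.inl e6
    by_cases e7 : k = 0
    · subst e7
      exact Or.inr (Or.inl ⟨rfl, by rcases e5 with rfl | e5 <;> omega⟩)
    · exact Or.inr (Or.inr ⟨e6, e7, e4, e5⟩)
  · rintro (rfl | ⟨rfl, rfl⟩ | ⟨-, -, e4⟩)
    · exact ⟨by omega, Or.inr (by omega)⟩
    · exact ⟨by omega, Or.inr (by omega)⟩
    · exact e4


/-- Let a, b ≥ 2 and consider the symmetric group of degree a·b acting on the partitions of an (a·b)-set into b parts of size a (encoded as maps onto a b-element set all of whose fibres have a elements; a permutation fixes such a partition when it permutes the fibres). Let r be a prime dividing the number (ab)!/((a!)^b·b!) of such partitions, and let ℓ and k be the remainders of a and b modulo r. Then every permutation of order r fixes some such partition if and only if r ≤ a and one of the following holds: ℓ = 0; or k = 0 and ℓ = 1; or ℓ and k are non-zero, k·ℓ < r, and either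 b < r or (k + r)·ℓ ≤ k·a + r. -/
theorem result (a b : ℕ) (ha : 2 ≤ a) (hb : 2 ≤ b) (r : ℕ) (hr : r.Prime)
    (hrd : r ∣ (a * b).factorial / (a.factorial ^ b * b.factorial)) :
    (∀ σ : Equiv.Perm (Fin (a * b)), orderOf σ = r →
        ∃ f : Fin (a * b) → Fin b, (∀ j : Fin b, Nat.card {x : Fin (a * b) // f x = j} = a) ∧
          ∃ π : Equiv.Perm (Fin b), ∀ x : Fin (a * b), f (σ x) = π (f x)) ↔
      (r ≤ a ∧ (a % r = 0 ∨ (b % r = 0 ∧ a % r = 1) ∨
        (a % r ≠ 0 ∧ b % r ≠ 0 ∧ (b % r) * (a % r) < r ∧ (b < r ∨ (b % r + r) * (a % r) ≤ (b % r) * a + r)))) := by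
  haveI := Fact.mk hr
  rw [← arith ha hb hr.two_le (hr.dvd_factorial.1 (hrd.trans (Nat.div_dvd_of_dvd ?_)))]
  · refine ⟨fun h c h1 h2 => ?_, fun h σ hσ => ?_⟩
    · obtain ⟨σ, h3, h4⟩ := ex (r := r) _ c h2
      obtain ⟨f, h5, π, h6⟩ := h σ (orderOf_eq_prime h3 fun e => by
        rw [e, Perm.support_one, card_empty] at h4
        exact (Nat.mul_pos h1 hr.pos).ne h4)
      exact cond_of (by omega) h3 h4 h5 h6
    · have h1 : σ ^ r = 1 := hσ ▸ pow_orderOf_eq_one σ
      have h2 := supp_eq h1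
      refine of_cond (h _ (Perm.card_cycleType_pos.2 fun e => ?_) ?_) h1 h2
      · rw [e, orderOf_one] at hσ; exact hr.one_lt.ne hσ
      · rw [← h2]; simpa using card_le_univ σ.support
  · exact ⟨_, by rw [mul_comm a b, ← Nat.uniformBell_mul_eq b (n := a) (by omega)]; ring⟩

end Cfsg.Agent.S3575
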