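import Cfsg.Statements.S3589
import Cfsg.Agent.Lib.Lin.SpecE

set_option autoImplicit false
open Cfsg

namespace Cfsg.Agent.S3589

open CA.CForm CA.CForm.Form CA.Rcf Module Polynomial in
/-- Let F be a finite field of characteristic 2 and let a, b ∈ F make the binary form z₁² + a z₁z₂ + b z₂² anisotropic. Then the symplectic group PSp(8,F) (= Sp(8,F)) and the full isometry group of the non-singular quadratic form x₁y₁ + x₂y₂ + x₃y₃ + (z₁² + a z₁z₂ + b z₂²) of minus type in dimension 8 have the same set of element orders. -/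
theorem result {F : Type*} [Field F] [Fintype F]
    [CharP F 2] (a b : F) (han : ∀ z₁ z₂ : F, z₁ ^ 2 + a * z₁ * z₂ + b * z₂ ^ 2 = 0 → z₁ = 0 ∧ z₂ = 0) :
    Set.range (orderOf : Cfsg.PSp 4 F → ℕ) = Set.range (orderOf : ↥(Cfsg.isometryGroup F (Cfsg.quadFormMinus 3 F a b)) → ℕ) := by
  have h2 : (2 : F) = 0 := CharTwo.two_eq_zero
  have hf := minusForm_nondeg 3 han
  ext o
  rw [psp_spec 2 (by omega), ← minusForm_Q, range_orderOf_congr (orthEquiv (minusForm 3 a b))]
  constructor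
  · rintro ⟨_ | j, N, S, h1, h3, h4, h5, h6⟩
    · obtain ⟨g, -, hg⟩ := hf.exists_four (finrank_minus 3) (minusForm_not_isIndex han) h1 (by omega) h5
        fun _ _ h => (not_odd_card h2 h).elim
      exact mem_range_of_dvd g (h4.trans (by simpa))
    obtain ⟨i, k1, -, k2⟩ := exists_even_between 2 (j := j) (b := 4 - wt S) (by simp [cst] at h3; omega)
    obtain ⟨W, _, _, _, f', g, hf', h7, -, h8, -⟩ := (RO.multi (F := F) h1).add (RO.one (4 - wt S - (i + 1)))
    obtain ⟨g', h9⟩ := hf.exists_block hf' h2 (i := i) (by rw [finrank_minus]; omega) h7 g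
    refine mem_range_of_dvd g' (h4.trans ((((coprime_tl 2 h1).coprime_dvd_left h5).pow_right
      _).mul_dvd_of_dvd_of_dvd (h5.trans ((Nat.dvd_lcm_left _ _).trans (h8.symm.dvd.trans
        (orderOf_dvd_of_edivs h9)))) ?_))
    exact Subgroup.orderOf_coe g' ▸ pow_dvd_orderOf 2 (by simp [h9]) k1
  · rintro ⟨g, rfl⟩
    obtain ⟨h3, h4⟩ := (real_orth_iff_two h2).1 ⟨_, _, _, inferInstance, _, g, hf, rfl⟩
    obtain ⟨g', hg⟩ := (sympStd_nondeg F 4).symp_exists_iff.2 ⟨h3, h4, by simp [sum_natDegree_edivs]⟩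
    obtain ⟨M, c, h5, h6, h7⟩ := (sympStd_nondeg F 4).symp_upper 2 (finrank_plus 4) (by omega) g'
    obtain rfl : c = 1 := (mul_self_eq_one_iff.1 h5).elim id fun h => h.trans (CharTwo.neg_eq 1)
    exact h6.of_dvd (orderOf_dvd_of_pow_eq_one (Subtype.ext ((pow_eq_one_iff g.1 M).2 (hg ▸ h7))))

end Cfsg.Agent.S3589
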