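import Cfsg.Statements.S3593
import Cfsg.Agent.Lib.Block.H7M12g
import Cfsg.Agent.Lib.Grp.H28Nse
import Cfsg.Agent.Lib.Spor.M24Sub

set_option autoImplicit false
open Cfsg

namespace Cfsg.Agent.S3593

open Subgroup CA.H28M11 CA.H28Nse CA.H28Syl CA.H28SC CA.H28Simp CA.M24Sub

theorem nse {K : Type*} [Group K] [Finite K] [IsSimpleGroup K] (h : Nat.card K = 95040) (n : ℕ)
    {c : ℕ} (hc : c = Nat.card {g : K // orderOf g = n}) : c = 1 ∨ c = 17280 ∨ 11 ∣ c := by
  subst hc
  by_cases h1 : n = 1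
  · simp [h1]
  by_cases h2 : n = 11
  · obtain ⟨x, hx⟩ := exists_prime_orderOf_dvd_card' (G := K) 11 (by rw [h]; decide)
    have := (CA.H7M12.sc11 h hx).1.card_eq
    rw [(CA.H7M12.sc11 h hx).2] at this
    rw [h2, card_ord (by rw [h]; decide) (by rw [h]; decide)]
    omega
  refine Or.inr (Or.inr (dvd_card_ord fun g hg => ?_))
  have h4 : g ≠ 1 := fun e => h1 (by rw [← hg, e, orderOf_one])
  exact dvd_index_CC (fun y hy => (CA.H7M12.sc11 h hy).1) (by rw [h]; decide) h4 (hg ▸ h2)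

/-- Let M be the Mathieu group M₁₂ (order 95040). If a finite group G has the same order as M and the same set of values of the function 'number of elements of order n' (taken over the element orders n that occur), then G is isomorphic to M. -/
theorem result {G : Type*} [Group G] [Finite G]
    (hcard : Nat.card G = Nat.card ↥Cfsg.Spor.M12)
    (hnse : {c : ℕ | 0 < c ∧ ∃ n : ℕ, c = Nat.card {g : G // orderOf g = n}} =
      {c : ℕ | 0 < c ∧ ∃ n : ℕ, c = Nat.card {g : ↥Cfsg.Spor.M12 // orderOf g = n}}) :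
    Nonempty (G ≃* ↥Cfsg.Spor.M12) := by
  have := simple_M12
  rw [card_M12] at hcard
  have key : ∀ p : ℕ, ∀ [Fact p.Prime], p ∣ 95040 → ¬ p ^ 2 ∣ 95040 → ∀ c,
      c = Nat.card (Sylow p G) * (p - 1) → c = 1 ∨ c = 17280 ∨ 11 ∣ c := by
    intro p hp h1 h2 c hc
    obtain ⟨-, n, hn⟩ := hnse.le (show c ∈ _ from ⟨hc ▸ Nat.mul_pos Nat.card_pos
      (Nat.sub_pos_of_lt hp.out.one_lt), p, by rw [hc, card_ord (hcard ▸ h1) (hcard ▸ h2)]⟩)
    exact nse card_M12 n hn
  have h1 : Nat.card (Sylow 11 G) = 1728 := by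
    have h1 := key 11 (by decide) (by decide) _ rfl
    have h3 : Nat.card (Sylow 11 G) % 11 = 1 := card_sylow_modEq_one 11 G
    omega
  have h2 : ¬ 11 * Nat.card (Sylow 5 G) ∣ Nat.card G := fun e => by
    have h1 := key 5 (by decide) (by decide) _ rfl
    have h3 : Nat.card (Sylow 5 G) % 5 = 1 := card_sylow_modEq_one 5 G
    have h4 : 11 ∣ Nat.card (Sylow 5 G) := by omega
    have := (Nat.mul_dvd_mul_left 11 h4).trans e
    rw [hcard] at this
    omega
  have h3 : ∀ x : G, orderOf x = 11 → SC 11 x ∧ ee x = 5 := fun x hx => by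
    have h3 := isSylGen_of_not_sq_dvd hx (by rw [hcard]; decide)
    have h4 := h3.card_eq
    have h5 := mt (dvd_of_VV h3 (q := 5) · (by rw [hcard]; decide)) h2
    rw [hcard, h1] at h4
    have h6 : Nat.card (VV 11 x) * ee x = 5 := by linarith
    have h7 := ((Nat.dvd_prime fact5.out).1 ⟨_, h6.symm⟩).resolve_right fun e => h5 e.symm.dvd
    exact ⟨sc_of_VV h3 (Subgroup.card_eq_one.1 h7), by rwa [h7, one_mul] at h6⟩
  obtain ⟨x, hx⟩ := exists_prime_orderOf_dvd_card' (G := G) 11 (by rw [hcard]; decide)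
  have := simple_of_sc (fun y hy => (h3 y hy).1) hx ((h3 x hx).2 ▸ fact5.out) (by omega)
    (h1 ▸ pow_check (B := 11) (by decide) (by decide) (by decide +kernel))
  exact CA.H7M12.uniq hcard card_M12

end Cfsg.Agent.S3593
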