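import Cfsg.Statements.S3619
import Mathlib
import Cfsg.Agent.Lib.Perm.JSet

set_option autoImplicit false
open Cfsg

namespace Cfsg.Agent.S3619

open MulAction CA.PermMulti CA.JSet in

/-- Let G act faithfully on a finite set in such a way that every non-trivial normal subgroup of G is transitive (G is quasiprimitive). Let Γ be a subset with more than one point and not the whole set, such that the pointwise stabilizer of the complement of Γ acts transitively on Γ (a Jordan set). If that pointwise stabilizer acts primitively on Γ, then G is k-fold transitive where k is one more than the number of points outside Γ (the Jordan set is a trivial one). -/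
theorem result {G Ω : Type*} [Group G] [Finite G] [MulAction G Ω] [FaithfulSMul G Ω] [Finite Ω]
    (hqp : ∀ N : Subgroup G, N.Normal → N ≠ ⊥ → MulAction.IsPretransitive ↥N Ω)
    (Γ : Set Ω) (hΓ1 : 1 < Γ.ncard) (hΓ2 : Γ.ncard < Nat.card Ω)
    (hJ : MulAction.IsPretransitive ↥(fixingSubgroup G Γᶜ) ↥(SubMulAction.ofFixingSubgroup G Γᶜ))
    (hJp : MulAction.IsPreprimitive ↥(fixingSubgroup G Γᶜ) ↥(SubMulAction.ofFixingSubgroup G Γᶜ)) :
    MulAction.IsMultiplyPretransitive G Ω (Nat.card Ω - Γ.ncard + 1) := by
  classical
  have := Fintype.ofFinite Ω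
  have h1 : Jd G Γ.toFinset := by
    simpa [Jd] using fun x a y b => pretransitive_fixing_iff.1 hJ x y (by simpa) (by simpa)
  have h2 : 1 < Γ.toFinset.card := Set.ncard_eq_toFinset_card' Γ ▸ hΓ1
  have := qp_trans hqp h1 h2
  have h3 : IsPreprimitive G Ω := prim_of_rel fun r hr hi => by_contra fun H => by
    obtain ⟨h3, h4⟩ := not_or.1 H
    obtain ⟨-, h6, h7⟩ := qp hqp h1 h2 hr hi h4
    rcases prim_fixing_rel hJp r hr fun g _ => hi g with h | h
    · obtain ⟨p, hp⟩ := Finset.card_pos.1 (zero_lt_one.trans h2)
      refine h3 fun x y e => ?_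
      obtain ⟨g, rfl⟩ := exists_smul_eq G x p
      exact MulAction.injective g (h _ _ (by simpa using hp) (by simpa using h7 _ hp _ (hi g _ _ e)) (hi g _ _ e))
    · exact h6 fun x a y b => h x y (by simpa using a) (by simpa using b)
  have h4 := Set.ncard_add_ncard_compl Γ
  have := (h3.isMultiplyPreprimitive (n := Nat.card Ω - Γ.ncard - 1) (by omega) (by omega) hJp).isMultiplyPretransitive
  rwa [show Nat.card Ω - Γ.ncard - 1 + 2 = Nat.card Ω - Γ.ncard + 1 by omega] at this

end Cfsg.Agent.S3619
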