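import Cfsg.Statements.S3627
import Cfsg.Agent.Lib.Walt.J1G
import Mathlib.GroupTheory.SpecificGroups.Dihedral

set_option autoImplicit false
open Cfsg

namespace Cfsg.Agent.S3627

def ε : DihedralGroup 7 → Bool
  | .r _ => false
  | .sr _ => true

theorem ε_spec : ∀ a b : DihedralGroup 7, ε (a * b) = xor (ε a) (ε b) ∧ ε a⁻¹ = ε a ∧
    (ε a = false → a ^ 7 = 1) ∧ (ε a = true → a ^ 2 = 1) := by decide +kernel

def D (k : ℕ) : Subgroup (Fin (k + 1) → DihedralGroup 7) where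
  carrier := {f | ∀ i, ε (f i) = ε (f 0)}
  mul_mem' := fun {a b} ha hb i => by
    simp only [Pi.mul_apply, (ε_spec _ _).1, ha i, hb i]
  one_mem' := fun _ => rfl
  inv_mem' := fun {a} ha i => by simp only [Pi.inv_apply, (ε_spec _ 1).2.1, ha i]

theorem D_ord {k : ℕ} (d : D k) : orderOf d ∈ [1, 2, 7] := by
  cases h : ε (d.1 0)
  · have : d ^ 7 = 1 := Subtype.ext (funext fun i => (ε_spec _ 1).2.2.1 ((d.2 i).trans h))
    rcases (Nat.dvd_prime (by norm_num)).1 (orderOf_dvd_of_pow_eq_one this) with e | e <;> simp [e]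
  · have : d ^ 2 = 1 := Subtype.ext (funext fun i => (ε_spec _ 1).2.2.2 ((d.2 i).trans h))
    rcases (Nat.dvd_prime (by norm_num)).1 (orderOf_dvd_of_pow_eq_one this) with e | e <;> simp [e]

theorem D_ex (k : ℕ) {n : ℕ} (hn : n ∈ [1, 2, 7]) : ∃ d : D k, orderOf d = n := by
  have key : ∀ (a : DihedralGroup 7) (p : ℕ), p.Prime → a ^ p = 1 → a ≠ 1 → ∃ d : D k, orderOf d = p := by
    intro a p hp h1 h2
    have := Fact.mk hp
    exact ⟨⟨fun _ => a, fun _ => rfl⟩, orderOf_eq_prime (Subtype.ext (funext fun _ => h1))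
      fun e => h2 (congrFun (congrArg Subtype.val e) 0)⟩
  simp only [List.mem_cons, List.not_mem_nil, or_false] at hn
  rcases hn with rfl | rfl | rfl
  · exact ⟨1, orderOf_one⟩
  · exact key (.sr 0) 2 (by norm_num) (by decide) (by decide)
  · exact key (.r 1) 7 (by norm_num) (by decide) (by decide)

theorem D_card (k : ℕ) : k < Nat.card (D k) := by
  have := Nat.card_le_card_of_injective (fun f : Fin (k + 1) → ZMod 7 =>
    (⟨fun i => .r (f i), fun _ => rfl⟩ : D k)) fun a b e => funext fun i =>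
      DihedralGroup.r.inj (congrFun (congrArg Subtype.val e) i)
  rw [Nat.card_fun, Nat.card_zmod, Nat.card_eq_fintype_card, Fintype.card_fin] at this
  exact (Nat.lt_succ_self k).trans ((Nat.lt_pow_self (by norm_num)).trans_le this)

def A : List ℕ := [1, 2, 3, 5, 6, 7, 10, 11, 15, 19]
def L : List ℕ := [1, 2, 3, 5, 6, 7, 10, 11, 14, 15, 19, 21, 22, 30, 33, 35, 38, 42, 55, 57, 66, 70, 77, 95, 105, 110, 114, 133, 154, 165, 190, 209, 210, 231, 266, 285, 330, 385, 399, 418, 462, 570, 627, 665, 770, 798, 1045, 1155, 1254, 1330, 1463, 1995, 2090, 2310, 2926, 3135, 3990, 4389, 6270, 7315, 8778, 14630, 21945]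
def W : List (ℕ × ℕ × ℕ × ℕ) := [(1, 1, 1, 1), (1, 1, 1, 2), (1, 1, 3, 1), (1, 1, 5, 1), (1, 1, 3, 2), (1, 1, 1, 7), (1, 1, 5, 2), (1, 1, 11, 1), (1, 1, 2, 7), (1, 1, 15, 1), (1, 1, 19, 1), (1, 1, 3, 7), (1, 1, 11, 2), (1, 1, 15, 2), (1, 3, 11, 1), (1, 1, 5, 7), (1, 1, 19, 2), (1, 1, 6, 7), (1, 5, 11, 1), (1, 3, 19, 1), (1, 3, 11, 2), (1, 1, 10, 7), (1, 1, 11, 7), (1, 5, 19, 1), (1, 1, 15, 7), (1, 5, 11, 2), (1, 3, 19, 2), (1, 1, 19, 7), (1, 2, 11, 7), (1, 11, 15, 1), (1, 5, 19, 2), (1, 11, 19, 1), (1, 2, 15, 7), (1, 3, 11, 7), (1, 2, 19, 7), (1, 15, 19, 1), (1, 11, 15, 2), (1, 5, 11, 7), (1, 3, 19, 7), (1, 11, 19, 2), (1, 6, 11, 7), (1, 15, 19, 2), (3, 11, 19, 1), (1, 5, 19, 7), (1, 10, 11, 7), (1, 6, 19, 7), (5, 11, 19, 1), (1, 11, 15, 7), (3, 11, 19, 2), (1, 10, 19, 7), (1, 11, 19, 7), (1, 15, 19, 7), (5, 11, 19, 2), (2, 11, 15, 7), (2, 11, 19, 7), (11, 15, 19, 1), (2, 15, 19,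 7), (3, 11, 19, 7), (11, 15, 19, 2), (5, 11, 19, 7), (6, 11, 19, 7), (10, 11, 19, 7), (11, 15, 19, 7)]

theorem a1 : ∀ a ∈ A, ∀ b ∈ A, ∀ c ∈ A, ∀ d ∈ A, a.lcm (b.lcm (c.lcm d)) ∈ L := by decide +kernel
theorem a2 : ∀ n ∈ L, ∃ w ∈ W, w.1 ∈ A ∧ w.2.1 ∈ A ∧ w.2.2.1 ∈ A ∧ w.2.2.2 ∈ [1, 2, 7] ∧
    w.1.lcm (w.2.1.lcm (w.2.2.1.lcm w.2.2.2)) = n := by decide +kernel

/-- Let J be the first Janko group. Then there are finite groups of arbitrarily large order with exactly the same set of element orders as J × J × J × J. -/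
theorem result (N : ℕ) : ∃ (H : Type) (_ : Group H) (_ : Fintype H), N < Fintype.card H ∧
      Set.range (orderOf : H → ℕ) = Set.range (orderOf : ↥Cfsg.Spor.J1 × ↥Cfsg.Spor.J1 × ↥Cfsg.Spor.J1 × ↥Cfsg.Spor.J1 → ℕ) := by
  have J := CA.J1.jt_J1
  refine ⟨↥Cfsg.Spor.J1 × ↥Cfsg.Spor.J1 × ↥Cfsg.Spor.J1 × D N, inferInstance, Fintype.ofFinite _, ?_, ?_⟩
  · rw [← @Nat.card_eq_fintype_card _ (Fintype.ofFinite _)]
    exact (D_card N).trans_le (Nat.card_le_card_of_injective (fun d => (1, 1, 1, d))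
      fun a b e => congrArg (fun x => x.2.2.2) e)
  · ext n
    constructor
    · rintro ⟨⟨a, b, c, d⟩, rfl⟩
      obtain ⟨e, he⟩ := J.ex_order ((by decide : ∀ n ∈ [1, 2, 7], n ∈ A) _ (D_ord d))
      exact ⟨(a, b, c, e), by simp only [Prod.orderOf_mk, he]⟩
    · rintro ⟨⟨a, b, c, d⟩, rfl⟩
      obtain ⟨w, -, h1, h2, h3, h4, h5⟩ := a2 _ (a1 _ (J.orders a) _ (J.orders b) _ (J.orders c) _ (J.orders d))
      obtain ⟨a', e1⟩ := J.ex_order h1
      obtain ⟨b', e2⟩ := J.ex_order h2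
      obtain ⟨c', e3⟩ := J.ex_order h3
      obtain ⟨d', e4⟩ := D_ex N h4
      exact ⟨(a', b', c', d'), by simp only [Prod.orderOf_mk, e1, e2, e3, e4, h5]⟩

end Cfsg.Agent.S3627
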