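import Cfsg.Statements.S3639
import Cfsg.Agent.Lib.Lie.SzSub
import Cfsg.Agent.Lib.Lie.SzModel

set_option autoImplicit false
open Cfsg

namespace Cfsg.Agent.S3639

open Matrix CA.SzBasic CA.SzGroup CA.SzTori CA.SzSub CA.TorusCount Subgroup in
theorem fpf {F : Type*} [Field F] [Fintype F] {m : ℕ} [hy : Hyp F m] {x : G F} (hp : (orderOf x).Prime)
    (h2 : orderOf x ≠ 2) {v : Fin 4 → F} (hv : mat x *ᵥ v = v) : v = 0 := by
  have h1 : x ≠ 1 := fun e => by simp [e, Nat.not_prime_one] at hp
  rcases cases_elt h1 with h | ⟨-, g, μ, h⟩ | hx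
  · exact absurd ((Nat.prime_dvd_prime_iff_eq hp Nat.prime_two).1
      (hp.dvd_of_dvd_pow (n := 2) (orderOf_dvd_of_pow_eq_one (pow_four h)))) h2
  · have h' : D μ = g * x * g⁻¹ := h
    have hμ : μ ≠ 1 := fun e => conj_ne_one h1 g (by rw [← h', e, D_one])
    have hμ' : (μ : F) ≠ 1 := fun e => hμ (Units.ext e)
    have e : mat (D μ) *ᵥ (mat g *ᵥ v) = mat g *ᵥ v := by
      rw [mulVec_mulVec, ← mat_mul, h', inv_mul_cancel_right, mat_mul, ← mulVec_mulVec, hv]
    have e0 : mat g *ᵥ v = 0 := by
      generalize mat g *ᵥ v = w at e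
      have h3 : th F μ * μ ≠ 1 := fun e => hμ' (eq_one_of_mul_th (by rw [mul_comm, e]))
      have k : ∀ (c : F) (i : Fin 4), c ≠ 1 → c * w i = w i → w i = 0 := fun c i hc e => by
        by_contra h0
        exact hc (mul_right_cancel₀ h0 (by rw [e, one_mul]))
      rw [mat_D] at e
      ext i
      have := congrFun e i
      rw [mulVec_diagonal] at this
      refine k _ i ?_ this
      fin_cases i
      · exact h3
      · exact hμ'
      · exact inv_ne_one.2 hμ'
      · exact inv_ne_one.2 h3
    have : mat g⁻¹ *ᵥ (mat g *ᵥ v) = v := by rw [mulVec_mulVec, ← mat_mul, inv_mul_cancel, mat_one, one_mulVec]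
    rw [← this, e0, mulVec_zero]
  · let M : Module.End F (Fin 4 → F) := Matrix.toLinAlgEquiv' (mat x)
    have hd : orderOf x ∣ (2 ^ (2 * m + 1)) ^ 2 + 1 :=
      ((centralizer {x}).orderOf_dvd_natCard (mem_centralizer_singleton_iff.2 rfl)).trans (card_cent_dvd hx)
    have h2' : ¬ orderOf x ∣ 2 := fun h => h2 ((Nat.prime_dvd_prime_iff_eq hp Nat.prime_two).1 h)
    have hM1 : M ≠ 1 := fun e => h1 (mat_injective (Matrix.toLinAlgEquiv'.injective (by rw [mat_one, map_one]; exact e)))
    have hpow : ∀ n : ℕ, mat (x ^ n) = mat x ^ n := fun n => by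
      induction n with
      | zero => simp [mat_one]
      | succ n ih => rw [pow_succ, pow_succ, mat_mul, ih]
    rcases CA.Singer.irreducible_of_prime (M := M) hp
      (by rw [← map_pow, ← hpow, pow_orderOf_eq_one, mat_one, map_one]) hM1
      (by rw [Ne, CharP.cast_eq_zero_iff F 2]; exact fun e => h2 ((Nat.prime_dvd_prime_iff_eq Nat.prime_two hp).1 e).symm)
      (by
        intro k hk0 hk4 h
        rw [Module.finrank_fin_fun] at hk4
        rw [card_F] at h
        generalize 2 ^ (2 * m + 1) = q at *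
        generalize orderOf x = p at *
        have h3 : ((q : ZMod p)) ^ k = 1 := by
          have := (ZMod.natCast_eq_natCast_iff _ _ _).2 h
          simpa using this
        have h4 : ((q : ZMod p)) ^ 2 + 1 = 0 := by
          have := (ZMod.natCast_eq_zero_iff _ _).2 hd
          simpa using this
        apply h2'
        rw [← ZMod.natCast_eq_zero_iff]
        interval_cases k <;> grind) (LinearMap.eqLocus M 1) (fun w hw => by
          have : M w = w := hw
          show M (M w) = M w
          rw [this, this]) with e | e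
    · have : v ∈ LinearMap.eqLocus M 1 := hv
      simpa [e] using this
    · exact absurd (LinearMap.ext fun w => (e ▸ Submodule.mem_top : w ∈ LinearMap.eqLocus M 1)) hM1

open Matrix CA.SzBasic in
/-- left multiplication on `4 × n` matrices -/
def act {F : Type*} [Field F] [Fintype F] {m : ℕ} [Hyp F m] (n : ℕ) :
    G F →* MulAut (Multiplicative (Matrix (Fin 4) (Fin n) F)) :=
  MonoidHom.mk' (fun g =>
    { toFun := fun v => .ofAdd (mat g * v.toAdd)
      invFun := fun v => .ofAdd (mat g⁻¹ * v.toAdd)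
      left_inv := fun v => by simp [← Matrix.mul_assoc, ← mat_mul, mat_one]
      right_inv := fun v => by simp [← Matrix.mul_assoc, ← mat_mul, mat_one]
      map_mul' := fun v w => by simp [Matrix.mul_add] }) fun g h => by
    ext v : 1
    simp [mat_mul, Matrix.mul_assoc]

/-- Let S be the Suzuki group over the field with q = 2^(2m+1) ≥ 8 elements. Then there are finite groups of arbitrarily large order with the same prime graph as S. -/
theorem result {F : Type*} [Field F] [Fintype F] {m : ℕ} (hm : 1 ≤ m) (hF : Fintype.card F = 2 ^ (2 * m + 1)) (N : ℕ) :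
    ∃ (H : Type) (_ : Group H) (_ : Fintype H), N < Fintype.card H ∧ ((∀ r : ℕ, r.Prime → (r ∣ Nat.card ↥(Cfsg.Lie.Sz F (2 ^ (m + 1))) ↔ r ∣ Nat.card H)) ∧
      (∀ r s : ℕ, r.Prime → s.Prime → r ≠ s → ((∃ x : ↥(Cfsg.Lie.Sz F (2 ^ (m + 1))), orderOf x = r * s) ↔ (∃ y : H, orderOf y = r * s)))) := by
  open Matrix CA.SzBasic CA.SzGroup CA.SzModel in
  haveI : Hyp F m := ⟨hm, hF⟩
  let V := Multiplicative (Matrix (Fin 4) (Fin N) F)
  let H := SemidirectProduct V (G F) (act N)
  haveI : Finite H := Finite.of_equiv _ SemidirectProduct.equivProd.symm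
  have hV : Nat.card V = (2 ^ (2 * m + 1)) ^ (4 * N) := by
    show Nat.card (Fin 4 → Fin N → F) = _
    simp only [Nat.card_pi, Finset.prod_const, Finset.card_univ, Fintype.card_fin, card_F, ← pow_mul]
    congr 1
    ring
  have hc : Nat.card H = Nat.card V * Nat.card (G F) := SemidirectProduct.card
  let e : Shrink.{0} H ≃* H := Shrink.mulEquiv
  have e' := szEquiv F
  haveI : Finite (Shrink.{0} H) := Finite.of_equiv _ e.toEquiv.symm
  have v2 : ∀ v : V, v ^ 2 = 1 := fun v => by
    rw [sq]
    show Multiplicative.ofAdd (v.toAdd + v.toAdd) = Multiplicative.ofAdd 0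
    congr 1
    ext i j
    exact add_self _
  refine ⟨Shrink.{0} H, inferInstance, Fintype.ofFinite _, ?_, fun r hr => ?_, fun r s hr hs hrs => ⟨?_, ?_⟩⟩
  · rw [← @Nat.card_eq_fintype_card _ (Fintype.ofFinite _), Nat.card_congr e.toEquiv, hc, hV, ← pow_mul]
    calc N < 2 ^ N := Nat.lt_two_pow_self
      _ ≤ 2 ^ ((2 * m + 1) * (4 * N)) := Nat.pow_le_pow_right two_pos (by nlinarith)
      _ ≤ _ := Nat.le_mul_of_pos_right _ Nat.card_pos
  · rw [Nat.card_congr e.toEquiv, ← Nat.card_congr e'.toEquiv, hc, hr.dvd_mul, hV]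
    refine ⟨.inr, fun h => h.elim (fun h => ?_) id⟩
    rw [card_G]
    exact ((hr.dvd_of_dvd_pow h).trans (dvd_pow_self _ two_ne_zero)).trans (Dvd.intro _ (mul_assoc _ _ _).symm)
  · rintro ⟨x, hx⟩
    exact ⟨e.symm (.inr (e'.symm x)), by
      rw [MulEquiv.orderOf_eq, orderOf_injective _ SemidirectProduct.inr_injective, MulEquiv.orderOf_eq, hx]⟩
  · rintro ⟨y', hy⟩
    rw [← e.orderOf_eq] at hy
    generalize e y' = y at hy
    refine ⟨e' y.right, ?_⟩
    rw [MulEquiv.orderOf_eq]
    set g := y.right with hg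
    have h1 : orderOf g ∣ r * s := hy ▸ orderOf_map_dvd SemidirectProduct.rightHom y
    obtain ⟨v, hv⟩ : y ^ orderOf g ∈ (SemidirectProduct.inl : V →* H).range := by
      rw [SemidirectProduct.range_inl_eq_ker_rightHom, MonoidHom.mem_ker, map_pow]
      exact pow_orderOf_eq_one g
    have h2 : r * s ∣ orderOf g * 2 := hy ▸ orderOf_dvd_of_pow_eq_one (by rw [pow_mul, ← hv, ← map_pow, v2, map_one])
    by_contra h3
    have h4 : r * s = orderOf g * 2 := by
      obtain ⟨k, hk⟩ := h1
      rw [hk] at h2 h3 ⊢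
      have := (Nat.dvd_prime Nat.prime_two).1 (Nat.dvd_of_mul_dvd_mul_left (orderOf_pos g) h2)
      rcases this with rfl | rfl
      · simp at h3
      · rfl
    have h5 : (orderOf g).Prime ∧ orderOf g ≠ 2 := by
      rcases (Nat.prime_two.dvd_mul).1 (h4 ▸ Dvd.intro_left _ rfl : 2 ∣ r * s) with h | h
      · obtain rfl := (Nat.prime_dvd_prime_iff_eq Nat.prime_two hr).1 h
        obtain h : orderOf g = s := by omega
        exact h ▸ ⟨hs, hrs.symm⟩
      · obtain rfl := (Nat.prime_dvd_prime_iff_eq Nat.prime_two hs).1 h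
        obtain h : orderOf g = r := by omega
        exact h ▸ ⟨hr, hrs⟩
    have h6 : y * .inl v = .inl v * y := by rw [hv]; exact ((Commute.refl y).pow_right _).eq
    have h7 : act N g v = v := by
      have : y.left * act N g v = v * act N 1 y.left := congrArg SemidirectProduct.left h6
      rw [map_one, MulAut.one_apply, mul_comm v] at this
      exact mul_left_cancel this
    have h8 : v = 1 := by
      have h9 : mat g * v.toAdd = v.toAdd := congrArg Multiplicative.toAdd h7
      show Multiplicative.ofAdd v.toAdd = Multiplicative.ofAdd 0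
      congr 1
      ext i j
      exact congrFun (fpf h5.1 h5.2 (v := fun i => v.toAdd i j) (funext fun i => congrFun (congrFun h9 i) j)) i
    have := orderOf_dvd_of_pow_eq_one (hv.symm.trans (by rw [h8, map_one]))
    exact h3 (Nat.dvd_antisymm h1 (hy ▸ this))

end Cfsg.Agent.S3639
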