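import Cfsg.Statements.S3641
import Cfsg.Agent.S0732
import Cfsg.Agent.Lib.Lin.PSL2Sub

set_option autoImplicit false
open Cfsg

namespace Cfsg.Agent.S3641

open MulAction Pointwise

section
variable {G H : Type*} [Group G] [Group H] {r : ℕ} [Fact r.Prime]

theorem card_le_of_inj [Finite G] {f : H →* G} (hf : Function.Injective f) :
    Nat.card (Sylow r H) ≤ Nat.card (Sylow r G) := by
  choose g hg using fun P : Sylow r H => P.exists_comap_eq_of_injective hf
  refine Nat.card_le_card_of_injective g fun P Q h => Sylow.ext ?_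
  rw [← hg P, ← hg Q, h]

theorem ker_le [Finite G] {f : G →* H} (hf : Function.Surjective f)
    (h : Nat.card (Sylow r G) ≤ Nat.card (Sylow r H)) (P : Sylow r G) {k : G} (hk : f k = 1) :
    k • P = P := by
  have : Finite H := Finite.of_surjective f hf
  have hb := ((Nat.bijective_iff_surjective_and_card _).2 ⟨Sylow.mapSurjective_surjective hf r,
    le_antisymm h (Nat.card_le_card_of_surjective _ (Sylow.mapSurjective_surjective hf r))⟩).1
  refine hb (Sylow.ext ?_)
  rw [Sylow.coe_mapSurjective, Sylow.coe_mapSurjective, Sylow.coe_subgroup_smul]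
  ext y
  constructor
  · rintro ⟨x, hx, rfl⟩
    rw [SetLike.mem_coe, Subgroup.mem_pointwise_smul_iff_inv_smul_mem] at hx
    refine ⟨_, hx, ?_⟩
    simp [hk]
  · rintro ⟨x, hx, rfl⟩
    refine ⟨k * x * k⁻¹, Subgroup.smul_mem_pointwise_smul _ _ _ hx, ?_⟩
    simp [hk]

theorem mem_smul_iff {P : Sylow r G} {g x : G} : x ∈ g • P ↔ g⁻¹ * x * g ∈ P := by
  change x ∈ ((g • P : Sylow r G) : Subgroup G) ↔ _
  rw [Sylow.coe_subgroup_smul, Subgroup.mem_pointwise_smul_iff_inv_smul_mem]
  simp only [← map_inv, MulAut.smul_def, MulAut.conj_apply, inv_inv]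
  rfl

end

/-- Baer: a normal subgroup normalizing all Sylow subgroups meets the centre -/
theorem baer {G : Type*} [Group G] [Finite G] (hZ : Subgroup.center G = ⊥) (K : Subgroup G) [hK : K.Normal]
    (h : ∀ r : ℕ, r.Prime → r ∣ Nat.card G → ∀ P : Sylow r G, ∀ k ∈ K, k • P = P) : K = ⊥ := by
  by_contra hne
  obtain ⟨s, hs, hsK⟩ := Nat.exists_prime_and_dvd (mt Subgroup.card_eq_one.1 hne)
  have := Fact.mk hs
  have hsG : s ∣ Nat.card G := hsK.trans K.card_subgroup_dvd_card
  obtain ⟨k, hk⟩ := exists_prime_orderOf_dvd_card' s hsK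
  have hkp : IsPGroup s (Subgroup.zpowers (k : G)) := IsPGroup.of_card (n := 1)
    (by rw [Nat.card_zpowers, Subgroup.orderOf_coe, hk, pow_one])
  obtain ⟨P, hP⟩ := hkp.exists_le_sylow
  have hle : ∀ Q : Sylow s G, K ⊓ P ≤ Q := fun Q => by
    have h1 := (P.2.to_inf_right (H := K)).inf_normalizer_sylow Q
    rw [inf_eq_left.2 fun x hx => Sylow.smul_eq_iff_mem_normalizer.1 (h s hs hsG Q x hx.1)] at h1
    exact h1.le.trans inf_le_right
  have hA : (K ⊓ P : Subgroup G).Normal := ⟨fun a ha g => ⟨hK.conj_mem a ha.1 g, by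
    have := hle (g⁻¹ • P) ha
    exact by simpa using mem_smul_iff.1 this⟩⟩
  set A : Subgroup G := K ⊓ P with hAdef
  letI : MulAction P A := MulAction.compHom A ((MulAut.conjNormal (H := A)).comp (P : Subgroup G).subtype)
  have hd : s ∣ Nat.card A := by
    have : (k : G) ∈ A := ⟨k.2, hP (Subgroup.mem_zpowers _)⟩
    rw [← hk, ← Subgroup.orderOf_coe k]
    exact Subgroup.orderOf_dvd_natCard _ this
  obtain ⟨a, ha, ha1⟩ := P.2.exists_fixed_point_of_prime_dvd_card_of_fixed_point A hd (a := 1)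
    (fun g => map_one (MulAut.conjNormal (H := A) (g : G)))
  have hc : (Subgroup.centralizer {(a : G)}).index = 1 := by
    by_contra hi
    obtain ⟨r, hr, hri⟩ := Nat.exists_prime_and_dvd hi
    have := Fact.mk hr
    have hrG : r ∣ Nat.card G := hri.trans (Subgroup.index_dvd_card _)
    have key : ∃ Q : Sylow r G, (Q : Subgroup G) ≤ Subgroup.centralizer {(a : G)} := by
      by_cases hrs : r = s
      · subst hrs
        refine ⟨P, fun x hx => Subgroup.mem_centralizer_singleton_iff.2 ?_⟩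
        have := congrArg Subtype.val (ha ⟨x, hx⟩)
        change x * a * x⁻¹ = a at this
        exact mul_inv_eq_iff_eq_mul.1 this
      · obtain ⟨Q⟩ := Sylow.nonempty (p := r) (G := G)
        refine ⟨Q, fun x hx => Subgroup.mem_centralizer_singleton_iff.2 ?_⟩
        have h1 : x * a * x⁻¹ * (a : G)⁻¹ ∈ A := A.mul_mem (hA.conj_mem _ a.2 x) (A.inv_mem a.2)
        have h2 : x * a * x⁻¹ * (a : G)⁻¹ ∈ (Q : Subgroup G) := by
          have h3 := Sylow.smul_eq_iff_mem_normalizer.1 (h r hr hrG Q a a.2.1)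
          have := (Subgroup.mem_normalizer_iff.1 h3 x⁻¹).1 (Q.inv_mem hx)
          simpa [mul_assoc] using (Q : Subgroup G).mul_mem hx this
        have h4 := IsPGroup.disjoint_of_ne s r (Ne.symm hrs) _ _ P.2 Q.2
        have := (Subgroup.disjoint_def.1 h4) h1.2 h2
        rw [mul_inv_eq_one, mul_inv_eq_iff_eq_mul] at this
        exact this
    obtain ⟨Q, hQ⟩ := key
    exact Q.not_dvd_index (hri.trans (Subgroup.index_dvd_of_le hQ))
  have : (a : G) ∈ Subgroup.center G := Subgroup.mem_center_iff.2 fun g =>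
    Subgroup.mem_centralizer_singleton_iff.1 ((Subgroup.index_eq_one.1 hc).ge (Subgroup.mem_top g))
  rw [hZ, Subgroup.mem_bot] at this
  exact ha1 (Subtype.ext this.symm)

/-- a Sylow `s`-subgroup normalizing a Sylow `17`-subgroup -/
theorem not_dvd {G : Type*} [Group G] [Finite G] {s : ℕ} [hs : Fact s.Prime] [Fact (Nat.Prime 17)]
    (h5 : s = 5 ∨ s = 19) (hle : Nat.card (Sylow s G) ≤ 153) (R : Sylow s G) (P : Sylow 17 G)
    (h : ∀ k ∈ R, k • P = P) : ¬ 17 ∣ Nat.card (Sylow s G) := by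
  have hRN : (R : Subgroup G) ≤ Subgroup.normalizer (P : Set G) := fun k hk =>
    Sylow.smul_eq_iff_mem_normalizer.1 (h k hk)
  set M : Subgroup G := (R : Subgroup G) ⊔ P with hM
  have hMN : M ≤ Subgroup.normalizer (P : Set G) := sup_le hRN Subgroup.le_normalizer
  let R' : Sylow s M := R.subtype le_sup_left
  have h1 : Nat.card (Sylow s M) ∣ Nat.card P := by
    refine R'.card_dvd_index.trans ?_
    have hn : ((P : Subgroup G).subgroupOf M).Normal :=
      (Subgroup.normal_subgroupOf_iff_le_normalizer le_sup_right).2 hMN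
    have htop : (P : Subgroup G).subgroupOf M ⊔ (R : Subgroup G).subgroupOf M = ⊤ := by
      rw [← Subgroup.subgroupOf_sup le_sup_right le_sup_left, sup_comm, Subgroup.subgroupOf_self]
    have h2 : ((P : Subgroup G).subgroupOf M).index ∣ Nat.card R := by
      have := Subgroup.relIndex_sup_left ((R : Subgroup G).subgroupOf M) ((P : Subgroup G).subgroupOf M)
      rw [htop, Subgroup.relIndex_top_right] at this
      rw [this, ← Nat.card_congr (Subgroup.subgroupOfEquivOfLe (le_sup_left : (R : Subgroup G) ≤ M)).toEquiv]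
      exact Subgroup.relIndex_dvd_card _ _
    have h3 := ((P : Subgroup G).subgroupOf M).card_mul_index
    have h4 := ((R : Subgroup G).subgroupOf M).card_mul_index
    rw [Nat.card_congr (Subgroup.subgroupOfEquivOfLe (le_sup_right : (P : Subgroup G) ≤ M)).toEquiv] at h3
    rw [Nat.card_congr (Subgroup.subgroupOfEquivOfLe (le_sup_left : (R : Subgroup G) ≤ M)).toEquiv] at h4
    obtain ⟨c, hc⟩ := h2
    change ((R : Subgroup G).subgroupOf M).index ∣ _
    refine Dvd.intro_left c (Nat.eq_of_mul_eq_mul_right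
      (Nat.pos_of_ne_zero (Subgroup.index_ne_zero_of_finite (H := (P : Subgroup G).subgroupOf M))) ?_)
    change _ = Nat.card (P : Subgroup G) * _
    rw [h3, ← h4]
    change _ = Nat.card R * _
    rw [hc]; ring
  obtain ⟨n, hn⟩ := P.2.exists_card_eq
  change Nat.card P = _ at hn
  rw [hn] at h1
  obtain ⟨j, -, hj⟩ := (Nat.dvd_prime_pow (by norm_num : Nat.Prime 17)).1 h1
  have h6 : Nat.card (Sylow s M) ≤ 153 := (card_le_of_inj M.subtype_injective).trans hle
  have h7 := card_sylow_modEq_one s M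
  have h8 : Nat.card (Sylow s M) = 1 := by
    rw [hj] at h6 h7 ⊢
    rcases j with _ | _ | j
    · rfl
    · rcases h5 with rfl | rfl <;> simp [Nat.ModEq] at h7
    · have := Nat.one_le_pow j 17 (by norm_num)
      rw [pow_succ, pow_succ] at h6; omega
  have : Subsingleton (Sylow s M) := (Nat.card_eq_one_iff_unique.1 h8).1
  have h9 := R'.normal_of_subsingleton
  have h10 : M ≤ Subgroup.normalizer (R : Set G) :=
    (Subgroup.normal_subgroupOf_iff_le_normalizer le_sup_left).1 h9
  rw [R.card_eq_index_normalizer]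
  exact fun hd => P.not_dvd_index (hd.trans (Subgroup.index_dvd_of_le (le_sup_right.trans h10)))

theorem card_range {G : Type*} [Group G] [Finite G] [Fact (Nat.Prime 17)] (h : Nat.card (Sylow 17 G) = 18) :
    ∃ d < 17, Nat.card (toPermHom G (Sylow 17 G)).range = (17 + 1) * 17 * d := by
  classical
  have := Fintype.ofFinite (Sylow 17 G)
  set φ := toPermHom G (Sylow 17 G) with hφ
  have hnt : Nontrivial (Sylow 17 G) := Finite.one_lt_card_iff_nontrivial.1 (by omega)
  obtain ⟨P, P', hPP⟩ := exists_pair_ne (Sylow 17 G)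
  have hx : ∃ x ∈ P, x • P' ≠ P' := by
    by_contra hc
    push Not at hc
    have : (P : Subgroup G) ≤ P' := P.2.sylow_mem_fixedPoints_iff.1 fun x => hc x x.2
    exact hPP (Sylow.ext (P.3 P'.2 this).symm)
  obtain ⟨x, hxP, hx⟩ := hx
  have hfix : ∀ y ∈ P, y • P = P := fun y hy =>
    Sylow.smul_eq_iff_mem_normalizer.2 (Subgroup.le_normalizer hy)
  set σ := φ x with hσ
  have hσ1 : σ ≠ 1 := fun h1 => hx (congrArg (fun f : Equiv.Perm _ => f P') h1)
  have hQ : Nat.card ((P : Subgroup G).map φ) ∣ 17 := by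
    obtain ⟨n, hn⟩ := (P.2.map φ).exists_card_eq
    have h1 := ((P : Subgroup G).map φ).card_subgroup_dvd_card
    rw [Nat.card_perm, h, hn] at h1
    rw [hn]
    rcases n with _ | _ | n
    · simp
    · simp
    · exact absurd ((pow_dvd_pow 17 (by omega : 2 ≤ n + 1 + 1)).trans h1) (by decide)
  have hmem : σ ∈ (P : Subgroup G).map φ := ⟨x, hxP, rfl⟩
  have ho : orderOf σ = 17 := by
    have h1 := (Subgroup.orderOf_dvd_natCard _ hmem).trans hQ
    rcases (Nat.dvd_prime (by norm_num)).1 h1 with h2 | h2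
    · exact absurd (orderOf_eq_one_iff.1 h2) hσ1
    · exact h2
  have hz : Subgroup.zpowers σ = (P : Subgroup G).map φ := by
    refine Subgroup.eq_of_le_of_card_ge (Subgroup.zpowers_le.2 hmem) ?_
    rw [Nat.card_zpowers, ho]; exact Nat.le_of_dvd (by norm_num) hQ
  have hreg : ∀ τ ∈ Subgroup.zpowers σ, τ P' = P' → τ = 1 := by
    intro τ hτ h1
    by_contra h2
    have h3 : orderOf τ = 17 := by
      have h4 := Subgroup.orderOf_dvd_natCard _ hτ
      rw [Nat.card_zpowers, ho] at h4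
      rcases (Nat.dvd_prime (by norm_num)).1 h4 with h5 | h5
      · exact absurd (orderOf_eq_one_iff.1 h5) h2
      · exact h5
    have h4 : Subgroup.zpowers τ = Subgroup.zpowers σ :=
      Subgroup.eq_of_le_of_card_ge (Subgroup.zpowers_le.2 hτ) (by rw [Nat.card_zpowers, Nat.card_zpowers, ho, h3])
    have h5 : σ ∈ stabilizer (Equiv.Perm (Sylow 17 G)) P' :=
      (Subgroup.zpowers_le.2 (show τ ∈ stabilizer (Equiv.Perm (Sylow 17 G)) P' from h1)) (h4.ge (Subgroup.mem_zpowers σ))
    exact hx h5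
  have hσP : ∀ τ ∈ Subgroup.zpowers σ, τ P = P := by
    rw [hz]; rintro _ ⟨y, hy, rfl⟩; exact hfix y hy
  have hall : ∀ Q : Sylow 17 G, Q ≠ P → ∃ τ ∈ Subgroup.zpowers σ, τ P' = Q := by
    let f : Subgroup.zpowers σ → {Q : Sylow 17 G // Q ≠ P} := fun τ => ⟨τ.1 P', fun h1 =>
      hPP (τ.1.injective ((hσP _ τ.2).trans h1.symm))⟩
    have hf : Function.Injective f := fun a b hab => by
      have h1 : a.1 P' = b.1 P' := congrArg Subtype.val hab
      have := hreg (b⁻¹ * a : Subgroup.zpowers σ) (b⁻¹ * a).2 (by simp [h1])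
      exact (inv_mul_eq_one.1 (Subtype.ext this)).symm
    have hb := (Nat.bijective_iff_injective_and_card f).2 ⟨hf, by
      rw [Nat.card_zpowers, ho, Nat.card_eq_fintype_card, Fintype.card_subtype_compl,
        ← Nat.card_eq_fintype_card, h]; simp⟩
    intro Q hQ
    obtain ⟨τ, hτ⟩ := hb.2 ⟨Q, hQ⟩
    exact ⟨τ.1, τ.2, congrArg Subtype.val hτ⟩
  have htriv : ∀ g : G, g • P = P → g • P' = P' → g • σ P' = σ P' → φ g = 1 := by
    intro g h1 h2 h3
    have h4 : φ g * σ * (φ g)⁻¹ ∈ Subgroup.zpowers σ := by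
      rw [hz]
      exact ⟨g * x * g⁻¹, (Subgroup.mem_normalizer_iff.1 (Sylow.smul_eq_iff_mem_normalizer.1 h1) x).1 hxP,
        by simp only [map_mul, map_inv, hσ]⟩
    have h5 : (φ g)⁻¹ P' = P' := by rw [Equiv.Perm.inv_eq_iff_eq]; exact h2.symm
    have h6 := hreg (σ⁻¹ * (φ g * σ * (φ g)⁻¹)) (Subgroup.mul_mem _
      (Subgroup.inv_mem _ (Subgroup.mem_zpowers σ)) h4) (by
        rw [Equiv.Perm.mul_apply, Equiv.Perm.inv_eq_iff_eq, Equiv.Perm.mul_apply, h5, Equiv.Perm.mul_apply]
        exact h3)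
    have h7 : Commute (φ g) σ := by
      rw [inv_mul_eq_one] at h6
      exact mul_inv_eq_iff_eq_mul.1 h6.symm
    ext1 Q
    by_cases hQ : Q = P
    · rw [hQ]; exact h1
    · obtain ⟨τ, ⟨k, rfl⟩, rfl⟩ := hall Q hQ
      rw [← Equiv.Perm.mul_apply, (h7.zpow_right k).eq, Equiv.Perm.mul_apply]
      exact congrArg _ h2
  have hσP' : σ P' ≠ P := fun h1 => hPP (σ.injective ((hσP _ (Subgroup.mem_zpowers σ)).trans h1.symm))
  let e : Fin 3 ↪ Sylow 17 G := ⟨![P, P', σ P'], by
    have h1 : P' ≠ σ P' := hx.symm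
    intro i j hij
    fin_cases i <;> fin_cases j
    exacts [rfl, absurd hij hPP, absurd hij hσP'.symm, absurd hij hPP.symm, rfl, absurd hij h1,
      absurd hij hσP', absurd hij h1.symm, rfl]⟩
  have hle : Nat.card φ.range ≤ 18 * 17 * 16 := by
    let f : φ.range → (Fin 3 ↪ Sylow 17 G) := fun a => e.trans a.1.toEmbedding
    have hf : Function.Injective f := by
      rintro ⟨_, a, rfl⟩ ⟨_, b, rfl⟩ hab
      have h1 : ∀ i, a • e i = b • e i := fun i => congrArg (fun u : Fin 3 ↪ Sylow 17 G => u i) hab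
      have h2 : ∀ i, (b⁻¹ * a) • e i = e i := fun i => by rw [mul_smul, h1, inv_smul_smul]
      have := htriv _ (h2 0) (h2 1) (h2 2)
      rw [map_mul, map_inv, inv_mul_eq_one] at this
      exact Subtype.ext this.symm
    have := Nat.card_le_card_of_injective f hf
    rw [Nat.card_eq_fintype_card (α := Fin 3 ↪ _), Fintype.card_embedding_eq, ← Nat.card_eq_fintype_card, h] at this
    exact this
  have h17 : 17 ∣ Nat.card φ.range :=
    ho.symm.dvd.trans (Subgroup.orderOf_dvd_natCard φ.range ⟨x, rfl⟩)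
  have h18 : 18 ∣ Nat.card φ.range := by
    rw [← Subgroup.index_ker, ← h, P.card_eq_index_normalizer]
    exact Subgroup.index_dvd_of_le fun k hk => Sylow.smul_eq_iff_mem_normalizer.1
      (congrArg (fun f : Equiv.Perm _ => f P) (show φ k = 1 from hk))
  obtain ⟨d, hd⟩ := Nat.Coprime.mul_dvd_of_dvd_of_dvd (by norm_num) h18 h17
  exact ⟨d, by omega, hd⟩

section
open Matrix CA.PSL2Struct CA.SL2Torus
open scoped MatrixGroups
variable {F : Type*} [Field F] [Finite F]

theorem dd17 (hF : Nat.card F = 17) : dd F = 2 := by rw [dd, hF]; rfl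

theorem card17 (hF : Nat.card F = 17) : Nat.card PSL(2, F) = 2448 := by
  have := card_PSL (F := F)
  rw [dd17 hF, hF] at this; omega

theorem n3 (hF : Nat.card F = 17) : Nat.card (Sylow 3 PSL(2, F)) = 136 := by
  have := Fact.mk Nat.prime_three
  obtain ⟨g, hg⟩ := exists_aniso_SL F
  have h1 := card_Tb_aniso hg
  rw [dd17 hF, hF] at h1
  have h2 := card_Db (SS.of_aniso hg)
  let P : Sylow 3 PSL(2, F) := Sylow.ofCard (Tb g) (by rw [card17 hF, h1]; decide +kernel)
  have h3 : Subgroup.normalizer (P : Set PSL(2, F)) = Db g :=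
    normalizer_eq_Db (SS.of_aniso hg) le_rfl fun h => by
      have h' : Tb g = ⊥ := h
      rw [h', Subgroup.card_bot] at h1; omega
  have h4 := (Db g).card_mul_index
  rw [P.card_eq_index_normalizer]
  change (Subgroup.normalizer (P : Set PSL(2, F))).index = _
  rw [h3]; rw [h2, h1, card17 hF] at h4; omega

theorem n2 (hF : Nat.card F = 17) : Nat.card (Sylow 2 PSL(2, F)) = 153 := by
  obtain ⟨g, hg⟩ := exists_split_SL F (by omega)
  have hs := SS.of_split hg
  have h1 := card_Tb_split hg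
  rw [dd17 hF, hF] at h1
  have h2 := card_Db hs
  let P : Sylow 2 PSL(2, F) := Sylow.ofCard (Db g) (by rw [card17 hF, h2, h1]; decide +kernel)
  obtain ⟨t, ht, ho⟩ := exists_orderOf_of_dvd hs (n := 8) (by rw [h1])
  have h3 : Subgroup.normalizer (P : Set PSL(2, F)) = Db g := by
    refine le_antisymm (fun x hx => ?_) Subgroup.le_normalizer
    have h5 : x * t * x⁻¹ ∈ Db g := (Subgroup.mem_normalizer_iff.1 hx t).1 (Tb_le_Db g ht)
    refine mem_Db_of_conj hs ht (by rintro rfl; simp at ho) (by_contra fun h6 => ?_)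
    have h7 := orderOf_dvd_of_pow_eq_one ((pow_two _).trans (sq_of_mem_Db hs h5 h6))
    rw [orderOf_conj, ho] at h7; omega
  have h4 := (Db g).card_mul_index
  rw [P.card_eq_index_normalizer]
  change (Subgroup.normalizer (P : Set PSL(2, F))).index = _
  rw [h3]; rw [h2, h1, card17 hF] at h4; omega

theorem psl_congr {K : Type*} [Field K] [Finite K] (hF : Nat.card F = 17) (hK : Nat.card K = 17) (φ : F ≃+* K) :
    Nonempty (PSL(2, F) ≃* PSL(2, K)) :=
  ⟨MulEquiv.ofBijective _ ((Nat.bijective_iff_injective_and_card _).2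
    ⟨CA.PSL2Sub.pslMap_injective (φ : F →+* K), (card17 hF).trans (card17 hK).symm⟩)⟩

omit [Finite F] in
theorem pgl_congr {K : Type*} [Field K] (φ : F ≃+* K) :
    Nonempty (PGL(2, F) ≃* (GL (Fin 2) K ⧸ Subgroup.center (GL (Fin 2) K))) := by
  let e : GL (Fin 2) F ≃* GL (Fin 2) K := Units.mapEquiv φ.mapMatrix.toMulEquiv
  refine ⟨QuotientGroup.congr _ _ e ?_⟩
  ext x
  constructor
  · rintro ⟨y, hy, rfl⟩
    refine Subgroup.mem_center_iff.2 fun z => ?_
    obtain ⟨w, rfl⟩ := e.surjective z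
    exact (map_mul e w y).symm.trans ((congrArg e (Subgroup.mem_center_iff.1 hy w)).trans (map_mul e y w))
  · intro hx
    obtain ⟨y, rfl⟩ := e.surjective x
    exact ⟨y, Subgroup.mem_center_iff.2 fun z => e.injective
      (by rw [map_mul, map_mul]; exact Subgroup.mem_center_iff.1 hx _), rfl⟩

end

/-- Let G be a finite group with trivial centre whose set of Sylow numbers (numbers of Sylow r-subgroups, r over the prime divisors of its order) is exactly {18, 136, 153}. Then G is isomorphic to PSL(2, 17) or to PGL(2, 17). -/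
theorem result {G : Type*} [Group G] [Finite G] (hZ : Subgroup.center G = ⊥) (hNS : {c : ℕ | ∃ r : ℕ, r.Prime ∧ r ∣ Nat.card G ∧ c = Nat.card (Sylow r G)} = ({18, 136, 153} : Set ℕ))
    {F : Type*} [Field F] [Fintype F] (hF : Fintype.card F = 17) :
    Nonempty (G ≃* Matrix.ProjectiveSpecialLinearGroup (Fin 2) F) ∨ Nonempty (G ≃* (GL (Fin 2) F ⧸ Subgroup.center (GL (Fin 2) F))) := by
  classical
  have h17 := Fact.mk (by norm_num : Nat.Prime 17)
  have hmem : ∀ r : ℕ, r.Prime → r ∣ Nat.card G → Nat.card (Sylow r G) = 18 ∨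
      Nat.card (Sylow r G) = 136 ∨ Nat.card (Sylow r G) = 153 := fun r hr hd =>
    hNS.le ⟨r, hr, hd, rfl⟩
  have hmod : ∀ r : ℕ, r.Prime → r ∣ Nat.card (Sylow r G) - 1 := fun r hr => by
    have := Fact.mk hr
    exact (Nat.modEq_iff_dvd' Nat.card_pos).1 (card_sylow_modEq_one r G).symm
  have h18 : Nat.card (Sylow 17 G) = 18 := by
    obtain ⟨r, hr, -, h⟩ := hNS.ge (show 18 ∈ ({18, 136, 153} : Set ℕ) by simp)
    have h1 := hmod r hr
    rw [← h] at h1
    obtain rfl := (Nat.prime_dvd_prime_iff_eq hr h17.out).1 h1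
    exact h.symm
  have := Fintype.ofFinite (Sylow 17 G)
  obtain ⟨d, hd, hcard⟩ := card_range h18
  set φ := toPermHom G (Sylow 17 G) with hφ
  have : IsPretransitive φ.range (Sylow 17 G) := ⟨fun P Q => by
    obtain ⟨g, hg⟩ := exists_smul_eq G P Q
    exact ⟨⟨φ g, g, rfl⟩, hg⟩⟩
  have hZ17 : Nat.card (ZMod 17) = 17 := by simp
  have hF' : Nat.card F = 17 := Nat.card_eq_fintype_card.trans hF
  have ψ : ZMod 17 ≃+* F := FiniteField.ringEquivOfCardEq (by simp [hF])
  have hcases := S0732.result h17.out (Nat.card_eq_fintype_card.symm.trans h18) φ.range hcard hd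
  have hinj : (d = 16 ∨ d = 8) ∧ ∃ f : Matrix.ProjectiveSpecialLinearGroup (Fin 2) (ZMod 17) →* φ.range,
      Function.Injective f := by
    rcases hcases with ⟨h1, ⟨e⟩⟩ | ⟨h1, ⟨e⟩⟩ | ⟨q, hq, h1, -⟩
    · exact ⟨Or.inl h1, e.symm.toMonoidHom.comp Matrix.ProjectiveSpecialLinearGroup.toPGL,
        e.symm.injective.comp Matrix.ProjectiveSpecialLinearGroup.toPGL_injective⟩
    · exact ⟨Or.inr (by omega), e.symm.toMonoidHom, e.symm.injective⟩
    · have : 3 ∣ 2 ^ q := h1 ▸ (by norm_num)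
      exact absurd (Nat.prime_three.dvd_of_dvd_pow this) (by norm_num)
  obtain ⟨hd', f, hf⟩ := hinj
  have hker : φ.ker = ⊥ := by
    refine baer hZ _ fun r hr hrG P k hk => ?_
    have := Fact.mk hr
    have hk' : φ.rangeRestrict k = 1 := Subtype.ext hk
    have h1 := hmod r hr
    have h5 : r = 5 ∨ r = 19 → 17 ∣ Nat.card (Sylow r G) → False := fun h5 h6 => by
      obtain ⟨Q⟩ := Sylow.nonempty (p := 17) (G := G)
      refine not_dvd h5 (by rcases hmem r hr hrG with h | h | h <;> omega) P Q (fun y hy => ?_) h6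
      obtain ⟨n, hn⟩ := IsPGroup.iff_orderOf.1 P.2 ⟨y, hy⟩
      have h7 : orderOf (φ y) ∣ r ^ n := by
        rw [← hn, ← Subgroup.orderOf_coe]; exact orderOf_map_dvd φ y
      have h8 : orderOf (φ y) ∣ (17 + 1) * 17 * d := by
        rw [← hcard]; exact Subgroup.orderOf_dvd_natCard φ.range ⟨y, rfl⟩
      have h9 : (r ^ n).Coprime ((17 + 1) * 17 * d) := Nat.Coprime.pow_left _ (by
        rcases h5 with rfl | rfl <;> rcases hd' with rfl | rfl <;> norm_num)
      have := orderOf_eq_one_iff.1 (Nat.eq_one_of_dvd_coprimes h9 h7 h8)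
      exact congrArg (fun f : Equiv.Perm _ => f Q) this
    rcases hmem r hr hrG with h | h | h
    · rw [h] at h1
      obtain rfl := (Nat.prime_dvd_prime_iff_eq hr h17.out).1 h1
      exact congrArg (fun f : Equiv.Perm _ => f P) (show φ k = 1 from hk)
    · rw [h] at h1
      rcases (Nat.Prime.dvd_mul hr (m := 3 ^ 3) (n := 5)).1 h1 with h2 | h2
      · obtain rfl := (Nat.prime_dvd_prime_iff_eq hr Nat.prime_three).1 (hr.dvd_of_dvd_pow h2)
        exact ker_le φ.rangeRestrict_surjective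
          (h.le.trans ((n3 hZ17).ge.trans (card_le_of_inj hf))) P hk'
      · exact (h5 (Or.inl ((Nat.prime_dvd_prime_iff_eq hr Nat.prime_five).1 h2)) (by rw [h]; norm_num)).elim
    · rw [h] at h1
      rcases (Nat.Prime.dvd_mul hr (m := 2 ^ 3) (n := 19)).1 h1 with h2 | h2
      · obtain rfl := (Nat.prime_dvd_prime_iff_eq hr Nat.prime_two).1 (hr.dvd_of_dvd_pow h2)
        exact ker_le φ.rangeRestrict_surjective
          (h.le.trans ((n2 hZ17).ge.trans (card_le_of_inj hf))) P hk'
      · exact (h5 (Or.inr ((Nat.prime_dvd_prime_iff_eq hr (by norm_num)).1 h2)) (by rw [h]; norm_num)).elim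
  let e0 := MonoidHom.ofInjective ((MonoidHom.ker_eq_bot_iff φ).1 hker)
  rcases hcases with ⟨-, ⟨e⟩⟩ | ⟨-, ⟨e⟩⟩ | ⟨q, hq, h1, -⟩
  · obtain ⟨e1⟩ := pgl_congr ψ
    exact Or.inr ⟨e0.trans (e.trans e1)⟩
  · obtain ⟨e1⟩ := psl_congr hZ17 hF' ψ
    exact Or.inl ⟨e0.trans (e.trans e1)⟩
  · have : 3 ∣ 2 ^ q := h1 ▸ (by norm_num)
    exact absurd (Nat.prime_three.dvd_of_dvd_pow this) (by norm_num)

end Cfsg.Agent.S3641
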