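import Cfsg.Statements.S3684
import Mathlib
import Cfsg.Agent.Lib.Perm.PrimSub
import Cfsg.Agent.Lib.Grp.PGDihedral

set_option autoImplicit false
open Cfsg

namespace Cfsg.Agent.S3684

open MulAction CA.PermBasic CA.PermMulti CA.PrimSub

/-- Let a finite group G act faithfully and primitively on a set Ω, and suppose the stabilizer of a point a has an orbit of length 2. Then the stabilizer of a has order 2 and G is isomorphic to the dihedral group of order 2p for some prime p. -/
theorem result {G Ω : Type*} [Group G] [Finite G] [MulAction G Ω] [FaithfulSMul G Ω] [Finite Ω]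
    (hprim : MulAction.IsPreprimitive G Ω) (a b : Ω) (h2 : Nat.card (MulAction.orbit (MulAction.stabilizer G a) b) = 2) :
    Nat.card (MulAction.stabilizer G a) = 2 ∧ ∃ p : ℕ, p.Prime ∧ Nonempty (G ≃* DihedralGroup p) := by
  have := Fintype.ofFinite Ω
  have hab : a ≠ b := by
    rintro rfl
    rw [show orbit (stabilizer G a) a = {a} from
      Set.eq_singleton_iff_unique_mem.2 ⟨mem_orbit_self a, by rintro _ ⟨g, rfl⟩; exact g.2⟩,
      Nat.card_unique] at h2
    omega
  have h3 := (CA.PermChar.card_paired (G := G) a b).symm.trans h2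
  rw [card_orbit_eq_index] at h2 h3
  have hne : stabilizer G b ≠ ⊥ := by
    intro e
    have := (stabilizer (stabilizer G b) a).index_dvd_card
    rw [h3, (Subgroup.card_eq_one).2 e] at this
    omega
  have h4 := Subgroup.normal_of_index_eq_two h2
  have h5 := Subgroup.normal_of_index_eq_two h3
  have h6 : (stabilizer G a ⊓ stabilizer G b).Normal := by
    rw [← Subgroup.normalizer_eq_top_iff, eq_top_iff, ← sup_stabilizer hprim hab hne]
    refine sup_le (fun g hg => ?_) (fun g hg => ?_) <;>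
      refine Subgroup.mem_normalizer_fintype fun n hn => ?_
    · have := h4.conj_mem ⟨n, hn.1⟩ hn.2 ⟨g, hg⟩
      exact ⟨(⟨g, hg⟩ * ⟨n, hn.1⟩ * ⟨g, hg⟩⁻¹ : stabilizer G a).2, this⟩
    · have := h5.conj_mem ⟨n, hn.2⟩ hn.1 ⟨g, hg⟩
      exact ⟨this, (⟨g, hg⟩ * ⟨n, hn.2⟩ * ⟨g, hg⟩⁻¹ : stabilizer G b).2⟩
  have h7 := normal_le_stabilizer_eq_bot _ a (inf_le_left : stabilizer G a ⊓ stabilizer G b ≤ _)
  have h8 : Nat.card (stabilizer G a) = 2 := by
    have : stabilizer (stabilizer G a) b = ⊥ := eq_bot_iff.2 fun g hg =>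
      Subtype.ext (h7.le (⟨g.2, hg⟩ : (g : G) ∈ stabilizer G a ⊓ stabilizer G b))
    rw [← h2, this, Subgroup.index_bot]
  have h9 := (card_stabilizer_eq (G := G) b a).trans h8
  refine ⟨h8, ?_⟩
  have key : ∀ H : Subgroup G, Nat.card H = 2 → ∃ s : G, orderOf s = 2 ∧ Subgroup.zpowers s = H := by
    intro H hH
    have : IsCyclic H := isCyclic_of_prime_card hH
    obtain ⟨s, hs⟩ := (Subgroup.isCyclic_iff_exists_zpowers_eq_top H).1 this
    exact ⟨s, by rw [← Nat.card_zpowers, hs, hH], hs⟩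
  obtain ⟨s, hs, hs'⟩ := key _ h8
  obtain ⟨t, ht, ht'⟩ := key _ h9
  have hs2 : s * s = 1 := by rw [← sq, ← hs, pow_orderOf_eq_one]
  have ht2 : t * t = 1 := by rw [← sq, ← ht, pow_orderOf_eq_one]
  have hsi : s⁻¹ = s := inv_eq_of_mul_eq_one_right hs2
  have hti : t⁻¹ = t := inv_eq_of_mul_eq_one_right ht2
  have hinv : s * (s * t) * s⁻¹ = (s * t)⁻¹ := by
    rw [← mul_assoc, hs2, one_mul, mul_inv_rev, hti]
  have hgen : Subgroup.zpowers (s * t) ⊔ Subgroup.zpowers s = ⊤ := by
    rw [eq_top_iff, ← sup_stabilizer hprim hab hne, ← hs', ← ht']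
    refine sup_le le_sup_right (Subgroup.zpowers_le.2 ?_)
    have := Subgroup.mul_mem _ (Subgroup.mem_sup_right (S := Subgroup.zpowers (s * t))
      (Subgroup.mem_zpowers s)) (Subgroup.mem_sup_left (Subgroup.mem_zpowers (s * t)))
    rwa [← mul_assoc, hs2, one_mul] at this
  have hnorm : ∀ k : ℕ, (Subgroup.zpowers ((s * t) ^ k)).Normal := by
    intro k
    rw [← Subgroup.normalizer_eq_top_iff, eq_top_iff, ← hgen]
    refine sup_le (Subgroup.zpowers_le.2 ?_) (Subgroup.zpowers_le.2 ?_) <;>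
      refine Subgroup.mem_normalizer_fintype ?_ <;> rintro _ ⟨j, rfl⟩
    · refine ⟨j, ?_⟩
      beta_reduce
      rw [((Commute.refl (s * t)).pow_right k).zpow_right j, mul_inv_cancel_right]
    · refine ⟨-j, ?_⟩
      beta_reduce
      rw [← conj_zpow, ← conj_pow, hinv, inv_pow, inv_zpow']
  have hreg : ∀ k : ℕ, (s * t) ^ k ≠ 1 → orderOf ((s * t) ^ k) = Nat.card Ω := by
    intro k hk
    have := hnorm k
    have h1 := normal_pretransitive (X := Ω) (Subgroup.zpowers ((s * t) ^ k)) (by simpa using hk)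
    rw [← Nat.card_zpowers]
    exact card_eq_of_regular a (regular_of_comm _ h1 inferInstance a)
  have hst : s * t ≠ 1 := by
    intro e
    rw [mul_eq_one_iff_eq_inv, hti] at e
    have : s ∈ stabilizer G a ⊓ stabilizer G b :=
      ⟨hs' ▸ Subgroup.mem_zpowers s, ht' ▸ e ▸ Subgroup.mem_zpowers s⟩
    rw [h7, Subgroup.mem_bot] at this
    rw [this, orderOf_one] at hs
    omega
  have h10 := hreg 1 (by rwa [pow_one])
  rw [pow_one] at h10
  obtain ⟨p, hp, hd⟩ := Nat.exists_prime_and_dvd (n := orderOf (s * t))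
    (by rwa [Ne, orderOf_eq_one_iff])
  have h11 := orderOf_pow_orderOf_div (orderOf_pos (s * t)).ne' hd
  have h12 := hreg (orderOf (s * t) / p) fun e => by
    rw [e, orderOf_one] at h11; exact hp.one_lt.ne h11
  refine ⟨p, hp, CA.PGDihedral.nonempty_mulEquiv_dihedral (by rw [h10, ← h12, h11]) (fun h => ?_)
    (by rw [sq, hs2]) hinv hgen⟩
  have h13 : Subgroup.zpowers (s * t) = ⊤ := by
    rw [← hgen, eq_comm, sup_eq_left, Subgroup.zpowers_le]; exact h
  have h14 := card_eq_card_mul_card_stabilizer (G := G) a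
  rw [← Subgroup.card_top, ← h13, Nat.card_zpowers, h10, h8] at h14
  have : 0 < Nat.card Ω := by have : Nonempty Ω := ⟨a⟩; exact Nat.card_pos
  omega

end Cfsg.Agent.S3684
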