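import Cfsg.Statements.S3687
import Cfsg.Agent.Lib.Fus.FusKn2

set_option autoImplicit false
open Cfsg

namespace Cfsg.Agent.S3687

open Subgroup CA.Amb CA.AmbCore CA.H8Wie CA.FusKn MulAction Equiv

theorem aux {G Ω : Type*} [Group G] [MulAction G Ω] [Finite Ω] (a b : Ω) {d : ℕ}
    (hd : Nat.card (orbit (stabilizer G a) b) = d) :
    ∃ (e : Perm (orbit (stabilizer G a) b) ≃* Perm (Fin d)) (i : Fin d), ∀ m : stabilizer G a,
      (e.toMonoidHom.comp (toPermHom (stabilizer G a) (orbit (stabilizer G a) b))) m i = i ↔
        (m : G) ∈ stabilizer G a ⊓ stabilizer G b := by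
  let e := Finite.equivFinOfCardEq hd
  refine ⟨e.permCongrHom, e ⟨b, mem_orbit_self b⟩, fun m => ?_⟩
  change e ((toPermHom _ _ m) (e.symm (e _))) = _ ↔ _
  rw [e.apply_eq_iff_eq, e.symm_apply_apply, Subtype.ext_iff]
  exact ⟨fun h => ⟨m.2, h⟩, fun h => h.2⟩

/-- Let a finite group G act faithfully and primitively on a set Ω, let a and b be points such that the orbit Δ of b under the stabilizer H of a has d ≥ 6 elements, and suppose that the permutation group induced by H on Δ contains the alternating group of Δ (the image of H in the symmetric group of Δ has index at most 2) while H does not act faithfully on Δ. Then either H induces exactly the alternating group of Δ and H is isomorphic to the direct product of the alternating groups of degrees d and d - 1; or H induces the full symmetric group of Δ and H is isomorphic to one of: the direct product of the symmetric groups of degrees d and d - 1, the direct product of the symmetric group of degree d with the alternating group of degree d - 1, or the subgroup of the direct product of the symmetric groups of degrees d and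 d - 1 consisting of the pairs of permutations with equal signs. -/
theorem result {G Ω : Type*} [Group G] [Finite G] [MulAction G Ω] [FaithfulSMul G Ω] [Finite Ω]
    (hprim : MulAction.IsPreprimitive G Ω) (a b : Ω) (d : ℕ) (hd : Nat.card (MulAction.orbit (MulAction.stabilizer G a) b) = d) (h6 : 6 ≤ d)
    (halt : (MulAction.toPermHom (MulAction.stabilizer G a) (MulAction.orbit (MulAction.stabilizer G a) b)).range.index ≤ 2)
    (hunf : ¬ Function.Injective (MulAction.toPermHom (MulAction.stabilizer G a) (MulAction.orbit (MulAction.stabilizer G a) b))) :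
    ((MulAction.toPermHom (MulAction.stabilizer G a) (MulAction.orbit (MulAction.stabilizer G a) b)).range.index = 2 ∧
      Nonempty (MulAction.stabilizer G a ≃* alternatingGroup (Fin d) × alternatingGroup (Fin (d - 1)))) ∨
    ((MulAction.toPermHom (MulAction.stabilizer G a) (MulAction.orbit (MulAction.stabilizer G a) b)).range = ⊤ ∧
      (Nonempty (MulAction.stabilizer G a ≃* Equiv.Perm (Fin d) × Equiv.Perm (Fin (d - 1))) ∨
       Nonempty (MulAction.stabilizer G a ≃* Equiv.Perm (Fin d) × alternatingGroup (Fin (d - 1))) ∨
       Nonempty (MulAction.stabilizer G a ≃* ((Equiv.Perm.sign.comp (MonoidHom.fst (Equiv.Perm (Fin d)) (Equiv.Perm (Fin (d - 1))))) *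
         (Equiv.Perm.sign.comp (MonoidHom.snd (Equiv.Perm (Fin d)) (Equiv.Perm (Fin (d - 1)))))).ker))) := by
  have W := wd hprim a b hd (by omega)
  have hd' : Nat.card (orbit (stabilizer G b) a) = d := by
    rw [← W.e2, inf_relIndex_right, Nat.card_coe_set_eq, ← index_stabilizer]; rfl
  obtain ⟨e, i, st⟩ := aux a b hd
  obtain ⟨e', i', st'⟩ := aux b a hd'
  have cf : ∀ j : Fin d, Nonempty (Fin (d - 1) ≃ {x // x ≠ j}) := fun j =>
    ⟨Fintype.equivOfCardEq (by simp)⟩
  have ix : (e.toMonoidHom.comp (toPermHom (stabilizer G a) (orbit (stabilizer G a) b))).range.index =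
      (toPermHom (stabilizer G a) (orbit (stabilizer G a) b)).range.index := by
    rw [MonoidHom.range_comp]; exact index_map_equiv _ e
  have ha := Perm.alternatingGroup_le_of_index_le_two (ix.trans_le halt)
  have c : Nat.card (Fin d) = d := Nat.card_fin d
  obtain ⟨θ, P⟩ := exists_PD (γ := Fin (d - 1)) (by omega) inf_le_left (cf i).some st ha
  have ha' := alt_paired W c (by omega) ha
    (φ' := e'.toMonoidHom.comp (toPermHom (stabilizer G b) (orbit (stabilizer G b) a))) fun x hx => by
      have k := kr_le hx
      rw [inf_comm]
      exact (st' ⟨x, k⟩).1 (by rw [(mem_kr (x := ⟨x, k⟩)).1 hx]; rfl)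
  obtain ⟨θ', P'⟩ := exists_PD (γ := Fin (d - 1)) (D := stabilizer G a ⊓ stabilizer G b) (by omega) inf_le_right
    (cf i').some (fun m => by rw [inf_comm]; exact st' m) ha'
  have := final W rfl P P' c (by rw [Nat.card_fin]; omega) (by omega) fun k => hunf
    ((injective_iff_map_eq_one _).2 fun m hm => Subtype.ext (mem_bot.1 (k.le (mem_kr.2 (by
      rw [MonoidHom.comp_apply, hm, map_one])))))
  rw [ix] at this
  exact this.imp_right fun h => ⟨index_eq_one.1 (ix.symm.trans (index_eq_one.2 h.1)), h.2⟩

end Cfsg.Agent.S3687
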