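import Cfsg.Statements.S3693
import Cfsg.Agent.Lib.Loc.H8Wie

set_option autoImplicit false
open Cfsg

namespace Cfsg.Agent.S3693

open Subgroup CA.Amb CA.AmbCore CA.AmbChar CA.AmbFs CA.H8Wie

/-- Let a finite group G act faithfully and primitively on a set Ω, let a and b be points such that the orbit Δ of b under the stabilizer H of a has length d ≥ 2, and consider the permutation group induced on Δ by the elements of H fixing b. If that induced group has trivial Fitting subgroup (no non-trivial nilpotent normal subgroup), then the two-point stabilizer of a and b has trivial Fitting subgroup and the order of H divides d! · ((d - 1)!)^d. -/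
theorem result {G Ω : Type*} [Group G] [Finite G] [MulAction G Ω] [FaithfulSMul G Ω] [Finite Ω]
    (hprim : MulAction.IsPreprimitive G Ω) (a b : Ω) (d : ℕ) (hd : Nat.card (MulAction.orbit (MulAction.stabilizer G a) b) = d) (h2 : 2 ≤ d)
    (hF : Cfsg.fittingSubgroup ↥(((MulAction.stabilizer G b).subgroupOf (MulAction.stabilizer G a)).map (MulAction.toPermHom (MulAction.stabilizer G a) (MulAction.orbit (MulAction.stabilizer G a) b))) = ⊥) :
    Cfsg.fittingSubgroup ↥(MulAction.stabilizer G a ⊓ MulAction.stabilizer G b) = ⊥ ∧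
      Nat.card (MulAction.stabilizer G a) ∣ Nat.factorial d * (Nat.factorial (d - 1)) ^ d := by
  have W := wd hprim a b hd h2
  have k : ∀ r : ℕ, r.Prime → pCoreOf r (MulAction.stabilizer G a ⊓ MulAction.stabilizer G b) = ⊥ := fun r hr => by
    have := Fact.mk hr
    refine W.core_eq_bot hr fun x hx => ?_
    have l := pCoreOf_le r _ hx
    have e := map_pCoreOf_le (p := r) (MulAction.toPermHom (MulAction.stabilizer G a)
      (MulAction.orbit (MulAction.stabilizer G a) b)) ((MulAction.stabilizer G b).subgroupOf (MulAction.stabilizer G a))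
    rw [pCoreOf_eq_bot_iff.2 (CA.Fitting.fitting_eq_bot_iff.1 hF r hr), ← inf_subgroupOf_left,
      pCoreOf_subgroupOf inf_le_left, le_bot_iff, Subgroup.map_eq_bot_iff] at e
    refine mem_cor.2 ⟨l.1, fun m hm => mem_inf.2 ⟨mul_mem (mul_mem hm (mem_inf.1 l).1) (inv_mem hm), ?_⟩⟩
    have := congrArg Subtype.val (DFunLike.congr_fun (e (show (⟨x, l.1⟩ : MulAction.stabilizer G a) ∈ _ from hx))
      ⟨_, ⟨m⁻¹, inv_mem hm⟩, rfl⟩)
    change x • m⁻¹ • b = m⁻¹ • b at this
    change _ • b = b
    rw [mul_smul, mul_smul, this, smul_inv_smul]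
  exact ⟨CA.Fitting.fitting_eq_bot_iff.2 fun r hr => pCoreOf_eq_bot_iff.1 (k r hr), W.dvd k⟩

end Cfsg.Agent.S3693
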