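import Cfsg.Statements.S3696
import Mathlib


set_option autoImplicit false
open Cfsg

namespace Cfsg.Agent.S3696
open Subgroup

theorem amgm (a b s r : ℕ) (hs : 0 < s) :
    a ^ s * b ^ r * (s + r) ^ (s + r) ≤ (a + b) ^ (s + r) * (s ^ s * r ^ r) := by
  rcases Nat.eq_zero_or_pos r with rfl | hr
  · simp only [pow_zero, mul_one, add_zero]
    exact Nat.mul_le_mul_right _ (Nat.pow_le_pow_left (Nat.le_add_right _ _) _)
  have hs' : (0 : ℝ) < s := by exact_mod_cast hs
  have hr' : (0 : ℝ) < r := by exact_mod_cast hr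
  have h := Real.geom_mean_le_arith_mean2_weighted (w₁ := s / (s + r)) (w₂ := r / (s + r))
    (p₁ := a / s) (p₂ := b / r) (by positivity) (by positivity) (by positivity) (by positivity)
    (by field_simp)
  have h2 := pow_le_pow_left₀ (by positivity) h (s + r)
  rw [mul_pow, ← Real.rpow_mul_natCast (by positivity), ← Real.rpow_mul_natCast (by positivity),
    show (s : ℝ) / (s + r) * ((s + r : ℕ) : ℝ) = (s : ℕ) by push_cast; field_simp,
    show (r : ℝ) / (s + r) * ((s + r : ℕ) : ℝ) = (r : ℕ) by push_cast; field_simp,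
    Real.rpow_natCast, Real.rpow_natCast,
    show (s : ℝ) / (s + r) * (a / s) + r / (s + r) * (b / r) = (a + b) / (s + r) by field_simp,
    div_pow, div_pow, div_pow, div_mul_div_comm, div_le_div_iff₀ (by positivity) (by positivity)] at h2
  exact_mod_cast h2

theorem aux {Ω : Type*} [Fintype Ω] [DecidableEq Ω] {p : ℕ} (hp : p.Prime) (n : ℕ) :
    ∀ (S : Finset Ω) (A : Subgroup (Equiv.Perm Ω)) (k : ℕ), S.card = n → IsPGroup p A →
      (∀ a ∈ A, ∀ b ∈ A, a * b = b * a) → (∀ a ∈ A, ∀ x ∈ S, a x ∈ S) →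
      (∀ a ∈ A, (∀ x ∈ S, a x = x) → a = 1) → Nat.card {x : A // x ^ p = 1} = p ^ k →
      Nat.card A * k ^ k ≤ n ^ k := by
  classical
  haveI : Fact p.Prime := ⟨hp⟩
  induction n using Nat.strong_induction_on with
  | _ n ih =>
  intro S A k hn hA hab hS hf hk
  let E : Subgroup (Equiv.Perm Ω) := {
    carrier := {x | x ∈ A ∧ x ^ p = 1}
    one_mem' := ⟨A.one_mem, one_pow _⟩
    mul_mem' := fun {a b} ha hb => ⟨A.mul_mem ha.1 hb.1, by
      rw [(show Commute a b from hab a ha.1 b hb.1).mul_pow, ha.2, hb.2, one_mul]⟩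
    inv_mem' := fun {a} ha => ⟨A.inv_mem ha.1, by rw [inv_pow, ha.2, inv_one]⟩ }
  have hE : ∀ B : Subgroup (Equiv.Perm Ω), B ≤ A → Nat.card {x : B // x ^ p = 1} = Nat.card (B ⊓ E : Subgroup _) :=
    fun B hB => Nat.card_congr ⟨fun x => ⟨x.1, x.1.2, hB x.1.2, congrArg Subtype.val x.2⟩,
      fun x => ⟨⟨x.1, x.2.1⟩, Subtype.ext x.2.2.2⟩, fun _ => rfl, fun _ => rfl⟩
  have hEA : E ≤ A := fun x hx => hx.1
  rw [hE A le_rfl, inf_eq_right.2 hEA] at hk
  by_cases h1 : A = ⊥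
  · rw [eq_bot_iff.2 (hEA.trans h1.le), card_bot] at hk
    obtain rfl : k = 0 := by
      by_contra h; exact (Nat.one_lt_pow h hp.one_lt).ne hk
    simp [h1]
  obtain ⟨e, he, he1⟩ : ∃ e ∈ E, e ≠ 1 := by
    obtain ⟨j, hj⟩ := IsPGroup.iff_card.1 hA
    obtain ⟨g, hg⟩ := exists_prime_orderOf_dvd_card' (G := A) p (hj ▸ dvd_pow_self p (by
      rintro rfl; exact h1 (card_eq_one.1 hj)))
    refine ⟨g, ⟨g.2, ?_⟩, fun e => hp.ne_one (by rw [← hg, show g = 1 from Subtype.ext e, orderOf_one])⟩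
    have := pow_orderOf_eq_one g
    rw [hg] at this
    exact congrArg Subtype.val this
  obtain ⟨w, hw, hew⟩ : ∃ w ∈ S, e w ≠ w := by
    by_contra h; push Not at h; exact he1 (hf e he.1 h)
  set T := MulAction.stabilizer (Equiv.Perm Ω) w with hT
  let O := Finset.univ.filter fun x => x ∈ MulAction.orbit A w
  have hO : ∀ x, x ∈ O ↔ ∃ a ∈ A, a w = x := fun x => by
    simp only [O, Finset.mem_filter, Finset.mem_univ, true_and]
    exact ⟨fun ⟨a, h⟩ => ⟨a, a.2, h⟩, fun ⟨a, ha, h⟩ => ⟨⟨a, ha⟩, h⟩⟩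
  have hOS : O ⊆ S := fun x hx => by obtain ⟨a, ha, rfl⟩ := (hO x).1 hx; exact hS a ha w hw
  have hOc : O.card = T.relIndex A := by
    rw [← Fintype.card_subtype, ← Nat.card_eq_fintype_card]
    exact (MulAction.index_stabilizer A w).symm
  have hcard : ∀ B : Subgroup (Equiv.Perm Ω), Nat.card (T ⊓ B : Subgroup _) * T.relIndex B = Nat.card B :=
    fun B => by
      have := card_mul_index (T.subgroupOf B)
      rwa [← inf_subgroupOf_right, Nat.card_congr (subgroupOfEquivOfLe inf_le_right).toEquiv,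
        inf_subgroupOf_right] at this
  obtain ⟨s, -, hs⟩ := (Nat.dvd_prime_pow hp).1 (hk ▸ Dvd.intro_left _ (hcard E))
  obtain ⟨r, -, hr⟩ := (Nat.dvd_prime_pow hp).1 (hk ▸ Dvd.intro _ (hcard E))
  have hs0 : 0 < s := Nat.pos_of_ne_zero (by rintro rfl; exact hew (relIndex_eq_one.1 hs he))
  obtain rfl : k = s + r := by
    have := hcard E
    rw [hs, hr, hk, ← pow_add] at this
    exact (Nat.pow_right_injective hp.two_le this).symm.trans (add_comm _ _)
  have hpos : 0 < O.card := Finset.card_pos.2 ⟨w, (hO w).2 ⟨1, A.one_mem, rfl⟩⟩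
  have hle := Finset.card_le_card hOS
  have h2 := ih (S \ O).card (by rw [Finset.card_sdiff_of_subset hOS]; omega) (S \ O) (T ⊓ A) r rfl
    (hA.to_le inf_le_right) (fun a ha b hb => hab a ha.2 b hb.2) (fun a ha x hx => by
      rw [Finset.mem_sdiff] at hx ⊢
      refine ⟨hS a ha.2 x hx.1, fun h => hx.2 ?_⟩
      obtain ⟨b, hb, e⟩ := (hO _).1 h
      exact (hO _).2 ⟨a⁻¹ * b, A.mul_mem (A.inv_mem ha.2) hb, by simp [e]⟩) (fun a ha h => hf a ha.2 fun x hx => by
      by_cases hx' : x ∈ O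
      · obtain ⟨b, hb, rfl⟩ := (hO _).1 hx'
        have h3 : a w = w := ha.1
        rw [← Equiv.Perm.mul_apply, hab a ha.2 b hb, Equiv.Perm.mul_apply, h3]
      · exact h x (Finset.mem_sdiff.2 ⟨hx, hx'⟩))
    (by rw [hE _ inf_le_right, inf_assoc, inf_eq_right.2 hEA, hr])
  have h3 : p ^ s ≤ O.card := by
    rw [hOc, ← hs]
    exact relIndex_le_of_le_right hEA (by rw [← hOc]; omega)
  have h4 : O.card * s ^ s ≤ O.card ^ s := by
    obtain ⟨t, rfl⟩ : ∃ t, s = t + 1 := ⟨s - 1, by omega⟩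
    rw [pow_succ' O.card]
    refine Nat.mul_le_mul_left _ ?_
    calc (t + 1) ^ (t + 1) ≤ (2 ^ t) ^ (t + 1) := Nat.pow_le_pow_left Nat.lt_two_pow_self _
      _ = (2 ^ (t + 1)) ^ t := by rw [← pow_mul, ← pow_mul, mul_comm]
      _ ≤ _ := Nat.pow_le_pow_left ((Nat.pow_le_pow_left hp.two_le _).trans h3) _
  have h5 := amgm O.card (S \ O).card s r hs0
  rw [show O.card + (S \ O).card = n by rw [Finset.card_sdiff_of_subset hOS]; omega] at h5
  refine Nat.le_of_mul_le_mul_right (le_trans ?_ h5) (c := s ^ s * r ^ r)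
    (Nat.mul_pos (pow_pos hs0 _) (Nat.pos_of_ne_zero (by simp)))
  rw [← hcard A, ← hOc]
  calc _ = (O.card * s ^ s) * (Nat.card (T ⊓ A : Subgroup _) * r ^ r) * (s + r) ^ (s + r) := by ring
    _ ≤ _ := by gcongr

/-- Let p be a prime, Ω a finite set with n ≥ p elements, and A an abelian p-subgroup of the symmetric group on Ω whose elements of order dividing p number p^k (so k is the rank of A). Then |A| · k^k ≤ n^k, that is, |A| ≤ (n/k)^k. -/
theorem result {Ω : Type*} [Fintype Ω] [DecidableEq Ω]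
    (p : ℕ) (hp : p.Prime) (hn : p ≤ Fintype.card Ω) (A : Subgroup (Equiv.Perm Ω)) (hA : IsPGroup p A) (hab : IsMulCommutative A)
    (k : ℕ) (hk : Nat.card {x : A // x ^ p = 1} = p ^ k) :
    Nat.card A * k ^ k ≤ Fintype.card Ω ^ k := by
  exact aux hp _ Finset.univ A k rfl hA
    (fun a ha b hb => congrArg Subtype.val (hab.is_comm.comm ⟨a, ha⟩ ⟨b, hb⟩)) (by simp)
    (fun a _ h => Equiv.ext fun x => h x (Finset.mem_univ x)) hk

end Cfsg.Agent.S3696
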