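import Cfsg.Statements.S3701
import Cfsg.Agent.Lib.Char.H7Exc3

set_option autoImplicit false
open Cfsg

namespace Cfsg.Agent.S3701

open Subgroup CA.H7Exc
open scoped Classical

abbrev Z2 := Multiplicative (ZMod 2)
abbrev K3 := Z3 × Z3 × Z3

def k3 (i j l : ZMod 3) : K3 := (.ofAdd i, .ofAdd j, .ofAdd l)
def v2 (i j : ZMod 2) : Z2 × Z2 := (.ofAdd i, .ofAdd j)
def act (q : Z2 × Z2) (v : K3) : K3 :=
  (if q.1 = q.2 then v.1 else v.1⁻¹, if q.1 = 1 then v.2.1 else v.2.1⁻¹, if q.2 = 1 then v.2.2 else v.2.2⁻¹)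

theorem a1 : (Equiv.swap (0 : Fin 9) 1 * Equiv.swap 1 2) ^ 3 = 1 := by decide
theorem a2 : (Equiv.swap (3 : Fin 9) 4 * Equiv.swap 4 5) ^ 3 = 1 := by decide
theorem a3 : (Equiv.swap (6 : Fin 9) 7 * Equiv.swap 7 8) ^ 3 = 1 := by decide
theorem b1 : (Equiv.swap (0 : Fin 9) 1 * Equiv.swap 3 4) ^ 2 = 1 := by decide
theorem b2 : (Equiv.swap (0 : Fin 9) 1 * Equiv.swap 6 7) ^ 2 = 1 := by decide

theorem model : ∃ f s, Sd act f s (closure ({Equiv.swap (0 : Fin 9) 1 * Equiv.swap 1 2,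
    Equiv.swap (3 : Fin 9) 4 * Equiv.swap 4 5, Equiv.swap (6 : Fin 9) 7 * Equiv.swap 7 8,
    Equiv.swap (0 : Fin 9) 1 * Equiv.swap 3 4, Equiv.swap (0 : Fin 9) 1 * Equiv.swap 6 7} : Set (Equiv.Perm (Fin 9)))) := by
  refine ⟨(hn 3 a1).noncommCoprod ((hn 3 a2).noncommCoprod (hn 3 a3) (commute_hn _ _ (by unfold Commute SemiconjBy; decide)))
    (by unfold Commute SemiconjBy; decide +kernel), (hn 2 b1).noncommCoprod (hn 2 b2)
    (commute_hn _ _ (by unfold Commute SemiconjBy; decide)), Sd.of_closure (by decide +kernel) (by decide +kernel) ?_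
    (fun v => mul_mem (pow_mem (subset_closure (by simp)) _) (mul_mem (pow_mem (subset_closure (by simp)) _)
      (pow_mem (subset_closure (by simp)) _)))
    fun v => mul_mem (pow_mem (subset_closure (by simp)) _) (pow_mem (subset_closure (by simp)) _)⟩
  rintro _ (rfl | rfl | rfl | rfl | rfl)
  exacts [⟨k3 1 0 0, 1, by decide⟩, ⟨k3 0 1 0, 1, by decide⟩, ⟨k3 0 0 1, 1, by decide⟩, ⟨1, v2 1 0, by decide⟩,
    ⟨1, v2 0 1, by decide⟩]

theorem eq_of {x y c : ℤ} (hx : x ≠ 0) (hy : y ≠ 0) (hc : c ≠ 0) (h1 : x + y = -c)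
    (h2 : (x : ℚ)⁻¹ + (y : ℚ)⁻¹ = -4 * (c : ℚ)⁻¹) : x = y := by
  have : (x : ℚ) ≠ 0 := by exact_mod_cast hx
  have : (y : ℚ) ≠ 0 := by exact_mod_cast hy
  have : (c : ℚ) ≠ 0 := by exact_mod_cast hc
  field_simp at h2
  have h3 : (y + x) * c = -(x * y * 4) := by exact_mod_cast h2
  exact sub_eq_zero.1 (pow_eq_zero_iff two_ne_zero |>.1 (by linear_combination (x + y - c) * h1 - h3 + c * h1))

def rep (v : K3) : K3 :=
  if v.1 ≠ 1 ∧ v.2.1 ≠ 1 ∧ v.2.2 ≠ 1 then k3 1 1 1 else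
    k3 (if v.1 = 1 then 0 else 1) (if v.2.1 = 1 then 0 else 1) (if v.2.2 = 1 then 0 else 1)

def φ (a b : K3) : Z3 × Z3 →* K3 :=
  (hn 3 (a := a) (by revert a; decide)).coprod (hn 3 (a := b) (by revert b; decide))

def As : List (List ℤ) := [[2, 2, 2, 0, -2, -2, -4, 0, 0, 0], [0, -2, 0, 2, -2, 0, 2, 0, 0, 0],
  [0, -2, 2, 0, -2, 2, 0, 0, 0, 0], [2, 2, -2, -2, -2, 0, 0, 0, 0, 0], [2, 0, 0, 1, 2, 2, 0, 0, 0, -9],
  [2, 0, 0, 1, 2, 2, 0, 0, 0, 9], [2, 0, 1, 0, 2, 0, 2, 0, -9, 0], [2, 0, 1, 0, 2, 0, 2, 0, 9, 0],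
  [2, 1, 0, 0, 0, 2, 2, -9, 0, 0], [2, 1, 0, 0, 0, 2, 2, 9, 0, 0]]
def Bs : List (List ℤ) := [[1, 2, 1, 4, 2, 2, 2, 2, -2, -2], [2, -2, -4, -4, -2, -2, -2, -2, 5, 5],
  [2, -2, 2, -4, -2, -2, 1, 1, 2, 2], [2, 4, -4, -4, 1, 1, -2, -2, 2, 2], [-1, -2, -1, -1, 1, 1, 1, 1, -1, -1],
  [-1, -2, 2, -1, 1, 1, -2, -2, 2, 2], [-1, 1, -1, -1, -2, -2, 1, 1, 2, 2], [0, 0, 0, 0, 0, 0, 0, 0, -1, 1],
  [0, 0, 0, 0, 0, 0, -1, 1, 0, 0], [0, 0, 0, 0, -1, 1, 0, 0, 0, 0]]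

theorem tab : tabsC 18 [54, 54, 54, 54, 27, 27, 27, 6, 6, 6] [2, 1, 1, 1, 1, 1, 1, 1, 1, 1] As Bs =
    [[[2, -2, 1, -2, 1, -2, 1, 0, 1, 0], [2, -2, 1, -2, 1, -2, 1, 0, -1, 0], [2, -2, -2, 1, 1, 1, -2, 0, 0, 1],
    [2, 1, 1, 1, 1, 1, 1, -1, -1, 1], [2, -2, -2, 1, 1, 1, -2, 0, 0, -1], [2, 1, 1, 1, 1, 1, 1, -1, 1, -1],
    [2, 1, 1, 1, 1, 1, 1, 1, -1, -1], [2, 1, -2, -2, -2, 1, 1, 1, 0, 0], [2, 1, -2, -2, -2, 1, 1, -1, 0, 0],
    [2, -2, -2, 4, -2, -2, 1, 0, 0, 0], [2, 4, -2, -2, 1, -2, -2, 0, 0, 0], [1, 2, 2, 2, -1, -1, -1, 0, 0, 0],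
    [1, 2, 2, 2, -1, -1, -1, 0, 0, 0], [2, -2, 4, -2, -2, 1, -2, 0, 0, 0]]] := by decide +kernel

theorem divs {D g e1 e2 e3 f1 f2 f3 u1 u2 u3 : ℤ}
    (h0 : 27 ∣ 2 * D + 4 * (e1 + e2 + e3) + 8 * (f1 + f2 + f3) + 8 * g)
    (h1 : 9 ∣ 2 * D + 4 * (e2 + e3) + 8 * f1) (h2 : 9 ∣ 2 * D + 4 * (e1 + e3) + 8 * f2)
    (h3 : 9 ∣ 2 * D + 4 * (e1 + e2) + 8 * f3) (h4 : 9 ∣ 2 * D + 4 * e1 + 4 * f1 + 4 * g)
    (h5 : 9 ∣ 2 * D + 4 * e2 + 4 * f2 + 4 * g) (h6 : 9 ∣ 2 * D + 4 * e3 + 4 * f3 + 4 * g)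
    (h7 : 9 ∣ 2 * D + 4 * (f1 + f2 + f3) + 2 * g) (k1 : 2 ∣ e1 - u1) (k2 : 2 ∣ e2 - u2) (k3 : 2 ∣ e3 - u3) :
    ∀ a ∈ As, 18 ∣ dot a [g, e1, e2, e3, f1, f2, f3, u1, u2, u3] := by
  have t1 : 9 ∣ e1 + 2 * f2 + 2 * f3 + 2 * g := by clear * - h0 h1; omega
  have t2 : 9 ∣ e2 + 2 * f1 + 2 * f3 + 2 * g := by clear * - h0 h2; omega
  have t3 : 9 ∣ e3 + 2 * f1 + 2 * f2 + 2 * g := by clear * - h0 h3; omega
  have s1 : 9 ∣ e2 + e3 + f1 + 2 * f2 + 2 * f3 + g := by clear * - h0 h4; omega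
  have s2 : 9 ∣ e1 + e3 + f2 + 2 * f1 + 2 * f3 + g := by clear * - h0 h5; omega
  have s3 : 9 ∣ e1 + e2 + f3 + 2 * f1 + 2 * f2 + g := by clear * - h0 h6; omega
  have w : 9 ∣ 2 * (e1 + e2 + e3 + f1 + f2 + f3) + 3 * g := by clear * - h0 h7; omega
  simp only [As, List.forall_mem_cons, dot_cons, dot_nil_left, List.not_mem_nil, false_imp_iff, implies_true]
  exact ⟨by clear * - w s1 s2; omega, by clear * - s1 s3; omega, by clear * - s1 s2; omega, by clear * - s1 t1; omega,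
    by clear * - t3 k3; omega, by clear * - t3 k3; omega, by clear * - t2 k2; omega, by clear * - t2 k2; omega,
    by clear * - t1 k1; omega, by clear * - t1 k1; omega, trivial⟩

theorem back {c : List ℤ} (hc : c.length = 10) (h : ∀ a ∈ As, 18 ∣ dot a c) :
    c = Bs.map (dot · (As.map fun a => dot a c / 18)) := by
  match c, hc with
  | [_, _, _, _, _, _, _, _, _, _], _ =>
    simp only [As, Bs, List.forall_mem_cons, dot_cons, dot_nil_left, List.map_cons, List.map_nil, List.cons.injEq] at h ⊢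
    obtain ⟨⟨_, h0⟩, ⟨_, h1⟩, ⟨_, h2⟩, ⟨_, h3⟩, ⟨_, h4⟩, ⟨_, h5⟩, ⟨_, h6⟩, ⟨_, h7⟩, ⟨_, h8⟩, ⟨_, h9⟩, -⟩ := h
    simp only [h0, h1, h2, h3, h4, h5, h6, h7, h8, h9, Int.mul_ediv_cancel_left _ (by norm_num : (18 : ℤ) ≠ 0)]
    refine ⟨?_, ?_, ?_, ?_, ?_, ?_, ?_, ?_, ?_, ?_, trivial⟩ <;> omega

theorem main {G : Type*} [Group G] [Finite G] {f : K3 →* G} {s : Z2 × Z2 →* G} {H : Subgroup G}
    (h : Sd act f s H) (hN : normalizer (f.range : Set G) = H)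
    (hC : ∀ t ∈ f.range, t ≠ 1 → centralizer ({t} : Set G) ≤ H) : Nat.card G = 108 := by
  have hx2 : ∀ x : Z2 × Z2, x ^ 2 = 1 := by decide
  have hS := h.sp (by decide) (fun x n e => by
    rw [← e, (Odd.pow (by decide) : Odd (3 ^ n)).choose_spec, pow_succ, pow_mul,
      hx2, one_pow, one_mul]) hN hC
  have hρ := h.isConj_iff hS hN
  have h3 : ∀ v, f v ^ 3 = 1 := fun v => hS.exp _ ⟨v, rfl⟩
  have h1 : ∀ v ≠ 1, f v ≠ 1 := fun v hv => by simpa [map_eq_one_iff f h.finj] using hv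
  have hi : ∀ v, (∃ x, act x v = v⁻¹) → IntAt (f v) := fun v e =>
    intAt_of_real (by rw [show 6 = 3 * 2 from rfl, pow_mul, h3, one_pow]) (map_inv f v ▸ (hρ _ _).2 e)
  have hc : ∀ v ≠ 1, Nat.card (centralizer ({f v} : Set G)) = (Finset.univ.filter fun q : K3 × Z2 × Z2 =>
      q.1 * act q.2 v = v * act 1 q.1 ∧ q.2 * 1 = 1 * q.2).card := fun v hv => by
    have := h.card_cent v 1 (by rw [map_one, mul_one]; exact hC _ ⟨v, rfl⟩ (h1 v hv))
    rwa [map_one, mul_one] at this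
  have u2 : ∀ v x, act x v = v → (f v * s x) ^ 2 = f (v * v) := fun v x e => by
    rw [pow_two, h.mul, e, ← pow_two x, hx2, map_one, mul_one]
  have hu : ∀ v x y, act x v = v → act y v = v⁻¹ → IntAt (f v * s x) := fun v x y e1 e2 =>
    intAt_of_real (by rw [show 6 = 2 * 3 from rfl, pow_mul, u2 v x e1, h3]) (isConj_iff.2 ⟨s y, by
      rw [eq_inv_iff_mul_eq_one, ← map_inv, ← one_mul (s y), ← one_mul (s y⁻¹), ← map_one f, h.mul, h.mul, h.mul,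
        (by decide : ∀ v x y, act x v = v → act y v = v⁻¹ → 1 * act y v * act (y * x) 1 * act (y * x * y⁻¹) v = 1)
          v x y e1 e2, (by decide : ∀ x y : Z2 × Z2, y * x * y⁻¹ * x = 1), map_one, map_one, mul_one]⟩)
  have hcu : ∀ v x, v ≠ 1 → act x v = v → Nat.card (centralizer ({f v * s x} : Set G)) = _ := fun v x hv e =>
    h.card_cent v x (le_trans (fun g hg => mem_centralizer_singleton_iff.2 (u2 v x e ▸
      (Commute.pow_right (mem_centralizer_singleton_iff.1 hg) 2).eq)) (hC _ ⟨_, rfl⟩ (h1 _ ((by decide : ∀ v : K3, v ≠ 1 → v * v ≠ 1) v hv))))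
  have n1 : ∀ v w x, x ≠ 1 → ¬ IsConj (f v) (f w * s x) := fun v w x hx e =>
    hx ((by decide : ∀ x : Z2 × Z2, x ^ 3 = 1 → x = 1) x (h.pow_eq_one (pow_three_of_conj e (h3 v))))
  have n2 : ∀ v w x y, act x v = v → act y w = w → (¬ ∃ z, act z (v * v) = w * w) →
      ¬ IsConj (f v * s x) (f w * s y) := fun v w x y e1 e2 e3 e =>
    e3 ((hρ _ _).1 (by rw [← u2 v x e1, ← u2 w y e2]; exact e.pow 2))
  have ie1 := hi (k3 1 0 0) (by decide)
  have ie2 := hi (k3 0 1 0) (by decide)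
  have ie3 := hi (k3 0 0 1) (by decide)
  have if1 := hi (k3 0 1 1) (by decide)
  have if2 := hi (k3 1 0 1) (by decide)
  have if3 := hi (k3 1 1 0) (by decide)
  have iu1 := hu (k3 1 0 0) (v2 1 1) (v2 1 0) (by decide) (by decide)
  have iu2 := hu (k3 0 1 0) (v2 0 1) (v2 1 0) (by decide) (by decide)
  have iu3 := hu (k3 0 0 1) (v2 1 0) (v2 0 1) (by decide) (by decide)
  have hO := orth_rv (g := f (k3 1 1 1)) (gs := [f (k3 1 0 0), f (k3 0 1 0), f (k3 0 0 1), f (k3 0 1 1), f (k3 1 0 1),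
    f (k3 1 1 0), f (k3 1 0 0) * s (v2 1 1), f (k3 0 1 0) * s (v2 0 1), f (k3 0 0 1) * s (v2 1 0)])
    (by simp only [List.forall_mem_cons, *]; simp) (by
      simp only [List.pairwise_cons, List.forall_mem_cons, hρ, List.not_mem_nil, false_imp_iff, implies_true,
        List.Pairwise.nil, and_true]
      and_intros <;> first | decide | exact n1 _ _ _ (by decide) | exact n2 _ _ _ _ (by decide) (by decide) (by decide)) (h3 _) (by rw [← map_inv, hρ]; decide) (by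
      simp only [List.forall_mem_cons, hρ, List.not_mem_nil, false_imp_iff, implies_true, and_true, ← map_inv]
      and_intros <;> first | decide | exact n1 _ _ _ (by decide) | exact n2 _ _ _ _ (by decide) (by decide) (by decide))
  rw [List.map_cons, List.map_cons, List.map_cons, List.map_cons, List.map_cons, List.map_cons, List.map_cons,
    List.map_cons, List.map_cons, List.map_nil, show (_ :: _ : List ℤ) = [54, 54, 54, 54, 27, 27, 27, 6, 6, 6] by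
      simp only [List.map_cons, List.map_nil]
      rw [hc _ (by decide), hc _ (by decide), hc _ (by decide), hc _ (by decide), hc _ (by decide), hc _ (by decide),
        hc _ (by decide), hcu _ _ (by decide) (by decide), hcu _ _ (by decide) (by decide),
        hcu _ _ (by decide) (by decide)]
      decide +kernel] at hO
  have hcm : ∀ v x, act x v = v → Commute (f v) (s x) := fun v x e =>
    (mul_inv_eq_iff_eq_mul.1 ((h.cj x v).trans (congrArg f e))).symm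
  have hr : ∀ v, IsConj (f v) (f (rep v)) ∨ IsConj (f v⁻¹) (f (rep v)) := by simp only [hρ]; decide
  have hd := fun χ => divs (D := iv 1 χ) (g := rv (f (k3 1 1 1)) χ) (e1 := iv (f (k3 1 0 0)) χ)
    (e2 := iv (f (k3 0 1 0)) χ) (e3 := iv (f (k3 0 0 1)) χ) (f1 := iv (f (k3 0 1 1)) χ) (f2 := iv (f (k3 1 0 1)) χ)
    (f3 := iv (f (k3 1 1 0)) χ) (u1 := iv (f (k3 1 0 0) * s (v2 1 1)) χ) (u2 := iv (f (k3 0 1 0) * s (v2 0 1)) χ)
    (u3 := iv (f (k3 0 0 1) * s (v2 1 0)) χ)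
    (by
      have := dvd_sum_rv f h3 rep hr (MonoidHom.id K3) (L := [1, k3 0 0 1, k3 0 0 1, k3 0 1 0, k3 0 1 0, k3 0 1 1, k3 0 1 1, k3 0 1 1, k3 0 1 1, k3 1 0 0, k3 1 0 0, k3 1 0 1, k3 1 0 1, k3 1 0 1, k3 1 0 1, k3 1 1 0, k3 1 1 0, k3 1 1 0, k3 1 1 0, k3 1 1 1, k3 1 1 1, k3 1 1 1, k3 1 1 1, k3 1 1 1, k3 1 1 1, k3 1 1 1, k3 1 1 1]) (by decide +kernel) χ
      simp [rv_real intAt_one, rv_real ie1, rv_real ie2, rv_real ie3, rv_real if1, rv_real if2, rv_real if3] at this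
      omega)
    (by
      have := dvd_sum_rv f h3 rep hr (φ (k3 0 1 0) (k3 0 0 1)) (L := [1, k3 0 0 1, k3 0 0 1, k3 0 1 0, k3 0 1 0, k3 0 1 1, k3 0 1 1, k3 0 1 1, k3 0 1 1]) (by decide +kernel) χ
      simp [rv_real intAt_one, rv_real ie1, rv_real ie2, rv_real ie3, rv_real if1, rv_real if2, rv_real if3] at this
      omega)
    (by
      have := dvd_sum_rv f h3 rep hr (φ (k3 1 0 0) (k3 0 0 1)) (L := [1, k3 0 0 1, k3 0 0 1, k3 1 0 0, k3 1 0 0, k3 1 0 1, k3 1 0 1, k3 1 0 1, k3 1 0 1]) (by decide +kernel) χ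
      simp [rv_real intAt_one, rv_real ie1, rv_real ie2, rv_real ie3, rv_real if1, rv_real if2, rv_real if3] at this
      omega)
    (by
      have := dvd_sum_rv f h3 rep hr (φ (k3 1 0 0) (k3 0 1 0)) (L := [1, k3 0 1 0, k3 0 1 0, k3 1 0 0, k3 1 0 0, k3 1 1 0, k3 1 1 0, k3 1 1 0, k3 1 1 0]) (by decide +kernel) χ
      simp [rv_real intAt_one, rv_real ie1, rv_real ie2, rv_real ie3, rv_real if1, rv_real if2, rv_real if3] at this
      omega)
    (by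
      have := dvd_sum_rv f h3 rep hr (φ (k3 1 0 0) (k3 0 1 2)) (L := [1, k3 0 1 1, k3 0 1 1, k3 1 0 0, k3 1 0 0, k3 1 1 1, k3 1 1 1, k3 1 1 1, k3 1 1 1]) (by decide +kernel) χ
      simp [rv_real intAt_one, rv_real ie1, rv_real ie2, rv_real ie3, rv_real if1, rv_real if2, rv_real if3] at this
      omega)
    (by
      have := dvd_sum_rv f h3 rep hr (φ (k3 0 1 0) (k3 1 0 2)) (L := [1, k3 0 1 0, k3 0 1 0, k3 1 0 1, k3 1 0 1, k3 1 1 1, k3 1 1 1, k3 1 1 1, k3 1 1 1]) (by decide +kernel) χ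
      simp [rv_real intAt_one, rv_real ie1, rv_real ie2, rv_real ie3, rv_real if1, rv_real if2, rv_real if3] at this
      omega)
    (by
      have := dvd_sum_rv f h3 rep hr (φ (k3 0 0 1) (k3 1 2 0)) (L := [1, k3 0 0 1, k3 0 0 1, k3 1 1 0, k3 1 1 0, k3 1 1 1, k3 1 1 1, k3 1 1 1, k3 1 1 1]) (by decide +kernel) χ
      simp [rv_real intAt_one, rv_real ie1, rv_real ie2, rv_real ie3, rv_real if1, rv_real if2, rv_real if3] at this
      omega)
    (by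
      have := dvd_sum_rv f h3 rep hr (φ (k3 1 2 0) (k3 0 1 2)) (L := [1, k3 0 1 1, k3 0 1 1, k3 1 0 1, k3 1 0 1, k3 1 1 0, k3 1 1 0, k3 1 1 1, k3 1 1 1]) (by decide +kernel) χ
      simp [rv_real intAt_one, rv_real ie1, rv_real ie2, rv_real ie3, rv_real if1, rv_real if2, rv_real if3] at this
      omega)
   
    (dvd_two (by rw [← map_mul, ← pow_two, hx2, map_one]) (hcm _ _ (by decide)) ie1 iu1 χ)
    (dvd_two (by rw [← map_mul, ← pow_two, hx2, map_one]) (hcm _ _ (by decide)) ie2 iu2 χ)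
    (dvd_two (by rw [← map_mul, ← pow_two, hx2, map_one]) (hcm _ _ (by decide)) ie3 iu3 χ)
   
  obtain ⟨R, hR, E, hP⟩ := exists_patC hO (ts := [2, 1, 1, 1, 1, 1, 1, 1, 1, 1]) (by simp [rv_triv, iv_triv])
    (k := 18) (by norm_num) As Bs hd fun χ => back rfl (hd χ)
  rw [tab, List.mem_singleton] at hR
  subst hR
  have k0 := hP.all (fun r d => d ≠ 0) fun χ hχ => by have := iv_one_pos χ; omega
  obtain ⟨b2, b2', b3, l3, b3', l2, l1, b1, b1', c3, c1, d, d', c2, rfl⟩ : ∃ b2 b2' b3 l3 b3' l2 l1 b1 b1' c3 c1 d d' c2,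
      E = [b2, b2', b3, l3, b3', l2, l1, b1, b1', c3, c1, d, d', c2] := by
    match E, hP.len with | [_, _, _, _, _, _, _, _, _, _, _, _, _, _], _ => exact ⟨_, _, _, _, _, _, _, _, _, _, _, _, _, _, rfl⟩
  have hu1 : ∀ v x, x ≠ 1 → f v * s x ≠ 1 := fun v x hx e => hx (h.inj _ _ e).2
  have m0 := hP.lin 0 rfl (rv_zero (h3 _) intAt_one (fun e => h1 _ (by decide) (isConj_one_left.1 e))
    fun e => h1 _ (by decide) (inv_eq_one.1 (isConj_one_left.1 e)))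
  have m1 := hP.lin 1 rfl (col_one ie1 (h1 _ (by decide)))
  have m2 := hP.lin 2 rfl (col_one ie2 (h1 _ (by decide)))
  have m3 := hP.lin 3 rfl (col_one ie3 (h1 _ (by decide)))
  have m4 := hP.lin 4 rfl (col_one if1 (h1 _ (by decide)))
  have m7 := hP.lin 7 rfl (col_one iu1 (hu1 _ _ (by decide)))
  have m8 := hP.lin 8 rfl (col_one iu2 (hu1 _ _ (by decide)))
  have m9 := hP.lin 9 rfl (col_one iu3 (hu1 _ _ (by decide)))
  have q1 := hP.cub 1 2 3 rfl rfl rfl ie1 ie2 ie3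
  have q2 := hP.cub 1 1 2 rfl rfl rfl ie1 ie1 ie2
  have q3 := hP.cub 1 1 3 rfl rfl rfl ie1 ie1 ie3
  have q4 := hP.cub 2 2 1 rfl rfl rfl ie2 ie2 ie1
  have q5 := hP.cub 2 2 3 rfl rfl rfl ie2 ie2 ie3
  have q6 := hP.cub 3 3 1 rfl rfl rfl ie3 ie3 ie1
  have q7 := hP.cub 1 2 6 rfl rfl rfl ie1 ie2 if3
  rw [hS.cnt h.finj hρ (by decide) (by decide), show Finset.card _ = 0 by decide] at q1 q2 q3 q4 q5 q6
  rw [hS.cnt h.finj hρ (by decide) (by decide), show Finset.card _ = 1 by decide, hc _ (by decide), hc _ (by decide),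
    show Finset.card _ = 54 by decide +kernel, show Finset.card _ = 54 by decide +kernel] at q7
  clear * - k0 m0 m1 m2 m3 m4 m7 m8 m9 q1 q2 q3 q4 q5 q6 q7
  simp [rv_triv, iv_triv, Nat.card_pos.ne', div_eq_mul_inv] at k0 m0 m1 m2 m3 m4 m7 m8 m9 q1 q2 q3 q4 q5 q6 q7
  obtain ⟨z1, z2, z3, z4, z5, z6, z7, z8, z9, z10, z11, z12, z13, z14⟩ := k0
  obtain rfl : c1 = c2 := by exact_mod_cast inv_injective (by linarith : (c1 : ℚ)⁻¹ = (c2 : ℚ)⁻¹)
  obtain rfl : c1 = c3 := by exact_mod_cast inv_injective (by linarith : (c1 : ℚ)⁻¹ = (c3 : ℚ)⁻¹)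
  obtain rfl := eq_of z8 z9 z11 (by omega) (by linarith)
  obtain rfl := eq_of z1 z2 z11 (by omega) (by linarith)
  obtain rfl := eq_of z3 z5 z11 (by omega) (by linarith)
  obtain rfl : l1 = 1 := by omega
  obtain rfl : l2 = 1 := by omega
  obtain rfl : l3 = 1 := by omega
  obtain rfl : c1 = 4 := by omega
  obtain rfl : b1 = -2 := by omega
  obtain rfl : b2 = -2 := by omega
  obtain rfl : b3 = -2 := by omega
  obtain rfl := eq_of (c := 8) z12 z13 (by norm_num) (by omega) (by norm_num at q1 ⊢; linarith)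
  obtain rfl : d = -4 := by omega
  norm_num at q7
  exact_mod_cast (by linarith : (Nat.card G : ℚ) = 108)

/-- Let H₀ ≤ Sym(9) be generated by the 3-cycles (1 2 3), (4 5 6), (7 8 9) and the involutions (1 2)(4 5), (1 2)(7 8) (a group of order 108, elementary abelian of order 27 extended by a four-group). Let G be a finite group with a subgroup H ≅ H₀, and T ≤ H of order 27 (a Sylow 3-subgroup of H) with N_G(T) = H and C_G(t) ≤ H for every t ≠ 1 in T. Then G = H. -/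
theorem result {G : Type*} [Group G] [Finite G] (H : Subgroup G)
    (hH : Nonempty (↥H ≃* ↥(Subgroup.closure ({Equiv.swap (0 : Fin 9) 1 * Equiv.swap 1 2, Equiv.swap (3 : Fin 9) 4 * Equiv.swap 4 5, Equiv.swap (6 : Fin 9) 7 * Equiv.swap 7 8,
        Equiv.swap (0 : Fin 9) 1 * Equiv.swap 3 4, Equiv.swap (0 : Fin 9) 1 * Equiv.swap 6 7} : Set (Equiv.Perm (Fin 9))))))
    (T : Subgroup G) (hTH : T ≤ H) (hT : Nat.card T = 27) (hN : Subgroup.normalizer (T : Set G) = H)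
    (hC : ∀ t ∈ T, t ≠ 1 → Subgroup.centralizer ({t} : Set G) ≤ H) : H = ⊤ := by
  obtain ⟨e⟩ := hH
  obtain ⟨f0, s0, h0⟩ := model
  obtain ⟨f, s, h⟩ := h0.of_equiv e
  have h1 : T = f.range := eq_of_le_of_card_ge (fun t ht => by
    obtain ⟨v, x, rfl⟩ := (h.mem t).1 (hTH ht)
    have := congrArg Subtype.val (pow_card_eq_one' (G := T) (x := ⟨_, ht⟩))
    rw [hT] at this
    rw [(by decide : ∀ x : Z2 × Z2, x ^ 27 = 1 → x = 1) x (h.pow_eq_one this), map_one, mul_one]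
    exact ⟨v, rfl⟩) (by rw [hT, ← Nat.card_congr (MonoidHom.ofInjective h.finj).toEquiv]; simp)
  subst h1
  exact eq_top_of_card_eq _ (by rw [main h hN hC, h.card]; simp)

end Cfsg.Agent.S3701
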