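import Cfsg.Statements.S3713
import Cfsg.Agent.Lib.Lin.SpAm3

set_option autoImplicit false
open Cfsg

namespace Cfsg.Agent.S3713

open CA.SpAm CA.CForm CA.CForm.Form

/-- A presentation of the symplectic group as the universal completion of an amalgam of small subgroups. Let F be a field with more than two elements, n ≥ 2, and Sp the group of 2n × 2n matrices over F preserving the standard alternating form, acting on column vectors; write e_k, f_k for the standard basis vectors of the two halves (a hyperbolic basis). For each k let S_k be the subgroup of Sp fixing e_l and f_l for all l ≠ k (a copy of SL(2, F) on the plane of e_k, f_k), and for each i with i + 1 < n let M_i be the subgroup fixing every e_l and fixing f_l for all l other than i, i+1 (an abelian group isomorphic to the additive group of F³). Then Sp is the universal completion of the amalgam formed by the S_k, the M_i and the subgroups generated by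 two of them: for every group H and homomorphisms σ_k : S_k → H, μ_i : M_i → H such that for each pair of these subgroups some homomorphism on the subgroup they generate restricts to the given ones, there is exactly one homomorphism Sp → H restricting to every σ_k and μ_i. -/
theorem result
    (F : Type*) [Field F] (hF : ∃ a : F, a ≠ 0 ∧ a ≠ 1) (n : ℕ) (hn : 2 ≤ n)
    (S M : Fin n → Subgroup ↥(Matrix.symplecticGroup (Fin n) F))
    (hS : ∀ j : Fin n, S j = Subgroup.closure {A : ↥(Matrix.symplecticGroup (Fin n) F) | ∀ k : Fin n, k ≠ j →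
      ((A : ↥(Matrix.symplecticGroup (Fin n) F)) : Matrix (Fin n ⊕ Fin n) (Fin n ⊕ Fin n) F).mulVec (Pi.single (Sum.inl k) (1 : F)) = (Pi.single (Sum.inl k) (1 : F)) ∧ ((A : ↥(Matrix.symplecticGroup (Fin n) F)) : Matrix (Fin n ⊕ Fin n) (Fin n ⊕ Fin n) F).mulVec (Pi.single (Sum.inr k) (1 : F)) = (Pi.single (Sum.inr k) (1 : F))})
    (hM : ∀ i : Fin n, (i : ℕ) + 1 < n → M i = Subgroup.closure {A : ↥(Matrix.symplecticGroup (Fin n) F) |
      (∀ k : Fin n, ((A : ↥(Matrix.symplecticGroup (Fin n) F)) : Matrix (Fin n ⊕ Fin n) (Fin n ⊕ Fin n) F).mulVec (Pi.single (Sum.inl k) (1 : F)) = (Pi.single (Sum.inl k) (1 : F))) ∧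
        ∀ k : Fin n, (k : ℕ) ≠ i → (k : ℕ) ≠ (i : ℕ) + 1 → ((A : ↥(Matrix.symplecticGroup (Fin n) F)) : Matrix (Fin n ⊕ Fin n) (Fin n ⊕ Fin n) F).mulVec (Pi.single (Sum.inr k) (1 : F)) = (Pi.single (Sum.inr k) (1 : F))})
    {H : Type*} [Group H] (σ : ∀ j : Fin n, ↥(S j) →* H) (μ : ∀ i : Fin n, ↥(M i) →* H)
    (hSS : ∀ j l : Fin n, j ≠ l → ∃ Ψ : ↥(S j ⊔ S l) →* H,
      (∀ (g : ↥(Matrix.symplecticGroup (Fin n) F)) (hg : g ∈ S j), Ψ ⟨g, Subgroup.mem_sup_left hg⟩ = σ j ⟨g, hg⟩) ∧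
        (∀ (g : ↥(Matrix.symplecticGroup (Fin n) F)) (hg : g ∈ S l), Ψ ⟨g, Subgroup.mem_sup_right hg⟩ = σ l ⟨g, hg⟩))
    (hMM : ∀ i i' : Fin n, i ≠ i' → (i : ℕ) + 1 < n → (i' : ℕ) + 1 < n → ∃ Ψ : ↥(M i ⊔ M i') →* H,
      (∀ (g : ↥(Matrix.symplecticGroup (Fin n) F)) (hg : g ∈ M i), Ψ ⟨g, Subgroup.mem_sup_left hg⟩ = μ i ⟨g, hg⟩) ∧
        (∀ (g : ↥(Matrix.symplecticGroup (Fin n) F)) (hg : g ∈ M i'), Ψ ⟨g, Subgroup.mem_sup_right hg⟩ = μ i' ⟨g, hg⟩))
    (hMS : ∀ i j : Fin n, (i : ℕ) + 1 < n → ∃ Ψ : ↥(M i ⊔ S j) →* H,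
      (∀ (g : ↥(Matrix.symplecticGroup (Fin n) F)) (hg : g ∈ M i), Ψ ⟨g, Subgroup.mem_sup_left hg⟩ = μ i ⟨g, hg⟩) ∧
        (∀ (g : ↥(Matrix.symplecticGroup (Fin n) F)) (hg : g ∈ S j), Ψ ⟨g, Subgroup.mem_sup_right hg⟩ = σ j ⟨g, hg⟩)) :
    ∃! Φ : ↥(Matrix.symplecticGroup (Fin n) F) →* H,
      (∀ (j : Fin n) (g : ↥(Matrix.symplecticGroup (Fin n) F)) (hg : g ∈ S j), Φ g = σ j ⟨g, hg⟩) ∧
        (∀ (i : Fin n), (i : ℕ) + 1 < n → ∀ (g : ↥(Matrix.symplecticGroup (Fin n) F)) (hg : g ∈ M i), Φ g = μ i ⟨g, hg⟩) := by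
  obtain ⟨n, rfl⟩ : ∃ m, n = m + 1 := ⟨n - 1, by omega⟩
  have b := bs_std (F := F) (n + 1)
  let ι := (spEquiv F (n + 1)).toMonoidHom
  let κ := (spEquiv F (n + 1)).symm.toMonoidHom
  have z : ∀ X g, κ g ∈ Subgroup.comap ι X ↔ g ∈ X := fun X g => .of_eq (congrArg (· ∈ X) ((spEquiv F _).apply_symm_apply g))
  have hS' : ∀ (j : Fin (n + 1)) g, κ g ∈ S j ↔ g ∈ SS _ (fun k => Pi.single (.inl k) 1) (fun k => -Pi.single (.inr k) 1) j := fun j g => by
    rw [hS]
    refine .trans (.of_eq (congrArg (κ g ∈ ·) ((congrArg _ (Set.ext fun A => ?_)).trans (Subgroup.closure_eq _)))) (z ..)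
    simp only [SetLike.mem_coe, Subgroup.mem_comap, mem_Fx, map_neg, neg_inj, ne_eq, Fin.val_inj, ← forall_and, ← imp_and]
    rfl
  have hM' : ∀ (j : Fin (n + 1)), j.1 < n → ∀ g,
      κ g ∈ M j ↔ g ∈ MM _ (fun k => Pi.single (.inl k) 1) (fun k => -Pi.single (.inr k) 1) j := fun j hj g => by
    rw [hM _ (by omega)]
    refine .trans (.of_eq (congrArg (κ g ∈ ·) ((congrArg _ (Set.ext fun A => ?_)).trans (Subgroup.closure_eq _)))) (z ..)
    simp only [SetLike.mem_coe, Subgroup.mem_comap, mem_Fx, map_neg, neg_inj, and_imp, forall_const]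
    rfl
  obtain ⟨Φ, p1, p2⟩ := main hF n b (fun j => ex (σ j) ∘ κ) (fun j => ex (μ j) ∘ κ)
    (fun j l => Cmp.comap (A := S j) (B := S l) (by
      by_cases h : j = l
      · subst h; exact ⟨_, (sup_idem (S j)).symm ▸ ex_mul (σ j), fun _ _ => rfl, fun _ _ => rfl⟩
      · exact ex_cmp (hSS j l h)) κ (fun g => (hS' j g).2) fun g => (hS' l g).2)
    (fun j l a c d => (ex_cmp (hMM j l a (by omega) (by omega))).comap κ (fun g => (hM' j c g).2) fun g => (hM' l d g).2)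
    fun j l a => (ex_cmp (hMS j l (by omega))).comap κ (fun g => (hM' j a g).2) fun g => (hS' l g).2
  have e : ∀ g, κ (ι g) = g := (spEquiv F _).symm_apply_apply
  have q : (∀ j g (hg : g ∈ S j), Φ.comp ι g = σ j ⟨g, hg⟩) ∧ ∀ i : Fin (n + 1), (i : ℕ) + 1 < n + 1 → ∀ g (hg : g ∈ M i), Φ.comp ι g = μ i ⟨g, hg⟩ :=
    ⟨fun j g hg => (p1 j _ ((hS' ..).1 (by rwa [e]))).trans (by rw [Function.comp, e, ex_eq]),
      fun j hj g hg => (p2 j (by omega) _ ((hM' j (by omega) _).1 (by rwa [e]))).trans (by rw [Function.comp, e, ex_eq])⟩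
  refine ⟨_, q, fun Φ' q' => MonoidHom.ext fun g => ?_⟩
  exact e g ▸ gen_top hF b ((Φ'.eqLocus (Φ.comp ι)).comap κ)
    (fun j g hg => (q'.1 j _ ((hS' ..).2 hg)).trans (q.1 ..).symm) (fun i hi g hg =>
      (q'.2 ⟨i, by omega⟩ (by simpa) _ ((hM' ⟨i, by omega⟩ hi _).2 hg)).trans (q.2 _ (by simpa) ..).symm) (ι g)

end Cfsg.Agent.S3713
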