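import Cfsg.Statements.S3744
import Cfsg.Agent.Lib.Grp.L0FT

set_option autoImplicit false
open Cfsg

namespace Cfsg.Agent.S3744

open CA.L0FT Subgroup Pointwise

/-- A finite p-soluble group has a p-complement, all its p-complements are conjugate, and every subgroup of order prime to p lies in one of them. Here a p-complement is a subgroup of order prime to p whose index is a power of p. -/
theorem result {G : Type*} [Group G] [Finite G] {p : ℕ} [Fact p.Prime] (hG : Cfsg.IsPSolvable p G) : (∃ H : Subgroup G, (Nat.card H).Coprime p ∧ ∃ n : ℕ, H.index = p ^ n) ∧ (∀ H₁ H₂ : Subgroup G, (Nat.card H₁).Coprime p → (∃ n : ℕ, H₁.index = p ^ n) → (Nat.card H₂).Coprime p → (∃ n : ℕ, H₂.index = p ^ n) → ∃ g : G, H₂ = H₁.map (MulAut.conj g).toMonoidHom) ∧ (∀ U : Subgroup G, (Nat.card U).Coprime p → ∃ H : Subgroup G, (Nat.card H).Coprime p ∧ (∃ n : ℕ, H.index = p ^ n) ∧ ∃ g : G, U.map (MulAut.conj g).toMonoidHom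 ≤ H) := by
  have hp : p.Prime := Fact.out
  obtain ⟨n, H, h0, hl, -, hn, hf⟩ := hG
  have hc : ∀ m : ℕ, m.Coprime p ↔ ∀ q : ℕ, q.Prime → q ∣ m → q ∈ ({p}ᶜ : Set ℕ) := fun m =>
    ⟨fun h q _ hq e => (hp.coprime_iff_not_dvd.1 h.symm) (e ▸ hq),
      fun h => (hp.coprime_iff_not_dvd.2 fun hd => h p hp hd rfl).symm⟩
  have hh : ∀ K : Subgroup G, IsPiHall {p}ᶜ K ↔ (Nat.card K).Coprime p ∧ ∃ n : ℕ, K.index = p ^ n :=
    fun K => and_congr (hc _).symm ⟨fun h => ⟨_, Nat.eq_prime_pow_of_unique_prime_dvd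
      K.index_ne_zero_of_finite fun hq hd => by_contra fun e => h _ hq e hd⟩,
      fun ⟨n, h⟩ q hq e hd => e ((Nat.prime_dvd_prime_iff_eq hq hp).1 (hq.dvd_of_dvd_pow (h ▸ hd)))⟩
  obtain ⟨K, hK, hK'⟩ := (sep_of_series (π := {p}ᶜ) H h0 hl hn fun i => (hf i).symm.imp (hc _).1
    fun ⟨m, h⟩ q hq hd e => e ((Nat.prime_dvd_prime_iff_eq hq hp).1
      (hq.dvd_of_dvd_pow (h ▸ hd)))).exists_hall
  refine ⟨⟨K, (hh K).1 hK⟩, fun A B a b c d => conj_of_forall hK (fun L hL => hK' L hL.1) A B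
    ((hh A).2 ⟨a, b⟩) ((hh B).2 ⟨c, d⟩), fun U hU => ⟨K, ((hh K).1 hK).1, ((hh K).1 hK).2, ?_⟩⟩
  exact hK' U ((hc _).1 hU)

end Cfsg.Agent.S3744
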