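import Cfsg.Statements.S3781
import Cfsg.Agent.Lib.Grp.Fitting

set_option autoImplicit false
open Cfsg

namespace Cfsg.Agent.S3781

open Subgroup

variable {G : Type*} [Group G]

/-- iterated commutator with the whole group -/
def it (M : Subgroup G) : ℕ → Subgroup G
  | 0 => M
  | j + 1 => ⁅it M j, ⊤⁆

theorem it_normal (M : Subgroup G) [M.Normal] (j : ℕ) : (it M j).Normal := by
  induction j with
  | zero => exact (inferInstance : M.Normal)
  | succ j ih => show (⁅it M j, (⊤ : Subgroup G)⁆).Normal; infer_instance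

theorem it_succ' (M : Subgroup G) (j : ℕ) : it M (j + 1) = it ⁅M, ⊤⁆ j := by
  induction j with
  | zero => rfl
  | succ j ih => show ⁅it M (j + 1), (⊤ : Subgroup G)⁆ = ⁅it ⁅M, ⊤⁆ j, ⊤⁆; rw [ih]

theorem it_le_lcs (M : Subgroup G) (j : ℕ) : it M j ≤ (⊤ : Subgroup G).lowerCentralSeries j := by
  induction j with
  | zero => exact le_top
  | succ j ih => exact commutator_mono ih le_rfl

theorem comm_lcs (k : ℕ) : ∀ (M : Subgroup G) [M.Normal],
    ⁅M, (⊤ : Subgroup G).lowerCentralSeries k⁆ ≤ it M (k + 1) := by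
  induction k with
  | zero => intro M _; exact le_rfl
  | succ k ih =>
    intro M _
    haveI := it_normal M (k + 2)
    rw [Subgroup.lowerCentralSeries_succ, commutator_comm]
    refine CA.Fitting.three_subgroups ?_ ?_
    · rw [commutator_comm ⊤ M, it_succ' M (k + 1)]
      exact ih _
    · exact commutator_mono (ih M) le_rfl

theorem it_fix (M : Subgroup G) (h : ⁅M, ⊤⁆ = M) (j : ℕ) : it M j = M := by
  induction j with
  | zero => rfl
  | succ j ih => show ⁅it M j, (⊤ : Subgroup G)⁆ = M; rw [ih, h]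

theorem dvd_step [Finite G] {p : ℕ} [Fact p.Prime] (hG : IsPGroup p G) (M : Subgroup G) [M.Normal]
    (h : M ≠ ⊥) : p ∣ (⁅M, ⊤⁆ : Subgroup G).relIndex M := by
  have hle : (⁅M, ⊤⁆ : Subgroup G) ≤ M := commutator_le_left _ _
  obtain ⟨k, hk⟩ := (hG.to_subgroup M).index ((⁅M, ⊤⁆ : Subgroup G).subgroupOf M)
  have hk' : (⁅M, ⊤⁆ : Subgroup G).relIndex M = p ^ k := hk
  rcases k with _ | k
  · exfalso
    rw [pow_zero, relIndex_eq_one] at hk'
    have he : ⁅M, ⊤⁆ = M := le_antisymm hle hk'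
    haveI := hG.isNilpotent
    obtain ⟨c, hc⟩ := Subgroup.nilpotent_iff_lowerCentralSeries.1 (inferInstance : Group.IsNilpotent G)
    have := it_le_lcs M c
    rw [it_fix M he, hc, le_bot_iff] at this
    exact h this
  · rw [hk']; exact dvd_pow_self p (by omega)

theorem it_le (M : Subgroup G) [M.Normal] (j : ℕ) : it M j ≤ M := by
  induction j with
  | zero => exact le_rfl
  | succ j ih => haveI := it_normal M j; exact (commutator_le_left _ _).trans ih

theorem pow_dvd [Finite G] {p : ℕ} [Fact p.Prime] (hG : IsPGroup p G) (M : Subgroup G) [M.Normal]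
    (j : ℕ) (h : it M j ≠ ⊥) : p ^ j ∣ (it M j).relIndex M := by
  induction j with
  | zero => simp
  | succ j ih =>
    haveI := it_normal M j
    have hle : it M (j + 1) ≤ it M j := commutator_le_left _ _
    have h0 : it M j ≠ ⊥ := fun h0 => h (le_bot_iff.1 (h0 ▸ hle))
    rw [← relIndex_mul_relIndex _ _ _ hle (it_le M j), pow_succ, mul_comm (p ^ j)]
    exact Nat.mul_dvd_mul (dvd_step hG _ h0) (ih h0)

theorem lcs_normal (N : Subgroup G) [N.Normal] (j : ℕ) : (N.lowerCentralSeries j).Normal := by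
  induction j with
  | zero => exact (inferInstance : N.Normal)
  | succ j ih => rw [Subgroup.lowerCentralSeries_succ]; infer_instance

/-- Let G be a finite p-group and n ≥ 1, and write γ_1(G) = G, γ_{k+1}(G) = [γ_k(G), G], and likewise γ_k(N) for a subgroup N. Let N be a normal subgroup of G contained in γ_n(G). If i > 1 and γ_{i+1}(N) ≠ 1, then |γ_i(N) : γ_{i+1}(N)| ≥ p^n. -/
theorem result {G : Type*} [Group G] [Finite G] {p : ℕ} [Fact p.Prime] (hG : IsPGroup p G) (n : ℕ) (hn : 1 ≤ n) (N : Subgroup G) [N.Normal] (hN : N ≤ (⊤ : Subgroup G).lowerCentralSeries (n - 1)) (i : ℕ) (hi : 1 < i) (hne : N.lowerCentralSeries i ≠ ⊥) : p ^ n ≤ (N.lowerCentralSeries i).relIndex (N.lowerCentralSeries (i - 1)) := by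
  obtain ⟨j, rfl⟩ : ∃ j, i = j + 1 := ⟨i - 1, by omega⟩
  obtain ⟨k, rfl⟩ : ∃ k, n = k + 1 := ⟨n - 1, by omega⟩
  simp only [Nat.add_sub_cancel] at hN ⊢
  haveI := lcs_normal N j
  have h1 : N.lowerCentralSeries (j + 1) ≤ it (N.lowerCentralSeries j) (k + 1) :=
    (Subgroup.commutator_mono le_rfl hN).trans (comm_lcs k _)
  have h2 : it (N.lowerCentralSeries j) (k + 1) ≠ ⊥ := fun h0 => hne (le_bot_iff.1 (h0 ▸ h1))
  have h3 := (pow_dvd hG _ _ h2).trans (Subgroup.relIndex_dvd_of_le_left (N.lowerCentralSeries j) h1)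
  exact Nat.le_of_dvd (Nat.pos_of_ne_zero Subgroup.FiniteIndex.index_ne_zero) h3

end Cfsg.Agent.S3781
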