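import Cfsg.Statements.S3802
import Cfsg.Agent.Lib.Grp.L0Misc

set_option autoImplicit false
open Cfsg

namespace Cfsg.Agent.S3802

open CA.L0Misc

/-- Let G be a finite group, M a maximal subgroup of G and N a subnormal subgroup of G contained in M. Then N is contained in every conjugate of M, that is, N lies in the core of M in G. -/
theorem result {G : Type*} [Group G] [Finite G] (M N : Subgroup G) (hM : IsCoatom M) (hN : N.IsSubnormal) (hNM : N ≤ M) :
    N ≤ Subgroup.normalCore M := by
  have h : Subgroup.normalizer (snIn M : Set G) = ⊤ := by
    by_contra h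
    exact hM.1 (eq_top_of_norm_snIn ((hM.le_iff.1 (le_norm_snIn M)).resolve_left h).le)
  have := Subgroup.normalizer_eq_top_iff.1 h
  exact (le_snIn hN hNM).trans (Subgroup.normal_le_normalCore.2 (snIn_le M))

end Cfsg.Agent.S3802
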