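import Cfsg.Statements.S3803
import Cfsg.Agent.Lib.Solv.HSub

set_option autoImplicit false
open Cfsg

namespace Cfsg.Agent.S3803

open Subgroup CA CA.BG

/-- Let P be a 2-subgroup and A a subgroup of odd order of a finite group, with A normalizing P. Let D ≤ P with 1 < |D| < |P|. If every subgroup of P of order |D|, and also every subgroup of P of order 4 in case |D| = 2, is normalized by A, then A centralizes P. -/
theorem result {X : Type*} [Group X] [Finite X] (P A D : Subgroup X) (hP : IsPGroup 2 P) (hA : Odd (Nat.card A))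
    (hAP : A ≤ Subgroup.normalizer (P : Set X)) (hDP : D ≤ P) (hD1 : 1 < Nat.card D) (hD2 : Nat.card D < Nat.card P)
    (hinv : ∀ E : Subgroup X, E ≤ P → (Nat.card E = Nat.card D ∨ (Nat.card D = 2 ∧ Nat.card E = 4)) → A ≤ Subgroup.normalizer (E : Set X)) :
    A ≤ Subgroup.centralizer (P : Set X) := by
  have h1 := isPi_of_isPGroup Nat.prime_two hP
  exact (HSub.triv_of_cop Nat.prime_two h1 (by simp)).cent_of_card Nat.prime_two h1 le_rfl
    ((isPi_compl_iff Nat.prime_two).2 (Nat.two_dvd_ne_zero.2 (Nat.odd_iff.1 hA))) hAP hDP hD1 hD2 hinv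

end Cfsg.Agent.S3803
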