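import Cfsg.Statements.S3805
import Cfsg.Agent.Lib.Char.H7Exc4

set_option autoImplicit false
open Cfsg

namespace Cfsg.Agent.S3805

open Subgroup CA.H7Exc
open scoped Classical

/-- Let G be a finite group whose Sylow 3-subgroup T is elementary abelian of order 9 and self-centralizing, with N_G(T)/T a Klein four-group, and suppose that the centralizer of every nonidentity element of T lies in N_G(T). Then T is normal in G. -/
theorem result {G : Type*} [Group G] [Finite G]
    (T : Sylow 3 G) (hT : Cfsg.IsElementaryAbelian 3 (T : Subgroup G)) (hcard : Nat.card T = 9)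
    (hC : Subgroup.centralizer ((T : Subgroup G) : Set G) = T)
    [hn : ((T : Subgroup G).subgroupOf (Subgroup.normalizer ((T : Subgroup G) : Set G))).Normal]
    (hK : IsKleinFour (↥(Subgroup.normalizer ((T : Subgroup G) : Set G)) ⧸
      (T : Subgroup G).subgroupOf (Subgroup.normalizer ((T : Subgroup G) : Set G))))
    (hloc : ∀ t ∈ (T : Subgroup G), t ≠ 1 →
      Subgroup.centralizer ({t} : Set G) ≤ Subgroup.normalizer ((T : Subgroup G) : Set G)) :
    Subgroup.normalizer ((T : Subgroup G) : Set G) = ⊤ := by
  have h : Hy T := ⟨hcard, hT.2, hloc⟩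
  obtain ⟨s, hs, h1, h2⟩ := exists_sec T (MulEquiv.refl _)
  have := Fintype.ofFinite (normalizer ((T : Subgroup G) : Set G) ⧸
    (T : Subgroup G).subgroupOf (normalizer ((T : Subgroup G) : Set G)))
  obtain ⟨a, b, c, ab, ac, bc⟩ := Finset.two_lt_card_iff.1 (show 2 < (Finset.univ.erase (1 : normalizer ((T : Subgroup G) : Set G) ⧸
    (T : Subgroup G).subgroupOf (normalizer ((T : Subgroup G) : Set G)))).card by
      rw [Finset.card_erase_of_mem (Finset.mem_univ _), Finset.card_univ, ← Nat.card_eq_fintype_card, hK.card_four]; norm_num)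
  have h3 : ∀ x, s x ^ 2 = 1 := fun x => by rw [← map_pow, ← hK.exponent_two, Monoid.pow_exponent_eq_one, map_one]
  exact h.four' hC.le (h1 a) (h1 b) (h3 a) (h3 b) (Commute.map (IsKleinFour.isMulCommutative.1.1 a b) s)
    (by simpa [map_eq_one_iff s hs] using ab) (by simpa [map_eq_one_iff s hs] using ac) (hs.ne bc.2.1)
    (by rw [h2, hcard, hK.card_four])

end Cfsg.Agent.S3805
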