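import Cfsg.Statements.S3815
import Cfsg.Agent.Lib.Grp.Core

set_option autoImplicit false
open Cfsg

namespace Cfsg.Agent.S3815

open Subgroup

/-- Let G be a finite group, p a prime and d ∈ G an element of order prime to p. If dg has order prime to p for every element g ∈ G of order prime to p, then d ∈ O_{p'}(G). -/
theorem result {G : Type*} [Group G] [Finite G] {p : ℕ} [Fact p.Prime]
    (d : G) (hd : (orderOf d).Coprime p)
    (h : ∀ g : G, (orderOf g).Coprime p → (orderOf (d * g)).Coprime p) :
    d ∈ Cfsg.pPrimeCore p G := by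
  let D : Subgroup G :=
    { carrier := {d | ∀ g : G, (orderOf g).Coprime p → (orderOf (d * g)).Coprime p}
      one_mem' := fun g hg => by rwa [one_mul]
      mul_mem' := fun {a b} ha hb g hg => by rw [mul_assoc]; exact ha _ (hb g hg)
      inv_mem' := fun {a} ha g hg => by
        have : ∀ n : ℕ, (orderOf (a ^ n * g)).Coprime p := fun n => by
          induction n with
          | zero => simpa using hg
          | succ n ih => rw [pow_succ', mul_assoc]; exact ha _ ih
        have h1 := this (orderOf a - 1)
        rwa [pow_sub _ (orderOf_pos a), pow_orderOf_eq_one, pow_one, one_mul] at h1 }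
  have orderOf_conj' : ∀ x y : G, orderOf (x * y * x⁻¹) = orderOf y := fun x y =>
    (MulAut.conj x).orderOf_eq y
  have hn : D.Normal := ⟨fun a ha x g hg => by
    have := ha (x⁻¹ * g * x⁻¹⁻¹) (by rwa [orderOf_conj'])
    rw [show x * a * x⁻¹ * g = x * (a * (x⁻¹ * g * x⁻¹⁻¹)) * x⁻¹ by group]
    rwa [orderOf_conj']⟩
  have hp : p.Prime := Fact.out
  have hD : (Nat.card D).Coprime p := (hp.coprime_iff_not_dvd.2 fun hd => by
    obtain ⟨x, hx⟩ := exists_prime_orderOf_dvd_card' p hd
    have := x.2 1 (by simp)
    rw [mul_one, orderOf_coe, hx] at this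
    exact hp.ne_one (Nat.coprime_self p |>.1 this)).symm
  exact CA.Core.le_pPrimeCore hD h

end Cfsg.Agent.S3815
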