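import Cfsg.Statements.S3816
import Cfsg.Agent.Lib.Solv.Flav1

set_option autoImplicit false
open Cfsg

namespace Cfsg.Agent.S3816

open Subgroup CA.Coprime CA.SylIn CA.Flav
open scoped CA.BG commutatorElement

universe u

theorem caseI {Γ : Type u} [Group Γ] [Finite Γ] {A H V : Subgroup Γ} {x : Γ} {p q : ℕ} (c : Ctx p x A H)
    (hV : V.Normal) (hVH : V ≤ H) (hV1 : V ≠ ⊥) (hq : q.Prime) (hVq : ∀ v ∈ V, v ^ q = 1)
    (hmin : ∀ U : Subgroup Γ, U.Normal → U ≤ V → U = ⊥ ∨ U = V) (h : H ≤ 𝓒(V)) : V ⊓ 𝓒(A) ≤ K A H := by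
  have := c.nH
  have := Fact.mk hq
  have hVH' : V ≤ 𝓒(H) := le_centralizer_iff.1 h
  have cn : ∀ {U W : Subgroup Γ}, U ≤ 𝓒(W) → W ≤ 𝓝(U) := fun e => (le_centralizer_iff.1 e).trans (centralizer_le_normalizer _)
  rcases hmin (V ⊓ 𝓒(A)) (c.nrm (cn (inf_le_left.trans hVH')) (cn inf_le_right)) inf_le_left with e | e
  · exact e.le.trans bot_le
  have hVA : V ≤ 𝓒(A) := e.ge.trans inf_le_right
  have hsub : ∀ U ≤ V, U = ⊥ ∨ U = V := fun U hU => hmin U (c.nrm (cn (hU.trans hVH')) (cn (hU.trans hVA))) hU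
  have hcen : ∀ n ∈ V, ∀ t, Commute t n := fun n hn t => mem_centralizer_singleton_iff.1 ((c.top.ge.trans (sup_le
    (fun a ha => mem_centralizer_singleton_iff.2 (hVH' hn a ha))
    fun a ha => mem_centralizer_singleton_iff.2 (hVA hn a ha) : _ ≤ centralizer {n})) (mem_top t))
  refine by_contra fun hK => ?_
  obtain ⟨v, ⟨hv, -⟩, hvK⟩ := SetLike.not_le_iff_exists.1 hK
  have hvC : v ∈ H ⊓ 𝓒(A) := ⟨hVH hv, hVA hv⟩
  have hKC := K_le (nn c.nH A)
  have hVp : IsPGroup q V := fun y => ⟨1, Subtype.ext (by simpa using hVq y y.2)⟩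
  obtain ⟨S, hS, hAS⟩ := CA.Coprime2.exists_isSylowIn (nn c.nH A) c.cop (.inl c.sA) q
  have hvS : v ∈ ⁅S, S⁆ := by
    by_contra h1
    obtain ⟨N, -, h2, h3, -⟩ := CA.Trf.exists_normal_not_mem (p := q) (H := S) (e := 1) le_rfl (by
      rw [← relIndex_mul_index hS.le, hq.dvd_mul, not_or, ← relIndex_top_right]
      refine ⟨hS.not_dvd, fun e => hq.one_lt.ne' (Nat.eq_one_of_dvd_coprimes c.cop (e.trans
        (relIndex_dvd_card_of_le_sup (nn c.nH A) (by rw [sup_comm, c.top]))) ?_)⟩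
      exact orderOf_eq_prime (hVq v hv) (fun e => hvK (e ▸ one_mem _)) ▸ orderOf_dvd_natCard _ hvC.1)
      (hS.le_of_le_normalizer hVp hVH (nn hV _) hv) (by simpa using hVq v hv) h1 fun k _ t _ => by
        rw [((hcen v hv t).pow_right k).eq]; simp
    exact h3 (h2 (commutator_mono le_top le_top (c.der hvC)))
  obtain rfl : S = H := by
    refine hS.le.eq_of_not_lt fun h1 => hvK ?_
    have h2 : S ≤ 𝓝(⁅S, A⁆) := normalizer_commutator_ge_left _ _
    have h3 : ⁅S, S⁆ ≤ K A H ⊓ S ⊔ ⁅S, A⁆ := commutator_le.2 fun s hs s' hs' => by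
      obtain ⟨b, hb, d, hd, rfl⟩ := exists_commutator_mul_centralizer hAS (cop_mono c.cop le_rfl hS.le) (.inl c.sA) hs
      obtain ⟨b', hb', d', hd', rfl⟩ := exists_commutator_mul_centralizer hAS (cop_mono c.cop le_rfl hS.le) (.inl c.sA) hs'
      obtain ⟨k, hk, e⟩ := c.quo V hV hVH hV1 d' ⟨hS.le hd'.1, hd'.2⟩
      have h3 := mul_mem (conj_mem nK ⟨hS.le hd.1, hd.2⟩ hk) (inv_mem hk)
      rw [show d * k * d⁻¹ * k⁻¹ = ⁅d, d'⁆ by
        calc _ = d * k * (d⁻¹ * (k⁻¹ * d')) * d'⁻¹ := by group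
          _ = _ := by rw [(hcen _ e _).eq, commutatorElement_def]; group] at h3
      have := mul_mem (mul_mem (mul_mem (mul_mem (mem_sup_right hb) (mem_sup_right (conj_mem h2 hd.1 hb')))
        (mem_sup_left (mem_inf.2 ⟨h3, commutator_le_self S (commutator_mem_commutator hd.1 hd'.1)⟩)))
        (mem_sup_right (conj_mem h2 hd'.1 (inv_mem hb)))) (mem_sup_right (S := K A H ⊓ S) (inv_mem hb'))
      simpa [commutatorElement_def, mul_assoc] using this
    obtain ⟨k, hk, b, hb, rfl⟩ := (mem_sup_iff (inf_le_right.trans h2)).1 (h3 hvS)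
    exact mul_mem hk.1 (c.sub S h1 hAS ⟨hb, ((𝓒(A)).mul_mem_cancel_left (hKC hk.1).2).1 hvC.2⟩)
  have nil := hS.isPGroup.isNilpotent
  have hZA : S ⊓ 𝓒(S) ≤ 𝓒(A) := by
    have h1 : ⁅S ⊓ 𝓒(S), A⁆ ≤ S ⊓ 𝓒(S) := commutator_le_left (nn inferInstance A)
    refine commutator_eq_bot_iff_le_centralizer.1 (by_contra fun h2 => hvK ?_)
    obtain ⟨k, hk, e⟩ := c.quo _ (c.nrm (cn (h1.trans inf_le_right)) (normalizer_commutator_ge_right _ _))
      (h1.trans inf_le_left) h2 v hvC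
    exact inv_mul_eq_one.1 (mem_bot.1 ((CA.BG.coprime_abel_cent_TI (nn inferInstance A) (cop_mono c.cop le_rfl
      inf_le_left).symm ⟨⟨fun a b : ↥(S ⊓ 𝓒(S)) => Subtype.ext (b.2.2 a a.2.1)⟩⟩).le (mem_inf.2
        ⟨e, mul_mem (inv_mem (mem_inf.1 (hKC hk)).2) hvC.2⟩))) ▸ hk
  have hZK : S ⊓ 𝓒(S) ⊓ K A S = ⊥ := by_contra fun h1 => by
    obtain ⟨k, hk, e⟩ := c.quo _ (c.nrm (cn (inf_le_left.trans inf_le_right)) (cn (inf_le_left.trans hZA)))
      (inf_le_left.trans inf_le_left) h1 v hvC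
    exact hvK ((mul_mem_cancel_left (inv_mem hk)).1 e.2)
  have hZV : S ⊓ 𝓒(S) ≤ V := fun z hz => by
    obtain ⟨k, hk, e⟩ := c.quo V hV hVH hV1 z ⟨hz.1, hZA hz⟩
    have h1 : k⁻¹ ∈ S ⊓ 𝓒(S) := (mul_mem_cancel_right hz).1 (le_inf hVH hVH' e)
    rwa [mem_bot.1 (hZK.le (mem_inf.2 ⟨h1, inv_mem hk⟩)), one_mul] at e
  have hL : ∀ h ∈ S, ¬ V ≤ L A h := fun h hh e => hvK (le_K hh ⟨e hv, hvC.2⟩)
  have hSV : ¬ S ≤ V := fun e => hV1 (eq_bot_iff.2 (hVH.trans (c.com.ge.trans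
    (commutator_eq_bot_iff_le_centralizer.2 (e.trans hVA)).le)))
  have hSS : ⁅S, S⁆ ≤ V := by
    obtain ⟨B, ⟨hB, h1, h2⟩, h3⟩ := (wellFounded_lt (α := Subgroup Γ)).has_min
      {B | B.Normal ∧ B ≤ S ∧ ¬ B ≤ V} ⟨S, c.nH, le_rfl, hSV⟩
    have h4 : ⁅B, S⁆ ≤ V := by_contra fun h4 => h3 _ ⟨inferInstance, commutator_le_right _ _, h4⟩
      (CA.BG.comm_lt_of_nil nil le_rfl h1 (nn hB _) fun e => h2 (e.le.trans bot_le))
    have h5 : ⁅B, A⁆ ≤ B := commutator_le_left (nn hB A)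
    obtain ⟨h, hh, h6⟩ : ∃ h ∈ S, ¬ L A h ≤ 𝓒(⁅B, A⁆) := by
      by_contra! h6
      have h7 : S ≤ 𝓒(⁅B, A⁆) := c.com.ge.trans (commutator_le.2 fun h hh a ha => h6 _ (inv_mem hh) (by
        simpa [commutatorElement_def, mul_assoc] using mem_L (h := h⁻¹) ha))
      have h8 := le_centralizer_of_commutator_le (cop_mono c.cop le_rfl hVH) (le_centralizer_iff.1 hVA)
        ((le_inf (h5.trans h1) (le_centralizer_iff.1 h7)).trans hZV)
      exact h2 ((le_inf h1 (le_centralizer_iff.1 (c.com.ge.trans ((commutator_mono le_rfl h8).trans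
        (commutator_le_right _ _))))).trans hZV)
    have h7 := L_le (nn c.nH A) hh
    have h8 : ⁅⁅B, A⁆, L A h⁆ ≤ V := (commutator_mono h5 h7).trans h4
    have h9 : S ≤ ⁅B, A⁆ ⊔ L A h := ((sup_le (h5.trans h1) h7).eq_of_not_lt fun h9 => hvK (c.sub _ h9
      (le_normalizer_sup (normalizer_commutator_ge_right _ _) nL) ⟨sup_le ((commutator_commutator (nn hB A)
        (cop_mono c.cop le_rfl h1) (.inl c.sA)).ge.trans (commutator_mono le_sup_left le_rfl))
        ((L_comm (nn c.nH A) c.cop c.sA hh).trans (commutator_mono le_sup_right le_rfl))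
        ((commutator_mono le_sup_left le_sup_right).trans (commutator_le_self _) (((hsub _ h8).resolve_left fun e =>
          h6 (le_centralizer_iff.1 (commutator_eq_bot_iff_le_centralizer.1 e))).ge hv)), hvC.2⟩)).ge
    have h10 : ⁅⁅⁅B, A⁆, L A h⁆, L A h⁆ = ⊥ := commutator_eq_bot_iff_le_centralizer.2
      (h8.trans (hVH'.trans (centralizer_le h7)))
    have h11 : ⁅L A h, L A h⁆ = ⊥ := by_contra fun h11 => by
      have h12 := CA.BG.meet_cent_of_nil nil le_rfl ((commutator_le_self _).trans h7) (nn (c.nrm (h9.trans (sup_le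
        (cn (commutator_eq_bot_iff_le_centralizer.1 (commutator_commutator_eq_bot_of_rotate
          (by rwa [Subgroup.commutator_comm (L A h)]) h10))) (normalizer_commutator_ge_left _ _)))
        (le_normalizer_commutator nL nL)) _) h11
      exact hL h hh (((hsub _ ((inf_le_inf_right _ ((commutator_le_self _).trans h7)).trans hZV)).resolve_left h12).ge.trans
        (inf_le_left.trans (commutator_le_self _)))
    exact (commutator_mono h9 h9).trans (CA.BG.der_sup_le_of_norm (nn hV _) (nn hV _)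
      ((commutator_mono h5 (h5.trans h1)).trans h4) (h11.le.trans bot_le) h8)
  let π := QuotientGroup.mk' V
  have hbot : ∀ w ∈ S, Commute (π x) (π w) → w ∈ V := fun w hw e => by
    obtain ⟨n, hn, e'⟩ := exists_mul_mem_centralizer (k := w) (nn hV A) (cop_mono c.cop le_rfl hVH) (.inl c.sA)
      fun a ha => by
        obtain ⟨i, rfl⟩ := c.hA.ge ha
        exact (QuotientGroup.eq_one_iff _).1 (show π _ = 1 by simp [(e.zpow_left i).eq])
    exact (mul_mem_cancel_left hn).1 (hSS (c.der ⟨mul_mem (hVH hn) hw, e'⟩))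
  have comm : ∀ u ∈ S, Commute u (x * u * x⁻¹) := fun u hu => by
    obtain ⟨_, ⟨y, hy, rfl⟩, e⟩ := CA.Frob2.exists_commutator_eq (K := S.map π) (x := π x)
      (nn (c.nH.map π (QuotientGroup.mk'_surjective V)) ⊤ (mem_top _)) (eq_bot_iff.2 (by
        rintro _ ⟨⟨w, hw, rfl⟩, e⟩
        exact (QuotientGroup.eq_one_iff _).2 (hbot w hw (mem_centralizer_singleton_iff.1 e).symm))) (mem_map_of_mem π hu)
    have h1 : ⁅y, x⁆⁻¹ * u ∈ V := QuotientGroup.eq.1 ((map_commutatorElement π y x).trans e)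
    have h2 : ⁅y, x⁆ ∈ L A y⁻¹ := by simpa [commutatorElement_def, mul_assoc] using mem_L (h := y⁻¹) c.xA
    have h3 := conj_mem nL c.xA h2
    have h4 := L_le (nn c.nH A) (inv_mem hy)
    have h5 : Commute ⁅y, x⁆ (x * ⁅y, x⁆ * x⁻¹) := commutatorElement_eq_one_iff_mul_comm.1 (mem_bot.1
      (((hsub (L A y⁻¹ ⊓ V) inf_le_right).resolve_right fun e => hL _ (inv_mem hy) (e.ge.trans inf_le_left)).le
        ⟨commutator_le_self _ (commutator_mem_commutator h2 h3), hSS (commutator_mem_commutator (h4 h2) (h4 h3))⟩))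
    generalize ⁅y, x⁆ = d at *
    obtain ⟨n, rfl⟩ : ∃ n, u = d * n := ⟨d⁻¹ * u, by group⟩
    rw [inv_mul_cancel_left] at h1
    rw [show x * (d * n) * x⁻¹ = x * d * x⁻¹ * n by rw [mul_assoc _ x⁻¹, (hcen n h1 x⁻¹).eq]; group]
    exact (h5.mul_left (hcen n h1 _).symm).mul_right (hcen n h1 _)
  refine hSV fun w hw => hbot w hw ?_
  have h1 : (x⁻¹ * w * x)⁻¹ * (x * w * x⁻¹) ∈ V := hZV ⟨mul_mem (S.inv_mem (conj_mem' (nn c.nH A) c.xA hw))
    (conj_mem (nn c.nH A) c.xA hw), fun a ha => by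
      have e1 := (comm a ha).eq
      have e2 := (comm w hw).eq
      have e3 := (comm _ (mul_mem ha hw)).eq
      have h1 := hSS (commutator_mem_commutator hw (conj_mem (nn c.nH A) c.xA ha))
      have h2 := hSS (commutator_mem_commutator ha (conj_mem (nn c.nH A) c.xA hw))
      have e4 : ⁅w, x * a * x⁻¹⁆ = ⁅x⁻¹ * w * x, a⁆ := by
        calc _ = x⁻¹ * (x * ⁅w, x * a * x⁻¹⁆) := by group
          _ = _ := by rw [(hcen _ h1 x).eq, commutatorElement_def, commutatorElement_def]; group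
      rw [show x * (a * w) * x⁻¹ = (x * a * x⁻¹) * (x * w * x⁻¹) by group] at e3
      generalize x * a * x⁻¹ = a', x * w * x⁻¹ = b', x⁻¹ * w * x = b'' at *
      have e5 : ⁅a, b'⁆ * ⁅w, a'⁆ = 1 := by
        refine mul_right_cancel (b := a' * b' * (a * w)) ?_
        calc _ = ⁅a, b'⁆ * (⁅w, a'⁆ * (a' * (b' * a))) * w := by group
          _ = ⁅w, a'⁆ * (a' * (⁅a, b'⁆ * (b' * a))) * w := by
            rw [← (hcen _ h2 _).eq, ← (hcen _ h2 (b' * a)).eq]; group
          _ = ⁅w, a'⁆ * (a' * a) * (b' * w) := by rw [commutatorElement_def a b']; group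
          _ = a * (⁅w, a'⁆ * (a' * w)) * b' := by rw [← e1, ← e2, ← mul_assoc a, (hcen _ h1 a).eq]; group
          _ = _ := by rw [one_mul, ← e3, commutatorElement_def]; group
      rw [e4, mul_eq_one_comm] at e5
      calc _ = b''⁻¹ * (⁅b'', a⁆ * ⁅a, b'⁆) * b' * a := by simp only [commutatorElement_def]; group
        _ = _ := by rw [e5, mul_one]⟩
  have h2 : Commute (π x ^ 2) (π w) := by
    have := QuotientGroup.eq.2 h1
    change π _ = π _ at this
    simp only [map_mul, map_inv] at this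
    calc π x ^ 2 * π w = π x * (π x * π w * (π x)⁻¹) * π x := by simp [pow_two, mul_assoc]
      _ = _ := by rw [← this]; simp [pow_two, mul_assoc]
  obtain ⟨j, hj⟩ := exists_pow_eq_self_of_coprime (x := π x) (n := 2) (((Nat.coprime_primes Nat.prime_two c.hp).2
    c.hp2.symm).coprime_dvd_right (orderOf_dvd_of_pow_eq_one (by rw [← map_pow, c.hx, map_one])))
  exact hj ▸ h2.pow_left j

theorem main {p : ℕ} (hp : p.Prime) (hp2 : p ≠ 2) (n : ℕ) : ∀ (Γ : Type u) [Group Γ] [Finite Γ] (H : Subgroup Γ) (x : Γ),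
    ♯H = n → x ^ p = 1 → zpowers x ≤ 𝓝(H) → (♯H).Coprime p → Group.IsSolvable H →
      ⁅H, zpowers x⁆ ⊓ 𝓒(zpowers x) ≤ K (zpowers x) H := by
  induction n using Nat.strong_induction_on with | _ n ih =>
  have cop : ∀ {Γ : Type u} [Group Γ] {H : Subgroup Γ} {x : Γ}, x ^ p = 1 → (♯H).Coprime p →
      (♯(zpowers x)).Coprime ♯H := fun hx hc =>
    by rw [Nat.card_zpowers]; exact hc.symm.coprime_dvd_left (orderOf_dvd_of_pow_eq_one hx)
  have sub : ∀ {Γ : Type u} [Group Γ] [Finite Γ] {H : Subgroup Γ} {x : Γ}, ♯H = n → x ^ p = 1 → (♯H).Coprime p →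
      Group.IsSolvable H → ∀ Y < H, zpowers x ≤ 𝓝(Y) → ⁅Y, zpowers x⁆ ⊓ 𝓒(zpowers x) ≤ K (zpowers x) H :=
    fun hn hx hc hs Y hY hN => (ih _ (hn ▸ card_lt_of_lt hY) _ Y _ rfl hx hN
      (hc.coprime_dvd_left (card_dvd_of_le hY.le)) (CA.BG.solv_of_le hs hY.le)).trans (K_mono hY.le)
  have key : ∀ {Γ : Type u} [Group Γ] [Finite Γ] {H : Subgroup Γ} {x : Γ}, ♯H = n → x ^ p = 1 → (♯H).Coprime p →
      Group.IsSolvable H → H.Normal → H ⊔ zpowers x = ⊤ → ⁅H, zpowers x⁆ = H →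
        H ⊓ 𝓒(zpowers x) ≤ K (zpowers x) H := by
    intro Γ _ _ H x hn hx hc hs hH h1 h2
    have c : Ctx p x (zpowers x) H := ⟨hp, hp2, hx, rfl, hH, h1, cop hx hc, hs, h2, sub hn hx hc hs,
      fun N hN h3 h4 y hy => by
        let π := QuotientGroup.mk' N
        have h5 := ih _ (by
          rw [← hn, ← relIndex_ker, QuotientGroup.ker_mk', ← card_mul_index (N.subgroupOf H), card_subgroupOf h3]
          exact lt_mul_of_one_lt_left (Nat.pos_of_ne_zero index_ne_zero_of_finite) ((one_lt_card_iff_ne_bot _).2 h4))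
          _ (H.map π) (π x) rfl (by rw [← map_pow, hx, map_one]) (nn (hH.map π (QuotientGroup.mk'_surjective N)) _)
          (hc.coprime_dvd_left (card_map_dvd _ _)) (Group.isSolvable_of_surjective (π.subgroupMap_surjective H))
        rw [← MonoidHom.map_zpowers, ← map_commutator, h2] at h5
        obtain ⟨k, hk, e⟩ := K_map π (nn hH _) (cop hx hc) (CA.Coprime2.isSolvable_of_comm _)
          (h5 ⟨mem_map_of_mem π hy.1, map_C π hy.2⟩)
        exact ⟨k, hk, QuotientGroup.eq.1 e⟩⟩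
    by_cases h0 : H = ⊥
    · exact inf_le_left.trans (h0.le.trans bot_le)
    obtain ⟨V, q, hV, h3, h4, h5, hq, h6, h7⟩ := CA.FpfRed.exists_minimal_normal hs h0
    intro y hy
    obtain ⟨k, hk, e⟩ := c.quo V hV h3 h4 y hy
    refine (mul_mem_cancel_left (inv_mem hk)).1 ((?_ : V ⊓ 𝓒(zpowers x) ≤ _) (mem_inf.2
      ⟨e, mul_mem (inv_mem (mem_inf.1 (K_le (nn hH _) hk)).2) hy.2⟩))
    by_cases h : H ≤ 𝓒(V)
    · exact caseI c hV h3 h4 hq h6 h7 h
    · exact c.II hV h3 h4 h5 hq h6 h7 h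
  intro Γ _ _ H x hn hx hN hc hs
  by_cases h : ⁅H, zpowers x⁆ < H
  · rw [← commutator_commutator hN (cop hx hc) (.inr hs)]
    exact sub hn hx hc hs _ h (normalizer_commutator_ge_right _ _)
  have h1 := (commutator_le_left hN).eq_of_not_lt h
  let f := (H ⊔ zpowers x).subtype
  have h2 : (H.subgroupOf (H ⊔ zpowers x)).map f = H := map_subgroupOf_eq_of_le le_sup_left
  have h3 : (zpowers (⟨x, mem_sup_right (mem_zpowers x)⟩ : ↥(H ⊔ zpowers x))).map f = zpowers x :=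
    MonoidHom.map_zpowers _ _
  have h4 := card_subgroupOf (le_sup_left : H ≤ H ⊔ zpowers x)
  have h5 := key (H := H.subgroupOf (H ⊔ zpowers x)) (x := ⟨x, mem_sup_right (mem_zpowers x)⟩) (h4.trans hn)
    (Subtype.ext hx) (h4 ▸ hc) (isSolvable_of_mulEquiv (subgroupOfEquivOfLe le_sup_left).symm)
    (normal_subgroupOf_of_le_normalizer (sup_le le_normalizer hN))
    (map_injective (subtype_injective _) (by rw [Subgroup.map_sup, h2, h3, ← MonoidHom.range_eq_map, range_subtype]))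
    (map_injective (subtype_injective _) (by rw [map_commutator, h2, h3, h1]))
  intro y hy
  rw [h1] at hy
  have h6 := map_K f (mem_map_of_mem f (h5 (x := ⟨y, mem_sup_left hy.1⟩)
    ⟨hy.1, memC.2 (Subtype.ext (memC.1 hy.2))⟩))
  rwa [h2, h3] at h6

/-- Let p be an odd prime, H a finite solvable group of order prime to p, and x an automorphism of H of order p (so P = ⟨x⟩ has prime order p > 2 and acts coprimely on H). For h ∈ H let [h, P] be the subgroup generated by the commutators h⁻¹·xⁱ(h), and let [H, P] be the subgroup generated by all of these. Then the fixed points of x in [H, P] are generated by the fixed points of x in the subgroups [h, P], h ∈ H. -/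
theorem result {H : Type*} [Group H] [Finite H]
    [Group.IsSolvable H] {p : ℕ} [Fact p.Prime] (hp : p ≠ 2) (hcop : (Nat.card H).Coprime p)
    (x : MulAut H) (hx : orderOf x = p) :
    Subgroup.closure {c : H | ∃ h : H, ∃ i : ℕ, c = h⁻¹ * (x ^ i) h} ⊓ (x : H →* H).eqLocus (MonoidHom.id H) =
      ⨆ h : H, Subgroup.closure {c : H | ∃ i : ℕ, c = h⁻¹ * (x ^ i) h} ⊓ (x : H →* H).eqLocus (MonoidHom.id H) := by
  refine le_antisymm (fun y hy => ?_) (iSup_le fun h => inf_le_inf_right _ (closure_mono fun c ⟨i, e⟩ => ⟨h, i, e⟩))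
  let Γ := H ⋊[MonoidHom.id (MulAut H)] MulAut H
  have : Finite Γ := Finite.of_equiv _ SemidirectProduct.equivProd.symm
  let f : H →* Γ := SemidirectProduct.inl
  let z : Γ := SemidirectProduct.inr x
  have hf : Function.Injective f := SemidirectProduct.inl_injective
  have h1 : ∀ (i : ℕ) h, z ^ i * f h * (z ^ i)⁻¹ = f ((x ^ i) h) := fun i h => by
    rw [← map_pow, ← map_inv]; exact (SemidirectProduct.inl_aut _ _).symm
  have h2 : ∀ h, f h ∈ 𝓒(zpowers z) ↔ x h = h := fun h => by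
    rw [memC, ← mul_inv_eq_iff_eq_mul, ← hf.eq_iff, ← pow_one x, ← h1, pow_one]
  have h3 : ∀ h, (closure {c : H | ∃ i : ℕ, c = h⁻¹ * (x ^ i) h}).map f = L (zpowers z) (f h) := fun h => le_antisymm
    (map_le_iff_le_comap.2 ((closure_le _).2 (by
      rintro _ ⟨i, rfl⟩
      have := mem_L (h := f h) (pow_mem (mem_zpowers z) i)
      rwa [h1, ← map_inv, ← map_mul] at this)))
    (L_le_iff.2 fun a ha => by
      obtain ⟨i, rfl⟩ := mem_powers_iff_mem_zpowers.2 ha
      rw [h1, ← map_inv, ← map_mul]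
      exact mem_map_of_mem f (subset_closure ⟨i, rfl⟩))
  have h4 : Nat.card f.range = Nat.card H := (Nat.card_congr (MonoidHom.ofInjective hf).toEquiv).symm
  have h5 : f y ∈ K (zpowers z) f.range := main Fact.out hp _ Γ f.range z rfl (by rw [← map_pow, ← hx, pow_orderOf_eq_one, map_one])
    (nn (by rw [SemidirectProduct.range_inl_eq_ker_rightHom]; infer_instance) _) (h4 ▸ hcop)
    (isSolvable_of_mulEquiv (MonoidHom.ofInjective hf))
    ⟨(closure_le (comap f ⁅f.range, zpowers z⁆)).2 (by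
      rintro _ ⟨h, i, rfl⟩
      have := commutator_mem_commutator (H₁ := f.range) (g₁ := f h⁻¹) ⟨h⁻¹, rfl⟩ (pow_mem (mem_zpowers z) i)
      rwa [show ⁅f h⁻¹, z ^ i⁆ = f (h⁻¹ * (x ^ i) h) by
        rw [map_mul, ← h1, commutatorElement_def, ← map_inv f h⁻¹, inv_inv, mul_assoc, mul_assoc, mul_assoc]] at this) hy.1, (h2 y).2 hy.2⟩
  refine (mem_map_iff_mem hf).1 ((iSup₂_le ?_ : K _ _ ≤ _) h5)
  rintro _ ⟨h, rfl⟩ _ ⟨h6, h7⟩
  rw [← h3] at h6
  obtain ⟨w, hw, rfl⟩ := h6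
  exact mem_map_of_mem f (mem_iSup_of_mem h ⟨hw, (h2 w).1 h7⟩)

end Cfsg.Agent.S3816
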