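import Cfsg.Statements.S3818
import Cfsg.Agent.Lib.Fus.FusFlv2

set_option autoImplicit false
open Cfsg

namespace Cfsg.Agent.S3818

open CA CA.FusFlv Subgroup Module TensorProduct

theorem common_ker {k V : Type*} [Field k] [AddCommGroup V] [Module k V] [Nontrivial V] {ι : Type*}
    (f : ι → End k V) (hc : ∀ i j, Commute (f i) (f j)) (hn : ∀ i, IsNilpotent (f i))
    (s : Finset ι) : ∃ v : V, v ≠ 0 ∧ ∀ i ∈ s, f i v = 0 := by
  classical
  induction s using Finset.induction_on with
  | empty => obtain ⟨v, hv⟩ := exists_ne (0 : V); exact ⟨v, hv, by simp⟩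
  | insert a s _ ih =>
    obtain ⟨v, hv, h⟩ := ih
    have hex : ∃ n, (f a ^ n) v = 0 := by
      obtain ⟨n, hn⟩ := hn a
      exact ⟨n, by rw [hn]; rfl⟩
    have h0 : Nat.find hex ≠ 0 := fun e => hv (by simpa [e] using Nat.find_spec hex)
    obtain ⟨m, hm⟩ := Nat.exists_eq_succ_of_ne_zero h0
    refine ⟨(f a ^ m) v, Nat.find_min hex (by omega), fun i hi => ?_⟩
    rcases Finset.mem_insert.1 hi with rfl | hi
    · have := Nat.find_spec hex
      rwa [hm, pow_succ', Module.End.mul_apply] at this
    · rw [← Module.End.mul_apply, ((hc i a).pow_right m).eq, Module.End.mul_apply, h i hi, map_zero]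

/-- Let G be a finite solvable group and P a subgroup of G of prime order p > 3 whose conjugates generate G. Let V be a faithful irreducible representation of G over a field of positive characteristic, finite-dimensional. Then the subspace of V fixed by P has dimension less than half the dimension of V. -/
theorem result {G : Type*} [Group G] [Finite G] [Group.IsSolvable G]
    {p : ℕ} [Fact p.Prime] (hp : 3 < p) (P : Subgroup G) (hP : Nat.card P = p) (hgen : Subgroup.normalClosure (P : Set G) = ⊤)
    {k : Type*} [Field k] (ℓ : ℕ) [Fact ℓ.Prime] [CharP k ℓ]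
    {V : Type*} [AddCommGroup V] [Module k V] [FiniteDimensional k V]
    (ρ : Representation k G V) [ρ.IsIrreducible] (hfaith : Function.Injective ρ) :
    2 * Module.finrank k ↥(⨅ g : ↥P, LinearMap.ker (ρ (g : G) - LinearMap.id)) < Module.finrank k V := by
  classical
  have hpp : p.Prime := Fact.out
  have h5 : 5 ≤ p := by
    have : p ≠ 4 := by rintro rfl; norm_num at hpp
    omega
  have hP0 : P ≠ ⊥ := fun h => hpp.ne_one (by rw [← hP, h, card_bot])
  obtain ⟨x, hx1⟩ := ne_bot_iff_exists_ne_one.1 hP0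
  have hxt := zpowers_eq_top_of_prime_card hP hx1
  have hxP : ∀ g ∈ P, ∃ n : ℤ, (x : G) ^ n = g := fun g hg => by
    obtain ⟨n, hn⟩ := mem_zpowers_iff.1 (hxt ▸ mem_top (⟨g, hg⟩ : P))
    exact ⟨n, congrArg Subtype.val hn⟩
  have hx : orderOf (x : G) = p := by
    rw [Subgroup.orderOf_coe, ← Nat.card_zpowers, hxt, card_top, hP]
  have hgen' : normalClosure ({(x : G)} : Set G) = ⊤ := by
    rw [eq_top_iff, ← hgen]
    refine normalClosure_le_normal fun g hg => ?_
    obtain ⟨n, rfl⟩ := hxP g hg
    exact zpow_mem (subset_normalClosure (Set.mem_singleton _)) n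
  have hirr : ∀ W : Submodule k V, (∀ g, ∀ w ∈ W, ρ g w ∈ W) → W = ⊥ ∨ W = ⊤ := fun W hW =>
    (eq_bot_or_eq_top (⟨W, fun g _ hv => hW g _ hv⟩ : Subrepresentation ρ)).imp
      (congrArg Subrepresentation.toSubmodule) (congrArg Subrepresentation.toSubmodule)
  haveI : Nontrivial V := by
    by_contra h
    rw [not_nontrivial_iff_subsingleton] at h
    exact hx1 (Subtype.ext (hfaith (Subsingleton.elim _ _)))
  have hG : (⊤ : Subgroup G) ≠ ⊥ := fun h => hP0 (eq_bot_iff.2 (h ▸ le_top))
  obtain ⟨A, -, hA0, hAn, hmin⟩ := Subn.exists_minimal_normal hG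
  obtain ⟨hA, q, hq, hAq⟩ := Subn.elemAb_of_minimal_normal inferInstance hA0 hmin
  haveI := Fact.mk hq
  haveI := Fintype.ofFinite A
  let F : Submodule k V := ⨅ a : A, LinearMap.ker (ρ a - 1)
  have hF : ∀ v, v ∈ F ↔ ∀ a ∈ A, ρ a v = v := fun v => by
    simp only [F, Submodule.mem_iInf, LinearMap.mem_ker, LinearMap.sub_apply, Module.End.one_apply,
      sub_eq_zero, Subtype.forall]
  have hF0 : F = ⊥ := by
    refine (hirr F fun g w hw => (hF _).2 fun a ha => ?_).resolve_right fun h => hA0 ?_
    · have := (hF w).1 hw _ (hAn.conj_mem' a ha g)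
      rw [← Module.End.mul_apply, ← map_mul, show a * g = g * (g⁻¹ * a * g) by group, map_mul,
        Module.End.mul_apply, this]
    · refine eq_bot_iff.2 fun a ha => hfaith (LinearMap.ext fun v => ?_)
      rw [(hF v).1 (h ▸ Submodule.mem_top) a ha, map_one, Module.End.one_apply]
  have hcard : (((Finset.univ : Finset A).map ⟨Subtype.val, Subtype.val_injective⟩ : Finset G).card : k) ≠ 0 := by
    rw [Finset.card_map, Finset.card_univ, ← Nat.card_eq_fintype_card]
    obtain ⟨j, hj⟩ := IsPGroup.iff_card.1 (Subn.isPGroup_of_pow_eq_one hAq)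
    rw [hj, Nat.cast_pow]
    refine pow_ne_zero j fun h => ?_
    have hR : ((q : ℕ) : End k V) = 0 := by rw [← map_natCast (algebraMap k (End k V)), h, map_zero]
    obtain ⟨v, hv, h0⟩ := common_ker (fun a : A => ρ a - 1)
      (fun a b => by
        have : Commute (ρ a) (ρ b) := by
          show _ * _ = _ * _
          rw [← map_mul, ← map_mul]
          exact congrArg (fun t : A => ρ t) (hA.is_comm.comm a b)
        exact (this.sub_right (Commute.one_right _)).sub_left (Commute.one_left _))
      (fun a => ⟨q ^ 1, by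
        rw [H6Quad.sub_one_pow_char hq hR, pow_one, ← map_pow, hAq a a.2, map_one, sub_self]⟩)
      Finset.univ
    exact hv ((Submodule.mem_bot k).1 (hF0 ▸ (Submodule.mem_iInf _).2 fun a => h0 a (Finset.mem_univ a)))
  have hsum : ∑ a : A, ρ a = 0 := LinearMap.ext fun v => (Submodule.mem_bot k).1 (hF0 ▸ (hF _).2
    fun a ha => by
      rw [LinearMap.sum_apply, map_sum]
      refine Fintype.sum_equiv (Equiv.mulLeft (⟨a, ha⟩ : A)) _ _ fun b => ?_
      rw [← Module.End.mul_apply, ← map_mul]
      rfl)
  let K := AlgebraicClosure k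
  let σ : G →* End K (K ⊗[k] V) :=
    MonoidHom.comp (Module.End.baseChangeHom k K V : End k V →* End K (K ⊗[k] V)) ρ
  have hσ : ∀ g, σ g = Module.End.baseChangeHom k K V (ρ g) := fun _ => rfl
  haveI : Nontrivial (K ⊗[k] V) := Module.finrank_pos_iff.1 (by
    rw [Module.finrank_baseChange (R := K)]; exact Module.finrank_pos)
  have key := bound (k := K) h5 hx hgen' ((Finset.univ : Finset A).map ⟨Subtype.val, Subtype.val_injective⟩)
    (by rw [← map_natCast (algebraMap k K)]; exact (map_ne_zero _).2 hcard) _ (K ⊗[k] V) σ rfl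
    (by
      rw [Finset.sum_map]
      simp only [hσ, Function.Embedding.coeFn_mk, ← map_sum, hsum, map_zero])
  have e1 : σ x - 1 = (ρ x - 1).baseChange K := by
    rw [LinearMap.baseChange_sub, LinearMap.baseChange_one]; rfl
  rw [e1, BGRep.finrank_ker_bc, Module.finrank_baseChange] at key
  refine lt_of_le_of_lt (Nat.mul_le_mul_left 2 (Submodule.finrank_mono ?_)) key
  exact iInf_le _ x

end Cfsg.Agent.S3818
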