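import Cfsg.Statements.S3819
import Cfsg.Agent.Lib.Loc.AmbFs
import Cfsg.Agent.Lib.Grp.PLoc
import Cfsg.Agent.Lib.Grp.Coprime2

set_option autoImplicit false
open Cfsg

set_option linter.unusedVariables false
set_option linter.unusedSimpArgs false
set_option linter.style.haveILetI false

namespace Cfsg.Agent.S3819

open CA Subgroup CA.Amb CA.AmbSyl CA.AmbCore CA.AmbRes CA.AmbChar CA.AmbFs
open scoped commutatorElement

theorem core {G : Type*} [Group G] [Finite G] {q : ℕ} [Fact q.Prime] {H P Z D E : Subgroup G} (hn : P ≤ 𝐍 H)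
    (hc : (Nat.card P).Coprime (Nat.card H)) (hP : Group.IsSolvable P) (hs : Group.IsSolvable ↥⁅H, P⁆)
    (hO : OQ q H = ⊥) (hZ : IsPGroup q Z) (zH : Z ≤ H) (zP : Z ≤ 𝐂 P) (hD : D ≤ OQ q (H ⊓ 𝐂 Z))
    (hE : E ≤ OQ q (H ⊓ 𝐂 P)) : (D ⊓ E) ⊔ ⁅D, P⁆ ≤ ⊥ := by
  set K := ⁅H, P⁆
  set D' := OQ q (H ⊓ 𝐂 Z)
  have kH : K ≤ H := commutator_le_left_of_norm hn
  have nK : H ≤ 𝐍 K := norm_comm_left _ _
  have cK : AmbChar.CharP q K := charP_of_solvable hs (le_bot_iff.1 (hO ▸ AmbFs.SN.OQ_le (SN.of_norm kH nK)))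
  have nQ : H ≤ 𝐍 (pCoreOf q K) := norm_pCoreOf_of_norm nK
  have qp := isPGroup_pCoreOf q K
  have dH : D' ≤ H := (OQ_le _ _).trans inf_le_left
  have cD := coprime_OQ q (H ⊓ 𝐂 Z)
  have dj : ∀ X, X ≤ pCoreOf q K → X ≤ D' → X ≤ ⊥ := fun X a b => (eq_bot_of_not_dvd (qp.to_le a) b
    ((Nat.Prime.coprime_iff_not_dvd Fact.out).1 cD.symm)).le
  have c1 : D' ≤ 𝐂 (pCoreOf q K) := Coprime2.p_times_q hZ cD qp (cent_symm ((OQ_le _ _).trans inf_le_right))
    (zH.trans nQ) (dH.trans nQ) (cent_symm (commutator_eq_bot_iff'.1 (le_bot_iff.1 (dj _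
      ((commutator_le_left_of_norm (norm_inf (dH.trans nQ) (norm_centralizer (norm_of_centralizer
        ((OQ_le _ _).trans inf_le_right))))).trans inf_le_left) (commutator_le_right_of_norm
          ((inf_le_inf_right _ ((pCoreOf_le _ _).trans kH)).trans (norm_OQ le_normalizer)))))))
  have c2 : D' ≤ 𝐂 K := Coprime.le_centralizer_of_commutator_le (coprime_card_of_isPGroup qp cD) c1
    (cK.le_of_cent (commutator_le_left_of_norm (dH.trans nK)) ((commutator_mono le_rfl c1).trans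
      (commutator_le_right_of_norm (kH.trans (norm_centralizer nQ)))))
  refine sup_le (hO ▸ le_trans (le_inf (inf_le_right.trans hE) (inf_le_left.trans (hD.trans c2)))
    (le_OQ (inf_le_left.trans ((OQ_le _ _).trans inf_le_left)) ?_ ((coprime_OQ q _).coprime_dvd_left
      (card_dvd_of_le inf_le_left)))) ((commutator_mono hD le_rfl).trans ?_)
  · exact (comm_sup_cent_coprime hn hc (.inl hP)).ge.trans (sup_le (norm_of_centralizer (cent_symm inf_le_right))
      (norm_inf (norm_OQ le_normalizer) (inf_le_left.trans (norm_centralizer nK))))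
  · have a : ⁅D', P⁆ ≤ D' := commutator_le_left_of_norm (norm_OQ (norm_inf hn (norm_centralizer
      (norm_of_centralizer (cent_symm zP)))))
    exact dj _ (cK.le_of_cent (commutator_mono dH le_rfl) (a.trans c1)) a


/-- Let G be a finite group with Sylow p-subgroup P and H = O_{p'}(G), and suppose G = PH and the commutator subgroup [H, P] is solvable. Let q be a prime and z an element of q-power order of C_H(P). Then (O_{q'}(C_H(z)) ∩ O_{q'}(C_H(P))) · [O_{q'}(C_H(z)), P] ≤ O_{q'}(H). -/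
theorem result {G : Type*} [Group G] [Finite G] {p : ℕ} [Fact p.Prime]
    (P : Sylow p G) (hPH : Cfsg.pPrimeCore p G ⊔ (P : Subgroup G) = ⊤)
    (hsol : Group.IsSolvable ↥⁅Cfsg.pPrimeCore p G, (P : Subgroup G)⁆)
    {q : ℕ} [Fact q.Prime] (z : G) (hzH : z ∈ Cfsg.pPrimeCore p G) (hzP : z ∈ Subgroup.centralizer ((P : Subgroup G) : Set G))
    (hz : ∃ k : ℕ, orderOf z = q ^ k) :
    ((Cfsg.pPrimeCore q ↥(Cfsg.pPrimeCore p G ⊓ Subgroup.centralizer ({z} : Set G))).map
        (Cfsg.pPrimeCore p G ⊓ Subgroup.centralizer ({z} : Set G)).subtype ⊓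
      (Cfsg.pPrimeCore q ↥(Cfsg.pPrimeCore p G ⊓ Subgroup.centralizer ((P : Subgroup G) : Set G))).map
        (Cfsg.pPrimeCore p G ⊓ Subgroup.centralizer ((P : Subgroup G) : Set G)).subtype) ⊔
    ⁅(Cfsg.pPrimeCore q ↥(Cfsg.pPrimeCore p G ⊓ Subgroup.centralizer ({z} : Set G))).map
        (Cfsg.pPrimeCore p G ⊓ Subgroup.centralizer ({z} : Set G)).subtype, (P : Subgroup G)⁆ ≤
    (Cfsg.pPrimeCore q ↥(Cfsg.pPrimeCore p G)).map (Cfsg.pPrimeCore p G).subtype := by
  set H := pPrimeCore p G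
  change (OQ q _ ⊓ OQ q _) ⊔ ⁅OQ q _, _⁆ ≤ OQ q H
  haveI : (OQ q H).Normal := normal_iff_top_le.2 (norm_OQ norm_of_normal)
  set f := QuotientGroup.mk' (OQ q H)
  have kf : f.ker = OQ q H := QuotientGroup.ker_mk' _
  have cH : (Nat.card H).Coprime p := by have := coprime_OQ p (⊤ : Subgroup G); rwa [OQ_top] at this
  obtain ⟨k, hk⟩ := hz
  have zq := isPGroup_zpowers_of_orderOf hk
  have m : ∀ L : Subgroup G, (OQ q L).map f ≤ OQ q (L.map f) := fun L => le_OQ (map_mono (OQ_le _ _))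
    (norm_map f (norm_OQ le_normalizer)) ((coprime_OQ q L).coprime_dvd_left (card_map_dvd _ _))
  have c := coprime_OQ q H
  rw [← kf, ← Subgroup.map_eq_bot_iff, ← le_bot_iff, Subgroup.map_sup, map_commutator, ← Amb.centralizer_zpowers]
  refine le_trans (sup_le_sup_right (map_inf_le _ _ _) _) (core (q := q) (H := H.map f) (Z := (zpowers z).map f)
    (norm_map f norm_of_normal) (coprime_card_of_isPGroup (P.2.map f) (cH.coprime_dvd_left (card_map_dvd _ _))).symm
    (isSolvable_of_isPGroup (P.2.map f)) ?_ ?_ (zq.map f) (map_mono (zpowers_le.2 hzH))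
    (cent_map f (zpowers_le.2 hzP)) ((m _).trans_eq ?_) ((m _).trans_eq ?_))
  · rw [← map_commutator]; exact Group.isSolvable_of_surjective (f.subgroupMap_surjective _)
  · exact (PLoc.map_map_pPrimeCore_of_eq f (by rwa [kf]) rfl).symm.trans ((Subgroup.map_eq_bot_iff _).2 kf.ge)
  · rw [PLoc.map_inf_centralizer_p f zq norm_of_normal ((kf ▸ c).coprime_dvd_left (card_dvd_of_le inf_le_right))]
  · rw [PLoc.map_inf_centralizer_p f P.2 norm_of_normal (cH.coprime_dvd_left (card_dvd_of_le inf_le_left))]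

end Cfsg.Agent.S3819
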