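import Cfsg.Statements.S3821
import Cfsg.Agent.Lib.Loc.H6Basic

set_option autoImplicit false
open Cfsg

namespace Cfsg.Agent.S3821

open CA.H6Basic Subgroup

/-- Let A be a normal subgroup of the finite group G and H a subgroup of A. Then H is pronormal in G (H and gHg⁻¹ conjugate inside ⟨H, gHg⁻¹⟩ for every g ∈ G) if and only if H is pronormal in A and G = A · N_G(H). -/
theorem result {G : Type*} [Group G] [Finite G] (A H : Subgroup G) [A.Normal] (hHA : H ≤ A) :
    Cfsg.IsPronormal H ↔ (Cfsg.IsPronormal (H.subgroupOf A) ∧ A ⊔ Subgroup.normalizer (H : Set G) = ⊤) := by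
  have e0 : ∀ a : A, (cj a (H.subgroupOf A)).map A.subtype = cj (a : G) H := fun a => by
    conv_rhs => rw [← map_subgroupOf_eq_of_le hHA]
    rw [cj, cj, map_map, map_map]; rfl
  have e1 : ∀ a : A, (H.subgroupOf A ⊔ cj a (H.subgroupOf A)).map A.subtype = H ⊔ cj (a : G) H :=
    fun a => by rw [Subgroup.map_sup, e0, map_subgroupOf_eq_of_le hHA]
  have hle : ∀ g : G, H ⊔ cj g H ≤ A := fun g => sup_le hHA ((cj_mono g hHA).trans (cj_normal g A).le)
  refine ⟨fun h => ⟨fun a => ?_, eq_top_iff.2 fun g _ => ?_⟩, fun ⟨h, h'⟩ g => ?_⟩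
  · obtain ⟨x, hx, e⟩ := h a
    change x ∈ H ⊔ cj (a : G) H at hx
    rw [← e1] at hx
    obtain ⟨x, hx, rfl⟩ := hx
    refine ⟨x, hx, map_injective A.subtype_injective ?_⟩
    exact (e0 a).trans (e.trans (e0 x).symm)
  · obtain ⟨x, hx, e⟩ := h g
    change cj g H = cj x H at e
    have : x⁻¹ * g ∈ normalizer (H : Set G) := cj_eq_self_iff.1 (by rw [cj_mul, e, cj_inv_cj])
    have := mul_mem (mem_sup_left (hle g hx)) (mem_sup_right this)
    rwa [mul_inv_cancel_left] at this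
  · obtain ⟨a, ha, n, hn, rfl⟩ := (mem_sup_right_norm le_normalizer_of_normal).1 (h'.ge (mem_top g))
    obtain ⟨x, hx, e⟩ := h ⟨a, ha⟩
    have e2 : cj (a * n) H = cj a H := by rw [cj_mul, cj_eq_self hn]
    refine ⟨x, ?_, ?_⟩
    · show (x : G) ∈ H ⊔ cj (a * n) H
      rw [e2, ← e1 ⟨a, ha⟩]; exact ⟨x, hx, rfl⟩
    · show cj (a * n) H = cj (x : G) H
      rw [e2, ← e0 ⟨a, ha⟩, ← e0 x]; exact congrArg _ e

end Cfsg.Agent.S3821
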