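import Cfsg.Statements.S3822
import Cfsg.Agent.Lib.Fus.FusFlv3

set_option autoImplicit false
open Cfsg

namespace Cfsg.Agent.S3822

open CA CA.FusFlv CA.BG Subgroup

/-- Let G be a finite group and P a subgroup of prime order p > 3. Consider the solvable subgroups A of G of the form A = ⟨P, aPa⁻¹⟩ for some a ∈ A, and let A be maximal under inclusion among them. Then for every nilpotent subgroup V of G normalized by A, the subgroup F(A)V generated by the Fitting subgroup of A and V is nilpotent. -/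
theorem result {G : Type*} [Group G] [Finite G]
    {p : ℕ} [Fact p.Prime] (hp : 3 < p) (P : Subgroup G) (hP : Nat.card P = p) (A : Subgroup G)
    (hA : Group.IsSolvable ↥A ∧ ∃ a ∈ A, A = P ⊔ P.map (MulAut.conj a).toMonoidHom)
    (hmax : ∀ B : Subgroup G, A ≤ B → Group.IsSolvable ↥B → (∃ b ∈ B, B = P ⊔ P.map (MulAut.conj b).toMonoidHom) → B = A)
    (V : Subgroup G) (hV : Group.IsNilpotent ↥V) (hAV : A ≤ Subgroup.normalizer (V : Set G)) :
    Group.IsNilpotent ↥((Cfsg.fittingSubgroup ↥A).map A.subtype ⊔ V) := by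
  have hpp : p.Prime := Fact.out
  have h5 : 5 ≤ p := by
    have : p ≠ 4 := by rintro rfl; norm_num at hpp
    omega
  obtain ⟨hs, a, ha, hAa⟩ := hA
  obtain ⟨x, hx, hx1⟩ := exists_ne_one (ne_bot_of_prime (hP ▸ hpp))
  have hPx := eq_zpowers_of_prime (hP ▸ hpp) hx hx1
  have hxp : x ^ p = 1 := by
    rw [← hP]; exact orderOf_dvd_iff_pow_eq_one.1 (orderOf_dvd_card_of_mem hx)
  have hc : ∀ b : G, P ⊔ P.map (MulAut.conj b).toMonoidHom = zpowers x ⊔ zpowers (b * x * b⁻¹) :=
    fun b => by rw [← cj_def, ← cj_zpowers, ← hPx]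
  refine nil_fit_sup hV hAV fun q r K hq hr hrq _ hK hn => ?_
  by_contra hnc
  obtain ⟨Q, hQK, nQ, hQ, v, hv, e⟩ := exists_gen' h5 hq hK hn hs (core_le _ _) (le_norm_core _ _)
    (core_pi _ _) hrq hnc hxp ha (hAa.trans (hc a))
  have h1 := hmax (A ⊔ Q) le_sup_left (solv_sup hs ((hK.of_le hQK).isSolvable hq) nQ)
    ⟨v * a, mul_mem (mem_sup_right hv) (mem_sup_left ha), e.trans (hc _).symm⟩
  have hQA : Q ≤ A := h1 ▸ le_sup_right
  exact hQ (cent_of_norm_cop (hQA.trans (le_norm_core _ _)) ((core_le _ _).trans nQ)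
    ((hK.of_le hQK).coprime_ne (core_pi _ _) hrq.symm))

end Cfsg.Agent.S3822
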