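import Cfsg.Statements.S3825
import Cfsg.Agent.Lib.Odd.BG5
import Cfsg.Agent.Lib.Grp.Frob2
import Cfsg.Agent.Lib.Loc.H6Off

set_option autoImplicit false
open Cfsg

namespace Cfsg.Agent.S3825

open Subgroup CA CA.BG CA.OQuo
open scoped commutatorElement

/-- Let U be a subgroup of a finite group H and w an involution of H normalizing U and commuting with exactly two elements of U, the identity and y. If V is a non-cyclic elementary abelian 2-subgroup of U containing y which is normal in U and invariant under w, then V is a Sylow 2-subgroup of U, V has order 4, and U/V is abelian. -/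
theorem result {H : Type*} [Group H] [Finite H] (U : Subgroup H) (w : H) (hw : orderOf w = 2)
    (hwU : w ∈ Subgroup.normalizer (U : Set H)) (y : H) (hy : y ≠ 1) (hyU : y ∈ U)
    (hfix : ∀ u ∈ U, w * u * w⁻¹ = u ↔ (u = 1 ∨ u = y))
    (V : Subgroup H) (hVU : V ≤ U) (hVn : (V.subgroupOf U).Normal) (hVw : ∀ v ∈ V, w * v * w⁻¹ ∈ V)
    (hVe : Cfsg.IsElementaryAbelian 2 V) (hVc : ¬ IsCyclic ↥V) (hyV : y ∈ V) :
    ¬ 2 ∣ V.relIndex U ∧ Nat.card ↥V = 4 ∧ ⁅U, U⁆ ≤ V := by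
  have hw2 : w * w = 1 := by rw [← sq, ← hw, pow_orderOf_eq_one]
  have hwi : w⁻¹ = w := inv_eq_of_mul_eq_one_right hw2
  have hUV : U ≤ 𝓝(V) := (normal_subgroupOf_iff_le_normalizer hVU).1 hVn
  have hwV : w ∈ 𝓝(V) := mem_norm_of_cj_le (by rintro _ ⟨v, hv, rfl⟩; exact hVw v hv)
  have hC : ♯(U ⊓ 𝓒₁(w)) ≤ 2 := by
    change Set.ncard ((U ⊓ 𝓒₁(w) : Subgroup H) : Set H) ≤ 2
    refine (Set.ncard_le_ncard (t := {1, y}) (fun u hu => (hfix u hu.1).1 ?_)).trans
      (Set.ncard_pair hy.symm).le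
    rw [← mem_cent1.1 hu.2, mul_inv_cancel_right]
  have key : ∀ K ≤ U, (∀ g ∈ K, ⁅g, w⁆ ∈ V) → ♯K ≤ 4 := fun K hK h => by
    have h1 := BG4.relIndex_cent1_le (N := U ⊓ 𝓒₁(w)) (K := K) (x := w) fun g hg => ⟨hVU (h g hg), by
      have h2 := inv_eq_of_mul_eq_one_right (sq ⁅g, w⁆ ▸ hVe.2 _ (h g hg))
      refine mem_cent1.2 ?_
      nth_rewrite 2 [← h2]
      rw [commutatorElement_inv, commutatorElement_def, commutatorElement_def, hwi, ← mul_assoc,
        ← mul_assoc, ← mul_assoc, hw2, mul_assoc _ w w, hw2, one_mul, mul_one]⟩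
    have h2 : ♯(𝓒₁(w) ⊓ K) ≤ ♯(U ⊓ 𝓒₁(w)) := card_le_of_le' (le_inf (inf_le_right.trans hK) inf_le_left)
    rw [← card_inf_mul_relIndex 𝓒₁(w) K]
    exact Nat.mul_le_mul (h2.trans hC) (h1.trans hC)
  have h4 : 4 ≤ ♯V := by
    obtain ⟨E, h1, h2⟩ := not_not.1 (mt (elem_cyc_iff Nat.prime_two hVe).2 hVc)
    exact h2.card.ge.trans (card_le_of_le' h1)
  have h5 : U /ᵍ V ⊓ 𝓒₁(mel (qh V) w) = ⊥ := by
    have h1 : V = U ⊓ mpre (qh V) 𝓒₁(mel (qh V) w) := eq_of_le_of_card_le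
      (le_inf hVU (le_qpre _)) ((key _ inf_le_left fun g hg => by
        rw [← qel_eq_one_iff (commutatorElement_def g w ▸ mul_mem (mul_mem (mul_mem (hUV hg.1) hwV)
          (inv_mem (hUV hg.1))) (inv_mem hwV)), mel_commutator _ (hUV hg.1) hwV,
          commutatorElement_eq_one_iff_mul_comm]
        exact mem_cent1.1 (mem_mpre.1 hg.2).2).trans h4)
    rw [← mim_inf_mpre, ← h1, quo_self]
  have hx2 : mel (qh V) w * mel (qh V) w = 1 := by rw [← mel_mul _ hwV hwV, hw2, mel_one]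
  have h6 : ∀ k ∈ U /ᵍ V, mel (qh V) w * k * (mel (qh V) w)⁻¹ = k⁻¹ := fun k hk => by
    obtain ⟨z, -, rfl⟩ := Frob2.exists_commutator_eq (mel_mem_normalizer _ hwV hwU) h5 hk
    rw [commutatorElement_inv, commutatorElement_def, commutatorElement_def,
      inv_eq_of_mul_eq_one_right hx2, mul_assoc, mul_assoc _ _ (mel (qh V) w), hx2]
    group
  refine ⟨fun h => ?_, le_antisymm (key V hVU fun g hg => comm_le_left (zpowers_le.2 hwV)
    (commutator_mem_commutator hg (mem_zpowers w))) h4, (isMulCommutative_quo_iff hUV).1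
    (comm_iff_le_cent.2 fun a ha => mem_cent.2 fun b hb => ?_)⟩
  · rw [← card_quo hUV] at h
    obtain ⟨k, hk, ho⟩ := exists_orderOf_eq Nat.prime_two h
    have h7 := h6 k hk
    rw [inv_eq_of_mul_eq_one_right (a := k) (by rw [← sq, ← ho, pow_orderOf_eq_one]),
      mul_inv_eq_iff_eq_mul] at h7
    rw [mem_bot.1 (h5.le ⟨hk, mem_cent1.2 h7.symm⟩), orderOf_one] at ho
    omega
  · rw [← inv_inj, ← h6 _ (mul_mem hb ha), mul_inv_rev, ← h6 a ha, ← h6 b hb]
    group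

end Cfsg.Agent.S3825
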