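import Cfsg.Statements.S3835
import Cfsg.Agent.Lib.Loc.H6Qd

set_option autoImplicit false
open Cfsg

set_option linter.unusedVariables false
set_option linter.unusedSimpArgs false
set_option linter.style.haveILetI false

namespace Cfsg.Agent.S3835

open CA CA.H6Qd CA.H6Stab CA.H6Op CA.Amb CA.AmbSyl CA.AmbCore CA.AmbRes CA.AmbChar CA.SL2Unip Subgroup
open scoped MatrixGroups

/-- Let p be an odd prime and n a natural number. The alternating group of degree n has a subgroup isomorphic to Qd(p) (the natural semidirect product of an elementary abelian group of order p² by SL₂(p)) if and only if n ≥ p²; and if n < p² then Qd(p) is not even involved in it. -/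
theorem result {p : ℕ} [Fact p.Prime] (hp : p ≠ 2) (n : ℕ) : ((∃ H : Subgroup (alternatingGroup (Fin n)), Nonempty (↥H ≃* ↥(Cfsg.qd p))) ↔ p ^ 2 ≤ n) ∧ (n < p ^ 2 → ¬ Cfsg.Involves ↥(Cfsg.qd p) ↥(alternatingGroup (Fin n))) := by
  have h2 : n < p ^ 2 → ¬ Cfsg.Involves ↥(Cfsg.qd p) ↥(alternatingGroup (Fin n)) := by
    intro hn h
    have h1 : AbSyl p (⊤ : Subgroup (alternatingGroup (Fin n))) :=
      abSyl_top_iff.2 ((abSyl_perm (by simpa using hn)).mono le_top)
    exact not_abSyl (F := ZMod p) ((involves_iff.1 h).abSyl h1)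
  refine ⟨⟨?_, fun hn => ?_⟩, h2⟩
  · rintro ⟨H, ⟨e⟩⟩
    by_contra hn
    refine h2 (not_le.1 hn) (involves_iff.2 ⟨H, le_top, e.toMonoidHom, e.surjective, fun x hx => ?_⟩)
    rw [show x = 1 from Subtype.ext hx, map_one]
  · obtain ⟨ι⟩ : Nonempty ((Fin 2 → ZMod p) ↪ Fin n) :=
      Function.Embedding.nonempty_of_card_le (by simpa using hn)
    let f : qdOver (ZMod p) →* Equiv.Perm (Fin n) := (Equiv.Perm.viaEmbeddingHom ι).comp act
    have hf : Function.Injective f := (Equiv.Perm.viaEmbeddingHom_injective ι).comp act_injective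
    have hk : (Equiv.Perm.sign.comp f).ker = ⊤ := eq_top_of_normal fun g hg => by
      have h1 : (Equiv.Perm.sign (f g)) ^ p = 1 := by
        rw [← map_pow, ← map_pow, show g ^ p = 1 from congrArg Subtype.val (T0_pow hp ⟨g, hg⟩),
          map_one, map_one]
      rcases Int.units_eq_one_or (Equiv.Perm.sign (f g)) with h | h
      · exact h
      · rw [h, ((Fact.out : p.Prime).odd_of_ne_two hp).neg_one_pow] at h1
        exact absurd h1 (by decide)
    let f' : qdOver (ZMod p) →* alternatingGroup (Fin n) := f.codRestrict _ fun g => hk.ge (mem_top g)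
    exact ⟨f'.range, ⟨(MonoidHom.ofInjective (f := f') fun a b h =>
      hf (congrArg Subtype.val h)).symm⟩⟩

end Cfsg.Agent.S3835
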