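import Cfsg.Statements.S3838
import Cfsg.Agent.Lib.Grp.Fus3

set_option autoImplicit false
open Cfsg

namespace Cfsg.Agent.S3838

open Subgroup CA.SylIn CA.Fus2 CA.Fus3 CA.NPC2 CA.PRes

theorem aux {G : Type*} [Group G] [Finite G] {p : ℕ} [Fact p.Prime] (P : Sylow p G)
    (hN : ∀ g ∈ normalizer ((P : Subgroup G) : Set G), (orderOf g).Coprime p →
      g ∈ centralizer ((P : Subgroup G) : Set G))
    (Q : Subgroup G) [Q.Normal] (h1 : ⁅(P : Subgroup G), (P : Subgroup G)⁆ ≤ Q) (h2 : Q ≤ P) :
    pResidual p G ⊓ (P : Subgroup G) ≤ Q := by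
  have hπ := QuotientGroup.mk'_surjective Q
  have hab : ∀ a ∈ (P : Subgroup G), ∀ b ∈ (P : Subgroup G),
      (a : G ⧸ Q) * (b : G ⧸ Q) = (b : G ⧸ Q) * (a : G ⧸ Q) := fun a ha b hb => by
    rw [← commutatorElement_eq_one_iff_mul_comm]
    exact (QuotientGroup.eq_one_iff _).2 (h1 (commutator_mem_commutator ha hb))
  have h3 : HasNormalPComplement p (G ⧸ Q) := by
    refine hasNPC_of_normalizer_le_centralizer (P.mapSurjective hπ) fun n hn => ?_
    obtain ⟨n, rfl⟩ := hπ n
    have hn' : n ∈ normalizer ((P : Subgroup G) : Set G) := mem_normalizer_of_forall fun x hx => by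
      have := conj_mem_of_mem_normalizer (H := (P.mapSurjective hπ : Subgroup (G ⧸ Q))) hn
        (mem_map_of_mem _ hx)
      rw [← map_inv, ← map_mul, ← map_mul] at this
      rwa [← comap_map_eq_self ((QuotientGroup.ker_mk' Q).le.trans h2)]
    obtain ⟨a, ha, t, ht, rfl⟩ := exists_mul_eq_of_isSylowIn (isSylowIn_of_le P le_normalizer) hn'
    rw [map_mul]
    refine mul_mem (mem_centralizer_iff.2 ?_) (mem_centralizer_iff.2 ?_)
    · rintro _ ⟨x, hx, rfl⟩
      rw [← map_mul, ← map_mul, mem_centralizer_iff.1 (map_pResidual_le_iff.2 hN ha) x hx]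
    · rintro _ ⟨x, hx, rfl⟩
      exact hab x hx t ht
  intro x hx
  have : (x : G ⧸ Q) ∈ pResidual p (G ⧸ Q) ⊓ (P.mapSurjective hπ : Subgroup (G ⧸ Q)) :=
    ⟨map_pResidual_le (QuotientGroup.mk' Q) (mem_map_of_mem _ hx.1), mem_map_of_mem _ hx.2⟩
  rwa [(hasNPC_iff_inf_eq_bot _).1 h3, mem_bot, QuotientGroup.eq_one_iff] at this

/-- Let G be a finite group with Sylow p-subgroup P such that N_G(P) has a normal p-complement. Then N_G(Q) has a normal p-complement for every subgroup Q with [P, P] ≤ Q ≤ Φ(P). -/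
theorem result {G : Type*} [Group G] [Finite G] {p : ℕ} [Fact p.Prime] (P : Sylow p G) (hN : Cfsg.HasNormalPComplement p ↥(Subgroup.normalizer ((P : Subgroup G) : Set G))) (Q : Subgroup G) (h1 : (commutator ↥(P : Subgroup G)).map (P : Subgroup G).subtype ≤ Q) (h2 : Q ≤ (frattini ↥(P : Subgroup G)).map (P : Subgroup G).subtype) : Cfsg.HasNormalPComplement p ↥(Subgroup.normalizer (Q : Set G)) := by
  have hQP : Q ≤ P := h2.trans (map_subtype_le _)
  rw [map_subtype_commutator] at h1
  have hPL : (P : Subgroup G) ≤ normalizer (Q : Set G) := fun x hx =>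
    mem_normalizer_of_forall fun y hy => by
      have := mul_mem (h1 (commutator_mem_commutator hx (hQP hy))) hy
      simpa [commutatorElement_def] using this
  have hS := isSylowIn_of_le P hPL
  refine hasNPC_of_inf_le_frattini hS.toSylow ((aux hS.toSylow (fun g hg ho => ?_)
    (Q.subgroupOf _) ?_ (fun x hx => hQP hx)).trans fun x hx => ?_)
  · have hg' : (g : G) ∈ normalizer ((P : Subgroup G) : Set G) :=
      mem_normalizer_of_forall fun x hx => conj_mem_of_mem_normalizer hg (x := ⟨x, hPL hx⟩) hx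
    have := mem_centralizer_of_hasNPC_subgroup hN P.isPGroup' le_normalizer hg' hg'
      (by rwa [Subgroup.orderOf_coe])
    exact mem_centralizer_iff.2 fun x hx => Subtype.ext (mem_centralizer_iff.1 this x hx)
  · exact commutator_le.2 fun a ha b hb => h1 (commutator_mem_commutator ha hb)
  · have h3 := CA.PGFrattini.map_map_frattini (normalizer (Q : Set G)).subtype hS.toSylow.isPGroup'
    rw [hS.map_toSylow] at h3
    obtain ⟨y, hy, e⟩ := h3.ge (h2 hx)
    rwa [← show y = x from Subtype.ext e]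

end Cfsg.Agent.S3838
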