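import Cfsg.Statements.S3839
import Cfsg.Agent.Lib.Grp.Fus3

set_option autoImplicit false
open Cfsg

namespace Cfsg.Agent.S3839

open Subgroup CA.SylIn CA.Fus2 CA.Fus3 CA.PRes CA.Hyperfocal

/-- A Frobenius normal p-complement criterion relative to a strongly closed subgroup. Let G be a finite group, S a Sylow p-subgroup and D a subgroup of S strongly closed in S with respect to G. Then G has a normal p-complement if and only if N_G(U) has a normal p-complement for every subgroup U of D with C_D(U) ≤ U. -/
theorem result {G : Type*} [Group G] [Finite G] {p : ℕ} [Fact p.Prime] (S : Sylow p G) (D : Subgroup G) (hD : Cfsg.IsStronglyClosed D (S : Subgroup G)) : Cfsg.HasNormalPComplement p G ↔ ∀ U : Subgroup G, U ≤ D → D ⊓ Subgroup.centralizer (U : Set G) ≤ U → Cfsg.HasNormalPComplement p ↥(Subgroup.normalizer (U : Set G)) := by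
  refine ⟨fun h U _ _ => hasNPC_subgroup h _, fun h => hasNPC_of_radical S ?_⟩
  intro Q hQ hS _ hrad g hg ho
  set U := Q ⊓ D with hU
  have hn : normalizer (Q : Set G) ≤ normalizer (U : Set G) := fun n hn =>
    mem_normalizer_of_forall fun x hx => ⟨conj_mem_of_mem_normalizer hn hx.1,
      hD.2 x hx.2 n (hQ (conj_mem_of_mem_normalizer hn hx.1))⟩
  have hSD : (S : Subgroup G) ≤ normalizer (D : Set G) := fun s hs =>
    mem_normalizer_of_forall fun x hx => stronglyClosed_conj_mem hD hs hx
  let K : Subgroup G := CA.Alperin.subgroupOfMul {y | y ∈ normalizer (Q : Set G) ∧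
      y ∈ centralizer (U : Set G) ∧ ∀ x ∈ Q, x * y * x⁻¹ * y⁻¹ ∈ U}
    ⟨one_mem _, one_mem _, fun x _ => by simp⟩ fun a b ha hb =>
    ⟨mul_mem ha.1 hb.1, mul_mem ha.2.1 hb.2.1, fun x hx => by
      have := mul_mem (ha.2.2 x hx) (conj_mem_of_mem_normalizer (hn ha.1) (hb.2.2 x hx))
      convert this using 1
      group⟩
  have h1 := le_of_radical hS hrad (K := K) (fun y hy => hy.1) (fun n hn' =>
    mem_normalizer_of_forall fun y hy => ⟨mul_mem (mul_mem hn' hy.1) (inv_mem hn'),
      conj_mem_of_mem_normalizer (normalizer_le_normalizer_centralizer U (hn hn')) hy.2.1,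
      fun x hx => by
        have := conj_mem_of_mem_normalizer (hn hn') (hy.2.2 _ (inv_conj_mem_of_mem_normalizer hn' hx))
        convert this using 1
        group⟩) fun k hk hc =>
    mem_centralizer_of_commutator_le (S.isPGroup'.to_le (inf_le_left.trans hQ)) hc hk.2.1
      (commutator_le.2 fun x hx y hy => (zpowers_le.2 hk : _ ≤ K) hy |>.2.2 x hx)
  have h2 : D ⊓ centralizer (U : Set G) ≤ Q := by
    refine le_of_inf_normalizer_le S.isPGroup' (inf_le_left.trans hD.1) hQ
      (CA.Coprime.inf_le_normalizer_inf (hQ.trans hSD)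
        ((le_normalizer.trans hn).trans (normalizer_le_normalizer_centralizer U)))
      fun y hy => h1 ⟨hD.1 hy.1.1, hy.2, hy.1.2, fun x hx => ⟨?_, ?_⟩⟩
    · have hx' : x ∈ Q := hx
      have := mul_mem hx' (conj_mem_of_mem_normalizer hy.2 (inv_mem hx'))
      simpa [mul_assoc] using this
    · have h3 : y ∈ D := hy.1.1
      have := mul_mem (stronglyClosed_conj_mem hD (hQ hx) h3) (inv_mem h3)
      exact this
  exact mem_centralizer_of_hasNPC_subgroup (h U inf_le_right (le_inf h2 inf_le_left))
    (S.isPGroup'.to_le hQ) (le_normalizer.trans hn) (hn hg) hg ho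

end Cfsg.Agent.S3839
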