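import Cfsg.Statements.S3857
import Cfsg.Agent.Lib.Grp.FrobCrit
import Cfsg.Agent.Lib.Grp.Frob2
import Cfsg.Agent.Lib.Solv.HH3

set_option autoImplicit false
open Cfsg

namespace Cfsg.Agent.S3857

open Subgroup CA.BG CA.OQuo CA.Frob2
open scoped commutatorElement

def Dis (π : Set ℕ) (G : Type*) [Group G] : Prop :=
  ∀ a ∈ π, ∀ b ∉ π, a.Prime → b.Prime → ∀ g : G, ¬ a * b ∣ orderOf g

section
variable {G : Type*} [Group G] [Finite G] {G' : Type*} [Group G'] [Finite G'] {π : Set ℕ}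

theorem Dis.compl (h : Dis π G) : Dis πᶜ G := fun a ha b hb h1 h2 g =>
  mul_comm a b ▸ h b (not_not.1 hb) a ha h2 h1 g

theorem Dis.map (h : Dis π G) (f : G →* G') (hf : Function.Surjective f) : Dis π G' :=
  fun a ha b hb h1 h2 g h3 => by
    obtain ⟨g, rfl⟩ := hf g
    exact h a ha b hb h1 h2 g (h3.trans (orderOf_map_dvd f g))

theorem Dis.sr (h : Dis π G) {A B : Subgroup G} (hA : IsPi π A) (hB : IsPi πᶜ B) : Semireg A B :=
  semireg_iff.2 fun y hy hy1 x hx e => by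
    by_contra hx1
    obtain ⟨a, ha, h1⟩ := Nat.exists_prime_and_dvd (mt orderOf_eq_one_iff.1 hx1)
    obtain ⟨b, hb, h2⟩ := Nat.exists_prime_and_dvd (mt orderOf_eq_one_iff.1 hy1)
    refine h a (hA.orderOf hx a ha h1) b (hB.orderOf hy b hb h2) ha hb (x * y) ?_
    rw [(show Commute y x from e).symm.orderOf_mul_eq_mul_orderOf_of_coprime
      ((hA.orderOf hx).coprime (hB.orderOf hy))]
    exact mul_dvd_mul h1 h2

theorem isPi_map {K : Subgroup G} (h : IsPi π K) (f : G →* G') : IsPi π (K.map f) :=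
  h.nat.of_dvd (card_map_dvd K f)

theorem main (hs : Group.IsSolvable G) (hD : Dis π G) (hb : ¬ IsPi π (⊤ : Subgroup G))
    (h0 : 𝓞(π, (⊤ : Subgroup G)) ≠ ⊥) :
    (∃ C : Subgroup G, IsFrobeniusComplement C) ∨
    (∃ (H K : Subgroup G) (_ : H.Normal), K.Normal ∧ H < K ∧
      (∃ C : Subgroup ↥K, IsFrobeniusComplement C ∧ frobeniusKernel C = (H.subgroupOf K : Set ↥K)) ∧
      (∃ C : Subgroup (G ⧸ H), IsFrobeniusComplement C ∧
        frobeniusKernel C = (K.map (QuotientGroup.mk' H) : Set (G ⧸ H)))) := by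
  set H := 𝓞(π, (⊤ : Subgroup G)) with hH
  haveI : H.Normal := normal_of_top_le_norm (le_norm_core π ⊤)
  have hHπ : IsPi π H := core_pi π ⊤
  set f := QuotientGroup.mk' H
  have hf : Function.Surjective f := QuotientGroup.mk'_surjective H
  have hk : f.ker = H := QuotientGroup.ker_mk' H
  have hs' : ∀ K : Subgroup G, Group.IsSolvable K := fun K => inferInstance
  have hs'' : ∀ K : Subgroup (G ⧸ H), Group.IsSolvable K := fun K => inferInstance
  obtain ⟨M, hM⟩ := hall_exists π (hs'' ⊤)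
  by_cases hM0 : M = ⊥
  · obtain ⟨L, hL⟩ := hall_exists πᶜ (hs' ⊤)
    have h1 : Hall π H ⊤ := Hall.mk' le_top hHπ (by
      rw [← CA.HH.relIndex_mk]
      exact (hM0 ▸ hM).isPi_compl_of_eq_bot.of_le le_top)
    exact Or.inl ⟨L, isFrob_of_semireg (h1.sup_compl hL) h0
      (fun h => hb (compl_compl π ▸ (h ▸ hL).isPi_compl_of_eq_bot)) (hD.sr hHπ hL.pi)⟩
  set F := 𝓕((⊤ : Subgroup (G ⧸ H)))
  haveI : F.Normal := normal_of_top_le_norm (le_norm_fit ⊤)
  have hF0 : F ≠ ⊥ := fit_ne_bot (hs'' ⊤) (ne_bot_mono le_top hM0)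
  have hFπ : IsPi πᶜ F := by
    have h1 := nil_hall_core π (fit_nil (⊤ : Subgroup (G ⧸ H)))
    rw [CA.BG.eq_bot_mono (core_fit_le π ⊤) (CA.HH.core_quot_eq_bot hH)] at h1
    exact h1.isPi_compl_of_eq_bot
  have hD' := hD.map f hf
  have hHK : H ≤ F.comap f := fun x hx => by
    rw [mem_comap, show f x = 1 from (QuotientGroup.eq_one_iff x).2 hx]; exact one_mem _
  have hKF : (F.comap f).map f = F := map_comap_eq_self_of_surjective hf F
  obtain ⟨B, hB⟩ := hall_exists πᶜ (hs' (F.comap f))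
  have hHB : H ⊔ B = F.comap f := (Hall.mk' hHK hHπ (by
    rw [← CA.HH.relIndex_mk]; exact (hKF.symm ▸ hFπ : IsPi πᶜ ((F.comap f).map f)))).sup_compl hB
  have hBF : B.map f = F := by
    rw [← hKF, ← hHB, Subgroup.map_sup, (Subgroup.map_eq_bot_iff _).2 hk.ge, bot_sup_eq]
  have hsr := hD.sr hHπ hB.pi
  have hcyc : IsCyclic F := by
    refine cyc_of_nil_zgroup (fit_nil ⊤) ?_
    by_cases ho : Odd ♯B
    · haveI := hsr.isZGroup (top_le_norm _ _) h0 ho
      exact hBF ▸ IsZGroup.of_surjective (f.subgroupMap_surjective B)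
    · exfalso
      obtain ⟨s, hs, hs2⟩ := exists_orderOf_eq Nat.prime_two (even_iff_two_dvd.1 (Nat.not_odd_iff_even.1 ho))
      have hinj : ∀ b ∈ B, f b = 1 → b = 1 := fun b hb h =>
        mem_bot.1 ((hHπ.inf_eq_bot hB.pi).le ⟨hk.le h, hb⟩)
      have hs1 : f s ≠ 1 := fun h => by simp [hinj s hs h] at hs2
      obtain ⟨m, hm, hm1⟩ := exists_ne_one hM0
      obtain ⟨t, ht, h1⟩ := hBF.ge (Normal.conj_mem inferInstance _ (hBF.le (mem_map_of_mem f hs)) m)
      have h2 : orderOf t = 2 := orderOf_eq_prime (hinj _ (pow_mem ht 2) (by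
        rw [map_pow, h1, conj_pow, ← map_pow, ← hs2, pow_orderOf_eq_one]; simp)) fun h => hs1 (by
          simpa [h] using h1.symm)
      rw [hsr.involution_unique (top_le_norm _ _) h0 hs ht hs2 h2] at h1
      exact hm1 ((hD'.sr hM.pi hFπ).eq_one (hBF.le (mem_map_of_mem f hs)) hs1 hm
        (eq_mul_inv_iff_mul_eq.1 h1))
  have hder : ⁅(⊤ : Subgroup (G ⧸ H)), ⊤⁆ ≤ F :=
    (le_inf le_top (CA.BG4.der_cent_cyc hcyc (top_le_norm _ _))).trans (cent_fit_le (hs'' ⊤))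
  have hFM : F ⊔ M = ⊤ := by
    obtain ⟨L, hL⟩ := hall_exists πᶜ (hs'' ⊤)
    rw [eq_top_iff, ← hM.sup_compl hL, sup_comm]
    refine sup_le_sup_right (fun x hx => ?_) _
    have h1 := (hD'.map _ (QuotientGroup.mk'_surjective F)).sr (isPi_map hM.pi (QuotientGroup.mk' F))
      (isPi_map hL.pi (QuotientGroup.mk' F))
    obtain ⟨m, hm, hm1⟩ := exists_ne_one hM0
    refine (QuotientGroup.eq_one_iff x).1 (h1.symm.eq_one (mem_map_of_mem _ hm) (fun h => hm1
      (mem_bot.1 ((hM.pi.inf_eq_bot hFπ).le ⟨hm, (QuotientGroup.eq_one_iff m).1 h⟩))) (mem_map_of_mem _ hx) ?_)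
    rw [← commutatorElement_eq_one_iff_mul_comm]
    exact (QuotientGroup.eq_one_iff ⁅m, x⁆).2 (hder (commutator_mem_commutator (mem_top _) (mem_top _)))
  have hB0 : B ≠ ⊥ := fun h => hF0 (by rw [← hBF, h, Subgroup.map_bot])
  have hsr' : Semireg (H.subgroupOf (F.comap f)) (B.subgroupOf (F.comap f)) := semireg_iff.2
    fun y hy hy1 x hx e => Subtype.ext (hsr.eq_one hy (fun h => hy1 (Subtype.ext h)) hx (congrArg Subtype.val e))
  have htop : H.subgroupOf (F.comap f) ⊔ B.subgroupOf (F.comap f) = ⊤ := by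
    rw [← subgroupOf_sup hHK hB.le, hHB, subgroupOf_self]
  refine Or.inr ⟨H, F.comap f, inferInstance, inferInstance, lt_of_le_of_ne hHK fun h => hF0 ?_,
    ⟨_, isFrob_of_semireg htop ?_ ?_ hsr', kernel_eq_of_semireg htop hsr'⟩,
    ⟨M, isFrob_of_semireg hFM hF0 hM0 (hD'.sr hM.pi hFπ).symm, ?_⟩⟩
  · rw [← hKF, ← h]; exact (Subgroup.map_eq_bot_iff _).2 hk.ge
  · exact fun h => h0 (disjoint_self.1 ((subgroupOf_eq_bot.1 h).mono_right hHK))
  · exact fun h => hB0 (disjoint_self.1 ((subgroupOf_eq_bot.1 h).mono_right hB.le))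
  · rw [hKF]; exact kernel_eq_of_semireg hFM (hD'.sr hM.pi hFπ).symm
end

/-- A finite solvable group whose prime graph (prime divisors of the order, two distinct primes joined when there is an element of order their product) is disconnected is a Frobenius group or a 2-Frobenius group (it has normal subgroups H < K with K a Frobenius group with kernel H and G/H a Frobenius group with kernel K/H). -/
theorem result {G : Type*} [Group G] [Finite G] (hsol : Group.IsSolvable G)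
    (hdisc : (∃ A : Set ℕ, (∃ a ∈ A, a.Prime ∧ a ∣ Nat.card G) ∧ (∃ b ∉ A, b.Prime ∧ b ∣ Nat.card G) ∧
      ∀ a ∈ A, ∀ b ∉ A, a.Prime → b.Prime → a ∣ Nat.card G → b ∣ Nat.card G → ¬ ∃ g : G, orderOf g = a * b)) :
    (∃ C : Subgroup G, Cfsg.IsFrobeniusComplement C) ∨
    (∃ (H K : Subgroup G) (_ : H.Normal), K.Normal ∧ H < K ∧
      (∃ C : Subgroup ↥K, Cfsg.IsFrobeniusComplement C ∧ Cfsg.frobeniusKernel C = (H.subgroupOf K : Set ↥K)) ∧
      (∃ C : Subgroup (G ⧸ H), Cfsg.IsFrobeniusComplement C ∧ Cfsg.frobeniusKernel C = (K.map (QuotientGroup.mk' H) : Set (G ⧸ H)))) := by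
  obtain ⟨π, ⟨a, ha, ha1, ha2⟩, ⟨b, hb, hb1, hb2⟩, h⟩ := hdisc
  have hD : Dis π G := fun a ha b hb h1 h2 g h3 =>
    h a ha b hb h1 h2 ((dvd_of_mul_right_dvd h3).trans (orderOf_dvd_natCard g))
      ((dvd_of_mul_left_dvd h3).trans (orderOf_dvd_natCard g)) ⟨_, orderOf_pow_orderOf_div (orderOf_pos g).ne' h3⟩
  by_cases h0 : 𝓞(π, (⊤ : Subgroup G)) = ⊥
  · refine main hsol hD.compl (fun h => h a ha1 (by rwa [card_top]) ha) fun h1 => ?_
    have h2 := nil_core_sup π (fit_nil (⊤ : Subgroup G))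
    rw [CA.BG.eq_bot_mono (core_fit_le _ ⊤) h0, CA.BG.eq_bot_mono (core_fit_le _ ⊤) h1, bot_sup_eq] at h2
    refine fit_ne_bot (H := ⊤) inferInstance (fun h => ha1.one_lt.ne' (Nat.dvd_one.1 ?_)) h2.symm
    rwa [← card_top (G := G), h, card_bot] at ha2
  · exact main hsol hD (fun h => hb (h b hb1 (by rwa [card_top]))) h0

end Cfsg.Agent.S3857
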