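import Cfsg.Statements.S3859
import Cfsg.Agent.Lib.Odd.BGCoprime
import Cfsg.Agent.Lib.Odd.BG1

set_option autoImplicit false
open Cfsg

namespace Cfsg.Agent.S3859

open Subgroup CA CA.BG

theorem frat {G : Type*} [Group G] [Finite G] (T : Subgroup G) [T.Normal] (hT : IsSimpleGroup T)
    (hna : ¬ IsMulCommutative T) {r : ℕ} [hr : Fact r.Prime] (R : Sylow r G)
    (hR0 : (R : Subgroup G) ⊓ T ≠ ⊥) : ∃ M : Subgroup G, IsCoatom M ∧ 𝓝((R : Subgroup G)) ≤ M ∧
      T ⊔ M = ⊤ := by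
  have hS : Syl r ((R : Subgroup G) ⊓ T) T := (syl_top hr.out R).inf_normal le_top (top_le_norm _ _)
  have h1 : 𝓝((R : Subgroup G) ⊓ T) ≠ ⊤ := fun h => by
    have h2 : ((R ⊓ T : Subgroup G).subgroupOf T).Normal :=
      (normal_subgroupOf_iff_le_normalizer inf_le_right).2 (le_top.trans h.ge)
    rcases h2.eq_bot_or_eq_top with h3 | h3
    · exact hR0 (by rw [subgroupOf_eq_bot, disjoint_iff, inf_assoc, inf_idem] at h3; exact h3)
    · haveI := (hS.pi.of_le (subgroupOf_eq_top.1 h3)).isSolvable hr.out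
      exact hna ⟨⟨IsSimpleGroup.comm_iff_isSolvable.2 this⟩⟩
  obtain ⟨M, hM, h2⟩ := exists_coatom_ge h1
  refine ⟨M, hM, (norm_inf le_rfl (top_le_norm _ _)).trans h2, top_le_iff.1 ?_⟩
  exact (hS.syl_frattini_sup hr.out le_top (top_le_norm _ _)).ge.trans
    (sup_le_sup_left (inf_le_right.trans h2) _)

/-- Let G be a finite group with a normal non-abelian simple subgroup T whose centralizer is trivial (G almost simple with socle T), r a prime and R a Sylow r-subgroup of G meeting T nontrivially. If R lies in exactly one maximal subgroup of G, then G/T is an r-group. -/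
theorem result {G : Type*} [Group G] [Finite G] (T : Subgroup G) [T.Normal] (hT : IsSimpleGroup T) (hna : ¬ IsMulCommutative T)
    (hC : Subgroup.centralizer (T : Set G) = ⊥) {r : ℕ} [Fact r.Prime] (R : Sylow r G) (hR0 : (R : Subgroup G) ⊓ T ≠ ⊥)
    (huniq : ∃! M : Subgroup G, IsCoatom M ∧ (R : Subgroup G) ≤ M) : IsPGroup r (G ⧸ T) := by
  have hr := (Fact.out : r.Prime)
  obtain ⟨M, hM, h1, h2⟩ := frat T hT hna R hR0
  have h3 : (R : Subgroup G) ⊔ T = ⊤ := by
    by_contra h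
    obtain ⟨L, hL, h3⟩ := exists_coatom_ge h
    have := huniq.unique ⟨hL, le_sup_left.trans h3⟩ ⟨hM, le_normalizer.trans h1⟩
    exact hM.1 (top_le_iff.1 (h2.ge.trans (sup_le (this ▸ le_sup_right.trans h3) le_rfl)))
  refine (R.isPGroup'.of_surjective ((QuotientGroup.mk' T).comp (R : Subgroup G).subtype) fun y => ?_)
  obtain ⟨y, rfl⟩ := QuotientGroup.mk_surjective y
  obtain ⟨a, ha, t, ht, rfl⟩ := (mem_sup_norm (top_le_norm T R)).1 (h3.ge (mem_top y))
  exact ⟨⟨a, ha⟩, (QuotientGroup.mk_mul_of_mem a ht).symm⟩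

end Cfsg.Agent.S3859
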