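import Cfsg.Statements.S3858
import Cfsg.Agent.S3859

set_option autoImplicit false
open Cfsg

namespace Cfsg.Agent.S3858

open Subgroup CA CA.BG

/-- Let G be a finite group with a normal non-abelian simple subgroup T whose centralizer is trivial (G almost simple with socle T), r a prime and R a Sylow r-subgroup of G meeting T nontrivially. Then R lies in exactly one maximal subgroup of G if and only if G has exactly one conjugacy class of maximal subgroups whose index is prime to r. -/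
theorem result {G : Type*} [Group G] [Finite G] (T : Subgroup G) [T.Normal] (hT : IsSimpleGroup T) (hna : ¬ IsMulCommutative T)
    (hC : Subgroup.centralizer (T : Set G) = ⊥) {r : ℕ} [Fact r.Prime] (R : Sylow r G) (hR0 : (R : Subgroup G) ⊓ T ≠ ⊥) :
    (∃! M : Subgroup G, IsCoatom M ∧ (R : Subgroup G) ≤ M) ↔
      ((∃ M : Subgroup G, IsCoatom M ∧ ¬ r ∣ M.index) ∧
        ∀ M₁ M₂ : Subgroup G, IsCoatom M₁ → ¬ r ∣ M₁.index → IsCoatom M₂ → ¬ r ∣ M₂.index → ∃ g : G, M₂ = M₁.map (MulAut.conj g).toMonoidHom) := by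
  have hr := (Fact.out : r.Prime)
  obtain ⟨M, hM, h1, -⟩ := S3859.frat T hT hna R hR0
  have hR := syl_top hr R
  have k1 : ∀ L : Subgroup G, (R : Subgroup G) ≤ L → ¬ r ∣ L.index := fun L hL => by
    rw [← relIndex_top_right]; exact (piNat_compl_iff hr).1 (hR.le_of_idx hL)
  have k2 : ∀ L : Subgroup G, ¬ r ∣ L.index → ∃ g, (R : Subgroup G) ≤ cj g L := fun L hL => by
    obtain ⟨P, hP⟩ := syl_exists hr L
    obtain ⟨g, -, hg⟩ := (hP.of_idx le_top ((piNat_compl_iff hr).2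
      (by rwa [relIndex_top_right]))).syl_conj hr hR
    exact ⟨g, hg ▸ cj_mono g hP.le⟩
  have h2 := le_normalizer.trans h1
  refine ⟨fun h => ⟨⟨M, hM, k1 M h2⟩, fun M₁ M₂ h3 h4 h5 h6 => ?_⟩, fun ⟨_, h⟩ =>
    ⟨M, ⟨hM, h2⟩, fun L hL => ?_⟩⟩
  · obtain ⟨a, ha⟩ := k2 M₁ h4
    obtain ⟨b, hb⟩ := k2 M₂ h6
    refine ⟨b⁻¹ * a, ?_⟩
    change _ = cj _ _
    rw [cj_mul, ← cj_eq_iff]
    exact h.unique ⟨isCoatom_cj h5 b, hb⟩ ⟨isCoatom_cj h3 a, ha⟩
  · obtain ⟨g, hg⟩ := h M L hM (k1 M h2) hL.1 (k1 L hL.2)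
    change _ = cj _ _ at hg
    obtain ⟨m, hm, h3⟩ := (hR.of_le h2 le_top).syl_conj hr
      ((hR.cj_mem (mem_top g⁻¹)).of_le (le_cj_iff.1 (hg ▸ hL.2)) le_top)
    have h4 : g * m ∈ M := h1 (mem_norm_iff_cj.2 (by rw [cj_mul, h3, cj_eq_iff]))
    rw [hg, cj_of_mem ((M.mul_mem_cancel_right hm).1 h4)]

end Cfsg.Agent.S3858
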