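import Cfsg.Statements.S3864
import Cfsg.Agent.Lib.Grp.MC3

set_option autoImplicit false
open Cfsg

namespace Cfsg.Agent.S3864

open Subgroup CA.SylIn CA.PRes CA.Two CA.MC2 CA.MC3 CA.PGBasic

theorem aux {G : Type*} [Group G] [Finite G] {m : ℕ} {a b : G} (h : MC m 0 0 a b) (hm : 1 ≤ m)
    (P : Sylow 2 G) (e : zpowers a ⊔ zpowers b = P) (h1 : Fus m a b)
    (h2 : ¬ Fus m a (a ^ (1 : ℤ) * b)) :
    Nat.card {C : ConjClasses G // ∃ g : G, orderOf g = 2 ∧ ConjClasses.mk g = C} = 2 ∧
      (∃ N : Subgroup G, N.Normal ∧ N.index = 2) ∧ ∀ N : Subgroup G, N.Normal → N.index ≠ 4 := by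
  have hi := index_pResidual_of_fus h P e hm (fun h => absurd h (by decide)) h1 h2
  refine ⟨card_classes_two (h.ord_two Even.zero) ((h.shift 1).ord_two (by decide))
    (not_isConj_of_normal (mem_pResidual_of_fus h h1)
      (shift_notMem_pResidual h P e hm (fun h => absurd h (by decide)) h2)) fun t ht => ?_,
    ⟨_, inferInstance, hi⟩, fun N hN h4 => ?_⟩
  · rcases involution_cases h P e ht with e | e | e
    exacts [.inl (e.trans (isConj_z_of_fus h Even.zero h1).symm), .inl e.1, .inr e.1]
  · have := index_dvd_of_le (pResidual_le_of_index_dvd (p := 2) (N := N) (k := 2) (by rw [h4]; rfl))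
    rw [h4, hi] at this
    omega

/-- Let G be a finite group whose Sylow 2-subgroups are dihedral of order 2 ^ n with n ≥ 3, and count the conjugacy classes of involutions of G. Then exactly one of the following holds: there is one class of involutions and no normal subgroup of index 2; there are two classes of involutions, a normal subgroup of index 2 and none of index 4; there are three classes of involutions and G has a normal 2-complement. -/
theorem result {G : Type*} [Group G] [Finite G] (P : Sylow 2 G) (n : ℕ) (hn : 3 ≤ n) (hdih : Nonempty (↥(P : Subgroup G) ≃* DihedralGroup (2 ^ (n - 1)))) : (Nat.card {C : ConjClasses G // ∃ g : G, ConjClasses.mk g = C ∧ orderOf g = 2} = 1 ∧ ∀ N : Subgroup G, N.Normal → N.index ≠ 2) ∨ (Nat.card {C : ConjClasses G // ∃ g : G, ConjClasses.mk g = C ∧ orderOf g = 2} = 2 ∧ (∃ N : Subgroup G, N.Normal ∧ N.index = 2) ∧ ∀ N : Subgroup G, N.Normal → N.index ≠ 4) ∨ (Nat.card {C : ConjClasses G // ∃ g : G, ConjClasses.mk g = C ∧ orderOf g = 2} = 3 ∧ Cfsg.HasNormalPComplement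 2 G) := by
  obtain ⟨eT⟩ := hdih
  obtain ⟨m, rfl⟩ : ∃ m, n = m + 2 := ⟨n - 2, by omega⟩
  obtain ⟨a, b, h, e⟩ := exists_of_dihedral (m := m) eT
  have h' : MC m 0 0 a (a ^ (1 : ℤ) * b) := h.shift 1
  have e' := (sup_shift a b 1).trans e
  simp only [and_comm (a := ConjClasses.mk _ = _)]
  by_cases h1 : Fus m a b <;> by_cases h2 : Fus m a (a ^ (1 : ℤ) * b)
  · refine .inl ⟨card_classes_one h.ord_z fun t ht => ?_, fun N _ =>
      pResidual_two_eq_top_iff.1 (pResidual_eq_top_of_fus h P e h1 h2) N⟩
    rcases involution_cases h P e ht with e | e | e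
    exacts [e, e.1.trans (isConj_z_of_fus h e.2 h1), e.1.trans (isConj_z_of_fus h' Even.zero h2)]
  · exact .inr (.inl (aux h (by omega) P e h1 h2))
  · exact .inr (.inl (aux h' (by omega) P e' h2 fun h3 => h1 ((fus_shift_two h).1 h3)))
  · have hN := hasNPC_of_not_fus h P e h1 h2
    refine .inr (.inr ⟨card_classes_three h.ord_z (h.ord_two Even.zero) (h'.ord_two Even.zero)
      (not_isConj_of_hasNPC h P e hN _) (not_isConj_of_hasNPC h' P e' hN _)
      (not_isConj_shift_of_hasNPC h P e hN (by omega)) fun t ht => ?_, hN⟩)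
    rcases involution_cases h P e ht with e | e | e
    exacts [.inl e, .inr (.inl e.1), .inr (.inr e.1)]

end Cfsg.Agent.S3864
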