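import Cfsg.Statements.S3866
import Cfsg.Agent.Lib.Loc.H6Basic

set_option autoImplicit false
open Cfsg

namespace Cfsg.Agent.S3866

open Subgroup CA.H6Basic
open scoped commutatorElement

/-- Let A be a commutative normal subgroup of the finite group G with G generated by A and an element x. Then a ↦ x a x⁻¹ a⁻¹ is a surjective homomorphism from A onto the commutator subgroup of G whose kernel is the centralizer of x in A; in particular the commutator subgroup has order equal to the index in A of that centralizer. -/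
theorem result {G : Type*} [Group G] [Finite G] (A : Subgroup G) [A.Normal] (hA : IsMulCommutative A) (x : G) (hgen : A ⊔ Subgroup.zpowers x = ⊤) : (∀ a ∈ A, x * a * x⁻¹ * a⁻¹ ∈ commutator G) ∧ (∀ c ∈ commutator G, ∃ a ∈ A, x * a * x⁻¹ * a⁻¹ = c) ∧ (∀ a ∈ A, ∀ b ∈ A, x * (a * b) * x⁻¹ * (a * b)⁻¹ = (x * a * x⁻¹ * a⁻¹) * (x * b * x⁻¹ * b⁻¹)) ∧ Nat.card (commutator G) * Nat.card ↥(A ⊓ Subgroup.centralizer ({x} : Set G)) = Nat.card A := by
  have hc : ∀ a ∈ A, x * a * x⁻¹ ∈ A := fun a ha => Normal.conj_mem ‹_› a ha x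
  have h3 : ∀ a ∈ A, ∀ b ∈ A, x * (a * b) * x⁻¹ * (a * b)⁻¹ =
      (x * a * x⁻¹ * a⁻¹) * (x * b * x⁻¹ * b⁻¹) := fun a ha b hb => by
    have := comm_of_isMulCommutative hA (inv_mem ha) (mul_mem (hc b hb) (inv_mem hb))
    calc _ = x * a * x⁻¹ * ((x * b * x⁻¹ * b⁻¹) * a⁻¹) := by group
      _ = _ := by rw [← this]; group
  let f : A →* G := MonoidHom.mk' (fun a => x * a * x⁻¹ * (a : G)⁻¹) fun a b => h3 a a.2 b b.2
  have hr : f.range ≤ A := by rintro _ ⟨a, rfl⟩; exact mul_mem (hc a a.2) (inv_mem a.2)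
  have hA' : A ≤ normalizer (f.range : Set G) := fun a ha => mem_normalizer_of_conj_mem fun y hy => by
    rwa [comm_of_isMulCommutative hA ha (hr hy), mul_inv_cancel_right]
  have hx' : zpowers x ≤ normalizer (f.range : Set G) :=
    zpowers_le.2 (mem_normalizer_of_conj_mem (by
      rintro _ ⟨a, rfl⟩
      exact ⟨⟨_, hc a a.2⟩, by simp [f, mul_assoc]⟩))
  have : f.range.Normal := normalizer_eq_top_iff.1 (eq_top_iff.2 (hgen.ge.trans (sup_le hA' hx')))
  have h1 : ⁅zpowers x, A⁆ ≤ f.range :=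
    commutator_zpowers_le (hx' (mem_zpowers x)) fun y hy => ⟨⟨y, hy⟩, rfl⟩
  have hb : ∀ B : Subgroup G, IsMulCommutative B → ⁅B, B⁆ ≤ f.range := fun B hB =>
    (commutator_eq_bot_iff'.2 (isMulCommutative_iff'.1 hB)).le.trans bot_le
  have e : commutator G = f.range := by
    refine le_antisymm ?_ ?_
    · rw [commutator_def, ← hgen]
      refine commutator_sup_le hA' hx' ?_ ?_ <;> rw [commutator_comm] <;>
        refine commutator_sup_le hA' hx' ?_ ?_
      exacts [hb A hA, h1, by rwa [commutator_comm], hb _ inferInstance]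
    · rintro _ ⟨a, rfl⟩
      exact commutator_mem_commutator (mem_top x) (mem_top (a : G))
  refine ⟨fun a _ => commutator_mem_commutator (mem_top x) (mem_top a), fun c hc => ?_, h3, ?_⟩
  · obtain ⟨a, rfl⟩ := e.le hc
    exact ⟨a, a.2, rfl⟩
  · have hk : f.ker = (centralizer ({x} : Set G)).subgroupOf A := by
      ext a
      rw [MonoidHom.mem_ker, mem_subgroupOf, mem_centralizer_singleton_iff]
      exact commutatorElement_eq_one_iff_mul_comm.trans eq_comm
    rw [e, ← index_ker, inf_comm, ← card_subgroupOf, ← hk, index_mul_card]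

end Cfsg.Agent.S3866
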