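import Cfsg.Statements.S3867
import Cfsg.Agent.Lib.Grp.L0Syl
import Cfsg.Agent.Lib.Grp.H1Prod

set_option autoImplicit false
open Cfsg

namespace Cfsg.Agent.S3867

open Subgroup CA.L0Syl CA.SylIn

/-- Let M and N be nontrivial normal subgroups of the finite group G with M ⊓ N trivial, and let p be a prime. Writing n(X) for the number of Sylow p-subgroups of a group X, one has n(G) · n(G/MN) = n(G/M) · n(G/N). -/
theorem result {G : Type*} [Group G] [Finite G] (p : ℕ) [Fact p.Prime] (M N : Subgroup G) [M.Normal] [N.Normal] (hM : M ≠ ⊥) (hN : N ≠ ⊥) (hMN : M ⊓ N = ⊥) : Nat.card (Sylow p G) * Nat.card (Sylow p (G ⧸ (M ⊔ N))) = Nat.card (Sylow p (G ⧸ M)) * Nat.card (Sylow p (G ⧸ N)) := by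
  obtain ⟨P⟩ : Nonempty (Sylow p G) := inferInstance
  rw [card_sylow_eq P, card_sylow_quotient P, card_sylow_quotient P, card_sylow_quotient P]
  set T := normalizer ((P : Subgroup G) : Set G) with hT
  have key : ((P : Subgroup G) ⊔ M) ⊓ ((P : Subgroup G) ⊔ N) = P := by
    rw [← CA.H1SZ.sup_inf_normal M (le_sup_left : (P : Subgroup G) ≤ (P : Subgroup G) ⊔ N), sup_eq_left]
    have h1 : IsPGroup p (M ⊓ ((P : Subgroup G) ⊔ N) : Subgroup G) := by
      intro ⟨x, hxM, hx⟩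
      obtain ⟨a, ha, b, hb, rfl⟩ := (CA.Rad.mem_sup_iff_of_le_normalizer
        (le_top.trans (normalizer_eq_top N).ge)).1 hx
      obtain ⟨k, hk⟩ := P.isPGroup' ⟨a, ha⟩
      refine ⟨k, Subtype.ext ?_⟩
      have hk' : a ^ p ^ k = 1 := by simpa using congrArg Subtype.val hk
      have h2 : (a * b) ^ p ^ k ∈ N := by
        rw [← QuotientGroup.eq_one_iff, QuotientGroup.mk_pow, QuotientGroup.mk_mul,
          (QuotientGroup.eq_one_iff b).2 hb, mul_one, ← QuotientGroup.mk_pow, hk', QuotientGroup.mk_one]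
      have h3 : (a * b) ^ p ^ k ∈ M ⊓ N := ⟨M.pow_mem hxM _, h2⟩
      rw [hMN] at h3
      simpa using h3
    refine (isSylowIn_top P).le_of_le_normalizer h1 le_top ?_
    refine le_trans ?_ (inf_normalizer_le_normalizer_inf _ _)
    refine le_inf (le_top.trans (normalizer_eq_top M).ge) (le_sup_left.trans le_normalizer)
  have h2 : (T ⊔ M) ⊓ (T ⊔ N) = T := by
    apply le_antisymm _ (le_inf le_sup_left le_sup_left)
    rw [hT, ← normalizer_sup, ← normalizer_sup]
    refine (CA.SylIn.inf_normalizer_le_normalizer_inf _ _).trans ?_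
    rw [key]
  have h3 : (T ⊔ M) ⊔ (T ⊔ N) = T ⊔ (M ⊔ N) := by
    rw [sup_sup_sup_comm, sup_idem]
  have pm : CA.H1Prod.Pm (T ⊔ M) (T ⊔ N) :=
    (CA.H1Prod.pm_of_le le_sup_left).sup_left (CA.H1Prod.pm_normal _ M).symm
  have h4 := pm.card_sup
  rw [h2, h3] at h4
  have e1 := T.index_mul_card
  have e2 := (T ⊔ M).index_mul_card
  have e3 := (T ⊔ N).index_mul_card
  have e4 := (T ⊔ (M ⊔ N)).index_mul_card
  have hpos : 0 < Nat.card (T ⊔ (M ⊔ N) : Subgroup G) * Nat.card T := Nat.mul_pos Nat.card_pos Nat.card_pos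
  apply Nat.eq_of_mul_eq_mul_right hpos
  calc _ = (T.index * Nat.card T) * ((T ⊔ (M ⊔ N)).index * Nat.card (T ⊔ (M ⊔ N) : Subgroup G)) := by ring
    _ = ((T ⊔ M).index * Nat.card (T ⊔ M : Subgroup G)) * ((T ⊔ N).index * Nat.card (T ⊔ N : Subgroup G)) := by
      rw [e1, e2, e3, e4]
    _ = _ := by rw [h4]; ring

end Cfsg.Agent.S3867
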