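import Cfsg.Statements.S3878
import Cfsg.Agent.Lib.Perm.HallSn5

set_option autoImplicit false
open Cfsg

namespace Cfsg.Agent.S3878

open CA.HallSn

/-- For a set of primes π the following are equivalent: every finite group has a Hall π-subgroup; in every finite group the maximal π-subgroups are pairwise conjugate; π contains at most one prime or contains every prime. -/
theorem result (π : Set ℕ) :
    ((∀ (G : Type) [Group G] [Finite G], Cfsg.IsEPiGroup π G) ↔
      ((∀ p q : ℕ, p.Prime → q.Prime → p ∈ π → q ∈ π → p = q) ∨ ∀ p : ℕ, p.Prime → p ∈ π)) ∧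
    ((∀ (G : Type) [Group G] [Finite G], Cfsg.IsDPiGroup π G) ↔
      ((∀ p q : ℕ, p.Prime → q.Prime → p ∈ π → q ∈ π → p = q) ∨ ∀ p : ℕ, p.Prime → p ∈ π)) := by
  have h1 : ((∀ p q : ℕ, p.Prime → q.Prime → p ∈ π → q ∈ π → p = q) ∨ ∀ p : ℕ, p.Prime → p ∈ π) →
      ∀ (G : Type) [Group G] [Finite G], DS π G := fun h G _ _ =>
    h.elim (fun h => DS.of_one fun r s hr hs h1 h2 _ _ => h r s hr hs h1 h2)
      fun h => DS.of_all fun r hr _ => h r hr
  have h2 : (∀ (G : Type) [Group G] [Finite G], Cfsg.IsEPiGroup π G) →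
      ((∀ p q : ℕ, p.Prime → q.Prime → p ∈ π → q ∈ π → p = q) ∨ ∀ p : ℕ, p.Prime → p ∈ π) := by
    intro h
    by_contra h'
    push Not at h'
    obtain ⟨⟨p, q, hp, hq, h3, h4, h5⟩, r, hr, h6⟩ := h'
    have hN : NT π (Fintype.card (Fin (2 * (p + q + r + 5)))) := by
      rw [Fintype.card_fin]
      exact ⟨⟨p, q, hp, hq, h5, h3, h4, by omega, by omega⟩, r, hr, by omega, h6⟩
    obtain ⟨m, hm⟩ := (E_iff hN).1 (h _)
    rw [Fintype.card_fin] at hm
    rcases hm with ⟨-, hm, -⟩ | ⟨hm, -⟩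
    · have := hm.eq_two_or_odd; omega
    · omega
  exact ⟨⟨h2, fun h G _ _ => (h1 h G).E⟩,
    ⟨fun h => h2 fun G _ _ => (DS.of_D (h G)).E, fun h G _ _ => (h1 h G).D⟩⟩

end Cfsg.Agent.S3878
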