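import Cfsg.Statements.S3881
import Cfsg.Agent.Lib.Solv.MC1

set_option autoImplicit false
open Cfsg

namespace Cfsg.Agent.S3881

open Subgroup CA CA.BG CA.MC

/-- Let p be an odd prime and G a finite metacyclic p-group (G has a cyclic normal subgroup with cyclic quotient). Suppose G is non-abelian with |G'| = p^n. Then for 1 ≤ i ≤ n the number of elements of G whose conjugacy class has exactly p^i elements is |Z(G)| · (p^(2i) − p^(2i−2)). -/
theorem result {G : Type*} [Group G] [Finite G] {p : ℕ} [Fact p.Prime] (hp : p ≠ 2) (hG : IsPGroup p G) (hmc : Cfsg.IsMetacyclic G) (n : ℕ) (hn : n ≠ 0) (hGn : Nat.card ↥(commutator G) = p ^ n) (i : ℕ) (hi : 1 ≤ i) (hin : i ≤ n) :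
    Nat.card {g : G // (Subgroup.centralizer ({g} : Set G)).index = p ^ i} =
      Nat.card ↥(Subgroup.center G) * (p ^ (2 * i) - p ^ (2 * i - 2)) := by
  have hq := (Fact.out : p.Prime)
  obtain ⟨a, b, r, m, c⟩ := exists_co hq hp hG hmc
  obtain rfl : m = n := Nat.pow_right_injective hq.two_le (c.card_der.symm.trans hGn)
  obtain ⟨s, rfl⟩ := Nat.exists_eq_add_of_le hin
  obtain ⟨i, rfl⟩ := Nat.exists_eq_add_of_le' hi
  have h1 : {g : G | 𝓒₁(g).index = p ^ (i + 1)} = (mho p s G : Set G) \ mho p (s + 1) G := by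
    ext g
    obtain ⟨t, ht⟩ := hG.index 𝓒₁(g)
    rw [Set.mem_sdiff, SetLike.mem_coe, SetLike.mem_coe, c.mem_iff (by omega), c.mem_iff (by omega),
      Set.mem_ofPred, ht, Nat.pow_le_pow_iff_right hq.one_lt, Nat.pow_le_pow_iff_right hq.one_lt,
      Nat.pow_right_inj hq.one_lt]
    omega
  have h2 : ∀ u v, u + v = i + 1 + s → ♯(mho p v G) = ♯(center G) * p ^ (2 * u) := fun u v h => by
    have h3 := (mho p v G).index_mul_card
    rw [c.index_mho (by omega), ← (center G).index_mul_card, ← c.mho_eq_center,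
      c.index_mho le_rfl, c.mho_eq_center, ← h, mul_add, pow_add] at h3
    exact Nat.eq_of_mul_eq_mul_left (pow_pos hq.pos (2 * v)) (by rw [h3]; ring)
  change Set.ncard {g : G | 𝓒₁(g).index = p ^ (i + 1)} = _
  rw [h1, Set.ncard_sdiff (mho_anti (Nat.le_succ s)), Nat.mul_sub, ← h2 (i + 1) s rfl,
    show 2 * (i + 1) - 2 = 2 * i by omega, ← h2 i (s + 1) (by omega)]
  rfl

end Cfsg.Agent.S3881
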