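import Cfsg.Statements.S3883
import Cfsg.Agent.Lib.Solv.MC1

set_option autoImplicit false
open Cfsg

namespace Cfsg.Agent.S3883

open Subgroup CA CA.BG CA.MC

/-- Let p be an odd prime and G a finite metacyclic p-group (G has a cyclic normal subgroup with cyclic quotient). Suppose G is non-abelian. Then an element g of G lies outside the Frattini subgroup if and only if its centralizer C_G(g) is abelian. -/
theorem result {G : Type*} [Group G] [Finite G] {p : ℕ} [Fact p.Prime] (hp : p ≠ 2) (hG : IsPGroup p G) (hmc : Cfsg.IsMetacyclic G) (hna : ¬ IsMulCommutative G) (g : G) :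
    g ∉ frattini G ↔ IsMulCommutative ↥(Subgroup.centralizer ({g} : Set G)) := by
  have hq := (Fact.out : p.Prime)
  obtain ⟨a, b, r, n, c⟩ := exists_co hq hp hG hmc
  have h1 : frattini G = mho p 1 G := le_antisymm ((PGFrattini.frattini_le_iff hG).2
    ⟨c.der_le, fun x => by simpa using pow_mem_mho (p := p) (s := 1) x⟩) ((closure_le _).2 (by
      rintro _ ⟨y, rfl⟩
      rw [pow_one]; exact PGFrattini.pow_mem_frattini hG y))
  have hn : 1 ≤ n := Nat.pos_of_ne_zero fun h => hna ((commutator_eq_bot_iff G).1 (card_eq_one.1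
    (by rw [c.card_der, h, pow_zero])))
  obtain ⟨t, ht⟩ := hG.index 𝓒₁(g)
  have h2 := (𝓒₁(g).index_mul_card).trans (commutator G).index_mul_card.symm
  rw [h1, c.mem_iff hn, comm_iff hq hp hG hmc, ht, Nat.pow_le_pow_iff_right hq.one_lt,
    ← Nat.mul_le_mul_left_iff (n := ♯𝓒₁(g)) (pow_pos hq.pos t), ← ht, h2, ht, c.card_der, mul_comm,
    Nat.mul_le_mul_right_iff (Nat.pos_of_ne_zero index_ne_zero_of_finite),
    Nat.pow_le_pow_iff_right hq.one_lt]
  omega

end Cfsg.Agent.S3883
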