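import Cfsg.Statements.S3887
import Cfsg.Agent.Lib.Solv.MC1
import Cfsg.Agent.Lib.Loc.AmbCD

set_option autoImplicit false
open Cfsg

namespace Cfsg.Agent.S3887

open Subgroup CA CA.BG CA.MC CA.AmbCD

/-- Let p be an odd prime and G a finite metacyclic p-group (G has a cyclic normal subgroup with cyclic quotient). Then a subgroup R of G maximizes |R| · |C_G(R)| over all subgroups of G if and only if R contains the center of G. -/
theorem result {G : Type*} [Group G] [Finite G] {p : ℕ} [Fact p.Prime] (hp : p ≠ 2) (hG : IsPGroup p G) (hmc : Cfsg.IsMetacyclic G) (R : Subgroup G) : Cfsg.IsCentralizerLarge R ↔ Subgroup.center G ≤ R := by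
  have hq := (Fact.out : p.Prime)
  rw [lg_iff]
  refine ⟨fun h => h.cc ▸ center_le_centralizer _, fun h => ?_⟩
  obtain ⟨a, b, r, n, c⟩ := exists_co hq hp hG hmc
  obtain ⟨H, hH⟩ := exists_cl G
  have h1 : Lg (⊤ : Subgroup G) := hH.1.of_le (by
    have h1 := card_mul_center_le hq hp hG hmc H
    rw [card_center, inf_of_le_right hH.2, ← card_mul_center hq hp hG hmc (L := ⊤) (by
      rw [card_top, ← (commutator G).index_mul_card]; rfl), card_center, top_inf_eq] at h1
    exact h1)
  have h0 : 𝓒((⊤ : Subgroup G)) = center G := centralizer_univ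
  have h2 : ∀ g : G, Lg (center G ⊔ zpowers g) := fun g => h1.of_le (by
    have h2 : 𝓒₁(g) ≤ 𝓒(center G ⊔ zpowers g) := le_centralizer_iff.1 (sup_le
      (center_le_centralizer _) (zpowers_le.2 fun x hx => mem_centralizer_singleton_iff.1 hx))
    unfold ms
    rw [h0, card_top, ← 𝓒₁(g).index_mul_card, ← PGBasic.card_mul_relIndex
      (le_sup_left : center G ≤ center G ⊔ zpowers g), relIndex_sup_left, mul_comm, ← mul_assoc]
    exact Nat.mul_le_mul (Nat.mul_le_mul_left _ (c.index_le_relIndex hG g)) (card_le_of_le h2))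
  have h3 := sSup_closed (P := fun K => Lg K ∧ center G ≤ K) (H := center G)
    (S := {A | ∃ g ∈ R, A = zpowers g}) ⟨h0 ▸ h1.cent, le_rfl⟩ (by
      rintro K ⟨h3, h4⟩ _ ⟨g, -, rfl⟩
      refine ⟨?_, le_sup_of_le_left h4⟩
      have := h3.sup (h2 g)
      rwa [← sup_assoc, sup_of_le_left h4] at this)
  convert h3.1
  refine le_antisymm (fun g hg => mem_sup_right (le_sSup (s := {A | ∃ g ∈ R, A = zpowers g})
    ⟨g, hg, rfl⟩ (mem_zpowers g))) (sup_le h (sSup_le ?_))
  rintro _ ⟨g, hg, rfl⟩
  exact zpowers_le.2 hg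

end Cfsg.Agent.S3887
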