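import Cfsg.Statements.S3886
import Cfsg.Agent.Lib.Solv.MC1

set_option autoImplicit false
open Cfsg

namespace Cfsg.Agent.S3886

open Subgroup CA CA.BG CA.MC

/-- Let p be an odd prime and G a finite metacyclic p-group (G has a cyclic normal subgroup with cyclic quotient). Then the largest value of |R| · |Z(R)| over subgroups R of G is |G : G'|², and the subgroups attaining it (the centrally large subgroups) are exactly the non-abelian subgroups together with the maximal abelian subgroups of G. -/
theorem result {G : Type*} [Group G] [Finite G] {p : ℕ} [Fact p.Prime] (hp : p ≠ 2) (hG : IsPGroup p G) (hmc : Cfsg.IsMetacyclic G) : Cfsg.maxCentralProduct G = (commutator G).index ^ 2 ∧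
    ∀ R : Subgroup G, Cfsg.IsCentrallyLarge R ↔ (¬ IsMulCommutative ↥R ∨ Maximal (fun K : Subgroup G => IsMulCommutative ↥K) R) := by
  have hq := (Fact.out : p.Prime)
  have h1 : maxCentralProduct G = (commutator G).index ^ 2 := IsGreatest.csSup_eq
    ⟨⟨⊤, card_mul_center hq hp hG hmc (by rw [card_top, ← (commutator G).index_mul_card]; rfl)⟩,
      by rintro _ ⟨R, rfl⟩; exact card_mul_center_le hq hp hG hmc R⟩
  refine ⟨h1, fun R => ?_⟩
  rw [IsCentrallyLarge, h1, max_iff hq hp hG hmc]
  by_cases hR : IsMulCommutative R
  · rw [(center_eq_top_iff).2 hR, card_top, ← sq, Nat.pow_left_inj two_ne_zero]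
    simp [hR]
  · exact iff_of_true (card_mul_center hq hp hG hmc ((card_eq_or hq hp hG hmc R).resolve_right
      fun h => hR h.1)) (Or.inl hR)

end Cfsg.Agent.S3886
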