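import Cfsg.Statements.S3888
import Cfsg.Agent.Lib.Grp.Rk2c
import Cfsg.Agent.S0639

set_option autoImplicit false
open Cfsg

namespace Cfsg.Agent.S3888

/-- The classification of the p-groups of rank at most two for odd p. Let p be an odd prime and G a group of order p^n with no elementary abelian subgroup of order p³. Then one of the following holds: G is metacyclic; n ≥ 3 and G is generated by elements x, y, z with x^p = y^p = z^(p^(n−2)) = 1, z commuting with x and y, and x⁻¹yx = y z^(p^(n−3)); n ≥ 4 and G is generated by elements x, y, z with x^p = y^p = z^(p^(n−2)) = 1, yz = zy, x⁻¹yx = y z^(s p^(n−3)) and x⁻¹zx = yz, where s = 1 or s is a quadratic non-residue modulo p; or p = 3 and G has maximal class (nilpotency class n − 1). -/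
theorem result {G : Type*} [Group G] [Finite G] {p : ℕ} [Fact p.Prime] (hp : p ≠ 2) (n : ℕ) (hG : Nat.card G = p ^ n)
    (hrk : Cfsg.PRankLE p 2 G) :
    Cfsg.IsMetacyclic G ∨
    (3 ≤ n ∧ ∃ x y z : G, Subgroup.closure ({x, y, z} : Set G) = ⊤ ∧ x ^ p = 1 ∧ y ^ p = 1 ∧ z ^ p ^ (n - 2) = 1 ∧
        x * z = z * x ∧ y * z = z * y ∧ x⁻¹ * y * x = y * z ^ p ^ (n - 3)) ∨
    (4 ≤ n ∧ ∃ (s : ℕ) (x y z : G), (s = 1 ∨ ¬ IsSquare (s : ZMod p)) ∧ Subgroup.closure ({x, y, z} : Set G) = ⊤ ∧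
        x ^ p = 1 ∧ y ^ p = 1 ∧ z ^ p ^ (n - 2) = 1 ∧ y * z = z * y ∧ x⁻¹ * y * x = y * z ^ (s * p ^ (n - 3)) ∧
        x⁻¹ * z * x = y * z) ∨
    (p = 3 ∧ 2 ≤ n ∧ (⊤ : Subgroup G).lowerCentralSeries (n - 2) ≠ ⊥) := by
  have hpp : p.Prime := Fact.out
  have hP := IsPGroup.of_card hG
  by_cases hc : IsCyclic G
  · exact Or.inl (S0638.metacyclic_top.1
      (CA.BG4.metacyclic_of_cyc (Subgroup.topEquiv.isCyclic.2 hc)))
  obtain ⟨E, z, y, F⟩ := CA.Rk2b.exists_fr hpp hp hP hrk hc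
  by_cases h : ∀ t : G, t ^ p = 1 → t ∈ Subgroup.centralizer (E : Set G)
  · by_cases h3 : p = 3
    · rcases F.caseB hG h with h1 | h1
      · exact Or.inr (Or.inr (Or.inr ⟨h3, h1⟩))
      · exact Or.inl (S0638.metacyclic_top.1 (CA.Rk2a.huppert_sq hpp hp _ (Nat.lt_succ_self _)
          (CA.BG.isPi_of_isPGroup hpp (hP.to_subgroup ⊤)) h1))
    refine Or.inl (S0639.result (p := p) ?_ hP (F.card ▸ Subgroup.card_le_of_le
      ((Subgroup.closure_le _).2 fun t ht => F.om (h t ht.2) ht.2)))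
    have := hpp.two_le
    omega
  push Not at h
  obtain ⟨x, h1, h2⟩ := h
  by_cases h3 : p = 3 → ∃ g ∈ Subgroup.centralizer (E : Set G), g * x = x * g ∧ g ∉ Subgroup.zpowers z
  swap
  · push Not at h3
    exact Or.inr (Or.inr (Or.inr ⟨h3.1, F.maxcls hG h2 (h1 ▸ one_mem _) h3.2⟩))
  have X : CA.Rk2c.Xa p E z x := ⟨h2, h1, h3⟩
  by_cases h4 : ∀ c ∈ Subgroup.centralizer (E : Set G), x⁻¹ * c * x * c⁻¹ ∈ Subgroup.zpowers z
  · exact Or.inr (Or.inl (CA.Rk2c.fam1 F X hG h4))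
  push Not at h4
  obtain ⟨u, hu, h4⟩ := h4
  exact Or.inr (Or.inr (Or.inl (CA.Rk2c.fam2' F X hG hu h4)))

end Cfsg.Agent.S3888
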