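import Cfsg.Statements.S3896
import Cfsg.Agent.Lib.Grp.K2Half
import Cfsg.Agent.Lib.GW.GW14
import Cfsg.Agent.Lib.Lin.PSL2Struct

set_option autoImplicit false
open Cfsg

namespace Cfsg.Agent.S3896

/-- Let G be a finite group whose largest normal subgroup of odd order is trivial, let P be a Sylow 2-subgroup of G, and suppose the number of conjugacy classes of G consisting of 2-elements (elements of 2-power order, the identity included) is exactly |P|/2. Then G/Z(G) is isomorphic to the alternating or the symmetric group of degree 4, or G/Z(G) has a normal non-abelian simple subgroup with trivial centralizer that is isomorphic to PSL₂(q) for some prime power q > 3 with q ≡ 3 or 5 (mod 8). -/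
theorem result {G : Type*} [Group G] [Finite G] (P : Sylow 2 G) (hO : Cfsg.pPrimeCore 2 G = ⊥)
    (hk : 2 * Nat.card {c : ConjClasses G // ∀ x ∈ c.carrier, ∃ k : ℕ, orderOf x = 2 ^ k} = Nat.card ↥(P : Subgroup G)) :
    Nonempty (G ⧸ Subgroup.center G ≃* ↥(alternatingGroup (Fin 4))) ∨ Nonempty (G ⧸ Subgroup.center G ≃* Equiv.Perm (Fin 4)) ∨
    ∃ S : Subgroup (G ⧸ Subgroup.center G), S.Normal ∧ IsSimpleGroup ↥S ∧ ¬ IsMulCommutative ↥S ∧
      Subgroup.centralizer (S : Set (G ⧸ Subgroup.center G)) = ⊥ ∧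
      ∃ (F : Type) (_ : Field F) (_ : Fintype F), 3 < Fintype.card F ∧ (Fintype.card F % 8 = 3 ∨ Fintype.card F % 8 = 5) ∧
        Nonempty (↥S ≃* Matrix.ProjectiveSpecialLinearGroup (Fin 2) F) := by
  rw [CA.KP.kp_eq Nat.prime_two] at hk
  obtain ⟨h1, h2, S, h3⟩ := CA.K2Half.quot P hO hk
  refine (CA.K2Half.core h3 h1 h2).imp_right (Or.imp_right
    fun ⟨K, hK, hs, hc, hcK, Q, hQ⟩ => ⟨K, hK, hs, hc, hcK, ?_⟩)
  obtain ⟨φ⟩ := IsKleinFour.nonempty_mulEquiv (G₁ := (Q : Subgroup K)) (G₂ := DihedralGroup 2)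
  have h8 : ¬ 8 ∣ Nat.card K := fun h => Q.not_dvd_index (by
    rw [← (Q : Subgroup K).card_mul_index, hQ.card_four] at h
    omega)
  rcases CA.GW.gw_simple hc (CA.GW.dihSyl_of_sylow Q le_rfl φ) with ⟨F, i1, i2, ho, h4, ⟨e⟩⟩ | ⟨⟨e⟩⟩
  · refine ⟨F, i1, i2, h4, by_contra fun h5 => h8 ?_, ⟨Subgroup.topEquiv.symm.trans e⟩⟩
    have h6 := CA.PSL2Struct.card_PSL (F := F)
    rw [← Nat.card_congr (Subgroup.topEquiv.symm.trans e).toEquiv, CA.PSL2Struct.dd,
      Nat.card_eq_fintype_card (α := F)] at h6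
    obtain ⟨k, hk⟩ := ho
    rw [hk] at h5 h6
    rw [show Nat.gcd 2 (2 * k + 1 - 1) = 2 by simp,
      show (2 * k + 1) ^ 2 - 1 = 4 * (k * (k + 1)) from Nat.sub_eq_of_eq_add (by ring)] at h6
    obtain ⟨m, hm⟩ : 4 ∣ k * (k + 1) := by
      rcases (show 4 ∣ k ∨ 4 ∣ k + 1 by omega) with h | h
      exacts [h.mul_right _, h.mul_left _]
    rw [hm] at h6
    exact ⟨(2 * k + 1) * m, Nat.eq_of_mul_eq_mul_left two_pos (h6.trans (by ring))⟩
  · refine absurd ?_ h8
    have h6 := two_mul_nat_card_alternatingGroup (α := Fin 7)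
    rw [← Nat.card_congr (Subgroup.topEquiv.symm.trans e).toEquiv, Nat.card_perm,
      Nat.card_eq_fintype_card (α := Fin 7), Fintype.card_fin] at h6
    change _ = 5040 at h6
    omega

end Cfsg.Agent.S3896
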