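import Cfsg.Statements.S3897
import Cfsg.Agent.Lib.Solv.KP

set_option autoImplicit false
open Cfsg

namespace Cfsg.Agent.S3897

open Subgroup CA CA.BG CA.KP

/-- Let p be an odd prime and G a finite group with Sylow p-subgroup P, and write k_p(G) for the number of conjugacy classes of G consisting of p-elements (elements of p-power order, the identity included). Then k_p(G) > (p + 1)|P|/(2p) if and only if G has a normal p-complement and P is abelian. -/
theorem result {G : Type*} [Group G] [Finite G] {p : ℕ} [Fact p.Prime] (hp : p ≠ 2) (P : Sylow p G) :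
    (p + 1) * Nat.card ↥(P : Subgroup G) < 2 * p * Nat.card {c : ConjClasses G // ∀ x ∈ c.carrier, ∃ k : ℕ, orderOf x = p ^ k} ↔
      Cfsg.HasNormalPComplement p G ∧ IsMulCommutative ↥(P : Subgroup G) := by
  have hp' : p.Prime := Fact.out
  rw [kp_eq hp']
  refine ⟨fun h => ⟨PRes.hasNPC_of_normalizer_le_centralizer P (norm_le_cent P h),
    PGBasic.isMulCommutative_iff.2 fun a ha b hb => (norm_le_cent P h (le_normalizer hb) a ha)⟩,
    fun ⟨h1, h2⟩ => ?_⟩
  rw [(kp_sylow P).2 h1, ← Nat.card_eq_of_bijective ConjClasses.mk ⟨fun a b e => ?_,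
    ConjClasses.mk_surjective⟩]
  · exact Nat.mul_lt_mul_of_pos_right (by have := hp'.two_le; omega) Nat.card_pos
  · obtain ⟨c, rfl⟩ := isConj_iff.1 (ConjClasses.mk_eq_mk_iff_isConj.1 e)
    rw [h2.is_comm.comm c, mul_inv_cancel_right]

end Cfsg.Agent.S3897
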