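import Cfsg.Statements.S3898
import Cfsg.Agent.Lib.Solv.KP
import Cfsg.Agent.S0205

set_option autoImplicit false
open Cfsg

namespace Cfsg.Agent.S3898

open Subgroup CA CA.BG CA.KP

/-- Let π be a finite set of primes containing 2 and G a finite group. Write k_π(G) for the number of conjugacy classes of G consisting of π-elements (elements all of whose order's prime divisors lie in π) and |G|_π for the π-part of the order of G. If k_π(G) > |G|_π/2, then G has a normal π-complement (a normal subgroup of order prime to π whose index is a π-number) and an abelian Hall subgroup for the set of odd primes in π. -/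
theorem result {G : Type*} [Group G] [Finite G] (π : Finset ℕ) (hπ : ∀ r ∈ π, r.Prime) (h2 : 2 ∈ π)
    (hk : π.prod (fun r => r ^ (Nat.card G).factorization r) < 2 * Nat.card {c : ConjClasses G // ∀ x ∈ c.carrier, ∀ r : ℕ, r.Prime → r ∣ orderOf x → r ∈ π}) :
    (∃ N : Subgroup G, N.Normal ∧ (∀ r : ℕ, r.Prime → r ∣ Nat.card ↥N → r ∉ π) ∧ ∀ r : ℕ, r.Prime → r ∣ N.index → r ∈ π) ∧ ∃ H : Subgroup G, Cfsg.IsPiHall ((↑π : Set ℕ) \ {2}) H ∧ IsMulCommutative ↥H := by
  replace hk := hk.trans_eq (congrArg (2 * ·) (kpi_eq (π : Set ℕ)))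
  haveI := Fact.mk Nat.prime_two
  have P : Sylow 2 G := default
  have hP := syl_top Nat.prime_two P
  have h3 : 0 < ∏ r ∈ π, r ^ (Nat.card G).factorization r :=
    Finset.prod_pos fun r hr => pow_pos (hπ r hr).pos _
  have h1 := npc_two P (Nat.lt_of_mul_lt_mul_right (a := ∏ r ∈ π, r ^ (Nat.card G).factorization r)
    (by nlinarith [Nat.mul_lt_mul_of_pos_right hk (card_pos' (P : Subgroup G)), kpi_le π hπ h2 P]))
  have h4 := (hasPC_iff Nat.prime_two).2 (PRes.hasNPC_top_iff.2 h1)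
  have hs : Group.IsSolvable (⊤ : Subgroup G) := h4.sup_syl hP ▸ solv_sup
    (hP.pi.isSolvable Nat.prime_two) (S0205.result (Nat.odd_iff.2 (Nat.two_dvd_ne_zero.1
      ((isPi_compl_iff Nat.prime_two).1 (core_pi _ _))))) (le_top.trans (le_norm_core _ _))
  have hD : DP π G := dp_solv (Group.isSolvable_of_surjective (f := (⊤ : Subgroup G).subtype)
    fun x => ⟨⟨x, trivial⟩, rfl⟩)
  have key : ∀ K : Subgroup G, IsPi π K → ∃ H, K ≤ H ∧ IsPi π H ∧ (∀ K, IsPi π K → ∃ g, cj g K ≤ H) ∧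
      ♯H < 2 * H7Cls.kpi π G := fun K hK =>
    let ⟨H, h, h'⟩ := hall_superset hs hK le_top
    ⟨H, h', h.pi, fun K hK => (h.conj_le hs hK le_top).imp fun _ => And.right,
      (Hall.card_eq_prod π hπ h).trans_lt hk⟩
  have key2 : ∀ K : Subgroup G, IsPi π K → ∀ y t : G, PiNat {2}ᶜ (orderOf y) →
      (orderOf t).Coprime (orderOf y) → t ∈ K → y ∈ 𝓝(K) → y * t = t * y := fun K hK y t a b c d =>
    let ⟨H, h5, h6, h7, h8⟩ := key K hK
    comm_of_cop hD h6 h7 h8 (Nat.coprime_two_right.1 ((piNat_compl_iff_coprime Nat.prime_two).1 a)) b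
      fun i => h5 (conj_mem_of_mem_norm (pow_mem d i) c)
  have hN := exists_compl (π := π) (G := G) fun q hq h => by
    haveI := Fact.mk hq
    obtain rfl | h5 := eq_or_ne q 2
    · exact h1
    refine Hyperfocal.hasNPC_iff_forall_pgroup.2 fun Q hQ g hg hc => ?_
    have hQ' := isPi_of_isPGroup hq hQ
    have hQπ : IsPi π Q := hQ'.mono (Set.singleton_subset_iff.2 h)
    rw [← constt_mul_compl {2} g]
    refine mul_mem (fun t ht => ?_) fun t ht => (key2 Q hQπ _ t (constt_elt _ g) ((hQ'.orderOf ht).coprime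
      (((piNat_compl_iff_coprime hq).2 hc).of_dvd (orderOf_dvd_of_mem_zpowers
        (constt_mem_zpowers _ _)))) ht (constt_mem _ hg)).symm
    have h6 : PiNat {2}ᶜ (orderOf t) := (hQ'.orderOf ht).mono (Set.singleton_subset_iff.2 h5)
    exact key2 (Q ⊔ zpowers (constt {2} g)) (hQπ.sup' ((isPi_zpowers.2 (constt_elt _ g)).mono
      (Set.singleton_subset_iff.2 h2)) (zpowers_le.2 (constt_mem _ hg))) t _ h6
      (PiNat.coprime (constt_elt _ g) h6) (mem_sup_right (mem_zpowers _))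
      (le_normalizer (mem_sup_left ht))
  haveI : (𝓞((π : Set ℕ)ᶜ, (⊤ : Subgroup G))).Normal :=
    normalizer_eq_top_iff.1 (top_le_iff.1 (le_norm_core _ _))
  have hN' := hall_top_iff.1 hN
  refine ⟨⟨_, this, hN'.1, fun r hr hd => by_contra fun h => hN'.2 r hr h hd⟩, ?_⟩
  obtain ⟨K, hK⟩ := hall_exists ((π : Set ℕ) \ {2}) hs
  obtain ⟨H, h5, h6, h7, h8⟩ := key K (hK.pi.mono Set.sdiff_subset)
  exact ⟨K, hall_top_iff.1 hK, comm_of_odd hD h6 h7 h8 h5 (Nat.odd_iff.2 (Nat.two_dvd_ne_zero.1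
    fun h => (hK.pi 2 Nat.prime_two h).2 rfl))⟩

end Cfsg.Agent.S3898
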