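import Cfsg.Statements.S3899
import Cfsg.Agent.Lib.Solv.KP

set_option autoImplicit false
open Cfsg

namespace Cfsg.Agent.S3899

open Subgroup CA CA.BG CA.KP

/-- Let π be a finite non-empty set of odd primes with smallest member p and G a finite group. Write k_π(G) for the number of conjugacy classes of G consisting of π-elements (elements all of whose order's prime divisors lie in π) and |G|_π for the π-part of the order of G. If k_π(G) > (p + 1)|G|_π/(2p), then G has a normal π-complement (a normal subgroup of order prime to π whose index is a π-number) and an abelian Hall π-subgroup. -/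
theorem result {G : Type*} [Group G] [Finite G] (π : Finset ℕ) (hπ : ∀ r ∈ π, r.Prime) (h2 : 2 ∉ π) (p : ℕ) (hp : p ∈ π)
    (hmin : ∀ r ∈ π, p ≤ r) (hk : (p + 1) * π.prod (fun r => r ^ (Nat.card G).factorization r) < 2 * p * Nat.card {c : ConjClasses G // ∀ x ∈ c.carrier, ∀ r : ℕ, r.Prime → r ∣ orderOf x → r ∈ π}) :
    (∃ N : Subgroup G, N.Normal ∧ (∀ r : ℕ, r.Prime → r ∣ Nat.card ↥N → r ∉ π) ∧ ∀ r : ℕ, r.Prime → r ∣ N.index → r ∈ π) ∧ ∃ H : Subgroup G, Cfsg.IsPiHall (↑π : Set ℕ) H ∧ IsMulCommutative ↥H := by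
  replace hk := hk.trans_eq (congrArg (2 * p * ·) (kpi_eq (π : Set ℕ)))
  have key : ∀ q ∈ π, ∀ P : Sylow q G, HasNormalPComplement q G ∧
      IsMulCommutative (P : Subgroup G) := fun q hq P => by
    haveI := Fact.mk (hπ q hq)
    have h1 := kpi_le π hπ hq P
    have h3 : 0 < ∏ r ∈ π, r ^ (Nat.card G).factorization r :=
      Finset.prod_pos fun r hr => pow_pos (hπ r hr).pos _
    have h4 : (p + 1) * ♯(P : Subgroup G) < 2 * p * H7Cls.kpi {q} G :=
      Nat.lt_of_mul_lt_mul_right (a := ∏ r ∈ π, r ^ (Nat.card G).factorization r) (by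
        nlinarith [Nat.mul_lt_mul_of_pos_right hk (card_pos' (P : Subgroup G)),
          Nat.mul_le_mul_left (2 * p) h1])
    have h5 : (q + 1) * ♯(P : Subgroup G) < 2 * q * H7Cls.kpi {q} G :=
      Nat.lt_of_mul_lt_mul_left (a := p) (by
        nlinarith [Nat.mul_lt_mul_of_pos_left h4 (hπ q hq).pos,
          Nat.mul_le_mul_right ♯(P : Subgroup G) (hmin q hq)])
    exact ⟨PRes.hasNPC_of_normalizer_le_centralizer P (norm_le_cent P h5),
      PGBasic.isMulCommutative_iff.2 fun a ha b hb => (norm_le_cent P h5 (le_normalizer hb) a ha)⟩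
  have hN := exists_compl (π := π) (G := G) fun q hq h => by
    haveI := Fact.mk hq
    exact (key q h default).1
  haveI : (𝓞((π : Set ℕ)ᶜ, (⊤ : Subgroup G))).Normal :=
    normalizer_eq_top_iff.1 (top_le_iff.1 (le_norm_core _ _))
  have hN' := hall_top_iff.1 hN
  refine ⟨⟨_, this, hN'.1, fun r hr hd => by_contra fun h => hN'.2 r hr h hd⟩, ?_⟩
  obtain ⟨H, hH⟩ := exists_right_complement'_of_coprime (N := 𝓞((π : Set ℕ)ᶜ, (⊤ : Subgroup G)))
    (Nat.coprime_of_dvd fun r hr h1 h2 => hN'.2 r hr (hN'.1 r hr h1) h2)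
  have h1 : Hall π H ⊤ := by
    simpa using SDProd.hall_compl ⟨le_top.trans (le_norm_core _ _), disjoint_iff.1 hH.disjoint,
      hH.sup_eq_top⟩ hN
  refine ⟨H, hall_top_iff.1 h1, comm_iff_der_eq_bot.2 (by_contra fun h => ?_)⟩
  obtain ⟨q, hq, hd⟩ := exists_prime_dvd_card h
  haveI := Fact.mk hq
  obtain ⟨Q, hQ⟩ := syl_exists hq ⁅H, H⁆
  obtain ⟨P, hP⟩ := (hQ.pi.isPGroup hq).exists_le_sylow
  obtain ⟨h2, h3⟩ := key q (h1.pi q hq (hd.trans (card_dvd_of_le (der_le H)))) P
  have h4 := ((hasPC_iff hq).2 (PRes.hasNPC_top_iff.2 h2)).der_inf (syl_top hq P)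
  rw [comm_iff_der_eq_bot.1 h3] at h4
  exact hQ.ne_bot hq rfl hd (le_bot_iff.1 (h4 ▸ le_inf (hQ.le.trans (commutator_mono le_top le_top)) hP))

end Cfsg.Agent.S3899
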