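import Cfsg.Statements.S3900
import Cfsg.Agent.Lib.Grp.H2Gam2
import Cfsg.Agent.Lib.Grp.NPC2

set_option autoImplicit false
open Cfsg

namespace Cfsg.Agent.S3900

/-- A criterion of Baumslag–Wiegold type for a term of the lower central series. Let G be a finite group and k ≥ 0; call an element a left-normed commutator value of length k + 1 when it has the form [[…[x₀, x₁], …], x_k] with k + 1 entries (for k = 0, any element), where [a, b] = aba⁻¹b⁻¹. Then the (k+1)-st term γ_{k+1}(G) of the lower central series (γ₁(G) = G) is nilpotent if and only if for every two such values x, y of coprime orders, either every prime dividing o(x)·o(y) divides o(xy), or o(x)·o(y) ≤ o(xy). -/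
theorem result {G : Type*} [Group G] [Finite G] (k : ℕ) :
    Group.IsNilpotent ↥((⊤ : Subgroup G).lowerCentralSeries k) ↔
      ∀ x y : G, (∃ f : Fin (k + 1) → G, x = ((List.ofFn f).tail).foldl (fun a b => a * b * a⁻¹ * b⁻¹) (f 0)) → (∃ f : Fin (k + 1) → G, y = ((List.ofFn f).tail).foldl (fun a b => a * b * a⁻¹ * b⁻¹) (f 0)) → (orderOf x).Coprime (orderOf y) →
        (∀ r : ℕ, r.Prime → r ∣ orderOf x * orderOf y → r ∣ orderOf (x * y)) ∨ orderOf x * orderOf y ≤ orderOf (x * y) := by
  constructor
  · intro hN x y hx hy hc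
    have h1 := (((CA.H2Gam.vi_iff k x).2 hx).mono (R' := ((⊤ : Subgroup G) : Set G)) (A' := ((⊤ : Subgroup G) : Set G))
      (fun _ _ => trivial) (fun _ _ => trivial)).mem_lcs
    have h2 := (((CA.H2Gam.vi_iff k y).2 hy).mono (R' := ((⊤ : Subgroup G) : Set G)) (A' := ((⊤ : Subgroup G) : Set G))
      (fun _ _ => trivial) (fun _ _ => trivial)).mem_lcs
    have h3 : Commute x y := CA.NPC2.commute_of_coprime_of_isNilpotent hN h1 h2 hc
    exact Or.inr (h3.orderOf_mul_eq_mul_orderOf_of_coprime hc).ge
  · intro h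
    exact CA.H2Gam.L.main k _ G rfl (CA.H2Gam.L.of_hyp fun x y hx hy =>
      h x y ((CA.H2Gam.vi_iff k x).1 hx) ((CA.H2Gam.vi_iff k y).1 hy))

end Cfsg.Agent.S3900
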