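import Cfsg.Statements.S3901
import Cfsg.Agent.Lib.Grp.Kegel
import Cfsg.Agent.Lib.Char.CharBurn
import Cfsg.Agent.S0205

set_option autoImplicit false
open Cfsg

namespace Cfsg.Agent.S3901

universe u v

lemma pp {a b : ℕ} (h : IsPrimePow (a * b)) (hc : a.Coprime b) : a = 1 ∨ b = 1 := by
  have h0 := h.ne_zero
  have ha : 0 < a := Nat.pos_of_ne_zero (left_ne_zero_of_mul h0)
  have hb : 0 < b := Nat.pos_of_ne_zero (right_ne_zero_of_mul h0)
  rcases (hc.isPrimePow_dvd_mul h).mp dvd_rfl with h1 | h1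
  · right
    have := Nat.le_of_dvd ha h1
    nlinarith
  · left
    have := Nat.le_of_dvd hb h1
    nlinarith

lemma star {Q : Type v} [Group Q] [Finite Q] (hQ : ¬ Group.IsSolvable Q) :
    ∀ (n : ℕ) (G : Type u) [Group G] [Finite G], Nat.card G = n → ∀ f : G →* Q,
      Function.Surjective f → (∀ x, f x ≠ 1 → IsPrimePow (orderOf x)) → IsPGroup 2 f.ker := by
  intro n
  induction n using Nat.strong_induction_on with
  | _ n ih =>
  intro G _ _ hn f hf h
  by_contra hne
  obtain ⟨p, hp, hp2, hpN⟩ := (CA.Kegel.exists_odd_prime_or (G := f.ker)).resolve_left hne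
  haveI := Fact.mk hp
  -- quotient step
  have hB : ∀ (V : Subgroup G) [V.Normal], V ≤ f.ker → V ≠ ⊥ → ∀ x ∈ f.ker, ∃ k : ℕ, x ^ 2 ^ k ∈ V := by
    intro V _ hV hVb x hx
    have hlt : Nat.card (G ⧸ V) < n := by
      rw [← hn, ← V.card_mul_index, ← Subgroup.index_eq_card]
      have h1 : 1 < Nat.card V := (Subgroup.one_lt_card_iff_ne_bot V).mpr hVb
      have h2 : 0 < V.index := Nat.pos_of_ne_zero Subgroup.index_ne_zero_of_finite
      nlinarith
    have := ih _ hlt (G ⧸ V) rfl (QuotientGroup.lift V f hV)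
      (fun q => by obtain ⟨g, rfl⟩ := hf q; exact ⟨g, rfl⟩) (fun y hy => by
        obtain ⟨g, rfl⟩ := QuotientGroup.mk_surjective y
        refine (h g hy).dvd (orderOf_map_dvd (QuotientGroup.mk' V) g) ?_
        intro h1
        rw [orderOf_eq_one_iff] at h1
        exact hy (by rw [h1, map_one]))
    obtain ⟨k, hk⟩ := this ⟨(x : G ⧸ V), hx⟩
    refine ⟨k, (QuotientGroup.eq_one_iff _).mp ?_⟩
    simpa using congrArg Subtype.val hk
  obtain ⟨P⟩ : Nonempty (Sylow p f.ker) := inferInstance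
  have hPp : IsPGroup p ((P : Subgroup f.ker).map f.ker.subtype) := P.isPGroup'.map _
  have hPb : (P : Subgroup f.ker).map f.ker.subtype ≠ ⊥ := by
    rw [Ne, Subgroup.map_eq_bot_iff_of_injective _ f.ker.subtype_injective]
    exact P.ne_bot_of_dvd_card hpN
  have hPn : ((P : Subgroup f.ker).map f.ker.subtype).Normal := by
    by_contra hnn
    set H := Subgroup.normalizer (((P : Subgroup f.ker).map f.ker.subtype : Subgroup G) : Set G)
      with hH
    have hHt : H ≠ ⊤ := fun ht => hnn (Subgroup.normalizer_eq_top_iff.mp ht)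
    have hlt : Nat.card H < n := by
      rw [← hn, ← H.card_mul_index]
      have h1 : 1 < H.index := Subgroup.one_lt_index_of_ne_top hHt
      have h2 : 0 < Nat.card H := Nat.card_pos
      nlinarith
    have hfr : H ⊔ f.ker = ⊤ := P.normalizer_sup_eq_top
    have h2 := ih _ hlt H rfl (f.comp H.subtype) (fun q => by
        obtain ⟨g, rfl⟩ := hf q
        have hg : g ∈ ((H ⊔ f.ker : Subgroup G) : Set G) := by rw [hfr]; trivial
        rw [Subgroup.mul_normal] at hg
        obtain ⟨a, ha, b, hb, rfl⟩ := hg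
        exact ⟨⟨a, ha⟩, by simp [(MonoidHom.mem_ker).mp hb]⟩)
      (fun x hx => by rw [← Subgroup.orderOf_coe]; exact h x hx)
    obtain ⟨⟨x, hx⟩, hx1⟩ := Subgroup.ne_bot_iff_exists_ne_one.mp hPb
    obtain ⟨j, hj⟩ := hPp ⟨x, hx⟩
    obtain ⟨k, hk⟩ := h2 ⟨⟨x, Subgroup.le_normalizer hx⟩,
      (show x ∈ f.ker from Subgroup.map_subtype_le _ hx)⟩
    have e1 : x ^ p ^ j = 1 := by simpa using congrArg Subtype.val hj
    have e2 : x ^ 2 ^ k = 1 := by simpa using congrArg (fun z => (z.1.1 : G)) hk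
    have hc : (p ^ j).Coprime (2 ^ k) :=
      Nat.Coprime.pow _ _ ((Nat.coprime_primes hp Nat.prime_two).mpr hp2)
    exact hx1 (Subtype.ext (orderOf_eq_one_iff.mp (Nat.eq_one_of_dvd_coprimes hc
      (orderOf_dvd_of_pow_eq_one e1) (orderOf_dvd_of_pow_eq_one e2))))
  obtain ⟨r, hr, hrQ, hr2, hrp⟩ : ∃ r : ℕ, r.Prime ∧ r ∣ Nat.card Q ∧ r ≠ 2 ∧ r ≠ p := by
    by_contra hc
    apply hQ
    refine CChar.CharBurn.isSolvable_of_primes (p := 2) (q := p) fun r hr hd => ?_
    by_contra h2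
    exact hc ⟨r, hr, hd, fun h => h2 (Or.inl h), fun h => h2 (Or.inr h)⟩
  haveI := Fact.mk hr
  obtain ⟨y, hy⟩ := exists_prime_orderOf_dvd_card' (G := G) r
    (hrQ.trans (Subgroup.card_dvd_of_surjective f hf))
  have hco : ∀ x ∈ f.ker, r.Coprime (orderOf x) := by
    intro x hx
    obtain ⟨k, hk⟩ := hB _ (Subgroup.map_subtype_le _) hPb x hx
    obtain ⟨j, hj⟩ := hPp ⟨_, hk⟩
    have e1 : x ^ (2 ^ k * p ^ j) = 1 := by
      rw [pow_mul]; simpa using congrArg Subtype.val hj
    refine Nat.Coprime.coprime_dvd_right (orderOf_dvd_of_pow_eq_one e1) ?_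
    exact Nat.Coprime.mul_right (Nat.Coprime.pow_right _ ((Nat.coprime_primes hr Nat.prime_two).mpr hr2))
      (Nat.Coprime.pow_right _ ((Nat.coprime_primes hr hp).mpr hrp))
  have hyN : y ∉ f.ker := fun hh => hr.one_lt.ne' (by simpa [hy] using hco y hh)
  have hfix : ∀ a, a ∉ f.ker → ∀ c ∈ f.ker, Commute a c → (orderOf a).Coprime (orderOf c) → c = 1 := by
    intro a ha c hc hac hcop
    have h1 := h (a * c) (by rw [map_mul, (MonoidHom.mem_ker).mp hc, mul_one]; exact ha)
    rw [hac.orderOf_mul_eq_mul_orderOf_of_coprime hcop] at h1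
    rcases pp h1 hcop with h2 | h2
    · exact absurd (by rw [orderOf_eq_one_iff.mp h2]; exact one_mem _) ha
    · exact orderOf_eq_one_iff.mp h2
  haveI hnil : Group.IsNilpotent f.ker :=
    CA.Kegel.isNilpotent_of_fpf (a := y) (Subgroup.le_normalizer_of_normal (Subgroup.mem_top y)) hr
      (hy ▸ pow_orderOf_eq_one y) (by
        rw [eq_bot_iff]
        rintro c ⟨hc1, hc2⟩
        have : Commute y c := (Subgroup.mem_centralizer_iff.mp hc2) y rfl
        exact hfix y hyN c hc1 this (hy ▸ hco c hc1))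
  obtain ⟨R⟩ : Nonempty (Sylow 2 f.ker) := inferInstance
  haveI hRn : (R : Subgroup f.ker).Normal := inferInstance
  haveI := R.characteristic_of_normal hRn
  have hRb : (R : Subgroup f.ker).map f.ker.subtype = ⊥ := by
    by_contra hRb
    apply hne
    rintro ⟨x, hx⟩
    obtain ⟨k, hk⟩ := hB _ (Subgroup.map_subtype_le _) hRb x hx
    obtain ⟨j, hj⟩ := (R.isPGroup'.map f.ker.subtype) ⟨_, hk⟩
    refine ⟨k + j, Subtype.ext ?_⟩
    simpa [pow_add, pow_mul] using congrArg Subtype.val hj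
  have hodd : ¬ 2 ∣ Nat.card f.ker := fun h2 => R.ne_bot_of_dvd_card h2
    ((Subgroup.map_eq_bot_iff_of_injective _ f.ker.subtype_injective).mp hRb)
  have hG2 : 2 ∣ Nat.card G := by
    by_contra h2
    haveI := Cfsg.Agent.S0205.result (G := G) (Nat.odd_iff.mpr (by omega))
    exact hQ (Group.isSolvable_of_surjective hf)
  obtain ⟨t, ht⟩ := exists_prime_orderOf_dvd_card' (G := G) 2 hG2
  have hto : ∀ c ∈ f.ker, (2 : ℕ).Coprime (orderOf c) := fun c hc =>
    (Nat.Prime.coprime_iff_not_dvd Nat.prime_two).mpr fun h2 =>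
      hodd (h2.trans (Subgroup.orderOf_dvd_natCard _ hc))
  have htN : t ∉ f.ker := fun hh => by simpa [ht] using hto t hh
  let φ : G →* MulAut f.ker := MulAut.conjNormal
  have hφ : ∀ a, a ∉ f.ker → (∀ c ∈ f.ker, (orderOf a).Coprime (orderOf c)) →
      ∀ c, φ a c = c → c = 1 := by
    intro a ha hco c hc
    have e : a * c * a⁻¹ = c := by simpa [φ] using congrArg Subtype.val hc
    exact Subtype.ext (hfix a ha c c.2 (mul_inv_eq_iff_eq_mul.mp e) (hco c c.2))
  haveI : Nontrivial f.ker := by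
    rw [← Finite.one_lt_card_iff_nontrivial]
    exact lt_of_lt_of_le hp.one_lt (Nat.le_of_dvd Nat.card_pos hpN)
  have hord : ∀ (a : G) (q : ℕ), q.Prime → orderOf a = q → (∀ c, φ a c = c → c = 1) →
      orderOf (φ a) = q := by
    intro a q hq ha hc
    refine ((Nat.dvd_prime hq).mp (ha ▸ orderOf_map_dvd φ a)).resolve_left fun h1 => ?_
    obtain ⟨c, hc1⟩ := exists_ne (1 : f.ker)
    exact hc1 (hc c (by rw [orderOf_eq_one_iff.mp h1]; rfl))
  have hφt := hφ t htN (fun c hc => ht ▸ hto c hc)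
  have hφy := hφ y hyN (fun c hc => hy ▸ hco c hc)
  have hinv : ∀ c, φ t c = c⁻¹ := by
    have h1 : MonoidHom.FixedPointFree (φ t).toMonoidHom := hφt
    have h2 := h1.coe_eq_inv_of_involutive (fun c => by
      change (φ t * φ t) c = c
      rw [← map_mul, ← pow_two, ← ht, pow_orderOf_eq_one, map_one]; rfl)
    exact fun c => congrFun h2 c
  have hcm : Commute (φ t) (φ y) := by
    ext c
    simp [hinv]
  have hc2 : (orderOf (φ t)).Coprime (orderOf (φ y)) := by
    rw [hord t 2 Nat.prime_two ht hφt, hord y r hr hy hφy]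
    exact (Nat.coprime_primes Nat.prime_two hr).mpr hr2.symm
  have h5 := hcm.orderOf_mul_eq_mul_orderOf_of_coprime hc2
  have h6 : f (t * y) ≠ 1 := by
    intro h1
    rw [map_mul, mul_eq_one_iff_eq_inv] at h1
    apply htN
    have a1 : orderOf (f t) ∣ 2 := ht ▸ orderOf_map_dvd f t
    have a2 : orderOf (f t) ∣ r := by rw [h1, orderOf_inv, ← hy]; exact orderOf_map_dvd f y
    exact orderOf_eq_one_iff.mp (Nat.eq_one_of_dvd_coprimes
      ((Nat.coprime_primes Nat.prime_two hr).mpr hr2.symm) a1 a2)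
  have h7 := orderOf_map_dvd φ (t * y)
  rw [map_mul, h5] at h7
  rw [hord t 2 Nat.prime_two ht hφt, hord y r hr hy hφy] at h7 hc2
  have h8 := (h _ h6).dvd h7 (by have := hr.two_le; omega)
  rcases pp h8 hc2 with h9 | h9
  · omega
  · exact hr.one_lt.ne' h9

/-- Let N be a non-trivial normal subgroup of the finite group G such that every element of G outside N has prime power order. If N is not solvable, then G/N is solvable. -/
theorem result {G : Type*} [Group G] [Finite G] (N : Subgroup G) [N.Normal] (hN : N ≠ ⊥) (hns : ¬ Group.IsSolvable ↥N)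
    (h : ∀ x : G, x ∉ N → IsPrimePow (orderOf x)) : Group.IsSolvable (G ⧸ N) := by
  by_contra hQ
  have h2 := star hQ _ G rfl (QuotientGroup.mk' N) (QuotientGroup.mk'_surjective N)
    (fun x hx => h x fun hh => hx ((QuotientGroup.eq_one_iff x).mpr hh))
  rw [QuotientGroup.ker_mk'] at h2
  haveI := h2.isNilpotent
  exact hns inferInstance

end Cfsg.Agent.S3901
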