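import Cfsg.Statements.S3904
import Cfsg.Agent.Lib.Solv.MaxC

set_option autoImplicit false
open Cfsg

namespace Cfsg.Agent.S3904

open Subgroup CA CA.BG

/-- Let G be a non-abelian finite group in which the centralizer of every non-central element is a maximal subgroup. Then G/Z(G) is either an elementary abelian p-group for some prime p, or a minimal non-abelian group (non-abelian with all proper subgroups abelian) of order p^a · q for distinct primes p, q with a normal Sylow p-subgroup. -/
theorem result {G : Type*} [Group G] [Finite G] (hna : ¬ IsMulCommutative G)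
    (h : ∀ x : G, x ∉ Subgroup.center G → IsCoatom (Subgroup.centralizer ({x} : Set G))) :
    (∃ p : ℕ, p.Prime ∧ Cfsg.IsElementaryAbelian p (⊤ : Subgroup (G ⧸ Subgroup.center G))) ∨
    (¬ IsMulCommutative (G ⧸ Subgroup.center G) ∧ (∀ H : Subgroup (G ⧸ Subgroup.center G), H ≠ ⊤ → IsMulCommutative ↥H) ∧
      ∃ p q a : ℕ, p.Prime ∧ q.Prime ∧ p ≠ q ∧ Nat.card (G ⧸ Subgroup.center G) = p ^ a * q ∧
        ∀ P : Subgroup (G ⧸ Subgroup.center G), Nat.card ↥P = p ^ a → P.Normal) := by
  refine (MaxC.main_top h).imp_right ?_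
  rintro ⟨K, p, q, y, hp, hq, hpq, _, h1, h2, h3, h4, h5, hm⟩
  have h6 : ♯(zpowers y) = q := by rw [Nat.card_zpowers, h3]
  have hK := isPi_of_elem hp h2
  have h7 : SDProd K (zpowers y) ⊤ := ⟨le_normalizer_of_normal, disjoint_iff.1 h5.disjoint, h4⟩
  have h8 : K.relIndex ⊤ = q := h7.relIndex.trans h6
  obtain ⟨a, ha⟩ := hK.exists_card hp
  refine ⟨fun hc => ?_, fun H hH => ?_, p, q, a, hp, hq, hpq, ?_, fun P hP => ?_⟩
  · obtain ⟨k, hk, h9⟩ := exists_ne_one h1
    exact h9 (h5.eq_one (mem_zpowers y) (fun e => hq.ne_one (by rw [← h3, e, orderOf_one])) hk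
      (hc.is_comm.comm _ _))
  · by_cases h9 : H ≤ K
    · exact comm_of_le h2.1 h9
    have h10 : K.relIndex H = q := ((Nat.dvd_prime hq).1 (h8 ▸ relIndex_dvd_of_norm
      le_normalizer_of_normal le_top)).resolve_left fun e => h9 (relIndex_eq_one.1 e)
    have h11 : H ⊔ K = ⊤ := eq_of_le_of_card_eq le_top (by
      rw [← card_mul_relIndex (le_sup_right : K ≤ H ⊔ K), relIndex_sup_norm le_normalizer_of_normal,
        h10, ← h8, card_mul_relIndex le_top])
    have h12 := (hm (K ⊓ H) inf_le_left (MaxC.normal_of_top (h11.ge.trans (sup_le (norm_inf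
      le_normalizer_of_normal le_normalizer) (norm_of_comm h2.1 inf_le_left))))).resolve_left
      fun e => hH (by rw [← h11, sup_eq_left.2 (e.ge.trans inf_le_right)])
    have h13 := card_inf_mul_relIndex K H
    rw [h12, card_bot, one_mul, h10] at h13
    exact comm_of_cyclic (isCyclic_of_prime (h13 ▸ hq))
  · rw [← card_top, ← card_mul_relIndex (le_top : K ≤ ⊤), ha, h8]
  · have h9 : Syl p K ⊤ := Syl.mk'' hp le_top hK (h8 ▸ fun e =>
      hpq ((Nat.prime_dvd_prime_iff_eq hp hq).1 e))
    rwa [eq_of_le_of_card_eq (h9.le_of_normal le_normalizer_of_normal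
      (fun r a b => piNat_pow hp _ r a (hP ▸ b)) le_top) (hP.trans ha.symm)]

end Cfsg.Agent.S3904
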