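import Cfsg.Statements.S3905
import Cfsg.Agent.Lib.Solv.MaxC

set_option autoImplicit false
open Cfsg

namespace Cfsg.Agent.S3905

open Subgroup CA CA.BG

/-- Let N be a normal subgroup of the finite group G such that for every element x of N outside the center of N the centralizer C_G(x) is a maximal subgroup of G. Then N/Z(N) is either an elementary abelian p-group for some prime p, or a Frobenius group whose kernel is an elementary abelian normal subgroup and whose complement has prime order. -/
theorem result {G : Type*} [Group G] [Finite G] (N : Subgroup G) [N.Normal]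
    (h : ∀ x : G, x ∈ N → x ∉ Subgroup.centralizer (N : Set G) → IsCoatom (Subgroup.centralizer ({x} : Set G))) :
    (∃ p : ℕ, p.Prime ∧ Cfsg.IsElementaryAbelian p (⊤ : Subgroup (↥N ⧸ Subgroup.center ↥N))) ∨
    (∃ (Q K : Subgroup (↥N ⧸ Subgroup.center ↥N)) (p : ℕ), p.Prime ∧ Cfsg.IsFrobeniusComplement Q ∧ (Nat.card ↥Q).Prime ∧
      K.Normal ∧ (K : Set (↥N ⧸ Subgroup.center ↥N)) = Cfsg.frobeniusKernel Q ∧ Cfsg.IsElementaryAbelian p K) := by
  refine (MaxC.main h (QuotientGroup.mk' (center N)) (QuotientGroup.mk'_surjective _)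
    (by rw [OQuo.mker_def, QuotientGroup.ker_mk', map_center])).imp_right ?_
  rintro ⟨K, p, q, y, hp, hq, -, _, h1, h2, h3, h4, h5, -⟩
  have h6 : (♯(zpowers y)).Prime := by rwa [Nat.card_zpowers, h3]
  exact ⟨_, K, p, hp, Frob2.isFrob_of_semireg h4 h1 (ne_bot_of_prime h6) h5, h6, ‹_›,
    (Frob2.kernel_eq_of_semireg h4 h5).symm, h2⟩

end Cfsg.Agent.S3905
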