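import Cfsg.Statements.S3908
import Cfsg.Agent.Lib.Loc.EqO1

set_option autoImplicit false
open Cfsg

namespace Cfsg.Agent.S3908

open Subgroup CA.BG CA.EqO

/-- Let G be a finite group in which any two abelian subgroups of the same order are conjugate. Then a Sylow 2-subgroup of G is cyclic, elementary abelian or generalized quaternion, and for an odd prime p a Sylow p-subgroup of G is cyclic or has exponent dividing p. -/
theorem result {G : Type*} [Group G] [Finite G] (hB : ∀ A B : Subgroup G, IsMulCommutative ↥A → IsMulCommutative ↥B → Nat.card ↥A = Nat.card ↥B → ∃ g : G, B = A.map (MulAut.conj g).toMonoidHom) :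
    (∀ P : Sylow 2 G, IsCyclic ↥(P : Subgroup G) ∨ Cfsg.IsElementaryAbelian 2 (P : Subgroup G) ∨ ∃ k : ℕ, Nonempty (↥(P : Subgroup G) ≃* QuaternionGroup (2 ^ k))) ∧
    ∀ (p : ℕ) [Fact p.Prime], p ≠ 2 → ∀ P : Sylow p G, IsCyclic ↥(P : Subgroup G) ∨ ∀ x ∈ (P : Subgroup G), x ^ p = 1 := by
  have h : BB G := hB
  refine ⟨fun P => ?_, fun p hp h2 P => ?_⟩
  · rcases (h.ap 2).tri Nat.prime_two (syl_top Nat.prime_two P).pi with h1 | h1 | h1
    · exact .inl h1
    · exact .inr (.inr h1.2)
    · exact .inr (.inl ⟨comm_of_exp2 h1, h1⟩)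
  · rcases (h.ap p).tri hp.out (syl_top hp.out P).pi with h1 | h1 | h1
    · exact .inl h1
    · exact absurd h1.1 h2
    · exact .inr h1

end Cfsg.Agent.S3908
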