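import Cfsg.Statements.S3909
import Cfsg.Agent.Lib.Odd.BGRank

set_option autoImplicit false
open Cfsg

namespace Cfsg.Agent.S3909

open Subgroup CA CA.BG

/-- Let G be a finite group in which any two abelian subgroups of the same order are conjugate. Let M be a normal subgroup of G. If M contains an element of the same order as a ∈ G, then a ∈ M; and if M is elementary abelian of order p^t with p prime and t ≥ 2, then M is the unique Sylow p-subgroup of G. -/
theorem result {G : Type*} [Group G] [Finite G] (hB : ∀ A B : Subgroup G, IsMulCommutative ↥A → IsMulCommutative ↥B → Nat.card ↥A = Nat.card ↥B → ∃ g : G, B = A.map (MulAut.conj g).toMonoidHom) (M : Subgroup G) [M.Normal] :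
    (∀ a : G, (∃ m ∈ M, orderOf m = orderOf a) → a ∈ M) ∧
    ∀ (p t : ℕ) [Fact p.Prime], 2 ≤ t → Nat.card ↥M = p ^ t → Cfsg.IsElementaryAbelian p M → ∀ P : Sylow p G, (P : Subgroup G) = M := by
  have key : ∀ (a : G) (B : Subgroup G), B ≤ M → IsMulCommutative B → ♯B = orderOf a → a ∈ M := by
    intro a B h1 h2 h3
    obtain ⟨g, hg⟩ := hB B (zpowers a) h2 inferInstance (by rw [h3, Nat.card_zpowers])
    have : cj g B ≤ M := (cj_mono g h1).trans (cj_of_mem_norm (le_normalizer_of_normal (mem_top g))).le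
    exact this (hg.le (mem_zpowers a))
  refine ⟨fun a ⟨m, hm, h⟩ => key a _ (zpowers_le.2 hm) inferInstance (by rw [Nat.card_zpowers, h]),
    fun p t hp ht h1 h2 P => ?_⟩
  have h3 := isPi_of_elem hp.out h2
  by_contra h
  obtain ⟨x, -, h4, -, h5⟩ := PGBasic.exists_mem_normalizer P.isPGroup' (lt_of_le_of_ne
    ((h3.isPGroup hp.out).le_sylow_of_normal P) (Ne.symm h))
  obtain ⟨k, h6, h7⟩ := (Nat.dvd_prime_pow hp.out (m := 2)).1 (orderOf_dvd_of_pow_eq_one
    (x := x) (by rw [sq, pow_mul, h2.2 _ h5]))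
  obtain ⟨B, h8, h9⟩ := exists_card_pow (j := k) hp.out h3
    (h1 ▸ Nat.pow_le_pow_right hp.out.pos (by omega))
  exact h4 (key x B h8 (comm_of_le h2.1 h8) (h9.trans h7.symm))

end Cfsg.Agent.S3909
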