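import Cfsg.Statements.S3910
import Cfsg.Agent.Lib.Odd.BG4x2

set_option autoImplicit false
open Cfsg

namespace Cfsg.Agent.S3910

open Subgroup CA CA.BG

/-- A finite nilpotent group in which any two abelian subgroups of the same order are conjugate is cyclic. -/
theorem result {G : Type*} [Group G] [Finite G] (hB : ∀ A B : Subgroup G, IsMulCommutative ↥A → IsMulCommutative ↥B → Nat.card ↥A = Nat.card ↥B → ∃ g : G, B = A.map (MulAut.conj g).toMonoidHom) (hnil : Group.IsNilpotent G) : IsCyclic G := by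
  have hN : Group.IsNilpotent (⊤ : Subgroup G) := inferInstance
  refine isCyclic_of_surjective _ (topEquiv.surjective (M := (⊤ : Subgroup G))) (hH := ?_)
  refine cyc_of_nil_syl hN fun p hp _ => ⟨_, nil_hall_core {p} hN, ?_⟩
  set P := 𝓞({p}, (⊤ : Subgroup G))
  have hP : IsPi {p} P := core_pi _ _
  obtain ⟨A, -, hA⟩ := BG4.exists_scn (hP.isNilpotent hp) bot_le (top_le_norm _ _) comm_bot
  have hAc := BG4.scn_comm hA
  have key : ∀ j, p ^ j ≤ ♯A → ∃ Q ≤ A, ∀ B : Subgroup G, IsMulCommutative B → ♯B = p ^ j →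
      B = Q := fun j hj => by
    obtain ⟨Q, h1, h2, h3⟩ := normal_pgroup hp hP hA.1 hA.2.1 hj
    refine ⟨Q, h1, fun B h4 h5 => ?_⟩
    obtain ⟨g, hg⟩ := hB Q B (comm_of_le hAc h1) h4 (h3.trans h5.symm)
    refine hg.trans (cj_of_mem_norm ((nil_core_sup {p} hN).ge.trans (sup_le h2 (norm_of_cent
      ((cent_symm (core_cent_core _ _)).trans (cent_anti (h1.trans hA.1))))) (mem_top g)))
  have h1 : P ≤ A := fun x hx => by
    have hx' := hP.of_le (zpowers_le.2 hx)
    obtain ⟨j, hj⟩ := hx'.exists_card hp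
    by_cases h : p ^ j ≤ ♯A
    · obtain ⟨Q, h1, h2⟩ := key j h
      exact h1 ((h2 _ inferInstance hj).le (mem_zpowers x))
    · obtain ⟨a, ha⟩ := (hP.of_le hA.1).exists_card hp
      obtain ⟨Q, h1, h2⟩ := key a ha.ge
      obtain ⟨C, h3, h4⟩ := exists_card_pow (j := a) hp hx' (by omega)
      rw [h2 C (comm_of_le inferInstance h3) h4, ← h2 A hAc ha] at h3
      exact BG4.scn_mem hA hx (cent_anti h3 (comm_iff_le_cent.1 inferInstance (mem_zpowers x)))
  by_contra h
  obtain ⟨E, h2, hE⟩ := prk_of_comm_not_cyc hp hP (comm_of_le hAc h1) h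
  obtain ⟨X, h3, hX⟩ := hE.exists_prime hp
  obtain ⟨Y, h4, hY, h5⟩ := hE.exists_ne hp hX
  obtain ⟨Q, -, h6⟩ := key 1 (by rw [pow_one, ← hX]; exact card_le_of_le' (h3.trans (h2.trans h1)))
  exact h5 ((h6 Y (comm_of_le hE.comm h4) (by rw [hY, pow_one])).trans
    (h6 X (comm_of_le hE.comm h3) (by rw [hX, pow_one])).symm)

end Cfsg.Agent.S3910
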