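import Cfsg.Statements.S3913
import Cfsg.Agent.Lib.Loc.EqAff
import Cfsg.Agent.S3909
import Cfsg.Agent.Lib.Odd.BG2

set_option autoImplicit false
open Cfsg

set_option linter.unusedVariables false
set_option linter.unusedSimpArgs false
set_option linter.style.haveILetI false

namespace Cfsg.Agent.S3913

open Subgroup CA.BG CA.BG4 CA.EqO CA.EqAff
open scoped commutatorElement

universe u

section
variable {G G' : Type*} [Group G] [Group G'] [Finite G] {p r : ℕ} {N R P Q D : Subgroup G} {f : G →* G'}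

theorem not_faith (hc : C1 p G) (hp : p.Prime) (hr : r.Prime) (hpr : p ≠ r) [N.Normal]
    (hN : IsElementaryAbelian p N) (hN1 : N ≠ ⊥) (hR : IsPi {r} R) (hRc : IsMulCommutative R)
    (hRn : ¬ IsCyclic R) (hn : (R ⊔ N).Normal) : r ∣ ♯(𝓒(N)) := by
  by_contra hd
  have hNp := isPi_of_elem hp hN
  have hcop : (♯N).Coprime ♯R := hNp.coprime_ne hR hpr
  have h0 : R ⊓ 𝓒(N) = ⊥ := hR.inf_eq_bot ((isPi_compl_iff hr).2 hd)
  have hS : Syl r R (R ⊔ N) := hall_sup_normal hR (top_norm N R) (hNp.ne hpr)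
  obtain ⟨a, ha, ha1, h1⟩ : ∃ a ∈ R, a ≠ 1 ∧ N ⊓ 𝓒₁(a) ≠ ⊥ := by
    by_contra hh
    push Not at hh
    exact hN1 (eq_bot_iff.2 (coprime_abelian_gen_cent1 hRc hRn (top_norm N R) hcop
      fun a ha h1 => (hh a ha h1).le))
  obtain ⟨v, hv, hv1⟩ := exists_ne_one h1
  have key : ∀ y ∈ N, y ≠ 1 → ♯(R ⊓ 𝓒₁(y) : Subgroup G) = ♯(R ⊓ 𝓒₁(v) : Subgroup G) := fun y hy hy1 => by
    obtain ⟨g, hg⟩ := hc _ _ (card_zpowers_of_pow hp hv1 (hN.2 v hv.1))
      (card_zpowers_of_pow hp hy1 (hN.2 y hy))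
    obtain ⟨n, hn', x, hx, rfl⟩ := hS.syl_frattini hr (g := g) (top_norm _ ⊤ (mem_top g))
    rw [sup_comm] at hn'
    obtain ⟨n0, hn0, s, hs, rfl⟩ := (mem_sup_norm' (top_norm N R)).1 hn'
    have hsx : s * x ∈ 𝓝(R) := mul_mem (le_norm_self R hs) hx
    have h2 : cj (s * x) (zpowers v) ≤ N :=
      (cj_mono _ (zpowers_le.2 hv.1)).trans (cj_normal N _).le
    rw [mul_assoc, cj_mul, cj_of_mem_cent (cent_of_comm hN.1 le_rfl h2 hn0)] at hg
    rw [← cent_zpowers, ← cent_zpowers, hg, ← cj_cent, ← card_cj (s * x) (R ⊓ 𝓒(zpowers v)), cj_inf,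
      cj_of_mem_norm hsx]
  set R₁ : Subgroup G := R ⊓ 𝓒₁(v) with hR₁
  have haR : a ∈ R₁ := ⟨ha, mem_cent1_symm.1 hv.2⟩
  have hcop1 : (♯N).Coprime ♯R₁ := cop_mono hcop le_rfl inf_le_left
  have hW : ⁅N, R₁⁆ ≠ ⊥ := fun e => ha1 (by
    have : a ∈ R ⊓ 𝓒(N) := ⟨ha, cent_symm (comm_eq_bot_iff.1 e) haR⟩
    rwa [h0, mem_bot] at this)
  obtain ⟨w, hw, hw1⟩ := exists_ne_one hW
  have hTI : ⁅N, R₁⁆ ⊓ 𝓒(R₁) = ⊥ := coprime_abel_cent_TI (top_norm N R₁) hcop1 hN.1
  have hWN : ⁅N, R₁⁆ ≤ N := comm_le_left (top_norm N R₁)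
  have hRR : R ≤ 𝓝(R₁) := norm_of_comm hRc inf_le_left
  have hRW : R ≤ 𝓝(⁅N, R₁⁆) := norm_comm (top_norm N R) hRR
  have hvC : v ∈ 𝓒(R₁) := le_cent1_iff.1 inf_le_right
  have hvw : v * w ≠ 1 := fun e => hw1 (by
    have : w ∈ ⁅N, R₁⁆ ⊓ 𝓒(R₁) := ⟨hw, by rw [eq_inv_of_mul_eq_one_right e]; exact (𝓒(R₁)).inv_mem hvC⟩
    rwa [hTI, mem_bot] at this)
  have hle : R ⊓ 𝓒₁(v * w) ≤ R₁ := fun s hs => ⟨hs.1, by
    have h2 : s * w * s⁻¹ * w⁻¹ ∈ ⁅N, R₁⁆ := mul_mem (conj_mem_of_norm hRW hs.1 hw) (inv_mem hw)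
    have h3 : (s * v * s⁻¹)⁻¹ * v ∈ 𝓒(R₁) :=
      mul_mem (inv_mem (conj_mem_of_norm (norm_cent hRR) hs.1 hvC)) hvC
    have h4 : s * (v * w) = v * w * s := mem_cent1.1 hs.2
    have h5 : s * w * s⁻¹ * w⁻¹ = (s * v * s⁻¹)⁻¹ * v := by
      calc _ = (s * v * s⁻¹)⁻¹ * (s * (v * w)) * s⁻¹ * w⁻¹ := by group
        _ = _ := by rw [h4]; group
    have h6 : (s * v * s⁻¹)⁻¹ * v ∈ ⁅N, R₁⁆ ⊓ 𝓒(R₁) := ⟨h5 ▸ h2, h3⟩
    rw [hTI, mem_bot, inv_mul_eq_one] at h6
    exact mem_cent1.2 (mul_inv_eq_iff_eq_mul.1 h6)⟩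
  have heq := eq_of_le_of_card_eq hle (key _ (mul_mem hv.1 (hWN hw)) hvw)
  refine hw1 ?_
  have : w ∈ ⁅N, R₁⁆ ⊓ 𝓒(R₁) := ⟨hw, mem_cent.2 fun s hs => by
    have h2 : s * (v * w) = v * w * s := mem_cent1.1 (heq.ge hs).2
    have h3 : s * v = v * s := mem_cent1.1 hs.2
    rw [← mul_assoc, h3, mul_assoc, mul_assoc, mul_right_inj] at h2
    exact h2⟩
  rwa [hTI, mem_bot] at this

theorem el_map {E : Subgroup G} {k : ℕ} (hE : El p k E) (hd : E ⊓ f.ker = ⊥) : El p k (E.map f) :=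
  ⟨⟨comm_map hE.comm f, by
    rintro _ ⟨x, hx, rfl⟩
    rw [← map_pow, hE.elem.2 x hx, map_one]⟩, (card_map_eq hd).trans hE.card⟩

theorem syl_elem (h : BB G) (hs : Group.IsSolvable G) (hr : r.Prime) (h2 : PRk r 2 (⊤ : Subgroup G))
    (hR : IsPi {r} R) : IsElementaryAbelian r R := by
  obtain ⟨E, -, hE⟩ := h2
  haveI := Fact.mk hr
  have h1 := (h.ap r).exp hr hE hR
  exact ⟨((h.ap r).c1 hr).comm (H := ⊤) hr CA.H12PSolv.psolv_of_solvable
    (hE.dvd.trans (card_dvd le_top)) h1, h1⟩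

end

theorem normal_aux (n : ℕ) : ∀ (G : Type u) [Group G] [Finite G], Nat.card G < n → Group.IsSolvable G →
    BB G → ∀ r : ℕ, r.Prime → PRk r 2 (⊤ : Subgroup G) → ∀ R : Subgroup G, Syl r R ⊤ → R.Normal := by
  induction n with
  | zero => exact fun _ _ _ h => absurd h (Nat.not_lt_zero _)
  | succ n ih =>
    intro G _ _ hn hs h r hr h2 R hR
    obtain ⟨N, -, h3⟩ := exists_minNormal (le_norm_self ⊤) (h2.ne_bot hr)
    obtain ⟨p, hp, h4⟩ := h3.elem inferInstance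
    have := normal_of h3.2.1
    have hπ := isPi_of_elem hp h4
    have hRe := syl_elem h hs hr h2 hR.pi
    have hR2 := prk_of_syl hr hR h2
    obtain ⟨E, -, hE⟩ := h2
    by_cases hpr : p = r
    · subst hpr
      have h5 := (h.ap p).syl hp hE (hπ.dvd_card h3.1) hR.pi
      rw [← hR.eq_of_le hπ h5 le_top]; exact this
    have hm := QuotientGroup.mk'_surjective N
    have hq : BB (G ⧸ N) := h.map hm inferInstance (.inr hs)
    have h5 := ih (G ⧸ N) (by have := card_quot_lt h3.1; omega) inferInstance hq r hr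
      ⟨_, le_top, el_map hE (by
        rw [QuotientGroup.ker_mk']; exact (hE.pi hr).inf_eq_bot (hπ.ne hpr))⟩ _ (syl_map' hr hm hR)
    have h6 : (R ⊔ N).Normal := by
      have := h5.comap (QuotientGroup.mk' N)
      rwa [comap_map_eq, QuotientGroup.ker_mk'] at this
    have h7 := not_faith ((h.ap p).c1 hp) hp hr hpr h4 h3.1 hR.pi hRe.1 (hR2.not_cyclic hr) h6
    have h8 : R ≤ 𝓒(N) := (h.ap r).syl hr hE h7 hR.pi
    have h9 : Syl r R (R ⊔ N) := hR.of_le le_sup_left le_top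
    exact normal_of ((top_norm _ ⊤).trans
      (h9.norm_of_normal (sup_le (le_norm_self R) (norm_of_cent (cent_symm h8)))))

section
variable {G G' : Type*} [Group G] [Group G'] [Finite G] {p r : ℕ} {N R P Q D : Subgroup G} {f : G →* G'}

theorem syl_normal (h : BB G) (hs : Group.IsSolvable G) (hr : r.Prime) (h2 : PRk r 2 (⊤ : Subgroup G))
    (hR : Syl r R ⊤) : R.Normal :=
  normal_aux _ G (Nat.lt_succ_self _) hs h r hr h2 R hR

theorem prk_lift (hp : p.Prime) (hf : Function.Surjective f) (hk : IsPi {p}ᶜ f.ker) {k : ℕ}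
    (h : PRk p k (⊤ : Subgroup G')) : PRk p k (⊤ : Subgroup G) := by
  have := Finite.of_surjective f hf
  obtain ⟨E, -, hE⟩ := h
  obtain ⟨R, hR, rfl⟩ := exists_lift hp hf (hE.pi hp)
  have hd : R ⊓ f.ker = ⊥ := hR.pi.inf_eq_bot hk
  refine ⟨R, le_top, ⟨comm_of_map hd hE.comm, fun x hx => ?_⟩, (card_map_eq hd).symm.trans hE.card⟩
  have : x ^ p ∈ R ⊓ f.ker := mem_inf.2 ⟨pow_mem hx p, by
    rw [MonoidHom.mem_ker, map_pow]; exact hE.elem.2 _ (mem_map_of_mem f hx)⟩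
  rwa [hd, mem_bot] at this

theorem quat_lt (h : BB G) (hs : Group.IsSolvable G) (h2 : ¬ PRk 2 2 (⊤ : Subgroup G)) {n : ℕ}
    (hP : IsPi {2} P) (e : P ≃* QuaternionGroup (2 ^ n)) : n < 2 := by
  haveI := Fact.mk Nat.prime_two
  have hm := QuotientGroup.mk'_surjective (pPrimeCore 2 G)
  have hk : IsPi {2}ᶜ (QuotientGroup.mk' (pPrimeCore 2 G)).ker := by
    rw [QuotientGroup.ker_mk', ← core_p'_top Nat.prime_two]; exact core_pi _ _
  set f := QuotientGroup.mk' (pPrimeCore 2 G)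
  have hq : BB (G ⧸ pPrimeCore 2 G) := h.map hm inferInstance (.inr hs)
  have hd : P ⊓ f.ker = ⊥ := hP.inf_eq_bot hk
  have e' : P ≃* P.map f := MulEquiv.ofBijective (f.subgroupMap P) ⟨by
    rw [injective_iff_map_eq_one]
    intro x hx
    have : (x : G) ∈ P ⊓ f.ker := ⟨x.2, congrArg Subtype.val hx⟩
    rw [hd, mem_bot] at this
    exact Subtype.ext this, f.subgroupMap_surjective P⟩
  have h1 : (⊤ : Subgroup (G ⧸ pPrimeCore 2 G)) ≠ ⊥ := fun e1 => by
    have h3 : ♯(P.map f) = 1 := by rw [CA.BG.eq_bot_mono (le_top (a := P.map f)) e1, card_bot]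
    rw [← Nat.card_congr e'.toEquiv, Nat.card_congr e.toEquiv, Nat.card_eq_fintype_card,
      QuaternionGroup.card] at h3
    omega
  obtain ⟨N, -, h3⟩ := exists_minNormal (le_norm_self ⊤) h1
  obtain ⟨p, hp, h4⟩ := h3.elem inferInstance
  have := normal_of h3.2.1
  have hπ := isPi_of_elem hp h4
  obtain rfl : p = 2 := by
    by_contra hp2
    have h5 : N ≤ 𝓞({2}ᶜ, ⊤) := le_core (hπ.ne hp2) le_top h3.2.1
    rw [core_p'_top Nat.prime_two, CA.Core.pPrimeCore_quotient_pPrimeCore] at h5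
    exact h3.1 (eq_bot_iff.2 h5)
  have h5 : ♯N = 2 := Nat.dvd_antisymm (by
    simpa using elem_card_dvd (k := 1) hp h4 fun h6 => h2 (prk_lift hp hm hk (h6.mono le_top)))
    (hπ.dvd_card h3.1)
  exact (hq.ap 2).quat_aux inferInstance (QuotientGroup.mk'_surjective N)
    (by rwa [QuotientGroup.ker_mk']) (e'.symm.trans e)

theorem semi_comm {X : Type*} [Group X] [Finite X] [Fact p.Prime] (hp2 : p ≠ 2)
    (φ : X →* semiaffineGroup (GaloisField p 3)) (hφ : Function.Injective φ) {Q : Subgroup X}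
    (hQ : IsPi {2} Q) : IsMulCommutative Q := by
  have hp : p.Prime := Fact.out
  have h3 : Nat.card (GaloisField p 3 ≃+* GaloisField p 3) = 3 :=
    card_aut (GaloisField.card p 3 (by norm_num))
  have haff : ∀ x ∈ Q, ∃ a : (GaloisField p 3)ˣ, ∃ b : GaloisField p 3, ∀ t, (φ x).1 t = a * t + b :=
    fun x hx => by
      have h1 : CA.EqAff.pi _ (φ x) = 1 := by
        rw [← orderOf_eq_one_iff]
        have e1 : orderOf (CA.EqAff.pi _ (φ x)) ∣ 3 := (_root_.orderOf_dvd_natCard _).trans h3.dvd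
        have e2 : orderOf (CA.EqAff.pi _ (φ x)) ∣ orderOf x := orderOf_map_dvd ((CA.EqAff.pi _).comp φ) x
        rcases (Nat.dvd_prime Nat.prime_three).1 e1 with e | e
        · exact e
        · exact absurd (hQ.orderOf hx 3 Nat.prime_three (e ▸ e2)) (by simp)
      have h2 : φ x ∈ (CA.EqAff.pi _).ker := h1
      rw [ker_pi] at h2
      exact h2
  refine comm_iff_le_cent.2 fun y hy => mem_cent.2 fun x hx => ?_
  obtain ⟨a, b, ha⟩ := haff x hx
  obtain ⟨a', b', ha'⟩ := haff y hy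
  have hc : x * y * (y * x)⁻¹ ∈ Q := mul_mem (mul_mem hx hy) (inv_mem (mul_mem hy hx))
  set c := x * y * (y * x)⁻¹ with hcdef
  have e0 : x * y = c * (y * x) := by rw [hcdef]; group
  have htr : ∀ t, (φ c).1 t = t + (a * b' + b - (a' * b + b')) := fun t => by
    obtain ⟨s, rfl⟩ := (φ (y * x)).1.surjective t
    have e1 := congrArg (fun g => (φ g).1 s) e0
    simp only [map_mul, coe_mul, Equiv.Perm.coe_mul, Function.comp_apply, ha, ha'] at e1 ⊢
    rw [← e1]; ring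
  have hk : ∀ k : ℕ, ∀ t, (φ (c ^ k)).1 t = t + k * (a * b' + b - (a' * b + b')) := fun k => by
    induction k with
    | zero => simp
    | succ k ih =>
      intro t
      rw [pow_succ, map_mul, coe_mul, Equiv.Perm.coe_mul, Function.comp_apply, htr, ih]
      push_cast; ring
  have hcp : c ^ p = 1 := hφ (Subtype.ext (Equiv.ext fun t => by
    rw [hk, CharP.cast_eq_zero]; simp))
  have : c = 1 := by
    rw [← orderOf_eq_one_iff]
    rcases (Nat.dvd_prime hp).1 (orderOf_dvd_of_pow_eq_one hcp) with e | e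
    · exact e
    · exact absurd (hQ.orderOf hc p hp e.symm.dvd) (by simpa using hp2)
  rw [e0, this, one_mul]

theorem q8_facts (e : Q ≃* QuaternionGroup 2) : ♯Q = 8 ∧ ¬ IsMulCommutative Q ∧ (∀ x ∈ Q, x ^ 4 = 1) ∧
    ∀ c ∈ Q, c ^ 2 = 1 → ∀ y ∈ Q, c * y = y * c := by
  refine ⟨by rw [Nat.card_congr e.toEquiv, Nat.card_eq_fintype_card, QuaternionGroup.card], fun h => ?_,
    fun x hx => ?_, fun c hc h2 y hy => ?_⟩
  · have h1 : ∀ a b : QuaternionGroup 2, a * b = b * a := fun a b => by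
      obtain ⟨a, rfl⟩ := e.surjective a
      obtain ⟨b, rfl⟩ := e.surjective b
      rw [← map_mul, ← map_mul, h.is_comm.comm a b]
    exact absurd h1 (by decide)
  · have h1 : ∀ a : QuaternionGroup 2, a ^ 4 = 1 := by decide
    exact congrArg Subtype.val (e.injective (show e (⟨x, hx⟩ ^ 4) = e 1 by rw [map_pow, h1, map_one]))
  · have h1 : ∀ a : QuaternionGroup 2, a ^ 2 = 1 → ∀ b, a * b = b * a := by decide
    have h3 := h1 (e ⟨c, hc⟩) (by rw [← map_pow, show (⟨c, hc⟩ : Q) ^ 2 = 1 from Subtype.ext h2, map_one])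
      (e ⟨y, hy⟩)
    rw [← map_mul, ← map_mul] at h3
    exact congrArg Subtype.val (e.injective h3)

theorem q8_le (h : BB G) (e : Q ≃* QuaternionGroup 2) (hc : IsCyclic (Q.map f)) : Q ≤ f.ker := by
  obtain ⟨-, h1, h2, h3⟩ := q8_facts e
  obtain ⟨c, hc1, hc2⟩ : ∃ c ∈ Q ⊓ f.ker, c ^ 2 ≠ 1 := by
    by_contra hh
    push Not at hh
    obtain ⟨x, hx⟩ := exists_zpowers_of_cyc hc
    obtain ⟨x, hxQ, rfl⟩ : x ∈ Q.map f := hx ▸ mem_zpowers x
    have key : ∀ y ∈ Q, ∃ k : ℤ, ∃ c ∈ Q, c ^ 2 = 1 ∧ y = x ^ k * c := fun y hy => by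
      obtain ⟨k, hk⟩ : f y ∈ zpowers (f x) := hx ▸ mem_map_of_mem f hy
      have h4 : (x ^ k)⁻¹ * y ∈ Q := mul_mem (inv_mem (zpow_mem hxQ k)) hy
      refine ⟨k, _, h4, hh _ (mem_inf.2 ⟨h4, ?_⟩), by group⟩
      rw [MonoidHom.mem_ker, map_mul, map_inv, map_zpow, ← hk, inv_mul_cancel]
    refine h1 (comm_iff_le_cent.2 fun y hy => mem_cent.2 fun w hw => ?_)
    obtain ⟨k, c, hc, hc2, rfl⟩ := key y hy
    obtain ⟨l, d, hd, hd2, rfl⟩ := key w hw
    have e1 := h3 c hc hc2 _ hw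
    have e2 := h3 d hd hd2 _ (zpow_mem hxQ k)
    calc x ^ l * d * (x ^ k * c) = x ^ l * (d * x ^ k) * c := by group
      _ = x ^ k * (x ^ l * d * c) := by rw [e2]; group
      _ = _ := by rw [← e1]; group
  have ho : orderOf c = 4 := orderOf_eq_prime_pow (p := 2) (n := 1) (by simpa using hc2) (h2 c hc1.1)
  intro y hy
  refine (S3909.result h f.ker).1 y ?_
  obtain ⟨k, hk, h4⟩ := (Nat.dvd_prime_pow Nat.prime_two).1
    (show orderOf y ∣ 2 ^ 2 from orderOf_dvd_of_pow_eq_one (h2 y hy))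
  obtain rfl | rfl | rfl : k = 0 ∨ k = 1 ∨ k = 2 := by omega
  · exact ⟨1, one_mem _, by rw [h4, orderOf_one, pow_zero]⟩
  · exact ⟨c ^ 2, f.ker.pow_mem hc1.2 2, by rw [h4, orderOf_pow, ho]; rfl⟩
  · exact ⟨c, hc1.2, by rw [h4, ho]; rfl⟩

theorem q8_cent (h : BB G) (hs : Group.IsSolvable G) (hp : p.Prime) (hp2 : p ≠ 2) [N.Normal]
    (hN : IsElementaryAbelian p N) (hS : Syl p N ⊤) (hQ : Syl 2 Q ⊤) (e : Q ≃* QuaternionGroup 2)
    (hD : D ≤ N) (hD1 : D ≠ ⊥) (hD2 : D ≠ N) (hQD : Q ≤ 𝓝(D)) : Q ≤ 𝓒(N) := by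
  haveI := Fact.mk hp
  have hm := QuotientGroup.mk'_surjective (pPrimeCore p G)
  have hk : IsPi {p}ᶜ (QuotientGroup.mk' (pPrimeCore p G)).ker := by
    rw [QuotientGroup.ker_mk', ← core_p'_top hp]; exact core_pi _ _
  set f := QuotientGroup.mk' (pPrimeCore p G)
  have hq : BB (G ⧸ pPrimeCore p G) := h.map hm inferInstance (.inr hs)
  suffices h1 : Q ≤ f.ker from h1.trans
    (cent_of_norm_cop (top_norm _ _) (top_norm _ _) (hk.coprime' hS.pi))
  obtain ⟨n, hn⟩ := elem_exists_el hp hN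
  have hd : N ⊓ f.ker = ⊥ := hS.pi.inf_eq_bot hk
  have hV := el_map hn hd
  have hVS := syl_map' hp hm hS
  have hQS := syl_map' Nat.prime_two hm hQ
  haveI : (N.map f).Normal := Subgroup.Normal.map inferInstance f hm
  have hC := cent_pcore_le (H := (⊤ : Subgroup (G ⧸ pPrimeCore p G))) hp inferInstance
    ((core_p'_top hp).trans CA.Core.pPrimeCore_quotient_pPrimeCore)
  rw [← hVS.eq_core (top_norm _ ⊤), top_inf_eq] at hC
  have hcop : (♯(N.map f)).Coprime ♯(Q.map f) := hVS.pi.coprime_ne hQS.pi hp2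
  have hbot : ∀ A : Subgroup (G ⧸ pPrimeCore p G), A ≤ Q.map f → A ≤ 𝓒(N.map f) → A = ⊥ :=
    fun A h1 h2 => eq_bot_iff.2 ((le_inf (h2.trans hC) h1).trans (inf_eq_bot_of_cop hcop).le)
  have hn2 : 2 ≤ n := by
    by_contra hh
    obtain rfl | rfl : n = 0 ∨ n = 1 := by omega
    · exact hD1 (CA.BG.eq_bot_mono hD (card_eq_one.1 (by simpa using hn.card)))
    · rcases eq_bot_or_eq_of_prime (by rw [hn.card, pow_one]; exact hp) hD with e1 | e1
      exacts [hD1 e1, hD2 e1]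
  have hcomm : IsMulCommutative (Q.map f) := by
    rcases hn2.eq_or_lt with rfl | hn3
    · have hDc : ♯(D.map f) = p := (card_map_eq (CA.BG.eq_bot_mono (inf_le_inf_right _ hD) hd)).trans
        (hn.card_eq hp hD hD1 hD2)
      have hDn : Q.map f ≤ 𝓝(D.map f) := (map_mono hQD).trans (le_normalizer_map f)
      set A := ⁅Q.map f, Q.map f⁆ with hA
      have hAQ : A ≤ Q.map f := der_le _
      have h1 : A ≤ 𝓒(D.map f) := der_cent_cyclic (CA.BG.isCyclic_of_prime (by rw [hDc]; exact hp)) hDn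
      have hcop' : (♯(N.map f)).Coprime ♯A := cop_mono hcop le_rfl hAQ
      have hTI := coprime_abel_cent_TI (top_norm _ A) hcop' hV.comm
      have hU : ⁅N.map f, A⁆ ≤ N.map f := comm_le_left (top_norm _ A)
      have hUc : IsCyclic (⁅N.map f, A⁆ : Subgroup _) := by
        by_cases h2 : ⁅N.map f, A⁆ = ⊥
        · rw [h2]; exact cyc_bot
        refine CA.BG.isCyclic_of_prime ((hV.card_eq hp hU h2 fun e1 => ?_).symm ▸ hp)
        have h3 : D.map f ≤ ⁅N.map f, A⁆ ⊓ 𝓒(A) := le_inf ((map_mono hD).trans e1.ge) (cent_symm h1)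
        rw [hTI, le_bot_iff] at h3
        rw [h3, card_bot] at hDc
        exact hp.one_lt.ne hDc
      have h4 : A ≤ 𝓒(⁅N.map f, A⁆) := der_cent_cyclic hUc
        (norm_comm (top_norm _ _) ((le_norm_self _).trans (norm_der _)))
      exact comm_iff_der_eq_bot.2 (hbot A hAQ
        (coprime_commGG1P (top_norm _ A) hcop' (.inl inferInstance) (cent_symm h4)))
    · rcases core (N.map f) hV.elem hV.card hn3 hC (relIndex_top_right (N.map f) ▸ hVS.coprime)
        inferInstance (fun A B hA hB => hq A B (comm_of_le hV.comm hA) (comm_of_le hV.comm hB)) with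
        ⟨-, ⟨φ, hφ⟩, -⟩ | ⟨-, h2, -⟩
      · exact semi_comm hp2 φ hφ hQS.pi
      · exact absurd h2 hp2
  by_cases hc : IsCyclic (Q.map f)
  · exact q8_le h e hc
  · haveI := syl_normal hq inferInstance Nat.prime_two
      ((prk_of_comm_not_cyc Nat.prime_two hQS.pi hcomm hc).mono le_top) hQS
    exact (Subgroup.map_eq_bot_iff _).1 (hbot _ le_rfl (cent_of_norm_cop (top_norm _ _) (top_norm _ _) hcop.symm))

theorem main (h : BB G) (hs : Group.IsSolvable G) : CC G := by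
  let π : Set ℕ := {p | PRk p 2 (⊤ : Subgroup G)}
  set N : Subgroup G := 𝓞(π, ⊤) with hNdef
  haveI hNn : N.Normal := normal_of (le_norm_core π ⊤)
  have hNπ : IsPi π N := core_pi π ⊤
  have hsyl : ∀ p, p.Prime → p ∈ π → ∃ P : Subgroup G, Syl p P ⊤ ∧ P.Normal ∧ P ≤ N ∧
      IsElementaryAbelian p P := fun p hp hπ => by
    obtain ⟨P, hP⟩ := syl_exists hp (⊤ : Subgroup G)
    have := syl_normal h hs hp hπ hP
    exact ⟨P, hP, this, le_core (hP.pi.sub hπ) le_top (top_norm P ⊤), syl_elem h hs hp hπ hP.pi⟩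
  have hN : Hall π N ⊤ := hall_of_forall_syl le_top hNπ fun p hp hπ _ => by
    obtain ⟨P, h1, -, h2, -⟩ := hsyl p hp hπ
    exact ⟨P, h1, h2⟩
  have hNc : IsMulCommutative N := by
    refine comm_of_nil_syl (nil_of_core_hall fun p hp hd => ?_) fun p hp hd => ?_
    · obtain ⟨P, h1, h3, h2, -⟩ := hsyl p hp (hNπ p hp hd)
      exact (h1.of_le h2 le_top).core_hall (top_norm P N)
    · obtain ⟨P, h1, -, h2, h4⟩ := hsyl p hp (hNπ p hp hd)
      exact ⟨P, h1.of_le h2 le_top, h4.1⟩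
  refine hall_step hs hN (fun D E hD hE => h D E (comm_of_le hNc hD) (comm_of_le hNc hE))
    fun D W hD hW => ?_
  have hrk : ∀ q, q.Prime → ∀ P : Subgroup G, IsPi {q} P → P ≤ W → P = ⊥ ∨ ¬ PRk q 2 (⊤ : Subgroup G) :=
    fun q hq P hP hPW => by
      by_cases h1 : q ∈ π
      · exact .inl (IsPi.eq_bot (hP.sub h1) (hW.pi.of_le hPW))
      · exact .inr h1
  have hodd : ∀ q, q.Prime → q ≠ 2 → ∀ P : Subgroup W, IsPi {q} P → IsCyclic P := fun q hq h2 =>
    cyc_sub fun P hP hPW => by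
      rcases hrk q hq P hP hPW with h1 | h1
      · rw [h1]; exact cyc_bot
      · exact (cyc_or_quat hq hP fun h3 => h1 (h3.mono le_top)).resolve_right fun h3 => h2 h3.1
  refine cc_of_cyc 2 inferInstance (fun q hq => ?_) hodd
  by_cases hq2 : q ≠ 2
  · exact dp_of_cyc hq (hodd q hq hq2)
  obtain rfl : q = 2 := not_not.1 hq2
  by_cases hall : ∀ P : Subgroup G, IsPi {2} P → P ≤ W → IsCyclic P
  · exact dp_of_cyc hq (cyc_sub hall)
  push Not at hall
  obtain ⟨P, hP, hPW, hPc⟩ := hall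
  have h2 : ¬ PRk 2 2 (⊤ : Subgroup G) := (hrk 2 hq P hP hPW).resolve_left fun e => hPc (e ▸ cyc_bot)
  have q8 : ∀ Q : Subgroup G, IsPi {2} Q → ¬ IsCyclic Q → Nonempty (Q ≃* QuaternionGroup 2) :=
    fun Q hQ hc => by
      obtain ⟨-, n, ⟨e⟩⟩ := (cyc_or_quat hq hQ fun h3 => h2 (h3.mono le_top)).resolve_left hc
      exact (quat_small e (quat_lt h hs h2 hQ e)).resolve_left hc
  obtain ⟨e⟩ := q8 P hP hPc
  have hPS : Syl 2 P ⊤ := by
    obtain ⟨S, hS, h3⟩ := syl_superset hq hP le_top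
    obtain ⟨e'⟩ := q8 S hS.pi fun hc => hPc (cyc_of_le hc h3)
    exact hS.of_card_eq le_top ((q8_facts e).1.trans (q8_facts e').1.symm)
  have hPW' : Syl 2 P W := hPS.of_le hPW le_top
  have hNW : N ⊓ W = ⊥ := hNπ.inf_eq_bot hW.pi
  have key : ∀ A B : Subgroup G, A ≤ P → B ≤ P → ♯A = ♯B → ∃ w ∈ W, B = cj w A := fun A B hA hB hAB => by
    by_cases hAP : A = P
    · exact ⟨1, one_mem _, by rw [cj_one, hAP]; exact eq_of_le_of_card_eq hB (hAP ▸ hAB).symm⟩
    have hA4 : ♯A ∣ 2 ^ 2 := by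
      obtain ⟨k, hk, h3⟩ := (Nat.dvd_prime_pow hq).1
        (show ♯A ∣ 2 ^ 3 from (card_dvd hA).trans (q8_facts e).1.dvd)
      have : k ≠ 3 := fun e1 => hAP (eq_of_le_of_card_eq hA (by rw [h3, e1, (q8_facts e).1]; rfl))
      rw [h3]; exact pow_dvd_pow 2 (by omega)
    have hAc := card_p2group_abelian hq hA4
    have hBc := card_p2group_abelian hq (hAB ▸ hA4)
    set D₁ : Subgroup G := D ⊓ 𝓒(P) with hD₁
    have hD₁N : D₁ ≤ N := inf_le_left.trans hD
    have hD₁π : IsPi π D₁ := hNπ.of_le hD₁N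
    have cA : ∀ X : Subgroup G, X ≤ P → X ≤ 𝓒(D₁) := fun X hX =>
      hX.trans (cent_symm inf_le_right)
    have hπ' : ∀ X : Subgroup G, X ≤ P → IsPi πᶜ X := fun X hX => hW.pi.of_le (hX.trans hPW)
    have hab : ∀ X : Subgroup G, X ≤ P → IsMulCommutative X → IsMulCommutative (X ⊔ D₁ : Subgroup G) :=
      fun X hX hc => comm_sup hc (comm_of_le hNc hD₁N) (cA X hX)
    have hcard : ∀ X : Subgroup G, X ≤ P → ♯(X ⊔ D₁ : Subgroup G) = ♯X * ♯D₁ := fun X hX =>
      card_sup_of_disjoint (norm_of_cent (cA X hX)) ((hπ' X hX).inf_eq_bot' hD₁π)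
    obtain ⟨g, hg⟩ := h _ _ (hab A hA hAc) (hab B hB hBc) (by rw [hcard A hA, hcard B hB, hAB])
    have a1 : ∀ X : Subgroup G, X ≤ P → Hall π D₁ (X ⊔ D₁) := fun X hX =>
      hall_sup_normal' (hπ' X hX) (norm_of_cent (cA X hX)) hD₁π
    have a2 : ∀ X : Subgroup G, X ≤ P → Hall πᶜ X (X ⊔ D₁) := fun X hX =>
      hall_sup_normal (hπ' X hX) (norm_of_cent (cA X hX)) (by rwa [compl_compl])
    have b1 : cj g D₁ = D₁ := (a1 B hB).eq_of_normal (norm_of_comm (hab B hB hBc) le_sup_right)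
      (hg ▸ (a1 A hA).cj g)
    have b2 : cj g A = B := (a2 B hB).eq_of_normal (norm_of_comm (hab B hB hBc) le_sup_left)
      (hg ▸ (a2 A hA).cj g)
    have hgD : g ∈ 𝓝(D) := mem_norm_of_cj_le (le_of_forall_syl fun p hp hd => by
      rw [card_cj] at hd
      have hπ : p ∈ π := hNπ p hp (hd.trans (card_dvd hD))
      obtain ⟨S, h1, h3, h4, h5⟩ := hsyl p hp hπ
      have h6 : Syl p (D ⊓ S) D := h1.normal_inf' (top_norm S D) le_top
      refine ⟨_, h6.cj g, le_trans (le_of_eq ?_) (inf_le_left (b := S))⟩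
      by_cases c1 : D ⊓ S = ⊥
      · rw [c1, cj_bot]
      by_cases c2 : D ⊓ S = S
      · rw [c2, cj_normal]
      have h7 := q8_cent h hs hp (fun e1 => h2 (by subst e1; exact hπ)) h5 h1 hPS e inf_le_right c1 c2
        (norm_inf (hPW.trans hW.le) (top_norm S P))
      have h8 : D ⊓ S = D₁ ⊓ S := le_antisymm
        (le_inf (le_inf inf_le_left (inf_le_right.trans (cent_symm h7))) inf_le_right)
        (inf_le_inf_right S inf_le_left)
      rw [h8, cj_inf, b1, cj_normal])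
    obtain ⟨n, hn, w, hw, rfl⟩ := (hN.of_le (norm_of_comm hNc hD) le_top).exists_mul hW hgD
    refine ⟨w, hw, (eq_of_le_of_card_eq (fun a ha => ?_) (by rw [card_cj, hAB])).symm⟩
    have haW : a ∈ W := cj_le_of_mem hw (hA.trans hPW) ha
    have h3 : n * a * n⁻¹ ∈ B := by rw [← b2, cj_mul]; exact conj_mem_cj.2 ha
    have h4 : n * a * n⁻¹ * a⁻¹ ∈ N ⊓ W := mem_inf.2 ⟨by
      rw [mul_assoc, mul_assoc, ← mul_assoc a]; exact mul_mem hn (hNn.conj_mem _ (inv_mem hn) a),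
      mul_mem (hPW (hB h3)) (inv_mem haW)⟩
    rw [hNW, mem_bot, mul_inv_eq_one] at h4
    rwa [h4] at h3
  intro A B hA hAB
  obtain ⟨a, ha, h3⟩ := hPW'.syl_conj_le hq (pi_map hA W.subtype) (map_subtype_le A)
  obtain ⟨b, hb, h4⟩ := hPW'.syl_conj_le hq (pi_map (A := B) (isPi_iff.2 (hAB ▸ hA.nat)) W.subtype)
    (map_subtype_le B)
  obtain ⟨w, hw, h5⟩ := key _ _ h3 h4 (by rw [card_cj, card_cj, card_subtype, card_subtype, hAB])
  refine ⟨⟨b⁻¹ * w * a, mul_mem (mul_mem (inv_mem hb) hw) ha⟩, map_injective W.subtype_injective ?_⟩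
  rw [map_cj, subtype_apply, cj_mul, cj_mul, ← h5, cj_inv_cj]

end


/-- If G is a finite solvable group in which any two abelian subgroups of the same order are conjugate, then any two subgroups of G of the same order are conjugate. -/
theorem result {G : Type*} [Group G] [Finite G] (hB : ∀ A B : Subgroup G, IsMulCommutative ↥A → IsMulCommutative ↥B → Nat.card ↥A = Nat.card ↥B → ∃ g : G, B = A.map (MulAut.conj g).toMonoidHom) (hsol : Group.IsSolvable G) (A B : Subgroup G)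
    (h : Nat.card ↥A = Nat.card ↥B) : ∃ g : G, B = A.map (MulAut.conj g).toMonoidHom := by
  exact main hB hsol A B h

end Cfsg.Agent.S3913
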