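import Cfsg.Statements.S3915
import Cfsg.Agent.Lib.Odd.BGMisc
import Cfsg.Agent.Lib.Grp.Comp
import Cfsg.Agent.S0205

set_option autoImplicit false
open Cfsg

namespace Cfsg.Agent.S3915

open Subgroup CA CA.BG CA.Comp

theorem not_comm {K : Type*} [Group K] (h : IsQuasisimple K) : ¬ IsMulCommutative (K ⧸ center K) := by
  intro hc
  haveI := h.2
  haveI := h.1
  haveI : Group.IsPerfect (K ⧸ center K) := inferInstance
  have h1 : commutator (K ⧸ center K) = ⊥ := by
    rw [eq_bot_iff, commutator_def, commutator_le]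
    intro a _ b _
    exact mem_bot.2 (commutatorElement_eq_one_iff_mul_comm.2 (hc.is_comm.comm a b))
  exact bot_ne_top (h1.symm.trans Group.IsPerfect.commutator_eq_top)

theorem exists_two {G : Type*} [Group G] [Finite G] {K : Subgroup G} (h : IsQuasisimple K) :
    ∃ x ∈ K, x ∉ 𝓒(K) ∧ ∃ k, orderOf x = 2 ^ k := by
  have he : 2 ∣ Nat.card (K ⧸ center K) := by
    by_contra h2
    have h3 := Cfsg.Agent.S0205.result (G := K ⧸ center K) (Nat.odd_iff.2 (by omega))
    haveI := h.2
    exact not_comm h ⟨⟨IsSimpleGroup.comm_iff_isSolvable.2 h3⟩⟩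
  obtain ⟨y, hy⟩ := exists_prime_orderOf_dvd_card' 2 he
  obtain ⟨y, rfl⟩ := QuotientGroup.mk'_surjective _ y
  obtain ⟨k, hk⟩ := (constt_elt {2} y).exists_pow Nat.prime_two (orderOf_pos _).ne'
  refine ⟨(constt {2} y : K), (constt {2} y).2, fun h1 => ?_, k, by rw [orderOf_coe, hk]⟩
  have h2 : QuotientGroup.mk' (center K) (constt {2} y) = 1 :=
    (QuotientGroup.eq_one_iff _).2 (mem_center_iff.2 fun g => Subtype.ext (mem_cent.1 h1 g g.2))
  rw [← constt_mul_compl {2} y, map_mul, h2, one_mul] at hy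
  exact (piNat_compl_iff Nat.prime_two).1 (constt_elt {2}ᶜ y) (hy.symm.dvd.trans (orderOf_map_dvd _ _))

theorem key {G : Type*} [Group G] [Finite G] (hP : ∀ A B : Subgroup G, IsCyclic ↥A → IsCyclic ↥B →
    IsPGroup 2 ↥A → Nat.card ↥A = Nat.card ↥B → ∃ g : G, B = A.map (MulAut.conj g).toMonoidHom)
    {K L : Subgroup G} (hK : IsComponent K) (hL : IsComponent L) (hne : K ≠ L) {x y : G} (hx : x ∈ K)
    (hx' : x ∉ 𝓒(K)) (hy : y ∈ L) (hy' : y ∉ 𝓒(L)) {a b : ℕ} (ox : orderOf x = 2 ^ a)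
    (oy : orderOf y = 2 ^ b) (hab : b ≤ a) : False := by
  have hc : Commute x y := (mem_cent.1 (comp_le_centralizer_of_ne hK hL hne hx) y hy).symm
  have h1 : orderOf (x * y) ∣ orderOf x := by
    refine orderOf_dvd_of_pow_eq_one ?_
    rw [hc.mul_pow, pow_orderOf_eq_one, one_mul, ← orderOf_dvd_iff_pow_eq_one, ox, oy]
    exact pow_dvd_pow 2 hab
  have h2 : orderOf (x ^ (orderOf x / orderOf (x * y))) = orderOf (x * y) :=
    orderOf_pow_orderOf_div (orderOf_pos x).ne' h1
  obtain ⟨c, -, hc2⟩ := (Nat.dvd_prime_pow Nat.prime_two).1 (ox ▸ h1)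
  obtain ⟨g, hg⟩ := hP (zpowers (x ^ (orderOf x / orderOf (x * y)))) (zpowers (x * y)) inferInstance
    inferInstance (IsPGroup.of_card (by rw [Nat.card_zpowers, h2, hc2])) (by
      rw [Nat.card_zpowers, Nat.card_zpowers, h2])
  have h3 : x * y ∈ cj g K := by
    have : zpowers (x * y) ≤ cj g K := hg ▸ cj_mono g (zpowers_le.2 (pow_mem hx _))
    exact this (mem_zpowers _)
  have hM : IsComponent (cj g K) := comp_map_conj hK g
  by_cases e : cj g K = K
  · rw [e] at h3
    exact hy' (comp_le_centralizer_of_ne hK hL hne (by simpa using mul_mem (inv_mem hx) h3))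
  · have h4 := comp_le_centralizer_of_ne hM hK e h3
    exact hx' (by simpa using mul_mem h4 (inv_mem (comp_le_centralizer_of_ne hL hK hne.symm hy)))

/-- Let G be a finite group in which, for every prime p, any two cyclic p-subgroups of the same order are conjugate. If the layer E(G), the subgroup generated by the components of G, is non-trivial, then E(G)/Z(E(G)) is a non-abelian simple group. -/
theorem result {G : Type*} [Group G] [Finite G] (hP : ∀ (p : ℕ), p.Prime → ∀ A B : Subgroup G, IsCyclic ↥A → IsCyclic ↥B → IsPGroup p ↥A → Nat.card ↥A = Nat.card ↥B → ∃ g : G, B = A.map (MulAut.conj g).toMonoidHom) (hE : Cfsg.layer G ≠ ⊥) :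
    IsSimpleGroup (↥(Cfsg.layer G) ⧸ Subgroup.center ↥(Cfsg.layer G)) ∧ ¬ IsMulCommutative (↥(Cfsg.layer G) ⧸ Subgroup.center ↥(Cfsg.layer G)) := by
  obtain ⟨K, hK⟩ := exists_comp_of_layer_ne_bot hE
  have h : Cfsg.layer G = K := by
    refine le_antisymm (layer_le fun L hL => ?_) (le_layer hK)
    by_contra h1
    have hne : K ≠ L := fun e => h1 e.ge
    obtain ⟨x, hx, hx', a, ox⟩ := exists_two hK.2
    obtain ⟨y, hy, hy', b, oy⟩ := exists_two hL.2
    rcases le_total b a with hab | hab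
    · exact key (hP 2 Nat.prime_two) hK hL hne hx hx' hy hy' ox oy hab
    · exact key (hP 2 Nat.prime_two) hL hK hne.symm hy hy' hx hx' oy ox hab
  rw [h]
  exact ⟨hK.2.2, not_comm hK.2⟩

end Cfsg.Agent.S3915
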