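import Cfsg.Statements.S3917
import Cfsg.Agent.Lib.Odd.BGRank

set_option autoImplicit false
open Cfsg

namespace Cfsg.Agent.S3917

open Subgroup CA CA.BG

/-- Say that a group has self-centralizing non-cyclic subgroups when every non-cyclic subgroup H satisfies C_G(H) ≤ H. A finite abelian group with self-centralizing non-cyclic subgroups is cyclic or elementary abelian of order p² for a prime p. -/
theorem result {G : Type*} [CommGroup G] [Finite G] (hX : (∀ H : Subgroup G, ¬ IsCyclic ↥H → Subgroup.centralizer (H : Set G) ≤ H)) :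
    IsCyclic G ∨ ∃ p : ℕ, p.Prime ∧ Nat.card G = p ^ 2 ∧ Monoid.exponent G = p := by
  refine or_iff_not_imp_left.2 fun h => ?_
  obtain ⟨p, hp, E, -, hE⟩ := not_not.1 (mt (comm_cyc_iff (H := (⊤ : Subgroup G)) inferInstance).2
    fun h1 => h (isCyclic_of_surjective _ topEquiv.surjective))
  have h1 : E = ⊤ := top_le_iff.1 fun x _ => hX E (hE.not_cyclic hp) fun y _ => mul_comm y x
  subst h1
  haveI := Fact.mk hp
  haveI : Nontrivial G := by
    by_contra h2
    rw [not_nontrivial_iff_subsingleton] at h2
    exact h inferInstance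
  exact ⟨p, hp, card_top.symm.trans hE.card, (Monoid.exponent_eq_prime_iff hp).2
    fun g hg => orderOf_eq_prime (hE.1.2 g (mem_top g)) hg⟩

end Cfsg.Agent.S3917
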