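import Cfsg.Statements.S3918
import Cfsg.Agent.Lib.Odd.BG4a

set_option autoImplicit false
open Cfsg

namespace Cfsg.Agent.S3918

open Subgroup CA CA.BG

/-- Say that a group has self-centralizing non-cyclic subgroups when every non-cyclic subgroup H satisfies C_G(H) ≤ H. For an odd prime p, a finite non-abelian p-group has self-centralizing non-cyclic subgroups if and only if it has order p³. -/
theorem result {G : Type*} [Group G] [Finite G] {p : ℕ} [Fact p.Prime] (hp : p ≠ 2) (hG : IsPGroup p G) (hna : ¬ IsMulCommutative G) :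
    (∀ H : Subgroup G, ¬ IsCyclic ↥H → Subgroup.centralizer (H : Set G) ≤ H) ↔ Nat.card G = p ^ 3 := by
  have hp' := (Fact.out : p.Prime)
  have hna' : ¬ IsMulCommutative (⊤ : Subgroup G) := fun h => hna ⟨⟨fun a b =>
    congrArg Subtype.val (h.1.1 ⟨a, mem_top a⟩ ⟨b, mem_top b⟩)⟩⟩
  have hT : IsPi {p} (⊤ : Subgroup G) := isPi_of_isPGroup hp' (hG.to_subgroup ⊤)
  refine ⟨fun h => ?_, fun h H hH => ?_⟩
  · obtain ⟨E, -, hE, hn⟩ := BG4.exists_normal_el2 hp' hp hT fun h => hna' (comm_of_cyclic h)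
    have h1 := BG4.relIndex_cent_dvd hp' hT hn hE.card.dvd
    rw [le_antisymm (h E (hE.not_cyclic hp')) hE.le_cent] at h1
    have h2 := card_mul_relIndex (le_top : E ≤ ⊤)
    rcases (Nat.dvd_prime hp').1 h1 with h3 | h3
    · exact absurd (comm_of_le hE.comm (relIndex_eq_one.1 h3)) hna'
    · rw [← card_top, ← h2, h3, hE.card, ← pow_succ]
  · obtain ⟨k, h1, h2⟩ := (Nat.dvd_prime_pow hp').1 (h ▸ card_subgroup_dvd_card H)
    have h3 := H.index_mul_card
    rw [h, h2] at h3
    obtain h4 | h4 | h4 : k ≤ 1 ∨ k = 2 ∨ k = 3 := by omega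
    · exact absurd (BG4.cyc_of_card_dvd hp' (h2 ▸ (pow_dvd_pow p h4).trans (pow_one p).dvd)) hH
    · subst h4
      have h5 : H.index = p := Nat.eq_of_mul_eq_mul_right (pow_pos hp'.pos 2)
        (by rw [h3]; ring)
      have h6 := card_p2group_abelian hp' h2.dvd
      intro x hx
      by_contra h7
      exact hna' (PGBasic.sup_zpowers_eq_top_of_index_prime hp' h5 h7 ▸
        comm_sup h6 inferInstance (cent_symm (zpowers_le.2 hx)))
    · subst h4
      rw [eq_top_of_card_eq H (h2.trans h.symm)]; exact le_top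

end Cfsg.Agent.S3918
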