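import Cfsg.Statements.S3919
import Cfsg.Agent.Lib.Solv.PX1
import Cfsg.Agent.Lib.Odd.BG4a

set_option autoImplicit false
open Cfsg

namespace Cfsg.Agent.S3919

open Subgroup CA CA.BG CA.PX
open scoped commutatorElement

universe u

theorem not_comm {G : Type*} [Group G] [Finite G] {n : ℕ}
    (h : (⊤ : Subgroup G).lowerCentralSeries (n + 1) ≠ ⊥) : ¬ IsMulCommutative (⊤ : Subgroup G) :=
  fun hc => h (BG.eq_bot_mono (comm_mono (lcs_le _ _) le_rfl) (comm_iff_der_eq_bot.1 hc))

theorem not_dvd {G : Type*} [Group G] [Finite G] {n : ℕ} (hT : IsPi {2} (⊤ : Subgroup G))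
    (h : (⊤ : Subgroup G).lowerCentralSeries (n + 1) ≠ ⊥) :
    ¬ ♯(⁅(⊤ : Subgroup G), (⊤ : Subgroup G)⁆) ∣ 2 ^ n := fun hd =>
  h (add_comm 1 n ▸ BG4.lcs_eq_bot Nat.prime_two hT n 1 hd)

theorem aux (n : ℕ) : ∀ {G : Type u} [Group G] [Finite G], Nat.card G = 2 ^ (n + 3) →
    (⊤ : Subgroup G).lowerCentralSeries (n + 1) ≠ ⊥ → ∃ a : G, (zpowers a).index = 2 := by
  induction n with
  | zero =>
    intro G _ _ hG h
    obtain ⟨a, ha⟩ : ∃ a : G, a ^ 2 ≠ 1 := by
      by_contra h1
      push Not at h1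
      exact not_comm h (comm_iff_der_eq_bot.2 (le_bot_iff.1
        (PGFrattini.commutator_le_of_sq_mem fun x => mem_bot.2 (h1 x))))
    obtain ⟨k, h1, h2⟩ := (Nat.dvd_prime_pow Nat.prime_two).1 (hG ▸ orderOf_dvd_natCard a)
    have h3 := (zpowers a).index_mul_card
    rw [Nat.card_zpowers, h2, hG] at h3
    obtain h4 | rfl | rfl : k ≤ 1 ∨ k = 2 ∨ k = 3 := by omega
    · exact absurd (orderOf_dvd_iff_pow_eq_one.1 (h2 ▸ pow_dvd_pow 2 h4)) ha
    · exact ⟨a, by omega⟩
    · exact absurd (index_eq_one.1 (show (zpowers a).index = 1 by omega) ▸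
        comm_of_cyclic (cyc_zpowers a)) (not_comm h)
  | succ n ih =>
    intro G _ _ hG h
    have hP : IsPGroup 2 G := IsPGroup.of_card hG
    have hT : IsPi {2} (⊤ : Subgroup G) := isPi_of_isPGroup Nat.prime_two (hP.to_subgroup ⊤)
    obtain ⟨z, -, hz, ho⟩ := PGBasic.exists_mem_center_orderOf hP (M := ⊤)
      fun h1 => not_comm h (h1 ▸ comm_bot)
    have hz' : zpowers z ≤ center G := zpowers_le.2 hz
    haveI : (zpowers z).Normal := ⟨fun x hx g => by
      rwa [mem_center_iff.1 (hz' hx) g, mul_inv_cancel_right]⟩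
    set f := QuotientGroup.mk' (zpowers z)
    have hf : Function.Surjective f := QuotientGroup.mk'_surjective _
    obtain ⟨a, ha⟩ := ih (G := G ⧸ zpowers z) (by
      have := (zpowers z).index_mul_card
      rw [Nat.card_zpowers, ho, hG, pow_succ] at this
      exact Nat.eq_of_mul_eq_mul_right two_pos this) fun h1 => h (by
        rw [← map_top_of_surjective f hf, ← Subgroup.map_lowerCentralSeries, Subgroup.map_eq_bot_iff,
          QuotientGroup.ker_mk'] at h1
        exact comm_eq_bot_iff.2 (h1.trans (hz'.trans (center_le_centralizer _))))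
    obtain ⟨a, rfl⟩ := hf a
    rw [← index_comap_of_surjective _ hf, ← MonoidHom.map_zpowers, comap_map_eq,
      QuotientGroup.ker_mk'] at ha
    by_cases h1 : z ∈ zpowers a
    · exact ⟨a, by rwa [sup_of_le_left (zpowers_le.2 h1)] at ha⟩
    exfalso
    have hz2 : z ^ 2 = 1 := by rw [← ho, pow_orderOf_eq_one]
    have h2 := PGBasic.card_sup_zpowers Nat.prime_two (cent_le_norm _ (center_le_centralizer _ hz))
      h1 (hz2 ▸ one_mem _)
    have h3 : orderOf a = 2 ^ (n + 2) := by
      have := (zpowers a ⊔ zpowers z).index_mul_card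
      rw [ha, h2, hG, Nat.card_zpowers, pow_succ, pow_succ] at this
      omega
    set A := zpowers a ⊔ zpowers z
    have hA : IsMulCommutative A := comm_sup inferInstance inferInstance
      (cent_symm (hz'.trans (center_le_centralizer _)))
    haveI := PGBasic.normal_of_index_eq hP ha
    obtain ⟨y, -, h4, h5⟩ := BG4.exists_sup_zpowers Nat.prime_two (le_top : A ≤ ⊤)
      (by rwa [relIndex_top_right])
    have hy : y ∈ 𝓝(A) := top_le_norm A ⊤ (mem_top y)
    have h6 : ∀ c ∈ ⁅(⊤ : Subgroup G), (⊤ : Subgroup G)⁆, c ∈ zpowers ⁅y, a⁆ := by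
      intro c hc
      rw [← h5, der_sup_zpowers hA hy, ← H6Off.cmh_range hA hy] at hc
      obtain ⟨⟨v, hv⟩, rfl⟩ := hc
      obtain ⟨_, ⟨i, rfl⟩, _, ⟨j, rfl⟩, rfl⟩ :=
        (mem_sup_norm (top_le_norm (zpowers z) _)).1 hv
      have h7 := map_zpow (H6Off.cmh hA hy) ⟨a, mem_sup_left (mem_zpowers a)⟩ i
      refine ⟨i, Eq.trans h7.symm ?_⟩
      change ⁅y, a ^ i⁆ = ⁅y, a ^ i * z ^ j⁆
      rw [commutatorElement_def, commutatorElement_def, mul_inv_rev, ← mul_assoc y, mul_assoc _ (z ^ j),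
        ← mem_center_iff.1 (zpow_mem hz j)]
      group
    refine not_dvd hT h ((card_dvd h6).trans ?_)
    rw [Nat.card_zpowers, orderOf_dvd_iff_pow_eq_one]
    have h7 : ⁅y, a⁆ ∈ A := comm_le_right (zpowers_le.2 hy)
      (commutator_mem_commutator (mem_zpowers y) (mem_sup_left (mem_zpowers a)))
    obtain ⟨_, ⟨i, rfl⟩, _, ⟨j, rfl⟩, h8⟩ := (mem_sup_norm (top_le_norm (zpowers z) _)).1 h7
    change a ^ i * z ^ j = _ at h8
    have h9 : Commute (a ^ i) (z ^ j) := mem_center_iff.1 (zpow_mem hz j) _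
    rcases Int.even_or_odd' i with ⟨m, rfl | rfl⟩
    · rw [← h8, h9.mul_pow, ← zpow_natCast, ← zpow_natCast, ← zpow_mul, ← zpow_mul,
        orderOf_dvd_iff_zpow_eq_one.1, orderOf_dvd_iff_zpow_eq_one.1, one_mul]
      · rw [ho]; exact Dvd.dvd.mul_left (by push_cast; exact dvd_pow_self 2 (by omega)) _
      · rw [h3]; exact ⟨m, by push_cast; ring⟩
    exfalso
    have h10 := PGFrattini.comm_mem_frattini hP y a
    set M := zpowers z ⊔ zpowers y ⊔ frattini G
    have h11 : a ∈ M := by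
      have h12 : a ^ (2 * m + 1) ∈ M := by
        rw [eq_mul_inv_of_mul_eq h8]
        exact mul_mem (mem_sup_right h10) (inv_mem (mem_sup_left (mem_sup_left ⟨j, rfl⟩)))
      rwa [zpow_add_one, zpow_mul, M.mul_mem_cancel_left (zpow_mem (mem_sup_right
        (zpow_natCast a 2 ▸ PGFrattini.pow_mem_frattini hP a)) m)] at h12
    have h12 : zpowers z ⊔ zpowers y = ⊤ := PGFrattini.eq_top_of_sup_frattini (top_le_iff.1
      (h5.ge.trans (sup_le (sup_le (zpowers_le.2 h11) (le_sup_left.trans le_sup_left))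
        (le_sup_right.trans le_sup_left))))
    exact not_comm h (h12 ▸ comm_sup inferInstance inferInstance
      (hz'.trans (center_le_centralizer _)))

/-- Say that a group has self-centralizing non-cyclic subgroups when every non-cyclic subgroup H satisfies C_G(H) ≤ H. A finite non-abelian 2-group G of order 2^n has self-centralizing non-cyclic subgroups if and only if G has nilpotency class n − 1 (that is, G is dihedral, semidihedral or generalized quaternion). -/
theorem result {G : Type*} [Group G] [Finite G] (hna : ¬ IsMulCommutative G) (n : ℕ) (hG : Nat.card G = 2 ^ n) :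
    (∀ H : Subgroup G, ¬ IsCyclic ↥H → Subgroup.centralizer (H : Set G) ≤ H) ↔ (⊤ : Subgroup G).lowerCentralSeries (n - 2) ≠ ⊥ := by
  have hna' : ¬ IsMulCommutative (⊤ : Subgroup G) := fun h => hna ⟨⟨fun a b =>
    congrArg Subtype.val (h.1.1 ⟨a, mem_top a⟩ ⟨b, mem_top b⟩)⟩⟩
  have hP : IsPGroup 2 G := IsPGroup.of_card hG
  have hT : IsPi {2} (⊤ : Subgroup G) := isPi_of_isPGroup Nat.prime_two (hP.to_subgroup ⊤)
  obtain ⟨n, rfl⟩ : ∃ m, n = m + 3 := ⟨n - 3, by
    by_contra h
    exact hna' (card_p2group_abelian Nat.prime_two (by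
      rw [card_top, hG]; exact pow_dvd_pow 2 (by omega)))⟩
  rw [show n + 3 - 2 = n + 1 from rfl]
  refine ⟨fun h => ?_, fun h H hH x hx => ?_⟩
  · rcases PGNormalCyclic.trichotomy hP with h1 | ⟨E, h1, h2, h3⟩ | ⟨-, m, a, y, h1, h2, h3, -⟩
    · exact absurd (comm_of_cyclic inferInstance) hna'
    · have hE : El 2 2 E := ⟨h2, h3⟩
      have h4 := BG4.relIndex_cent_dvd Nat.prime_two hT (top_le_norm E ⊤) h3.dvd
      rw [le_antisymm (h E (hE.not_cyclic Nat.prime_two)) hE.le_cent] at h4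
      have h5 := card_mul_relIndex (le_top : E ≤ ⊤)
      rw [card_top, hG, h3] at h5
      have h6 : 2 ^ (n + 3) ≤ 2 ^ 3 := by
        have := Nat.le_of_dvd two_pos h4
        omega
      obtain rfl : n = 0 := by
        have := (Nat.pow_le_pow_iff_right one_lt_two).1 h6
        omega
      exact mt comm_iff_der_eq_bot.2 hna'
    · have h4 := PGBasic.card_sup_zpowers Nat.prime_two (PGNormalCyclic.dqs_normalizer h3)
        (PGNormalCyclic.dqs_notMem h1 h3) (PGNormalCyclic.dqs_sq_mem h3)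
      rw [h2, card_top, hG, Nat.card_zpowers, h1, ← pow_succ] at h4
      obtain rfl : n + 2 = m := by
        have := Nat.pow_right_injective le_rfl h4
        omega
      obtain ⟨u, h5, ⟨t, h6⟩, -⟩ := PGNormalCyclic.dqs_conj h3
      have h7 : ∀ k, a ^ ((2 : ℤ) ^ k * (1 - 2 * t) ^ k) ∈ (⊤ : Subgroup G).lowerCentralSeries k := by
        intro k
        induction k with
        | zero => exact mem_top _
        | succ k ih =>
          have := commutator_mem_commutator ih (mem_top y)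
          rwa [commutatorElement_def, mul_assoc, mul_assoc, ← mul_assoc y, ← zpow_neg,
            PGCyclicMax.conj_zpow_eq h5, ← zpow_add, show u = 4 * t - 1 by omega,
            show (2 : ℤ) ^ k * (1 - 2 * t) ^ k + (4 * t - 1) * -(2 ^ k * (1 - 2 * t) ^ k) =
              2 ^ (k + 1) * (1 - 2 * t) ^ (k + 1) by ring] at this
      intro h8
      have h9 := (PGCyclicMax.zpow_eq_one h1).1 (mem_bot.1 (h8.le (h7 _)))
      push_cast at h9
      rw [pow_succ, mul_dvd_mul_iff_left (by positivity)] at h9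
      have := Int.prime_two.dvd_of_dvd_pow h9
      omega
  · obtain ⟨a, ha⟩ := aux n hG h
    haveI := PGBasic.normal_of_index_eq hP ha
    obtain ⟨h1, h2⟩ := abel_max Nat.prime_two (A := zpowers a) inferInstance le_top (top_le_norm _ _)
      (by rwa [relIndex_top_right]) hna'
    obtain ⟨g, hg, h3⟩ := SetLike.not_le_iff_exists.1 (mt (cyc_of_le (cyc_zpowers a)) hH)
    have h4 : ♯(𝓩((⊤ : Subgroup G))) ∣ ♯(H ⊓ zpowers a) := by
      have h5 := (zpowers a).index_mul_card
      rw [← card_mul_relIndex h1, h2, ha, hG] at h5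
      obtain ⟨k, hk⟩ := (hT.of_le (inf_le_left : 𝓩((⊤ : Subgroup G)) ≤ ⊤)).exists_card Nat.prime_two
      have h6 : k ≤ 1 := by
        by_contra h6
        obtain ⟨j, rfl⟩ : ∃ j, k = j + 2 := ⟨k - 2, by omega⟩
        exact not_dvd hT h ((mul_dvd_mul_iff_left (a := 8) (by norm_num)).1
          ⟨2 ^ j, by rw [show 8 * 2 ^ n = 2 ^ (n + 3) by ring, ← h5, hk]; ring⟩)
      refine hk ▸ (pow_dvd_pow 2 h6).trans ((pow_one 2).symm ▸ (hT.of_le le_top).dvd_card fun h7 => hH ?_)
      refine BG4.cyc_of_card_dvd Nat.prime_two ?_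
      rw [← card_inf_mul_relIndex (zpowers a), inf_comm, h7, card_bot, one_mul, ← ha]
      exact relIndex_dvd_index_of_normal _ _
    have h5 := (le_of_cyc_of_dvd (cyc_zpowers a) h1 inf_le_right h4).trans inf_le_left
    have h6 : ∀ v ∈ zpowers a, v ∈ 𝓒₁(g) → v ∈ H := fun v hv h7 => h5 ⟨mem_top v, by
      rw [← PGBasic.sup_zpowers_eq_top_of_index_prime Nat.prime_two ha h3, cent_sup]
      exact ⟨comm_iff_le_cent.1 inferInstance hv, (cent_zpowers g).ge h7⟩⟩
    by_cases h7 : x ∈ zpowers a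
    · exact h6 x h7 (cent_le_cent1 hg hx)
    · exact (H.mul_mem_cancel_right hg).1 (h6 _ ((mul_mem_iff_of_index_two ha).2 (iff_of_false h7 h3))
        (mul_mem (cent_le_cent1 hg hx) (mem_cent1_self g)))

end Cfsg.Agent.S3919
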