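import Cfsg.Statements.S3920
import Cfsg.Agent.Lib.Grp.DihSub

set_option autoImplicit false
open Cfsg

namespace Cfsg.Agent.S3920


/-- Say that a group has self-centralizing non-cyclic subgroups when every non-cyclic subgroup H satisfies C_G(H) ≤ H. For n ≥ 3, the dihedral group of order 2n has self-centralizing non-cyclic subgroups if and only if n is odd or a power of 2. -/
theorem result (n : ℕ) (hn : 3 ≤ n) : (∀ H : Subgroup (DihedralGroup n), ¬ IsCyclic ↥H → Subgroup.centralizer (H : Set (DihedralGroup n)) ≤ H) ↔ (Odd n ∨ ∃ k : ℕ, n = 2 ^ k) := by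
  haveI : NeZero n := ⟨by omega⟩
  constructor
  · intro h
    by_contra hc
    push Not at hc
    obtain ⟨hev, hp⟩ := hc
    rw [Nat.not_odd_iff_even] at hev
    obtain ⟨m, hm⟩ := hev
    obtain ⟨p, pp, pd, p2⟩ : ∃ p, p.Prime ∧ p ∣ n ∧ p ≠ 2 := by
      by_contra hq
      push Not at hq
      exact hp _ (Nat.eq_prime_pow_of_unique_prime_dvd (by omega) (fun h1 h2 => hq _ h1 h2))
    obtain ⟨k, hk⟩ := pd
    have k0 : 0 < k := by rcases k with _ | k; omega; omega
    have p3 : 3 ≤ p := by have := pp.two_le; omega
    have h1 : ¬ IsMulCommutative (CA.DihSub.D n (p : ZMod n)) := by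
      refine CA.DihSub.not_comm (k := (k : ZMod n)) ?_ ?_
      · rw [← Nat.cast_mul, ← hk]; exact ZMod.natCast_self n
      · rw [← Nat.cast_add, Ne, ZMod.natCast_eq_zero_iff]
        intro hd
        have := Nat.le_of_dvd (by omega) hd
        nlinarith
    have h2 := h (CA.DihSub.D n (p : ZMod n)) (fun hc => h1 (@IsCyclic.isMulCommutative _ _ hc))
    have hmm : (m : ZMod n) + m = 0 := by rw [← Nat.cast_add, ← hm]; exact ZMod.natCast_self n
    have h3 : DihedralGroup.r (m : ZMod n) ∈ CA.DihSub.D n (p : ZMod n) := by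
      apply h2
      rw [Subgroup.mem_centralizer_iff]
      rintro (a | a) _
      · simp [add_comm]
      · simp only [DihedralGroup.sr_mul_r, DihedralGroup.r_mul_sr, DihedralGroup.sr.injEq]
        linear_combination hmm
    rw [CA.DihSub.r_mem, ← Nat.cast_mul, ZMod.natCast_eq_zero_iff] at h3
    obtain ⟨c, hc⟩ := h3
    have m0 : 0 < m := by omega
    have : p = 2 * c := by
      apply Nat.eq_of_mul_eq_mul_right m0
      rw [hc, hm]; ring
    exact p2 ((Nat.prime_dvd_prime_iff_eq Nat.prime_two pp).1 ⟨c, this⟩).symm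
  · intro h H hH
    obtain ⟨i, hi⟩ := CA.DihSub.exists_sr' hH
    have key : ∀ m : ZMod n, m + m = 0 → DihedralGroup.r m ∈ H := by
      intro m hm
      rcases h with h | ⟨e, he⟩
      · rw [CA.DihSub.eq_zero_of_odd h hm]; exact H.one_mem
      · by_cases m0 : m = 0
        · rw [m0]; exact H.one_mem
        obtain ⟨j, j0, hj⟩ := CA.DihSub.exists_r hH
        have hex : ∃ a : ℕ, (2 : ZMod n) ^ a * j = 0 := by
          refine ⟨e, ?_⟩
          have : ((2 ^ e : ℕ) : ZMod n) = 0 := by rw [← he]; exact ZMod.natCast_self n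
          push_cast at this
          rw [this, zero_mul]
        classical
        have h1 := Nat.find_spec hex
        have h0 : Nat.find hex ≠ 0 := by
          intro h0; rw [h0] at h1; simp at h1; exact j0 h1
        obtain ⟨a, ha⟩ := Nat.exists_eq_succ_of_ne_zero h0
        have h2 := Nat.find_min hex (m := a) (by omega)
        rw [ha] at h1
        have h3 : m = 2 ^ a * j := CA.DihSub.eq_of_two hm (by rw [← h1, pow_succ]; ring) m0 h2
        have := H.pow_mem hj (2 ^ a)
        rw [DihedralGroup.r_pow] at this
        convert this using 2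
        rw [h3]; push_cast; ring
    rintro (k | k) hk
    · have := (Subgroup.mem_centralizer_iff.1 hk) _ hi
      simp only [DihedralGroup.sr_mul_r, DihedralGroup.r_mul_sr, DihedralGroup.sr.injEq] at this
      exact key k (by linear_combination this)
    · have := (Subgroup.mem_centralizer_iff.1 hk) _ hi
      simp only [DihedralGroup.sr_mul_sr, DihedralGroup.r.injEq] at this
      exact CA.DihSub.sr_mem_of hi (key _ (by linear_combination this))

end Cfsg.Agent.S3920
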