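import Cfsg.Statements.S3949
import Cfsg.Agent.Lib.Odd.BGMisc

set_option autoImplicit false
open Cfsg

namespace Cfsg.Agent.S3949

open Subgroup

/-- Let G be a finite group and α an automorphism of G of order 2 such that the elements g·α(g)⁻¹ generate G. Let j be a positive integer such that 2^j divides the order of no element inverted by α. Then the set of values of the j-th iterate of the map c ↦ c·α(c)⁻¹ is exactly the set of elements of odd order inverted by α. -/
theorem result {G : Type*} [Group G] [Finite G] (α : MulAut G) (hα : orderOf α = 2) (hG : Subgroup.closure (Set.range (fun c : G => c * (α c)⁻¹)) = ⊤)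
    (j : ℕ) (hj : ∀ g : G, α g = g⁻¹ → ¬ 2 ^ j ∣ orderOf g) :
    Set.range ((fun c : G => c * (α c)⁻¹)^[j]) = {g : G | Odd (orderOf g) ∧ α g = g⁻¹} := by
  have hαα : ∀ g, α (α g) = g := fun g => by
    have := pow_orderOf_eq_one α
    rw [hα, pow_two] at this
    exact congrArg (fun β : MulAut G => β g) this
  have hit : ∀ (k : ℕ) (c : G), α c = c⁻¹ → (fun c : G => c * (α c)⁻¹)^[k] c = c ^ 2 ^ k := by
    intro k
    induction k with
    | zero => intro c _; simp
    | succ k ih =>
      intro c hc
      rw [Function.iterate_succ_apply, ih _ (by simp [hαα, hc])]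
      simp only [hc, inv_inv]
      rw [← pow_two, ← pow_mul, pow_succ']
  rcases j with _ | j
  · exact absurd (by simp) (hj 1 (by simp))
  ext x
  constructor
  · rintro ⟨g, rfl⟩
    have h1 : α (g * (α g)⁻¹) = (g * (α g)⁻¹)⁻¹ := by simp [hαα]
    rw [Function.iterate_succ_apply, hit _ _ h1]
    refine ⟨?_, by rw [map_pow, h1, inv_pow]⟩
    have h2 := hj _ h1
    set y := g * (α g)⁻¹
    rw [orderOf_pow' _ (by positivity), ← Nat.not_even_iff_odd, even_iff_two_dvd]
    intro hd
    obtain ⟨i, hi, he⟩ := (Nat.dvd_prime_pow Nat.prime_two).1 (Nat.gcd_dvd_right (orderOf y) (2 ^ j))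
    have h3 : 2 ^ (i + 1) ∣ orderOf y := by
      rw [← Nat.mul_div_cancel' (Nat.gcd_dvd_left (orderOf y) (2 ^ j)), pow_succ]
      exact mul_dvd_mul (he ▸ dvd_rfl) hd
    rcases hi.lt_or_eq with hi | rfl
    · have := Nat.dvd_gcd h3 (pow_dvd_pow 2 hi)
      rw [he] at this
      exact absurd ((Nat.pow_dvd_pow_iff_le_right (by norm_num)).1 this) (by omega)
    · exact h2 h3
  · rintro ⟨h1, h2⟩
    obtain ⟨m, hm⟩ := exists_pow_eq_self_of_coprime (x := x) (n := 2 ^ (j + 1))
      (Nat.Coprime.pow_left _ (Nat.coprime_two_left.2 h1))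
    refine ⟨x ^ m, ?_⟩
    rw [hit _ _ (by rw [map_pow, h2, inv_pow]), ← pow_mul, mul_comm, pow_mul, hm]

end Cfsg.Agent.S3949
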