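import Cfsg.Statements.S3928
import Cfsg.Agent.S3949
import Cfsg.Agent.S3927

set_option autoImplicit false
open Cfsg

namespace Cfsg.Agent.S3928

open Subgroup Finset
open scoped commutatorElement Nat

section
variable {H : Type*} [Group H] [Finite H]

theorem schur {z a : ℕ} (hz : (center H).index ≤ z) (ha : (commutator H).index ≤ a) :
    Nat.card H ≤ z ^ (z * (z * z) + 1) * a := by
  have z0 : 0 < (center H).index := Nat.pos_of_ne_zero index_ne_zero_of_finite
  have h1 : Nat.card (commutatorSet H) ≤ z * z := by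
    refine le_trans (Nat.card_le_card_of_surjective (α := (H ⧸ center H) × (H ⧸ center H))
      (fun x => ⟨_, commutator_mem_commutatorSet x.1.out x.2.out⟩) ?_) (by
        rw [Nat.card_prod]; exact Nat.mul_le_mul hz hz)
    rintro ⟨_, x, y, rfl⟩
    refine ⟨(x, y), Subtype.ext ?_⟩
    obtain ⟨u, hu⟩ := QuotientGroup.mk_out_eq_mul (center H) x
    obtain ⟨v, hv⟩ := QuotientGroup.mk_out_eq_mul (center H) y
    simp only [hu, hv, commutatorElement_def, mul_inv_rev]
    rw [show x * u * (y * v) * ((u : H)⁻¹ * x⁻¹) * ((v : H)⁻¹ * y⁻¹) =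
      x * (u * (y * v) * (u : H)⁻¹) * (x⁻¹ * (v : H)⁻¹) * y⁻¹ by group, ← mem_center_iff.1 u.2, mul_inv_cancel_right,
      mem_center_iff.1 (inv_mem v.2) x⁻¹]
    group
  rw [← (commutator H).card_mul_index]
  refine Nat.mul_le_mul ((Nat.le_of_dvd (Nat.pow_pos z0) (card_commutator_dvd_index_center_pow H)).trans ?_) ha
  exact (Nat.pow_le_pow_left hz _).trans (Nat.pow_le_pow_right (z0.trans_le hz)
    (Nat.succ_le_succ (Nat.mul_le_mul hz h1)))

theorem inv_many (β : H →* H) (hβ : ∀ x, β (β x) = x) {c : ℕ} (hc : Nat.card {x // β x = x} ≤ c) (A : Subgroup H)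
    (hA : ∀ x ∈ A, β x ∈ A) : Nat.card A ≤ c * Nat.card {x // x ∈ A ∧ β x = x⁻¹} := by
  classical
  cases nonempty_fintype H
  rw [Nat.card_eq_fintype_card, Nat.card_eq_fintype_card, Fintype.card_subtype, Fintype.card_subtype] at *
  refine card_le_mul_card_image_of_maps_to (f := fun g => g * (β g)⁻¹) (fun g hg => ?_) _ fun y _ => ?_
  · simp only [mem_filter, mem_univ, true_and] at hg ⊢
    exact ⟨mul_mem hg (inv_mem (hA g hg)), by simp [hβ]⟩
  · rcases (filter (fun g => g * (β g)⁻¹ = y) (filter (· ∈ A) univ)).eq_empty_or_nonempty with e | ⟨g, hg⟩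
    · rw [e]; simp
    refine le_trans (card_le_card_of_injOn (fun x => g⁻¹ * x) (fun x hx => ?_) fun _ _ _ _ e => mul_left_cancel e) hc
    have := (mem_filter.1 hx).2.trans (mem_filter.1 hg).2.symm
    simp only [coe_filter, mem_univ, true_and, Set.mem_ofPred_eq, map_mul, map_inv]
    rw [mul_inv_eq_iff_eq_mul] at this
    nth_rw 2 [this]; group

theorem many_small (β : H →* H) (hβ : ∀ x, β (β x) = x) {c : ℕ} (hc : Nat.card {x // β x = x} ≤ c) :
    Nat.card H ≤ 2 * c ^ 2 * Nat.card {g : H // (centralizer {g}).index ≤ 2 * c ^ 2} := by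
  classical
  cases nonempty_fintype H
  have h1 := inv_many β hβ hc ⊤ (by simp)
  rw [card_top] at h1
  rw [Nat.card_eq_fintype_card (α := Subtype _), Fintype.card_subtype] at h1 ⊢
  set I := filter (fun x : H => x ∈ (⊤ : Subgroup H) ∧ β x = x⁻¹) univ with hI
  set X := filter (fun g : H => (centralizer {g}).index ≤ 2 * c ^ 2) univ with hX
  have h2 : #I * #I ≤ ∑ g : H, Nat.card (centralizer ({g} : Set H)) := by
    rw [← card_product, card_eq_sum_card_fiberwise (f := fun x : H × H => x.1⁻¹ * x.2) (t := univ) (by simp)]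
    refine sum_le_sum fun g _ => ?_
    rcases (filter (fun x : H × H => x.1⁻¹ * x.2 = g) (I ×ˢ I)).eq_empty_or_nonempty with e | ⟨x, hx⟩
    · rw [e]; simp
    have k : ∀ y ∈ filter (fun x : H × H => x.1⁻¹ * x.2 = g) (I ×ˢ I), β g = y.1 * g⁻¹ * y.1⁻¹ := fun y hy => by
      simp only [hI, mem_filter, mem_product, mem_univ, true_and, mem_top] at hy
      rw [← hy.2, map_mul, map_inv, hy.1.1, hy.1.2]; group
    rw [Nat.card_eq_fintype_card, Fintype.card_subtype]
    refine card_le_card_of_injOn (fun y => x.1⁻¹ * y.1) (fun y hy => ?_) fun y hy z hz e => ?_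
    · have := (k x hx).symm.trans (k y hy)
      simp only [coe_filter, mem_univ, true_and, Set.mem_ofPred_eq, mem_centralizer_singleton_iff]
      calc _ = g * (x.1⁻¹ * (x.1 * g⁻¹ * x.1⁻¹) * y.1 * g) := by group
        _ = _ := by rw [this]; group
    · have e1 := mul_left_cancel e
      have e2 := (mem_filter.1 hy).2.trans (mem_filter.1 hz).2.symm
      rw [e1] at e2
      exact Prod.ext e1 (mul_left_cancel e2)
  have h3 : 2 * c ^ 2 * ∑ g : H, Nat.card (centralizer ({g} : Set H)) ≤
      2 * c ^ 2 * #X * Nat.card H + Nat.card H * Nat.card H := by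
    rw [mul_sum, mul_right_comm, Nat.card_eq_fintype_card (α := H), hX, card_filter, mul_sum, ← card_univ,
      ← smul_eq_mul #univ, ← sum_const, ← sum_add_distrib]
    refine sum_le_sum fun g _ => ?_
    have e := (centralizer ({g} : Set H)).card_mul_index
    rw [Nat.card_eq_fintype_card (α := H)] at e
    rw [card_univ, ← e]
    have := Nat.pos_of_ne_zero (centralizer ({g} : Set H)).index_ne_zero_of_finite
    split_ifs with h
    · rw [mul_one]; exact (Nat.mul_le_mul_left _ (Nat.le_mul_of_pos_right _ this)).trans (Nat.le_add_right _ _)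
    · rw [mul_zero, zero_add, mul_comm]; exact Nat.mul_le_mul_left _ (not_le.1 h).le
  have h4 := Nat.mul_le_mul h1 h1
  have h5 : 0 < Nat.card H := Nat.card_pos
  refine Nat.le_of_mul_le_mul_right ?_ h5
  nlinarith

theorem core {S : Set H} (hS : closure S = ⊤) {m : ℕ} (hm : Nat.card S ≤ m) (n : ℕ) :
    (centralizer {g : H | (centralizer {g}).index ≤ n}).index ≤ n ! ^ n ! ^ m := by
  classical
  let Φ : H →* ((H →* Equiv.Perm (Fin n)) → Equiv.Perm (Fin n)) := MonoidHom.pi fun ψ => ψ
  haveI : Finite (H →* Equiv.Perm (Fin n)) := DFunLike.finite _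
  have h1 : Nat.card (H →* Equiv.Perm (Fin n)) ≤ n ! ^ m := (Nat.card_le_card_of_injective
    (fun ψ (s : S) => ψ s) fun ψ χ e => MonoidHom.eq_of_eqOn_dense hS fun s hs => congrFun e ⟨s, hs⟩).trans (by
      rw [Nat.card_fun, Nat.card_perm, Nat.card_fin]; exact Nat.pow_le_pow_right n.factorial_pos hm)
  refine le_trans (index_antitone (H := Φ.ker) fun x hx => mem_centralizer_iff.2 fun g hg => ?_) ?_
  · obtain ⟨e⟩ : Nonempty ((H ⧸ centralizer ({g} : Set H)) ↪ Fin n) := by
      cases nonempty_fintype (H ⧸ centralizer ({g} : Set H))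
      exact Function.Embedding.nonempty_of_card_le (by rwa [Fintype.card_fin, ← Nat.card_eq_fintype_card])
    have h2 : (Equiv.Perm.viaEmbeddingHom e).comp (MulAction.toPermHom H _) x = 1 :=
      congrFun (MonoidHom.mem_ker.1 hx) ((Equiv.Perm.viaEmbeddingHom e).comp (MulAction.toPermHom H _))
    have h3 : x ∈ (centralizer ({g} : Set H)).normalCore := by
      rw [normalCore_eq_ker]; exact (injective_iff_map_eq_one _).1 (Equiv.Perm.viaEmbeddingHom_injective e) _ h2
    exact normalCore_le _ h3 g rfl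
  · rw [index_ker]
    exact (card_le_card_group _).trans (by
      rw [Nat.card_fun, Nat.card_perm, Nat.card_fin]; exact Nat.pow_le_pow_right n.factorial_pos h1)

theorem center_le (β : H →* H) (hβ : ∀ x, β (β x) = x) {c m : ℕ} (hc : Nat.card {x // β x = x} ≤ c) {S : Set H}
    (hS : closure S = ⊤) (hm : Nat.card S ≤ m) (h : ∀ s ∈ S, Odd (orderOf s) ∧ β s = s⁻¹) :
    (center H).index ≤ (2 * c ^ 2 * (2 * c ^ 2)! ^ (2 * c ^ 2)! ^ m * c)! := by
  set X := {g : H | (centralizer {g}).index ≤ 2 * c ^ 2} with hX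
  have h0 : 0 < Nat.card H := Nat.card_pos
  have h1 : (closure X).index ≤ 2 * c ^ 2 := by
    have e1 := many_small β hβ hc
    have e2 : Nat.card X ≤ Nat.card (closure X) := Nat.card_le_card_of_injective (Set.inclusion subset_closure)
      (Set.inclusion_injective _)
    rw [← (closure X).card_mul_index, mul_comm] at e1
    exact Nat.le_of_mul_le_mul_right (e1.trans (Nat.mul_le_mul_left _ e2)) Nat.card_pos
  have bX : ∀ x ∈ X, β x ∈ X := fun x hx => by
    have := index_comap_of_surjective (H := centralizer {β x}) (f := β) fun y => ⟨β y, hβ y⟩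
    refine this.ge.trans ((index_antitone fun y hy => ?_).trans hx)
    rw [mem_comap, mem_centralizer_singleton_iff, ← map_mul, mem_centralizer_singleton_iff.1 hy, map_mul]
  set A := closure X ⊓ centralizer X with hA
  have cm : ∀ a ∈ A, ∀ b ∈ A, a * b = b * a := fun a ha b hb => (centralizer_closure X ▸ hb.2 :) a ha.1
  let B : Subgroup H :=
    { carrier := {x | x ∈ A ∧ β x = x⁻¹}
      one_mem' := by simp
      mul_mem' := fun {a b} ha hb => ⟨mul_mem ha.1 hb.1, by rw [map_mul, ha.2, hb.2, cm a ha.1 b hb.1, mul_inv_rev]⟩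
      inv_mem' := fun ha => ⟨inv_mem ha.1, by rw [map_inv, ha.2]⟩ }
  have h2 : Nat.card A ≤ c * Nat.card B := inv_many β hβ hc A fun x hx => ⟨(closure_le (K := (closure X).comap β)).2
    (fun y hy => subset_closure (bX y hy)) hx.1, fun y hy => by rw [← hβ y, ← map_mul, hx.2 _ (bX y hy), map_mul]⟩
  have h3 : B.index ≤ A.index * c := by
    have e1 := A.card_mul_index.trans B.card_mul_index.symm
    refine Nat.le_of_mul_le_mul_left (c := Nat.card B) ?_ Nat.card_pos
    rw [← e1]; nlinarith
  have h4 : B.normalCore.index ∣ B.index ! := by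
    rw [normalCore_eq_ker, index_ker, index_eq_card, ← Nat.card_perm]; exact card_subgroup_dvd_card _
  refine (index_antitone (H := B.normalCore) fun b hb => mem_center_iff.2 fun g => ?_).trans
    ((Nat.le_of_dvd (Nat.factorial_pos _) h4).trans (Nat.factorial_le (h3.trans (Nat.mul_le_mul_right _
      (index_inf_le.trans (Nat.mul_le_mul h1 (core hS hm _)))))))
  refine mem_centralizer_singleton_iff.1 ((hS.ge.trans ((closure_le (K := centralizer {b})).2 fun s hs => ?_)) (mem_top g))
  have e1 := (hb s).2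
  rw [map_mul, map_mul, map_inv, (h s hs).2, (normalCore_le _ hb).2] at e1
  have e2 : s ^ 2 ∈ centralizer {b} := mem_centralizer_singleton_iff.2 (by
    calc _ = s * (s * b * s⁻¹)⁻¹⁻¹ * s := by rw [pow_two]; group
      _ = _ := by rw [← e1, pow_two]; group)
  exact zpowers_le.2 e2 (mem_zpowers_pow_iff.2 (Nat.coprime_two_left.2 (h s hs).1))

end

/-- There is a function f such that for every non-trivial finite group G and every automorphism α of G of order 2 with [G, α] = G (the elements g·α(g)⁻¹ generate G), the order of G is at most f(m), where m is the number of elements of odd order inverted by α. -/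
theorem result : ∃ f : ℕ → ℕ, ∀ (G : Type) [Group G] [Finite G] [Nontrivial G] (α : MulAut G), orderOf α = 2 →
    Subgroup.closure (Set.range (fun c : G => c * (α c)⁻¹)) = ⊤ →
      Nat.card G ≤ f (Nat.card {g : G // Odd (orderOf g) ∧ α g = g⁻¹}) := by
  refine ⟨fun m => let z := (2 * m ! ^ 2 * (2 * m ! ^ 2)! ^ (2 * m ! ^ 2)! ^ m * m !)!
    let w := z ^ (z * (z * z) + 1) * m; w ^ (w * (w * w) + 1) * m, fun G _ _ _ α h1 h2 => ?_⟩
  set J := {g : G | Odd (orderOf g) ∧ α g = g⁻¹} with hJ
  have a2 : ∀ x, α (α x) = x := fun x => by rw [← MulAut.mul_apply, ← pow_two, ← h1, pow_orderOf_eq_one]; rfl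
  have e1 := S3949.result α h1 h2 (Nat.card G + 1) fun g _ e => by
    have := Nat.le_of_dvd Nat.card_pos (e.trans (orderOf_dvd_natCard g))
    have := Nat.lt_two_pow_self (n := Nat.card G + 1)
    omega
  have e2 := S3927.result α h2 (Nat.card G + 1) (by omega)
  rw [e1, ← hJ] at e2
  have h3 : (commutator G).index ≤ Nat.card J := by
    let F : Monoid.End (Abelianization G) := MonoidHom.id _ / Abelianization.map α.toMonoidHom
    have k : ∀ j (g : G), Abelianization.of ((fun c : G => c * (α c)⁻¹)^[j] g) = (F ^ j : Monoid.End _)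
        (Abelianization.of g) := fun j g => by
      induction j with
      | zero => rfl
      | succ j ih => rw [Function.iterate_succ_apply', pow_succ', Monoid.End.coe_mul, Function.comp_apply, ← ih,
          ← div_eq_mul_inv (_ ^[j] g), map_div]; rfl
    refine Nat.card_le_card_of_surjective (β := Abelianization G) (fun x : J => Abelianization.of x.1) fun y => ?_
    obtain ⟨g, rfl⟩ := QuotientGroup.mk_surjective y
    obtain ⟨y, hy⟩ := e2.ge.trans ((closure_le (K := (MonoidHom.range (F ^ (Nat.card G + 1) : Monoid.End _)).comap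
      Abelianization.of)).2 fun s hs => by
        obtain ⟨c, rfl⟩ := e1.ge hs
        exact ⟨_, (k _ c).symm⟩) (mem_top g)
    obtain ⟨c, rfl⟩ := QuotientGroup.mk_surjective y
    exact ⟨⟨_, e1.le ⟨c, rfl⟩⟩, (k _ c).trans hy⟩
  let β : G ⧸ center G →* G ⧸ center G := QuotientGroup.map _ _ α.toMonoidHom fun z hz =>
    mem_center_iff.2 fun g => by
      rw [← a2 g]; exact (map_mul α _ _).symm.trans ((congrArg α (mem_center_iff.1 hz _)).trans (map_mul α _ _))
  have bm : ∀ g : G, β g = α g := fun _ => rfl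
  refine schur (schur (center_le β (fun x => ?_) (S := QuotientGroup.mk '' J) ?_ ?_ ?_ ?_) ?_) h3
  · obtain ⟨g, rfl⟩ := QuotientGroup.mk_surjective x
    rw [bm, bm, a2]
  · have k : ∀ x : {x // β x = x}, ∀ s ∈ J, x.1.out * s * x.1.out⁻¹ ∈ J := fun x s hs => by
      have e := x.2
      rw [← x.1.out_eq', bm, QuotientGroup.eq] at e
      generalize x.1.out = g at *
      refine ⟨by rw [← MulAut.conj_apply, MulEquiv.orderOf_eq]; exact hs.1, ?_⟩
      rw [map_mul, map_mul, map_inv, hs.2, show α g = g * ((α g)⁻¹ * g)⁻¹ by group, mul_assoc g,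
        ← mem_center_iff.1 (inv_mem e)]
      group
    haveI : Fintype J := Fintype.ofFinite _
    refine (Nat.card_le_card_of_injective (β := J ↪ J) (fun x => ⟨fun s => ⟨_, k x s s.2⟩, fun s t e =>
      Subtype.ext (by simpa using e)⟩) fun x y e => Subtype.ext ?_).trans (by
        classical
        rw [Nat.card_eq_fintype_card, Fintype.card_embedding_eq, Nat.descFactorial_self, ← Nat.card_eq_fintype_card]
        exact le_rfl)
    rw [← x.1.out_eq', ← y.1.out_eq', QuotientGroup.eq]
    refine mem_center_iff.2 fun g => (mem_centralizer_singleton_iff.1 ((e2.ge.trans ((closure_le (K := centralizer {_})).2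
      fun s hs => mem_centralizer_singleton_iff.2 ?_)) (mem_top g)))
    have : x.1.out * s * x.1.out⁻¹ = y.1.out * s * y.1.out⁻¹ := congrArg Subtype.val (DFunLike.congr_fun e ⟨s, hs⟩)
    calc _ = x.1.out⁻¹ * (x.1.out * s * x.1.out⁻¹) * y.1.out := by group
      _ = _ := by rw [this]; group
  · rw [← QuotientGroup.coe_mk', ← MonoidHom.map_closure, e2]
    exact map_top_of_surjective _ (QuotientGroup.mk'_surjective _)
  · exact Nat.card_image_le (Set.toFinite _)
  · rintro _ ⟨s, hs, rfl⟩
    exact ⟨hs.1.of_dvd_nat (orderOf_map_dvd (QuotientGroup.mk' _) s), by rw [bm, hs.2]; rfl⟩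
  · refine le_trans (Nat.le_of_dvd (Nat.pos_of_ne_zero index_ne_zero_of_finite) ?_) h3
    have := index_map_dvd (H := commutator G) (QuotientGroup.mk'_surjective (center G))
    rwa [map_commutator_eq, MonoidHom.range_eq_top.2 (QuotientGroup.mk'_surjective _)] at this

end Cfsg.Agent.S3928
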