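import Cfsg.Statements.S3937
import Cfsg.Agent.Lib.Grp.Subn
import Cfsg.Agent.Lib.Grp.Core
import Cfsg.Agent.Lib.Grp.H1Basic

set_option autoImplicit false
open Cfsg

namespace Cfsg.Agent.S3937

open Subgroup CA.Subn

theorem fold_succ {G : Type*} [Group G] (g x : G) (n : ℕ) :
    (List.replicate (n + 1) g).foldl (fun a b => a * b * a⁻¹ * b⁻¹) x =
      (List.replicate n g).foldl (fun a b => a * b * a⁻¹ * b⁻¹) (x * g * x⁻¹ * g⁻¹) := rfl

theorem fold_map {G H : Type*} [Group G] [Group H] (f : G →* H) (g : G) (n : ℕ) : ∀ x : G,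
    f ((List.replicate n g).foldl (fun a b => a * b * a⁻¹ * b⁻¹) x) =
      (List.replicate n (f g)).foldl (fun a b => a * b * a⁻¹ * b⁻¹) (f x) := by
  induction n with
  | zero => intro x; rfl
  | succ n ih => intro x; rw [fold_succ, fold_succ, ih]; simp

theorem main (n : ℕ) : ∀ {G : Type*} [Group G] [Finite G] (g : G), Nat.card G = n →
    (∀ x : G, ∃ n : ℕ, (List.replicate n g).foldl (fun a b => a * b * a⁻¹ * b⁻¹) x = 1) → (zpowers g).IsSubnormal := by
  induction n using Nat.strong_induction_on with
  | _ n ih =>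
  intro G _ _ g hn h
  have hp : ∀ H : Subgroup G, H ≠ ⊤ → zpowers g ≤ H → SN (zpowers g) H := by
    intro H hH hg
    have hg' := hg (mem_zpowers g)
    have := ih _ (hn ▸ CA.H1Basic.card_lt_of_ne_top hH) (⟨g, hg'⟩ : H) rfl fun x => by
      obtain ⟨k, hk⟩ := h x
      exact ⟨k, Subtype.ext ((fold_map H.subtype _ k x).trans hk)⟩
    have := SN.map_subtype this
    rwa [MonoidHom.map_zpowers] at this
  by_contra hS
  by_cases ht : zpowers g = ⊤
  · exact hS (ht ▸ SN.top_iff.1 (SN.refl _))
  obtain ⟨M, hM, hgM⟩ := (eq_top_or_exists_le_coatom (zpowers g)).resolve_left ht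
  have hMn : ¬ M.Normal := fun hN => hS ((hp M hM.1 hgM).subnormal (subnormal_of_le_normalizer le_top
    (by rw [normalizer_eq_top]) (SN.top_iff.1 (SN.refl _))))
  have hN : normalizer (M : Set G) = M := by
    by_contra e
    exact hMn (normalizer_eq_top_iff.1 (hM.2 _ (lt_of_le_of_ne le_normalizer (Ne.symm e))))
  have step : ∀ x : G, x * g * x⁻¹ * g⁻¹ ∈ M → x ∈ M := by
    intro x hx
    have h1 : x * g * x⁻¹ ∈ M := by simpa using mul_mem hx (hgM (mem_zpowers g))
    have e := zipper (zpowers g) hp hS hM (K := M.comap (MulAut.conj x).toMonoidHom)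
      ((OrderIso.isCoatom_iff (MulEquiv.comapSubgroup (MulAut.conj x)) M).2 hM) hgM
      (zpowers_le.2 (by simpa using h1))
    rw [← hN]
    refine mem_normalizer_iff.2 fun a => ?_
    conv_lhs => rw [e]
    simp
  have : ∀ k, ∀ x : G, (List.replicate k g).foldl (fun a b => a * b * a⁻¹ * b⁻¹) x = 1 → x ∈ M := by
    intro k
    induction k with
    | zero => intro x hx; rw [show x = 1 from hx]; exact one_mem _
    | succ k ih => intro x hx; exact step x (ih _ hx)
  exact hM.1 (eq_top_iff.2 fun x _ => (h x).elim fun k hk => this k x hk)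

/-- Baer's characterization of the Fitting subgroup: in a finite group G, an element g lies in the Fitting subgroup if and only if g is a left Engel element, that is, for every x there is n with [x, g, g, …, g] = 1 (n entries g, [a, b] = aba⁻¹b⁻¹). -/
theorem result {G : Type*} [Group G] [Finite G] (g : G) :
    g ∈ Cfsg.fittingSubgroup G ↔ ∀ x : G, ∃ n : ℕ, (List.replicate n g).foldl (fun a b => a * b * a⁻¹ * b⁻¹) x = 1 := by
  constructor
  · intro hg x
    obtain ⟨n, hn⟩ := (isNilpotent_iff_lowerCentralSeries (Cfsg.fittingSubgroup G)).1 CA.Core.isNilpotent_fitting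
    have : ∀ k j, ∀ y ∈ (Cfsg.fittingSubgroup G).lowerCentralSeries j,
        (List.replicate k g).foldl (fun a b => a * b * a⁻¹ * b⁻¹) y ∈ (Cfsg.fittingSubgroup G).lowerCentralSeries (j + k) := by
      intro k
      induction k with
      | zero => intro j y hy; exact hy
      | succ k ih =>
        intro j y hy
        rw [fold_succ, show j + (k + 1) = j + 1 + k by omega]
        exact ih _ _ (commutator_mem_commutator hy hg)
    refine ⟨n + 1, ?_⟩
    have h0 : x * g * x⁻¹ * g⁻¹ ∈ Cfsg.fittingSubgroup G :=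
      mul_mem ((inferInstance : (Cfsg.fittingSubgroup G).Normal).conj_mem _ hg x) (inv_mem hg)
    have := this n 0 _ h0
    rwa [zero_add, hn, mem_bot] at this
  · intro h
    exact CA.Core.le_fitting_of_subnormal (main _ g rfl h) (@CommGroup.isNilpotent _ IsCyclic.commGroup) (mem_zpowers g)

end Cfsg.Agent.S3937
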