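import Cfsg.Statements.S3939
import Cfsg.Agent.Lib.Odd.BGMisc
import Cfsg.Agent.Lib.Grp.PRes
import Cfsg.Agent.Lib.Grp.NPC2

set_option autoImplicit false
open Cfsg

namespace Cfsg.Agent.S3939

open CA.BG CA.OQuo Subgroup
open scoped commutatorElement

/-- In a finite group G the set of elements g such that the subgroup generated by g and x is nilpotent for every x ∈ G is exactly the hypercenter of G (the last term of the upper central series). -/
theorem result {G : Type*} [Group G] [Finite G] (g : G) :
    (∀ x : G, Group.IsNilpotent ↥(Subgroup.closure ({x, g} : Set G))) ↔ g ∈ ⨆ n : ℕ, Subgroup.upperCentralSeries G n := by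
  constructor
  · intro h
    refine (le_of_forall_syl (H := zpowers g) fun p hp _ => ?_) (mem_zpowers g)
    haveI := Fact.mk hp
    obtain ⟨Q, hQ⟩ := syl_exists hp (zpowers g)
    refine ⟨Q, hQ, ?_⟩
    obtain ⟨P0, hP0, hQP⟩ := syl_superset hp hQ.pi (le_top (a := Q))
    obtain ⟨P, rfl⟩ := hP0.exists_sylow_top hp
    have hD : Q ≤ 𝓒(Cfsg.pResidual p G) := by
      rw [le_centralizer_iff, CA.PRes.pResidual_le_iff]
      intro y hy
      refine mem_cent.2 fun a ha => ?_
      have h1 : a ∈ closure ({y, g} : Set G) :=
        (zpowers_le_iff.2 (subset_closure (by simp))) (hQ.le ha)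
      refine CA.NPC2.commute_of_coprime_of_isNilpotent (h y) h1 (subset_closure (by simp)) ?_
      exact (hQ.pi.orderOf ha).coprime ((piNat_compl_iff_coprime hp).2 hy)
    have key : ∀ n, ∀ x : (P : Subgroup G), x ∈ Subgroup.upperCentralSeries (P : Subgroup G) n → (x : G) ∈ 𝓒(Cfsg.pResidual p G) →
        (x : G) ∈ Subgroup.upperCentralSeries G n := by
      intro n
      induction n with
      | zero => intro x hx _; rw [Subgroup.upperCentralSeries_zero, mem_bot] at hx ⊢; rw [hx]; rfl
      | succ n ih =>
        intro x hx hc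
        rw [Subgroup.mem_upperCentralSeries_succ_iff] at hx ⊢
        intro y
        obtain ⟨o, ho, u, hu, rfl⟩ := CA.PRes.exists_mul_eq_pResidual_sylow P y
        have hc2 : ⁅(x : G), u⁆ ∈ 𝓒(Cfsg.pResidual p G) := by
          rw [commutatorElement_def, mul_assoc, mul_assoc]
          exact mul_mem hc (by
            have := (inferInstance : (𝓒(Cfsg.pResidual p G)).Normal).conj_mem _ (inv_mem hc) u
            simpa [mul_assoc] using this)
        have e : ⁅(x : G), o * u⁆ = ⁅(x : G), u⁆ := by
          have a1 := mem_cent.1 hc o ho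
          have a2 := mem_cent.1 hc2 o ho
          calc ⁅(x : G), o * u⁆ = (x * o) * u * (x : G)⁻¹ * u⁻¹ * o⁻¹ := by simp [commutatorElement_def, mul_assoc]
            _ = (o * ⁅(x : G), u⁆) * o⁻¹ := by rw [← a1]; simp [commutatorElement_def, mul_assoc]
            _ = _ := by rw [a2]; simp
        rw [e]
        exact ih _ (hx ⟨u, hu⟩) hc2
    obtain ⟨n, hn⟩ := (P.isPGroup'.isNilpotent).nilpotent
    intro a ha
    exact mem_iSup_of_mem n (key n ⟨a, hQP ha⟩ (hn ▸ mem_top _) (hD ha))
  · intro h x
    obtain ⟨n, hn⟩ := (mem_iSup_of_directed (Subgroup.upperCentralSeries_mono G).directed_le).1 h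
    set K := closure ({x, g} : Set G)
    have key : ∀ n, ∀ y : K, (y : G) ∈ Subgroup.upperCentralSeries G n → y ∈ Subgroup.upperCentralSeries K n := by
      intro n
      induction n with
      | zero => intro y hy; rw [Subgroup.upperCentralSeries_zero, mem_bot] at hy ⊢; exact Subtype.ext hy
      | succ n ih => intro y hy; rw [Subgroup.mem_upperCentralSeries_succ_iff] at hy ⊢; exact fun z => ih _ (hy z)
    have hx : x ∈ K := subset_closure (by simp)
    have hg : g ∈ K := subset_closure (by simp)
    set N := Subgroup.upperCentralSeries K n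
    have hc : ∀ a b : K ⧸ N, a * b = b * a := by
      have : ∀ a : K, (a : K ⧸ N) ∈ zpowers (((⟨x, hx⟩ : K) : K ⧸ N)) := by
        rintro ⟨a, ha⟩
        induction ha using closure_induction with
        | mem y hy =>
          rcases hy with rfl | rfl
          · exact mem_zpowers _
          · rw [(QuotientGroup.eq_one_iff _).2 (key n ⟨y, hg⟩ hn)]; exact one_mem _
        | one => exact one_mem _
        | mul a b ha hb iha ihb => exact mul_mem iha ihb
        | inv a ha ih => exact inv_mem ih
      intro a b
      induction a using QuotientGroup.induction_on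
      induction b using QuotientGroup.induction_on
      rename_i a b
      obtain ⟨i, hi⟩ := this a
      obtain ⟨j, hj⟩ := this b
      rw [← hi, ← hj]; exact zpow_mul_comm _ _ _
    refine ⟨n + 1, eq_top_iff.2 fun a _ => Subgroup.mem_upperCentralSeries_succ_iff.2 fun b => ?_⟩
    rw [← QuotientGroup.eq_one_iff, commutatorElement_def]
    show ((a : K ⧸ N) * b * (a : K ⧸ N)⁻¹ * (b : K ⧸ N)⁻¹) = 1
    rw [hc a b]; simp

end Cfsg.Agent.S3939
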