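import Cfsg.Statements.S3941
import Mathlib.GroupTheory.SpecificGroups.Alternating.Simple

set_option autoImplicit false
open Cfsg

namespace Cfsg.Agent.S3941

open Subgroup Equiv

/-- Let n ≥ 5 and p an odd prime with p ≤ n, and suppose that every proper subgroup of the alternating group of degree n whose order is divisible by p has a normal Sylow p-subgroup. Then n = p. -/
theorem result (n p : ℕ) (hn : 5 ≤ n) [Fact p.Prime] (hp : p ≠ 2) (hpn : p ≤ n)
    (h : ∀ H : Subgroup ↥(alternatingGroup (Fin n)), H ≠ ⊤ → p ∣ Nat.card ↥H → Cfsg.IsPClosed p ↥H) : n = p := by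
  by_contra hne
  have hpp := (Fact.out : p.Prime)
  rcases (show n = 5 ∨ 6 ≤ n by omega) with rfl | h6
  · have : p = 3 := by
      have := hpp.two_le
      interval_cases p <;> simp_all (config := {decide := true})
    subst this
    let H := MulAction.stabilizer (alternatingGroup (Fin 5)) (4 : Fin 5)
    let a : H := ⟨⟨swap 0 1 * swap 1 2, by rw [Perm.mem_alternatingGroup]; decide⟩, by
      rw [MulAction.mem_stabilizer_iff]; decide⟩
    let b : H := ⟨⟨swap 1 2 * swap 2 3 , by rw [Perm.mem_alternatingGroup]; decide⟩, by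
      rw [MulAction.mem_stabilizer_iff]; decide⟩
    have ha : a ^ 3 = 1 := Subtype.ext (Subtype.ext (by decide))
    have hb : b ^ 3 = 1 := Subtype.ext (Subtype.ext (by decide))
    have hab : (a * b) ^ 2 = 1 := Subtype.ext (Subtype.ext (by decide))
    have hab1 : a * b ≠ 1 := fun h => absurd (congrArg (fun x : H => x.1.1) h) (by decide)
    have ha1 : a ≠ 1 := fun h => absurd (congrArg (fun x : H => x.1.1) h) (by decide)
    have hH : H ≠ ⊤ := fun e => by
      have : (⟨swap 4 1 * swap 1 2, by rw [Perm.mem_alternatingGroup]; decide⟩ : alternatingGroup (Fin 5)) ∈ H :=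
        e ▸ mem_top _
      rw [MulAction.mem_stabilizer_iff] at this
      exact absurd this (by decide)
    have hc := h H hH (orderOf_eq_prime ha ha1 ▸ orderOf_dvd_natCard a)
    have pg : ∀ x : H, x ^ 3 = 1 → IsPGroup 3 (zpowers x) := fun x hx => by
      rintro ⟨_, i, rfl⟩
      refine ⟨1, Subtype.ext ?_⟩
      show (x ^ i) ^ (3 ^ 1) = 1
      rw [pow_one, ← zpow_natCast, ← zpow_mul, mul_comm, zpow_mul, zpow_natCast, hx, one_zpow]
    obtain ⟨P, hP⟩ := (pg a ha).exists_le_sylow
    obtain ⟨Q, hQ⟩ := (pg b hb).exists_le_sylow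
    haveI := Sylow.unique_of_normal P (hc P)
    obtain rfl : P = Q := Subsingleton.elim _ _
    obtain ⟨k, hk⟩ := P.isPGroup' ⟨a * b, mul_mem (hP (mem_zpowers a)) (hQ (mem_zpowers b))⟩
    have h1 : orderOf (a * b) ∣ 3 ^ k := orderOf_dvd_of_pow_eq_one (congrArg Subtype.val hk)
    rw [orderOf_eq_prime hab hab1] at h1
    exact absurd (Nat.prime_two.dvd_of_dvd_pow h1) (by decide)
  · let s : Finset (Fin n) := Finset.univ.erase ⟨0, by omega⟩
    have hs : Nat.card s = n - 1 := by simp [s]
    haveI : Nontrivial s := Finite.one_lt_card_iff_nontrivial.1 (by omega)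
    haveI : Nontrivial (Fin n) := Fin.nontrivial_iff_two_le.2 (by omega)
    have e := MonoidHom.ofInjective (alternatingGroup.ofSubtype_injective (s := s))
    haveI := alternatingGroup.isSimpleGroup (α := s) (by omega)
    haveI := e.symm.isSimpleGroup
    have c1 := two_mul_nat_card_alternatingGroup (α := s)
    have c2 := two_mul_nat_card_alternatingGroup (α := Fin n)
    rw [Nat.card_perm, hs, Nat.card_congr e.toEquiv] at c1
    rw [Nat.card_perm, Nat.card_eq_fintype_card (α := Fin n), Fintype.card_fin] at c2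
    set H := (alternatingGroup.ofSubtype s).range
    have hH : H ≠ ⊤ := fun h => by
      rw [h, card_top, c2] at c1
      exact absurd ((Nat.factorial_inj' (by omega)).1 c1) (by omega)
    have hpd : p ∣ Nat.card H :=
      (Nat.Coprime.dvd_of_dvd_mul_left ((Nat.coprime_primes hpp Nat.prime_two).2 hp)
        (c1 ▸ hpp.dvd_factorial.2 (by omega)))
    have h2 : 2 ∣ Nat.card H := by
      have : 2 * 2 ∣ 2 * Nat.card H := c1 ▸ Nat.dvd_factorial (by omega) (by omega)
      exact Nat.dvd_of_mul_dvd_mul_left two_pos this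
    obtain ⟨P⟩ := (inferInstance : Nonempty (Sylow p H))
    rcases (h H hH hpd P).eq_bot_or_eq_top with e | e
    · exact P.ne_bot_of_dvd_card hpd e
    · obtain ⟨k, hk⟩ := P.isPGroup'.exists_card_eq
      rw [e, card_top] at hk
      exact hp ((Nat.prime_dvd_prime_iff_eq Nat.prime_two hpp).1 (Nat.prime_two.dvd_of_dvd_pow (hk ▸ h2))).symm

end Cfsg.Agent.S3941
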