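import Cfsg.Statements.S3947
import Cfsg.Agent.Lib.Grp.H7Zip

set_option autoImplicit false
open Cfsg

namespace Cfsg.Agent.S3947

/-- Let G be a finite group and A a proper subgroup of G whose normal closure is G. Let Y be the join of all proper subgroups H of G that contain A and are generated by their own conjugates of A (the normal closure of A in H is H). Then either Y = G, or A is contained in exactly one maximal subgroup of G. -/
theorem result {G : Type*} [Group G] [Finite G] (A : Subgroup G) (hA : Subgroup.normalClosure (A : Set G) = ⊤) (hAG : A ≠ ⊤) :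
    sSup {H : Subgroup G | A ≤ H ∧ H ≠ ⊤ ∧ Subgroup.normalClosure ((A.subgroupOf H : Subgroup ↥H) : Set ↥H) = ⊤} = ⊤ ∨
      ∃! M : Subgroup G, IsCoatom M ∧ A ≤ M := by
  refine or_iff_not_imp_left.2 fun h => ?_
  obtain ⟨M, hM, hle⟩ := (eq_top_or_exists_le_coatom _).resolve_left h
  have lM : A ≤ M := (le_sSup (a := A) (by
    exact ⟨le_rfl, hAG, (CA.H7Zip.nc_iff le_rfl).2 fun N a _ => a⟩)).trans hle
  exact ⟨M, ⟨hM, lM⟩, fun K hK => CA.H7Zip.gzip A hA hM lM
    (fun H a b c => (le_sSup (a := H) (by exact ⟨a, b, c⟩)).trans hle) hK.1 hK.2⟩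

end Cfsg.Agent.S3947
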