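import Cfsg.Statements.S3974
import Cfsg.Agent.Lib.Grp.SchurTr

set_option autoImplicit false
universe u v
open Cfsg

namespace Cfsg.Agent.S3974

open CA.SchurHopf CA.SchurExt CA.SchurTr

section
variable {Q : Type*} [Group Q] [Finite Q]

instance kc : CommGroup (pE (can Q)).ker := { (inferInstance : Group (pE (can Q)).ker) with
    mul_comm := fun a b => Subtype.ext (Subgroup.mem_center_iff.mp (pE_central _ b.2) a.1) }

/-- a Schur cover is a quotient of `E` by a complement of `M` -/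
theorem cover_data {Γ : Type*} [Group Γ] (σ : Γ →* Q) (hσ : IsStemExtension σ)
    (h : Nat.card (M (can Q)) ≤ Nat.card σ.ker) : ∃ φ : E (can Q) →* Γ, σ.comp φ = pE (can Q) ∧
      Function.Surjective φ ∧ φ.ker ⊓ M (can Q) = ⊥ ∧ (M (can Q)).map φ = σ.ker := by
  obtain ⟨φ, hφ⟩ := exists_lift (can Q) σ hσ.1 hσ.2.1
  have hs := pE_surj (can_surj Q)
  have h4 := map_mult hσ.2.1 φ (hφ ▸ hs)
  rw [hφ, mult_eq_ker hσ] at h4
  obtain ⟨f, hf, hf2⟩ := exists_surj_of_map φ h4
  haveI := finite_right (has_can Q)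
  have hinj := (equiv_of_surj_of_card_le f hf h).1
  refine ⟨φ, hφ, surj_of_stem hσ φ (hφ ▸ hs), ?_, h4⟩
  rw [eq_bot_iff]
  rintro m ⟨h1, h2⟩
  exact congrArg Subtype.val (show (⟨m, h2⟩ : M (can Q)) = 1 from
    hinj (Subtype.ext (by rw [hf2, map_one]; exact h1)))

theorem pow_mem_sup (x : E (can Q)) :
    x ^ Nat.card (Abelianization Q) ∈ (pE (can Q)).ker ⊔ commutator (E (can Q)) := by
  have h1 : pE (can Q) x ^ Nat.card (Abelianization Q) ∈ commutator Q := by
    rw [← Abelianization.ker_of, MonoidHom.mem_ker, map_pow, pow_card_eq_one']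
  rw [commutator_def, ← MonoidHom.range_eq_top.mpr (pE_surj (can_surj Q)), MonoidHom.range_eq_map,
    ← Subgroup.map_commutator, ← map_pow, ← Subgroup.mem_comap, Subgroup.comap_map_eq, sup_comm] at h1
  exact h1

end

/-- Let `Q` be a finite group with Schur multiplier `A`. Any two Schur covering groups of `Q` (finite stem extensions `σ₁ : Γ₁ →* Q`, `σ₂ : Γ₂ →* Q` with kernels isomorphic to `A`, `Γ₁, Γ₂` in the universe of `Q`) are isomorphic over `Q` — there is a group isomorphism `e : Γ₁ ≃* Γ₂` with `σ₂ ∘ e = σ₁` — if and only if the order of the commutator quotient of `Q` is coprime to the order of `A`. In particular a finite perfect group has a unique Schur covering group up to isomorphism over it. -/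
theorem result {Q : Type u} [Group Q] [Finite Q] {A : Type v} [CommGroup A] (hA : Cfsg.HasSchurMultiplier Q A) : (∀ (Γ₁ Γ₂ : Type u) [Group Γ₁] [Finite Γ₁] [Group Γ₂] [Finite Γ₂] (σ₁ : Γ₁ →* Q) (σ₂ : Γ₂ →* Q), Cfsg.IsStemExtension σ₁ → Cfsg.IsStemExtension σ₂ → Nonempty (σ₁.ker ≃* A) → Nonempty (σ₂.ker ≃* A) → ∃ e : Γ₁ ≃* Γ₂, σ₂.comp e.toMonoidHom = σ₁) ↔ Nat.Coprime (Nat.card (Abelianization Q)) (Nat.card A) := by
  obtain ⟨eA⟩ := unique (has_can Q) hA
  haveI := finite_right (has_can Q)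
  have hs := pE_surj (can_surj Q)
  have hc := pE_central (can Q)
  rw [← Nat.card_congr eA.toEquiv]
  constructor
  · intro h
    by_contra hcop
    obtain ⟨p, hp, h1, h2⟩ := Nat.Prime.not_coprime_iff_dvd.mp hcop
    haveI := Fact.mk hp
    obtain ⟨C, hC, hC1, hC2⟩ := exists_compl (can Q) le_rfl le_sup_left
    -- an element of `M` which is not a `p`-th power
    obtain ⟨m, hm⟩ : ∃ m : M (can Q), m ∉ (powMonoidHom p : M (can Q) →* M (can Q)).range := by
      by_contra h3
      push Not at h3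
      have h4 := Finite.injective_iff_surjective.mpr (show Function.Surjective
        (powMonoidHom p : M (can Q) →* M (can Q)) from h3)
      obtain ⟨x, hx⟩ := exists_prime_orderOf_dvd_card' p h2
      have : x = 1 := h4 (by rw [map_one, powMonoidHom_apply, ← hx, pow_orderOf_eq_one])
      rw [this, orderOf_one] at hx
      exact hp.one_lt.ne hx
    -- an element of `E` whose `p`-th power lies in `C` modulo commutators
    haveI : Finite (Abelianization Q) := Finite.of_surjective _ (Quot.mk_surjective)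
    obtain ⟨y, hy⟩ := exists_prime_orderOf_dvd_card' p h1
    obtain ⟨x, rfl⟩ : ∃ x, Abelianization.of (pE (can Q) x) = y := by
      obtain ⟨y, rfl⟩ : ∃ q, Abelianization.of q = y := Quot.mk_surjective y
      obtain ⟨x, rfl⟩ := hs y
      exact ⟨x, rfl⟩
    obtain ⟨c, hcC, hcx⟩ : ∃ c ∈ C, c⁻¹ * x ^ p ∈ commutator (E (can Q)) := by
      have h3 : pE (can Q) x ^ p ∈ commutator Q := by
        rw [← Abelianization.ker_of, MonoidHom.mem_ker, map_pow, ← hy, pow_orderOf_eq_one]
      rw [commutator_def, ← MonoidHom.range_eq_top.mpr hs, MonoidHom.range_eq_map,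
        ← Subgroup.map_commutator, ← map_pow, ← Subgroup.mem_comap, Subgroup.comap_map_eq, sup_comm,
        ← hC2, sup_assoc, sup_eq_right.mpr (show M (can Q) ≤ ⁅⊤, ⊤⁆ from inf_le_right), ← SetLike.mem_coe,
        Subgroup.mul_normal] at h3
      obtain ⟨c, hc, d, hd, h4⟩ := h3
      exact ⟨c, hc, by rw [← h4]; simpa [commutator_def] using hd⟩
    letI : CommGroup C := { (inferInstance : Group C) with
      mul_comm := fun a b => Subtype.ext (Subgroup.mem_center_iff.mp (hc (hC b.2)) a.1) }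
    have hCinj : ∀ z ∈ C, z ∈ commutator (E (can Q)) → z = 1 := fun z h3 h4 => by
      rw [← Subgroup.mem_bot, ← hC1]; exact ⟨h3, hC h3, h4⟩
    -- `c` is not a `p`-th power in `C`
    have hcp : ∀ d : C, d ^ p ≠ ⟨c, hcC⟩ := fun d hd => by
      have h3 : ((d : E (can Q))⁻¹ * x) ^ p ∈ commutator (E (can Q)) := by
        have h4 : Commute (d : E (can Q))⁻¹ x :=
          (Subgroup.mem_center_iff.mp (Subgroup.inv_mem _ (hc (hC d.2))) x).symm
        rw [h4.mul_pow, inv_pow, show (d : E (can Q)) ^ p = c from congrArg Subtype.val hd]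
        exact hcx
      have h4 := E_tf _ hp.ne_zero h3
      have h5 : Abelianization.of (pE (can Q) ((d : E (can Q))⁻¹ * x)) = 1 :=
        Abelianization.commutator_subset_ker (Abelianization.of.comp (pE (can Q))) h4
      rw [map_mul, map_inv, show pE (can Q) d = 1 from hC d.2, inv_one, one_mul] at h5
      rw [h5, orderOf_one] at hy
      exact hp.one_lt.ne hy
    -- `C` is free abelian
    haveI : Group.FG C := by
      haveI : Group.FG (E (can Q)) := Group.fg_of_surjective (QuotientGroup.mk'_surjective _)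
      haveI := normal_of_central (hC.trans hc)
      obtain ⟨h3, -, -⟩ := cover_of_compl (can_surj Q) C hC hC1 hC2
      haveI : C.FiniteIndex := Subgroup.finiteIndex_of_finite_quotient
      infer_instance
    haveI : Module.Finite ℤ (Additive C) := Module.Finite.iff_addGroup_fg.mpr inferInstance
    haveI : IsMulTorsionFree C := ⟨fun n hn a b hab => by
      have h3 : (a * b⁻¹) ^ n = 1 := by
        have hab' : a ^ n = b ^ n := hab
        rw [mul_pow, inv_pow, hab', mul_inv_cancel]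
      have h4 : ((a * b⁻¹ : C) : E (can Q)) ^ n ∈ commutator (E (can Q)) := by
        rw [show ((a * b⁻¹ : C) : E (can Q)) ^ n = 1 from congrArg Subtype.val h3]
        exact Subgroup.one_mem _
      exact mul_inv_eq_one.mp (Subtype.ext (hCinj _ (a * b⁻¹).2 (E_tf _ hn h4)))⟩
    let b := Module.Free.chooseBasis ℤ (Additive C)
    obtain ⟨i, hi⟩ : ∃ i, ¬ (p : ℤ) ∣ b.repr (Additive.ofMul ⟨c, hcC⟩) i := by
      by_contra h3
      push Not at h3
      choose k hk using h3
      refine hcp (∑ i, k i • b i).toMul (Additive.ofMul.injective ?_)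
      rw [ofMul_pow, ofMul_toMul, ← b.sum_repr (Additive.ofMul ⟨c, hcC⟩), Finset.smul_sum]
      refine Finset.sum_congr rfl fun i _ => ?_
      rw [hk, mul_smul, natCast_zsmul]
    let f : C →* M (can Q) := (zpowersHom _ m).comp (AddMonoidHom.toMultiplicativeRight
      (b.coord i).toAddMonoidHom)
    have hf : f ⟨c, hcC⟩ ∉ (powMonoidHom p : M (can Q) →* M (can Q)).range := by
      intro h3
      apply hm
      obtain ⟨u, v, huv⟩ : IsCoprime (p : ℤ) (b.repr (Additive.ofMul ⟨c, hcC⟩) i) :=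
        (Nat.prime_iff_prime_int.mp hp).coprime_iff_not_dvd.mpr hi
      rw [← zpow_one m, ← huv, zpow_add, mul_comm v, zpow_mul, zpow_mul, zpow_natCast]
      exact Subgroup.mul_mem _ ⟨_, rfl⟩ (Subgroup.zpow_mem _ h3 v)
    -- the second complement
    let g : C →* (pE (can Q)).ker := Subgroup.inclusion hC * (Subgroup.inclusion inf_le_left).comp f
    have hg : ∀ d : C, (g d : E (can Q)) = d * f d := fun _ => rfl
    let D : Subgroup (E (can Q)) := g.range.map (pE (can Q)).ker.subtype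
    have hD : D ≤ (pE (can Q)).ker := Subgroup.map_subtype_le _
    have hD1 : D ⊓ M (can Q) = ⊥ := by
      rw [eq_bot_iff]
      rintro _ ⟨⟨_, ⟨d, rfl⟩, rfl⟩, h3⟩
      have h4 : (d : E (can Q)) ∈ M (can Q) := by
        simpa [hg] using (M (can Q)).mul_mem h3 ((M (can Q)).inv_mem (f d).2)
      rw [show d = 1 from Subtype.ext (hCinj d d.2 h4.2), map_one]
      exact Subgroup.one_mem _
    have hD2 : D ⊔ M (can Q) = (pE (can Q)).ker := by
      refine le_antisymm (sup_le hD inf_le_left) (hC2 ▸ sup_le (fun d hd => ?_) le_sup_right)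
      rw [show d = g ⟨d, hd⟩ * (f ⟨d, hd⟩ : E (can Q))⁻¹ by simp [hg]]
      exact Subgroup.mul_mem_sup ⟨_, ⟨_, rfl⟩, rfl⟩ (Subgroup.inv_mem _ (f _).2)
    haveI := normal_of_central (hC.trans hc)
    haveI := normal_of_central (hD.trans hc)
    obtain ⟨h3, h4, ⟨e1⟩⟩ := cover_of_compl (can_surj Q) C hC hC1 hC2
    obtain ⟨h5, h6, ⟨e2⟩⟩ := cover_of_compl (can_surj Q) D hD hD1 hD2
    obtain ⟨e, he⟩ := h _ _ _ _ h4 h6 ⟨e1.trans eA⟩ ⟨e2.trans eA⟩
    -- compare the two maps `E → E / D`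
    have h7 : (QuotientGroup.lift D (pE (can Q)) hD).comp (e.toMonoidHom.comp (QuotientGroup.mk' C)) =
        (QuotientGroup.lift D (pE (can Q)) hD).comp (QuotientGroup.mk' D) := by
      rw [← MonoidHom.comp_assoc, he]; rfl
    have h8 : (e x)⁻¹ * (x : E (can Q) ⧸ D) ∈ (QuotientGroup.lift D (pE (can Q)) hD).ker := by
      rw [MonoidHom.mem_ker, map_mul, map_inv, inv_mul_eq_one]
      exact DFunLike.congr_fun h7 x
    have h9 := h6.2.1 h8
    rw [← (stem_quot hs hc D hD hD2.ge).2] at h8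
    obtain ⟨w, hw, hw2⟩ := h8
    have h10 := eq_on_commutator h6.2.1 h7 hcx
    apply hf
    refine ⟨⟨w, hw⟩⁻¹, Subtype.ext ?_⟩
    have h11 : ((w ^ p * f ⟨c, hcC⟩ : E (can Q)) : E (can Q) ⧸ D) = 1 := by
      have h12 : (x : E (can Q) ⧸ D) = e x * w := by
        rw [show (w : E (can Q) ⧸ D) = _ from hw2, mul_inv_cancel_left]
      have h13 : Commute (e x) (w : E (can Q) ⧸ D) := by
        rw [show (w : E (can Q) ⧸ D) = _ from hw2]; exact Subgroup.mem_center_iff.mp h9 _
      have h14 : e ((c⁻¹ * x ^ p : E (can Q)) : E (can Q) ⧸ C) = ((c⁻¹ * x ^ p : E (can Q)) : _ ⧸ D) := h10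
      rw [QuotientGroup.mk_mul, QuotientGroup.mk_mul, QuotientGroup.mk_pow, QuotientGroup.mk_pow,
        QuotientGroup.mk_inv, QuotientGroup.mk_inv, (QuotientGroup.eq_one_iff c).mpr hcC, inv_one,
        one_mul, map_pow, h12, h13.mul_pow, (h13.pow_pow p p).eq, ← mul_assoc, right_eq_mul,
        inv_mul_eq_one] at h14
      rw [QuotientGroup.mk_mul, QuotientGroup.mk_pow, ← h14, ← QuotientGroup.mk_mul,
        QuotientGroup.eq_one_iff]
      exact ⟨_, ⟨⟨c, hcC⟩, rfl⟩, rfl⟩
    have h12 : w ^ p * f ⟨c, hcC⟩ ∈ D ⊓ M (can Q) := ⟨(QuotientGroup.eq_one_iff _).mp h11,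
      Subgroup.mul_mem _ (Subgroup.pow_mem _ hw p) (f _).2⟩
    rw [hD1, Subgroup.mem_bot, mul_eq_one_iff_inv_eq] at h12
    rw [← h12]
    simp
  · intro hcop Γ₁ Γ₂ _ _ _ _ σ₁ σ₂ h₁ h₂ ⟨e₁⟩ ⟨e₂⟩
    obtain ⟨φ₁, hφ₁, s₁, k₁, m₁⟩ := cover_data σ₁ h₁ (Nat.card_congr (eA.trans e₁.symm).toEquiv).le
    obtain ⟨φ₂, hφ₂, s₂, k₂, m₂⟩ := cover_data σ₂ h₂ (Nat.card_congr (eA.trans e₂.symm).toEquiv).le
    letI : CommGroup σ₂.ker := { (inferInstance : Group σ₂.ker) with
      mul_comm := fun a b => Subtype.ext (Subgroup.mem_center_iff.mp (h₂.2.1 b.2) a.1) }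
    have hk : ∀ {Γ : Type u} [Group Γ] {σ : Γ →* Q} {φ : E (can Q) →* Γ}, σ.comp φ = pE (can Q) →
        φ.ker ≤ (pE (can Q)).ker := fun hφ x hx => by
      rw [MonoidHom.mem_ker, ← hφ, MonoidHom.comp_apply, MonoidHom.mem_ker.mp hx, map_one]
    set N := Nat.card (Abelianization Q)
    -- `φ₂` on `ker φ₁` factors through the abelianization
    let a : φ₁.ker →* Abelianization (E (can Q)) := Abelianization.of.comp φ₁.ker.subtype
    have ha : Function.Injective a := (injective_iff_map_eq_one a).mpr fun x hx => by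
      have : (x : E (can Q)) ∈ φ₁.ker ⊓ M (can Q) := ⟨x.2, hk hφ₁ x.2, by
        rw [← Abelianization.ker_of]; exact hx⟩
      rw [k₁] at this
      exact Subtype.ext this
    have hpow : ∀ y : Abelianization (E (can Q)), (powMonoidHom N) y ∈ a.range := fun y => by
      obtain ⟨x, rfl⟩ : ∃ q, Abelianization.of q = y := Quot.mk_surjective y
      have h3 := pow_mem_sup x
      rw [← SetLike.mem_coe, Subgroup.mul_normal] at h3
      obtain ⟨z, hz, d, hd, h4⟩ := h3
      have h5 : φ₁ z ∈ σ₁.ker := by rw [MonoidHom.mem_ker, ← MonoidHom.comp_apply, hφ₁]; exact hz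
      rw [← m₁] at h5
      obtain ⟨w, hw, h6⟩ := h5
      refine ⟨⟨w⁻¹ * z, by simp [MonoidHom.mem_ker, h6]⟩, ?_⟩
      have h7 : Abelianization.of w = 1 := by rw [← MonoidHom.mem_ker, Abelianization.ker_of]; exact hw.2
      have h8 : Abelianization.of d = 1 := by rw [← MonoidHom.mem_ker, Abelianization.ker_of]; exact hd
      rw [powMonoidHom_apply, ← map_pow, ← h4]
      simp [a, h7, h8]
    let f0 : φ₁.ker →* σ₂.ker := (φ₂.comp φ₁.ker.subtype).codRestrict _ fun x => by
      rw [MonoidHom.mem_ker, MonoidHom.comp_apply, ← MonoidHom.comp_apply σ₂, hφ₂]; exact hk hφ₁ x.2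
    have hcard : Nat.card σ₂.ker = Nat.card (M (can Q)) := Nat.card_congr (e₂.trans eA.symm).toEquiv
    obtain ⟨k, hk'⟩ : ∃ k : ℕ, ∀ z : σ₂.ker, (z ^ N) ^ k = z := by
      rw [← hcard] at hcop
      obtain ⟨k, hk⟩ := Nat.exists_mul_mod_eq_of_coprime 1 hcop Nat.card_pos.ne'
      exact ⟨k, fun z => by rw [← pow_mul, ← pow_mod_natCard, hk.2, pow_mod_natCard, pow_one]⟩
    let ψ : E (can Q) →* σ₂.ker := (powMonoidHom k).comp (f0.comp
      ((MonoidHom.ofInjective ha).symm.toMonoidHom.comp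
        (((powMonoidHom N).codRestrict _ hpow).comp Abelianization.of)))
    have hψ : ∀ x : φ₁.ker, (ψ x : Γ₂) = φ₂ x := fun x => by
      have h3 : (MonoidHom.ofInjective ha).symm ⟨_, hpow (Abelianization.of x.1)⟩ = x ^ N := by
        rw [MulEquiv.symm_apply_eq]
        exact Subtype.ext (map_pow a x N).symm
      show ((f0 ((MonoidHom.ofInjective ha).symm ⟨_, hpow (Abelianization.of x.1)⟩) ^ k : σ₂.ker) : Γ₂) = _
      rw [h3, map_pow, hk']; rfl
    let φ₃ : E (can Q) →* Γ₂ := MonoidHom.mk' (fun x => φ₂ x * (ψ x : Γ₂)⁻¹) fun x y => by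
      rw [map_mul, map_mul, mul_comm (ψ x), Subgroup.coe_mul, mul_inv_rev, mul_assoc, mul_assoc,
        ← mul_assoc (φ₂ y), Subgroup.mem_center_iff.mp (Subgroup.inv_mem _ (h₂.2.1 (ψ x).2)), mul_assoc]
    obtain ⟨θ, hθ⟩ := exists_factor φ₁ s₁ φ₃ fun x hx => by
      show φ₂ x * (ψ x : Γ₂)⁻¹ = 1
      rw [hψ ⟨x, hx⟩, mul_inv_cancel]
    have h3 : σ₂.comp θ = σ₁ := MonoidHom.ext fun g => by
      obtain ⟨x, rfl⟩ := s₁ g
      rw [MonoidHom.comp_apply, hθ, ← MonoidHom.comp_apply σ₁, hφ₁, ← hφ₂]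
      show σ₂ (φ₂ x * (ψ x : Γ₂)⁻¹) = _
      rw [map_mul, map_inv, show σ₂ (ψ x) = 1 from (ψ x).2]; simp
    have h4 := surj_of_stem h₂ θ (h3 ▸ h₁.1)
    have h5 : ∀ {Γ : Type u} [Group Γ] {σ : Γ →* Q}, Function.Surjective σ →
        Nat.card Γ = Nat.card σ.ker * Nat.card Q := fun {Γ} _ {σ} h => by
      rw [← Subgroup.card_mul_index σ.ker, Subgroup.index_ker, MonoidHom.range_eq_top.mpr h,
        Subgroup.card_top]
    refine ⟨MulEquiv.ofBijective θ (equiv_of_surj_of_card_le θ h4 ?_), h3⟩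
    rw [h5 h₁.1, h5 h₂.1, Nat.card_congr (e₁.trans e₂.symm).toEquiv]

end Cfsg.Agent.S3974
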