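import Cfsg.Statements.S3982
import Cfsg.Agent.Lib.Odd.BGMisc
import Cfsg.Agent.Lib.Grp.Frob2

set_option autoImplicit false
open Cfsg

namespace Cfsg.Agent.S3982

open CA.BG CA.OQuo Subgroup

/-- Let p be an odd prime and G a finite group of even order divisible by p in which the centralizer of every non-identity p-element has odd order. If some nontrivial p-subgroup of G has a normalizer of even order, then the normalizer of every Sylow p-subgroup of G has even order. -/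
theorem result {G : Type*} [Group G] [Finite G] (p : ℕ) [Fact p.Prime] (hp2 : p ≠ 2) (hpG : p ∣ Nat.card G) (h2G : 2 ∣ Nat.card G) (hC : ∀ g : G, g ≠ 1 → (∃ k : ℕ, orderOf g = p ^ k) → Odd (Nat.card ↥(Subgroup.centralizer ({g} : Set G)))) (Q : Subgroup G) (hQ : IsPGroup p ↥Q) (hQ1 : Q ≠ ⊥) (hev : Even (Nat.card ↥(Subgroup.normalizer (Q : Set G)))) (P : Sylow p G) : Even (Nat.card ↥(Subgroup.normalizer ((P : Subgroup G) : Set G))) := by
  have hp : p.Prime := Fact.out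
  obtain ⟨y, hyN, hy⟩ := exists_orderOf_eq Nat.prime_two (even_iff_two_dvd.1 hev)
  have hyy : y * y = 1 := by rw [← pow_two, ← hy, pow_orderOf_eq_one]
  obtain ⟨R, hQR, ⟨hR, hyR⟩, hmax⟩ := exists_maximal_ge (P := fun R => IsPi {p} R ∧ y ∈ 𝓝(R))
    (H := Q) ⟨isPi_of_isPGroup hp hQ, hyN⟩
  have hR1 : R ≠ ⊥ := ne_bot_mono hQR hQ1
  have hfpf : ∀ K : Subgroup G, IsPi {p} K → K ⊓ 𝓒₁(y) = ⊥ := by
    intro K hK
    rw [eq_bot_iff]
    rintro x ⟨hxK, hx⟩
    by_contra h1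
    have h1' : x ≠ 1 := h1
    obtain ⟨k, hk⟩ := (hK.orderOf hxK).exists_pow hp (orderOf_pos x).ne'
    have := hC x h1' ⟨k, hk⟩
    have hd := orderOf_dvd_card_of_mem (mem_cent1_symm.1 hx)
    rw [hy] at hd
    exact (Nat.not_even_iff_odd.2 this) (even_iff_two_dvd.2 hd)
  have hinv : ∀ r ∈ R, y * r * y⁻¹ = r⁻¹ := fun r hr =>
    CA.Frob2.conj_eq_inv_of_involution hyR hyy (hfpf R hR) hr
  -- `R` is Sylow
  have hS : Syl p R ⊤ := by
    apply Hall.syl_of_norm hp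
    rw [top_inf_eq]
    obtain ⟨T, hT, hRT⟩ := syl_superset hp hR (le_norm_self R)
    obtain ⟨z, hz, hz1⟩ := exists_ne_one (hT.pi.meet_cent hR hT.le hR1)
    have hTC : T ≤ 𝓝(R) ⊓ 𝓒₁(z) := le_inf hT.le (le_cent1_iff.2 hz.2)
    have hodd : Odd ♯(𝓝(R) ⊓ 𝓒₁(z) : Subgroup G) := by
      obtain ⟨k, hk⟩ := (hR.orderOf hz.1).exists_pow hp (orderOf_pos z).ne'
      exact odd_of_le (hC z hz1 ⟨k, hk⟩) inf_le_right
    have hyz : zpowers y ≤ 𝓝((𝓝(R) ⊓ 𝓒₁(z) : Subgroup G)) := by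
      refine norm_inf (le_norm_of_le (zpowers_le_iff.2 hyR)) (zpowers_le_iff.2 ?_)
      rw [mem_norm_iff_cj, cj_cent1, hinv z hz.1, ← cent_zpowers, ← cent_zpowers, zpowers_inv]
    have hcop : (♯(𝓝(R) ⊓ 𝓒₁(z) : Subgroup G)).Coprime ♯(zpowers y) := by
      rw [Nat.card_zpowers, hy]; exact (Nat.coprime_two_right).2 hodd
    obtain ⟨U, hU, hyU, hRU⟩ := coprime_Sylow_subset hp hyz hcop
      (Or.inl (solv_of_comm (comm_of_cyclic (cyc_zpowers y)))) (hRT.trans hTC) hR (zpowers_le_iff.2 hyR)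
    have hUR := hmax U ⟨hU.pi, zpowers_le_iff.1 hyU⟩ hRU
    have hT' : Syl p T (𝓝(R) ⊓ 𝓒₁(z)) := hT.of_le hTC inf_le_left
    have : R = T := eq_of_le_of_card_eq hRT (by rw [← hUR]; exact hU.card_eq hT')
    rw [this]; rw [this] at hT; exact hT
  obtain ⟨g, -, hg⟩ := hS.syl_conj hp (syl_top hp P)
  rw [even_iff_two_dvd, ← hg, ← cj_norm, card_cj, ← hy]
  exact orderOf_dvd_card_of_mem hyR

end Cfsg.Agent.S3982
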