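import Cfsg.Statements.S3983


set_option autoImplicit false
open scoped Pointwise
open Cfsg

namespace Cfsg.Agent.S3983

open Subgroup Pointwise

/-- Let P be a Sylow p-subgroup of the finite group G that meets each conjugate g P g⁻¹ with g outside N_G(P) trivially, and let U be a subgroup of G of order divisible by p. Then a Sylow p-subgroup Q of U has the same property inside U: Q meets each conjugate u Q u⁻¹ with u ∈ U outside N_U(Q) trivially. -/
theorem result {G : Type*} [Group G] [Finite G] (p : ℕ) [Fact p.Prime] (P : Sylow p G) (hTI : ∀ g : G, g ∉ Subgroup.normalizer ((P : Subgroup G) : Set G) → (P : Subgroup G) ⊓ (MulAut.conj g • (P : Subgroup G)) = ⊥) (U : Subgroup G) (hU : p ∣ Nat.card ↥U) (Q : Sylow p ↥U) : ∀ u : ↥U, u ∉ Subgroup.normalizer ((Q : Subgroup ↥U) : Set ↥U) → (Q : Subgroup ↥U) ⊓ (MulAut.conj u • (Q : Subgroup ↥U)) = ⊥ := by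
  intro u hu
  obtain ⟨S, hS⟩ := Q.exists_comap_subtype_eq
  obtain ⟨g, rfl⟩ := MulAction.exists_smul_eq G P S
  have k : ∀ y : G, y ∈ (g • P : Sylow p G) ↔ g⁻¹ * y * g ∈ P := fun y => by
    rw [← SetLike.mem_coe, Sylow.coe_smul, Set.mem_smul_set_iff_inv_smul_mem]; rfl
  have m : ∀ y : U, y ∈ (Q : Subgroup U) ↔ g⁻¹ * y * g ∈ P := fun y => by rw [← hS]; exact k y
  refine eq_bot_iff.2 fun x hx => ?_
  have := hTI (g⁻¹ * u * g) fun c => hu (mem_normalizer_iff.2 fun y => by
    rw [m, m]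
    refine (mem_normalizer_iff.1 c _).trans (iff_of_eq (congrArg (· ∈ P) ?_))
    simp [mul_assoc])
  have a : g⁻¹ * x * g ∈ (P : Subgroup G) ⊓ (MulAut.conj (g⁻¹ * u * g) • (P : Subgroup G)) := by
    refine mem_inf.2 ⟨(m x).1 hx.1, mem_pointwise_smul_iff_inv_smul_mem.2 ?_⟩
    have : _ ∈ (P : Subgroup G) := (m _).1 (mem_pointwise_smul_iff_inv_smul_mem.1 (mem_inf.1 hx).2)
    simpa [mul_assoc] using this
  rw [this, mem_bot] at a
  exact Subtype.ext (by simpa [mul_assoc, inv_mul_eq_one] using a)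

end Cfsg.Agent.S3983
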