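import Cfsg.Statements.S3984
import Cfsg.Agent.Lib.Grp.H24Sw

set_option autoImplicit false
open scoped Pointwise
open Cfsg

namespace Cfsg.Agent.S3984

open CA.BG CA.OQuo Subgroup CA.H24Sw

/-- Let P be a Sylow p-subgroup of the finite group G that meets each conjugate g P g⁻¹ with g outside N_G(P) trivially, and let N be a normal subgroup of G of order prime to p. Then every Sylow p-subgroup Q of G ⧸ N meets each conjugate x Q x⁻¹ with x outside its normalizer trivially. -/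
theorem result {G : Type*} [Group G] [Finite G] (p : ℕ) [Fact p.Prime] (P : Sylow p G) (hTI : ∀ g : G, g ∉ Subgroup.normalizer ((P : Subgroup G) : Set G) → (P : Subgroup G) ⊓ (MulAut.conj g • (P : Subgroup G)) = ⊥) (N : Subgroup G) [N.Normal] (hN : (Nat.card ↥N).Coprime p) (Q : Sylow p (G ⧸ N)) : ∀ x : G ⧸ N, x ∉ Subgroup.normalizer ((Q : Subgroup (G ⧸ N)) : Set (G ⧸ N)) → (Q : Subgroup (G ⧸ N)) ⊓ (MulAut.conj x • (Q : Subgroup (G ⧸ N))) = ⊥ := by
  have hp : p.Prime := Fact.out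
  have hti : ∀ (S : Subgroup G), Syl p S ⊤ → ∀ g u, u ≠ 1 → u ∈ S → u ∈ cj g S → cj g S = S := by
    intro S hS g u hu h1 h2
    obtain ⟨a, -, rfl⟩ := (syl_top hp P).syl_conj hp hS
    by_contra hne
    have := hTI (a⁻¹ * g * a) (fun h => hne (by
      rw [← cj_mul, show g * a = a * (a⁻¹ * g * a) by group, cj_mul, cj_of_mem_norm h]))
    rw [← cj_eq_smul] at this
    have h3 : a⁻¹ * u * a ∈ (P : Subgroup G) ⊓ cj (a⁻¹ * g * a) P := by
      refine ⟨mem_cj.1 h1, ?_⟩
      rw [← cj_mul] at h2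
      have := mem_cj.1 h2
      refine mem_cj.2 ?_
      convert this using 1; group
    rw [this, mem_bot] at h3
    exact hu (by rw [← mul_left_inj a, ← mul_right_inj a⁻¹, ← mul_assoc, h3]; simp)
  intro x hx
  obtain ⟨S, rfl⟩ := Sylow.mapSurjective_surjective (QuotientGroup.mk'_surjective N) p Q
  obtain ⟨g, rfl⟩ := QuotientGroup.mk_surjective x
  rw [eq_bot_iff]
  rintro y ⟨⟨u, hu, rfl⟩, hy⟩
  by_contra h1
  have hu1 : u ≠ 1 := by rintro rfl; exact h1 (by simp)
  rw [← cj_eq_smul] at hy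
  have hS := syl_top hp S
  have e : cj (g : G ⧸ N) ((S : Subgroup G).map (QuotientGroup.mk' N)) = (cj g S).map (QuotientGroup.mk' N) :=
    (map_cj (QuotientGroup.mk' N) g S).symm
  have hy' : u ∈ cj g S ⊔ N := by
    have : QuotientGroup.mk' N u ∈ (cj g S).map (QuotientGroup.mk' N) := e ▸ hy
    rw [← mem_comap, comap_map_eq, QuotientGroup.ker_mk'] at this; exact this
  have hT : Syl p (cj g S) (cj g S ⊔ N) :=
    hall_sup_normal (hS.pi.cj g) (top_le_norm N _) ((isPi_compl_iff_coprime hp).2 hN)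
  obtain ⟨k, hk, h2⟩ := hT.syl_le_conj hp (isPi_zpowers.2 (hS.pi.orderOf hu)) (zpowers_le_iff.2 hy')
  rw [← cj_mul] at h2
  have h3 := hti S hS _ u hu1 hu (h2 (mem_zpowers u))
  apply hx
  rw [mem_norm_iff_cj, Sylow.coe_mapSurjective, e]
  have h4 : QuotientGroup.mk' N k ∈ (cj g S).map (QuotientGroup.mk' N) := by
    rw [← mem_comap, comap_map_eq, QuotientGroup.ker_mk']; exact hk
  conv_rhs => rw [← h3, cj_mul, map_cj, cj_of_mem h4]

end Cfsg.Agent.S3984
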