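import Cfsg.Statements.S3985
import Mathlib.NumberTheory.Basic


set_option autoImplicit false
open scoped Pointwise
open Cfsg

namespace Cfsg.Agent.S3985

open Subgroup Pointwise

/-- Let P be a cyclic Sylow p-subgroup of the finite group G. Then P meets each conjugate g P g⁻¹ with g outside N_G(P) trivially if and only if P is weakly self-centralizing: C_G(x) = C_G(P) for every non-identity x ∈ P. -/
theorem result {G : Type*} [Group G] [Finite G] (p : ℕ) [Fact p.Prime] (P : Sylow p G) (hcyc : IsCyclic ↥(P : Subgroup G)) : (∀ g : G, g ∉ Subgroup.normalizer ((P : Subgroup G) : Set G) → (P : Subgroup G) ⊓ (MulAut.conj g • (P : Subgroup G)) = ⊥) ↔ ∀ x : G, x ∈ (P : Subgroup G) → x ≠ 1 → Subgroup.centralizer ({x} : Set G) = Subgroup.centralizer ((P : Subgroup G) : Set G) := by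
  have ab : (P : Subgroup G) ≤ centralizer ((P : Subgroup G) : Set G) := le_centralizer _
  have cn : centralizer ((P : Subgroup G) : Set G) ≤ normalizer ((P : Subgroup G) : Set G) :=
    centralizer_le_normalizer _
  refine ⟨fun h x hx h1 => le_antisymm (fun g hg => ?_) (centralizer_le (Set.singleton_subset_iff.2 hx)),
    fun h g hg => eq_bot_iff.2 fun x hx => by_contra fun h1 => hg ?_⟩
  · have e : g * x * g⁻¹ = x := by
      rw [mul_inv_eq_iff_eq_mul]; exact (mem_centralizer_singleton_iff.1 hg)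
    have hn : g ∈ normalizer ((P : Subgroup G) : Set G) := by_contra fun c => h1 <| by
      rw [← mem_bot, ← h g c]
      exact mem_inf.2 ⟨hx, ⟨x, hx, e⟩⟩
    obtain ⟨a, ha⟩ := IsCyclic.exists_generator (α := (P : Subgroup G))
    let φ := (P : Subgroup G).normalizerMonoidHom
    obtain ⟨k, hk⟩ := mem_zpowers_iff.1 (ha (φ ⟨g, hn⟩ a))
    have pw : ∀ y, φ ⟨g, hn⟩ y = y ^ k := fun y => by
      obtain ⟨j, rfl⟩ := mem_zpowers_iff.1 (ha y)
      rw [map_zpow, ← hk, ← zpow_mul, ← zpow_mul, mul_comm]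
    have it : ∀ (t : ℕ) y, (φ ⟨g, hn⟩ ^ t) y = y ^ k ^ t := fun t => by
      induction t with
      | zero => simp
      | succ t ih => intro y; rw [pow_succ, MulAut.mul_apply, pw, ih, ← zpow_mul, pow_succ']
    obtain ⟨n, hn'⟩ := P.2.exists_card_eq
    have d1 : (p : ℤ) ∣ k - 1 := by
      have x1 : (⟨x, hx⟩ : (P : Subgroup G)) ≠ 1 := fun c => h1 (congrArg Subtype.val c)
      have : (⟨x, hx⟩ : (P : Subgroup G)) ^ (k - 1) = 1 := by
        rw [zpow_sub_one, ← pw, mul_inv_eq_one]; exact Subtype.ext e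
      exact (Int.natCast_dvd_natCast.2 (P.2.dvd_orderOf x1)).trans (orderOf_dvd_iff_zpow_eq_one.2 this)
    have o1 : φ ⟨g, hn⟩ ^ p ^ n = 1 := MulEquiv.ext fun y => by
      obtain ⟨c, hc⟩ := dvd_sub_pow_of_dvd_sub d1 n
      rw [it, MulAut.one_apply, eq_add_of_sub_eq hc, one_pow, zpow_add_one, pow_succ, mul_assoc,
        zpow_mul, ← Nat.cast_pow, zpow_natCast, ← hn', pow_card_eq_one', one_zpow, one_mul]
    have o2 : φ ⟨g, hn⟩ ^ φ.ker.index = 1 := by
      rw [← map_pow]; exact MonoidHom.mem_ker.1 (pow_index_mem φ.ker _)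
    have nd : ¬ p ∣ φ.ker.index := fun c => P.not_dvd_index <| by
      rw [normalizerMonoidHom_ker] at c
      exact (c.trans (relIndex_dvd_of_le_left _ ab)).trans (relIndex_dvd_index_of_le le_normalizer)
    have : (⟨g, hn⟩ : normalizer ((P : Subgroup G) : Set G)) ∈ φ.ker := by
      rw [MonoidHom.mem_ker, ← orderOf_eq_one_iff]
      exact Nat.eq_one_of_dvd_coprimes (((Fact.out : p.Prime).coprime_iff_not_dvd.2 nd).pow_left n)
        (orderOf_dvd_of_pow_eq_one o1) (orderOf_dvd_of_pow_eq_one o2)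
    rwa [normalizerMonoidHom_ker] at this
  · obtain ⟨y, hy, e⟩ := (mem_inf.1 hx).2
    have y1 : y ≠ 1 := fun c => h1 (by rw [← e, c]; simp)
    have le : ((g • P : Sylow p G) : Subgroup G) ≤ normalizer ((P : Subgroup G) : Set G) := by
      rintro _ ⟨z, hz, rfl⟩
      refine cn (h x hx.1 h1 ▸ mem_centralizer_singleton_iff.2 ?_)
      rw [← e]
      show MulAut.conj g z * MulAut.conj g y = MulAut.conj g y * MulAut.conj g z
      rw [← map_mul, ← map_mul, mem_centralizer_iff.1 (ab hz) y hy]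
    have := left_eq_inf.1 ((inf_eq_left.2 le).symm.trans ((g • P).2.inf_normalizer_sylow P))
    exact Sylow.smul_eq_iff_mem_normalizer.1 (Sylow.ext ((g • P).is_maximal' P.2 this).symm)

end Cfsg.Agent.S3985
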