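import Cfsg.Statements.S3986
import Cfsg.Agent.Lib.Odd.BGMisc

set_option autoImplicit false
open Cfsg

namespace Cfsg.Agent.S3986

open CA.BG CA.OQuo Subgroup

theorem fwd {G : Type*} [Group G] [Finite G] (p : ℕ) [Fact p.Prime] (P : Sylow p G) (K : Subgroup G)
    (hP : (P : Subgroup G).Normal) (hK : K.Normal) (h1 : (P : Subgroup G) ⊓ K = ⊥) (h2 : (P : Subgroup G) ⊔ K = ⊤)
    (x y : G) (hx : ∃ a : ℕ, orderOf x = p ^ a) (hy : ¬ p ∣ orderOf y) : x ∈ (P : Subgroup G) ∧ y ∈ K ∧ x * y = y * x := by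
  have hp : p.Prime := Fact.out
  have hS := syl_top hp P
  have nP : (⊤ : Subgroup G) ≤ 𝓝((P : Subgroup G)) := by rw [normalizer_eq_top]
  have nK : (⊤ : Subgroup G) ≤ 𝓝(K) := by rw [normalizer_eq_top]
  have hK' : Hall {p}ᶜ K ⊤ := hS.compl_of_sup (le_top.trans nP) h1 h2
  obtain ⟨a, ha⟩ := hx
  have hxP : x ∈ (P : Subgroup G) := hS.mem_of_normal nP (mem_top x) (ha ▸ piNat_pow hp a)
  have hyK : y ∈ K := hK'.mem_of_normal nK (mem_top y) ((piNat_compl_iff hp).2 hy)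
  exact ⟨hxP, hyK, (mem_cent.1 (cent_of_norm_disjoint (le_top.trans nK) (le_top.trans nP) h1 hxP) y hyK).symm⟩

theorem bwd {G : Type*} [Group G] [Finite G] (p : ℕ) [Fact p.Prime] (P : Sylow p G)
    (h : ∀ q, q.Prime → q ≠ p → ∃ Q, Syl q Q ⊤ ∧ Q ≤ 𝓒((P : Subgroup G))) :
    ∃ K : Subgroup G, (P : Subgroup G).Normal ∧ K.Normal ∧ (P : Subgroup G) ⊓ K = ⊥ ∧ (P : Subgroup G) ⊔ K = ⊤ := by
  have hp : p.Prime := Fact.out
  have hS := syl_top hp P
  have htop : (⊤ : Subgroup G) ≤ (P : Subgroup G) ⊔ 𝓒((P : Subgroup G)) := by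
    apply le_of_forall_syl
    intro q hq _
    by_cases hqp : q = p
    · subst hqp; exact ⟨_, hS, le_sup_left⟩
    · obtain ⟨Q, h1, h2⟩ := h q hq hqp
      exact ⟨Q, h1, h2.trans le_sup_right⟩
  have nP : (⊤ : Subgroup G) ≤ 𝓝((P : Subgroup G)) := htop.trans (sup_le (le_norm_self _) (cent_le_norm _))
  set C := 𝓒((P : Subgroup G)) with hC
  have hZ : Syl p ((P : Subgroup G) ⊓ C) C := hS.normal_inf (le_top.trans nP) le_top
  have hpc : HasPC p C := by
    refine burnside_hasPC hp hZ (inf_le_left.trans (cent_anti inf_le_left))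
  have nC : (⊤ : Subgroup G) ≤ 𝓝(C) := norm_cent nP
  refine ⟨𝓞({p}ᶜ, C), normalizer_eq_top_iff.1 (top_le_iff.1 nP),
    normalizer_eq_top_iff.1 (top_le_iff.1 (norm_core _ nC)), hS.pi.inf_eq_bot (core_pi _ _), ?_⟩
  refine top_le_iff.1 (htop.trans (sup_le le_sup_left ?_))
  have := hpc.sup_syl hZ
  calc C = (P : Subgroup G) ⊓ C ⊔ 𝓞({p}ᶜ, C) := this.symm
    _ ≤ _ := sup_le_sup_right inf_le_left _

/-- Let p be a prime and G a finite group. Then some Sylow p-subgroup of G is a direct factor of G (it is normal and has a normal complement) if and only if every element of p-power order commutes with every element whose order is a power of a prime other than p. -/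
theorem result {G : Type*} [Group G] [Finite G] (p : ℕ) [Fact p.Prime] : (∃ (P : Sylow p G) (K : Subgroup G), (P : Subgroup G).Normal ∧ K.Normal ∧ (P : Subgroup G) ⊓ K = ⊥ ∧ (P : Subgroup G) ⊔ K = ⊤) ↔ ∀ x y : G, (∃ a : ℕ, orderOf x = p ^ a) → (∃ q b : ℕ, q.Prime ∧ q ≠ p ∧ orderOf y = q ^ b) → x * y = y * x := by
  have hp : p.Prime := Fact.out
  constructor
  · rintro ⟨P, K, hP, hK, h1, h2⟩ x y hx ⟨q, b, hq, hqp, hy⟩
    refine (fwd p P K hP hK h1 h2 x y hx ?_).2.2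
    rw [hy]; intro hd
    exact hqp ((Nat.prime_dvd_prime_iff_eq hp hq).1 (hp.dvd_of_dvd_pow hd)).symm
  · intro h
    obtain ⟨P⟩ : Nonempty (Sylow p G) := inferInstance
    refine ⟨P, bwd p P fun q hq hqp => ?_⟩
    obtain ⟨Q, hQ⟩ := syl_exists hq (⊤ : Subgroup G)
    refine ⟨Q, hQ, fun y hy => mem_cent.2 fun x hx => h x y ?_ ?_⟩
    · exact ((syl_top hp P).pi.orderOf hx).exists_pow hp (orderOf_pos x).ne'
    · obtain ⟨b, hb⟩ := (hQ.pi.orderOf hy).exists_pow hq (orderOf_pos y).ne'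
      exact ⟨q, b, hq, hqp, hb⟩

end Cfsg.Agent.S3986
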