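import Cfsg.Statements.S3987
import Cfsg.Agent.Lib.Odd.BGMisc
import Cfsg.Agent.S3986

set_option autoImplicit false
open Cfsg

namespace Cfsg.Agent.S3987

open CA.BG CA.OQuo Subgroup

/-- Let p be a prime and G a finite group. Then some Sylow p-subgroup of G is a direct factor of G (normal with a normal complement) if and only if for every element x of p-power order and every element y whose order is a power of a prime other than p, the conjugacy class of x y has as many elements as the product of the sizes of the classes of x and of y. -/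
theorem result {G : Type*} [Group G] [Finite G] (p : ℕ) [Fact p.Prime] : (∃ (P : Sylow p G) (K : Subgroup G), (P : Subgroup G).Normal ∧ K.Normal ∧ (P : Subgroup G) ⊓ K = ⊥ ∧ (P : Subgroup G) ⊔ K = ⊤) ↔ ∀ x y : G, (∃ a : ℕ, orderOf x = p ^ a) → (∃ q b : ℕ, q.Prime ∧ q ≠ p ∧ orderOf y = q ^ b) → (Subgroup.centralizer ({x * y} : Set G)).index = (Subgroup.centralizer ({x} : Set G)).index * (Subgroup.centralizer ({y} : Set G)).index := by
  have hp : p.Prime := Fact.out
  have hle : ∀ x y : G, 𝓒₁(x) ⊓ 𝓒₁(y) ≤ 𝓒₁(x * y) := by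
    rintro x y g ⟨h1, h2⟩
    rw [mem_cent1] at *
    have h1' := mem_cent1.1 h1
    have h2' := mem_cent1.1 h2
    rw [← mul_assoc, h1', mul_assoc, h2', mul_assoc]
  constructor
  · rintro ⟨P, K, hP, hK, h1, h2⟩ x y hx ⟨q, b, hq, hqp, hy⟩
    have hy' : ¬ p ∣ orderOf y := by
      rw [hy]; intro hd
      exact hqp ((Nat.prime_dvd_prime_iff_eq hp hq).1 (hp.dvd_of_dvd_pow hd)).symm
    obtain ⟨hxP, hyK, hc⟩ := S3986.fwd p P K hP hK h1 h2 x y hx hy'
    have hS := syl_top hp P
    have nP : (⊤ : Subgroup G) ≤ 𝓝((P : Subgroup G)) := by rw [normalizer_eq_top]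
    have nK : (⊤ : Subgroup G) ≤ 𝓝(K) := by rw [normalizer_eq_top]
    have hK' : Hall {p}ᶜ K ⊤ := hS.compl_of_sup (le_top.trans nP) h1 h2
    have hPK := cent_of_norm_disjoint (le_top.trans nK) (le_top.trans nP) h1
    have i1 : PiNat {p}ᶜᶜ (𝓒₁(x).relIndex ⊤) := hK'.le_of_idx ((cent_symm hPK).trans (cent_le_cent1 hxP))
    have i2 : PiNat {p}ᶜ (𝓒₁(y).relIndex ⊤) := hS.le_of_idx (hPK.trans (cent_le_cent1 hyK))
    have hcop := i1.coprime' (π := {p}ᶜ) i2
    have e : 𝓒₁(x * y) = 𝓒₁(x) ⊓ 𝓒₁(y) := by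
      refine le_antisymm ?_ (hle x y)
      obtain ⟨a, ha⟩ := hx
      have hco : (orderOf x).Coprime (orderOf y) := by
        rw [ha]; exact Nat.Coprime.pow_left _ ((Nat.Prime.coprime_iff_not_dvd hp).2 hy')
      have hxm : x ∈ zpowers (x * y) := by
        have hc' : Commute x y := hc
        have h1 : x ∈ zpowers (x ^ orderOf y) := mem_zpowers_pow_iff.2 hco.symm
        have h2 : x ^ orderOf y ∈ zpowers (x * y) := ⟨orderOf y, by
          simp [hc'.mul_pow]⟩
        exact zpowers_le_iff.2 h2 h1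
      have hym : y ∈ zpowers (x * y) := by
        have := mul_mem (inv_mem hxm) (mem_zpowers (x * y)); simpa using this
      rw [← cent_zpowers]
      exact le_inf (cent_le_cent1 hxm) (cent_le_cent1 hym)
    rw [e, ← relIndex_mul_index (inf_le_right : 𝓒₁(x) ⊓ 𝓒₁(y) ≤ _), inf_relIndex_right,
      relIndex_inf_of_cop le_top le_top hcop, relIndex_top_right]
  · intro h
    refine (S3986.result p).2 fun x y hx hy => ?_
    have h1 := h x y hx hy
    have h2 := index_inf_le (H := 𝓒₁(x)) (K := 𝓒₁(y))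
    have e : 𝓒₁(x) ⊓ 𝓒₁(y) = 𝓒₁(x * y) := by
      by_contra hne
      have := index_strictAnti (lt_of_le_of_ne (hle x y) hne)
      omega
    have := mem_cent1_self (x * y)
    rw [← e] at this
    have h3 := mem_cent1.1 this.1
    rw [mul_assoc] at h3
    exact (mul_left_cancel h3).symm

end Cfsg.Agent.S3987
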