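import Cfsg.Statements.S4009
import Mathlib
import Cfsg.Agent.S3781

set_option autoImplicit false
open Cfsg

namespace Cfsg.Agent.S4009

open Subgroup Cfsg.Agent.S3781
open scoped commutatorElement

variable {G : Type*} [Group G]

theorem it_mono {M N : Subgroup G} (h : M ≤ N) (j : ℕ) : it M j ≤ it N j := by
  induction j with
  | zero => exact h
  | succ j ih => exact commutator_mono ih le_rfl

theorem it_lcs (a b : ℕ) : it ((⊤ : Subgroup G).lowerCentralSeries a) b =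
    (⊤ : Subgroup G).lowerCentralSeries (a + b) := by
  induction b with
  | zero => rfl
  | succ b ih => exact congrArg (⁅·, ⊤⁆) ih

theorem lcs2 {M N : Subgroup G} {a b : ℕ} (hM : M ≤ (⊤ : Subgroup G).lowerCentralSeries a)
    (hN : N ≤ (⊤ : Subgroup G).lowerCentralSeries b) :
    ⁅M, N⁆ ≤ (⊤ : Subgroup G).lowerCentralSeries (a + (b + 1)) :=
  haveI := lcs_normal (⊤ : Subgroup G) a
  (commutator_mono hM hN).trans ((comm_lcs b _).trans (it_lcs _ _).le)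

theorem ab {N K T : Subgroup G} [T.Normal] {a b : G} (ha : a ∈ N) (hb : b ∈ N) (hK : K ≤ N)
    (h : N ≤ zpowers b ⊔ (zpowers a ⊔ K)) (h1 : ⁅N, K⁆ ≤ T) (h2 : ⁅a, b⁆ ∈ T) : ⁅N, N⁆ ≤ T := by
  let f := QuotientGroup.mk' T
  have e : ∀ x y, ⁅x, y⁆ ∈ T ↔ Commute (f x) (f y) := fun x y => by
    rw [← commutatorElement_eq_one_iff_commute, ← map_commutatorElement]
    exact (QuotientGroup.eq_one_iff _).symm
  have key : ∀ x, Commute (f x) (f a) → Commute (f x) (f b) → (∀ k ∈ K, Commute (f x) (f k)) →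
      ∀ y ∈ N, Commute (f x) (f y) := fun x h3 h4 h5 y hy => by
    have : N ≤ (centralizer {f x}).comap f := h.trans (sup_le (zpowers_le.2
      (mem_centralizer_singleton_iff.2 h4.symm)) (sup_le (zpowers_le.2
        (mem_centralizer_singleton_iff.2 h3.symm)) fun k hk =>
          mem_centralizer_singleton_iff.2 (h5 k hk).symm))
    exact (mem_centralizer_singleton_iff.1 (this hy)).symm
  have hk : ∀ x ∈ N, ∀ k ∈ K, Commute (f x) (f k) := fun x hx k hk =>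
    (e _ _).1 (h1 (commutator_mem_commutator hx hk))
  exact commutator_le.2 fun x hx y hy => (e _ _).2 (key x
    (key a (Commute.refl _) ((e _ _).1 h2) (hk a ha) x hx).symm
    (key b ((e _ _).1 h2).symm (Commute.refl _) (hk b hb) x hx).symm (hk x hx) y hy)

def Cy (N : Subgroup G) : Prop := ⁅N, N⁆ ≤ ⁅N, ⁅N, ⊤⁆⁆

theorem cyc {N : Subgroup G} [N.Normal] {a : G} (ha : a ∈ N) (h : N ≤ zpowers a ⊔ ⁅N, ⊤⁆) : Cy N :=
  ab ha ha (commutator_le_left _ _) (h.trans le_sup_right) le_rfl (by simp)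

theorem pd [Finite G] {p : ℕ} [Fact p.Prime] (hG : IsPGroup p G) {H K : Subgroup G} (h : ¬ K ≤ H) :
    p ∣ H.relIndex K := by
  obtain ⟨k, hk⟩ := (hG.to_subgroup K).index (H.subgroupOf K)
  rcases k with _ | k
  · exact absurd (relIndex_eq_one.1 hk) h
  · exact (dvd_pow_self p k.succ_ne_zero).trans hk.symm.dvd

theorem main [Finite G] {p : ℕ} [Fact p.Prime] (hG : IsPGroup p G) {N : Subgroup G} [N.Normal] {k : ℕ}
    (hN : N ≤ (⊤ : Subgroup G).lowerCentralSeries k) (h0 : ⁅N, N⁆ ≠ ⊥) :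
    ∃ g, p ^ g ∣ ⁅N, N⁆.relIndex N ∧ k + 2 ≤ g ∧ (Cy N ∨ k + 3 ≤ g ∨ Cy ⁅N, N⁆) := by
  have h1 : ⁅N, ⁅N, ⊤⁆⁆ ≤ it N (k + 2) :=
    (commutator_mono le_rfl (commutator_mono hN le_rfl)).trans (comm_lcs (k + 1) N)
  by_cases hc : Cy N
  · exact ⟨k + 2, (pow_dvd hG N _ fun e => h0 (le_bot_iff.1 (e ▸ hc.trans h1))).trans
      (relIndex_dvd_of_le_left _ (hc.trans h1)), le_rfl, .inl hc⟩
  have hK : ⁅N, ⊤⁆ ≤ N := commutator_le_left _ _
  obtain ⟨a, ha, ha'⟩ := SetLike.not_le_iff_exists.1 fun h : N ≤ ⁅N, ⊤⁆ =>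
    hc (cyc (one_mem N) (h.trans le_sup_right))
  obtain ⟨b, hb, hb'⟩ := SetLike.not_le_iff_exists.1 fun h => hc (cyc ha h)
  have h2 : ⁅N, N⁆ ≤ it ⁅N, ⊤⁆ k := (commutator_mono le_rfl hN).trans ((comm_lcs k N).trans (it_succ' N k).le)
  have h3 := pow_dvd hG ⁅N, ⊤⁆ k fun e => h0 (le_bot_iff.1 (e ▸ h2))
  have h4 : zpowers b ⊔ (zpowers a ⊔ ⁅N, ⊤⁆) ≤ N := sup_le (zpowers_le.2 hb) (sup_le (zpowers_le.2 ha) hK)
  have h5 := pd hG fun h : zpowers a ⊔ ⁅N, ⊤⁆ ≤ ⁅N, ⊤⁆ => ha' (h (mem_sup_left (mem_zpowers a)))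
  have h6 := pd hG fun h : zpowers b ⊔ (zpowers a ⊔ ⁅N, ⊤⁆) ≤ zpowers a ⊔ ⁅N, ⊤⁆ =>
    hb' (h (mem_sup_left (mem_zpowers b)))
  have h7 : ∀ u v, u ∣ ⁅N, N⁆.relIndex (it ⁅N, ⊤⁆ k) → v ∣ (zpowers b ⊔ (zpowers a ⊔ ⁅N, ⊤⁆)).relIndex N →
      u * (p ^ (k + 2) * v) ∣ ⁅N, N⁆.relIndex N := fun u v hu hv => by
    rw [← relIndex_mul_relIndex _ _ _ h2 ((it_le _ _).trans hK),
      ← relIndex_mul_relIndex _ _ _ (it_le _ _) hK,
      ← relIndex_mul_relIndex _ _ _ le_sup_right (le_sup_right.trans h4),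
      ← relIndex_mul_relIndex _ _ _ le_sup_right h4, pow_succ, pow_succ, mul_assoc, mul_assoc]
    exact mul_dvd_mul hu (mul_dvd_mul h3 (mul_dvd_mul h5 (mul_dvd_mul h6 hv)))
  by_cases h8 : N ≤ zpowers b ⊔ (zpowers a ⊔ ⁅N, ⊤⁆)
  swap
  · exact ⟨k + 3, by simpa [pow_succ] using h7 1 p (one_dvd _) (pd hG h8), by omega, .inr (.inl le_rfl)⟩
  by_cases h9 : it ⁅N, ⊤⁆ k ≤ ⁅N, N⁆
  swap
  · exact ⟨k + 3, by simpa [pow_succ' p (k + 2)] using h7 p 1 (pd hG h9) (one_dvd _), by omega,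
      .inr (.inl le_rfl)⟩
  have hm := commutator_mem_commutator ha hb
  have : (zpowers ⁅a, b⁆ ⊔ ⁅⁅N, N⁆, ⊤⁆).Normal := ⟨fun t ht g => by
    rw [show g * t * g⁻¹ = t * ⁅t⁻¹, g⁆ by rw [commutatorElement_def]; group]
    exact mul_mem ht (mem_sup_right (commutator_mem_commutator (inv_mem ((sup_le (zpowers_le.2 hm)
      (commutator_le_left _ _) :) ht)) (mem_top g)))⟩
  refine ⟨k + 2, by simpa using h7 1 1 (one_dvd _) (one_dvd _), le_rfl, .inr (.inr (cyc hm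
    (ab ha hb hK h8 (le_sup_of_le_right (h1.trans ?_)) (mem_sup_left (mem_zpowers _)))))⟩
  rw [it_succ']
  exact commutator_mono h9 le_rfl

/-- Let P be a finite p-group of order p^n whose derived length is exactly k + 1 (the k-th derived subgroup is nontrivial and the (k+1)-st is trivial). Then n ≥ 2^k + 2k − 2. -/
theorem result {P : Type*} [Group P] [Finite P] (p : ℕ) [Fact p.Prime] (n k : ℕ) (hcard : Nat.card P = p ^ n) (hk : derivedSeries P k ≠ ⊥) (hk' : derivedSeries P (k + 1) = ⊥) : 2 ^ k + 2 * k ≤ n + 2 := by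
  have hp : p.Prime := Fact.out
  have hG : IsPGroup p P := IsPGroup.of_card hcard
  have key : ∀ i, derivedSeries P i ≠ ⊥ → ∃ k e, k + 1 = 2 ^ i ∧ p ^ e ∣ (derivedSeries P i).index ∧
      derivedSeries P i ≤ (⊤ : Subgroup P).lowerCentralSeries k ∧ (k + 2 * i ≤ e ∨
      (Cy (derivedSeries P i) ∧ k + 2 * i ≤ e + 1) ∨
      (derivedSeries P i ≤ (⊤ : Subgroup P).lowerCentralSeries (k + 1) ∧ k + 2 * i ≤ e + 2)) := by
    intro i
    induction i with
    | zero => exact fun _ => ⟨0, 0, rfl, one_dvd _, le_top, .inl le_rfl⟩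
    | succ i ih =>
      intro h0
      rw [derivedSeries_succ] at h0 ⊢
      obtain ⟨k, e, h1, h2, h3, h4⟩ := ih fun e => h0 (by rw [e, commutator_bot_left])
      have h5 : ∀ g, p ^ g ∣ ⁅derivedSeries P i, derivedSeries P i⁆.relIndex (derivedSeries P i) →
          p ^ (g + e) ∣ ⁅derivedSeries P i, derivedSeries P i⁆.index := fun g h => by
        rw [pow_add, ← relIndex_mul_index (commutator_le_left _ _)]
        exact mul_dvd_mul h h2
      have h6 : Cy (derivedSeries P i) → ⁅derivedSeries P i, derivedSeries P i⁆ ≤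
          (⊤ : Subgroup P).lowerCentralSeries (k + (k + 1) + 1) := fun h =>
        le_trans h (lcs2 h3 (b := k + 1) (commutator_mono h3 le_rfl))
      rcases h4 with h4 | h4 | h4
      · obtain ⟨g, g1, g2, g3⟩ := main hG h3 h0
        refine ⟨_, _, by omega, h5 g g1, lcs2 h3 h3, ?_⟩
        rcases g3 with g3 | g3 | g3
        · exact .inr (.inr ⟨h6 g3, by omega⟩)
        · exact .inl (by omega)
        · exact .inr (.inl ⟨g3, by omega⟩)
      · obtain ⟨g, g1, g2, -⟩ := main hG h3 h0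
        exact ⟨_, _, by omega, h5 g g1, lcs2 h3 h3, .inr (.inr ⟨h6 h4.1, by omega⟩)⟩
      · obtain ⟨g, g1, g2, -⟩ := main hG h4.1 h0
        exact ⟨_, _, by omega, h5 g g1, lcs2 h3 h3, .inr (.inr ⟨(lcs2 h3 h4.1 :), by omega⟩)⟩
  obtain ⟨j, e, h1, h2, -, h3⟩ := key k hk
  have h4 := mul_dvd_mul (pd hG (H := ⊥) (mt le_bot_iff.1 hk)) h2
  rw [relIndex_bot_left, card_mul_index, hcard, ← pow_succ', Nat.pow_dvd_pow_iff_le_right hp.one_lt] at h4
  omega

end Cfsg.Agent.S4009
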