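import Cfsg.Statements.S4013
import Cfsg.Agent.Lib.Odd.BGMisc

set_option autoImplicit false
open Cfsg

namespace Cfsg.Agent.S4013

open CA.BG CA.OQuo Subgroup

/-- Let G be a finite p-group (p prime) and N < M normal subgroups of G such that for some g ∈ M ∖ N the conjugacy class of g is exactly M ∖ N. Then p = 2 and N has index 2 in M. -/
theorem result {G : Type*} [Group G] [Finite G] (p : ℕ) [Fact p.Prime] (hG : IsPGroup p G) (N M : Subgroup G) [N.Normal] [M.Normal] (hNM : N < M) (g : G) (hgM : g ∈ M) (hgN : g ∉ N) (hcl : {h : G | IsConj g h} = (M : Set G) \ (N : Set G)) : p = 2 ∧ N.relIndex M = 2 := by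
  have hp : p.Prime := Fact.out
  have hpi : ∀ K : Subgroup G, IsPi {p} K := fun K => isPi_of_isPGroup hp (hG.to_subgroup K)
  have nN : (⊤ : Subgroup G) ≤ 𝓝(N) := by rw [normalizer_eq_top]
  have nM : (⊤ : Subgroup G) ≤ 𝓝(M) := by rw [normalizer_eq_top]
  have hne : M /ᵍ N ≠ ⊥ := quo_ne_bot (le_top.trans nN) (not_le_of_gt hNM)
  have := ((hpi ⊤).mim (qh N)).meet_cent ((hpi M).mim (qh N)) (norm_quo N nM) hne
  obtain ⟨zb, ⟨hz1, hz2⟩, hz3⟩ := exists_ne_one this
  obtain ⟨z, hzM, rfl⟩ := (mem_mim_of_le (le_top.trans nN)).1 hz1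
  have hall : ∀ a : G, a ∈ 𝓝(N) := fun a => nN (mem_top a)
  have hzN : z ∉ N := fun h => hz3 ((qel_eq_one_iff (hall z)).2 h)
  have key : ∀ w ∈ M, w ∉ N → mel (qh N) w = mel (qh N) z := by
    intro w hw hwN
    have a1 : IsConj g z := by have : z ∈ {h : G | IsConj g h} := by rw [hcl]; exact ⟨hzM, hzN⟩
                               exact this
    have a2 : IsConj g w := by have : w ∈ {h : G | IsConj g h} := by rw [hcl]; exact ⟨hw, hwN⟩
                               exact this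
    obtain ⟨c, hc⟩ := isConj_iff.1 (a1.symm.trans a2)
    rw [← hc, mel_conj _ (hall c) (hall z), mem_cent.1 hz2 _ (mel_mem_mim _ (mem_top c))]
    simp
  have hcard : ♯(M /ᵍ N) = 2 := by
    rw [Nat.card_eq_two_iff]
    refine ⟨⟨1, one_mem _⟩, ⟨_, hz1⟩, fun h => hz3 (congrArg Subtype.val h).symm, ?_⟩
    ext ⟨u, hu⟩
    obtain ⟨w, hwM, rfl⟩ := (mem_mim_of_le (le_top.trans nN)).1 hu
    simp only [Set.mem_insert_iff, Set.mem_singleton_iff, Subtype.mk.injEq, Set.mem_univ, iff_true]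
    by_cases hwN : w ∈ N
    · exact Or.inl ((qel_eq_one_iff (hall w)).2 hwN)
    · exact Or.inr (key w hwM hwN)
  refine ⟨?_, by rw [← card_quo (le_top.trans nN), hcard]⟩
  have := ((hpi M).mim (qh N)).dvd_card hne
  rw [hcard] at this
  exact (Nat.prime_dvd_prime_iff_eq hp Nat.prime_two).1 this

end Cfsg.Agent.S4013
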