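import Cfsg.Statements.S4014
import Cfsg.Agent.Lib.Grp.H10Dl

set_option autoImplicit false
open Cfsg

namespace Cfsg.Agent.S4014
open CA.H10Dl Subgroup

/-- Let p be a prime, n ≥ 1, and P a Sylow p-subgroup of the symmetric group on n letters. Then the derived length of P is exactly k = ⌊log_p n⌋ (the largest k with p^k ≤ n): the k-th derived subgroup of P is trivial and, when k ≥ 1, the (k−1)-st is not. -/
theorem result (p : ℕ) [Fact p.Prime] (n : ℕ) (hn : 1 ≤ n) (P : Sylow p (Equiv.Perm (Fin n))) : derivedSeries ↥(P : Subgroup (Equiv.Perm (Fin n))) (Nat.log p n) = ⊥ ∧ (1 ≤ Nat.log p n → derivedSeries ↥(P : Subgroup (Equiv.Perm (Fin n))) (Nat.log p n - 1) ≠ ⊥) := by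
  have hp : p.Prime := Fact.out
  refine ⟨eq_bot_iff.2 fun g hg => Subtype.ext (Equiv.ext fun x => ?_), fun h1 h => ?_⟩
  · refine der_le_of_index _ P P.isPGroup' (MulAction.stabilizer P x) ?_ hg
    rw [MulAction.index_stabilizer]
    exact ((Set.ncard_le_card _).trans (by simp)).trans_lt (Nat.lt_pow_succ_log_self hp.one_lt n)
  obtain ⟨X, _, _, Λ, _, ρ, h2, h3, h4, h5⟩ := exists_perm (p := p) (Nat.log p n - 1)
  have := Fintype.ofFinite Λ
  obtain ⟨f⟩ : Nonempty (Λ ↪ Fin n) := Function.Embedding.nonempty_of_card_le (by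
    rw [← Nat.card_eq_fintype_card, h4, Nat.sub_add_cancel h1, Fintype.card_fin]
    exact Nat.pow_log_le_self p (by omega))
  classical
  exact h3 (der_sylow h2 ((Equiv.Perm.viaEmbeddingHom f).comp ρ)
    ((Equiv.Perm.viaEmbeddingHom_injective f).comp h5) P h)

end Cfsg.Agent.S4014
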