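import Cfsg.Statements.S4015
import Cfsg.Agent.Lib.Grp.H10Dl

set_option autoImplicit false
open Cfsg

namespace Cfsg.Agent.S4015
open CA.H10Dl Subgroup

/-- Let p be an odd prime, F a finite field with q elements where p does not divide q, and e the multiplicative order of q modulo p. Let n ≥ e and write w = ⌊n/e⌋ and k = ⌊log_p w⌋. Then a Sylow p-subgroup of GL(n, F) has derived length exactly k + 1: its (k+1)-st derived subgroup is trivial and its k-th is not. -/
theorem result (p : ℕ) [Fact p.Prime] (hp : p ≠ 2) (F : Type*) [Field F] [Fintype F] (q : ℕ) (hq : Fintype.card F = q) (hpq : ¬ p ∣ q) (n : ℕ) (hn : orderOf (q : ZMod p) ≤ n) (P : Sylow p (Matrix.GeneralLinearGroup (Fin n) F)) : derivedSeries ↥(P : Subgroup (Matrix.GeneralLinearGroup (Fin n) F)) (Nat.log p (n / orderOf (q : ZMod p)) + 1) = ⊥ ∧ derivedSeries ↥(P : Subgroup (Matrix.GeneralLinearGroup (Fin n) F)) (Nat.log p (n / orderOf (q : ZMod p))) ≠ ⊥ := by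
  have hp' : p.Prime := Fact.out
  have h1 : 1 < q := hq ▸ Fintype.one_lt_card
  have h10 : 0 < orderOf (q : ZMod p) := (isOfFinOrder_iff_pow_eq_one.2 ⟨p - 1,
    Nat.sub_pos_of_lt hp'.one_lt, ZMod.pow_card_sub_one_eq_one
      ((ZMod.natCast_eq_zero_iff _ _).not.2 hpq)⟩).orderOf_pos
  refine ⟨eq_bot_iff.2 (le_trans ?_ ((MonoidHom.ker_eq_bot_iff (mrep (algebraMap F
    (AlgebraicClosure F)) P.1.subtype)).2 (mrep_inj _ P.1.subtype_injective)).le), fun h => ?_⟩
  · let σ := FiniteField.frobeniusAlgHom F (AlgebraicClosure F)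
    have hσ : ∀ x, σ x = x ^ q := fun x => hq ▸ rfl
    refine frob (fun e => hpq ?_) (by omega) hpq _ _ _ _
      (σ.toRingHom.toAddMonoidHom.compLeft (Fin n))
      (fun a b e => funext fun i => σ.toRingHom.injective (congrFun e i))
      (fun r v => funext fun i => by simp [hσ, mul_pow]) (fun g v => funext fun i => ?_)
      P.isPGroup' (Nat.lt_succ_self _) (by simpa using Nat.lt_pow_succ_log_self hp'.one_lt _)
    · have := (CharP.charP_iff_prime_eq_zero (R := F) hp').2
        ((algebraMap F (AlgebraicClosure F)).injective (by simpa using e))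
      obtain ⟨m, -, hm⟩ := FiniteField.card F p
      exact hq ▸ hm ▸ dvd_pow_self p m.ne_zero
    · show _ = σ _
      simp [mrep_apply, Matrix.mulVec, dotProduct, map_sum, -FiniteField.coe_frobeniusAlgHom]
  set e := orderOf (q : ZMod p)
  obtain ⟨x, hx⟩ := exists_prime_orderOf_dvd_card' (G := GL (Fin e) F) p (by
    rw [Matrix.card_GL_field, hq]
    refine Dvd.dvd.trans ?_ (Finset.dvd_prod_of_mem _ (Finset.mem_univ (⟨0, h10⟩ : Fin e)))
    rw [← ZMod.natCast_eq_zero_iff, Nat.cast_sub (Nat.pow_le_pow_right h1.le (Nat.zero_le _))]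
    simp [e])
  have h2 : Nat.card (zpowers x) = p := by rw [Nat.card_zpowers, hx]
  have : Nontrivial (zpowers x) := Finite.one_lt_card_iff_nontrivial.1 (h2 ▸ hp'.one_lt)
  let X₀ := Multiplicative (ZMod p)
  obtain ⟨ε⟩ : Nonempty (X₀ ≃* zpowers x) := ⟨mulEquivOfPrimeCardEq (p := p) (by simp [X₀]) h2⟩
  obtain ⟨X, _, _, V, _, _, _, ρ, h3, h4, h5, h6⟩ := exists_lin (X₀ := X₀) isP_zmod
    (mrep (RingHom.id F) ((zpowers x).subtype.comp ε.toMonoidHom))
    (mrep_inj _ ((zpowers x).subtype_injective.comp ε.injective)) (Nat.log p (n / e))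
  obtain ⟨f, hf⟩ := embed ρ h6 (n := n) (h5.trans_le ((Nat.mul_le_mul_left e (Nat.pow_log_le_self p
    (Nat.div_pos hn h10).ne')).trans (Nat.mul_div_le n e)))
  exact h4 (der_sylow h3 f hf P h)

end Cfsg.Agent.S4015
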