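import Cfsg.Statements.S4023
import Cfsg.Agent.Lib.Loc.EqO1

set_option autoImplicit false
open Cfsg

namespace Cfsg.Agent.S4023

open Subgroup CA.BG CA.EqO

/-- Let p be a prime and G a finite group in which any two p-subgroups of the same order are conjugate, with Sylow p-subgroup P. Then P is cyclic, or elementary abelian, or p = 2 and P is a quaternion group of order 8, or p is odd and P is non-abelian of order p³ and exponent p. -/
theorem result {G : Type*} [Group G] [Finite G]
    {p : ℕ} [Fact p.Prime] (hC : ∀ H K : Subgroup G, IsPGroup p H → IsPGroup p K → Nat.card H = Nat.card K →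
      ∃ g : G, K = H.map (MulAut.conj g).toMonoidHom) (P : Sylow p G) :
    IsCyclic P ∨ Cfsg.IsElementaryAbelian p (P : Subgroup G) ∨
      (p = 2 ∧ Nonempty ((P : Subgroup G) ≃* QuaternionGroup 2)) ∨
      (p ≠ 2 ∧ ¬ IsMulCommutative P ∧ Nat.card P = p ^ 3 ∧ Monoid.exponent P = p) := by
  have hp : p.Prime := Fact.out
  refine ((dp_of hp hC).syl hp (syl_top hp P).pi).imp_right (Or.imp_right (Or.imp_right fun h => ⟨h.1, h.2.1, h.2.2.1, ?_⟩))
  have h1 : Monoid.exponent P ∣ p := Monoid.exponent_dvd_of_forall_pow_eq_one fun x => Subtype.ext (h.2.2.2 x x.2)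
  refine ((Nat.dvd_prime hp).1 h1).resolve_left fun e => h.2.1 ?_
  have := Monoid.exp_eq_one_iff.1 e
  exact ⟨⟨fun a b => Subsingleton.elim _ _⟩⟩

end Cfsg.Agent.S4023
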