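import Cfsg.Statements.S4024
import Cfsg.Agent.Lib.Loc.EqO1

set_option autoImplicit false
open Cfsg

namespace Cfsg.Agent.S4024

open Subgroup CA.BG CA.EqO

/-- Let p be an odd prime and G a finite group in which any two p-subgroups of the same order are conjugate, with Sylow p-subgroup P. If H is a normal p-solvable subgroup of G whose order is divisible by p, then P is abelian, and either P ≤ H or P is cyclic. -/
theorem result {G : Type*} [Group G] [Finite G]
    {p : ℕ} [Fact p.Prime] (hp : p ≠ 2) (hC : ∀ H K : Subgroup G, IsPGroup p H → IsPGroup p K → Nat.card H = Nat.card K →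
      ∃ g : G, K = H.map (MulAut.conj g).toMonoidHom) (P : Sylow p G)
    (H : Subgroup G) [H.Normal] (hsolv : Cfsg.IsPSolvable p H) (hdiv : p ∣ Nat.card H) :
    IsMulCommutative P ∧ ((P : Subgroup G) ≤ H ∨ IsCyclic P) := by
  have hq : p.Prime := Fact.out
  have h := (dp_of hq hC).ap
  rcases h.tri hq (syl_top hq P).pi with h1 | h1 | h1
  · exact ⟨comm_of_cyclic h1, .inr h1⟩
  · exact absurd h1.1 hp
  · exact ⟨(h.c1 hq).comm hq hsolv hdiv h1, .inl fun x hx => (h.c1 hq).mem hq hdiv (h1 x hx)⟩

end Cfsg.Agent.S4024
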