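import Cfsg.Statements.S4025
import Cfsg.Agent.Lib.Loc.EqAff

set_option autoImplicit false
open Cfsg

namespace Cfsg.Agent.S4025

open Subgroup CA.BG CA.EqO CA.EqAff

/-- Let p be a prime and G a finite group in which any two p-subgroups of the same order are conjugate, and suppose a Sylow p-subgroup P of G is elementary abelian of order pⁿ with n ≥ 3. Let N be the normalizer of P and K the largest normal subgroup of N of order prime to p, and assume N/K is solvable. Then either n = 3 and N/K embeds in the one-dimensional semi-affine group over the field with p³ elements (and for p = 2 it is isomorphic to the affine or the semi-affine group over the field with 8 elements), or n = 5, p = 2 and N/K is isomorphic to the one-dimensional semi-affine group over the field with 32 elements. -/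
theorem result {G : Type*} [Group G] [Finite G]
    {p : ℕ} [Fact p.Prime] (hC : ∀ H K : Subgroup G, IsPGroup p H → IsPGroup p K → Nat.card H = Nat.card K →
      ∃ g : G, K = H.map (MulAut.conj g).toMonoidHom) (P : Sylow p G) (n : ℕ) (hn : 3 ≤ n)
    (hel : Cfsg.IsElementaryAbelian p (P : Subgroup G)) (hcard : Nat.card P = p ^ n)
    (N : Subgroup G) (hN : N = Subgroup.normalizer ((P : Subgroup G) : Set G))
    (hsolv : Group.IsSolvable (↥N ⧸ Cfsg.pPrimeCore p ↥N)) :
    (n = 3 ∧ (∃ f : ↥N ⧸ Cfsg.pPrimeCore p ↥N →* ↥(Cfsg.semiaffineGroup (GaloisField p 3)), Function.Injective f) ∧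
      (p = 2 → Nonempty (↥N ⧸ Cfsg.pPrimeCore p ↥N ≃* Cfsg.semiaffineGroup (GaloisField 2 3)) ∨
               Nonempty (↥N ⧸ Cfsg.pPrimeCore p ↥N ≃* Cfsg.affineGroup (GaloisField 2 3)))) ∨
    (n = 5 ∧ p = 2 ∧ Nonempty (↥N ⧸ Cfsg.pPrimeCore p ↥N ≃* Cfsg.semiaffineGroup (GaloisField 2 5))) := by
  have hp : p.Prime := Fact.out
  subst hN
  have hP := syl_top hp P
  have h1 : Syl p ((P : Subgroup G).subgroupOf 𝓝((P : Subgroup G))) ⊤ :=
    Syl.mk'' hp le_top (isPi_iff.2 ((Nat.card_congr (subgroupOfEquivOfLe (le_norm_self (P : Subgroup G))).toEquiv).symm ▸ hP.pi.nat))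
      (relIndex_top_right ((P : Subgroup G).subgroupOf _) ▸ (hP.of_le (le_norm_self _) le_top).not_dvd hp)
  have h2 := QuotientGroup.mk'_surjective (pPrimeCore p 𝓝((P : Subgroup G)))
  have := Subgroup.Normal.map (inferInstance : ((P : Subgroup G).subgroupOf 𝓝((P : Subgroup G))).Normal) _ h2
  have := hel.1
  refine core' ((DP.norm hp (dp_of hp hC) hP hel.1).map hp h2) (syl_map' hp h2 h1) ⟨comm_map inferInstance _, ?_⟩ ?_ hn
    CA.Core.pPrimeCore_quotient_pPrimeCore hsolv
  · rintro _ ⟨x, hx, rfl⟩
    rw [← map_pow, show x ^ p = 1 from Subtype.ext (hel.2 x hx), map_one]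
  · rw [card_map_eq (h1.pi.inf_eq_bot ?_), Nat.card_congr (subgroupOfEquivOfLe (le_norm_self _)).toEquiv, hcard]
    rw [QuotientGroup.ker_mk', ← core_p'_top hp]
    exact core_pi _ _

end Cfsg.Agent.S4025
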