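import Cfsg.Statements.S4027
import Cfsg.Agent.Lib.Grp.H24Sw

set_option autoImplicit false
open Cfsg

namespace Cfsg.Agent.S4027

open CA.BG CA.OQuo Subgroup CA.H24Sw

/-- Let G be a finite group in which every element x of odd order satisfies N_G(⟨x⟩) = C_G(x). Then the Sylow 2-subgroups of G are normal. -/
theorem result {G : Type*} [Group G] [Finite G]
    (hirr : ∀ x : G, (∀ r : ℕ, r.Prime → r ∣ orderOf x → r ≠ 2) →
      Subgroup.normalizer ((Subgroup.zpowers x : Subgroup G) : Set G) ≤ Subgroup.centralizer {x}) (P : Sylow 2 G) :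
    (P : Subgroup G).Normal := by
  refine normal_sylow_two (fun x _ hx => ?_) P
  have := hirr x (by rintro r - hd rfl; exact (Nat.not_even_iff_odd.2 hx) (even_iff_two_dvd.2 hd))
  rw [cent_zpowers, relIndex_eq_one.2 this]; decide

end Cfsg.Agent.S4027
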