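import Cfsg.Statements.S4028
import Cfsg.Agent.Lib.Odd.BG2

set_option autoImplicit false
open Cfsg

namespace Cfsg.Agent.S4028

open CA.BG CA.OQuo Subgroup

/-- Let G be a finite group with Sylow 2-subgroup P. Then N_G(⟨x⟩) = C_G(x) holds for every 2-element x of G if and only if N_P(⟨y⟩) = C_P(y) holds for every y ∈ P (computed inside P). -/
theorem result {G : Type*} [Group G] [Finite G] (P : Sylow 2 G) :
    (∀ x : G, (∀ r : ℕ, r.Prime → r ∣ orderOf x → r = 2) →
      Subgroup.normalizer ((Subgroup.zpowers x : Subgroup G) : Set G) ≤ Subgroup.centralizer {x}) ↔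
    (∀ y : ↥(P : Subgroup G), Subgroup.normalizer ((Subgroup.zpowers y : Subgroup ↥(P : Subgroup G)) : Set ↥(P : Subgroup G)) ≤
        Subgroup.centralizer {y}) := by
  constructor
  · intro h y g hg
    have hy : ∀ r : ℕ, r.Prime → r ∣ orderOf (y : G) → r = 2 :=
      fun r hr hd => (syl_top Nat.prime_two P).pi.orderOf y.2 r hr hd
    have : (g : G) ∈ 𝓝(zpowers (y : G)) := by
      have := le_normalizer_map (P : Subgroup G).subtype (mem_map_of_mem _ hg)
      rwa [MonoidHom.map_zpowers] at this
    have := mem_cent1.1 (h y hy this)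
    exact mem_cent1.2 (Subtype.ext this)
  · intro h x hx
    have hx' : IsPi {2} (zpowers x) := isPi_zpowers.2 hx
    obtain ⟨T, hT, hxT⟩ := syl_superset Nat.prime_two hx' (le_norm_self _)
    have hidx : PiNat {2} (𝓒(zpowers x).relIndex 𝓝(zpowers x)) := by
      refine PiNat.of_dvd ?_ (relIndex_cent_cyclic_dvd (cyc_zpowers x) le_rfl)
      obtain ⟨k, hk⟩ := hx'.exists_card Nat.prime_two
      rw [hk]
      cases k with
      | zero => simpa using piNat_one _
      | succ k => rw [Nat.totient_prime_pow_succ Nat.prime_two]; simpa using piNat_pow Nat.prime_two k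
    rw [← hT.sup_of_idx (cent_le_norm _) hidx, ← cent_zpowers]
    refine sup_le (fun g hg => ?_) le_rfl
    obtain ⟨a, -, ha⟩ := (syl_top Nat.prime_two P).syl_conj_le Nat.prime_two hT.pi le_top
    have m1 : a * x * a⁻¹ ∈ (P : Subgroup G) := ha (conj_mem_cj.2 (hxT (mem_zpowers x)))
    have m2 : a * g * a⁻¹ ∈ (P : Subgroup G) := ha (conj_mem_cj.2 hg)
    have m3 : a * g * a⁻¹ ∈ 𝓝(zpowers (a * x * a⁻¹)) := by
      rw [← cj_zpowers, ← cj_norm]; exact conj_mem_cj.2 (hT.le hg)
    have := h ⟨_, m1⟩ (x := ⟨_, m2⟩) (by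
      have e : zpowers (⟨_, m1⟩ : (P : Subgroup G)) = (zpowers (a * x * a⁻¹)).subgroupOf P := by
        apply map_injective (P : Subgroup G).subtype_injective
        rw [MonoidHom.map_zpowers, subgroupOf_map_subtype, inf_of_le_left (zpowers_le_iff.2 m1)]; rfl
      rw [e]
      exact le_normalizer_comap _ m3)
    have e := congrArg Subtype.val (mem_cent1.1 this)
    rw [cent_zpowers, mem_cent1]
    simp only [coe_mul] at e
    have : a * (g * x) * a⁻¹ = a * (x * g) * a⁻¹ := by
      calc _ = a * g * a⁻¹ * (a * x * a⁻¹) := by group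
        _ = _ := by rw [e]; group
    simpa using this

end Cfsg.Agent.S4028
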