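import Cfsg.Statements.S4029
import Cfsg.Agent.Lib.Char.CharProd
import Cfsg.Agent.Lib.Grp.PGFrattini

set_option autoImplicit false
open Cfsg

namespace Cfsg.Agent.S4029

open Subgroup CChar.CharProd CChar.CharKer CChar.CharOrth

/-- Let P be a finite 2-group in which N_P(⟨y⟩) = C_P(y) for every y ∈ P. If s is the number of conjugacy classes of involutions of P, then #(P/Φ(P)) ≤ s + 1; in particular the subgroup generated by the involutions of P has order at least #(P/Φ(P)). -/
theorem result {P : Type*} [Group P] [Finite P] (hP : IsPGroup 2 P)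
    (hirr : ∀ y : P, Subgroup.normalizer ((Subgroup.zpowers y : Subgroup P) : Set P) ≤ Subgroup.centralizer {y}) :
    Nat.card (P ⧸ frattini P) ≤ Nat.card {c : ConjClasses P // ∃ y : P, ConjClasses.mk y = c ∧ orderOf y = 2} + 1 ∧
    Nat.card (P ⧸ frattini P) ≤ Nat.card (Subgroup.closure {y : P | orderOf y = 2}) := by
  have : Fact (Nat.Prime 2) := ⟨Nat.prime_two⟩
  have sq : ∀ x : P ⧸ frattini P, x⁻¹ = x := fun x => by
    obtain ⟨x, rfl⟩ := QuotientGroup.mk_surjective x
    refine inv_eq_of_mul_eq_one_right ?_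
    rw [← pow_two, ← QuotientGroup.mk_pow, QuotientGroup.eq_one_iff]
    exact CA.PGFrattini.pow_mem_frattini hP x
  have h1 : Nat.card (P ⧸ frattini P) ≤
      Nat.card {c : ConjClasses P // ∃ y : P, ConjClasses.mk y = c ∧ orderOf y = 2} + 1 := by
    have c : ∀ a b : P ⧸ frattini P, a * b = b * a := fun a b => by rw [← sq (a * b), mul_inv_rev, sq, sq]
    have e := card_real_irr (G := P ⧸ frattini P)
    rw [Nat.card_congr (Equiv.subtypeUnivEquiv (p := fun C : ConjClasses (P ⧸ frattini P) =>
      ∀ g, ConjClasses.mk g = C → IsConj g g⁻¹) fun C g _ => by rw [sq]), ← card_irr, card_irr_of_comm c] at e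
    rw [← e, ← Finite.card_option]
    refine (Nat.card_le_card_of_injective (β := {χ : IrrCharacter P // ∀ g : P, ((χ : P → ℂ) g).im = 0})
      (fun χ => ⟨⟨_, irr_inflate χ.1.2⟩, fun g => χ.2 g⟩) fun χ ψ h => Subtype.ext (Subtype.ext (funext fun x => by
        obtain ⟨x, rfl⟩ := QuotientGroup.mk_surjective x
        exact congrFun (congrArg (fun χ => χ.1.1) h) x))).trans (card_real_irr.le.trans ?_)
    refine Nat.card_le_card_of_surjective (fun o => o.elim ⟨ConjClasses.mk 1, fun g hg => by
      rw [isConj_one_left.1 (ConjClasses.mk_eq_mk_iff_isConj.1 hg), inv_one]⟩ fun c => ⟨c.1, fun g hg => by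
        obtain ⟨y, y1, y2⟩ := c.2
        obtain ⟨u, rfl⟩ := isConj_iff.1 (ConjClasses.mk_eq_mk_iff_isConj.1 (y1.trans hg.symm))
        rw [conj_inv, inv_eq_of_mul_eq_one_right (show y * y = 1 by rw [← pow_two, ← y2, pow_orderOf_eq_one])]⟩) ?_
    rintro ⟨c, hc⟩
    obtain ⟨y, rfl⟩ := ConjClasses.mk_surjective c
    rcases eq_or_ne y 1 with rfl | y1
    · exact ⟨none, rfl⟩
    obtain ⟨u, hu⟩ := isConj_iff.1 (hc y rfl)
    have := mem_centralizer_singleton_iff.1 (hirr y (mem_normalizer_fintype (x := u) (by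
      rintro _ ⟨k, rfl⟩
      rw [← conj_zpow, hu]
      exact zpow_mem (inv_mem (mem_zpowers y)) k)))
    rw [this, mul_inv_cancel_right] at hu
    exact ⟨some ⟨_, y, rfl, orderOf_eq_prime (by rw [pow_two]; nth_rw 1 [hu]; simp) y1⟩, rfl⟩
  refine ⟨h1, h1.trans ?_⟩
  rw [← Finite.card_option]
  refine Nat.card_le_card_of_injective (fun o => o.elim 1 fun c => ⟨c.2.choose, subset_closure c.2.choose_spec.2⟩) ?_
  rintro (_ | a) (_ | b) h
  · rfl
  · have := b.2.choose_spec.2
    rw [← show (1 : P) = b.2.choose from congrArg Subtype.val h] at this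
    simp at this
  · have := a.2.choose_spec.2
    rw [show a.2.choose = 1 from congrArg Subtype.val h] at this
    simp at this
  · rw [Subtype.ext (a.2.choose_spec.1.symm.trans ((congrArg (fun x => ConjClasses.mk x.1) h).trans
      b.2.choose_spec.1))]

end Cfsg.Agent.S4029
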