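import Cfsg.Statements.S4032
import Cfsg.Agent.Lib.Grp.H24Sw

set_option autoImplicit false
open Cfsg

namespace Cfsg.Agent.S4032

open CA.BG CA.OQuo Subgroup CA.H24Sw

/-- Let π be a set of primes and G a finite group in which N_G(⟨x⟩) = C_G(x) for every π-element x. If N is a normal subgroup of G whose order is divisible by no prime of π, then G/N has the same property: N_{G/N}(⟨y⟩) = C_{G/N}(y) for every π-element y of G/N. -/
theorem result {G : Type*} [Group G] [Finite G] (π : Set ℕ)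
    (hirr : ∀ x : G, (∀ r : ℕ, r.Prime → r ∣ orderOf x → r ∈ π) →
      Subgroup.normalizer ((Subgroup.zpowers x : Subgroup G) : Set G) ≤ Subgroup.centralizer {x})
    (N : Subgroup G) [N.Normal] (hN : ∀ r : ℕ, r.Prime → r ∣ Nat.card N → r ∉ π) :
    ∀ y : G ⧸ N, (∀ r : ℕ, r.Prime → r ∣ orderOf y → r ∈ π) →
      Subgroup.normalizer ((Subgroup.zpowers y : Subgroup (G ⧸ N)) : Set (G ⧸ N)) ≤ Subgroup.centralizer {y} := by
  intro y hy g hg
  obtain ⟨x, rfl, hx⟩ := lift_pi' (π := π) N hy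
  have hc : (♯N).Coprime ♯(zpowers x) := IsPi.coprime' (π := π) hN (isPi_zpowers.2 hx)
  obtain ⟨n, hn, rfl⟩ := lift_norm N hc (y := g) (by rw [MonoidHom.map_zpowers]; exact hg)
  have := mem_cent1.1 (hirr x hx hn)
  rw [mem_cent1, ← QuotientGroup.mk_mul, this, QuotientGroup.mk_mul]

end Cfsg.Agent.S4032
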