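import Cfsg.Statements.S4034
import Cfsg.Agent.Lib.Char.CharBurn
import Cfsg.Agent.Lib.Grp.H13Count
import Cfsg.Agent.Lib.Grp.H1Hall
import Cfsg.Agent.Lib.Grp.Fitting
import Cfsg.Agent.Lib.Grp.PRes
import Cfsg.Agent.S0581

set_option autoImplicit false
open Cfsg

namespace Cfsg.Agent.S4034

open Subgroup Pointwise
universe u
theorem ncard_eq {G : Type*} [Group G] (x : G) :
    (ConjClasses.mk x).carrier.ncard = (centralizer ({x} : Set G)).index := by
  rw [← CA.H13Count.card_isConj, ← Nat.card_coe_set_eq]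
  refine Nat.card_congr (Equiv.subtypeEquivRight fun y => ?_)
  rw [ConjClasses.mem_carrier_iff_mk_eq, ConjClasses.mk_eq_mk_iff_isConj, isConj_comm]

def PP (p : ℕ) (X : Type u) [Group X] : Prop :=
  ∀ x : X, (orderOf x).Coprime p → ∃ k : ℕ, (centralizer ({x} : Set X)).index = p ^ k

theorem quot {p : ℕ} (hp : p.Prime) (X : Type u) [Group X] [Finite X] (N : Subgroup X) [N.Normal]
    (h : PP p X) : PP p (X ⧸ N) := by
  have := Fact.mk hp
  intro y hy
  obtain ⟨g, rfl⟩ := QuotientGroup.mk_surjective y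
  obtain ⟨a, b, ha, -, hg, ⟨k, hk⟩, hb⟩ := CA.PRes.exists_p_part (p := p) g
  have h1 : (a : X ⧸ N) = 1 := by
    obtain ⟨n, rfl⟩ := ha
    have h2 : orderOf ((g ^ n : X) : X ⧸ N) ∣ Nat.gcd (orderOf (g : X ⧸ N)) (p ^ k) := by
      refine Nat.dvd_gcd ?_ (orderOf_dvd_of_pow_eq_one ?_)
      · rw [QuotientGroup.mk_zpow]; exact orderOf_dvd_of_mem_zpowers (zpow_mem_zpowers _ _)
      · rw [← QuotientGroup.mk_pow, hk, QuotientGroup.mk_one]
    rwa [hy.pow_right k, Nat.dvd_one, orderOf_eq_one_iff] at h2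
  have h2 : (g : X ⧸ N) = b := by rw [hg, QuotientGroup.mk_mul, h1, one_mul]
  obtain ⟨j, hj⟩ := h b hb
  have h3 : (centralizer ({b} : Set X)).map (QuotientGroup.mk' N) ≤ centralizer {(g : X ⧸ N)} := by
    rintro _ ⟨c, hc, rfl⟩
    rw [SetLike.mem_coe, mem_centralizer_singleton_iff] at hc
    rw [mem_centralizer_singleton_iff, h2, QuotientGroup.mk'_apply, ← QuotientGroup.mk_mul, hc, QuotientGroup.mk_mul]
  have h4 := (index_dvd_of_le h3).trans (index_map_dvd _ (QuotientGroup.mk'_surjective N))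
  rw [hj] at h4
  obtain ⟨i, -, hi⟩ := (Nat.dvd_prime_pow hp).1 h4
  exact ⟨i, hi⟩

theorem solv {p : ℕ} (hp : p.Prime) (X : Type u) [Group X] [Finite X] (h : PP p X) : Group.IsSolvable X := by
  have := Fact.mk hp
  refine CChar.CharBurn.isSolvable_of_forall_simple (P := fun X _ => PP p X) ?_ (fun X _ _ N _ => quot hp X N) ?_ X h
  · intro X _ _ N _ h x hx
    obtain ⟨k, hk⟩ := h x (by rwa [orderOf_coe])
    have h1 := CA.H1Basic.relIndex_normal_dvd_index (centralizer ({(x : X)} : Set X)) N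
    have h2 : (centralizer ({(x : X)} : Set X)).subgroupOf N = centralizer {x} := by
      ext y
      rw [mem_subgroupOf, mem_centralizer_singleton_iff, mem_centralizer_singleton_iff, Subtype.ext_iff]
      rfl
    rw [hk, relIndex, h2] at h1
    obtain ⟨i, -, hi⟩ := (Nat.dvd_prime_pow hp).1 h1
    exact ⟨i, hi⟩
  · intro X _ _ _ h
    by_cases hX : IsPGroup p X
    · exact CA.Core.isSolvable_of_isPGroup hX
    · have h1 : Cfsg.pResidual p X ≠ ⊥ := fun h => hX (CA.PRes.pResidual_eq_bot_iff.1 h)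
      obtain ⟨x, hx, hx1⟩ : ∃ x : X, (orderOf x).Coprime p ∧ x ≠ 1 := by
        by_contra h2; push Not at h2
        exact h1 (le_bot_iff.1 (CA.PRes.pResidual_le_iff.2 fun g hg => h2 g hg))
      obtain ⟨k, hk⟩ := h x hx
      exact CA.Core.isSolvable_of_isMulCommutative ⟨⟨CChar.CharBurn.comm_of_simple_of_class hp hx1 hk⟩⟩

/-- Let G be a finite group and p a prime. Every conjugacy class of p-regular elements of G (elements of order prime to p) has p-power size if and only if G has an abelian p-complement, i.e. an abelian subgroup of order prime to p and p-power index. -/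
theorem result {G : Type*} [Group G] [Finite G] {p : ℕ} (hp : p.Prime) :
    (∀ x : G, (orderOf x).Coprime p → ∃ k : ℕ, (ConjClasses.mk x).carrier.ncard = p ^ k) ↔
    (∃ H : Subgroup G, IsMulCommutative H ∧ ¬ p ∣ Nat.card H ∧ ∃ k : ℕ, H.index = p ^ k) := by
  have := Fact.mk hp
  simp only [ncard_eq]
  constructor
  · intro h
    have hs := solv hp G h
    obtain ⟨H, h1, h2⟩ := CA.H1Hall.exists_hall (G := G) {q | q ≠ p}
    have hH : ¬ p ∣ Nat.card H := fun hd => h1 p hp hd rfl
    refine ⟨H, ⟨⟨fun a b => ?_⟩⟩, hH, _, Nat.eq_prime_pow_of_unique_prime_dvd index_ne_zero_of_finite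
      fun {d} hd hdd => by by_contra hne; exact h2 d hd hne hdd⟩
    have hq := quot hp G (pCore p G) h
    have hF := CA.Fitting.fitting_le_pPrimeCore_of_pCore_eq_bot p (CA.Core.pCore_quotient_pCore (G := G))
    have key : ∀ c : H, ((c : G) : G ⧸ pCore p G) ∈ centralizer (fittingSubgroup (G ⧸ pCore p G) : Set (G ⧸ pCore p G)) := by
      intro c
      have h3 : (orderOf ((c : G) : G ⧸ pCore p G)).Coprime p :=
        Nat.Coprime.coprime_dvd_left ((orderOf_map_dvd (QuotientGroup.mk' _) (c : G)).trans (H.orderOf_dvd_natCard c.2))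
          ((Nat.Prime.coprime_iff_not_dvd hp).2 hH).symm
      obtain ⟨k, hk⟩ := hq _ h3
      have h4 : fittingSubgroup (G ⧸ pCore p G) ≤ centralizer {((c : G) : G ⧸ pCore p G)} := by
        apply CA.H1Basic.normal_le_of_coprime_index
        rw [hk]
        exact (CA.Core.coprime_of_le_pPrimeCore hF).pow_right k
      intro y hy
      exact mem_centralizer_singleton_iff.1 (h4 hy)
    have h5 := key b _ (CA.Fitting.centralizer_fitting_le (key a))
    have h6 : ((a * b : H) : G)⁻¹ * (b * a : H) ∈ pCore p G ⊓ H := by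
      refine ⟨QuotientGroup.eq.1 ?_, H.mul_mem (H.inv_mem (a * b).2) (b * a).2⟩
      simpa using h5
    rw [CA.Core.inf_eq_bot_of_isPGroup_of_coprime CA.Core.isPGroup_pCore
      ((Nat.Prime.coprime_iff_not_dvd hp).2 hH).symm, mem_bot, inv_mul_eq_one] at h6
    exact Subtype.ext h6
  · rintro ⟨H, hc, hH, k, hk⟩ x hx
    have hcop : (Nat.card H).Coprime H.index := by
      rw [hk]; exact ((Nat.Prime.coprime_iff_not_dvd hp).2 hH).symm.pow_right k
    obtain ⟨g, hg⟩ := Cfsg.Agent.S0581.result H (zpowers x) (CA.Core.isNilpotent_of_isMulCommutative hc) hcop (by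
      intro q hq hqd
      rw [Nat.card_zpowers] at hqd
      have h1 : q ∣ Nat.card H * H.index := by
        rw [H.card_mul_index]; exact hqd.trans (orderOf_dvd_natCard x)
      refine ((Nat.Prime.dvd_mul hq).1 h1).resolve_right fun h2 => ?_
      rw [hk] at h2
      have h3 := (Nat.prime_dvd_prime_iff_eq hq hp).1 (hq.dvd_of_dvd_pow h2)
      subst h3
      exact hq.one_lt.ne' (Nat.eq_one_of_dvd_coprimes hx hqd dvd_rfl))
    have h1 : MulAut.conj g • H ≤ centralizer {x} := by
      intro y hy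
      have h2 := CA.H1Basic.mem_conj_smul.1 hy
      have h3 := CA.H1Basic.mem_conj_smul.1 (hg (mem_zpowers x))
      have h4 := congrArg Subtype.val (hc.is_comm.comm ⟨_, h2⟩ ⟨_, h3⟩)
      rw [mem_centralizer_singleton_iff]
      simp only [coe_mul] at h4
      calc y * x = g * ((g⁻¹ * y * g) * (g⁻¹ * x * g)) * g⁻¹ := by group
        _ = _ := by rw [h4]; group
    have h2 := index_dvd_of_le h1
    rw [CA.H1Basic.index_smul, hk] at h2
    obtain ⟨i, -, hi⟩ := (Nat.dvd_prime_pow hp).1 h2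
    exact ⟨i, hi⟩

end Cfsg.Agent.S4034
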