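import Cfsg.Statements.S4035
import Cfsg.Agent.Lib.Solv.CS1

set_option autoImplicit false
open Cfsg

namespace Cfsg.Agent.S4035


/-- Let G be a finite group and p a prime such that p divides the size of no conjugacy class of p-regular elements (elements of order prime to p). Then G is the internal direct product of a Sylow p-subgroup P and a normal subgroup H of order prime to p: P is normal, P ⊓ H = 1 and PH = G. -/
theorem result {G : Type*} [Group G] [Finite G] {p : ℕ} [Fact p.Prime]
    (h : ∀ x : G, (orderOf x).Coprime p → ¬ p ∣ (ConjClasses.mk x).carrier.ncard) (P : Sylow p G) :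
    (P : Subgroup G).Normal ∧ ∃ H : Subgroup G, H.Normal ∧ ¬ p ∣ Nat.card H ∧
      (P : Subgroup G) ⊓ H = ⊥ ∧ (P : Subgroup G) ⊔ H = ⊤ := by
  obtain ⟨h1, h2, h3⟩ := CA.CS1.split (fun x hx => by rw [← CA.CS1.ncard_carrier]; exact h x hx) P
  refine ⟨h1, pResidual p G, inferInstance, CA.PRes.hasNPC_iff_not_dvd.1 h3, ?_, ?_⟩
  · rw [inf_comm]; exact (CA.PRes.hasNPC_iff_inf_eq_bot P).1 h3
  · rw [sup_comm]; exact CA.PRes.pResidual_sup_sylow P

end Cfsg.Agent.S4035
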