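import Cfsg.Statements.S4036
import Cfsg.Agent.Lib.Odd.BG1b
import Cfsg.Agent.Lib.Odd.BGMisc
import Cfsg.Agent.Lib.Grp.CoprimeAct

set_option autoImplicit false
open Cfsg

namespace Cfsg.Agent.S4036

open CA.BG CA.OQuo Subgroup CA.CoprimeAct SemidirectProduct

/-- Let P be a finite abelian p-group and K a group of automorphisms of P (a subgroup of Aut P) whose order is divisible by p. If all non-identity elements of K have the same fixed-point subgroup on P, then K has no non-trivial normal subgroup of order prime to p. -/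
theorem result {P : Type*} [CommGroup P] [Finite P] {p : ℕ}
    [Fact p.Prime] (hP : IsPGroup p P) (K : Subgroup (MulAut P)) (hK : p ∣ Nat.card K)
    (hfix : ∀ x y : MulAut P, x ∈ K → y ∈ K → x ≠ 1 → y ≠ 1 → ∀ v : P, x v = v ↔ y v = v) :
    ∀ N : Subgroup ↥K, N.Normal → ¬ p ∣ Nat.card N → N = ⊥ := by
  have hp : p.Prime := Fact.out
  intro N hN hpN
  by_contra hne
  obtain ⟨x, hx⟩ := exists_prime_orderOf_dvd_card' (G := K) p hK
  have hx1 : (x : MulAut P) ≠ 1 := by
    intro h
    have : x = 1 := Subtype.ext h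
    rw [this, orderOf_one] at hx; exact hp.one_lt.ne hx
  set V : Subgroup (SD K P) := (⊤ : Subgroup P).map inl with hV
  set A : Subgroup (SD K P) := N.map inr with hA
  have hVp : IsPi {p} V := isPi_of_isPGroup hp ((hP.to_subgroup ⊤).map _)
  have hcop : (♯V).Coprime ♯A := hVp.coprime ((isPi_compl_iff hp).2 (by rwa [hA, card_map_inr]))
  have hAV : A ≤ 𝓝(V) := le_normalizer_top N
  have hXV : zpowers (inr x : SD K P) ≤ 𝓝(V) := by
    rw [← MonoidHom.map_zpowers]; exact le_normalizer_top _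
  have hXA : zpowers (inr x : SD K P) ≤ 𝓝(A) := by
    rw [← MonoidHom.map_zpowers]
    exact (map_mono (top_le_norm N _)).trans (le_normalizer_map _)
  have hVc : IsMulCommutative V := inferInstance
  have hne' : ⁅V, A⁆ ≠ ⊥ := by
    intro h
    obtain ⟨n, hn, hn1⟩ := exists_ne_one hne
    apply hn1
    ext v
    exact inl_mem_centralizer_iff.1 (comm_eq_bot_iff.1 h (mem_map_of_mem _ (mem_top v))) n hn
  have hX : IsPi {p} (zpowers (inr x : SD K P)) := by
    rw [isPi_zpowers, orderOf_injective _ inr_injective, hx]; exact (piNat_prime hp).2 rfl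
  obtain ⟨w, ⟨hw1, hw2⟩, hw3⟩ := exists_ne_one (hX.meet_cent (hVp.of_le (comm_le_left hAV)) (norm_comm hXV hXA) hne')
  obtain ⟨v, -, rfl⟩ := comm_le_left hAV hw1
  rw [cent_zpowers] at hw2
  have hv := inl_mem_centralizer_singleton_iff.1 hw2
  have : (inl v : SD K P) ∈ ⁅V, A⁆ ⊓ 𝓒(A) := by
    refine ⟨hw1, inl_mem_centralizer_iff.2 fun n _ => ?_⟩
    by_cases h1 : (n : MulAut P) = 1
    · change (n : MulAut P) v = v; rw [h1]; rfl
    · exact (hfix x n x.2 n.2 hx1 h1 v).1 hv
  rw [coprime_abel_cent_TI hAV hcop hVc, mem_bot] at this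
  exact hw3 this

end Cfsg.Agent.S4036
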