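import Cfsg.Statements.S4039
import Cfsg.Agent.S4038

set_option autoImplicit false
open Cfsg

namespace Cfsg.Agent.S4039

/-- A finite group possessing a maximal subgroup that is nilpotent of class at most 2 is solvable. -/
theorem result {G : Type*} [Group G] [Finite G]
    (M : Subgroup G) (hmax : IsCoatom M) (hnil : Group.IsNilpotent M) (hcl : Group.nilpotencyClass ↥M ≤ 2) :
    Group.IsSolvable G := by
  refine Cfsg.Agent.S4038.result (A := Unit) 1 (by simp) M hmax.1 (fun a m hm => hm)
    (fun H h1 h2 _ => ?_) hnil fun S => (Subgroup.nilpotencyClass_le _).trans hcl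
  by_contra h
  exact h2 (hmax.2 H (lt_of_le_of_ne h1 (Ne.symm h)))

end Cfsg.Agent.S4039
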