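import Cfsg.Statements.S4043
import Cfsg.Agent.Lib.Odd.BG4x3

set_option autoImplicit false
open Cfsg

namespace Cfsg.Agent.S4043

open Subgroup CA.BG CA.OQuo in

/-- Let G be a finite group that is the semidirect product of a normal p-subgroup N by a subgroup A, and also of N by a subgroup A₁, where p is a prime and A and A₁ both have normal p-complements. If C_N(A) = C_N(A₁) = 1, then A₁ is conjugate to A by an element of N. -/
theorem result {G : Type*} [Group G] [Finite G] {p : ℕ}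
    [Fact p.Prime] (N : Subgroup G) [N.Normal] (hN : IsPGroup p N) (A A₁ : Subgroup G)
    (hA : A.IsComplement' N) (hA₁ : A₁.IsComplement' N)
    (hAp : Cfsg.HasNormalPComplement p A) (hA₁p : Cfsg.HasNormalPComplement p A₁)
    (hC : ∀ n : G, n ∈ N → (∀ a : G, a ∈ A → a * n * a⁻¹ = n) → n = 1)
    (hC₁ : ∀ n : G, n ∈ N → (∀ a : G, a ∈ A₁ → a * n * a⁻¹ = n) → n = 1) :
    ∃ n : G, n ∈ N ∧ A₁ = A.map (MulAut.conj n).toMonoidHom := by
  have hp : p.Prime := Fact.out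
  have hNp : IsPi {p} N := isPi_of_isPGroup hp hN
  have nN : ∀ X : Subgroup G, X ≤ 𝓝(N) := fun X => by rw [normalizer_eq_top]; exact le_top
  have hall : ∀ B : Subgroup G, B.IsComplement' N → Cfsg.HasNormalPComplement p B →
      Hall {p}ᶜ 𝓞({p}ᶜ, B) ⊤ := fun B hB hBp => by
    refine Hall.of_idx ((hasPC_iff hp).2 hBp) le_top ?_
    rw [relIndex_top_right, hB.symm.index_eq_card, compl_compl]
    exact hNp.nat
  have hK := hall A hA hAp
  have hK₁ := hall A₁ hA₁ hA₁p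
  set K := 𝓞({p}ᶜ, A)
  set K₁ := 𝓞({p}ᶜ, A₁)
  have nK : A ≤ 𝓝(K) := le_norm_core _ _
  have nK₁ : A₁ ≤ 𝓝(K₁) := le_norm_core _ _
  have hM : (⊤ : Subgroup G) ≤ 𝓝(K ⊔ N) := by
    rw [← hA.sup_eq_top]
    exact sup_le (norm_sup nK (nN _)) (le_sup_right.trans le_normalizer)
  have h1 : K₁ ≤ K ⊔ N := hK₁.pi.le_of_relIndex le_top hM (hK.le_of_idx le_sup_left)
  obtain ⟨k, hk, h2⟩ := coprime_conj_le (nN K) (hNp.coprime hK.pi) h1 (hNp.coprime hK₁.pi)
    (Or.inr (Or.inr (hNp.isSolvable hp)))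
  have h3 : cj k K₁ = K := (hK₁.cj_mem (mem_top k)).eq_of_le' hK h2
  obtain ⟨P, hP⟩ := syl_exists hp A
  have h4 : N ⊓ 𝓒(K) = ⊥ := by
    by_contra hne
    refine hP.pi.meet_cent (hNp.inf_left _) (hP.le.trans (norm_inf (nN _) (norm_cent nK))) hne ?_
    rw [eq_bot_iff]
    intro n hn
    have h5 : A ≤ 𝓒₁(n) := by
      rw [← ((hasPC_iff hp).2 hAp).sup_syl hP]
      exact sup_le (le_cent1_iff.2 (mem_inf.1 hn).2) (le_cent1_iff.2 (mem_inf.1 (mem_inf.1 hn).1).2)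
    exact hC n (mem_inf.1 (mem_inf.1 hn).1).1 fun a ha =>
      mul_inv_eq_iff_eq_mul.2 (mem_cent1.1 (h5 ha))
  have h6 : cj k A₁ ≤ A := by
    refine ((norm_cj k nK₁).trans (by rw [h3])).trans fun g hg => ?_
    have hg' : g ∈ A ⊔ N := by rw [hA.sup_eq_top]; exact mem_top g
    obtain ⟨a, ha, n, hn, e⟩ := (mem_sup_norm (nN A)).1 hg'
    have : n ∈ N ⊓ 𝓝(K) := by
      refine mem_inf.2 ⟨hn, ?_⟩
      have : n = a⁻¹ * g := by rw [← e]; group
      rw [this]
      exact mul_mem (inv_mem (nK ha)) hg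
    rw [coprime_norm_cent (nN K) (hNp.coprime hK.pi), h4, mem_bot] at this
    rw [← e, this, mul_one]
    exact ha
  have h7 : cj k A₁ = A := by
    refine eq_of_le_of_card_ge h6 ?_
    rw [card_cj, ← hA.index_eq_card, ← hA₁.index_eq_card]
  exact ⟨k⁻¹, inv_mem hk, cj_eq_iff.1 h7⟩

end Cfsg.Agent.S4043
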