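import Cfsg.Statements.S4049
import Cfsg.Agent.Lib.Grp.H24Sw

set_option autoImplicit false
open Cfsg

namespace Cfsg.Agent.S4049

open CA.BG CA.OQuo Subgroup CA.H24Sw

/-- Let G be a finite group such that N_G(H)/C_G(H) has odd order for every nontrivial subgroup H of odd order. Then the Sylow 2-subgroups of G are normal. -/
theorem result {G : Type*} [Group G] [Finite G]
    (hhom : ∀ H : Subgroup G, H ≠ ⊥ → ¬ 2 ∣ Nat.card ↥H →
        ¬ 2 ∣ (Subgroup.centralizer (H : Set G)).relIndex (Subgroup.normalizer (H : Set G))) (P : Sylow 2 G) :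
    (P : Subgroup G).Normal := by
  refine normal_sylow_two (fun x hx1 hx => hhom _ (by simpa using hx1) ?_) P
  rw [Nat.card_zpowers]; exact fun hd => (Nat.not_even_iff_odd.2 hx) (even_iff_two_dvd.2 hd)

end Cfsg.Agent.S4049
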