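import Cfsg.Statements.S4051
import Cfsg.Agent.Lib.Grp.H24Sw

set_option autoImplicit false
open Cfsg

namespace Cfsg.Agent.S4051

open CA.BG CA.OQuo Subgroup CA.H24Sw

/-- Let π be a set of primes and G a finite group such that N_G(H)/C_G(H) is a π'-group for every nontrivial π'-subgroup H of G. If K is a normal subgroup of G such that the π-elements of K form a subgroup and the π-elements of G/K form a subgroup, then the π-elements of G form a subgroup. -/
theorem result {G : Type*} [Group G] [Finite G] (π : Set ℕ)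
    (hπ : ∀ p ∈ π, p.Prime) (hhom : (∀ H : Subgroup G, H ≠ ⊥ → (∀ p : ℕ, p.Prime → p ∣ Nat.card ↥H → p ∉ π) →
        ∀ p : ℕ, p.Prime → p ∣ (Subgroup.centralizer (H : Set G)).relIndex (Subgroup.normalizer (H : Set G)) → p ∉ π))
    (K : Subgroup G) [K.Normal]
    (hK : ∃ L : Subgroup ↥K, ∀ x : ↥K, x ∈ L ↔ ∀ p : ℕ, p.Prime → p ∣ orderOf x → p ∈ π)
    (hQ : ∃ L : Subgroup (G ⧸ K), ∀ x : G ⧸ K, x ∈ L ↔ ∀ p : ℕ, p.Prime → p ∣ orderOf x → p ∈ π) :
    (∃ K : Subgroup G, ∀ x : G, x ∈ K ↔ ∀ p : ℕ, p.Prime → p ∣ orderOf x → p ∈ π) := by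
  obtain ⟨L, hL⟩ := hK
  obtain ⟨M, hM⟩ := hQ
  obtain ⟨c1, h1⟩ := hall_of_closed hL
  obtain ⟨c2, h2⟩ := hall_of_closed hM
  refine closed_of_sep (CA.L0FT.sep_of_series (n := 4)
    ![⊥, L.map K.subtype, K, M.comap (QuotientGroup.mk' K), ⊤] rfl rfl ?_ ?_) hhom
  · intro i; fin_cases i <;> simp <;> infer_instance
  · intro i; fin_cases i
    · left
      have := h1.pi.nat
      rw [← card_map_of_injective K.subtype_injective] at this
      intro q hq hd
      exact this q hq (by simpa only [Fin.zero_eta, Fin.castSucc_zero, Matrix.cons_val_zero, Fin.succ_zero_eq_one,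
        Matrix.cons_val_one, relIndex_bot_left] using hd)
    · right
      have := h1.idx
      rw [relIndex_top_right] at this
      have e : (L.map K.subtype).relIndex K = L.index := by
        rw [relIndex, ← comap_subtype, comap_map_eq_self_of_injective K.subtype_injective]
      simpa [e, PiNat] using this
    · left
      have e := relIndex_comap (⊥ : Subgroup (G ⧸ K)) (QuotientGroup.mk' K) (M.comap (QuotientGroup.mk' K))
      rw [MonoidHom.comap_bot, QuotientGroup.ker_mk', map_comap_eq_self_of_surjective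
        (QuotientGroup.mk'_surjective K), relIndex_bot_left] at e
      simpa [e, IsPi, PiNat] using h2.pi
    · right
      have := h2.idx
      rw [relIndex_top_right] at this
      simpa [index_comap_of_surjective _ (QuotientGroup.mk'_surjective K), PiNat] using this

end Cfsg.Agent.S4051
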