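import Cfsg.Statements.S4057
import Cfsg.Agent.Lib.Fus.FusPat

set_option autoImplicit false
open Cfsg

namespace Cfsg.Agent.S4057

open Subgroup CA.OQuo CA.BG CA.BG4 CA.FusPat

/-- Let p be an odd prime and P a finite p-group in which every normal abelian subgroup can be generated by k elements. Then every subgroup of P can be generated by at most ⌊k(k+4)/4⌋ elements. -/
theorem result {P : Type*} [Group P] [Finite P] {p : ℕ} [Fact p.Prime]
    (hp : p ≠ 2) (hP : IsPGroup p P) (k : ℕ)
    (hab : ∀ A : Subgroup P, A.Normal → IsMulCommutative A → ∃ S : Finset P, S.card ≤ k ∧ Subgroup.closure (S : Set P) = A) :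
    ∀ H : Subgroup P, ∃ S : Finset P, S.card ≤ k * (k + 4) / 4 ∧ Subgroup.closure (S : Set P) = H := by
  classical
  intro H
  have pp : p.Prime := Fact.out
  have pT : ∀ K : Subgroup P, IsPi {p} K := fun K => isPi_of_isPGroup pp (hP.to_subgroup K)
  obtain ⟨A, -, ⟨hn, hc, he⟩, hmax⟩ := exists_maximal_ge
    (P := fun B : Subgroup P => ⊤ ≤ 𝓝(B) ∧ IsMulCommutative B ∧ ExpDvd B (p ^ 1)) (H := ⊥)
    ⟨le_norm_bot _, inferInstance, fun x hx => by rw [mem_bot.1 hx, one_pow]⟩
  have hal : ∀ x ∈ 𝓒(A), x ^ p = 1 → x ∈ A := fun x hx h =>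
    alperin (n := 1) pp (pT ⊤) (by simpa using hp) le_top hn hc he
      (fun B h1 _ h3 h4 h5 => hmax B ⟨h3, h4, h5⟩ h1) (mem_top x) hx (by simpa using h)
  obtain ⟨a, ha⟩ := (pT A).exists_card pp
  have hak : a ≤ k := by
    obtain ⟨S, hS, e⟩ := hab A (normalizer_eq_top_iff.1 (top_le_iff.1 hn)) hc
    have h1 := CA.PGFrattini.card_sup_closure_le (G := A) (p := p) (N := ⊥)
      (le_bot_iff.2 ((commutator_eq_bot_iff_center_eq_top A).2 (by
        haveI := hc; exact center_eq_top)))
      (fun x => Subtype.ext (by simpa using he x x.2)) (S.subtype (· ∈ A))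
    have h2 : closure ((S.subtype (· ∈ A) : Finset A) : Set A) = ⊤ := by
      apply map_injective A.subtype_injective
      rw [MonoidHom.map_closure, ← MonoidHom.range_eq_map, range_subtype]
      refine Eq.trans (congrArg _ ?_) e
      ext x
      simp only [Set.mem_image, Finset.mem_coe, Finset.mem_subtype, coe_subtype]
      exact ⟨by rintro ⟨y, hy, rfl⟩; exact hy, fun hx => ⟨⟨x, e ▸ subset_closure hx⟩, hx, rfl⟩⟩
    rw [h2, bot_sup_eq, card_top, card_bot, one_mul, ha] at h1
    refine ((Nat.pow_le_pow_iff_right pp.one_lt).1 h1).trans (le_trans ?_ hS)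
    rw [Finset.card_subtype]; exact Finset.card_filter_le _ _
  have h1 := linear pp (pT H) hc (le_top.trans hn) (der_le_Phi pp (pT H)) (Phi_le H) ha
  set C := H ⊓ 𝓒(A) with hC
  have h2 := index_frattini_le_om hp _ C rfl (hP.to_subgroup C)
    (fun x hx => mem_center_iff.2 fun g => Subtype.ext
      (mem_cent.1 g.2.2 x (hal x x.2.2 (congrArg Subtype.val hx))).symm) (A.subgroupOf C)
    fun x => ⟨fun h => Subtype.ext (by simpa using he x h), fun h => hal x x.2.2 (congrArg Subtype.val h)⟩
  have h3 : ♯(A.subgroupOf C) ≤ p ^ a := by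
    rw [← card_map_of_injective C.subtype_injective, subgroupOf_map_subtype, ← ha]
    exact card_le_of_le' inf_le_left
  have e : ∀ K : Subgroup P, (Phi K).relIndex K = (frattini K).index := fun K => by
    rw [Phi, relIndex, subgroupOf, comap_map_eq_self_of_injective K.subtype_injective]
  have h4 : (Phi H).relIndex (Phi H ⊔ C) ≤ p ^ a := by
    rw [sup_comm, relIndex_sup_norm (inf_le_left.trans (le_norm_Phi H))]
    exact (relIndex_le_of_le_left (Phi_mono pp (pT H) inf_le_left) (relIndex_ne_zero' _ _)).trans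
      ((e C).trans_le (h2.trans h3))
  obtain ⟨n, hn'⟩ := CA.PGBasic.exists_relIndex_eq_pow (H := Phi H) (hP.to_subgroup H)
  have h5 := Nat.mul_le_mul h4 h1
  rw [relIndex_mul_relIndex _ _ _ le_sup_left (sup_le (Phi_le H) inf_le_left), hn', ← pow_add] at h5
  obtain ⟨T, hT, hT'⟩ := CA.PGFrattini.exists_basis (hP.to_subgroup H) ((e H).symm.trans hn')
  refine ⟨T.image H.subtype, Finset.card_image_le.trans ?_, ?_⟩
  · have h6 := (Nat.pow_le_pow_iff_right pp.one_lt).1 h5
    have h7 : a * a / 4 ≤ k * k / 4 := Nat.div_le_div_right (Nat.mul_le_mul hak hak)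
    have h8 : k * (k + 4) / 4 = k * k / 4 + k := by
      rw [mul_add, Nat.add_mul_div_right _ _ (by norm_num)]
    omega
  · rw [Finset.coe_image, ← MonoidHom.map_closure, hT', ← MonoidHom.range_eq_map, range_subtype]


end Cfsg.Agent.S4057
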