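import Cfsg.Statements.S4058
import Cfsg.Agent.Lib.Block.BlkReg
import Cfsg.Agent.Lib.Char.CharMisc
import Cfsg.Agent.Lib.Char.CharProd
import Cfsg.Agent.Lib.Grp.PGFrattini

set_option autoImplicit false
open Cfsg

namespace Cfsg.Agent.S4058

open Subgroup CA CChar.CharFun CChar.CharOrth CChar.CharKer CChar.CharInt CChar.CharMisc
  CChar.CharProd
open scoped ComplexConjugate

section
variable {G : Type*} [Group G] [Finite G] (N : Subgroup G) [N.Normal]

/-- multiplication by the linear characters of `G ⧸ N` -/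
@[reducible] noncomputable def act : MulAction (G ⧸ N →* ℂˣ) (IrrCharacter G) where
  smul l χ := ⟨fun g => (l (QuotientGroup.mk' N g) : ℂ) * χ.1 g,
    irr_unitsHom_mul χ.2 (l.comp (QuotientGroup.mk' N))⟩
  one_smul _ := Subtype.ext (funext fun _ => one_mul _)
  mul_smul _ _ _ := Subtype.ext (funext fun _ => mul_assoc _ _ _)

theorem stab_le (χ : IrrCharacter G) :
    letI := act N
    Nat.card (MulAction.stabilizer (G ⧸ N →* ℂˣ) χ) ≤ charDegree χ.1 ^ 2 := by
  classical
  letI := act N
  haveI := Fintype.ofFinite G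
  have hc := char_of_irr χ.2
  obtain ⟨m, h1, h2⟩ := char_exists_nat_coeffs (char_mul hc (char_conj hc))
  let f : MulAction.stabilizer (G ⧸ N →* ℂˣ) χ → IrrCharacter G := fun l =>
    ⟨_, irr_of_unitsHom (l.1.comp (QuotientGroup.mk' N))⟩
  have hf : Function.Injective f := fun l l' h => Subtype.ext (MonoidHom.ext fun x => by
    obtain ⟨g, rfl⟩ := QuotientGroup.mk'_surjective N x
    exact Units.ext (congrFun (congrArg Subtype.val h) g))
  have h3 : charDegree χ.1 ^ 2 = ∑ ψ : IrrCharacter G, m ψ * charDegree ψ.1 := by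
    have := congrFun h2 1
    rw [Finset.sum_apply] at this
    simp only [Pi.mul_apply, Pi.smul_apply, smul_eq_mul, irr_apply_one_eq χ.2, map_natCast] at this
    rw [Finset.sum_congr rfl fun ψ _ => by rw [irr_apply_one_eq ψ.2], ← sq] at this
    exact_mod_cast this
  haveI : Finite (G ⧸ N →* ℂˣ) := Finite.of_injective _ (fun l l' (h : (⟨_, irr_of_unitsHom l⟩ :
    IrrCharacter (G ⧸ N)) = ⟨_, irr_of_unitsHom l'⟩) => MonoidHom.ext fun x =>
      Units.ext (congrFun (congrArg Subtype.val h) x))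
  haveI := Fintype.ofFinite (MulAction.stabilizer (G ⧸ N →* ℂˣ) χ)
  rw [h3, Nat.card_eq_fintype_card, ← Finset.card_univ, ← Finset.card_image_of_injective _ hf,
    Finset.card_eq_sum_ones]
  refine (Finset.sum_le_sum fun ψ hψ => ?_).trans
    (Finset.sum_le_sum_of_subset (Finset.subset_univ _))
  obtain ⟨l, -, rfl⟩ := Finset.mem_image.1 hψ
  have h4 := h1 (f l)
  rw [inner_mul_left, show (fun g => conj (conj (χ.1 g)) * (f l).1 g) = χ.1 from funext fun g => by
    rw [Complex.conj_conj, mul_comm]; exact congrFun (congrArg Subtype.val l.2) g,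
    inner_irr_self χ.2] at h4
  rw [show m (f l) = 1 by exact_mod_cast h4.symm, charDegree_eq (n := 1) (by simp [f])]

end

/-- Let G be a finite 2-group with #(G/Φ(G)) ≥ 2^(2k+1). Then the number of elements x of G with x² = 1 is divisible by 2^(k+1). -/
theorem result {G : Type*} [Group G] [Finite G] (hG : IsPGroup 2 G) (k : ℕ)
    (hgen : 2 ^ (2 * k + 1) ≤ Nat.card (G ⧸ frattini G)) :
    2 ^ (k + 1) ∣ Nat.card {x : G // x ^ 2 = 1} := by
  classical
  haveI := Fintype.ofFinite G
  letI := act (frattini G)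
  have h0 : Nat.card (G ⧸ frattini G →* ℂˣ) = (frattini G).index := by
    rw [card_unitsHom, (commutator_eq_bot_iff _).2 ((Normal.quotient_commutative_iff_commutator_le).2
      (PGFrattini.commutator_le_frattini hG)), index_bot]; rfl
  obtain ⟨d, hd⟩ := hG.index (frattini G)
  have h1 : ∀ χ : IrrCharacter G, ∃ e : ℤ, fsInd χ.1 = e := fun χ => by
    rcases fsInd_cases χ.2 with h | h | h
    exacts [⟨0, by simpa using h⟩, ⟨1, by simpa using h⟩, ⟨-1, by simpa using h⟩]
  choose e he using h1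
  have h2 : (Nat.card {x : G // x ^ 2 = 1} : ℤ) = ∑ χ : IrrCharacter G, e χ * charDegree χ.1 := by
    have := card_sq_eq_sum (1 : G)
    rw [Finset.sum_congr rfl fun χ _ => by rw [he, irr_apply_one_eq χ.2]] at this
    simp only [sq]
    exact_mod_cast this
  haveI := Fintype.ofFinite (MulAction.orbitRel.Quotient (G ⧸ frattini G →* ℂˣ) (IrrCharacter G))
  rw [← Int.natCast_dvd_natCast, h2, BlkReg.sum_eq_sum_orbits (P := G ⧸ frattini G →* ℂˣ)]
  · refine Finset.dvd_sum fun ω _ => ?_
    rw [mul_left_comm, ← Nat.cast_mul]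
    refine (Int.natCast_dvd_natCast.2 ?_).mul_left _
    obtain ⟨a, ha⟩ := degree_eq_pow_of_isPGroup hG ω.out.2
    have h3 := stab_le (frattini G) ω.out
    have h4 := (MulAction.stabilizer (G ⧸ frattini G →* ℂˣ) ω.out).index_mul_card
    rw [h0, hd] at h4
    obtain ⟨i, -, hi⟩ := (Nat.dvd_prime_pow Nat.prime_two).1 (Dvd.intro _ h4)
    obtain ⟨j, -, hj⟩ := (Nat.dvd_prime_pow Nat.prime_two).1 (Dvd.intro_left _ h4)
    rw [hi, hj, ← pow_add, Nat.pow_right_inj one_lt_two] at h4
    rw [hj, ha, ← pow_mul, Nat.pow_le_pow_iff_right one_lt_two] at h3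
    change _ ≤ (frattini G).index at hgen
    rw [hd, Nat.pow_le_pow_iff_right one_lt_two] at hgen
    rw [hi, ha, ← pow_add]
    exact pow_dvd_pow 2 (by omega)
  · intro l χ
    have h3 : fsInd (l • χ).1 = fsInd χ.1 := by
      rw [fsInd_def, fsInd_def, Finset.sum_congr rfl fun s _ => ?_]
      change (l (QuotientGroup.mk' _ (s * s)) : ℂ) * _ = _
      rw [← sq, show QuotientGroup.mk' (frattini G) (s ^ 2) = 1 from (QuotientGroup.eq_one_iff _).2
        (PGFrattini.pow_mem_frattini hG s), map_one, Units.val_one, one_mul]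
    rw [he, he, Int.cast_inj] at h3
    rw [h3, charDegree_eq (χ := (l • χ).1) (n := charDegree χ.1) ?_]
    change (l (QuotientGroup.mk' _ 1) : ℂ) * _ = _
    rw [map_one, map_one, Units.val_one, one_mul, irr_apply_one_eq χ.2]

end Cfsg.Agent.S4058
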