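import Cfsg.Statements.S4065
import Cfsg.Agent.Lib.Lin.PSL2Struct

set_option autoImplicit false
open Cfsg

namespace Cfsg.Agent.S4065

open Matrix CA.SL2Basic CA.Mat2 CA.SL2Torus CA.SL2Class CA.SL2Unip CA.PSL2Struct Subgroup
open scoped MatrixGroups

theorem ca {F : Type*} [Field F] [Finite F] (h2 : (2 : F) = 0) {x : PSL(2, F)} (hx : x ≠ 1) {a b : PSL(2, F)}
    (ha : a ∈ centralizer ({x} : Set PSL(2, F))) (hb : b ∈ centralizer ({x} : Set PSL(2, F))) : a * b = b * a := by
  rcases ss_or_conj_u hx with ⟨g, hg, rfl⟩ | ⟨y, c, hc, e⟩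
  · have h : pr F g * pr F g ≠ 1 := fun h => by
      haveI := Fact.mk Nat.prime_two
      have := cast_orderOf_ne hg
      rw [orderOf_eq_prime (p := 2) (by rw [pow_two, h]) hx] at this
      exact this (by exact_mod_cast h2)
    have := C_eq_Tb hg (self_mem_Tb g) h
    exact Tb_comm (pr_ne_one_iff.1 hx) (this ▸ ha) (this ▸ hb)
  · have k : ∀ a ∈ centralizer ({x} : Set PSL(2, F)), y * a * y⁻¹ ∈ Ub F := fun a ha => by
      rw [← C_pr_u hc, ← e]
      refine mem_centralizer_singleton_iff.2 ?_
      have := mem_centralizer_singleton_iff.1 ha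
      calc _ = y * (a * x) * y⁻¹ := by group
        _ = _ := by rw [this]; group
    have := Ub_comm (k a ha) (k b hb)
    calc a * b = y⁻¹ * (y * a * y⁻¹ * (y * b * y⁻¹)) * y := by group
      _ = _ := by rw [this]; group

/-- Let F be a finite field with 2ⁿ elements, n ≥ 2. In PSL₂(F) the centralizer of every element meets each of its conjugates by elements outside its normalizer trivially. -/
theorem result (n : ℕ) (hn : 2 ≤ n)
    (x : Matrix.ProjectiveSpecialLinearGroup (Fin 2) (GaloisField 2 n)) :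
    Cfsg.IsTISubset (Subgroup.centralizer ({x} : Set (Matrix.ProjectiveSpecialLinearGroup (Fin 2) (GaloisField 2 n))) :
      Set (Matrix.ProjectiveSpecialLinearGroup (Fin 2) (GaloisField 2 n))) := by
  have h2 : (2 : GaloisField 2 n) = 0 := CharP.cast_eq_zero (GaloisField 2 n) 2
  intro g hg y hy hgy
  by_contra hy1
  apply hg
  by_cases hx : x = 1
  · subst hx
    refine mem_normalizer_iff''.2 fun a => ?_
    simp [mem_centralizer_singleton_iff]
  have key : ∀ z ∈ centralizer ({x} : Set _), z ≠ 1 → ∀ a, a ∈ centralizer ({x} : Set _) ↔ a * z = z * a := by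
    intro z hz hz1 a
    refine ⟨fun h => ca h2 hx h hz, fun h => mem_centralizer_singleton_iff.2 (ca h2 hz1 (mem_centralizer_singleton_iff.2 h) ?_)⟩
    exact mem_centralizer_singleton_iff.2 (mem_centralizer_singleton_iff.1 hz).symm
  have hgy1 : g * y * g⁻¹ ≠ 1 := fun h => hy1 (by simpa using h)
  refine mem_normalizer_iff.2 fun a => ?_
  refine (key y hy hy1 a).trans (Iff.trans ?_ (key _ hgy hgy1 _).symm)
  constructor
  · intro h
    calc _ = g * (a * y) * g⁻¹ := by group
      _ = _ := by rw [h]; group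
  · intro h
    calc a * y = g⁻¹ * (g * a * g⁻¹ * (g * y * g⁻¹)) * g := by group
      _ = _ := by rw [h]; group

end Cfsg.Agent.S4065
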