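import Cfsg.Statements.S4066
import Cfsg.Agent.Lib.Odd.BGMisc

set_option autoImplicit false
open Cfsg

namespace Cfsg.Agent.S4066

open CA.BG CA.OQuo Subgroup

/-- Let G be a finite group in which the centralizer of every element meets each of its conjugates by elements outside its normalizer trivially. Then any two distinct Sylow p-subgroups of G, for any prime p, intersect trivially. -/
theorem result {G : Type*} [Group G] [Finite G] (hTI : ∀ x : G, Cfsg.IsTISubset (Subgroup.centralizer ({x} : Set G) : Set G))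
    {p : ℕ} [Fact p.Prime] (P Q : Sylow p G) (hPQ : P ≠ Q) : (P : Subgroup G) ⊓ (Q : Subgroup G) = ⊥ := by
  have hp : p.Prime := Fact.out
  have hn : ∀ x y g : G, y ≠ 1 → y ∈ 𝓒₁(x) → g * y * g⁻¹ ∈ 𝓒₁(x) → g ∈ 𝓝(𝓒₁(x)) := by
    intro x y g h1 h2 h3
    by_contra h
    exact h1 (hTI x g h y h2 h3)
  rw [eq_bot_iff]
  rintro u ⟨huP, huQ⟩
  by_contra h1
  have hu1 : u ≠ 1 := h1
  have hS := syl_top hp P
  have hT := syl_top hp Q
  obtain ⟨z, hz, hz1⟩ := exists_ne_one (hS.pi.center_ne_bot (ne_bot_of_mem huP hu1))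
  have hPX : (P : Subgroup G) ≤ 𝓒₁(z) := le_cent1_iff.2 hz.2
  obtain ⟨g, -, hg⟩ := hT.syl_conj hp hS
  have hQX : (Q : Subgroup G) ≤ 𝓒₁(z) := by
    have h2 : g ∈ 𝓝(𝓒₁(z)) := hn z u g hu1 (hPX huP) (hPX (hg ▸ conj_mem_cj.2 huQ))
    rw [← cj_le_cj (g := g), hg, cj_of_mem_norm h2]; exact hPX
  have hnil : Group.IsNilpotent 𝓒₁(z) := by
    have : 𝓒₁(z) ≤ 𝓕(𝓒₁(z)) := by
      intro x hx
      have h2 : 𝓒₁(z) ≤ 𝓝(𝓒₁(x)) := fun a ha => hn x z a hz1 (mem_cent1_symm.1 hx) (by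
        rw [mem_cent1.1 ha, mul_inv_cancel_right]; exact mem_cent1_symm.1 hx)
      have h3 : 𝓒₁(z) ≤ 𝓝((𝓒₁(z) ⊓ 𝓒₁(x) : Subgroup G)) := norm_inf (le_norm_self _) h2
      refine le_fit (nil_of_comm (comm_center (𝓒₁(z) ⊓ 𝓒₁(x)))) (inf_le_left.trans inf_le_left)
        (h3.trans (norm_center _)) ⟨⟨hx, mem_cent1_self x⟩, ?_⟩
      exact mem_cent.2 fun k hk => mem_cent1.1 hk.2
    exact nil_of_le (fit_nil _) this
  have := (hS.of_le hPX le_top).eq_of_normal ((hS.of_le hPX le_top).le_norm_of_nil hnil) (hT.of_le hQX le_top)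
  exact hPQ (Sylow.ext this.symm)

end Cfsg.Agent.S4066
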