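import Cfsg.Statements.S4067
import Cfsg.Agent.Lib.Grp.H7Ext
import Cfsg.Agent.Lib.Char.CharInt

set_option autoImplicit false
open Cfsg

namespace Cfsg.Agent.S4067

open Subgroup MulAction CA.H7Ext
open scoped commutatorElement

variable {G : Type*} [Group G] [Finite G]

theorem orb_le {A X : Type*} [Group A] [MulAction A X] [Fintype X] (w : X → ℕ) (h0 : ∀ x, 0 < w x)
    (hw : ∀ x, w x ≤ Nat.card (orbit A x)) :
    (Nat.card (orbitRel.Quotient A X) : ℚ) ≤ ∑ x, (1 : ℚ) / w x := by
  classical
  have := Fintype.ofFinite (orbitRel.Quotient A X)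
  rw [← Finset.sum_fiberwise_of_maps_to (t := Finset.univ)
    (g := fun x : X => (Quotient.mk _ x : orbitRel.Quotient A X)) (fun _ _ => Finset.mem_univ _),
    Nat.card_eq_fintype_card, Fintype.card_eq_sum_ones, Nat.cast_sum]
  refine Finset.sum_le_sum fun q _ => ?_
  induction q using Quotient.inductionOn with | _ a =>
  have h1 : (Finset.univ.filter fun x : X => (Quotient.mk _ x : orbitRel.Quotient A X) =
      Quotient.mk _ a).card = Nat.card (orbit A a) := by
    rw [Nat.card_eq_fintype_card, Fintype.card_subtype]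
    congr 1
    ext x
    simp only [Finset.mem_filter, Finset.mem_univ, true_and, Quotient.eq]
    rfl
  have h2 : (0 : ℚ) < Nat.card (orbit A a) := by exact_mod_cast (h0 a).trans_le (hw a)
  refine le_trans ?_ (Finset.card_nsmul_le_sum _ _ (1 / (Nat.card (orbit A a) : ℚ)) fun x hx => ?_)
  · rw [h1, nsmul_eq_mul, mul_one_div_cancel h2.ne', Nat.cast_one]
  · have : orbit A x = orbit A a := orbit_eq_iff.2 (Quotient.exact (Finset.mem_filter.1 hx).2)
    exact one_div_le_one_div_of_le (by exact_mod_cast h0 x) (by exact_mod_cast this ▸ hw x)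

theorem orb_le_cl : Nat.card (orbitRel.Quotient (MulAut G) G) ≤ Nat.card (ConjClasses G) := by
  refine Nat.card_le_card_of_surjective (Quotient.map' id fun a b h => ?_) fun q => ?_
  · obtain ⟨g, rfl⟩ := isConj_iff.1 (show IsConj b a from IsConj.symm h)
    exact ⟨MulAut.conj g, rfl⟩
  · induction q using Quotient.inductionOn with | _ a => exact ⟨ConjClasses.mk a, rfl⟩

theorem cl_le {p : ℕ} (hp : ∀ d, d ∣ Nat.card G → d ≠ 1 → p ≤ d) (h0 : 0 < p)
    (h : p + 1 ≤ Nat.card (commutator G)) : Nat.card (ConjClasses G) * p ≤ Nat.card G := by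
  classical
  have h1 := CChar.CharInt.sum_charDegree_sq (G := G)
  rw [← Finset.sum_filter_add_sum_filter_not _ fun χ : IrrCharacter G => (χ : G → ℂ) 1 = 1] at h1
  have h2 := Finset.card_nsmul_le_sum (Finset.univ.filter fun χ : IrrCharacter G => (χ : G → ℂ) 1 = 1)
    (fun χ => charDegree (χ : G → ℂ) ^ 2) 1 fun χ _ => Nat.one_le_pow _ _ (CChar.CharInt.charDegree_pos χ.2)
  have h3 := Finset.card_nsmul_le_sum (Finset.univ.filter fun χ : IrrCharacter G => ¬ (χ : G → ℂ) 1 = 1)
    (fun χ => charDegree (χ : G → ℂ) ^ 2) (p ^ 2) fun χ hχ => Nat.pow_le_pow_left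
      (hp _ (CChar.CharInt.charDegree_dvd_card χ.2) fun e => (Finset.mem_filter.1 hχ).2 (by
        rw [CChar.CharInt.irr_apply_one_eq χ.2, e, Nat.cast_one])) 2
  have h4 := Finset.card_filter_add_card_filter_not (s := Finset.univ)
    fun χ : IrrCharacter G => (χ : G → ℂ) 1 = 1
  have h5 := CChar.CharKer.card_linear_irr (G := G)
  rw [Nat.card_eq_fintype_card, Fintype.card_subtype] at h5
  rw [Finset.card_univ, ← Nat.card_eq_fintype_card, CChar.CharOrth.card_irr] at h4
  have h6 := (commutator G).card_mul_index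
  simp only [smul_eq_mul, mul_one] at h2 h3
  rw [h5] at h2 h4
  generalize (Finset.univ.filter fun χ : IrrCharacter G => ¬ (χ : G → ℂ) 1 = 1).card = m at *
  generalize (commutator G).index = l at *
  have h7 : (p + 1) * l ≤ Nat.card G := h6 ▸ Nat.mul_le_mul_right l h
  have h8 : l + m * p ^ 2 ≤ Nat.card G := by omega
  rw [← h4]
  obtain ⟨q, rfl⟩ : ∃ q, p = q + 1 := ⟨p - 1, by omega⟩
  refine Nat.le_of_mul_le_mul_left ?_ h0
  nlinarith [Nat.mul_le_mul_left q h7]

variable {p : ℕ} [hp : Fact p.Prime] {V : Type*} [AddCommGroup V] (c : Cov p G V)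

omit [Finite G] in
theorem b_nsmul (n : ℕ) (u v : V) : c.b (n • u) v = n * c.b u v := by
  induction n with
  | zero =>
    have := c.b_add_left 0 0 v
    simp only [add_zero, left_eq_add] at this
    simp [this]
  | succ n ih => rw [succ_nsmul, c.b_add_left, ih]; push_cast; ring

omit [Finite G] in
theorem swap (x y : G) : x * y = y * x * c.ζ (c.b (c.π x) (c.π y)) := by
  rw [← c.cent, c.ζ_b, commutatorElement_def]; group

omit [Finite G] in
theorem ζ_cent (a : ZMod p) : c.ζ a ∈ center G := mem_center_iff.2 fun g => (c.cent a g).symm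

omit [Finite G] in
include c in
theorem pow_cent (x : G) : x ^ p ∈ center G := mem_center_iff.2 fun g =>
  (c.b_eq_zero.1 (by rw [c.π_pow, b_nsmul, ZMod.natCast_self, zero_mul])).symm

omit [Finite G] in
theorem mul_pow' (x y : G) (n : ℕ) :
    (x * y) ^ n = x ^ n * y ^ n * c.ζ (n.choose 2 * c.b (c.π y) (c.π x)) := by
  induction n with
  | zero => simp [c.ζ_zero]
  | succ n ih =>
    rw [pow_succ, ih, mul_assoc, c.cent, Nat.choose_succ_succ' n 1, Nat.choose_one_right, Nat.cast_add,
      add_mul, c.ζ_add, ← b_nsmul c n, ← c.π_pow, pow_succ, pow_succ]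
    calc _ = x ^ n * (y ^ n * x) * y * c.ζ _ := by simp only [mul_assoc]; rfl
      _ = _ := by rw [swap c (y ^ n) x]; simp only [mul_assoc]; rw [← mul_assoc (c.ζ _) y, c.cent _ y, mul_assoc]

open scoped IsMulCommutative in
theorem exists_u (hN : ∀ d, d ∣ Nat.card G → d ≠ 1 → p ≤ d) (hna : ¬ IsMulCommutative G) :
    ∃ (u v : G) (t : ZMod p), v ∉ center G ∧ c.π u ≠ 0 ∧ c.b (c.π v) (c.π u) = 0 ∧
      (∀ y, c.b (c.π u) y = t * c.b (c.π v) y) ∧ u ^ p * c.ζ (t * p.choose 2) = 1 := by
  obtain ⟨x, y, hxy⟩ : ∃ x y : G, x * y ≠ y * x := by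
    by_contra! h
    exact hna ⟨⟨h⟩⟩
  have nx : x ∉ center G := fun h => hxy (mem_center_iff.1 h y).symm
  have ny : y ∉ center G := fun h => hxy (mem_center_iff.1 h x)
  by_cases hA : ∃ u ∈ center G, u ^ p = 1 ∧ c.π u ≠ 0
  · obtain ⟨u, h1, h2, h3⟩ := hA
    refine ⟨u, x, 0, nx, h3, c.b_eq_zero.2 (mem_center_iff.1 h1 x), fun v => ?_, by simp [h2, c.ζ_zero]⟩
    rw [← c.π_s v, zero_mul]
    exact c.b_eq_zero.2 (mem_center_iff.1 h1 _).symm
  push Not at hA
  suffices h : ∃ a w, a ∉ center G ∧ w ∈ center G ∧ a ^ p * c.ζ (p.choose 2) = w ^ p by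
    obtain ⟨a, w, h1, h2, h3⟩ := h
    have h4 : a * w⁻¹ ∉ center G := fun h => h1 (by simpa using mul_mem h h2)
    refine ⟨a * w⁻¹, a * w⁻¹, 1, h4, fun e => ?_, c.b_self _, by simp, ?_⟩
    · obtain ⟨k, hk⟩ := (c.ker _).1 e
      exact h4 (hk ▸ ζ_cent c k)
    · rw [(show Commute a w⁻¹ from mem_center_iff.1 (inv_mem h2) a).mul_pow, one_mul, mul_assoc,
        ← c.cent, ← mul_assoc, h3, inv_pow, mul_inv_cancel]
  let f : center G →* center G := powMonoidHom p
  have h1 : f.range.index ≤ p := by
    rw [index_range, ← ZMod.card p, ← Nat.card_eq_fintype_card]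
    refine Nat.card_le_card_of_surjective (fun a => ⟨⟨c.ζ a, ζ_cent c a⟩, Subtype.ext (c.ζ_pow a)⟩) ?_
    rintro ⟨⟨u, hu⟩, h⟩
    obtain ⟨a, rfl⟩ := (c.ker u).1 (hA u hu (congrArg Subtype.val h))
    exact ⟨a, rfl⟩
  let F : G → center G ⧸ f.range := fun g => (⟨g ^ p, pow_cent c g⟩ : center G)
  let Z : ZMod p → center G ⧸ f.range := fun a => (⟨c.ζ a, ζ_cent c a⟩ : center G)
  have hF : ∀ g h, F (g * h) = F g * F h * Z (p.choose 2 * c.b (c.π h) (c.π g)) := fun g h =>
    congrArg (QuotientGroup.mk' f.range) (Subtype.ext (mul_pow' c g h p) :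
      (⟨(g * h) ^ p, _⟩ : center G) = ⟨_, _⟩ * ⟨_, _⟩ * ⟨_, _⟩)
  suffices h : ∃ a, a ∉ center G ∧ F a * Z (p.choose 2) = 1 by
    obtain ⟨a, h1, h2⟩ := h
    obtain ⟨w, hw⟩ := (QuotientGroup.eq_one_iff _).1 h2
    exact ⟨a, w, h1, w.2, (congrArg Subtype.val hw).symm⟩
  have Z0 : Z 0 = 1 := congrArg (QuotientGroup.mk' f.range) (Subtype.ext c.ζ_zero : _ = (1 : center G))
  rcases hp.1.eq_two_or_odd' with rfl | ho
  · have nxy : x * y ∉ center G := fun h => hxy (by
      have := mem_center_iff.1 h x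
      rwa [mul_assoc, mul_right_inj] at this)
    have hb : c.b (c.π y) (c.π x) = 1 := (Cov.zmod_two _).resolve_left fun e => hxy (c.b_eq_zero.1 e).symm
    have key : ∀ a b : center G ⧸ f.range, a ≠ 1 → b ≠ 1 → a = b := fun a b ha hb => by
      by_contra hab
      have := Fintype.ofFinite (center G ⧸ f.range)
      classical
      have h3 := Finset.card_le_univ ({1, a, b} : Finset (center G ⧸ f.range))
      rw [Finset.card_eq_three.2 ⟨1, a, b, ha.symm, hb.symm, hab, rfl⟩, ← Nat.card_eq_fintype_card,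
        ← index_eq_card] at h3
      omega
    by_contra! h
    have e1 := key _ _ (h x nx) (h y ny)
    have sq : ∀ a : center G ⧸ f.range, a * a = 1 := fun a => by
      induction a using QuotientGroup.induction_on with | _ a =>
      exact (QuotientGroup.eq_one_iff _).2 ⟨a, sq a⟩
    refine h _ nxy ?_
    rw [hF, hb, mul_one, mul_right_cancel e1, sq, one_mul, sq]
  · have h2 : (p.choose 2 : ZMod p) = 0 := (ZMod.natCast_eq_zero_iff _ _).2
      (hp.1.dvd_choose_self two_ne_zero (lt_of_le_of_ne hp.1.two_le (by rintro rfl; exact absurd ho (by decide))))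
    simp only [h2, zero_mul, Z0, mul_one] at hF ⊢
    by_contra! h
    let φ : G →* center G ⧸ f.range := MonoidHom.mk' F hF
    have h3 : φ.ker ≤ center G := fun g hg => by_contra fun e => h g e hg
    have h4 : (center G).index ≤ p := (index_antitone h3).trans (by
      rw [index_ker]
      exact (card_le_card_group _).trans h1)
    have h5 : center G < centralizer {x} := lt_of_le_of_ne (center_le_centralizer _) fun e =>
      nx (e ▸ mem_centralizer_singleton_iff.2 rfl)
    have h6 := hN _ (index_dvd_card (centralizer {x})) fun e =>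
      hxy (mem_centralizer_singleton_iff.1 (index_eq_one.1 e ▸ mem_top y)).symm
    have h7 := index_strictAnti h5
    omega

include c in
theorem main (hN : ∀ d, d ∣ Nat.card G → d ≠ 1 → p ≤ d) (hna : ¬ IsMulCommutative G) :
    Nat.card (orbitRel.Quotient (MulAut G) G) * p ≤ Nat.card G := by
  classical
  obtain ⟨u, v, t, hv, hu, h1, h2, h3⟩ := exists_u c hN hna
  let φ : G → ZMod p := fun x => c.b (c.π v) (c.π x)
  have φm : ∀ x y, φ (x * y) = φ x + φ y := fun x y => by simp only [φ, c.π_mul, c.b_add_right]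
  let d : ℕ → G := fun n => u ^ n * c.ζ (t * n.choose 2)
  have πd : ∀ n, c.π (d n) = n • c.π u := fun n => by simp only [d, c.π_mul, c.π_ζ, c.π_pow, add_zero]
  have d1 : ∀ i j, d (i + j) = d i * d j * c.ζ (t * i * j) := fun i j => by
    simp only [d, pow_add, mul_assoc]
    have e : (i + j).choose 2 = i.choose 2 + j.choose 2 + i * j := by
      induction j with
      | zero => simp
      | succ j ih =>
        rw [← add_assoc, Nat.choose_succ_succ' _ 1, Nat.choose_succ_succ' j 1, ih]
        simp only [Nat.choose_one_right]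
        ring
    rw [← mul_assoc (c.ζ _), c.cent, mul_assoc, ← c.ζ_add, ← c.ζ_add, e]
    push_cast
    congr 3
    ring
  have d2 : ∀ k i, d (i + p * k) = d i := fun k => by
    induction k with
    | zero => simp
    | succ k ih =>
      intro i
      rw [mul_add, mul_one, ← add_assoc, d1, ih, ZMod.natCast_self, mul_zero, c.ζ_zero, mul_one,
        show d p = 1 from h3, mul_one]
  have φd : ∀ n, φ (d n) = 0 := fun n => by
    simp only [φ]
    rw [πd, c.b_symm, b_nsmul, c.b_symm, h1]
    simp
  let α₀ : G →* G := MonoidHom.mk' (fun x => x * d (φ x).val) fun x y => by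
    rw [φm, ZMod.val_add, ← d2 (((φ x).val + (φ y).val) / p), Nat.mod_add_div, d1, mul_assoc x (d _),
      ← mul_assoc (d _) y, swap c (d _) y, πd, b_nsmul, h2, mul_assoc (y * d _) (c.ζ _), c.cent]
    simp only [mul_assoc, ZMod.natCast_val, ZMod.cast_id', id]
    rw [mul_left_comm]
  have hα : ∀ x, α₀ x = x * d (φ x).val := fun _ => rfl
  have φα : ∀ x, φ (α₀ x) = φ x := fun x => by rw [hα, φm, φd, add_zero]
  have φ1 : φ 1 = 0 := by simpa using φm 1 1
  let α : MulAut G := MulEquiv.ofBijective α₀ (Finite.injective_iff_bijective.1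
    ((injective_iff_map_eq_one _).2 fun x hx => by
      have := φα x
      rw [hx, φ1] at this
      rw [hα, ← this] at hx
      simpa [d, c.ζ_zero] using hx))
  have cz : ∀ x, x ∉ center G → ∀ a, x * c.ζ a ∈ orbit (MulAut G) x := fun x hx a => by
    obtain ⟨y, hy⟩ : ∃ y, c.b (c.π y) (c.π x) ≠ 0 := by
      by_contra! h
      exact hx (mem_center_iff.2 fun y => c.b_eq_zero.1 (h y))
    refine ⟨MulAut.conj (y ^ (a / c.b (c.π y) (c.π x)).val), ?_⟩
    change _ * x * _⁻¹ = _
    rw [swap c _ x, c.π_pow, b_nsmul, ZMod.natCast_val, ZMod.cast_id', id, div_mul_cancel₀ _ hy,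
      mul_assoc, c.cent, ← mul_assoc, mul_inv_cancel_right]
  have φc : ∀ x ∈ center G, φ x = 0 := fun x hx => c.b_eq_zero.2 (mem_center_iff.1 hx v)
  have := Fintype.ofFinite G
  have p0 := hp.1.pos
  have h4 := orb_le (A := MulAut G) (fun x : G => if x ∈ center G then 1 else if φ x = 0 then p else p ^ 2)
    (fun x => by split_ifs <;> positivity) fun x => by
      split_ifs with a b
      · have : Nonempty (orbit (MulAut G) x) := ⟨⟨x, mem_orbit_self x⟩⟩
        exact Nat.card_pos
      · rw [← ZMod.card p, ← Nat.card_eq_fintype_card]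
        exact Nat.card_le_card_of_injective (fun k => ⟨_, cz x a k⟩) fun k l e =>
          c.inj (mul_left_cancel (congrArg Subtype.val e))
      · have e1 : ∀ n : ℕ, (α ^ n) x = x * d (φ x).val ^ n ∧ φ ((α ^ n) x) = φ x := fun n => by
          induction n with
          | zero => simp
          | succ n ih =>
            rw [pow_succ', MulAut.mul_apply]
            refine ⟨?_, (φα _).trans ih.2⟩
            change α₀ _ = _
            rw [hα, ih.2, ih.1, pow_succ, mul_assoc]
        have e2 : ∀ k : ZMod p × ZMod p, x * d (φ x).val ^ k.1.val * c.ζ k.2 ∈ orbit (MulAut G) x :=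
          fun k => by
            rw [← (e1 _).1]
            exact orbit_eq_iff.2 (show (α ^ k.1.val) x ∈ orbit (MulAut G) x from ⟨α ^ _, rfl⟩) ▸
              cz _ (fun h => b ((e1 _).2 ▸ φc _ h)) _
        have e3 : addOrderOf (c.π u) = p := addOrderOf_eq_prime (πd p ▸ (show d p = 1 from h3) ▸ c.π_one) hu
        rw [sq, ← ZMod.card p, ← Fintype.card_prod, ← Nat.card_eq_fintype_card]
        refine Nat.card_le_card_of_injective (fun k => ⟨_, e2 k⟩) fun k l e => ?_
        have e4 := congrArg Subtype.val e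
        simp only [mul_assoc, mul_right_inj] at e4
        have e5 := congrArg c.π e4
        simp only [c.π_mul, c.π_ζ, add_zero, c.π_pow, πd, smul_smul] at e5
        rw [nsmul_inj_mod, e3, ← ZMod.natCast_eq_natCast_iff'] at e5
        simp only [Nat.cast_mul, ZMod.natCast_val, ZMod.cast_id', id] at e5
        have e6 := mul_right_cancel₀ b e5
        rw [e6, mul_right_inj] at e4
        exact Prod.ext e6 (c.inj e4)
  let ψ : G →* Multiplicative (ZMod p) := MonoidHom.mk' (fun x => Multiplicative.ofAdd (φ x))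
    fun x y => congrArg _ (φm x y)
  have h5 : ψ.ker.index ≤ p := by
    rw [index_ker]
    exact (card_le_card_group _).trans (by simp)
  have h6 : p ≤ ψ.ker.index := hN _ (index_dvd_card _) fun e => hv (mem_center_iff.2 fun y =>
    (c.b_eq_zero.1 (show φ y = 0 from (index_eq_one.1 e ▸ mem_top y : y ∈ ψ.ker))).symm)
  have h7 : center G ≤ ψ.ker := φc
  have h8 : p ≤ (center G).relIndex ψ.ker := hN _ ((relIndex_dvd_card _ _).trans (card_subgroup_dvd_card _))
    fun e => hv (relIndex_eq_one.1 e (c.b_self _))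
  have h9 : Nat.card (center G) * (center G).relIndex ψ.ker = Nat.card ψ.ker := by
    rw [← (subgroupOf (center G) ψ.ker).card_mul_index,
      Nat.card_congr (subgroupOfEquivOfLe h7).toEquiv]
    rfl
  have h10 := ψ.ker.card_mul_index
  rw [le_antisymm h5 h6] at h10
  have h11 : ∑ x : G, (1 : ℚ) / (if x ∈ center G then 1 else if φ x = 0 then p else p ^ 2 : ℕ) =
      ∑ x : G, ((if x ∈ center G then 1 - 1 / (p : ℚ) else 0) +
        (if x ∈ ψ.ker then 1 / (p : ℚ) - 1 / (p : ℚ) ^ 2 else 0) + 1 / (p : ℚ) ^ 2) :=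
      Finset.sum_congr rfl fun x _ => by
    by_cases a : x ∈ center G
    · simp [a, h7 a]
    · by_cases b : φ x = 0
      · simp [a, b, show x ∈ ψ.ker from b]
      · simp [a, b, show x ∉ ψ.ker from b]
  have cs : ∀ (H : Subgroup G) [DecidablePred (· ∈ H)],
      (Finset.univ.filter (· ∈ H)).card = Nat.card H := fun H _ => by
    rw [Nat.card_eq_fintype_card, Fintype.card_subtype]
  rw [h11, Finset.sum_add_distrib, Finset.sum_add_distrib, ← Finset.sum_filter, ← Finset.sum_filter,
    Finset.sum_const, Finset.sum_const, Finset.sum_const, cs, cs, Finset.card_univ,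
    ← Nat.card_eq_fintype_card, ← h10] at h4
  have h12 : (Nat.card (center G) : ℚ) * p ≤ Nat.card ψ.ker := by
    exact_mod_cast h9 ▸ Nat.mul_le_mul_left _ h8
  have h13 : (2 : ℚ) ≤ p := by exact_mod_cast hp.1.two_le
  rw [← h10, ← Nat.cast_le (α := ℚ)]
  push_cast [nsmul_eq_mul] at h4 ⊢
  generalize (Nat.card (orbitRel.Quotient (MulAut G) G) : ℚ) = o at *
  have h14 : (0 : ℚ) ≤ Nat.card ψ.ker := Nat.cast_nonneg _
  generalize (Nat.card ψ.ker : ℚ) = k at *
  generalize (Nat.card (center G) : ℚ) = z at *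
  generalize (p : ℚ) = q at *
  have q0 : 0 < q := by linarith
  refine mul_le_mul_of_nonneg_right (h4.trans ?_) q0.le
  rw [← mul_le_mul_iff_left₀ (pow_pos q0 2)]
  field_simp
  nlinarith [mul_le_mul_of_nonneg_left h12 (show 0 ≤ q - 1 by linarith),
    mul_nonneg h14 (mul_nonneg (show 0 ≤ q - 1 by linarith) (show 0 ≤ q - 2 by linarith))]

/-- Let G be a finite non-abelian group and p the least prime dividing its order. Then the automorphism group of G has at most #G/p orbits on G. -/
theorem result {G : Type*} [Group G] [Finite G] (hna : ¬ IsMulCommutative G) :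
    Nat.card (MulAction.orbitRel.Quotient (MulAut G) G) ≤ Nat.card G / (Nat.card G).minFac := by
  have h0 : commutator G ≠ ⊥ := fun e => hna ⟨⟨fun a b => mem_center_iff.1
    (((commutator_eq_bot_iff_center_eq_top _).1 e).ge (mem_top b)) a⟩⟩
  have h1 : Nat.card (commutator G) ≠ 1 := fun e => h0 (card_eq_one.1 e)
  have hp : (Nat.card G).minFac.Prime := Nat.minFac_prime fun e =>
    h1 (Nat.dvd_one.1 (e ▸ card_subgroup_dvd_card _))
  have hN : ∀ d, d ∣ Nat.card G → d ≠ 1 → (Nat.card G).minFac ≤ d := fun d h2 h3 =>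
    Nat.minFac_le_of_dvd (by
      have := Nat.pos_of_dvd_of_pos h2 Nat.card_pos
      omega) h2
  generalize (Nat.card G).minFac = p at *
  rw [Nat.le_div_iff_mul_le hp.pos]
  by_cases h : p + 1 ≤ Nat.card (commutator G)
  · exact (Nat.mul_le_mul_right p orb_le_cl).trans (cl_le hN hp.pos h)
  have := Fact.mk hp
  have h2 : Nat.card (commutator G) = p := by
    have := hN _ (card_subgroup_dvd_card _) h1
    omega
  have h3 : commutator G ≤ center G := fun x hx => by
    by_contra a
    have h4 := hN _ (index_dvd_card (centralizer {x})) fun e => a (mem_center_iff.2 fun y =>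
      mem_centralizer_singleton_iff.1 (index_eq_one.1 e ▸ mem_top y))
    rw [← CChar.CharOrth.natCard_class_eq_index] at h4
    have h5 : Nat.card {h // IsConj x h} < Nat.card (commutator G) := by
      have := Fintype.ofFinite {h // IsConj x h}
      have := Fintype.ofFinite (commutator G)
      rw [Nat.card_eq_fintype_card, Nat.card_eq_fintype_card]
      refine Fintype.card_lt_of_injective_of_notMem (b := 1) (fun h => ⟨h.1, ?_⟩)
        (fun h k e => Subtype.ext (congrArg (Subtype.val : commutator G → G) e)) ?_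
      · obtain ⟨g, hg⟩ := isConj_iff.1 h.2
        exact hg ▸ Normal.conj_mem inferInstance x hx g
      · rintro ⟨h, e⟩
        have := h.2
        rw [show h.1 = 1 from congrArg Subtype.val e, isConj_one_left] at this
        exact a (this ▸ one_mem _)
    omega
  obtain ⟨z, hz⟩ := (isCyclic_of_prime_card h2).exists_generator
  have h4 : orderOf (z : G) = p := by rw [Subgroup.orderOf_coe, orderOf_eq_card_of_forall_mem_zpowers hz, h2]
  have h5 : ∀ a : ZMod p, (z : G) ^ a.val ∈ commutator G := fun a => pow_mem z.2 _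
  have h6 : ∀ n, (z : G) ^ (n % p) = z ^ n := fun n => h4 ▸ pow_mod_orderOf _ n
  refine main (V := Additive (Abelianization G))
    { π := fun x => Additive.ofMul (Abelianization.of x)
      ζ := fun a => (z : G) ^ a.val
      π_mul := fun x y => by simp
      ζ_add := fun a b => by rw [ZMod.val_add, h6, pow_add]
      surj := fun x => Quot.exists_rep x
      inj := fun a b e => ZMod.val_injective p (pow_injOn_Iio_orderOf (h4 ▸ a.val_lt) (h4 ▸ b.val_lt) e)
      ker := fun x => (QuotientGroup.eq_one_iff x).trans ⟨fun hx => ?_, fun ⟨a, e⟩ => e ▸ h5 a⟩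
      cent := fun a x => (mem_center_iff.1 (h3 (h5 a)) x).symm } hN hna
  obtain ⟨k, hk⟩ := (mem_powers_iff_mem_zpowers.2 (hz ⟨x, hx⟩))
  refine ⟨k, ?_⟩
  rw [ZMod.val_natCast, h6]
  exact congrArg Subtype.val hk

end Cfsg.Agent.S4067
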