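import Cfsg.Statements.S4071
import Cfsg.Agent.Lib.Loc.EqO1
import Cfsg.Agent.Lib.Odd.BGMisc
import Cfsg.Agent.Lib.Odd.BGCoprime

set_option autoImplicit false
open Cfsg

namespace Cfsg.Agent.S4071

open CA CA.EqO Subgroup CA.BG

/-- Let G be a finite solvable non-nilpotent group. Every non-abelian subgroup of G is self-normalizing if and only if G is a semidirect product ⟨x⟩ ⋉ A in which ⟨x⟩ is a p-group for some prime p, A is a normal abelian subgroup of order prime to p, x^p is central in G, and x acts fixed-point-freely on A (no non-identity element of A commutes with x). -/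
theorem result {G : Type*} [Group G] [Finite G]
    [Group.IsSolvable G] (hnn : ¬ Group.IsNilpotent G) :
    (∀ H : Subgroup G, ¬ IsMulCommutative H → Subgroup.normalizer (H : Set G) = H) ↔
    ∃ (x : G) (A : Subgroup G) (p : ℕ), p.Prime ∧ A.Normal ∧ IsMulCommutative A ∧ (∃ k : ℕ, orderOf x = p ^ k) ∧
      ¬ p ∣ Nat.card A ∧ (Subgroup.zpowers x).IsComplement' A ∧ x ^ p ∈ Subgroup.center G ∧
      ∀ a : G, a ∈ A → a ≠ 1 → x * a * x⁻¹ ≠ a := by
  constructor
  · intro h
    have h0 : ∀ H : Subgroup G, H.Normal → H ≠ ⊤ → IsMulCommutative H := fun H a b =>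
      by_contra fun e => b (by rw [← h H e]; exact normalizer_eq_top H)
    haveI : Nontrivial G := by_contra fun e => hnn (by rw [not_nontrivial_iff_subsingleton] at e; infer_instance)
    obtain ⟨M, h1, h2⟩ := (eq_top_or_exists_le_coatom (commutator G)).resolve_left
      (IsSolvable.commutator_lt_top_of_nontrivial G).ne
    haveI h3 : M.Normal := normal_of (norm_of_der_le h2 le_top)
    have h4 := h0 M h3 h1.1
    obtain ⟨p, hp, P, hP, x, h5, h6⟩ : ∃ p, p.Prime ∧ ∃ P, Syl p P ⊤ ∧ ∃ x ∈ P, x ∉ M := by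
      by_contra! e
      exact h1.1 (top_le_iff.1 (le_of_forall_syl fun p hp _ => let ⟨P, hP⟩ := syl_exists hp ⊤; ⟨P, hP, e p hp P hP⟩))
    set A := 𝓞({p}ᶜ, M)
    set X := zpowers x
    have hM := nil_of_comm h4
    haveI a1 : A.Normal := normal_of ((top_norm M ⊤).trans (norm_le_norm_core _ M))
    have a2 : IsMulCommutative A := comm_of_le h4 (core_le _ M)
    have a3 : IsPi {p}ᶜ A := core_pi _ M
    have x1 : X ≤ P := zpowers_le.2 h5
    have x2 := hP.pi.of_le x1
    have x3 : IsMulCommutative X := inferInstance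
    have hc := a3.coprime' x2
    have b1 : P ⊔ A = ⊤ := top_le_iff.1 (by
      rw [← h1.2 _ (left_lt_sup.2 fun e : X ≤ M => h6 (e (mem_zpowers x))), ← nil_core_sup {p} hM]
      exact sup_le (sup_le_sup_right (hP.le_of_norm' (core_pi _ M) le_top
        ((top_norm M P).trans (norm_le_norm_core _ M))) _) (x1.trans le_sup_left))
    have b2 : ¬ X ≤ 𝓒(A) := fun e => hnn (by
      have : P ≤ 𝓒(A) := le_top.trans (by
        rw [← h1.2 _ (left_lt_sup.2 fun e : X ≤ M => h6 (e (mem_zpowers x)))]
        exact sup_le (cent_of_comm h4 le_rfl (core_le _ M)) e)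
      have := nil_sup_cent (hP.pi.isNilpotent hp) (nil_of_comm a2) this
      rw [b1] at this
      exact nilpotent_of_mulEquiv topEquiv)
    have b3 : X = P := by_contra fun e => (lt_norm_of_pi hP.pi (lt_of_le_of_ne x1 e)).not_ge (by
      have c := h (X ⊔ A) fun c => b2 (cent_of_comm c le_sup_left le_sup_right)
      have d : P ⊓ 𝓝(X) ≤ (X ⊔ A) ⊓ P := le_inf (c ▸ norm_sup inf_le_right (top_norm A _)) inf_le_left
      rwa [sup_inf_of_le_left (top_norm A X) x1, a3.inf_eq_bot' hP.pi, sup_bot_eq] at d)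
    rw [← b3] at b1
    have b4 := x2.inf_eq_bot a3
    have b5 : x ≠ 1 := fun e => h6 (e ▸ M.one_mem)
    refine ⟨x, A, p, hp, a1, a2, (isPi_zpowers.1 x2).exists_pow hp (orderOf_pos x).ne', (isPi_compl_iff hp).1 a3,
      isComplement'_of_coprime (by rw [← card_sup_of_disjoint (top_norm A X) b4, b1, card_top]) hc.symm, ?_, ?_⟩
    · have c1 : zpowers (x ^ p) ≤ X := zpowers_le.2 (pow_mem (mem_zpowers x) p)
      have c2 := h0 (zpowers (x ^ p) ⊔ A) (normal_of (norm_of_der_le (((SDProd.der_le_of_comm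
        ⟨top_norm A X, by rwa [inf_comm], by rwa [sup_comm]⟩ x3)).trans le_sup_right) le_top)) fun e => by
          have := sup_inf_of_le_left (top_norm A _) c1
          rw [e, top_inf_eq, inf_comm, b4, sup_bot_eq] at this
          have d := mem_zpowers_pow_iff.1 (this ▸ mem_zpowers x : x ∈ zpowers (x ^ p))
          rw [Nat.gcd_eq_left (Nat.card_zpowers x ▸ x2.dvd_card (mt zpowers_eq_bot.1 b5))] at d
          exact hp.one_lt.ne' d
      have c3 : (⊤ : Subgroup G) ≤ 𝓒(zpowers (x ^ p)) := b1 ▸ sup_le (cent_of_comm x3 le_rfl c1)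
        (cent_of_comm c2 le_sup_right le_sup_left)
      exact mem_center_iff.2 fun g => (BG.mem_cent.1 (c3 (mem_top g)) _ (mem_zpowers _)).symm
    · have c1 := coprime_cent_prod (top_norm A X) hc (Or.inl inferInstance)
      have c2 : ⁅A, X⁆ ≤ A := comm_le_left (top_norm A X)
      have c3 : X ⊔ ⁅A, X⁆ = ⊤ := by
        rw [← h _ fun c => b2 (coprime_commGG1P (top_norm A X) hc (Or.inl inferInstance)
          (cent_of_comm c le_sup_right le_sup_left)), eq_top_iff, ← b1]
        refine sup_le (le_norm_of_le le_sup_left) (c1.ge.trans (sup_le (le_norm_of_le le_sup_right) (norm_of_cent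
          (le_cent_sup inf_le_right (cent_of_comm a2 inf_le_left c2)))))
      have c4 := sup_inf_of_le_right (le_norm_comm_right A X) c2
      rw [c3, top_inf_eq, b4, bot_sup_eq] at c4
      intro a ha h7 e
      exact h7 ((coprime_abel_cent_eq_bot (top_norm A X) hc a2 c4.symm).le
        ⟨ha, cent_zpowers x ▸ BG.mem_cent1.2 (mul_inv_eq_iff_eq_mul.1 e).symm⟩)
  · rintro ⟨x, A, p, hp, a1, a2, ⟨k, hk⟩, a3, h1, h2, h3⟩ H hH
    rw [← isPi_compl_iff hp] at a3
    set X := zpowers x
    have x2 : IsPi {p} X := isPi_of_card_eq_pow hp ((Nat.card_zpowers x).trans hk)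
    have b1 : SDProd A X ⊤ := ⟨top_norm A X, a3.inf_eq_bot' x2, by rw [sup_comm, h1.sup_eq_top]⟩
    obtain ⟨Q, hQ⟩ := syl_exists hp H
    obtain ⟨g, -, hg⟩ := (b1.hall_right a3 x2).syl_conj_le hp hQ.pi le_top
    replace hQ := hQ.cj g
    rw [← isComm_cj g] at hH
    rw [← cj_inj (g := g), cj_norm]
    generalize BG.cj g H = H, BG.cj g Q = Q at *
    have b2 : x ∈ H := by_contra fun e => hH (by
      have c : (⊤ : Subgroup G) ≤ 𝓒(Q) := cent_symm fun y hy => by
        obtain ⟨i, rfl⟩ := mem_powers_iff_mem_zpowers.2 (hg hy)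
        by_cases d : p ∣ i
        · obtain ⟨j, rfl⟩ := d
          exact fun z _ => mem_center_iff.1 (by dsimp only; rw [pow_mul]; exact pow_mem h2 j) z
        · exact (e (zpowers_le.2 (hQ.le hy) (mem_zpowers_pow_iff.2 (by
            rw [hk]; exact ((hp.coprime_iff_not_dvd.2 d).symm.pow_right k))))).elim
      rw [← hQ.sup_compl ((b1.hall_left a3 (by rwa [compl_compl])).normal_inf (top_norm A H) le_top)]
      exact comm_sup (comm_iff_le_cent.2 (le_top.trans c)) (comm_of_le a2 inf_le_left) (cent_symm (le_top.trans c)))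
    have b3 : X ≤ H := zpowers_le.2 b2
    have b4 := sup_inf_of_le_left (top_norm A X) (le_norm_of_le b3)
    rw [b1.sup', top_inf_eq] at b4
    refine le_antisymm (b4.le.trans (sup_le b3 ?_)) le_normalizer
    rw [← coprime_comm_eq_of_cent (norm_inf (top_norm A X) (le_norm_of_le (le_norm_of_le b3)))
      ((a3.inf_left _).coprime' x2) (Or.inl inferInstance) (eq_bot_iff.2 fun a ha => by_contra fun e =>
        h3 a ha.1.1 e (mul_inv_eq_iff_eq_mul.2 (BG.mem_cent1.1 (cent_zpowers x ▸ ha.2)).symm))]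
    exact (comm_mono inf_le_right b3).trans (comm_le_right le_rfl)

end Cfsg.Agent.S4071
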