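import Cfsg.Statements.S4072
import Cfsg.Agent.Lib.Odd.BG1b
import Cfsg.Agent.Lib.Odd.BGMisc
import Cfsg.Agent.Lib.Grp.NPC2
import Cfsg.Agent.Lib.Grp.PGClassTwo

set_option autoImplicit false
open Cfsg

namespace Cfsg.Agent.S4072

open CA.BG CA.OQuo Subgroup
open scoped commutatorElement

/-- A finite group in which every non-abelian subgroup is self-normalizing is solvable or simple. -/
theorem result {G : Type*} [Group G] [Finite G] (hS : ∀ H : Subgroup G, ¬ IsMulCommutative H → Subgroup.normalizer (H : Set G) = H) :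
    Group.IsSolvable G ∨ IsSimpleGroup G := by
  by_cases hs : Group.IsSolvable G
  · exact Or.inl hs
  right
  have hc : ∀ N : Subgroup G, N.Normal → N ≠ ⊤ → IsMulCommutative N := by
    intro N hN hne
    by_contra h
    exact hne ((hS N h).symm.trans (normalizer_eq_top N))
  have hperf : ⁅(⊤ : Subgroup G), (⊤ : Subgroup G)⁆ = ⊤ := by
    by_contra h
    have := solv_of_comm (hc _ inferInstance h)
    haveI : Group.IsSolvable (commutator G) := this
    exact hs (Group.isSolvable_of_ker_le_range (commutator G).subtype (Abelianization.of (G := G)) (by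
      rw [Abelianization.ker_of]; simp))
  have hnt : Nontrivial G := by
    by_contra h
    rw [not_nontrivial_iff_subsingleton] at h
    exact hs inferInstance
  have key : ∀ (C X : Subgroup G) (p : ℕ), C.Normal → p.Prime → C < X → IsPi {p} (X /ᵍ C) →
      IsMulCommutative (X /ᵍ C) → ¬ IsMulCommutative X → False := by
    intro C X p _ hp hlt hX hXc hnc
    have nC := top_le_norm C
    have e : ⊤ /ᵍ C ⊓ 𝓝(X /ᵍ C) = X /ᵍ C := by
      rw [← quo_inf_normalizer ⊤ (nC X) hlt.le, top_inf_eq, hS X hnc]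
    have hsy : Syl p (X /ᵍ C) (⊤ /ᵍ C) := Hall.syl_of_norm hp (by rw [e]; exact hall_self hX)
    have := burnside_hasPC hp hsy (by rw [e]; exact comm_iff_le_cent.1 hXc)
    refine this.not_le_der hsy (quo_ne_bot (nC X) hlt.not_ge) ?_
    rw [← quo_comm (nC ⊤) (nC ⊤), hperf]; exact hsy.le
  refine ⟨fun N hN => ?_⟩
  by_contra hne
  push Not at hne
  have hNc := comm_iff_le_cent.1 (hc N hN hne.2)
  by_cases hC : 𝓒(N) = ⊤
  · obtain ⟨p, hp, hd⟩ := exists_prime_dvd_card hne.1
    haveI := Fact.mk hp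
    obtain ⟨z, hzN, hz⟩ := exists_orderOf_eq hp hd
    have hzc : z ∈ center G := mem_center_iff.2 fun g => (mem_cent.1 (hC ▸ mem_top g : g ∈ 𝓒(N)) z hzN).symm
    obtain ⟨P, hP, hzP⟩ := syl_superset hp (isPi_zpowers.2 (by rw [hz]; exact (piNat_prime hp).2 rfl)) (le_top : zpowers z ≤ ⊤)
    have hz1 : z ≠ 1 := by rintro rfl; exact hp.one_lt.ne (by simpa using hz)
    have hzd : z ∈ ⁅P, P⁆ := CA.NPC2.mem_commutator_sylow_of_center (p := p)
      (by have := hP.not_dvd hp; rwa [relIndex_top_right] at this) (hzP (mem_zpowers z)) (e := 1)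
      (by rw [pow_one, ← hz, pow_orderOf_eq_one]) (by rw [_root_.commutator, hperf]; trivial) hzc
    have hPc : ¬ IsMulCommutative P := fun h => hz1 (by rwa [comm_iff_der_eq_bot.1 h, mem_bot] at hzd)
    have hsub : ∀ K, K < P → IsMulCommutative K := by
      intro K hK
      by_contra h
      have := lt_norm_of_pi hP.pi hK
      rw [hS K h] at this
      exact this.not_ge inf_le_right
    have hphi : P ≤ 𝓒(Phi P) := by
      intro a ha
      have : zpowers a ⊔ Phi P < P := by
        refine lt_of_le_of_ne (sup_le (zpowers_le_iff.2 ha) (Phi_le P)) fun he => hPc ?_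
        rw [← Phi_nongen (zpowers_le_iff.2 ha) he.ge]; exact comm_of_cyclic (cyc_zpowers a)
      exact cent_of_comm (hsub _ this) le_sup_left le_sup_right (mem_zpowers a)
    obtain ⟨a, ha, b, hb, hab⟩ : ∃ a ∈ P, ∃ b ∈ P, b * a ≠ a * b := by
      by_contra h
      push Not at h
      exact hPc (comm_iff_le_cent.2 fun a ha => mem_cent.2 fun b hb => h a ha b hb)
    have hgen : zpowers a ⊔ zpowers b = P := by
      by_contra h
      have := hsub _ (lt_of_le_of_ne (sup_le (zpowers_le_iff.2 ha) (zpowers_le_iff.2 hb)) h)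
      exact hab (mem_cent.1 (cent_of_comm this le_sup_left le_sup_right (mem_zpowers a)) b (mem_zpowers b))
    have hcP : ⁅a, b⁆ ∈ Phi P := der_le_Phi hp hP.pi (commutator_mem_commutator ha hb)
    have hcom : ∀ x ∈ P, Commute x ⁅a, b⁆ := fun x hx => (mem_cent.1 (hphi hx) _ hcP).symm
    have hcp : ⁅a, b⁆ ^ p = 1 := by
      rw [← CA.PGClassTwo.comm_pow_left (hcom a ha), commutatorElement_eq_one_iff_mul_comm]
      exact mem_cent.1 (hphi hb) _ (pow_mem_Phi hp hP.pi ha)
    have hc1 : ⁅a, b⁆ ≠ 1 := fun h => hab (commutatorElement_eq_one_iff_mul_comm.1 h).symm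
    have hcard := card_zpowers_of_pow hp hc1 hcp
    have hPn : P ≤ 𝓝(zpowers ⁅a, b⁆) := norm_of_cent (by
      rw [cent_zpowers]; exact fun x hx => mem_cent1.2 (hcom x hx))
    have hder : ⁅P, P⁆ ≤ zpowers ⁅a, b⁆ := by
      rw [← hgen]
      refine der_sup_le_of_norm ((zpowers_le_iff.2 ha).trans hPn) ((zpowers_le_iff.2 hb).trans hPn) ?_ ?_ ?_
      · rw [comm_iff_der_eq_bot.1 (comm_of_cyclic (cyc_zpowers a))]; exact bot_le
      · rw [comm_iff_der_eq_bot.1 (comm_of_cyclic (cyc_zpowers b))]; exact bot_le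
      · rw [commutator_le]
        rintro _ ⟨i, rfl⟩ _ ⟨j, rfl⟩
        exact ⟨i * j, (CA.PGClassTwo.comm_zpow_zpow (hcom a ha) (hcom b hb) i j).symm⟩
    have he := eq_zpowers_of_prime (hcard ▸ hp) (hder hzd) hz1
    haveI : (zpowers z).Normal := ⟨fun n hn g => by
      have := mem_center_iff.1 (zpowers_le_iff.2 hzc hn) g
      rw [this, mul_inv_cancel_right]; exact hn⟩
    refine key (zpowers z) P p inferInstance hp (lt_of_le_of_ne hzP fun h => hPc ?_) (hP.pi.mim _) ?_ hPc
    · rw [← h]; exact comm_of_cyclic (cyc_zpowers z)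
    · rw [isMulCommutative_quo_iff (top_le_norm _ _), ← he]; exact hder
  · have nC := top_le_norm 𝓒(N)
    obtain ⟨X, -, hX⟩ := exists_prime_card_le (quo_ne_bot (nC ⊤) (fun h => hC (top_le_iff.1 h)))
    have hlt := lt_qpre (ne_bot_of_prime hX)
    refine key 𝓒(N) (mpre (qh 𝓒(N)) X) _ inferInstance hX hlt ?_ ?_ fun h => hlt.not_ge ?_
    · rw [quo_mpre]; exact isPi_of_card_eq hX rfl
    · rw [quo_mpre]; exact comm_of_cyclic (isCyclic_of_prime hX)
    · exact cent_of_comm h le_rfl (hNc.trans hlt.le)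

end Cfsg.Agent.S4072
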