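import Cfsg.Statements.S4073
import Cfsg.Agent.Lib.Cit.Ca
import Cfsg.Agent.Lib.Walt.Ab2
import Cfsg.Agent.Lib.Lin.PSL2Sub
import Cfsg.Agent.Lib.Lin.FieldIso

set_option autoImplicit false
open Cfsg

namespace Cfsg.Agent.S4073

open Subgroup CA.BG CA.GW CA.OQuo CA.Wa Matrix CA.SL2Torus CA.SL2Unip CA.PSL2Struct CA.PSL2Sub
open scoped MatrixGroups commutatorElement

def SN (G : Type*) [Group G] : Prop := ∀ H : Subgroup G, ¬ IsMulCommutative H → 𝓝(H) = H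

theorem SN.equiv {G G' : Type*} [Group G] [Finite G] [Group G'] (h : SN G) (e : G ≃* G') : SN G' := fun H hH => by
  have h1 := h (H.comap e.toMonoidHom) fun hc => hH (comm_iff_le_cent.2 fun a ha => mem_cent.2 fun b hb =>
    e.symm.injective (by
      rw [map_mul, map_mul]
      exact mul_comm_of hc (by simpa using hb) (by simpa using ha)))
  refine le_antisymm (fun x hx => ?_) le_normalizer
  obtain ⟨x, rfl⟩ := e.surjective x
  exact h1.le (le_normalizer_comap _ hx)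

variable {G : Type*} [Group G] [Finite G] {H K : Subgroup G} {x : G}

theorem SN.comm (h : SN G) (h1 : x ∈ 𝓝(K)) (h2 : x ∉ K) : IsMulCommutative K :=
  by_contra fun e => h2 ((h K e).le h1)

theorem SN.syl [IsSimpleGroup G] (h : SN G) (hG : ¬ IsMulCommutative G) :
    ∃ S : Subgroup G, Syl 2 S ⊤ ∧ IsMulCommutative S := by
  haveI := Fact.mk Nat.prime_two
  obtain ⟨U0, h1, x, h2, h3, h4⟩ : ∃ U : Subgroup G, IsPGroup 2 U ∧ ∃ x ∈ 𝓝(U), (orderOf x).Coprime 2 ∧ x ∉ 𝓒(U) := by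
    by_contra! e
    obtain ⟨S, hS⟩ := syl_exists Nat.prime_two (⊤ : Subgroup G)
    have h1 := (hasPC_iff Nat.prime_two).2 (CA.PRes.hasNPC_of_equiv
      (CA.Hyperfocal.hasNPC_iff_forall_pgroup.2 e) topEquiv.symm)
    exact not_solv hG (h1.sup_syl hS ▸ solv_sup (hS.pi.isSolvable Nat.prime_two) (od_core ⊤).solv
      (le_top.trans (le_norm_core _ _)))
  have hx : PiNat {2}ᶜ (orderOf x) := isPi_zpowers.1 (od_iff.2 (by simpa using h3))
  replace h1 := isPi_of_isPGroup Nat.prime_two h1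
  have h5 := h.comm (mem_norm_cent h2) h4
  have h6 : U0 ≤ 𝓒(U0) := comm_iff_le_cent.1 (h.comm h2 fun e => h4 (by
    rw [mem_bot.1 ((h1.inf_eq_bot (isPi_zpowers.2 hx)).le ⟨e, mem_zpowers x⟩)]; exact one_mem _))
  have h7 := h1.le_core_of_nil h6 (nil_of_comm h5)
  have h8 : ∀ y ∈ 𝓒(𝓞({2}, 𝓒(U0))), IsPi {2} (zpowers y) → y ∈ 𝓞({2}, 𝓒(U0)) := fun y hy e =>
    e.le_core_of_nil (zpowers_le.2 (mem_cent_of_le hy h7)) (nil_of_comm h5) (mem_zpowers y)
  have h9 := mem_norm_core {2} (mem_norm_cent h2)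
  have h10 : x ∉ 𝓒(𝓞({2}, 𝓒(U0))) := fun e => h4 (mem_cent_of_le e h7)
  have h11 := comm_of_le h5 (core_le {2} _)
  have h12 := core_pi {2} 𝓒(U0)
  generalize 𝓞({2}, 𝓒(U0)) = U at h8 h9 h10 h11 h12
  have nc : ∀ y K, U ≤ K → y ∈ K → y ∉ 𝓒(U) → 𝓝(K) = K := fun y K e1 e2 e3 =>
    h K fun e => e3 (mem_cent_of_le (comm_iff_le_cent.1 e e2) e1)
  obtain ⟨S, hS, h13⟩ := syl_superset Nat.prime_two h12 le_normalizer
  refine ⟨U, Hall.syl_of_norm_le Nat.prime_two (K := 𝓝(U)) ?_ le_top inf_le_right, h11⟩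
  by_contra e
  obtain ⟨y, hy, h14⟩ := SetLike.exists_of_lt (h13.lt_of_ne fun e1 => e (e1 ▸ hS))
  have h15 : zpowers y ⊔ U ≤ S := sup_le (zpowers_le.2 hy) h13
  have h16 : zpowers y ⊔ U = S := by_contra fun e1 => (lt_norm_of_pi hS.pi (h15.lt_of_ne e1)).not_ge
    (inf_le_right.trans (nc y _ le_sup_right (mem_sup_left (mem_zpowers y))
      fun e2 => h14 (h8 y e2 (hS.pi.of_le (zpowers_le.2 hy)))).le)
  have h17 := cyclic_pdiv_normal_complement Nat.prime_two (hS.quo le_rfl)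
    ((cycMod_iff hS.le).1 ⟨y, hy, h16.ge⟩) fun q hq _ => hq.two_le
  have h18 := nc x (mpre (qh U) 𝓞({2}ᶜ, 𝓝(U) /ᵍ U)) (by simpa [mker_qh] using mker_le_mpre (qh U) _)
    (mem_mpre.2 ⟨h9, h17.le_core (isPi_zpowers.2 (hx.of_dvd (orderOf_mel_dvd _ h9)))
      (zpowers_le.2 (mel_mem_mim _ h9)) (mem_zpowers _)⟩) h10
  have h19 := (mem_mpre.1 (h18.le (le_normalizer_mpre le_rfl (le_norm_core _ _) (hS.le hy)))).2
  have h20 := mem_bot.1 (((hS.pi.mim (qh U)).inf_eq_bot (core_pi _ _)).le ⟨mel_mem_mim _ hy, h19⟩)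
  exact h14 (by simpa [mker_qh] using (mel_eq_one_iff (hS.le hy)).1 h20)

theorem SN.l2e [IsSimpleGroup G] (h : SN G) (hG : ¬ IsMulCommutative G) : L2e G := by
  haveI := Fact.mk Nat.prime_two
  obtain ⟨S, hS, hc⟩ := h.syl hG
  have h0 : ¬ IsCyclic S := fun e => by
    obtain ⟨u, v, u1, v1, uv, uu, vv, e1⟩ := CA.SuzCor.exists_four (G := G) fun e => hG e.isMulCommutative
    have f : Four u v := ⟨ord_two uu u1, ord_two vv v1, e1, uv⟩
    obtain ⟨g, -, hg⟩ := hS.syl_le_conj Nat.prime_two f.pi2 le_top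
    exact f.not_cyc (cyc_of_le ((isCyclic_cj g).2 e) hg)
  refine se_l2e hG hS hc CA.BendMain.ihyp (norm_ne hG (syl_ne_bot hG hS hc) (solv_of_comm hc)) le_rfl
    fun t ht t2 => ?_
  have h1 := hS.of_le (le_c1 hc ht) le_top
  have t0 : t ∈ 𝓒₁(t) := mem_cent1.2 rfl
  have h2 : ∀ K, K ≤ 𝓒₁(t) → t ∉ K → IsMulCommutative K := fun K e1 =>
    h.comm (mem_norm_of_cent (mem_cent.2 fun k hk => mem_cent1.1 (e1 hk)))
  have h3 : t ∉ ⁅𝓒₁(t), 𝓒₁(t)⁆ := fun e => by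
    obtain ⟨P, hP⟩ := h1.exists_sylow Nat.prime_two
    rw [← Subgroup.map_subtype_commutator] at e
    obtain ⟨s, hs, e⟩ := e
    have e1 : (s : G) = t := e
    refine ne_one_of_ord t2 (e1 ▸ congrArg Subtype.val (CA.NPC2.eq_one_of_mem_commutator_of_center (H := P)
      (comm_iff_le_cent.2 fun a ha => mem_cent.2 fun b hb => Subtype.ext (mul_comm_of hc
        (hP.le ⟨b, hb, rfl⟩) (hP.le ⟨a, ha, rfl⟩))) P.card_coprime_index ?_ hs
      (mem_center_iff.2 fun g => Subtype.ext (by simpa [e1] using mem_cent1.1 g.2))))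
    obtain ⟨s', hs', e2⟩ := hP.ge ht
    rwa [show s = s' from Subtype.ext (e1.trans e2.symm)]
  have h4 : Group.IsSolvable 𝓒₁(t) := isSolvable_of_mim (f := qh ⁅𝓒₁(t), 𝓒₁(t)⁆) (le_normalizer.trans (norm_der _))
    (solv_of_comm (h2 _ inf_le_left fun e => h3 (by simpa [mker_qh] using e.2)))
    (solv_of_comm ((isMulCommutative_mim_iff (le_normalizer.trans (norm_der _))).2 (by rw [mker_qh])))
  rw [← solv_frat h4 h1 hc]
  refine sup_le (le_trans (le_centralizer_iff.1 fun y hy => by_contra fun e => h0 ?_) (cent_le_norm S)) inf_le_right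
  have h5 : S ≤ 𝓝(𝓞₂'(𝓒₁(t))) := h1.le.trans (le_norm_core _ _)
  have h6 := h (zpowers y ⊔ 𝓞₂'(𝓒₁(t))) fun e1 =>
    e (mem_cent_of_le (comm_iff_le_cent.1 e1 (mem_sup_left (mem_zpowers y))) le_sup_right)
  have h7 : S ≤ zpowers y ⊔ 𝓞₂'(𝓒₁(t)) := fun s hs => h6.le (mem_norm_sup
    (mem_norm_of_cent (cent_zpowers y ▸ le_c1 hc hy hs)) (h5 hs))
  have h8 := (hall_sup_normal (hS.pi.of_le (zpowers_le.2 hy)) ((zpowers_le.2 hy).trans h5) (od_core _)).eq_of_le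
    hS.pi (zpowers_le.2 hy) h7
  exact h8 ▸ cyc_zpowers y

variable {F : Type} [Field F] [Finite F]

theorem comm_of_le_Ub {H : Subgroup PSL(2, F)} (h : H ≤ Ub F) : IsMulCommutative H :=
  comm_iff_le_cent.2 fun _ ha => mem_cent.2 fun _ hb => Ub_comm (h hb) (h ha)

theorem card_Bb' (h2 : (2 : F) = 0) : ♯(Bb F) = Nat.card F * (Nat.card F - 1) := by
  rw [← card_Bb, dd_even h2, one_mul]

theorem prime_of (h : SN PSL(2, F)) (h2 : (2 : F) = 0) (h4 : 4 ≤ Nat.card F) : (Nat.card F - 1).Prime := by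
  obtain ⟨r, hr, hd⟩ := Nat.exists_prime_and_dvd (show Nat.card Fˣ ≠ 1 by rw [Nat.card_units]; omega)
  haveI := Fact.mk hr
  obtain ⟨a, ha⟩ := exists_prime_orderOf_dvd_card' r hd
  have h1 : (a : F) ^ 2 ≠ 1 := fun e => hr.one_lt.ne' (by
    rw [← ha, orderOf_eq_one_iff]
    exact Units.ext (sub_eq_zero.1 (pow_eq_zero_iff two_ne_zero |>.1 (show ((a : F) - 1) ^ 2 = 0 by
      linear_combination e + (1 - a) * h2))))
  have hB : pr F (dg a) ∈ Bb F := mem_Bb.2 (dg_mem_B a)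
  have h3 := h (zpowers (pr F (dg a)) ⊔ Ub F) fun e => h1 (by
    have e1 : pr F (dg a) * pr F (u 1) = pr F (u 1) * pr F (dg a) :=
      mul_comm_of e (mem_sup_left (mem_zpowers _)) (mem_sup_right (mem_Ub.2 ⟨1, rfl⟩))
    have e2 : pr F (u (a ^ 2 * 1)) = pr F (u 1) := by
      rw [← dg_conj_u, map_mul, map_mul, map_inv, e1, mul_inv_cancel_right]
    simpa using pr_u_inj e2)
  have h8 : ⁅Bb F, Bb F⁆ ≤ Ub F := commutator_le.2 fun x hx y hy => commutator_mem_Ub hx hy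
  have h5 := (norm_of_der_le (h8.trans le_sup_right) (sup_le (zpowers_le.2 hB) Ub_le_Bb)).trans h3.le
  have h6 := (card_dvd h5).trans (card_sup_dvd ((zpowers_le.2 hB).trans normalizer_Ub.ge))
  have h7 : orderOf (pr F (dg a)) ∣ r := (orderOf_map_dvd _ _).trans ((orderOf_map_dvd (MonoidHom.mk' dg fun x y => by
    apply sl_ext4 <;> simp [dg_coe, mul_comm]) a).trans ha.dvd)
  rw [card_Bb' h2, card_Ub, Nat.card_zpowers, mul_comm] at h6
  rwa [((Nat.dvd_prime hr).1 ((Nat.dvd_of_mul_dvd_mul_right (by omega) h6).trans h7)).resolve_left (by omega)]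

theorem eq_Bb (h2 : (2 : F) = 0) (hp : (Nat.card F - 1).Prime) {H : Subgroup PSL(2, F)} (h1 : H ≤ Bb F)
    (hH : ¬ IsMulCommutative H) : Bb F ≤ H := by
  have hn := h1.trans normalizer_Ub.ge
  have h3 : (Ub F).relIndex (Bb F) = Nat.card F - 1 := by
    have := card_mul_relIndex (Ub_le_Bb (F := F))
    rw [card_Bb' h2, card_Ub] at this
    exact Nat.eq_of_mul_eq_mul_left Nat.card_pos this
  have h4 : H ⊔ Ub F = Bb F := by
    have h4 := relIndex_mul_relIndex _ _ _ (le_sup_right (a := H)) (sup_le h1 Ub_le_Bb)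
    refine le_antisymm (sup_le h1 Ub_le_Bb) (relIndex_eq_one.1 ?_)
    rw [← h3, ← h4] at hp
    exact ((Nat.prime_mul_iff.1 hp).resolve_right
      fun e => hH (comm_of_le_Ub (le_sup_left.trans (relIndex_eq_one.1 e.2)))).2
  have h5 : H ⊓ Ub F ≠ ⊥ := fun e => hH (comm_of_cyclic (isCyclic_of_prime (by
    rwa [← card_inf_mul_relIndex (Ub F) H, inf_comm, e, card_bot, one_mul, ← relIndex_sup_norm hn, h4, h3])))
  obtain ⟨x, ⟨h6, h7⟩, x1⟩ := (bot_or_exists_ne_one _).resolve_left h5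
  obtain ⟨b, rfl⟩ := mem_Ub.1 h7
  have b0 : b ≠ 0 := fun e => x1 (by simp [e])
  refine h4 ▸ sup_le le_rfl fun y hy => ?_
  obtain ⟨c, rfl⟩ := mem_Ub.1 hy
  by_cases c0 : c = 0
  · simp [c0, one_mem]
  obtain ⟨a, ha⟩ := CA.Mat2.isSquare_of_two_eq_zero h2 (c / b)
  have a0 : a ≠ 0 := fun e => div_ne_zero c0 b0 (by simp [ha, e])
  obtain ⟨k, hk, v, hv, e⟩ := (mem_sup_norm hn).1 (h4.ge (mem_Bb.2 (dg_mem_B (Units.mk0 a a0))))
  have := H.mul_mem (H.mul_mem hk h6) (H.inv_mem hk)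
  rwa [show k * pr F (u b) * k⁻¹ = k * v * pr F (u b) * (k * v)⁻¹ by rw [mul_assoc k v, Ub_comm hv h7]; group, e,
    ← map_inv, ← map_mul, ← map_mul, dg_conj_u, Units.val_mk0, ← ha, div_mul_cancel₀ _ b0] at this

theorem sn {n : ℕ} (hn : 2 ≤ n) (hF : Nat.card F = 2 ^ n) (hp : (2 ^ n - 1).Prime) : SN PSL(2, F) := fun H hH => by
  have h2 : (2 : F) = 0 := CA.SL2Basic.two_eq_zero_of_even (hF ▸ Nat.even_pow.2 ⟨even_two, by omega⟩)
  refine le_antisymm ?_ le_normalizer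
  have c : ∀ k : ℕ, ((2 * k : ℕ) : F) = 0 := fun k => by simp [h2]
  rcases dickson_PSL 𝓝(H) with h | ⟨-, y, h⟩ | ⟨m, h3, h4, ⟨e⟩⟩ | h | h | h | ⟨K, _, _, m, m1, h3, h4, h5⟩
  · exact absurd (comm_of_cyclic (cyc_of_le h.1 le_normalizer)) hH
  · have h3 : cj y 𝓝(H) ≤ Bb F := cj_le_iff.2 fun x hx => mem_cj_inv.2 (h x hx)
    exact cj_le_cj.1 (h3.trans (eq_Bb h2 (hF ▸ hp) ((cj_mono y le_normalizer).trans h3) (mt (isComm_cj y).1 hH)))
  · obtain ⟨g, hg, -, -, h5⟩ := le_Db_of_dihedral h3 h4 e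
    obtain ⟨w, hw, h6⟩ := SetLike.not_le_iff_exists.1 fun e1 : H ≤ Tb g =>
      hH (comm_of_cyclic (cyc_of_le (isCyclic_Tb hg) e1))
    have h7 : ∀ x ∈ 𝓝(H), x ∈ Tb g → x ∈ H := fun x hx h8 => by
      have h9 := H.mul_mem (conj_mem_of_mem_norm hx hw) (H.inv_mem hw)
      rw [show x * w * x⁻¹ * w⁻¹ = x * (w * x * w⁻¹)⁻¹ by group,
        conj_of_mem_Db hg.ns (h5 (le_normalizer hw)) h6 h8, inv_inv, ← pow_two] at h9
      refine zpowers_le.2 h9 (mem_zpowers_pow_iff.2 ?_)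
      exact (Nat.prime_two.coprime_iff_not_dvd).2 fun ⟨k, hk⟩ => cast_card_Tb_ne hg (by
        obtain ⟨l, hl⟩ := orderOf_dvd_natCard _ h8
        rw [hl, hk, mul_assoc, c])
    intro x hx
    by_cases h8 : x ∈ Tb g
    · exact h7 x hx h8
    · exact (mul_mem_cancel_right hw).1 (h7 _ (mul_mem hx (le_normalizer hw))
        (mul_mem_Tb hg (h5 hx) h8 (h5 (le_normalizer hw)) h6))
  · exact absurd (c 6) h.1
  · exact absurd (c 12) h.1
  · exact absurd h.1 (not_or.2 ⟨not_not.2 (c 30), fun e => one_ne_zero (α := F) (by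
      push_cast at e; linear_combination e - h2)⟩)
  · rw [hF] at h4
    have m0 : m ≠ 0 := by omega
    obtain ⟨j, -, hj⟩ := (Nat.dvd_prime_pow Nat.prime_two).1 (h4 ▸ dvd_pow_self (Nat.card K) m0)
    rw [hj, ← pow_mul] at h4
    have h6 := Nat.pow_right_injective le_rfl h4
    have h7 : j = n := ((Nat.dvd_prime (Nat.prime_of_pow_sub_one_prime (by omega) hp).2).1 ⟨m, h6.symm⟩).resolve_left
      fun e => by rw [hj, e] at h3; omega
    rcases h5 with ⟨⟨e⟩⟩ | h5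
    · haveI := ProjectiveSpecialLinearGroup.rank_two_simple (F := F) (hF ▸ Nat.pow_le_pow_right (n := 2) (by norm_num) hn)
      have h8 : 𝓝(H) = ⊤ := eq_top_of_card_eq _ (by
        rw [Nat.card_congr e.toEquiv, CA.SLnCard.card_PGL2, hj, h7, ← hF, ← card_PSL, dd_even h2, one_mul])
      exact ((normalizer_eq_top_iff.1 h8).eq_bot_or_eq_top.resolve_left fun e1 => hH (e1 ▸ inferInstance)) ▸ le_top
    · exact absurd (hj ▸ h5.1) (Nat.not_odd_iff_even.2 (Nat.even_pow.2 ⟨even_two, by omega⟩))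

/-- Let G be a finite non-abelian simple group. Every non-abelian subgroup of G is self-normalizing if and only if G is isomorphic to PSL₂(2ⁿ) for some n ≥ 2 with 2ⁿ − 1 prime (this includes the alternating group of degree 5 as PSL₂(4)). -/
theorem result {G : Type*} [Group G] [Finite G] [IsSimpleGroup G]
    (hna : ¬ IsMulCommutative G) :
    (∀ H : Subgroup G, ¬ IsMulCommutative H → Subgroup.normalizer (H : Set G) = H) ↔
    ∃ n : ℕ, 2 ≤ n ∧ (2 ^ n - 1).Prime ∧ Nonempty (G ≃* Matrix.ProjectiveSpecialLinearGroup (Fin 2) (GaloisField 2 n)) := by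
  refine ⟨fun h => ?_, fun ⟨n, h1, h2, ⟨e⟩⟩ => (sn h1 (GaloisField.card 2 n (by omega)) h2).equiv e.symm⟩
  obtain ⟨F, _, _, ⟨n, h1, h2⟩, ⟨e⟩⟩ := SN.l2e h hna
  obtain ⟨h3, h4⟩ := CA.Ca.two_eq ⟨n, h1, h2⟩
  have h5 := prime_of (SN.equiv h e) h3 h4
  letI := Fintype.ofFinite (GaloisField 2 n)
  refine ⟨n, h1, by rwa [Nat.card_eq_fintype_card, h2] at h5, ⟨e.trans (CA.FieldIso.pslEquiv
    (FiniteField.ringEquivOfCardEq ?_))⟩⟩
  rw [h2, ← Nat.card_eq_fintype_card, GaloisField.card 2 n (by omega)]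

end Cfsg.Agent.S4073
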