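import Cfsg.Statements.S4074
import Cfsg.Agent.Lib.Grp.DihSub

set_option autoImplicit false
open Cfsg

namespace Cfsg.Agent.S4074


/-- For n > 2, every non-abelian subgroup of the dihedral group of order 2n is self-normalizing if and only if n = 4 or n is odd. -/
theorem result (n : ℕ) (hn : 2 < n) :
    (∀ H : Subgroup (DihedralGroup n), ¬ IsMulCommutative H → Subgroup.normalizer (H : Set (DihedralGroup n)) = H) ↔
    (n = 4 ∨ Odd n) := by
  haveI : NeZero n := ⟨by omega⟩
  constructor
  · intro h
    by_contra hc
    push Not at hc
    obtain ⟨h4, hev⟩ := hc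
    rw [Nat.not_odd_iff_even] at hev
    obtain ⟨m, hm⟩ := hev
    have hmm : (m : ZMod n) + m = 0 := by rw [← Nat.cast_add, ← hm]; exact ZMod.natCast_self n
    have h1 : ¬ IsMulCommutative (CA.DihSub.D n (m : ZMod n)) := by
      refine CA.DihSub.not_comm (k := 2) (by linear_combination hmm) ?_
      have : (2 : ZMod n) + 2 = ((4 : ℕ) : ZMod n) := by push_cast; ring
      rw [this, Ne, ZMod.natCast_eq_zero_iff]
      intro hd
      have := Nat.le_of_dvd (by omega) hd
      omega
    have h2 := h _ h1
    have h3 : DihedralGroup.r (1 : ZMod n) ∈ CA.DihSub.D n (m : ZMod n) := by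
      rw [← h2, Subgroup.mem_normalizer_iff]
      rintro (a | a)
      · simp [CA.DihSub.r_mem]
      · simp only [DihedralGroup.inv_r, DihedralGroup.sr_mul_r, DihedralGroup.r_mul_sr, SetLike.mem_coe,
          CA.DihSub.sr_mem]
        constructor
        · intro h; linear_combination h - hmm
        · intro h; linear_combination h + hmm
    rw [CA.DihSub.r_mem, mul_one, ZMod.natCast_eq_zero_iff] at h3
    have := Nat.le_of_dvd (by omega) h3
    omega
  · intro h H hH
    obtain ⟨i, hi⟩ := CA.DihSub.exists_sr hH
    refine le_antisymm ?_ Subgroup.le_normalizer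
    rcases h with h | h
    · subst h
      obtain ⟨j, hj, hj2⟩ : ∃ j : ZMod 4, DihedralGroup.r j ∈ H ∧ j + j ≠ 0 := by
        by_contra hn
        push Not at hn
        apply hH
        refine ⟨⟨?_⟩⟩
        rintro ⟨a | a, ha⟩ ⟨b | b, hb⟩
        · ext; simp [add_comm]
        · ext
          simp only [Subgroup.coe_mul, DihedralGroup.sr_mul_r, DihedralGroup.r_mul_sr, DihedralGroup.sr.injEq]
          linear_combination -hn a ha
        · ext
          simp only [Subgroup.coe_mul, DihedralGroup.sr_mul_r, DihedralGroup.r_mul_sr, DihedralGroup.sr.injEq]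
          linear_combination hn b hb
        · ext
          have := H.mul_mem ha hb
          rw [DihedralGroup.sr_mul_sr] at this
          simp only [Subgroup.coe_mul, DihedralGroup.sr_mul_sr, DihedralGroup.r.injEq]
          linear_combination hn _ this
      have key : ∀ k : ZMod 4, DihedralGroup.r k ∈ H := by
        intro k
        have hk : ∃ c : Fin 4, k = j * (c.val : ZMod 4) := by
          clear hj; revert j k; decide
        obtain ⟨c, hc⟩ := hk
        have := H.pow_mem hj c.val
        rwa [DihedralGroup.r_pow, ← hc] at this
      rintro (k | k) _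
      · exact key k
      · exact CA.DihSub.sr_mem_of hi (key _)
    · have key : ∀ k : ZMod n, DihedralGroup.r k ∈ Subgroup.normalizer (H : Set (DihedralGroup n)) →
          DihedralGroup.r k ∈ H := by
        intro k hk
        have h1 := (Subgroup.mem_normalizer_iff.1 hk _).1 hi
        have h2 := H.mul_mem h1 hi
        simp only [DihedralGroup.inv_r, DihedralGroup.sr_mul_r, DihedralGroup.r_mul_sr,
          DihedralGroup.sr_mul_sr] at h2
        apply CA.DihSub.r_mem_of_odd h
        convert h2 using 2
        ring
      rintro (k | k) hk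
      · exact key k hk
      · apply CA.DihSub.sr_mem_of hi
        apply key
        have := Subgroup.mul_mem _ (Subgroup.le_normalizer hi) hk
        rwa [DihedralGroup.sr_mul_sr] at this

end Cfsg.Agent.S4074
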