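import Cfsg.Statements.S4075
import Cfsg.Agent.Lib.Odd.BG1b

set_option autoImplicit false
open Cfsg

namespace Cfsg.Agent.S4075

open CA.BG CA.OQuo Subgroup

/-- Let G be a finite nilpotent group. Every non-abelian subgroup of G is self-normalizing if and only if G is abelian or G is a minimal non-abelian p-group for some prime p (non-abelian of prime-power order with every proper subgroup abelian). -/
theorem result {G : Type*} [Group G] [Finite G]
    [Group.IsNilpotent G] :
    (∀ H : Subgroup G, ¬ IsMulCommutative H → Subgroup.normalizer (H : Set G) = H) ↔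
    (IsMulCommutative G ∨ (IsPrimePow (Nat.card G) ∧ ¬ IsMulCommutative G ∧ ∀ H : Subgroup G, H ≠ ⊤ → IsMulCommutative H)) := by
  have hG : Group.IsNilpotent (⊤ : Subgroup G) := inferInstance
  constructor
  · intro h
    have hall : ∀ H : Subgroup G, H ≠ ⊤ → IsMulCommutative H := by
      intro H hH
      by_contra hc
      have := lt_norm_of_nilpotent hG (lt_top_iff_ne_top.2 hH)
      rw [top_inf_eq, h H hc] at this
      exact lt_irrefl _ this
    by_cases hc : IsMulCommutative G
    · exact Or.inl hc
    refine Or.inr ⟨?_, hc, hall⟩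
    by_contra hpp
    apply hc
    have : IsMulCommutative (⊤ : Subgroup G) := by
      refine comm_of_nil_syl hG fun p hp hd => ?_
      obtain ⟨P, hP⟩ := syl_exists hp (⊤ : Subgroup G)
      refine ⟨P, hP, hall P ?_⟩
      rintro rfl
      obtain ⟨k, hk⟩ := hP.pi.exists_card hp
      rw [card_top] at hk hd
      refine hpp ⟨p, k, hp.prime, Nat.pos_of_ne_zero ?_, hk.symm⟩
      rintro rfl
      rw [hk, pow_zero] at hd
      exact hp.one_lt.ne' (Nat.dvd_one.1 hd)
    exact ⟨⟨fun a b => congrArg Subtype.val (this.is_comm.comm ⟨a, mem_top a⟩ ⟨b, mem_top b⟩)⟩⟩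
  · rintro (h | ⟨-, -, h⟩) H hH
    · exact absurd ⟨⟨fun a b => Subtype.ext (h.is_comm.comm _ _)⟩⟩ hH
    · by_cases ht : H = ⊤
      · rw [ht]; exact norm_top
      · exact absurd (h H ht) hH

end Cfsg.Agent.S4075
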