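import Cfsg.Statements.S4079
import Cfsg.Agent.Lib.Grp.Rk2c
import Cfsg.Agent.Lib.Grp.H7Max
import Cfsg.Agent.S0638
import Mathlib.NumberTheory.Multiplicity

set_option autoImplicit false
open Cfsg

namespace Cfsg.Agent.S4079

open Subgroup CA.Rk2b CA.Rk2c CA.BG CA.H7Max
open scoped commutatorElement

section Meta
variable {L : Type*} [Group L] [Finite L] {p : ℕ}

omit [Finite L] in
theorem powK (hp : p.Prime) (h2 : p ≠ 2) (hL : IsPGroup p L) {u : L} (hn : (zpowers u).Normal) (g : L) :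
    ∃ t : ℤ, IsCoprime t p ∧ ∀ c ∈ zpowers u, (c * g) ^ p = c ^ (p * t) * g ^ p := by
  have := Fact.mk hp
  obtain ⟨s, hs, hs1⟩ : ∃ s : ℤ, g * u * g⁻¹ = u ^ s ∧ (p : ℤ) ∣ s - 1 := by
    by_cases hu : u = 1
    · exact ⟨1, by simp [hu], by simp⟩
    obtain ⟨s, hs⟩ := hn.conj_mem u (mem_zpowers u) g
    simp only [] at hs
    refine ⟨s, hs.symm, ?_⟩
    have h1 : ∀ n : ℕ, g ^ n * u * (g ^ n)⁻¹ = u ^ s ^ n := by
      intro n
      induction n with
      | zero => simp
      | succ n ih =>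
        calc g ^ (n + 1) * u * (g ^ (n + 1))⁻¹ = g * (g ^ n * u * (g ^ n)⁻¹) * g⁻¹ := by group
          _ = _ := by rw [ih, ← conj_zpow, ← hs, ← zpow_mul, pow_succ']
    obtain ⟨k, hk⟩ := hL g
    have h3 := h1 (p ^ k)
    rw [hk, one_mul, inv_one, mul_one, eq_comm, ← mul_inv_eq_one, ← zpow_sub_one,
      ← orderOf_dvd_iff_zpow_eq_one] at h3
    obtain ⟨j, hj⟩ := IsPGroup.iff_orderOf.1 hL u
    have h4 : (p : ℤ) ∣ s ^ p ^ k - 1 := by
      refine dvd_trans ?_ h3
      rw [hj, Nat.cast_pow]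
      exact dvd_pow_self _ (by rintro rfl; exact hu (by simpa using hj))
    rw [← ZMod.intCast_zmod_eq_zero_iff_dvd] at h4 ⊢
    push_cast at h4 ⊢
    rwa [ZMod.pow_card_pow] at h4
  obtain ⟨b, hb⟩ := hs1
  obtain ⟨k, hk⟩ := odd_sq_dvd_geom_sum₂_sub (1 : ℤ) b (hp.odd_of_ne_two h2)
  simp only [one_pow, mul_one] at hk
  refine ⟨1 + p * k, ⟨1, -k, by ring⟩, ?_⟩
  rintro _ ⟨i, rfl⟩
  simp only []
  have h1 : ∀ n : ℕ, (u ^ i * g) ^ n = (u ^ i) ^ (∑ j ∈ Finset.range n, s ^ j) * g ^ n := by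
    intro n
    induction n with
    | zero => simp
    | succ n ih =>
      rw [pow_succ', ih, geom_sum_succ]
      calc u ^ i * g * ((u ^ i) ^ (∑ j ∈ Finset.range n, s ^ j) * g ^ n)
          = u ^ i * ((g * u * g⁻¹) ^ i) ^ (∑ j ∈ Finset.range n, s ^ j) * g ^ (n + 1) := by
            rw [conj_zpow, conj_zpow]; group
        _ = _ := by rw [hs]; group
  rw [h1, show s = 1 + p * b by linarith]
  congr 2
  linarith

omit [Finite L] in
theorem pow_of_cop (hL : IsPGroup p L) {c : L} {t : ℤ} (ht : IsCoprime t p) : c ∈ zpowers (c ^ t) := by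
  obtain ⟨k, hk⟩ := hL c
  obtain ⟨a, b, h⟩ := ht.pow_right (n := k)
  refine ⟨a, ?_⟩
  simp only []
  rw [← zpow_mul, mul_comm, show a * t = 1 - p ^ k * b by linarith, zpow_sub, zpow_mul]
  norm_cast
  simp [hk]

omit [Finite L] in
theorem comm_mem {u : L} (hn : (zpowers u).Normal) (hc : IsCyclic (L ⧸ zpowers u)) (l w : L) :
    w⁻¹ * l * w * l⁻¹ ∈ zpowers u := by
  rw [← QuotientGroup.eq_one_iff]
  have := hc.isMulCommutative.is_comm.comm (l : L ⧸ zpowers u) w
  simp only [QuotientGroup.mk_mul, QuotientGroup.mk_inv]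
  rw [mul_assoc _ (l : L ⧸ zpowers u), this]
  simp

omit [Finite L] in
theorem R2a (hp : p.Prime) (h2 : p ≠ 2) (hL : IsPGroup p L) {u : L} (hn : (zpowers u).Normal)
    (hc : IsCyclic (L ⧸ zpowers u)) (l w : L) (h : (w⁻¹ * l * w * l⁻¹) ^ p = 1) :
    l * w ^ p = w ^ p * l := by
  obtain ⟨t, -, ht⟩ := powK hp h2 hL hn w
  have := ht _ (hn.conj_mem _ (comm_mem hn hc l w) w)
  rw [zpow_mul, zpow_natCast, conj_pow, h, show w * (w⁻¹ * l * w * l⁻¹) * w⁻¹ * w = l * w * l⁻¹ by group,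
    conj_pow] at this
  simpa [mul_inv_eq_iff_eq_mul] using this

omit [Finite L] in
theorem R2 (hp : p.Prime) (h2 : p ≠ 2) (hL : IsPGroup p L) {u : L} (hn : (zpowers u).Normal)
    (hc : IsCyclic (L ⧸ zpowers u)) (l w : L) (h : l ^ p * w = w * l ^ p) :
    l * w ^ p = w ^ p * l := by
  refine R2a hp h2 hL hn hc l w ?_
  obtain ⟨t, h1, ht⟩ := powK hp h2 hL hn l
  have := ht _ (comm_mem hn hc l w)
  rw [inv_mul_cancel_right, show w⁻¹ * l * w = w⁻¹ * l * w⁻¹⁻¹ by simp, conj_pow, inv_inv, mul_assoc, h,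
    inv_mul_cancel_left, eq_comm, mul_eq_right, zpow_mul, zpow_natCast] at this
  obtain ⟨a, ha⟩ := pow_of_cop hL (c := (w⁻¹ * l * w * l⁻¹) ^ p) h1
  simp only [this, one_zpow] at ha
  exact ha.symm

omit [Finite L] in
theorem not_idx (hp : p.Prime) (hnc : ∀ C : Subgroup L, IsCyclic C → C.index ≠ p) (h0 : ¬ IsCyclic L)
    (v : L) : ¬ (zpowers v).index ∣ p := fun h => by
  rcases (Nat.dvd_prime hp).1 h with h | h
  · rw [index_eq_one] at h
    exact h0 ⟨v, fun x => (h ▸ mem_top x : x ∈ zpowers v)⟩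
  · exact hnc _ inferInstance h

theorem R1 (hp : p.Prime) (h2 : p ≠ 2) (hL : IsPGroup p L) {u : L} (hn : (zpowers u).Normal)
    (hc : IsCyclic (L ⧸ zpowers u)) (hnc : ∀ C : Subgroup L, IsCyclic C → C.index ≠ p)
    (h0 : ¬ IsCyclic L) (e : L) (he : e ^ p = 1) : ∃ w, w ^ p = e := by
  have := Fact.mk hp
  have hpi := Nat.prime_iff_prime_int.1 hp
  obtain ⟨V, hV⟩ := hc.exists_generator
  obtain ⟨v, rfl⟩ := QuotientGroup.mk_surjective V
  have dec : ∀ g : L, ∃ i j : ℤ, g = u ^ i * v ^ j := fun g => by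
    obtain ⟨j, hj⟩ := hV g
    simp only [← QuotientGroup.mk_zpow] at hj
    obtain ⟨i, hi⟩ := hn.conj_mem _ (QuotientGroup.eq.1 hj) (v ^ j)
    exact ⟨i, j, by simp only [] at hi; rw [hi]; group⟩
  obtain ⟨i, j, rfl⟩ := dec e
  obtain ⟨t, h1, ht⟩ := powK hp h2 hL hn (v ^ j)
  rw [ht _ (zpow_mem (mem_zpowers u) i)] at he
  obtain ⟨j, rfl⟩ : (p : ℤ) ∣ j := by
    by_contra hj
    refine not_idx hp hnc h0 u ?_
    have h3 : v ^ p ∈ zpowers u := by
      refine zpowers_le.2 ?_ (pow_of_cop hL (hpi.coprime_iff_not_dvd.2 hj).symm)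
      rw [← zpow_natCast, ← zpow_mul, mul_comm, zpow_mul, zpow_natCast, eq_inv_of_mul_eq_one_right he]
      exact inv_mem (zpow_mem (zpow_mem (mem_zpowers u) i) _)
    rw [index, ← orderOf_eq_card_of_forall_mem_zpowers hV, orderOf_dvd_iff_pow_eq_one,
      ← QuotientGroup.mk_pow, QuotientGroup.eq_one_iff]
    exact h3
  obtain ⟨i, rfl⟩ : (p : ℤ) ∣ i := by
    by_contra hi
    refine not_idx hp hnc h0 v ?_
    have h3 : u ^ p ∈ zpowers v := by
      refine zpowers_le.2 ?_ (pow_of_cop hL ((hpi.coprime_iff_not_dvd.2 hi).symm.mul_left h1))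
      rw [← zpow_natCast, ← zpow_mul, show (p : ℤ) * (i * t) = i * (p * t) by ring, zpow_mul,
        eq_inv_of_mul_eq_one_left he]
      exact inv_mem (pow_mem (zpow_mem (mem_zpowers v) _) _)
    have h4 : (zpowers v).index ≤ p := by
      refine (Nat.card_le_card_of_surjective (fun k : Fin p => ((u ^ (k : ℕ) : L) : L ⧸ zpowers v))
        fun q => ?_).trans (by simp)
      obtain ⟨g, rfl⟩ := QuotientGroup.mk_surjective q
      obtain ⟨a, b, rfl⟩ := dec g
      have h5 : (0 : ℤ) < p := by exact_mod_cast hp.pos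
      refine ⟨⟨(a % p).toNat, by have := Int.emod_lt_of_pos a h5; omega⟩, QuotientGroup.eq.2 ?_⟩
      simp only []
      rw [← zpow_natCast, Int.toNat_of_nonneg (Int.emod_nonneg a h5.ne'), ← mul_assoc, ← zpow_neg,
        ← zpow_add, show -(a % p) + a = p * (a / p) by linarith [Int.emod_add_mul_ediv a p], zpow_mul,
        zpow_natCast]
      exact mul_mem (zpow_mem h3 _) (zpow_mem (mem_zpowers v) _)
    obtain ⟨k, hk⟩ := hL.index (zpowers v)
    rw [hk] at h4 ⊢
    rcases k with _ | _ | k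
    · simp
    · simp
    · exact absurd h4 (not_le.2 (by simpa using Nat.pow_lt_pow_right hp.one_lt (show 1 < k + 1 + 1 by omega)))
  obtain ⟨t, h1, ht⟩ := powK hp h2 hL hn (v ^ j)
  obtain ⟨a, ha⟩ := pow_of_cop hL (c := u ^ i) h1
  simp only [] at ha
  refine ⟨(u ^ i) ^ a * v ^ j, ?_⟩
  rw [ht _ (zpow_mem (zpow_mem (mem_zpowers u) i) a), mul_comm (p : ℤ) i, zpow_mul u i]
  conv_rhs => rw [← ha]
  rw [← zpow_natCast]
  simp only [← zpow_mul]
  congr 2 <;> ring

end Meta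

theorem main {G : Type*} [Group G] [Finite G] {p m : ℕ} (hp : p.Prime) (h2 : p ≠ 2)
    (hG : Nat.card G = p ^ (m + 1)) (N : Subgroup G) [nN : N.Normal] (hN : N.index = p) (x : G)
    (hx : x ^ p = 1) (dec : ∀ g, ∃ l ∈ N, ∃ i : ℤ, g = l * x ^ i) (E : Subgroup G)
    (hE : ∀ e, e ∈ E ↔ e ∈ N ∧ e ^ p = 1) (el : IsMulCommutative E) (cE : Nat.card E = p ^ 2)
    (r1 : ∀ e ∈ E, ∃ w ∈ N, w ^ p = e)
    (r2a : ∀ l ∈ N, ∀ w ∈ N, (w⁻¹ * l * w * l⁻¹) ^ p = 1 → l * w ^ p = w ^ p * l)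
    (r2 : ∀ l ∈ N, ∀ w ∈ N, l ^ p * w = w * l ^ p → l * w ^ p = w ^ p * l)
    (cyc : IsCyclic (⁅N, N⁆ : Subgroup G)) :
    x ∉ centralizer (E : Set G) ↔ (p = 3 ∧ Group.nilpotencyClass G = m) := by
  have := Fact.mk hp
  have hP := IsPGroup.of_card hG
  have hEN : E ≤ N := fun e he => ((hE e).1 he).1
  have nE : E.Normal := ⟨fun e he g => (hE _).2 ⟨nN.conj_mem e (hEN he) g, by
    rw [conj_pow, ((hE e).1 he).2]; simp⟩⟩
  obtain ⟨z, hz1, hz2, hz3⟩ := CA.PGBasic.exists_mem_center_orderOf hP (M := E) (by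
    rintro rfl
    exact (Nat.one_lt_pow two_ne_zero hp.one_lt).ne (by simpa using cE))
  obtain ⟨y, hy1, hy2⟩ : ∃ y ∈ E, y ∉ zpowers z := by
    by_contra h
    push Not at h
    have := card_le_of_le h
    rw [cE, Nat.card_zpowers, hz3] at this
    nlinarith [hp.two_le]
  have hnz : ∀ z ∈ center G, (zpowers z).Normal := fun z hz2 => ⟨by
    rintro _ ⟨i, rfl⟩ g
    rw [mem_center_iff.1 (zpow_mem hz2 i) g, mul_inv_cancel_right]; exact ⟨i, rfl⟩⟩
  have oy : orderOf y = p := orderOf_eq_prime ((hE y).1 hy1).2 (by rintro rfl; exact hy2 (one_mem _))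
  obtain ⟨n, rfl⟩ : ∃ n, m = n + 3 := by
    obtain ⟨w, h1, h3⟩ := r1 y hy1
    have h4 : E < N := lt_of_le_of_ne hEN fun e => by
      rw [((hE w).1 (e ▸ h1)).2] at h3
      exact hy2 (h3 ▸ one_mem _)
    have h5 := card_lt_of_lt h4
    have h6 := N.card_mul_index
    rw [hN, hG, pow_succ, mul_left_inj' hp.ne_zero] at h6
    rw [cE, h6, Nat.pow_lt_pow_iff_right hp.one_lt] at h5
    exact ⟨m - 3, by omega⟩
  rw [class_iff (n := n + 2) hp hG]
  have hT : Nat.card (⊤ : Subgroup G) = p ^ (n + 1 + 3) := by rw [card_top, hG]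
  constructor
  · intro hxC
    have hcomm : ∀ g, ∀ e ∈ E, g⁻¹ * e * g * e⁻¹ ∈ zpowers z := fun g e he => by
      have := CA.BG4.comm_le_of_card hp (isPi_of_isPGroup hp (hP.to_subgroup ⊤)) le_rfl le_top
        (normalizer_eq_top_iff.2 nE).ge (normalizer_eq_top_iff.2 (hnz z hz2)).ge (zpowers_le.2 hz1)
        (by rw [cE, Nat.card_zpowers, hz3, sq])
      simpa [commutatorElement_def, mul_assoc] using
        inv_mem (this (commutator_mem_commutator he (mem_top g⁻¹)))
    have hEC : E ≤ centralizer (E : Set G) ⊓ N := le_inf (le_centralizer_iff_isMulCommutative.2 el) hEN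
    set H := (centralizer (E : Set G) ⊓ N) ⊔ zpowers x with hH
    have hEH : E ≤ H := hEC.trans le_sup_left
    have hcen : ∀ g : H, g ∈ centralizer (E.subgroupOf H : Set H) ↔ (g : G) ∈ centralizer (E : Set G) :=
      fun g => ⟨fun h => mem_centralizer_iff.2 fun e he => congrArg Subtype.val
        (mem_centralizer_iff.1 h ⟨e, hEH he⟩ he), fun h => mem_centralizer_iff.2 fun e he =>
          Subtype.ext (mem_centralizer_iff.1 h e he)⟩
    have hzp : ∀ g : H, g ∈ zpowers (⟨z, hEH hz1⟩ : H) ↔ (g : G) ∈ zpowers z :=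
      fun g => ⟨fun ⟨i, h⟩ => ⟨i, congrArg Subtype.val h⟩, fun ⟨i, h⟩ => ⟨i, Subtype.ext h⟩⟩
    have hHC : ∀ g ∈ H, g ∈ centralizer (E : Set G) → g ∈ N := fun g hg h => by
      obtain ⟨c, hc, _, ⟨i, rfl⟩, rfl⟩ := mem_sup_of_normal_left.1 hg
      refine mul_mem hc.2 ?_
      by_cases hi : (p : ℤ) ∣ i
      · obtain ⟨i, rfl⟩ := hi
        simp [zpow_mul, hx]
      · exact absurd (zpowers_le.2 ((Subgroup.mul_mem_cancel_left _ hc.1).1 h) (pow_of_cop hP
          ((Nat.prime_iff_prime_int.1 hp).coprime_iff_not_dvd.2 hi).symm)) hxC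
    have F : Fr p (E.subgroupOf H) ⟨z, hEH hz1⟩ ⟨y, hEH hy1⟩ := by
      refine ⟨hp, h2, hP.to_subgroup H, fun A h1 h3 => ?_, ⟨inferInstance, fun a ha =>
        Subtype.ext ((hE _).1 ha).2⟩, by rw [Nat.card_congr (subgroupOfEquivOfLe hEH).toEquiv, cE], hz1,
        mem_center_iff.2 fun g => Subtype.ext (mem_center_iff.1 hz2 g), by simpa using hz3, hy1,
        fun h => hy2 ((hzp _).1 h), fun g e he => (hzp _).2 (hcomm g e he)⟩
      rw [← CA.Rad.card_map_subtype]
      set B := A.map H.subtype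
      have b1 : ∀ b ∈ B, b ^ p = 1 := by
        rintro _ ⟨b, hb, rfl⟩
        exact congrArg Subtype.val (h3 b hb)
      have b2 : N ⊓ B ≤ E := fun b hb => (hE b).2 ⟨hb.1, b1 b hb.2⟩
      rcases b2.eq_or_lt with e | e
      · refine cE ▸ card_le_of_le fun b hb => b2 ⟨hHC b (map_subtype_le _ hb) ?_, hb⟩
        have : IsMulCommutative B := inferInstance
        exact mem_centralizer_iff.2 fun a ha => congrArg Subtype.val
          (this.is_comm.comm ⟨a, (e.ge ha).2⟩ ⟨b, hb⟩)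
      · have b3 := card_lt_of_lt e
        obtain ⟨k, hk⟩ := IsPGroup.iff_card.1 (hP.to_subgroup (N ⊓ B))
        rw [cE, hk, Nat.pow_lt_pow_iff_right hp.one_lt] at b3
        rw [← (N.subgroupOf B).card_mul_index, ← inf_subgroupOf_right,
          Nat.card_congr (subgroupOfEquivOfLe inf_le_right).toEquiv, hk, inf_subgroupOf_right, sq]
        exact Nat.mul_le_mul ((Nat.pow_le_pow_right hp.pos (by omega : k ≤ 1)).trans (pow_one p).le)
          (Nat.le_of_dvd hp.pos (hN ▸ relIndex_dvd_index_of_normal N B))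
    have hxH : x ∈ H := mem_sup_right (mem_zpowers x)
    by_cases h3 : p = 3 → ∃ g ∈ centralizer (E.subgroupOf H : Set H),
      g * ⟨x, hxH⟩ = ⟨x, hxH⟩ * g ∧ g ∉ zpowers (⟨z, hEH hz1⟩ : H)
    · exfalso
      have X : Xa p (E.subgroupOf H) ⟨z, hEH hz1⟩ ⟨x, hxH⟩ :=
        ⟨fun h => hxC ((hcen _).1 h), Subtype.ext hx, h3⟩
      obtain ⟨w, h1, h4⟩ := r1 y hy1
      have h5 : w ∈ centralizer (E : Set G) := by
        have : E ≤ centralizer {w} := fun e he => by
          have := (F.between (K := (centralizer {w} ⊓ E).subgroupOf H) (fun a ha => ⟨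
            center_le_centralizer _ (zpowers_le.2 hz2 ((hzp a).1 ha)), F.zle ha⟩) (fun a ha => ha.2)
            (k := ⟨y, hEH hy1⟩) ⟨mem_centralizer_singleton_iff.2 (by
              simp only [← h4]; exact (Commute.pow_self w p).eq), hy1⟩ F.yz).ge
            (show (⟨e, hEH he⟩ : H) ∈ E.subgroupOf H from he)
          exact this.1
        exact mem_centralizer_iff.2 fun e he => mem_centralizer_singleton_iff.1 (this he)
      have h6 : (⟨w, mem_sup_left ⟨h5, h1⟩⟩ : H) ∈ centralizer (E.subgroupOf H : Set H) := (hcen _).2 h5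
      have h7 := (mem_ker F X (c := ⟨_, h6⟩ ^ p)).1 (by
        rw [MonoidHom.mem_ker, map_pow]; exact F.el.2 _ (allE F X h6))
      refine F.yz (F.mem_z X.hx F.yE (Subtype.ext ?_))
      simpa [h4] using (congrArg Subtype.val h7).symm
    push Not at h3
    refine ⟨h3.1, lcs_ne_bot_of_cent hp hT (mem_top x) ?_⟩
    have h4 : ∀ l ∈ N, l ∈ centralizer (E : Set G) → l * x = x * l → l ∈ zpowers z := fun l h1 h4 h5 =>
      (hzp ⟨l, mem_sup_left ⟨h4, h1⟩⟩).1 (h3.2 _ ((hcen _).2 h4) (Subtype.ext h5))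
    refine (card_le_of_le (K := zpowers z ⊔ zpowers x) fun g hg => ?_).trans ?_
    · obtain ⟨l, h1, i, rfl⟩ := dec g
      have h5 : l * x = x * l := by
        have := mem_centralizer_singleton_iff.1 hg.1
        calc l * x = l * x ^ i * x * (x ^ i)⁻¹ := by group
          _ = _ := by rw [this]; group
      refine mul_mem (mem_sup_left (h4 l h1 (mem_centralizer_iff.2 fun e he => ?_) h5))
        (mem_sup_right ⟨i, rfl⟩)
      obtain ⟨w, h6, rfl⟩ := r1 e he
      refine (r2 l h1 w h6 (mem_center_iff.1 (zpowers_le.2 hz2 (h4 _ (pow_mem h1 p)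
        (mem_centralizer_iff.2 fun e he => r2 e (hEN he) l h1 ?_)
        ((show Commute l x from h5).pow_left p))) w).symm).symm
      rw [((hE e).1 he).2]; simp
    · rw [CA.BG4.card_sup_zpowers hp (normalizer_eq_top_iff.2 (hnz z hz2) ▸ mem_top x)
        (fun e => hxC (center_le_centralizer _ (zpowers_le.2 hz2 e))) (hx ▸ one_mem _),
        Nat.card_zpowers, hz3, sq]
  · rintro ⟨-, hm⟩ hxC
    have eq := fun {i k : ℕ} (h : i + k = n + 1 + 1) (M : Subgroup G) (hM : M.Normal) =>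
      eq_lcs hp hT hm h (N := M) le_top (normalizer_eq_top_iff.2 hM).ge
    obtain ⟨k, hk⟩ := IsPGroup.iff_card.1 (hP.to_subgroup ⁅N, N⁆)
    have k1 : k ≤ n + 2 := by
      rw [← Nat.pow_le_pow_iff_right hp.one_lt, ← hk]
      exact (card_le_of_le (commutator_mono le_top le_top)).trans (card_der_le hp hT)
    by_cases k2 : k ≤ 1
    · have h3 : y ∈ center G := mem_center_iff.2 fun g => by
        obtain ⟨l, h1, i, rfl⟩ := dec g
        obtain ⟨w, h6, h7⟩ := r1 y hy1
        have h8 := r2a l h1 w h6 (by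
          have : w⁻¹ * l * w * l⁻¹ ∈ ⁅N, N⁆ := by
            simpa [commutatorElement_def] using commutator_mem_commutator (inv_mem h6) h1
          rw [← orderOf_dvd_iff_pow_eq_one]
          exact (orderOf_dvd_natCard _ this).trans (hk ▸ (pow_dvd_pow p k2).trans (pow_one p).dvd))
        rw [h7] at h8
        rw [mul_assoc, ← mem_centralizer_iff.1 (zpow_mem hxC i) y hy1, ← mul_assoc, h8, mul_assoc]
      refine hy2 ?_
      rw [eq (i := n + 1) (k := 1) rfl _ (hnz z hz2) (by rw [Nat.card_zpowers, hz3, pow_one]),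
        ← eq (i := n + 1) (k := 1) rfl _ (hnz y h3) (by rw [Nat.card_zpowers, oy, pow_one])]
      exact mem_zpowers y
    · have h3 : E ≤ ⁅N, N⁆ := by
        rw [eq (i := n) (k := 2) rfl E nE cE, eq (i := n + 2 - k) (k := k) (by omega) _ inferInstance hk]
        exact Subgroup.lowerCentralSeries_antitone _ (by omega)
      have h4 := Subgroup.isCyclic_of_le h3
      have h5 := h4.exponent_eq_card ▸ Monoid.exponent_dvd_of_forall_pow_eq_one
        fun e : E => Subtype.ext ((hE _).1 e.2).2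
      rw [cE] at h5
      nlinarith [hp.two_le, Nat.le_of_dvd hp.pos h5]

/-- Let p be an odd prime and L a finite metacyclic p-group with no cyclic subgroup of index p, and let a be an automorphism of L of order p. Then a moves some element of order p of L if and only if p = 3 and the semidirect product L ⋊ ⟨a⟩ (of order 3·#L) has maximal class, i.e. nilpotency class m where #L = 3^m. -/
theorem result {L : Type*} [Group L] [Finite L] {p : ℕ} [Fact p.Prime]
    (hp : p ≠ 2) (hL : IsPGroup p L) (hmc : Cfsg.IsMetacyclic L) (hnc : ∀ C : Subgroup L, IsCyclic C → C.index ≠ p)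
    (a : MulAut L) (ha : orderOf a = p) (m : ℕ) (hm : Nat.card L = p ^ m) :
    (∃ x : L, orderOf x = p ∧ a x ≠ x) ↔
    (p = 3 ∧ Group.nilpotencyClass (SemidirectProduct L ↥(Subgroup.zpowers a) (Subgroup.zpowers a).subtype) = m) := by
  have hpp : p.Prime := Fact.out
  obtain ⟨U, hn, hU, hc⟩ := id hmc
  obtain ⟨u, rfl⟩ := (Subgroup.isCyclic_iff_exists_zpowers_eq_top U).1 hU
  have h0 : ¬ IsCyclic L := fun h => by
    rcases m with _ | m
    · have : Subsingleton L := (Nat.card_eq_one_iff_unique.1 (by simpa using hm)).1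
      rw [show a = 1 from MulEquiv.ext fun _ => Subsingleton.elim _ _, orderOf_one] at ha
      exact hpp.one_lt.ne ha
    obtain ⟨C, hC⟩ := Sylow.exists_subgroup_card_pow_prime p (n := m) (G := L) (hm ▸ pow_dvd_pow p m.le_succ)
    have := C.card_mul_index
    rw [hC, hm, pow_succ, mul_right_inj' (pow_pos hpp.pos m).ne'] at this
    exact hnc C inferInstance this
  obtain ⟨e1, e2⟩ := S0638.result hp hL hmc h0
  set G := SemidirectProduct L ↥(Subgroup.zpowers a) (Subgroup.zpowers a).subtype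
  have hG : Nat.card G = p ^ (m + 1) := by
    rw [SemidirectProduct.card, hm, Nat.card_zpowers, ha, pow_succ]
  have : Finite G := Nat.finite_of_card_ne_zero (hG ▸ (pow_pos hpp.pos _).ne')
  set ι : L →* G := SemidirectProduct.inl
  have hι : Function.Injective ι := SemidirectProduct.inl_injective
  have nN : ι.range.Normal := by
    rw [show ι.range = _ from SemidirectProduct.range_inl_eq_ker_rightHom]; infer_instance
  have hE : ∀ e, e ∈ omegaOne p (⊤ : Subgroup L) ↔ e ^ p = 1 := fun e =>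
    ⟨e1.2 e, fun h => subset_closure ⟨trivial, h⟩⟩
  rw [← main hpp hp hG ι.range ?_ (SemidirectProduct.inr ⟨a, mem_zpowers a⟩) ?_ ?_
    ((omegaOne p (⊤ : Subgroup L)).map ι) ?_ (by have := e1.1; infer_instance)
    (by rw [card_map_of_injective hι, e2]) ?_ ?_ ?_ ?_]
  · rw [mem_centralizer_iff]
    push Not
    constructor
    · rintro ⟨x, h1, h3⟩
      refine ⟨ι x, ⟨x, (hE x).2 (h1 ▸ pow_orderOf_eq_one x), rfl⟩, fun h => h3 ?_⟩
      simpa [ι, G] using (congrArg SemidirectProduct.left h).symm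
    · rintro ⟨_, ⟨x, h1, rfl⟩, h3⟩
      refine ⟨x, orderOf_eq_prime ((hE x).1 h1) (by rintro rfl; simp at h3), fun h => h3 ?_⟩
      ext <;> simp [ι, G, h]
  · have := ι.range.card_mul_index
    rwa [← Nat.card_congr (MonoidHom.ofInjective hι).toEquiv, hG, hm, pow_succ,
      mul_right_inj' (pow_pos hpp.pos m).ne'] at this
  · rw [← map_pow, show (⟨a, mem_zpowers a⟩ : zpowers a) ^ p = 1 from
      Subtype.ext (ha ▸ pow_orderOf_eq_one a), map_one]
  · rintro ⟨l, _, i, rfl⟩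
    exact ⟨ι l, ⟨l, rfl⟩, i, by
      rw [← map_zpow]; exact (SemidirectProduct.inl_left_mul_inr_right _).symm⟩
  · intro e
    constructor
    · rintro ⟨e, h, rfl⟩
      exact ⟨⟨e, rfl⟩, by rw [← map_pow, (hE e).1 h, map_one]⟩
    · rintro ⟨⟨e, rfl⟩, h⟩
      exact ⟨e, (hE e).2 (hι (by rw [map_pow, h, map_one])), rfl⟩
  · rintro _ ⟨e, h, rfl⟩
    obtain ⟨w, rfl⟩ := R1 hpp hp hL hn hc hnc h0 e ((hE e).1 h)
    exact ⟨ι w, ⟨w, rfl⟩, (map_pow _ _ _).symm⟩
  · rintro _ ⟨l, rfl⟩ _ ⟨w, rfl⟩ h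
    simpa using congrArg ι (R2a hpp hp hL hn hc l w (hι (by simpa using h)))
  · rintro _ ⟨l, rfl⟩ _ ⟨w, rfl⟩ h
    simpa using congrArg ι (R2 hpp hp hL hn hc l w (hι (by simpa using h)))
  · refine Subgroup.isCyclic_of_le (H' := zpowers (ι u)) (commutator_le.2 ?_)
    rintro _ ⟨l, rfl⟩ _ ⟨w, rfl⟩
    rw [← MonoidHom.map_zpowers, ← map_commutatorElement]
    exact mem_map_of_mem _ (by simpa [commutatorElement_def] using comm_mem hn hc w l⁻¹)

end Cfsg.Agent.S4079
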