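import Cfsg.Statements.S4080

set_option autoImplicit false
open Cfsg

namespace Cfsg.Agent.S4080

theorem binom {A : Type*} [Ring A] {N : A} (h : N ^ 4 = 0) (n : ℕ) :
    (1 + N) ^ n = 1 + n • N + n.choose 2 • N ^ 2 + n.choose 3 • N ^ 3 := by
  induction n with
  | zero => simp
  | succ n ih =>
    rw [pow_succ, ih, Nat.choose_succ_succ' n 1, Nat.choose_succ_succ' n 2, Nat.choose_one_right]
    simp only [add_mul, mul_add, mul_one, one_mul, smul_mul_assoc, ← pow_succ, ← pow_two, h, smul_zero, add_smul, one_smul]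
    abel

/-- Let p > 3 be a prime and L the direct product of two cyclic groups of order p². Every automorphism of L of order p fixes every element of order p of L. -/
theorem result {p : ℕ} [Fact p.Prime] (hp : 3 < p)
    (a : MulAut (Multiplicative (ZMod (p ^ 2) × ZMod (p ^ 2)))) (ha : orderOf a = p)
    (x : Multiplicative (ZMod (p ^ 2) × ZMod (p ^ 2))) (hx : orderOf x = p) : a x = x := by
  have pp : p.Prime := Fact.out
  haveI : NeZero (p ^ 2) := ⟨pow_ne_zero _ pp.ne_zero⟩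
  let F : MulAut (Multiplicative (ZMod (p ^ 2) × ZMod (p ^ 2))) →* Module.End (ZMod (p ^ 2)) (ZMod (p ^ 2) × ZMod (p ^ 2)) :=
    { toFun := fun a => (AddMonoidHom.toMultiplicative.symm a.toMonoidHom).toZModLinearMap _
      map_one' := rfl, map_mul' := fun _ _ => rfl }
  let e := LinearMap.toMatrixAlgEquiv (Module.Basis.finTwoProd (ZMod (p ^ 2)))
  let φ := ZMod.castHom (dvd_pow_self p two_ne_zero) (ZMod p)
  have k1 : ∀ y : ZMod (p ^ 2), p ∣ y.val → ∃ k, y = p • k := fun y ⟨k, hk⟩ =>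
    ⟨k, by rw [← ZMod.natCast_zmod_val y, hk, nsmul_eq_mul, Nat.cast_mul]⟩
  have k2 : ∀ y : ZMod (p ^ 2), p • y = 0 → ∃ k, y = p • k := fun y hy => k1 y (by
    rw [← ZMod.natCast_zmod_val y, nsmul_eq_mul, ← Nat.cast_mul, ZMod.natCast_eq_zero_iff] at hy
    exact (Nat.mul_dvd_mul_iff_left pp.pos).1 ((pow_two p).symm.dvd.trans hy))
  obtain ⟨N, hN⟩ : ∃ N, e (F a) = 1 + N := ⟨e (F a) - 1, by abel⟩
  have h1 : (1 + N) ^ p = 1 := by rw [← hN, ← map_pow, ← map_pow, orderOf_dvd_iff_pow_eq_one.1 ha.dvd, map_one, map_one]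
  have h2 : φ.mapMatrix N ^ 2 = 0 := by
    have := congrArg φ.mapMatrix h1
    rw [map_pow, map_add, map_one, add_pow_char_of_commute _ (Commute.one_left _), one_pow, add_eq_left] at this
    have h3 := (Matrix.isNilpotent_charpoly_sub_pow_of_isNilpotent ⟨p, this⟩).eq_zero
    have h4 := (φ.mapMatrix N).aeval_self_charpoly
    rwa [sub_eq_zero.1 h3, map_pow, Polynomial.aeval_X, Fintype.card_fin] at h4
  obtain ⟨K, hK⟩ : ∃ K, N ^ 2 = p • K := by
    choose K hK using fun i j => k1 ((N ^ 2) i j) (by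
      have := congrFun (congrFun (map_pow φ.mapMatrix N 2 ▸ h2) i) j
      rwa [RingHom.mapMatrix_apply, Matrix.map_apply, ← ZMod.natCast_zmod_val ((N ^ 2) i j), map_natCast,
        Matrix.zero_apply, ZMod.natCast_eq_zero_iff] at this)
    exact ⟨Matrix.of K, Matrix.ext hK⟩
  have z : ∀ M : Matrix (Fin 2) (Fin 2) (ZMod (p ^ 2)), p • p • M = 0 := fun M => by
    rw [smul_smul, ← pow_two, ← Nat.cast_smul_eq_nsmul (ZMod (p ^ 2)), ZMod.natCast_self, zero_smul]
  obtain ⟨c2, h3⟩ := pp.dvd_choose_self two_ne_zero (by omega)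
  obtain ⟨c3, h4⟩ := pp.dvd_choose_self three_ne_zero hp
  rw [binom (by rw [show 4 = 2 + 2 from rfl, pow_add, hK, smul_mul_assoc, mul_smul_comm, z]), h3, h4, pow_succ N 2, hK,
    smul_mul_assoc, mul_comm p, mul_comm p, mul_smul, mul_smul, z, z, smul_zero, smul_zero, add_zero, add_zero,
    add_eq_left] at h1
  have h5 : p • Multiplicative.toAdd x = 0 := by rw [← toAdd_pow, orderOf_dvd_iff_pow_eq_one.1 hx.dvd]; rfl
  obtain ⟨u, hu⟩ := k2 _ (congrArg Prod.fst h5)
  obtain ⟨v, hv⟩ := k2 _ (congrArg Prod.snd h5)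
  have h6 : Multiplicative.toAdd x = p • (u, v) := Prod.ext hu hv
  have h7 : p • F a = p • 1 := e.injective (by rw [map_nsmul, map_nsmul, hN, smul_add, h1, add_zero, map_one])
  apply Multiplicative.toAdd.injective
  change F a (Multiplicative.toAdd x) = _
  rw [h6, map_nsmul, ← LinearMap.smul_apply, h7]
  rfl

end Cfsg.Agent.S4080
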