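import Cfsg.Statements.S4083
import Cfsg.Agent.S0228
import Cfsg.Agent.Lib.Grp.Two2
import Cfsg.Agent.Lib.Odd.BG2
import Cfsg.Agent.Lib.Grp.DihSub
import Cfsg.Agent.Lib.Grp.PGDihedral
import Cfsg.Agent.Lib.Loc.AmbRes

set_option autoImplicit false
open Cfsg

namespace Cfsg.Agent.S4083

open Subgroup

theorem sub_dih {S : Type*} [Group S] {n : ℕ} (hn : n ≠ 0) (f : S →* DihedralGroup n)
    (hf : Function.Injective f) : IsCyclic S ∨ ∃ m, m ∣ n ∧ Nonempty (S ≃* DihedralGroup m) := by
  haveI : NeZero n := ⟨hn⟩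
  let R : Subgroup S := (zpowers (DihedralGroup.r 1 : DihedralGroup n)).comap f
  have hr : ∀ i : ZMod n, (DihedralGroup.r i : DihedralGroup n) ∈ zpowers (DihedralGroup.r 1) :=
    fun i => ⟨(i.val : ℤ), by simp⟩
  have hR : IsCyclic R := by
    let φ : R →* zpowers (DihedralGroup.r 1 : DihedralGroup n) :=
      (f.comp R.subtype).codRestrict _ (fun y => y.2)
    refine isCyclic_of_injective φ ?_
    intro y z h
    exact Subtype.ext (hf (congrArg Subtype.val h))
  obtain ⟨a, ha⟩ := (Subgroup.isCyclic_iff_exists_zpowers_eq_top R).1 hR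
  by_cases hT : ∀ x, x ∈ R
  · left
    exact ⟨⟨a, fun x => by have := hT x; rw [← ha] at this; exact this⟩⟩
  · right
    push Not at hT
    obtain ⟨x, hx⟩ := hT
    have haR : a ∈ R := ha ▸ mem_zpowers a
    obtain ⟨i, hi⟩ : ∃ i, f x = DihedralGroup.sr i := by
      rcases h : f x with i | i
      · exact absurd (show f x ∈ _ from h ▸ hr i) hx
      · exact ⟨i, rfl⟩
    obtain ⟨k, hk⟩ : ∃ k, f a = DihedralGroup.r k := by
      rcases h : f a with k | k
      · exact ⟨k, rfl⟩
      · exact absurd (h ▸ (show f a ∈ _ from haR)) (CA.PGDihedral.dihedral_sr_notMem n k)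
    refine ⟨orderOf a, ?_, CA.PGDihedral.nonempty_mulEquiv_dihedral (x := x) rfl (ha ▸ hx) ?_ ?_ ?_⟩
    · apply orderOf_dvd_of_pow_eq_one
      apply hf
      rw [map_pow, hk, map_one]
      simp
    · apply hf; rw [map_pow, hi, map_one]; simp [sq]
    · apply hf; simp [hi, hk]
    · rw [eq_top_iff, ha]
      intro y _
      rcases h : f y with j | j
      · exact mem_sup_left (show f y ∈ _ from h ▸ hr j)
      · have h1 : x⁻¹ * y ∈ R := by
          show f _ ∈ zpowers (DihedralGroup.r 1 : DihedralGroup n)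
          rw [map_mul, map_inv, hi, h]
          simpa using hr _
        have : y = x * (x⁻¹ * y) := by group
        rw [this]
        exact mul_mem (mem_sup_right (mem_zpowers x)) (mem_sup_left h1)

variable {H : Type*} [Group H]

theorem comm_of_cyc [Finite H] {a g : H} {j : ℕ} (ha : orderOf a = 2 ^ j) (hg : Odd (orderOf g))
    (hn : g * a * g⁻¹ ∈ zpowers a) : Commute g a := by
  have hN : zpowers g ≤ normalizer (zpowers a : Set H) := by
    rw [zpowers_le]
    refine mem_normalizer_fintype ?_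
    rintro _ ⟨k, rfl⟩
    have := zpow_mem hn k
    rwa [conj_zpow] at this
  have h1 := CA.BG.relIndex_cent_cyclic_dvd (V := zpowers a) inferInstance hN
  have h2 : (centralizer (zpowers a : Set H)).relIndex (zpowers g) ∣ orderOf g := by
    rw [← Nat.card_zpowers]; exact relIndex_dvd_card _ _
  rw [Nat.card_zpowers, ha] at h1
  have h3 : (2 ^ j).totient ∣ 2 ^ j := by
    rcases j with _ | j
    · simp
    · rw [Nat.totient_prime_pow_succ Nat.prime_two]; simp [pow_succ]
  have h4 : (centralizer (zpowers a : Set H)).relIndex (zpowers g) = 1 :=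
    Nat.eq_one_of_dvd_coprimes (((Nat.coprime_two_left.2 hg).pow_left j)) (h1.trans h3) h2
  rw [relIndex_eq_one] at h4
  exact (mem_centralizer_iff.1 (h4 (mem_zpowers g)) a (mem_zpowers a)).symm

theorem comm_ext {a g x : H} {j : ℕ} (ha : orderOf a = 2 ^ j) (hg : Odd (orderOf g))
    (hc : Commute g a) (hx : x⁻¹ * (g * x * g⁻¹) ∈ zpowers a) : Commute g x := by
  obtain ⟨i, hi⟩ := hx
  have hi' : g * x * g⁻¹ = x * a ^ i := by simp only at hi; rw [hi]; group
  have h1 : ∀ k : ℕ, g ^ k * x * (g ^ k)⁻¹ = x * (a ^ i) ^ k := by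
    intro k
    induction k with
    | zero => simp
    | succ k ih =>
      have hc2 : g * (a ^ i) ^ k * g⁻¹ = (a ^ i) ^ k := by
        rw [((hc.zpow_right i).pow_right k).eq]; group
      calc g ^ (k + 1) * x * (g ^ (k + 1))⁻¹ = g * (g ^ k * x * (g ^ k)⁻¹) * g⁻¹ := by group
        _ = (g * x * g⁻¹) * (g * (a ^ i) ^ k * g⁻¹) := by rw [ih]; group
        _ = _ := by rw [hi', hc2, pow_succ', mul_assoc]
  have h2 := h1 (orderOf g)
  rw [pow_orderOf_eq_one] at h2
  have h3 : (a ^ i) ^ orderOf g = 1 := by simpa using h2.symm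
  have h4 : (a ^ i) ^ 2 ^ j = 1 := by
    rw [← zpow_natCast, ← zpow_mul, mul_comm, zpow_mul, zpow_natCast, ← ha, pow_orderOf_eq_one, one_zpow]
  have h5 : a ^ i = 1 := orderOf_eq_one_iff.1 (Nat.eq_one_of_dvd_coprimes
    ((Nat.coprime_two_left.2 hg).pow_left j) (orderOf_dvd_of_pow_eq_one h4) (orderOf_dvd_of_pow_eq_one h3))
  rw [h5, mul_one] at hi'
  exact mul_inv_eq_iff_eq_mul.1 hi'

theorem dih_mem {a x y : H} (hxa : x * a * x⁻¹ = a⁻¹) (hx : x ^ 2 = 1) (hy : y ∈ zpowers a ⊔ zpowers x) :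
    y ∈ zpowers a ∨ x⁻¹ * y ∈ zpowers a := by
  rw [← CA.PGDihedral.dihedralHom_range (pow_orderOf_eq_one a) hx hxa] at hy
  obtain ⟨z, rfl⟩ := hy
  rcases z with i | i
  · left; rw [CA.PGDihedral.dihedralHom_r]; exact CA.PGDihedral.ze_mem _ _ _
  · right; rw [CA.PGDihedral.dihedralHom_sr, inv_mul_cancel_left]; exact CA.PGDihedral.ze_mem _ _ _

theorem four {z x : H} (hz : orderOf z = 2) (hx : x ^ 2 = 1) (hxz : x ∉ zpowers z) (hc : Commute x z) :
    Nat.card ↥(zpowers z ⊔ zpowers x) = 4 ∧ ∀ k ∈ zpowers z ⊔ zpowers x, k ^ 2 = 1 := by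
  have hz2 : z ^ 2 = 1 := hz ▸ pow_orderOf_eq_one z
  have hxa : x * z * x⁻¹ = z⁻¹ := by
    rw [hc.eq, mul_inv_cancel_right, eq_inv_iff_mul_eq_one, ← sq, hz2]
  obtain ⟨e⟩ := CA.PGDihedral.nonempty_subgroup_mulEquiv_dihedral hz hxz hx hxa
  refine ⟨by rw [Nat.card_congr e.toEquiv, DihedralGroup.nat_card], fun k hk => ?_⟩
  have : ∀ y : DihedralGroup 2, y ^ 2 = 1 := by decide
  have h := this (e ⟨k, hk⟩)
  rw [← map_pow, EmbeddingLike.map_eq_one_iff] at h
  exact congrArg Subtype.val h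

theorem core [Finite H] (S : Subgroup H) [S.Normal] (hS2 : IsPGroup 2 S) (g : H) (hg : Odd (orderOf g))
    (hgen : S ⊔ zpowers g = ⊤)
    (hS : IsCyclic S ∨ ((∃ n : ℕ, Nonempty (S ≃* DihedralGroup (2 ^ n))) ∧
      ∀ K : Subgroup H, Nat.card K = 4 → (∀ k ∈ K, k ^ 2 = 1) → centralizer (K : Set H) ≤ K)) :
    IsCyclic H ∨ (∃ n : ℕ, Nonempty (H ≃* DihedralGroup (2 ^ n))) ∨
      Nonempty (H ≃* alternatingGroup (Fin 4)) := by
  haveI : Fact (Nat.Prime 2) := ⟨Nat.prime_two⟩
  by_cases hcyc : IsCyclic S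
  · left
    obtain ⟨a, ha⟩ := (Subgroup.isCyclic_iff_exists_zpowers_eq_top S).1 hcyc
    have haS : a ∈ S := ha ▸ mem_zpowers a
    obtain ⟨j, hj⟩ := CA.AmbSyl.orderOf_eq_pow_of_mem hS2 haS
    have hc := comm_of_cyc hj hg (ha ▸ (inferInstance : S.Normal).conj_mem a haS g)
    have hcop : (orderOf a).Coprime (orderOf g) := hj ▸ (Nat.coprime_two_left.2 hg).pow_left j
    refine ⟨⟨a * g, fun y => ?_⟩⟩
    have h1 : a ∈ zpowers (a * g) := by
      refine CA.AmbRes.mem_of_pow_mem_of_coprime hcop ?_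
      have := pow_mem (mem_zpowers (a * g)) (orderOf g)
      rwa [hc.symm.mul_pow, pow_orderOf_eq_one, mul_one] at this
    have h2 : g ∈ zpowers (a * g) := by
      have := mul_mem (inv_mem h1) (mem_zpowers (a * g))
      rwa [inv_mul_cancel_left] at this
    have : (⊤ : Subgroup H) ≤ zpowers (a * g) := by
      rw [← hgen, ← ha]; exact sup_le (zpowers_le.2 h1) (zpowers_le.2 h2)
    exact this (mem_top y)
  right
  obtain ⟨⟨n, ⟨e⟩⟩, hK⟩ := hS.resolve_left hcyc
  by_cases hg1 : g = 1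
  · left
    rw [hg1, zpowers_one_eq_bot, sup_bot_eq] at hgen
    exact ⟨n, ⟨(topEquiv.symm.trans (MulEquiv.subgroupCongr hgen.symm)).trans e⟩⟩
  obtain ⟨a0, x0, h1, h2, h3, h4, h5⟩ := CA.PGDihedral.exists_gens_of_dihedral e
  have hn0 : n ≠ 0 := by
    rintro rfl
    apply hcyc
    exact isCyclic_of_prime_card (p := 2) (by rw [Nat.card_congr e.toEquiv, DihedralGroup.nat_card]; rfl)
  obtain ⟨a, haS⟩ := a0
  obtain ⟨x, hxS⟩ := x0
  have ha : orderOf a = 2 ^ n := by rw [← h1, Subgroup.orderOf_mk]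
  have hx : x ^ 2 = 1 := congrArg Subtype.val h3
  have hxa : x * a * x⁻¹ = a⁻¹ := congrArg Subtype.val h4
  have hxn : x ∉ zpowers a := by
    rintro ⟨k, hk⟩
    exact h2 ⟨k, Subtype.ext hk⟩
  have hSg : S = zpowers a ⊔ zpowers x := by
    have := congrArg (Subgroup.map S.subtype) h5
    rw [Subgroup.map_sup, MonoidHom.map_zpowers, MonoidHom.map_zpowers, ← MonoidHom.range_eq_map,
      range_subtype] at this
    exact this.symm
  have hconj : ∀ y ∈ S, ∀ h : H, h * y * h⁻¹ ∈ S := fun y hy h => (inferInstance : S.Normal).conj_mem y hy h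
  -- an odd order element commuting with an involution `z` and normalizing suitable data is trivial
  have key : ∀ z y : H, orderOf z = 2 → y ^ 2 = 1 → y ∉ zpowers z → Commute y z → Commute g z →
      Commute g y → False := by
    intro z y hz hy hyz hc c1 c2
    obtain ⟨k1, k2⟩ := four hz hy hyz hc
    have hgK : g ∈ zpowers z ⊔ zpowers y := by
      apply hK _ k1 k2
      have : zpowers z ⊔ zpowers y ≤ centralizer {g} :=
        sup_le (zpowers_le.2 (by simpa [mem_centralizer_iff] using c1.eq))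
          (zpowers_le.2 (by simpa [mem_centralizer_iff] using c2.eq))
      intro k hk
      exact ((mem_centralizer_iff.1 (this hk)) g rfl).symm
    have h6 : orderOf g ∣ 2 := orderOf_dvd_of_pow_eq_one (k2 g hgK)
    exact hg1 (orderOf_eq_one_iff.1 (Nat.eq_one_of_dvd_coprimes (Nat.coprime_two_left.2 hg) h6 dvd_rfl))
  by_cases hn1 : n = 1
  · right
    subst hn1
    have ha2 : orderOf a = 2 := ha
    have hcxa : Commute x a := by
      have : a⁻¹ = a := by rw [inv_eq_iff_mul_eq_one, ← sq, ← ha2, pow_orderOf_eq_one]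
      rw [this] at hxa
      exact mul_inv_eq_iff_eq_mul.1 hxa
    obtain ⟨k1, k2⟩ := four ha2 hx hxn hcxa
    rw [← hSg] at k1 k2
    have hkl : IsKleinFour S := CA.Two.isKleinFour_of k1 k2
    have h6 : S.relIndex ⊤ ∣ 6 := CA.Two2.klein_relIndex_dvd' hkl (by rw [normalizer_eq_top])
      (inf_le_left.trans (hK S k1 k2))
    rw [relIndex_top_right] at h6
    have h7 : S.index ∣ orderOf g := by
      rw [← relIndex_top_right, ← hgen, relIndex_sup_left, ← Nat.card_zpowers]
      exact relIndex_dvd_card _ _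
    have h8 : S.index ≠ 1 := by
      intro h
      rw [index_eq_one] at h
      have h6 : orderOf g ∣ 2 := orderOf_dvd_of_pow_eq_one (k2 g (h ▸ mem_top g))
      exact hg1 (orderOf_eq_one_iff.1 (Nat.eq_one_of_dvd_coprimes (Nat.coprime_two_left.2 hg) h6 dvd_rfl))
    have h9 : Odd S.index := hg.of_dvd_nat h7
    have h10 : S.index = 3 := by
      have := Nat.le_of_dvd (by norm_num) h6
      obtain ⟨t, ht⟩ := h9
      have : S.index = 3 ∨ S.index = 5 := by omega
      rcases this with h | h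
      · exact h
      · rw [h] at h6; exact absurd h6 (by decide)
    refine Cfsg.Agent.S0228.result (by rw [← S.card_mul_index, k1, h10]) fun z hz hzc => ?_
    have hzS : z ∈ S := by
      refine CA.AmbRes.mem_of_pow_mem_of_coprime (n := 3) (by rw [hz]; decide) ?_
      rw [← h10]; exact pow_index_mem S z
    have hlt : ¬ S ≤ zpowers z := fun h => by
      have := card_le_of_le h
      rw [k1, Nat.card_zpowers, hz] at this
      omega
    obtain ⟨y, hyS, hyz⟩ := SetLike.not_le_iff_exists.1 hlt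
    have hcz : ∀ h : H, Commute h z := fun h => mem_center_iff.1 hzc h
    have hzy : zpowers z ⊔ zpowers y = S := by
      refine eq_of_le_of_card_ge (sup_le (zpowers_le.2 hzS) (zpowers_le.2 hyS)) ?_
      rw [k1, (four hz (k2 y hyS) hyz (hcz y)).1]
    refine key z y hz (k2 y hyS) hyz (hcz y) (hcz g) (comm_ext (j := 1) hz hg (hcz g) ?_)
    have hzz : y * z * y⁻¹ = z⁻¹ := by
      rw [(hcz y).eq, mul_inv_cancel_right, eq_inv_iff_mul_eq_one, ← sq, k2 z hzS]
    rcases dih_mem hzz (k2 y hyS) (hzy ▸ hconj y hyS g) with h | h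
    · exfalso
      apply hyz
      obtain ⟨k, hk⟩ := h
      refine ⟨k, ?_⟩
      have hk' : z ^ k = g * y * g⁻¹ := hk
      have : g⁻¹ * z ^ k * g = z ^ k := by rw [mul_assoc, ← ((hcz g).zpow_right k).eq]; group
      show z ^ k = y
      rw [← this, hk']; group
    · exact h
  · exfalso
    obtain ⟨m, rfl⟩ : ∃ m, n = m + 2 := ⟨n - 2, by omega⟩
    have hga : ∀ h : H, h * a * h⁻¹ ∈ zpowers a := by
      intro h
      rcases dih_mem hxa hx (hSg ▸ hconj a haS h) with h1 | ⟨k, hk⟩
      · exact h1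
      · exfalso
        have hk' : h * a * h⁻¹ = x * a ^ k := by simp only at hk; rw [hk]; group
        have h7 : (h * a * h⁻¹) ^ 2 = 1 := by
          rw [hk', sq, mul_assoc, ← mul_assoc (a ^ k), CA.PGDihedral.zpow_mul_of_inv hxa]
          have : x * (x * a ^ (-k) * a ^ k) = x ^ 2 := by rw [sq]; group
          rw [this, hx]
        rw [conj_pow, conj_eq_one_iff] at h7
        have := orderOf_dvd_of_pow_eq_one h7
        rw [ha] at this
        have h8 := Nat.le_of_dvd (by norm_num) this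
        have : 2 ^ 2 ≤ 2 ^ (m + 2) := Nat.pow_le_pow_right (by norm_num) (by omega)
        omega
    have c1 := comm_of_cyc ha hg (hga g)
    have c2 : Commute g x := by
      refine comm_ext ha hg c1 ?_
      rcases dih_mem hxa hx (hSg ▸ hconj x hxS g) with ⟨k, hk⟩ | h
      · exfalso
        apply hxn
        refine ⟨k, ?_⟩
        have hk' : a ^ k = g * x * g⁻¹ := hk
        have : g⁻¹ * a ^ k * g = a ^ k := by rw [mul_assoc, ← (c1.zpow_right k).eq]; group
        show a ^ k = x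
        rw [← this, hk']; group
      · exact h
    have hz : orderOf (a ^ 2 ^ (m + 1)) = 2 := by
      rw [orderOf_pow_of_dvd (by positivity) (by rw [ha]; exact pow_dvd_pow 2 (by omega)), ha,
        pow_succ' 2 (m + 1), Nat.mul_div_cancel _ (by positivity)]
    refine key _ x hz hx (fun h => hxn (zpowers_le.2 (pow_mem (mem_zpowers a) _) h)) ?_
      (c1.pow_right _) c2
    have h7 : x * a ^ 2 ^ (m + 1) * x⁻¹ = (a ^ 2 ^ (m + 1))⁻¹ := by rw [← conj_pow, hxa, inv_pow]
    have h8 : (a ^ 2 ^ (m + 1))⁻¹ = a ^ 2 ^ (m + 1) := by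
      have := pow_orderOf_eq_one (a ^ 2 ^ (m + 1))
      rw [hz] at this
      rw [inv_eq_iff_mul_eq_one, ← sq, this]
    rw [h8] at h7
    exact mul_inv_eq_iff_eq_mul.1 h7


theorem not_cyc {K : Subgroup H} (h1 : Nat.card K = 4) (h2 : ∀ k ∈ K, k ^ 2 = 1) : ¬ IsCyclic K := by
  intro h
  obtain ⟨a, ha⟩ := (Subgroup.isCyclic_iff_exists_zpowers_eq_top K).1 h
  have h3 := orderOf_dvd_of_pow_eq_one (h2 a (ha ▸ mem_zpowers a))
  rw [← ha, Nat.card_zpowers] at h1
  rw [h1] at h3
  exact absurd h3 (by decide)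

theorem comm_of_sq {K : Subgroup H} (h2 : ∀ k ∈ K, k ^ 2 = 1) : K ≤ centralizer (K : Set H) := by
  intro a ha b hb
  have h1 := h2 _ (mul_mem hb ha)
  have ha' : a⁻¹ = a := by rw [inv_eq_iff_mul_eq_one, ← sq, h2 a ha]
  have hb' : b⁻¹ = b := by rw [inv_eq_iff_mul_eq_one, ← sq, h2 b hb]
  rw [sq, mul_eq_one_iff_eq_inv, mul_inv_rev, ha', hb'] at h1
  exact h1

theorem a4_not_comm : ¬ ∀ x y : alternatingGroup (Fin 4), x * y = y * x := by decide

theorem card_a4 : Nat.card (alternatingGroup (Fin 4)) = 12 := by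
  rw [Nat.card_eq_fintype_card]; decide

/-- Let G be a finite group with Sylow 2-subgroup P. Every subgroup H of G whose Sylow 2-subgroup is normal in H with cyclic quotient is cyclic, dihedral of 2-power order, or isomorphic to the alternating group of degree 4, if and only if either P is cyclic, or P is dihedral (of order at least 4) and every elementary abelian subgroup K of order 4 of P satisfies C_G(K) = K. -/
theorem result {G : Type*} [Group G] [Finite G] (P : Sylow 2 G) :
    (∀ H : Subgroup G, (∀ S : Sylow 2 ↥H, (S : Subgroup ↥H).Normal) →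
        (∀ (S : Sylow 2 ↥H) [(S : Subgroup ↥H).Normal], IsCyclic (↥H ⧸ (S : Subgroup ↥H))) →
        IsCyclic H ∨ (∃ n : ℕ, Nonempty (H ≃* DihedralGroup (2 ^ n))) ∨ Nonempty (H ≃* alternatingGroup (Fin 4))) ↔
    (IsCyclic P ∨
      ((∃ n : ℕ, 1 ≤ n ∧ Nonempty ((P : Subgroup G) ≃* DihedralGroup (2 ^ n))) ∧
        ∀ K : Subgroup G, K ≤ P → Nat.card K = 4 → (∀ k ∈ K, k ^ 2 = 1) → Subgroup.centralizer (K : Set G) = K)) := by
  haveI : Fact (Nat.Prime 2) := ⟨Nat.prime_two⟩
  constructor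
  · intro hyp
    have two : ∀ Q : Subgroup G, IsPGroup 2 Q →
        IsCyclic Q ∨ ∃ n : ℕ, 1 ≤ n ∧ Nonempty (Q ≃* DihedralGroup (2 ^ n)) := by
      intro Q hQ
      have hS : ∀ S : Sylow 2 Q, (S : Subgroup Q) = ⊤ := fun S =>
        (S.is_maximal' (hQ.to_subgroup ⊤) le_top).symm
      rcases hyp Q (fun S => by rw [hS S]; infer_instance) (fun S _ => ⟨⟨1, fun q => by
        obtain ⟨y, rfl⟩ := QuotientGroup.mk_surjective q
        have : (y : Q ⧸ (S : Subgroup Q)) = 1 := (QuotientGroup.eq_one_iff y).2 (by rw [hS S]; trivial)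
        exact ⟨0, by simp [this]⟩⟩⟩) with h | ⟨n, ⟨e⟩⟩ | ⟨⟨e⟩⟩
      · exact Or.inl h
      · rcases n with _ | n
        · left
          exact isCyclic_of_prime_card (p := 2) (by rw [Nat.card_congr e.toEquiv, DihedralGroup.nat_card]; rfl)
        · exact Or.inr ⟨n + 1, by omega, ⟨e⟩⟩
      · exfalso
        obtain ⟨k, hk⟩ := IsPGroup.iff_card.1 hQ
        rw [Nat.card_congr e.toEquiv, card_a4] at hk
        have : 3 ∣ 2 ^ k := hk ▸ (by decide)
        exact absurd (Nat.prime_three.dvd_of_dvd_pow this) (by decide)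
    rcases two P P.isPGroup' with h | h
    · exact Or.inl h
    refine Or.inr ⟨h, fun K _ h1 h2 => ?_⟩
    have hKC := comm_of_sq h2
    have hK2 : IsPGroup 2 K := IsPGroup.of_card (n := 2) h1
    have hodd : ∀ g ∈ Subgroup.centralizer (K : Set G), (orderOf g).Coprime 2 → g = 1 := by
      intro g hg hgo
      have hcomm : ∀ x ∈ K ⊔ Subgroup.zpowers g, ∀ y ∈ K ⊔ Subgroup.zpowers g, x * y = y * x := by
        have a1 : K ⊔ Subgroup.zpowers g ≤ Subgroup.centralizer (K : Set G) :=
          sup_le hKC (Subgroup.zpowers_le.2 hg)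
        have a2 : K ⊔ Subgroup.zpowers g ≤ Subgroup.centralizer (Subgroup.zpowers g : Set G) :=
          sup_le (Subgroup.le_centralizer_iff.1 (Subgroup.zpowers_le.2 hg)) (Subgroup.le_centralizer _)
        have a3 : K ⊔ Subgroup.zpowers g ≤ Subgroup.centralizer ((K ⊔ Subgroup.zpowers g : Subgroup G) : Set G) :=
          sup_le (Subgroup.le_centralizer_iff.1 a1) (Subgroup.le_centralizer_iff.1 a2)
        intro x hx y hy
        exact a3 hy x hx
      have hcomm' : ∀ x y : ↥(K ⊔ Subgroup.zpowers g), x * y = y * x :=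
        fun x y => Subtype.ext (hcomm x x.2 y y.2)
      have hnorm : ∀ S : Subgroup ↥(K ⊔ Subgroup.zpowers g), S.Normal := fun S =>
        ⟨fun n hn x => by rwa [hcomm' x n, mul_inv_cancel_right]⟩
      rcases hyp (K ⊔ Subgroup.zpowers g) (fun S => hnorm S) (fun S _ => by
        have hKS : K.subgroupOf (K ⊔ Subgroup.zpowers g) ≤ S := by
          haveI := hnorm (K.subgroupOf (K ⊔ Subgroup.zpowers g))
          exact (CA.AmbSyl.isPGroup_subgroupOf hK2 _).le_sylow_of_normal S
        refine ⟨⟨((⟨g, Subgroup.mem_sup_right (Subgroup.mem_zpowers g)⟩ : ↥(K ⊔ Subgroup.zpowers g)) :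
          _ ⧸ (S : Subgroup ↥(K ⊔ Subgroup.zpowers g))), fun q => ?_⟩⟩
        obtain ⟨⟨y, hy⟩, rfl⟩ := QuotientGroup.mk_surjective q
        have hy' := hy
        rw [← SetLike.mem_coe, sup_comm, Subgroup.coe_mul_of_left_le_normalizer_right _ _
          ((Subgroup.zpowers_le.2 hg).trans (Subgroup.centralizer_le_normalizer _))] at hy'
        obtain ⟨_, ⟨i, rfl⟩, k, hk, rfl⟩ := hy'
        refine ⟨i, ?_⟩
        show _ ^ i = _
        rw [← QuotientGroup.mk_zpow, QuotientGroup.eq]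
        apply hKS
        simpa [Subgroup.mem_subgroupOf] using hk) with h | ⟨n, ⟨e⟩⟩ | ⟨⟨e⟩⟩
      · exact absurd (Subgroup.isCyclic_of_le (le_sup_left : K ≤ K ⊔ Subgroup.zpowers g)) (not_cyc h1 h2)
      · have h3 : orderOf g ∣ 2 ^ (n + 1) := by
          have := orderOf_dvd_natCard (⟨g, Subgroup.mem_sup_right (Subgroup.mem_zpowers g)⟩ : ↥(K ⊔ Subgroup.zpowers g))
          rwa [Subgroup.orderOf_mk, Nat.card_congr e.toEquiv, DihedralGroup.nat_card, ← pow_succ'] at this
        exact orderOf_eq_one_iff.1 (Nat.eq_one_of_dvd_coprimes (hgo.pow_right _) dvd_rfl h3)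
      · exfalso
        refine a4_not_comm fun x y => ?_
        have := congrArg e (hcomm' (e.symm x) (e.symm y))
        simpa using this
    have hC2 : IsPGroup 2 (Subgroup.centralizer (K : Set G)) := by
      refine CA.AmbSyl.isPGroup_iff_mem.2 fun x hx => ?_
      obtain ⟨k, hk⟩ := CA.AmbRes.exists_pow_coprime (p := 2) hx
      exact ⟨k, hodd _ (pow_mem hx _) hk⟩
    rcases two _ hC2 with h | ⟨n, hn, ⟨e⟩⟩
    · exact absurd (Subgroup.isCyclic_of_le hKC) (not_cyc h1 h2)
    · have hnc : ¬ IsCyclic ((K.subgroupOf (Subgroup.centralizer (K : Set G))).map e.toMonoidHom) := by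
        intro h
        apply not_cyc h1 h2
        haveI := isCyclic_of_surjective _ ((K.subgroupOf (Subgroup.centralizer (K : Set G))).equivMapOfInjective e.toMonoidHom e.injective).symm.surjective
        exact isCyclic_of_surjective _ (Subgroup.subgroupOfEquivOfLe hKC).surjective
      obtain ⟨i, y, hy, hyi⟩ := CA.DihSub.exists_sr' hnc
      have h3 : y * e.symm (DihedralGroup.r 1) = e.symm (DihedralGroup.r 1) * y :=
        Subtype.ext ((e.symm (DihedralGroup.r 1)).2 y hy)
      have h4 := congrArg e h3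
      have hyi' : e y = DihedralGroup.sr i := hyi
      rw [map_mul, map_mul, e.apply_symm_apply, hyi'] at h4
      simp only [DihedralGroup.sr_mul_r, DihedralGroup.r_mul_sr, DihedralGroup.sr.injEq] at h4
      have h5 : ((2 : ℕ) : ZMod (2 ^ n)) = 0 := by push_cast; linear_combination h4
      rw [ZMod.natCast_eq_zero_iff] at h5
      have h6 := Nat.le_of_dvd (by norm_num) h5
      refine (Subgroup.eq_of_le_of_card_ge hKC ?_).symm
      rw [Nat.card_congr e.toEquiv, DihedralGroup.nat_card, h1]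
      omega
  · intro hyp H hn hc
    obtain ⟨S⟩ := (inferInstance : Nonempty (Sylow 2 H))
    haveI := hn S
    obtain ⟨q, hq⟩ := (hc S).exists_generator
    obtain ⟨h, rfl⟩ := QuotientGroup.mk_surjective q
    obtain ⟨a, b, -, -, hab, ⟨k, ha⟩, hb⟩ := CA.AmbRes.exists_p_part (p := 2) (Subgroup.mem_top h)
    have haS : a ∈ (S : Subgroup H) :=
      (CA.AmbSyl.sylIn_top S).le_of_norm' (CA.AmbSyl.isPGroup_zpowers ha) le_top
        (by rw [Subgroup.normalizer_eq_top]; exact le_top) (Subgroup.mem_zpowers a)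
    have hgen : (S : Subgroup H) ⊔ Subgroup.zpowers b = ⊤ := by
      rw [eq_top_iff]
      intro y _
      obtain ⟨i, hi⟩ := hq (y : H ⧸ (S : Subgroup H))
      have hh : h ∈ (S : Subgroup H) ⊔ Subgroup.zpowers b :=
        hab ▸ mul_mem (Subgroup.mem_sup_left haS) (Subgroup.mem_sup_right (Subgroup.mem_zpowers b))
      simp only at hi
      rw [← QuotientGroup.mk_zpow, QuotientGroup.eq] at hi
      have : y = h ^ i * ((h ^ i)⁻¹ * y) := by group
      rw [this]
      exact mul_mem (zpow_mem hh i) (Subgroup.mem_sup_left hi)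
    obtain ⟨g, -, hg⟩ := (CA.AmbSyl.sylIn_top P).exists_conj_le (S.isPGroup'.map H.subtype) le_top
    let f : (S : Subgroup H) →* (P : Subgroup G) :=
      (((MulAut.conj g).toMonoidHom.comp H.subtype).comp (S : Subgroup H).subtype).codRestrict _
        (fun y => hg (Subgroup.mem_map_of_mem _ (Subgroup.mem_map_of_mem _ y.2)))
    have hf : Function.Injective f := by
      intro y z hyz
      exact Subtype.ext (Subtype.ext ((MulAut.conj g).injective (congrArg Subtype.val hyz)))
    refine core (S : Subgroup H) S.isPGroup' b (Nat.coprime_two_right.1 hb) hgen ?_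
    rcases hyp with h | ⟨⟨n, hn1, ⟨e⟩⟩, hK⟩
    · exact Or.inl (isCyclic_of_injective f hf)
    rcases sub_dih (by positivity) (e.toMonoidHom.comp f) (e.injective.comp hf) with h | ⟨m, hm, hm'⟩
    · exact Or.inl h
    obtain ⟨j, -, rfl⟩ := (Nat.dvd_prime_pow Nat.prime_two).1 hm
    refine Or.inr ⟨⟨j, hm'⟩, fun K h1 h2 y hy => ?_⟩
    have h1' : Nat.card (K.map H.subtype) = 4 := by
      rw [Subgroup.card_map_of_injective H.subtype_injective, h1]
    obtain ⟨t, -, ht⟩ := (CA.AmbSyl.sylIn_top P).exists_conj_le (IsPGroup.of_card (n := 2) h1') le_top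
    have h3 := hK _ ht (by rw [CA.Amb.card_cj, h1']) (by
      rintro _ ⟨_, ⟨k, hk, rfl⟩, rfl⟩
      rw [← map_pow, ← map_pow, h2 k hk, map_one, map_one])
    have h4 : t * y * t⁻¹ ∈ Subgroup.centralizer (CA.Amb.cj t (K.map H.subtype) : Set G) := by
      rintro _ ⟨_, ⟨k, hk, rfl⟩, rfl⟩
      have := congrArg Subtype.val (hy k hk)
      simp only [Subgroup.coe_mul] at this
      show t * k * t⁻¹ * (t * y * t⁻¹) = t * y * t⁻¹ * (t * k * t⁻¹)
      calc t * k * t⁻¹ * (t * y * t⁻¹) = t * (k * y) * t⁻¹ := by group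
        _ = _ := by rw [this]; group
    rw [h3, CA.Amb.conj_mem_cj] at h4
    obtain ⟨z, hz, hzy⟩ := h4
    rwa [← Subtype.ext hzy]

end Cfsg.Agent.S4083
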