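import Cfsg.Statements.S4082
import Cfsg.Agent.S4083
import Cfsg.Agent.Lib.Grp.FrobCrit

set_option autoImplicit false
open Cfsg

namespace Cfsg.Agent.S4082

open Subgroup CA.BG

variable {G : Type*} [Group G] [Finite G] {p : ℕ}

theorem inv_of [hp : Fact p.Prime] (h2 : p ≠ 2)
    (hyp : ∀ H : Subgroup G, (∀ S : Sylow p ↥H, (S : Subgroup ↥H).Normal) →
        (∀ (S : Sylow p ↥H) [(S : Subgroup ↥H).Normal], IsCyclic (↥H ⧸ (S : Subgroup ↥H))) →
        IsCyclic H ∨ (∃ n : ℕ, Nonempty (H ≃* DihedralGroup (p ^ n))))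
    {Q : Subgroup G} (hQ : IsPGroup p Q) {x : G} (hx : x ∈ 𝓝(Q)) (hx' : x ∉ 𝓒(Q)) :
    orderOf x = 2 ∧ ∀ y ∈ Q, x * y * x⁻¹ = y⁻¹ := by
  have hxH : x ∈ zpowers x ⊔ Q := mem_sup_left (mem_zpowers x)
  have hn : zpowers x ⊔ Q ≤ 𝓝(Q) := sup_le (zpowers_le.2 hx) (le_norm_self Q)
  haveI hQn : (Q.subgroupOf (zpowers x ⊔ Q)).Normal := normal_subgroupOf_of_le_normalizer hn
  have hcyc : ∀ (S : Subgroup ↥(zpowers x ⊔ Q)) [S.Normal], Q.subgroupOf (zpowers x ⊔ Q) ≤ S →
      IsCyclic (↥(zpowers x ⊔ Q) ⧸ S) := by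
    intro S _ hS
    refine ⟨⟨((⟨x, hxH⟩ : ↥(zpowers x ⊔ Q)) : _ ⧸ S), fun q => ?_⟩⟩
    obtain ⟨⟨y, hy⟩, rfl⟩ := QuotientGroup.mk_surjective q
    obtain ⟨_, ⟨i, rfl⟩, k, hk, rfl⟩ := (mem_sup_norm (zpowers_le.2 hx)).1 hy
    refine ⟨i, ?_⟩
    show _ ^ i = _
    rw [← QuotientGroup.mk_zpow, QuotientGroup.eq]
    apply hS
    simpa [Subgroup.mem_subgroupOf] using hk
  have hle : ∀ S : Sylow p ↥(zpowers x ⊔ Q), Q.subgroupOf (zpowers x ⊔ Q) ≤ S := fun S =>
    (CA.AmbSyl.isPGroup_subgroupOf hQ _).le_sylow_of_normal S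
  rcases hyp (zpowers x ⊔ Q) (fun S => ⟨fun n hn h => by
      haveI := hcyc _ le_rfl
      have h3 : ((h * n * h⁻¹ * n⁻¹ : ↥(zpowers x ⊔ Q)) : _ ⧸ Q.subgroupOf (zpowers x ⊔ Q)) = 1 := by
        letI := IsCyclic.commGroup (α := ↥(zpowers x ⊔ Q) ⧸ Q.subgroupOf (zpowers x ⊔ Q))
        simp only [QuotientGroup.mk_mul, QuotientGroup.mk_inv]
        rw [mul_comm (h : _ ⧸ Q.subgroupOf (zpowers x ⊔ Q)) n]; group
      have := mul_mem (hle S ((QuotientGroup.eq_one_iff _).1 h3)) hn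
      rwa [inv_mul_cancel_right] at this⟩) (fun S _ => hcyc _ (hle S)) with h | ⟨n, ⟨e⟩⟩
  · exact absurd (cent_anti le_sup_right (comm_iff_le_cent.1 (comm_of_cyclic h) hxH)) hx'
  have hQr : ∀ y (hy : y ∈ Q), ∃ i, e ⟨y, mem_sup_right hy⟩ = DihedralGroup.r i := by
    intro y hy
    rcases h : e ⟨y, mem_sup_right hy⟩ with i | i
    · exact ⟨i, rfl⟩
    · exfalso
      have h3 := e.orderOf_eq ⟨y, mem_sup_right hy⟩
      rw [h, DihedralGroup.orderOf_sr, Subgroup.orderOf_mk] at h3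
      obtain ⟨k, hk⟩ := CA.AmbSyl.orderOf_eq_pow_of_mem hQ hy
      exact h2 ((Nat.prime_dvd_prime_iff_eq Nat.prime_two hp.out).1
        (Nat.prime_two.dvd_of_dvd_pow (n := k) (by rw [← hk, ← h3]))).symm
  rcases h : e ⟨x, hxH⟩ with j | j
  · exfalso
    refine hx' (mem_cent.2 fun y hy => ?_)
    obtain ⟨i, hi⟩ := hQr y hy
    have : e (⟨y, mem_sup_right hy⟩ * ⟨x, hxH⟩) = e (⟨x, hxH⟩ * ⟨y, mem_sup_right hy⟩) := by
      rw [map_mul, map_mul, h, hi]; simp [add_comm]
    exact congrArg Subtype.val (e.injective this)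
  · refine ⟨?_, fun y hy => ?_⟩
    · have h3 := e.orderOf_eq ⟨x, hxH⟩
      rw [h, DihedralGroup.orderOf_sr, Subgroup.orderOf_mk] at h3
      exact h3.symm
    · obtain ⟨i, hi⟩ := hQr y hy
      have : e (⟨x, hxH⟩ * ⟨y, mem_sup_right hy⟩ * (⟨x, hxH⟩)⁻¹) = e (⟨y, mem_sup_right hy⟩)⁻¹ := by
        rw [map_mul, map_mul, map_inv, map_inv, h, hi]; simp
      exact congrArg Subtype.val (e.injective this)

theorem not_cent_of_inv [hp : Fact p.Prime] (h2 : p ≠ 2) {Q : Subgroup G} (hQ : ♯Q = p) {x : G}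
    (h : ∀ y ∈ Q, x * y * x⁻¹ = y⁻¹) : x ∉ 𝓒(Q) := by
  intro hx
  obtain ⟨y, hy, hy1⟩ := (Subgroup.bot_or_exists_ne_one Q).resolve_left fun h0 => by
    rw [h0, card_bot] at hQ; exact hp.out.one_lt.ne hQ
  have h3 := h y hy
  rw [← mem_cent.1 hx y hy, mul_inv_cancel_right, eq_inv_iff_mul_eq_one, ← sq] at h3
  have h4 : orderOf y ∣ p := hQ ▸ Subgroup.orderOf_dvd_natCard Q hy
  exact hy1 (orderOf_eq_one_iff.1 (Nat.eq_one_of_dvd_coprimes
    ((Nat.coprime_primes Nat.prime_two hp.out).2 (Ne.symm h2)) (orderOf_dvd_of_pow_eq_one h3) h4))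

/-- Let p be an odd prime and G a finite group with Sylow p-subgroup P. Say that G has restricted p-by-cyclic subgroups when every subgroup H of G whose Sylow p-subgroup is normal in H with cyclic quotient is itself cyclic or dihedral of order 2pⁿ for some n. Then G has restricted p-by-cyclic subgroups if and only if P is cyclic and one of the following holds: (1) N_G(P) = C_G(P); or (2) N_G(P)/C_G(P) has order 2 and, for the subgroup Q of order p of P, the centralizer C_G(Q) is abelian and every element of N_G(Q) outside C_G(Q) is an involution inverting every element of C_G(Q). -/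
theorem result {G : Type*} [Group G] [Finite G] {p : ℕ}
    [Fact p.Prime] (hp : p ≠ 2) (P : Sylow p G) :
    (∀ H : Subgroup G, (∀ S : Sylow p ↥H, (S : Subgroup ↥H).Normal) →
        (∀ (S : Sylow p ↥H) [(S : Subgroup ↥H).Normal], IsCyclic (↥H ⧸ (S : Subgroup ↥H))) →
        IsCyclic H ∨ (∃ n : ℕ, Nonempty (H ≃* DihedralGroup (p ^ n)))) ↔
    (IsCyclic P ∧
      (Subgroup.normalizer ((P : Subgroup G) : Set G) = Subgroup.centralizer ((P : Subgroup G) : Set G) ∨
       ((Subgroup.centralizer ((P : Subgroup G) : Set G)).relIndex (Subgroup.normalizer ((P : Subgroup G) : Set G)) = 2 ∧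
        ∀ Q : Subgroup G, Q ≤ P → Nat.card Q = p →
          IsMulCommutative ↥(Subgroup.centralizer (Q : Set G)) ∧
          ∀ x : G, x ∈ Subgroup.normalizer (Q : Set G) → x ∉ Subgroup.centralizer (Q : Set G) →
            orderOf x = 2 ∧ ∀ c : G, c ∈ Subgroup.centralizer (Q : Set G) → x * c * x⁻¹ = c⁻¹))) := by
  have hp' : p.Prime := Fact.out
  constructor
  · intro hyp
    have hS : ∀ S : Sylow p (P : Subgroup G), (S : Subgroup (P : Subgroup G)) = ⊤ := fun S =>
      (S.is_maximal' (P.isPGroup'.to_subgroup ⊤) le_top).symm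
    have hPc : IsCyclic P := by
      rcases hyp P (fun S => by rw [hS S]; infer_instance) (fun S _ => ⟨⟨1, fun q => by
        obtain ⟨y, rfl⟩ := QuotientGroup.mk_surjective q
        have : (y : (P : Subgroup G) ⧸ (S : Subgroup (P : Subgroup G))) = 1 :=
          (QuotientGroup.eq_one_iff y).2 (by rw [hS S]; trivial)
        exact ⟨0, by simp [this]⟩⟩⟩) with h | ⟨n, ⟨e⟩⟩
      · exact h
      · exfalso
        obtain ⟨k, hk⟩ := IsPGroup.iff_card.1 P.isPGroup'
        rw [Nat.card_congr e.toEquiv, DihedralGroup.nat_card] at hk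
        exact hp ((Nat.prime_dvd_prime_iff_eq Nat.prime_two hp').1
          (Nat.prime_two.dvd_of_dvd_pow (hk ▸ dvd_mul_right 2 _))).symm
    refine ⟨hPc, ?_⟩
    by_cases h : 𝓝((P : Subgroup G)) ≤ 𝓒((P : Subgroup G))
    · exact Or.inl (le_antisymm h (cent_le_norm _))
    right
    obtain ⟨t, ht, ht'⟩ := SetLike.not_le_iff_exists.1 h
    have htinv := (inv_of hp hyp P.isPGroup' ht ht').2
    refine ⟨relIndex_eq_two_iff_exists_notMem_and.2 ⟨t, ht, ht', fun b hb => ?_⟩, fun Q hQP hQ => ?_⟩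
    · by_cases hb' : b ∈ 𝓒((P : Subgroup G))
      · exact Or.inr hb'
      · refine Or.inl (mem_cent.2 fun y hy => ?_)
        have h3 := (inv_of hp hyp P.isPGroup' hb hb').2 y⁻¹ (inv_mem hy)
        rw [inv_inv, ← htinv y hy] at h3
        exact (mul_inv_eq_iff_eq_mul.1 (show b * t * y * (b * t)⁻¹ = y from
          Eq.trans (by group) h3)).symm
    · have hQp : IsPGroup p Q := P.isPGroup'.to_le hQP
      have key : ∀ x ∈ 𝓝(Q), x ∉ 𝓒(Q) → orderOf x = 2 ∧ ∀ c ∈ 𝓒(Q), x * c * x⁻¹ = c⁻¹ := by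
        intro x hx hx'
        have h3 := (inv_of hp hyp hQp hx hx').1
        refine ⟨h3, fun c hc => ?_⟩
        have h4 := (inv_of hp hyp hQp (mul_mem hx (cent_le_norm _ hc)) fun h =>
          hx' (by simpa using mul_mem h (inv_mem hc))).1
        have h5 : x * x = 1 := by rw [← sq, ← h3, pow_orderOf_eq_one]
        have h6 : x * c * (x * c) = 1 := by rw [← sq, ← h4, pow_orderOf_eq_one]
        rw [← eq_inv_iff_mul_eq_one] at h5
        rw [eq_inv_iff_mul_eq_one, ← h5, mul_assoc, h6]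
      refine ⟨comm_iff_le_cent.2 fun a ha => mem_cent.2 fun b hb => ?_, key⟩
      have h3 := (key t (norm_le_norm_of_cyc hPc hQP ht)
        (not_cent_of_inv hp hQ fun y hy => htinv y (hQP hy))).2
      have h4 := h3 _ (mul_mem ha hb)
      rw [show t * (a * b) * t⁻¹ = (t * a * t⁻¹) * (t * b * t⁻¹) by group, h3 a ha, h3 b hb,
        ← mul_inv_rev, inv_inj] at h4
      exact h4
  · rintro ⟨hPc, hyp⟩ H hn hc
    obtain ⟨S⟩ := (inferInstance : Nonempty (Sylow p H))
    haveI := hn S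
    obtain ⟨q, hq⟩ := (hc S).exists_generator
    obtain ⟨h, rfl⟩ := QuotientGroup.mk_surjective q
    obtain ⟨a, b, -, -, hab, ⟨k, ha⟩, hb⟩ := CA.AmbRes.exists_p_part (p := p) (Subgroup.mem_top h)
    have haS : a ∈ (S : Subgroup H) :=
      (CA.AmbSyl.sylIn_top S).le_of_norm' (CA.AmbSyl.isPGroup_zpowers ha) le_top
        (by rw [Subgroup.normalizer_eq_top]; exact le_top) (Subgroup.mem_zpowers a)
    have hgen : (S : Subgroup H) ⊔ Subgroup.zpowers b = ⊤ := by
      rw [eq_top_iff]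
      intro y _
      obtain ⟨i, hi⟩ := hq (y : H ⧸ (S : Subgroup H))
      have hh : h ∈ (S : Subgroup H) ⊔ Subgroup.zpowers b :=
        hab ▸ mul_mem (Subgroup.mem_sup_left haS) (Subgroup.mem_sup_right (Subgroup.mem_zpowers b))
      simp only at hi
      rw [← QuotientGroup.mk_zpow, QuotientGroup.eq] at hi
      have : y = h ^ i * ((h ^ i)⁻¹ * y) := by group
      rw [this]
      exact mul_mem (zpow_mem hh i) (Subgroup.mem_sup_left hi)
    set T := (S : Subgroup H).map H.subtype with hT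
    have hTp : IsPi {p} T := isPi_of_isPGroup hp' (S.isPGroup'.map _)
    have hH : T ⊔ zpowers (b : G) = H := by
      have := congrArg (Subgroup.map H.subtype) hgen
      rwa [Subgroup.map_sup, MonoidHom.map_zpowers, ← MonoidHom.range_eq_map, range_subtype] at this
    have hbT : (b : G) ∈ 𝓝(T) := CA.Rad.le_normalizer_map_subtype _ b.2
    have hcop : (♯T).Coprime ♯(zpowers (b : G)) := by
      obtain ⟨m, hm⟩ := IsPGroup.iff_card.1 (hTp.isPGroup hp')
      rw [hm, Nat.card_zpowers, Subgroup.orderOf_coe]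
      exact (hb.symm).pow_left m
    obtain ⟨g, -, hg⟩ := (syl_top hp' P).syl_le_conj hp' hTp le_top
    have hTc : IsCyclic T := cyc_of_le ((isCyclic_cj g).2 hPc) hg
    by_cases hbc : (b : G) ∈ 𝓒(T)
    · left
      rw [← hH]
      exact cyc_sup_of_cop hTc (cyc_zpowers _) (cent_symm (zpowers_le.2 hbc)) hcop
    right
    have hT0 : T ≠ ⊥ := fun h => hbc (by rw [h]; exact cent_symm bot_le (mem_top _))
    rcases hyp with hyp | ⟨-, hyp⟩
    · exfalso
      have h1 : Syl p (cj g P) 𝓒(T) := (((syl_top hp' P).cj_mem (mem_top g))).of_le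
        ((comm_iff_le_cent.1 (comm_of_cyclic ((isCyclic_cj g).2 hPc))).trans (cent_anti hg)) le_top
      obtain ⟨c, hc, y, hy, hcy⟩ := h1.syl_frattini hp' (norm_cent (zpowers_le.2 hbT) (mem_zpowers _))
      rw [← cj_norm, hyp, cj_cent] at hy
      exact hbc (hcy ▸ mul_mem hc (cent_anti hg hy))
    · obtain ⟨z, hz, hzo⟩ := CA.AmbSyl.exists_orderOf_eq_of_ne_bot (hTp.isPGroup hp') hT0
      have hzT : zpowers z ≤ T := zpowers_le.2 hz
      have h1 : (b : G) ∉ 𝓒(zpowers z) := fun h => hbc (coprime_cyc_cent (zpowers_le.2 hbT) hcop hTc hTp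
        (fun h0 => by
          have : z ∈ T ⊓ 𝓒(zpowers (b : G)) := ⟨hz, cent_symm (zpowers_le.2 h) (mem_zpowers z)⟩
          rw [h0, mem_bot] at this
          rw [this, orderOf_one] at hzo
          exact hp'.one_lt.ne hzo) (mem_zpowers _))
      obtain ⟨h2, h3⟩ := (hyp (cj g⁻¹ (zpowers z)) (le_cj_iff.1 (hzT.trans hg))
        (by rw [card_cj, Nat.card_zpowers, hzo])).2 (g⁻¹ * b * g⁻¹⁻¹)
        (by rw [← cj_norm]; exact conj_mem_cj.2 (norm_le_norm_of_cyc hTc hzT hbT))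
        (by rw [← cj_cent, conj_mem_cj]; exact h1)
      obtain ⟨a, ha⟩ := exists_zpowers_of_cyc hTc
      have haT : a ∈ T := ha ▸ mem_zpowers a
      obtain ⟨n, hn⟩ := CA.AmbSyl.orderOf_eq_pow_of_mem (hTp.isPGroup hp') haT
      have h4 := h3 (g⁻¹ * a * g⁻¹⁻¹) (by
        rw [← cj_cent, conj_mem_cj]
        exact cent_anti hzT (comm_iff_le_cent.1 (comm_of_cyclic hTc) haT))
      have h5 : (b : G) * a * (b : G)⁻¹ = a⁻¹ := by
        have := congrArg (fun w => g * w * g⁻¹) h4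
        simpa [mul_assoc] using this
      have h6 : (b : G) ^ 2 = 1 := by
        have := pow_orderOf_eq_one (g⁻¹ * b * g⁻¹⁻¹)
        rwa [h2, conj_pow, conj_eq_one_iff] at this
      refine ⟨n, ?_⟩
      rw [← hH, ← ha]
      exact CA.PGDihedral.nonempty_subgroup_mulEquiv_dihedral hn
        (fun h => hbc (comm_iff_le_cent.1 (comm_of_cyclic hTc) (ha ▸ h))) h6 h5

end Cfsg.Agent.S4082
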