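import Cfsg.Statements.S4084
import Cfsg.Agent.Lib.Odd.BGMisc

set_option autoImplicit false
open Cfsg

namespace Cfsg.Agent.S4084

open CA.BG CA.OQuo Subgroup

theorem aux {G H : Type*} [Group G] [Finite G] [Group H] [Finite H] (e : G ≃ H)
    (he : ∀ x y : G, Commute x y ↔ Commute (e x) (e y))
    {p q : ℕ} (hp : p.Prime) (hq : q.Prime) (hpq : p ≠ q) :
    (∃ g : G, orderOf g = p * q) → (∃ h : H, orderOf h = p * q) := by
  rintro ⟨g, hg⟩
  obtain ⟨A, h1, h2, h3⟩ := exists_maximal_ge (P := fun A : Subgroup G => IsMulCommutative A)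
    (comm_of_cyclic (cyc_zpowers g))
  have hA : ∀ x, x ∈ A ↔ ∀ a ∈ A, Commute a x := by
    refine fun x => ⟨fun hx a ha => mem_cent.1 (comm_iff_le_cent.1 h2 hx) a ha, fun hx => ?_⟩
    have := h3 (zpowers x ⊔ A) (comm_sup (comm_of_cyclic (cyc_zpowers x)) h2
      (zpowers_le_iff.2 (mem_cent.2 hx))) le_sup_right
    exact this ▸ mem_sup_left (mem_zpowers x)
  have hB : ∀ x, e x ∈ centralizer (e '' A) ↔ x ∈ A := by
    intro x
    rw [hA, mem_centralizer_iff]
    exact ⟨fun h a ha => (he _ _).2 (h _ ⟨a, ha, rfl⟩), by rintro h _ ⟨a, ha, rfl⟩; exact (he _ _).1 (h a ha)⟩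
  have hc : ♯(centralizer (e '' A)) = ♯A :=
    (Nat.card_congr (e.subtypeEquiv (p := (· ∈ A)) (q := (· ∈ centralizer (e '' A))) fun x => (hB x).symm)).symm
  have hd : p * q ∣ ♯(centralizer (e '' A)) := by
    rw [hc, ← hg]; exact orderOf_dvd_card_of_mem (h1 (mem_zpowers g))
  obtain ⟨x, hx, ox⟩ := exists_orderOf_eq hp ((dvd_mul_right p q).trans hd)
  obtain ⟨y, hy, oy⟩ := exists_orderOf_eq hq ((dvd_mul_left q p).trans hd)
  obtain ⟨x, rfl⟩ := e.surjective x
  have hxy : Commute (e x) y := mem_centralizer_iff.1 hy _ ⟨x, (hB x).1 hx, rfl⟩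
  exact ⟨e x * y, by
    rw [hxy.orderOf_mul_eq_mul_orderOf_of_coprime (by rw [ox, oy]; exact (Nat.coprime_primes hp hq).2 hpq), ox, oy]⟩

/-- Let G and H be finite groups whose commuting graphs are isomorphic: there is a bijection e : G → H with x, y commuting exactly when e(x), e(y) commute. Then G and H have the same prime graph: for distinct primes p, q, G has an element of order pq if and only if H does (and #G = #H, so the prime divisors agree). -/
theorem result {G H : Type*} [Group G] [Finite G] [Group H] [Finite H] (e : G ≃ H)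
    (he : ∀ x y : G, Commute x y ↔ Commute (e x) (e y))
    {p q : ℕ} (hp : p.Prime) (hq : q.Prime) (hpq : p ≠ q) :
    (∃ g : G, orderOf g = p * q) ↔ (∃ h : H, orderOf h = p * q) := by
  refine ⟨aux e he hp hq hpq, aux e.symm (fun x y => ?_) hp hq hpq⟩
  rw [he]; simp

end Cfsg.Agent.S4084
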