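import Cfsg.Statements.S4085
import Mathlib.GroupTheory.SpecificGroups.Cyclic
import Mathlib.GroupTheory.Perm.Cycle.Type
import Mathlib.Tactic

set_option autoImplicit false
open Cfsg

namespace Cfsg.Agent.S4085

open Subgroup Finset

section aux
variable {K : Type*} [Group K]

def Adj (x y : K) : Prop := x ∈ zpowers y ∨ y ∈ zpowers x

def PP (n : ℕ) : Prop := ∀ s t : ℕ, s.Prime → t.Prime → s ∣ n → t ∣ n → s = t

theorem adj_refl (x : K) : Adj x x := Or.inl (mem_zpowers x)

theorem Adj.dvd {x y : K} (h : Adj x y) : orderOf x ∣ orderOf y ∨ orderOf y ∣ orderOf x :=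
  h.imp orderOf_dvd_of_mem_zpowers orderOf_dvd_of_mem_zpowers

open Classical in
noncomputable def S [Fintype K] (x : K) (k : ℕ) : Finset K :=
  univ.filter (fun y => y ∈ zpowers x ∧ orderOf y = k)

theorem mem_S [Fintype K] {x y : K} {k : ℕ} : y ∈ S x k ↔ y ∈ zpowers x ∧ orderOf y = k := by
  classical
  simp [S]

theorem card_S [Fintype K] (x : K) {k : ℕ} (h : k ∣ orderOf x) : (S x k).card = k.totient := by
  classical
  have h1 : k ∣ Fintype.card (zpowers x) := by rwa [Fintype.card_zpowers]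
  rw [← IsCyclic.card_orderOf_eq_totient h1]
  symm
  refine card_bij (fun a _ => (a : K)) ?_ ?_ ?_
  · intro a ha
    simp only [mem_filter, mem_univ, true_and] at ha
    exact mem_S.2 ⟨a.2, by rw [← ha, Subgroup.orderOf_coe]⟩
  · intro a _ b _ e; exact Subtype.ext e
  · intro b hb
    obtain ⟨h1, h2⟩ := mem_S.1 hb
    exact ⟨⟨b, h1⟩, by simp [← h2], rfl⟩

theorem mem_of_dvd [Fintype K] {x a b : K} (ha : a ∈ zpowers x) (hb : b ∈ zpowers x)
    (h : orderOf a ∣ orderOf b) : a ∈ zpowers b := by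
  have h1 : S b (orderOf a) ⊆ S x (orderOf a) := fun y hy =>
    mem_S.2 ⟨(zpowers_le.2 hb) (mem_S.1 hy).1, (mem_S.1 hy).2⟩
  have h2 := eq_of_subset_of_card_le h1 (by
    rw [card_S _ h, card_S _ (orderOf_dvd_of_mem_zpowers ha)])
  have : a ∈ S x (orderOf a) := mem_S.2 ⟨ha, rfl⟩
  rw [← h2] at this
  exact (mem_S.1 this).1

theorem adj_iff [Fintype K] {x a b : K} (ha : a ∈ zpowers x) (hb : b ∈ zpowers x) :
    Adj a b ↔ orderOf a ∣ orderOf b ∨ orderOf b ∣ orderOf a :=
  ⟨Adj.dvd, fun h => h.imp (mem_of_dvd ha hb) (mem_of_dvd hb ha)⟩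

theorem exists_ord [Fintype K] (x : K) {k : ℕ} (h : k ∣ orderOf x) :
    ∃ y ∈ zpowers x, orderOf y = k :=
  ⟨x ^ (orderOf x / k), pow_mem (mem_zpowers x) _,
    orderOf_pow_orderOf_div (orderOf_pos x).ne' h⟩

theorem pp_dvd {a b n : ℕ} (h : PP n) (hn : n ≠ 0) (ha : a ∣ n) (hb : b ∣ n) : a ∣ b ∨ b ∣ a := by
  by_cases h1 : n = 1
  · subst h1; left; rw [Nat.dvd_one.1 ha]; exact one_dvd _
  obtain ⟨s, hs, hsn⟩ := Nat.exists_prime_and_dvd h1
  have : n = s ^ n.primeFactorsList.length :=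
    Nat.eq_prime_pow_of_unique_prime_dvd hn (fun {d} hd hdn => h d s hd hs hdn hsn)
  rw [this] at ha hb
  obtain ⟨i, -, rfl⟩ := (Nat.dvd_prime_pow hs).1 ha
  obtain ⟨j, -, rfl⟩ := (Nat.dvd_prime_pow hs).1 hb
  exact (le_total i j).imp (pow_dvd_pow s) (pow_dvd_pow s)

theorem nt1 {d e : ℕ} (he : e ≠ 0) (h1 : d ∣ e) (h2 : ¬ e ∣ d) (h3 : d ≠ 1)
    (h : ∀ k, k ∣ e → k ∣ d ∨ d ∣ k) : PP e := by
  have hd : d ≠ 0 := fun h0 => he (by subst h0; exact zero_dvd_iff.1 h1)
  obtain ⟨s, hs, hlt⟩ : ∃ s, s.Prime ∧ ¬ s ^ e.factorization s ∣ d := by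
    by_contra hc
    push Not at hc
    exact h2 ((Nat.dvd_iff_prime_pow_dvd_dvd d e).2 fun p k hp hk =>
      (pow_dvd_pow p ((hp.pow_dvd_iff_le_factorization he).1 hk)).trans (hc p hp))
  have h4 := (h _ (Nat.ordProj_dvd e s)).resolve_left hlt
  obtain ⟨i, -, hi⟩ := (Nat.dvd_prime_pow hs).1 h4
  have hsd : s ∣ d := by
    rw [hi]; refine dvd_pow_self s ?_
    rintro rfl; exact h3 (by simpa using hi)
  have key : ∀ t, t.Prime → t ∣ e → t = s := by
    intro t ht hte
    rcases h t hte with h5 | h5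
    · rw [hi] at h5
      exact (Nat.prime_dvd_prime_iff_eq ht hs).1 (ht.dvd_of_dvd_pow h5)
    · exact ((Nat.prime_dvd_prime_iff_eq hs ht).1 (hsd.trans h5)).symm
  intro a b ha hb hae hbe
  rw [key a ha hae, key b hb hbe]

theorem nt2 {d e m : ℕ} (hm : m ≠ 0) (h1 : d ∣ e) (h1' : e ∣ m) (h3 : d ≠ 1) (hp : ¬ PP m)
    (h : ∀ k, k ∣ m → ((k ∣ d ∨ d ∣ k) ↔ (k ∣ e ∨ e ∣ k))) : e ∣ d := by
  by_contra h2
  have he : e ≠ 0 := fun h0 => hm (by subst h0; exact zero_dvd_iff.1 h1')
  have h4 := nt1 he h1 h2 h3 (fun k hk => (h k (hk.trans h1')).2 (Or.inl hk))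
  obtain ⟨t, ht, htm, hte⟩ : ∃ t, t.Prime ∧ t ∣ m ∧ ¬ t ∣ e := by
    by_contra hc
    push Not at hc
    exact hp fun a b ha hb ham hbm => h4 a b ha hb (hc a ha ham) (hc b hb hbm)
  have c1 : e.Coprime t := ((Nat.Prime.coprime_iff_not_dvd ht).2 hte).symm
  have c2 : d.Coprime t := c1.coprime_dvd_left h1
  rcases (h (d * t) (c2.mul_dvd_of_dvd_of_dvd (h1.trans h1') htm)).1 (Or.inr (dvd_mul_right _ _))
    with h5 | h5
  · exact hte ((dvd_mul_left _ _).trans h5)
  · exact h2 (c1.dvd_of_dvd_mul_right h5)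

theorem twin [Fintype K] {x w c : K} (hp : ¬ PP (orderOf x)) (hw : w ∈ zpowers x)
    (hc : c ∈ zpowers x) (w1 : w ≠ 1) (c1 : c ≠ 1) (h : ∀ y ∈ zpowers x, Adj y w ↔ Adj y c) :
    orderOf w = orderOf c := by
  have key : ∀ k, k ∣ orderOf x → ((k ∣ orderOf w ∨ orderOf w ∣ k) ↔ (k ∣ orderOf c ∨ orderOf c ∣ k)) := by
    intro k hk
    obtain ⟨y, hy, rfl⟩ := exists_ord x hk
    rw [← adj_iff hy hw, ← adj_iff hy hc, h y hy]
  have h0 := (orderOf_pos x).ne'
  rcases ((h w hw).1 (adj_refl w)).dvd with h1 | h1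
  · exact Nat.dvd_antisymm h1 (nt2 h0 h1 (orderOf_dvd_of_mem_zpowers hc)
      (by rwa [Ne, orderOf_eq_one_iff]) hp key)
  · exact Nat.dvd_antisymm (nt2 h0 h1 (orderOf_dvd_of_mem_zpowers hw)
      (by rwa [Ne, orderOf_eq_one_iff]) hp (fun k hk => (key k hk).symm)) h1

theorem nt3 {d : ℕ} (h0 : d ≠ 0) (h1 : d ≠ 1) (h : PP d) (h2 : d.totient ^ 2 ≤ d - 1) : d = 2 := by
  obtain ⟨s, hs, hsn⟩ := Nat.exists_prime_and_dvd h1
  have : d = s ^ d.primeFactorsList.length :=
    Nat.eq_prime_pow_of_unique_prime_dvd h0 (fun {a} hd hdn => h a s hd hs hdn hsn)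
  generalize d.primeFactorsList.length = r at this
  subst this
  obtain _ | r := r
  · simp at h1
  rw [Nat.totient_prime_pow_succ hs, pow_succ s r] at h2
  have s2 := hs.two_le
  obtain ⟨u, rfl⟩ : ∃ u, s = u + 1 := ⟨s - 1, by omega⟩
  simp only [Nat.add_sub_cancel] at h2
  obtain _ | r := r
  · simp at h2 ⊢
    nlinarith
  · exfalso
    have h3 : u + 1 ≤ (u + 1) ^ (r + 1) := Nat.le_self_pow (by omega) _
    generalize (u + 1) ^ (r + 1) = t at h2 h3
    have h4 : t * (u + 1) ≤ t * t := Nat.mul_le_mul_left _ h3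
    have h5 : t * t ≤ (t * u) ^ 2 := by
      rw [sq]; exact Nat.mul_le_mul (Nat.le_mul_of_pos_right _ (by omega)) (Nat.le_mul_of_pos_right _ (by omega))
    have h6 : 0 < t * (u + 1) := Nat.mul_pos (by omega) (by omega)
    omega

theorem adj_of_gen [Fintype K] {y w : K} (h : w ∈ S y (orderOf y)) (z : K) : Adj z w ↔ Adj z y := by
  obtain ⟨h1, h2⟩ := mem_S.1 h
  have h3 : y ∈ zpowers w := mem_of_dvd (mem_zpowers y) h1 h2.symm.dvd
  have h4 : zpowers w = zpowers y := le_antisymm (zpowers_le.2 h1) (zpowers_le.2 h3)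
  unfold Adj
  rw [h4, ← zpowers_le (g := w), ← zpowers_le (g := y) (H := zpowers z), h4]

end aux

theorem main {G H : Type*} [Group G] [Finite G] [Group H] [Finite H] (e : G ≃ H)
    (he : ∀ x y : G, Adj x y ↔ Adj (e x) (e y))
    {p q : ℕ} (hp : p.Prime) (hq : q.Prime) (hpq : p ≠ q) (g : G) (hg : orderOf g = p * q) :
    ∃ h : H, p * q ∣ orderOf h := by
  classical
  have := Fintype.ofFinite G
  have := Fintype.ofFinite H
  have cpq : p.Coprime q := (Nat.coprime_primes hp hq).2 hpq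
  by_cases hA : ∃ z : H, z ≠ 1 ∧ ∀ y, Adj y z
  · obtain ⟨z, z1, hz⟩ := hA
    have key : ∀ r, r.Prime → r ∣ p * q → r ∣ orderOf z := by
      intro r hr h1
      have := Fact.mk hr
      have h2 : r ∣ Fintype.card H := by
        rw [← Fintype.card_congr e]; exact (hg ▸ h1).trans orderOf_dvd_card
      obtain ⟨a, ha⟩ := exists_prime_orderOf_dvd_card r h2
      rcases (hz a).dvd with h3 | h3
      · exact ha ▸ h3
      · rw [ha] at h3
        rcases (Nat.dvd_prime hr).1 h3 with h4 | h4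
        · exact absurd (orderOf_eq_one_iff.1 h4) z1
        · exact h4.symm.dvd
    exact ⟨z, cpq.mul_dvd_of_dvd_of_dvd (key p hp (dvd_mul_right _ _)) (key q hq (dvd_mul_left _ _))⟩
  have e1 : e 1 = 1 := by
    by_contra h
    refine hA ⟨e 1, h, fun y => ?_⟩
    obtain ⟨y, rfl⟩ := e.surjective y
    exact (he y 1).1 (Or.inr (one_mem _))
  have ne1 : ∀ {c : G}, c ≠ 1 → e c ≠ 1 := fun h h' => h (e.injective (h'.trans e1.symm))
  have ne1' : ∀ {c : G}, e c ≠ 1 → c ≠ 1 := fun h h' => h (h' ▸ e1)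
  obtain ⟨x0, hx0, hmax⟩ := exists_max_image (univ.filter fun x : G => g ∈ zpowers x) orderOf
    ⟨g, by simp⟩
  simp only [mem_filter, mem_univ, true_and] at hx0 hmax
  obtain ⟨x, hx, hmx⟩ := exists_max_image (S x0 (orderOf x0)) (fun x => orderOf (e x))
    ⟨x0, mem_S.2 ⟨mem_zpowers _, rfl⟩⟩
  obtain ⟨hx1, hx2⟩ := mem_S.1 hx
  have hx3 : x0 ∈ zpowers x := mem_of_dvd (mem_zpowers x0) hx1 hx2.symm.dvd
  have hz : zpowers x = zpowers x0 := le_antisymm (zpowers_le.2 hx1) (zpowers_le.2 hx3)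
  have hSS : S x0 (orderOf x0) = S x (orderOf x) := by
    ext y; rw [mem_S, mem_S, hz, hx2]
  rw [hSS] at hmx
  have hgx : g ∈ zpowers x := hz ▸ hx0
  have hN : ∀ y, Adj y x ↔ y ∈ zpowers x := by
    intro y
    refine ⟨fun h => h.elim id fun h => ?_, Or.inl⟩
    have h1 := hmax y (zpowers_le.2 h hgx)
    refine mem_of_dvd (mem_zpowers y) h ?_
    rw [Nat.eq_of_dvd_of_lt_two_mul (orderOf_pos y).ne' (orderOf_dvd_of_mem_zpowers h)
      (by have := orderOf_pos x; omega)]
  have hpqm : p * q ∣ orderOf x := hg ▸ orderOf_dvd_of_mem_zpowers hgx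
  set m := orderOf x with hm
  have hPP : ¬ PP m := fun h =>
    hpq (h p q hp hq ((dvd_mul_right _ _).trans hpqm) ((dvd_mul_left _ _).trans hpqm))
  have x1 : x ≠ 1 := by
    intro h
    rw [hm, h, orderOf_one] at hPP
    exact hPP fun s t hs _ h1 _ => absurd (Nat.dvd_one.1 h1) hs.ne_one
  have m0 : m ≠ 0 := (orderOf_pos x).ne'
  set x' := e x with hx'
  set d := orderOf x' with hd
  have d0 : d ≠ 0 := (orderOf_pos _).ne'
  have d1 : d ≠ 1 := by rw [hd, Ne, orderOf_eq_one_iff]; exact ne1 x1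
  -- generators of `y = e c` come from elements of the same order as `c`
  have hT : ∀ c ∈ zpowers x, c ≠ 1 → ∀ w ∈ S (e c) (orderOf (e c)), e.symm w ∈ S x (orderOf c) := by
    intro c hc c1 w hw
    obtain ⟨w, rfl⟩ := e.surjective w
    rw [e.symm_apply_apply]
    have h1 : ∀ y, Adj y w ↔ Adj y c := fun y => by rw [he, he, adj_of_gen hw]
    have h2 : w ∈ zpowers x := by
      rw [← hN]
      have := (h1 x).2 (Or.inr hc)
      exact this.symm
    refine mem_S.2 ⟨h2, twin hPP h2 hc (ne1' ?_) c1 fun y _ => h1 y⟩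
    intro h
    have := (mem_S.1 hw).2
    rw [h, orderOf_one, eq_comm, orderOf_eq_one_iff] at this
    exact ne1 c1 this
  have hTle : ∀ c ∈ zpowers x, c ≠ 1 → (orderOf (e c)).totient ≤ (orderOf c).totient := by
    intro c hc c1
    rw [← card_S (e c) dvd_rfl, ← card_S x (orderOf_dvd_of_mem_zpowers hc)]
    exact card_le_card_of_injOn e.symm (hT c hc c1) (e.symm.injective.injOn)
  have hgen : ∀ c ∈ S x m, e c ∈ zpowers x' ∧ e c ≠ 1 ∧ ∀ y, Adj y (e c) ↔ Adj y x' := by
    intro c hc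
    have c1 : c ≠ 1 := by
      intro h
      have := (mem_S.1 hc).2
      rw [h, orderOf_one, eq_comm, hm, orderOf_eq_one_iff] at this
      exact x1 this
    have h1 : ∀ y, Adj y (e c) ↔ Adj y x' := by
      intro y
      obtain ⟨y, rfl⟩ := e.surjective y
      rw [← he, ← he, adj_of_gen hc]
    refine ⟨?_, ne1 c1, h1⟩
    rcases (h1 (e c)).1 (adj_refl _) with h | h
    · exact h
    · refine mem_of_dvd (mem_zpowers _) h ?_
      have := hmx c hc
      rw [Nat.eq_of_dvd_of_lt_two_mul (orderOf_pos (e c)).ne' (orderOf_dvd_of_mem_zpowers h)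
        (by have := orderOf_pos x'; omega)]
  have hout : ∀ c ∈ zpowers x, e c ∉ zpowers x' → x' ∈ zpowers (e c) ∧ d.totient ≤ (orderOf c).totient := by
    intro c hc h
    have h1 := ((he c x).1 (Or.inl hc)).resolve_left h
    have c1 : c ≠ 1 := ne1' fun h' => h (h' ▸ one_mem _)
    exact ⟨h1, (Nat.le_of_dvd (Nat.totient_pos.2 (orderOf_pos _))
      (Nat.totient_dvd_of_dvd (orderOf_dvd_of_mem_zpowers h1))).trans (hTle c hc c1)⟩
  have mpos : 0 < m.totient := Nat.totient_pos.2 (orderOf_pos _)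
  by_cases hd' : PP d
  · exfalso
    obtain ⟨a, ha, oa⟩ := exists_ord x ((dvd_mul_right _ _).trans hpqm)
    obtain ⟨b, hb, ob⟩ := exists_ord x ((dvd_mul_left _ _).trans hpqm)
    have nab : ¬ Adj a b := by
      intro h
      have := h.dvd
      rw [oa, ob, Nat.prime_dvd_prime_iff_eq hp hq, Nat.prime_dvd_prime_iff_eq hq hp] at this
      exact this.elim hpq fun h => hpq h.symm
    have k : ∀ a ∈ zpowers x, ∀ b ∈ zpowers x, ¬ Adj a b → e a ∉ zpowers x' := by
      intro a ha b hb nab h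
      apply nab
      rw [he]
      rcases (he b x).1 (Or.inl hb) with h1 | h1
      · exact (adj_iff h h1).2 (pp_dvd hd' d0 (orderOf_dvd_of_mem_zpowers h)
          (orderOf_dvd_of_mem_zpowers h1))
      · exact Or.inl (zpowers_le.2 h1 h)
    have h1 := (hout a ha (k a ha b hb nab)).2
    have h2 := (hout b hb (k b hb a ha fun h => nab h.symm)).2
    rw [oa] at h1; rw [ob] at h2
    have h3 : (p * q).totient ≤ m.totient := Nat.le_of_dvd mpos (Nat.totient_dvd_of_dvd hpqm)
    have h4 : m.totient ≤ d - 1 := by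
      rw [← card_S x dvd_rfl]
      have : d - 1 = ((univ.filter fun y => y ∈ zpowers x').erase 1).card := by
        rw [card_erase_of_mem (by simp), hd, ← Fintype.card_zpowers, Fintype.card_subtype]
      rw [this]
      refine card_le_card_of_injOn e (fun c hc => ?_) e.injective.injOn
      simp only [coe_erase, coe_filter, mem_univ, true_and, Set.mem_diff, Set.mem_setOf_eq,
        Set.mem_singleton_iff]
      exact ⟨(hgen c hc).1, (hgen c hc).2.1⟩
    rw [Nat.totient_mul cpq] at h3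
    have h5 := nt3 d0 d1 hd' (by rw [sq]; exact (Nat.mul_le_mul h1 h2).trans (h3.trans h4))
    rw [Nat.totient_prime hp, Nat.totient_prime hq] at h3
    rw [h5] at h4
    have p2 := hp.two_le
    have q2 := hq.two_le
    have h6 : (p - 1) * (q - 1) ≤ 1 := h3.trans h4
    obtain ⟨u, rfl⟩ : ∃ u, p = u + 2 := ⟨p - 2, by omega⟩
    obtain ⟨v, rfl⟩ : ∃ v, q = v + 2 := ⟨q - 2, by omega⟩
    change (u + 1) * (v + 1) ≤ 1 at h6
    have : u = 0 := by nlinarith
    have : v = 0 := by nlinarith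
    omega
  have hle : m.totient ≤ d.totient := by
    rw [← card_S x dvd_rfl, ← card_S x' dvd_rfl]
    refine card_le_card_of_injOn e (fun c hc => ?_) e.injective.injOn
    obtain ⟨h1, h2, h3⟩ := hgen c hc
    exact mem_S.2 ⟨h1, twin hd' h1 (mem_zpowers _) h2 (ne1 x1) fun y _ => h3 y⟩
  have hsub : ∀ y ∈ zpowers x', e.symm y ∈ zpowers x := by
    intro y hy
    rw [← hN, he, e.apply_symm_apply]; exact Or.inl hy
  set A := univ.filter fun c => c ∈ zpowers x ∧ e c ∉ zpowers x' with hAdef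
  have hcard : m = d + A.card := by
    have h1 : m = (univ.filter fun y => y ∈ zpowers x).card := by
      rw [hm, ← Fintype.card_zpowers, Fintype.card_subtype]
    have h2 : d = (univ.filter fun c => c ∈ zpowers x ∧ e c ∈ zpowers x').card := by
      rw [hd, ← Fintype.card_zpowers, Fintype.card_subtype]
      refine card_bij (fun y _ => e.symm y) ?_ ?_ ?_
      · intro y hy
        simp only [mem_filter, mem_univ, true_and] at hy ⊢
        exact ⟨hsub y hy, by rwa [e.apply_symm_apply]⟩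
      · intro a _ b _ h; exact e.symm.injective h
      · intro c hc
        simp only [mem_filter, mem_univ, true_and] at hc ⊢
        exact ⟨e c, hc.2, e.symm_apply_apply c⟩
    rw [h1, h2, hAdef, ← filter_filter, ← filter_filter, card_filter_add_card_filter_not]
  rcases A.eq_empty_or_nonempty with hA0 | ⟨c, hc⟩
  · rw [hA0, card_empty, add_zero] at hcard
    exact ⟨x', by rw [← hd, ← hcard]; exact hpqm⟩
  exfalso
  have k2 : ∀ c ∈ A, 2 * orderOf c = m ∧ (orderOf c).totient = m.totient := by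
    intro c hc
    simp only [hAdef, mem_filter, mem_univ, true_and] at hc
    have h1 := (hout c hc.1 hc.2).2
    have h2 := orderOf_dvd_of_mem_zpowers hc.1
    have h3 : (orderOf c).totient = m.totient :=
      le_antisymm (Nat.le_of_dvd mpos (Nat.totient_dvd_of_dvd h2)) (hle.trans h1)
    refine ⟨(Nat.eq_or_eq_of_totient_eq_totient h2 h3).resolve_left fun h => ?_, h3⟩
    exact hc.2 (hgen c (mem_S.2 ⟨hc.1, h⟩)).1
  obtain ⟨k3, k4⟩ := k2 c hc
  have hc' := hc
  simp only [hAdef, mem_filter, mem_univ, true_and] at hc'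
  obtain ⟨h1, h2⟩ := hout c hc'.1 hc'.2
  have c1 : c ≠ 1 := ne1' fun h' => hc'.2 (h' ▸ one_mem _)
  have h3 := hTle c hc'.1 c1
  have h4 := orderOf_dvd_of_mem_zpowers h1
  have h5 : d.totient ≤ (orderOf (e c)).totient :=
    Nat.le_of_dvd (Nat.totient_pos.2 (orderOf_pos _)) (Nat.totient_dvd_of_dvd h4)
  have h6 : d.totient = (orderOf (e c)).totient := by omega
  have h7 : 2 * d = orderOf (e c) := (Nat.eq_or_eq_of_totient_eq_totient h4 h6).resolve_left fun h =>
    hc'.2 (mem_of_dvd (mem_zpowers _) h1 h.symm.dvd)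
  have h8 : A.card = d.totient := by
    apply le_antisymm
    · have : A ⊆ S x (orderOf c) := by
        intro a ha
        have := (k2 a ha).1
        simp only [hAdef, mem_filter, mem_univ, true_and] at ha
        exact mem_S.2 ⟨ha.1, by omega⟩
      have h := card_le_card this
      rw [card_S x (orderOf_dvd_of_mem_zpowers hc'.1)] at h
      omega
    · rw [h6, ← card_S (e c) dvd_rfl]
      refine card_le_card_of_injOn e.symm (fun w hw => ?_) e.symm.injective.injOn
      simp only [hAdef, coe_filter, mem_univ, true_and, Set.mem_setOf_eq, e.apply_symm_apply]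
      refine ⟨(mem_S.1 (hT c hc'.1 c1 w hw)).1, fun h => ?_⟩
      have h9 := Nat.le_of_dvd (orderOf_pos _) (orderOf_dvd_of_mem_zpowers h)
      have := (mem_S.1 hw).2
      omega
  have h9 : 2 < d := by
    by_contra h
    have : d = 2 := by omega
    apply hd'
    rw [this]
    intro s t hs ht h1 h2
    rw [(Nat.prime_dvd_prime_iff_eq hs Nat.prime_two).1 h1,
      (Nat.prime_dvd_prime_iff_eq ht Nat.prime_two).1 h2]
  have h10 := Nat.totient_even h9
  rcases Nat.even_or_odd d with h | h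
  · have := Nat.totient_two_mul_of_even h
    rw [h7, ← h6] at this
    have := Nat.totient_pos.2 (Nat.pos_of_ne_zero d0)
    omega
  · obtain ⟨a, ha⟩ := h
    obtain ⟨b, hb⟩ := h10
    omega

/-- Let G and H be finite groups whose power graphs are isomorphic: there is a bijection e : G → H such that, for all x, y, one of x, y is a power of the other exactly when one of e(x), e(y) is a power of the other. Then G and H have the same prime graph: for distinct primes p, q, G has an element of order pq if and only if H does. -/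
theorem result {G H : Type*} [Group G] [Finite G] [Group H] [Finite H] (e : G ≃ H)
    (he : ∀ x y : G, (x ∈ Subgroup.zpowers y ∨ y ∈ Subgroup.zpowers x) ↔
      (e x ∈ Subgroup.zpowers (e y) ∨ e y ∈ Subgroup.zpowers (e x)))
    {p q : ℕ} (hp : p.Prime) (hq : q.Prime) (hpq : p ≠ q) :
    (∃ g : G, orderOf g = p * q) ↔ (∃ h : H, orderOf h = p * q) := by
  have := Fintype.ofFinite G
  have := Fintype.ofFinite H
  constructor
  · rintro ⟨g, hg⟩
    obtain ⟨h, hh⟩ := main e he hp hq hpq g hg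
    obtain ⟨y, -, hy⟩ := exists_ord h hh
    exact ⟨y, hy⟩
  · rintro ⟨g, hg⟩
    obtain ⟨h, hh⟩ := main e.symm (fun x y => by
      have := he (e.symm x) (e.symm y)
      simp only [e.apply_symm_apply] at this
      exact this.symm) hp hq hpq g hg
    obtain ⟨y, -, hy⟩ := exists_ord h hh
    exact ⟨y, hy⟩

end Cfsg.Agent.S4085
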