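import Cfsg.Statements.S4086
import Cfsg.Agent.Lib.Odd.BGMisc
import Cfsg.Agent.Lib.Grp.NPC2

set_option autoImplicit false
open Cfsg

namespace Cfsg.Agent.S4086

open CA.BG CA.OQuo Subgroup

/-- For a finite group G the following are equivalent: every non-identity element has prime-power order; whenever two elements generate a cyclic subgroup, one of them is a power of the other (the enhanced power graph of G coincides with its power graph). -/
theorem result {G : Type*} [Group G] [Finite G] :
    (∀ g : G, g ≠ 1 → IsPrimePow (orderOf g)) ↔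
    (∀ x y : G, IsCyclic ↥(Subgroup.closure ({x, y} : Set G)) → (x ∈ Subgroup.zpowers y ∨ y ∈ Subgroup.zpowers x)) := by
  constructor
  · intro h x y hc
    obtain ⟨z, hz⟩ := exists_zpowers_of_cyc hc
    have hx : zpowers x ≤ zpowers z := by rw [hz, zpowers_le_iff]; exact subset_closure (by simp)
    have hy : zpowers y ≤ zpowers z := by rw [hz, zpowers_le_iff]; exact subset_closure (by simp)
    by_cases h1 : z = 1
    · left; rw [h1, zpowers_one_eq_bot, le_bot_iff, zpowers_eq_bot] at hx; rw [hx]; exact one_mem _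
    obtain ⟨p, k, hp, -, hk⟩ := (isPrimePow_nat_iff _).1 (h z h1)
    haveI := Fact.mk hp
    have hP : IsPGroup p (zpowers z) := IsPi.isPGroup hp (isPi_zpowers.2 (hk ▸ piNat_pow hp k))
    exact (CA.NPC2.le_total_of_isCyclic hP (cyc_zpowers z) hx hy).imp zpowers_le_iff.1 zpowers_le_iff.1
  · intro h g hg
    have h1 : orderOf g ≠ 1 := by simpa using hg
    rw [isPrimePow_iff_unique_prime_dvd]
    obtain ⟨p, hp, hd⟩ := Nat.exists_prime_and_dvd h1
    refine ⟨p, ⟨hp, hd⟩, fun q ⟨hq, hd'⟩ => ?_⟩
    obtain ⟨x, hx, ox⟩ := exists_orderOf_eq (H := zpowers g) hp (by rwa [Nat.card_zpowers])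
    obtain ⟨y, hy, oy⟩ := exists_orderOf_eq (H := zpowers g) hq (by rwa [Nat.card_zpowers])
    have hc : IsCyclic (closure ({x, y} : Set G)) := cyc_of_le (cyc_zpowers g) (by
      rw [closure_le]; rintro _ (rfl | rfl); exacts [hx, hy])
    rcases h x y hc with h2 | h2
    · have := orderOf_dvd_of_mem_zpowers h2
      rw [ox, oy] at this; exact ((Nat.prime_dvd_prime_iff_eq hp hq).1 this).symm
    · have := orderOf_dvd_of_mem_zpowers h2
      rw [ox, oy] at this; exact (Nat.prime_dvd_prime_iff_eq hq hp).1 this

end Cfsg.Agent.S4086
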