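import Cfsg.Statements.S4088
import Cfsg.Agent.Lib.Loc.SubN

set_option autoImplicit false
open Cfsg

namespace Cfsg.Agent.S4088

open Subgroup CA.BG CA.SubN


/-- Let G be a finite group, p a prime dividing the order of G, H a p-subgroup of G and P a Sylow p-subgroup of G. Call the subnormalizer of H the set of elements g of G such that H is subnormal in the subgroup generated by H and g. Then the number of elements of the subnormalizer of H equals the number of Sylow p-subgroups of G containing H times the order of N_G(P), and also equals the number of conjugates of H contained in P times the order of N_G(H). -/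
theorem result {G : Type*} [Group G] [Finite G] (p : ℕ) [Fact p.Prime]
    (hp : p ∣ Nat.card G) (H : Subgroup G) (hH : IsPGroup p H) (P : Sylow p G) :
    Nat.card {g : G // ((H).subgroupOf (H ⊔ Subgroup.zpowers g)).IsSubnormal} =
        Nat.card {Q : Sylow p G // H ≤ (Q : Subgroup G)} * Nat.card (Subgroup.normalizer ((P : Subgroup G) : Set G)) ∧
    Nat.card {g : G // ((H).subgroupOf (H ⊔ Subgroup.zpowers g)).IsSubnormal} =
        Nat.card {K : Subgroup G // K ≤ (P : Subgroup G) ∧ ∃ g : G, K = H.map (MulAut.conj g).toMonoidHom} *
          Nat.card (Subgroup.normalizer (H : Set G)) := by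
  refine ⟨casolo hH P, ?_⟩
  rw [casolo hH P, card_syl]
  letI : MulAction G (Subgroup G) := { smul := cj, one_smul := cj_one, mul_smul := cj_mul }
  have h1 := card_smul (G := G) H fun K => K ≤ P
  rw [show MulAction.stabilizer G H = 𝓝(H) from Subgroup.ext fun g => mem_norm_iff_cj.symm] at h1
  refine h1.trans (congrArg (· * _) (Nat.card_congr (Equiv.subtypeEquivRight fun K => ?_)))
  exact and_congr_right fun _ => exists_congr fun g => eq_comm

end Cfsg.Agent.S4088
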