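import Cfsg.Statements.S4089
import Cfsg.Agent.Lib.Odd.BGMisc
import Cfsg.Agent.Lib.Odd.BG1b
import Cfsg.Agent.Lib.Grp.Subn
import Cfsg.Agent.Lib.Grp.Core

set_option autoImplicit false
open Cfsg

namespace Cfsg.Agent.S4089

open CA.BG CA.OQuo Subgroup CA.Subn

theorem sn_iff {G : Type*} [Group G] [Finite G] {p : ℕ} (hp : p.Prime) {H : Subgroup G} (hH : IsPi {p} H) (g : G) :
    (H.subgroupOf (H ⊔ zpowers g)).IsSubnormal ↔ ∃ R : Subgroup G, H ≤ R ∧ 𝓞({p}, 𝓝(R)) = R ∧ g ∈ 𝓝(R) := by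
  haveI := Fact.mk hp
  constructor
  · intro h
    have h1 : H ≤ 𝓞({p}, H ⊔ zpowers g) := by
      rw [core_p_eq hp]; exact CA.Core.le_map_pCore_of_subnormal le_sup_left h (hH.isPGroup hp)
    obtain ⟨R, -, ⟨a, b, c⟩, hm⟩ := exists_maximal_ge (P := fun R : Subgroup G => H ≤ R ∧ IsPi {p} R ∧ g ∈ 𝓝(R))
      ⟨h1, core_pi _ _, le_norm_core _ _ ((le_sup_right : zpowers g ≤ _) (mem_zpowers g))⟩
    have d := le_core b le_normalizer le_rfl
    exact ⟨R, a, hm _ ⟨a.trans d, core_pi _ _, le_norm_core _ _ c⟩ d, c⟩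
  · rintro ⟨R, a, b, c⟩
    have hR : IsPi {p} R := b ▸ core_pi _ _
    exact (((SN.of_isNilpotent (hR.isNilpotent hp) a).trans (SN.of_le_normalizer le_normalizer le_rfl)).mono le_sup_left
      (sup_le (a.trans le_normalizer) (zpowers_le.2 c))).sub

/-- Let G be a finite group, p a prime and H a p-subgroup of G. Then the set of elements g of G such that H is subnormal in the subgroup generated by H and g is the union of the normalizers N_G(R) over the subgroups R of G containing H with R = O_p(N_G(R)); and this set does not change when H is replaced by the intersection of all Sylow p-subgroups of G containing H. -/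
theorem result {G : Type*} [Group G] [Finite G] (p : ℕ) [Fact p.Prime]
    (H : Subgroup G) (hH : IsPGroup p H) :
    {g : G | ((H).subgroupOf (H ⊔ Subgroup.zpowers g)).IsSubnormal} =
      {g : G | ∃ R : Subgroup G, H ≤ R ∧ (Cfsg.pCore p (Subgroup.normalizer (R : Set G))).map (Subgroup.normalizer (R : Set G)).subtype = R ∧ g ∈ Subgroup.normalizer (R : Set G)} ∧
    ∀ g : G, (((H).subgroupOf (H ⊔ Subgroup.zpowers g)).IsSubnormal ↔
      (((sInf {K : Subgroup G | ∃ Q : Sylow p G, H ≤ (Q : Subgroup G) ∧ K = (Q : Subgroup G)})).subgroupOf ((sInf {K : Subgroup G | ∃ Q : Sylow p G, H ≤ (Q : Subgroup G) ∧ K = (Q : Subgroup G)}) ⊔ Subgroup.zpowers g)).IsSubnormal) := by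
  have hp := (Fact.out : p.Prime)
  have hH' := isPi_of_isPGroup hp hH
  refine ⟨Set.ext fun g => ?_, fun g => ?_⟩
  · simp only [Set.mem_setOf_eq, sn_iff hp hH', core_p_eq hp]
  set D := sInf {K : Subgroup G | ∃ Q : Sylow p G, H ≤ (Q : Subgroup G) ∧ K = (Q : Subgroup G)} with hD
  have hHD : H ≤ D := le_sInf fun K ⟨Q, a, b⟩ => b ▸ a
  obtain ⟨P, hP⟩ := hH.exists_le_sylow
  have hDp : IsPi {p} D := (syl_top hp P).pi.of_le (sInf_le ⟨P, hP, rfl⟩)
  rw [sn_iff hp hH', sn_iff hp hDp]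
  refine ⟨fun ⟨R, a, b, c⟩ => ⟨R, ?_, b, c⟩, fun ⟨R, a, b, c⟩ => ⟨R, hHD.trans a, b, c⟩⟩
  have hR : IsPi {p} R := b ▸ core_pi _ _
  set E := sInf {K : Subgroup G | Syl p K ⊤ ∧ R ≤ K}
  have hRE : R ≤ E := le_sInf fun K h => h.2
  obtain ⟨Q, hQ, hRQ⟩ := syl_superset hp hR le_top
  have hEp : IsPi {p} E := hQ.pi.of_le (sInf_le ⟨hQ, hRQ⟩)
  have hn : 𝓝(R) ≤ 𝓝(E) := fun x hx => mem_norm_of_cj_le (le_sInf fun K ⟨h1, h2⟩ => by
    refine cj_le_iff.2 (sInf_le ⟨h1.cj_mem (mem_top _), ?_⟩)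
    rw [← cj_of_mem_norm (inv_mem hx)]; exact cj_mono _ h2)
  have hER : E = R := by
    by_contra hne
    have := lt_norm_of_pi hEp (lt_of_le_of_ne hRE (Ne.symm hne))
    exact this.not_ge ((le_core (hEp.inf_left _) inf_le_right (norm_inf hn le_normalizer)).trans b.le)
  rw [← hER]
  refine le_sInf fun K ⟨h1, h2⟩ => ?_
  obtain ⟨S, rfl⟩ := h1.exists_sylow_top hp
  exact sInf_le ⟨S, a.trans h2, rfl⟩

end Cfsg.Agent.S4089
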