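import Cfsg.Statements.S4090
import Cfsg.Agent.Lib.Loc.SubN

set_option autoImplicit false
open scoped BigOperators
open Cfsg

namespace Cfsg.Agent.S4090

open Subgroup CA.BG CA.SubN

theorem tele : ∀ {n : ℕ} (f : Fin (n + 1) → ℚ) (d : Fin n → ℚ), (∀ i, f i.castSucc = f i.succ * d i) →
    f 0 = f (Fin.last n) * ∏ i, d i
  | 0, f, d, _ => by simp
  | n + 1, f, d, h => by
    rw [Fin.prod_univ_succ, ← Fin.succ_last, mul_left_comm,
      ← tele (fun i => f i.succ) (fun i => d i.succ) fun i => h i.succ, mul_comm]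
    exact h 0

section
variable {G : Type*} [Group G] [Finite G] {p : ℕ} [Fact p.Prime] {N N' H : Subgroup G} [hN : N.Normal] [hN' : N'.Normal]

theorem sup_eq (P : Sylow p G) (h : N ≤ N') {m : ℕ} (hm : N.relIndex N' = p ^ m) :
    (P : Subgroup G) ⊔ N = (P : Subgroup G) ⊔ N' := by
  refine le_antisymm (sup_le_sup_left h _) (sup_le le_sup_left ?_)
  have hs := QuotientGroup.mk'_surjective N
  haveI := hN'.map _ hs
  have h1 : IsPGroup p (N'.map (QuotientGroup.mk' N)) := IsPGroup.of_card (n := m) (by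
    rw [← relIndex_ker, QuotientGroup.ker_mk', hm])
  have h2 := map_le_iff_le_comap.1 (h1.le_sylow_of_normal (P.mapSurjective hs))
  rwa [Sylow.coe_mapSurjective, comap_map_eq, QuotientGroup.ker_mk'] at h2

theorem mem_N {P : Subgroup G} (hP : IsPGroup p P) (h : N ≤ N') (hc : (N.relIndex N').Coprime p) {x : G}
    (h1 : x ∈ P ⊔ N) (h2 : x ∈ N') : x ∈ N := by
  obtain ⟨a, ha, n, hn, rfl⟩ := mem_sup_of_normal_right.1 h1
  have h3 := N.pow_relIndex_mem ((N'.mul_mem_cancel_right (h hn)).1 h2)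
  obtain ⟨k, hk⟩ := IsPGroup.iff_orderOf.1 hP ⟨a, ha⟩
  rw [← orderOf_coe] at hk
  obtain ⟨m, hm⟩ := exists_pow_eq_self_of_coprime (x := a) (n := N.relIndex N') (hk ▸ hc.pow_right k)
  exact mul_mem (hm ▸ pow_mem h3 m) hn

theorem fiber (P : Sylow p G) (hH : IsPGroup p H) (h : N ≤ N') (hc : (N.relIndex N').Coprime p) {g : G}
    (hg : cj g H ≤ (P : Subgroup G) ⊔ N') : Nat.card {u : N' // cj (u * g) H ≤ (P : Subgroup G) ⊔ N} =
      Nat.card {u : G // u ∈ N' ∧ ∀ h ∈ H, h * u * h⁻¹ * u⁻¹ ∈ N} := by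
  obtain ⟨w, hw, hw'⟩ : ∃ w ∈ N', cj (w * g) H ≤ P := by
    have h1 : IsPGroup p ((cj g H).subgroupOf ((P : Subgroup G) ⊔ N')) := (hH.map _).comap_subtype
    obtain ⟨Q, hQ⟩ := h1.exists_le_sylow
    obtain ⟨x, hx⟩ := MulAction.exists_smul_eq (↥((P : Subgroup G) ⊔ N')) Q (P.subtype le_sup_left)
    obtain ⟨a, ha, n, hn, e⟩ := mem_sup_of_normal_right.1 x.2
    refine ⟨n, hn, ?_⟩
    rw [cj_mul]
    rintro _ ⟨y, hy, rfl⟩
    have h2 : x * ⟨y, hg hy⟩ * x⁻¹ ∈ ((x • Q : Sylow p _) : Subgroup _) := smul_mem_pointwise_smul _ _ _ (hQ hy)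
    rw [hx] at h2
    have h3 : (x : G) * y * (x : G)⁻¹ ∈ (P : Subgroup G) := h2
    have := mul_mem (mul_mem (inv_mem ha) h3) ha
    rw [← e] at this
    convert this using 1
    simp only [MulEquiv.toMonoidHom_eq_coe, MonoidHom.coe_coe, MulAut.conj_apply]
    group
  generalize hy : w * g = y at hw'
  obtain rfl : g = w⁻¹ * y := by rw [← hy, inv_mul_cancel_left]
  have key : ∀ u ∈ N', (cj (y * u) H ≤ (P : Subgroup G) ⊔ N ↔ ∀ h ∈ H, h * u * h⁻¹ * u⁻¹ ∈ N) := fun u hu => by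
    have e : ∀ h : G, y * u * h * (y * u)⁻¹ = (y * (h * u * h⁻¹ * u⁻¹) * y⁻¹)⁻¹ * (y * h * y⁻¹) := fun h => by group
    constructor
    · intro h1 k hk
      have h2 := h1 (conj_mem_cj.2 hk)
      rw [e, mul_mem_cancel_right (mem_sup_left (hw' (conj_mem_cj.2 hk))), inv_mem_iff] at h2
      have h3 := mem_N P.isPGroup' h hc h2 (hN'.conj_mem _ (mul_mem (hN'.conj_mem u hu k) (inv_mem hu)) y)
      simpa [mul_assoc] using hN.conj_mem _ h3 y⁻¹
    · intro h1 x hx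
      obtain ⟨k, hk, rfl⟩ := mem_cj'.1 hx
      rw [e]
      exact mul_mem (mem_sup_right (inv_mem (hN.conj_mem _ (h1 k hk) y))) (mem_sup_left (hw' (conj_mem_cj.2 hk)))
  refine Nat.card_congr ⟨fun u => ⟨y⁻¹ * (u.1 * w⁻¹) * y, ?_⟩, fun u => ⟨⟨y * u * y⁻¹ * w, ?_⟩, ?_⟩, fun u => ?_,
    fun u => ?_⟩
  · have h1 : y⁻¹ * (u.1 * w⁻¹) * y ∈ N' := by simpa using hN'.conj_mem _ (mul_mem u.1.2 (inv_mem hw)) y⁻¹
    exact ⟨h1, (key _ h1).1 (by simpa [mul_assoc] using u.2)⟩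
  · exact mul_mem (hN'.conj_mem _ u.2.1 y) hw
  · simpa [mul_assoc] using (key _ u.2.1).2 u.2.2
  · ext; simp [mul_assoc]
  · ext; simp [mul_assoc]

theorem count (P : Sylow p G) (hH : IsPGroup p H) (h : N ≤ N') (hc : (N.relIndex N').Coprime p) :
    Nat.card N' * Nat.card {g // cj g H ≤ (P : Subgroup G) ⊔ N} = Nat.card {g // cj g H ≤ (P : Subgroup G) ⊔ N'} *
      Nat.card {u : G // u ∈ N' ∧ ∀ h ∈ H, h * u * h⁻¹ * u⁻¹ ∈ N} := by
  classical
  haveI := Fintype.ofFinite {g // cj g H ≤ (P : Subgroup G) ⊔ N'}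
  have e1 : N' × {g // cj g H ≤ (P : Subgroup G) ⊔ N} ≃ Σ g : {g // cj g H ≤ (P : Subgroup G) ⊔ N'}, {u : N' // cj ((u : G) * g.1) H ≤ (P : Subgroup G) ⊔ N} :=
    ⟨fun z => ⟨⟨(z.1 : G)⁻¹ * z.2, by
        rw [cj_mul]
        exact cj_le_of_mem (mem_sup_right (inv_mem z.1.2)) (z.2.2.trans (sup_le_sup_left h _))⟩, z.1, by
        simpa using z.2.2⟩,
      fun z => ⟨z.2.1, _, z.2.2⟩, fun z => by simp, by
        rintro ⟨⟨g, hg⟩, u, hu⟩
        refine Sigma.subtype_ext (Subtype.ext (by simp)) rfl⟩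
  rw [← Nat.card_prod, Nat.card_congr e1, Nat.card_sigma, Finset.sum_congr rfl fun g _ => fiber P hH h hc g.2]
  simp

theorem card_dvd' (h : N ≤ N') : Nat.card N ∣ Nat.card {u : G // u ∈ N' ∧ ∀ h ∈ H, h * u * h⁻¹ * u⁻¹ ∈ N} := by
  let C : Subgroup G := N' ⊓ (centralizer (H.map (QuotientGroup.mk' N) : Set (G ⧸ N))).comap (QuotientGroup.mk' N)
  have key : ∀ u, u ∈ C ↔ u ∈ N' ∧ ∀ h ∈ H, h * u * h⁻¹ * u⁻¹ ∈ N := fun u => by
    refine and_congr_right fun _ => ⟨fun h1 k hk => ?_, fun h1 => ?_⟩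
    · rw [← QuotientGroup.eq_one_iff]
      have := h1 _ ⟨k, hk, rfl⟩
      simp only [QuotientGroup.mk'_apply] at this
      simp [this]
    · rintro _ ⟨k, hk, rfl⟩
      have := (QuotientGroup.eq_one_iff _).2 (h1 k hk)
      simp only [QuotientGroup.mk_mul, QuotientGroup.mk_inv, mul_inv_eq_one, mul_inv_eq_iff_eq_mul, one_mul] at this
      exact this
  rw [← Nat.card_congr (Equiv.subtypeEquivRight key)]
  exact card_dvd fun n hn => (key n).2 ⟨h hn, fun k _ => mul_mem (hN.conj_mem n hn k) (inv_mem hn)⟩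

theorem step (P : Sylow p G) (hH : IsPGroup p H) (h : N ≤ N') (hc : (N.relIndex N').Coprime p) :
    (Nat.card {g // cj g H ≤ (P : Subgroup G) ⊔ N} : ℚ) / Nat.card ((P : Subgroup G) ⊔ N : Subgroup G) =
      Nat.card {g // cj g H ≤ (P : Subgroup G) ⊔ N'} / Nat.card ((P : Subgroup G) ⊔ N' : Subgroup G) *
      (Nat.card {u : G // u ∈ N' ∧ ∀ h ∈ H, h * u * h⁻¹ * u⁻¹ ∈ N} / Nat.card N : ℕ) := by
  have h1 := count P hH h hc
  obtain ⟨d, hd⟩ := card_dvd' (H := H) h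
  have h2 := card_sup_mul_inf (A := P) (N := N) le_normalizer_of_normal
  have h3 := card_sup_mul_inf (A := P) (N := N') le_normalizer_of_normal
  rw [show (P : Subgroup G) ⊓ N' = (P : Subgroup G) ⊓ N from le_antisymm (fun x hx => ⟨hx.1,
    mem_N P.isPGroup' h hc (mem_sup_left hx.1) hx.2⟩) (inf_le_inf_left _ h)] at h3
  rw [hd] at h1 ⊢
  rw [Nat.mul_div_cancel_left _ Nat.card_pos]
  have q1 := congrArg (Nat.cast (R := ℚ)) h1
  have q2 := congrArg (Nat.cast (R := ℚ)) h2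
  have q3 := congrArg (Nat.cast (R := ℚ)) h3
  push_cast at q1 q2 q3
  have n0 : ∀ X : Subgroup G, (Nat.card X : ℚ) ≠ 0 := fun X => Nat.cast_ne_zero.2 Nat.card_pos.ne'
  have n1 := n0 ((P : Subgroup G) ⊔ N)
  have n2 := n0 ((P : Subgroup G) ⊔ N')
  field_simp
  refine mul_left_cancel₀ (n0 ((P : Subgroup G) ⊓ N)) ?_
  linear_combination (Nat.card {g // cj g H ≤ (P : Subgroup G) ⊔ N} : ℚ) * q3 - Nat.card {g // cj g H ≤ (P : Subgroup G) ⊔ N'} * d * q2 +
    Nat.card (P : Subgroup G) * q1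

end


/-- Let G be a finite p-solvable group, H a p-subgroup of G and P a Sylow p-subgroup, and fix a chain of normal subgroups 1 = M₀ ≤ M₁ ≤ ⋯ ≤ Mₙ = G of G each of whose factors is a p-group or a p'-group. Then the number of elements g of G such that H is subnormal in the subgroup generated by H and g equals the order of P times the product, over the factors Mᵢ₊₁/Mᵢ of order prime to p, of the order of the centralizer of H in Mᵢ₊₁/Mᵢ (counted as the number of u ∈ Mᵢ₊₁ with [h, u] ∈ Mᵢ for all h ∈ H, divided by the order of Mᵢ). -/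
theorem result {G : Type*} [Group G] [Finite G] (p : ℕ) [Fact p.Prime]
    (hG : Cfsg.IsPSolvable p G) (H : Subgroup G) (hH : IsPGroup p H) (P : Sylow p G)
    (n : ℕ) (M : Fin (n + 1) → Subgroup G) (h0 : M 0 = ⊥) (hn : M (Fin.last n) = ⊤) (hmono : Monotone M)
    (hnormal : ∀ i, (M i).Normal)
    (hfac : ∀ i : Fin n, (∃ m : ℕ, (M i.castSucc).relIndex (M i.succ) = p ^ m) ∨ ((M i.castSucc).relIndex (M i.succ)).Coprime p) :
    Nat.card {g : G // ((H).subgroupOf (H ⊔ Subgroup.zpowers g)).IsSubnormal} =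
      Nat.card (P : Subgroup G) *
        ∏ i : Fin n, (if ((M i.castSucc).relIndex (M i.succ)).Coprime p then
          Nat.card {u : G // u ∈ M i.succ ∧ ∀ h ∈ H, h * u * h⁻¹ * u⁻¹ ∈ M i.castSucc} / Nat.card (M i.castSucc)
          else 1) := by
  rw [casolo hH P, card_syl]
  have h1 := tele (fun i => (Nat.card {g // cj g H ≤ (P : Subgroup G) ⊔ M i} : ℚ) / Nat.card ((P : Subgroup G) ⊔ M i : Subgroup G))
    (fun i => ((if ((M i.castSucc).relIndex (M i.succ)).Coprime p then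
      Nat.card {u : G // u ∈ M i.succ ∧ ∀ h ∈ H, h * u * h⁻¹ * u⁻¹ ∈ M i.castSucc} / Nat.card (M i.castSucc)
      else 1 : ℕ) : ℚ)) fun i => by
    have h2 := hmono i.castSucc_lt_succ.le
    split_ifs with hc
    · exact step P hH h2 hc
    · obtain ⟨m, hm⟩ := (hfac i).resolve_right hc
      simp only [sup_eq P h2 hm, Nat.cast_one, mul_one]
  simp only [h0, hn, sup_bot_eq, sup_top_eq, le_top, Nat.card_subtype_true, card_top] at h1
  rw [div_self (Nat.cast_ne_zero.2 Nat.card_pos.ne'), one_mul, div_eq_iff (Nat.cast_ne_zero.2 Nat.card_pos.ne'),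
    mul_comm] at h1
  exact_mod_cast h1

end Cfsg.Agent.S4090
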