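import Cfsg.Statements.S4091
import Cfsg.Agent.Lib.Grp.Gheri2

set_option autoImplicit false
open Cfsg

namespace Cfsg.Agent.S4091

open Subgroup CA.SylIn CA.Gheri Finset

theorem lam_conj {G : Type*} [Group G] (p : ℕ) (g x : G) : lam p (g * x * g⁻¹) = lam p x :=
  (Nat.card_congr ((MulAction.toPerm g).subtypeEquiv fun Q => by
    rw [MulAction.toPerm_apply, mem_smul_sylow]; simp [mul_assoc])).symm

theorem amgm {ι : Type*} [Fintype ι] [Nonempty ι] (z : ι → ℝ) (hz : ∀ i, 0 ≤ z i) :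
    (Fintype.card ι : ℝ) ^ Fintype.card ι * ∏ i, z i ≤ (∑ i, z i) ^ Fintype.card ι := by
  have h0 : (0 : ℝ) < Fintype.card ι := Nat.cast_pos.2 Fintype.card_pos
  have h := Real.geom_mean_le_arith_mean univ (fun _ => 1) z (by simp) (by simpa using h0) fun i _ => hz i
  simp only [Real.rpow_one, sum_const, card_univ, nsmul_eq_mul, mul_one, one_mul] at h
  have h1 := pow_le_pow_left₀ (by have := prod_nonneg fun i (_ : i ∈ univ) => hz i; positivity) h (Fintype.card ι)
  rwa [Real.rpow_inv_natCast_pow (prod_nonneg fun i _ => hz i) Fintype.card_ne_zero, div_pow, le_div_iff₀' (pow_pos h0 _)] at h1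

/-- Let G be a finite p-solvable group, P a Sylow p-subgroup of G, u the number of p-elements of G (elements of p-power order, the identity included) and n the number of Sylow p-subgroups of G. Then u/#P ≥ n^((p−1)/p), stated as u^p ≥ #P^p · n^(p−1). -/
theorem result {G : Type*} [Group G] [Finite G] (p : ℕ) [Fact p.Prime]
    (hG : Cfsg.IsPSolvable p G) (P : Sylow p G) :
    Nat.card (P : Subgroup G) ^ p * Nat.card (Sylow p G) ^ (p - 1) ≤ Nat.card {g : G // ∃ k : ℕ, orderOf g = p ^ k} ^ p := by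
  classical
  have := Fintype.ofFinite G
  have := Fintype.ofFinite (Sylow p G)
  have hp : p.Prime := Fact.out
  let S : ℝ := ∑ x : P, (lam p (x : G) : ℝ)⁻¹
  have h1 : ∀ Q : Sylow p G, ∑ x : G, (if x ∈ Q then (lam p x : ℝ)⁻¹ else 0) = S := fun Q => by
    obtain ⟨g, rfl⟩ := MulAction.exists_smul_eq G P Q
    rw [← Equiv.sum_comp (MulAut.conj g).toEquiv, show S = ∑ x : G, (if x ∈ P then (lam p x : ℝ)⁻¹ else 0) by
      rw [← sum_filter]; exact (sum_subtype _ (fun x => by rw [mem_filter]; exact and_iff_right (mem_univ _)) fun x => (lam p x : ℝ)⁻¹).symm]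
    refine sum_congr rfl fun x _ => ?_
    change (if g * x * g⁻¹ ∈ g • P then (lam p (g * x * g⁻¹) : ℝ)⁻¹ else 0) = _
    rw [lam_conj]
    simp [mem_smul_sylow, mul_assoc]
  have h2 : Nat.card (Sylow p G) * S ≤ Nat.card {g : G // ∃ k : ℕ, orderOf g = p ^ k} := by
    rw [Nat.card_eq_fintype_card, ← nsmul_eq_mul, ← card_univ, ← sum_const, sum_congr rfl fun Q _ => (h1 Q).symm, sum_comm,
      Nat.card_eq_fintype_card, Fintype.card_subtype, card_filter, Nat.cast_sum]
    refine sum_le_sum fun x _ => ?_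
    rw [← sum_filter, sum_const, ← Fintype.card_subtype, ← Nat.card_eq_fintype_card, nsmul_eq_mul]
    change (lam p x : ℝ) * _ ≤ _
    split_ifs with h
    · exact_mod_cast mul_inv_le_one
    · have : IsEmpty {Q : Sylow p G // x ∈ Q} := ⟨fun Q => h (by
        simpa using IsPGroup.iff_orderOf.1 Q.1.isPGroup' ⟨x, Q.2⟩)⟩
      simp [lam]
  have h3 : ∀ x : P, (0 : ℝ) < lam p (x : G) := fun x => by
    have : Nonempty {Q : Sylow p G // (x : G) ∈ Q} := ⟨⟨P, x.2⟩⟩
    exact_mod_cast Nat.card_pos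
  have h4 := amgm (fun x : P => (lam p (x : G) : ℝ)⁻¹) fun x => (inv_pos.2 (h3 x)).le
  have h5 : ((∏ x : P, lam p (x : G) ^ p : ℕ) : ℝ) ≤ (Nat.card (Sylow p G) ^ Nat.card P : ℕ) :=
    Nat.cast_le.2 (prod_lam_le _ rfl hG P)
  have h6 : (0 : ℝ) < ∏ x : P, (lam p (x : G) : ℝ) := prod_pos fun x _ => h3 x
  have hS : 0 ≤ S := sum_nonneg fun x _ => (inv_pos.2 (h3 x)).le
  rw [prod_inv_distrib, ← Nat.card_eq_fintype_card] at h4
  replace h4 := (mul_inv_le_iff₀ h6).1 h4
  rw [prod_pow] at h5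
  push_cast at h5
  have h7 : (Nat.card P : ℝ) ^ p ≤ Nat.card (Sylow p G) * S ^ p := by
    refine (pow_le_pow_iff_left₀ (by positivity) (by positivity) (Nat.card_pos (α := P)).ne').1 ?_
    rw [pow_right_comm, mul_pow, pow_right_comm S, mul_comm]
    refine (pow_le_pow_left₀ (by positivity) h4 p).trans ?_
    rw [mul_pow]
    exact mul_le_mul_of_nonneg_left h5 (by positivity)
  have h8 : ((Nat.card (P : Subgroup G) : ℝ)) ^ p * (Nat.card (Sylow p G) : ℝ) ^ (p - 1) ≤ (Nat.card (Sylow p G) * S) ^ p := by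
    rw [mul_pow, ← pow_sub_one_mul hp.ne_zero (Nat.card (Sylow p G) : ℝ), mul_assoc, mul_comm]
    exact mul_le_mul_of_nonneg_left h7 (by positivity)
  exact_mod_cast h8.trans (pow_le_pow_left₀ (by positivity) h2 p)

end Cfsg.Agent.S4091
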