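import Cfsg.Statements.S4092
import Cfsg.Agent.Lib.Grp.L0Syl
import Cfsg.Agent.Lib.Grp.PGBasic

set_option autoImplicit false
open Cfsg

namespace Cfsg.Agent.S4092

open Subgroup CA.L0Syl CA.SylIn

/-- Let G be a finite group, p a prime and P a Sylow p-subgroup of G that is not normal in G. Then G has at least p·#P elements of p-power order (the identity included). -/
theorem result {G : Type*} [Group G] [Finite G] (p : ℕ) [Fact p.Prime]
    (P : Sylow p G) (hP : ¬ (P : Subgroup G).Normal) :
    p * Nat.card (P : Subgroup G) ≤ Nat.card {g : G // ∃ k : ℕ, orderOf g = p ^ k} := by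
  classical
  have hp : p.Prime := Fact.out
  -- a pair of distinct Sylow subgroups with largest intersection
  have hne : ∃ Q R : Sylow p G, Q ≠ R := by
    by_contra h
    push Not at h
    have : Subsingleton (Sylow p G) := ⟨h⟩
    exact hP (Sylow.normal_of_subsingleton P)
  obtain ⟨Q0, R0, h0⟩ := hne
  have : Nonempty {x : Sylow p G × Sylow p G // x.1 ≠ x.2} := ⟨⟨(Q0, R0), h0⟩⟩
  obtain ⟨⟨⟨Q, R⟩, hQR⟩, hmax⟩ := Finite.exists_max
    (fun x : {x : Sylow p G × Sylow p G // x.1 ≠ x.2} => Nat.card ((x.1.1 : Subgroup G) ⊓ x.1.2 : Subgroup G))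
  simp only [Subtype.forall, Prod.forall] at hmax hQR
  set D : Subgroup G := (Q : Subgroup G) ⊓ R with hD
  have hDp : IsPGroup p D := Q.isPGroup'.to_le inf_le_left
  have := Fintype.ofFinite (Sylow p G)
  have := Fintype.ofFinite G
  let S : Finset (Sylow p G) := Finset.univ.filter fun T => D ≤ T
  have hS1 : S.card ≡ 1 [MOD p] := by
    have h1 := hDp.card_modEq_card_fixedPoints (Sylow p G)
    have h2 : Nat.card (MulAction.fixedPoints D (Sylow p G)) = S.card := by
      rw [← Nat.card_eq_finsetCard]
      refine Nat.card_congr (Equiv.subtypeEquivRight fun T => ?_)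
      rw [hDp.sylow_mem_fixedPoints_iff]; simp [S]
    rw [h2] at h1
    exact h1.symm.trans (card_sylow_modEq_one p G)
  have hS2 : 1 < S.card := Finset.one_lt_card.2 ⟨Q, by simp [S, hD], R, by simp [S, hD], hQR⟩
  have hS3 : p + 1 ≤ S.card := by
    have := (Nat.modEq_iff_dvd' hS2.le).1 hS1.symm
    have := Nat.le_of_dvd (by omega) this
    omega
  have hint : ∀ T ∈ S, ∀ U ∈ S, T ≠ U → (T : Subgroup G) ⊓ U = D := by
    intro T hT U hU hTU
    simp only [S, Finset.mem_filter, Finset.mem_univ, true_and] at hT hU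
    exact (CA.H1Basic.eq_of_le_of_card_le (le_inf hT hU) (hmax T U hTU)).symm
  let A : Sylow p G → Finset G := fun T => Finset.univ.filter fun x => x ∈ T ∧ x ∉ D
  let B : Finset G := Finset.univ.filter fun x => x ∈ D
  have hB : B.card = Nat.card D := by
    rw [← Nat.card_eq_finsetCard]; exact Nat.card_congr (Equiv.subtypeEquivRight fun x => by simp [B])
  have hA : ∀ T ∈ S, (A T).card + Nat.card D = Nat.card P := by
    intro T hT
    simp only [S, Finset.mem_filter, Finset.mem_univ, true_and] at hT
    rw [← hB, ← Finset.card_union_of_disjoint (by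
      rw [Finset.disjoint_left]; intro x hx hx'; simp [A, B] at hx hx'; exact hx.2 hx'),
      P.card_eq_multiplicity, ← T.card_eq_multiplicity, ← Nat.card_eq_finsetCard]
    refine Nat.card_congr (Equiv.subtypeEquivRight fun x => ?_)
    have := @hT x
    simp only [A, B, Finset.mem_union, Finset.mem_filter, Finset.mem_univ, true_and]
    change _ ↔ x ∈ T
    change x ∈ D → x ∈ T at this
    tauto
  have hU : (S.biUnion A ∪ B).card = S.card * (Nat.card P - Nat.card D) + Nat.card D := by
    rw [Finset.card_union_of_disjoint, Finset.card_biUnion, hB,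
      Finset.sum_congr rfl (fun T hT => Nat.eq_sub_of_add_eq (hA T hT)), Finset.sum_const, smul_eq_mul]
    · intro T hT U hU hTU
      rw [Function.onFun, Finset.disjoint_left]
      intro x hx hx'
      simp only [A, Finset.mem_filter, Finset.mem_univ, true_and] at hx hx'
      exact hx.2 (hint T hT U hU hTU ▸ ⟨hx.1, hx'.1⟩)
    · rw [Finset.disjoint_left]
      intro x hx hx'
      simp only [A, B, Finset.mem_biUnion, Finset.mem_filter, Finset.mem_univ, true_and] at hx hx'
      obtain ⟨T, -, -, h⟩ := hx
      exact h hx'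
  have hle : (S.biUnion A ∪ B).card ≤ Nat.card {g : G // ∃ k : ℕ, orderOf g = p ^ k} := by
    rw [Nat.card_eq_fintype_card, Fintype.card_subtype]
    apply Finset.card_le_card
    intro x hx
    simp only [A, B, Finset.mem_union, Finset.mem_biUnion, Finset.mem_filter, Finset.mem_univ, true_and] at hx ⊢
    rcases hx with ⟨T, -, h, -⟩ | h
    · exact pElt_of_mem T.isPGroup' h
    · exact pElt_of_mem hDp h
  have hDP : Nat.card D * p ≤ Nat.card P := by
    rw [P.card_eq_multiplicity, ← Q.card_eq_multiplicity]
    refine CA.PGBasic.card_mul_le_of_lt Q.isPGroup' (lt_of_le_of_ne inf_le_left fun h => hQR ?_)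
    exact (Sylow.ext (Q.is_maximal' R.isPGroup' (h ▸ inf_le_right))).symm
  refine le_trans ?_ hle
  rw [hU]
  have h1 : Nat.card D ≤ Nat.card P := le_trans (Nat.le_mul_of_pos_right _ hp.pos) hDP
  obtain ⟨c, hc⟩ := Nat.exists_eq_add_of_le h1
  have hc' : Nat.card P = Nat.card D + c := hc
  have : Nat.card P - Nat.card D = c := by omega
  rw [this]
  change p * Nat.card P ≤ _
  rw [hc'] at hDP ⊢
  nlinarith

end Cfsg.Agent.S4092
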