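import Cfsg.Statements.S4093
import Cfsg.Agent.Lib.Grp.L0Syl
import Cfsg.Agent.Lib.Grp.PGBasic

set_option autoImplicit false
open scoped BigOperators
open Cfsg

namespace Cfsg.Agent.S4093

open Subgroup CA.L0Syl CA.SylIn
theorem card_orbit {G : Type*} [Group G] [Finite G] (N : Subgroup G) (x : G) :
    Nat.card {g : G // ∃ n ∈ N, n * x * n⁻¹ = g} = Nat.card N / Nat.card ↥(N ⊓ Subgroup.centralizer ({x} : Set G)) := by
  rw [← CA.Rad.card_inf_mul_relIndex (centralizer {x}) N, inf_comm, Nat.mul_div_cancel_left _ Nat.card_pos]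
  symm
  refine Nat.card_congr (Equiv.ofBijective (fun q => Quotient.liftOn' q
    (fun n : N => (⟨n * x * (n : G)⁻¹, n, n.2, rfl⟩ : {g : G // ∃ n ∈ N, n * x * n⁻¹ = g})) ?_) ⟨?_, ?_⟩)
  · intro a b hab
    rw [QuotientGroup.leftRel_apply, mem_subgroupOf, mem_centralizer_singleton_iff] at hab
    apply Subtype.ext
    simp only [coe_mul, coe_inv] at hab
    calc (a : G) * x * (a : G)⁻¹ = a * (x * ((a : G)⁻¹ * b)) * (b : G)⁻¹ := by group
      _ = _ := by rw [← hab]; group
  · intro a b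
    induction a using Quotient.inductionOn' with | _ a => ?_
    induction b using Quotient.inductionOn' with | _ b => ?_
    intro h
    have h1 : (a : G) * x * (a : G)⁻¹ = b * x * (b : G)⁻¹ := congrArg Subtype.val h
    apply Quotient.sound'
    rw [QuotientGroup.leftRel_apply, mem_subgroupOf, mem_centralizer_singleton_iff]
    simp only [coe_mul, coe_inv]
    calc (a : G)⁻¹ * b * x = (a : G)⁻¹ * (b * x * (b : G)⁻¹) * b := by group
      _ = _ := by rw [← h1]; group
  · rintro ⟨g, n, hn, rfl⟩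
    exact ⟨Quotient.mk'' ⟨n, hn⟩, rfl⟩

/-- Let G be a finite group with a normal subgroup N complementing a Sylow p-subgroup P (a normal p-complement). Then the number of elements of G of p-power order equals the sum over x ∈ P of the index of C_N(x) in N. -/
theorem result {G : Type*} [Group G] [Finite G] (p : ℕ) [Fact p.Prime]
    (P : Sylow p G) (N : Subgroup G) [N.Normal] (hNP : N.IsComplement' (P : Subgroup G)) :
    Nat.card {g : G // ∃ k : ℕ, orderOf g = p ^ k} =
      ∑ᶠ x : (P : Subgroup G), Nat.card N / Nat.card ↥(N ⊓ Subgroup.centralizer ({(x : G)} : Set G)) := by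
  have := Fintype.ofFinite (P : Subgroup G)
  rw [finsum_eq_sum_of_fintype, Finset.sum_congr rfl (fun (x : (P : Subgroup G)) _ => (card_orbit N (x : G)).symm), ← Nat.card_sigma]
  symm
  refine Nat.card_congr (Equiv.ofBijective (fun z => ⟨z.2.1, ?_⟩) ⟨?_, ?_⟩)
  · obtain ⟨n, -, h⟩ := z.2.2
    obtain ⟨k, hk⟩ := pElt_of_mem P.isPGroup' z.1.2
    exact ⟨k, by rw [← h, ← hk]; exact (MulAut.conj n).orderOf_eq _⟩
  · rintro ⟨x, g, n, hn, rfl⟩ ⟨y, g', m, hm, rfl⟩ h
    have h1 : n * x * n⁻¹ = m * y * m⁻¹ := congrArg Subtype.val h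
    have h2 : x = y := by
      have h3 : (x : G) * (y : G)⁻¹ ∈ N := by
        have : (x : G) * (y : G)⁻¹ = n⁻¹ * (m * ((y : G) * (m⁻¹ * n) * (y : G)⁻¹)) := by
          calc (x : G) * (y : G)⁻¹ = n⁻¹ * (n * x * n⁻¹) * n * (y : G)⁻¹ := by group
            _ = _ := by rw [h1]; group
        rw [this]
        exact mul_mem (inv_mem hn) (mul_mem hm (Normal.conj_mem inferInstance _ (mul_mem (inv_mem hm) hn) _))
      have h4 := (disjoint_iff.1 hNP.disjoint).le ⟨h3, (P : Subgroup G).mul_mem x.2 ((P : Subgroup G).inv_mem y.2)⟩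
      exact Subtype.ext (mul_inv_eq_one.1 (mem_bot.1 h4))
    subst h2
    simp only [h1]
  · rintro ⟨g, hg⟩
    obtain ⟨k, hk⟩ := pElt_iff.1 hg
    obtain ⟨h, hh⟩ := exists_conj_mem_sylow P hk
    obtain ⟨⟨n, y⟩, hny⟩ := hNP.existsUnique h⁻¹ |>.exists
    have hny' : (n : G) * y = h⁻¹ := hny
    refine ⟨⟨⟨y * (h * g * h⁻¹) * (y : G)⁻¹, mul_mem (mul_mem y.2 hh) (inv_mem y.2)⟩, ⟨g, n, n.2, ?_⟩⟩, rfl⟩
    have : h = ((n : G) * y)⁻¹ := by rw [hny', inv_inv]
    simp only [this]; group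

end Cfsg.Agent.S4093
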