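import Cfsg.Statements.S4097
import Cfsg.Agent.S0042
import Cfsg.Agent.Lib.Grp.Fitting
import Cfsg.Agent.Lib.Grp.H1Basic

set_option autoImplicit false
open Cfsg

namespace Cfsg.Agent.S4097

open Subgroup CA.Core in
theorem aux.{u} (n : ℕ) : ∀ (G : Type u) [Group G] [Finite G], Nat.card G = n → ∀ A : Subgroup G, Group.IsSolvable A →
    (∀ S : Subgroup G, A ≤ S → Group.IsSolvable S → ∀ a ∈ A, ∀ s ∈ S, a * s = s * a) → A ≤ center G := by
  induction n using Nat.strong_induction_on with | _ n ih => ?_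
  intro G _ _ hn A hA hc
  by_contra hG
  have sub : ∀ H : Subgroup G, H ≠ ⊤ → A ≤ H → H ≤ centralizer (A : Set G) := fun H hH hAH h hh a ha => by
    have := ih _ (hn ▸ CA.H1Basic.card_lt_of_ne_top hH) H rfl (A.subgroupOf H) (isSolvable_subgroupOf hA H)
      (fun S hS hs a ha s hs' => Subtype.ext (hc (S.map H.subtype)
        (fun x hx => ⟨⟨x, hAH hx⟩, hS hx, rfl⟩) (isSolvable_map hs _) a ha s ⟨s, hs', rfl⟩)) (show (⟨a, hAH ha⟩ : H) ∈ _ from ha)
    exact (congrArg Subtype.val (mem_center_iff.1 this ⟨h, hh⟩)).symm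
  have quot : ∀ N : Subgroup G, N.Normal → Group.IsSolvable N → N = ⊥ := fun N _ hN => by
    by_contra h0
    have hk : Group.IsSolvable (QuotientGroup.mk' N).ker := by rwa [QuotientGroup.ker_mk']
    have hz := ih _ (by
        rw [← hn, ← index_eq_card, ← N.index_mul_card]
        exact lt_mul_of_one_lt_right (Nat.pos_of_ne_zero N.index_ne_zero_of_finite) (N.one_lt_card_iff_ne_bot.2 h0))
      (G ⧸ N) rfl (A.map (QuotientGroup.mk' N)) (isSolvable_map hA _) (fun S hS hs a ⟨a', ha, e⟩ s hs' => by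
        obtain ⟨s, rfl⟩ := QuotientGroup.mk'_surjective N s
        rw [← e, ← map_mul, ← map_mul, hc (S.comap _) (map_le_iff_le_comap.1 hS) (isSolvable_comap hs _ hk) a' ha s hs'])
    haveI : (A.map (QuotientGroup.mk' N)).Normal := ⟨fun x hx g => by
      rwa [mem_center_iff.1 (hz hx) g, mul_inv_cancel_right]⟩
    refine hG fun a ha => mem_center_iff.2 fun g => (hc (zpowers g ⊔ (A.map (QuotientGroup.mk' N)).comap (QuotientGroup.mk' N))
      ((le_comap_map _ _).trans le_sup_right) (isSolvable_sup_normal (isSolvable_of_isMulCommutative inferInstance)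
        (isSolvable_comap (isSolvable_map hA _) _ hk)) a ha g (mem_sup_left (mem_zpowers g))).symm
  set C := centralizer (A : Set G)
  have hAC : A ≤ C := fun a ha b hb => hc A le_rfl hA b hb a ha
  have hC : C ≠ ⊤ := fun h => hG fun a ha => mem_center_iff.2 fun g => ((h ▸ mem_top g : g ∈ C) a ha).symm
  obtain ⟨a, ha, ha1⟩ : ∃ a ∈ A, a ≠ 1 := by
    by_contra! h; exact hG fun a ha => h a ha ▸ one_mem _
  have cen : ∀ u ∈ C, u ≠ 1 → ∀ x, x * u = u * x → x ∈ C := fun u hu h1 x hx => by
    refine sub (centralizer {u}) (fun h => h1 ?_) (fun a ha => mem_centralizer_singleton_iff.2 (hu a ha))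
      (mem_centralizer_singleton_iff.2 hx)
    have : zpowers u ≤ center G := zpowers_le.2 (mem_center_iff.2 fun g => mem_centralizer_singleton_iff.1 (h ▸ mem_top g))
    exact zpowers_eq_bot.1 (quot _ ⟨fun x hx g => by rwa [mem_center_iff.1 (this hx) g, mul_inv_cancel_right]⟩
      (isSolvable_of_isMulCommutative inferInstance))
  have hF : IsFrobeniusComplement C := by
    refine ⟨fun h => ha1 (mem_bot.1 (h ▸ hAC ha)), hC, fun g hg => (eq_bot_iff_forall _).2 ?_⟩
    rintro u ⟨hu, c, hc', rfl⟩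
    by_contra h1
    change g * c * g⁻¹ ∈ C at hu
    change ¬ g * c * g⁻¹ = 1 at h1
    have hb := cen _ hu h1 (g * a * g⁻¹) (by simp [mul_assoc]; rw [← mul_assoc, ← mul_assoc, hc' a ha])
    have hN : g ∈ normalizer (C : Set G) := CA.Rad.mem_normalizer_of_conj_mem fun x hx =>
      cen _ hb (by simpa using ha1) _ (by simp [mul_assoc]; rw [← mul_assoc, ← mul_assoc, hx a ha])
    refine hg (sub _ (fun h => ha1 ?_) (hAC.trans le_normalizer) hN)
    haveI : C.Normal := normalizer_eq_top_iff.1 h
    have := quot (C ⊓ centralizer (C : Set G)) inferInstance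
      (isSolvable_of_isMulCommutative ⟨⟨fun x y => Subtype.ext (y.2.2 x x.2.1)⟩⟩)
    exact mem_bot.1 (this ▸ ⟨hAC ha, fun x hx => (hx a ha).symm⟩)
  obtain ⟨K, hK, hn, hnil⟩ := S0042.result C hF
  obtain ⟨K', hK', -, hco⟩ := CChar.CharBurn.exists_frobeniusKernel hF.2.2
  obtain rfl : K = K' := SetLike.coe_injective (hK.trans hK'.symm)
  have := hco.sup_eq_top
  rw [quot K hn inferInstance, bot_sup_eq] at this
  exact hC this

/-- Let A be a solvable subgroup of a finite group G such that A lies in the centre of every solvable subgroup of G containing A. Then A lies in the centre of G. -/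
theorem result {G : Type*} [Group G] [Finite G]
    (A : Subgroup G) (hA : Group.IsSolvable A)
    (hc : ∀ S : Subgroup G, A ≤ S → Group.IsSolvable S → ∀ a ∈ A, ∀ s ∈ S, a * s = s * a) : A ≤ Subgroup.center G := by
  exact aux _ G rfl A hA hc

end Cfsg.Agent.S4097
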