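import Cfsg.Statements.S4106
import Cfsg.Agent.Lib.Grp.H7Cls

set_option autoImplicit false
open Cfsg

namespace Cfsg.Agent.S4106

open CA.H7Cls

/-- Let G be a finite group, π a set of primes and m the π-part of the order of G. Then the number of conjugacy classes of G consisting of π-elements (elements whose order is divisible only by primes in π) is at most m. -/
theorem result {G : Type*} [Group G] [Finite G]
    (π : Set ℕ) (hπ : ∀ q ∈ π, q.Prime)
    (m : ℕ) (hm : m ∣ Nat.card G) (hmπ : ∀ q : ℕ, q.Prime → q ∣ m → q ∈ π)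
    (hm' : ∀ q ∈ π, ¬ q ∣ Nat.card G / m) :
    Nat.card {C : ConjClasses G // ∀ q : ℕ, q.Prime → (∃ g : G, ConjClasses.mk g = C ∧ q ∣ orderOf g) → q ∈ π} ≤ m := by
  classical
  haveI := Fintype.ofFinite G
  have h0 : Nat.card G ≠ 0 := Nat.card_pos.ne'
  have hm0 : m ≠ 0 := ne_zero_of_dvd_ne_zero h0 hm
  have h := sum_finset_le (G := G) m.primeFactors (fun p hp => Nat.prime_of_mem_primeFactors hp) ⊤
  have e : ∏ p ∈ m.primeFactors, p ^ (Nat.card G).factorization p = m := by
    conv_rhs => rw [← Nat.factorization_prod_pow_eq_self hm0]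
    refine Finset.prod_congr rfl fun p hp => ?_
    have hp1 := Nat.prime_of_mem_primeFactors hp
    obtain ⟨k, hk⟩ := hm
    have hk0 : k ≠ 0 := by rintro rfl; exact h0 (by simpa using hk)
    have := hm' p (hmπ p hp1 (Nat.dvd_of_mem_primeFactors hp))
    rw [hk, Nat.mul_div_cancel_left _ (Nat.pos_of_ne_zero hm0)] at this
    rw [hk, Nat.factorization_mul hm0 hk0, Finsupp.add_apply, Nat.factorization_eq_zero_of_not_dvd this,
      add_zero]
  rw [e, Subgroup.card_top] at h
  refine Nat.le_of_mul_le_mul_left (le_trans ?_ h) Nat.card_pos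
  change Nat.card G * kpi π G ≤ _
  rw [← sum_cent]
  simp only [inf_top_eq]
  refine Finset.sum_le_sum_of_subset fun g hg => ?_
  simp only [Finset.mem_filter, Finset.mem_univ, true_and, Subgroup.mem_top] at hg ⊢
  intro q hq hd
  have h1 : q ∣ m * (Nat.card G / m) := by
    rw [Nat.mul_div_cancel' hm]; exact hd.trans (orderOf_dvd_natCard g)
  exact Nat.mem_primeFactors.2 ⟨hq, ((Nat.Prime.dvd_mul hq).1 h1).resolve_right (hm' q (hg q hq hd)), hm0⟩

end Cfsg.Agent.S4106
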