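import Cfsg.Statements.S4107
import Cfsg.Agent.Lib.Grp.H7Cam

set_option autoImplicit false
open Cfsg

namespace Cfsg.Agent.S4107

open CA.H7Cam CA.BG CA.Frob2 Subgroup

/-- Let G be a finite group and N a proper non-trivial normal subgroup such that for every x outside N all elements of the coset xN have the same order as x. Then N ≤ F(G) or F(G) ≤ N, where F(G) is the Fitting subgroup; and if N is properly contained in F(G) then F(G) has prime-power order. -/
theorem result {G : Type*} [Group G] [Finite G] (N : Subgroup G) [N.Normal] (hN1 : N ≠ ⊥) (hN2 : N ≠ ⊤)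
    (heq : ∀ x : G, x ∉ N → ∀ n ∈ N, orderOf (x * n) = orderOf x) :
    (N ≤ Cfsg.fittingSubgroup G ∨ Cfsg.fittingSubgroup G ≤ N) ∧
    (N < Cfsg.fittingSubgroup G → IsPrimePow (Nat.card (Cfsg.fittingSubgroup G))) := by
  refine ⟨?_, EO.isPrimePow heq hN1⟩
  by_cases hF : fittingSubgroup G ≤ N
  · exact Or.inr hF
  · obtain ⟨p, hp, hπ⟩ := EO.exists_isPi heq hF
    exact Or.inl (CA.Core.le_fitting (hπ.isNilpotent hp))

end Cfsg.Agent.S4107
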