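import Cfsg.Statements.S4108
import Cfsg.Agent.Lib.Grp.H7Cam

set_option autoImplicit false
open Cfsg

namespace Cfsg.Agent.S4108

open CA.H7Cam CA.BG CA.Frob2 Subgroup

/-- Let G be a finite group, p a prime and N a proper non-trivial normal p-subgroup such that for every x outside N all elements of the coset xN have the same order as x. Then every non-trivial subgroup H of G of order prime to p acts fixed-point-freely on N: NH is a Frobenius group with complement H and kernel N. -/
theorem result {G : Type*} [Group G] [Finite G] (N : Subgroup G) [N.Normal] (hN1 : N ≠ ⊥) (hN2 : N ≠ ⊤)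
    (heq : ∀ x : G, x ∉ N → ∀ n ∈ N, orderOf (x * n) = orderOf x)
    (p : ℕ) [Fact p.Prime] (hNp : IsPGroup p N) :
    ∀ H : Subgroup G, H ≠ ⊥ → (Nat.card H).Coprime p →
      Cfsg.IsFrobeniusComplement (H.subgroupOf (N ⊔ H)) ∧ Cfsg.frobeniusKernel (H.subgroupOf (N ⊔ H)) = (N.subgroupOf (N ⊔ H) : Set ↥(N ⊔ H)) := by
  intro H hH hc
  have hp : p.Prime := Fact.out
  have h1 := isPi_of_isPGroup hp hNp
  have h2 := (isPi_compl_iff_coprime hp).2 hc
  refine frob_sub (top_le_norm N H) hN1 hH (semireg_iff.2 fun x hx hx1 k hk e => ?_)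
  refine EO.eq_one heq (fun hxN => hx1 ?_) hk e ((h2.orderOf hx).coprime' (h1.orderOf hk))
  exact PiElt.eq_one (h1.orderOf hxN) (h2.orderOf hx)

end Cfsg.Agent.S4108
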