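import Cfsg.Statements.S4115
import Cfsg.Agent.Lib.Grp.FrobCrit
import Cfsg.Agent.Lib.Grp.L0FT
import Cfsg.Agent.Lib.Char.CharBurn
import Cfsg.Agent.Lib.Grp.Frob2

set_option autoImplicit false
universe u
open Cfsg

namespace Cfsg.Agent.S4115

open Subgroup CA.BG CA.OQuo
open scoped commutatorElement

section
variable {G : Type u} [Group G] [Finite G] {H V R M : Subgroup G}

theorem fc_of_semireg (hn : R ≤ 𝓝(V)) (hV : V ≠ ⊥) (hR : R ≠ ⊥) (h : SemiReg V R) :
    IsFrobeniusComplement (R.subgroupOf (R ⊔ V)) := by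
  haveI : (V.subgroupOf (R ⊔ V)).Normal :=
    (normal_subgroupOf_iff_le_normalizer le_sup_right).2 (sup_le hn (le_norm_self V))
  refine CA.Frob2.isFrob_of_semireg (K := V.subgroupOf (R ⊔ V)) ?_ ?_ ?_ ?_
  · rw [← subgroupOf_sup le_sup_right le_sup_left, sup_comm, subgroupOf_self]
  · rwa [Ne, subgroupOf_eq_bot, disjoint_iff, inf_eq_left.2 le_sup_right]
  · rwa [Ne, subgroupOf_eq_bot, disjoint_iff, inf_eq_left.2 le_sup_left]
  · rw [CA.Frob2.semireg_iff]
    intro x hx x1 k hk e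
    have h1 := h x hx (fun e => x1 (Subtype.ext e))
    have : (k : G) ∈ V ⊓ 𝓒₁((x : G)) := ⟨hk, mem_cent1.2 (congrArg Subtype.val e).symm⟩
    rw [h1, mem_bot] at this
    exact Subtype.ext this

theorem part1 (hTI : IsTISubset (H : Set G)) (hHall : (♯H).Coprime (H.subgroupOf 𝓝(H)).index)
    (K : Subgroup 𝓝(H)) (hK : K.Normal) (hc : K.IsComplement' (H.subgroupOf 𝓝(H))) :
    ∃ N : Subgroup G, N.Normal ∧ N.IsComplement' H := by
  haveI : (H.subgroupOf 𝓝(H)).Normal := normal_in_normalizer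
  have hi : K.index = ♯H := by
    rw [hc.symm.index_eq_card]; exact Nat.card_congr (subgroupOfEquivOfLe (le_norm_self H)).toEquiv
  obtain ⟨N, h1, -, h2, h3⟩ := CChar.CharBurn.exists_normal_of_frobenius_wielandt (H := 𝓝(H)) (H₀ := K) (by
    intro x t hx hxN
    have a1 : (t : G) ^ (H.subgroupOf 𝓝(H)).index ∈ H := (H.subgroupOf 𝓝(H)).pow_index_mem t
    have a2 : (x * t * x⁻¹) ^ (H.subgroupOf 𝓝(H)).index ∈ H := (H.subgroupOf 𝓝(H)).pow_index_mem ⟨_, hx⟩
    rw [conj_pow] at a2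
    have a3 := hTI x hxN _ a1 a2
    have a4 : (⟨_, hx⟩ : 𝓝(H)) ^ (H.subgroupOf 𝓝(H)).index = 1 := by
      apply Subtype.ext
      simp only [Subgroup.coe_pow, conj_pow, a3]; simp
    have a5 := K.pow_index_mem (⟨_, hx⟩ : 𝓝(H))
    rw [hi] at a5
    have a6 : (orderOf (⟨_, hx⟩ : 𝓝(H))).Coprime ♯H :=
      Nat.Coprime.coprime_dvd_left (orderOf_dvd_of_pow_eq_one a4) hHall.symm
    obtain ⟨m, hm⟩ := exists_pow_eq_self_of_coprime a6.symm
    rw [← hm]; exact K.pow_mem a5 m)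
  refine ⟨N, h1, isComplement'_of_disjoint_and_mul_eq_univ ?_ ?_⟩
  · rw [disjoint_def]
    intro x hx hxH
    have : (⟨x, le_norm_self H hxH⟩ : 𝓝(H)) ∈ K := h2 ▸ hx
    exact congrArg Subtype.val (disjoint_def.1 hc.disjoint this hxH)
  · rw [← normal_mul, ← coe_top, SetLike.coe_set_eq, eq_top_iff, ← h3]
    refine sup_le le_sup_left fun x hx => ?_
    obtain ⟨⟨k, h⟩, e⟩ := hc.2 ⟨x, hx⟩
    have hk : (k : 𝓝(H)) ∈ N.subgroupOf 𝓝(H) := h2 ▸ k.2
    have e' : ((k : 𝓝(H)) : G) * (h : 𝓝(H)) = x := congrArg Subtype.val e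
    rw [← e']
    exact mul_mem (mem_sup_left hk) (mem_sup_right h.2)

theorem part2 (hTI : IsTISubset (H : Set G)) (hHall : (♯H).Coprime (H.subgroupOf 𝓝(H)).index)
    (hH : ¬ H.Normal) [M.Normal] (hc : M.IsComplement' H) :
    ∃ (F : Type u) (_ : Group F) (_ : Finite F) (C : Subgroup F), IsFrobeniusComplement C ∧ Nonempty (H ≃* C) := by
  have hHM : H ≤ 𝓝(M) := by rw [normalizer_eq_top]; exact le_top
  have hd : M ⊓ H = ⊥ := disjoint_iff.1 hc.disjoint
  have ti : ∀ g, ∀ x ∈ H, x ≠ 1 → g * x * g⁻¹ ∈ H → g ∈ 𝓝(H) := fun g x hx x1 h => by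
    by_contra hg; exact x1 (hTI g hg x hx h)
  have hH1 : H ≠ ⊥ := fun e => hH (e ▸ inferInstance)
  have hcop : (♯M).Coprime ♯H := by
    rw [← hc.index_eq_card]
    refine Nat.coprime_of_dvd fun p hp h1 h2 => ?_
    obtain ⟨P, hP⟩ := syl_exists hp H
    obtain ⟨x, hx, x1⟩ := exists_ne_one (hP.ne_bot hp rfl h2)
    have a1 : Syl p P 𝓝(H) := hP.of_idx (le_norm_self H)
      ((piNat_compl_iff hp).2 (not_dvd_of_coprime hp hHall h2))
    have a2 : Syl p P ⊤ := a1.syl_of_norm_le hp le_top fun g hg =>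
      ti g x (hP.le hx) x1 (hP.le (conj_mem_of_mem_norm hg.2 hx))
    have a3 := (piNat_compl_iff hp).1 (a2.le_of_idx hP.le)
    rw [relIndex_top_right] at a3
    exact a3 h1
  have hs := CA.L0FT.solv_or hcop.symm
  have prim : ∀ x ∈ H, x ≠ 1 → M ⊓ 𝓒₁(x) ≤ 𝓒(H) := by
    intro x hx x1 c hc
    have : c ∈ M ⊓ 𝓝(H) := ⟨hc.1, ti c x hx x1 (by rw [mem_cent1.1 hc.2]; simpa using hx)⟩
    rw [disjoint_norm_cent hHM hd] at this
    exact this.2
  obtain ⟨r, hr, R, hR, hRn, hRC⟩ : ∃ r, r.Prime ∧ ∃ R, Syl r R M ∧ H ≤ 𝓝(R) ∧ ¬ R ≤ 𝓒(H) := by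
    by_contra hn
    push Not at hn
    apply hH
    have : M ≤ 𝓒(H) := le_of_forall_syl fun r hr _ => by
      obtain ⟨R, h1, h2⟩ := coprime_Sylow_exists hr hHM hcop hs
      exact ⟨R, h1, hn r hr R h1 h2⟩
    rw [← normalizer_eq_top_iff, eq_top_iff, ← hc.sup_eq_top]
    exact sup_le (norm_of_cent this) (le_norm_self H)
  have c1 : (♯R).Coprime ♯H := cop_mono hcop hR.le le_rfl
  set W := ⁅R, H⁆ with hW
  have hWR : W ≤ R := comm_le_left hRn
  have hWp := hR.pi.of_le hWR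
  have hWW : ⁅W, H⁆ = W := coprime_commGid hRn c1 (Or.inr (hR.pi.isSolvable hr))
  have hW1 : W ≠ ⊥ := fun e => hRC (comm_eq_bot_iff.1 e)
  have hHW : H ≤ 𝓝(W) := le_norm_comm_right _ _
  have c2 : (♯W).Coprime ♯H := cop_mono c1 hWR le_rfl
  have n1 : H ≤ 𝓝(Phi W) := hHW.trans (norm_Phi W)
  have n2 := le_norm_Phi W
  have v1 : W /ᵍ Phi W ≠ ⊥ := by
    rw [Ne, quo_eq_bot_iff n2]; exact (Phi_lt hW1).not_ge
  have v3 : IsMulCommutative (W /ᵍ Phi W) := (Phi_quo_abelem hr hWp).1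
  have v4 : ⁅W /ᵍ Phi W, H /ᵍ Phi W⁆ = W /ᵍ Phi W := by rw [← quo_comm n2 n1, hWW]
  have v5 : H /ᵍ Phi W ≤ 𝓝(W /ᵍ Phi W) := norm_quo _ hHW
  have v6 := coprime_abel_cent_eq_bot v5 (coprime_mim c2) v3 v4
  have d1 : H ⊓ Phi W = ⊥ := inf_eq_bot_of_cop (cop_mono c2.symm le_rfl (Phi_le W))
  have v7 : H /ᵍ Phi W ≠ ⊥ := by
    rw [Ne, quo_eq_bot_iff n1, ← inf_eq_left, d1]; exact hH1.symm
  have v8 : SemiReg (W /ᵍ Phi W) (H /ᵍ Phi W) := by
    intro y hy y1
    obtain ⟨x, hx, rfl⟩ := (mem_mim_of_le n1).1 hy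
    have x1 : x ≠ 1 := fun e => y1 (by rw [e, mel_one])
    rw [← cop_quo_cent1 (n1 hx) n2 (hHW hx)
      ((cop_mono c2 inf_le_left le_rfl).coprime_dvd_right (orderOf_dvd_card_of_mem hx)), eq_bot_iff, ← v6]
    refine le_inf (mim_mono _ inf_le_left) (cent_quo _ ?_)
    exact (inf_le_inf_right _ (hWR.trans hR.le)).trans (prim x hx x1)
  exact ⟨_, inferInstance, inferInstance, _, fc_of_semireg v5 v1 v7 v8,
    ⟨(quoEquiv n1 d1).trans (subgroupOfEquivOfLe le_sup_left).symm⟩⟩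

end

/-- Let G be a finite group and H a subgroup that meets each of its conjugates by elements outside N_G(H) trivially and whose order is coprime to its index in N_G(H). Then H has a normal complement in N_G(H) if and only if H has a normal complement in G. Moreover, if H is not normal in G and has a normal complement in N_G(H), then H is isomorphic to a Frobenius complement of some finite Frobenius group. -/
theorem result {G : Type u} [Group G] [Finite G] (H : Subgroup G)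
    (hTI : Cfsg.IsTISubset (H : Set G)) (hHall : (Nat.card H).Coprime (H.subgroupOf (Subgroup.normalizer (H : Set G))).index) :
    ((∃ K : Subgroup (Subgroup.normalizer (H : Set G)), K.Normal ∧ K.IsComplement' (H.subgroupOf (Subgroup.normalizer (H : Set G)))) ↔
      (∃ N : Subgroup G, N.Normal ∧ N.IsComplement' H)) ∧
    (¬ H.Normal → (∃ K : Subgroup (Subgroup.normalizer (H : Set G)), K.Normal ∧ K.IsComplement' (H.subgroupOf (Subgroup.normalizer (H : Set G)))) →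
      ∃ (F : Type u) (_ : Group F) (_ : Finite F) (C : Subgroup F), Cfsg.IsFrobeniusComplement C ∧ Nonempty (H ≃* C)) := by
  refine ⟨⟨fun ⟨K, h1, h2⟩ => part1 hTI hHall K h1 h2, fun ⟨N, h1, h2⟩ => ?_⟩, fun hn ⟨K, h1, h2⟩ => ?_⟩
  · refine ⟨N.subgroupOf _, inferInstance, isComplement'_of_disjoint_and_mul_eq_univ ?_ ?_⟩
    · rw [disjoint_def]
      intro x hx hxH
      exact Subtype.ext (disjoint_def.1 h2.disjoint hx hxH)
    · rw [Set.eq_univ_iff_forall]
      intro x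
      obtain ⟨⟨k, h⟩, e⟩ := h2.2 x
      have e' : (k : G) * h = x := e
      have hk : (k : G) ∈ 𝓝(H) := by
        rw [eq_mul_inv_of_mul_eq e']; exact mul_mem x.2 (inv_mem (le_norm_self H h.2))
      exact ⟨⟨k, hk⟩, k.2, ⟨h, le_norm_self H h.2⟩, h.2, Subtype.ext e'⟩
  · obtain ⟨N, h3, h4⟩ := part1 hTI hHall K h1 h2
    exact part2 hTI hHall hn h4

end Cfsg.Agent.S4115
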