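import Cfsg.Statements.S4116
import Cfsg.Agent.Lib.Odd.BGMisc
import Cfsg.Agent.Lib.Grp.Frob

set_option autoImplicit false
open Cfsg

namespace Cfsg.Agent.S4116

open Subgroup CA.BG CA.OQuo

/-- Let G be a finite group with a subgroup H whose order is coprime to its index (a Hall subgroup) and which meets each of its conjugates by elements outside N_G(H) trivially. Then every subgroup of G whose order is divisible only by primes dividing the order of H lies in a conjugate of H. -/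
theorem result {G : Type*} [Group G] [Finite G] (H : Subgroup G)
    (hHall : (Nat.card H).Coprime H.index) (hTI : Cfsg.IsTISubset (H : Set G))
    (K : Subgroup G) (hK : ∀ q : ℕ, q.Prime → q ∣ Nat.card K → q ∣ Nat.card H) :
    ∃ g : G, K ≤ H.map (MulAut.conj g).toMonoidHom := by
  classical
  set π := primesOf H with hπ
  have hH : Hall π H ⊤ := Hall.mk' le_top (isPi_primesOf H) (by
    rw [relIndex_top_right]
    intro q hq hd hm
    exact not_dvd_of_coprime hq hHall hm.2 hd)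
  have hKπ : IsPi π K := fun q hq hd => ⟨hq, hK q hq hd⟩
  have inH : ∀ x ∈ K, ∀ g : G, g⁻¹ * x * g ∈ 𝓝(H) → g⁻¹ * x * g ∈ H := by
    intro x hx g hg
    refine (hH.of_le le_normalizer le_top).mem_of_normal le_rfl hg ?_
    have : orderOf (g⁻¹ * x * g) = orderOf x := by
      have := orderOf_injective (MulAut.conj g⁻¹).toMonoidHom (MulAut.conj g⁻¹).injective x
      simpa using this
    rw [this]; exact hKπ.orderOf hx
  have uniq : ∀ x : G, x ≠ 1 → ∀ a b : G, a⁻¹ * x * a ∈ H → b⁻¹ * x * b ∈ H → a⁻¹ * b ∈ 𝓝(H) := by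
    intro x hx a b ha hb
    by_contra hc
    have := hTI _ hc _ hb (by
      have e : a⁻¹ * b * (b⁻¹ * x * b) * (a⁻¹ * b)⁻¹ = a⁻¹ * x * a := by group
      rw [e]; exact ha)
    apply hx
    calc x = b * (b⁻¹ * x * b) * b⁻¹ := by group
      _ = 1 := by rw [this]; group
  obtain ⟨α, hα⟩ := CA.Frob.exists_fixed_of_existsUnique (G := K) (Ω := G ⧸ 𝓝(H)) (by
    rintro ⟨x, hx⟩ hx1 α β h1 h2
    obtain ⟨a, rfl⟩ := QuotientGroup.mk_surjective α
    obtain ⟨b, rfl⟩ := QuotientGroup.mk_surjective β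
    have hx1' : x ≠ 1 := fun e => hx1 (Subtype.ext e)
    have h3 := inH x hx a (CA.Frob.smul_mk_eq_iff.1 h1)
    have h4 := inH x hx b (CA.Frob.smul_mk_eq_iff.1 h2)
    exact QuotientGroup.eq.2 (uniq x hx1' a b h3 h4)) (by
    rintro ⟨x, hx⟩
    by_cases hx1 : x = 1
    · exact ⟨((1 : G) : G ⧸ 𝓝(H)), by subst hx1; exact one_smul K _⟩
    have ho : orderOf x ≠ 1 := by rwa [Ne, orderOf_eq_one_iff]
    obtain ⟨p, hp, hd⟩ := Nat.exists_prime_and_dvd ho
    set y := x ^ (orderOf x / p) with hy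
    have hyo : orderOf y = p := orderOf_pow_orderOf_div (orderOf_pos x).ne' hd
    have hy1 : y ≠ 1 := by intro e; rw [e, orderOf_one] at hyo; exact hp.one_lt.ne hyo
    have hpπ : p ∈ π := hKπ.orderOf hx p hp hd
    obtain ⟨P, hP, hPH⟩ := hH.exists_syl_le hp hpπ
    obtain ⟨g, -, hg⟩ := hP.syl_le_conj hp (K := zpowers y)
      (isPi_of_card_eq hp (by rw [Nat.card_zpowers, hyo])) le_top
    have h1 : g⁻¹ * y * g ∈ H := hPH (mem_cj.1 (hg (mem_zpowers y)))
    refine ⟨(g : G ⧸ 𝓝(H)), CA.Frob.smul_mk_eq_iff.2 ?_⟩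
    have h2 : (x * g)⁻¹ * y * (x * g) ∈ H := by
      have e : (x * g)⁻¹ * y * (x * g) = g⁻¹ * y * g := by rw [hy]; group
      rw [e]; exact h1
    have := uniq y hy1 g (x * g) h1 h2
    rwa [← mul_assoc] at this)
  obtain ⟨g, rfl⟩ := QuotientGroup.mk_surjective α
  refine ⟨g, fun x hx => ?_⟩
  have := inH x hx g (CA.Frob.smul_mk_eq_iff.1 (hα ⟨x, hx⟩))
  exact ⟨_, this, by simp [mul_assoc]⟩

end Cfsg.Agent.S4116
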