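import Cfsg.Statements.S4117
import Cfsg.Agent.Lib.Odd.BG4x3
import Cfsg.Agent.Lib.Odd.BG4x2
import Cfsg.Agent.Lib.Grp.CoprimeAct

set_option autoImplicit false
open Cfsg

namespace Cfsg.Agent.S4117

section
open Subgroup CA.BG CA.OQuo CA.BG4 CA.CoprimeAct
variable {Γ : Type*} [Group Γ] [Finite Γ] {A K : Subgroup Γ}

theorem aux (hn : A ≤ 𝓝(K)) (hc : (♯K).Coprime ♯A) (hZ : IsZGroup K) :
    IsCyclic ↥⁅K, A⁆ ∧ ⁅K, A⁆ ⊓ 𝓒(A) = ⊥ ∧ (♯(K ⊓ 𝓒(A) : Subgroup Γ)).Coprime ♯⁅K, A⁆ := by
  have hs := Zgroup_solvable hZ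
  have hRK : ⁅K, A⁆ ≤ K := CA.Coprime.commutator_le_left hn
  have hRR := coprime_commGid hn hc (Or.inr hs)
  have hnR : A ≤ 𝓝(⁅K, A⁆) := le_norm_comm_right _ _
  set R := ⁅K, A⁆
  have hZR : IsZGroup R := Zgroup_iff.2 fun p hp P h1 h2 => Zgroup_iff.1 hZ p hp P (h1.trans hRK) h2
  have hcR : (♯R).Coprime ♯A := hc.coprime_dvd_left (card_dvd hRK)
  have h1 : R ⊔ A ≤ 𝓝(⁅R, R⁆) :=
    sup_le (le_norm_comm_left _ _) (CA.Coprime.le_normalizer_commutator hnR hnR)
  have h2 : R ≤ 𝓒(⁅R, R⁆) :=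
    hRR.ge.trans ((comm_mono le_sup_left le_sup_right).trans (der_cent_cyc (Zgroup_der1_cyclic hZR) h1))
  have hab : IsMulCommutative R := cyclic_factor_abelian h2 (Zgroup_cycMod hZR)
  have h3 : R ⊓ 𝓒(A) = ⊥ := by
    have := coprime_abel_cent_TI hnR hcR hab
    rwa [hRR] at this
  refine ⟨nil_Zgroup_cyclic hZR (nil_of_comm hab), h3, ?_⟩
  refine Nat.Coprime.symm (Nat.coprime_of_dvd' fun p hp d1 d2 => ?_)
  exfalso
  obtain ⟨Q, hQ, nQ⟩ := coprime_Sylow_exists hp hnR hcR (Or.inr (solv_of_comm hab))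
  obtain ⟨P, hP, nP, hQP⟩ := coprime_Sylow_subset hp hn hc (Or.inr hs) (hQ.le.trans hRK) hQ.pi nQ
  have h4 := coprime_Sylow_cent hp hn hc (Or.inr hs) hP nP
  have h5 := coprime_cyc_cent nP (hc.coprime_dvd_left (card_dvd hP.le))
    (Zgroup_iff.1 hZ p hp P hP.le hP.pi) hP.pi (h4.ne_bot hp rfl d2)
  exact hQ.ne_bot hp rfl d1 (CA.BG.eq_bot_mono (le_inf hQ.le (hQP.trans (cent_symm h5))) h3)

theorem aux2 {G A : Type*} [Group G] [Finite G] [Group A] [Finite A] [MulDistribMulAction A G]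
    (hcop : (Nat.card A).Coprime (Nat.card G)) [IsZGroup G] :
    IsCyclic (CA.Act.comm A G) ∧ CA.Act.comm A G ⊓ FixedPoints.subgroup A G = ⊥ ∧
      (Nat.card (FixedPoints.subgroup A G)).Coprime (Nat.card (CA.Act.comm A G)) := by
  have inj : Function.Injective (SemidirectProduct.inl : G →* SD A G) :=
    SemidirectProduct.inl_injective
  have hZ' : IsZGroup ((⊤ : Subgroup G).map (SemidirectProduct.inl : G →* SD A G)) :=
    IsZGroup.of_surjective (f := ((⊤ : Subgroup G).equivMapOfInjective _ inj).toMonoidHom)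
      (MulEquiv.surjective _)
  have hn := le_normalizer_top (K := G) (⊤ : Subgroup A)
  obtain ⟨h1, h2, h3⟩ := aux hn (cop_map (cop_sub hcop ⊤)).symm hZ'
  have h5 := CA.Coprime.commutator_le_left hn
  rw [← inf_eq_left.2 h5, inf_assoc, inf_centralizer_top, commutator_top_top,
    ← map_inf _ _ _ inj, map_eq_bot_iff_of_injective _ inj] at h2
  rw [inf_centralizer_top, commutator_top_top, card_map_inl, card_map_inl] at h3
  rw [commutator_top_top] at h1
  exact ⟨isCyclic_of_injective ((CA.Act.comm A G).equivMapOfInjective _ inj).toMonoidHom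
      (MulEquiv.injective _), h2, h3⟩

end

open Subgroup CA.BG CA.OQuo CA.CoprimeAct SemidirectProduct in

/-- Let A be a finite group acting on the finite group G by automorphisms with the orders of A and G coprime, and suppose every Sylow subgroup of G is cyclic. Then the fixed-point subgroup C_G(A) is a Hall subgroup of G (its order is coprime to its index), the subgroup [G, A] generated by the elements g⁻¹·a(g) is cyclic and normal with [G, A] ∩ C_G(A) = 1 and [G, A]·C_G(A) = G. -/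
theorem result {G A : Type*} [Group G] [Finite G] [Group A] [Finite A]
    [MulDistribMulAction A G] (hcop : (Nat.card A).Coprime (Nat.card G))
    (hcyc : ∀ (p : ℕ) [Fact p.Prime] (P : Sylow p G), IsCyclic (P : Subgroup G)) :
    (Nat.card (MulAction.fixedPoints A G : Set G)).Coprime (Nat.card G / Nat.card (MulAction.fixedPoints A G : Set G)) ∧
    IsCyclic (Subgroup.closure {y : G | ∃ (a : A) (g : G), y = g⁻¹ * a • g}) ∧
    (Subgroup.closure {y : G | ∃ (a : A) (g : G), y = g⁻¹ * a • g}).Normal ∧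
    (Subgroup.closure {y : G | ∃ (a : A) (g : G), y = g⁻¹ * a • g} : Set G) ∩ MulAction.fixedPoints A G = {1} ∧
    Subgroup.closure {y : G | ∃ (a : A) (g : G), y = g⁻¹ * a • g} ⊔ Subgroup.closure (MulAction.fixedPoints A G) = ⊤ := by
  haveI hZ : IsZGroup G := ⟨fun p hp P => by haveI := Fact.mk hp; exact hcyc p P⟩
  have hs : Group.IsSolvable G := inferInstance
  obtain ⟨h1, h4, h3⟩ := aux2 hcop
  have hsup := comm_sup_fixed hcop (Or.inr hs)
  have hN : (CA.Act.comm A G).Normal := CA.Act.comm_normal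
  have e0 : MulAction.fixedPoints A G = (FixedPoints.subgroup A G : Set G) := rfl
  rw [← CA.Act.comm_def, e0, closure_eq]
  refine ⟨?_, h1, hN, ?_, hsup⟩
  · have hc : IsComplement' (CA.Act.comm A G) (FixedPoints.subgroup A G) :=
      isComplement'_of_disjoint_and_mul_eq_univ (disjoint_iff.2 h4)
        (by rw [← normal_mul, hsup, coe_top])
    rw [← hc.card_mul]
    change Nat.Coprime (Nat.card (FixedPoints.subgroup A G)) (_ / Nat.card (FixedPoints.subgroup A G))
    rw [Nat.mul_div_cancel _ Nat.card_pos]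
    exact h3
  · rw [← coe_inf, h4, coe_bot]

end Cfsg.Agent.S4117
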