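import Cfsg.Statements.S4118
import Mathlib
import Cfsg.Agent.Lib.Perm.FcMain
import Cfsg.Agent.Lib.Grp.L0FT
import Cfsg.Agent.Lib.Grp.H1SZ
import Cfsg.Agent.Lib.Perm.FcStruct

set_option autoImplicit false
open Cfsg

namespace Cfsg.Agent.S4118

open Subgroup CA.Fc CA.FcStruct CA.Frob CA.Frob2 CA.Core CA.Fitting CA.SylIn
open scoped commutatorElement

theorem le_cent_of_cyclic {X : Type*} [Group X] {A D : Subgroup X} [A.Normal] [hA : IsCyclic A]
    (hD : ⁅D, D⁆ = D) : ⁅A, D⁆ = ⊥ := by
  rw [commutator_comm, commutator_eq_bot_iff_le_centralizer, ← ker_conjN]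
  have := isSolvable_of_equiv (IsCyclic.mulAutMulEquiv A).symm inferInstance
  exact le_ker_of_perfect hD _ inferInstance

theorem cent_of_z {X : Type*} [Group X] [Finite X] {H D : Subgroup X} [H.Normal] [IsZGroup H]
    (hD : ⁅D, D⁆ = D) : ⁅H, D⁆ = ⊥ := by
  have c1 : IsCyclic (⁅H, H⁆ : Subgroup X) := by
    have := IsZGroup.isCyclic_commutator H
    rw [← map_subtype_commutator]
    exact isCyclic_of_surjective _ (H.subtype.subgroupMap_surjective _)
  have c2 : IsCyclic (H.map (QuotientGroup.mk' ⁅H, H⁆)) := by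
    have : IsZGroup (H.map (QuotientGroup.mk' ⁅H, H⁆)) :=
      IsZGroup.of_surjective ((QuotientGroup.mk' ⁅H, H⁆).subgroupMap_surjective H)
    have : Group.IsNilpotent (H.map (QuotientGroup.mk' ⁅H, H⁆)) := isNilpotent_of_isMulCommutative (by
      rw [← commutator_self_eq_bot_iff, ← Subgroup.map_commutator, Subgroup.map_eq_bot_iff,
        QuotientGroup.ker_mk'])
    infer_instance
  have : (H.map (QuotientGroup.mk' ⁅H, H⁆)).Normal := Normal.map inferInstance _ (QuotientGroup.mk'_surjective _)
  have e := le_cent_of_cyclic (A := H.map (QuotientGroup.mk' ⁅H, H⁆)) (D := D.map (QuotientGroup.mk' ⁅H, H⁆))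
    (by rw [← Subgroup.map_commutator, hD])
  rw [← Subgroup.map_commutator, Subgroup.map_eq_bot_iff, QuotientGroup.ker_mk'] at e
  exact commutator_eq_bot_of_perfect hD (eq_bot_iff.2 ((commutator_mono e le_rfl).trans
    (le_cent_of_cyclic hD).le))

theorem eq_bot_of_central {X : Type*} [Group X] [Finite X] [Group.IsPerfect X] {A : Subgroup X}
    (hA : A ≤ center X) (hc : (Nat.card A).Coprime A.index) : A = ⊥ := by
  have : A.Normal := ⟨fun a ha g => by rwa [mem_center_iff.1 (hA ha) g, mul_inv_cancel_right]⟩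
  obtain ⟨E, hE⟩ := exists_right_complement'_of_coprime hc
  have : commutator X ≤ E := by
    rw [_root_.commutator_def, commutator_le]
    intro x _ y _
    obtain ⟨⟨a, e⟩, rfl⟩ := hE.2 x
    obtain ⟨⟨b, f⟩, rfl⟩ := hE.2 y
    have ha := mem_center_iff.1 (hA a.2)
    have hb := mem_center_iff.1 (hA b.2)
    have : ⁅(a : X) * e, (b : X) * f⁆ = e * f * (e : X)⁻¹ * (f : X)⁻¹ := by
      have h1 : ∀ g : X, a * g * (a : X)⁻¹ = g := fun g => by rw [← ha, mul_inv_cancel_right]
      have h2 : ∀ g : X, b * g * (b : X)⁻¹ = g := fun g => by rw [← hb, mul_inv_cancel_right]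
      rw [commutatorElement_def, show (a : X) * e * (b * f) * ((a : X) * e)⁻¹ = a * (e * (b * f) * (e : X)⁻¹) *
        (a : X)⁻¹ by group, h1, ← mul_assoc (e : X), hb, ← h2 (e * f * (e : X)⁻¹ * (f : X)⁻¹)]
      group
    rw [this]
    exact E.mul_mem (E.mul_mem (E.mul_mem e.2 f.2) (E.inv_mem e.2)) (E.inv_mem f.2)
  rw [Group.IsPerfect.commutator_eq_top, top_le_iff] at this
  have d := hE.disjoint
  rwa [this, disjoint_top] at d

theorem fc_of {G : Type*} [Group G] [Finite G] {H P : Subgroup G} {p : ℕ} [Fact p.Prime] (hP : IsPGroup p P)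
    (hn : H ≤ normalizer (P : Set G)) (hc : (Nat.card H).Coprime (Nat.card P))
    (h1 : ¬ P ≤ centralizer (H : Set G))
    (h2 : ∀ h ∈ H, h ≠ 1 → ∀ u ∈ P, h * u = u * h → u ∈ centralizer (H : Set G)) : FC H := by
  obtain ⟨Q, hQ⟩ : ∃ Q, Q = P ⊓ centralizer (H : Set G) := ⟨_, rfl⟩
  have QP : Q < P := by rw [hQ]; exact inf_lt_left.2 h1
  have HQ : H ≤ centralizer (Q : Set G) := by rw [le_centralizer_iff, hQ]; exact inf_le_right
  have HL : H ≤ normalizer (Q : Set G) := HQ.trans (Subgroup.centralizer_le_normalizer _)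
  let f := QuotientGroup.mk' (Q.subgroupOf (normalizer (Q : Set G)))
  let ψ := f.comp (inclusion HL)
  have key : ∀ h ∈ H, ∀ u ∈ P, u⁻¹ * (h * u * h⁻¹) ∈ Q → h * u = u * h := by
    intro h hh u hu e
    obtain ⟨c, hc'⟩ : ∃ c, c = u⁻¹ * (h * u * h⁻¹) := ⟨_, rfl⟩
    rw [← hc'] at e
    have : ∀ n : ℕ, h ^ n * u * (h ^ n)⁻¹ = u * c ^ n := fun n => by
      induction n with
      | zero => simp
      | succ n ih =>
        have cm : c ^ n * h = h * c ^ n := HQ hh _ (Q.pow_mem e n)
        rw [pow_succ', show h * h ^ n * u * (h * h ^ n)⁻¹ = h * (h ^ n * u * (h ^ n)⁻¹) * h⁻¹ by group, ih,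
          pow_succ', ← mul_assoc u, hc', mul_inv_cancel_left, ← hc', mul_assoc _ h⁻¹, ← mul_assoc h,
          mul_assoc (h * u), ((show Commute (c ^ n) h from cm).inv_right).eq]
    have e1 := this (orderOf h)
    rw [pow_orderOf_eq_one, one_mul, inv_one, mul_one, left_eq_mul] at e1
    have : c = 1 := orderOf_eq_one_iff.1 (Nat.eq_one_of_dvd_coprimes hc ((orderOf_dvd_of_pow_eq_one e1).trans
      (H.orderOf_dvd_natCard hh)) (P.orderOf_dvd_natCard (QP.le e)))
    rw [this, eq_inv_mul_iff_mul_eq, mul_one, eq_mul_inv_iff_mul_eq] at hc'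
    exact hc'.symm
  have hψ : Function.Injective ψ := (injective_iff_map_eq_one _).2 fun a ha => by
    have : (a : G) ∈ Q := (QuotientGroup.eq_one_iff (inclusion HL a)).1 ha
    exact Subtype.ext (orderOf_eq_one_iff.1 (Nat.eq_one_of_dvd_coprimes hc (H.orderOf_dvd_natCard a.2)
      (P.orderOf_dvd_natCard (QP.le this))))
  refine (of_semireg (K := (P.subgroupOf (normalizer (Q : Set G))).map f) (H := ψ.range)
    (semireg_iff.2 ?_) ?_ ?_).of_injective ψ.rangeRestrict (ψ.rangeRestrict_injective_iff.2 hψ)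
  · rintro _ ⟨a, rfl⟩ a1 _ ⟨u, hu, rfl⟩ e
    have e' : (u : G)⁻¹ * (a * u * (a : G)⁻¹) ∈ Q := by
      have : f (u⁻¹ * (inclusion HL a * u * (inclusion HL a)⁻¹)) = 1 := by
        rw [map_mul, map_mul, map_mul, map_inv, map_inv, show f (inclusion HL a) = ψ a from rfl, e]; group
      exact (QuotientGroup.eq_one_iff (u⁻¹ * (inclusion HL a * u * (inclusion HL a)⁻¹))).1 this
    refine (QuotientGroup.eq_one_iff _).2 (show (u : G) ∈ Q from ?_)
    exact hQ.ge ⟨hu, h2 a a.2 (fun e => a1 (by rw [show a = 1 from Subtype.ext e, map_one])) u hu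
      (key a a.2 u hu e')⟩
  · rintro _ ⟨a, rfl⟩
    refine mem_normalizer_of_forall ?_
    rintro _ ⟨u, hu, rfl⟩
    exact ⟨inclusion HL a * u * (inclusion HL a)⁻¹, conj_mem_of_mem_normalizer (x := (u : G)) (hn a.2) hu, by
      rw [map_mul, map_mul, map_inv]; rfl⟩
  · rw [Ne, Subgroup.map_eq_bot_iff, QuotientGroup.ker_mk']
    intro hle
    exact (lt_inf_normalizer hP QP).not_ge fun x hx => hle (show (⟨x, hx.2⟩ : normalizer (Q : Set G)) ∈ _ from hx.1)

/-- Let G be a finite group and H a non-normal subgroup meeting each of its conjugates by elements outside N_G(H) trivially, with the order of H coprime to its index in N_G(H); let π be the set of primes dividing the order of H and suppose G is π-separable (it has a chain of normal subgroups from 1 to G each of whose factors has order divisible only by primes in π or coprime to the order of H). Let O be the largest normal subgroup of G of order coprime to the order of H. Then G = O·N_G(H), O·H is normal in G, and G is solvable if and only if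 O is solvable and H has no subgroup isomorphic to SL₂(5). -/
theorem result {G : Type*} [Group G] [Finite G] (H : Subgroup G)
    (hTI : Cfsg.IsTISubset (H : Set G)) (hnn : ¬ H.Normal)
    (hHall : (Nat.card H).Coprime (H.subgroupOf (Subgroup.normalizer (H : Set G))).index)
    (hsep : ∃ (n : ℕ) (M : Fin (n + 1) → Subgroup G), M 0 = ⊥ ∧ M (Fin.last n) = ⊤ ∧ Monotone M ∧ (∀ i, (M i).Normal) ∧
      ∀ i : Fin n, (∀ q : ℕ, q.Prime → q ∣ (M i.castSucc).relIndex (M i.succ) → q ∣ Nat.card H) ∨
        ((M i.castSucc).relIndex (M i.succ)).Coprime (Nat.card H))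
    (O : Subgroup G) (hO : O = sSup {K : Subgroup G | K.Normal ∧ (Nat.card K).Coprime (Nat.card H)}) :
    O ⊔ Subgroup.normalizer (H : Set G) = ⊤ ∧ (O ⊔ H).Normal ∧
    (Group.IsSolvable G ↔ Group.IsSolvable O ∧
      ∀ K : Subgroup G, K ≤ H → ¬ Nonempty (K ≃* Matrix.SpecialLinearGroup (Fin 2) (ZMod 5))) := by
  change O = Cfsg.pPrimeCore (Nat.card H) G at hO
  have cO : (Nat.card O).Coprime (Nat.card H) := hO ▸ coprime_pPrimeCore
  have : O.Normal := hO ▸ inferInstance
  have leO : ∀ K : Subgroup G, K.Normal → (Nat.card K).Coprime (Nat.card H) → K ≤ O := fun K _ h =>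
    hO ▸ le_pPrimeCore h
  have TI : ∀ A : Subgroup G, A ≤ H → A ≠ ⊥ → normalizer (A : Set G) ≤ normalizer (H : Set G) := by
    intro A hA A1 g hg
    by_contra hn
    obtain ⟨⟨x, hx⟩, x1⟩ := ne_bot_iff_exists_ne_one.1 A1
    exact x1 (Subtype.ext (hTI g hn x (hA hx) (hA (conj_mem_of_mem_normalizer hg hx))))
  have hall : (Nat.card H).Coprime H.index := Nat.coprime_of_dvd fun p hp h1 h2 => by
    have := Fact.mk hp
    obtain ⟨T, hT⟩ := exists_isSylowIn p H
    have T1 : T ≠ ⊥ := fun e => hT.not_dvd (by rw [e, relIndex_bot_left]; exact h1)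
    have hTN : IsSylowIn p T (normalizer (H : Set G)) := isSylowIn_iff.2 ⟨hT.le.trans le_normalizer,
      hT.isPGroup, by
        rw [← relIndex_mul_relIndex T H _ hT.le le_normalizer, hp.dvd_mul]
        rintro (h | h)
        exacts [hT.not_dvd h, hp.one_lt.ne' (Nat.eq_one_of_dvd_coprimes hHall h1 h)]⟩
    obtain ⟨P, hP⟩ := hT.isPGroup.exists_le_sylow
    rcases hP.eq_or_lt with e | e
    · exact P.not_dvd_index (h2.trans (index_dvd_of_le (e ▸ hT.le)))
    · have l := lt_inf_normalizer P.2 e
      exact l.ne' (hTN.eq_of_le (P.2.to_le inf_le_left) l.le (inf_le_right.trans (TI T hT.le T1)))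
  have H1 : H ≠ ⊥ := fun e => hnn (e ▸ inferInstance)
  have O1 : O ≠ ⊤ := fun e => H1 (card_eq_one.1 (Nat.eq_one_of_dvd_coprimes cO
    (by rw [e, card_top]; exact card_subgroup_dvd_card H) dvd_rfl))
  obtain ⟨R, Rn, hR1, hR⟩ : ∃ R : Subgroup G, R.Normal ∧ ¬ R ≤ O ∧
      ∀ q : ℕ, q.Prime → q ∣ O.relIndex R → q ∣ Nat.card H := by
    obtain ⟨n, M, m0, ml, -, mn, hM⟩ := hsep
    by_contra hcon
    push Not at hcon
    have : ∀ i, M i ≤ O := fun i => by
      induction i using Fin.induction with
      | zero => rw [m0]; exact bot_le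
      | succ i ih =>
        by_contra hi
        have d := relIndex_dvd_of_le_left (M i.succ) ih
        rcases hM i with h | h
        · obtain ⟨q, hq, h1, h2⟩ := hcon _ (mn _) hi
          exact h2 (h q hq (h1.trans d))
        · refine hi (leO _ (mn _) ?_)
          rw [← CA.H1Basic.card_inf_mul_relIndex O]
          exact Nat.Coprime.mul_left (coprime_card_of_le inf_le_left cO) (h.coprime_dvd_left d)
    exact O1 (top_le_iff.1 (ml ▸ this _))
  have top : O ⊔ normalizer (H : Set G) = ⊤ := by
    have e1 : (H ⊓ (R ⊔ O)) ⊔ O = R ⊔ O := by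
      have c1 := (CA.H1Basic.relIndex_normal_dvd_index H (R ⊔ O))
      have c2 : (H ⊓ (R ⊔ O) ⊔ O).relIndex (R ⊔ O) ∣ H.index := by
        refine (relIndex_dvd_of_le_left _ le_sup_left).trans ?_
        rwa [inf_relIndex_right]
      have c3 : (H ⊓ (R ⊔ O) ⊔ O).relIndex (R ⊔ O) ∣ O.relIndex R := by
        rw [← relIndex_sup_right R O]; exact relIndex_dvd_of_le_left _ le_sup_right
      refine le_antisymm (sup_le inf_le_right le_sup_right) (relIndex_eq_one.1 ?_)
      exact Nat.eq_one_iff_not_exists_prime_dvd.2 fun q hq h => hq.one_lt.ne'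
        (Nat.eq_one_of_dvd_coprimes hall (hR q hq (h.trans c3)) (h.trans c2))
    generalize hA : H ⊓ (R ⊔ O) = A at e1
    have AH : A ≤ H := hA ▸ inf_le_left
    have A1 : A ≠ ⊥ := fun e => hR1 (by rw [e, bot_sup_eq] at e1; exact le_sup_left.trans e1.ge)
    have cA : (Nat.card A).Coprime (Nat.card O) := coprime_card_of_le AH cO.symm
    rw [eq_top_iff]
    intro g _
    obtain ⟨a, ha, e⟩ := CA.H1SZ.conj_of_le_sup (H := g •ᶜ A) (K := A) (N := O) cA (CA.L0FT.solv_or cA.symm) (by
      rw [e1, ← conj_eq_of_normal g (R ⊔ O), ← e1]; exact conj_mono g le_sup_left) (card_conj g A)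
    rw [← conj_eq_smul, conj_conj, ← mem_normalizer_iff_conj_eq] at e
    rw [← inv_mul_cancel_left a g]
    exact mul_mem (mem_sup_left (inv_mem ha)) (mem_sup_right (TI A AH A1 e))
  have nrm : ∀ D : Subgroup G, normalizer (H : Set G) ≤ normalizer (D : Set G) → (O ⊔ D).Normal := fun D hD => by
    rw [← normalizer_eq_top_iff, eq_top_iff, ← top]
    exact sup_le (le_sup_left.trans le_normalizer) ((le_inf le_normalizer_of_normal hD).trans
      (inf_normalizer_le_normalizer_sup O D))
  refine ⟨top, nrm H le_rfl, fun _ => ⟨inferInstance, fun K _ ⟨e⟩ => ?_⟩, fun ⟨sO, hK⟩ => ?_⟩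
  · have := CA.SL25.perfect
    have : Nontrivial CA.SL25.S5 := Finite.one_lt_card_iff_nontrivial.1 (by rw [CA.SL25.card_S5]; norm_num)
    exact Group.IsPerfect.not_isSolvable _ (isSolvable_of_equiv e inferInstance)
  have OH : O ⊓ normalizer (H : Set G) ≤ centralizer (H : Set G) :=
    le_centralizer_of_coprime inf_le_right (le_inf le_normalizer_of_normal
      (le_normalizer.trans le_normalizer) |>.trans (inf_normalizer_le_normalizer_inf _ _))
      (coprime_card_of_le inf_le_left cO)
  have fc : FC H := by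
    have : ¬ O ≤ centralizer (H : Set G) := fun hle => hnn (by
      rw [← normalizer_eq_top_iff, eq_top_iff, ← top]
      exact sup_le (hle.trans (Subgroup.centralizer_le_normalizer _)) le_rfl)
    by_contra hf
    refine this (CA.Coprime2.le_of_forall_invariant_sylow (A := H) le_normalizer_of_normal cO.symm
      (Or.inr sO) fun p _ T _ hT hn => ?_)
    by_contra hle
    refine hf (fc_of hT.isPGroup hn (coprime_card_of_le hT.le cO).symm hle fun h hh h1 u hu e => ?_)
    refine OH ⟨hT.le hu, ?_⟩
    by_contra hu'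
    exact h1 (hTI u hu' h hh (by rw [← e, mul_inv_cancel_right]; exact hh))
  have sH : Group.IsSolvable H := by
    by_contra hs
    obtain ⟨S, -, -, -, -, -, -, -, ⟨e⟩, -⟩ := fc.nonsolvable hs
    exact hK (S.map H.subtype) (map_subtype_le S) ⟨(S.equivMapOfInjective _ H.subtype_injective).symm.trans e⟩
  suffices Group.IsSolvable (normalizer (H : Set G)) by
    have := isSolvable_sup_normal (B := O) this sO
    rw [sup_comm, top] at this
    exact isSolvable_of_equiv topEquiv this
  have eH := subgroupOfEquivOfLe (le_normalizer (H := H))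
  by_cases h2 : 2 ∣ Nat.card H
  · have := CA.PF.odd_solvable (_ ⧸ H.subgroupOf (normalizer (H : Set G))) (by
      rw [← Nat.not_even_iff_odd, even_iff_two_dvd]
      exact fun h => absurd (Nat.eq_one_of_dvd_coprimes hHall h2 h) (by norm_num))
    have := isSolvable_of_equiv eH.symm sH
    exact Group.isSolvable_of_ker_le_range (H.subgroupOf (normalizer (H : Set G))).subtype
      (QuotientGroup.mk' (H.subgroupOf (normalizer (H : Set G)))) (by simp)
  have := fc.isZGroup_of_odd h2
  have : IsZGroup (H.subgroupOf (normalizer (H : Set G))) := IsZGroup.of_injective (f := eH.toMonoidHom) eH.injective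
  by_contra hs
  obtain ⟨D, _, D1, pD⟩ := exists_perfect hs
  have c := cent_of_z (H := H.subgroupOf (normalizer (H : Set G))) (isPerfect_iff.1 pD)
  have b := eq_bot_of_central (A := (H.subgroupOf (normalizer (H : Set G))).subgroupOf D) (fun x hx => by
    rw [mem_center_iff]
    exact fun y => Subtype.ext (commutator_eq_bot_iff_le_centralizer.1 c hx y y.2)) (by
      refine Nat.Coprime.of_dvd ?_ (CA.H1Basic.relIndex_normal_dvd_index _ D) hHall
      rw [CA.H1Basic.card_subgroupOf_eq_inf, ← Nat.card_congr eH.toEquiv]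
      exact card_dvd_of_le inf_le_left)
  have cD : (Nat.card D).Coprime (Nat.card H) := by
    have := CA.H1Basic.relIndex_normal_dvd_index (H.subgroupOf (normalizer (H : Set G))) D
    rw [relIndex, b, index_bot] at this
    exact (hHall.coprime_dvd_right this).symm
  have := leO _ (nrm (D.map (normalizer (H : Set G)).subtype) (CA.Rad.le_normalizer_map_subtype D)) (by
    rw [sup_comm]
    exact coprime_card_sup le_normalizer_of_normal (coprime_card_map cD _) cO)
  have := isSolvable_of_le (le_sup_right.trans this) sO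
  have := isSolvable_of_equiv (D.equivMapOfInjective _ (normalizer (H : Set G)).subtype_injective).symm this
  have := (nontrivial_iff_ne_bot D).2 D1
  exact Group.IsPerfect.not_isSolvable D inferInstance

end Cfsg.Agent.S4118
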