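import Cfsg.Statements.S4125
import Cfsg.Agent.Lib.Loc.QBaer2

set_option autoImplicit false
open Cfsg

namespace Cfsg.Agent.S4125

open Subgroup CA.BG CA.QBaer

/-- Let G be a finite group and q a prime dividing its order such that every element of q-power order has a conjugacy class of prime-power size. Then G is q-solvable of q-length 1: there are normal subgroups K ≤ L of G with K of order prime to q, L/K a q-group and L of index prime to q. Moreover there is a prime p such that every element of q-power order has a class of p-power size (one prime serving for all of them), and for a Sylow q-subgroup Q: if p = q then Q is normal with a normal complement (a direct factor), while if p ≠ q then Q is abelian, the product of Q with the largest normal p-subgroup O_p(G) is normal in G, and G/O_{q'}(G) is solvable, where O_{q'}(G) is the largest normal subgroup of order prime to q. -/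
theorem result {G : Type*} [Group G] [Finite G] (q : ℕ) [Fact q.Prime] (hq : q ∣ Nat.card G)
    (hBaer : ∀ x : G, (∃ k : ℕ, orderOf x = q ^ k) → ∃ (r : ℕ) (a : ℕ), r.Prime ∧ (Subgroup.centralizer ({x} : Set G)).index = r ^ a) (Q : Sylow q G) :
    (∃ K L : Subgroup G, K.Normal ∧ L.Normal ∧ K ≤ L ∧ (Nat.card K).Coprime q ∧ (∃ m : ℕ, K.relIndex L = q ^ m) ∧ L.index.Coprime q) ∧
    ∃ p : ℕ, p.Prime ∧ (∀ x : G, (∃ k : ℕ, orderOf x = q ^ k) → ∃ a : ℕ, (Subgroup.centralizer ({x} : Set G)).index = p ^ a) ∧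
      (p = q → (Q : Subgroup G).Normal ∧ ∃ N : Subgroup G, N.Normal ∧ N.IsComplement' (Q : Subgroup G)) ∧
      (p ≠ q → IsMulCommutative (Q : Subgroup G) ∧ (Cfsg.pCore p G ⊔ (Q : Subgroup G)).Normal ∧
        ∀ _h : (Cfsg.pPrimeCore q G).Normal, Group.IsSolvable (G ⧸ Cfsg.pPrimeCore q G)) := by
  have hq' : q.Prime := Fact.out
  have hQ := syl_top hq' Q
  have k0 : ∀ x : G, (∃ k : ℕ, orderOf x = q ^ k) → IsPi {q} (zpowers x) := fun x ⟨k, hk⟩ =>
    isPi_zpowers.2 (hk ▸ piNat_pow hq' k)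
  have k1 : ∀ x ∈ (Q : Subgroup G), ∃ r a, r.Prime ∧ 𝓒₁(x).index = r ^ a := fun x hx =>
    hBaer x ((hQ.pi.orderOf hx).exists_pow hq' (orderOf_pos x).ne')
  by_cases e : ∃ (x : G) (a : ℕ), IsPi {q} (zpowers x) ∧ 𝓒₁(x).index = q ^ (a + 1)
  · obtain ⟨x, a, hx, h1⟩ := e
    obtain ⟨_, h2⟩ := caseA hq' hQ k1 hx h1
    obtain ⟨h3, h4⟩ := split hq' hQ h2
    refine ⟨⟨⊥, Q, inferInstance, ‹_›, bot_le, by simp, ?_, ?_⟩, q, hq', fun x hx => h3 x (k0 x hx),
      fun _ => ⟨‹_›, h4⟩, fun e => absurd rfl e⟩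
    · rw [relIndex_bot_left]; exact hQ.pi.exists_card hq'
    · exact ((Nat.Prime.coprime_iff_not_dvd hq').2 Q.not_dvd_index).symm
  obtain ⟨p, hp, hpq, h1⟩ := uniq hq' hQ fun x hx => by
    obtain ⟨r, a, hr, h1⟩ := k1 x hx
    by_cases e' : r = q
    · subst e'
      rcases a with _ | a
      · obtain ⟨s, h2, hs⟩ := Nat.exists_infinite_primes (r + 1)
        exact ⟨s, 0, hs, by omega, h1⟩
      · exact absurd ⟨x, a, hQ.pi.of_le (zpowers_le.2 hx), h1⟩ e
    · exact ⟨r, a, hr, e', h1⟩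
  have := Fact.mk hp
  obtain ⟨h2, h3⟩ := caseB hp hq' hpq hQ h1
  refine ⟨⟨pCore p G, pCore p G ⊔ Q, inferInstance, h3, le_sup_left, (isPi_compl_iff_coprime hq').1
    ((isPi_of_isPGroup hp CA.Core.isPGroup_pCore).ne hpq), ?_, ?_⟩, p, hp, fun x hx => ?_, fun e => absurd e hpq,
    fun _ => ⟨h2, h3, fun _ => solv_quot hp hpq Q h1⟩⟩
  · rw [relIndex_sup_left]
    exact (hQ.pi.relIndex _).exists_pow hq' (relIndex_ne_zero' _ _)
  · exact ((Nat.Prime.coprime_iff_not_dvd hq').2 (CA.H4Cls.not_dvd_index hq' hQ le_sup_right)).symm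
  · obtain ⟨g, -, hg⟩ := hQ.syl_conj_le hq' (k0 x hx) le_top
    rw [← index_cj g, cj_cent1]
    exact h1 _ (hg (conj_mem_cj.2 (mem_zpowers x)))

end Cfsg.Agent.S4125
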