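import Cfsg.Statements.S4126
import Cfsg.Agent.Lib.Grp.Fus3
import Cfsg.Agent.Lib.Grp.H1Prod

set_option autoImplicit false
open Cfsg

namespace Cfsg.Agent.S4126

open Subgroup CA.Fus3

/-- Let G be a finite group and p a prime. Suppose every element of order p, and when p = 2 also every element of order 4, has a conjugacy class of p-power size. Then G has a normal p-complement. -/
theorem result {G : Type*} [Group G] [Finite G] (p : ℕ) [Fact p.Prime]
    (h : ∀ x : G, (orderOf x = p ∨ (p = 2 ∧ orderOf x = 4)) → ∃ a : ℕ, (Subgroup.centralizer ({x} : Set G)).index = p ^ a) :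
    Cfsg.HasNormalPComplement p G := by
  obtain ⟨P⟩ : Nonempty (Sylow p G) := inferInstance
  refine hasNPC_of_controls_small P fun a ha hs g _ => ?_
  have h1 : ∃ k : ℕ, (centralizer ({a} : Set G)).index = p ^ k := by
    have hp : p.Prime := Fact.out
    by_cases h1 : a = 1
    · exact ⟨0, by simp [h1]⟩
    rcases hs with hs | ⟨h2, hs⟩
    · exact h a (Or.inl (orderOf_eq_prime hs h1))
    · by_cases h3 : a ^ 2 = 1
      · exact h a (Or.inl (orderOf_eq_prime (h2 ▸ h3) h1))
      · exact h a (Or.inr ⟨h2, orderOf_eq_prime_pow (p := 2) (n := 1) h3 hs⟩)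
  obtain ⟨k, hk⟩ := h1
  have hcop : (P : Subgroup G).index.Coprime (centralizer ({a} : Set G)).index := by
    rw [hk]; exact (CA.PRes.coprime_iff_not_dvd.2 P.not_dvd_index).pow_right k
  have := CA.H1Prod.fac_of_coprime_index hcop
  obtain ⟨x, hx, c, hc, rfl⟩ := this g
  refine ⟨x, hx, ?_⟩
  calc x * c * a * (x * c)⁻¹ = x * (c * a) * c⁻¹ * x⁻¹ := by group
    _ = _ := by rw [mem_centralizer_singleton_iff.1 hc]; group

end Cfsg.Agent.S4126
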