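import Cfsg.Statements.S4127
import Cfsg.Agent.Lib.Solv.CS1
import Cfsg.Agent.S0028

set_option autoImplicit false
open Cfsg

namespace Cfsg.Agent.S4127

open Subgroup CA.SylIn CA.PRes

/-- Let G be a finite group, p a prime and p^a the largest power of p dividing the size of any conjugacy class of G. If some element of p-power order has a conjugacy class of size exactly p^a, then G has a normal p-complement. -/
theorem result {G : Type*} [Group G] [Finite G] (p : ℕ) [Fact p.Prime]
    (a : ℕ) (hmax : ∀ y : G, ¬ p ^ (a + 1) ∣ (Subgroup.centralizer ({y} : Set G)).index)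
    (hx : ∃ x : G, (∃ k : ℕ, orderOf x = p ^ k) ∧ (Subgroup.centralizer ({x} : Set G)).index = p ^ a) :
    Cfsg.HasNormalPComplement p G := by
  have hp : p.Prime := Fact.out
  obtain ⟨x, ⟨k, hk⟩, ha⟩ := hx
  have hxk : x ^ p ^ k = 1 := by rw [← hk, pow_orderOf_eq_one]
  have hxR := CA.CS1.mem_pCore hxk ha
  set C := centralizer ({x} : Set G) with hC
  have hxC : x ∈ C := mem_centralizer_singleton_iff.2 rfl
  obtain ⟨P⟩ : Nonempty (Sylow p C) := inferInstance
  obtain ⟨h1, h2, h3⟩ := CA.CS1.split (G := C) (p := p) (fun y hy hd => by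
    have hc : Commute x y := (mem_centralizer_singleton_iff.1 y.2).symm
    have hco : (orderOf x).Coprime (orderOf (y : G)) := by
      rw [hk, orderOf_coe]; exact (hy.symm).pow_left k
    refine hmax (x * y) ?_
    rw [CA.CS1.index_centralizer_mul hc hco, ← hC, ha, pow_succ', ← CA.CS1.index_centralizer_coe]
    exact Nat.mul_dvd_mul_right hd _) P
  set T := (P : Subgroup C).map C.subtype
  set H := (pResidual p C).map C.subtype
  have hT : IsSylowIn p T C := isSylowIn_map P
  have hTn : C ≤ normalizer (T : Set G) := by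
    intro g hg
    refine mem_normalizer_of_forall ?_
    rintro _ ⟨y, hy, rfl⟩
    exact ⟨_, h1.conj_mem y hy ⟨g, hg⟩, rfl⟩
  have hTH : T ≤ centralizer (H : Set G) := by
    rintro _ ⟨y, hy, rfl⟩
    refine mem_centralizer_iff.2 ?_
    rintro _ ⟨z, hz, rfl⟩
    exact congrArg Subtype.val (mem_centralizer_iff.1 (h2 hz) y hy).symm
  have hH : (Nat.card H).Coprime p := by
    rw [card_map_of_injective C.subtype_injective]
    exact coprime_iff_not_dvd.2 (hasNPC_iff_not_dvd.1 h3)
  have hxT : x ∈ T := hT.le_of_le_normalizer' (CA.CS1.isPGroup_zpowers hxk) (zpowers_le.2 hxC)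
    ((zpowers_le.2 hxC).trans hTn) (mem_zpowers x)
  have hHD : H ≤ centralizer (pCore p G : Set G) := by
    refine Cfsg.Agent.S0028.result p T H (pCore p G) hT.isPGroup hH CA.Core.isPGroup_pCore hTH
      le_normalizer_of_normal le_normalizer_of_normal fun r hr => hTH ?_
    have hrC : r ∈ C := mem_centralizer_singleton_iff.2 (mem_centralizer_iff.1 hr.2 x hxT).symm
    exact hT.le_of_le_normalizer' (Q := pCore p G ⊓ C) (CA.Core.isPGroup_pCore.to_inf_left)
      inf_le_right (inf_le_right.trans hTn) (mem_inf.2 ⟨hr.1, hrC⟩)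
  have hDC : centralizer (pCore p G : Set G) ≤ C := fun g hg =>
    mem_centralizer_singleton_iff.2 (mem_centralizer_iff.1 hg x hxR).symm
  obtain ⟨j, hj⟩ := exists_index_pResidual_eq p C
  refine hasNPC_of_pResidual_le ((pResidual_le_of_index_dvd (k := j + a) ?_).trans hDC) h3
  refine (index_dvd_of_le hHD).trans (dvd_of_eq ?_)
  rw [index_map_subtype, hj, ha, pow_add]

end Cfsg.Agent.S4127
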