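import Cfsg.Statements.S4167
import Cfsg.Agent.Lib.Grp.H4Cls

set_option autoImplicit false
open Cfsg

namespace Cfsg.Agent.S4167

open Subgroup CA.BG CA.H4Cls CA.Kaz

/-- Let G be a finite group in which no conjugacy class has size divisible by 4. Then G is solvable. -/
theorem result {G : Type*} [Group G] [Finite G]
    (h : ∀ x : G, ¬ 4 ∣ (Subgroup.centralizer ({x} : Set G)).index) : Group.IsSolvable G := by
  refine solv_ind (fun G _ => ∀ x : G, ¬ 4 ∣ (Subgroup.centralizer ({x} : Set G)).index) ?_ ?_ ?_ G h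
  · intro G _ _ N _ h x e
    exact h x (e.trans (index_sub_dvd x.2))
  · intro G _ _ N _ h x e
    obtain ⟨x, rfl⟩ := QuotientGroup.mk'_surjective N x
    exact h x (e.trans (index_map_dvd' _ (QuotientGroup.mk'_surjective N) x))
  intro G _ _ _ h hZ he
  haveI : Fact (Nat.Prime 2) := ⟨Nat.prime_two⟩
  obtain ⟨S⟩ : Nonempty (Sylow 2 G) := inferInstance
  have hP := syl_top Nat.prime_two S
  have h1 : ∀ x : G, ∃ (g : G) (M : Subgroup G), M ≤ S ∧ cj g M ≤ 𝓒₁(x) ∧ M.relIndex S ∣ 2 := by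
    intro x
    obtain ⟨g, M, a, b, c, -⟩ := exists_le_syl Nat.prime_two hP 𝓒₁(x)
    refine ⟨g, M, a, b, ?_⟩
    obtain ⟨k, hk⟩ := (hP.pi.relIndex M).exists_pow Nat.prime_two (relIndex_ne_zero' _ _)
    rw [hk] at c ⊢
    rcases k with _ | _ | k
    · simp
    · simp
    · exact absurd (Dvd.dvd.trans ⟨2 ^ k, by ring⟩ c) (h x)
  have h2 : ∀ y ∈ (S : Subgroup G), y * y = 1 := by
    intro y hy
    rw [← mem_bot, ← hZ]
    refine mem_center_of_cover fun x => ?_
    obtain ⟨g, M, a, b, c⟩ := h1 x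
    refine ⟨g, b (conj_mem_cj.2 ?_)⟩
    rcases (Nat.dvd_prime Nat.prime_two).1 c with e | e
    · exact relIndex_eq_one.1 e (mul_mem hy hy)
    · exact mul_self_mem_of_index_two (H := M.subgroupOf S) e ⟨y, hy⟩
  have hc : IsMulCommutative S := ⟨⟨fun a b => Subtype.ext (by
    have := inv_eq_of_mul_eq_one_right (h2 _ (mul_mem a.2 b.2))
    rw [mul_inv_rev, inv_eq_of_mul_eq_one_right (h2 _ a.2), inv_eq_of_mul_eq_one_right (h2 _ b.2)]
      at this
    exact this.symm)⟩⟩
  have h3 : pResidual 2 G = ⊤ := by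
    refine (inferInstance : (pResidual 2 G).Normal).eq_bot_or_eq_top.resolve_left fun e => ?_
    have := IsPGroup.bot_lt_center (CA.PRes.pResidual_eq_bot_iff.1 e)
    exact this.ne' hZ
  have h4 := (CA.Fus2.abelian_sylow_decomp S hc).1
  rw [h3, inf_top_eq] at h4
  obtain ⟨t, ht, h5⟩ := exists_ne_one (hP.ne_bot Nat.prime_two rfl
    (by rw [card_top]; exact even_iff_two_dvd.1 he))
  apply h5
  rw [← mem_bot, ← hZ]
  refine mem_center_of_cover fun x => ?_
  obtain ⟨g, M, a, b, c⟩ := h1 x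
  obtain ⟨n, -, hn⟩ := exists_conj_mem hP hc h4 a c ht
  refine ⟨g * n, ?_⟩
  have := b (conj_mem_cj.2 hn)
  simpa [mul_assoc] using this

end Cfsg.Agent.S4167
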