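import Cfsg.Statements.S4130
import Cfsg.Agent.Lib.Grp.H4Cls
import Cfsg.Agent.Lib.Solv.SS2
import Cfsg.Agent.S4167

set_option autoImplicit false
open Cfsg

namespace Cfsg.Agent.S4130


open Subgroup CA.BG CA.H4Cls CA.Kaz
open scoped commutatorElement

universe u
variable {G : Type u} [Group G] [Finite G] {p : ℕ} {P : Subgroup G}

theorem rel_dvd [P.Normal] (K : Subgroup G) : K.relIndex P ∣ K.index := by
  rw [relIndex_inf_of_sup (M := K) (P := P) (by simp [normalizer_eq_top]) rfl]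
  exact relIndex_dvd_index_of_le le_sup_right

theorem dvd_of_sqf (hp : p.Prime) {m n : ℕ} (h : Squarefree n) (h1 : m ∣ n) (h2 : PiNat {p} m) :
    m ∣ p := by
  obtain ⟨k, rfl⟩ := h2.exists_pow hp (ne_zero_of_dvd_ne_zero h.ne_zero h1)
  rcases k with _ | _ | k
  · simp
  · simp
  · exact absurd (h p (Dvd.dvd.trans ⟨p ^ k, by ring⟩ h1)) hp.prime.not_unit

theorem exists_L (hc : ∀ n ∈ P, ∀ g, ⁅n, g⁆ ∈ P ⊓ 𝓒(P)) (g : G) :
    ∃ L : Subgroup G, ♯L = 𝓒₁(g).relIndex P ∧ ∀ x, x ∈ L ↔ ∃ n ∈ P, ⁅n, g⁆ = x := by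
  let φ : P →* G := MonoidHom.mk' (fun n => ⁅(n : G), g⁆) fun n m => by
    have h1 := mem_cent.1 (hc m m.2 g).2 n n.2
    have h2 := mem_cent.1 (hc m m.2 g).2 _ (hc n n.2 g).1
    calc ⁅((n * m : P) : G), g⁆ = (n * ⁅(m : G), g⁆) * (n : G)⁻¹ * ⁅(n : G), g⁆ := by
          simp only [coe_mul, commutatorElement_def]; group
      _ = _ := by rw [h1, mul_inv_cancel_right, h2]
  refine ⟨φ.range, ?_, fun x => ⟨by rintro ⟨n, rfl⟩; exact ⟨n, n.2, rfl⟩,
    by rintro ⟨n, hn, rfl⟩; exact ⟨⟨n, hn⟩, rfl⟩⟩⟩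
  rw [← index_ker, relIndex]
  congr 1
  ext n
  rw [MonoidHom.mem_ker, mem_subgroupOf, mem_cent1]
  exact commutatorElement_eq_one_iff_mul_comm

theorem cent_mul_le {a c : G} (h : c * a = a * c) (hc : (orderOf c).Coprime (orderOf a)) :
    𝓒₁(c * a) ≤ 𝓒₁(a) := by
  rw [← cent_zpowers]
  refine cent_le_cent1 ((zpowers_le.2 ?_ : zpowers (a ^ orderOf c) ≤ _) (mem_zpowers_pow_iff.2 hc))
  have := pow_mem (mem_zpowers (c * a)) (orderOf c)
  rwa [Commute.mul_pow h, pow_orderOf_eq_one, one_mul] at this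

theorem core (hp : p.Prime) (hsolv : Group.IsSolvable G)
    (h : ∀ x : G, Squarefree 𝓒₁(x).index) (hO : 𝓞({p}ᶜ, (⊤ : Subgroup G)) = ⊥) :
    ¬ p * p ∣ ♯⁅(⊤ : Subgroup G), (⊤ : Subgroup G)⁆ := by
  haveI := Fact.mk hp
  have hs : Group.IsSolvable (⊤ : Subgroup G) := inferInstance
  obtain ⟨P, hP⟩ := hall_exists {p} hs
  have hder : ∀ M ≤ P, M.relIndex P ∣ p → P ≤ 𝓝(M) := fun M a c => by
    rcases (Nat.dvd_prime hp).1 c with e | e
    · exact (relIndex_eq_one.1 e).trans (le_norm_self M)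
    · exact CA.BG4.norm_of_relIndex hp hP.pi a e
  have h1 : ⁅P, P⁆ ≤ center G := fun z hz => mem_center_of_cover fun x => by
    obtain ⟨g, M, a, b, c, -⟩ := exists_le_syl hp hP 𝓒₁(x)
    have d := dvd_of_sqf hp (h x) c (hP.pi.relIndex M)
    exact ⟨g, b (conj_mem_cj.2 (der_le_of_relIndex_p2 hp (hder M a d) (d.trans (dvd_pow_self p
      two_ne_zero)) hz))⟩
  have hZ : ∀ A : Subgroup G, A ≤ 𝓒(center G) := fun A x _ =>
    mem_cent.2 fun z hz => (mem_center_iff.1 hz x).symm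
  have hCN := cent_pcore_le hp hs hO
  obtain ⟨N, hN⟩ : ∃ N, N = 𝓞({p}, (⊤ : Subgroup G)) := ⟨_, rfl⟩
  rw [← hN, top_inf_eq] at hCN
  have hNp : IsPi {p} N := hN ▸ core_pi _ _
  haveI : N.Normal := normalizer_eq_top_iff.1 (eq_top_iff.2 (hN ▸ le_norm_core _ _))
  have hnN : ∀ A : Subgroup G, A ≤ 𝓝(N) := fun A => by simp [normalizer_eq_top]
  obtain rfl : N = P := by
    refine le_antisymm (hN ▸ hP.core_le) ?_
    obtain ⟨C, hC⟩ : ∃ C, C = (𝓒(N.map (QuotientGroup.mk' (center G)))).comap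
      (QuotientGroup.mk' (center G)) := ⟨_, rfl⟩
    haveI : (N.map (QuotientGroup.mk' (center G))).Normal :=
      Normal.map inferInstance _ (QuotientGroup.mk'_surjective _)
    haveI : C.Normal := hC ▸ inferInstance
    have h2 : ∀ A : Subgroup G, A ≤ C ↔ ⁅N, A⁆ ≤ center G := fun A => by
      rw [hC, ← map_le_iff_le_comap, ← comm_eq_bot_iff, ← map_commutator, Subgroup.map_eq_bot_iff,
        QuotientGroup.ker_mk', comm_symm]
    obtain ⟨K, hK⟩ := hall_exists {p}ᶜ (solv_of_le hs (le_top : C ≤ ⊤))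
    have h3 := stable_factor_cent' (hnN K) (hNp.coprime hK.pi) ((h2 K).1 hK.le) (hZ K)
    obtain rfl := (hNp.of_le (h3.trans hCN)).eq_bot hK.pi
    have h4 := hK.isPi_compl_of_eq_bot
    rw [compl_compl] at h4
    exact ((h2 P).2 ((commutator_mono (hN ▸ hP.core_le) le_rfl).trans h1)).trans
      (hN ▸ le_core h4 le_top (by simp [normalizer_eq_top]))
  have hi : ∀ g : G, 𝓒₁(g).relIndex N ∣ p := fun g =>
    dvd_of_sqf hp (h g) (rel_dvd _) (hNp.relIndex _)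
  have hi' : ∀ g : G, ¬ N ≤ 𝓒₁(g) → (N ⊓ 𝓒₁(g)).relIndex N = p := fun g hg => by
    rw [inf_relIndex_left]
    exact ((Nat.dvd_prime hp).1 (hi g)).resolve_left fun e => hg (relIndex_eq_one.1 e)
  obtain ⟨K, hK, hKs⟩ := exists_hall_compl hP hs (hnN _)
  have hKa : ∀ a ∈ K, a ≠ 1 → ¬ N ≤ 𝓒₁(a) := fun a ha h2 e =>
    h2 (mem_bot.1 (hKs.disj ▸ (⟨hCN (le_cent1_iff.1 e), ha⟩ : a ∈ N ⊓ K)))
  have hU : ∀ {U V : Subgroup G}, U ≤ V → V ≤ N → U.relIndex N ∣ p → V.relIndex N = p → U = V := by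
    intro U V a b c d
    have e := relIndex_mul' a b
    rw [← e, d] at c
    exact le_antisymm a (relIndex_eq_one.1 (Nat.dvd_one.1
      (Nat.dvd_of_mul_dvd_mul_right hp.pos (by rwa [one_mul]))))
  have hab : K ≠ ⊥ → IsMulCommutative N := by
    intro e
    obtain ⟨a, ha, h2⟩ := exists_ne_one e
    have h3 := hi' a (hKa a ha h2)
    have h4 : N ⊓ 𝓒₁(a) ≤ 𝓒(N ⊓ 𝓒₁(a)) := fun c hc => by
      have h5 := cent_mul_le (mem_cent1.1 hc.2) ((hNp.orderOf hc.1).coprime (hK.pi.orderOf ha))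
      have h6 := cent_mul_le (mem_cent1.1 hc.2).symm
        ((hNp.orderOf hc.1).coprime (hK.pi.orderOf ha)).symm
      rw [← mem_cent1.1 hc.2] at h6
      rw [← le_cent1_iff, ← hU (inf_le_inf_left N h5) inf_le_left (by
        rw [inf_relIndex_left]; exact hi _) h3]
      exact inf_le_right.trans h6
    have h5 := coprime_cent_prod (hnN (zpowers a)) (hNp.coprime (hK.pi.of_le (zpowers_le.2 ha)))
      (Or.inr (hNp.isSolvable hp))
    rw [cent_zpowers] at h5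
    have h6 : ⁅N, zpowers a⁆ ≤ 𝓒(N ⊓ 𝓒₁(a)) := three_subgroups (by
      rw [comm_eq_bot_iff.2 (cent_symm (cent_zpowers a ▸ inf_le_right))]; exact bot_le)
      ((comm_le_left (hder _ inf_le_left h3.dvd)).trans (cent_zpowers a ▸ inf_le_right))
    obtain ⟨x, hx, -, h7⟩ := CA.BG4.exists_sup_zpowers hp inf_le_left h3
    exact cyclic_factor_abelian (h5.ge.trans (sup_le h6 h4)) ⟨x, hx, by rw [sup_comm, h7]⟩
  have hc : ∀ n ∈ N, ∀ g, ⁅n, g⁆ ∈ N ⊓ 𝓒(N) := by
    intro n hn g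
    have h2 : ⁅n, g⁆ ∈ N := comm_le_left (hnN ⊤) (commutator_mem_commutator hn (mem_top g))
    refine ⟨h2, ?_⟩
    by_cases e : K = ⊥
    · have h3 := hKs.sup
      rw [e, sup_bot_eq] at h3
      exact cent_symm (hZ N) (h1 (commutator_mem_commutator hn (h3.ge (mem_top g))))
    · exact comm_iff_le_cent.1 (hab e) h2
  choose L hL1 hL2 using exists_L hc
  have hLe : ∀ {a b x}, x ≠ 1 → x ∈ L a → x ∈ L b → L a = L b := by
    intro a b x h2 h3 h4
    have : ∀ a, x ∈ L a → L a = zpowers x := fun a h3 => eq_zpowers_of_prime (by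
      rw [((Nat.dvd_prime hp).1 (hL1 a ▸ hi a)).resolve_left fun e =>
        ne_bot_of_mem h3 h2 (card_eq_one.1 e)]; exact hp) h3 h2
    rw [this a h3, this b h4]
  have hne : ∀ {n g : G}, n ∉ 𝓒₁(g) → ⁅n, g⁆ ≠ 1 := fun h2 e =>
    h2 (mem_cent1.2 (commutatorElement_eq_one_iff_mul_comm.1 e))
  have two : ∀ a b, ¬ N ≤ 𝓒₁(a) → ¬ N ≤ 𝓒₁(b) → N ⊓ 𝓒₁(a) ≠ N ⊓ 𝓒₁(b) → L a = L b := by
    intro a b ha hb h2
    obtain ⟨n, n1, n2⟩ := SetLike.not_le_iff_exists.1 fun e =>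
      h2 (hU e inf_le_left (hi' a ha).dvd (hi' b hb))
    obtain ⟨m, m1, m2⟩ := SetLike.not_le_iff_exists.1 fun e =>
      h2 (hU e inf_le_left (hi' b hb).dvd (hi' a ha)).symm
    have h3 : L (a * b) = L a := hLe (hne fun e => m2 ⟨m1.1, e⟩) ((hL2 _ _).2 ⟨m, m1.1, by
      simp only [commutatorElement_def]
      rw [← mul_assoc m, mul_assoc _ b, show b * m⁻¹ = m⁻¹ * b from
        mem_cent1.1 (inv_mem m1.2) ▸ rfl]
      group⟩) ((hL2 _ _).2 ⟨m, m1.1, rfl⟩)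
    have h4 : a * ⁅n, b⁆ * a⁻¹ ∈ L a := h3 ▸ (hL2 _ _).2 ⟨n, n1.1, by
      simp only [commutatorElement_def]
      rw [← mul_assoc n, mem_cent1.1 n1.2]
      group⟩
    obtain ⟨k, k1, k2⟩ := (hL2 _ _).1 h4
    refine hLe (hne fun e => n2 ⟨n1.1, e⟩) ((hL2 _ _).2 ⟨a⁻¹ * k * a,
      conj_mem_of_mem_norm' (hnN ⊤ (mem_top a)) k1, ?_⟩) ((hL2 _ _).2 ⟨n, n1.1, rfl⟩)
    rw [show ⁅n, b⁆ = a⁻¹ * (a * ⁅n, b⁆ * a⁻¹) * a by group, ← k2]
    simp only [commutatorElement_def]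
    group
  obtain ⟨D, hD1, hD2⟩ : ∃ D : Subgroup G, ♯D ∣ p ∧ N ⊓ ⁅⊤, ⊤⁆ ≤ D := by
    by_cases e : K = ⊥
    · have h3 := hKs.sup
      rw [e, sup_bot_eq] at h3
      have hm : ∀ g, g ∈ N := fun g => h3.ge (mem_top g)
      by_cases e' : ∀ a, N ≤ 𝓒₁(a)
      · refine ⟨⊥, by simp, inf_le_right.trans (commutator_le.2 fun n _ b _ => ?_)⟩
        exact commutatorElement_eq_one_iff_mul_comm.2 (mem_cent1.1 (e' b (hm n)))
      push Not at e'
      obtain ⟨a, ha⟩ := e'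
      refine ⟨L a, hL1 a ▸ hi a, inf_le_right.trans (commutator_le.2 fun n _ b _ => ?_)⟩
      by_cases h4 : n ∈ 𝓒₁(b)
      · rw [commutatorElement_eq_one_iff_mul_comm.2 (mem_cent1.1 h4)]; exact one_mem _
      by_cases h5 : N ⊓ 𝓒₁(a) = N ⊓ 𝓒₁(b)
      · have h6 : n ∉ 𝓒₁(a) := fun e => h4 (h5.le ⟨hm n, e⟩).2
        rw [hLe (hne h6) ((hL2 _ _).2 ⟨n, hm n, rfl⟩) (b := n)
          (by rw [← commutatorElement_inv]; exact inv_mem ((hL2 _ _).2 ⟨a, hm a, rfl⟩)),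
          ← commutatorElement_inv]
        exact inv_mem ((hL2 _ _).2 ⟨b, hm b, rfl⟩)
      · rw [two a b ha (fun e => h4 (e (hm n))) h5]
        exact (hL2 _ _).2 ⟨n, hm n, rfl⟩
    obtain ⟨a, ha, h2⟩ := exists_ne_one e
    have h3 : ⁅N, K⁆ ≤ L a := by
      refine commutator_le.2 fun n hn b hb => ?_
      rcases eq_or_ne b 1 with rfl | h4
      · simp
      suffices L a = L b from this ▸ (hL2 _ _).2 ⟨n, hn, rfl⟩
      by_cases h5 : N ⊓ 𝓒₁(a) = N ⊓ 𝓒₁(b)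
      swap
      · exact two a b (hKa a ha h2) (hKa b hb h4) h5
      have hA : zpowers a ⊔ zpowers b ≤ K := sup_le (zpowers_le.2 ha) (zpowers_le.2 hb)
      have h6 := (coprime_abelian_cent_dprod (hnN _) (hNp.coprime (hK.pi.of_le hA)) (hab e)).card
      rw [cent_sup, cent_zpowers, cent_zpowers, inf_inf_distrib_left, ← h5, inf_idem,
        ← card_mul_relIndex (inf_le_left : N ⊓ 𝓒₁(a) ≤ N), hi' a (hKa a ha h2), mul_comm] at h6
      have h7 := Nat.eq_of_mul_eq_mul_left (card_pos' _) h6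
      have h8 : ∀ c ∈ zpowers a ⊔ zpowers b, c ≠ 1 → L c = ⁅N, zpowers a ⊔ zpowers b⁆ := by
        intro c c1 c2
        refine eq_of_le_of_card_eq (fun x hx => ?_) ?_
        · obtain ⟨m, m1, rfl⟩ := (hL2 _ _).1 hx
          exact commutator_mem_commutator m1 c1
        · rw [h7, hL1, ← inf_relIndex_left, hi' c (hKa c (hA c1) c2)]
      rw [h8 a ((le_sup_left : zpowers a ≤ _) (mem_zpowers a)) h2,
        h8 b ((le_sup_right : zpowers b ≤ _) (mem_zpowers b)) h4]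
    refine ⟨L a, hL1 a ▸ hi a, le_trans ?_ h3⟩
    have h4 := der_sup_norm (hnN K)
    rw [hKs.sup, comm_iff_der_eq_bot.1 (hab e), bot_sup_eq] at h4
    rw [h4, inf_comm, sup_comm, sup_inf_of_le_right ((der_le K).trans (norm_comm (hnN K)
      (le_norm_self K))) (comm_le_left (hnN K)), CA.BG.eq_bot_mono (inf_le_inf_right N (der_le K))
      hKs.disj', bot_sup_eq]
  intro e
  have h2 := hP.normal_inf (hnN _) (le_top : ⁅(⊤ : Subgroup G), (⊤ : Subgroup G)⁆ ≤ ⊤)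
  rw [← card_mul_relIndex h2.le] at e
  have h3 := (Nat.Coprime.dvd_of_dvd_mul_right (Nat.Coprime.mul_left
    ((Nat.Prime.coprime_iff_not_dvd hp).2 (h2.not_dvd hp))
    ((Nat.Prime.coprime_iff_not_dvd hp).2 (h2.not_dvd hp))) e).trans ((card_dvd hD2).trans hD1)
  have := Nat.le_of_dvd hp.pos h3
  nlinarith [hp.two_le]

/-- Let G be a finite group all of whose conjugacy class sizes are square-free. Then G is supersolvable, G/F(G) and the derived subgroup G′ are cyclic of square-free order (F(G) the Fitting subgroup, which is normal), F(G) has nilpotency class at most 2, and G is metabelian. -/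
theorem result {G : Type*} [Group G] [Finite G]
    (h : ∀ x : G, Squarefree (Subgroup.centralizer ({x} : Set G)).index) :
    Cfsg.IsSupersolvable G ∧ (Cfsg.fittingSubgroup G).Normal ∧
    (∀ _h : (Cfsg.fittingSubgroup G).Normal, IsCyclic (G ⧸ Cfsg.fittingSubgroup G) ∧ Squarefree (Cfsg.fittingSubgroup G).index) ∧
    IsCyclic (commutator G) ∧ Squarefree (Nat.card (commutator G)) ∧
    Subgroup.upperCentralSeries ↥(Cfsg.fittingSubgroup G) 2 = ⊤ ∧ commutator ↥(commutator G) = ⊥ := by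
  have hs : ∀ (G : Type _) [Group G] [Finite G], (∀ x : G, Squarefree 𝓒₁(x).index) →
      Group.IsSolvable G := fun G _ _ h => S4167.result fun x e =>
    absurd (h x 2 e) Nat.prime_two.prime.not_unit
  obtain ⟨D, hD⟩ : ∃ D, D = ⁅(⊤ : Subgroup G), (⊤ : Subgroup G)⁆ := ⟨_, rfl⟩
  rw [_root_.commutator_def G, ← hD, ← fit_top]
  have hsq : Squarefree ♯D := by
    refine Nat.squarefree_iff_prime_squarefree.2 fun p hp e => ?_
    have h1 : ∀ x : G ⧸ piCore {p}ᶜ G, Squarefree 𝓒₁(x).index := fun x => by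
      obtain ⟨x, rfl⟩ := QuotientGroup.mk'_surjective _ x
      exact (h x).squarefree_of_dvd (index_map_dvd' _ (QuotientGroup.mk'_surjective _) x)
    refine core hp (hs _ h1) h1 (by rw [core_top, CA.Core.piCore_quotient_piCore]) ?_
    rw [← map_top_of_surjective _ (QuotientGroup.mk'_surjective (piCore {p}ᶜ G)), ← map_commutator,
      ← relIndex_ker, QuotientGroup.ker_mk', ← hD]
    rw [← card_inf_mul_relIndex (piCore {p}ᶜ G)] at e
    have h2 := (isPi_compl_iff_coprime hp).1 ((core_top (G := G) {p}ᶜ ▸ core_pi _ _).inf_left D)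
    exact (Nat.Coprime.mul_left h2.symm h2.symm).dvd_of_dvd_mul_left e
  have hnD : ⊤ ≤ 𝓝(D) := hD ▸ norm_comm norm_top.ge norm_top.ge
  have hZ := IsZGroup.of_squarefree hsq
  have hDc : IsMulCommutative D := cyclic_factor_abelian (hD.le.trans (der_cent_cyclic
    (Zgroup_der1_cyclic hZ) (norm_comm hnD hnD))) (Zgroup_cycMod hZ)
  have hcyc := cyc_of_nil_zgroup (nil_of_comm hDc) hZ
  obtain ⟨x, hx⟩ := exists_zpowers_of_cyc hcyc
  have hm : ∀ A B : Subgroup G, ⁅A, B⁆ ≤ D := fun A B => hD ▸ commutator_mono le_top le_top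
  have hCF : 𝓒(D) ≤ 𝓕((⊤ : Subgroup G)) := le_fit (classLE_two_iff.2 ((hm _ _).trans
    (cent_symm le_rfl))).nil le_top (norm_cent hnD)
  have hDF := (comm_iff_le_cent.1 hDc).trans hCF
  have hi : Squarefree 𝓕((⊤ : Subgroup G)).index :=
    (h x).squarefree_of_dvd (index_dvd_of_le (by rwa [← cent_zpowers, hx]))
  have hFC : D ≤ 𝓒(𝓕((⊤ : Subgroup G))) := le_of_forall_syl fun p hp e => by
    obtain ⟨X, a, b⟩ := exists_card_eq_prime hp e
    have c := hp
    rw [← b] at c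
    refine ⟨X, Syl.mk'' hp a (isPi_of_card_eq hp b) fun e => hp.prime.not_unit (hsq p ?_),
      le_of_inf_ne_bot_of_prime c (meet_cent_of_nil (fit_nil ⊤) le_rfl (a.trans hDF)
      (le_top.trans (hnD.trans (norm_le_norm_of_cyc hcyc a))) (ne_bot_of_prime c))⟩
    rw [← card_mul_relIndex a, b]
    exact Nat.mul_dvd_mul_left p e
  refine ⟨ss_iff_top.2 (Ch.of_quo (ch_of_cyc hcyc hnD) le_top hnD (ch_of_nil
    ((nilMod_iff hnD).1 ⟨1, hm _ _⟩))), normalizer_eq_top_iff.1 (eq_top_iff.2 (le_norm_fit _)),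
    fun _ => ⟨?_, hi⟩, hcyc, hsq, eq_top_iff.2 fun a _ => ?_, ?_⟩
  · haveI := IsZGroup.of_squarefree (G := G ⧸ 𝓕((⊤ : Subgroup G))) hi
    haveI : IsMulCommutative (G ⧸ 𝓕((⊤ : Subgroup G))) :=
      Normal.quotient_commutative_iff_commutator_le.2 ((hm _ _).trans hDF)
    haveI : Group.IsNilpotent (G ⧸ 𝓕((⊤ : Subgroup G))) := by
      open scoped IsMulCommutative in infer_instance
    infer_instance
  · refine Subgroup.mem_upperCentralSeries_succ_iff.2 fun b => ?_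
    rw [Subgroup.upperCentralSeries_one, mem_center_iff]
    exact fun c => Subtype.ext (mem_cent.1 (hFC (hm _ _ (commutator_mem_commutator a.2 b.2))) c c.2)
  · exact eq_bot_iff.2 (commutator_le.2 fun a _ b _ =>
      commutatorElement_eq_one_iff_mul_comm.2 (hDc.is_comm.comm a b))

end Cfsg.Agent.S4130
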