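import Cfsg.Statements.S4139
import Cfsg.Agent.Lib.Grp.H7Ito
import Cfsg.Agent.Lib.Grp.NPC2

set_option autoImplicit false
open Cfsg

namespace Cfsg.Agent.S4139

open Subgroup CA.BG CA.H7Ito CA.PRes
open scoped commutatorElement

theorem relIndex_dvd_index_of_normal' {G : Type*} [Group G] (H N : Subgroup G) [N.Normal] :
    H.relIndex N ∣ H.index :=
  CA.AmbSpe.relIndex_sup_right_of_le (A := N) le_normalizer_of_normal (le_refl H) ▸
    relIndex_dvd_index_of_le le_sup_left

theorem card_fib {G : Type*} [Group G] [Finite G] (k : ℕ) :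
    Nat.card {x : G // 𝓒₁(x).index = k} =
      Nat.card {C : ConjClasses G // Nat.card C.carrier = k} * k := by
  have e : ∀ x : G, Nat.card (ConjClasses.mk x).carrier = 𝓒₁(x).index := fun x =>
    CA.CS1.ncard_carrier x
  let f : {x : G // 𝓒₁(x).index = k} → {C : ConjClasses G // Nat.card C.carrier = k} :=
    fun x => ⟨ConjClasses.mk x, (e x).trans x.2⟩
  haveI := Fintype.ofFinite {C : ConjClasses G // Nat.card C.carrier = k}
  rw [← Nat.card_congr (Equiv.sigmaFiberEquiv f), Nat.card_sigma, Finset.sum_congr rfl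
    (g := fun _ => k), Finset.sum_const, Finset.card_univ, smul_eq_mul, Nat.card_eq_fintype_card]
  intro C _
  refine Eq.trans (Nat.card_congr ⟨fun x => ⟨x.1.1, ConjClasses.mem_carrier_iff_mk_eq.2
    (congrArg Subtype.val x.2)⟩, fun y => ⟨⟨y.1, ?_⟩, Subtype.ext
      (ConjClasses.mem_carrier_iff_mk_eq.1 y.2)⟩, fun _ => rfl, fun _ => rfl⟩) C.2
  rw [← e, ConjClasses.mem_carrier_iff_mk_eq.1 y.2, C.2]

theorem ind_iff {G : Type*} [Group G] [Finite G] {p : ℕ} [hp : Fact p.Prime] {x : G} :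
    (∃ a, 𝓒₁(x).index = p ^ a) ↔ ∃ a, 𝓒₁(x).relIndex (pResidual p G) = p ^ a := by
  constructor
  · rintro ⟨a, ha⟩
    exact CA.Kaz.pow_of_dvd hp.out (ha ▸ relIndex_dvd_index_of_normal' _ _)
  · rintro ⟨a, ha⟩
    obtain ⟨b, hb⟩ := exists_index_pResidual_eq p G
    have := relIndex_mul_index (inf_le_right : 𝓒₁(x) ⊓ pResidual p G ≤ _)
    rw [inf_relIndex_right, ha, hb, ← pow_add] at this
    exact CA.Kaz.pow_of_dvd hp.out ((index_dvd_of_le inf_le_left).trans this.symm.dvd)

theorem key {G : Type*} [Group G] [Finite G] (p : ℕ) [hp : Fact p.Prime] :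
    ∃ t, ¬ p ∣ t ∧ Nat.card {x : G // ∃ a, 𝓒₁(x).index = p ^ a} = ♯𝓒(pResidual p G) * t := by
  set K := pResidual p G
  set C := 𝓒(K)
  let X : Set (G ⧸ C) := QuotientGroup.mk '' {x : G | ∃ a, 𝓒₁(x).index = p ^ a}
  have h1 : QuotientGroup.mk ⁻¹' X = {x : G | ∃ a, 𝓒₁(x).index = p ^ a} := by
    refine Set.Subset.antisymm ?_ (Set.subset_preimage_image _ _)
    rintro y ⟨x, hx, e⟩
    have hc := mem_centralizer_iff.1 (QuotientGroup.eq.1 e)
    have : 𝓒₁(y) ⊓ K = 𝓒₁(x) ⊓ K := by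
      ext k
      simp only [mem_inf, mem_centralizer_singleton_iff, and_congr_left_iff]
      intro hk
      rw [← mul_inv_cancel_left x y, ← mul_assoc k, mul_assoc x _ k, ← hc k hk, ← mul_assoc x k,
        mul_left_inj]
    rw [Set.mem_setOf_eq, ind_iff] at hx ⊢
    rwa [← inf_relIndex_right, this, inf_relIndex_right]
  refine ⟨Nat.card X, ?_, (congrArg (fun s : Set G => Nat.card s) h1).symm.trans
    (QuotientGroup.card_preimage_mk _ _)⟩
  obtain ⟨P⟩ : Nonempty (Sylow p G) := inferInstance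
  letI : MulAction P X :=
    { smul := fun g c => ⟨((g : G) : G ⧸ C) * c * ((g : G) : G ⧸ C)⁻¹, by
        obtain ⟨_, x, ⟨a, ha⟩, rfl⟩ := c
        exact ⟨g * x * (g : G)⁻¹, ⟨a, by
          rw [← CA.Amb.cj_centralizer_singleton, CA.Amb.index_cj, ha]⟩, rfl⟩⟩
      one_smul := fun c => Subtype.ext (by
        show (((1 : G) : G ⧸ C)) * c * ((1 : G) : G ⧸ C)⁻¹ = c
        simp)
      mul_smul := fun g h c => Subtype.ext (by
        show (((g * h : G) : G ⧸ C)) * c * ((g * h : G) : G ⧸ C)⁻¹ =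
          ((g : G) : G ⧸ C) * (((h : G) : G ⧸ C) * c * ((h : G) : G ⧸ C)⁻¹) * ((g : G) : G ⧸ C)⁻¹
        rw [QuotientGroup.mk_mul]; group) }
  let o : X := ⟨1, 1, ⟨0, by rw [ind_one.2 (one_mem _), pow_zero]⟩, rfl⟩
  have h2 : MulAction.fixedPoints P X = {o} := by
    refine Set.eq_singleton_iff_unique_mem.2 ⟨fun g => Subtype.ext ?_, ?_⟩
    · show ((g : G) : G ⧸ C) * 1 * ((g : G) : G ⧸ C)⁻¹ = 1
      simp
    rintro ⟨_, x, ⟨a, ha⟩, rfl⟩ hf
    have h3 : (P : Subgroup G) ≤ 𝓒₁((x : G ⧸ C)).comap (QuotientGroup.mk' C) := fun g hg =>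
      mem_centralizer_singleton_iff.2
        (mul_inv_eq_iff_eq_mul.1 (congrArg Subtype.val (hf ⟨g, hg⟩)))
    have h4 : 𝓒₁(x) ≤ 𝓒₁((x : G ⧸ C)).comap (QuotientGroup.mk' C) := fun g hg =>
      mem_centralizer_singleton_iff.2 (congrArg QuotientGroup.mk (mem_centralizer_singleton_iff.1 hg))
    obtain ⟨b, hb⟩ := CA.Kaz.pow_of_dvd hp.out (ha ▸ index_dvd_of_le h4)
    have h5 : b = 0 := by
      by_contra h
      exact P.not_dvd_index ((hb ▸ dvd_pow_self p h).trans (index_dvd_of_le h3))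
    rw [h5, pow_zero, index_eq_one] at hb
    have h6 : ∀ g, ⁅x, g⁆ ∈ C := fun g => by
      rw [← QuotientGroup.eq_one_iff]
      exact commutatorElement_eq_one_iff_mul_comm.2
        (mem_centralizer_singleton_iff.1 (hb.ge (mem_top g))).symm
    let φ : K →* G := MonoidHom.mk' (fun k => ⁅x, (k : G)⁆) fun k l => by
      rw [coe_mul, CA.PGClassTwo.comm_mul_right (mem_centralizer_iff.1 (h6 l) k k.2)]
    have h7 : φ.ker = 𝓒₁(x).subgroupOf K := by
      ext k
      rw [MonoidHom.mem_ker, mem_subgroupOf, mem_centralizer_singleton_iff, eq_comm (a := k * x),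
        ← commutatorElement_eq_one_iff_mul_comm]
      rfl
    obtain ⟨c, hc⟩ := ind_iff.1 ⟨a, ha⟩
    have h8 := pResidual_le_of_index_dvd (N := φ.ker) (k := c) (by rw [h7]; exact hc.dvd)
    rw [pResidual_pResidual, h7] at h8
    refine Subtype.ext ((QuotientGroup.eq_one_iff _).2 (mem_centralizer_iff.2 fun k hk => ?_))
    exact mem_centralizer_singleton_iff.1 (h8 (mem_top (⟨k, hk⟩ : K)))
  have h3 := P.isPGroup'.card_modEq_card_fixedPoints X
  rw [h2, Nat.card_coe_set_eq {o}, Set.ncard_singleton] at h3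
  exact fun h => hp.out.not_dvd_one ((h3.dvd_iff dvd_rfl).1 h)

/-- Let G and H be finite groups such that for every natural number k, G and H have the same number of conjugacy classes of size k. If H is nilpotent then G is nilpotent. -/
theorem result {G H : Type*} [Group G] [Finite G] [Group H] [Finite H]
    (hH : Group.IsNilpotent H)
    (h : ∀ k : ℕ, Nat.card {C : ConjClasses G // Nat.card C.carrier = k} = Nat.card {C : ConjClasses H // Nat.card C.carrier = k}) :
    Group.IsNilpotent G := by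
  have e1 : ∀ k, Nonempty ({x : G // 𝓒₁(x).index = k} ≃ {x : H // 𝓒₁(x).index = k}) := fun k =>
    Finite.card_eq.1 (by rw [card_fib, card_fib, h])
  let e := Equiv.ofFiberEquiv (f := fun x : G => 𝓒₁(x).index) (g := fun x : H => 𝓒₁(x).index)
    fun k => (e1 k).some
  have he : ∀ x, 𝓒₁(e x).index = 𝓒₁(x).index := Equiv.ofFiberEquiv_map (f := fun x : G => 𝓒₁(x).index) (g := fun x : H => 𝓒₁(x).index) _
  refine (Group.isNilpotent_of_finite_tfae.out 0 3 rfl rfl).2 fun p hp P => ?_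
  obtain ⟨t, ht, h1⟩ := key (G := G) p
  obtain ⟨s, hs, h2⟩ := key (G := H) p
  have h3 := h1.symm.trans ((Nat.card_congr (e.subtypeEquiv fun x => by rw [he])).trans h2)
  obtain ⟨Q⟩ : Nonempty (Sylow p H) := inferInstance
  have h4 : (Q : Subgroup H) ≤ 𝓒(pResidual p H) := le_centralizer_iff.1 (pResidual_le_iff.2
    fun g hg => mem_centralizer_iff.2 fun y hy => by
      obtain ⟨i, hi⟩ := CA.AmbSyl.orderOf_eq_pow_of_mem Q.isPGroup' hy
      exact (CA.NPC2.commute_of_coprime_of_isNilpotent (H := ⊤) inferInstance (mem_top _) (mem_top _)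
        (hi ▸ hg.pow_right i)).symm)
  have h5 : ♯(P : Subgroup G) ∣ ♯𝓒(pResidual p G) * t := by
    rw [h3, P.card_eq_multiplicity, Nat.card_congr e, ← Q.card_eq_multiplicity]
    exact (card_dvd_of_le h4).mul_right s
  rw [P.card_eq_multiplicity] at h5
  have h6 := (((Nat.Prime.coprime_iff_not_dvd hp.out).2 ht).pow_left _).dvd_of_dvd_mul_right h5
  obtain ⟨T, hT⟩ := CA.AmbSyl.exists_sylIn p 𝓒(pResidual p G)
  have h7 := (CA.AmbSyl.sylIn_top P).of_card_le hT.pg le_top (by
    rw [P.card_eq_multiplicity, hT.card_eq_pow]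
    exact Nat.pow_le_pow_right hp.out.pos ((hp.out.pow_dvd_iff_le_factorization Nat.card_pos.ne').1 h6))
  haveI : (h7.toSylowTop : Subgroup G).Normal := CA.Amb.normal_iff_top_le.2 (by
    rw [← pResidual_sup_sylow h7.toSylowTop]
    exact sup_le (CA.Amb.norm_of_centralizer (le_centralizer_iff.1 hT.le)) le_normalizer)
  haveI := Sylow.unique_of_normal h7.toSylowTop inferInstance
  rw [Subsingleton.elim P h7.toSylowTop]
  infer_instance

end Cfsg.Agent.S4139
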