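import Cfsg.Statements.S4140
import Cfsg.Agent.Lib.Grp.H7Cam

set_option autoImplicit false
open Cfsg

namespace Cfsg.Agent.S4140

open CA.H7Cam CA.BG CA.Frob2 Subgroup

/-- Let G be a finite group and N a proper non-trivial normal subgroup such that for every g outside N the conjugacy class of g is a union of cosets of N (equivalently gn is conjugate to g for every n ∈ N). Then either every element of G outside N acts fixed-point-freely on N (C_G(x) ≤ N for all x ∈ N, x ≠ 1, so G is a Frobenius group with kernel N), or N has prime-power order, or G/N has prime-power order. -/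
theorem result {G : Type*} [Group G] [Finite G] (N : Subgroup G) [N.Normal] (hN1 : N ≠ ⊥) (hN2 : N ≠ ⊤)
    (hcam : ∀ g : G, g ∉ N → ∀ n ∈ N, ∃ x : G, x * g * x⁻¹ = g * n) :
    (∀ x ∈ N, x ≠ 1 → Subgroup.centralizer ({x} : Set G) ≤ N) ∨ IsPrimePow (Nat.card N) ∨ IsPrimePow N.index := by
  by_cases hc : N.index.Coprime (Nat.card N)
  · exact Or.inl ((cam_iff hcam).2 hc)
  obtain ⟨p, hp, h1, h2⟩ := Nat.Prime.not_coprime_iff_dvd.1 hc
  refine Or.inr (or_iff_not_imp_right.2 fun h => ?_)
  obtain ⟨q, hq, h3, h4⟩ := exists_prime_ne (fun e => hN2 (index_eq_one.1 e)) N.index_ne_zero_of_finite h p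
  exact isPrimePow_card hp (cam_isPi hcam hp h2 h1 hq h4 h3) hN1

end Cfsg.Agent.S4140
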