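import Cfsg.Statements.S4142


set_option autoImplicit false
open Cfsg

namespace Cfsg.Agent.S4142

open Subgroup

/-- Let G be a finite group and N a normal subgroup. Then the conjugacy class of every element g outside N is a union of cosets of N (gn is conjugate to g for all n ∈ N) if and only if for every g outside N the centralizer of g in G has the same order as the centralizer of gN in G/N. -/
theorem result {G : Type*} [Group G] [Finite G] (N : Subgroup G) [N.Normal] :
    (∀ g : G, g ∉ N → ∀ n ∈ N, ∃ x : G, x * g * x⁻¹ = g * n) ↔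
      ∀ g : G, g ∉ N → Nat.card (Subgroup.centralizer ({g} : Set G)) =
        Nat.card (Subgroup.centralizer ({(QuotientGroup.mk g : G ⧸ N)} : Set (G ⧸ N))) := by
  have cc : ∀ {K : Type _} [Group K] (g : K),
      {y | IsConj g y}.ncard * Nat.card (centralizer ({g} : Set K)) = Nat.card K := fun {K} _ g => by
    have e : {y | IsConj g y} = MulAction.orbit (ConjAct K) g := by
      ext h; simp only [Set.mem_setOf_eq, ConjAct.mem_orbit_conjAct, isConj_comm]
    rw [nat_card_centralizer_nat_card_stabilizer, e, ← MulAction.index_stabilizer, index_mul_card]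
    rfl
  refine forall₂_congr fun g _ => ?_
  let π := QuotientGroup.mk' N
  have sub : {y | IsConj g y} ⊆ QuotientGroup.mk ⁻¹' {y | IsConj (π g) y} := fun y hy =>
    π.map_isConj hy
  have c1 := cc g
  have c2 : (QuotientGroup.mk ⁻¹' {y | IsConj (π g) y} : Set G).ncard *
      Nat.card (centralizer ({π g} : Set (G ⧸ N))) = Nat.card G := by
    rw [← Nat.card_coe_set_eq, QuotientGroup.card_preimage_mk, mul_assoc, Nat.card_coe_set_eq,
      card_eq_card_quotient_mul_card_subgroup N, mul_comm]
    congr 1
    have e : {y | IsConj (π g) y} = MulAction.orbit (ConjAct (G ⧸ N)) (π g) := by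
      ext h; simp only [Set.mem_setOf_eq, ConjAct.mem_orbit_conjAct, isConj_comm]
    rw [nat_card_centralizer_nat_card_stabilizer, e, ← MulAction.index_stabilizer, index_mul_card]
    rfl
  have key : (∀ n ∈ N, ∃ x : G, x * g * x⁻¹ = g * n) ↔
      {y | IsConj g y} = QuotientGroup.mk ⁻¹' {y | IsConj (π g) y} := by
    refine ⟨fun h => sub.antisymm fun y hy => ?_, fun h n hn => isConj_iff.1 ?_⟩
    · obtain ⟨c, hc⟩ := isConj_iff.1 hy
      obtain ⟨c, rfl⟩ := QuotientGroup.mk'_surjective N c
      have : (c * g * c⁻¹)⁻¹ * y ∈ N := QuotientGroup.eq.1 hc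
      obtain ⟨x, hx⟩ := h _ (‹N.Normal›.conj_mem _ this c⁻¹)
      exact isConj_iff.2 ⟨c * x, by rw [mul_inv_rev, show c * x * g * (x⁻¹ * c⁻¹) =
        c * (x * g * x⁻¹) * c⁻¹ by group, hx]; group⟩
    · show g * n ∈ {y | IsConj g y}
      rw [h]
      show IsConj (π g) _
      rw [QuotientGroup.mk_mul_of_mem g hn]; exact IsConj.refl _
  rw [key]
  have pos : 0 < Nat.card G := Nat.card_pos
  refine ⟨fun h => ?_, fun h => Set.eq_of_subset_of_ncard_le sub (le_of_eq ?_)⟩
  · rw [← h] at c2
    exact Nat.eq_of_mul_eq_mul_left (Nat.pos_of_mul_pos_right (c1 ▸ pos)) (c1.trans c2.symm)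
  · rw [h] at c1
    exact Nat.eq_of_mul_eq_mul_right Nat.card_pos (c2.trans c1.symm)

end Cfsg.Agent.S4142
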