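import Cfsg.Statements.S4145
import Cfsg.Agent.Lib.Grp.Fus3

set_option autoImplicit false
open Cfsg

namespace Cfsg.Agent.S4145

open Subgroup CA.SylIn CA.Fus2 CA.Fus3 CA.NPC2 CA.PRes

/-- Let G be a finite group with a cyclic Sylow p-subgroup and H a normal subgroup such that p divides both the order of H and the index of H. Then H has a normal p-complement and G is p-solvable. -/
theorem result {G : Type*} [Group G] [Finite G] (p : ℕ) [Fact p.Prime]
    (P : Sylow p G) (hP : IsCyclic (P : Subgroup G)) (H : Subgroup G) [H.Normal] (h1 : p ∣ Nat.card H) (h2 : p ∣ H.index) :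
    Cfsg.HasNormalPComplement p H ∧ Cfsg.IsPSolvable p G := by
  have hT : IsSylowIn p ((P : Subgroup G) ⊓ H) H := isSylowIn_inf_normal P H
  have hPH : ¬ (P : Subgroup G) ≤ H := fun h => P.not_dvd_index (h2.trans (index_dvd_of_le h))
  have hH : HasNormalPComplement p H := by
    refine hasNPC_of_normal_inf_le_frattini P.isPGroup' le_normalizer_of_normal
      (by simpa [inf_relIndex_right] using hT.not_dvd) fun x hx => ⟨⟨x, hx.2⟩, ?_, rfl⟩
    refine CA.PGFrattini.mem_frattini_iff.2 fun M hM => ?_
    rcases le_total_of_isCyclic (P := ⊤) (P.isPGroup'.to_subgroup ⊤) inferInstance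
      (le_top : H.subgroupOf P ≤ ⊤) (le_top : M ≤ ⊤) with h | h
    · exact h hx.1
    · rcases h.eq_or_lt with e | h
      · exact e ▸ hx.1
      · exact absurd (subgroupOf_eq_top.1 (hM.2 _ h)) hPH
  refine ⟨hH, isPSolvable_of_not_dvd_index fun hd => P.not_dvd_index (hd.trans
    (index_dvd_of_le ?_))⟩
  set T := (P : Subgroup G) ⊓ H with hTdef
  have hPC : (P : Subgroup G) ≤ centralizer (T : Set G) :=
    CA.Coprime2.le_centralizer_of_comm inferInstance inf_le_left
  have hS := isSylowIn_of_le P hPC
  have hC : HasNormalPComplement p (centralizer (T : Set G)) := by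
    have hcyc : IsCyclic hS.toSylow :=
      isCyclic_of_surjective _ (subgroupOfEquivOfLe hPC).symm.surjective
    refine (hasNPC_or_pResidual_eq_top_of_isCyclic hS.toSylow hcyc).resolve_right fun h => ?_
    have hne : T ≠ ⊥ := fun e => (inf_sylow_eq_bot_iff P H).1 (inf_comm H _ ▸ e) h1
    obtain ⟨⟨x, hx⟩, hx1⟩ := ne_bot_iff_exists_ne_one.1 hne
    have := eq_one_of_mem_commutator_of_center (H := hS.toSylow) inferInstance
      hS.toSylow.card_coprime_index (x := ⟨x, hPC hx.1⟩) hx.1
      (sylow_le_commutator_of_pResidual_eq_top hS.toSylow h hx.1)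
      (mem_center_iff.2 fun y => Subtype.ext (mem_centralizer_iff.1 y.2 x hx).symm)
    have h' : x = 1 := congrArg Subtype.val this
    exact hx1 (Subtype.ext h')
  set K := (pResidual p H).map H.subtype with hK
  have hKp : ¬ p ∣ Nat.card K := by
    rw [CA.Coprime.card_map_subtype]; exact hasNPC_iff_not_dvd.1 hH
  have hn : (centralizer (T : Set G) ⊔ K).Normal := by
    refine normalizer_eq_top_iff.1 (eq_top_iff.2 fun g _ => ?_)
    obtain ⟨h, hh, n, hn, rfl⟩ := hT.frattini (g := g) (le_normalizer_of_normal (mem_top g))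
    obtain ⟨k, hk, t, ht, rfl⟩ := exists_mul_eq_of_isSylowIn hT hh
    exact mul_mem (le_normalizer (mul_mem (mem_sup_right hk) (mem_sup_left (hPC ht.1))))
      (CA.Coprime.le_normalizer_sup (normalizer_le_normalizer_centralizer T)
        le_normalizer_of_normal hn)
  exact (hPC.trans le_sup_left).trans
    (le_pPrimePCore_iff.2 (hasNPC_sup_of_coprime le_normalizer_of_normal hKp hC))

end Cfsg.Agent.S4145
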