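import Cfsg.Statements.S4150
import Cfsg.Agent.Lib.Perm.Neumann3
import Cfsg.Agent.Lib.Perm.ZassClass
import Cfsg.Agent.Lib.Perm.SymIdx
import Cfsg.Agent.Lib.Char.CharBurn
import Cfsg.Agent.Lib.Grp.PGBasic

set_option autoImplicit false
open Cfsg

namespace Cfsg.Agent.S4150

open MulAction CA.PermBasic CA.PermMulti CA.PermJordan CA.Sharp4 CA.PrimeDeg Equiv Equiv.Perm

section nt
open Nat

theorem cb_le (n : ℕ) (n_large : 2 < n) (T : Finset ℕ) (hT : T.card ≤ 3)
    (no_prime : ∀ p : ℕ, p.Prime → n < p → p ≤ 2 * n → p ∈ T) :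
    centralBinom n ≤ (2 * n) ^ 3 * ((2 * n) ^ sqrt (2 * n) * 4 ^ (2 * n / 3)) := by
  have n_pos : 0 < n := (Nat.zero_le _).trans_lt n_large
  have n2_pos : 1 ≤ 2 * n := mul_pos (zero_lt_two' ℕ) n_pos
  let S := {p ∈ Finset.range (2 * n / 3 + 1) | Nat.Prime p}
  let f x := x ^ n.centralBinom.factorization x
  have hf : ∀ x, f x ≤ 2 * n := fun x => pow_factorization_choose_le (mul_pos two_pos n_pos)
  let T' := T.filter (fun x => n < x ∧ x ≤ 2 * n)
  have h0 : centralBinom n = ∏ p ∈ T' ∪ Finset.range (2 * n / 3 + 1), f p := by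
    refine (Eq.trans ?_ n.prod_pow_factorization_centralBinom).symm
    apply Finset.prod_subset
    · intro x hx
      simp only [Finset.mem_union, Finset.mem_range, T', Finset.mem_filter] at hx ⊢
      omega
    intro x hx h2x
    simp only [Finset.mem_union, Finset.mem_range, not_or, T', Finset.mem_filter] at hx h2x
    by_cases h : x.Prime
    · have h1 : x ≤ n := by
        by_contra h1
        exact h2x.1 ⟨no_prime x h (by omega) (by omega), by omega, by omega⟩
      simp only [f]
      rw [factorization_centralBinom_of_two_mul_self_lt_three_mul n_large h1 (by omega), Nat.pow_zero]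
    · simp only [f]
      rw [factorization_eq_zero_of_not_prime n.centralBinom h, Nat.pow_zero]
  have : ∏ x ∈ S, f x = ∏ x ∈ Finset.range (2 * n / 3 + 1), f x := by
    refine Finset.prod_filter_of_ne fun p _ h => ?_
    contrapose h; dsimp only [f]
    rw [factorization_eq_zero_of_not_prime n.centralBinom h, _root_.pow_zero]
  rw [h0, Finset.prod_union (by
    rw [Finset.disjoint_left]
    intro x hx hx'
    simp only [Finset.mem_range, T', Finset.mem_filter] at hx hx'
    omega), ← this, ← Finset.prod_filter_mul_prod_filter_not S (· ≤ sqrt (2 * n))]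
  refine mul_le_mul' ?_ (mul_le_mul' ?_ ?_)
  · exact (Finset.prod_le_pow_card _ _ _ fun x _ => hf x).trans
      (Nat.pow_le_pow_right n2_pos ((Finset.card_filter_le _ _).trans hT))
  · refine (Finset.prod_le_prod' fun p _ => hf p).trans ?_
    have : (Finset.Icc 1 (sqrt (2 * n))).card = sqrt (2 * n) := by rw [card_Icc, Nat.add_sub_cancel]
    rw [Finset.prod_const]
    refine pow_right_mono₀ n2_pos ((Finset.card_le_card fun x hx => ?_).trans this.le)
    obtain ⟨h1, h2⟩ := Finset.mem_filter.1 hx
    exact Finset.mem_Icc.mpr ⟨(Finset.mem_filter.1 h1).2.one_lt.le, h2⟩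
  · refine le_trans ?_ (primorial_le_four_pow (2 * n / 3))
    refine (Finset.prod_le_prod' fun p hp => (?_ : f p ≤ p)).trans ?_
    · obtain ⟨h1, h2⟩ := Finset.mem_filter.1 hp
      refine (pow_right_mono₀ (Finset.mem_filter.1 h1).2.one_lt.le ?_).trans (pow_one p).le
      exact Nat.factorization_choose_le_one (sqrt_lt'.mp <| not_le.1 h2)
    refine Finset.prod_le_prod_of_subset_of_one_le' (Finset.filter_subset _ _) ?_
    exact fun p hp _ => (Finset.mem_filter.1 hp).2.one_lt.le

theorem main_ineq {n : ℕ} (hn : 882 ≤ n) :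
    n * ((2 * n) ^ 3 * ((2 * n) ^ sqrt (2 * n) * 4 ^ (2 * n / 3))) ≤ 4 ^ n := by
  have h1 := sqrt_le (2 * n)
  have h2 := lt_succ_sqrt (2 * n)
  have h3 : 42 ≤ sqrt (2 * n) := le_sqrt.2 (by omega)
  generalize sqrt (2 * n) = s at *
  have h4 : ∀ t, 6 ≤ t → 7 * t + 7 ≤ 2 ^ t := fun t ht => by
    induction t, ht using Nat.le_induction with
    | base => norm_num
    | succ t _ ih => rw [pow_succ]; omega
  obtain ⟨t, ht⟩ : ∃ t, t = s / 7 := ⟨_, rfl⟩
  have h5 : s + 1 ≤ 2 ^ t := le_trans (by omega) (h4 t (by omega))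
  have h6 : 2 * n ≤ 4 ^ t := by
    calc 2 * n ≤ (s + 1) * (s + 1) := h2.le
      _ ≤ 2 ^ t * 2 ^ t := Nat.mul_le_mul h5 h5
      _ = 4 ^ t := by rw [← mul_pow]; norm_num
  have h7 : t * (s + 4) + 2 * n / 3 ≤ n := by
    have : 7 * t ≤ s := by omega
    have : 21 * (t * (s + 4)) ≤ 7 * n := by nlinarith
    omega
  calc n * ((2 * n) ^ 3 * ((2 * n) ^ s * 4 ^ (2 * n / 3)))
      ≤ 4 ^ t * ((4 ^ t) ^ 3 * ((4 ^ t) ^ s * 4 ^ (2 * n / 3))) := by gcongr; omega
    _ = 4 ^ (t * (s + 4) + 2 * n / 3) := by ring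
    _ ≤ 4 ^ n := Nat.pow_le_pow_right (by norm_num) h7

theorem two_primes {m : ℕ} (hm : 17 ≤ m) :
    ∃ p q : ℕ, p.Prime ∧ q.Prime ∧ m < 2 * p ∧ p + 3 ≤ q ∧ q ≤ m := by
  classical
  rcases lt_or_ge 1800 m with h | h
  · by_contra hc
    obtain ⟨n, hn⟩ : ∃ n, n = m / 2 := ⟨_, rfl⟩
    have hex := Nat.exists_prime_lt_and_le_two_mul n (by omega)
    obtain ⟨a1, a2, a3⟩ := Nat.find_spec hex
    have h1 := Nat.four_pow_lt_mul_centralBinom n (by omega)
    have h2 := cb_le n (by omega) {Nat.find hex, Nat.find hex + 1, Nat.find hex + 2}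
      Finset.card_le_three fun p hp h3 h4 => by
        have := Nat.find_min' hex ⟨hp, h3, h4⟩
        by_contra h5
        simp only [Finset.mem_insert, Finset.mem_singleton] at h5
        exact hc ⟨_, p, a1, hp, by omega, by omega, by omega⟩
    exact absurd (h1.trans_le ((Nat.mul_le_mul_left n h2).trans (main_ineq (by omega)))) (lt_irrefl _)
  by_cases h1 : m < 22; · exact ⟨11, 17, by norm_num, by norm_num, by omega, by omega, by omega⟩
  by_cases h1 : m < 26; · exact ⟨13, 19, by norm_num, by norm_num, by omega, by omega, by omega⟩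
  by_cases h1 : m < 38; · exact ⟨19, 23, by norm_num, by norm_num, by omega, by omega, by omega⟩
  by_cases h1 : m < 62; · exact ⟨31, 37, by norm_num, by norm_num, by omega, by omega, by omega⟩
  by_cases h1 : m < 106; · exact ⟨53, 59, by norm_num, by norm_num, by omega, by omega, by omega⟩
  by_cases h1 : m < 194; · exact ⟨97, 103, by norm_num, by norm_num, by omega, by omega, by omega⟩
  by_cases h1 : m < 362; · exact ⟨181, 191, by norm_num, by norm_num, by omega, by omega, by omega⟩
  by_cases h1 : m < 706; · exact ⟨353, 359, by norm_num, by norm_num, by omega, by omega, by omega⟩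
  by_cases h1 : m < 1382; · exact ⟨691, 701, by norm_num, by norm_num, by omega, by omega, by omega⟩
  exact ⟨1367, 1373, by norm_num, by norm_num, by omega, by omega, by omega⟩

end nt

variable {β : Type*} [Fintype β] [DecidableEq β]

theorem five (G : Subgroup (Perm β)) (hβ : Fintype.card β = 13)
    (h3 : IsMultiplyPretransitive G β 3) (h5 : 5 ∣ Nat.card G) : alternatingGroup β ≤ G := by
  by_contra hcon
  have : Fact (Nat.Prime 5) := ⟨by norm_num⟩
  have hβ' : Nat.card β = 13 := by rw [Nat.card_eq_fintype_card, hβ]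
  have hprim : IsPreprimitive G β :=
    isPreprimitive_of_is_two_pretransitive (mpt_of_le h3 (by omega) (by omega))
  have hs : ∀ s : G, orderOf s = 5 → (s : Perm β).support.card = 10 := by
    intro s hs
    rw [← Subgroup.orderOf_coe] at hs
    have hp : (orderOf (s : Perm β)).Prime := by rw [hs]; norm_num
    have h10 : 10 ≤ (s : Perm β).support.card := by
      by_contra h
      have hc := isCycle_of_prime_order hp (by omega)
      exact hcon (alt_le_of_prime_cycle G hprim (p := 5) (by norm_num) (by omega) hc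
        (hc.orderOf.symm.trans hs) s.2)
    obtain ⟨k, hk⟩ := cycleType_prime_order hp
    have := (s : Perm β).sum_cycleType
    rw [hk, Multiset.sum_replicate, hs, smul_eq_mul] at this
    have := (s : Perm β).support.card_le_univ
    omega
  obtain ⟨r, hr⟩ := exists_prime_orderOf_dvd_card' 5 h5
  set D := (r : Perm β).supportᶜ with hDdef
  have hD : D.card = 3 := by rw [Finset.card_compl, hs r hr, hβ]
  have hmD : ∀ z, z ∈ D ↔ r • z = z := fun z => by
    rw [Finset.mem_compl, notMem_support]; rfl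
  have hle : Subgroup.zpowers r ≤ fixingSubgroup G (D : Set β) :=
    Subgroup.zpowers_le.2 ((mem_fixingSubgroup_iff G).2 fun z hz => (hmD z).1 hz)
  have hr5 : IsPGroup 5 (Subgroup.zpowers r) :=
    IsPGroup.of_card (n := 1) (by rw [Nat.card_zpowers, hr, pow_one])
  obtain ⟨R, hR, hrR⟩ := exists_isSylowIn_ge hr5 hle
  have hRD : ∀ s ∈ R, ∀ z ∈ D, s • z = z := fun s hs z hz => hR.1 hs ⟨z, hz⟩
  have hdvd := card_dvd_of_semiregular_on R ((r : Perm β).support : Set β) (Set.toFinite _)
    (fun s hs z hz => by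
      by_contra h
      have h' : s • z ∈ D := Finset.mem_compl.2 h
      have := hRD _ (inv_mem hs) _ h'
      rw [inv_smul_smul] at this
      exact Finset.mem_compl.1 (this ▸ h') hz)
    (fun s hs' z hz e => by
      by_contra h1
      obtain ⟨k, hk⟩ := hR.isPGroup ⟨s, hs'⟩
      obtain ⟨j, j1, j2⟩ := CA.PGBasic.exists_pow_not_mem (p := 5) (N := ⊥) (x := s)
        (by simpa using h1) (k := k) (congrArg Subtype.val hk)
      have h10 := hs _ (orderOf_eq_prime j2 j1)
      have hsub : ((s ^ 5 ^ j : G) : Perm β).support ⊆ (r : Perm β).support.erase z := by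
        intro w hw
        rw [mem_support] at hw
        refine Finset.mem_erase.2 ⟨?_, ?_⟩
        · rintro rfl
          exact hw (pow_mem (show s ∈ stabilizer G w from e) _)
        · by_contra h
          exact hw (hRD _ (pow_mem hs' _) w (Finset.mem_compl.2 h))
      have := Finset.card_le_card hsub
      rw [Finset.card_erase_of_mem hz, h10, hs r hr] at this
      omega)
  rw [Set.ncard_coe_finset, hs r hr] at hdvd
  have hRr : Subgroup.zpowers r = R := by
    refine CA.PGBasic.eq_of_le_of_card_le hrR ?_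
    obtain ⟨k, hk⟩ := hR.isPGroup.exists_card_eq
    rw [hk] at hdvd ⊢
    rw [Nat.card_zpowers, hr]
    have := Nat.le_of_dvd (by norm_num) hdvd
    obtain rfl | rfl | h : k = 0 ∨ k = 1 ∨ 2 ≤ k := by omega
    · norm_num
    · norm_num
    · have := Nat.pow_le_pow_right (n := 5) (by norm_num) h
      omega
  obtain ⟨a, b, c, hab, hac, hbc, habc⟩ := Finset.card_eq_three.1 hD
  have ha : a ∈ D := by rw [habc]; simp
  have hb : b ∈ D := by rw [habc]; simp
  have hc : c ∈ D := by rw [habc]; simp
  obtain ⟨g, hg, e⟩ := witt_sylow_fun h3 hD hR (ι := Fin 3) (by simp) ![a, b, c] ![b, c, a]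
    (inj3 hab hac hbc) (inj3 hbc hab.symm hac.symm)
    (fun s hs i => by fin_cases i <;> exact hRD s hs _ ‹_›)
    (fun s hs i => by fin_cases i <;> exact hRD s hs _ ‹_›)
  have ea : g • a = b := e 0
  have eb : g • b = c := e 1
  have ec : g • c = a := e 2
  have hg4 : Commute (g ^ 4) r := by
    rw [← hRr] at hg
    obtain ⟨k, hk⟩ := mem_powers_iff_mem_zpowers.2
      ((Subgroup.mem_normalizer_iff.1 hg r).1 (Subgroup.mem_zpowers r))
    simp only at hk
    have hi : ∀ i : ℕ, g ^ i * r * (g ^ i)⁻¹ = r ^ k ^ i := by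
      intro i
      induction i with
      | zero => simp
      | succ i ih =>
        rw [show g ^ (i + 1) * r * (g ^ (i + 1))⁻¹ = g * (g ^ i * r * (g ^ i)⁻¹) * g⁻¹ by
          rw [pow_succ']; group, ih, ← conj_pow, ← hk, ← pow_mul, ← pow_succ']
    have hk5 : k % 5 ≠ 0 := by
      intro h
      rw [orderOf_dvd_iff_pow_eq_one.1 (hr ▸ Nat.dvd_of_mod_eq_zero h)] at hk
      have : r = 1 := by simpa using hk.symm
      rw [this, orderOf_one] at hr
      omega
    have := hi 4
    rw [← pow_mod_orderOf r, hr, show k ^ 4 % 5 = 1 by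
      rw [Nat.pow_mod]
      have : k % 5 < 5 := Nat.mod_lt _ (by norm_num)
      interval_cases k % 5 <;> simp_all, pow_one, mul_inv_eq_iff_eq_mul] at this
    exact this
  obtain ⟨k, m, hm, ho⟩ := Nat.exists_eq_pow_mul_and_not_dvd (orderOf_pos g).ne' 3 (by norm_num)
  set u := g ^ (4 * m) with hu
  have hur : Commute u r := by rw [hu, pow_mul]; exact hg4.pow_left m
  have hu3 : u ^ 3 ^ k = 1 := by
    rw [hu, ← pow_mul, show 4 * m * 3 ^ k = 3 ^ k * m * 4 by ring, ← ho, pow_mul,
      pow_orderOf_eq_one, one_pow]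
  have hua : u • a ≠ a := by
    have h3 : g ^ 3 ∈ stabilizer G a := by
      rw [mem_stabilizer_iff, pow_three, mul_smul, mul_smul, ea, eb, ec]
    have h1 : g ∉ stabilizer G a := by rw [mem_stabilizer_iff, ea]; exact hab.symm
    intro h
    have := CA.PGBasic.dvd_of_pow_mem Nat.prime_three h1 h3 h
    omega
  have : Fact (Nat.Prime 3) := ⟨Nat.prime_three⟩
  let s : Set β := {z | r • z ≠ z ∧ u • z ≠ z}
  have m5 := ncard_modEq_fixedBy (p := 5) (g := r) (k := 1) (by rw [pow_one, ← hr, pow_orderOf_eq_one])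
    s (Set.toFinite _) (fun z hz => ⟨fun e => hz.1 (smul_left_cancel r e), fun e => hz.2 (by
      rw [← mul_smul, hur.eq, mul_smul] at e; exact smul_left_cancel r e)⟩)
  have m3 := ncard_modEq_fixedBy (p := 3) hu3
    s (Set.toFinite _) (fun z hz => ⟨fun e => hz.1 (by
      rw [← mul_smul, ← hur.eq, mul_smul] at e; exact smul_left_cancel u e),
      fun e => hz.2 (smul_left_cancel u e)⟩)
  rw [show {x ∈ s | r • x = x} = ∅ from Set.eq_empty_of_forall_notMem fun x hx => hx.1.1 hx.2,
    Set.ncard_empty] at m5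
  rw [show {x ∈ s | u • x = x} = ∅ from Set.eq_empty_of_forall_notMem fun x hx => hx.1.2 hx.2,
    Set.ncard_empty] at m3
  have hle10 : s.ncard ≤ 10 := by
    rw [← hs r hr, ← Set.ncard_coe_finset]
    exact Set.ncard_le_ncard fun z hz => mem_support.2 hz.1
  have h0 : s = ∅ := by
    rw [← Set.ncard_eq_zero]
    unfold Nat.ModEq at m5 m3
    omega
  refine hcon (alt_le_of_support_le_three hprim u.2 (fun e => hua ?_) ?_)
  · change (u : Perm β) a = a
    rw [e]; rfl
  · rw [← hD]
    refine Finset.card_le_card fun z hz => (hmD z).2 ?_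
    by_contra h
    exact (h0 ▸ (⟨h, mem_support.1 hz⟩ : z ∈ s) : z ∈ (∅ : Set β))

theorem card_ofFix (G : Subgroup (Perm β)) (g : Perm β) :
    Nat.card (SubMulAction.ofFixingSubgroup G (g.support : Set β)ᶜ) = g.support.card := by
  rw [← Set.ncard_coe_finset, ← Nat.card_coe_set_eq]
  exact Nat.card_congr (Equiv.subtypeEquivRight (fun x => not_not))

theorem twin (G : Subgroup (Perm β)) (hG : IsPreprimitive G β) {p : ℕ} (hp : p = 5 ∨ p = 11)
    (hβ : Fintype.card β = p + 2) {x : Perm β} (hxc : x.IsCycle) (hxp : x.support.card = p)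
    (hx : x ∈ G) : alternatingGroup β ≤ G := by
  by_contra hcon
  have hpp : p.Prime := by rcases hp with rfl | rfl <;> norm_num
  have := Fact.mk hpp
  have hβ' : Nat.card β = p + 2 := by rw [Nat.card_eq_fintype_card, hβ]
  have hΔ : (x.supportᶜ).card = 2 := by rw [Finset.card_compl, hxp]; omega
  have hsc : Set.ncard ((x.support)ᶜ : Set β) = 1 + 1 := by
    rw [← Finset.coe_compl, Set.ncard_coe_finset, hΔ]
  have h1 := isPretransitive_of_isCycle_mem hxc hx
  have hΓ := (card_ofFix G x).trans hxp
  have h3 : IsMultiplyPretransitive G β 3 :=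
    (hG.isMultiplyPreprimitive hsc (by omega) (preprimitive hΓ)).isMultiplyPretransitive
  have h2 : IsMultiplyPretransitive G β 2 := mpt_of_le h3 (by omega) (by omega)
  set H := fixingSubgroup G (x.support : Set β)ᶜ with hH
  have := faithful_fixing (G := G) (x.support : Set β)ᶜ
  have h5 : p = 11 → ¬ 5 ∣ Nat.card G := fun e h => hcon (five G (by omega) h3 h)
  have hsol : Group.IsSolvable H := by
    rcases hp with rfl | rfl
    · have hd := card_dvd_factorial_of_fix (G := G) (x.support : Set β)ᶜ
      rw [hsc, hβ'] at hd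
      refine CChar.CharBurn.isSolvable_of_primes (p := 2) (q := 5) fun r hr hrd => ?_
      have hr5 : r ≤ 5 := hr.dvd_factorial.1 (hrd.trans hd)
      have hr3 : r ≠ 3 := by
        rintro rfl
        have : Fact (Nat.Prime 3) := ⟨hr⟩
        obtain ⟨t, ht⟩ := exists_prime_orderOf_dvd_card' 3 hrd
        rw [← Subgroup.orderOf_coe, ← Subgroup.orderOf_coe] at ht
        have hsub : ((t : G) : Perm β).support ⊆ x.support := by
          intro z hz
          by_contra h
          exact mem_support.1 hz (t.2 ⟨z, h⟩)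
        have hc := isCycle_of_prime_order (ht ▸ hr) (by
          have := Finset.card_le_card hsub; omega)
        exact hcon (alt_le_of_prime_cycle G hG hr (by omega) hc (hc.orderOf.symm.trans ht) t.1.2)
      have := hr.two_le
      interval_cases r
      · simp
      · simp at hr3
      · norm_num at hr
      · simp
    · by_contra hins
      have := descFactorial_dvd_card (CA.Neumann.two_of_insol hΓ hins) (by omega)
      rw [hΓ] at this
      exact h5 rfl ((Dvd.dvd.trans (by norm_num) this).trans (Subgroup.card_subgroup_dvd_card H))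
  obtain ⟨P⟩ : Nonempty (Sylow p H) := inferInstance
  have hPn := (isSolvable_iff hΓ P).1 hsol
  obtain ⟨d, hd, hcH⟩ := card_normalizer hΓ P
  rw [Subgroup.normalizer_eq_top, Subgroup.card_top] at hcH
  obtain ⟨a, b, hab, e⟩ := Finset.card_eq_two.1 hΔ
  have hHe : stabilizer G a ⊓ stabilizer G b = H := by
    ext g
    rw [hH, ← Finset.coe_compl, e, mem_fixingSubgroup_iff]
    simp
  have hcG := CA.Neumann3.card_eq_of_two h2 hab
  rw [hHe, hcH, hβ'] at hcG
  have hca := card_eq_card_mul_card_stabilizer (G := G) a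
  rw [hβ', hcG] at hca
  have hca' : Nat.card (stabilizer G a) = (p + 1) * p * d := by
    have := Nat.eq_of_mul_eq_mul_left (by omega) hca
    rw [← this, mul_assoc]; rfl
  have := faithful_stab (G := G) a
  have : IsPretransitive (stabilizer G a) (SubMulAction.ofStabilizer G a) :=
    pretransitive_stab_iff.2 ((two_iff_stab a).1 h2)
  have hΩ : Nat.card (SubMulAction.ofStabilizer G a) = p + 1 := by
    have := SubMulAction.nat_card_ofStabilizer_add_one_eq G a
    omega
  have hdp : d < p := by have := Nat.le_of_dvd (by omega) hd; omega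
  have hcase : d = p - 1 ∨ 2 * d = p - 1 := by
    rcases CA.Zass.prime_add_one hpp hΩ hca' hdp with h | h | ⟨q, -, h, -⟩
    · exact Or.inl h.1
    · exact Or.inr h.1
    · exfalso
      have : 3 ∣ 2 ^ q := by rw [← h]; omega
      have := Nat.prime_three.dvd_of_dvd_pow this
      omega
  rcases hp with rfl | rfl
  · have : Fact (Nat.Prime 7) := ⟨by norm_num⟩
    obtain ⟨Q⟩ : Nonempty (Sylow 7 G) := inferInstance
    obtain ⟨f, hf, hcN⟩ := card_normalizer hβ' Q
    have hf1 : f ≠ 1 := by
      rintro rfl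
      have hQ := card_sylow hβ' Q
      have := eq_top_of_normalizer_le hβ' Q (CA.PGBasic.eq_of_le_of_card_le
        Subgroup.le_normalizer (by rw [hcN, hQ])).ge
      rw [this, Subgroup.card_top] at hQ
      omega
    have hm := card_sylow_modEq_one 7 G
    rw [Sylow.card_eq_index_normalizer Q] at hm
    have hmul := (Subgroup.normalizer ((Q : Subgroup G) : Set G)).card_mul_index
    rw [hcN, hcG] at hmul
    unfold Nat.ModEq at hm
    generalize (Subgroup.normalizer ((Q : Subgroup G) : Set G)).index = t at hm hmul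
    have := Nat.le_of_dvd (by norm_num) hf
    interval_cases f <;> omega
  · apply h5 rfl
    rw [hcG]
    omega

theorem core {p q : ℕ} (hp : p.Prime) (hq : q.Prime) {x y : Perm β} (hx : orderOf x = p)
    (hy : orderOf y = q) (hs : ∀ z, z ∈ x.support ∨ z ∈ y.support)
    (hn : Fintype.card β < p + q) (hn2 : Fintype.card β < 2 * q)
    (hc : (x.IsCycle ∧ (p + 3 ≤ Fintype.card β ∨ p = 3 ∨
      ((p = 5 ∨ p = 11) ∧ Fintype.card β = p + 2))) ∨ q + 3 ≤ Fintype.card β) :
    alternatingGroup β ≤ Subgroup.closure {x, y} := by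
  set G := Subgroup.closure ({x, y} : Set (Perm β))
  have hxG : x ∈ G := Subgroup.subset_closure (by simp)
  have hyG : y ∈ G := Subgroup.subset_closure (by simp)
  have hyc : y.IsCycle := isCycle_of_prime_order (hy ▸ hq) (by
    have := y.support.card_le_univ; omega)
  have hyq : y.support.card = q := hyc.orderOf.symm.trans hy
  obtain ⟨w₀, hw₀, hw⟩ := hyc
  have hyc : y.IsCycle := ⟨w₀, hw₀, hw⟩
  have htr : IsPretransitive G β := by
    refine (subgroup_pretransitive_iff_base G w₀).2 fun z => ?_
    have h1 : ∀ w ∈ y.support, ∃ h ∈ G, h • w₀ = w := fun w hw' => by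
      obtain ⟨i, hi⟩ := hw (mem_support.1 hw')
      exact ⟨y ^ i, zpow_mem hyG i, hi⟩
    by_cases hz : z ∈ y.support
    · exact h1 z hz
    have hzx := (hs z).resolve_right hz
    have hcard : (x.cycleOf z).support.card = p := by
      have hm : (x.cycleOf z).support.card ∈ x.cycleType := by
        rw [cycleType_def]
        exact Multiset.mem_map.2 ⟨_, cycleOf_mem_cycleFactorsFinset_iff.2 hzx, rfl⟩
      have := two_le_of_mem_cycleType hm
      exact ((Nat.dvd_prime hp).1 (hx ▸ dvd_of_mem_cycleType hm)).resolve_left (by omega)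
    obtain ⟨w, hw1, hw2⟩ : ∃ w ∈ (x.cycleOf z).support, w ∈ y.support := by
      by_contra h
      push Not at h
      have := Finset.card_le_univ ((x.cycleOf z).support ∪ y.support)
      rw [Finset.card_union_of_disjoint (Finset.disjoint_left.2 h)] at this
      omega
    obtain ⟨i, hi⟩ := (mem_support_cycleOf_iff.1 hw1).1.symm
    obtain ⟨h, hh, e⟩ := h1 w hw2
    exact ⟨x ^ i * h, mul_mem (zpow_mem hxG i) hh, by rw [mul_smul, e]; exact hi⟩
  have hG : IsPreprimitive G β := by
    have := Fact.mk hq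
    have := isPretransitive_of_isCycle_mem hyc hyG
    have hΓ := (card_ofFix G y).trans hyq
    have := preprimitive (G := fixingSubgroup G (y.support : Set β)ᶜ) hΓ
    refine IsPreprimitive.of_card_lt
      (f := SubMulAction.ofFixingSubgroup_equivariantMap G (y.support : Set β)ᶜ) ?_
    rw [← Set.image_univ, Set.ncard_image_of_injective _
      SubMulAction.ofFixingSubgroup_equivariantMap_injective, Set.ncard_univ, hΓ,
      Nat.card_eq_fintype_card]
    exact hn2
  rcases hc with ⟨hxc, h | h | ⟨h, h'⟩⟩ | h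
  · exact alt_le_of_prime_cycle G hG hp h hxc (hxc.orderOf.symm.trans hx) hxG
  · exact alt_le_of_support_le_three hG hxG hxc.ne_one (by rw [← hxc.orderOf, hx, h])
  · exact twin G hG h h' hxc (hxc.orderOf.symm.trans hx) hxG
  · exact alt_le_of_prime_cycle G hG hq h hyc hyq hyG

theorem mem_alt {x : Perm β} (h : Odd (orderOf x)) : x ∈ alternatingGroup β := by
  rw [mem_alternatingGroup]
  have := congrArg sign (pow_orderOf_eq_one x)
  rw [map_pow, map_one] at this
  rcases Int.units_eq_one_or (sign x) with e | e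
  · exact e
  · rw [e, h.neg_one_pow] at this
    exact e.trans this

theorem good {p q : ℕ} (hp : p.Prime) (hq : q.Prime) (h3 : 3 ≤ p) (hpq : p < q) {x y : Perm β}
    (hx : orderOf x = p) (hy : orderOf y = q) (hn : Fintype.card β ≤ 2 * p)
    (hc : ∀ n, q ≤ n → x.support.card ≤ n → (x.IsCycle ∧ (p + 3 ≤ n ∨ p = 3 ∨
      ((p = 5 ∨ p = 11) ∧ n = p + 2))) ∨ q + 3 ≤ n) :
    ∃ d : ℕ, 5 ≤ d ∧
      Nonempty (Subgroup.closure ({x, y} : Set (Perm β)) ≃* alternatingGroup (Fin d)) := by
  let S := x.support ∪ y.support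
  let γ := {z // z ∈ S}
  have hγ : Fintype.card γ = S.card := Fintype.card_coe _
  have hS := S.card_le_univ
  have key : ∀ t : Perm β, t.support ⊆ S → ∃ t' : Perm γ, ofSubtype t' = t := by
    intro t ht
    have h1 : ∀ z, t z ∈ S ↔ z ∈ S := fun z => by
      by_cases hz : z ∈ t.support
      · exact ⟨fun _ => ht hz, fun _ => ht (apply_mem_support.2 hz)⟩
      · rw [notMem_support.1 hz]
    exact ⟨t.subtypePerm h1, ofSubtype_subtypePerm h1 fun z hz => ht (mem_support.2 hz)⟩
  obtain ⟨x', ex⟩ := key x Finset.subset_union_left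
  obtain ⟨y', ey⟩ := key y Finset.subset_union_right
  have hinj : Function.Injective (ofSubtype : Perm γ →* Perm β) := ofSubtype_injective
  have hx' : orderOf x' = p := by rw [← hx, ← ex, orderOf_injective _ hinj]
  have hy' : orderOf y' = q := by rw [← hy, ← ey, orderOf_injective _ hinj]
  have hyc : y.IsCycle := isCycle_of_prime_order (hy ▸ hq) (by
    have := y.support.card_le_univ; omega)
  have hqS : q ≤ S.card := by
    rw [← hy, hyc.orderOf]; exact Finset.card_le_card Finset.subset_union_right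
  have hq5 : 5 ≤ q := by
    by_contra h
    obtain rfl : q = 4 := by omega
    norm_num at hq
  have hle := core hp hq hx' hy' (fun z => by
      have hz := z.2
      rw [Finset.mem_union, mem_support, mem_support] at hz
      rw [mem_support, mem_support]
      refine hz.imp (fun h e => h ?_) (fun h e => h ?_)
      · rw [← ex, ofSubtype_apply_coe, e]
      · rw [← ey, ofSubtype_apply_coe, e]) (by omega) (by omega) (by
      rw [hγ]
      refine (hc _ hqS (Finset.card_le_card Finset.subset_union_left)).imp_left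
        fun h => ⟨?_, h.2⟩
      have := h.1
      rw [← card_cycleType_eq_one, ← ex, cycleType_ofSubtype, card_cycleType_eq_one] at this
      exact this)
  have heq : Subgroup.closure ({x', y'} : Set (Perm γ)) = alternatingGroup γ := by
    refine le_antisymm ((Subgroup.closure_le _).2 ?_) hle
    rintro _ (rfl | rfl)
    · exact mem_alt (hx' ▸ hp.odd_of_ne_two (by omega))
    · exact mem_alt (hy' ▸ hq.odd_of_ne_two (by omega))
  refine ⟨S.card, by omega, ⟨?_⟩⟩
  refine (MulEquiv.subgroupCongr ?_).trans ((Subgroup.equivMapOfInjective _ _ hinj).symm.trans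
    ((MulEquiv.subgroupCongr heq).trans (Fintype.equivFinOfCardEq hγ).altCongrHom))
  rw [MonoidHom.map_closure, Set.image_pair, ex, ey]

theorem six (h6 : Fintype.card β = 6) {x y : Perm β} (hx : orderOf x = 3) (hy : orderOf y = 5) :
    ∃ d : ℕ, 5 ≤ d ∧
      Nonempty (Subgroup.closure ({x, y} : Set (Perm β)) ≃* alternatingGroup (Fin d)) := by
  have main : ∀ x y : Perm β, x.IsThreeCycle → orderOf y = 5 → ∃ d : ℕ, 5 ≤ d ∧
      Nonempty (Subgroup.closure ({x, y} : Set (Perm β)) ≃* alternatingGroup (Fin d)) :=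
    fun x y hx hy => good Nat.prime_three (by norm_num) le_rfl (by norm_num) hx.orderOf hy
      (by omega) fun n _ _ => Or.inl ⟨hx.isCycle, Or.inr (Or.inl rfl)⟩
  by_cases h : x.IsThreeCycle
  · exact main x y h hy
  obtain ⟨θ, hθ, -⟩ := CA.SymIdx.six h6
  obtain ⟨c, hc⟩ := CA.SymIdx.exists_three (Ω := β) (by omega)
  have h1 : ¬ (θ c).IsThreeCycle := fun h1 => by
    obtain ⟨σ, rfl⟩ := CA.SymIdx.inner_of_three (by omega) θ hc h1
    obtain ⟨a⟩ : Nonempty β := Fintype.card_pos_iff.1 (by omega)
    exact hθ a _ (CA.SymIdx.map_conj_stab σ a)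
  have h2 : IsConj (θ c) x := isConj_of_cycleType_eq (by
    rw [CA.SymIdx.type_three h6 hx h,
      CA.SymIdx.type_three h6 (by rw [MulEquiv.orderOf_eq, hc.orderOf]) h1])
  obtain ⟨g, hg⟩ := isConj_iff.1 h2
  have h3 : (θ.symm x).IsThreeCycle := by
    rw [← hg, map_mul, map_mul, map_inv, MulEquiv.symm_apply_apply, IsThreeCycle, cycleType_conj]
    exact hc
  obtain ⟨d, hd, ⟨e⟩⟩ := main _ (θ.symm y) h3 (by rw [MulEquiv.orderOf_eq, hy])
  refine ⟨d, hd, ⟨(θ.symm.subgroupMap _).trans ((MulEquiv.subgroupCongr ?_).trans e)⟩⟩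
  rw [MonoidHom.map_closure, Set.image_pair]; rfl

/-- Let m ≥ 5. Then there are primes p < q with m/2 ≤ p and q ≤ m such that any two elements x, y of the alternating group of degree m with x of order p and y of order q generate a subgroup isomorphic to an alternating group of some degree d ≥ 5. -/
theorem result (m : ℕ) (hm : 5 ≤ m) :
    ∃ p q : ℕ, p.Prime ∧ q.Prime ∧ m ≤ 2 * p ∧ p < q ∧ q ≤ m ∧
      ∀ x y : alternatingGroup (Fin m), orderOf x = p → orderOf y = q →
        ∃ d : ℕ, 5 ≤ d ∧ Nonempty (Subgroup.closure ({x, y} : Set (alternatingGroup (Fin m))) ≃* alternatingGroup (Fin d)) := by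
  suffices h : ∃ p q : ℕ, p.Prime ∧ q.Prime ∧ m ≤ 2 * p ∧ p < q ∧ q ≤ m ∧
      ∀ x y : Perm (Fin m), orderOf x = p → orderOf y = q → ∃ d : ℕ, 5 ≤ d ∧
        Nonempty (Subgroup.closure ({x, y} : Set (Perm (Fin m))) ≃* alternatingGroup (Fin d)) by
    obtain ⟨p, q, h1, h2, h3, h4, h5, h⟩ := h
    refine ⟨p, q, h1, h2, h3, h4, h5, fun x y hx hy => ?_⟩
    obtain ⟨d, hd, ⟨e⟩⟩ := h x y (by rw [Subgroup.orderOf_coe, hx]) (by rw [Subgroup.orderOf_coe, hy])
    refine ⟨d, hd, ⟨(Subgroup.equivMapOfInjective _ _ (alternatingGroup (Fin m)).subtype_injective).trans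
      ((MulEquiv.subgroupCongr ?_).trans e)⟩⟩
    rw [MonoidHom.map_closure, Set.image_pair]; rfl
  have cyc : ∀ {p : ℕ} {x : Perm (Fin m)}, p.Prime → m < 2 * p → orderOf x = p → x.IsCycle :=
    fun {p x} hp h hx => isCycle_of_prime_order (hx ▸ hp) (by
      have := x.support.card_le_univ
      rw [Fintype.card_fin] at this
      omega)
  have hF := Fintype.card_fin m
  by_cases h5 : m = 5
  · exact ⟨3, 5, by norm_num, by norm_num, by omega, by omega, by omega, fun x y hx hy =>
      good Nat.prime_three (by norm_num) le_rfl (by norm_num) hx hy (by omega) fun n _ _ =>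
        Or.inl ⟨cyc Nat.prime_three (by omega) hx, Or.inr (Or.inl rfl)⟩⟩
  by_cases h6 : m = 6
  · exact ⟨3, 5, by norm_num, by norm_num, by omega, by omega, by omega, fun x y hx hy =>
      six (by omega) hx hy⟩
  by_cases h10 : m ≤ 10
  · refine ⟨5, 7, by norm_num, by norm_num, by omega, by omega, by omega, fun x y hx hy =>
      good (by norm_num) (by norm_num) (by norm_num) (by norm_num) hx hy (by omega)
        fun n h1 h2 => ?_⟩
    by_cases h : 10 ≤ n
    · exact Or.inr h
    · exact Or.inl ⟨isCycle_of_prime_order (by rw [hx]; norm_num) (by omega), by omega⟩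
  by_cases h13 : m ≤ 13
  · exact ⟨7, 11, by norm_num, by norm_num, by omega, by omega, by omega, fun x y hx hy =>
      good (by norm_num) (by norm_num) (by norm_num) (by norm_num) hx hy (by omega) fun n _ _ =>
        Or.inl ⟨cyc (by norm_num) (by omega) hx, by omega⟩⟩
  by_cases h16 : m ≤ 16
  · exact ⟨11, 13, by norm_num, by norm_num, by omega, by omega, by omega, fun x y hx hy =>
      good (by norm_num) (by norm_num) (by norm_num) (by norm_num) hx hy (by omega) fun n _ _ =>
        Or.inl ⟨cyc (by norm_num) (by omega) hx, by omega⟩⟩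
  obtain ⟨p, q, hp, hq, h1, h2, h3⟩ := two_primes (m := m) (by omega)
  exact ⟨p, q, hp, hq, by omega, by omega, h3, fun x y hx hy =>
    good hp hq (by omega) (by omega) hx hy (by omega) fun n _ _ =>
      Or.inl ⟨cyc hp h1 hx, by omega⟩⟩

end Cfsg.Agent.S4150
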