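import Cfsg.Statements.S4151
import Mathlib
import Cfsg.Agent.S4118

set_option autoImplicit false
open Cfsg

namespace Cfsg.Agent.S4151

open Subgroup CA.Fc CA.Core CA.Fitting CA.SylIn CA.Coprime CA.PRes

theorem z_cop {G : Type*} [Group G] [Finite G] {H Q : Subgroup G} [IsZGroup H]
    (hn : Q ≤ normalizer (H : Set G)) (hc : (Nat.card Q).Coprime (Nat.card H)) :
    (Nat.card (⁅H, Q⁆ : Subgroup G)).Coprime (Nat.card (H ⊓ centralizer (Q : Set G) : Subgroup G)) := by
  refine Nat.coprime_of_dvd fun p hp h1 h2 => ?_
  have := Fact.mk hp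
  have hs : Group.IsSolvable Q ∨ Group.IsSolvable H := Or.inr inferInstance
  have cyc : ∀ T : Subgroup G, T ≤ H → IsPGroup p T → IsCyclic T := fun T h1 h2 => by
    have : IsZGroup T := IsZGroup.of_injective (inclusion_injective h1)
    exact isCyclic_of_surjective _ (hH := IsPGroup.isCyclic_of_isZGroup (isPGroup_top_iff.2 h2))
      topEquiv.surjective
  obtain ⟨x, hx⟩ := exists_prime_orderOf_dvd_card' p h2
  rw [← orderOf_coe] at hx
  obtain ⟨T, hT, QT, xT⟩ := CA.Coprime2.exists_isSylowIn_ge hn hc hs (p := p) (U := zpowers (x : G))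
    (zpowers_le.2 x.2.1) (IsPGroup.of_card (n := 1) (by rw [Nat.card_zpowers, hx, pow_one]))
    ((le_centralizer_iff.1 (zpowers_le.2 x.2.2)).trans (Subgroup.centralizer_le_normalizer _))
  have := cyc T hT.le hT.isPGroup
  have cT : ⁅Q, T⁆ = ⊥ := by
    refine (hT.isPGroup.commutator_eq_bot_or_commutator_eq_self QT
      (coprime_card_of_le hT.le hc.symm)).resolve_right fun e => ?_
    have := CA.Coprime2.centralizer_inf_commutator QT (coprime_card_of_le hT.le hc.symm).symm
    rw [commutator_comm, e] at this
    have : (x : G) ∈ (⊥ : Subgroup G) := this ▸ ⟨⟨xT (mem_zpowers _), x.2.2⟩, xT (mem_zpowers _)⟩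
    rw [mem_bot.1 this, orderOf_one] at hx
    exact hp.one_lt.ne hx
  have LL := commutator_commutator hn hc hs
  have LH : ⁅H, Q⁆ ≤ H := CA.Coprime.commutator_le_left hn
  have QL : Q ≤ normalizer ((⁅H, Q⁆ : Subgroup G) : Set G) := le_normalizer_commutator hn le_normalizer
  have hP := hT.inf_of_normal LH (normalizer_commutator_ge_left H Q)
  generalize ⁅H, Q⁆ = L at *
  have cP : ⁅Q, T ⊓ L⁆ = ⊥ := eq_bot_iff.2 ((commutator_mono le_rfl inf_le_left).trans cT.le)
  generalize T ⊓ L = P at *
  have : IsZGroup L := IsZGroup.of_injective (inclusion_injective LH)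
  have npc : Cfsg.HasNormalPComplement p L := by
    refine hasNPC_of_normalizer_le_centralizer hP.toSylow
      ((Sylow.normalizer_le_centralizer_or_le_commutator hP.toSylow).elim id fun hle => ?_)
    have PL : P ≤ ⁅L, L⁆ := by
      rw [← hP.map_toSylow, ← map_subtype_commutator]; exact map_mono hle
    have c1 : IsCyclic (⁅L, L⁆ : Subgroup G) := by
      have := IsZGroup.isCyclic_commutator L
      rw [← map_subtype_commutator]
      exact isCyclic_of_surjective _ (L.subtype.subgroupMap_surjective _)
    have hP' := hP.of_le PL (CA.Coprime.commutator_le_left le_normalizer)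
    have LP : L ≤ normalizer (P : Set G) := fun g hg => by
      obtain ⟨h, hh, e⟩ := hP'.exists_conj_eq (hP'.conj_of_mem_normalizer
        (le_normalizer_commutator le_normalizer le_normalizer hg))
      rw [mem_normalizer_iff_conj_eq, ← e]
      exact conj_eq_of_mem_normalizer (CA.Coprime2.le_normalizer_of_comm inferInstance PL hh)
    have := commutator_commutator_eq_bot_of_rotate (H₁ := L) (H₂ := Q) (H₃ := P) (by rw [cP, commutator_bot_left])
      (eq_bot_iff.2 ((commutator_mono (CA.Coprime.commutator_le_left LP) le_rfl).trans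
        (by rw [commutator_comm, cP])))
    rw [LL, commutator_eq_bot_iff_le_centralizer] at this
    exact fun g _ y hy => Subtype.ext (this g.2 y hy)
  have := commutator_le_of_mul_centralizer (A := Q) (K := L) (N := (Cfsg.pResidual p L).map L.subtype)
    fun k hk => by
      obtain ⟨n, hn, y, hy, e⟩ := exists_mul_eq_of_isSylowIn hP hk
      exact ⟨n, hn, y, le_centralizer_iff.1 (commutator_eq_bot_iff_le_centralizer.1 cP) hy, e.symm⟩
  rw [LL] at this
  have := card_dvd_of_le (this.trans (CA.Coprime.commutator_le_left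
    (QL.trans (normalizer_le_normalizer_map_pResidual L))))
  rw [CA.Coprime.card_map_subtype] at this
  exact hasNPC_iff_not_dvd.1 npc (h1.trans this)

/-- Let G be a finite group and H a non-normal subgroup meeting each of its conjugates by elements outside N_G(H) trivially, with the order of H coprime to its index in N_G(H), such that G is π-separable for π the set of primes dividing the order of H (G has a chain of normal subgroups from 1 to G each of whose factors has order divisible only by primes dividing the order of H or coprime to it). Suppose a Sylow 2-subgroup of H is abelian and Q is a complement of H in N_G(H). Then C_H(Q), the subgroup of elements of H commuting with Q, has order coprime to its index in G and has a normal complement in G. -/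
theorem result {G : Type*} [Group G] [Finite G] (H : Subgroup G)
    (hTI : Cfsg.IsTISubset (H : Set G)) (hnn : ¬ H.Normal)
    (hHall : (Nat.card H).Coprime (H.subgroupOf (Subgroup.normalizer (H : Set G))).index)
    (hsep : ∃ (n : ℕ) (M : Fin (n + 1) → Subgroup G), M 0 = ⊥ ∧ M (Fin.last n) = ⊤ ∧ Monotone M ∧ (∀ i, (M i).Normal) ∧
      ∀ i : Fin n, (∀ q : ℕ, q.Prime → q ∣ (M i.castSucc).relIndex (M i.succ) → q ∣ Nat.card H) ∨
        ((M i.castSucc).relIndex (M i.succ)).Coprime (Nat.card H))
    (h2 : ∀ P : Sylow 2 H, IsMulCommutative (P : Subgroup H))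
    (Q : Subgroup G) (hQ : Q ≤ Subgroup.normalizer (H : Set G)) (hQH : Q ⊓ H = ⊥) (hQH' : Q ⊔ H = Subgroup.normalizer (H : Set G)) :
    (Nat.card ↥(H ⊓ Subgroup.centralizer (Q : Set G))).Coprime (H ⊓ Subgroup.centralizer (Q : Set G)).index ∧
    ∃ N : Subgroup G, N.Normal ∧ N.IsComplement' (H ⊓ Subgroup.centralizer (Q : Set G)) := by
  obtain ⟨top, -, -⟩ := Cfsg.Agent.S4118.result H hTI hnn hHall hsep _ rfl
  change Cfsg.pPrimeCore (Nat.card H) G ⊔ _ = _ at top
  have cO : (Nat.card (Cfsg.pPrimeCore (Nat.card H) G)).Coprime (Nat.card H) := coprime_pPrimeCore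
  have : (Cfsg.pPrimeCore (Nat.card H) G).Normal := inferInstance
  generalize Cfsg.pPrimeCore (Nat.card H) G = O at *
  have OH : O ⊓ normalizer (H : Set G) ≤ centralizer (H : Set G) :=
    le_centralizer_of_coprime inf_le_right (le_inf le_normalizer_of_normal
      (le_normalizer.trans le_normalizer) |>.trans (inf_normalizer_le_normalizer_inf _ _))
      (coprime_card_of_le inf_le_left cO)
  have fc : FC H := by
    have : ¬ O ≤ centralizer (H : Set G) := fun hle => hnn (by
      rw [← normalizer_eq_top_iff, eq_top_iff, ← top]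
      exact sup_le (hle.trans (Subgroup.centralizer_le_normalizer _)) le_rfl)
    by_contra hf
    refine this (CA.Coprime2.le_of_forall_invariant_sylow (A := H) le_normalizer_of_normal cO.symm
      (CA.L0FT.solv_or cO.symm) fun p _ T _ hT hn => ?_)
    by_contra hle
    refine hf (Cfsg.Agent.S4118.fc_of hT.isPGroup hn (coprime_card_of_le hT.le cO).symm hle
      fun h hh h1 u hu e => ?_)
    refine OH ⟨hT.le hu, ?_⟩
    by_contra hu'
    exact h1 (hTI u hu' h hh (by rw [← e, mul_inv_cancel_right]; exact hh))
  have : IsZGroup H := ⟨fun p hp P => by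
    have := Fact.mk hp
    by_cases e : p = 2
    · subst e; exact fc.isCyclic_of_comm _ (h2 P)
    · exact fc.isCyclic_of_odd P.2 e⟩
  have cQ : (Nat.card Q).Coprime (Nat.card H) := by
    have c1 := card_sup_of_disjoint hQ (disjoint_iff.2 (by rw [inf_comm, hQH]))
    have c2 := CA.H1Basic.card_mul_relIndex (le_normalizer (H := H))
    rw [← hQH', c1, mul_comm] at c2
    rw [← Nat.eq_of_mul_eq_mul_right Nat.card_pos c2, hQH']
    exact hHall.symm
  have c := z_cop hQ cQ
  have e := commutator_sup_centralizer hQ cQ (Or.inr inferInstance)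
  have QL : Q ≤ normalizer ((⁅H, Q⁆ : Subgroup G) : Set G) := le_normalizer_commutator hQ le_normalizer
  have n1 : normalizer (H : Set G) ≤ normalizer ((Q ⊔ ⁅H, Q⁆ : Subgroup G) : Set G) := by
    rw [← hQH']
    refine sup_le (le_sup_left.trans le_normalizer) fun h hh => mem_normalizer_of_conj_le ?_
    rw [conj_sup, conj_eq_of_mem_normalizer (normalizer_commutator_ge_left H Q hh)]
    refine sup_le (conj_le_iff.2 fun q hq => ?_) le_sup_right
    rw [show h * q * h⁻¹ = h * q * h⁻¹ * q⁻¹ * q by group]
    exact mul_mem (mem_sup_right (commutator_mem_commutator hh hq)) (mem_sup_left hq)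
  have n2 : (O ⊔ (Q ⊔ ⁅H, Q⁆)).Normal := by
    rw [← normalizer_eq_top_iff, eq_top_iff, ← top]
    exact sup_le (le_sup_left.trans le_normalizer) ((le_inf le_normalizer_of_normal n1).trans
      (inf_normalizer_le_normalizer_sup _ _))
  have c2 : (Nat.card (O ⊔ (Q ⊔ ⁅H, Q⁆) : Subgroup G)).Coprime
      (Nat.card (H ⊓ centralizer (Q : Set G) : Subgroup G)) := by
    rw [sup_comm]
    exact coprime_card_sup le_normalizer_of_normal (coprime_card_sup QL
      (coprime_card_of_le inf_le_left cQ.symm).symm c) (coprime_card_of_le inf_le_left cO.symm).symm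
  have hc : (O ⊔ (Q ⊔ ⁅H, Q⁆)).IsComplement' (H ⊓ centralizer (Q : Set G)) := by
    refine isComplement'_of_disjoint_and_mul_eq_univ (disjoint_iff.2 (inf_eq_bot_of_coprime c2)) ?_
    rw [← normal_mul, sup_assoc, sup_assoc, e, hQH', top, coe_top]
  exact ⟨by rw [hc.index_eq_card]; exact c2.symm, _, n2, hc⟩

end Cfsg.Agent.S4151
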