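import Cfsg.Statements.S4153
import Cfsg.Agent.Lib.Grp.L0Syl
import Cfsg.Agent.Lib.Grp.PGBasic
import Cfsg.Agent.Lib.Grp.PRes

set_option autoImplicit false
open Cfsg

namespace Cfsg.Agent.S4153

open Subgroup CA.L0Syl CA.SylIn

/-- Let G be a finite group, p a prime, N a normal subgroup, P a Sylow p-subgroup of G and P̄ a Sylow p-subgroup of G/N. Count the elements of p-power order, the identity included. Then (number of such elements of G/N)/#P̄ ≤ (number of such elements of G)/#P, stated as a cross-multiplied inequality, with equality when N is central. -/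
theorem result {G : Type*} [Group G] [Finite G] (p : ℕ) [Fact p.Prime] (N : Subgroup G) [N.Normal]
    (P : Sylow p G) (Pbar : Sylow p (G ⧸ N)) :
    Nat.card {g : (G ⧸ N) // ∃ k : ℕ, orderOf g = p ^ k} * Nat.card (P : Subgroup G) ≤ Nat.card {g : G // ∃ k : ℕ, orderOf g = p ^ k} * Nat.card (Pbar : Subgroup (G ⧸ N)) ∧
    (N ≤ Subgroup.center G → Nat.card {g : (G ⧸ N) // ∃ k : ℕ, orderOf g = p ^ k} * Nat.card (P : Subgroup G) = Nat.card {g : G // ∃ k : ℕ, orderOf g = p ^ k} * Nat.card (Pbar : Subgroup (G ⧸ N))) := by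
  have hp : p.Prime := Fact.out
  have hc : Nat.card (P : Subgroup G) = Nat.card (Pbar : Subgroup (G ⧸ N)) * Nat.card ((P : Subgroup G) ⊓ N : Subgroup G) := by
    have h1 := CA.H1Basic.card_map_mk_mul N (P : Subgroup G)
    have h2 : Nat.card (Pbar : Subgroup (G ⧸ N)) = Nat.card (P.mapSurjective (QuotientGroup.mk'_surjective N) : Subgroup (G ⧸ N)) := by
      rw [Pbar.card_eq_multiplicity, Sylow.card_eq_multiplicity]
    rw [h2, Sylow.coe_mapSurjective, inf_comm, h1]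
  -- lift each p-element into a Sylow subgroup
  have lift : ∀ y : {g : (G ⧸ N) // ∃ k : ℕ, orderOf g = p ^ k}, ∃ (h x : G), x ∈ P ∧ ((h * x * h⁻¹ : G) : G ⧸ N) = y := by
    rintro ⟨y, hy⟩
    obtain ⟨k, hk⟩ := pElt_iff.1 hy
    obtain ⟨h, hh⟩ := exists_conj_mem_sylow (P.mapSurjective (QuotientGroup.mk'_surjective N)) hk
    obtain ⟨x, hx, hxy⟩ := hh
    obtain ⟨h, rfl⟩ := QuotientGroup.mk_surjective h
    refine ⟨h⁻¹, x, hx, ?_⟩
    have : (x : G ⧸ N) = h * y * (h : G ⧸ N)⁻¹ := hxy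
    simp [this, mul_assoc]
  choose h x hx hxy using lift
  let f : {g : (G ⧸ N) // ∃ k : ℕ, orderOf g = p ^ k} × ((P : Subgroup G) ⊓ N : Subgroup G) →
      {g : G // ∃ k : ℕ, orderOf g = p ^ k} := fun z => ⟨h z.1 * (x z.1 * z.2) * (h z.1)⁻¹, by
    obtain ⟨k, hk⟩ := pElt_of_mem P.isPGroup' (mul_mem (hx z.1) z.2.2.1)
    exact ⟨k, hk ▸ (MulAut.conj _).orderOf_eq _⟩⟩
  have hf1 : ∀ z, ((f z : G) : G ⧸ N) = z.1 := by
    intro z
    rw [← hxy]
    simp [f, (QuotientGroup.eq_one_iff (z.2 : G)).2 z.2.2.2]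
  have hf : Function.Injective f := by
    rintro ⟨a, b⟩ ⟨c, d⟩ hac
    have h1 : a = c := Subtype.ext (by rw [← hf1 (a, b), hac, hf1])
    subst h1
    have h2 : h a * (x a * b) * (h a)⁻¹ = h a * (x a * d) * (h a)⁻¹ := congrArg Subtype.val hac
    simp only [mul_left_inj, mul_right_inj] at h2
    rw [Subtype.ext h2]
  rw [hc, mul_comm (Nat.card (Pbar : Subgroup (G ⧸ N))), ← mul_assoc, ← Nat.card_prod]
  refine ⟨Nat.mul_le_mul_right _ (Nat.card_le_card_of_injective f hf), fun hN => ?_⟩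
  congr 1
  refine Nat.card_congr (Equiv.ofBijective f ⟨hf, ?_⟩)
  rintro ⟨g, hg⟩
  obtain ⟨k, hk⟩ := pElt_iff.1 hg
  let y : {g : (G ⧸ N) // ∃ k : ℕ, orderOf g = p ^ k} :=
    ⟨g, pElt_iff.2 ⟨k, by rw [← QuotientGroup.mk_pow, hk, QuotientGroup.mk_one]⟩⟩
  have h1 : (h y * x y * (h y)⁻¹)⁻¹ * g ∈ N := QuotientGroup.eq.1 (hxy y)
  set n := (h y * x y * (h y)⁻¹)⁻¹ * g with hn
  have hcn := mem_center_iff.1 (hN h1)
  have h2 : n ∈ P := by
    obtain ⟨j, hj⟩ := pElt_iff.1 (pElt_of_mem P.isPGroup' (hx y))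
    have hg' : g = (h y * x y * (h y)⁻¹) * n := by rw [hn]; group
    have h3 : n ^ p ^ (k + j) = 1 := by
      have h4 : g ^ p ^ (k + j) = 1 := by rw [pow_add, pow_mul, hk, one_pow]
      rw [hg', Commute.mul_pow (hcn _), conj_pow, add_comm, pow_add, pow_mul (x y), hj] at h4
      rw [add_comm, pow_add]
      simpa using h4
    obtain ⟨a, ha⟩ := exists_conj_mem_sylow P h3
    rwa [hcn a, mul_inv_cancel_right] at ha
  refine ⟨(y, ⟨n, h2, h1⟩), Subtype.ext ?_⟩
  show h y * (x y * n) * (h y)⁻¹ = g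
  rw [mul_assoc, mul_assoc, ← hcn, hn]; group

end Cfsg.Agent.S4153
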