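import Cfsg.Statements.S4154


set_option autoImplicit false
open Cfsg

namespace Cfsg.Agent.S4154

open Subgroup

/-- Let G be a finite group and α an automorphism of G such that every element of G is the product of an element fixed by α and an element of the form g⁻¹α(g). If N is a normal α-invariant subgroup, then the automorphism ᾱ induced on G/N has the same property, and every coset fixed by ᾱ contains an element fixed by α (so the fixed points of ᾱ are the images of the fixed points of α). -/
theorem result {G : Type*} [Group G] [Finite G] (α : MulAut G)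
    (hccp : ∀ x : G, ∃ c g : G, α c = c ∧ x = c * (g⁻¹ * α g))
    (N : Subgroup G) [N.Normal] (hN : ∀ n ∈ N, α n ∈ N) :
    (∀ x : G, ∃ c g : G, c⁻¹ * α c ∈ N ∧ x⁻¹ * (c * (g⁻¹ * α g)) ∈ N) ∧
    (∀ x : G, x⁻¹ * α x ∈ N → ∃ c : G, α c = c ∧ c⁻¹ * x ∈ N) := by
  refine ⟨fun x => ?_, fun x hx => ?_⟩
  · obtain ⟨c, g, a, b⟩ := hccp x
    exact ⟨c, g, by rw [a, inv_mul_cancel]; exact one_mem N, by rw [← b, inv_mul_cancel]; exact one_mem N⟩
  let f : G → G := fun g => g⁻¹ * α g
  let r : G → G := fun t => Function.invFun f t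
  have hr : ∀ g, f (r (f g)) = f g := fun g => Function.invFun_eq ⟨g, rfl⟩
  have fx : ∀ g, α (g * (r (f g))⁻¹) = g * (r (f g))⁻¹ := fun g => by
    have := hr g
    generalize r (f g) = h at this
    have e : α h = h * (g⁻¹ * α g) := by rw [← inv_mul_eq_iff_eq_mul]; exact this
    rw [map_mul, map_inv, e]; group
  let F : G → G := fun g => g * (r (f g))⁻¹ * f g
  have sj : Function.Surjective F := fun y => by
    obtain ⟨c, g, a, b⟩ := hccp y
    have e : f (c * r (f g)) = f g := by
      refine Eq.trans ?_ (hr g)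
      generalize r (f g) = h
      simp only [f, map_mul, a]; group
    refine ⟨c * r (f g), ?_⟩
    simp only [F]; rw [e, b]; simp [f]
  have mp : Set.MapsTo F {y | f y ∈ N} {y | f y ∈ N} := fun y (hy : f y ∈ N) => by
    show (y * (r (f y))⁻¹ * f y)⁻¹ * α (y * (r (f y))⁻¹ * f y) ∈ N
    rw [map_mul, fx]
    convert mul_mem (inv_mem hy) (hN _ hy) using 1; group
  obtain ⟨h, hh, e⟩ := ((Set.toFinite _).injOn_iff_bijOn_of_mapsTo mp).1
    (Finite.injective_iff_surjective.2 sj).injOn |>.surjOn (show x ∈ {y | f y ∈ N} from hx)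
  refine ⟨_, fx h, ?_⟩
  rw [← e]; simpa [F, mul_assoc] using hh

end Cfsg.Agent.S4154
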