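import Cfsg.Statements.S4155
import Cfsg.Agent.Lib.Grp.H7Cam
import Cfsg.Agent.Lib.Char.CharBurn

set_option autoImplicit false
open Cfsg

namespace Cfsg.Agent.S4155

open CA.H7Cam CA.BG CA.Frob2 Subgroup

/-- Let G be a finite group and N a proper non-trivial normal nilpotent subgroup whose order is not a prime power, such that for every x outside N all elements of the coset xN have the same order as x. Then N is the Fitting subgroup of G, and for every prime q every Sylow q-subgroup of G/N is cyclic or generalized quaternion. -/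
theorem result {G : Type*} [Group G] [Finite G] (N : Subgroup G) [N.Normal] (hN1 : N ≠ ⊥) (hN2 : N ≠ ⊤)
    (heq : ∀ x : G, x ∉ N → ∀ n ∈ N, orderOf (x * n) = orderOf x)
    (hnil : Group.IsNilpotent N) (hnpp : ¬ IsPrimePow (Nat.card N)) :
    N = Cfsg.fittingSubgroup G ∧
    ∀ (q : ℕ) [Fact q.Prime] (Q : Sylow q (G ⧸ N)), IsCyclic (Q : Subgroup (G ⧸ N)) ∨ ∃ n : ℕ, Nonempty ((Q : Subgroup (G ⧸ N)) ≃* QuaternionGroup (2 ^ n)) := by
  have hle : N ≤ fittingSubgroup G := CA.Core.le_fitting hnil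
  refine ⟨by_contra fun hne => hnpp ?_, fun q _ Q => ?_⟩
  · obtain ⟨p, k, hp, -, e⟩ := EO.isPrimePow heq hN1 (lt_of_le_of_ne hle hne)
    exact isPrimePow_card hp.nat_prime ((isPi_of_card_eq_pow hp.nat_prime e.symm).of_le hle) hN1
  have hq : q.Prime := Fact.out
  rcases subsingleton_or_nontrivial (Q : Subgroup (G ⧸ N)) with hQ | hQ
  · exact Or.inl inferInstance
  obtain ⟨p, hp, h1, h2⟩ := exists_prime_ne (fun e => hN1 (card_eq_one.1 e)) (card_ne_zero' N) hnpp q
  let V : Subgroup G := 𝓞({p}, N) ⊓ 𝓒(N)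
  have hV : V ≠ ⊥ := meet_cent_of_nil hnil le_rfl (core_le _ _) (le_norm_core _ _)
    ((nil_hall_core {p} hnil).ne_bot hp rfl h1)
  haveI : V.Normal := normal_of_top_le_norm (norm_inf (norm_core _ (top_le_norm N ⊤))
    (norm_cent (top_le_norm N ⊤)))
  haveI : Nontrivial V := (nontrivial_iff_ne_bot V).2 hV
  let φ : G ⧸ N →* MulAut V := QuotientGroup.lift N MulAut.conjNormal fun n hn => by
    rw [MonoidHom.mem_ker]
    ext v
    rw [MulAut.conjNormal_apply, mem_cent.1 v.2.2 n hn]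
    simp
  letI : MulDistribMulAction (Q : Subgroup (G ⧸ N)) V :=
    MulDistribMulAction.compHom V (φ.comp (Q : Subgroup (G ⧸ N)).subtype)
  obtain ⟨L, _, _, C, hC, ⟨e⟩⟩ := (CA.H7FC.fcm_of_act (H := (Q : Subgroup (G ⧸ N))) (V := V)
    fun a ha v hv => by
      obtain ⟨a, haQ⟩ := a
      induction a using QuotientGroup.induction_on with
      | H x =>
        have h3 : x * v * x⁻¹ = v := congrArg Subtype.val hv
        refine Subtype.ext (EO.cent (π := {q}) heq
          (fun e => ha (Subtype.ext ((QuotientGroup.eq_one_iff _).2 e)))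
          ((isPi_of_isPGroup hq Q.isPGroup').orderOf haQ) (core_le _ _ v.2.1)
          (((core_pi _ _).ne h2).orderOf v.2.1) (mul_inv_eq_iff_eq_mul.1 h3))).fc.symm'
  obtain ⟨K, hK⟩ := CChar.CharBurn.exists_frobeniusKernel hC.2.2
  obtain ⟨hn, -, hK1, hs⟩ := of_coe_eq_kernel hC hK.1
  rcases hs.isCyclic_or_quaternion (top_le_norm K C) hK1 (Q.isPGroup'.of_equiv e.symm) with h | ⟨-, n, ⟨f⟩⟩
  · exact Or.inl (isCyclic_of_surjective e e.surjective)
  · exact Or.inr ⟨n, ⟨e.symm.trans f⟩⟩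

end Cfsg.Agent.S4155
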