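import Cfsg.Statements.S4156


set_option autoImplicit false
open Cfsg

namespace Cfsg.Agent.S4156

open Equiv

/-- Matrices of the deleted permutation module. -/
def mat (n : ℕ) (F : Type*) [Field F] : Perm (Fin (n + 1)) →* Matrix (Fin n) (Fin n) F where
  toFun σ := Matrix.of fun i j => (if σ j.castSucc = i.castSucc then 1 else 0) -
    (if σ (Fin.last n) = i.castSucc then 1 else 0)
  map_one' := by
    ext i j
    have : Fin.last n ≠ i.castSucc := (Fin.castSucc_ne_last i).symm
    simp [Matrix.one_apply, this, eq_comm]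
  map_mul' σ τ := by
    ext i j
    have h := Fin.sum_univ_castSucc (fun k : Fin (n + 1) =>
      (((if σ k = i.castSucc then 1 else 0) - (if σ (Fin.last n) = i.castSucc then 1 else 0) : F)) *
        ((if τ j.castSucc = k then 1 else 0) - (if τ (Fin.last n) = k then 1 else 0)))
    rw [sub_self, zero_mul, add_zero] at h
    simp only [Matrix.mul_apply, Matrix.of_apply]
    rw [← h]
    simp only [mul_sub, Finset.sum_sub_distrib, mul_ite, mul_one, mul_zero, Finset.sum_ite_eq,
      Finset.mem_univ, if_true, Perm.mul_apply, sub_sub_sub_cancel_right]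
    rfl

/-- Let n ≥ 5 and F a finite field. Then the projective special linear group PSL_n(F) contains a subgroup isomorphic to the alternating group of degree n + 1. -/
theorem result (n : ℕ) (hn : 5 ≤ n) (F : Type*) [Field F] [Finite F] :
    ∃ f : alternatingGroup (Fin (n + 1)) →* Matrix.ProjectiveSpecialLinearGroup (Fin n) F, Function.Injective f := by
  classical
  have h5 : 5 ≤ Nat.card (Fin (n + 1)) := by simp; omega
  haveI hs : IsSimpleGroup (alternatingGroup (Fin (n + 1))) := alternatingGroup.isSimpleGroup h5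
  have hperf : commutator (alternatingGroup (Fin (n + 1))) = ⊤ :=
    commutator_alternatingGroup_eq_top h5
  let m : alternatingGroup (Fin (n + 1)) →* Matrix (Fin n) (Fin n) F :=
    (mat n F).comp (alternatingGroup (Fin (n + 1))).subtype
  have hdet : ∀ g, (m g).det = 1 := by
    intro g
    let d : alternatingGroup (Fin (n + 1)) →* Fˣ := (Matrix.detMonoidHom.comp m).toHomUnits
    have : g ∈ d.ker := Abelianization.commutator_subset_ker d (by rw [hperf]; trivial)
    exact congrArg Units.val (MonoidHom.mem_ker.1 this)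
  let ρ : alternatingGroup (Fin (n + 1)) →* Matrix.SpecialLinearGroup (Fin n) F :=
    { toFun := fun g => ⟨m g, hdet g⟩
      map_one' := Subtype.ext (map_one m)
      map_mul' := fun a b => Subtype.ext (map_mul m a b) }
  refine ⟨(QuotientGroup.mk' _).comp ρ, ?_⟩
  rw [← MonoidHom.ker_eq_bot_iff]
  refine (hs.eq_bot_or_eq_top_of_normal _ inferInstance).resolve_right fun htop => ?_
  have hc : ∀ g, ρ g ∈ Subgroup.center (Matrix.SpecialLinearGroup (Fin n) F) := fun g => by
    have : g ∈ ((QuotientGroup.mk' (Subgroup.center (Matrix.SpecialLinearGroup (Fin n) F))).comp ρ).ker := by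
      rw [htop]; trivial
    exact (QuotientGroup.eq_one_iff _).1 (MonoidHom.mem_ker.1 this)
  have hk : commutator (alternatingGroup (Fin (n + 1))) ≤ ρ.ker := by
    rw [commutator_def, Subgroup.commutator_le]
    intro a _ b _
    rw [MonoidHom.mem_ker, map_commutatorElement, commutatorElement_eq_one_iff_mul_comm]
    exact ((Subgroup.mem_center_iff.1 (hc a)) (ρ b)).symm
  rw [hperf] at hk
  let i0 : Fin n := ⟨0, by omega⟩
  let i1 : Fin n := ⟨1, by omega⟩
  let i2 : Fin n := ⟨2, by omega⟩
  let σ : Equiv.Perm (Fin (n + 1)) :=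
    Equiv.swap i0.castSucc i1.castSucc * Equiv.swap i0.castSucc i2.castSucc
  have h01 : i0.castSucc ≠ i1.castSucc := by simp [i0, i1, Fin.ext_iff]
  have h02 : i0.castSucc ≠ i2.castSucc := by simp [i0, i2, Fin.ext_iff]
  have h12 : i1.castSucc ≠ i2.castSucc := by simp [i1, i2, Fin.ext_iff]
  have hσ : σ ∈ alternatingGroup (Fin (n + 1)) := by
    simp [σ, Equiv.Perm.sign_swap h01, Equiv.Perm.sign_swap h02]
  have h1 : m ⟨σ, hσ⟩ = 1 := by
    have h0 : ρ ⟨σ, hσ⟩ = 1 := MonoidHom.mem_ker.1 (hk (Subgroup.mem_top _))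
    exact congrArg Subtype.val h0
  have h2 := congrFun (congrFun h1 i0) i0
  have e1 : σ i0.castSucc = i2.castSucc := by
    simp only [σ, Equiv.Perm.mul_apply, Equiv.swap_apply_left]
    exact Equiv.swap_apply_of_ne_of_ne h02.symm h12.symm
  have e2 : σ (Fin.last n) = Fin.last n := by
    simp only [σ, Equiv.Perm.mul_apply]
    rw [Equiv.swap_apply_of_ne_of_ne (Fin.castSucc_ne_last _).symm (Fin.castSucc_ne_last _).symm,
      Equiv.swap_apply_of_ne_of_ne (Fin.castSucc_ne_last _).symm (Fin.castSucc_ne_last _).symm]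
  change ((if σ i0.castSucc = i0.castSucc then 1 else 0) -
      (if σ (Fin.last n) = i0.castSucc then 1 else 0) : F) = _ at h2
  rw [e1, e2, if_neg h02.symm, if_neg (Fin.castSucc_ne_last _).symm] at h2
  simp at h2

end Cfsg.Agent.S4156
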