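import Cfsg.Statements.S4169
import Cfsg.Agent.Lib.Grp.H7Ito

set_option autoImplicit false
open Cfsg

namespace Cfsg.Agent.S4169

open CA.H7Ito

/-- Let P be a finite p-group whose conjugacy classes have exactly two sizes (1 and one other value). Then P has nilpotency class at most 3. -/
theorem result {P : Type*} [Group P] [Finite P] {p : ℕ} [Fact p.Prime] (hP : IsPGroup p P)
    (m : ℕ) (hm : 1 < m) (h : ∀ x : P, (Subgroup.centralizer ({x} : Set P)).index = 1 ∨ (Subgroup.centralizer ({x} : Set P)).index = m) :
    upperCentralSeries P 3 = ⊤ := by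
  haveI := hP.isNilpotent
  obtain ⟨A, hn, hA, -, hC⟩ := CA.PGBasic.exists_scn (⊥ : Subgroup P)
  have := lcs_three (M := ⊤) hC.le (Subgroup.commutator_le.2 fun t ht x _ =>
    comm_central hA (fun x hx => ((h x).resolve_left hx.ne').ge) (h x) ht)
  exact Subgroup.upperCentralSeries_eq_top_iff_nilpotencyClass_le.2
    (Subgroup.lowerCentralSeries_eq_bot_iff_nilpotencyClass_le.1 this)

end Cfsg.Agent.S4169
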