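import Cfsg.Statements.S4176
import Cfsg.Agent.Lib.Grp.H7Orb
import Cfsg.Agent.S3744
import Cfsg.Agent.Lib.Grp.H12PSolv

set_option autoImplicit false
open Cfsg

namespace Cfsg.Agent.S4176

open CA.H7Orb

/-- Let k be a field of prime characteristic p, H a finite p-soluble group and ρ a k-linear representation of H on V. Let a be a vector that is fixed by some Sylow p-subgroup of H and whose H-orbit spans V. Then the space of H-fixed vectors has dimension at most 1, and every vector b whose H-orbit has size coprime to the size of the orbit of a is fixed by H. -/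
theorem result {k V H : Type*} [Field k] (p : ℕ) [Fact p.Prime] [CharP k p] [AddCommGroup V] [Module k V]
    [Group H] [Finite H] (hsol : Cfsg.IsPSolvable p H) (ρ : Representation k H V) (a : V)
    (hfix : ∃ P : Sylow p H, ∀ x : H, x ∈ (P : Subgroup H) → ρ x a = a)
    (hspan : Submodule.span k {u : V | ∃ h : H, ρ h a = u} = ⊤) :
    Module.finrank k ρ.invariants ≤ 1 ∧
    ∀ b : V, (Nat.card {u : V | ∃ h : H, ρ h a = u}).Coprime (Nat.card {u : V | ∃ h : H, ρ h b = u}) → ∀ h : H, ρ h b = b := by
  have hp : p.Prime := Fact.out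
  have h0 : ∀ n : ℕ, n.Coprime p → (n : k) ≠ 0 := fun n hn h =>
    (hp.coprime_iff_not_dvd.1 hn.symm) ((CharP.cast_eq_zero_iff k p n).1 h)
  obtain ⟨P, hP⟩ := hfix
  have hm : (St ρ a).index.Coprime p := (hp.coprime_iff_not_dvd.2 fun h =>
    P.not_dvd_index (h.trans (Subgroup.index_dvd_of_le (fun x hx => hP x hx)))).symm
  obtain ⟨s, hs, h⟩ := fixed ρ a hspan (h0 _ hm)
  have key : ∀ b : V, (St ρ a).index.Coprime (St ρ b).index → b ∈ Submodule.span k {s} := by
    intro b hb
    obtain ⟨K, hK, n, hn⟩ := (Cfsg.Agent.S3744.result (CA.H12PSolv.psolv_subgroup hsol (St ρ b))).1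
    refine h (K.map (St ρ b).subtype) ?_ (exists_mul ?_) b ?_
    · rw [Subgroup.card_map_of_injective (St ρ b).subtype_injective]
      exact h0 _ hK
    · rw [Subgroup.index_map_subtype, hn]
      exact Nat.Coprime.mul_left (hm.symm.pow_left n) hb.symm
    · rintro _ ⟨y, -, rfl⟩
      exact y.2
  refine ⟨finrank_le (s := s) fun b hb => key b ?_, fun b hb g => ?_⟩
  · rw [show St ρ b = ⊤ from eq_top_iff.2 fun g _ => hb g, Subgroup.index_top]
    exact Nat.coprime_one_right _
  · rw [card_orbit, card_orbit] at hb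
    obtain ⟨c, rfl⟩ := Submodule.mem_span_singleton.1 (key b hb)
    rw [map_smul, hs]

end Cfsg.Agent.S4176
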