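import Cfsg.Statements.S4178
import Mathlib.Tactic

set_option autoImplicit false
open Cfsg

namespace Cfsg.Agent.S4178

theorem idx_le {G X : Type*} [Group G] [Finite X] (R : Subgroup G) (x0 : X) (f : G → X)
    (h0 : ∀ g, f g ≠ x0) (hf : ∀ a b, f a = f b → a⁻¹ * b ∈ R) : R.index + 1 ≤ Nat.card X := by
  let φ : Option (G ⧸ R) → X := fun o => match o with
    | none => x0
    | some c => f c.out
  have hφ : Function.Injective φ := by
    rintro (_ | c) (_ | d) h
    · rfl
    · exact absurd h.symm (h0 _)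
    · exact absurd h (h0 _)
    · have := hf _ _ h
      rw [← QuotientGroup.eq, QuotientGroup.out_eq', QuotientGroup.out_eq'] at this
      rw [this]
  haveI : Finite (Option (G ⧸ R)) := Finite.of_injective φ hφ
  haveI : Finite (G ⧸ R) := Finite.of_injective (some : G ⧸ R → Option (G ⧸ R)) (Option.some_injective _)
  have := Nat.card_le_card_of_injective φ hφ
  rwa [Finite.card_option] at this

/-- Let F be a finite field with q elements, V a non-zero finite-dimensional F-space of dimension d, H a group of invertible linear maps of V, and R the subgroup of H generated by the elements of H that fix some non-zero vector (have eigenvalue 1). Then the index of R in H is at most q^d − 1; and if H leaves invariant some proper non-zero subspace, the index is at most q^(d/2) − 1. -/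
theorem result {F V : Type*} [Field F] [Fintype F] [AddCommGroup V] [Module F V] [FiniteDimensional F V] [Nontrivial V]
    (H : Subgroup (V ≃ₗ[F] V)) :
    (Subgroup.closure {h : ↥H | ∃ v : V, v ≠ 0 ∧ (h : V ≃ₗ[F] V) v = v}).index ≤ Fintype.card F ^ Module.finrank F V - 1 ∧
    ((∃ W : Submodule F V, W ≠ ⊥ ∧ W ≠ ⊤ ∧ ∀ h ∈ H, ∀ w ∈ W, h w ∈ W) →
      ((Subgroup.closure {h : ↥H | ∃ v : V, v ≠ 0 ∧ (h : V ≃ₗ[F] V) v = v}).index : ℝ) ≤ Real.sqrt ((Fintype.card F : ℝ) ^ Module.finrank F V) - 1) := by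
  classical
  haveI : Finite V := Module.finite_of_finite F
  have hV : Nat.card V = Fintype.card F ^ Module.finrank F V := by
    rw [Module.natCard_eq_pow_finrank (K := F), Nat.card_eq_fintype_card]
  let R : Subgroup H := Subgroup.closure {h : ↥H | ∃ v : V, v ≠ 0 ∧ (h : V ≃ₗ[F] V) v = v}
  have hA : ∀ W : Submodule F V, W ≠ ⊥ → (∀ h ∈ H, ∀ w ∈ W, h w ∈ W) → R.index + 1 ≤ Nat.card W := by
    intro W hW hinv
    obtain ⟨w, hw, hw0⟩ := Submodule.exists_mem_ne_zero_of_ne_bot hW
    refine idx_le R (0 : W) (fun h => ⟨(h : V ≃ₗ[F] V) w, hinv _ h.2 _ hw⟩) ?_ ?_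
    · intro g hg
      have : (g : V ≃ₗ[F] V) w = 0 := congrArg Subtype.val hg
      exact hw0 ((LinearEquiv.map_eq_zero_iff _).1 this)
    · intro a b hab
      have h1 : (a : V ≃ₗ[F] V) w = (b : V ≃ₗ[F] V) w := congrArg Subtype.val hab
      refine Subgroup.subset_closure ⟨w, hw0, ?_⟩
      show ((a : V ≃ₗ[F] V)⁻¹ * (b : V ≃ₗ[F] V)) w = w
      rw [LinearEquiv.mul_apply, ← h1]
      exact (a : V ≃ₗ[F] V).symm_apply_apply w
  have hB : ∀ W : Submodule F V, W ≠ ⊤ → (∀ h ∈ H, ∀ w ∈ W, h w ∈ W) →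
      R.index + 1 ≤ Nat.card (V ⧸ W) := by
    intro W hW hinv
    obtain ⟨v, hv⟩ : ∃ v, v ∉ W := by
      by_contra hc
      push Not at hc
      exact hW (eq_top_iff.2 fun x _ => hc x)
    haveI : Finite (V ⧸ W) := Finite.of_surjective _ W.mkQ_surjective
    refine idx_le R (0 : V ⧸ W) (fun h => Submodule.Quotient.mk ((h : V ≃ₗ[F] V) v)) ?_ ?_
    · intro g hg
      have h1 := (Submodule.Quotient.mk_eq_zero W).1 hg
      have h2 := hinv _ (H.inv_mem g.2) _ h1
      have : ((g : V ≃ₗ[F] V)⁻¹) ((g : V ≃ₗ[F] V) v) = v := (g : V ≃ₗ[F] V).symm_apply_apply v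
      rw [this] at h2
      exact hv h2
    · intro a b hab
      have h1 := (Submodule.Quotient.eq W).1 hab
      have h2 := hinv _ (H.inv_mem a.2) _ h1
      have h3 : ((a : V ≃ₗ[F] V)⁻¹) ((a : V ≃ₗ[F] V) v) = v := (a : V ≃ₗ[F] V).symm_apply_apply v
      rw [map_sub, h3] at h2
      let g : H := a⁻¹ * b
      have hg : (g : V ≃ₗ[F] V) v = ((a : V ≃ₗ[F] V)⁻¹) ((b : V ≃ₗ[F] V) v) := rfl
      rw [← hg] at h2
      refine Subgroup.subset_closure ?_
      by_contra hc
      have hinj : ∀ u : V, (g : V ≃ₗ[F] V) u = u → u = 0 := fun u hu => by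
        by_contra h0
        exact hc ⟨u, h0, hu⟩
      let ψ : W → W := fun w => ⟨w - (g : V ≃ₗ[F] V) w, W.sub_mem w.2 (hinv _ g.2 _ w.2)⟩
      have hψ : Function.Injective ψ := by
        intro x y hxy
        have h4 : (x : V) - (g : V ≃ₗ[F] V) x = y - (g : V ≃ₗ[F] V) y := congrArg Subtype.val hxy
        have h5 := hinj ((x : V) - y) (by rw [map_sub]; rw [sub_eq_sub_iff_sub_eq_sub] at h4; exact h4.symm)
        exact Subtype.ext (sub_eq_zero.1 h5)
      obtain ⟨w, hw⟩ := Finite.surjective_of_injective hψ ⟨_, h2⟩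
      have h4 : (w : V) - (g : V ≃ₗ[F] V) w = v - (g : V ≃ₗ[F] V) v := congrArg Subtype.val hw
      have h5 := hinj (v - w) (by rw [map_sub]; rw [eq_comm, sub_eq_sub_iff_sub_eq_sub] at h4; exact h4.symm)
      exact hv (by rw [sub_eq_zero.1 h5]; exact w.2)
  refine ⟨?_, ?_⟩
  · have := hA ⊤ top_ne_bot (fun _ _ _ _ => trivial)
    rw [Nat.card_congr (Submodule.topEquiv.toEquiv), hV] at this
    show R.index ≤ _
    omega
  · rintro ⟨W, h0, h1, hinv⟩
    have e := Submodule.card_eq_card_quotient_mul_card W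
    have h2 : (R.index + 1) ^ 2 ≤ Fintype.card F ^ Module.finrank F V := by
      rw [← hV, e, sq]
      exact Nat.mul_le_mul (hA W h0 hinv) (hB W h1 hinv)
    show (R.index : ℝ) ≤ _
    rw [le_sub_iff_add_le]
    apply Real.le_sqrt_of_sq_le
    exact_mod_cast h2

end Cfsg.Agent.S4178
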