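import Cfsg.Statements.S4182
import Cfsg.Agent.Lib.Odd.BGMisc

set_option autoImplicit false
open Cfsg

namespace Cfsg.Agent.S4182

open Subgroup CA.BG CA.OQuo

variable {G : Type*} [Group G] [Finite G]

/-- subgroup generated by the `p`-elements of `L` -/
def gen (p : ℕ) (L : Subgroup G) : Subgroup G := closure {g | g ∈ L ∧ PiNat {p} (orderOf g)}

theorem gen_le (p : ℕ) (L : Subgroup G) : gen p L ≤ L := (closure_le _).2 fun _ h => h.1

theorem gen_mono (p : ℕ) {L M : Subgroup G} (h : L ≤ M) : gen p L ≤ gen p M :=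
  closure_mono fun _ hx => ⟨h hx.1, hx.2⟩

theorem gen_gen (p : ℕ) (L : Subgroup G) : gen p L ≤ gen p (gen p L) :=
  closure_mono fun _ hx => ⟨subset_closure hx, hx.2⟩

theorem le_gen {p : ℕ} {L : Subgroup G} (h : IsPi {p} L) : L ≤ gen p L :=
  fun _ hx => subset_closure ⟨hx, h.orderOf hx⟩

theorem cj_gen (p : ℕ) (g : G) (L : Subgroup G) : cj g (gen p L) ≤ gen p (cj g L) := by
  rw [gen, cj_closure]
  apply Subgroup.closure_mono
  rintro _ ⟨x, hx, rfl⟩
  refine ⟨conj_mem_cj.2 hx.1, ?_⟩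
  have := orderOf_injective (MulAut.conj g).toMonoidHom (MulAut.conj g).injective x
  simp only [MulEquiv.coe_toMonoidHom, MulAut.conj_apply] at this
  show PiNat {p} (orderOf (g * x * g⁻¹))
  rw [this]; exact hx.2

theorem pgroup {p : ℕ} (hp : p.Prime) {ι : Type*} [Fintype ι] (K : ι → Subgroup G)
    (L : Subgroup G) (hL : IsPi {p} L) (h1 : ∀ i, ¬ L ≤ K i) (h2 : ∀ g ∈ L, ∃ i, g ∈ K i) :
    p + 1 ≤ Fintype.card ι := by
  classical
  by_contra hlt
  push Not at hlt
  obtain ⟨i0, -⟩ := h2 1 L.one_mem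
  have hb : ∀ i, p * ♯(K i ⊓ L) ≤ ♯L := by
    intro i
    rw [← card_inf_mul_relIndex (K i) L, mul_comm]
    apply Nat.mul_le_mul_left
    obtain ⟨k, hk⟩ := (hL.relIndex (K i)).exists_pow hp (relIndex_ne_zero' _ _)
    rw [hk]
    rcases k with _ | k
    · exact absurd (relIndex_eq_one.1 (by simpa using hk)) (h1 i)
    · exact Nat.le_of_dvd (pow_pos hp.pos _) (dvd_pow_self p (by omega))
  have hs : ((L : Set G) \ {1}) ⊆ ⋃ i, (((K i ⊓ L : Subgroup G) : Set G) \ {1}) := by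
    rintro x ⟨hx, hx1⟩
    obtain ⟨i, hi⟩ := h2 x hx
    exact Set.mem_iUnion.2 ⟨i, ⟨hi, hx⟩, hx1⟩
  have c1 := Set.ncard_le_ncard hs (Set.toFinite _)
  have c2 := Set.ncard_iUnion_le_of_fintype (fun i => (((K i ⊓ L : Subgroup G) : Set G) \ {1}))
  have c3 : ∀ X : Subgroup G, ((X : Set G) \ {1}).ncard + 1 = ♯X := by
    intro X
    rw [Set.ncard_diff_singleton_add_one X.one_mem (Set.toFinite _), ← Nat.card_coe_set_eq]; rfl
  have c4 : ∀ i, p * (((K i ⊓ L : Subgroup G) : Set G) \ {1}).ncard + p ≤ ♯L := by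
    intro i
    have := hb i
    rw [← c3 (K i ⊓ L)] at this
    linarith
  have c5 := Finset.sum_le_sum (s := Finset.univ) fun i _ => c4 i
  rw [Finset.sum_add_distrib, ← Finset.mul_sum, Finset.sum_const, Finset.sum_const, Finset.card_univ,
    smul_eq_mul, smul_eq_mul] at c5
  have c6 := c3 L
  have c7 : 1 ≤ Fintype.card ι := Fintype.card_pos_iff.2 ⟨i0⟩
  have c8 := c4 i0
  have hp2 := hp.two_le
  set a := ((L : Set G) \ {1}).ncard
  set s := ∑ i, (((K i ⊓ L : Subgroup G) : Set G) \ {1}).ncard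
  set n := Fintype.card ι
  have c9 : p * a ≤ p * s := Nat.mul_le_mul_left _ (c1.trans c2)
  rw [← c6] at c5 c8
  obtain ⟨d, hd⟩ : ∃ d, a + 1 = p + d := ⟨a + 1 - p, by omega⟩
  have c10 : n * d ≤ p * d := Nat.mul_le_mul_right _ (by omega)
  rw [hd] at c5
  have : p * a ≤ p * d := by nlinarith
  have := Nat.le_of_mul_le_mul_left this hp.pos
  omega

theorem aux {p : ℕ} (hp : p.Prime) {ι : Type*} [Fintype ι] (K : ι → Subgroup G) (n : ℕ) :
    ∀ L : Subgroup G, ♯L = n → L ≤ gen p L → (∀ i, ¬ L ≤ K i) →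
      (∀ g ∈ L, PiNat {p} (orderOf g) → ∃ i, g ∈ K i) → p + 1 ≤ Fintype.card ι := by
  classical
  induction n using Nat.strong_induction_on with
  | _ n ih =>
  intro L hn hg h1 h2
  by_cases hL : IsPi {p} L
  · exact pgroup hp K L hL h1 fun g hx => h2 g hx (hL.orderOf hx)
  by_contra hlt
  let Q : Subgroup G → Prop := fun X => X < L ∧ X ≤ gen p X
  let Mx : Subgroup G → Prop := fun X => Q X ∧ ∀ Y, Q Y → X ≤ Y → Y = X
  have s1 : ∀ X, Mx X → ∃ i, X = gen p (K i ⊓ L) := by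
    intro X hX
    have : ∃ i, X ≤ K i := by
      by_contra hc
      push Not at hc
      exact hlt (ih _ (hn ▸ card_lt_of_lt hX.1.1) X rfl hX.1.2 hc fun g hx => h2 g (hX.1.1.le hx))
    obtain ⟨i, hi⟩ := this
    refine ⟨i, (hX.2 _ ⟨?_, gen_gen _ _⟩ (hX.1.2.trans (gen_mono p (le_inf hi hX.1.1.le)))).symm⟩
    exact lt_of_le_of_lt (gen_le _ _) (lt_of_le_of_ne inf_le_right fun e => h1 i (inf_eq_right.1 e))
  have qc : ∀ g ∈ L, ∀ X, Q X → Q (cj g X) := by
    intro g hgL X hX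
    refine ⟨?_, (cj_mono g hX.2).trans (cj_gen p g X)⟩
    rw [← cj_of_mem hgL]; exact cj_lt_cj.2 hX.1
  have mc : ∀ g ∈ L, ∀ X, Mx X → Mx (cj g X) := by
    intro g hgL X hX
    refine ⟨qc g hgL X hX.1, fun Y hY hle => ?_⟩
    have := hX.2 _ (qc g⁻¹ (L.inv_mem hgL) Y hY) (cj_le_iff.1 hle)
    rw [← this, cj_cj_inv]
  have up : ∀ X, IsPi {p} X → X ≤ L → ∃ M, Mx M ∧ X ≤ M := by
    intro X hX hXL
    obtain ⟨M, a, b, c⟩ := exists_maximal_ge (P := Q) (H := X)
      ⟨lt_of_le_of_ne hXL fun e => hL (e ▸ hX), le_gen hX⟩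
    exact ⟨M, ⟨b, c⟩, a⟩
  have nm : ∀ M, Mx M → L ≤ 𝓝(M) := by
    intro M hM
    refine hg.trans ((closure_le _).2 ?_)
    rintro x ⟨hxL, hx⟩
    obtain ⟨M0, hM0, hx0⟩ := up _ (isPi_zpowers.2 hx) (zpowers_le.2 hxL)
    have hx0' : x ∈ M0 := hx0 (mem_zpowers x)
    by_cases e : M = M0
    · rw [e]; exact le_normalizer hx0'
    obtain ⟨i0, hi0⟩ := s1 M0 hM0
    choose f hf using fun k : Fin p => s1 _ (mc (x ^ (k : ℕ)) (L.pow_mem hxL _) M hM)
    have hf0 : ∀ k, f k ∈ Finset.univ.erase i0 := by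
      intro k
      refine Finset.mem_erase.2 ⟨fun e' => e ?_, Finset.mem_univ _⟩
      have := hf k
      rw [e', ← hi0, cj_eq_iff, cj_of_mem (M0.inv_mem (M0.pow_mem hx0' _))] at this
      exact this
    have hc : (Finset.univ.erase i0).card < (Finset.univ : Finset (Fin p)).card := by
      rw [Finset.card_erase_of_mem (Finset.mem_univ _), Finset.card_univ, Finset.card_univ,
        Fintype.card_fin]
      have := hp.pos
      omega
    have key : ∀ a b : Fin p, a < b → f a = f b → x ∈ 𝓝(M) := by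
      intro a b hab hfab
      have e1 : cj (x ^ (a : ℕ)) M = cj (x ^ (b : ℕ)) M := by rw [hf a, hf b, hfab]
      have e2 : x ^ ((b : ℕ) - a) ∈ 𝓝(M) := by
        rw [mem_norm_iff_cj]
        have e3 : x ^ (b : ℕ) = x ^ (a : ℕ) * x ^ ((b : ℕ) - a) := by
          rw [← pow_add]; congr 1; have : (a : ℕ) < b := hab; omega
        rw [e3, cj_mul, cj_inj] at e1
        exact e1.symm
      have hcop : ((b : ℕ) - a).Coprime (orderOf x) := by
        obtain ⟨k, hk⟩ := hx.exists_pow hp (orderOf_pos x).ne'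
        rw [hk]
        apply Nat.Coprime.pow_right
        have : (a : ℕ) < b := hab
        exact (Nat.coprime_of_lt_prime (by omega) (by omega) hp).symm
      obtain ⟨m, hm⟩ := exists_pow_eq_self_of_coprime hcop
      rw [← hm]; exact (𝓝(M)).pow_mem e2 m
    obtain ⟨a, -, b, -, hab, hfab⟩ := Finset.exists_ne_map_eq_of_card_lt_of_maps_to hc fun k _ => hf0 k
    rcases lt_or_gt_of_ne hab with h | h
    · exact key a b h hfab
    · exact key b a h hfab.symm
  obtain ⟨P, hP⟩ := syl_exists hp L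
  obtain ⟨M, hM, hPM⟩ := up P hP.pi hP.le
  refine hM.1.1.not_ge (hg.trans ((closure_le _).2 ?_))
  rintro x ⟨hxL, hx⟩
  obtain ⟨g, hgL, hle⟩ := hP.syl_le_conj hp (isPi_zpowers.2 hx) (zpowers_le.2 hxL)
  have := (hle.trans (cj_mono g hPM)) (mem_zpowers x)
  rwa [cj_of_mem_norm (nm M hM hgL)] at this

/-- Let p be a prime and G a finite group generated by its p-elements. If a finite family of proper subgroups of G covers the set of p-elements of G (every element of p-power order lies in one of them), then the family has at least p + 1 members. -/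
theorem result {G : Type*} [Group G] [Finite G] (p : ℕ) [Fact p.Prime] (hgen : Subgroup.closure {g : G | ∃ k : ℕ, orderOf g = p ^ k} = ⊤)
    {ι : Type*} [Fintype ι] (K : ι → Subgroup G) (hK : ∀ i, K i ≠ ⊤)
    (hcov : ∀ g : G, (∃ k : ℕ, orderOf g = p ^ k) → ∃ i, g ∈ K i) :
    p + 1 ≤ Fintype.card ι := by
  have hp : p.Prime := Fact.out
  refine aux hp K _ ⊤ rfl ?_ (fun i h => hK i (top_le_iff.1 h)) fun g _ h => hcov g (h.exists_pow hp (orderOf_pos g).ne')
  rw [← hgen]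
  refine (closure_le _).2 ?_
  rintro x ⟨k, hk⟩
  refine subset_closure ⟨subset_closure ⟨k, hk⟩, ?_⟩
  rw [hk]; exact piNat_pow hp k

end Cfsg.Agent.S4182
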