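import Cfsg.Statements.S4186
import Cfsg.Agent.Lib.Loc.H6Basic

set_option autoImplicit false
open Cfsg

namespace Cfsg.Agent.S4186

open CA.H6Basic Subgroup

/-- Let T and X be subgroups of a group with T a finite 2-group normalizing X but not centralizing it. Then some element of T inverts some non-identity element of X under conjugation. -/
theorem result {G : Type*} [Group G] (T X : Subgroup G) [Finite ↥T] (hT : IsPGroup 2 ↥T) (hTN : T ≤ Subgroup.normalizer (X : Set G)) (hTC : ¬ T ≤ Subgroup.centralizer (X : Set G)) : ∃ t ∈ T, ∃ x ∈ X, x ≠ 1 ∧ t * x * t⁻¹ = x⁻¹ := by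
  obtain ⟨t, ht, ht'⟩ := SetLike.not_le_iff_exists.1 hTC
  obtain ⟨k, hk⟩ := hT ⟨t, ht⟩
  have hk' : t ^ 2 ^ k ∈ centralizer (X : Set G) := by
    rw [show t ^ 2 ^ k = 1 from congrArg Subtype.val hk]; exact one_mem _
  have : ∃ s ∈ T, s ∉ centralizer (X : Set G) ∧ s ^ 2 ∈ centralizer (X : Set G) := by
    clear hk
    induction k generalizing t with
    | zero => exact absurd (by simpa using hk') ht'
    | succ k ih =>
      by_cases h : t ^ 2 ∈ centralizer (X : Set G)
      · exact ⟨t, ht, ht', h⟩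
      · exact ih (t ^ 2) (pow_mem ht 2) h (by rwa [← pow_mul, ← pow_succ'])
  obtain ⟨s, hs, h1, h2⟩ := this
  rw [mem_centralizer_iff] at h1 h2
  push Not at h1
  obtain ⟨y, hy, h1⟩ := h1
  refine ⟨s, hs, s * y * s⁻¹ * y⁻¹, mul_mem (conj_mem_of_mem_normalizer (hTN hs) hy) (inv_mem hy),
    fun h => h1 (by rw [mul_inv_eq_one, mul_inv_eq_iff_eq_mul] at h; exact h.symm), ?_⟩
  calc _ = s ^ 2 * y * (s ^ 2)⁻¹ * (s * y⁻¹ * s⁻¹) := by rw [sq]; group
    _ = _ := by rw [← h2 y hy]; group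

end Cfsg.Agent.S4186
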