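import Cfsg.Statements.S4188
import Cfsg.Agent.Lib.Grp.PGFrattini
import Cfsg.Agent.Lib.Grp.PGNormalCyclic

set_option autoImplicit false
open Cfsg

set_option linter.unusedVariables false
set_option linter.unusedSimpArgs false
set_option linter.style.haveILetI false

namespace Cfsg.Agent.S4188

open CA Subgroup

universe u

section
variable {P : Type u} [Group P] {V : Type u} [CommGroup V]

/-- restriction of an action to an invariant subgroup -/
def res (φ : P →* MulAut V) (W : Subgroup V) (h : ∀ g, ∀ w ∈ W, φ g w ∈ W) : P →* MulAut W where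
  toFun g :=
    { toFun := fun w => ⟨φ g w, h g w w.2⟩
      invFun := fun w => ⟨φ g⁻¹ w, h _ w w.2⟩
      left_inv := fun w => Subtype.ext (by
        show φ g⁻¹ (φ g w) = w
        rw [← MulAut.mul_apply, ← map_mul, inv_mul_cancel, map_one, MulAut.one_apply])
      right_inv := fun w => Subtype.ext (by
        show φ g (φ g⁻¹ w) = w
        rw [← MulAut.mul_apply, ← map_mul, mul_inv_cancel, map_one, MulAut.one_apply])
      map_mul' := fun a b => Subtype.ext (map_mul (φ g) a.1 b.1) }
  map_one' := by
    ext w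
    show φ 1 w = w
    rw [map_one, MulAut.one_apply]
  map_mul' a b := by
    ext w
    show φ (a * b) w = φ a (φ b w)
    rw [map_mul, MulAut.mul_apply]

theorem res_eq_one {φ : P →* MulAut V} {W : Subgroup V} {h : ∀ g, ∀ w ∈ W, φ g w ∈ W} {g : P}
    (hg : res φ W h g = 1) {w : V} (hw : w ∈ W) : φ g w = w := by
  have := congrArg (fun f : MulAut W => ((f ⟨w, hw⟩ : W) : V)) hg
  exact this

def Vp (t : MulAut V) : Subgroup V where
  carrier := {v | t v = v}
  one_mem' := map_one t
  mul_mem' := fun {a b} ha hb => by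
    simp only [Set.mem_ofPred_eq] at *
    rw [map_mul, ha, hb]
  inv_mem' := fun {a} ha => by
    simp only [Set.mem_ofPred_eq] at *
    rw [map_inv, ha]

def Vm (t : MulAut V) : Subgroup V where
  carrier := {v | t v = v⁻¹}
  one_mem' := by simp
  mul_mem' := fun {a b} ha hb => by
    simp only [Set.mem_ofPred_eq] at *
    rw [map_mul, ha, hb, mul_inv]
  inv_mem' := fun {a} ha => by
    simp only [Set.mem_ofPred_eq] at *
    rw [map_inv, ha]

theorem mem_Vp {t : MulAut V} {v : V} : v ∈ Vp t ↔ t v = v := Iff.rfl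
theorem mem_Vm {t : MulAut V} {v : V} : v ∈ Vm t ↔ t v = v⁻¹ := Iff.rfl

theorem sq_root [Finite V] (hV : Odd (Nat.card V)) : ∃ k : ℕ, ∀ v : V, (v ^ 2) ^ k = v := by
  obtain ⟨m, hm⟩ := hV
  refine ⟨m + 1, fun v => ?_⟩
  rw [← pow_mul, show 2 * (m + 1) = Nat.card V + 1 by omega, pow_succ, pow_card_eq_one', one_mul]

theorem card_split [Finite V] (hV : Odd (Nat.card V)) {t : MulAut V} (ht : t * t = 1) :
    Nat.card V = Nat.card (Vp t) * Nat.card (Vm t) := by
  obtain ⟨k, hk⟩ := sq_root hV
  have htt : ∀ v, t (t v) = v := fun v => by rw [← MulAut.mul_apply, ht, MulAut.one_apply]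
  let f : V →* V :=
    { toFun := fun v => v * (t v)⁻¹
      map_one' := by simp
      map_mul' := fun a b => by rw [map_mul, mul_inv, mul_mul_mul_comm] }
  have hf : ∀ v, f v = v * (t v)⁻¹ := fun v => rfl
  have h1 : f.ker = Vp t := by
    ext v
    rw [MonoidHom.mem_ker, hf, mem_Vp, mul_inv_eq_one, eq_comm]
  have h2 : f.range = Vm t := by
    ext v
    rw [MonoidHom.mem_range, mem_Vm]
    constructor
    · rintro ⟨w, rfl⟩
      rw [hf, map_mul, map_inv, htt, mul_inv, inv_inv, mul_comm]
    · intro h
      refine ⟨v ^ k, ?_⟩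
      rw [hf, map_pow, h, inv_pow, inv_inv, ← mul_pow, ← sq, hk]
  rw [← h1, ← h2, ← index_ker, card_mul_index]

theorem eq_one_of_split [Finite V] (hV : Odd (Nat.card V)) {t s : MulAut V} (ht : t * t = 1)
    (h1 : ∀ v ∈ Vp t, s v = v) (h2 : ∀ v ∈ Vm t, s v = v) : s = 1 := by
  obtain ⟨k, hk⟩ := sq_root hV
  have htt : ∀ v, t (t v) = v := fun v => by rw [← MulAut.mul_apply, ht, MulAut.one_apply]
  ext v
  have a1 := h1 (v * t v) (by rw [mem_Vp, map_mul, htt, mul_comm])
  have a2 := h2 (v * (t v)⁻¹) (by rw [mem_Vm, map_mul, map_inv, htt, mul_inv, inv_inv, mul_comm])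
  have a3 : v ^ 2 = (v * t v) * (v * (t v)⁻¹) := by
    rw [mul_mul_mul_comm, mul_inv_cancel, mul_one, sq]
  have a4 : s (v ^ 2) = v ^ 2 := by rw [a3, map_mul, a1, a2]
  rw [MulAut.one_apply, ← hk v, map_pow, a4]

theorem odd_sub [Finite V] (hV : Odd (Nat.card V)) (W : Subgroup V) : Odd (Nat.card W) :=
  Odd.of_dvd_nat hV (card_subgroup_dvd_card W)

end

section
variable {P : Type u} [Group P] [Finite P]

theorem index_le_sub (hP : IsPGroup 2 P) (M : Subgroup P) :
    (frattini P).index ≤ M.index * (frattini M).index := by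
  haveI : Fact (Nat.Prime 2) := ⟨Nat.prime_two⟩
  have h := PGFrattini.map_frattini_le_frattini hP M
  have h2 := index_dvd_of_le h
  have h3 : ((frattini M).map M.subtype).index = (frattini M).index * M.index := by
    rw [index_map_subtype]
  rw [h3, mul_comm] at h2
  exact Nat.le_of_dvd (Nat.pos_of_ne_zero (mul_ne_zero index_ne_zero_of_finite
    index_ne_zero_of_finite)) h2

theorem index_le_ker {Q : Type u} [Group Q] [Finite Q] (hP : IsPGroup 2 P) (f : P →* Q) :
    (frattini P).index ≤ (frattini f.range).index * (frattini f.ker).index := by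
  haveI : Fact (Nat.Prime 2) := ⟨Nat.prime_two⟩
  have h1 := PGFrattini.comap_frattini_of_surjective hP f.rangeRestrict f.rangeRestrict_surjective
  rw [MonoidHom.ker_rangeRestrict] at h1
  have h2 : (frattini P ⊔ f.ker).index = (frattini f.range).index := by
    rw [← h1, index_comap_of_surjective _ f.rangeRestrict_surjective]
  have h3 := relIndex_mul_index (le_sup_left : frattini P ≤ frattini P ⊔ f.ker)
  rw [relIndex_sup_left, h2] at h3
  have h4 : frattini f.ker ≤ (frattini P).subgroupOf f.ker := by
    intro x hx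
    exact PGFrattini.map_frattini_le_frattini hP f.ker ⟨x, hx, rfl⟩
  have h5 : (frattini P).relIndex f.ker ≤ (frattini f.ker).index :=
    Nat.le_of_dvd (Nat.pos_of_ne_zero index_ne_zero_of_finite) (index_dvd_of_le h4)
  rw [← h3, mul_comm]
  exact Nat.mul_le_mul_left _ h5

end

def Bd (i n : ℕ) : Prop := i ≤ n - 1 ∧ (n ≠ 3 → 2 * i ≤ n - 1)

def Claim (V : Type u) [CommGroup V] : Prop :=
  ∀ (P : Type u) [Group P] [Finite P] (φ : P →* MulAut V), IsPGroup 2 P → Function.Injective φ →
    Bd (frattini P).index (Nat.card V)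

theorem prod_bound {V : Type u} [CommGroup V] [Finite V] (hV : Odd (Nat.card V))
    {P : Type u} [Group P] [Finite P] (φ : P →* MulAut V) (hP : IsPGroup 2 P)
    (hφ : Function.Injective φ) {t : MulAut V} (ht : t * t = 1) (hc : ∀ g, φ g * t = t * φ g)
    (h1 : Claim (Vp t)) (h2 : Claim (Vm t)) :
    ∃ i j, Bd i (Nat.card (Vp t)) ∧ Bd j (Nat.card (Vm t)) ∧ (frattini P).index ≤ i * j ∧
      Nat.card P ≤ Nat.card (MulAut (Vp t)) * Nat.card (MulAut (Vm t)) := by
  have hc' : ∀ g v, φ g (t v) = t (φ g v) := fun g v => by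
    rw [← MulAut.mul_apply, hc, MulAut.mul_apply]
  have i1 : ∀ g, ∀ w ∈ Vp t, φ g w ∈ Vp t := fun g w hw => by
    rw [mem_Vp] at *
    rw [← hc', hw]
  have i2 : ∀ g, ∀ w ∈ Vm t, φ g w ∈ Vm t := fun g w hw => by
    rw [mem_Vm] at *
    rw [← hc', hw, map_inv]
  set f := res φ (Vp t) i1 with hf
  have hinj : Function.Injective ((res φ (Vm t) i2).comp f.ker.subtype) := by
    rw [injective_iff_map_eq_one]
    rintro ⟨g, hg⟩ hg2
    apply Subtype.ext
    apply hφ
    rw [OneMemClass.coe_one, map_one]
    exact eq_one_of_split hV ht (fun v hv => res_eq_one hg hv) (fun v hv => res_eq_one (h := i2) hg2 hv)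
  refine ⟨_, _, h1 f.range f.range.subtype (hP.of_surjective _ f.rangeRestrict_surjective)
    (subtype_injective _), h2 f.ker _ (hP.to_subgroup _) hinj, index_le_ker hP f, ?_⟩
  rw [← f.ker.card_mul_index, index_ker, mul_comm]
  exact Nat.mul_le_mul (Nat.card_le_card_of_injective _ (subtype_injective _))
    (Nat.card_le_card_of_injective _ hinj)

theorem claim (n : ℕ) : ∀ (V : Type u) [CommGroup V] [Finite V], Nat.card V = n →
    Odd (Nat.card V) → 1 < Nat.card V → Claim V := by
  induction n using Nat.strong_induction_on with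
  | _ n ih =>
  intro V _ _ hn hV h1 P _ _ φ hP hφ
  haveI : Fact (Nat.Prime 2) := ⟨Nat.prime_two⟩
  have h3 : 3 ≤ Nat.card V := by
    obtain ⟨m, hm⟩ := hV
    omega
  by_cases hcyc : IsCyclic P
  · obtain ⟨g, hg⟩ := hcyc.exists_generator
    have h2 : (frattini P).index ≤ 2 ^ ({g} : Finset P).card := by
      apply PGFrattini.index_frattini_le hP
      rw [Finset.coe_singleton, ← zpowers_eq_closure, eq_top_iff]
      exact fun x _ => hg x
    rw [Finset.card_singleton, pow_one] at h2
    obtain ⟨m, hm⟩ := hV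
    constructor
    · omega
    · omega
  have h9 : 9 ≤ Nat.card V := by
    by_contra hlt
    have hpr : (Nat.card V).Prime := by
      obtain ⟨m, hm⟩ := hV
      have : Nat.card V = 3 ∨ Nat.card V = 5 ∨ Nat.card V = 7 := by omega
      rcases this with h | h | h <;> rw [h]
      exacts [Nat.prime_three, Nat.prime_five, Nat.prime_seven]
    haveI : Fact (Nat.card V).Prime := ⟨hpr⟩
    haveI : IsCyclic V := isCyclic_of_prime_card (p := Nat.card V) rfl
    haveI : IsCyclic (ZMod (Nat.card V))ˣ := inferInstance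
    haveI : IsCyclic (MulAut V) := isCyclic_of_injective
      (IsCyclic.mulAutMulEquiv V).toMonoidHom (IsCyclic.mulAutMulEquiv V).injective
    exact hcyc (isCyclic_of_injective φ hφ)
  -- it is enough to bound twice the index
  suffices h : 2 * (frattini P).index ≤ Nat.card V - 1 from ⟨by omega, fun _ => h⟩
  -- recursion for an involution with both eigenspaces nontrivial
  have hrec : ∀ t : MulAut V, t * t = 1 → Vp t ≠ ⊥ → Vm t ≠ ⊥ →
      Claim (Vp t) ∧ Claim (Vm t) ∧ 3 ≤ Nat.card (Vp t) ∧ 3 ≤ Nat.card (Vm t) := by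
    intro t ht hp hm
    have e := card_split hV ht
    have p1 := (one_lt_card_iff_ne_bot _).2 hp
    have p2 := (one_lt_card_iff_ne_bot _).2 hm
    have o1 := odd_sub hV (Vp t)
    have o2 := odd_sub hV (Vm t)
    refine ⟨ih _ ?_ _ rfl o1 p1, ih _ ?_ _ rfl o2 p2, ?_, ?_⟩
    · rw [← hn, e]; nlinarith
    · rw [← hn, e]; nlinarith
    · obtain ⟨m, hm⟩ := o1; omega
    · obtain ⟨m, hm⟩ := o2; omega
  have vm : ∀ g : P, g * g = 1 → g ≠ 1 → Vm (φ g) ≠ ⊥ := by
    intro g hg hg1 hb
    apply hg1
    apply hφ
    rw [map_one]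
    refine eq_one_of_split hV (t := φ g) (by rw [← map_mul, hg, map_one]) (fun v hv => hv) ?_
    intro v hv
    rw [hb, mem_bot] at hv
    rw [hv, map_one]
  by_cases hz : ∃ z ∈ center P, z * z = 1 ∧ z ≠ 1 ∧ Vp (φ z) ≠ ⊥
  · obtain ⟨z, hzc, hz2, hz1, hzp⟩ := hz
    have ht : φ z * φ z = 1 := by rw [← map_mul, hz2, map_one]
    obtain ⟨c1, c2, k1, k2⟩ := hrec _ ht hzp (vm z hz2 hz1)
    obtain ⟨i, j, ⟨bi, bi'⟩, ⟨bj, bj'⟩, hij, -⟩ := prod_bound hV φ hP hφ ht
      (fun g => by rw [← map_mul, ← map_mul, mem_center_iff.1 hzc g]) c1 c2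
    rw [card_split hV ht]
    generalize Nat.card (Vp (φ z)) = a at *
    generalize Nat.card (Vm (φ z)) = b at *
    obtain ⟨a, rfl⟩ : ∃ c, a = c + 1 := ⟨a - 1, by omega⟩
    obtain ⟨b, rfl⟩ : ∃ c, b = c + 1 := ⟨b - 1, by omega⟩
    simp only [Nat.add_sub_cancel] at *
    have e : (a + 1) * (b + 1) - 1 = a * b + a + b := by
      rw [Nat.sub_eq_iff_eq_add (by nlinarith)]; ring
    rw [e]
    by_cases ha : a + 1 = 3
    · by_cases hb : b + 1 = 3
      · have : a = 2 := by omega
        have : b = 2 := by omega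
        subst a; subst b
        have : i * j ≤ 2 * 2 := Nat.mul_le_mul bi bj
        omega
      · have := bj' hb
        have : i * (2 * j) ≤ a * b := Nat.mul_le_mul bi this
        nlinarith
    · have := bi' ha
      have : (2 * i) * j ≤ a * b := Nat.mul_le_mul this bj
      nlinarith
  push Not at hz
  have inv : ∀ z ∈ center P, z * z = 1 → z ≠ 1 → ∀ v, φ z v = v⁻¹ := by
    intro z hzc hz2 hz1 v
    have hb := hz z hzc hz2 hz1
    have ht : φ z * φ z = 1 := by rw [← map_mul, hz2, map_one]
    have e := card_split hV ht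
    rw [hb, card_bot, one_mul] at e
    have : Vm (φ z) = ⊤ := eq_top_of_card_eq _ e.symm
    have hv : v ∈ Vm (φ z) := by rw [this]; trivial
    exact hv
  rcases PGNormalCyclic.trichotomy hP with h | ⟨E, hE, hEe, hEc⟩ | ⟨-, m, a, y, -, hay, -⟩
  · exact absurd h hcyc
  · -- a normal four-group
    have hsq : ∀ e ∈ E, e * e = 1 := fun e he => by rw [← sq]; exact hEe.2 e he
    have hEn : E ≠ ⊥ := by
      intro h; rw [h, card_bot] at hEc; norm_num at hEc
    obtain ⟨z, hzE, hzc, hz1⟩ : ∃ z ∈ E, z ∈ center P ∧ z ≠ 1 := by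
      obtain ⟨z, h1, h2, h3⟩ := PGBasic.exists_mem_center_orderOf hP hEn
      refine ⟨z, h1, h2, fun h => ?_⟩
      rw [h, orderOf_one] at h3
      norm_num at h3
    have hz2 := hsq z hzE
    obtain ⟨a, haE, ha⟩ : ∃ a ∈ E, a ∉ zpowers z := by
      by_contra hh
      push Not at hh
      have h4 := card_le_of_le (show E ≤ zpowers z from hh)
      rw [hEc, Nat.card_zpowers, orderOf_eq_prime (p := 2) (by rw [sq, hz2]) hz1] at h4
      norm_num at h4
    have ha1 : a ≠ 1 := fun h => ha (h ▸ one_mem _)
    have ha2 := hsq a haE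
    have haz : a ≠ z := fun h => ha (h ▸ mem_zpowers _)
    have hac : a ∉ center P := by
      intro h
      apply haz
      apply hφ
      ext v
      rw [inv a h ha2 ha1, inv z hzc hz2 hz1]
    -- elements of E
    have hEl : ∀ e ∈ E, e = 1 ∨ e = z ∨ e = a ∨ e = a * z := by
      classical
      intro e he
      by_contra hh
      push Not at hh
      obtain ⟨q1, q2, q3, q4⟩ := hh
      have haz1 : a * z ≠ 1 := fun h => haz (by
        have : a = z⁻¹ := eq_inv_of_mul_eq_one_left h
        rw [this, inv_eq_of_mul_eq_one_left hz2])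
      have haz2 : a * z ≠ z := fun h => ha1 (by simpa using h)
      have haz3 : a * z ≠ a := fun h => hz1 (by simpa using h)
      have hsub : (({e, 1, z, a, a * z} : Finset P) : Set P) ⊆ E := by
        intro x hx
        simp only [Finset.coe_insert, Finset.coe_singleton, Set.mem_insert_iff,
          Set.mem_singleton_iff] at hx
        rcases hx with rfl | rfl | rfl | rfl | rfl
        · exact he
        · exact one_mem _
        · exact hzE
        · exact haE
        · exact mul_mem haE hzE
      have h5 := Set.ncard_le_ncard hsub (Set.toFinite _)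
      rw [Set.ncard_coe_finset, ← Nat.card_coe_set_eq] at h5
      have h6 : ({e, 1, z, a, a * z} : Finset P).card = 5 := by
        rw [Finset.card_insert_of_notMem (by simp [q1, q2, q3, q4]),
          Finset.card_insert_of_notMem (by simp [hz1.symm, ha1.symm, haz1.symm]),
          Finset.card_insert_of_notMem (by simp [haz.symm, haz2.symm]),
          Finset.card_insert_of_notMem (by simp [haz3.symm]), Finset.card_singleton]
      have h7 : Nat.card (E : Set P) = 2 ^ 2 := hEc
      omega
    have hconj : ∀ g : P, g * a * g⁻¹ = a ∨ g * a * g⁻¹ = a * z := by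
      intro g
      rcases hEl _ (hE.conj_mem a haE g) with h | h | h | h
      · exact absurd (by simpa using h) ha1
      · exfalso
        apply haz
        have : a = g⁻¹ * z * g := by rw [← h]; group
        rw [this, mem_center_iff.1 hzc g⁻¹]; group
      · exact Or.inl h
      · exact Or.inr h
    obtain ⟨g, hg⟩ : ∃ g : P, g * a * g⁻¹ = a * z := by
      by_contra hh
      push Not at hh
      apply hac
      rw [mem_center_iff]
      intro g
      have := (hconj g).resolve_right (hh g)
      exact mul_inv_eq_iff_eq_mul.1 this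
    set M := centralizer ({a} : Set P) with hM
    have hMi : M.index ≤ 2 := by
      refine Nat.le_of_dvd (by norm_num) (index_dvd_two_iff'.2 ⟨g, fun b => ?_⟩)
      rcases hconj b with h | h
      · exact Or.inr (mem_centralizer_singleton_iff.2 (mul_inv_eq_iff_eq_mul.1 h))
      · left
        rw [mem_centralizer_singleton_iff, ← mul_inv_eq_iff_eq_mul]
        have e1 : g * b * a * (g * b)⁻¹ = g * (b * a * b⁻¹) * g⁻¹ := by group
        have e2 : g * (a * z) * g⁻¹ = g * a * g⁻¹ * (g * z * g⁻¹) := by group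
        rw [e1, h, e2, hg, mem_center_iff.1 hzc g, mul_inv_cancel_right, mul_assoc, hz2, mul_one]
    have ht : φ a * φ a = 1 := by rw [← map_mul, ha2, map_one]
    have hcard : Nat.card (Vp (φ a)) = Nat.card (Vm (φ a)) := by
      have hga : a * g = g * a * z := by
        have e1 : g * a = a * z * g := mul_inv_eq_iff_eq_mul.1 hg
        rw [e1, mul_assoc (a * z), mem_center_iff.1 hzc g, ← mul_assoc, mul_assoc a, hz2, mul_one]
      have key : ∀ v, φ a (φ g v) = (φ g (φ a v))⁻¹ := by
        intro v
        rw [← MulAut.mul_apply, ← map_mul, hga, map_mul, map_mul, MulAut.mul_apply,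
          MulAut.mul_apply, inv z hzc hz2 hz1, map_inv, map_inv]
      have : (Vp (φ a)).map (φ g).toMonoidHom = Vm (φ a) := by
        ext v
        rw [mem_Vm]
        constructor
        · rintro ⟨w, hw, rfl⟩
          have hw' : φ a w = w := hw
          show φ a (φ g w) = (φ g w)⁻¹
          rw [key, hw']
        · intro hv
          obtain ⟨w, rfl⟩ := (φ g).surjective v
          refine ⟨w, ?_, rfl⟩
          rw [key, inv_inj] at hv
          exact (φ g).injective hv
      rw [← this, card_map_of_injective (φ g).injective]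
    have hvm := vm a ha2 ha1
    have hvp : Vp (φ a) ≠ ⊥ := by
      rw [← one_lt_card_iff_ne_bot] at hvm ⊢
      rwa [hcard]
    obtain ⟨c1, c2, k1, k2⟩ := hrec _ ht hvp hvm
    obtain ⟨i, j, ⟨bi, bi'⟩, ⟨bj, bj'⟩, hij, hM4⟩ := prod_bound hV (φ.comp M.subtype)
      (hP.to_subgroup M) (hφ.comp (subtype_injective M)) ht
      (fun g => by
        show φ g * φ a = φ a * φ g
        rw [← map_mul, ← map_mul, mem_centralizer_singleton_iff.1 g.2]) c1 c2
    have hle := index_le_sub hP M
    by_cases h33 : Nat.card (Vp (φ a)) = 3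
    · have h33' := hcard ▸ h33
      haveI : Fact (Nat.Prime 3) := ⟨Nat.prime_three⟩
      haveI := isCyclic_of_prime_card h33
      haveI := isCyclic_of_prime_card h33'
      rw [IsCyclic.card_mulAut, IsCyclic.card_mulAut, h33, h33', Nat.totient_prime Nat.prime_three]
        at hM4
      have e1 := M.card_mul_index
      have e2 := (frattini P).card_mul_index
      have e3 : 2 ≤ Nat.card (frattini P) := by
        rw [Nat.succ_le_iff, one_lt_card_iff_ne_bot]
        intro hb
        have := ((PGFrattini.frattini_eq_bot_iff hP).1 hb).1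
        exact hac (mem_center_iff.2 fun g => mul_comm' g a)
      have : Nat.card P ≤ 4 * 2 := by rw [← e1]; exact Nat.mul_le_mul hM4 hMi
      have : 2 * (frattini P).index ≤ Nat.card P := by
        rw [← e2]; exact Nat.mul_le_mul_right _ e3
      omega
    · have q1 := bi' h33
      have q2 := bj' (hcard ▸ h33)
      rw [card_split hV ht]
      rw [← hcard] at q2 ⊢
      generalize Nat.card (Vp (φ a)) = c at *
      obtain ⟨c, rfl⟩ : ∃ d, c = d + 1 := ⟨c - 1, by omega⟩
      simp only [Nat.add_sub_cancel] at *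
      have e : (c + 1) * (c + 1) - 1 = c * c + c + c := by
        rw [Nat.sub_eq_iff_eq_add (by nlinarith)]; ring
      rw [e]
      have : (2 * i) * (2 * j) ≤ c * c := Nat.mul_le_mul q1 q2
      have : M.index * (frattini M).index ≤ 2 * (i * j) := Nat.mul_le_mul hMi hij
      nlinarith
  · classical
    have h2 : (frattini P).index ≤ 2 ^ ({a, y} : Finset P).card := by
      apply PGFrattini.index_frattini_le hP
      rw [Finset.coe_pair, eq_top_iff, ← hay, sup_le_iff, zpowers_le, zpowers_le]
      exact ⟨subset_closure (by simp), subset_closure (by simp)⟩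
    have h4 : 2 ^ ({a, y} : Finset P).card ≤ 2 ^ 2 :=
      Nat.pow_le_pow_right (by norm_num) Finset.card_le_two
    omega


/-- Let G be a finite group that is the semidirect product of a normal abelian subgroup N of odd order by a 2-subgroup P, and suppose N is the unique minimal normal subgroup of G. Then the index of the Frattini subgroup of P in P is at most #N − 1. -/
theorem result {G : Type*} [Group G] [Finite G] (N P : Subgroup G) (hN : N.Normal) (hNab : IsMulCommutative ↥N) (hNodd : Odd (Nat.card ↥N)) (hP : IsPGroup 2 ↥P) (hdisj : N ⊓ P = ⊥) (hprod : N ⊔ P = ⊤) (hmin : N ≠ ⊥ ∧ ∀ M : Subgroup G, M.Normal → M ≠ ⊥ → N ≤ M) : (frattini ↥P).index ≤ Nat.card ↥N - 1 := by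
  haveI := hN
  letI : CommGroup N := { (inferInstance : Group N) with mul_comm := fun a b => hNab.is_comm.comm a b }
  have hC : P ⊓ centralizer (N : Set G) = ⊥ := by
    by_contra hne
    have hnor : (P ⊓ centralizer (N : Set G)).Normal := by
      rw [← normalizer_eq_top_iff, eq_top_iff, ← hprod, sup_le_iff]
      constructor
      · intro n hn
        apply centralizer_le_normalizer
        intro x hx
        exact (hx.2 n hn).symm
      · intro g hg
        rw [mem_normalizer_iff]
        intro x
        constructor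
        · intro hx
          exact ⟨P.mul_mem (P.mul_mem hg hx.1) (P.inv_mem hg),
            (inferInstance : (centralizer (N : Set G)).Normal).conj_mem x hx.2 g⟩
        · intro hx
          have e : x = g⁻¹ * (g * x * g⁻¹) * g⁻¹⁻¹ := by group
          rw [e]
          exact ⟨P.mul_mem (P.mul_mem (P.inv_mem hg) hx.1) (P.inv_mem (P.inv_mem hg)),
            (inferInstance : (centralizer (N : Set G)).Normal).conj_mem _ hx.2 g⁻¹⟩
    have := hmin.2 _ hnor hne
    apply hmin.1
    rw [eq_bot_iff, ← hdisj]
    exact le_inf le_rfl (this.trans inf_le_left)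
  have hinj : Function.Injective ((MulAut.conjNormal (H := N)).comp P.subtype) := by
    rw [injective_iff_map_eq_one]
    rintro ⟨g, hg⟩ h
    have : g ∈ P ⊓ centralizer (N : Set G) := by
      refine ⟨hg, fun n hn => ?_⟩
      have := congrArg (fun f : MulAut N => ((f ⟨n, hn⟩ : N) : G)) h
      have e : g * n * g⁻¹ = n := this
      exact (mul_inv_eq_iff_eq_mul.1 e).symm
    rw [hC, mem_bot] at this
    exact Subtype.ext this
  exact (claim _ N rfl hNodd ((one_lt_card_iff_ne_bot _).2 hmin.1) P _ hP hinj).1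

end Cfsg.Agent.S4188
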