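import Cfsg.Statements.S4198
import Mathlib

set_option autoImplicit false
open Cfsg

namespace Cfsg.Agent.S4198

section Aux
open Equiv Equiv.Perm

/-- possible cycle types -/
def T (n : ℕ) : Set (Multiset ℕ) := {μ | μ.sum ≤ n ∧ ∀ a ∈ μ, 2 ≤ a}

theorem mem_T {n : ℕ} {μ : Multiset ℕ} : μ ∈ T n ↔ ∃ σ : Perm (Fin n), σ.cycleType = μ := by
  rw [Equiv.Perm.exists_with_cycleType_iff, Fintype.card_fin]; rfl

theorem T_fin (n : ℕ) : (T n).Finite :=
  (Set.finite_range fun σ : Perm (Fin n) => σ.cycleType).subset fun _ h => mem_T.1 h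

theorem card_eq (n : ℕ) : Nat.card (ConjClasses (Perm (Fin n))) = (T n).ncard := by
  refine Nat.card_congr (Equiv.ofBijective (fun c => ⟨(Quotient.out c).cycleType, mem_T.2 ⟨_, rfl⟩⟩)
    ⟨fun a b h => ?_, fun ⟨μ, h⟩ => ?_⟩)
  · rw [← Quotient.out_eq a, ← Quotient.out_eq b]
    exact Quotient.sound (isConj_iff_cycleType_eq.2 (by simpa using h))
  · obtain ⟨σ, rfl⟩ := mem_T.1 h
    exact ⟨ConjClasses.mk σ, Subtype.ext (isConj_iff_cycleType_eq.1
      (Quotient.exact (Quotient.out_eq (ConjClasses.mk σ))))⟩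

/-- a chosen element -/
noncomputable def ch (μ : Multiset ℕ) : ℕ := if h : μ = 0 then 0 else (Multiset.exists_mem_of_ne_zero h).choose

theorem ch_mem {μ : Multiset ℕ} (h : μ ≠ 0) : ch μ ∈ μ := by
  rw [ch, dif_neg h]; exact (Multiset.exists_mem_of_ne_zero h).choose_spec

theorem T_rec (n : ℕ) : (T (n + 2)).ncard ≤ (T (n + 1)).ncard + (T n).ncard := by
  have h1 : T (n + 2) ⊆ T (n + 1) ∪ {μ | μ ∈ T (n + 2) ∧ μ.sum = n + 2} := fun μ h => by
    by_cases e : μ.sum = n + 2
    · exact Or.inr ⟨h, e⟩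
    · exact Or.inl ⟨by have := h.1; omega, h.2⟩
  have hf : {μ | μ ∈ T (n + 2) ∧ μ.sum = n + 2}.Finite := (T_fin _).subset fun _ h => h.1
  refine (Set.ncard_le_ncard h1 ((T_fin _).union hf)).trans ((Set.ncard_union_le _ _).trans ?_)
  have hs : ∀ μ : Multiset ℕ, μ.sum = n + 2 → ch μ ∈ μ ∧ ch μ + (μ.erase (ch μ)).sum = n + 2 := by
    intro μ e
    have h0 : ch μ ∈ μ := ch_mem (by rintro rfl; simp at e)
    exact ⟨h0, by rw [← Multiset.sum_cons, Multiset.cons_erase h0, e]⟩
  refine Nat.add_le_add_left (Set.ncard_le_ncard_of_injOn (fun μ => μ.erase (ch μ)) ?_ ?_ (T_fin _)) _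
  · rintro μ ⟨h, e⟩
    obtain ⟨h0, h1⟩ := hs μ e
    exact ⟨by have := h.2 _ h0; omega, fun a ha => h.2 a (Multiset.mem_of_mem_erase ha)⟩
  · rintro μ ⟨-, e⟩ ν ⟨-, e'⟩ h
    obtain ⟨h0, h1⟩ := hs μ e
    obtain ⟨h0', h1'⟩ := hs ν e'
    simp only at h
    have : ch μ = ch ν := by rw [h] at h1; omega
    rw [← Multiset.cons_erase h0, ← Multiset.cons_erase h0', h, this]

theorem T_low {n : ℕ} (hn : n ≤ 1) : (T n).ncard ≤ 1 := by
  rw [← Set.ncard_singleton (0 : Multiset ℕ)]
  refine Set.ncard_le_ncard (fun μ h => ?_) (Set.toFinite _)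
  by_contra h0
  have h1 := ch_mem h0
  have := Multiset.single_le_sum (fun _ _ => Nat.zero_le _) _ h1
  have := h.1
  have := h.2 _ h1
  omega

theorem T_le (n : ℕ) : (T (n + 5)).ncard ≤ 2 ^ (n + 3) ∧ (T (n + 6)).ncard ≤ 2 ^ (n + 4) := by
  induction n with
  | zero =>
    have := T_low (n := 0) (by omega)
    have := T_low (n := 1) (by omega)
    have := T_rec 0
    have := T_rec 1
    have := T_rec 2
    have := T_rec 3
    have := T_rec 4
    norm_num at *
    omega
  | succ n ih =>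
    refine ⟨ih.2, (T_rec (n + 5)).trans ?_⟩
    have := ih.1
    have : (T (n + 5 + 1)).ncard ≤ _ := ih.2
    simp only [pow_succ] at *
    omega

/-- a permutation with given cycle type -/
noncomputable def rep (n : ℕ) (μ : Multiset ℕ) : Perm (Fin n) := by
  classical exact if h : ∃ σ : Perm (Fin n), σ.cycleType = μ then h.choose else 1

theorem rep_type {n : ℕ} (σ : Perm (Fin n)) : (rep n σ.cycleType).cycleType = σ.cycleType := by
  have h : ∃ τ : Perm (Fin n), τ.cycleType = σ.cycleType := ⟨σ, rfl⟩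
  rw [rep, dif_pos h]; exact h.choose_spec

/-- conjugate in the alternating group to the representative -/
def P {n : ℕ} (a : Perm (Fin n)) : Prop := ∃ g, sign g = 1 ∧ g * rep n a.cycleType * g⁻¹ = a

theorem split {n : ℕ} {a : Perm (Fin n)} (h : ¬ P a) : (∀ c ∈ a.cycleType, Odd c) ∧
    n ≤ a.cycleType.sum + 1 ∧ ∃ g, sign g = -1 ∧ g * rep n a.cycleType * g⁻¹ = a := by
  obtain ⟨g, hg⟩ := isConj_iff.1 (isConj_iff_cycleType_eq.2 (rep_type a))
  have h1 : sign g = -1 := (Int.units_eq_one_or _).resolve_left fun e => h ⟨g, e, hg⟩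
  have h2 : Subgroup.centralizer {a} ≤ alternatingGroup (Fin n) := by
    intro c hc
    by_contra hc'
    have h3 : sign c = -1 := (Int.units_eq_one_or _).resolve_left hc'
    refine h ⟨c * g, by simp [h1, h3], ?_⟩
    calc _ = c * (g * rep n a.cycleType * g⁻¹) * c⁻¹ := by group
      _ = a := by rw [hg, Subgroup.mem_centralizer_singleton_iff.1 hc, mul_inv_cancel_right]
  obtain ⟨h3, h4, -⟩ := centralizer_le_alternating_iff.1 h2
  exact ⟨h3, by simpa using h4, g, h1, hg⟩

/-- shorten one cycle -/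
noncomputable def tw (μ : Multiset ℕ) : Multiset ℕ := (ch μ - 1) ::ₘ μ.erase (ch μ)

open Classical in
/-- the invariant -/
noncomputable def F {n : ℕ} (a : Perm (Fin n)) : Multiset ℕ := if P a then a.cycleType else tw a.cycleType

theorem par {n : ℕ} {a : Perm (Fin n)} (ha : sign a = 1) : Even (a.cycleType.sum + a.cycleType.card) := by
  rw [sign_of_cycleType] at ha
  by_contra h
  rw [(Nat.not_even_iff_odd.1 h).neg_one_pow] at ha
  exact absurd ha (by decide)

theorem tw_facts {n : ℕ} (hn : 5 ≤ n) {a : Perm (Fin n)} (h : ¬ P a) :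
    ch a.cycleType ∈ a.cycleType ∧ 3 ≤ ch a.cycleType ∧ Even (ch a.cycleType - 1) ∧
      (tw a.cycleType).sum + 1 = a.cycleType.sum ∧ (tw a.cycleType).card = a.cycleType.card := by
  obtain ⟨h1, h2, -⟩ := split h
  have h0 : ch a.cycleType ∈ a.cycleType := ch_mem (fun e => by rw [e] at h2; simp at h2; omega)
  have h3 := two_le_of_mem_cycleType h0
  obtain ⟨k, hk⟩ := h1 _ h0
  refine ⟨h0, by omega, ⟨k, by omega⟩, ?_, ?_⟩
  · conv_rhs => rw [← Multiset.cons_erase h0]
    rw [tw, Multiset.sum_cons, Multiset.sum_cons]; omega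
  · conv_rhs => rw [← Multiset.cons_erase h0]
    rw [tw, Multiset.card_cons, Multiset.card_cons]

theorem F_mem {n : ℕ} (hn : 5 ≤ n) {a : Perm (Fin n)} (ha : sign a = 1) : F a ∈ T n \ {{2}} := by
  have hT := mem_T.2 ⟨a, rfl⟩
  have hp := par ha
  by_cases h : P a
  · rw [F, if_pos h]
    exact ⟨hT, fun e => by rw [show a.cycleType = {2} from e] at hp; simp at hp; exact absurd hp (by decide)⟩
  · obtain ⟨h0, h1, h2, h3, h4⟩ := tw_facts hn h
    rw [F, if_neg h]
    refine ⟨⟨by have := hT.1; omega, fun c hc => ?_⟩, fun e => ?_⟩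
    · rcases Multiset.mem_cons.1 hc with rfl | hc
      · omega
      · exact hT.2 c (Multiset.mem_of_mem_erase hc)
    · rw [show tw a.cycleType = {2} from e] at h3
      have := (split h).2.1
      simp at h3; omega

theorem F_inj {n : ℕ} (hn : 5 ≤ n) {a b : Perm (Fin n)} (ha : sign a = 1) (hb : sign b = 1)
    (e : F a = F b) : ∃ g, sign g = 1 ∧ g * a * g⁻¹ = b := by
  have aux : ∀ g g' : Perm (Fin n), sign g = sign g' → g * rep n a.cycleType * g⁻¹ = a →
      g' * rep n b.cycleType * g'⁻¹ = b → a.cycleType = b.cycleType → ∃ g, sign g = 1 ∧ g * a * g⁻¹ = b := by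
    intro g g' h1 h2 h3 h4
    refine ⟨g' * g⁻¹, by simp [h1], ?_⟩
    calc _ = g' * g⁻¹ * (g * rep n a.cycleType * g⁻¹) * (g' * g⁻¹)⁻¹ := by rw [h2]
      _ = g' * rep n b.cycleType * g'⁻¹ := by rw [h4]; group
      _ = b := h3
  have mix : ∀ a b : Perm (Fin n), sign a = 1 → sign b = 1 → ¬ P b → a.cycleType ≠ tw b.cycleType := by
    intro a b ha hb h e
    obtain ⟨-, -, -, h3, h4⟩ := tw_facts hn h
    obtain ⟨k, hk⟩ := par ha
    obtain ⟨l, hl⟩ := par hb
    rw [e] at hk; omega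
  by_cases h : P a <;> by_cases h' : P b
  · rw [F, F, if_pos h, if_pos h'] at e
    obtain ⟨g, h1, h2⟩ := h
    obtain ⟨g', h1', h2'⟩ := h'
    exact aux g g' (by rw [h1, h1']) h2 h2' e
  · rw [F, F, if_pos h, if_neg h'] at e
    exact absurd e (mix a b ha hb h')
  · rw [F, F, if_neg h, if_pos h'] at e
    exact absurd e.symm (mix b a hb ha h)
  · rw [F, F, if_neg h, if_neg h'] at e
    obtain ⟨h0, -, h2, -, -⟩ := tw_facts hn h
    obtain ⟨h0', -, -, -, -⟩ := tw_facts hn h'
    obtain ⟨-, -, g, h3, h4⟩ := split h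
    obtain ⟨ho, -, g', h3', h4'⟩ := split h'
    refine aux g g' (by rw [h3, h3']) h4 h4' ?_
    have h5 : ch a.cycleType - 1 ∈ tw b.cycleType := e ▸ Multiset.mem_cons_self _ _
    have h6 : ch a.cycleType - 1 = ch b.cycleType - 1 := (Multiset.mem_cons.1 h5).resolve_right
      fun h7 => Nat.not_even_iff_odd.2 (ho _ (Multiset.mem_of_mem_erase h7)) h2
    have h7 : ch a.cycleType = ch b.cycleType := by
      have := two_le_of_mem_cycleType h0
      have := two_le_of_mem_cycleType h0'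
      omega
    rw [tw, tw, h6, Multiset.cons_inj_right] at e
    rw [← Multiset.cons_erase h0, ← Multiset.cons_erase h0', e, h7]

end Aux

/-- For n ≥ 5 the alternating group of degree n has strictly fewer conjugacy classes than the symmetric group of degree n, and the symmetric group of degree n (whose classes correspond to the partitions of n) has at most 2^(n−2) conjugacy classes. -/
theorem result (n : ℕ) (hn : 5 ≤ n) : Nat.card (ConjClasses (alternatingGroup (Fin n))) < Nat.card (ConjClasses (Equiv.Perm (Fin n))) ∧ Nat.card (ConjClasses (Equiv.Perm (Fin n))) ≤ 2 ^ (n - 2) := by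
  rw [card_eq]
  refine ⟨?_, ?_⟩
  · have h1 : Nat.card (ConjClasses (alternatingGroup (Fin n))) ≤ (T n \ {{2}}).ncard := by
      have : Finite ↥(T n \ {{2}}) := ((T_fin n).subset Set.diff_subset).to_subtype
      refine Nat.card_le_card_of_injective
        (fun c => (⟨F (Quotient.out c).1, F_mem hn (Quotient.out c).2⟩ : ↥(T n \ {{2}}))) fun a b h => ?_
      obtain ⟨g, h1, h2⟩ := F_inj hn (Quotient.out a).2 (Quotient.out b).2 (congrArg Subtype.val h)
      rw [← Quotient.out_eq a, ← Quotient.out_eq b]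
      exact Quotient.sound (isConj_iff.2 ⟨⟨g, h1⟩, Subtype.ext h2⟩)
    refine h1.trans_lt (Set.ncard_diff_singleton_lt_of_mem ⟨by simp; omega, by simp⟩ (T_fin n))
  · obtain ⟨k, rfl⟩ : ∃ k, n = k + 5 := ⟨n - 5, by omega⟩
    exact (T_le k).1

end Cfsg.Agent.S4198
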