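import Cfsg.Statements.S4200
import Cfsg.Agent.Lib.Grp.H7Cls

set_option autoImplicit false
open Cfsg

namespace Cfsg.Agent.S4200

open CA.H7Cls Finset Subgroup

/-- Let Y be a subgroup of the finite group X, of index m. Then the numbers of conjugacy classes satisfy k(Y) ≤ m·k(X) and k(X) ≤ m·k(Y), and the second inequality is strict unless Y is normal in X. -/
theorem result {X : Type*} [Group X] [Finite X] (Y : Subgroup X) : Nat.card (ConjClasses Y) ≤ Y.index * Nat.card (ConjClasses X) ∧ Nat.card (ConjClasses X) ≤ Y.index * Nat.card (ConjClasses Y) ∧ (¬ Y.Normal → Nat.card (ConjClasses X) < Y.index * Nat.card (ConjClasses Y)) := by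
  classical
  haveI := Fintype.ofFinite X
  have hX := CChar.CharOrth.sum_card_centralizer (G := X)
  have hY : ∑ g ∈ univ.filter (· ∈ Y), Nat.card (centralizer {g} ⊓ Y : Subgroup X) =
      Nat.card Y * Nat.card (ConjClasses Y) := by
    rw [← kpi_univ, ← sum_cent_sub]
    refine sum_congr ?_ fun _ _ => rfl
    ext g
    simp only [mem_filter, mem_univ, true_and]
    exact ⟨fun h => ⟨h, fun _ _ _ => trivial⟩, fun h => h.1⟩
  have hi := Y.index_mul_card
  have hs := sum_inf_eq Y
  have h2 : ∑ y ∈ univ.filter (· ∈ Y), Nat.card (centralizer {y} : Subgroup X) ≤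
      Y.index * (Nat.card Y * Nat.card (ConjClasses Y)) := by
    rw [← hY, mul_sum]
    exact sum_le_sum fun y _ => card_le_index_mul _ _
  have h3 : Y.index * (Y.index * (Nat.card Y * Nat.card (ConjClasses Y))) =
      Nat.card X * (Y.index * Nat.card (ConjClasses Y)) := by rw [← hi]; ring
  refine ⟨?_, ?_, fun hn => ?_⟩
  · refine Nat.le_of_mul_le_mul_left ?_ (Nat.card_pos (α := Y))
    rw [← hY, ← mul_assoc, mul_comm (Nat.card Y), hi, ← hX]
    exact (sum_le_sum fun g _ => card_le_of_le inf_le_left).trans
      (sum_le_sum_of_subset (filter_subset _ _))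
  · refine Nat.le_of_mul_le_mul_left ?_ (Nat.card_pos (α := X))
    rw [← hX, ← h3]
    refine le_trans ?_ (Nat.mul_le_mul_left _ h2)
    rw [← hs, mul_sum]
    exact sum_le_sum fun y _ => card_le_index_mul _ _
  · refine Nat.lt_of_mul_lt_mul_left (a := Nat.card X) ?_
    rw [← hX, ← h3]
    refine lt_of_lt_of_le ?_ (Nat.mul_le_mul_left _ h2)
    rw [← hs, mul_sum]
    refine sum_lt_sum (fun y _ => card_le_index_mul _ _) ?_
    by_contra! hc
    refine hn ⟨fun y hy g => ?_⟩
    have h4 := le_antisymm (card_le_index_mul (centralizer {y}) Y) (hc y (mem_univ _))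
    have h5 : Function.Surjective fun c : centralizer {y} => ((c : X) : X ⧸ Y) := by
      have h6 := (Y.subgroupOf (centralizer {y})).index_mul_card
      rw [← inf_subgroupOf_right, inf_comm, Nat.card_congr (subgroupOfEquivOfLe
        (inf_le_left : centralizer {y} ⊓ Y ≤ _)).toEquiv, inf_comm, inf_subgroupOf_right, h4,
        inf_comm] at h6
      have h7 := Nat.eq_of_mul_eq_mul_right Nat.card_pos h6
      have h8 : Function.Surjective (quotientSubgroupOfEmbeddingOfLE Y (le_top (a := centralizer {y}))) := by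
        refine ((Nat.bijective_iff_injective_and_card _).2 ⟨Function.Embedding.injective _, ?_⟩).2
        exact h7.trans Y.relIndex_top_right.symm
      intro c
      induction c using QuotientGroup.induction_on with
      | H c =>
        obtain ⟨d, hd⟩ := h8 (QuotientGroup.mk ⟨c, mem_top c⟩)
        induction d using QuotientGroup.induction_on with
        | H d =>
          rw [quotientSubgroupOfEmbeddingOfLE_apply_mk, QuotientGroup.eq] at hd
          exact ⟨d, QuotientGroup.eq.2 hd⟩
    obtain ⟨c, hc⟩ := h5 (g⁻¹ : X)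
    have h9 : (c : X)⁻¹ * g⁻¹ ∈ Y := QuotientGroup.eq.1 hc
    have h10 := mem_centralizer_singleton_iff.1 c.2
    have : g * y * g⁻¹ = ((c : X)⁻¹ * g⁻¹)⁻¹ * y * ((c : X)⁻¹ * g⁻¹) := by
      simp only [mul_inv_rev, inv_inv, mul_assoc]
      rw [← mul_assoc (c : X), h10]; group
    rw [this]
    exact mul_mem (mul_mem (inv_mem h9) hy) h9

end Cfsg.Agent.S4200
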