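import Cfsg.Statements.S4230
import Cfsg.Agent.Lib.Grp.Zsig

set_option autoImplicit false
open Cfsg

namespace Cfsg.Agent.S4230

/-- Let p be an odd prime, q a natural number not divisible by p, and e the multiplicative order of q modulo p. For a natural number f, p divides the value at q of the f-th cyclotomic polynomial if and only if f = e·p^j for some j ≥ 0. -/
theorem result (p q f : ℕ) (hp : p.Prime) (hp2 : p ≠ 2) (hpq : ¬ p ∣ q) :
    ((p : ℤ) ∣ (Polynomial.cyclotomic f ℤ).eval (q : ℤ)) ↔ ∃ j : ℕ, f = orderOf (q : ZMod p) * p ^ j := by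
  haveI := Fact.mk hp
  have hq0 : (q : ZMod p) ≠ 0 := by rwa [Ne, ZMod.natCast_eq_zero_iff]
  have hfin : IsOfFinOrder (q : ZMod p) :=
    isOfFinOrder_iff_pow_eq_one.2 ⟨p - 1, by have := hp.two_le; omega, ZMod.pow_card_sub_one_eq_one hq0⟩
  have hop : 0 < orderOf (q : ZMod p) := hfin.orderOf_pos
  have hcast : ∀ n : ℕ, ((p : ℤ) ∣ (Polynomial.cyclotomic n ℤ).eval (q : ℤ)) ↔
      (Polynomial.cyclotomic n (ZMod p)).IsRoot (q : ZMod p) := fun n => by
    rw [← ZMod.intCast_zmod_eq_zero_iff_dvd]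
    have := CA.Zsig.phi_cast (ZMod p) n q
    unfold CA.Zsig.phi at this
    rw [this]; rfl
  rw [hcast]
  constructor
  · intro h
    have hf : f ≠ 0 := by
      rintro rfl
      simp at h
    obtain ⟨k, m, hm, rfl⟩ := Nat.exists_eq_pow_mul_and_not_dvd hf p hp.ne_one
    haveI : NeZero (m : ZMod p) := ⟨by rwa [Ne, ZMod.natCast_eq_zero_iff]⟩
    have := (Polynomial.isRoot_cyclotomic_prime_pow_mul_iff_of_charP (p := p)).1 h
    exact ⟨k, by rw [← this.eq_orderOf, mul_comm]⟩
  · rintro ⟨j, rfl⟩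
    have hd : orderOf (q : ZMod p) ∣ p - 1 := orderOf_dvd_of_pow_eq_one (ZMod.pow_card_sub_one_eq_one hq0)
    haveI : NeZero ((orderOf (q : ZMod p) : ℕ) : ZMod p) := ⟨by
      rw [Ne, ZMod.natCast_eq_zero_iff]
      intro h
      have h2 := Nat.le_of_dvd hop h
      have h3 := Nat.le_of_dvd (by have := hp.two_le; omega) hd
      have := hp.two_le
      omega⟩
    rw [mul_comm]
    exact (Polynomial.isRoot_cyclotomic_prime_pow_mul_iff_of_charP (p := p)).2 (IsPrimitiveRoot.orderOf _)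

end Cfsg.Agent.S4230
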