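import Cfsg.Statements.S4234
import Cfsg.Agent.Lib.Lin.PSL2Cl5
import Cfsg.Agent.Lib.Lin.SLnGen

set_option autoImplicit false
open Cfsg

namespace Cfsg.Agent.S4234

open Matrix CA.SL2Basic CA.SL2Torus CA.SL2Unip CA.PSL2Struct CA.PSL2Sub CA.PSL2Four CA.PSL2Max CA.PSL2Cl1 Subgroup
open scoped MatrixGroups

def MN (G : Type*) [Group G] : Prop := ∀ H : Subgroup G, ¬ H.Normal → IsCoatom (normalizer (H : Set G))

theorem MN.of {G K : Type*} [Group G] [Finite G] [Group K] (h : MN K) (π : G →* K) (hπ : Function.Surjective π)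
    (hn : ∀ (H : Subgroup G) (x : G), (∀ a ∈ H, ∃ b ∈ H, π (x * a * x⁻¹) = π b) → ∀ a ∈ H, x * a * x⁻¹ ∈ H) : MN G := by
  intro H hH
  have : Finite K := Finite.of_surjective π hπ
  have e : normalizer (H : Set G) = (normalizer (H.map π : Set K)).comap π := by
    refine le_antisymm (fun x hx => mem_normalizer_fintype ?_) fun x hx => mem_normalizer_fintype (hn H x fun a ha => ?_)
    · rintro _ ⟨a, ha, rfl⟩
      exact ⟨_, (mem_normalizer_iff.1 hx a).1 ha, by simp⟩
    · obtain ⟨b, hb, e⟩ := (mem_normalizer_iff.1 hx (π a)).1 ⟨a, ha, rfl⟩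
      exact ⟨b, hb, by simp [e]⟩
  rw [e]
  refine isCoatom_comap_of_surjective hπ (h _ fun h1 => hH (normalizer_eq_top_iff.1 ?_))
  rw [e, normalizer_eq_top_iff.2 h1, comap_top]

abbrev F := ZMod 13
instance : Fact (Nat.Prime 13) := ⟨by norm_num⟩

theorem cF : Nat.card F = 13 := Nat.card_zmod 13
theorem h2 : (2 : F) ≠ 0 := by decide

theorem coB : IsCoatom (Bb F) := by
  refine ⟨fun h => w0_not_mem_B (mem_Bb.1 (h ▸ mem_top _)), fun H hH => ?_⟩
  obtain ⟨x, hx, hx'⟩ := SetLike.exists_of_lt hH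
  obtain ⟨x, rfl⟩ := pr_surj x
  rw [← map_comap H, eq_top_of_U_le' (H := H.comap (pr F)) (fun y hy => hH.le (mem_Bb.2 (U_le_B hy)))
    (fun h => hx' (mem_Bb.2 h)) hx]
  exact map_top_of_surjective _ pr_surj

theorem mn_psl : MN PSL(2, F) := by
  intro H hH
  have hs : IsSimpleGroup PSL(2, F) := CA.SLnGen.isSimpleGroup_PSL (.inr ⟨2, by decide, by decide⟩)
  have h0 : H ≠ ⊥ := by rintro rfl; exact hH inferInstance
  have h1 : H ≠ ⊤ := by rintro rfl; exact hH inferInstance
  have hc : Nat.card PSL(2, F) = 1092 := by have := card_odd h2; rw [cF] at this; omega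
  suffices ∃ M, IsCoatom M ∧ M ≤ normalizer (H : Set PSL(2, F)) by
    obtain ⟨M, hM, h⟩ := this
    rwa [(hM.le_iff.1 h).resolve_left fun e => hH (normalizer_eq_top_iff.1 e)]
  have hD : ∀ {g : SL(2, F)}, SS g → IsCoatom (Db g) := fun hg => CA.PSL2Cl5.isCoatom_Db' h2 hg (.inl cF.ge)
  have hA := fun (K : Subgroup PSL(2, F)) => isCoatom_A4 (H := K) (by rw [cF]; norm_num) (by rw [cF]; norm_num)
    (by rw [cF]; norm_num) (by rw [cF]; norm_num)
  rcases dickson_PSL H with ⟨h3, h4⟩ | ⟨h3, y, h4⟩ | ⟨n, h3, h4, ⟨e⟩⟩ | ⟨-, ⟨e⟩⟩ | ⟨-, ⟨e⟩⟩ | ⟨-, ⟨e⟩⟩ |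
    ⟨K, _, _, m, h3, h4, h5, h6⟩
  · obtain ⟨g, hg, h5⟩ := le_Tb_of_cyclic h3 h4
    exact ⟨_, hD hg, (normalizer_eq_Db hg h5 h0).ge⟩
  · refine ⟨(Bb F).comap (MulAut.conj y), (isCoatom_comap _).2 coB, fun x hx => mem_normalizer_fintype fun a ha => ?_⟩
    obtain ⟨⟨z, hz⟩, hz'⟩ := exists_prime_orderOf_dvd_card' 13 ((CharP.cast_eq_zero_iff F 13 _).1 h3)
    rw [orderOf_mk] at hz'
    have z1 : z ≠ 1 := by rintro rfl; simp at hz'
    obtain ⟨k, b, hb, e⟩ := exists_conj_u_of_cast z1 (by rw [hz']; decide)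
    have h5 : y * k⁻¹ ∈ Bb F := mem_Bb_of_conj hb (by rw [← e]; convert h4 z hz using 1; group)
    have h6 : y * z * y⁻¹ ∈ Ub F := by
      have := conj_mem_Ub h5 (mem_Ub.2 ⟨b, rfl⟩)
      rw [← e] at this; convert this using 1; group
    have h7 : zpowers (y * z * y⁻¹) = Ub F := eq_of_le_of_card_ge (zpowers_le_of_mem h6) (by
      rw [card_Ub, cF, Nat.card_zpowers, orderOf_conj, hz'])
    obtain ⟨i, hi⟩ := h7.ge (commutator_mem_Ub hx (h4 a ha))
    simp only [conj_zpow] at hi
    have : x * a * x⁻¹ = z ^ i * a := by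
      rw [← mul_inv_eq_iff_eq_mul, ← (MulAut.conj y).injective.eq_iff, MulAut.conj_apply, MulAut.conj_apply, hi]
      simp [mul_assoc]
    exact this ▸ mul_mem (zpow_mem hz i) ha
  · have h5 : Nat.card H = 2 * n := by rw [Nat.card_congr e.toEquiv, DihedralGroup.nat_card]
    rcases h3.eq_or_lt with rfl | h3'
    · obtain ⟨φ, hφ⟩ := exists_A4 (F := F) fun h => (h2 h).elim
      have h6 : Nat.card (Fin 4) = 4 := by simp
      have := alternatingGroup.normal_kleinFour h6
      have h7 := alternatingGroup.kleinFour_isKleinFour h6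
      have h8 : IsKleinFour ((alternatingGroup.kleinFour (Fin 4)).map φ) := by
        refine isKleinFour_of (by rw [card_map_of_injective hφ, h7.card_four]) ?_
        rintro _ ⟨a, ha, rfl⟩
        rw [← map_mul, show a * a = 1 from congrArg Subtype.val (IsKleinFour.mul_self (⟨a, ha⟩ : alternatingGroup.kleinFour _)),
          map_one]
      have h9 : IsKleinFour H := isKleinFour_of h5 fun a ha => by
        have : ∀ b : DihedralGroup 2, b * b = 1 := by decide
        exact congrArg Subtype.val (e.injective ((map_mul e ⟨a, ha⟩ ⟨a, ha⟩).trans ((this _).trans (map_one e).symm)))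
      obtain ⟨g, rfl⟩ := conj_four (.inr (by rw [cF])) ((alternatingGroup.kleinFour (Fin 4)).map φ) H
      refine ⟨φ.range.map (MulAut.conj g), (OrderIso.isCoatom_iff (MulAut.conj g).mapSubgroup _).2 (hA _ (MonoidHom.ofInjective hφ).symm), ?_⟩
      rintro _ ⟨_, ⟨a, rfl⟩, rfl⟩
      refine mem_normalizer_fintype ?_
      rintro _ ⟨_, ⟨b, hb, rfl⟩, rfl⟩
      exact ⟨_, ⟨_, this.conj_mem b hb a, rfl⟩, by simp [mul_assoc]⟩
    · obtain ⟨g, hg, -, -, h6⟩ := le_Db_of_dihedral h3 h4 e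
      refine ⟨_, hD hg, (normal_subgroupOf_iff_le_normalizer h6).1 ?_⟩
      have h7 := (H.subgroupOf (Db g)).index_mul_card
      have h8 := card_Tb_cases hg
      rw [Nat.card_congr (subgroupOfEquivOfLe h6).toEquiv, h5, card_Db hg] at h7
      rw [dd_odd h2, cF] at h8
      have : (H.subgroupOf (Db g)).index = 1 ∨ (H.subgroupOf (Db g)).index = 2 := by
        generalize (H.subgroupOf (Db g)).index = i at h7
        have : i ≤ 2 := by rcases h8 with h8 | h8 <;> nlinarith
        have : i ≠ 0 := by rintro rfl; omega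
        omega
      exact this.elim normal_of_index_eq_one normal_of_index_eq_two
  · exact ⟨_, hA _ e, le_normalizer⟩
  · have := card_subgroup_dvd_card H
    rw [hc, Nat.card_congr e.toEquiv, card_S4] at this
    omega
  · have := card_subgroup_dvd_card H
    rw [hc, Nat.card_congr e.toEquiv, card_A5] at this
    omega
  · refine (h1 (eq_top_of_sub ?_ (h6.imp_right And.right))).elim
    rw [cF] at h5 ⊢
    exact ((Nat.dvd_prime (by norm_num)).1 (h5 ▸ dvd_pow_self _ (by omega))).resolve_left (by omega)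

theorem mn_sl : MN SL(2, F) := by
  refine mn_psl.of (pr F) pr_surj fun H x h a ha => ?_
  obtain ⟨b, hb, e⟩ := h a ha
  rcases pr_eq_iff.1 e with e | e
  · exact e ▸ hb
  by_cases h3 : 2 ∣ Nat.card H
  · rw [e, ← neg_one_mul]; exact mul_mem (neg_one_mem_of_even h2 H h3) hb
  · have h4 : ∀ c ∈ H, c ^ Nat.card H = 1 := fun c hc => orderOf_dvd_iff_pow_eq_one.1 (orderOf_dvd_natCard H hc)
    have := congrArg (· ^ Nat.card H) e
    simp only [conj_pow, h4 a ha, mul_one, mul_inv_cancel] at this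
    rw [(Nat.not_even_iff_odd.1 (even_iff_two_dvd.not.2 h3)).neg_pow, h4 b hb] at this
    exact (neg_one_ne_one h2 this.symm).elim

/-- Let K be isomorphic to PSL(2, 13) or to SL(2, 13) and let S be a finite abelian group of order coprime to the order of K. Then in the direct product K × S every subgroup that is not normal has a normalizer that is a maximal subgroup. -/
theorem result {K S : Type*} [Group K] [CommGroup S] [Finite K] [Finite S]
    (hK : Nonempty (K ≃* Matrix.ProjectiveSpecialLinearGroup (Fin 2) (ZMod 13)) ∨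
      Nonempty (K ≃* Matrix.SpecialLinearGroup (Fin 2) (ZMod 13)))
    (hKS : (Nat.card K).Coprime (Nat.card S)) (H : Subgroup (K × S)) (hH : ¬ H.Normal) :
    IsCoatom (Subgroup.normalizer (H : Set (K × S))) := by
  have h : MN K := by
    rcases hK with ⟨⟨e⟩⟩ | ⟨⟨e⟩⟩
    · exact mn_psl.of e.toMonoidHom e.surjective fun H x h a ha => by
        obtain ⟨b, hb, h⟩ := h a ha
        exact e.injective h ▸ hb
    · exact mn_sl.of e.toMonoidHom e.surjective fun H x h a ha => by
        obtain ⟨b, hb, h⟩ := h a ha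
        exact e.injective h ▸ hb
  refine h.of (MonoidHom.fst K S) Prod.fst_surjective (fun H x h a ha => ?_) H hH
  obtain ⟨n, h1, h2⟩ := Nat.chineseRemainder hKS 1 0
  have h3 : ∀ c ∈ H, (c.1, 1) ∈ H := fun c hc => by
    have := pow_mem hc n
    rwa [Prod.pow_def, pow_eq_pow_iff_modEq.2 (h1.of_dvd (orderOf_dvd_natCard c.1)), pow_one,
      pow_eq_pow_iff_modEq.2 (h2.of_dvd (orderOf_dvd_natCard c.2)), pow_zero] at this
  obtain ⟨b, hb, e⟩ := h a ha
  have := mul_mem (h3 b hb) (mul_mem (inv_mem (h3 a ha)) ha)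
  convert this using 1
  refine Prod.ext ?_ ?_
  · simpa using e
  · simp

end Cfsg.Agent.S4234
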