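import Cfsg.Statements.S4235
import Cfsg.Agent.Lib.Cit.Ca
import Cfsg.Agent.Lib.Walt.Ab2
import Cfsg.Agent.Lib.GW.GW2

set_option autoImplicit false
open scoped Pointwise
open Cfsg

namespace Cfsg.Agent.S4235

open Subgroup CA.BG CA.GW in
theorem aux {G : Type*} [Group G] [Finite G] (F : Subgroup G → Subgroup G)
    (h : ∀ M : Subgroup G, (Group.IsSolvable M ∧ ∀ M' : Subgroup G, M < M' → ¬ Group.IsSolvable M') →
      F M ≤ M ∧ M ≤ 𝓝(F M) ∧ (∀ a ∈ M, a ∉ F M → ∀ x ∈ F M, x * a = a * x → x = 1) ∧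
      (∀ g : G, g ∉ M → F M ⊓ cj g (F M) = ⊥) ∧ (F M ≠ ⊥ ∨ IsMulCommutative M))
    (hG : ¬ Group.IsSolvable (⊤ : Subgroup G)) : CA.Wa.L2e G ∨ Cfsg.Lie.IsoSuzuki G := by
  have ex : ∀ S : Subgroup G, Syl 2 S ⊤ → ∃ M N : Subgroup G, 𝓝(S) ≤ M ∧ M ≠ ⊤ ∧ N ≤ M ∧ M ≤ 𝓝(N) ∧ N ≠ ⊥ ∧
      (∀ x ∈ N, x ≠ 1 → 𝓒₁(x) ≤ N) ∧ (∀ g : G, g ∉ M → N ⊓ cj g N = ⊥) ∧ Group.IsSolvable M ∧
      ∀ R : Subgroup G, R.Normal → Group.IsSolvable R → R = ⊥ := fun S hS => by
    have h1 := hS.pi.isSolvable Nat.prime_two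
    obtain ⟨M, h2, h3, h4⟩ := exists_maximal_ge (P := fun M : Subgroup G => Group.IsSolvable M)
      (CA.Wa.solv_of_odd_idx (hS.of_le le_normalizer le_top) le_rfl le_rfl h1)
    obtain ⟨h5, h6, h7, h8, h9⟩ := h M ⟨h3, fun M' e1 e2 => e1.ne' (h4 M' e2 e1.le)⟩
    have hM : M ≠ ⊤ := fun e => hG (e ▸ h3)
    have hN : F M ≠ ⊥ := h9.resolve_right fun e => hG (by
      rw [← (burnside_hasPC Nat.prime_two hS (inf_le_right.trans (h2.trans ((comm_iff_le_cent.1 e).trans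
        (centralizer_le (le_normalizer.trans h2)))))).sup_syl hS]
      exact solv_sup h1 (od_core ⊤).solv (le_top.trans (le_norm_core _ _)))
    have hc : ∀ x ∈ F M, x ≠ 1 → 𝓒₁(x) ≤ F M := fun x hx x1 g hg => by
      by_contra e
      refine x1 (h7 g (by_contra fun e1 => x1 (mem_bot.1 ((h8 g e1).le ⟨hx, mem_cj.2 ?_⟩))) e x hx (mem_cent1.1 hg).symm)
      rwa [mul_assoc, ← mem_cent1.1 hg, inv_mul_cancel_left]
    refine ⟨M, F M, h2, hM, h5, h6, hN, hc, h8, h3, fun R hR hs => by_contra fun R1 => ?_⟩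
    have hA : ⊤ ≤ 𝓝(𝓩(𝓕(R))) := (norm_fit le_normalizer_of_normal).trans (norm_center _)
    have hA1 := center_ne_bot_of_nil (fit_nil R) (fit_ne_bot hs R1)
    have hA2 := comm_center 𝓕(R)
    generalize 𝓩(𝓕(R)) = A at hA hA1 hA2
    have hAM : A ≤ M := le_sup_right.trans
      (h4 _ (solv_sup h3 (solv_of_comm hA2) (le_top.trans hA)) le_sup_left).le
    have h10 : A ⊓ F M ≠ ⊥ := fun e => by
      obtain ⟨x, hx, x1⟩ := (bot_or_exists_ne_one _).resolve_left hN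
      exact hA1 (e ▸ (inf_eq_left.2 fun a ha => hc x hx x1 (mem_cent1.2 (mem_cent.1 (cent_of_norm_disjoint
        (hAM.trans h6) (le_top.trans hA) e ha) x hx).symm)).symm)
    obtain ⟨x, hx, x1⟩ := (bot_or_exists_ne_one _).resolve_left h10
    have h11 : A ≤ F M := (CA.Wa.le_c1 hA2 hx.1).trans (hc x hx.2 x1)
    obtain ⟨g, -, hg⟩ := SetLike.exists_of_lt (lt_top_iff_ne_top.2 hM)
    exact hA1 (le_bot_iff.1 ((h8 g hg) ▸ le_inf h11 (cj_of_mem_norm (hA (mem_top g)) ▸ cj_mono g h11)))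
  have hr : CA.Bend.Rk2 (⊤ : Subgroup G) := by
    by_contra hr
    obtain ⟨S, hS⟩ := syl_exists Nat.prime_two (⊤ : Subgroup G)
    obtain ⟨-, -, -, -, -, -, -, -, -, -, h1⟩ := ex S hS
    obtain ⟨t, -, ht⟩ := exists_inv (K := (⊤ : Subgroup G)) fun e => hG e.solv
    have h2 := CA.BendCor.sup_cent hr (sq_of_ord ht)
    rw [h1 (pPrimeCore 2 G) inferInstance (core_p'_top (G := G) Nat.prime_two ▸ (od_core ⊤).solv), bot_sup_eq] at h2
    exact ne_one_of_ord ht (zpowers_eq_bot.1 (h1 _ (normalizer_eq_top_iff.1 (eq_top_iff.2 fun g _ =>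
      mem_norm_of_cent (cent_zpowers t ▸ h2.ge (mem_top g)))) (solv_zp t)))
  obtain ⟨u, -, v, -, u1, v1, uv, uu, vv, e⟩ := id hr
  have f : Four u v := ⟨ord_two uu u1, ord_two vv v1, e, uv⟩
  obtain ⟨S, hS, hV⟩ := syl_superset Nat.prime_two f.pi2 le_top
  obtain ⟨M, N, h1, h2, h3, h4, h5, h6, h7, h8, h9⟩ := ex S hS
  have pN : ∀ p : ℕ, p.Prime → p ∣ ♯N → ∀ P, IsPi {p} P → P ≤ M → P ≤ N := fun p hp hd P h10 h11 => by
    obtain ⟨P', h12, h13⟩ := syl_superset hp h10 h11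
    obtain ⟨x, hx, x1⟩ := (bot_or_exists_ne_one _).resolve_left (h12.pi.meet_cent (h12.pi.of_le inf_le_left)
      (fun y hy => mem_norm_inf (le_normalizer hy) (h4 (h12.le hy))) ((h12.inf_normal h3 (h12.le.trans h4)).ne_bot hp rfl hd))
    exact fun y hy => h6 x hx.1.2 x1 (mem_cent1.2 (mem_cent.1 hx.2 y (h13 hy)))
  have hu := h1 (le_normalizer (hV (left_mem_V4 u v)))
  have hv := h1 (le_normalizer (hV (right_mem_V4 u v)))
  have h10 : 2 ∣ ♯N := by
    by_contra e1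
    have h11 : Od N := od_iff.2 (Nat.not_even_iff_odd.1 fun e2 => e1 e2.two_dvd)
    have h12 : ∀ a, orderOf a = 2 → N ⊓ 𝓒₁(a) ≤ ⊥ := fun a ha x hx => by_contra fun x1 =>
      h11.not_mem ha (h6 x hx.1 x1 (mem_cent1.2 (mem_cent1.1 hx.2).symm))
    exact h5 (le_bot_iff.1 (four_gen h11 f.1 f.2 e uv (h4 hu) (h4 hv) (h12 _ f.1) (h12 _ f.2) (h12 _ f.ac.2)))
  have hSN := pN 2 Nat.prime_two h10 S hS.pi (le_normalizer.trans h1)
  have hH := CA.Bc.se_of h2 hS (ne_bot_of_mem (hV (left_mem_V4 u v)) u1) h1 fun t ht t1 _ => (h6 t (hSN ht) t1).trans h3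
  haveI : FaithfulSMul G (G ⧸ M) := ⟨fun {a b} e1 => by
    have : a⁻¹ * b ∈ (MulAction.toPermHom G (G ⧸ M)).ker := Equiv.ext fun w => by
      show (a⁻¹ * b) • w = w
      rw [mul_smul, ← e1, inv_smul_smul]
    rw [← normalCore_eq_ker, h9 _ (normalCore_normal M) (solv_of_le h8 (normalCore_le M)), mem_bot] at this
    exact inv_mul_eq_one.1 this⟩
  obtain ⟨h11, h12, h13⟩ := CA.BendRed.one_quot hH
  obtain ⟨t, Q, h14, -⟩ := CA.BendCor.setup_at h11 h12 h13 hr ((1 : G) : G ⧸ M)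
  refine (CA.Ca.zas h14 (CA.BendRed.rk_iff.1 hr) fun d hd s hs s1 ss e1 => by_contra fun d1 => ?_).imp And.right And.right
  have h15 := h14.le hs
  have h16 := h14.not_mem
  have h17 := hd.2
  rw [CA.BendCor.stab_one] at h15 h16
  rw [← CA.Bend.cj_stab, CA.BendCor.stab_one] at h17
  obtain ⟨p, hp, h18⟩ := Nat.exists_prime_and_dvd (show ♯(zpowers d) ≠ 1 by simpa using d1)
  obtain ⟨y, hy, rfl⟩ := exists_orderOf_eq hp h18
  have h19 : y ∈ N := zpowers_le.2 (h6 s (pN 2 Nat.prime_two h10 _ (pi2_zp ss) (zpowers_le.2 h15) (mem_zpowers s)) s1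
    (mem_cent1.2 e1)) hy
  have h20 := pN _ hp (orderOf_dvd_natCard _ h19) (cj t⁻¹ (zpowers y))
    (IsPi.cj (isPi_of_card_eq hp (by simp)) _) (le_cj_iff.1 (zpowers_le.2 (zpowers_le.2 h17 hy)))
  exact hp.one_lt.ne' (by rw [mem_bot.1 ((h7 t h16).le ⟨h19, le_cj_iff.2 h20 (mem_zpowers y)⟩), orderOf_one])

/-- Let G be a finite group. Call a subgroup maximal solvable if it is solvable and not properly contained in a solvable subgroup. Suppose F assigns to each maximal solvable subgroup M a normal subgroup F(M) of M such that: every element of M outside F(M) centralizes no non-identity element of F(M); F(M) meets each conjugate g F(M) g⁻¹ with g outside M trivially; and F(M) is nontrivial unless M is abelian. Then G is solvable, or G is isomorphic to SL(2, K) for a finite field K of characteristic 2 with at least 4 elements, or G is isomorphic to a Suzuki group. -/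
theorem result {G : Type*} [Group G] [Finite G] (F : Subgroup G → Subgroup G)
    (h : ∀ M : Subgroup G, (Group.IsSolvable M ∧ ∀ M' : Subgroup G, M < M' → ¬ Group.IsSolvable M') →
      F M ≤ M ∧ M ≤ Subgroup.normalizer (F M : Set G) ∧
      (∀ a ∈ M, a ∉ F M → ∀ x ∈ F M, x * a = a * x → x = 1) ∧
      (∀ g : G, g ∉ M → F M ⊓ (MulAut.conj g • F M) = ⊥) ∧
      (F M ≠ ⊥ ∨ IsMulCommutative M)) :
    Group.IsSolvable G ∨
      (∃ (K : Type) (_ : Field K) (_ : Fintype K), (∃ n : ℕ, 2 ≤ n ∧ Fintype.card K = 2 ^ n) ∧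
        Nonempty (G ≃* Matrix.SpecialLinearGroup (Fin 2) K)) ∨
      Cfsg.Lie.IsoSuzuki G := by
  refine or_iff_not_imp_left.2 fun hG => (aux F h fun e => hG (CA.Wa.solv_top e)).imp_left ?_
  rintro ⟨K, _, _, h1, ⟨f⟩⟩
  exact ⟨K, _, _, h1, ⟨f.trans (CA.Ca.slE (CA.Ca.two_eq h1).1).symm⟩⟩

end Cfsg.Agent.S4235
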