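import Cfsg.Statements.S4237
import Cfsg.Agent.Lib.Grp.H7Kul2

set_option autoImplicit false
open Cfsg

namespace Cfsg.Agent.S4237

/-- Let G be a finite group, p a prime and a a natural number such that p^(a+1) divides the order of G. Then the number of subgroups of G of order p^a is congruent to 1 or to 1 + p modulo p². -/
theorem result {G : Type*} [Group G] [Finite G] (p a : ℕ) (hp : p.Prime) (hdvd : p ^ (a + 1) ∣ Nat.card G) :
    Nat.card {H : Subgroup G // Nat.card H = p ^ a} ≡ 1 [MOD p ^ 2] ∨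
      Nat.card {H : Subgroup G // Nat.card H = p ^ a} ≡ 1 + p [MOD p ^ 2] := by
  have := Fact.mk hp
  by_cases e : p = 2
  · subst e
    have := S3975.result (G := G) 2 a hp ((pow_dvd_pow 2 (Nat.le_succ a)).trans hdvd)
    unfold Nat.ModEq at *
    omega
  obtain ⟨S⟩ : Nonempty (Sylow p G) := inferInstance
  have hc := S.card_eq_multiplicity
  have h1 : a + 1 ≤ (Nat.card G).factorization p :=
    (hp.pow_dvd_iff_le_factorization Nat.card_pos.ne').1 hdvd
  have h2 := CA.H7Kul.sN_syl (a := a) S (hc ▸ pow_dvd_pow p h1)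
  by_cases e1 : IsCyclic (S : Subgroup G)
  · rw [CA.H7Kul.sN_cyc e1 (hc ▸ pow_dvd_pow p (by omega))] at h2
    exact Or.inl h2
  by_cases e2 : a = 0
  · subst e2
    left
    rw [Nat.card_eq_one_iff_unique.2 ⟨⟨fun a b => Subtype.ext
      ((Subgroup.card_eq_one.1 a.2).trans (Subgroup.card_eq_one.1 b.2).symm)⟩, ⟨⟨⊥, by simp⟩⟩⟩]
  exact Or.inr (h2.trans (CA.H7Kul.kul hc e1 (fun h => (e h).elim) (by omega) h1))

end Cfsg.Agent.S4237
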