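import Cfsg.Statements.S4238
import Cfsg.Agent.Lib.Grp.FrobCrit

set_option autoImplicit false
open Cfsg

namespace Cfsg.Agent.S4238

open Subgroup CA.BG CA.OQuo CA.FrobCrit
open scoped commutatorElement

section
variable {X : Type*} [Group X] [Finite X] {V Y T : Subgroup X} {p q : ℕ}

theorem ka (hq : q.Prime) (hqp : q ≠ p) (hV : IsPi {p} V) (hY : ♯Y = q) (hn : Y ≤ 𝓝(V)) (hc : V ⊓ 𝓒(Y) = ⊥)
    (hT : ♯T = q) (hTK : T ≤ Y ⊔ V) : V ⊓ 𝓒(T) = ⊥ := by
  have h1 : Syl q Y (Y ⊔ V) := hall_sup_normal (isPi_of_card_eq hq hY) hn (hV.ne hqp.symm)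
  obtain ⟨g, hg, e⟩ := h1.syl_conj hq (h1.of_card_eq hTK (hT.trans hY.symm))
  have hg' : g ∈ 𝓝(V) := (sup_le hn (le_norm_self V)) hg
  rw [← e, ← cj_cent, ← cj_of_mem_norm hg', ← cj_inf, hc, cj_bot]

theorem kb (hp : p.Prime) (hq : q.Prime) (hqp : q ≠ p) (hV : IsPi {p} V) (hV1 : V ≠ ⊥) (hY : ♯Y = q)
    (hn : Y ≤ 𝓝(V)) (hc : V ⊓ 𝓒(Y) = ⊥) : 𝓞({p}ᶜ, Y ⊔ V) = ⊥ := by
  by_contra h
  have h1 : Hall {p}ᶜ Y (Y ⊔ V) := hall_sup_normal ((isPi_of_card_eq hq hY).ne hqp) hn (by rwa [compl_compl])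
  have h2 := h1.card_dvd (core_pi _ _) (core_le _ (Y ⊔ V))
  rw [hY] at h2
  rcases (Nat.dvd_prime hq).1 h2 with h3 | h3
  · exact h (Subgroup.card_eq_one.1 h3)
  · have h4 := ka hq hqp hV hY hn hc h3 (core_le _ _)
    have h5 : V ≤ 𝓒(𝓞({p}ᶜ, Y ⊔ V)) := cent_of_norm_cop (le_sup_right.trans (le_norm_core _ _))
      ((core_le _ _).trans (sup_le hn (le_norm_self V))) (hV.coprime (core_pi _ _))
    exact hV1 (by rwa [inf_eq_left.2 h5] at h4)

theorem kc (hp : p.Prime) (hq : q.Prime) (hqp : q ≠ p) (hV : IsPi {p} V) (hV1 : V ≠ ⊥) (hY : ♯Y = q)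
    (hn : Y ≤ 𝓝(V)) (hc : V ⊓ 𝓒(Y) = ⊥) (k : ↥(Y ⊔ V)) : orderOf k ≠ Monoid.exponent ↥(Y ⊔ V) := by
  intro h
  obtain ⟨a, ha, ea⟩ := exists_orderOf_eq hp (hV.dvd_card hV1)
  obtain ⟨b, hb, eb⟩ := exists_orderOf_eq (H := Y) hq (hY ▸ dvd_rfl)
  have d1 : p ∣ orderOf (k : X) := by
    rw [Subgroup.orderOf_coe, h, ← ea]
    have := Monoid.order_dvd_exponent (⟨a, mem_sup_right ha⟩ : ↥(Y ⊔ V))
    rwa [← Subgroup.orderOf_coe] at this
  have d2 : q ∣ orderOf (k : X) := by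
    rw [Subgroup.orderOf_coe, h, ← eb]
    have := Monoid.order_dvd_exponent (⟨b, mem_sup_left hb⟩ : ↥(Y ⊔ V))
    rwa [← Subgroup.orderOf_coe] at this
  have h0 := (orderOf_pos (k : X)).ne'
  have o1 := orderOf_pow_orderOf_div h0 d1
  have o2 := orderOf_pow_orderOf_div h0 d2
  have h1 : Hall {p} V (Y ⊔ V) := hall_sup_normal' ((isPi_of_card_eq hq hY).ne hqp) hn hV
  have h2 := h1.mem_of_normal (sup_le hn (le_norm_self V)) (Subgroup.pow_mem _ k.2 (orderOf (k : X) / p))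
    (by rw [o1]; exact (piNat_prime hp).2 rfl)
  have h3 := ka hq hqp hV hY hn hc (T := zpowers ((k : X) ^ (orderOf (k : X) / q)))
    (by rw [Nat.card_zpowers, o2]) (zpowers_le.2 (Subgroup.pow_mem _ k.2 _))
  have h4 : (k : X) ^ (orderOf (k : X) / p) ∈ (⊥ : Subgroup X) := by
    rw [← h3]
    refine ⟨h2, ?_⟩
    rw [cent_zpowers]
    exact mem_cent1.2 (Commute.pow_pow_self _ _ _)
  rw [mem_bot.1 h4, orderOf_one] at o1
  exact hp.ne_one o1.symm

end

/-- Let G be a finite group and p a prime. Then G has a normal p-complement if and only if every section K = H/N of G (N a normal subgroup of a subgroup H) whose largest normal subgroup of order prime to p is trivial contains an element whose order equals the exponent of K. -/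
theorem result {G : Type*} [Group G] [Finite G] (p : ℕ) [Fact p.Prime] :
    Cfsg.HasNormalPComplement p G ↔
      ∀ (H : Subgroup G) (N : Subgroup H) [N.Normal], Cfsg.pPrimeCore p (H ⧸ N) = ⊥ →
        ∃ k : H ⧸ N, orderOf k = Monoid.exponent (H ⧸ N) := by
  have hp : p.Prime := Fact.out
  constructor
  · intro h H N _ hO
    have h1 : HasNormalPComplement p (H ⧸ N) := CA.PRes.hasNPC_quotient (CA.PRes.hasNPC_subgroup h H) N
    have h2 : HasPC p (⊤ : Subgroup (H ⧸ N)) := hasPC_top_iff.2 h1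
    have h3 := h2.idx
    rw [core_p'_eq hp, CA.Core.map_pPrimeCore_top, hO, relIndex_top_right, index_bot] at h3
    have h4 : PiNat {p} (Monoid.exponent (H ⧸ N)) := h3.of_dvd Group.exponent_dvd_nat_card
    obtain ⟨k, hk⟩ := h4.exists_pow hp Monoid.exponent_ne_zero_of_finite
    obtain ⟨g, hg⟩ := hp.exists_orderOf_eq_pow_factorization_exponent (H ⧸ N)
    exact ⟨g, by rw [hg, hk, Nat.Prime.factorization_pow hp, Finsupp.single_eq_same]⟩
  · intro h
    by_contra hn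
    rw [← hasPC_top_iff] at hn
    obtain ⟨P, hP⟩ := syl_exists hp (⊤ : Subgroup G)
    obtain ⟨Q, hQ, q, hq, hqp, y, -, hy, h1, h2, h3⟩ := exists_of_not_hasPC hp hP hn
    have hQp := hP.pi.of_le hQ
    have hA : IsPi {q} (zpowers y) := isPi_zpowers.2 hy
    have hAn : zpowers y ≤ 𝓝(Q) := zpowers_le.2 h1
    set R := ⁅Q, zpowers y⁆ with hR
    have hRQ : R ≤ Q := comm_le_left hAn
    have hRp := hQp.of_le hRQ
    have hRR : ⁅R, zpowers y⁆ = R := coprime_commGid hAn (hQp.coprime_ne hA hqp.symm) (Or.inr (hQp.isSolvable hp))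
    have hR1 : R ≠ ⊥ := fun e => h2 (zpowers_le.1 (cent_symm (comm_eq_bot_iff.1 e)))
    have hAR : zpowers y ≤ 𝓝(R) := le_norm_comm_right _ _
    set Z := zpowers (y ^ q) with hZ
    have hZA : Z ≤ zpowers y := zpowers_le.2 (Subgroup.pow_mem _ (mem_zpowers y) _)
    have hZR : Z ≤ 𝓒(R) := (zpowers_le.2 h3).trans (cent_anti hRQ)
    set N := Phi R ⊔ Z with hN
    have n1 : zpowers y ≤ 𝓝(N) := norm_sup (hAR.trans (norm_Phi R)) (norm_of_comm (comm_of_cyclic (cyc_zpowers y)) hZA)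
    have n2 : R ≤ 𝓝(N) := norm_sup (le_norm_Phi R) (norm_of_cent (cent_symm hZR))
    have n3 : zpowers y ⊔ R ≤ 𝓝(N) := sup_le n1 n2
    have hRN : R ⊓ N = Phi R := by
      rw [hN, inf_comm, sup_comm, sup_inf_of_le_right (norm_of_cent (hZR.trans (cent_anti (Phi_le R)))) (Phi_le R),
        ((hA.of_le hZA).ne hqp).inf_eq_bot' hRp, bot_sup_eq]
    have v1 : R /ᵍ N ≠ ⊥ := by
      rw [Ne, quo_eq_bot_iff n2, ← inf_eq_left, hRN]; exact (Phi_lt hR1).ne
    have v2 : IsPi {p} (R /ᵍ N) := hRp.mim _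
    have v3 : IsMulCommutative (R /ᵍ N) := (isMulCommutative_quo_iff n2).2 ((der_le_Phi hp hRp).trans le_sup_left)
    have v4 : ⁅R /ᵍ N, zpowers y /ᵍ N⁆ = R /ᵍ N := by rw [← quo_comm n2 n1, hRR]
    have v5 : zpowers y /ᵍ N ≤ 𝓝(R /ᵍ N) := norm_quo _ hAR
    have v6 := coprime_abel_cent_eq_bot v5 (v2.coprime_ne (hA.mim _) hqp.symm) v3 v4
    have v7 : ♯(zpowers y /ᵍ N) = q := by
      have hy' : y ∈ 𝓝(N) := zpowers_le.1 n1
      rw [mim_zpowers _ hy', Nat.card_zpowers]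
      haveI := Fact.mk hq
      refine orderOf_eq_prime ?_ ?_
      · rw [← mel_pow _ hy', qel_eq_one_iff (Subgroup.pow_mem _ hy' _)]
        exact mem_sup_right (mem_zpowers _)
      · intro e
        rw [mim_zpowers _ hy', e, zpowers_one_eq_bot, commutator_bot_right] at v4
        exact v1 v4.symm
    haveI : (N.subgroupOf (zpowers y ⊔ R)).Normal := (normal_subgroupOf_iff_le_normalizer
      (sup_le ((Phi_le R).trans le_sup_right) (hZA.trans le_sup_left))).2 n3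
    have e := (quotientEquivQuo n3).trans (MulEquiv.subgroupCongr (quo_sup n1 n2))
    obtain ⟨k, hk⟩ := h (zpowers y ⊔ R) (N.subgroupOf (zpowers y ⊔ R)) (by
      refine CA.Core.pPrimeCore_eq_bot_of_equiv e.symm ?_
      have := kb hp hq hqp v2 v1 v7 v5 v6
      rwa [core_p'_eq hp, map_eq_bot_iff_of_injective _ (subtype_injective _)] at this)
    refine kc hp hq hqp v2 v1 v7 v5 v6 (e k) ?_
    rw [MulEquiv.orderOf_eq, hk, Monoid.exponent_eq_of_mulEquiv e]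

end Cfsg.Agent.S4238
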