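import Cfsg.Statements.S4240
import Cfsg.Agent.Lib.Grp.L0Inv2

set_option autoImplicit false
open Cfsg

namespace Cfsg.Agent.S4240

/-- Let a finite group A act by automorphisms on a finite group G of order coprime to that of A. Suppose every maximal A-invariant proper subgroup of G is nilpotent while G is not. Then G is solvable, the order of G has the form p^a·q^b for two distinct primes p and q, and G has a normal A-invariant Sylow subgroup for some prime dividing its order. -/
theorem result {A G : Type*} [Group A] [Group G] [Finite A] [Finite G] [MulDistribMulAction A G]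
    (hcop : (Nat.card A).Coprime (Nat.card G))
    (hmax : ∀ H : Subgroup G, H ≠ ⊤ → (∀ a : A, ∀ x ∈ H, a • x ∈ H) →
      (∀ K : Subgroup G, H < K → (∀ a : A, ∀ x ∈ K, a • x ∈ K) → K = ⊤) → Group.IsNilpotent H)
    (hG : ¬ Group.IsNilpotent G) :
    Group.IsSolvable G ∧
      (∃ p q a b : ℕ, p.Prime ∧ q.Prime ∧ p ≠ q ∧ Nat.card G = p ^ a * q ^ b) ∧
      ∃ (p : ℕ) (P : Sylow p G), p.Prime ∧ p ∣ Nat.card G ∧ (P : Subgroup G).Normal ∧ (∀ a : A, ∀ x ∈ (P : Subgroup G), a • x ∈ (P : Subgroup G)) := by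
  have h : ∀ H : Subgroup G, H ≠ ⊤ → CA.L0Inv.Inv A H → Group.IsNilpotent H := by
    intro H h1 h2
    obtain ⟨K, hK, hm⟩ := (Set.toFinite {K : Subgroup G | K ≠ ⊤ ∧ CA.L0Inv.Inv A K}).exists_le_maximal
      (a := H) ⟨h1, h2⟩
    have := hmax K hm.1.1 hm.1.2 fun L h3 h4 => by
      by_contra h5; exact h3.not_ge (hm.2 ⟨h5, h4⟩ h3.le)
    exact CA.H1Nil.nilp_of_le hK
  have hs := CA.L0Inv.solv_aux2 _ (A := A) rfl hcop h
  refine ⟨hs, ?_⟩
  have hnt : Nontrivial G := by
    by_contra h1; rw [not_nontrivial_iff_subsingleton] at h1; exact hG inferInstance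
  have hcomm : commutator G ≠ ⊤ := (Group.IsSolvable.commutator_lt_top_of_nontrivial G).ne
  obtain ⟨q, hq, hqd⟩ := Nat.exists_prime_and_dvd (fun h1 => hcomm (Subgroup.index_eq_one.1 h1))
  have : Fact q.Prime := ⟨hq⟩
  obtain ⟨Q, hQ⟩ := CA.CoprimeAct.exists_sylow hcop (Or.inr hs) q
  have hN : Cfsg.pResidual q G ≠ ⊤ := fun h1 => Q.not_dvd_index
    (hqd.trans (Subgroup.index_dvd_of_le ((CA.PRes.pResidual_eq_top_iff_le_commutator Q).1 h1)))
  have hNn := h _ hN (CA.L0Inv.inv_of_characteristic _)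
  have cop : ∀ (p : ℕ) [Fact p.Prime] (P : Sylow p G), p ≠ q → (Nat.card P).Coprime q := by
    intro p hp P hpq
    obtain ⟨k, hk⟩ := P.isPGroup'.exists_card_eq
    rw [hk]; exact Nat.Coprime.pow_left _ ((Nat.coprime_primes hp.out hq).2 hpq)
  have nor : ∀ (p : ℕ) [Fact p.Prime] (P : Sylow p G), p ≠ q → (P : Subgroup G).Normal := by
    intro p hp P hpq
    have h1 := CA.PRes.le_pResidual_of_coprime (cop p P hpq)
    exact CA.H1Nil.normal_of_hall_of_normal h1
      (P.card_coprime_index.coprime_dvd_right (Subgroup.relIndex_dvd_index_of_le h1))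
  have inv : ∀ (p : ℕ) [Fact p.Prime] (P : Sylow p G), p ≠ q → CA.L0Inv.Inv A (P : Subgroup G) := by
    intro p hp P hpq
    have := P.characteristic_of_normal (nor p P hpq)
    exact CA.L0Inv.inv_of_characteristic _
  have ex : ∃ (p : ℕ) (_ : Fact p.Prime) (P : Sylow p G), p ≠ q ∧ (P : Subgroup G) ⊔ Q = ⊤ := by
    by_contra h1
    refine hG ((Group.isNilpotent_of_finite_tfae.out 0 3 rfl rfl).2 ?_)
    intro p hp P
    by_cases hpq : p = q
    swap
    · exact nor p P hpq
    subst hpq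
    have hQn : (Q : Subgroup G).Normal := by
      rw [← Subgroup.normalizer_eq_top_iff, ← Subgroup.index_eq_one]
      by_contra h2
      obtain ⟨r, hr, hrd⟩ := Nat.exists_prime_and_dvd h2
      have : Fact r.Prime := ⟨hr⟩
      by_cases hrp : r = p
      · subst hrp
        exact Q.not_dvd_index (hrd.trans (Subgroup.index_dvd_of_le Subgroup.le_normalizer))
      obtain ⟨R⟩ : Nonempty (Sylow r G) := inferInstance
      have := h _ (fun h3 => h1 ⟨r, this, R, hrp, h3⟩) ((inv r R hrp).sup hQ)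
      refine R.not_dvd_index (hrd.trans (Subgroup.index_dvd_of_le (le_trans (fun x hx => ?_)
        (Subgroup.centralizer_le_normalizer _))))
      refine Subgroup.mem_centralizer_iff.2 fun y hy => (CA.H1Nil.commute_of_nilp
        (L := (R : Subgroup G) ⊔ Q) le_sup_left le_sup_right ?_ hx hy).symm
      obtain ⟨k, hk⟩ := Q.isPGroup'.exists_card_eq
      rw [hk]; exact Nat.Coprime.pow_right _ (cop r R hrp)
    have := Sylow.unique_of_normal Q hQn
    rwa [Subsingleton.elim P Q]
  obtain ⟨p, hp, P, hpq, hsup⟩ := ex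
  have := nor p P hpq
  obtain ⟨a, ha⟩ := P.isPGroup'.exists_card_eq
  obtain ⟨k, hk⟩ := Q.isPGroup'.exists_card_eq
  have h1 : (P : Subgroup G).index ∣ q ^ k := by
    rw [← Subgroup.relIndex_top_right, ← hsup, Subgroup.relIndex_sup_left, ← hk]
    exact Subgroup.relIndex_dvd_card _ _
  obtain ⟨b, -, hb⟩ := (Nat.dvd_prime_pow hq).1 h1
  refine ⟨⟨p, q, a, b, hp.out, hq, hpq, by rw [← ha, ← hb, Subgroup.card_mul_index]⟩, p, P, hp.out,
    ?_, this, inv p P hpq⟩
  by_contra h2
  have h3 : (P : Subgroup G) = ⊥ := by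
    by_contra h3
    exact h2 ((CA.H6J.dvd_card_of_ne_bot P.isPGroup' h3).trans (Subgroup.card_subgroup_dvd_card _))
  rw [h3, bot_sup_eq] at hsup
  exact hG ((hsup ▸ Q.isPGroup').of_equiv Subgroup.topEquiv).isNilpotent

end Cfsg.Agent.S4240
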