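import Cfsg.Statements.S4242
import Cfsg.Agent.Lib.Grp.NPC2
import Cfsg.Agent.Lib.Grp.Coprime2
import Cfsg.Agent.Lib.Grp.Core

set_option autoImplicit false
open Cfsg

namespace Cfsg.Agent.S4242

open Subgroup CA.Rad

variable {G : Type*} [Group G] [Finite G]

theorem one_of {p : ℕ} [Fact p.Prime] {Q M : Subgroup G} (hQ : IsPGroup p Q)
    (hM : ¬ p ∣ Nat.card M) {x : G} (h1 : x ∈ Q) (h2 : x ∈ M) : x = 1 :=
  CA.PRes.eq_one_of_coprime_of_mem hQ h1
    ((CA.PRes.coprime_iff_not_dvd.2 hM).coprime_dvd_left (M.orderOf_dvd_natCard h2))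

theorem cop {p : ℕ} [Fact p.Prime] {Q M : Subgroup G} (hQ : IsPGroup p Q)
    (hM : ¬ p ∣ Nat.card M) {x y : G} (h1 : x ∈ Q) (h2 : y ∈ M) :
    (orderOf x).Coprime (orderOf y) := by
  obtain ⟨k, hk⟩ := hQ.exists_card_eq
  refine Nat.Coprime.coprime_dvd_left (Q.orderOf_dvd_natCard h1) ?_
  refine Nat.Coprime.coprime_dvd_right (M.orderOf_dvd_natCard h2) ?_
  rw [hk]
  exact Nat.Coprime.pow_left k (CA.PRes.coprime_iff_not_dvd.2 hM).symm

theorem comm_of {p : ℕ} [Fact p.Prime]
    (h : ∀ H : Subgroup G, H ≠ ⊤ → p ∣ Nat.card H → Group.IsNilpotent H) {Q Y M : Subgroup G}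
    (hQ : IsPGroup p Q) (hQ1 : Q ≠ ⊥) (hM : ¬ p ∣ Nat.card M) (hY : Y ≤ M) (hne : ¬ M ≤ Y)
    (hn : Q ≤ normalizer (Y : Set G) ∨ Y ≤ normalizer (Q : Set G)) :
    Group.IsNilpotent (Q ⊔ Y : Subgroup G) := by
  refine h _ (fun ht => hne fun m hm => ?_) ?_
  · have : ∃ a ∈ Q, ∃ b ∈ Y, a * b = m := by
      have hm' : m ∈ Q ⊔ Y := by rw [ht]; trivial
      rcases hn with hn | hn
      · exact (mem_sup_iff_of_le_normalizer hn).1 hm'
      · exact (mem_sup_iff_of_le_normalizer' hn).1 hm'
    obtain ⟨a, ha, b, hb, rfl⟩ := this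
    have : a = 1 := one_of hQ hM ha (by simpa using M.mul_mem hm (M.inv_mem (hY hb)))
    simpa [this] using hb
  · refine dvd_trans ?_ (card_dvd_of_le (le_sup_left : Q ≤ Q ⊔ Y))
    obtain ⟨k, hk⟩ := hQ.exists_card_eq
    rw [hk]
    refine dvd_pow_self p fun h0 => hQ1 ?_
    rw [h0, pow_zero] at hk
    exact card_eq_one.1 hk

theorem zp {p : ℕ} [Fact p.Prime] {z : G} (hz : orderOf z = p) : IsPGroup p (zpowers z) :=
  IsPGroup.of_card (n := 1) (by rw [Nat.card_zpowers, hz, pow_one])

theorem exists_z {p : ℕ} [hp : Fact p.Prime] (hpG : p ∣ Nat.card G)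
    (h : ∀ H : Subgroup G, H ≠ ⊤ → p ∣ Nat.card H → Group.IsNilpotent H) {M : Subgroup G}
    (hc : IsCoatom M) (hM : ¬ p ∣ Nat.card M) (hn : ¬ Group.IsNilpotent M) :
    ∃ z : G, orderOf z = p ∧ ∀ m ∈ M, z * m = m * z := by
  by_cases hQ : ∃ Q : Subgroup G, IsPGroup p Q ∧ Q ≠ ⊥ ∧ normalizer (Q : Set G) = ⊤
  · obtain ⟨Q, hQ, hQ1, hN⟩ := hQ
    obtain ⟨k, hk⟩ := hQ.exists_card_eq
    have hd : p ∣ Nat.card Q := by
      rw [hk]
      refine dvd_pow_self p fun h0 => hQ1 ?_
      rw [h0, pow_zero] at hk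
      exact card_eq_one.1 hk
    obtain ⟨z, hz⟩ := exists_prime_orderOf_dvd_card' p hd
    refine ⟨z, by simpa using hz, fun m hm => ?_⟩
    have := comm_of h hQ hQ1 hM (zpowers_le.2 hm) (fun hle => hn (CA.Core.isNilpotent_of_le hle
      (CA.Core.isNilpotent_of_isMulCommutative inferInstance))) (Or.inr (by rw [hN]; exact le_top))
    exact CA.NPC2.commute_of_coprime_of_isNilpotent this (mem_sup_left z.2)
      (mem_sup_right (mem_zpowers m)) (cop hQ hM z.2 hm)
  · push Not at hQ
    obtain ⟨P⟩ : Nonempty (Sylow p G) := inferInstance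
    have hN : HasNormalPComplement p G := CA.Hyperfocal.hasNPC_of_local P fun Q hQP hQ1 => by
      have hQp : IsPGroup p Q := P.isPGroup'.to_le hQP
      refine CA.NPC2.hasNPC_of_isNilpotent (h _ (hQ Q hQp hQ1) ?_)
      refine dvd_trans ?_ (card_dvd_of_le (le_normalizer : Q ≤ _))
      obtain ⟨k, hk⟩ := hQp.exists_card_eq
      rw [hk]
      refine dvd_pow_self p fun h0 => hQ1 ?_
      rw [h0, pow_zero] at hk
      exact card_eq_one.1 hk
    have h1 := CA.PRes.hasNPC_iff_not_dvd.1 hN
    have h2 : M ≤ pResidual p G :=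
      CA.PRes.le_pResidual_of_coprime (CA.PRes.coprime_iff_not_dvd.2 hM)
    have h3 : pResidual p G = M := (hc.le_iff.1 h2).resolve_left fun ht => h1 (by
      rw [ht, card_top]; exact hpG)
    haveI : M.Normal := h3 ▸ inferInstance
    obtain ⟨z, hz⟩ := exists_prime_orderOf_dvd_card' p hpG
    refine ⟨z, hz, ?_⟩
    have hz1 : zpowers z ≠ ⊥ := fun h0 => by
      rw [zpowers_eq_bot] at h0
      rw [h0, orderOf_one] at hz
      exact hp.out.one_lt.ne hz
    have : M ≤ centralizer {z} := by
      refine CA.Coprime2.le_of_forall_invariant_sylow (A := zpowers z) le_normalizer_of_normal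
        ?_ (Or.inl (CA.Core.isSolvable_of_isMulCommutative inferInstance)) ?_
      · rw [Nat.card_zpowers, hz]
        exact (CA.PRes.coprime_iff_not_dvd.2 hM).symm
      · intro q _ T _ hT hzT t ht
        have := comm_of h (zp hz) hz1 hM hT.le (fun hle => hn (CA.Core.isNilpotent_of_le hle
          hT.isPGroup.isNilpotent)) (Or.inl hzT)
        rw [mem_centralizer_singleton_iff]
        exact (CA.NPC2.commute_of_coprime_of_isNilpotent this (mem_sup_left (mem_zpowers z))
          (mem_sup_right ht) (cop (zp hz) hM (mem_zpowers z) (hT.le ht))).symm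
    intro m hm
    exact (mem_centralizer_singleton_iff.1 (this hm)).symm

/-- Let G be a finite group and p a prime dividing its order. Every maximal subgroup of G of order divisible by p is nilpotent if and only if G is nilpotent, or G is a minimal non-nilpotent group, or G is the internal direct product of a normal subgroup of order p and a normal minimal non-nilpotent subgroup of order prime to p. -/
theorem result {G : Type*} [Group G] [Finite G] (p : ℕ) (hp : p.Prime) (hpG : p ∣ Nat.card G) :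
    (∀ M : Subgroup G, IsCoatom M → p ∣ Nat.card M → Group.IsNilpotent M) ↔
      (Group.IsNilpotent G ∨ Cfsg.IsMinimalNonNilpotent G ∨
        ∃ Z K : Subgroup G, Z.Normal ∧ K.Normal ∧ Z ⊓ K = ⊥ ∧ Z ⊔ K = ⊤ ∧ Nat.card Z = p ∧
          Cfsg.IsMinimalNonNilpotent K ∧ ¬ p ∣ Nat.card K) := by
  haveI := Fact.mk hp
  constructor
  · intro h0
    have h : ∀ H : Subgroup G, H ≠ ⊤ → p ∣ Nat.card H → Group.IsNilpotent H := fun H hH hd => by
      obtain ⟨M, hM, hle⟩ := (eq_top_or_exists_le_coatom H).resolve_left hH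
      exact CA.Core.isNilpotent_of_le hle (h0 M hM (hd.trans (card_dvd_of_le hle)))
    by_cases h1 : Group.IsNilpotent G
    · exact Or.inl h1
    by_cases h2 : ∀ H : Subgroup G, H ≠ ⊤ → Group.IsNilpotent H
    · exact Or.inr (Or.inl ⟨h1, h2⟩)
    right; right
    push Not at h2
    obtain ⟨H, hH, hHn⟩ := h2
    obtain ⟨M, hc, hle⟩ := (eq_top_or_exists_le_coatom H).resolve_left hH
    have hn : ¬ Group.IsNilpotent M := fun h => hHn (CA.Core.isNilpotent_of_le hle h)
    have hM : ¬ p ∣ Nat.card M := fun hd => hn (h0 M hc hd)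
    obtain ⟨z, hz, hzM⟩ := exists_z hpG h hc hM hn
    have hz1 : z ≠ 1 := fun h0 => by
      rw [h0, orderOf_one] at hz
      exact hp.one_lt.ne hz
    have hsup : zpowers z ⊔ M = ⊤ := hc.2 _ (lt_of_le_of_ne le_sup_right fun he =>
      hz1 (one_of (zp hz) hM (mem_zpowers z) (he ▸ mem_sup_left (mem_zpowers z))))
    have hC : zpowers z ≤ centralizer (M : Set G) :=
      zpowers_le.2 (mem_centralizer_iff.2 fun m hm => (hzM m hm).symm)
    refine ⟨zpowers z, M, ?_, ?_, ?_, hsup, by rw [Nat.card_zpowers, hz], ⟨hn, fun K hK => ?_⟩, hM⟩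
    · rw [← normalizer_eq_top_iff, eq_top_iff, ← hsup]
      exact sup_le le_normalizer ((le_centralizer_iff.1 hC).trans (centralizer_le_normalizer _))
    · rw [← normalizer_eq_top_iff, eq_top_iff, ← hsup]
      exact sup_le (hC.trans (centralizer_le_normalizer _)) le_normalizer
    · rw [eq_bot_iff]
      exact fun x hx => one_of (zp hz) hM hx.1 hx.2
    · have := comm_of h (zp hz) (by simpa using hz1) hM (map_subtype_le K) (fun hl => hK (by
        rw [eq_top_iff]
        intro x _
        obtain ⟨y, hy, e⟩ := hl x.2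
        exact (Subtype.ext e : y = x) ▸ hy)) (Or.inl (hC.trans
          ((centralizer_le (map_subtype_le K)).trans (centralizer_le_normalizer _))))
      exact CA.Core.isNilpotent_of_injective
        (K.equivMapOfInjective M.subtype M.subtype_injective).toMonoidHom (MulEquiv.injective _)
        (CA.Core.isNilpotent_of_le le_sup_right this)
  · rintro (h | h | ⟨Z, K, hZ, hK, hi, hs, hc, hm, hpK⟩) M hM hd
    · infer_instance
    · exact h.2 M hM.1
    · have hZp : IsPGroup p Z := IsPGroup.of_card (n := 1) (by rw [hc, pow_one])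
      have hcomm : ∀ a ∈ Z, ∀ b ∈ K, a * b = b * a := fun a ha b hb =>
        (commute_of_normal_of_disjoint Z K hZ hK (disjoint_iff.2 hi) a b ha hb).eq
      obtain ⟨⟨x, hxM⟩, hx⟩ := exists_prime_orderOf_dvd_card' p hd
      replace hx : orderOf x = p := by simpa using hx
      have hxZ : x ∈ Z := by
        obtain ⟨a, ha, b, hb, rfl⟩ := (mem_sup_iff_of_le_normalizer
          (le_normalizer_of_normal : Z ≤ normalizer (K : Set G))).1 (hs ▸ mem_top x)
        have h1 : (a * b) ^ p = 1 := hx ▸ pow_orderOf_eq_one _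
        have h2 : a ^ p = 1 := by
          have := pow_card_eq_one' (x := (⟨a, ha⟩ : Z))
          rw [hc] at this
          exact congrArg Subtype.val this
        rw [Commute.mul_pow (hcomm a ha b hb), h2, one_mul] at h1
        have h3 : b = 1 := by
          by_contra h4
          exact hpK ((orderOf_eq_prime h1 h4) ▸ K.orderOf_dvd_natCard hb)
        simpa [h3] using ha
      have hZM : Z ≤ M := by
        have : zpowers x = Z := eq_of_le_of_card_ge (zpowers_le.2 hxZ) (by rw [Nat.card_zpowers, hx, hc])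
        exact this ▸ zpowers_le.2 hxM
      have hMe : M ≤ Z ⊔ (M ⊓ K) := fun m hm => by
        obtain ⟨a, ha, b, hb, rfl⟩ := (mem_sup_iff_of_le_normalizer
          (le_normalizer_of_normal : Z ≤ normalizer (K : Set G))).1 (hs ▸ mem_top m)
        exact mul_mem (mem_sup_left ha)
          (mem_sup_right ⟨by simpa using M.mul_mem (M.inv_mem (hZM ha)) hm, hb⟩)
      have hC : Z ≤ centralizer ((M ⊓ K : Subgroup G) : Set G) := fun a ha =>
        mem_centralizer_iff.2 fun b hb => (hcomm a ha b hb.2).symm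
      refine CA.Core.isNilpotent_of_le hMe (CA.Core.isNilpotent_sup (hC.trans
        (centralizer_le_normalizer _)) le_normalizer_of_normal hZp.isNilpotent ?_)
      have h5 := hm.2 (M.subgroupOf K) (fun ht => hM.1 (by
        rw [eq_top_iff, ← hs]
        exact sup_le hZM (subgroupOf_eq_top.1 ht)))
      rw [← inf_subgroupOf_right] at h5
      exact CA.Core.isNilpotent_of_injective
        (subgroupOfEquivOfLe (inf_le_right : M ⊓ K ≤ K)).symm.toMonoidHom (MulEquiv.injective _) h5

end Cfsg.Agent.S4242
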