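import Cfsg.Statements.S4244
import Cfsg.Agent.Lib.Grp.H1Basic
import Cfsg.Agent.Lib.Grp.Subn

set_option autoImplicit false
open Cfsg

namespace Cfsg.Agent.S4244

open Subgroup

/-- Let H be a subnormal subgroup of a finite group G. Then for every subgroup K of G the index of H ∩ K in H divides the index of K in G. -/
theorem result {G : Type*} [Group G] [Finite G] (H : Subgroup G) (hH : H.IsSubnormal) (K : Subgroup G) :
    (H ⊓ K).relIndex H ∣ K.index := by
  have h := (CA.Subn.SN.top_iff.2 hH).induction (P := fun A => K.relIndex A ∣ K.index)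
    (by rw [relIndex_top_right]) (by
      intro A B hAB hn _ hB
      refine dvd_trans ?_ hB
      have : (A.subgroupOf B).Normal := (normal_subgroupOf_iff_le_normalizer hAB).2 hn
      have h1 := CA.H1Basic.relIndex_normal_dvd_index (K.subgroupOf B) (A.subgroupOf B)
      rwa [relIndex_subgroupOf hAB] at h1)
  rwa [inf_relIndex_left]

end Cfsg.Agent.S4244
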