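import Cfsg.Statements.S4245
import Cfsg.Agent.Lib.GW.GW15
import Cfsg.Agent.Lib.Char.CharBurn

set_option autoImplicit false
open Cfsg

namespace Cfsg.Agent.S4245

open Subgroup CA.BG CA.GW

universe u

/-- Cyclic by cyclic 2-group. -/
def Q (A : Type u) [Group A] : Prop :=
  ∃ B : Subgroup A, ∃ _ : B.Normal, IsCyclic B ∧ IsCyclic (A ⧸ B) ∧ IsPGroup 2 (A ⧸ B)

theorem Q.inj {A A' : Type u} [Group A] [Group A'] (f : A' →* A) (hf : Function.Injective f)
    (h : Q A) : Q A' := by
  obtain ⟨B, hn, h1, h2, h3⟩ := h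
  have hi : Function.Injective (QuotientGroup.map (B.comap f) B f le_rfl) := by
    rw [← MonoidHom.ker_eq_bot_iff, QuotientGroup.ker_map, Subgroup.map_eq_bot_iff, QuotientGroup.ker_mk']
  refine ⟨B.comap f, inferInstance, ?_, isCyclic_of_injective _ hi, h3.of_injective _ hi⟩
  exact isCyclic_of_injective ((f.comp (B.comap f).subtype).codRestrict B fun x => x.2)
    fun x y e => Subtype.ext (hf (congrArg Subtype.val e))

theorem Q.surj {A A' : Type u} [Group A] [Group A'] (f : A →* A') (hf : Function.Surjective f)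
    (h : Q A) : Q A' := by
  obtain ⟨B, hn, h1, h2, h3⟩ := h
  haveI := hn.map f hf
  have hs : Function.Surjective (QuotientGroup.map B (B.map f) f (le_comap_map f B)) := by
    intro y
    obtain ⟨y, rfl⟩ := QuotientGroup.mk_surjective y
    obtain ⟨x, rfl⟩ := hf y
    exact ⟨x, rfl⟩
  exact ⟨B.map f, inferInstance, isCyclic_of_surjective _ (f.subgroupMap_surjective B),
    isCyclic_of_surjective _ hs, h3.of_surjective _ hs⟩

/-- The inductive property. -/
def P (p : ℕ) (X : Type u) [Group X] : Prop :=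
  ∃ A : Subgroup X, (∃ s, A.index ∣ p ^ s) ∧ Q A

theorem P.sub {p : ℕ} (X : Type u) [Group X] [Finite X] (N : Subgroup X) [N.Normal]
    (h : P p X) : P p N := by
  obtain ⟨A, ⟨s, hs⟩, hQ⟩ := h
  refine ⟨A.subgroupOf N, ⟨s, Dvd.dvd.trans ?_ hs⟩, hQ.inj
    ((N.subtype.comp (A.subgroupOf N).subtype).codRestrict A fun x => x.2)
    fun x y e => Subtype.ext (Subtype.ext (congrArg (fun t : A => (t : X)) e))⟩
  have h1 : A.relIndex N = A.relIndex (A ⊔ N) := by
    have a := relIndex_mul_relIndex (A ⊓ N) N (A ⊔ N) inf_le_right le_sup_right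
    have b := relIndex_mul_relIndex (A ⊓ N) A (A ⊔ N) inf_le_left le_sup_left
    rw [inf_relIndex_right, relIndex_sup_right] at a
    rw [inf_comm A N, inf_relIndex_right] at b
    have c : N.relIndex A ≠ 0 := index_ne_zero_of_finite
    rw [inf_comm A N, ← b, mul_comm] at a
    exact Nat.eq_of_mul_eq_mul_left (Nat.pos_of_ne_zero c) a
  change A.relIndex N ∣ _
  rw [h1]
  exact relIndex_dvd_index_of_le le_sup_left

theorem P.quo {p : ℕ} (X : Type u) [Group X] [Finite X] (N : Subgroup X) [N.Normal]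
    (h : P p X) : P p (X ⧸ N) := by
  obtain ⟨A, ⟨s, hs⟩, hQ⟩ := h
  exact ⟨A.map (QuotientGroup.mk' N), ⟨s, (index_map_dvd A (QuotientGroup.mk'_surjective N)).trans hs⟩,
    hQ.surj _ ((QuotientGroup.mk' N).subgroupMap_surjective A)⟩

theorem solv_of_cent {X : Type u} [Group X] [Finite X] [IsSimpleGroup X] {p s : ℕ} (hp : p.Prime)
    {H : Subgroup X} (hH : H.index ∣ p ^ s) {g : X} (hg : g ≠ 1)
    (h : H ≤ centralizer ({g} : Set X)) : Group.IsSolvable X := by
  obtain ⟨k, -, hk⟩ := (Nat.dvd_prime_pow hp).1 ((index_dvd_of_le h).trans hH)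
  exact Group.isSolvable_of_comm (CChar.CharBurn.comm_of_simple_of_class hp hg hk)

theorem P.simple {p : ℕ} (hp : p.Prime) (X : Type u) [Group X] [Finite X] [IsSimpleGroup X]
    (h : P p X) : Group.IsSolvable X := by
  obtain ⟨A, ⟨s, hs⟩, B, hn, h1, h2, h3⟩ := h
  haveI := Fact.mk Nat.prime_two
  by_cases he : 2 ∣ Nat.card B
  · obtain ⟨z, hz⟩ := exists_prime_orderOf_dvd_card' 2 he
    have hz1 : ((z : A) : X) ≠ 1 := fun e => by
      have : z = 1 := Subtype.ext (Subtype.ext e)
      rw [this, orderOf_one] at hz; omega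
    refine solv_of_cent hp hs hz1 fun a ha => mem_centralizer_singleton_iff.2 ?_
    let w : B := ⟨⟨a, ha⟩ * z * (⟨a, ha⟩ : A)⁻¹, hn.conj_mem _ z.2 _⟩
    have hw : orderOf w = 2 := by
      rw [← hz, ← orderOf_coe w, ← orderOf_coe z]
      exact ((MulAut.conj (⟨a, ha⟩ : A)).orderOf_eq _)
    classical
    haveI := Fintype.ofFinite B
    have hc := IsCyclic.card_orderOf_eq_totient (α := B) (d := 2) (by rwa [← Nat.card_eq_fintype_card])
    rw [Nat.totient_two, Finset.card_eq_one] at hc
    obtain ⟨t, ht⟩ := hc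
    have e1 : w ∈ ({t} : Finset B) := ht ▸ Finset.mem_filter.2 ⟨Finset.mem_univ _, hw⟩
    have e2 : z ∈ ({t} : Finset B) := ht ▸ Finset.mem_filter.2 ⟨Finset.mem_univ _, hz⟩
    have e3 : w = z := (Finset.mem_singleton.1 e1).trans (Finset.mem_singleton.1 e2).symm
    have e4 : a * ((z : A) : X) * a⁻¹ = ((z : A) : X) := congrArg (fun t : B => ((t : A) : X)) e3
    exact mul_inv_eq_iff_eq_mul.1 e4
  obtain ⟨r, hr⟩ := h3.exists_card_eq
  by_cases h2p : p = 2
  · subst h2p
    have hi : (B.map A.subtype).index ∣ 2 ^ (r + s) := by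
      rw [← relIndex_mul_index (map_subtype_le B), pow_add]
      refine Nat.mul_dvd_mul (dvd_of_eq ?_) hs
      rw [relIndex, ← hr, subgroupOf, comap_map_eq_self_of_injective A.subtype_injective]
      rfl
    by_cases hb : B.map A.subtype = ⊥
    · rw [hb, index_bot] at hi
      obtain ⟨k, -, hk⟩ := (Nat.dvd_prime_pow hp).1 hi
      haveI := (IsPGroup.of_card hk).isNilpotent
      infer_instance
    · obtain ⟨⟨_, y, hy, rfl⟩, hy1⟩ := (ne_bot_iff_exists_ne_one).1 hb
      refine solv_of_cent hp hi (g := y) (fun e => hy1 (Subtype.ext e)) ?_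
      rintro _ ⟨x, hx, rfl⟩
      rw [mem_centralizer_singleton_iff]
      have := h1.commutative.is_comm.comm (⟨x, hx⟩ : B) ⟨y, hy⟩
      exact congrArg (fun t : B => ((t : A) : X)) this
  · obtain ⟨S⟩ : Nonempty (Sylow 2 A) := inferInstance
    have hS : IsCyclic S := by
      refine isCyclic_of_injective ((QuotientGroup.mk' B).comp (S : Subgroup A).subtype) ?_
      rw [← MonoidHom.ker_eq_bot_iff, eq_bot_iff]
      intro x hx
      have hxB : (x : A) ∈ B := (QuotientGroup.eq_one_iff _).1 hx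
      obtain ⟨k, hk⟩ := IsPGroup.iff_orderOf.1 S.isPGroup' x
      have hd : orderOf x ∣ Nat.card B := by
        rw [← orderOf_coe x]; exact orderOf_dvd_natCard B hxB
      rw [hk] at hd
      rcases k with _ | k
      · exact orderOf_eq_one_iff.1 (by simpa using hk)
      · exact absurd ((dvd_pow_self 2 k.succ_ne_zero).trans hd) he
    have hT := syl_map Nat.prime_two S
    have hT' : Syl 2 ((S : Subgroup A).map A.subtype) ⊤ := by
      refine Syl.mk'' Nat.prime_two le_top hT.pi ?_
      rw [relIndex_top_right, ← relIndex_mul_index hT.le, Nat.prime_two.dvd_mul]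
      rintro (e | e)
      · exact hT.not_dvd Nat.prime_two e
      · exact h2p ((Nat.prime_dvd_prime_iff_eq Nat.prime_two hp).1
          (Nat.prime_two.dvd_of_dvd_pow (e.trans hs))).symm
    have hc : IsCyclic ((S : Subgroup A).map A.subtype) :=
      isCyclic_of_surjective _ (A.subtype.subgroupMap_surjective (S : Subgroup A))
    haveI := HasPC.solv2 (hasPC_of_cyc hT' hc)
    exact Group.isSolvable_of_surjective (f := (⊤ : Subgroup X).subtype) fun x => ⟨⟨x, trivial⟩, rfl⟩

/-- Let G be a finite group with a subgroup A of prime-power index. Suppose A has a normal cyclic subgroup B such that A/B is cyclic of order a power of 2. Then G is solvable. -/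
theorem result {G : Type*} [Group G] [Finite G] (A : Subgroup G) (p s : ℕ) (hp : p.Prime) (hA : A.index = p ^ s)
    (B : Subgroup A) [B.Normal] (hB : IsCyclic B) (hAB : IsCyclic (A ⧸ B)) (r : ℕ) (hr : Nat.card (A ⧸ B) = 2 ^ r) :
    Group.IsSolvable G := by
  exact CChar.CharBurn.isSolvable_of_forall_simple (P := fun X _ => P p X) (fun X _ _ N _ h => h.sub X N)
    (fun X _ _ N _ h => h.quo X N) (fun X _ _ _ h => h.simple hp X) G
    ⟨A, ⟨s, hA ▸ dvd_rfl⟩, B, inferInstance, hB, hAB, IsPGroup.of_card hr⟩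

end Cfsg.Agent.S4245
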