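import Cfsg.Statements.S4250
import Cfsg.Agent.Lib.Grp.Fus3

set_option autoImplicit false
open Cfsg

namespace Cfsg.Agent.S4250

open Subgroup CA.SylIn CA.Fus3 CA.Hyperfocal

/-- Let P be a Sylow p-subgroup of a finite group G. Call an intersection H = P ∩ Q with a Sylow p-subgroup Q tame when N_P(H) and N_Q(H) are Sylow p-subgroups of N_G(H). Then P ∩ G′ is generated by [P, N_G(P)] together with the commutator subgroups [P ∩ Q, ⟨x⟩] for all tame intersections P ∩ Q and all p-elements x of N_G(P ∩ Q). -/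
theorem result {G : Type*} [Group G] [Finite G] (p : ℕ) [Fact p.Prime] (P : Sylow p G) :
    (P : Subgroup G) ⊓ commutator G =
      ⁅(P : Subgroup G), Subgroup.normalizer ((P : Subgroup G) : Set G)⁆ ⊔
        ⨆ (Q : Sylow p G) (_ : (¬ p ∣ ((P : Subgroup G) ⊓ Subgroup.normalizer (((P : Subgroup G) ⊓ (Q : Subgroup G) : Subgroup G) : Set G)).relIndex (Subgroup.normalizer (((P : Subgroup G) ⊓ (Q : Subgroup G) : Subgroup G) : Set G)) ∧ ¬ p ∣ ((Q : Subgroup G) ⊓ Subgroup.normalizer (((P : Subgroup G) ⊓ (Q : Subgroup G) : Subgroup G) : Set G)).relIndex (Subgroup.normalizer (((P : Subgroup G) ⊓ (Q : Subgroup G) : Subgroup G) : Set G))))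
          (x : G) (_ : x ∈ Subgroup.normalizer (((P : Subgroup G) ⊓ (Q : Subgroup G) : Subgroup G) : Set G) ∧ ∃ k : ℕ, orderOf x = p ^ k),
          ⁅(P : Subgroup G) ⊓ (Q : Subgroup G), Subgroup.zpowers x⁆ := by
  apply le_antisymm
  · rw [inf_comm]
    refine commutator_inf_le P fun x hx g hg => ?_
    refine alperin_tame_p P (fun D g => ∀ x ∈ D, x⁻¹ * (g * x * g⁻¹) ∈ _)
      (fun D E g h _ _ hR x hx => hR x (h hx)) (fun D g h _ _ _ h1 h2 x hx => ?_)
      (fun n hn x hx => mem_sup_left (inv_mul_conj_mem_commutator hx hn))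
      (fun D Q e h1 h2 n hn ⟨k, hk⟩ x hx => mem_sup_right ?_) (zpowers x) g (zpowers_le.2 hx)
      (by rw [conj_zpowers]; exact zpowers_le.2 hg) x (mem_zpowers x)
    · have := mul_mem (h1 x hx) (h2 _ (conj_mem_conj.2 hx))
      convert this using 1
      group
    · subst e
      obtain ⟨j, -, hj⟩ := (Nat.dvd_prime_pow Fact.out).1 (orderOf_dvd_of_pow_eq_one hk)
      exact mem_iSup_of_mem Q (mem_iSup_of_mem ⟨h1.not_dvd, h2.not_dvd⟩ (mem_iSup_of_mem n
        (mem_iSup_of_mem ⟨hn, j, hj⟩ (inv_mul_conj_mem_commutator hx (mem_zpowers n)))))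
  · refine sup_le (le_inf (CA.Coprime.commutator_le_left le_rfl) (commutator_mono le_top le_top))
      (iSup_le fun Q => iSup_le fun _ => iSup_le fun x => iSup_le fun hx => le_inf ?_
        (commutator_mono le_top le_top))
    exact (CA.Coprime.commutator_le_left (zpowers_le.2 hx.1)).trans inf_le_left

end Cfsg.Agent.S4250
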