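import Cfsg.Statements.S4251
import Cfsg.Agent.Lib.Grp.Fus3

set_option autoImplicit false
open Cfsg

namespace Cfsg.Agent.S4251

open Subgroup CA.SylIn CA.Alperin CA.Hyperfocal CA.PRes

/-- Let P be a Sylow p-subgroup of a finite group G. Call an intersection H = P ∩ Q with a Sylow p-subgroup Q tame when N_P(H) and N_Q(H) are Sylow p-subgroups of N_G(H). If N_G(H)/C_G(H) is a p-group for every nontrivial tame intersection H = P ∩ Q, then G has a normal p-complement. -/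
theorem result {G : Type*} [Group G] [Finite G] (p : ℕ) [Fact p.Prime] (P : Sylow p G)
    (h : ∀ Q : Sylow p G, (P : Subgroup G) ⊓ (Q : Subgroup G) ≠ ⊥ → (¬ p ∣ ((P : Subgroup G) ⊓ Subgroup.normalizer (((P : Subgroup G) ⊓ (Q : Subgroup G) : Subgroup G) : Set G)).relIndex (Subgroup.normalizer (((P : Subgroup G) ⊓ (Q : Subgroup G) : Subgroup G) : Set G)) ∧ ¬ p ∣ ((Q : Subgroup G) ⊓ Subgroup.normalizer (((P : Subgroup G) ⊓ (Q : Subgroup G) : Subgroup G) : Set G)).relIndex (Subgroup.normalizer (((P : Subgroup G) ⊓ (Q : Subgroup G) : Subgroup G) : Set G))) →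
      IsPGroup p (Subgroup.normalizer (((P : Subgroup G) ⊓ (Q : Subgroup G) : Subgroup G) : Set G) ⧸
        (Subgroup.centralizer (((P : Subgroup G) ⊓ (Q : Subgroup G) : Subgroup G) : Set G)).subgroupOf
          (Subgroup.normalizer (((P : Subgroup G) ⊓ (Q : Subgroup G) : Subgroup G) : Set G)))) :
    Cfsg.HasNormalPComplement p G := by
  refine hasNPC_of_controls_fusion P fun x hx g hg => ?_
  suffices ∃ z ∈ (P : Subgroup G), ∀ y ∈ zpowers x, z * y * z⁻¹ = g * y * g⁻¹ by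
    obtain ⟨z, hz, e⟩ := this
    exact ⟨z, hz, e x (mem_zpowers x)⟩
  refine alperin_tame P (fun D g => ∃ z ∈ (P : Subgroup G), ∀ y ∈ D, z * y * z⁻¹ = g * y * g⁻¹)
    (fun D E g h _ _ ⟨z, hz, e⟩ => ⟨z, hz, fun y hy => e y (h hy)⟩)
    (fun D g a _ _ _ ⟨z, hz, e⟩ ⟨w, hw, e'⟩ => ⟨w * z, mul_mem hw hz, fun y hy => ?_⟩)
    (fun D Q e h1 h2 n hn => ?_) (zpowers x) g (zpowers_le.2 hx)
    (by rw [conj_zpowers]; exact zpowers_le.2 hg)
  · calc w * z * y * (w * z)⁻¹ = w * (z * y * z⁻¹) * w⁻¹ := by group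
      _ = _ := by rw [e y hy, e' _ (conj_mem_conj.2 hy)]; group
  · subst e
    by_cases hb : (P : Subgroup G) ⊓ (Q : Subgroup G) = ⊥
    · refine ⟨1, one_mem _, fun y hy => ?_⟩
      rw [hb, mem_bot] at hy
      simp [hy]
    obtain ⟨a, ⟨a', ha, rfl⟩, t, ht, rfl⟩ := exists_mul_eq_of_isSylowIn h1 hn
    have hc := pResidual_le_of_isPGroup_quotient (h Q hb ⟨h1.not_dvd, h2.not_dvd⟩) ha
    refine ⟨t, ht.1, fun y hy => ?_⟩
    have := mem_centralizer_iff.1 (mem_subgroupOf.1 hc) _ (conj_mem_of_mem_normalizer ht.2 hy)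
    change _ = (a' : G) * t * y * ((a' : G) * t)⁻¹
    calc t * y * t⁻¹ = (t * y * t⁻¹ * a') * (a' : G)⁻¹ := by group
      _ = _ := by rw [this]; group

end Cfsg.Agent.S4251
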