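import Cfsg.Statements.S4258
import Cfsg.Agent.Lib.Solv.H9Two5
import Cfsg.Agent.Lib.Odd.PF14

set_option autoImplicit false
open Cfsg

namespace Cfsg.Agent.S4258

theorem solv {G : Type*} [Group G] [Finite G] (hG : Cfsg.IsPSolvable 2 G) : Group.IsSolvable G := by
  obtain ⟨n, H, h0, h1, hm, hn, h⟩ := hG
  haveI : Fact (Nat.Prime 2) := ⟨Nat.prime_two⟩
  have key : ∀ i, Group.IsSolvable (H i) := fun i => by
    induction i using Fin.induction with
    | zero => rw [h0]; infer_instance
    | succ i ih =>
      haveI := hn i.castSucc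
      have e := Subgroup.subgroupOfEquivOfLe (hm (Fin.castSucc_lt_succ (i := i)).le)
      haveI : Group.IsSolvable ((H i.castSucc).subgroupOf (H i.succ)) :=
        Group.isSolvable_of_surjective (f := e.symm.toMonoidHom) e.symm.surjective
      haveI : Group.IsSolvable (H i.succ ⧸ (H i.castSucc).subgroupOf (H i.succ)) := by
        rcases h i with ⟨m, h2⟩ | h2
        · haveI := (IsPGroup.of_card (p := 2) (G := H i.succ ⧸ (H i.castSucc).subgroupOf (H i.succ))
            h2).isNilpotent
          infer_instance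
        · exact CA.PF.odd_solvable _ (Nat.coprime_two_right.1 h2)
      exact (Group.isSolvable_iff_subgroup_quotient ((H i.castSucc).subgroupOf (H i.succ))).2
        ⟨inferInstance, inferInstance⟩
  have := key (Fin.last n)
  rw [h1] at this
  exact Group.isSolvable_of_surjective (f := (⊤ : Subgroup G).subtype) fun x => ⟨⟨x, trivial⟩, rfl⟩

/-- Let G be a finite 2-soluble group whose Sylow 2-subgroups have exponent dividing 2^e. Then the 2-length of G is at most e. -/
theorem result {G : Type*} [Group G] [Finite G] (hG : Cfsg.IsPSolvable 2 G) (e : ℕ)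
    (hexp : ∀ (P : Sylow 2 G), ∀ x ∈ (P : Subgroup G), x ^ 2 ^ e = 1) : Cfsg.PLengthLE 2 e G := by
  refine CA.H9Two.PL_exp (solv hG) fun x hx => ?_
  obtain ⟨S, hS⟩ := CA.HH.le_sylow Nat.prime_two (CA.BG.isPi_zpowers.2 hx)
  exact hexp S x (hS (Subgroup.mem_zpowers x))

end Cfsg.Agent.S4258
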