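import Cfsg.Statements.S4261
import Cfsg.Agent.S0048
import Cfsg.Agent.Lib.Grp.PRes
import Cfsg.Agent.Lib.Grp.PGBasic
import Cfsg.Agent.Lib.Grp.Subn

set_option autoImplicit false
open Cfsg

namespace Cfsg.Agent.S4261

open Subgroup

/-- Let M be a maximal subgroup of a finite solvable group G such that x^[G : M] lies in M for every x in G. Then M is normal in G. -/
theorem result {G : Type*} [Group G] [Finite G] (hG : Group.IsSolvable G) (M : Subgroup G) (hM : IsCoatom M)
    (hexp : ∀ x : G, x ^ M.index ∈ M) : M.Normal := by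
  obtain ⟨p, k, hp, hk, hpk⟩ := (isPrimePow_nat_iff _).1 (Cfsg.Agent.S0048.result M hM)
  have := Fact.mk hp
  have h1 : Cfsg.pResidual p G ≤ M := by
    rw [CA.PRes.pResidual_le_iff]
    intro g hg
    have h2 : (M.index).Coprime (orderOf g) := by rw [← hpk]; exact (hg.symm).pow_left k
    obtain ⟨m, hm⟩ := exists_pow_eq_self_of_coprime h2
    rw [← hm]; exact M.pow_mem (hexp _) m
  have h2 : (M.map (QuotientGroup.mk' (Cfsg.pResidual p G))).IsSubnormal :=
    CA.Subn.subnormal_of_isNilpotent (CA.PRes.isPGroup_quotient_pResidual (p := p) (G := G)).isNilpotent _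
  have h3 := h2.comap (QuotientGroup.mk' (Cfsg.pResidual p G))
  rw [comap_map_eq, QuotientGroup.ker_mk', sup_eq_left.2 h1] at h3
  exact CA.Subn.normal_of_subnormal_of_isCoatom h3 hM

end Cfsg.Agent.S4261
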