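import Cfsg.Statements.S4262
import Cfsg.Agent.Lib.Solv.MaxC

set_option autoImplicit false
open Cfsg

namespace Cfsg.Agent.S4262

open Subgroup CA CA.BG

/-- Let G be a finite group in which the centralizer of every non-central element is a maximal subgroup of G. Then G is solvable. -/
theorem result {G : Type*} [Group G] [Finite G]
    (h : ∀ g : G, g ∉ Subgroup.center G → IsCoatom (Subgroup.centralizer ({g} : Set G))) :
    Group.IsSolvable G := by
  have : Group.IsSolvable (⊤ : Subgroup (G ⧸ center G)) := by
    obtain ⟨p, -, a⟩ | ⟨K, p, q, y, -, -, -, _, -, a, -, b, -⟩ := MaxC.main_top h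
    · exact solv_of_comm a.1
    · rw [← b, sup_comm]
      exact solv_sup (solv_of_comm inferInstance) (solv_of_comm a.1) le_normalizer_of_normal
  haveI : Group.IsSolvable (G ⧸ center G) := Group.isSolvable_of_surjective
    (f := (⊤ : Subgroup (G ⧸ center G)).subtype) fun x => ⟨⟨x, trivial⟩, rfl⟩
  haveI : Group.IsSolvable (center G) := solv_of_comm inferInstance
  exact Group.isSolvable_of_ker_le_range (center G).subtype (QuotientGroup.mk' (center G)) (by simp)

end Cfsg.Agent.S4262
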