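import Cfsg.Statements.S4263
import Cfsg.Agent.Lib.Grp.Subn
import Cfsg.Agent.Lib.Grp.H1Basic
import Cfsg.Agent.Lib.Grp.L0Syl
import Cfsg.Agent.Lib.Grp.Fitting
import Cfsg.Agent.Lib.Grp.NPC2

set_option autoImplicit false
open Cfsg

namespace Cfsg.Agent.S4263

open Subgroup
theorem pow_mem {G : Type*} [Group G] [Finite G] {K N : Subgroup G} (h : CA.Subn.SN K N) {x : G} (hx : x ∈ N) :
    x ^ K.relIndex N ∈ K := by
  refine h.induction (P := fun A => A ≤ N ∧ x ^ A.relIndex N ∈ A) ⟨le_rfl, by simpa using hx⟩ ?_ |>.2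
  intro A B hAB hn hB ⟨hBN, hxB⟩
  refine ⟨hAB.trans hBN, ?_⟩
  have : (A.subgroupOf B).Normal := (normal_subgroupOf_iff_le_normalizer hAB).2 hn
  have h1 := (A.subgroupOf B).pow_index_mem ⟨_, hxB⟩
  rw [mem_subgroupOf] at h1
  rw [← relIndex_mul_relIndex A B N hAB hBN, mul_comm, pow_mul]
  exact h1

/-- Let G be a finite group. An element x lies in the Fitting subgroup F(G) if and only if, for every subgroup H of G, the power x^[G : H] lies in H. -/
theorem result {G : Type*} [Group G] [Finite G] (x : G) :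
    x ∈ Cfsg.fittingSubgroup G ↔ ∀ H : Subgroup G, x ^ H.index ∈ H := by
  constructor
  · intro hx H
    have h1 : CA.Subn.SN (H ⊓ fittingSubgroup G) (fittingSubgroup G) :=
      CA.Subn.SN.of_isNilpotent CA.Core.isNilpotent_fitting inf_le_right
    have h2 := (pow_mem h1 hx).1
    rw [inf_relIndex_right] at h2
    obtain ⟨c, hc⟩ := CA.H1Basic.relIndex_normal_dvd_index H (fittingSubgroup G)
    rw [hc, pow_mul]
    exact H.pow_mem h2 c
  · intro h
    by_contra hx
    have h1 : orderOf (x : G ⧸ fittingSubgroup G) ≠ 1 := by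
      rwa [Ne, orderOf_eq_one_iff, QuotientGroup.eq_one_iff]
    obtain ⟨p, hp, hpd⟩ := Nat.exists_prime_and_dvd h1
    have := Fact.mk hp
    obtain ⟨P⟩ : Nonempty (Sylow p G) := inferInstance
    have h2 : x ^ (P : Subgroup G).index ∈ pCore p G := by
      rw [CA.Fitting.pCore_eq_iInf_sylow, mem_iInf]
      intro Q
      have : (P : Subgroup G).index = (Q : Subgroup G).index := by
        obtain ⟨g, rfl⟩ := MulAction.exists_smul_eq G P Q
        rw [CA.SylIn.coe_smul_sylow, CA.SylIn.index_conj]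
      rw [this]; exact h _
    have h3 : (x : G ⧸ fittingSubgroup G) ^ (P : Subgroup G).index = 1 := by
      rw [← QuotientGroup.mk_pow, QuotientGroup.eq_one_iff]
      exact CA.Fitting.pCore_le_fitting h2
    exact P.not_dvd_index (hpd.trans (orderOf_dvd_of_pow_eq_one h3))

end Cfsg.Agent.S4263
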