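import Cfsg.Statements.S4264
import Cfsg.Agent.S4198
import Cfsg.Agent.S4200
import Cfsg.Agent.S4201
import Cfsg.Agent.Lib.Perm.MinDeg

set_option autoImplicit false
open Cfsg

namespace Cfsg.Agent.S4264
open MulAction Pointwise

theorem k_congr {G H : Type*} [Group G] [Group H] (e : G ≃* H) :
    Nat.card (ConjClasses G) = Nat.card (ConjClasses H) := by
  refine Nat.card_congr (Equiv.ofBijective (ConjClasses.map e.toMonoidHom) ⟨fun a b h => ?_,
    ConjClasses.map_surjective e.surjective⟩)
  obtain ⟨a, rfl⟩ := ConjClasses.mk_surjective a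
  obtain ⟨b, rfl⟩ := ConjClasses.mk_surjective b
  have h1 : IsConj (e a) (e b) := ConjClasses.mk_eq_mk_iff_isConj.1 h
  have h2 := e.symm.toMonoidHom.map_isConj h1
  simp only [MulEquiv.coe_toMonoidHom, MulEquiv.symm_apply_apply] at h2
  exact ConjClasses.mk_eq_mk_iff_isConj.2 h2

theorem k_le_card (G : Type*) [Group G] [Finite G] : Nat.card (ConjClasses G) ≤ Nat.card G :=
  Nat.card_le_card_of_surjective _ ConjClasses.mk_surjective

/-- the induction hypothesis -/
def A (M : ℕ) : Prop := ∀ (Y : Type) [Finite Y], Nat.card Y < M → ∀ (H : Type) [Group H] [Finite H]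
  [MulAction H Y] [FaithfulSMul H Y], Nat.card (ConjClasses H) ≤ 5 ^ (Nat.card Y - 1)

theorem step {M : ℕ} (hA : A M) {H Y : Type} [Group H] [Finite H] [Finite Y] (hY : Nat.card Y < M)
    (φ : H →* Equiv.Perm Y) :
    Nat.card (ConjClasses H) ≤ Nat.card (ConjClasses φ.ker) * 5 ^ (Nat.card Y - 1) := by
  refine (S4201.result φ.ker).trans (Nat.mul_le_mul_left _ ?_)
  rw [k_congr (QuotientGroup.quotientKerEquivRange φ)]
  exact hA Y hY φ.range

theorem multi {M : ℕ} (hA : A M) {X ι : Type} [Finite X] (D : ι → Set X) (s : Finset ι) :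
    ∀ (H : Type) [Group H] [Finite H] [MulAction H X],
      (∀ i ∈ s, (D i).ncard < M ∧ ∀ h : H, ∀ x ∈ D i, h • x ∈ D i) →
      (∀ h : H, (∀ i ∈ s, ∀ x ∈ D i, h • x = x) → h = 1) →
      Nat.card (ConjClasses H) ≤ 5 ^ (∑ i ∈ s, ((D i).ncard - 1)) := by
  classical
  induction s using Finset.induction_on with
  | empty =>
    intro H _ _ _ _ h2
    have : Subsingleton H := ⟨fun a b => by rw [h2 a (by simp), h2 b (by simp)]⟩
    simpa using (k_le_card H).trans (Finite.card_le_one_iff_subsingleton.2 this)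
  | insert j s hj ih =>
    intro H _ _ _ h1 h2
    obtain ⟨h3, h4⟩ := h1 j (Finset.mem_insert_self _ _)
    let E : SubMulAction H X := ⟨D j, fun h x hx => h4 h x hx⟩
    have hE : Nat.card E = (D j).ncard := (Nat.card_coe_set_eq (D j))
    have h5 := step hA (hE ▸ h3) (toPermHom H E)
    rw [hE] at h5
    rw [Finset.sum_insert hj, pow_add, mul_comm]
    refine h5.trans (Nat.mul_le_mul_right _ (ih _ (fun i hi => ?_) fun h hh => ?_))
    · obtain ⟨h6, h7⟩ := h1 i (Finset.mem_insert_of_mem hi)
      exact ⟨h6, fun h x hx => h7 h x hx⟩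
    · refine Subtype.ext (h2 _ fun i hi x hx => ?_)
      rcases Finset.mem_insert.1 hi with rfl | hi
      · have h8 : toPermHom H E h = 1 := h.2
        exact congrArg Subtype.val (Equiv.congr_fun h8 ⟨x, hx⟩)
      · exact hh i hi x hx

theorem base {G X : Type*} [Group G] [MulAction G X] [Fintype X] [DecidableEq X] [FaithfulSMul G X]
    (h : IsPreprimitive G X) (hA : ¬ alternatingGroup X ≤ (toPermHom G X).range) :
    ∃ D : Finset X, 2 * D.card ≤ Fintype.card X ∧ ∀ g : G, (∀ x ∈ D, g • x = x) → g = 1 := by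
  classical
  have one : ∀ g : G, (∀ x : X, g • x = x) → g = 1 := fun g hg =>
    FaithfulSMul.eq_of_smul_eq_smul (α := X) fun x => by rw [hg, one_smul]
  obtain ⟨D, d1, d2⟩ := Finset.exists_min_image
    (Finset.univ.filter fun D : Finset X => ∀ g : G, (∀ x ∈ D, g • x = x) → g = 1) Finset.card
    ⟨Finset.univ, by simpa using one⟩
  simp only [Finset.mem_filter_univ] at d1 d2
  have h1 : D.card ≤ Dᶜ.card := by_contra fun e => by
    obtain ⟨g, g1, g2⟩ := not_forall₂.1 (mt (d2 _) e)
    obtain ⟨a, ha⟩ := not_forall.1 (mt (one g) g2)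
    have a1 : a ∈ D := by_contra fun f => ha (g1 a (Finset.mem_compl.2 f))
    obtain ⟨k, k1, k2⟩ := not_forall₂.1 (mt (d2 _) (Finset.card_erase_lt_of_mem a1).not_ge)
    obtain ⟨x, x1, x2, x3⟩ := CA.MinDeg.two_supp h hA ha fun f => k2 (d1 k fun x hx => by
      by_cases e : x = a
      exacts [e ▸ f, k1 x (Finset.mem_erase.2 ⟨e, hx⟩)])
    exact x3 (k1 x (Finset.mem_erase.2 ⟨x1, by_contra fun f => x2 (g1 x (Finset.mem_compl.2 f))⟩))
  refine ⟨D, ?_, d1⟩
  rw [Finset.card_compl] at h1
  have := Finset.card_le_univ D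
  omega

theorem main (M : ℕ) : A M := by
  induction M with
  | zero => intro Y _ h; omega
  | succ n ih =>
  intro X _ hX G _ _ _ _
  classical
  rcases (Nat.lt_succ_iff.1 hX).lt_or_eq with hlt | hn
  · exact ih X hlt G
  haveI := Fintype.ofFinite X
  have one : ∀ g : G, (∀ x : X, g • x = x) → g = 1 := fun g hg =>
    FaithfulSMul.eq_of_smul_eq_smul (α := X) fun x => by rw [hg, one_smul]
  have inj : Function.Injective (toPermHom G X) := toPerm_injective
  by_cases h5 : n < 5
  · have h1 : Nat.card G ≤ n.factorial := by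
      rw [← hn, ← Nat.card_perm]
      exact Nat.card_le_card_of_injective _ inj
    refine (k_le_card G).trans (h1.trans ?_)
    rw [hn]
    interval_cases n <;> decide
  rw [hn]
  by_cases ht : IsPretransitive G X
  swap
  · obtain ⟨x, y, hxy⟩ : ∃ x y : X, y ∉ orbit G x := by
      by_contra! H
      exact ht ⟨fun x y => H x y⟩
    have h1 := Set.ncard_add_ncard_compl (orbit G x)
    have h2 : 0 < (orbit G x).ncard := (Set.ncard_pos (Set.toFinite _)).2 ⟨x, mem_orbit_self x⟩
    have h3 : 0 < (orbit G x)ᶜ.ncard := (Set.ncard_pos (Set.toFinite _)).2 ⟨y, hxy⟩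
    have h4 := multi ih (fun b : Bool => if b then orbit G x else (orbit G x)ᶜ) Finset.univ G
      (fun b _ => ?_) (fun g hg => one g fun z => ?_)
    · refine h4.trans (Nat.pow_le_pow_right (by norm_num) ?_)
      simp only [Fintype.sum_bool, if_true, Bool.false_eq_true, if_false]
      omega
    · cases b
      · simp only [Bool.false_eq_true, if_false]
        refine ⟨by omega, fun g z hz hz' => hz ?_⟩
        have := mem_orbit_of_mem_orbit g⁻¹ hz'
        rwa [inv_smul_smul] at this
      · simp only [if_true]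
        exact ⟨by omega, fun g z hz => mem_orbit_of_mem_orbit g hz⟩
    · by_cases hz : z ∈ orbit G x
      · exact hg true (Finset.mem_univ _) z (by simpa using hz)
      · exact hg false (Finset.mem_univ _) z (by simpa using hz)
  by_cases hp : IsPreprimitive G X
  swap
  · obtain ⟨B, hB, hB'⟩ : ∃ B : Set X, IsBlock G B ∧ ¬ IsTrivialBlock B := by
      by_contra! H
      exact hp ⟨fun {B} hB => H B hB⟩
    rw [IsTrivialBlock, not_or] at hB'
    have h1 : 1 < B.ncard := Set.one_lt_ncard_iff_nontrivial.2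
      (Set.not_subsingleton_iff.1 hB'.1)
    have hne : B.Nonempty := (Set.ncard_pos (Set.toFinite _)).1 (by omega)
    have h2 := hB.ncard_block_mul_ncard_orbit_eq hne
    have h3 : B.ncard < n := by
      rw [← hn, ← Set.ncard_univ]
      exact Set.ncard_lt_ncard (Set.ssubset_univ_iff.2 hB'.2) (Set.toFinite _)
    have h6 : Nat.card (orbit G B) = (orbit G B).ncard := Nat.card_coe_set_eq _
    have h0 : 0 < (orbit G B).ncard := (Set.ncard_pos (Set.toFinite _)).2 ⟨B, mem_orbit_self B⟩
    have h4 : Nat.card (orbit G B) < n := by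
      rw [h6]; nlinarith
    have h7 := step ih h4 (toPermHom G (orbit G B))
    haveI := Fintype.ofFinite (orbit G B)
    have hc : ∀ i : orbit G B, (i : Set X).ncard = B.ncard := by
      rintro ⟨_, g, rfl⟩
      exact Set.ncard_smul_set g B
    have h8 := multi ih (fun i : orbit G B => (i : Set X)) Finset.univ (toPermHom G (orbit G B)).ker
      (fun i _ => ⟨by rw [hc]; exact h3, fun g z hz => ?_⟩) (fun g hg => Subtype.ext (one g fun z => ?_))
    · refine h7.trans ((Nat.mul_le_mul_right _ h8).trans ?_)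
      rw [← pow_add]
      refine Nat.pow_le_pow_right (by norm_num) ?_
      simp only [hc, Finset.sum_const, Finset.card_univ, smul_eq_mul, ← Nat.card_eq_fintype_card, h6]
      obtain ⟨b, hb⟩ : ∃ b, B.ncard = b + 1 := ⟨B.ncard - 1, by omega⟩
      rw [hb] at h2 ⊢
      rw [hn] at h2
      simp only [Nat.add_sub_cancel]
      have : (orbit G B).ncard * b + (orbit G B).ncard = n := by rw [← h2]; ring
      omega
    · have h8 : toPermHom G (orbit G B) g = 1 := g.2
      have h9 : (g : G) • (i : Set X) = i := congrArg Subtype.val (Equiv.congr_fun h8 i)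
      rw [← h9]
      exact Set.smul_mem_smul_set hz
    · obtain ⟨b, hb⟩ := hne
      obtain ⟨k, rfl⟩ := exists_smul_eq G b z
      exact hg ⟨k • B, mem_orbit B k⟩ (Finset.mem_univ _) _ (Set.smul_mem_smul_set hb)
  by_cases hA : alternatingGroup X ≤ (toPermHom G X).range
  · have hnt : Nontrivial X := Finite.one_lt_card_iff_nontrivial.1 (by omega)
    have h1 := Subgroup.index_dvd_of_le hA
    rw [alternatingGroup.index_eq_two] at h1
    have h2 := Nat.le_of_dvd two_pos h1
    have h3 := (S4200.result (toPermHom G X).range).1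
    have e : X ≃ Fin n := Finite.equivFinOfCardEq hn
    rw [k_congr e.permCongrHom] at h3
    have h4 := (S4198.result n (by omega)).2
    rw [k_congr (MonoidHom.ofInjective inj)]
    refine h3.trans ((Nat.mul_le_mul h2 h4).trans ?_)
    obtain ⟨k, rfl⟩ : ∃ k, n = k + 2 := ⟨n - 2, by omega⟩
    rw [Nat.add_sub_cancel, ← pow_succ', show k + 2 - 1 = k + 1 by omega]
    exact Nat.pow_le_pow_left (by norm_num) _
  · obtain ⟨D, d1, d2⟩ := base hp hA
    rw [← Nat.card_eq_fintype_card, hn] at d1
    have h1 := (S4200.result (stabilizer G (D : Set X))).2.1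
    have h2 : (stabilizer G (D : Set X)).index ≤ 2 ^ n := by
      have e : Nat.card (Set X) = 2 ^ n := by
        rw [← hn, Nat.card_eq_fintype_card, Nat.card_eq_fintype_card, Fintype.card_set]
      rw [index_stabilizer, ← e, ← Set.ncard_univ]
      exact Set.ncard_le_ncard (Set.subset_univ _) (Set.toFinite _)
    have h3 := multi ih (fun _ : Unit => (D : Set X)) Finset.univ (stabilizer G (D : Set X))
      (fun _ _ => ⟨by rw [Set.ncard_coe_finset]; omega, fun g z hz => ?_⟩)
      (fun g hg => Subtype.ext (d2 g fun z hz => hg () (Finset.mem_univ _) z hz))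
    · simp only [Finset.univ_unique, Finset.sum_singleton, Set.ncard_coe_finset] at h3
      refine h1.trans ((Nat.mul_le_mul h2 h3).trans ?_)
      have h4 : 2 ^ n ≤ 5 ^ (n - 1 - (D.card - 1)) := by
        calc 2 ^ n ≤ 2 ^ (2 * (n - 1 - (D.card - 1))) := Nat.pow_le_pow_right (by norm_num) (by omega)
          _ = 4 ^ (n - 1 - (D.card - 1)) := by rw [pow_mul]; norm_num
          _ ≤ _ := Nat.pow_le_pow_left (by norm_num) _
      refine (Nat.mul_le_mul_right _ h4).trans ?_
      rw [← pow_add]
      exact Nat.pow_le_pow_right (by norm_num) (by omega)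
    · have h9 : (g : G) • (D : Set X) = D := g.2
      exact h9.le (Set.smul_mem_smul_set hz)

/-- Let G be a subgroup of the symmetric group of degree d ≥ 1. Then G has at most 5^{d−1} conjugacy classes. -/
theorem result (d : ℕ) (hd : 1 ≤ d) (G : Subgroup (Equiv.Perm (Fin d))) : Nat.card (ConjClasses ↥G) ≤ 5 ^ (d - 1) := by
  have := main (d + 1) (Fin d) (by simp) G
  simpa using this

end Cfsg.Agent.S4264
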