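import Cfsg.Statements.S4269
import Cfsg.Agent.Lib.Grp.H7Pron
import Cfsg.Agent.Lib.Odd.BGCoprime

set_option autoImplicit false
open Cfsg

namespace Cfsg.Agent.S4269

open CA.H7Pron CA.BG Subgroup
open scoped commutatorElement

/-- Let G be a finite group, V an abelian normal subgroup and H a subgroup with HV = G. Then H is pronormal in G (H and gHg⁻¹ are conjugate inside the subgroup they generate, for every g) if and only if every H-invariant subgroup U of V satisfies U = N_U(H)·[H, U], that is, U is the join of U ∩ N_G(H) and the commutator subgroup [H, U]. -/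
theorem result {G : Type*} [Group G] [Finite G]
    (V : Subgroup G) [V.Normal] (hV : IsMulCommutative ↥V) (H : Subgroup G) (hHV : H ⊔ V = ⊤) :
    Cfsg.IsPronormal H ↔
      ∀ U : Subgroup G, U ≤ V → (∀ h ∈ H, U.map (MulAut.conj h).toMonoidHom = U) →
        U = (U ⊓ Subgroup.normalizer (H : Set G)) ⊔ ⁅H, U⁆ := by
  have hc : ∀ u ∈ V, ∀ v ∈ V, u * v = v * u := fun u hu v hv => mem_cent.1 (comm_iff_le_cent.1 hV hv) u hu
  constructor
  · intro h U hUV hU
    have hn : H ≤ 𝓝(U) := le_norm_iff_cj.2 hU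
    refine le_antisymm (fun u hu => ?_) (sup_le inf_le_left (comm_le_right hn))
    obtain ⟨x, hx, h1⟩ := (pron_iff.1 h u).exists_norm
    have h2 : H ⊔ cj u H ≤ ⁅H, U⁆ ⊔ H := sup_le le_sup_right fun y hy => by
      obtain ⟨k, hk, rfl⟩ := mem_cj'.1 hy
      have := mul_mem (inv_mem (mem_sup_left (commutator_mem_commutator hk hu)))
        (mem_sup_right hk : k ∈ ⁅H, U⁆ ⊔ H)
      rwa [show ⁅k, u⁆⁻¹ * k = u * k * u⁻¹ by rw [commutatorElement_def]; group] at this
    obtain ⟨c, hc1, k, hk, rfl⟩ := (mem_sup_norm' (le_norm_comm_left H U)).1 (h2 hx)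
    have h3 : c⁻¹ * u ∈ U ⊓ 𝓝(H) := ⟨U.mul_mem (U.inv_mem (comm_le_right hn hc1)) hu, by
      simpa [mul_assoc] using mul_mem (le_norm_self H hk) h1⟩
    simpa using mul_mem (mem_sup_right hc1) (mem_sup_left h3 : _ ∈ U ⊓ 𝓝(H) ⊔ ⁅H, U⁆)
  · intro h g
    obtain ⟨v, hv, k, hk, rfl⟩ := (mem_sup_norm' (top_le_norm V H)).1
      (show g ∈ V ⊔ H by rw [sup_comm, hHV]; trivial)
    refine Good.mul_norm ?_ (le_norm_self H hk)
    have hV' : ∀ u ∈ V, ∀ x : G, u * x * u⁻¹ * x⁻¹ ∈ V := fun u hu x => by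
      simpa [mul_assoc] using mul_mem hu (Normal.conj_mem inferInstance _ (inv_mem hu) x)
    let W : Subgroup G :=
      { carrier := {u | u ∈ V ∧ ∀ x ∈ H, u * x * u⁻¹ * x⁻¹ ∈ H ⊔ cj v H}
        one_mem' := ⟨one_mem _, fun x _ => by simp⟩
        mul_mem' := fun {a b} ha hb => ⟨mul_mem ha.1 hb.1, fun x hx => by
          have : a * b * x * (a * b)⁻¹ * x⁻¹ = (b * x * b⁻¹ * x⁻¹) * (a * x * a⁻¹ * x⁻¹) := by
            rw [← mul_assoc, ← mul_assoc, ← mul_assoc, hc _ (hV' b hb.1 x) a ha.1]; group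
          rw [this]; exact mul_mem (hb.2 x hx) (ha.2 x hx)⟩
        inv_mem' := fun {a} ha => ⟨inv_mem ha.1, fun x hx => by
          have : a⁻¹ * x * a⁻¹⁻¹ * x⁻¹ = (a * x * a⁻¹ * x⁻¹)⁻¹ := by
            have := hc _ (inv_mem ha.1) _ (Normal.conj_mem inferInstance _ ha.1 x)
            simpa [mul_assoc] using this
          rw [this]; exact inv_mem (ha.2 x hx)⟩ }
    have hW : W ≤ V := fun u hu => hu.1
    have h1 := h W hW fun x hx => cj_of_mem_norm (mem_norm_of_cj_le fun y hy => by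
      obtain ⟨u, hu, rfl⟩ := mem_cj'.1 hy
      refine ⟨Normal.conj_mem inferInstance _ hu.1 x, fun z hz => ?_⟩
      have := mul_mem (mul_mem (mem_sup_left hx) (hu.2 _ (mul_mem (mul_mem (inv_mem hx) hz) hx)))
        (inv_mem (mem_sup_left hx))
      simpa [mul_assoc] using this)
    have h2 : ⁅H, W⁆ ≤ H ⊔ cj v H := by
      rw [comm_symm]
      exact commutator_le.2 fun u hu x hx => hu.2 x hx
    have h3 : v ∈ ⁅H, W⁆ ⊔ W ⊓ 𝓝(H) := by
      rw [sup_comm, ← h1]
      exact ⟨hv, fun x hx => mul_mem (mem_sup_right (conj_mem_cj.2 hx)) (inv_mem (mem_sup_left hx))⟩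
    obtain ⟨c, hc1, n, hn, e⟩ := (mem_sup_norm' (inf_le_left.trans (le_norm_comm_right H W))).1 h3
    exact ⟨c, h2 hc1, by change cj v H = cj c H; rw [← e, cj_mul, cj_of_mem_norm hn.2]⟩

end Cfsg.Agent.S4269
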