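import Cfsg.Statements.S4343
import Cfsg.Agent.Lib.Grp.L0Syl
import Cfsg.Agent.Lib.Grp.PGBasic
import Cfsg.Agent.Lib.Grp.Subn

set_option autoImplicit false
open Cfsg

namespace Cfsg.Agent.S4343

open Subgroup CA.L0Syl CA.SylIn
open scoped commutatorElement

/-- Let S be a finite non-abelian simple group and p a prime dividing its order. If S has fewer than p² Sylow p-subgroups, then its Sylow p-subgroups have order p. -/
theorem result {S : Type*} [Group S] [Finite S]
    [IsSimpleGroup S] (hS : ¬ IsMulCommutative S) (p : ℕ) [Fact p.Prime] (hp : p ∣ Nat.card S)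
    (hn : Nat.card (Sylow p S) < p ^ 2) (P : Sylow p S) : Nat.card P = p := by
  have hp' : p.Prime := Fact.out
  have hcore : Cfsg.pCore p S = ⊥ := by
    rcases (inferInstance : (Cfsg.pCore p S).Normal).eq_bot_or_eq_top with h | h
    · exact h
    · exfalso
      have h1 : IsPGroup p S := CA.Core.pCore_eq_top_iff.1 h
      have := h1.isNilpotent
      exact hS ⟨⟨IsSimpleGroup.comm_iff_isSolvable.2 inferInstance⟩⟩
  -- every intersection has index at most p
  have key : ∀ Q : Sylow p S, (Q : Subgroup S).relIndex P = 1 ∨ (Q : Subgroup S).relIndex P = p := by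
    intro Q
    obtain ⟨k, hk⟩ := CA.PGBasic.exists_relIndex_eq_pow (H := (Q : Subgroup S)) P.isPGroup'
    have h1 : (Q : Subgroup S).relIndex P ≤ Nat.card (Sylow p S) := by
      rw [card_sylow_eq Q]
      have h2 : normalizer ((Q : Subgroup S) : Set S) ⊓ P = (Q : Subgroup S) ⊓ P :=
        le_antisymm (le_inf ((isSylowIn_top Q).le_of_le_normalizer' (P.isPGroup'.to_le inf_le_right) le_top
          inf_le_left) inf_le_right) (inf_le_inf_right _ le_normalizer)
      rw [← inf_relIndex_right, ← h2, inf_relIndex_right, ← relIndex_top_right]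
      exact relIndex_le_of_le_right le_top (by rw [relIndex_top_right]; exact index_ne_zero_of_finite)
    rw [hk] at h1 ⊢
    have h3 : k < 2 := (Nat.pow_lt_pow_iff_right hp'.one_lt).1 (h1.trans_lt hn)
    interval_cases k <;> simp
  have hcomm : IsMulCommutative (P : Subgroup S) := by
    rw [CA.PGBasic.isMulCommutative_iff]
    intro a ha b hb
    have h1 : ∀ Q : Sylow p S, ∀ a ∈ P, ∀ b ∈ P, ⁅a, b⁆ ∈ Q := by
      intro Q a ha b hb
      rcases key Q with h | h
      · rw [relIndex_eq_one] at h
        exact h (by rw [commutatorElement_def]; exact mul_mem (mul_mem (mul_mem ha hb) (inv_mem ha)) (inv_mem hb))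
      · have hn' : ((Q : Subgroup S).subgroupOf P).Normal :=
          CA.PGBasic.normal_of_index_eq P.isPGroup' h
        have hc : IsCyclic ((P : Subgroup S) ⧸ (Q : Subgroup S).subgroupOf P) :=
          isCyclic_of_prime_card (p := p) h
        have h2 := hc.isMulCommutative.is_comm.comm (QuotientGroup.mk (⟨a, ha⟩ : (P : Subgroup S))) (QuotientGroup.mk ⟨b, hb⟩)
        have h3 : (⁅(⟨a, ha⟩ : (P : Subgroup S)), (⟨b, hb⟩ : (P : Subgroup S))⁆ : (P : Subgroup S)) ∈ (Q : Subgroup S).subgroupOf P := by
          rw [← QuotientGroup.eq_one_iff, ← QuotientGroup.mk'_apply, map_commutatorElement,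
            commutatorElement_eq_one_iff_mul_comm]
          exact h2
        exact h3
    have h2 : ⁅a, b⁆ ∈ (P : Subgroup S).normalCore := by
      intro g
      have := mem_smul_sylow.1 (h1 (g⁻¹ • P) a ha b hb)
      rw [inv_inv] at this; exact this
    have h3 : (P : Subgroup S).normalCore ≤ Cfsg.pCore p S :=
      CA.Core.le_pCore (P.isPGroup'.to_le (normalCore_le _))
    have h4 := h3 h2
    rwa [hcore, mem_bot, commutatorElement_eq_one_iff_mul_comm] at h4
  obtain ⟨Q, hQ⟩ := brodkey P hcomm
  have h5 := CA.Rad.card_inf_mul_relIndex (Q : Subgroup S) P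
  rw [inf_comm, hQ, hcore, card_bot, one_mul] at h5
  rcases key Q with h | h
  · exfalso
    rw [h] at h5
    exact P.ne_bot_of_dvd_card hp (card_eq_one.1 h5.symm)
  · exact h5.symm.trans h

end Cfsg.Agent.S4343
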