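import Cfsg.Statements.S4304
import Cfsg.Agent.S4303
import Cfsg.Agent.S4343
import Cfsg.Agent.Lib.Grp.NPC2
import Cfsg.Agent.Lib.Grp.H1Hall

set_option autoImplicit false
open Cfsg

namespace Cfsg.Agent.S4304

open Subgroup CA.L0Syl CA.SylIn

theorem not_npc {S : Type*} [Group S] [Finite S] [IsSimpleGroup S] {p q : ℕ} [hp : Fact p.Prime] (hq : q.Prime)
    (hpq : q ≠ p) (h1 : p ∣ Nat.card S) (h2 : q ∣ Nat.card S) : ¬ HasNormalPComplement p S := by
  intro h
  rcases (inferInstance : (pResidual p S).Normal).eq_bot_or_eq_top with h3 | h3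
  · exact hpq (CA.H1Hall.eq_of_prime_dvd_card_of_isPGroup hp.out hq (CA.PRes.pResidual_eq_bot_iff.1 h3) h2)
  · rw [CA.PRes.hasNPC_iff_not_dvd, h3, card_top] at h
    exact h h1

theorem simple_case {S : Type*} [Group S] [Finite S] [IsSimpleGroup S] [Fact (Nat.Prime 7)] :
    Nat.card (Sylow 7 S) ≠ 15 := by
  classical
  intro h
  obtain ⟨P⟩ : Nonempty (Sylow 7 S) := inferInstance
  have hN := card_sylow_eq P
  rw [h] at hN
  have hnn : ¬ (P : Subgroup S).Normal := fun hn => by
    rw [normalizer_eq_top, index_top] at hN; omega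
  have hS : ¬ IsMulCommutative S := fun hc => hnn ⟨fun x hx g => by
    rw [hc.is_comm.comm g x]; simpa using hx⟩
  have h7 : 7 ∣ Nat.card S := by
    by_contra h7
    obtain ⟨k, hk⟩ := P.isPGroup'.exists_card_eq
    rcases k with _ | k
    · apply hnn
      rw [card_eq_one.1 hk]; infer_instance
    · exact h7 ((dvd_pow_self 7 k.succ_ne_zero).trans (hk ▸ card_subgroup_dvd_card _))
  have hP : Nat.card (P : Subgroup S) = 7 := Cfsg.Agent.S4343.result hS 7 h7 (by rw [h]; norm_num) P
  have := Fintype.ofFinite (Sylow 7 S)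
  let φ := MulAction.toPermHom S (Sylow 7 S)
  have hφ : φ.ker = ⊥ := by
    refine (inferInstance : φ.ker.Normal).eq_bot_or_eq_top.resolve_right fun ht => hnn ?_
    rw [← normalizer_eq_top_iff, eq_top_iff]
    intro g _
    have : g ∈ φ.ker := ht ▸ mem_top g
    exact Sylow.smul_eq_iff_mem_normalizer.1 (congrArg (fun σ : Equiv.Perm (Sylow 7 S) => σ P) this)
  have hsign : ∀ g, Equiv.Perm.sign (φ g) = 1 := by
    intro g
    rcases (inferInstance : (Equiv.Perm.sign.comp φ).ker.Normal).eq_bot_or_eq_top with hb | ht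
    · exact absurd ⟨⟨fun a b => (MonoidHom.ker_eq_bot_iff _).1 hb (by simp [mul_comm])⟩⟩ hS
    · have : g ∈ (Equiv.Perm.sign.comp φ).ker := ht ▸ mem_top g
      exact this
  have hC : IsPGroup 7 (centralizer ((P : Subgroup S) : Set S)) := by
    rw [IsPGroup.iff_card]
    refine ⟨_, Nat.eq_prime_pow_of_unique_prime_dvd Nat.card_pos.ne' fun {r} hr hrd => ?_⟩
    have := Fact.mk hr
    obtain ⟨⟨g, hg⟩, hgr⟩ := exists_prime_orderOf_dvd_card' r hrd
    rw [← orderOf_coe] at hgr
    change orderOf g = r at hgr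
    by_contra hr7
    let F : SubMulAction (P : Subgroup S) (Sylow 7 S) :=
      { carrier := {Q | g • Q = Q}
        smul_mem' := fun c Q hQ => by
          have hQ' : g • Q = Q := hQ
          show g • (c : S) • Q = (c : S) • Q
          rw [← mul_smul, ← hg c c.2, mul_smul, hQ'] }
    have hgP : g • P = P := Sylow.smul_eq_iff_mem_normalizer.2 (centralizer_le_normalizer _ hg)
    have h1 := P.isPGroup'.card_modEq_card_fixedPoints F
    have h2 : Nat.card (MulAction.fixedPoints (P : Subgroup S) F) = 1 := by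
      rw [Nat.card_eq_one_iff_exists]
      refine ⟨⟨⟨P, hgP⟩, fun c => Subtype.ext (Sylow.smul_eq_iff_mem_normalizer.2 (le_normalizer c.2))⟩, ?_⟩
      rintro ⟨⟨Q, hQ⟩, hQ2⟩
      have h3 : Q ∈ MulAction.fixedPoints (P : Subgroup S) (Sylow 7 S) := fun c => congrArg Subtype.val (hQ2 c)
      rw [P.isPGroup'.sylow_mem_fixedPoints_iff] at h3
      have : Q = P := Sylow.ext (P.is_maximal' Q.isPGroup' h3)
      subst this; rfl
    have h3 := (IsPGroup.of_card (n := 1) (by rw [Nat.card_zpowers, hgr, pow_one]) :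
      IsPGroup r (zpowers g)).card_modEq_card_fixedPoints (Sylow 7 S)
    have h4 : Nat.card (MulAction.fixedPoints (zpowers g) (Sylow 7 S)) = Nat.card F := by
      refine Nat.card_congr (Equiv.subtypeEquivRight fun Q => ⟨fun hQ => hQ ⟨g, mem_zpowers g⟩, fun hQ c => ?_⟩)
      exact (zpowers_le.2 (show g ∈ MulAction.stabilizer S Q from hQ)) c.2
    have h5 : Nat.card F < 15 := by
      rw [← h]
      by_contra hle
      have hall : ∀ Q : Sylow 7 S, g • Q = Q := by
        intro Q
        obtain ⟨⟨Q', hQ'⟩, rfl⟩ := (Nat.bijective_iff_injective_and_card (Subtype.val : F → Sylow 7 S)).2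
          ⟨Subtype.val_injective, le_antisymm (Nat.card_le_card_of_injective _ Subtype.val_injective)
            (not_lt.1 hle)⟩ |>.2 Q
        exact hQ'
      have : g ∈ φ.ker := Equiv.ext hall
      rw [hφ, mem_bot] at this
      rw [this, orderOf_one] at hgr
      exact hr.one_lt.ne hgr
    rw [h2] at h1
    rw [h, h4] at h3
    have h6 : Nat.card F = 1 ∨ Nat.card F = 8 := by unfold Nat.ModEq at h1; omega
    rcases h6 with h6 | h6
    · rw [h6] at h3
      have h8 : r ∣ 2 * 7 := (Nat.modEq_iff_dvd' (by norm_num)).1 h3.symm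
      have h9 : r = 2 := by
        rcases (Nat.Prime.dvd_mul hr).1 h8 with h | h
        · exact (Nat.prime_dvd_prime_iff_eq hr Nat.prime_two).1 h
        · exact absurd ((Nat.prime_dvd_prime_iff_eq hr Fact.out).1 h) hr7
      have h10 := Equiv.Perm.sign_of_pow_two_eq_one (σ := φ g) (by rw [← map_pow, ← h9, ← hgr, pow_orderOf_eq_one, map_one])
      have h11 : Fintype.card (Function.fixedPoints (φ g)) = 1 := by
        rw [← h6, ← Nat.card_eq_fintype_card]; rfl
      rw [hsign, h11, ← Nat.card_eq_fintype_card, h] at h10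
      exact absurd h10 (by decide)
    · rw [h6] at h3
      have h8 : r ∣ 7 := (Nat.modEq_iff_dvd' (by norm_num)).1 h3.symm
      exact hr7 ((Nat.prime_dvd_prime_iff_eq hr Fact.out).1 h8)
  have hcyc : IsCyclic (P : Subgroup S) := isCyclic_of_prime_card hP
  have hCP : centralizer ((P : Subgroup S) : Set S) = P :=
    P.is_maximal' hC (le_centralizer_iff_isMulCommutative.2 inferInstance)
  have key := card_dvd_of_injective _ (QuotientGroup.kerLift_injective (P : Subgroup S).normalizerMonoidHom)
  rw [normalizerMonoidHom_ker, ← index, ← relIndex, hcyc.card_mulAut, hP, hCP, Nat.totient_prime Fact.out] at key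
  have hcard := CA.Rad.card_mul_relIndex_of_le (le_normalizer : (P : Subgroup S) ≤ _)
  have hcard2 := (normalizer ((P : Subgroup S) : Set S)).index_mul_card
  rw [← hN, ← hcard, hP] at hcard2
  generalize (P : Subgroup S).relIndex _ = e at key hcard2
  have he : e ≤ 6 := Nat.le_of_dvd (by norm_num) key
  have hsyl : ∀ (p : ℕ) [Fact p.Prime], p ∣ Nat.card S → ¬ p ^ 2 ∣ Nat.card S → p ≠ 7 →
      (∀ r : ℕ, r.Prime → r ∣ Nat.card S → ¬ r ∣ p - 1) → False := by
    intro p hp h1 h2 h3 h4
    obtain ⟨Q⟩ : Nonempty (Sylow p S) := inferInstance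
    refine not_npc (p := p) (q := 7) Fact.out h3.symm h1 h7 (CA.NPC2.hasNPC_of_forall_not_dvd Q (n := 1) ?_ ?_)
    · rw [Q.card_eq_multiplicity]
      congr 1
      have a1 := (hp.out.pow_dvd_iff_le_factorization (Nat.card_pos (α := S)).ne').1 (pow_one p ▸ h1)
      have a2 := (hp.out.pow_dvd_iff_le_factorization (k := 2) (Nat.card_pos (α := S)).ne').not.1 h2
      omega
    · intro r hr hrd i hi1 hi2
      obtain rfl : i = 1 := by omega
      simpa using h4 r hr hrd
  by_cases h2 : 2 ∣ Nat.card S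
  · refine hsyl 2 h2 ?_ (by norm_num) fun r hr _ h => hr.one_lt.ne' (by simpa using h)
    rw [← hcard2]
    interval_cases e <;> omega
  · have := Fact.mk Nat.prime_five
    refine hsyl 5 (by rw [← hcard2]; omega) ?_ (by norm_num) fun r hr hrd h => h2 ?_
    · rw [← hcard2]
      interval_cases e <;> omega
    · have : r = 2 := (Nat.prime_dvd_prime_iff_eq hr Nat.prime_two).1 (hr.dvd_of_dvd_pow (n := 2) (by simpa using h))
      exact this ▸ hrd

/-- No finite group has exactly 15 Sylow 7-subgroups. -/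
theorem result {G : Type*} [Group G] [Finite G] : Nat.card (Sylow 7 G) ≠ 15 := by
  intro h
  have := Fact.mk (by norm_num : Nat.Prime 7)
  obtain ⟨l, hl, hm⟩ := Cfsg.Agent.S4303.result (G := G) 7
  rw [h] at hl
  have h1 : ∀ m ∈ l, m = 1 := by
    intro m hml
    have hd : m ∣ 15 := hl ▸ List.dvd_prod hml
    have hle := Nat.le_of_dvd (by norm_num) hd
    rcases hm m hml with ⟨h1, h2⟩ | ⟨S, _, _, _, h2⟩
    · have : m ≠ 15 := by rintro rfl; exact absurd h1 (by decide +kernel)
      interval_cases m <;> omega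
    · have h3 := card_sylow_modEq_one 7 S
      have h4 := simple_case (S := S)
      rw [← h2] at h3 h4
      unfold Nat.ModEq at h3
      clear h2
      interval_cases m <;> omega
  rw [List.prod_eq_one h1] at hl
  omega

end Cfsg.Agent.S4304
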