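import Cfsg.Statements.S4330
import Cfsg.Agent.Lib.Grp.Hyp
import Cfsg.Agent.Lib.Grp.CoprimeAct
import Cfsg.Agent.Lib.Grp.Fitting
import Cfsg.Agent.Lib.Solv.FpfRed

set_option autoImplicit false
open Pointwise
open Cfsg

namespace Cfsg.Agent.S4330

open Subgroup CA.Core

universe u

theorem pw {G : Type*} [Group G] {x d z : G} (h : d * x = z * x * d) (h1 : Commute z x) (h2 : Commute z d) (n : ℕ) :
    d ^ n * x = z ^ n * x * d ^ n ∧ (x * d) ^ n = z ^ n.choose 2 * x ^ n * d ^ n := by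
  induction n with
  | zero => simp
  | succ n ih =>
    constructor
    · calc d ^ (n + 1) * x = d * z ^ n * x * d ^ n := by rw [pow_succ', mul_assoc, ih.1]; simp only [mul_assoc]
        _ = z ^ n * (d * x) * d ^ n := by rw [← (h2.pow_left n).eq]; simp only [mul_assoc]
        _ = _ := by rw [h, pow_succ z, pow_succ' d]; simp only [mul_assoc]
    · calc (x * d) ^ (n + 1) = z ^ n.choose 2 * x ^ n * (d ^ n * x) * d := by rw [pow_succ, ih.2]; simp only [mul_assoc]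
        _ = z ^ n.choose 2 * (x ^ n * z ^ n) * x * d ^ n * d := by rw [ih.1]; simp only [mul_assoc]
        _ = _ := by
          rw [← (h1.pow_pow n n).eq, Nat.choose_succ_succ' n 1, Nat.choose_one_right, add_comm n, pow_add, pow_succ x,
            pow_succ d]; simp only [mul_assoc]

theorem pw' {G : Type*} [Group G] {p : ℕ} (hp : p.Prime) (hp2 : p ≠ 2) {x d : G} (h1 : Commute x (d * x * d⁻¹ * x⁻¹))
    (h2 : Commute d (d * x * d⁻¹ * x⁻¹)) (hd : d ^ p = 1) : (x * d) ^ p = x ^ p := by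
  obtain ⟨e1, e2⟩ := pw (x := x) (d := d) (z := d * x * d⁻¹ * x⁻¹) (by group) h1.symm h2.symm p
  rw [hd, one_mul, mul_one, eq_comm, mul_eq_right] at e1
  obtain ⟨k, hk⟩ := hp.dvd_choose_self (k := 2) two_ne_zero (lt_of_le_of_ne hp.two_le hp2.symm)
  rw [e2, hk, pow_mul, e1, hd]; simp

/-- conjugate subgroup -/
def cj {M : Type*} [Group M] (x : M) (H : Subgroup M) : Subgroup M := H.comap (MulAut.conj x).toMonoidHom

theorem mem_cj {M : Type*} [Group M] {x y : M} {H : Subgroup M} : y ∈ cj x H ↔ x * y * x⁻¹ ∈ H := Iff.rfl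

theorem cj_cj {M : Type*} [Group M] (x y : M) (H : Subgroup M) : cj y (cj x H) = cj (x * y) H := by
  ext; simp [mem_cj, mul_assoc]

theorem cj_one {M : Type*} [Group M] (H : Subgroup M) : cj 1 H = H := by ext; simp [mem_cj]

theorem core {M V : Type*} [Group M] [Finite M] [CommGroup V] [Finite V] [MulDistribMulAction M V] {p : ℕ}
    (hp : p.Prime) (hp2 : p ≠ 2) (faith : ∀ g : M, (∀ v : V, g • v = v) → g = 1) (hV : (Nat.card V).Coprime p)
    {R B : Subgroup M} (hR : IsPGroup p R) (hBR : B ≤ R) (hB : ∀ b ∈ B, b ^ p = 1)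
    (hc : ∀ b ∈ B, ∀ c ∈ B, Commute b c)
    (hz : ∀ g ∈ R, ∀ b ∈ B, g * b * g⁻¹ * b⁻¹ ∈ B ∧ ∀ x ∈ R, Commute x (g * b * g⁻¹ * b⁻¹)) :
    ∃ v : V, ∀ g ∈ R, g • v = v → (∀ b ∈ B, Commute g b) ∧ (g ∈ B → g = 1) := by
  classical
  have := Fintype.ofFinite M
  have := Fintype.ofFinite (Subgroup M)
  have := Fact.mk hp
  obtain ⟨T, hT⟩ : ∃ T : Subgroup M → V →* V, ∀ H v, T H v = ∏ y ∈ Finset.univ.filter (· ∈ H), y • v :=
    ⟨fun H => ∏ y ∈ Finset.univ.filter (· ∈ H), MulDistribMulAction.toMonoidHom V y,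
      fun H v => MonoidHom.finsetProd_apply _ _ _⟩
  have T1 : ∀ x H v, T (cj x H) v = x⁻¹ • T H (x • v) := fun x H v => by
    rw [hT, hT, Finset.smul_prod']
    exact Finset.prod_equiv (MulAut.conj x).toEquiv (by simp [mem_cj]) (by simp [smul_smul, mul_assoc])
  have T2 : ∀ H, ∀ h ∈ H, ∀ v, h • T H v = T H v := fun H h hh v => by
    rw [hT, Finset.smul_prod']
    exact Finset.prod_equiv (Equiv.mulLeft h) (by simp [H.mul_mem_cancel_left hh]) (by simp [smul_smul])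
  have T3 : ∀ H, ∀ h ∈ H, ∀ v, T H (h • v) = T H v := fun H h hh v => by
    rw [hT, hT]
    exact Finset.prod_equiv (Equiv.mulRight h) (by simp [H.mul_mem_cancel_right hh]) (by simp [smul_smul])
  have T4 : ∀ H ≤ B, ∀ b ∈ B, ∀ v, b • T H v = T H (b • v) := fun H hH b hb v => by
    rw [hT, hT, Finset.smul_prod']
    exact Finset.prod_congr rfl fun y hy => by rw [smul_smul, smul_smul, (hc b hb y (hH (by simpa using hy))).eq]
  have T5 : ∀ H ≤ B, ∀ v, T B v = 1 → T B (T H v) = 1 := fun H hH v hv => by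
    rw [hT H, map_prod]
    exact Finset.prod_eq_one fun y hy => (T3 B y (hH (by simpa using hy)) v).trans hv
  have tors : ∀ H ≤ B, ∀ v, (∀ h ∈ H, h • v = v) → T H v = 1 → v = 1 := fun H hH v h1 h2 => by
    obtain ⟨k, hk⟩ := (hR.to_le (hH.trans hBR)).exists_card_eq
    rw [hT, Finset.prod_congr rfl fun y hy => h1 y (by simpa using hy), Finset.prod_const, ← Fintype.card_subtype,
      ← Nat.card_eq_fintype_card, hk] at h2
    exact orderOf_eq_one_iff.1 (Nat.eq_one_of_dvd_coprimes (hV.pow_right k) (orderOf_dvd_natCard v)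
      (orderOf_dvd_of_pow_eq_one h2))
  have hcB : ∀ x ∈ R, cj x B = B := fun x hx => Subgroup.ext fun b => ⟨fun h => by
    have := mul_mem (hz _ (inv_mem hx) _ h).1 h
    simpa [mul_assoc] using this, fun h => by simpa [mem_cj] using mul_mem (hz x hx b h).1 h⟩
  have hs : ∀ (x : M) (u : V), x • u ≠ 1 ↔ u ≠ 1 := fun x u => by rw [ne_eq, smul_eq_iff_eq_inv_smul, smul_one]
  let Ω : Subgroup M → Prop := fun H => H ≤ B ∧ (∀ g ∈ B, g ∉ H → ∀ b ∈ B, ∃ h ∈ H, ∃ i : ℕ, b = h * g ^ i) ∧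
    ∃ w, w ≠ 1 ∧ (∀ h ∈ H, h • w = w) ∧ T B w = 1
  have fixB : ∀ H, Ω H → ∀ g ∈ B, g ∉ H → ∀ u, (∀ h ∈ H, h • u = u) → g • u = u → T B u = 1 → u = 1 :=
    fun H hH g hg hgH u h1 h2 => tors B le_rfl u fun b hb => by
      obtain ⟨h, hh, i, rfl⟩ := hH.2.1 g hg hgH b hb
      exact mul_mem (show h ∈ MulAction.stabilizer M u from h1 h hh) (pow_mem (show g ∈ MulAction.stabilizer M u from h2) i)
  have hΩ : ∀ x ∈ R, ∀ H, Ω H → Ω (cj x H) := fun x hx H ⟨h1, h2, w, h3, h4, h5⟩ => by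
    refine ⟨fun y hy => (hcB x hx).le (h1 hy), fun g hg hgH b hb => ?_, x⁻¹ • w, (hs _ _).2 h3, fun h hh => ?_, ?_⟩
    · obtain ⟨h, hh, i, e⟩ := h2 _ ((hcB x hx).ge hg) hgH _ ((hcB x hx).ge hb)
      refine ⟨x⁻¹ * h * x, by simpa [mem_cj, mul_assoc] using hh, i, ?_⟩
      calc b = x⁻¹ * (x * b * x⁻¹) * x := by group
        _ = _ := by rw [show x * b * x⁻¹ = h * (x * g * x⁻¹) ^ i from e, conj_pow]; group
    · rw [eq_inv_smul_iff, smul_smul, smul_smul]; exact h4 _ hh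
    · rw [← hcB x hx, T1, smul_inv_smul, h5, smul_one]
  have gen : ∀ b ∈ B, (∀ H, Ω H → b ∈ H) → b = 1 := fun b hb h => faith b fun v => by
    have : IsMulCommutative B := ⟨⟨fun x y => Subtype.ext (hc _ x.2 _ y.2).eq⟩⟩
    obtain ⟨k, hk⟩ := (hR.to_le hBR).exists_card_eq
    refine (CA.CoprimeAct.eq_top_of_forall_cocyclic (A := B) (L := (MulDistribMulAction.toMonoidHom V b).eqLocus (.id V))
      (hk ▸ (hV.pow_right k).symm) fun C a e u hu => by_contra fun h1 => h1 (hu ⟨b, hb⟩ ?_)).ge (mem_top v)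
    have h2 : ∀ g ∈ B, ∃ h ∈ C.map B.subtype, ∃ i : ℕ, g = h * a ^ i := fun g hg => by
      obtain ⟨c, hc', y, hy, e'⟩ := mem_sup_of_normal_left.1 (e.ge (mem_top (⟨g, hg⟩ : B)))
      obtain ⟨i, rfl⟩ := mem_powers_iff_mem_zpowers.2 hy
      exact ⟨c, mem_map_of_mem _ hc', i, congrArg Subtype.val e'.symm⟩
    refine (mem_map_iff_mem B.subtype_injective).1 (h _ ⟨map_subtype_le C, fun g hg hgH c hc' => ?_, b • u / u,
      div_ne_one.2 h1, ?_, by rw [map_div, T3 B b hb, div_self']⟩)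
    · obtain ⟨h, hh, j, rfl⟩ := h2 g hg
      obtain ⟨h', hh', i, rfl⟩ := h2 c hc'
      obtain ⟨m, hm⟩ := exists_pow_eq_self_of_coprime (x := (a : M)) (n := j) ((hp.coprime_iff_not_dvd.2 (by
        rintro ⟨j, rfl⟩
        exact hgH (by rwa [pow_mul, hB _ a.2, one_pow, mul_one]))).symm.coprime_dvd_right
          (orderOf_dvd_of_pow_eq_one (hB _ a.2)))
      refine ⟨h' * (h ^ (m * i))⁻¹, mul_mem hh' (inv_mem (pow_mem hh _)), m * i, ?_⟩
      rw [(hc _ (map_subtype_le C hh) _ (pow_mem a.2 j)).mul_pow, pow_mul (_ ^ j), hm]; group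
    · rintro _ ⟨c, hc', rfl⟩
      have h3 : (c : M) • u = u := hu c hc'
      rw [coe_subtype, smul_div', smul_smul, (hc _ c.2 b hb).eq, mul_smul, h3]
  choose! w hw1 hw2 hw3 using fun H (h : Ω H) => h.2.2
  obtain ⟨f, hf⟩ := Countable.exists_injective_nat (Subgroup M)
  let Δ : Subgroup M → Prop := fun H => Ω H ∧ ((∀ x ∈ R, cj x H = H) ∨ ∃ x ∈ R, f (cj x H) < f H)
  have h0 : ∀ H H', Ω H → Ω H' → H' ≠ H → T H (w H') = 1 := fun H H' h1 h2 hne => by
    have h3 : ∀ h ∈ H', h • T H (w H') = _ := fun h hh => by rw [T4 H h1.1 h (h2.1 hh), hw2 H' h2 h hh]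
    have h4 := T5 H h1.1 _ (hw3 H' h2)
    by_cases h5 : H' ≤ H
    · obtain ⟨g, hg, hg'⟩ := SetLike.exists_of_lt (lt_of_le_of_ne h5 hne)
      exact fixB H' h2 g (h1.1 hg) hg' _ h3 (T2 H g hg _) h4
    · obtain ⟨g, hg, hg'⟩ := SetLike.not_le_iff_exists.1 h5
      exact fixB H h1 g (h2.1 hg) hg' _ (fun h hh => T2 H h hh _) (h3 g hg) h4
  refine ⟨∏ H ∈ Finset.univ.filter Δ, w H, fun g hg hv => ?_⟩
  have hTB : T B (∏ H ∈ Finset.univ.filter Δ, w H) = 1 := by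
    rw [map_prod]; exact Finset.prod_eq_one fun H hH => hw3 H (Finset.mem_filter.1 hH).2.1
  have supp : ∀ H, Ω H → (Δ H ↔ T H (∏ H ∈ Finset.univ.filter Δ, w H) ≠ 1) := fun H hH => by
    rw [map_prod]
    refine ⟨fun h => ?_, fun h => by_contra fun h1 => h (Finset.prod_eq_one fun H' hH' =>
      h0 H H' hH (Finset.mem_filter.1 hH').2.1 fun e => h1 (e ▸ (Finset.mem_filter.1 hH').2))⟩
    rw [Finset.prod_eq_single_of_mem H (by simpa using h) fun H' hH' => h0 H H' hH (Finset.mem_filter.1 hH').2.1]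
    exact fun e => hw1 H hH (tors H hH.1 _ (hw2 H hH) e)
  generalize ∏ H ∈ Finset.univ.filter Δ, w H = v at *
  refine ⟨fun b hb => mul_inv_eq_iff_eq_mul.1 (mul_inv_eq_one.1 (gen _ (hz g hg b hb).1 fun H hH => ?_)),
    fun hgB => gen g hgB fun H hH => ?_⟩
  · obtain ⟨x, hx, hm⟩ := Set.exists_min_image (R : Set M) (fun x => f (cj x H)) (Set.toFinite _) ⟨1, one_mem R⟩
    have h1 := hΩ x hx H hH
    have h2 : ∀ y ∈ R, f (cj x H) ≤ f (cj y (cj x H)) := fun y hy => by rw [cj_cj]; exact hm _ (mul_mem hx hy)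
    have h3 : cj g (cj x H) = cj x H := by
      by_cases h4 : Δ (cj x H)
      · exact h4.2.resolve_right (fun ⟨y, hy, e⟩ => e.not_ge (h2 y hy)) g hg
      · rw [supp _ h1, ← hs g⁻¹, ← hv, ← T1, ← supp _ (hΩ g hg _ h1)] at h4
        refine hf (le_antisymm (not_lt.1 fun e => h4 ⟨hΩ g hg _ h1, .inr ⟨g⁻¹, inv_mem hg, ?_⟩⟩) (h2 g hg))
        rwa [cj_cj g, mul_inv_cancel, cj_one]
    obtain ⟨h4, h5⟩ := hz g hg b hb
    rw [← mul_inv_cancel_right (g * b * g⁻¹ * b⁻¹) x, ← (h5 x hx).eq, ← mem_cj]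
    by_contra h6
    obtain ⟨h, hh, i, e⟩ := h1.2.1 _ h4 h6 b hb
    generalize hz' : g * b * g⁻¹ * b⁻¹ = z at *
    refine h6 (hz' ▸ (?_ : g * b * g⁻¹ * b⁻¹ = g * h * g⁻¹ * h⁻¹) ▸ mul_mem (h3.ge hh) (inv_mem hh))
    calc _ = g * h * (z ^ i * g⁻¹) * (z ^ i)⁻¹ * h⁻¹ := by rw [e]; group
      _ = _ := by rw [← ((h5 _ (inv_mem hg)).pow_right i).eq]; group
  have h1 : ∀ H, Δ H → g ∈ H := fun H hH => by_contra fun h1 => (supp H hH.1).1 hH
    (fixB H hH.1 g hgB h1 _ (fun h hh => T2 H h hh v) (by rw [T4 H hH.1.1 g hgB, hv]) (T5 H hH.1.1 v hTB))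
  refine by_contra fun h2 => ?_
  have h3 := mt (h1 H) h2
  simp only [Δ, hH, true_and, not_or, not_forall, not_exists, not_and, not_lt] at h3
  obtain ⟨⟨e, he, h3⟩, h4⟩ := h3
  have h5 : ∀ x ∈ R, cj x H ≠ H → x * g * x⁻¹ ∈ H := fun x hx h5 => h1 _ ⟨hΩ x hx H hH, .inr ⟨x⁻¹, inv_mem hx, by
    rw [cj_cj, mul_inv_cancel, cj_one]; exact lt_of_le_of_ne (h4 x hx) (hf.ne h5.symm)⟩⟩
  have h6 := h5 (e ^ 2) (pow_mem he 2) fun h6 => h3 (by
    obtain ⟨k, hk⟩ := hR ⟨e, he⟩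
    obtain ⟨m, hm⟩ := exists_pow_eq_self_of_coprime (x := e) (n := 2) ((((Nat.coprime_primes Nat.prime_two hp).2
      hp2.symm).pow_right k).coprime_dvd_right (orderOf_dvd_of_pow_eq_one (congrArg Subtype.val hk)))
    rw [← hm]
    clear hm
    induction m with
    | zero => rw [pow_zero, cj_one]
    | succ m ih => rw [pow_succ, ← cj_cj, ih, h6])
  have h7 := h5 e he h3
  obtain ⟨z, hz', h8⟩ : ∃ z, e * g * e⁻¹ = z * g ∧ Commute e z := ⟨_, by group, (hz e he g hgB).2 e he⟩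
  have h9 : e ^ 2 * g * (e ^ 2)⁻¹ = z * (z * g) := by
    calc _ = e * (e * g * e⁻¹) * e⁻¹ := by simp [pow_two, mul_assoc]
      _ = _ := by rw [hz', ← mul_assoc, h8.eq, ← hz']; group
  rw [h9, H.mul_mem_cancel_right (hz' ▸ h7)] at h6
  exact h2 ((H.mul_mem_cancel_left h6).1 (hz' ▸ h7))

theorem str {M V : Type*} [Group M] [Finite M] [CommGroup V] [Finite V] [MulDistribMulAction M V] {p : ℕ}
    (hp : p.Prime) (hp2 : p ≠ 2) (faith : ∀ g : M, (∀ v : V, g • v = v) → g = 1) (hV : (Nat.card V).Coprime p)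
    {P : Subgroup M} [P.Normal] (hP : IsPGroup p P) {a : M} (haP : a ∈ P) (ha : a ^ p = 1) (ha1 : a ≠ 1) :
    ∃ v : V, ∀ x : M, (x * a * x⁻¹) • v ≠ v := by
  have := Fact.mk hp
  obtain ⟨R, hN, hR, haR, gen⟩ : ∃ R : Subgroup M, R.Normal ∧ IsPGroup p R ∧ a ∈ R ∧
      ∀ K : Subgroup M, (∀ x, x * a * x⁻¹ ∈ K) → R ≤ K :=
    ⟨normalClosure {a}, inferInstance, hP.to_le (normalClosure_le_normal (by simpa)), subset_normalClosure rfl,
      fun K hK => (closure_le K).2 fun y hy => by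
        obtain ⟨b, rfl, hb⟩ := Group.mem_conjugatesOfSet_iff.1 hy
        obtain ⟨x, rfl⟩ := isConj_iff.1 hb
        exact hK x⟩
  have hd : ∀ x, (x * a * x⁻¹) ^ p = 1 := fun x => by rw [conj_pow, ha]; simp
  by_cases h : ⁅R, R⁆ ≤ centralizer (R : Set M)
  · have h1 : ∀ x ∈ R, ∀ y ∈ R, ∀ g ∈ R, Commute g (x * y * x⁻¹ * y⁻¹) := fun x hx y hy g hg =>
      h (commutator_mem_commutator hx hy) g hg
    let K : Subgroup M :=
      { carrier := {g | g ∈ R ∧ g ^ p = 1}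
        one_mem' := ⟨one_mem R, one_pow p⟩
        mul_mem' := fun {x y} hx hy => ⟨mul_mem hx.1 hy.1,
          (pw' hp hp2 (h1 _ hy.1 _ hx.1 _ hx.1) (h1 _ hy.1 _ hx.1 _ hy.1) hy.2).trans hx.2⟩
        inv_mem' := fun {x} hx => ⟨inv_mem hx.1, by rw [inv_pow, hx.2, inv_one]⟩ }
    have h2 := gen K fun x => ⟨hN.conj_mem a haR x, hd x⟩
    obtain ⟨B, ⟨h3, h4⟩, h5⟩ := (wellFounded_gt (α := Subgroup M)).has_min
      {B | B ≤ R ∧ B ≤ centralizer (B : Set M)} ⟨⊥, bot_le, bot_le⟩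
    have h6 : ∀ g ∈ R, (∀ b ∈ B, Commute g b) → g ∈ B := fun g hg hc => by
      have h7 : zpowers g ≤ centralizer (B : Set M) := zpowers_le.2 fun b hb => (hc b hb).symm
      have h8 : B = B ⊔ zpowers g := le_sup_left.eq_of_not_lt (h5 _ ⟨sup_le h3 (zpowers_le.2 hg), sup_le
        (le_centralizer_iff.1 (sup_le h4 h7)) (le_centralizer_iff.1 (sup_le (le_centralizer_iff.1 h7) (le_centralizer _)))⟩)
      exact h8.ge (mem_sup_right (mem_zpowers g))
    obtain ⟨v, hv⟩ := core hp hp2 faith hV hR h3 (fun b hb => (h2 (h3 hb)).2) (fun b hb c hc => h4 hc b hb)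
      fun g hg b hb => ⟨h6 _ (mul_mem (hN.conj_mem b (h3 hb) g) (inv_mem (h3 hb))) fun c hc =>
        (h1 g hg b (h3 hb) c (h3 hc)).symm, h1 g hg b (h3 hb)⟩
    refine ⟨v, fun x e => ha1 ?_⟩
    obtain ⟨h7, h8⟩ := hv _ (hN.conj_mem a haR x) e
    simpa using h8 (h6 _ (hN.conj_mem a haR x) h7)
  obtain ⟨Y, ⟨hY, h1, h2⟩, h3⟩ := (wellFounded_lt (α := Subgroup M)).has_min
    {Y | Y.Normal ∧ Y ≤ R ∧ ¬ ⁅Y, R⁆ ≤ centralizer (R : Set M)} ⟨R, hN, le_rfl, h⟩
  have h4 : ⁅Y, R⁆ ≤ R := commutator_le_right Y R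
  have h5 : ⁅⁅Y, R⁆, R⁆ ≤ centralizer (R : Set M) := by_contra fun h5 => h3 _ ⟨inferInstance, h4, h5⟩
    (CA.Hyp.commutator_lt_of_isNilpotent hR.isNilpotent h1 (by rw [normalizer_eq_top]; exact le_top)
      fun e => h2 (by simp [e]))
  have h5' : ⁅R, ⁅Y, R⁆⁆ ≤ centralizer (R : Set M) := by rw [Subgroup.commutator_comm R]; exact h5
  have h6 : ⁅Y, R⁆ ≤ centralizer ((⁅Y, R⁆ : Subgroup M) : Set M) := (commutator_mono h1 le_rfl).trans
    (commutator_eq_bot_iff_le_centralizer.1 (commutator_commutator_eq_bot_of_rotate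
      (commutator_eq_bot_iff_le_centralizer.2 h5') (commutator_eq_bot_iff_le_centralizer.2 h5)))
  have h7 : ∀ g ∈ R, ∀ b ∈ ⁅Y, R⁆, ∀ x ∈ R, Commute x (g * b * g⁻¹ * b⁻¹) := fun g hg b hb x hx =>
    h5' (commutator_mem_commutator hg hb) x hx
  let B : Subgroup M :=
    { carrier := {g | g ∈ ⁅Y, R⁆ ∧ g ^ p = 1}
      one_mem' := ⟨one_mem _, one_pow p⟩
      mul_mem' := fun {x y} hx hy => ⟨mul_mem hx.1 hy.1, by
        rw [Commute.mul_pow (h6 hy.1 x hx.1), hx.2, hy.2, mul_one]⟩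
      inv_mem' := fun {x} hx => ⟨inv_mem hx.1, by rw [inv_pow, hx.2, inv_one]⟩ }
  have hB : B.Normal := ⟨fun x hx g => ⟨Normal.conj_mem inferInstance x hx.1 g, by rw [conj_pow, hx.2]; simp⟩⟩
  obtain ⟨v, hv⟩ := core hp hp2 faith hV hR (B := B) (fun b hb => h4 hb.1) (fun b hb => hb.2)
    (fun b hb c hc => h6 hc.1 b hb.1) fun g hg b hb => ⟨mul_mem (hB.conj_mem b hb g) (inv_mem hb), h7 g hg b hb.1⟩
  refine ⟨v, fun x e => h2 (commutator_le.2 fun y hy => ?_)⟩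
  have h8 : x * a * x⁻¹ ∈ centralizer (B : Set M) := fun b hb => ((hv _ (hN.conj_mem a haR x) e).1 b hb).symm
  have h9 : B ≤ centralizer (R : Set M) := le_centralizer_iff.1 (gen _ fun g => by
    simpa [mul_assoc] using Normal.conj_mem inferInstance _ h8 (g * x⁻¹))
  let K : Subgroup M :=
    { carrier := {g | y * g * y⁻¹ * g⁻¹ ∈ centralizer (R : Set M)}
      one_mem' := by simp
      mul_mem' := fun {g g'} (h1 : _ ∈ centralizer (R : Set M)) (h2 : _ ∈ centralizer (R : Set M)) => by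
        simpa [mul_assoc] using mul_mem h1 (Normal.conj_mem inferInstance _ h2 g)
      inv_mem' := fun {g} (h1 : _ ∈ centralizer (R : Set M)) => by
        simpa [mul_assoc] using Normal.conj_mem inferInstance _ (inv_mem h1) g⁻¹ }
  refine gen K fun g => h9 ?_
  have h10 := hN.conj_mem a haR g
  have h11 := commutator_mem_commutator hy h10
  refine ⟨h11, (pw' hp hp2 (h7 _ h10 _ h11 _ (h4 h11)) (h7 _ h10 _ h11 _ h10) (hd g)).symm.trans ?_⟩
  rw [commutatorElement_def, inv_mul_cancel_right, conj_pow, hd]; simp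

theorem main {p : ℕ} (hp : p.Prime) (hp2 : p ≠ 2) (n : ℕ) : ∀ (G : Type u) [Group G] [Finite G], Nat.card G = n →
    Group.IsSolvable G → ∀ a : G, (∃ k, a ^ p ^ k = 1) →
    (∀ c, ∃ g, IsConj c g ∧ ∀ k : ℕ, ∃ m, (a ^ k * g * (a ^ k)⁻¹ * g⁻¹) ^ p ^ m = 1) → a ∈ pCore p G := by
  induction n using Nat.strong_induction_on with | _ n ih =>
  intro G _ _ hn hs a ha h
  have := Fact.mk hp
  by_cases h0 : (⊤ : Subgroup G) = ⊥
  · exact (h0.le.trans bot_le) (mem_top a)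
  obtain ⟨N, r, hN, -, h1, h2, hr, h3, -⟩ := CA.FpfRed.exists_minimal_normal (G := (⊤ : Subgroup G)) inferInstance h0
  have h4 := ih _ (by
    rw [← hn, ← N.card_mul_index]
    exact lt_mul_of_one_lt_left (Nat.pos_of_ne_zero N.index_ne_zero_of_finite) ((one_lt_card_iff_ne_bot _).2 h1))
    (G ⧸ N) rfl inferInstance (QuotientGroup.mk' N a) (ha.imp fun k e => by rw [← map_pow, e, map_one]) fun c => by
      obtain ⟨c, rfl⟩ := QuotientGroup.mk'_surjective N c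
      obtain ⟨g, h5, h6⟩ := h c
      exact ⟨_, (QuotientGroup.mk' N).map_isConj h5, fun k => (h6 k).imp fun m e => by
        simpa only [map_pow, map_mul, map_inv, map_one] using congrArg (QuotientGroup.mk' N) e⟩
  have hNr : IsPGroup r N := fun x => ⟨1, Subtype.ext (by simpa using h3 x x.2)⟩
  by_cases hrp : r = p
  · subst hrp
    exact (comap_mk_pCore N hNr).le h4
  have hco := (Nat.coprime_primes hr hp).2 hrp
  have h5 : ∀ x ∈ N, Commute a x := by
    let φ : G →* MulAut N := MulAut.conjNormal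
    have hφ : N ≤ φ.rangeRestrict.ker := fun x hx => Subtype.ext (MulEquiv.ext fun y => Subtype.ext
      (mul_inv_eq_iff_eq_mul.2 (congrArg Subtype.val (h2.is_comm.comm ⟨x, hx⟩ y))))
    let ψ := QuotientGroup.lift N φ.rangeRestrict hφ
    have hψ : Function.Surjective ψ := fun y => by
      obtain ⟨x, rfl⟩ := φ.rangeRestrict_surjective y
      exact ⟨x, rfl⟩
    have h6 : φ.rangeRestrict a ∈ pCore p φ.range := map_pCore_le ψ hψ (mem_map_of_mem ψ h4)
    by_contra! h7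
    obtain ⟨x, hx, h7⟩ := h7
    obtain ⟨k, hk⟩ := ha
    obtain ⟨j, h8, h9⟩ := exists_orderOf_eq_prime_pow_iff.trans Iff.rfl |>.2 (⟨k, by rw [← map_pow, hk, map_one]⟩ :
      ∃ k, φ.rangeRestrict a ^ p ^ k = 1) |> fun ⟨j, hj⟩ => (show ∃ j : ℕ, φ.rangeRestrict a ^ j ≠ 1 ∧
        (φ.rangeRestrict a ^ j) ^ p = 1 from by
          rcases j with _ | j
          · exact (h7 (mul_inv_eq_iff_eq_mul.1 (congrArg Subtype.val (DFunLike.congr_fun (congrArg Subtype.val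
              (orderOf_eq_one_iff.1 hj)) (⟨x, hx⟩ : N))))).elim
          · exact ⟨p ^ j, pow_ne_one_of_lt_orderOf (pow_ne_zero _ hp.ne_zero) (hj ▸ Nat.pow_lt_pow_right hp.one_lt
              j.lt_succ_self), by rw [← pow_mul, ← pow_succ, ← hj, pow_orderOf_eq_one]⟩)
    have := Fact.mk hr
    obtain ⟨i, hi⟩ := hNr.exists_card_eq
    obtain ⟨v, hv⟩ := @str φ.range N _ _ IsMulCommutative.instCommGroup _ (inferInstanceAs (MulDistribMulAction φ.range N))
      p hp hp2 (fun g hg => Subtype.ext (MulEquiv.ext hg)) (hi ▸ hco.pow_left i) _ _ isPGroup_pCore _ (pow_mem h6 j) h9 h8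
    obtain ⟨g, h10, h11⟩ := h v
    obtain ⟨y, rfl⟩ := isConj_iff.1 h10
    obtain ⟨m, hm⟩ := h11 j
    have h12 := hN.conj_mem _ v.2 y
    have h13 := orderOf_eq_one_iff.1 (Nat.eq_one_of_dvd_coprimes (hco.pow_right m) (orderOf_dvd_of_pow_eq_one
      (h3 _ (mul_mem (hN.conj_mem _ h12 (a ^ j)) (inv_mem h12)))) (orderOf_dvd_of_pow_eq_one hm))
    refine hv (φ.rangeRestrict y⁻¹) ?_
    rw [← map_pow, ← map_inv, ← map_mul, ← map_mul]
    refine Subtype.ext (?_ : y⁻¹ * a ^ j * y⁻¹⁻¹ * v * (y⁻¹ * a ^ j * y⁻¹⁻¹)⁻¹ = v)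
    calc _ = y⁻¹ * (a ^ j * (y * v * y⁻¹) * (a ^ j)⁻¹ * (y * v * y⁻¹)⁻¹) * y * v := by group
      _ = _ := by rw [h13]; group
  rw [CA.Fitting.pCore_eq_iInf_sylow, mem_iInf]
  intro P
  obtain ⟨u, hu, e⟩ := CA.Fitting.pCore_le_sylow (P.mapSurjective (QuotientGroup.mk'_surjective N)) h4
  have h6 : a⁻¹ * u ∈ N := QuotientGroup.eq.1 e.symm
  have h7 : u ^ r = a ^ r := by rw [← mul_inv_cancel_left a u, (h5 _ h6).mul_pow, h3 _ h6, mul_one]
  obtain ⟨k, hk⟩ := ha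
  obtain ⟨m, hm⟩ := exists_pow_eq_self_of_coprime (x := a) (n := r) ((hco.pow_right k).coprime_dvd_right
    (orderOf_dvd_of_pow_eq_one hk))
  exact hm ▸ h7 ▸ pow_mem (pow_mem hu r) m

/-- Let G be a finite solvable group, p an odd prime and A a p-subgroup of G such that every conjugacy class of G contains an element g for which A is subnormal in the subgroup generated by A and its conjugate by g. Then A is contained in O_p(G). (The hypothesis that p is odd is needed.) -/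
theorem result {G : Type*} [Group G] [Finite G]
    (hG : Group.IsSolvable G) (p : ℕ) [Fact p.Prime] (hp : p ≠ 2) (A : Subgroup G) (hA : IsPGroup p A)
    (h : ∀ c : G, ∃ g : G, IsConj c g ∧ (A.subgroupOf (A ⊔ MulAut.conj g • A)).IsSubnormal) :
    A ≤ Cfsg.pCore p G := by
  intro a ha
  refine main Fact.out hp _ G rfl hG a ((hA ⟨a, ha⟩).imp fun k e => congrArg Subtype.val e) fun c => ?_
  obtain ⟨g, h1, h2⟩ := h c
  have h3 := le_map_pCore_of_subnormal le_sup_left h2 hA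
  have h4 : IsPGroup p ↥((pCore p ↥(A ⊔ MulAut.conj g • A)).map (A ⊔ MulAut.conj g • A).subtype ⊔ MulAut.conj g • A) :=
    (isPGroup_map_pCore _).to_sup_of_normal_left' (hA.map _) (le_sup_right.trans (le_normalizer_map_pCore _))
  refine ⟨g, h1, fun k => (h4 ⟨_, ?_⟩).imp fun m e => congrArg Subtype.val e⟩
  have := mul_mem (mem_sup_left (h3 (pow_mem ha k))) (mem_sup_right (smul_mem_pointwise_smul _ (MulAut.conj g) A
    (inv_mem (pow_mem ha k))))
  simp only [MulAut.smul_def, MulAut.conj_apply, ← mul_assoc] at this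
  exact this

end Cfsg.Agent.S4330
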