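import Cfsg.Statements.S4331
import Mathlib.Tactic
import Cfsg.Agent.Lib.Grp.Subn

set_option autoImplicit false
open Cfsg

namespace Cfsg.Agent.S4331

/-- The group of semilinear affine maps of the field with nine elements, in coordinates. -/
def good (v : ZMod 3 × ZMod 3 × ZMod 3 × ZMod 3 × ZMod 3) : Prop :=
  (v.2.2.1 ≠ 0 ∨ v.2.2.2.1 ≠ 0) ∧ v.2.2.2.2 * v.2.2.2.2 = 1

instance : DecidablePred good := fun v => by unfold good; infer_instance

def GG : Type := {v : ZMod 3 × ZMod 3 × ZMod 3 × ZMod 3 × ZMod 3 // good v}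

instance : Fintype GG := by unfold GG; infer_instance
instance : DecidableEq GG := by unfold GG; infer_instance

theorem gmul : ∀ a b e a' b' e' : ZMod 3, (a ≠ 0 ∨ b ≠ 0) → e * e = 1 → (a' ≠ 0 ∨ b' ≠ 0) →
    e' * e' = 1 → (a * a' - b * e * b' ≠ 0 ∨ b * a' + a * e * b' ≠ 0) ∧ e * e' * (e * e') = 1 := by
  decide +kernel

theorem ginv : ∀ a b e : ZMod 3, (a ≠ 0 ∨ b ≠ 0) → e * e = 1 →
    (a * (a * a + b * b) ≠ 0 ∨ -(e * b * (a * a + b * b)) ≠ 0) ∧ e * e = 1 := by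
  decide +kernel

def gm (g h : GG) : GG :=
  ⟨(g.1.2.2.1 * h.1.1 - g.1.2.2.2.1 * g.1.2.2.2.2 * h.1.2.1 + g.1.1,
    g.1.2.2.2.1 * h.1.1 + g.1.2.2.1 * g.1.2.2.2.2 * h.1.2.1 + g.1.2.1,
    g.1.2.2.1 * h.1.2.2.1 - g.1.2.2.2.1 * g.1.2.2.2.2 * h.1.2.2.2.1,
    g.1.2.2.2.1 * h.1.2.2.1 + g.1.2.2.1 * g.1.2.2.2.2 * h.1.2.2.2.1,
    g.1.2.2.2.2 * h.1.2.2.2.2), gmul _ _ _ _ _ _ g.2.1 g.2.2 h.2.1 h.2.2⟩

def gi (g : GG) : GG :=
  ⟨(-((g.1.2.2.1 * g.1.1 + g.1.2.2.2.1 * g.1.2.1) *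
      (g.1.2.2.1 * g.1.2.2.1 + g.1.2.2.2.1 * g.1.2.2.2.1)),
    -(g.1.2.2.2.2 * (g.1.2.2.1 * g.1.2.1 - g.1.2.2.2.1 * g.1.1) *
      (g.1.2.2.1 * g.1.2.2.1 + g.1.2.2.2.1 * g.1.2.2.2.1)),
    g.1.2.2.1 * (g.1.2.2.1 * g.1.2.2.1 + g.1.2.2.2.1 * g.1.2.2.2.1),
    -(g.1.2.2.2.2 * g.1.2.2.2.1 * (g.1.2.2.1 * g.1.2.2.1 + g.1.2.2.2.1 * g.1.2.2.2.1)),
    g.1.2.2.2.2), ginv _ _ _ g.2.1 g.2.2⟩

def g1 : GG := ⟨(0, 0, 1, 0, 1), by decide⟩

theorem gi_gm : ∀ g : GG, gm (gi g) g = g1 := by decide +kernel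
theorem g1_gm : ∀ g : GG, gm g1 g = g := by decide +kernel

theorem gm_assoc (g h k : GG) : gm (gm g h) k = gm g (gm h k) := by
  obtain ⟨⟨x, y, a, b, e⟩, h1, h2⟩ := g
  obtain ⟨⟨x', y', a', b', e'⟩, h1'⟩ := h
  obtain ⟨⟨x'', y'', a'', b'', e''⟩, h1''⟩ := k
  apply Subtype.ext
  simp only [gm, Prod.mk.injEq] at h2 ⊢
  refine ⟨?_, ?_, ?_, ?_, ?_⟩
  · linear_combination (-(a * b' * e' * y'')) * h2
  · linear_combination (-(b * b' * e' * y'')) * h2
  · linear_combination (-(a * b' * e' * b'')) * h2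
  · linear_combination (-(b * b' * e' * b'')) * h2
  · ring

instance : Mul GG := ⟨gm⟩
instance : One GG := ⟨g1⟩
instance : Inv GG := ⟨gi⟩
instance : Group GG := Group.ofLeftAxioms gm_assoc g1_gm gi_gm

def ra : GG := ⟨(0, 0, 1, 0, -1), by decide⟩
def tr : GG := ⟨(0, 1, 1, 0, 1), by decide⟩

theorem cls : ∀ c : GG, ∃ h : GG, ((h * c * h⁻¹).1.1 = 0 ∧ (h * c * h⁻¹).1.2.1 = 0) ∨
    ra * (h * c * h⁻¹) = (h * c * h⁻¹) * ra := by decide +kernel

def SS : Subgroup GG where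
  carrier := {g | g.1.1 = 0 ∧ g.1.2.1 = 0}
  mul_mem' := fun {g h} hg hh => by
    have h1 := hg.1; have h2 := hg.2; have h3 := hh.1; have h4 := hh.2
    constructor
    · show (gm g h).1.1 = 0
      simp [gm, h1, h3, h4]
    · show (gm g h).1.2.1 = 0
      simp [gm, h2, h3, h4]
  one_mem' := ⟨rfl, rfl⟩
  inv_mem' := fun {g} hg => by
    have h1 := hg.1; have h2 := hg.2
    constructor
    · show (gi g).1.1 = 0
      simp [gi, h1, h2]
    · show (gi g).1.2.1 = 0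
      simp [gi, h1, h2]

theorem tt1 : ∀ g : GG, g.1.2.2 = (1, 0, 1) → ∀ h : GG, h.1.2.2 = (1, 0, 1) →
    (g * h).1.2.2 = (1, 0, 1) := by decide +kernel
theorem tt2 : ∀ g : GG, g.1.2.2 = (1, 0, 1) → (g⁻¹).1.2.2 = (1, 0, 1) ∧ g * g * g = 1 ∧
    ∀ h : GG, (h * g * h⁻¹).1.2.2 = (1, 0, 1) := by decide +kernel
theorem ss8 : ∀ g : GG, g.1.1 = 0 → g.1.2.1 = 0 → g * g * g * g * g * g * g * g = 1 := by
  decide +kernel
theorem dec : ∀ g : GG, ∃ s : GG, (s.1.1 = 0 ∧ s.1.2.1 = 0) ∧ (g * s⁻¹).1.2.2 = (1, 0, 1) := by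
  decide +kernel

def TT : Subgroup GG where
  carrier := {g | g.1.2.2 = (1, 0, 1)}
  mul_mem' := fun {g h} hg hh => tt1 g hg h hh
  one_mem' := rfl
  inv_mem' := fun {g} hg => (tt2 g hg).1

instance : TT.Normal := ⟨fun g hg h => (tt2 g hg).2.2 h⟩

theorem SS_p : IsPGroup 2 SS := fun g => ⟨3, Subtype.ext (by
  have := ss8 g.1 g.2.1 g.2.2
  simpa [pow_succ] using this)⟩

theorem TT_p : IsPGroup 3 TT := fun g => ⟨1, Subtype.ext (by
  have := (tt2 g.1 g.2).2.1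
  simpa [pow_succ] using this)⟩

/-- There is a finite solvable group G with a subgroup A of order 2 such that every conjugacy class of G contains an element g for which A is subnormal in the subgroup generated by A and g, and yet A is not contained in O_2(G). (So the corresponding criteria for odd primes fail at the prime 2, even for solvable groups.) -/
theorem result :
    ∃ (G : Type) (_ : Group G) (_ : Finite G) (A : Subgroup G), Group.IsSolvable G ∧ Nat.card A = 2 ∧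
      (∀ c : G, ∃ g : G, IsConj c g ∧ (A.subgroupOf (A ⊔ Subgroup.zpowers g)).IsSubnormal) ∧
      ¬ A ≤ Cfsg.pCore 2 G := by
  haveI : Fact (Nat.Prime 3) := ⟨Nat.prime_three⟩
  refine ⟨GG, inferInstance, inferInstance, Subgroup.zpowers ra, ?_, ?_, ?_, ?_⟩
  · have h := CA.Core.isSolvable_sup_normal (CA.Core.isSolvable_of_isPGroup SS_p)
      (CA.Core.isSolvable_of_isPGroup TT_p)
    have ht : SS ⊔ TT = ⊤ := by
      rw [eq_top_iff]
      intro g _
      obtain ⟨s, hs, h2⟩ := dec g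
      have : g = g * s⁻¹ * s := by group
      rw [this]
      exact Subgroup.mul_mem _ (Subgroup.mem_sup_right h2) (Subgroup.mem_sup_left hs)
    rw [ht] at h
    exact CA.Core.isSolvable_of_equiv Subgroup.topEquiv h
  · rw [Nat.card_zpowers]
    exact orderOf_eq_prime (by rw [sq]; decide +kernel) (by decide +kernel)
  · intro c
    obtain ⟨h, hh⟩ := cls c
    refine ⟨h * c * h⁻¹, isConj_iff.2 ⟨h, rfl⟩, ?_⟩
    rcases hh with hh | hh
    · have hle : Subgroup.zpowers ra ⊔ Subgroup.zpowers (h * c * h⁻¹) ≤ SS :=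
        sup_le (Subgroup.zpowers_le.2 ⟨rfl, rfl⟩) (Subgroup.zpowers_le.2 hh)
      exact CA.Subn.subnormal_of_isNilpotent (SS_p.to_le hle).isNilpotent _
    · apply Subgroup.Normal.isSubnormal
      rw [Subgroup.normal_subgroupOf_iff_le_normalizer le_sup_left, sup_le_iff]
      refine ⟨Subgroup.le_normalizer, ?_⟩
      rw [Subgroup.zpowers_le]
      apply Subgroup.centralizer_le_normalizer
      rw [Subgroup.mem_centralizer_iff]
      rintro _ ⟨k, rfl⟩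
      exact (Commute.zpow_left hh k).eq
  · intro h
    have h1 : ra ∈ pCore 2 GG := h (Subgroup.mem_zpowers _)
    have h2 := Subgroup.mul_mem _ h1 ((inferInstance : (pCore 2 GG).Normal).conj_mem _ h1 tr)
    have h3 : ra * (tr * ra * tr⁻¹) ∈ TT := by
      show _ = _
      decide +kernel
    have h4 := IsPGroup.disjoint_of_ne 2 3 (by norm_num) _ _ (CA.Core.isPGroup_pCore (p := 2) (G := GG)) TT_p
    have h5 := (Subgroup.disjoint_def.1 h4) h2 h3
    exact absurd h5 (by decide +kernel)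

end Cfsg.Agent.S4331
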