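import Cfsg.Statements.S4332
import Mathlib.Tactic

set_option autoImplicit false
open Pointwise
open Cfsg

namespace Cfsg.Agent.S4332

open Equiv

def inT (a b d x : ℕ) : Bool := Nat.beq x a || Nat.beq x b || Nat.beq x d

def ok (a b d x y z : ℕ) : Bool :=
  cond (inT a b d x) (inT a b d y && inT a b d z) (!inT a b d y && !inT a b d z)

def R : List ℕ := [0, 1, 2, 3, 4, 5, 6, 7]

def chk : Bool :=
  R.all fun x0 =>
  R.all fun x1 => Nat.beq x1 x0 ||
  R.all fun x2 => Nat.beq x2 x0 || Nat.beq x2 x1 || ok 0 1 2 x0 x1 x2 ||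
  R.all fun x3 => Nat.beq x3 x0 || Nat.beq x3 x1 || Nat.beq x3 x2 || ok 0 1 3 x0 x1 x3 ||
    ok 0 2 3 x0 x2 x3 || ok 1 2 3 x1 x2 x3 ||
  R.all fun x4 => Nat.beq x4 x0 || Nat.beq x4 x1 || Nat.beq x4 x2 || Nat.beq x4 x3 ||
    ok 0 1 4 x0 x1 x4 || ok 0 2 4 x0 x2 x4 || ok 0 3 4 x0 x3 x4 || ok 1 2 4 x1 x2 x4 ||
    ok 1 3 4 x1 x3 x4 || ok 2 3 4 x2 x3 x4 ||
  R.all fun x5 => Nat.beq x5 x0 || Nat.beq x5 x1 || Nat.beq x5 x2 || Nat.beq x5 x3 ||
    Nat.beq x5 x4 || ok 0 1 5 x0 x1 x5 || ok 0 2 5 x0 x2 x5 || ok 0 3 5 x0 x3 x5 ||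
    ok 0 4 5 x0 x4 x5 || ok 1 2 5 x1 x2 x5 || ok 1 3 5 x1 x3 x5 || ok 1 4 5 x1 x4 x5 ||
    ok 2 3 5 x2 x3 x5 || ok 2 4 5 x2 x4 x5 || ok 3 4 5 x3 x4 x5 ||
  R.all fun x6 => Nat.beq x6 x0 || Nat.beq x6 x1 || Nat.beq x6 x2 || Nat.beq x6 x3 ||
    Nat.beq x6 x4 || Nat.beq x6 x5 || ok 0 1 6 x0 x1 x6 || ok 0 2 6 x0 x2 x6 ||
    ok 0 3 6 x0 x3 x6 || ok 0 4 6 x0 x4 x6 || ok 0 5 6 x0 x5 x6 || ok 1 2 6 x1 x2 x6 ||
    ok 1 3 6 x1 x3 x6 || ok 1 4 6 x1 x4 x6 || ok 1 5 6 x1 x5 x6 || ok 2 3 6 x2 x3 x6 ||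
    ok 2 4 6 x2 x4 x6 || ok 2 5 6 x2 x5 x6 || ok 3 4 6 x3 x4 x6 || ok 3 5 6 x3 x5 x6 ||
    ok 4 5 6 x4 x5 x6 ||
  R.all fun x7 => Nat.beq x7 x0 || Nat.beq x7 x1 || Nat.beq x7 x2 || Nat.beq x7 x3 ||
    Nat.beq x7 x4 || Nat.beq x7 x5 || Nat.beq x7 x6 || ok 0 1 7 x0 x1 x7 || ok 0 2 7 x0 x2 x7 ||
    ok 0 3 7 x0 x3 x7 || ok 0 4 7 x0 x4 x7 || ok 0 5 7 x0 x5 x7 || ok 0 6 7 x0 x6 x7 ||
    ok 1 2 7 x1 x2 x7 || ok 1 3 7 x1 x3 x7 || ok 1 4 7 x1 x4 x7 || ok 1 5 7 x1 x5 x7 ||
    ok 1 6 7 x1 x6 x7 || ok 2 3 7 x2 x3 x7 || ok 2 4 7 x2 x4 x7 || ok 2 5 7 x2 x5 x7 ||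
    ok 2 6 7 x2 x6 x7 || ok 3 4 7 x3 x4 x7 || ok 3 5 7 x3 x5 x7 || ok 3 6 7 x3 x6 x7 ||
    ok 4 5 7 x4 x5 x7 || ok 4 6 7 x4 x6 x7 || ok 5 6 7 x5 x6 x7 ||
  false

theorem brute : chk = true := by
  decide +kernel

theorem inT_iff (a b d x : Fin 8) : inT a b d x = true ↔ (x = a ∨ x = b ∨ x = d) := by
  simp [inT, Nat.beq_eq, Fin.ext_iff, or_assoc]

theorem exT0 (c : Perm (Fin 8)) : ∃ a b d : Fin 8, a < b ∧ b < d ∧
    ok a b d (c a) (c b) (c d) = true := by
  have hR : ∀ x : Fin 8, (x : ℕ) ∈ R := by decide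
  have hne : ∀ i j : Fin 8, i ≠ j → Nat.beq (c i) (c j) = true → False := fun i j h1 h2 =>
    h1 (c.injective (Fin.ext (Nat.eq_of_beq_eq_true h2)))
  have h := brute
  simp only [chk, Bool.or_assoc] at h
  replace h := List.all_eq_true.1 h (c 0) (hR _)
  replace h := List.all_eq_true.1 h (c 1) (hR _)
  rcases Bool.or_eq_true_iff.1 h with h | h
  · exact (hne 1 0 (by decide) h).elim
  replace h := List.all_eq_true.1 h (c 2) (hR _)
  rcases Bool.or_eq_true_iff.1 h with h | h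
  · exact (hne 2 0 (by decide) h).elim
  rcases Bool.or_eq_true_iff.1 h with h | h
  · exact (hne 2 1 (by decide) h).elim
  rcases Bool.or_eq_true_iff.1 h with h | h
  · exact ⟨0, 1, 2, by decide, by decide, h⟩
  replace h := List.all_eq_true.1 h (c 3) (hR _)
  rcases Bool.or_eq_true_iff.1 h with h | h
  · exact (hne 3 0 (by decide) h).elim
  rcases Bool.or_eq_true_iff.1 h with h | h
  · exact (hne 3 1 (by decide) h).elim
  rcases Bool.or_eq_true_iff.1 h with h | h
  · exact (hne 3 2 (by decide) h).elim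
  rcases Bool.or_eq_true_iff.1 h with h | h
  · exact ⟨0, 1, 3, by decide, by decide, h⟩
  rcases Bool.or_eq_true_iff.1 h with h | h
  · exact ⟨0, 2, 3, by decide, by decide, h⟩
  rcases Bool.or_eq_true_iff.1 h with h | h
  · exact ⟨1, 2, 3, by decide, by decide, h⟩
  replace h := List.all_eq_true.1 h (c 4) (hR _)
  rcases Bool.or_eq_true_iff.1 h with h | h
  · exact (hne 4 0 (by decide) h).elim
  rcases Bool.or_eq_true_iff.1 h with h | h
  · exact (hne 4 1 (by decide) h).elim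
  rcases Bool.or_eq_true_iff.1 h with h | h
  · exact (hne 4 2 (by decide) h).elim
  rcases Bool.or_eq_true_iff.1 h with h | h
  · exact (hne 4 3 (by decide) h).elim
  rcases Bool.or_eq_true_iff.1 h with h | h
  · exact ⟨0, 1, 4, by decide, by decide, h⟩
  rcases Bool.or_eq_true_iff.1 h with h | h
  · exact ⟨0, 2, 4, by decide, by decide, h⟩
  rcases Bool.or_eq_true_iff.1 h with h | h
  · exact ⟨0, 3, 4, by decide, by decide, h⟩
  rcases Bool.or_eq_true_iff.1 h with h | h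
  · exact ⟨1, 2, 4, by decide, by decide, h⟩
  rcases Bool.or_eq_true_iff.1 h with h | h
  · exact ⟨1, 3, 4, by decide, by decide, h⟩
  rcases Bool.or_eq_true_iff.1 h with h | h
  · exact ⟨2, 3, 4, by decide, by decide, h⟩
  replace h := List.all_eq_true.1 h (c 5) (hR _)
  rcases Bool.or_eq_true_iff.1 h with h | h
  · exact (hne 5 0 (by decide) h).elim
  rcases Bool.or_eq_true_iff.1 h with h | h
  · exact (hne 5 1 (by decide) h).elim
  rcases Bool.or_eq_true_iff.1 h with h | h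
  · exact (hne 5 2 (by decide) h).elim
  rcases Bool.or_eq_true_iff.1 h with h | h
  · exact (hne 5 3 (by decide) h).elim
  rcases Bool.or_eq_true_iff.1 h with h | h
  · exact (hne 5 4 (by decide) h).elim
  rcases Bool.or_eq_true_iff.1 h with h | h
  · exact ⟨0, 1, 5, by decide, by decide, h⟩
  rcases Bool.or_eq_true_iff.1 h with h | h
  · exact ⟨0, 2, 5, by decide, by decide, h⟩
  rcases Bool.or_eq_true_iff.1 h with h | h
  · exact ⟨0, 3, 5, by decide, by decide, h⟩
  rcases Bool.or_eq_true_iff.1 h with h | h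
  · exact ⟨0, 4, 5, by decide, by decide, h⟩
  rcases Bool.or_eq_true_iff.1 h with h | h
  · exact ⟨1, 2, 5, by decide, by decide, h⟩
  rcases Bool.or_eq_true_iff.1 h with h | h
  · exact ⟨1, 3, 5, by decide, by decide, h⟩
  rcases Bool.or_eq_true_iff.1 h with h | h
  · exact ⟨1, 4, 5, by decide, by decide, h⟩
  rcases Bool.or_eq_true_iff.1 h with h | h
  · exact ⟨2, 3, 5, by decide, by decide, h⟩
  rcases Bool.or_eq_true_iff.1 h with h | h
  · exact ⟨2, 4, 5, by decide, by decide, h⟩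
  rcases Bool.or_eq_true_iff.1 h with h | h
  · exact ⟨3, 4, 5, by decide, by decide, h⟩
  replace h := List.all_eq_true.1 h (c 6) (hR _)
  rcases Bool.or_eq_true_iff.1 h with h | h
  · exact (hne 6 0 (by decide) h).elim
  rcases Bool.or_eq_true_iff.1 h with h | h
  · exact (hne 6 1 (by decide) h).elim
  rcases Bool.or_eq_true_iff.1 h with h | h
  · exact (hne 6 2 (by decide) h).elim
  rcases Bool.or_eq_true_iff.1 h with h | h
  · exact (hne 6 3 (by decide) h).elim
  rcases Bool.or_eq_true_iff.1 h with h | h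
  · exact (hne 6 4 (by decide) h).elim
  rcases Bool.or_eq_true_iff.1 h with h | h
  · exact (hne 6 5 (by decide) h).elim
  rcases Bool.or_eq_true_iff.1 h with h | h
  · exact ⟨0, 1, 6, by decide, by decide, h⟩
  rcases Bool.or_eq_true_iff.1 h with h | h
  · exact ⟨0, 2, 6, by decide, by decide, h⟩
  rcases Bool.or_eq_true_iff.1 h with h | h
  · exact ⟨0, 3, 6, by decide, by decide, h⟩
  rcases Bool.or_eq_true_iff.1 h with h | h
  · exact ⟨0, 4, 6, by decide, by decide, h⟩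
  rcases Bool.or_eq_true_iff.1 h with h | h
  · exact ⟨0, 5, 6, by decide, by decide, h⟩
  rcases Bool.or_eq_true_iff.1 h with h | h
  · exact ⟨1, 2, 6, by decide, by decide, h⟩
  rcases Bool.or_eq_true_iff.1 h with h | h
  · exact ⟨1, 3, 6, by decide, by decide, h⟩
  rcases Bool.or_eq_true_iff.1 h with h | h
  · exact ⟨1, 4, 6, by decide, by decide, h⟩
  rcases Bool.or_eq_true_iff.1 h with h | h
  · exact ⟨1, 5, 6, by decide, by decide, h⟩
  rcases Bool.or_eq_true_iff.1 h with h | h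
  · exact ⟨2, 3, 6, by decide, by decide, h⟩
  rcases Bool.or_eq_true_iff.1 h with h | h
  · exact ⟨2, 4, 6, by decide, by decide, h⟩
  rcases Bool.or_eq_true_iff.1 h with h | h
  · exact ⟨2, 5, 6, by decide, by decide, h⟩
  rcases Bool.or_eq_true_iff.1 h with h | h
  · exact ⟨3, 4, 6, by decide, by decide, h⟩
  rcases Bool.or_eq_true_iff.1 h with h | h
  · exact ⟨3, 5, 6, by decide, by decide, h⟩
  rcases Bool.or_eq_true_iff.1 h with h | h
  · exact ⟨4, 5, 6, by decide, by decide, h⟩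
  replace h := List.all_eq_true.1 h (c 7) (hR _)
  rcases Bool.or_eq_true_iff.1 h with h | h
  · exact (hne 7 0 (by decide) h).elim
  rcases Bool.or_eq_true_iff.1 h with h | h
  · exact (hne 7 1 (by decide) h).elim
  rcases Bool.or_eq_true_iff.1 h with h | h
  · exact (hne 7 2 (by decide) h).elim
  rcases Bool.or_eq_true_iff.1 h with h | h
  · exact (hne 7 3 (by decide) h).elim
  rcases Bool.or_eq_true_iff.1 h with h | h
  · exact (hne 7 4 (by decide) h).elim
  rcases Bool.or_eq_true_iff.1 h with h | h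
  · exact (hne 7 5 (by decide) h).elim
  rcases Bool.or_eq_true_iff.1 h with h | h
  · exact (hne 7 6 (by decide) h).elim
  rcases Bool.or_eq_true_iff.1 h with h | h
  · exact ⟨0, 1, 7, by decide, by decide, h⟩
  rcases Bool.or_eq_true_iff.1 h with h | h
  · exact ⟨0, 2, 7, by decide, by decide, h⟩
  rcases Bool.or_eq_true_iff.1 h with h | h
  · exact ⟨0, 3, 7, by decide, by decide, h⟩
  rcases Bool.or_eq_true_iff.1 h with h | h
  · exact ⟨0, 4, 7, by decide, by decide, h⟩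
  rcases Bool.or_eq_true_iff.1 h with h | h
  · exact ⟨0, 5, 7, by decide, by decide, h⟩
  rcases Bool.or_eq_true_iff.1 h with h | h
  · exact ⟨0, 6, 7, by decide, by decide, h⟩
  rcases Bool.or_eq_true_iff.1 h with h | h
  · exact ⟨1, 2, 7, by decide, by decide, h⟩
  rcases Bool.or_eq_true_iff.1 h with h | h
  · exact ⟨1, 3, 7, by decide, by decide, h⟩
  rcases Bool.or_eq_true_iff.1 h with h | h
  · exact ⟨1, 4, 7, by decide, by decide, h⟩
  rcases Bool.or_eq_true_iff.1 h with h | h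
  · exact ⟨1, 5, 7, by decide, by decide, h⟩
  rcases Bool.or_eq_true_iff.1 h with h | h
  · exact ⟨1, 6, 7, by decide, by decide, h⟩
  rcases Bool.or_eq_true_iff.1 h with h | h
  · exact ⟨2, 3, 7, by decide, by decide, h⟩
  rcases Bool.or_eq_true_iff.1 h with h | h
  · exact ⟨2, 4, 7, by decide, by decide, h⟩
  rcases Bool.or_eq_true_iff.1 h with h | h
  · exact ⟨2, 5, 7, by decide, by decide, h⟩
  rcases Bool.or_eq_true_iff.1 h with h | h
  · exact ⟨2, 6, 7, by decide, by decide, h⟩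
  rcases Bool.or_eq_true_iff.1 h with h | h
  · exact ⟨3, 4, 7, by decide, by decide, h⟩
  rcases Bool.or_eq_true_iff.1 h with h | h
  · exact ⟨3, 5, 7, by decide, by decide, h⟩
  rcases Bool.or_eq_true_iff.1 h with h | h
  · exact ⟨3, 6, 7, by decide, by decide, h⟩
  rcases Bool.or_eq_true_iff.1 h with h | h
  · exact ⟨4, 5, 7, by decide, by decide, h⟩
  rcases Bool.or_eq_true_iff.1 h with h | h
  · exact ⟨4, 6, 7, by decide, by decide, h⟩
  rcases Bool.or_eq_true_iff.1 h with h | h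
  · exact ⟨5, 6, 7, by decide, by decide, h⟩
  exact absurd h (by simp)

theorem exT (c : Perm (Fin 8)) : ∃ a b d : Fin 8, a < b ∧ b < d ∧
    ((∀ x, (x = a ∨ x = b ∨ x = d) → (c x = a ∨ c x = b ∨ c x = d)) ∨
      (∀ x, (x = a ∨ x = b ∨ x = d) → ¬ (c x = a ∨ c x = b ∨ c x = d))) := by
  obtain ⟨a, b, d, h1, h2, h⟩ := exT0 c
  refine ⟨a, b, d, h1, h2, ?_⟩
  unfold ok at h
  cases h0 : inT a b d (c a)
  · rw [h0] at h
    simp only [cond_false, Bool.and_eq_true, Bool.not_eq_true', ← Bool.not_eq_true, inT_iff] at h h0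
    right; rintro x (rfl | rfl | rfl)
    exacts [h0, h.1, h.2]
  · rw [h0] at h
    simp only [cond_true, Bool.and_eq_true, inT_iff] at h h0
    left; rintro x (rfl | rfl | rfl)
    exacts [h0, h.1, h.2]

theorem rot : ∀ a b d : Fin 8, a < b → b < d →
    Commute (swap a b * swap a d) (swap a b * swap a d) ∧
    Commute (swap a b * swap a d) (swap a d * swap a b) ∧
    Commute (swap a b * swap a d) (swap b a * swap b d) ∧
    Commute (swap a b * swap a d) (swap b d * swap b a) ∧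
    Commute (swap a b * swap a d) (swap d a * swap d b) ∧
    Commute (swap a b * swap a d) (swap d b * swap d a) := by
  unfold Commute SemiconjBy
  decide +kernel

theorem exC (c : Perm (Fin 8)) : ∃ τ : Perm (Fin 8), τ.IsThreeCycle ∧ Commute τ (c * τ * c⁻¹) := by
  obtain ⟨a, b, d, hab, hbd, h⟩ := exT c
  have had := hab.trans hbd
  refine ⟨swap a b * swap a d, Perm.isThreeCycle_swap_mul_swap_same hab.ne had.ne hbd.ne, ?_⟩
  have e : c * (swap a b * swap a d) * c⁻¹ = swap (c a) (c b) * swap (c a) (c d) := by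
    rw [swap_apply_apply, swap_apply_apply]; group
  rw [e]
  rcases h with h | h
  · have n1 : c a ≠ c b := c.injective.ne hab.ne
    have n2 : c a ≠ c d := c.injective.ne had.ne
    have n3 : c b ≠ c d := c.injective.ne hbd.ne
    obtain ⟨r1, r2, r3, r4, r5, r6⟩ := rot a b d hab hbd
    rcases h a (by simp) with h1 | h1 | h1 <;> rcases h b (by simp) with h2 | h2 | h2 <;>
      rcases h d (by simp) with h3 | h3 | h3 <;> rw [h1, h2] at n1 <;> rw [h1, h3] at n2 <;>
      rw [h2, h3] at n3 <;> rw [h1, h2, h3] <;> first | contradiction | assumption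
  · have hf : ∀ x, (x = a ∨ x = b ∨ x = d) → (swap a b * swap a d) (c x) = c x := fun x hx => by
      have := h x hx
      push Not at this
      rw [Perm.mul_apply, swap_apply_of_ne_of_ne this.1 this.2.2,
        swap_apply_of_ne_of_ne this.1 this.2.1]
    refine Commute.mul_right ?_ ?_
    · show _ = _
      rw [mul_swap_eq_swap_mul, hf a (by simp), hf b (by simp)]
    · show _ = _
      rw [mul_swap_eq_swap_mul, hf a (by simp), hf d (by simp)]

/-- In the symmetric group of degree 8, let A be the subgroup generated by a 3-cycle. Then every conjugacy class contains an element g for which A is subnormal in the subgroup generated by A and its conjugate by g, although O_3 of the symmetric group of degree 8 is trivial. -/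
theorem result
    (σ : Equiv.Perm (Fin 8)) (hσ : σ.IsThreeCycle) :
    (∀ c : Equiv.Perm (Fin 8), ∃ g : Equiv.Perm (Fin 8), IsConj c g ∧
      ((Subgroup.zpowers σ).subgroupOf (Subgroup.zpowers σ ⊔ MulAut.conj g • Subgroup.zpowers σ)).IsSubnormal) ∧
    Cfsg.pCore 3 (Equiv.Perm (Fin 8)) = ⊥ := by
  refine ⟨fun c => ?_, ?_⟩
  · obtain ⟨τ, hτ, hc⟩ := exC c
    obtain ⟨h, rfl⟩ := isConj_iff.1 (Perm.isConj_iff_cycleType_eq.2 (hτ.cycleType.trans hσ.cycleType.symm))
    refine ⟨h * c * h⁻¹, isConj_iff.2 ⟨h, rfl⟩, Subgroup.Normal.isSubnormal ?_⟩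
    rw [Subgroup.normal_subgroupOf_iff_le_normalizer le_sup_left, sup_le_iff]
    refine ⟨Subgroup.le_normalizer, ?_⟩
    have e := MonoidHom.map_zpowers (MulAut.conj (h * c * h⁻¹)).toMonoidHom (h * τ * h⁻¹)
    change Subgroup.map (MulAut.conj (h * c * h⁻¹)).toMonoidHom _ ≤ _
    rw [e, Subgroup.zpowers_le]
    apply Subgroup.centralizer_le_normalizer
    rw [Subgroup.mem_centralizer_iff]
    rintro _ ⟨k, rfl⟩
    refine (Commute.zpow_left ?_ k).eq
    have := hc.map (MulAut.conj h)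
    have e2 : (h * c * h⁻¹) * (h * τ * h⁻¹) * (h * c * h⁻¹)⁻¹ = h * (c * τ * c⁻¹) * h⁻¹ := by group
    change Commute _ ((h * c * h⁻¹) * (h * τ * h⁻¹) * (h * c * h⁻¹)⁻¹)
    rw [e2]
    exact this
  · rw [Cfsg.pCore, sSup_eq_bot]
    rintro N ⟨hN, hp⟩
    haveI hs : IsSimpleGroup (alternatingGroup (Fin 8)) := alternatingGroup.isSimpleGroup (by simp)
    have h2 : ∀ x ∈ N, x ^ 2 = 1 → x = 1 := fun x hx h => by
      obtain ⟨k, hk⟩ := hp ⟨x, hx⟩
      have hk' : x ^ 3 ^ k = 1 := congrArg Subtype.val hk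
      have := Nat.dvd_gcd (orderOf_dvd_of_pow_eq_one h) (orderOf_dvd_of_pow_eq_one hk')
      rw [(Nat.Coprime.pow_right k (by norm_num : Nat.Coprime 2 3))] at this
      exact orderOf_eq_one_iff.1 (Nat.dvd_one.1 this)
    rcases hs.eq_bot_or_eq_top_of_normal (N.subgroupOf (alternatingGroup (Fin 8))) inferInstance
      with h | h
    · rw [eq_bot_iff]
      intro x hx
      have : (⟨x ^ 2, by simp⟩ : alternatingGroup (Fin 8)) ∈ N.subgroupOf _ := N.pow_mem hx 2
      rw [h, Subgroup.mem_bot] at this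
      exact h2 x hx (congrArg Subtype.val this)
    · have : (⟨swap 0 1 * swap 2 3, by simp⟩ : alternatingGroup (Fin 8)) ∈ N.subgroupOf _ := by
        rw [h]; trivial
      exact absurd (h2 _ this (by decide)) (by decide)

end Cfsg.Agent.S4332
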