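import Cfsg.Statements.S4333
import Cfsg.Agent.Lib.Odd.BG1b
import Cfsg.Agent.Lib.Grp.Subn

set_option autoImplicit false
open Pointwise
open Cfsg

namespace Cfsg.Agent.S4333

open CA.BG CA.Subn Subgroup

universe u

theorem aux (n : ℕ) : ∀ {G : Type u} [Group G] [Finite G], Nat.card G ≤ n → ∀ A : Subgroup G,
    (∀ a ∈ A, ∀ g : G, SN A (A ⊔ cj (g⁻¹ * a * g) A)) → A.IsSubnormal := by
  induction n with
  | zero => intro G _ _ h; exact absurd h (Nat.card_pos.ne' ∘ Nat.le_zero.1)
  | succ n ih =>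
  intro G _ _ hn A h
  have h1 : ∀ H : Subgroup G, H ≠ ⊤ → A ≤ H → SN A H := fun H hH hA => by
    refine ⟨hA, ih (Nat.le_of_lt_succ (lt_of_lt_of_le ?_ hn)) _ fun a ha g => ?_⟩
    · simpa using card_lt_of_lt (lt_top_iff_ne_top.2 hH)
    · have : SN _ ((A ⊔ cj ((g⁻¹ * a * g : H) : G) A).subgroupOf H) := (h a ha g).subgroupOf H
      rwa [subgroupOf_sup hA (cj_le_of_mem (g⁻¹ * a * g).2 hA), cj_def,
        ← subgroupOf_map_conj (g⁻¹ * a * g)] at this
  by_contra hA
  have h2 : A ≠ ⊤ := by rintro rfl; exact hA IsSubnormal.top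
  obtain ⟨M, hM, hAM⟩ := exists_coatom_ge h2
  have h3 : 𝓝(M) = M := by
    refine ((hM.le_iff.1 (le_norm_self M)).resolve_left fun e => hA ?_)
    exact (h1 M hM.1 hAM).subnormal (normal_of_top_le_norm e.ge).isSubnormal
  have h4 : normalClosure (A : Set G) ≤ M := by
    refine closure_le _ |>.2 fun x hx => ?_
    obtain ⟨a, ha, hc⟩ := Group.mem_conjugatesOfSet_iff.1 hx
    obtain ⟨g, rfl⟩ := isConj_iff.1 hc
    have h5 := h a ha g⁻¹
    rw [inv_inv] at h5
    obtain ⟨K, hK, hle⟩ := exists_coatom_ge fun e => hA (SN.top_iff.1 (e ▸ h5))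
    obtain rfl := zipper A h1 hA hM hK hAM (le_sup_left.trans hle)
    have h6 := zipper A h1 hA (isCoatom_cj hM _) hM (cj_le_iff.1 (le_sup_right.trans hle)) hAM
    rw [← h3]
    exact inv_mem_iff.1 (mem_norm_iff_cj.2 h6)
  exact hA ((h1 _ (fun e => hM.1 (eq_top_iff.2 (e ▸ h4))) subset_normalClosure).subnormal
    (Normal.isSubnormal inferInstance))


/-- Let A be a subgroup of a finite group G. If A is subnormal in the subgroup generated by A and its conjugate by g⁻¹ a g, for every a ∈ A and every g ∈ G, then A is subnormal in G. (A sharpening of Wielandt's subnormality criterion: only conjugates of A by conjugates of elements of A are needed.) -/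
theorem result {G : Type*} [Group G] [Finite G]
    (A : Subgroup G)
    (h : ∀ a ∈ A, ∀ g : G, (A.subgroupOf (A ⊔ MulAut.conj (g⁻¹ * a * g) • A)).IsSubnormal) :
    A.IsSubnormal := by
  exact aux _ le_rfl A fun a ha g => ⟨le_sup_left, h a ha g⟩

end Cfsg.Agent.S4333
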