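import Cfsg.Statements.S4334
import Cfsg.Agent.Lib.Grp.NPC2
import Cfsg.Agent.Lib.Grp.Coprime
import Cfsg.Agent.Lib.Grp.Core

set_option autoImplicit false
open Cfsg

namespace Cfsg.Agent.S4334

open Subgroup CA.SylIn CA.PRes CA.Coprime

variable {G : Type*} [Group G] [Finite G]

theorem mem_cent {U Q : Subgroup G} {g : G} (hU : U ≤ centralizer (Q : Set G))
    (hg : g ∈ normalizer (Q : Set G)) (h : (orderOf g).Coprime U.index) :
    g ∈ centralizer (Q : Set G) := by
  have h1 := pow_index_mem (H := (centralizer (Q : Set G)).subgroupOf (normalizer (Q : Set G)))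
    ⟨g, hg⟩
  have h2 : ((centralizer (Q : Set G)).subgroupOf (normalizer (Q : Set G))).index ∣ U.index :=
    (relIndex_dvd_index_of_le (centralizer_le_normalizer _)).trans (index_dvd_of_le hU)
  obtain ⟨m, hm⟩ := exists_pow_eq_self_of_coprime (h.coprime_dvd_right h2).symm
  rw [← hm]
  exact pow_mem (mem_subgroupOf.1 h1) m

theorem conj_cent {A B Q : Subgroup G} {x : G} (h : x •ᶜ Q ≤ A) (hB : B ≤ centralizer (A : Set G)) :
    x⁻¹ •ᶜ B ≤ centralizer (Q : Set G) := by
  rw [conj_le_iff_le_inv_conj, inv_inv, conj_centralizer]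
  exact hB.trans (centralizer_le h)

/-- Hall and dominant. -/
def D (T : Subgroup G) : Prop :=
  (Nat.card T).Coprime T.index ∧
    ∀ K : Subgroup G, (Nat.card K).Coprime T.index → ∃ g : G, g •ᶜ K ≤ T

theorem step {p : ℕ} [hp : Fact p.Prime] {P T : Subgroup G} (hT : D T) (hP : IsSylowIn p P ⊤)
    (hc : P ≤ centralizer (T : Set G)) : D (P ⊔ T) := by
  have hn : P ≤ normalizer (T : Set G) := hc.trans (centralizer_le_normalizer _)
  obtain ⟨k, hk⟩ := hP.isPGroup.exists_card_eq
  have hPi : P.index.Coprime p := coprime_iff_not_dvd.2 (by simpa using hP.not_dvd)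
  have hcop : ∀ n : ℕ, n.Coprime p → n.Coprime (P ⊔ T).index → n.Coprime T.index := by
    intro n h1 h2
    rw [← relIndex_mul_index (le_sup_right : T ≤ P ⊔ T)]
    refine Nat.Coprime.mul_right ?_ h2
    refine Nat.Coprime.coprime_dvd_right (relIndex_dvd_card_of_le_sup hn le_rfl) ?_
    rw [hk]
    exact h1.pow_right k
  refine ⟨?_, fun K hK => ?_⟩
  · refine Nat.Coprime.coprime_dvd_left (CA.Rad.card_sup_dvd hn) (Nat.Coprime.mul_left ?_ ?_)
    · rw [hk]
      exact (hPi.symm.coprime_dvd_right (index_dvd_of_le le_sup_left)).pow_left k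
    · exact hT.1.coprime_dvd_right (index_dvd_of_le le_sup_right)
  · obtain ⟨R, hR⟩ := exists_isSylowIn p K
    have h1 : HasNormalPComplement p K := by
      refine CA.Hyperfocal.hasNPC_of_forall_le_in hR fun Q hQ _ g hg hgn hgo => ?_
      obtain ⟨x, -, hx⟩ := hP.exists_conj_le (hR.isPGroup.to_le hQ) le_top
      refine mem_cent (conj_cent hx (le_centralizer_iff.1 hc)) hgn ?_
      rw [index_conj]
      exact hcop _ hgo (hK.coprime_dvd_left (K.orderOf_dvd_natCard hg))
    let L : Subgroup G := (pResidual p K).map K.subtype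
    have hL : (Nat.card L).Coprime p := by
      rw [card_subtype]
      exact coprime_iff_not_dvd.2 (hasNPC_iff_not_dvd.1 h1)
    obtain ⟨g, hg⟩ := hT.2 L (hcop _ hL (hK.coprime_dvd_left (card_dvd_of_le (map_subtype_le _))))
    have h2 := conj_cent hg hc
    have h3 : R ≤ centralizer (L : Set G) := fun r hr => by
      refine mem_cent h2 (normalizer_le_normalizer_map_pResidual K (le_normalizer (hR.le hr))) ?_
      obtain ⟨j, hj⟩ := hR.isPGroup.exists_card_eq
      rw [index_conj]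
      refine Nat.Coprime.coprime_dvd_left (R.orderOf_dvd_natCard hr) ?_
      rw [hj]
      exact hPi.symm.pow_left j
    have h4 : IsSylowIn p (g⁻¹ •ᶜ P) (centralizer (L : Set G)) :=
      (hP.conj_of_mem (mem_top g⁻¹)).of_le h2 le_top
    obtain ⟨c, hcL, hcR⟩ := h4.exists_conj_le hR.isPGroup h3
    refine ⟨g * c, conj_le_iff.2 fun y hy => ?_⟩
    obtain ⟨n, hn', r, hr, rfl⟩ := exists_mul_eq_of_isSylowIn hR hy
    have e1 : c * n = n * c := (mem_centralizer_iff.1 hcL n hn').symm
    have e2 := mem_conj.1 (conj_le_iff.1 hcR r hr)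
    have : g * c * (n * r) * (g * c)⁻¹ = (g * n * g⁻¹) * (g⁻¹⁻¹ * (c * r * c⁻¹) * g⁻¹) := by
      calc g * c * (n * r) * (g * c)⁻¹ = g * (c * n) * r * c⁻¹ * g⁻¹ := by group
        _ = _ := by rw [e1]; group
    rw [this]
    exact mul_mem (mem_sup_right (conj_le_iff.1 hg n hn')) (mem_sup_left e2)

theorem ind (n : ℕ) : ∀ S T : Subgroup G, Nat.card S = n → Group.IsNilpotent S → D T →
    S ≤ centralizer (T : Set G) → (Nat.card S).Coprime (Nat.card T) →
    (Nat.card S).Coprime (S ⊔ T).index → D (S ⊔ T) := by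
  induction n using Nat.strong_induction_on with
  | _ n ih =>
  intro S T hn hS hT hc hcop hi
  by_cases h0 : S = ⊥
  · simpa [h0] using hT
  have h1 : Nat.card S ≠ 1 := fun h => h0 (card_eq_one.1 h)
  obtain ⟨p, hp, hpS⟩ := Nat.exists_prime_and_dvd h1
  haveI := Fact.mk hp
  obtain ⟨P, hP⟩ := exists_isSylowIn p S
  let L : Subgroup G := (pResidual p S).map S.subtype
  have hLS : L ≤ S := map_subtype_le _
  have hL : (Nat.card L).Coprime p := by
    rw [card_subtype]
    exact coprime_iff_not_dvd.2 (hasNPC_iff_not_dvd.1 (CA.NPC2.hasNPC_of_isNilpotent hS))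
  obtain ⟨k, hk⟩ := hP.isPGroup.exists_card_eq
  have hLP : L ≤ centralizer (P : Set G) := fun x hx => mem_centralizer_iff.2 fun y hy =>
    CA.NPC2.commute_of_coprime_of_isNilpotent hS (hP.le hy) (hLS hx) (by
      refine Nat.Coprime.coprime_dvd_left (P.orderOf_dvd_natCard hy) ?_
      rw [hk]
      exact (hL.symm.coprime_dvd_right (L.orderOf_dvd_natCard hx)).pow_left k)
  have hsup : L ⊔ (P ⊔ T) = S ⊔ T := by
    rw [← sup_assoc]
    congr 1
    refine le_antisymm (sup_le hLS hP.le) fun y hy => ?_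
    obtain ⟨a, ha, r, hr, rfl⟩ := exists_mul_eq_of_isSylowIn hP hy
    exact mul_mem (mem_sup_left ha) (mem_sup_right hr)
  have hPG : IsSylowIn p P ⊤ := by
    refine ⟨le_top, hP.isPGroup, ?_⟩
    rw [relIndex_top_right, ← relIndex_mul_index (hP.le.trans (le_sup_left : S ≤ S ⊔ T)),
      ← relIndex_mul_relIndex P S (S ⊔ T) hP.le le_sup_left, hp.dvd_mul, hp.dvd_mul]
    rintro ((h | h) | h)
    · exact hP.not_dvd h
    · have := relIndex_dvd_card_of_le_sup (A := T) (K := S) (H := S ⊔ T)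
        ((le_centralizer_iff.1 hc).trans (centralizer_le_normalizer _)) (sup_comm S T).le
      exact hp.one_lt.ne' (Nat.eq_one_of_dvd_coprimes hcop hpS (h.trans this))
    · exact hp.one_lt.ne' (Nat.eq_one_of_dvd_coprimes hi hpS h)
  rw [← hsup]
  refine ih _ ?_ L (P ⊔ T) rfl (CA.Core.isNilpotent_of_le hLS hS)
    (step hT hPG (hP.le.trans hc)) ?_ ?_ ?_
  · rw [← hn]
    refine card_lt_of_lt (lt_of_le_of_ne hLS fun h => ?_)
    rw [h] at hL
    exact coprime_iff_not_dvd.1 hL hpS
  · rw [le_centralizer_iff, sup_le_iff]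
    exact ⟨le_centralizer_iff.1 hLP, le_centralizer_iff.1 (hLS.trans hc)⟩
  · refine Nat.Coprime.coprime_dvd_right
      (CA.Rad.card_sup_dvd ((hP.le.trans hc).trans (centralizer_le_normalizer _)))
      (Nat.Coprime.mul_right ?_ (hcop.coprime_dvd_left (card_dvd_of_le hLS)))
    rw [hk]
    exact hL.pow_right k
  · rw [hsup]
    exact hi.coprime_dvd_left (card_dvd_of_le hLS)

theorem maximal_of {π : Set ℕ} {H : Subgroup G} (h1 : IsPiSubgroup π H)
    (h2 : ∀ p : ℕ, p.Prime → p ∈ π → ¬ p ∣ H.index) : Maximal (IsPiSubgroup π) H := by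
  refine ⟨h1, fun K hK hle => ?_⟩
  rw [← relIndex_eq_one]
  by_contra h
  obtain ⟨p, hp, hd⟩ := Nat.exists_prime_and_dvd h
  exact h2 p hp (hK p hp (hd.trans (relIndex_dvd_card _ _))) (hd.trans (relIndex_dvd_index_of_le hle))

/-- Let σ and τ be disjoint sets of primes with union π. Suppose a finite group G has a Hall π-subgroup H which is the direct product of a nilpotent σ-subgroup and a τ-subgroup (two elementwise-commuting subgroups generating H), and that the maximal τ-subgroups of G are pairwise conjugate. Then the maximal π-subgroups of G are pairwise conjugate. -/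
theorem result {G : Type*} [Group G] [Finite G]
    (σ τ π : Set ℕ) (hπ : π = σ ∪ τ) (hd : Disjoint σ τ) (H Hs Ht : Subgroup G) (hH : Cfsg.IsPiHall π H)
    (hs : Cfsg.IsPiSubgroup σ Hs) (ht : Cfsg.IsPiSubgroup τ Ht) (hsn : Group.IsNilpotent Hs)
    (hjoin : Hs ⊔ Ht = H) (hcomm : ∀ a ∈ Hs, ∀ b ∈ Ht, a * b = b * a) (hD : Cfsg.IsDPiGroup τ G) :
    Cfsg.IsDPiGroup π G := by
  subst hπ
  have hc : Hs ≤ centralizer (Ht : Set G) := fun a ha =>
    mem_centralizer_iff.2 fun b hb => (hcomm a ha b hb).symm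
  have hti : ∀ p : ℕ, p.Prime → p ∈ τ → ¬ p ∣ Ht.index := by
    intro p hp hpt
    rw [← relIndex_mul_index (hjoin ▸ le_sup_right : Ht ≤ H), hp.dvd_mul]
    rintro (h | h)
    · exact Set.disjoint_left.1 hd (hs p hp (h.trans (relIndex_dvd_card_of_le_sup
        (hc.trans (centralizer_le_normalizer _)) hjoin.ge))) hpt
    · exact hH.2 p hp (Or.inr hpt) h
  have hT : D Ht := by
    refine ⟨Nat.coprime_of_dvd fun p hp h => hti p hp (ht p hp h), fun K hK => ?_⟩
    have hK' : IsPiSubgroup τ K := fun p hp h => by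
      have h1 : p ∣ Nat.card Ht * Ht.index := by
        rw [card_mul_index]; exact h.trans K.card_subgroup_dvd_card
      exact ht p hp ((hp.dvd_mul.1 h1).resolve_right fun h2 =>
        hp.one_lt.ne' (Nat.eq_one_of_dvd_coprimes hK h h2))
    obtain ⟨M, hKM, hM⟩ := exists_maximal_ge_of_wellFoundedGT (IsPiSubgroup τ) K hK'
    obtain ⟨g, hg⟩ := hD M Ht hM (maximal_of ht hti)
    exact ⟨g, hg ▸ conj_mono g hKM⟩
  have hDH := ind _ Hs Ht rfl hsn hT hc (Nat.coprime_of_dvd fun p hp h h' =>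
    Set.disjoint_left.1 hd (hs p hp h) (ht p hp h')) (Nat.coprime_of_dvd fun p hp h => by
      rw [hjoin]; exact hH.2 p hp (Or.inl (hs p hp h)))
  rw [hjoin] at hDH
  have key : ∀ K : Subgroup G, Maximal (IsPiSubgroup (σ ∪ τ)) K → ∃ g : G, K = g •ᶜ H := by
    intro K hK
    obtain ⟨g, hg⟩ := hDH.2 K (Nat.coprime_of_dvd fun p hp h => hH.2 p hp (hK.1 p hp h))
    refine ⟨g⁻¹, hK.eq_of_le (fun p hp h => hH.1 p hp ?_) (conj_le_iff_le_inv_conj.1 hg)⟩
    rwa [card_conj] at h
  intro K L hK hL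
  obtain ⟨a, rfl⟩ := key K hK
  obtain ⟨b, rfl⟩ := key L hL
  exact ⟨b * a⁻¹, by rw [conj_conj]; simp⟩

end Cfsg.Agent.S4334
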