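import Cfsg.Statements.S4344
import Cfsg.Agent.Lib.Grp.L0Syl

set_option autoImplicit false
open Cfsg

namespace Cfsg.Agent.S4344

open Subgroup CA.L0Syl CA.SylIn

/-- Let S be a finite non-abelian simple group, M a maximal subgroup of S and C a cyclic normal subgroup of M. If a Sylow p-subgroup P of S (for a prime p dividing the order of S) is contained in C, then the number of Sylow p-subgroups of S equals the index of M. -/
theorem result {S : Type*} [Group S] [Finite S]
    [IsSimpleGroup S] (hS : ¬ IsMulCommutative S) (p : ℕ) [Fact p.Prime] (hp : p ∣ Nat.card S)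
    (M : Subgroup S) (hM : IsCoatom M) (C : Subgroup S) (hCM : C ≤ M) (hCn : (C.subgroupOf M).Normal)
    (hC : IsCyclic C) (P : Sylow p S) (hP : (P : Subgroup S) ≤ C) :
    Nat.card (Sylow p S) = M.index := by
  rw [card_sylow_eq P]
  have hMC : M ≤ normalizer (C : Set S) := (normal_subgroupOf_iff_le_normalizer hCM).1 hCn
  have hMP : M ≤ normalizer ((P : Subgroup S) : Set S) := by
    intro g hg
    rw [mem_normalizer_iff_conj_eq]
    have h1 := isSylowIn_of_le P hP
    obtain ⟨c, hc, hcg⟩ := h1.exists_conj_eq (h1.conj_of_mem_normalizer (hMC hg))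
    rw [← hcg]
    apply conj_eq_of_le
    rw [conj_le_iff]
    intro x hx
    have := congrArg Subtype.val (hC.isMulCommutative.is_comm.comm (⟨c, hc⟩ : C) ⟨x, hP hx⟩)
    simp only [coe_mul] at this
    rw [this]; simpa using hx
  rcases hMP.eq_or_lt with h | h
  · rw [h]
  · exfalso
    have h2 : (P : Subgroup S).Normal := normalizer_eq_top_iff.1 (hM.2 _ h)
    rcases h2.eq_bot_or_eq_top with h3 | h3
    · exact P.ne_bot_of_dvd_card hp h3
    · exact hM.1 (top_le_iff.1 (h3 ▸ hP.trans hCM))

end Cfsg.Agent.S4344
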