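import Cfsg.Statements.S4345
import Cfsg.Agent.Lib.Grp.L0Syl
import Cfsg.Agent.Lib.Grp.PGBasic

set_option autoImplicit false
open Cfsg

namespace Cfsg.Agent.S4345

open Subgroup CA.L0Syl CA.SylIn
universe u
theorem aux (p ℓ : ℕ) [Fact p.Prime] (hℓ : ℓ.Prime) (n : ℕ) : ∀ {G : Type u} [Group G] [Finite G],
    Nat.card G = n → Group.IsSolvable G → ℓ ^ (Nat.card (Sylow p G)).factorization ℓ ≡ 1 [MOD p] := by
  induction n using Nat.strong_induction_on with
  | _ n ih =>
  intro G _ _ hn hG
  obtain ⟨P⟩ : Nonempty (Sylow p G) := inferInstance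
  rcases subsingleton_or_nontrivial G with h | h
  · have : Nat.card (Sylow p G) = 1 := by
      rw [card_sylow_eq P, Subsingleton.elim (normalizer _) ⊤, index_top]
    rw [this]; simp [Nat.ModEq]
  obtain ⟨q, K, hq, hKn, hK, -, hKq⟩ := CA.H1Basic.exists_normal_pgroup_of_nontrivial (G := G)
  have := Fact.mk hq
  have h1 := ih _ (hn ▸ CA.H1Basic.card_quotient_lt hK) (G := G ⧸ K) rfl inferInstance
  obtain ⟨k, hk⟩ := CA.PGBasic.exists_relIndex_eq_pow (H := normalizer ((P : Subgroup G) : Set G)) hKq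
  have h2 : q ^ k ≡ 1 [MOD p] := by
    rw [← hk, relIndex_normalizer_eq]; exact card_sylow_modEq_one p _
  rw [card_sylow_eq_mul P K, hk, Nat.factorization_mul Nat.card_pos.ne' (pow_pos hq.pos k).ne',
    Finsupp.add_apply, pow_add]
  refine (h1.mul ?_).trans (by rw [one_mul])
  rw [hq.factorization_pow]
  by_cases h : q = ℓ
  · subst h; simpa using h2
  · rw [Finsupp.single_eq_of_ne (Ne.symm h), pow_zero]

/-- Let G be a finite solvable group and p, ℓ primes. Then the largest power of ℓ dividing the number of Sylow p-subgroups of G is congruent to 1 modulo p. -/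
theorem result {G : Type*} [Group G] [Finite G]
    (hG : Group.IsSolvable G) (p ℓ : ℕ) [Fact p.Prime] (hℓ : ℓ.Prime) :
    ℓ ^ (Nat.card (Sylow p G)).factorization ℓ ≡ 1 [MOD p] := by
  exact aux p ℓ hℓ _ rfl hG

end Cfsg.Agent.S4345
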