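import Cfsg.Statements.S4346
import Mathlib
import Cfsg.Agent.Lib.Perm.W2q
import Cfsg.Agent.Lib.Perm.SubA8
import Cfsg.Agent.Lib.Block.H28Sv
import Cfsg.Agent.S4303

set_option autoImplicit false
open Cfsg

namespace Cfsg.Agent.S4346

open MulAction CA.PermBasic CA.PermMulti CA.H28Syl
open scoped Pointwise

theorem dvd_of_fib {A C : Type*} [DecidableEq C] (s : Finset A) (f : A → C) (m : ℕ)
    (h : ∀ a ∈ s, (s.filter (f · = f a)).card = m) : m ∣ s.card := by
  rw [Finset.card_eq_sum_card_image f s]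
  refine Finset.dvd_sum fun c hc => ?_
  obtain ⟨a, ha, rfl⟩ := Finset.mem_image.1 hc
  exact dvd_of_eq (h a ha).symm

variable {G : Type*} [Group G] [Finite G]

instance : Fact (Nat.Prime 3) := ⟨Nat.prime_three⟩

theorem fix_iff {D : Subgroup G} (hD : IsPGroup 3 D) (R : Sylow 3 G) :
    (∀ g ∈ D, g • R = R) ↔ D ≤ R := by
  rw [← hD.sylow_mem_fixedPoints_iff]
  exact ⟨fun h g => h g g.2, fun h g hg => h ⟨g, hg⟩⟩

theorem prim (h : Nat.card (Sylow 3 G) = 22) : IsPreprimitive G (Sylow 3 G) := by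
  refine ⟨fun {B} hB => ?_⟩
  rcases B.eq_empty_or_nonempty with rfl | ⟨P, hP⟩
  · exact Or.inl Set.subsingleton_empty
  have h1 := hB.ncard_dvd_card ⟨P, hP⟩
  have h2 := ncard_modEq_fixed (p := 3) (P : Subgroup G) P.isPGroup' B (Set.toFinite _)
    fun g hg x hx => by
      have e : g • P = P := (fix_iff P.isPGroup' P).2 le_rfl g hg
      rw [← hB.smul_eq_of_mem hP (e.symm ▸ hP)]
      exact Set.smul_mem_smul_set hx
  have e : {x ∈ B | ∀ g ∈ (P : Subgroup G), g • x = x} = {P} := by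
    ext R
    simp only [Set.mem_setOf_eq, fix_iff P.isPGroup', Set.mem_singleton_iff]
    exact ⟨fun h => Sylow.ext (P.is_maximal' R.isPGroup' h.2), fun h => by rw [h]; exact ⟨hP, le_rfl⟩⟩
  rw [e, Set.ncard_singleton] at h2
  rw [h] at h1
  have h3 := Nat.le_of_dvd (by norm_num) h1
  have h4 : B.ncard = 1 ∨ B.ncard = 22 := by
    unfold Nat.ModEq at h2
    generalize B.ncard = k at *
    interval_cases k <;> omega
  rcases h4 with h4 | h4
  · exact Or.inl (Set.ncard_le_one_iff_subsingleton.1 h4.le)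
  · exact Or.inr ((Set.eq_univ_iff_ncard B).2 (h4.trans h.symm))

theorem faith [IsSimpleGroup G] (h : Nat.card (Sylow 3 G) = 22) : FaithfulSMul G (Sylow 3 G) := by
  refine ⟨fun {a b} e => ?_⟩
  rcases (toPermHom G (Sylow 3 G)).normal_ker.eq_bot_or_eq_top with h1 | h1
  · exact (MonoidHom.ker_eq_bot_iff _).1 h1 (Equiv.ext e)
  · have : Nontrivial (Sylow 3 G) := Finite.one_lt_card_iff_nontrivial.1 (by omega)
    obtain ⟨P, Q, hPQ⟩ := exists_pair_ne (Sylow 3 G)
    obtain ⟨g, hg⟩ := exists_smul_eq G P Q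
    have : g ∈ (toPermHom G (Sylow 3 G)).ker := h1 ▸ Subgroup.mem_top g
    exact absurd (hg.symm.trans (Equiv.congr_fun this P)) hPQ.symm

theorem two [IsSimpleGroup G] (h : Nat.card (Sylow 3 G) = 22) :
    IsMultiplyPretransitive G (Sylow 3 G) 2 := by
  classical
  have := Fintype.ofFinite (Sylow 3 G)
  obtain ⟨P⟩ : Nonempty (Sylow 3 G) := inferInstance
  rcases CA.W2p.wielandt (p := 11) (by norm_num) (by rw [← Nat.card_eq_fintype_card, h]) _
    (CA.Sharp4.preprimitive_range (prim h)) P with h2 | ⟨-, n, -, h2, -⟩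
  · exact CA.Neumann.mpt_of_range h2
  · have : n ≤ 2 := by nlinarith
    interval_cases n <;> omega

theorem nine [IsSimpleGroup G] (h : Nat.card (Sylow 3 G) = 22) : ¬ 3 ^ 2 ∣ Nat.card G := by
  classical
  have := Fintype.ofFinite (Sylow 3 G)
  have := faith h
  have h2 := two_iff.1 (two h)
  have hc : Fintype.card (Sylow 3 G) = 22 := by rw [← Nat.card_eq_fintype_card, h]
  by_cases h0 : ∀ P Q : Sylow 3 G, P ≠ Q → (P : Subgroup G) ⊓ Q = ⊥
  · obtain ⟨P⟩ : Nonempty (Sylow 3 G) := inferInstance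
    have h1 := card_dvd_of_semiregular_on (P : Subgroup G) ({P}ᶜ : Set (Sylow 3 G)) (Set.toFinite _)
      (fun g hg x hx e => hx (by
        have e' : g • P = P := (fix_iff P.isPGroup' P).2 le_rfl g hg
        exact smul_left_cancel g (e.trans e'.symm)))
      (fun g hg x hx e => by
        rw [← Subgroup.mem_bot, ← h0 P x (Ne.symm hx), ← P.isPGroup'.inf_normalizer_sylow]
        exact ⟨hg, Sylow.smul_eq_iff_mem_normalizer.1 e⟩)
    rw [Set.ncard_compl _, h, Set.ncard_singleton] at h1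
    intro h9
    have := (P.pow_dvd_card_of_pow_dvd_card h9).trans h1
    norm_num at this
  exfalso
  push Not at h0
  obtain ⟨P, Q, hPQ, hD⟩ := h0
  let B : Sylow 3 G → Sylow 3 G → Finset (Sylow 3 G) := fun P Q =>
    Finset.univ.filter fun R => (P : Subgroup G) ⊓ Q ≤ R
  have cD : ∀ R S : Sylow 3 G, R ≠ S → Nat.card ↥((R : Subgroup G) ⊓ S) =
      Nat.card ↥((P : Subgroup G) ⊓ Q) ∧ (B R S).card = (B P Q).card := fun R S hRS => by
    obtain ⟨g, rfl, rfl⟩ := h2 P Q R S hPQ hRS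
    constructor
    · rw [Sylow.coe_subgroup_smul, Sylow.coe_subgroup_smul, ← Subgroup.smul_inf]
      exact (Nat.card_congr (Subgroup.equivSMul _ _).toEquiv).symm
    · refine (Finset.card_equiv (toPerm g) fun T => ?_).symm
      simp only [B, Finset.mem_filter, Finset.mem_univ, true_and, toPerm_apply,
        Sylow.coe_subgroup_smul, ← Subgroup.smul_inf, Subgroup.pointwise_smul_le_pointwise_smul_iff]
  have eD : ∀ R S T U : Sylow 3 G, R ≠ S → T ≠ U → ((T : Subgroup G) ⊓ U = (R : Subgroup G) ⊓ S ↔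
      T ∈ B R S ∧ U ∈ B R S) := fun R S T U h1 h2 => by
    simp only [B, Finset.mem_filter, Finset.mem_univ, true_and]
    exact ⟨fun e => e ▸ ⟨inf_le_left, inf_le_right⟩, fun e => (Subgroup.eq_of_le_of_card_ge
      (le_inf e.1 e.2) ((cD T U h2).1.trans (cD R S h1).1.symm).le).symm⟩
  have d1 := dvd_of_fib (Finset.univ.erase P) (fun R : Sylow 3 G => (P : Subgroup G) ⊓ R)
    ((B P Q).card - 1) fun R hR => by
      have hR := (Finset.ne_of_mem_erase hR).symm
      have hP : P ∈ B P R := by simp [B]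
      rw [← (cD P R hR).2, ← Finset.card_erase_of_mem hP]
      congr 1
      ext T
      simp only [Finset.mem_filter, Finset.mem_erase, Finset.mem_univ, and_true]
      exact and_congr_right fun hT => by rw [eD P R P T hR (Ne.symm hT), and_iff_right hP]
  have d2 := dvd_of_fib (Finset.univ.offDiag)
    (fun R : Sylow 3 G × Sylow 3 G => (R.1 : Subgroup G) ⊓ R.2)
    ((B P Q).card * (B P Q).card - (B P Q).card) fun R hR => by
      have hR := (Finset.mem_offDiag.1 hR).2.2
      rw [← (cD _ _ hR).2, ← Finset.offDiag_card]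
      congr 1
      ext T
      simp only [Finset.mem_filter, Finset.mem_offDiag, Finset.mem_univ, true_and]
      exact ⟨fun e => ⟨((eD _ _ _ _ hR e.1).1 e.2).1, ((eD _ _ _ _ hR e.1).1 e.2).2, e.1⟩,
        fun e => ⟨e.2.2, (eD _ _ _ _ hR e.2.2).2 ⟨e.1, e.2.1⟩⟩⟩
  rw [Finset.card_erase_of_mem (Finset.mem_univ _), Finset.card_univ, hc] at d1
  rw [Finset.offDiag_card, Finset.card_univ, hc] at d2
  have hD3 : IsPGroup 3 ↥((P : Subgroup G) ⊓ Q) := P.isPGroup'.to_inf_left
  have m1 := ncard_modEq_fixed (p := 3) _ hD3 (Set.univ : Set (Sylow 3 G)) (Set.toFinite _)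
    fun _ _ _ _ => trivial
  have e : {x ∈ (Set.univ : Set (Sylow 3 G)) | ∀ g ∈ (P : Subgroup G) ⊓ Q, g • x = x} = B P Q := by
    ext R
    simp only [Set.mem_setOf_eq, fix_iff hD3, B, Set.mem_univ, true_and, Finset.coe_filter,
      Finset.mem_univ]
  rw [e, Set.ncard_univ, h, Set.ncard_coe_finset] at m1
  have l1 : (B P Q).card < 22 := by
    rw [← hc]
    refine (Finset.card_lt_iff_ne_univ _).2 fun e => hD (eq_bot_iff.2 fun g hg => ?_)
    refine eq_one_of_forall_smul (X := Sylow 3 G) fun R => (fix_iff hD3 R).2 ?_ g hg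
    have : R ∈ B P Q := e ▸ Finset.mem_univ R
    simpa [B] using this
  have l2 : 1 < (B P Q).card := Finset.one_lt_card.2 ⟨P, by simp [B], Q, by simp [B], hPQ⟩
  unfold Nat.ModEq at m1
  generalize (B P Q).card = k at *
  interval_cases k <;> omega

theorem simple [IsSimpleGroup G] : Nat.card (Sylow 3 G) ≠ 22 := by
  classical
  intro h
  have := faith h
  have h2 := two h
  have h9 := nine h
  have : Nontrivial (Sylow 3 G) := Finite.one_lt_card_iff_nontrivial.1 (by omega)
  have hc : ∀ {a b : Sylow 3 G}, a ≠ b → _ := fun hab => CA.Neumann3.card_eq_of_two h2 hab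
  rw [h] at hc
  obtain ⟨x, hx⟩ := exists_isSylGen (G := G) (p := 3) (by
    obtain ⟨a, b, hab⟩ := exists_pair_ne (Sylow 3 G)
    rw [hc hab]; exact Dvd.dvd.mul_left (Dvd.dvd.mul_right (by norm_num) _) _) h9
  obtain ⟨b, hb⟩ := exists_ne hx.sylow
  have hc := hc hb.symm
  have hCa : ∀ c ∈ CC x, c • hx.sylow = hx.sylow := fun c hc =>
    Sylow.smul_eq_iff_mem_normalizer.2 (CC_le_NN x hc)
  have hle : (stabilizer (CC x) b).map (CC x).subtype ≤ stabilizer G hx.sylow ⊓ stabilizer G b := by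
    rintro _ ⟨c, hc, rfl⟩; exact ⟨hCa c c.2, hc⟩
  have he : (stabilizer (CC x) b).map (CC x).subtype =
      (stabilizer (VV 3 x) b).map (VV 3 x).subtype := by
    refine le_antisymm (fun c hc' => ?_) ?_
    · have h3 := Subgroup.orderOf_dvd_natCard _ (hle hc')
      obtain ⟨c, hc', rfl⟩ := hc'
      refine ⟨⟨c, hx.mem_VV.2 ⟨c.2, fun h4 => h9 ?_⟩⟩, hc', rfl⟩
      obtain ⟨k, hk⟩ := h4.trans h3
      rw [hc, hk]; exact ⟨154 * k, by ring⟩
    · rintro _ ⟨c, hc', rfl⟩; exact ⟨⟨c, hx.VV_le c.2⟩, hc', rfl⟩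
  have e1 := card_orbit_mul_card_stabilizer (G := CC x) b
  have e2 := card_orbit_mul_card_stabilizer (G := VV 3 x) b
  obtain ⟨r, hr⟩ := Subgroup.card_dvd_of_le hle
  have e3 := congrArg (fun H : Subgroup G => Nat.card H) he
  simp only [Subgroup.card_map_of_injective (Subgroup.subtype_injective _)] at e3 hr
  have e4 := hx.card_eq
  have e5 := hx.card_CC
  have e6 : ee x ≤ 2 := Nat.le_of_dvd two_pos (ee_dvd hx.ord)
  have e7 := ee_pos hx.ord
  have t0 : 0 < Nat.card (stabilizer (VV 3 x) b) := Nat.card_pos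
  have sub : orbit (CC x) b ⊆ {hx.sylow}ᶜ := by
    rintro _ ⟨c, rfl⟩ e
    exact hb (smul_left_cancel (c : G) (e.trans (hCa c c.2).symm))
  have c21 : ({hx.sylow}ᶜ : Set (Sylow 3 G)).ncard = 21 := by
    rw [Set.ncard_compl _, h, Set.ncard_singleton]
  have l1 := Set.ncard_le_ncard sub
  rw [c21, ← Nat.card_coe_set_eq] at l1
  rw [e3] at e1 hr
  rw [h, hc, hr, ← e2] at e4
  have e8 : Nat.card (orbit (CC x) b) = 3 * Nat.card (orbit (VV 3 x) b) :=
    Nat.eq_of_mul_eq_mul_right t0 (by rw [e1, e5, ← e2]; ring)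
  have e9 : 7 * r = ee x * Nat.card (orbit (VV 3 x) b) :=
    Nat.eq_of_mul_eq_mul_right (by positivity : 0 < 66 * Nat.card (stabilizer (VV 3 x) b))
      (by linarith)
  have s0 : 0 < Nat.card (orbit (VV 3 x) b) :=
    Nat.card_pos_iff.2 ⟨⟨⟨b, mem_orbit_self b⟩⟩, inferInstance⟩
  have s7 : Nat.card (orbit (VV 3 x) b) = 7 := by
    generalize ee x = e at *
    interval_cases e <;> omega
  have all := Set.eq_of_subset_of_ncard_le sub (by rw [c21, ← Nat.card_coe_set_eq]; omega)
  have : FaithfulSMul (VV 3 x) (orbit (VV 3 x) b) := ⟨fun {v w} e => by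
    rw [← inv_mul_eq_one]
    refine Subtype.ext (eq_one_of_forall_smul (X := Sylow 3 G) fun R => ?_)
    by_cases hR : R = hx.sylow
    · rw [hR]; exact hCa _ (hx.VV_le (v⁻¹ * w).2)
    obtain ⟨c, rfl⟩ : R ∈ orbit (CC x) b := all ▸ hR
    obtain ⟨a, u, hu, hc⟩ := hx.exists_eq_xp_mul c.2
    have e' : (w : G) • u • b = (v : G) • u • b :=
      (congrArg Subtype.val (e ⟨_, mem_orbit b (⟨u, hu⟩ : VV 3 x)⟩)).symm
    change _ • (c : G) • b = (c : G) • b
    rw [hc, smul_smul, ← mul_assoc, ← (commute_xp (hx.VV_le (v⁻¹ * w).2) a).eq, mul_assoc,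
      mul_smul, mul_smul, mul_smul, Subgroup.coe_mul, mul_smul, e', Subgroup.coe_inv, inv_smul_smul]⟩
  have n3 := hx.not_dvd_card_VV
  have hV : Nat.card (VV 3 x) = 7 ∨ Nat.card (VV 3 x) = 14 := by
    have := Fact.mk (by norm_num : Nat.Prime 7)
    by_cases hs : Group.IsSolvable (VV 3 x)
    · obtain ⟨P⟩ : Nonempty (Sylow 7 (VV 3 x)) := inferInstance
      have := (CA.PrimeDeg.isSolvable_iff s7 P).1 hs
      obtain ⟨d, d1, d2⟩ := CA.PrimeDeg.card_normalizer s7 P
      rw [Subgroup.normalizer_eq_top, Subgroup.card_top] at d2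
      have := Nat.le_of_dvd (by norm_num) d1
      rw [d2] at n3 ⊢
      interval_cases d <;> omega
    · exfalso
      have := Fintype.ofFinite (orbit (VV 3 x) b)
      have := CA.Sharp4.pretransitive_range (G := VV 3 x) (X := orbit (VV 3 x) b)
      rw [← CA.Sharp4.card_range (X := orbit (VV 3 x) b)] at n3
      by_cases hA : alternatingGroup _ ≤ (toPermHom (VV 3 x) (orbit (VV 3 x) b)).range
      · refine n3 (Dvd.dvd.trans ?_ (Subgroup.card_dvd_of_le hA))
        have : Nontrivial (orbit (VV 3 x) b) := Finite.one_lt_card_iff_nontrivial.1 (by omega)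
        have := two_mul_nat_card_alternatingGroup (α := orbit (VV 3 x) b)
        rw [Nat.card_perm, s7] at this
        have e : Nat.factorial 7 = 5040 := rfl
        omega
      · rw [(CA.SubA8.deg7 (by rw [← Nat.card_eq_fintype_card, s7]) _
          (CA.Neumann.not_solvable_range hs) hA).1] at n3
        norm_num at n3
  have hG : ¬ IsMulCommutative G := fun hm => hb (by
    obtain ⟨g, rfl⟩ := exists_smul_eq G hx.sylow b
    exact hCa g (mem_CC.2 (hm.is_comm.comm _ _)))
  have e4 := hx.card_eq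
  rw [h] at e4
  have : Nat.card G = 462 ∨ Nat.card G = 924 ∨ Nat.card G = 1848 := by
    generalize ee x = e at *
    interval_cases e <;> omega
  rcases this with h | h | h <;>
    exact CA.H28Sv.check_false hG h (p := 11) (q := 0) (B := 80) (by decide +kernel)

/-- No finite group has exactly 22 Sylow 3-subgroups. -/
theorem result {G : Type*} [Group G] [Finite G] : Nat.card (Sylow 3 G) ≠ 22 := by
  intro h
  obtain ⟨l, h1, h2⟩ := Cfsg.Agent.S4303.result (G := G) 3
  have h3 : ∀ m ∈ l, m = 1 := fun m hm => by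
    have h4 : m ∣ 22 := h ▸ h1 ▸ List.dvd_prod hm
    have h5 := Nat.le_of_dvd (by norm_num) h4
    rcases h2 m hm with ⟨h6, h7⟩ | ⟨S, _, _, _, h6⟩
    · have : m ≠ 22 := by rintro rfl; revert h6; decide +kernel
      interval_cases m <;> omega
    · have h7 : m % 3 = 1 % 3 := h6 ▸ card_sylow_modEq_one 3 S
      have : m ≠ 22 := h6 ▸ simple
      interval_cases m <;> omega
  rw [List.prod_eq_one h3] at h1
  omega

end Cfsg.Agent.S4346
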