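import Cfsg.Statements.S4354
import Cfsg.Agent.Lib.Grp.H4Cls
import Cfsg.Agent.Lib.Loc.EqO1

set_option autoImplicit false
open Cfsg

namespace Cfsg.Agent.S4354

open Subgroup CA.BG CA.EqO

theorem key {G : Type*} [Group G] [Finite G] {p : ℕ} {N : Subgroup G} [N.Normal] (hp : p.Prime)
    (h : ∀ x : G, IsPi {p} (zpowers x) → ¬ p ∣ 𝓒₁(x).index)
    (h1 : ∀ P, Syl p P ⊤ → IsMulCommutative (P ⊓ N : Subgroup G)) (h2 : ∀ P, Syl p P ⊤ → ⁅P, P⁆ ≤ N) :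
    ∃ P : Subgroup G, Syl p P ⊤ ∧ IsMulCommutative P := by
  obtain ⟨P, hP⟩ := syl_exists hp (⊤ : Subgroup G)
  have k0 : ∀ P, Syl p P ⊤ → Syl p (P ⊓ N) N := fun P hP => hP.inf_normal le_top (top_norm N P)
  have k1 : P ≤ 𝓒(P ⊓ N) ⊔ N := fun x hx => by
    obtain ⟨Q, hQ, h3⟩ := CA.H4Cls.exists_syl_le hp (h x (hP.pi.of_le (zpowers_le.2 hx)))
    obtain ⟨n, hn, e⟩ := (k0 P hP).syl_conj hp (k0 Q hQ)
    have : x ∈ cj n 𝓒(P ⊓ N) := by rw [cj_cent, e]; exact le_cent1_iff.1 (inf_le_left.trans h3)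
    obtain ⟨c, hc, rfl⟩ := mem_cj'.1 this
    exact mul_mem (mul_mem (mem_sup_right hn) (mem_sup_left hc)) (mem_sup_right (inv_mem hn))
  have k2 : P ⊓ N ≤ 𝓒(P ⊓ N) := comm_iff_le_cent.1 (h1 P hP)
  obtain ⟨Q, hQ, k3⟩ := syl_superset hp (k0 P hP).pi k2
  have k4 : Syl p Q ⊤ := (hQ.of_idx le_sup_left (by
    have e := card_sup_mul_inf (top_norm N 𝓒(P ⊓ N))
    rw [← card_mul_relIndex (K := 𝓒(P ⊓ N) ⊔ N) le_sup_left, ← card_inf_mul_relIndex 𝓒(P ⊓ N) N, mul_assoc,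
      Nat.mul_right_inj (card_ne_zero' _), mul_comm, Nat.mul_right_inj (card_ne_zero' _)] at e
    rw [e]
    exact (k0 P hP).le_of_idx k2)).of_idx le_top (hP.le_of_idx k1)
  have k5 : Q ⊓ N ≤ 𝓒(Q) := cent_symm (((k0 P hP).eq_of_le' (k0 Q k4) (le_inf k3 inf_le_right)) ▸ hQ.le)
  refine ⟨Q, k4, comm_iff_le_cent.2 fun x hx => ?_⟩
  obtain ⟨R, hR, h3⟩ := CA.H4Cls.exists_syl_le hp (h x (k4.pi.of_le (zpowers_le.2 hx)))
  let K := 𝓒₁(QuotientGroup.mk' N x).comap (QuotientGroup.mk' N)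
  have k6 : ∀ k, k ∈ K ↔ k * x * k⁻¹ * x⁻¹ ∈ N := fun k => by
    rw [mem_comap, mem_cent1, ← mul_inv_eq_one, ← map_mul, ← map_mul, ← map_inv, ← map_mul, QuotientGroup.mk'_apply,
      QuotientGroup.eq_one_iff, mul_inv_rev, ← mul_assoc]
  obtain ⟨k, hk, e⟩ := (hR.of_le (fun y hy => (k6 y).2 (by simp [mem_cent1.1 (h3 hy), one_mem])) le_top).syl_conj hp
    (k4.of_le (fun y hy => (k6 y).2 (h2 Q k4 (commutator_mem_commutator hy hx))) le_top)
  have h4 : k * x * k⁻¹ ∈ 𝓒(Q) := by rw [← e, ← cj_cent, conj_mem_cj]; exact le_cent1_iff.1 h3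
  have h5 : k * x * k⁻¹ ∈ Q := k4.le_of_norm (((k4.pi.of_le (zpowers_le.2 hx)).cj k)) le_top
    (by rw [cj_zpowers, zpowers_le]; exact cent_le_norm _ h4) (conj_mem_cj.2 (mem_zpowers x))
  simpa [mul_assoc] using mul_mem (inv_mem (k5 (mem_inf.2 ⟨mul_mem h5 (inv_mem hx), (k6 k).1 hk⟩))) h4

/-- Let G be a finite group and p a prime such that the Sylow p-subgroups of G are non-abelian while every element of p-power order has conjugacy class size prime to p, and suppose no nontrivial proper normal subgroup N of G has this property and no quotient G/N by such an N has it. Then G is simple. -/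
theorem result {G : Type*} [Group G] [Finite G]
    (p : ℕ) [Fact p.Prime] (h : ((∃ P : Sylow p G, ¬ IsMulCommutative P) ∧ ∀ x : G, (∃ k : ℕ, orderOf x = p ^ k) → ¬ p ∣ (Subgroup.centralizer ({x} : Set G)).index))
    (hmin : ∀ (N : Subgroup G) [N.Normal], N ≠ ⊥ → N ≠ ⊤ →
      ¬ ((∃ P : Sylow p N, ¬ IsMulCommutative P) ∧ ∀ x : N, (∃ k : ℕ, orderOf x = p ^ k) → ¬ p ∣ (Subgroup.centralizer ({x} : Set N)).index) ∧
      ¬ ((∃ P : Sylow p (G ⧸ N), ¬ IsMulCommutative P) ∧ ∀ x : (G ⧸ N), (∃ k : ℕ, orderOf x = p ^ k) → ¬ p ∣ (Subgroup.centralizer ({x} : Set (G ⧸ N))).index)) :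
    IsSimpleGroup G := by
  have hp : p.Prime := Fact.out
  obtain ⟨⟨P, hP⟩, h⟩ := h
  have : Nontrivial G := by
    by_contra e
    have := not_nontrivial_iff_subsingleton.1 e
    exact hP ⟨⟨fun _ _ => Subsingleton.elim _ _⟩⟩
  refine ⟨fun N _ => by_contra fun e => ?_⟩
  push Not at e
  obtain ⟨h1, h2⟩ := hmin N e.1 e.2
  have hf := QuotientGroup.mk'_surjective N
  obtain ⟨Q, hQ, hc⟩ := key (N := N) hp (fun x hx => h x ((isPi_zpowers.1 hx).exists_pow hp (orderOf_pos x).ne'))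
    (fun Q hQ => by
      obtain ⟨S, hS⟩ := (hQ.inf_normal le_top (top_norm N Q)).exists_sylow hp
      by_contra e'
      exact h1 ⟨⟨S, fun e => e' (hS ▸ comm_map e _)⟩, fun x hx d =>
        h x (by rwa [orderOf_coe]) (d.trans (CA.Kaz.index_sub_dvd x.2))⟩) fun Q hQ => by
      obtain ⟨S, hS⟩ := (syl_map' hp hf hQ).exists_sylow_top hp
      rw [← QuotientGroup.ker_mk' N]
      refine der_le_ker (by_contra fun e' => h2 ⟨⟨S, fun e => e' (hS ▸ e)⟩, fun y ⟨k, hk⟩ d => ?_⟩)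
      obtain ⟨R, hR, h3⟩ := exists_lift hp hf (isPi_zpowers.2 (hk ▸ piNat_pow hp k))
      obtain ⟨x, hx, rfl⟩ := h3.ge (mem_zpowers y)
      exact h x ((hR.pi.orderOf hx).exists_pow hp (orderOf_pos x).ne') (d.trans (CA.Kaz.index_map_dvd' _ hf x))
  obtain ⟨g, -, rfl⟩ := (syl_top hp P).syl_conj hp hQ
  exact hP ((isComm_cj g).1 hc)

end Cfsg.Agent.S4354
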