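import Cfsg.Statements.S4359
import Cfsg.Agent.Lib.Grp.PGBasic

set_option autoImplicit false
open Pointwise
open Cfsg

set_option linter.unusedVariables false
set_option linter.unusedSimpArgs false
set_option linter.style.haveILetI false

namespace Cfsg.Agent.S4359

open CA Subgroup
open scoped commutatorElement

variable {G : Type*} [Group G]

def J (P : Subgroup G) (g : G) (a b : ℤ) : Subgroup G where
  carrier := {y | ∀ i : ℤ, a ≤ i → i ≤ b → (g ^ i)⁻¹ * y * g ^ i ∈ P}
  one_mem' := fun i _ _ => by simp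
  mul_mem' := fun {x y} hx hy i h1 h2 => by
    have := P.mul_mem (hx i h1 h2) (hy i h1 h2)
    convert this using 1
    group
  inv_mem' := fun {x} hx i h1 h2 => by
    have := P.inv_mem (hx i h1 h2)
    convert this using 1
    group

section
variable {P : Subgroup G} {g : G}

theorem mem_J {a b : ℤ} {y : G} :
    y ∈ J P g a b ↔ ∀ i : ℤ, a ≤ i → i ≤ b → (g ^ i)⁻¹ * y * g ^ i ∈ P := Iff.rfl

theorem J_mono {a b a' b' : ℤ} (h1 : a' ≤ a) (h2 : b ≤ b') : J P g a' b' ≤ J P g a b :=
  fun y hy i i1 i2 => hy i (h1.trans i1) (i2.trans h2)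

theorem J_union {a b a' b' c d : ℤ} (h : ∀ i, c ≤ i → i ≤ d → (a ≤ i ∧ i ≤ b) ∨ (a' ≤ i ∧ i ≤ b'))
    {y : G} (h1 : y ∈ J P g a b) (h2 : y ∈ J P g a' b') : y ∈ J P g c d := by
  intro i i1 i2
  rcases h i i1 i2 with ⟨p1, p2⟩ | ⟨p1, p2⟩
  · exact h1 i p1 p2
  · exact h2 i p1 p2

theorem J_shift {a b a' b' k : ℤ} (ha : a' = a + k) (hb : b' = b + k) {y : G} :
    g ^ k * y * (g ^ k)⁻¹ ∈ J P g a' b' ↔ y ∈ J P g a b := by
  subst ha hb
  constructor
  · intro h i i1 i2
    have := h (i + k) (by omega) (by omega)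
    convert this using 1
    rw [add_comm, zpow_add]; group
  · intro h i i1 i2
    have := h (i - k) (by omega) (by omega)
    convert this using 1
    rw [sub_eq_neg_add, zpow_add, zpow_neg]; group

theorem J_map {a b a' b' k : ℤ} (ha : a' = a + k) (hb : b' = b + k) :
    (J P g a b).map (MulAut.conj (g ^ k)).toMonoidHom = J P g a' b' := by
  ext y
  constructor
  · rintro ⟨z, hz, rfl⟩
    exact (J_shift ha hb).2 hz
  · intro hy
    refine ⟨(g ^ k)⁻¹ * y * g ^ k, (J_shift (k := k) ha hb).1 ?_, ?_⟩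
    · convert hy using 1
      group
    · show g ^ k * ((g ^ k)⁻¹ * y * g ^ k) * (g ^ k)⁻¹ = y
      group

theorem J_card {a b a' b' : ℤ} (h : b' - a' = b - a) :
    Nat.card (J P g a' b') = Nat.card (J P g a b) := by
  rw [← J_map (P := P) (g := g) (a := a) (b := b) (k := a' - a) (a' := a') (b' := b')
    (by omega) (by omega), card_map_of_injective (MulAut.conj _).injective]

theorem J_zero : J P g 0 0 = P := by
  ext y
  constructor
  · intro h
    simpa using h 0 le_rfl le_rfl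
  · intro h i i1 i2
    obtain rfl : i = 0 := by omega
    simpa using h

theorem J_conj (k : ℤ) : MulAut.conj (g ^ k) • P = J P g k k := by
  rw [← J_map (P := P) (g := g) (a := 0) (b := 0) (k := k) (by omega) (by omega), J_zero]
  rfl

end

theorem comm_lemma {a b y : G} (h1 : Commute y b) (h2 : Commute ⁅y, a⁆ b)
    (h3 : Commute ⁅y, a⁆ ⁅a, b⁆) : Commute y ⁅a, b⁆ := by
  have e1 : y * ⁅a, b⁆ * y⁻¹ = ⁅y, a⁆ * ⁅a, b⁆ * (b * ⁅y, a⁆⁻¹ * b⁻¹) * (b * (y * b⁻¹ * y⁻¹)) := by
    have : y * ⁅a, b⁆ * y⁻¹ = y * a * y⁻¹ * (y * b * y⁻¹) * (y * a⁻¹ * y⁻¹) * (y * b⁻¹ * y⁻¹) := by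
      rw [commutatorElement_def]; group
    rw [this, h1.eq]
    simp only [commutatorElement_def]; group
  rw [← h2.inv_left.eq, h1.inv_right.eq, h3.eq] at e1
  show y * ⁅a, b⁆ = ⁅a, b⁆ * y
  rw [← mul_inv_eq_iff_eq_mul, e1]; group

theorem comm_mem {p : ℕ} [Fact p.Prime] [Finite G] {N M : Subgroup G} (hM : IsPGroup p M)
    (h : N.relIndex M = p) {a b : G} (ha : a ∈ M) (hb : b ∈ M) : ⁅a, b⁆ ∈ N := by
  haveI := PGBasic.normal_of_index_eq hM (M := N.subgroupOf M) h
  have := PGBasic.commutator_le_of_relIndex hM (K := ⊤) (N := N.subgroupOf M) le_top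
    (by rw [relIndex_top_right]; exact h)
  exact this (commutator_mem_commutator (mem_top (⟨a, ha⟩ : M)) (mem_top ⟨b, hb⟩))

theorem isP [Finite G] {P : Subgroup G} {g : G} {p : ℕ} (hp : p.Prime)
    (hN : ((P ⊓ MulAut.conj g⁻¹ • P).subgroupOf (MulAut.conj g⁻¹ • P)).Normal)
    (hidx : (P ⊓ MulAut.conj g⁻¹ • P).relIndex (MulAut.conj g⁻¹ • P) = p)
    (h1 : ∀ Q : Subgroup G, Q ≤ P → (Q.subgroupOf P).Normal → MulAut.conj g • Q = Q → Q = ⊥) :
    IsPGroup p P := by
  haveI : Fact p.Prime := ⟨hp⟩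
  set S : Set G := {y | y ∈ P ∧ (orderOf y).Coprime p} with hS
  have hR : closure S ≤ P := (closure_le _).2 fun y hy => hy.1
  have hconj : ∀ x : G, (∀ y ∈ S, x * y * x⁻¹ ∈ P) → ∀ y ∈ closure S, x * y * x⁻¹ ∈ closure S := by
    intro x hx y hy
    have : (closure S).map (MulAut.conj x).toMonoidHom ≤ closure S := by
      rw [MonoidHom.map_closure]
      apply Subgroup.closure_mono
      rintro _ ⟨z, hz, rfl⟩
      refine ⟨hx z hz, ?_⟩
      rw [orderOf_injective _ (MulAut.conj x).injective]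
      exact hz.2
    exact this ⟨y, hy, rfl⟩
  have hg : ∀ y ∈ S, g⁻¹ * y * g⁻¹⁻¹ ∈ P := by
    intro y hy
    have m1 : g⁻¹ * y * g⁻¹⁻¹ ∈ MulAut.conj g⁻¹ • P := smul_mem_pointwise_smul _ _ _ hy.1
    have m2 := ((P ⊓ MulAut.conj g⁻¹ • P).subgroupOf (MulAut.conj g⁻¹ • P)).pow_index_mem ⟨_, m1⟩
    rw [show ((P ⊓ MulAut.conj g⁻¹ • P).subgroupOf (MulAut.conj g⁻¹ • P)).index = p from hidx] at m2
    have m3 : (g⁻¹ * y * g⁻¹⁻¹) ^ p ∈ P := m2.1
    have ho : orderOf (g⁻¹ * y * g⁻¹⁻¹) = orderOf y :=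
      orderOf_injective (MulAut.conj g⁻¹).toMonoidHom (MulAut.conj g⁻¹).injective y
    obtain ⟨m, hm⟩ := exists_pow_eq_self_of_coprime (x := g⁻¹ * y * g⁻¹⁻¹) (n := p)
      (by rw [ho]; exact hy.2.symm)
    rw [← hm]
    exact P.pow_mem m3 m
  have hinv : MulAut.conj g • closure S = closure S := by
    have l1 : MulAut.conj g⁻¹ • closure S ≤ closure S := by
      rintro _ ⟨y, hy, rfl⟩
      exact hconj _ hg y hy
    have l2 : MulAut.conj g⁻¹ • closure S = closure S :=
      PGBasic.eq_of_le_of_card_le l1 (le_of_eq (card_map_of_injective (f := (MulAut.conj g⁻¹).toMonoidHom) (MulAut.conj g⁻¹).injective).symm)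
    conv_lhs => rw [← l2]
    rw [smul_smul, ← map_mul, mul_inv_cancel, map_one, one_smul]
  have hb := h1 _ hR ⟨fun x hx y => hconj y
    (fun z hz => P.mul_mem (P.mul_mem y.2 hz.1) (P.inv_mem y.2)) _ hx⟩ hinv
  rw [IsPGroup.iff_card]
  refine ⟨_, Nat.eq_prime_pow_of_unique_prime_dvd Nat.card_pos.ne' fun {q} hq hd => ?_⟩
  by_contra hne
  haveI : Fact q.Prime := ⟨hq⟩
  obtain ⟨y, hy⟩ := exists_prime_orderOf_dvd_card' q hd
  have : (y : G) ∈ closure S := subset_closure ⟨y.2, by
    rw [Subgroup.orderOf_coe, hy]; exact (Nat.coprime_primes hq hp).2 hne⟩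
  rw [hb, mem_bot, OneMemClass.coe_eq_one] at this
  rw [this, orderOf_one] at hy
  exact hq.one_lt.ne hy

theorem structure_thm [Finite G] {P : Subgroup G} {g : G} {p : ℕ} [hp : Fact p.Prime]
    (hP : IsPGroup p P) (hidx : (J P g (-1) 0).relIndex (J P g (-1) (-1)) = p)
    (h1 : ∀ Q : Subgroup G, Q ≤ P → (Q.subgroupOf P).Normal → MulAut.conj g • Q = Q → Q = ⊥) :
    ∃ (t : ℕ) (x : G), 1 ≤ t ∧ Nat.card P = p ^ t ∧ x ≠ 1 ∧ x ∈ J P g (1 - t) 0 ∧
      (∀ a b : ℤ, a ≤ b → IsPGroup p (J P g a b)) ∧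
      (∀ a b : ℤ, a ≤ b → b - a < t → (J P g a (b + 1)).relIndex (J P g a b) = p ∧
        (J P g (a - 1) b).relIndex (J P g a b) = p) ∧
      (∀ a b : ℤ, t ≤ b - a → J P g a b = ⊥) ∧
      (∀ a b : ℤ, a ≤ b → ∀ L : Subgroup G,
        (∀ i, b ≤ i → i ≤ a + t - 1 → g ^ i * x * (g ^ i)⁻¹ ∈ L) → J P g a b ≤ L) := by
  have hJP : ∀ a b : ℤ, a ≤ b → IsPGroup p (J P g a b) := by
    intro a b hab
    have : IsPGroup p (J P g a a) := by
      rw [← J_map (P := P) (g := g) (a := 0) (b := 0) (k := a) (by omega) (by omega), J_zero]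
      exact hP.map _
    exact this.to_le (J_mono le_rfl hab)
  have cpos : ∀ H : Subgroup G, 0 < Nat.card H := fun H => Nat.card_pos
  -- relative index from cardinalities
  have rel : ∀ {H K : Subgroup G} {m : ℕ}, H ≤ K → Nat.card H * m = Nat.card K → H.relIndex K = m := by
    intro H K m h hc
    have := PGBasic.card_mul_relIndex h
    rw [← hc] at this
    exact Nat.eq_of_mul_eq_mul_left (cpos H) this
  have c01 : Nat.card (J P g (-1) 0) * p = Nat.card (J P g (-1) (-1)) := by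
    rw [← hidx]; exact PGBasic.card_mul_relIndex (J_mono le_rfl (by omega))
  have step : ∀ k : ℕ, Nat.card (J P g 0 ((k : ℤ) + 1)) = Nat.card (J P g 0 k) ∨
      Nat.card (J P g 0 ((k : ℤ) + 1)) * p = Nat.card (J P g 0 k) := by
    intro k
    have r1 : (J P g k (k + 1)).relIndex (J P g k k) = p := by
      apply rel (J_mono le_rfl (by omega))
      rw [J_card (a := -1) (b := 0) (by omega), c01]
      exact J_card (by omega)
    have e : J P g 0 ((k : ℤ) + 1) = J P g k (k + 1) ⊓ J P g 0 k := by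
      apply le_antisymm (le_inf (J_mono (by omega) le_rfl) (J_mono le_rfl (by omega)))
      exact fun y hy => J_union (fun i _ _ => by omega) hy.1 hy.2
    have r2 : (J P g k (k + 1)).relIndex (J P g 0 k) ≤ p := by
      rw [← r1]
      exact relIndex_le_of_le_right (J_mono (by omega) le_rfl) (by rw [r1]; exact hp.out.ne_zero)
    obtain ⟨m, hm⟩ := PGBasic.exists_relIndex_eq_pow (H := J P g k (k + 1)) (hJP 0 k (by omega))
    have r3 := PGBasic.card_mul_relIndex (J_mono (P := P) (g := g) (a := 0) (a' := 0) (b := k)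
      (b' := k + 1) le_rfl (by omega))
    rw [e, inf_relIndex_right, ← e, hm] at r3
    rw [hm] at r2
    have : m ≤ 1 := (Nat.pow_le_pow_iff_right hp.out.one_lt).1 (by rwa [pow_one])
    interval_cases m
    · left; simpa using r3
    · right; simpa using r3
  have hex : ∃ k : ℕ, Nat.card (J P g 0 ((k : ℤ) + 1)) = Nat.card (J P g 0 k) := by
    by_contra hh
    push Not at hh
    have : ∀ k : ℕ, Nat.card (J P g 0 k) + k ≤ Nat.card (J P g 0 0) := by
      intro k
      induction k with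
      | zero => simp
      | succ k ih =>
        have := (step k).resolve_left (hh k)
        have h2 := hp.out.two_le
        have h3 := cpos (J P g 0 ((k : ℤ) + 1))
        push_cast
        nlinarith
    have h4 := this (Nat.card (J P g 0 0))
    have := cpos (J P g 0 (Nat.card (J P g 0 0) : ℕ))
    omega
  classical
  set t := Nat.find hex with ht
  have ht1 : Nat.card (J P g 0 ((t : ℤ) + 1)) = Nat.card (J P g 0 t) := Nat.find_spec hex
  have ht2 : ∀ k < t, Nat.card (J P g 0 ((k : ℤ) + 1)) * p = Nat.card (J P g 0 k) :=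
    fun k hk => (step k).resolve_left (Nat.find_min hex hk)
  have ht3 : ∀ a b a' b' : ℤ, a ≤ b → b - a < t → b' - a' = b - a + 1 →
      Nat.card (J P g a' b') * p = Nat.card (J P g a b) := by
    intro a b a' b' h1 h2 h3
    obtain ⟨k, hk⟩ := Int.eq_ofNat_of_zero_le (show 0 ≤ b - a by omega)
    rw [J_card (a := 0) (b := (k : ℤ) + 1) (by omega), ht2 k (by omega)]
    exact J_card (by omega)
  have tpos : 1 ≤ t := by
    by_contra hh
    have h0 : t = 0 := by omega
    rw [h0, J_card (a := -1) (b := 0) (by omega), J_card (a' := 0) (a := -1) (b := -1) (by omega),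
      ← c01] at ht1
    have := hp.out.two_le
    have := cpos (J P g (-1) 0)
    nlinarith
  have hrel : ∀ a b : ℤ, a ≤ b → b - a < t → (J P g a (b + 1)).relIndex (J P g a b) = p ∧
        (J P g (a - 1) b).relIndex (J P g a b) = p := fun a b h1 h2 =>
    ⟨rel (J_mono le_rfl (by omega)) (ht3 _ _ _ _ h1 h2 (by omega)),
      rel (J_mono (by omega) le_rfl) (ht3 _ _ _ _ h1 h2 (by omega))⟩
  have gen : ∀ m : ℕ, ∀ a b : ℤ, a ≤ b → b - a + m = t - 1 → ∀ L : Subgroup G,
      (∀ j, a - m ≤ j → j ≤ a → J P g j (j + t - 1) ≤ L) → J P g a b ≤ L := by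
    intro m
    induction m with
    | zero =>
      intro a b h1 h2 L hL
      have := hL a (by omega) le_rfl
      rwa [show a + t - 1 = b by omega] at this
    | succ m ih =>
      intro a b h1 h2 L hL
      push_cast at h2 hL
      have i1 := ih a (b + 1) (by omega) (by omega) L fun j j1 j2 => hL j (by omega) j2
      have i2 := ih (a - 1) b (by omega) (by omega) L fun j j1 j2 => hL j (by omega) (by omega)
      rcases PGBasic.eq_or_eq_of_relIndex_prime hp.out (hrel a b h1 (by omega)).1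
        (K := J P g a (b + 1) ⊔ J P g (a - 1) b) le_sup_left
        (sup_le (J_mono le_rfl (by omega)) (J_mono (by omega) le_rfl)) with h | h
      · exfalso
        have l1 : J P g (a - 1) b ≤ J P g (a - 1) (b + 1) := fun y hy =>
          J_union (fun i _ _ => by omega) hy (h ▸ mem_sup_right hy : y ∈ J P g a (b + 1))
        have l2 := PGBasic.card_le_of_le' l1
        have l3 := ht3 (a - 1) b (a - 1) (b + 1) (by omega) (by omega) (by omega)
        have := hp.out.two_le
        have := cpos (J P g (a - 1) (b + 1))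
        nlinarith
      · rw [← h]; exact sup_le i1 i2
  have d1 : J P g 0 ((t : ℤ) + 1) = J P g 0 t :=
    PGBasic.eq_of_le_of_card_le (J_mono le_rfl (by omega)) ht1.ge
  have d2 : J P g 0 ((t : ℤ) + 1) = J P g 1 (t + 1) :=
    PGBasic.eq_of_le_of_card_le (J_mono (by omega) le_rfl) (by rw [ht1]; exact le_of_eq (J_card (by omega)))
  have d3 : ∀ j : ℤ, J P g (j + 1) (j + 1 + t) = J P g j (j + t) := by
    intro j
    rw [← J_map (P := P) (g := g) (a := 1) (b := t + 1) (k := j) (a' := j + 1) (b' := j + 1 + t)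
      (by omega) (by omega), ← d2, d1]
    exact J_map (by omega) (by omega)
  have d4 : ∀ j : ℤ, J P g j (j + t) = J P g 0 t := by
    intro j
    induction j using Int.induction_on with
    | zero => rw [zero_add]
    | succ j ih => rw [d3, ih]
    | pred j ih => rw [← d3, ← ih]; congr 1 <;> omega
  have hD : J P g 0 t = ⊥ := by
    apply h1
    · conv_rhs => rw [← J_zero (P := P) (g := g)]
      exact J_mono le_rfl (by omega)
    · rw [normal_subgroupOf_iff_le_normalizer]
      · conv_lhs => rw [← J_zero (P := P) (g := g)]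
        apply gen (t - 1) 0 0 le_rfl (by omega)
        intro j _ _
        rw [← d4 j]
        apply PGBasic.le_normalizer_of_relIndex (hJP _ _ (by omega)) (J_mono le_rfl (by omega))
        have := (hrel j (j + t - 1) (by omega) (by omega)).1
        rwa [sub_add_cancel] at this
      · conv_rhs => rw [← J_zero (P := P) (g := g)]
        exact J_mono le_rfl (by omega)
    · have := J_map (P := P) (g := g) (a := 0) (b := t) (k := 1) (a' := 1) (b' := 1 + t)
        (by omega) (by omega)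
      rw [zpow_one, d4] at this
      exact this
  have hbot : ∀ a b : ℤ, t ≤ b - a → J P g a b = ⊥ := by
    intro a b h
    rw [eq_bot_iff, ← hD, ← d4 a]
    exact J_mono le_rfl (by omega)
  have hcard : ∀ m : ℕ, m ≤ t → Nat.card (J P g 0 (t - m)) = p ^ m := by
    intro m
    induction m with
    | zero => intro _; rw [hbot _ _ (by omega)]; simp
    | succ m ih =>
      intro h
      rw [← ht3 0 _ 0 (t - m) (by omega) (by omega) (by push_cast; omega), ih (by omega), pow_succ]
  have hcp : ∀ j : ℤ, Nat.card (J P g j (j + t - 1)) = p := by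
    intro j
    rw [J_card (a := 0) (b := t - (1 : ℕ)) (by push_cast; omega), hcard 1 tpos, pow_one]
  obtain ⟨x, hx, hx1⟩ : ∃ x ∈ J P g (1 - t) 0, x ≠ 1 := by
    have := hcp (1 - t)
    rw [show (1 : ℤ) - t + t - 1 = 0 by omega] at this
    by_contra hh
    push Not at hh
    rw [(eq_bot_iff_forall _).2 hh, card_bot] at this
    exact hp.out.one_lt.ne this
  refine ⟨t, x, tpos, ?_, hx1, hx, hJP, hrel, hbot, ?_⟩
  · have := hcard t le_rfl
    rwa [sub_self, J_zero] at this
  · intro a b hab L hL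
    by_cases h : (t : ℤ) ≤ b - a
    · rw [hbot a b h]; exact bot_le
    obtain ⟨m, hm⟩ := Int.eq_ofNat_of_zero_le (show 0 ≤ t - 1 - (b - a) by omega)
    apply gen m a b hab (by omega)
    intro j j1 j2
    have m1 := hL (j + t - 1) (by omega) (by omega)
    have m2 : g ^ (j + t - 1) * x * (g ^ (j + t - 1))⁻¹ ∈ J P g j (j + t - 1) :=
      (J_shift (by omega) (by omega)).2 hx
    have m3 := PGBasic.sup_zpowers_eq_of_relIndex_prime hp.out (N := ⊥)
      (by rw [relIndex_bot_left, hcp j]) bot_le m2 (by simpa using hx1)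
    rw [← m3, bot_sup_eq, zpowers_le]
    exact m1


/-- Let P be a subgroup of a finite group G and g an element such that P ∩ g⁻¹Pg is a normal subgroup of prime index p in g⁻¹Pg. Let n ≥ 1 and let K be the subgroup generated by P and its conjugates g⁻ⁱPgⁱ for i ≤ n. Suppose that g normalizes no non-identity normal subgroup of P and that P meets the center of K trivially. Then the order of P is pᵗ for some t with 1 ≤ t ≤ 3n and t ≠ 3n - 1. -/
theorem result {G : Type*} [Group G] [Finite G]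
    (P : Subgroup G) (g : G) (p : ℕ) (hp : p.Prime)
    (hN : ((P ⊓ MulAut.conj g⁻¹ • P).subgroupOf (MulAut.conj g⁻¹ • P)).Normal)
    (hidx : (P ⊓ MulAut.conj g⁻¹ • P).relIndex (MulAut.conj g⁻¹ • P) = p)
    (n : ℕ) (hn : 1 ≤ n) (K : Subgroup G) (hK : K = ⨆ i ∈ Finset.range (n + 1), MulAut.conj (g ^ i)⁻¹ • P)
    (h1 : ∀ Q : Subgroup G, Q ≤ P → (Q.subgroupOf P).Normal → MulAut.conj g • Q = Q → Q = ⊥)
    (h2 : P ⊓ (Subgroup.center K).map K.subtype = ⊥) :
    ∃ t : ℕ, Nat.card P = p ^ t ∧ 1 ≤ t ∧ t ≤ 3 * n ∧ t ≠ 3 * n - 1 := by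
  haveI : Fact p.Prime := ⟨hp⟩
  have hP := isP hp hN hidx h1
  have e1 : MulAut.conj g⁻¹ • P = J P g (-1) (-1) := by rw [← J_conj, zpow_neg_one]
  have e2 : P ⊓ J P g (-1) (-1) = J P g (-1) 0 := by
    conv_lhs => rw [← J_zero (P := P) (g := g)]
    conv_lhs => arg 2; rw [J_zero]
    apply le_antisymm
    · exact fun y hy => J_union (fun i _ _ => by omega) hy.1 hy.2
    · exact le_inf (J_mono (by omega) le_rfl) (J_mono le_rfl (by omega))
  rw [e1, e2] at hidx
  obtain ⟨t, x₀, tpos, hc, hx1, hx, hJP, hrel, hbot, gen⟩ := structure_thm hP hidx h1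
  refine ⟨t, hc, tpos, ?_⟩
  obtain ⟨x, hxd⟩ : ∃ x : ℤ → G, ∀ i, x i = g ^ i * x₀ * (g ^ i)⁻¹ := ⟨_, fun _ => rfl⟩
  simp only [← hxd] at gen
  have xmem : ∀ i a b : ℤ, b ≤ i → i ≤ a + t - 1 → x i ∈ J P g a b := by
    intro i a b i1 i2
    rw [hxd]
    exact J_mono (by omega) (by omega) ((J_shift rfl rfl).2 hx)
  have xsh : ∀ i j k : ℤ, Commute (x i) (x j) → Commute (x (i + k)) (x (j + k)) := by
    intro i j k h
    have e : ∀ i, x (i + k) = MulAut.conj (g ^ k) (x i) := by
      intro i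
      rw [hxd, hxd, add_comm, zpow_add, MulAut.conj_apply]; group
    rw [e, e]
    exact h.map _
  have xcomm : ∀ i j : ℤ, i < j → j - i < t → ⁅x i, x j⁆ ∈ J P g (j - t) (i + 1) := by
    intro i j i1 i2
    obtain ⟨r1, r2⟩ := hrel (j - t + 1) i (by omega) (by omega)
    have m1 := xmem i (j - t + 1) i le_rfl (by omega)
    have m2 := xmem j (j - t + 1) i (by omega) (by omega)
    exact J_union (fun i _ _ => by omega) (comm_mem (hJP _ _ (by omega)) r1 m1 m2)
      (comm_mem (hJP _ _ (by omega)) r2 m1 m2)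
  classical
  have hex : ∃ u : ℕ, t ≤ u ∨ ¬ Commute (x 0) (x u) := ⟨t, Or.inl le_rfl⟩
  set u := Nat.find hex with hu
  have hu1 : t ≤ u ∨ ¬ Commute (x 0) (x u) := Nat.find_spec hex
  have hut : u ≤ t := Nat.find_min' hex (Or.inl le_rfl)
  have hcm : ∀ i j : ℤ, j - i < u → i - j < u → Commute (x i) (x j) := by
    have : ∀ i j : ℤ, i ≤ j → j - i < u → Commute (x i) (x j) := by
      intro i j i1 i2
      obtain ⟨k, hk⟩ := Int.eq_ofNat_of_zero_le (show 0 ≤ j - i by omega)
      have := Nat.find_min hex (show k < u by omega)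
      push Not at this
      have := xsh _ _ i this.2
      rwa [zero_add, ← hk, sub_add_cancel] at this
    intro i j i1 i2
    rcases le_total i j with h | h
    · exact this i j h i1
    · exact (this j i h i2).symm
  have upos : 1 ≤ u := by
    by_contra hh
    have h0 : u = 0 := by omega
    rw [h0] at hu1
    rcases hu1 with h | h
    · omega
    · exact h (Commute.refl _)
  have cen : ∀ (a b : ℤ) (y : G), a ≤ b → (∀ i, b ≤ i → i ≤ a + t - 1 → Commute (x i) y) →
      ∀ z ∈ J P g a b, Commute z y := by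
    intro a b y hab h z hz
    exact mem_centralizer_singleton_iff.1 (gen a b hab (centralizer {y})
      (fun i i1 i2 => mem_centralizer_singleton_iff.2 (h i i1 i2)) hz)
  have hupper : 2 * u ≤ t + n := by
    by_contra hh
    have m1 : x (t - u) ∈ P := by
      rw [← J_zero (P := P) (g := g)]
      exact xmem _ _ _ (by omega) (by omega)
    have m2 : P ≤ K := by
      rw [hK]
      refine le_trans ?_ (le_iSup₂_of_le 0 (by simp) le_rfl)
      simp
    have m3 : K ≤ centralizer {x (t - u)} := by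
      rw [hK]
      refine iSup₂_le fun i hi => ?_
      rw [Finset.mem_range] at hi
      rw [← zpow_natCast, ← zpow_neg, J_conj]
      intro z hz
      exact mem_centralizer_singleton_iff.2 (cen _ _ _ le_rfl
        (fun j j1 j2 => hcm _ _ (by omega) (by omega)) z hz)
    have m4 : x (t - u) ∈ P ⊓ (Subgroup.center K).map K.subtype := by
      refine ⟨m1, ⟨_, m2 m1⟩, mem_center_iff.2 fun z => Subtype.ext ?_, rfl⟩
      exact mem_centralizer_singleton_iff.1 (m3 z.2)
    rw [h2, mem_bot, hxd] at m4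
    exact hx1 (by simpa using m4)
  by_cases htu : t ≤ u
  · omega
  have hnc := hu1.resolve_left htu
  have hc1 : ⁅x 0, x u⁆ ≠ 1 := fun h => hnc (commutatorElement_eq_one_iff_commute.1 h)
  have hc2 := xcomm 0 u (by omega) (by omega)
  obtain ⟨μ, μ1, μ2, μ3, μ4⟩ : ∃ μ : ℤ, 1 ≤ μ ∧ μ < u ∧ ⁅x 0, x u⁆ ∈ J P g (u - t) μ ∧
      ⁅x 0, x u⁆ ∉ J P g (u - t) (μ + 1) := by
    obtain ⟨μ, ⟨q1, q2⟩, q3⟩ := Int.exists_greatest_of_bdd
      (P := fun μ : ℤ => 1 ≤ μ ∧ ⁅x 0, x u⁆ ∈ J P g (u - t) μ)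
      ⟨u, fun z hz => by
        by_contra hh
        rw [hbot _ _ (by omega), mem_bot] at hz
        exact hc1 hz.2⟩ ⟨1, le_rfl, hc2⟩
    refine ⟨μ, q1, ?_, q2, fun h => ?_⟩
    · by_contra hh
      rw [hbot _ _ (by omega), mem_bot] at q2
      exact hc1 q2
    · have := q3 (μ + 1) ⟨by omega, h⟩
      omega
  obtain ⟨ν, ν1, ν2, ν3, ν4⟩ : ∃ ν : ℤ, 1 ≤ ν ∧ ν < u ∧ ⁅x 0, x u⁆ ∈ J P g (ν - t + 1) 1 ∧
      ⁅x 0, x u⁆ ∉ J P g (ν - t + 1 - 1) 1 := by
    obtain ⟨ν, ⟨q1, q2⟩, q3⟩ := Int.exists_least_of_bdd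
      (P := fun ν : ℤ => ν < u ∧ ⁅x 0, x u⁆ ∈ J P g (ν - t + 1) 1)
      ⟨1, fun z hz => by
        by_contra hh
        rw [hbot _ _ (by omega), mem_bot] at hz
        exact hc1 hz.2⟩ ⟨u - 1, by omega, J_mono (by omega) (by omega) hc2⟩
    refine ⟨ν, ?_, q1, q2, fun h => ?_⟩
    · by_contra hh
      rw [hbot _ _ (by omega), mem_bot] at q2
      exact hc1 q2
    · have := q3 (ν - 1) ⟨by omega, J_mono (by omega) (by omega) h⟩
      omega
  have hμν : μ ≤ ν := by
    by_contra hh
    have : ⁅x 0, x u⁆ ∈ J P g (ν - t + 1) μ := J_union (fun i _ _ => by omega) μ3 ν3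
    rw [hbot _ _ (by omega), mem_bot] at this
    exact hc1 this
  have A1 : (t : ℤ) ≤ μ + u := by
    by_contra hh
    have d1 : ⁅x (μ + u), x 0⁆ ∈ J P g (μ + u - t) (0 + 1) := by
      rw [← commutatorElement_inv]
      exact inv_mem (xcomm 0 (μ + u) (by omega) (by omega))
    have d2 : ∀ k, μ ≤ k → k ≤ u → Commute ⁅x (μ + u), x 0⁆ (x k) := fun k k1 k2 =>
      cen _ _ _ (by omega) (fun j j1 j2 => hcm _ _ (by omega) (by omega)) _ d1
    have d3 : Commute ⁅x 0, x u⁆ ⁅x (μ + u), x 0⁆ :=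
      cen _ _ _ (by omega) (fun j j1 j2 => (d2 j j1 (by omega)).symm) _ μ3
    have d4 := comm_lemma (hcm (μ + u) u (by omega) (by omega)) (d2 u (by omega) le_rfl) d3.symm
    have d5 := PGBasic.sup_zpowers_eq_of_relIndex_prime hp (hrel (u - t) μ (by omega) (by omega)).1
      (J_mono le_rfl (by omega)) μ3 μ4
    have d6 : J P g (u - t) μ ≤ centralizer {x (μ + u)} := by
      rw [← d5, sup_le_iff, zpowers_le]
      exact ⟨fun z hz => mem_centralizer_singleton_iff.2 (cen _ _ _ (by omega)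
        (fun j j1 j2 => hcm _ _ (by omega) (by omega)) z hz),
        mem_centralizer_singleton_iff.2 d4.symm⟩
    have d7 : Commute (x μ) (x (μ + u)) :=
      mem_centralizer_singleton_iff.1 (d6 (xmem μ _ _ le_rfl (by omega)))
    have := xsh _ _ (-μ) d7
    rw [add_neg_cancel, show μ + u + -μ = u by omega] at this
    exact hnc this
  have A2 : (t : ℤ) ≤ 2 * u - ν := by
    by_contra hh
    have d1 : ⁅x (ν - u), x u⁆ ∈ J P g (u - t) (ν - u + 1) :=
      xcomm _ _ (by omega) (by omega)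
    have d2 : ∀ k, 0 ≤ k → k ≤ ν → Commute ⁅x (ν - u), x u⁆ (x k) := fun k k1 k2 =>
      cen _ _ _ (by omega) (fun j j1 j2 => hcm _ _ (by omega) (by omega)) _ d1
    have d3 : Commute ⁅x 0, x u⁆ ⁅x (ν - u), x u⁆ :=
      cen _ _ _ (by omega) (fun j j1 j2 => (d2 j (by omega) (by omega)).symm) _ ν3
    have d4 := comm_lemma (hcm (ν - u) 0 (by omega) (by omega)) (d2 0 le_rfl (by omega))
      (by rw [← commutatorElement_inv (x 0)]; exact d3.symm.inv_right)
    rw [← commutatorElement_inv (x 0), Commute.inv_right_iff] at d4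
    have d5 := PGBasic.sup_zpowers_eq_of_relIndex_prime hp
      (hrel (ν - t + 1) 1 (by omega) (by omega)).2 (J_mono (by omega) le_rfl) ν3 ν4
    have d6 : J P g (ν - t + 1) 1 ≤ centralizer {x (ν - u)} := by
      rw [← d5, sup_le_iff, zpowers_le]
      exact ⟨fun z hz => mem_centralizer_singleton_iff.2 (cen _ _ _ (by omega)
        (fun j j1 j2 => hcm _ _ (by omega) (by omega)) z hz),
        mem_centralizer_singleton_iff.2 d4.symm⟩
    have d7 : Commute (x ν) (x (ν - u)) :=
      mem_centralizer_singleton_iff.1 (d6 (xmem ν _ _ (by omega) (by omega)))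
    have := xsh _ _ (u - ν) d7.symm
    rw [show ν - u + (u - ν) = 0 by omega, show ν + (u - ν) = u by omega] at this
    exact hnc this
  omega

end Cfsg.Agent.S4359
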