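import Cfsg.Statements.S4364
import Cfsg.Agent.Lib.Solv.Kaz

set_option autoImplicit false
open Cfsg

namespace Cfsg.Agent.S4364

open Subgroup CA CA.BG

/-- Let G be a finite group, p a prime and x an element whose conjugacy class has p-power size. Then for any two conjugates y and z of x, the commutator y z y⁻¹ z⁻¹ lies in O_p(G), the largest normal p-subgroup of G. -/
theorem result {G : Type*} [Group G] [Finite G] (p : ℕ) [Fact p.Prime]
    (x : G) (hx : ∃ a : ℕ, (Subgroup.centralizer ({x} : Set G)).index = p ^ a) (g h : G) :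
    (g * x * g⁻¹) * (h * x * h⁻¹) * (g * x * g⁻¹)⁻¹ * (h * x * h⁻¹)⁻¹ ∈ Cfsg.pCore p G := by
  have hp := (Fact.out : p.Prime)
  obtain ⟨a, ha⟩ := hx
  obtain ⟨j, hj⟩ := Kaz.pow_of_dvd hp
    ((Kaz.index_map_dvd' _ (QuotientGroup.mk'_surjective (pCore p G)) x).trans ha.dvd)
  have h1 := Kaz.comm_closure hp hj (by rw [core_p_eq hp, Core.map_pCore_top,
    Core.pCore_quotient_pCore])
  have h2 : ∀ g : G, QuotientGroup.mk' (pCore p G) (g * x * g⁻¹) ∈
      normalClosure {QuotientGroup.mk' (pCore p G) x} := fun g => by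
    rw [map_mul, map_mul, map_inv]
    exact normalClosure_normal.conj_mem _ (subset_normalClosure (Set.mem_singleton _)) _
  refine (QuotientGroup.eq_one_iff _).1 ?_
  exact (map_commutatorElement (QuotientGroup.mk' (pCore p G)) (g * x * g⁻¹) (h * x * h⁻¹)).trans
    (commutatorElement_eq_one_iff_mul_comm.2 (PGBasic.isMulCommutative_iff.1 h1 _ (h2 g) _ (h2 h)))

end Cfsg.Agent.S4364
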