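import Cfsg.Statements.S4370
import Cfsg.Agent.Lib.Grp.H7Ito
import Cfsg.Agent.Lib.Grp.NPC2
import Cfsg.Agent.Lib.Lin.SL2Sylow2
import Cfsg.Agent.Lib.Perm.RegLin

set_option autoImplicit false
open Cfsg

namespace Cfsg.Agent.S4370

open Subgroup CA.BG CA.H7Ito CA.PRes CA.PGBasic CA.PGNormalCyclic
open scoped commutatorElement

theorem cyc_cent {n : ℕ} [NeZero n] {q : QuaternionGroup n} (hq : q ∉ center (QuaternionGroup n)) :
    IsCyclic 𝓒₁(q) := by
  rcases q with i | i
  · refine Subgroup.isCyclic_of_le (H' := zpowers (QuaternionGroup.a 1)) ?_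
    rintro (j | j) h
    · exact ⟨(j.val : ℤ), (CA.PGDihedral.quaternion_a_one_zpow _).trans (by simp)⟩
    · have h' := mem_centralizer_singleton_iff.1 h
      simp only [QuaternionGroup.xa_mul_a, QuaternionGroup.a_mul_xa,
        QuaternionGroup.xa.injEq] at h'
      refine absurd (mem_center_iff.2 ?_) hq
      rintro (k | k)
      · simp [add_comm]
      · simp only [QuaternionGroup.xa_mul_a, QuaternionGroup.a_mul_xa, QuaternionGroup.xa.injEq]
        linear_combination h'
  · refine Subgroup.isCyclic_of_le (H' := zpowers (QuaternionGroup.xa i)) ?_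
    have key : ∀ j : ZMod (2 * n), j + j = 0 → QuaternionGroup.a j ∈ zpowers (QuaternionGroup.xa i) := by
      intro j hj
      rcases (ZMod.neg_eq_self_iff j).1 (neg_eq_of_add_eq_zero_left hj) with rfl | h
      · exact one_mem _
      · have : j = n := by
          rw [← ZMod.natCast_zmod_val j, Nat.eq_of_mul_eq_mul_left two_pos h]
        exact this ▸ QuaternionGroup.xa_sq i ▸ pow_mem (mem_zpowers _) 2
    rintro (j | j) h
    · have h' := mem_centralizer_singleton_iff.1 h
      simp only [QuaternionGroup.xa_mul_a, QuaternionGroup.a_mul_xa,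
        QuaternionGroup.xa.injEq] at h'
      exact key j (by linear_combination -h')
    · have h' := mem_centralizer_singleton_iff.1 h
      simp only [QuaternionGroup.xa_mul_xa, QuaternionGroup.a.injEq] at h'
      have := mul_mem (mem_zpowers _) (key (j - i) (by linear_combination -h'))
      simpa using this

/-- Let G be a finite non-abelian nilpotent group. Then the centralizer of every non-central element of G is cyclic if and only if G is isomorphic to the direct product of a generalized quaternion group and a cyclic group of odd order. -/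
theorem result {G : Type*} [Group G] [Finite G] (hG : Group.IsNilpotent G)
    (hna : ¬ IsMulCommutative G) :
    (∀ x : G, x ∉ Subgroup.center G → IsCyclic (Subgroup.centralizer ({x} : Set G))) ↔
      ∃ (k m : ℕ), 1 ≤ k ∧ Odd m ∧ Nonempty (G ≃* QuaternionGroup (2 ^ k) × Multiplicative (ZMod m)) := by
  haveI : Fact (Nat.Prime 2) := ⟨Nat.prime_two⟩
  constructor
  · intro h
    obtain ⟨x₀, hx₀⟩ : ∃ x : G, x ∉ center G := by
      by_contra h'
      push Not at h'
      exact hna ⟨⟨fun a b => mem_center_iff.1 (h' b) a⟩⟩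
    have h1 : ∀ B : Subgroup G, IsMulCommutative B → IsCyclic B := by
      intro B hB
      by_cases hc : B ≤ center G
      · haveI := h x₀ hx₀
        exact Subgroup.isCyclic_of_le (hc.trans (center_le_centralizer {x₀}))
      · obtain ⟨x, hx, hx'⟩ := SetLike.not_le_iff_exists.1 hc
        haveI := h x hx'
        exact Subgroup.isCyclic_of_le (H' := 𝓒₁(x)) fun b hb =>
          mem_centralizer_singleton_iff.2 (CA.PGBasic.isMulCommutative_iff.1 hB b hb x hx)
    have cc : ∀ x y : G, (orderOf x).Coprime (orderOf y) → x * y = y * x := fun x y h =>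
      CA.NPC2.commute_of_coprime_of_isNilpotent (H := ⊤) inferInstance (mem_top _) (mem_top _) h
    have h2 : pResidual 2 G ≤ center G := by
      refine pResidual_le_iff.2 fun g hg => CA.Kaz.mem_of_parts fun q m hq hm => ?_
      haveI := Fact.mk hq
      obtain ⟨i, hi⟩ := CA.AmbSyl.orderOf_eq_pow_of_mem (hm.isPGroup hq) (mem_zpowers _)
      by_cases e : q = 2
      · subst e
        have := (hg.pow_right i).symm.eq_one_of_dvd (hi ▸ orderOf_pow_dvd m)
        exact orderOf_eq_one_iff.1 (hi.trans this) ▸ one_mem _
      obtain ⟨S⟩ : Nonempty (Sylow q G) := inferInstance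
      have hS : IsCyclic (S : Subgroup G) := by
        rcases trichotomy S.isPGroup' with h | ⟨E, -, hE, hc⟩ | ⟨h, -⟩
        · exact h
        · haveI := hE.1
          refine absurd ((MulEquiv.isCyclic (E.equivMapOfInjective _ S.1.subtype_injective)).2
            (h1 _ inferInstance)) (not_isCyclic_of_elementary hq.pos hE.2 ?_)
          rw [hc]; nlinarith [hq.two_le]
        · exact absurd h e
      refine mem_center_iff.2 fun y => ?_
      obtain ⟨a, b, -, -, rfl, ⟨k, hk⟩, hb⟩ := exists_p_part (p := q) y
      have le : ∀ Q : Subgroup G, IsPGroup q Q → Q ≤ S := fun Q hQ =>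
        (CA.AmbSyl.sylIn_top S).le_of_norm' hQ le_top le_normalizer_of_normal
      rw [mul_assoc, cc b _ (hi ▸ hb.pow_right i), ← mul_assoc,
        CA.PGBasic.isMulCommutative_iff.1 hS.isMulCommutative a
          (le _ (CA.AmbSyl.isPGroup_zpowers hk) (mem_zpowers a)) _
          (le _ (hm.isPGroup hq) (mem_zpowers _)), mul_assoc]
    obtain ⟨P⟩ : Nonempty (Sylow 2 G) := inferInstance
    have hc := (hasNPC_iff_isComplement' P).1 (CA.NPC2.hasNPC_of_isNilpotent hG)
    have h3 : ¬ IsCyclic (P : Subgroup G) := fun hP => hna (by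
      haveI := isMulCommutative_sup (A := (P : Subgroup G)) (B := pResidual 2 G)
        (hB := isMulCommutative_of_le h2) (h2.trans (center_le_centralizer _))
      rw [sup_comm, pResidual_sup_sylow] at this
      exact ⟨⟨fun a b => CA.PGBasic.isMulCommutative_iff.1 this a (mem_top a) b (mem_top b)⟩⟩)
    haveI : Nontrivial (P : Subgroup G) := by
      by_contra h'
      rw [not_nontrivial_iff_subsingleton] at h'
      exact h3 inferInstance
    obtain ⟨z, -, hz, ho⟩ := exists_mem_center_orderOf P.isPGroup' (M := ⊤) top_ne_bot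
    have h4 : ∀ x : (P : Subgroup G), orderOf x = 2 → x = z := by
      intro x hx
      by_contra hne
      have := four_of_commute Nat.prime_two ho (y := x) (orderOf_dvd_iff_pow_eq_one.1 hx.dvd) (fun h => by
        classical
        obtain ⟨k, hk, rfl⟩ := (mem_zpowers_iff_mem_range_orderOf.1 h |> Finset.mem_image.1)
        rw [ho, Finset.mem_range] at hk
        interval_cases k
        · simp at hx
        · exact hne (pow_one z)) (mem_center_iff.1 hz x).symm
      haveI hh := this.1.1
      exact not_isCyclic_of_elementary two_pos this.1.2 (by rw [this.2]; norm_num)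
        ((MulEquiv.isCyclic ((zpowers z ⊔ zpowers x).equivMapOfInjective _ P.1.subtype_injective)).2
          (h1 _ inferInstance))
    obtain ⟨k, hk, ⟨e⟩⟩ := CA.SL2Sylow2.quaternion_of_unique P.isPGroup'
      (fun x y hx hy => (h4 x hx).trans (h4 y hy).symm) h3
    obtain ⟨f⟩ := CA.RegLin.nonempty_prod' (P : Subgroup G) (pResidual 2 G)
      (h2.trans (center_le_centralizer _)) hc.symm.disjoint.eq_bot hc.symm.card_mul_card
    refine ⟨k, ♯(pResidual 2 G), hk, ?_, ⟨f.trans (e.prodCongr
      (zmodCyclicMulEquiv (h1 _ (isMulCommutative_of_le h2))).symm)⟩⟩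
    exact Nat.not_even_iff_odd.1 fun h => hasNPC_iff_not_dvd.1
      (CA.NPC2.hasNPC_of_isNilpotent hG) h.two_dvd
  · rintro ⟨k, m, hk, hm, ⟨e⟩⟩ x hx
    have h1 : (e x).1 ∉ center _ := fun h => hx (mem_center_iff.2 fun g => e.injective (by
      rw [map_mul, map_mul]
      exact Prod.ext (mem_center_iff.1 h _) (mul_comm _ _)))
    haveI : IsCyclic (𝓒₁((e x).1) × Multiplicative (ZMod m)) := by
      refine Group.isCyclic_prod_iff.2 ⟨cyc_cent h1, inferInstance, ?_⟩
      refine Nat.Coprime.coprime_dvd_left (card_subgroup_dvd_card _) ?_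
      rw [Nat.card_eq_fintype_card, QuaternionGroup.card, Nat.card_congr Multiplicative.toAdd,
        Nat.card_zmod, show 4 * 2 ^ k = 2 ^ (k + 2) by ring]
      exact (Nat.coprime_two_left.2 hm).pow_left _
    let f : 𝓒₁(x) →* 𝓒₁((e x).1) × Multiplicative (ZMod m) :=
      ((((MonoidHom.fst _ _).comp e.toMonoidHom).comp 𝓒₁(x).subtype).codRestrict _ fun g =>
        mem_centralizer_singleton_iff.2 (by
          have := congrArg (fun t => (e t).1) (mem_centralizer_singleton_iff.1 g.2)
          simpa using this)).prod (((MonoidHom.snd _ _).comp e.toMonoidHom).comp 𝓒₁(x).subtype)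
    exact isCyclic_of_injective f fun a b h => Subtype.ext (e.injective
      (Prod.ext (congrArg Subtype.val (congrArg Prod.fst h)) (congrArg Prod.snd h :)))

end Cfsg.Agent.S4370
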