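import Cfsg.Statements.S4377
import Mathlib

set_option autoImplicit false
open Cfsg

namespace Cfsg.Agent.S4377

/-- Two finite groups have the same number of elements of each order if and only if, for every n, they have the same number of elements g with gⁿ = 1. -/
theorem result {G H : Type*} [Group G] [Finite G] [Group H] [Finite H] :
    (∀ n : ℕ, Nat.card {g : G // orderOf g = n} = Nat.card {h : H // orderOf h = n}) ↔
      ∀ n : ℕ, Nat.card {g : G // g ^ n = 1} = Nat.card {h : H // h ^ n = 1} := by
  classical
  have := Fintype.ofFinite G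
  have := Fintype.ofFinite H
  constructor
  · intro h n
    let ef : ∀ n, {g : G // orderOf g = n} ≃ {g : H // orderOf g = n} := fun n => (Finite.card_eq.1 (h n)).some
    refine Nat.card_congr (Equiv.subtypeEquiv (Equiv.ofFiberEquiv ef) fun a => ?_)
    rw [← orderOf_dvd_iff_pow_eq_one, ← orderOf_dvd_iff_pow_eq_one, Equiv.ofFiberEquiv_map ef a]
  · intro h n
    induction n using Nat.strong_induction_on with
    | _ n ih =>
    rcases Nat.eq_zero_or_pos n with rfl | hn
    · have h1 : IsEmpty {g : G // orderOf g = 0} := ⟨fun x => (orderOf_pos x.1).ne' x.2⟩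
      have h2 : IsEmpty {g : H // orderOf g = 0} := ⟨fun x => (orderOf_pos x.1).ne' x.2⟩
      rw [Nat.card_of_isEmpty, Nat.card_of_isEmpty]
    have e1 := sum_card_orderOf_eq_card_pow_eq_one (G := G) hn.ne'
    have e2 := sum_card_orderOf_eq_card_pow_eq_one (G := H) hn.ne'
    have h3 := h n
    simp only [Nat.card_eq_fintype_card, Fintype.card_subtype] at h3 ih ⊢
    rw [← e1, ← e2, ← Nat.insert_self_properDivisors hn.ne', Finset.sum_insert Nat.self_notMem_properDivisors,
      Finset.sum_insert Nat.self_notMem_properDivisors,
      Finset.sum_congr rfl (fun m hm => ih m (Nat.mem_properDivisors.1 hm).2)] at h3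
    exact Nat.add_right_cancel h3

end Cfsg.Agent.S4377
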