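import Cfsg.Statements.S4381
import Cfsg.Agent.Lib.Odd.BG4x3
import Cfsg.Agent.Lib.Grp.CoprimeAct
import Cfsg.Agent.Lib.Grp.Fitting

set_option autoImplicit false
open Pointwise
open Cfsg

namespace Cfsg.Agent.S4381

section
open Subgroup CA.BG CA.OQuo CA.BG4 CA.CoprimeAct
variable {A G : Type*} [Group A] [Finite A] [Group G] [Finite G] [MulDistribMulAction A G]

theorem phi_top : Phi (⊤ : Subgroup G) = frattini G :=
  CA.Fitting.map_frattini_equiv (topEquiv (G := G))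

theorem inv_sup {L M : Subgroup G} (hL : ∀ a : A, ∀ x ∈ L, a • x ∈ L)
    (hM : ∀ a : A, ∀ x ∈ M, a • x ∈ M) : ∀ a : A, ∀ x ∈ L ⊔ M, a • x ∈ L ⊔ M := fun a =>
  (sup_le (fun x hx => mem_sup_left (hL a x hx)) (fun x hx => mem_sup_right (hM a x hx)) :
    L ⊔ M ≤ (L ⊔ M).comap (MulDistribMulAction.toMonoidHom G a))

theorem masch {p : ℕ} (hp : p.Prime) (hG : IsPGroup p G) (hA : ¬ p ∣ Nat.card A) {L : Subgroup G}
    (hL : ∀ a : A, ∀ x ∈ L, a • x ∈ L) :
    ∃ W : Subgroup G, (∀ a : A, ∀ x ∈ W, a • x ∈ W) ∧ L ⊓ W ≤ frattini G ∧ L ⊔ W = ⊤ := by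
  have inj : Function.Injective ⇑(SemidirectProduct.inl : G →* SD A G) :=
    SemidirectProduct.inl_injective
  have hT : IsPi {p} (⊤ : Subgroup G) := isPi_of_isPGroup hp (hG.to_subgroup ⊤)
  have h1 : ⁅(⊤ : Subgroup G).map (SemidirectProduct.inl : G →* SD A G),
      (⊤ : Subgroup G).map (SemidirectProduct.inl : G →* SD A G)⁆ ≤
      (frattini G).map (SemidirectProduct.inl : G →* SD A G) := by
    rw [← map_commutator]
    exact map_mono (phi_top (G := G) ▸ der_le_Phi hp hT)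
  have h2 : ∀ x ∈ (⊤ : Subgroup G).map (SemidirectProduct.inl : G →* SD A G),
      x ^ p ∈ (frattini G).map (SemidirectProduct.inl : G →* SD A G) := by
    rintro _ ⟨x, -, rfl⟩
    rw [← map_pow]
    exact mem_map_of_mem _ (phi_top (G := G) ▸ pow_mem_Phi hp hT (mem_top x))
  have h3 : IsPi {p}ᶜ ((⊤ : Subgroup A).map (SemidirectProduct.inr : A →* SD A G)) := by
    rw [isPi_compl_iff hp, card_map_inr, card_top]
    exact hA
  obtain ⟨W, -, k2, k3, k4, k5⟩ := maschke_quo hp (map_mono le_top) h1 h2 (le_normalizer_top ⊤)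
    (le_normalizer_iff_inv.2 (inv_top_iff.2 fun a x hx =>
      CA.Act.smul_mem_of_characteristic _ a x hx)) h3 (map_mono (le_top : L ≤ ⊤))
    (le_normalizer_iff_inv.2 (inv_top_iff.2 hL))
  obtain ⟨W, rfl⟩ := exists_eq_map_inl k2
  rw [← map_inf _ _ _ inj, map_le_map_iff_of_injective inj] at k4
  rw [← Subgroup.map_sup] at k5
  exact ⟨W, inv_top_iff.1 (le_normalizer_iff_inv.1 k3), k4, map_injective inj k5⟩

theorem exmax {L : Subgroup G} (h : L ≠ ⊤) (hL : ∀ a : A, ∀ x ∈ L, a • x ∈ L) :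
    ∃ M : Subgroup G, L ≤ M ∧ M ≠ ⊤ ∧ (∀ a : A, ∀ x ∈ M, a • x ∈ M) ∧
      ∀ N : Subgroup G, M < N → (∀ a : A, ∀ x ∈ N, a • x ∈ N) → N = ⊤ := by
  obtain ⟨M, h1, ⟨h2, h3⟩, h4⟩ := exists_maximal_ge
    (P := fun M : Subgroup G => M ≠ ⊤ ∧ ∀ a : A, ∀ x ∈ M, a • x ∈ M) (H := L) ⟨h, hL⟩
  refine ⟨M, h1, h2, h3, fun N hN hi => ?_⟩
  by_contra hne
  exact hN.ne' (h4 N ⟨hne, hi⟩ hN.le)

theorem phi_le {M : Subgroup G} (h1 : M ≠ ⊤) (h2 : ∀ a : A, ∀ x ∈ M, a • x ∈ M)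
    (h3 : ∀ N : Subgroup G, M < N → (∀ a : A, ∀ x ∈ N, a • x ∈ N) → N = ⊤) : frattini G ≤ M := by
  by_contra hn
  exact h1 (CA.Fitting.eq_top_of_sup_le_frattini le_rfl (h3 _ (left_lt_sup.2 hn)
    (inv_sup h2 fun a x hx => CA.Act.smul_mem_of_characteristic _ a x hx)))

end

open Subgroup CA.BG CA.OQuo CA.CoprimeAct in

/-- Let the finite group A act by automorphisms on the finite group G with the orders of A and G coprime, and assume that A or G is solvable. Call a proper A-invariant subgroup of G maximal A-invariant when no A-invariant subgroup lies strictly between it and G. Then all maximal A-invariant subgroups of G are conjugate under elements of the fixed-point subgroup C_G(A) if and only if G is a p-group for some prime p and A leaves invariant no subgroup strictly between the Frattini subgroup of G and G. In that case, if G is nontrivial, the Frattini subgroup is the only maximal A-invariant subgroup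 (a trivial G has none). -/
theorem result {A G : Type*} [Group A] [Finite A]
    [Group G] [Finite G] [MulDistribMulAction A G] (hcop : (Nat.card A).Coprime (Nat.card G)) (hsol : Group.IsSolvable A ∨ Group.IsSolvable G) :
    ((∀ M N : Subgroup G, (M ≠ ⊤ ∧ (∀ a : A, ∀ x ∈ M, a • x ∈ M) ∧ ∀ L : Subgroup G, M < L → (∀ a : A, ∀ x ∈ L, a • x ∈ L) → L = ⊤) → (N ≠ ⊤ ∧ (∀ a : A, ∀ x ∈ N, a • x ∈ N) ∧ ∀ L : Subgroup G, N < L → (∀ a : A, ∀ x ∈ L, a • x ∈ L) → L = ⊤) →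
        ∃ c : G, (∀ a : A, a • c = c) ∧ N = MulAut.conj c • M) ↔
      ((∃ p : ℕ, p.Prime ∧ IsPGroup p G) ∧ ∀ L : Subgroup G, frattini G < L → (∀ a : A, ∀ x ∈ L, a • x ∈ L) → L = ⊤)) ∧
    (((∃ p : ℕ, p.Prime ∧ IsPGroup p G) ∧ ∀ L : Subgroup G, frattini G < L → (∀ a : A, ∀ x ∈ L, a • x ∈ L) → L = ⊤) →
      ∀ M : Subgroup G, (M ≠ ⊤ ∧ (∀ a : A, ∀ x ∈ M, a • x ∈ M) ∧ ∀ L : Subgroup G, M < L → (∀ a : A, ∀ x ∈ L, a • x ∈ L) → L = ⊤) ↔ (M = frattini G ∧ M ≠ ⊤)) := by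
  have B : (∀ L : Subgroup G, frattini G < L → (∀ a : A, ∀ x ∈ L, a • x ∈ L) → L = ⊤) →
      ∀ M : Subgroup G, (M ≠ ⊤ ∧ (∀ a : A, ∀ x ∈ M, a • x ∈ M) ∧ ∀ L : Subgroup G, M < L →
        (∀ a : A, ∀ x ∈ L, a • x ∈ L) → L = ⊤) ↔ (M = frattini G ∧ M ≠ ⊤) := by
    intro h M
    constructor
    · rintro ⟨h1, h2, h3⟩
      refine ⟨?_, h1⟩
      by_contra hne
      exact h1 (h M (lt_of_le_of_ne (phi_le h1 h2 h3) (Ne.symm hne)) h2)
    · rintro ⟨rfl, h1⟩
      exact ⟨h1, fun a x hx => CA.Act.smul_mem_of_characteristic _ a x hx, h⟩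
  refine ⟨⟨fun h => ?_, fun h M N hM hN => ⟨1, fun a => smul_one a, ?_⟩⟩, fun h => B h.2⟩
  · rcases subsingleton_or_nontrivial G with hG | hG
    · exact ⟨⟨2, Nat.prime_two, fun g => ⟨0, Subsingleton.elim _ _⟩⟩,
        fun L _ _ => Subsingleton.elim _ _⟩
    obtain ⟨M, -, hM⟩ := exmax (A := A) (L := (⊥ : Subgroup G)) bot_ne_top
      (fun a x hx => by rw [mem_bot.1 hx, smul_one]; exact one_mem _)
    have hp : ∃ p : ℕ, p.Prime ∧ IsPGroup p G := by
      by_contra hn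
      have hi : M.index ≠ 1 := fun e => hM.1 (index_eq_one.1 e)
      obtain ⟨p, hp, hd⟩ := Nat.exists_prime_and_dvd hi
      haveI := Fact.mk hp
      obtain ⟨P, hP⟩ := exists_sylow hcop hsol p
      have hPt : (P : Subgroup G) ≠ ⊤ := fun e => hn ⟨p, hp, fun g => by
        obtain ⟨k, hk⟩ := P.2 ⟨g, by rw [e]; exact mem_top g⟩
        exact ⟨k, congrArg Subtype.val hk⟩⟩
      obtain ⟨N, h1, hN⟩ := exmax hPt hP
      obtain ⟨c, -, e⟩ := h M N hM hN
      have : N.index = M.index := by rw [e]; exact index_cj c M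
      exact P.not_dvd_index (hd.trans (this ▸ index_dvd_of_le h1))
    refine ⟨hp, fun L h1 h2 => ?_⟩
    obtain ⟨p, hp, hG'⟩ := hp
    haveI := Fact.mk hp
    have hd : p ∣ Nat.card G := by
      rcases hG'.card_eq_or_dvd with h | h
      · exact absurd h Finite.one_lt_card.ne'
      · exact h
    obtain ⟨W, k1, k2, k3⟩ := masch hp hG' (not_dvd_of_coprime hp hcop.symm hd) h2
    by_contra hL
    have hW : W ≠ ⊤ := fun e => h1.not_ge (by rwa [e, inf_top_eq] at k2)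
    obtain ⟨M1, l1, hM1⟩ := exmax hL h2
    obtain ⟨M2, l2, hM2⟩ := exmax hW k1
    obtain ⟨c, -, e⟩ := h M1 M2 hM1 hM2
    have hT : IsPi {p} (⊤ : Subgroup G) := isPi_of_isPGroup hp (hG'.to_subgroup ⊤)
    have n1 : (⊤ : Subgroup G) ≤ 𝓝(M1) := norm_of_der_le
      ((der_le_Phi hp hT).trans (phi_top.le.trans (phi_le hM1.1 hM1.2.1 hM1.2.2))) le_top
    have e' : M2 = M1 := e.trans (cj_of_mem_norm (n1 (mem_top c)))
    exact hM1.1 (top_le_iff.1 (k3.ge.trans (sup_le l1 (l2.trans e'.le))))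
  · rw [((B h.2 M).1 hM).1, ((B h.2 N).1 hN).1, map_one, one_smul]

end Cfsg.Agent.S4381
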