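import Cfsg.Statements.S4383


set_option autoImplicit false
open Pointwise
open Cfsg

namespace Cfsg.Agent.S4383

universe u
open MulAction in
lemma cnt {P Ω : Type*} [Group P] [Finite Ω] [MulAction P Ω] (x0 : Ω) (c : ℕ)
    (h0 : ∀ g : P, g • x0 = x0) (h : ∀ y, y ≠ x0 → c ∣ Nat.card (orbit P y)) :
    c ∣ Nat.card Ω - 1 := by
  classical
  have := Fintype.ofFinite Ω
  have := Fintype.ofFinite (orbitRel.Quotient P Ω)
  have e := Nat.card_congr (selfEquivSigmaOrbits' P Ω)
  rw [Nat.card_sigma] at e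
  rw [e, ← Finset.add_sum_erase _ _ (Finset.mem_univ (Quotient.mk'' x0 : orbitRel.Quotient P Ω))]
  have h1 : Nat.card (orbitRel.Quotient.orbit (Quotient.mk'' x0 : orbitRel.Quotient P Ω)) = 1 := by
    rw [orbitRel.Quotient.orbit_mk]
    have : orbit P x0 = {x0} := by
      ext y; constructor
      · rintro ⟨g, rfl⟩; exact h0 g
      · rintro rfl; exact mem_orbit_self _
    rw [this]; simp
  rw [h1, Nat.add_sub_cancel_left]
  apply Finset.dvd_sum
  intro ω hω
  induction ω using Quotient.inductionOn' with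
  | h y =>
    rw [orbitRel.Quotient.orbit_mk]
    apply h
    rintro rfl
    exact (Finset.mem_erase.mp hω).1 rfl

open MulAction in
lemma key {G Ω : Type*} [Group G] [Finite G] [Finite Ω] [MulAction G Ω] [IsPretransitive G Ω]
    (c m : ℕ) (hcm : c * m = Nat.card G)
    (hall : ∀ H : Subgroup G, H ≠ ⊤ → Nat.card H ∣ c ∨ ∃ x : Ω, H ≤ stabilizer G x)
    (hno : ∀ p : ℕ, p.Prime → ∀ D : Subgroup G, IsPGroup p D → D.Normal → D = ⊥) :
    m ∣ Nat.card Ω - 1 := by
  classical
  rw [Nat.dvd_iff_prime_pow_dvd_dvd]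
  intro p k hp hk
  rcases Nat.eq_zero_or_pos k with rfl | hk0
  · simp
  haveI := Fact.mk hp
  have hpm : p ∣ m := (dvd_pow_self p hk0.ne').trans hk
  have hG0 : Nat.card G ≠ 0 := Nat.card_pos.ne'
  have hnz : ∀ D : Subgroup G, IsPGroup p D → D ≠ ⊥ → Subgroup.normalizer (D : Set G) ≠ ⊤ :=
    fun D hD hb ht => hb (hno p hp D hD (Subgroup.normalizer_eq_top_iff.mp ht))
  -- Sylow: normaliser fixes a point
  have hS : ∀ P : Sylow p G, ∃ x : Ω, Subgroup.normalizer ((P : Subgroup G) : Set G) ≤ stabilizer G x := by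
    intro P
    have hPb : (P : Subgroup G) ≠ ⊥ := by
      intro hb
      have := P.not_dvd_index
      rw [hb, Subgroup.index_bot, ← hcm] at this
      exact this (hpm.mul_left _)
    rcases hall _ (hnz P P.isPGroup' hPb) with h | h
    · exfalso
      have h1 : Nat.card P ∣ c := (Subgroup.card_dvd_of_le Subgroup.le_normalizer).trans h
      have h2 := (P : Subgroup G).card_mul_index
      obtain ⟨e, he⟩ := h1
      apply P.not_dvd_index
      have h3 : Nat.card P * (P : Subgroup G).index = Nat.card P * (e * m) := by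
        rw [← mul_assoc, ← he, hcm]; exact h2
      rw [Nat.eq_of_mul_eq_mul_left Nat.card_pos h3]
      exact hpm.mul_left _
    · exact h
  have hU : ∀ (P : Sylow p G) (a b : Ω), (P : Subgroup G) ≤ stabilizer G a →
      (P : Subgroup G) ≤ stabilizer G b → a = b := by
    have aux : ∀ (P : Sylow p G) (x y : Ω),
        Subgroup.normalizer ((P : Subgroup G) : Set G) ≤ stabilizer G x →
        (P : Subgroup G) ≤ stabilizer G y → x = y := by
      intro P x y hx hy
      obtain ⟨g, rfl⟩ := exists_smul_eq G y x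
      have h1 : ((g • P : Sylow p G) : Subgroup G) ≤ stabilizer G (g • y) := by
        intro a ha
        rw [Sylow.coe_subgroup_smul, Subgroup.mem_pointwise_smul_iff_inv_smul_mem] at ha
        have := hy ha
        rw [mem_stabilizer_iff] at this ⊢
        simp only [MulAut.smul_def, MulAut.conj_inv_apply, mul_smul] at this
        exact (inv_smul_eq_iff.mp this)
      have h2 : (P : Subgroup G) ≤ stabilizer G (g • y) := Subgroup.le_normalizer.trans hx
      obtain ⟨h, hh⟩ := exists_smul_eq (stabilizer G (g • y)) ((g • P).subtype h1) (P.subtype h2)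
      simp_rw [Sylow.smul_subtype, Subgroup.smul_def, smul_smul] at hh
      have h3 := Sylow.smul_eq_iff_mem_normalizer.mp (Sylow.subtype_injective hh)
      have h4 : (h : G) * g ∈ stabilizer G (g • y) := hx h3
      have h5 : g ∈ stabilizer G (g • y) := (Subgroup.mul_mem_cancel_left _ h.2).mp h4
      rw [mem_stabilizer_iff] at h5
      exact smul_left_cancel g h5
    intro P a b ha hb
    obtain ⟨x, hx⟩ := hS P
    exact (aux P x a hx ha).symm.trans (aux P x b hx hb)
  have hF : ∀ (a : Ω) (D : Subgroup G), IsPGroup p D → D ≤ stabilizer G a →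
      ∃ P : Sylow p G, D ≤ P ∧ (P : Subgroup G) ≤ stabilizer G a := by
    intro a D hD hDa
    obtain ⟨P0⟩ : Nonempty (Sylow p G) := inferInstance
    obtain ⟨x, hx⟩ := hS P0
    have hi : ¬ p ∣ (stabilizer G a).index := by
      rw [index_stabilizer_of_transitive, ← index_stabilizer_of_transitive G x]
      exact fun h => P0.not_dvd_index
        (h.trans (Subgroup.index_dvd_of_le (Subgroup.le_normalizer.trans hx)))
    obtain ⟨Q, hQ⟩ := (hD.comap_subtype (K := stabilizer G a)).exists_le_sylow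
    have hQp : IsPGroup p ((Q : Subgroup (stabilizer G a)).map (stabilizer G a).subtype) :=
      Q.isPGroup'.map _
    have hQi : ¬ p ∣ ((Q : Subgroup (stabilizer G a)).map (stabilizer G a).subtype).index := by
      rw [Subgroup.index_map_subtype]
      intro h
      rcases (Nat.Prime.dvd_mul hp).mp h with h | h
      · exact Q.not_dvd_index h
      · exact hi h
    refine ⟨hQp.toSylow hQi, ?_, Subgroup.map_subtype_le _⟩
    intro d hd
    exact ⟨⟨d, hDa hd⟩, hQ (Subgroup.mem_comap.mpr hd), rfl⟩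
  have hD : ∀ (n : ℕ) (D : Subgroup G), D.index = n → IsPGroup p D → ∀ a b : Ω, a ≠ b →
      D ≤ stabilizer G a → D ≤ stabilizer G b → Nat.card D ∣ c := by
    intro n
    induction n using Nat.strong_induction_on with
    | _ n ih =>
    intro D hn hDp a b hab ha hb
    by_cases hb0 : D = ⊥
    · rw [hb0]; simp
    rcases hall _ (hnz D hDp hb0) with h | ⟨x, hx⟩
    · exact (Subgroup.card_dvd_of_le Subgroup.le_normalizer).trans h
    have step : ∀ a b : Ω, a ≠ b → a ≠ x → D ≤ stabilizer G a → D ≤ stabilizer G b →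
        Nat.card D ∣ c := by
      intro a b hab hax ha hb
      obtain ⟨P, hDP, hPa⟩ := hF a D hDp ha
      have hne : D ≠ P := fun h => hab (hU P a b hPa (h ▸ hb))
      have hlt : D < (P : Subgroup G) ⊓ Subgroup.normalizer (D : Set G) := by
        haveI := P.isPGroup'.isNilpotent
        have h1 : D.subgroupOf P < ⊤ := by
          rw [lt_top_iff_ne_top, Ne, Subgroup.subgroupOf_eq_top]
          exact fun h => hne (le_antisymm hDP h)
        obtain ⟨-, h2⟩ := lt_iff_le_not_ge.mp (Group.normalizerCondition_of_isNilpotent _ h1)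
        refine lt_of_le_of_ne (le_inf hDP Subgroup.le_normalizer) fun he => h2 ?_
        intro y hy
        rw [← Subgroup.subgroupOf_normalizer_eq hDP] at hy
        rw [Subgroup.mem_subgroupOf, he]
        exact ⟨y.2, hy⟩
      have hi : ((P : Subgroup G) ⊓ Subgroup.normalizer (D : Set G)).index < n := by
        rw [← hn]
        exact Subgroup.index_strictAnti hlt
      exact (Subgroup.card_dvd_of_le hlt.le).trans
        (ih _ hi _ rfl (P.isPGroup'.to_le inf_le_left) a x hax (inf_le_left.trans hPa)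
          (inf_le_right.trans hx))
    by_cases hax : a = x
    · exact step b a hab.symm (fun h => hab (hax.trans h.symm)) hb ha
    · exact step a b hab hax ha hb
  obtain ⟨P⟩ : Nonempty (Sylow p G) := inferInstance
  obtain ⟨x, hx⟩ := hS P
  have hPx : (P : Subgroup G) ≤ stabilizer G x := Subgroup.le_normalizer.trans hx
  refine cnt (P := (P : Subgroup G)) x _ (fun g => hPx g.2) fun y hy => ?_
  have h1 := hD _ ((P : Subgroup G) ⊓ stabilizer G y) rfl (P.isPGroup'.to_le inf_le_left) y x hy
    inf_le_right (inf_le_left.trans hPx)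
  have h2 : Nat.card (stabilizer (P : Subgroup G) y) = Nat.card ((P : Subgroup G) ⊓ stabilizer G y : Subgroup G) := by
    rw [← Subgroup.card_map_of_injective (P : Subgroup G).subtype_injective]
    congr 3
    ext a
    constructor
    · rintro ⟨b, hb, rfl⟩; exact ⟨b.2, hb⟩
    · rintro ⟨h1, h2⟩; exact ⟨⟨a, h1⟩, h2, rfl⟩
  have h3 := (stabilizer (P : Subgroup G) y).card_mul_index
  rw [index_stabilizer, ← Nat.card_coe_set_eq, h2] at h3
  obtain ⟨j, hj⟩ := IsPGroup.iff_card.mp (P.isPGroup'.to_le (inf_le_left (b := stabilizer G y)))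
  rw [hj] at h1 h3
  have h4 : p ^ (j + k) ∣ Nat.card G := by
    rw [← hcm, pow_add]; exact mul_dvd_mul h1 hk
  have h5 : p ^ (j + k) ∣ Nat.card P := by
    rw [P.card_eq_multiplicity]
    exact pow_dvd_pow _ ((hp.pow_dvd_iff_le_factorization hG0).mp h4)
  rw [← h3, pow_add] at h5
  exact Nat.dvd_of_mul_dvd_mul_left (pow_pos hp.pos _) h5

open Pointwise in
lemma card_conj {G : Type*} [Group G] (g : G) (M : Subgroup G) :
    Nat.card (MulAut.conj g • M : Subgroup G) = Nat.card M :=
  Nat.card_congr (Subgroup.equivSMul (MulAut.conj g) M).toEquiv.symm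

open Pointwise in
lemma index_conj {G : Type*} [Group G] [Finite G] (g : G) (M : Subgroup G) :
    (MulAut.conj g • M : Subgroup G).index = M.index := by
  have h1 := (MulAut.conj g • M : Subgroup G).card_mul_index
  rw [card_conj, ← M.card_mul_index] at h1
  exact Nat.eq_of_mul_eq_mul_left Nat.card_pos h1

open Pointwise MulAction in
lemma key2 {G : Type*} [Group G] [Finite G] (M N : Subgroup G)
    (hall : ∀ K : Subgroup G, IsCoatom K → ∃ g : G, K = MulAut.conj g • M ∨ K = MulAut.conj g • N)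
    (hno : ∀ p : ℕ, p.Prime → ∀ D : Subgroup G, IsPGroup p D → D.Normal → D = ⊥) :
    M.index ∣ N.index - 1 := by
  refine key (Ω := G ⧸ N) (Nat.card M) M.index M.card_mul_index (fun H hH => ?_) hno
  obtain ⟨K, hK, hHK⟩ := (eq_top_or_exists_le_coatom H).resolve_left hH
  obtain ⟨g, rfl | rfl⟩ := hall K hK
  · left; rw [← card_conj g M]; exact Subgroup.card_dvd_of_le hHK
  · right
    refine ⟨(g : G ⧸ N), fun h hh => ?_⟩
    have := Subgroup.mem_pointwise_smul_iff_inv_smul_mem.mp (hHK hh)
    simp only [MulAut.smul_def, MulAut.conj_inv_apply] at this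
    rw [mem_stabilizer_iff, MulAction.Quotient.smul_coe, smul_eq_mul, eq_comm, QuotientGroup.eq]
    rwa [← mul_assoc]

open Pointwise in
lemma core {G : Type*} [Group G] [Finite G] [Nontrivial G] (M N : Subgroup G)
    (hall : ∀ K : Subgroup G, IsCoatom K → ∃ g : G, K = MulAut.conj g • M ∨ K = MulAut.conj g • N) :
    ∃ p : ℕ, p.Prime ∧ ∃ D : Subgroup G, IsPGroup p D ∧ D.Normal ∧ D ≠ ⊥ := by
  by_contra hc
  have hno : ∀ p : ℕ, p.Prime → ∀ D : Subgroup G, IsPGroup p D → D.Normal → D = ⊥ := by
    intro p hp D h1 h2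
    by_contra h3
    exact hc ⟨p, hp, D, h1, h2, h3⟩
  have one : ∀ M : Subgroup G, (∀ K : Subgroup G, IsCoatom K → ∃ g : G, K = MulAut.conj g • M) →
      False := by
    intro M hM
    have h1 := key2 M M (fun K hK => (hM K hK).imp fun g hg => Or.inl hg) hno
    have h0 : M.index ≠ 0 := Subgroup.index_ne_zero_of_finite
    have h2 : M.index = 1 := by
      rcases Nat.eq_zero_or_pos (M.index - 1) with h | h
      · omega
      · have := Nat.le_of_dvd h h1; omega
    obtain ⟨K, hK, -⟩ := (eq_top_or_exists_le_coatom (⊥ : Subgroup G)).resolve_left bot_ne_top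
    obtain ⟨g, rfl⟩ := hM K hK
    exact hK.1 (Subgroup.index_eq_one.mp ((index_conj g M).trans h2))
  have h1 := key2 M N hall hno
  have h2 := key2 N M (fun K hK => (hall K hK).imp fun g hg => hg.symm) hno
  have hm : M.index ≠ 0 := Subgroup.index_ne_zero_of_finite
  have hn : N.index ≠ 0 := Subgroup.index_ne_zero_of_finite
  by_cases hm1 : M.index = 1
  · refine one N fun K hK => (hall K hK).imp fun g hg => hg.resolve_left fun h => hK.1 ?_
    rw [h]; exact Subgroup.index_eq_one.mp ((index_conj g M).trans hm1)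
  by_cases hn1 : N.index = 1
  · refine one M fun K hK => (hall K hK).imp fun g hg => hg.resolve_right fun h => hK.1 ?_
    rw [h]; exact Subgroup.index_eq_one.mp ((index_conj g N).trans hn1)
  have := Nat.le_of_dvd (by omega) h1
  have := Nat.le_of_dvd (by omega) h2
  omega

open Pointwise in
lemma two {G : Type*} [Group G] [Finite G] (V N : Subgroup G) [V.Normal] {p : ℕ} (hp : p.Prime)
    (hV : IsPGroup p V)
    (hall : ∀ K : Subgroup G, IsCoatom K → V ≤ K → ∃ g : G, K = MulAut.conj g • N) :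
    (Nat.card G).primeFactors.card ≤ 2 := by
  haveI := Fact.mk hp
  obtain ⟨a, ha⟩ := IsPGroup.iff_card.mp hV
  have fin : ∀ (q : ℕ) (Q : Subgroup G), q.Prime → IsPGroup q Q → Q ⊔ V = ⊤ →
      (Nat.card G).primeFactors.card ≤ 2 := by
    intro q Q hq hQ ht
    haveI := Fact.mk hq
    obtain ⟨b, hb⟩ := IsPGroup.iff_card.mp hQ
    have h1 : V.index ∣ q ^ b := by
      rw [← hb, ← Subgroup.relIndex_top_right, ← ht, Subgroup.relIndex_sup_right]
      exact Subgroup.index_dvd_card _
    have h2 : (Nat.card G).primeFactors ⊆ {p, q} := by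
      intro r hr
      have hr1 := Nat.prime_of_mem_primeFactors hr
      have hr2 := Nat.dvd_of_mem_primeFactors hr
      rw [← V.card_mul_index, ha] at hr2
      rcases (Nat.Prime.dvd_mul hr1).mp hr2 with h | h
      · simp [(Nat.prime_dvd_prime_iff_eq hr1 hp).mp (hr1.dvd_of_dvd_pow h)]
      · simp [(Nat.prime_dvd_prime_iff_eq hr1 hq).mp (hr1.dvd_of_dvd_pow (h.trans h1))]
    exact (Finset.card_le_card h2).trans Finset.card_le_two
  by_cases hVt : V = ⊤
  · exact fin p ⊥ hp IsPGroup.of_bot (by simp [hVt])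
  obtain ⟨K, hK, hVK⟩ := (eq_top_or_exists_le_coatom V).resolve_left hVt
  obtain ⟨g, rfl⟩ := hall K hK hVK
  have hn1 : N.index ≠ 1 := fun h => hK.1 (Subgroup.index_eq_one.mp ((index_conj g N).trans h))
  obtain ⟨q, hq, hqn⟩ := Nat.exists_prime_and_dvd hn1
  haveI := Fact.mk hq
  obtain ⟨Q⟩ : Nonempty (Sylow q G) := inferInstance
  refine fin q Q hq Q.isPGroup' ?_
  by_contra hne
  obtain ⟨K, hK, hVK⟩ := (eq_top_or_exists_le_coatom _).resolve_left hne
  obtain ⟨g, rfl⟩ := hall K hK (le_sup_right.trans hVK)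
  apply Q.not_dvd_index
  refine hqn.trans ?_
  rw [← index_conj g N]
  exact Subgroup.index_dvd_of_le (le_sup_left.trans hVK)

open Pointwise in
lemma main : ∀ (n : ℕ) (G : Type u) [Group G] [Finite G], Nat.card G = n → ∀ (M N : Subgroup G),
    (∀ K : Subgroup G, IsCoatom K → ∃ g : G, K = MulAut.conj g • M ∨ K = MulAut.conj g • N) →
    Group.IsSolvable G ∧ (Nat.card G).primeFactors.card ≤ 2 := by
  intro n
  induction n using Nat.strong_induction_on with
  | _ n ih =>
  intro G _ _ hn M N hall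
  rcases subsingleton_or_nontrivial G with hs | hs
  · exact ⟨inferInstance, by rw [Nat.card_of_subsingleton (1 : G)]; simp⟩
  obtain ⟨p, hp, V, hVp, hVn, hVb⟩ := core M N hall
  haveI := Fact.mk hp
  have hlt : Nat.card (G ⧸ V) < n := by
    rw [← hn, ← V.card_mul_index, ← Subgroup.index_eq_card]
    have h1 : 1 < Nat.card V := (Subgroup.one_lt_card_iff_ne_bot V).mpr hVb
    have h2 : 0 < V.index := Nat.pos_of_ne_zero Subgroup.index_ne_zero_of_finite
    nlinarith
  have hs := QuotientGroup.mk'_surjective V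
  obtain ⟨h1, h2⟩ := ih _ hlt (G ⧸ V) rfl (M.map (QuotientGroup.mk' V)) (N.map (QuotientGroup.mk' V))
    (fun K hK => by
      obtain ⟨g, hg⟩ := hall _ (Subgroup.isCoatom_comap_of_surjective hs hK)
      have e : ∀ X : Subgroup G, (MulAut.conj g • X : Subgroup G).map (QuotientGroup.mk' V) =
          MulAut.conj (QuotientGroup.mk' V g) • X.map (QuotientGroup.mk' V) := by
        intro X
        exact (Subgroup.map_map X (QuotientGroup.mk' V) (MulAut.conj g).toMonoidHom).trans
          (Eq.trans (congrArg (fun f => X.map f) (by ext x; simp))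
            (Subgroup.map_map X (MulAut.conj (QuotientGroup.mk' V g)).toMonoidHom
              (QuotientGroup.mk' V)).symm)
      refine ⟨QuotientGroup.mk' V g, hg.imp (fun h => ?_) (fun h => ?_)⟩ <;>
      rw [← e, ← h, Subgroup.map_comap_eq_self_of_surjective hs])
  haveI := hVp.isNilpotent
  refine ⟨Group.isSolvable_of_ker_le_range V.subtype (QuotientGroup.mk' V) (by simp), ?_⟩
  have hc : ∀ (g : G) (X : Subgroup G), V ≤ MulAut.conj g • X → V ≤ X := by
    intro g X h v hv
    have := Subgroup.mem_pointwise_smul_iff_inv_smul_mem.mp (h (hVn.conj_mem v hv g))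
    simpa [mul_assoc] using this
  have hc' : ∀ (g : G) (X : Subgroup G), V ≤ X → V ≤ MulAut.conj g • X := by
    intro g X h v hv
    rw [Subgroup.mem_pointwise_smul_iff_inv_smul_mem]
    simpa [mul_assoc] using h (hVn.conj_mem' v hv g)
  by_cases hM : V ≤ M
  swap
  · exact two V N hp hVp fun K hK hVK => (hall K hK).imp fun g hg =>
      hg.resolve_left fun h => hM (hc g M (h ▸ hVK))
  by_cases hN : V ≤ N
  swap
  · exact two V M hp hVp fun K hK hVK => (hall K hK).imp fun g hg =>
      hg.resolve_right fun h => hN (hc g N (h ▸ hVK))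
  obtain ⟨a, ha⟩ := IsPGroup.iff_card.mp hVp
  have hpi : p ∣ V.index := by
    by_contra hnd
    obtain ⟨H, hH⟩ := Subgroup.exists_right_complement'_of_coprime (N := V)
      (by rw [ha]; exact Nat.Coprime.pow_left _ ((Nat.Prime.coprime_iff_not_dvd hp).mpr hnd))
    have hHt : H ≠ ⊤ := by
      rintro rfl
      exact hVb (by simpa using hH.disjoint)
    obtain ⟨K, hK, hHK⟩ := (eq_top_or_exists_le_coatom _).resolve_left hHt
    have hVK : V ≤ K := by
      obtain ⟨g, rfl | rfl⟩ := hall K hK
      exacts [hc' g M hM, hc' g N hN]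
    exact hK.1 (top_le_iff.mp (hH.sup_eq_top ▸ sup_le hVK hHK))
  refine le_trans (Finset.card_le_card fun r hr => ?_) h2
  have hr1 := Nat.prime_of_mem_primeFactors hr
  have hr2 := Nat.dvd_of_mem_primeFactors hr
  rw [← V.card_mul_index, ha] at hr2
  refine Nat.mem_primeFactors.mpr ⟨hr1, ?_, Nat.card_pos.ne'⟩
  rcases (Nat.Prime.dvd_mul hr1).mp hr2 with h | h
  · rw [(Nat.prime_dvd_prime_iff_eq hr1 hp).mp (hr1.dvd_of_dvd_pow h)]; exact hpi
  · exact h

/-- A finite group with exactly two conjugacy classes of maximal subgroups is solvable and its order has exactly two prime divisors. -/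
theorem result {G : Type*} [Group G] [Finite G]
    (M₁ M₂ : Subgroup G) (h1 : IsCoatom M₁) (h2 : IsCoatom M₂) (hne : ∀ g : G, M₂ ≠ MulAut.conj g • M₁)
    (hall : ∀ M : Subgroup G, IsCoatom M → ∃ g : G, M = MulAut.conj g • M₁ ∨ M = MulAut.conj g • M₂) :
    Group.IsSolvable G ∧ (Nat.card G).primeFactors.card = 2 := by
  obtain ⟨h3, h4⟩ := main _ G rfl M₁ M₂ hall
  refine ⟨h3, le_antisymm h4 ?_⟩
  by_contra hlt
  have hG : Nontrivial G := by
    by_contra h
    rw [not_nontrivial_iff_subsingleton] at h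
    exact h1.1 (Subsingleton.elim _ _)
  have hc1 : 1 < Nat.card G := Finite.one_lt_card
  have hpp : IsPrimePow (Nat.card G) := by
    rw [isPrimePow_iff_card_primeFactors_eq_one]
    have := Finset.card_pos.mpr (Nat.nonempty_primeFactors.mpr hc1)
    omega
  obtain ⟨p, k, hp, -, hk⟩ := (isPrimePow_nat_iff _).mp hpp
  haveI := Fact.mk hp
  have hP : IsPGroup p G := IsPGroup.of_card hk.symm
  haveI := hP.isNilpotent
  have hn : ∀ M : Subgroup G, IsCoatom M → M.Normal := fun M hM =>
    Subgroup.NormalizerCondition.normal_of_coatom M Group.normalizerCondition_of_isNilpotent hM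
  have hcs : ∀ (g : G) (M : Subgroup G), IsCoatom M → MulAut.conj g • M = M := fun g M hM =>
    (hn M hM).conj_smul_eq_self g M
  have hne' : M₂ ≠ M₁ := fun h => hne 1 (by rw [hcs 1 M₁ h1]; exact h)
  have a1 : ¬ M₁ ≤ M₂ := fun h => hne' ((h1.le_iff.mp h).resolve_left h2.1)
  have a2 : ¬ M₂ ≤ M₁ := fun h => hne' ((h2.le_iff.mp h).resolve_left h1.1).symm
  obtain ⟨x, hx1, hx2⟩ := SetLike.not_le_iff_exists.mp a1
  obtain ⟨y, hy2, hy1⟩ := SetLike.not_le_iff_exists.mp a2
  have hz : Subgroup.zpowers (x * y) = ⊤ := by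
    by_contra h
    obtain ⟨K, hK, hzK⟩ := (eq_top_or_exists_le_coatom _).resolve_left h
    have hm := hzK (Subgroup.mem_zpowers _)
    obtain ⟨g, rfl | rfl⟩ := hall K hK
    · rw [hcs g M₁ h1] at hm
      exact hy1 ((M₁.mul_mem_cancel_left hx1).mp hm)
    · rw [hcs g M₂ h2] at hm
      exact hx2 ((M₂.mul_mem_cancel_right hy2).mp hm)
  haveI : IsCyclic G := ⟨⟨x * y, fun a => by
    have : a ∈ Subgroup.zpowers (x * y) := hz ▸ Subgroup.mem_top a
    exact this⟩⟩
  -- x or y generates
  obtain ⟨i, hi⟩ : x ∈ Subgroup.zpowers (x * y) := hz ▸ Subgroup.mem_top x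
  obtain ⟨j, hj⟩ : y ∈ Subgroup.zpowers (x * y) := hz ▸ Subgroup.mem_top y
  simp only at hi hj
  have gen : ∀ (i : ℤ) (M : Subgroup G), (x * y) ^ i ∈ M → M ≠ ⊤ → (p : ℤ) ∣ i := by
    intro i M hM hMt
    by_contra hnd
    apply hMt
    rw [eq_top_iff, ← hz, Subgroup.zpowers_le]
    have hcop : IsCoprime i ((p : ℤ) ^ k) :=
      (((Nat.prime_iff_prime_int.mp hp).coprime_iff_not_dvd).mpr hnd).symm.pow_right
    obtain ⟨u, v, huv⟩ := hcop
    have h1 : (x * y) ^ ((p : ℤ) ^ k) = 1 := by
      rw [← Nat.cast_pow, zpow_natCast, hk]; exact pow_card_eq_one'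
    have : x * y = ((x * y) ^ i) ^ u := by
      conv_lhs => rw [← zpow_one (x * y), ← huv, zpow_add, mul_comm v, zpow_mul _ _ v, h1, one_zpow,
        mul_one, mul_comm u, zpow_mul]
    rw [this]; exact M.zpow_mem hM u
  have d1 := gen i M₁ (by rw [hi]; exact hx1) h1.1
  have d2 := gen j M₂ (by rw [hj]; exact hy2) h2.1
  have d3 := gen (i + j - 1) ⊥ (by rw [zpow_sub, zpow_add, hi, hj]; simp) bot_ne_top
  have d4 : (p : ℤ) ∣ 1 := by
    have := dvd_sub (dvd_add d1 d2) d3
    simpa using this
  exact hp.one_lt.ne' (by exact_mod_cast Int.eq_one_of_dvd_one (by positivity) d4)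

end Cfsg.Agent.S4383
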