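import Cfsg.Statements.S4385
import Cfsg.Agent.Lib.Loc.AmbS3b
import Cfsg.Agent.S4359
import Cfsg.Agent.Lib.Grp.Core

set_option autoImplicit false
open Pointwise
open Cfsg

set_option linter.unusedVariables false
set_option linter.unusedSimpArgs false
set_option linter.style.haveILetI false

namespace Cfsg.Agent.S4385

open CA Subgroup CA.Amb CA.AmbCore
open scoped commutatorElement

section gen
variable {G : Type*} [Group G]

theorem mul2 {A B : Subgroup G} (hi : A.relIndex B = 2) {a b : G} (ha : a ∈ B) (hb : b ∈ B) :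
    a * b ∈ A ↔ (a ∈ A ↔ b ∈ A) :=
  Subgroup.mul_mem_iff_of_index_two (H := A.subgroupOf B) hi (a := ⟨a, ha⟩) (b := ⟨b, hb⟩)

theorem sq2 {A B : Subgroup G} (hi : A.relIndex B = 2) {a : G} (ha : a ∈ B) : a * a ∈ A :=
  (mul2 hi ha ha).2 Iff.rfl

theorem cover {A B N : Subgroup G} (hi : A.relIndex B = 2) {a : G} (ha : a ∈ B) (hn : a ∉ A)
    (h1 : A ⊓ B ≤ N) (h2 : a ∈ N) : B ≤ N := fun x hx => by
  by_cases h : x ∈ A
  · exact h1 ⟨h, hx⟩
  · have := h1 ⟨(mul2 hi hx ha).2 (iff_of_false h hn), B.mul_mem hx ha⟩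
    simpa using N.mul_mem this (N.inv_mem h2)

theorem idx_sub {A B C : Subgroup G} (hi : A.relIndex B = 2) (hC : C ≤ B) (hn : ¬ C ≤ A) :
    A.relIndex C = 2 := by
  obtain ⟨a, ha, hna⟩ := SetLike.not_le_iff_exists.1 hn
  refine Subgroup.index_eq_two_iff.2 ⟨⟨a, ha⟩, fun b => ?_⟩
  have := mul2 hi (hC b.2) (hC ha)
  simp only [mem_subgroupOf, coe_mul]
  by_cases h : (b : G) ∈ A
  · exact Or.inr ⟨h, fun k => hna ((this.1 k).1 h)⟩
  · exact Or.inl ⟨this.2 (iff_of_false h hna), h⟩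

theorem not_le2 {A B : Subgroup G} (hi : A.relIndex B = 2) : ¬ B ≤ A := fun h => by
  rw [relIndex_eq_one.2 h] at hi; omega

theorem eq_of_le_cj {g : G} {A : Subgroup G} [Finite A] (h : A ≤ cj g A) : cj g A = A :=
  cj_eq_self (mem_normalizer_of_le_cj h)

theorem eq_of_cj_le {g : G} {A : Subgroup G} [Finite A] (h : cj g A ≤ A) : cj g A = A :=
  cj_eq_self (mem_normalizer_of_cj_le h)

theorem norm_cj {g : G} {A B : Subgroup G} (h : B ≤ 𝐍 A) : cj g B ≤ 𝐍 (cj g A) := by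
  rw [← cj_normalizer]; exact cj_mono g h

theorem cent_cj {g : G} {A B : Subgroup G} (h : B ≤ 𝐂 A) : cj g B ≤ 𝐂 (cj g A) := by
  rw [← cj_centralizer]; exact cj_mono g h

theorem comm_of_sq {A : Subgroup G} (h : ∀ a ∈ A, a * a = 1) {a b : G} (ha : a ∈ A) (hb : b ∈ A) :
    a * b = b * a := by
  have h1 := h _ (A.mul_mem ha hb)
  have h2 := h a ha
  have h3 := h b hb
  calc a * b = a * (a * b * (a * b)) * b := by rw [h1, mul_one]
    _ = (a * a) * (b * a) * (b * b) := by group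
    _ = b * a := by rw [h2, h3]; group

theorem sq_cj {g : G} {A : Subgroup G} (h : ∀ a ∈ A, a * a = 1) : ∀ a ∈ cj g A, a * a = 1 := by
  intro a ha
  obtain ⟨b, hb, rfl⟩ := mem_cj'.1 ha
  calc g * b * g⁻¹ * (g * b * g⁻¹) = g * (b * b) * g⁻¹ := by group
    _ = 1 := by rw [h b hb]; group

theorem sq_cover {A B C : Subgroup G} (hi : A.relIndex C = 2) (hB : B ≤ C) (hn : ¬ B ≤ A)
    (hA : ∀ a ∈ A, a * a = 1) (hB2 : ∀ a ∈ B, a * a = 1) (hc : C ≤ 𝐂 C) : ∀ a ∈ C, a * a = 1 := by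
  obtain ⟨m, hm, hmA⟩ := SetLike.not_le_iff_exists.1 hn
  intro a ha
  by_cases h : a ∈ A
  · exact hA a h
  · have h1 := hA _ ((mul2 hi ha (hB hm)).2 (iff_of_false h hmA))
    have h2 := mem_centralizer_sub.1 (hc ha) m (hB hm)
    have h3 := hB2 m hm
    calc a * a = a * a * (m * m) := by rw [h3, mul_one]
      _ = a * (a * m) * m := by group
      _ = a * (m * a) * m := by rw [h2]
      _ = a * m * (a * m) := by group
      _ = 1 := h1

structure Hyp (P R : Subgroup G) (h y : G) (n : ℕ) : Prop where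
  pP : IsPGroup 2 P
  RP : R ≤ P
  R1 : R ≠ ⊥
  idx : R.relIndex P = 2
  nP : P ≤ 𝐍 R
  nh : cj h R = R
  hH : h ∈ P ⊔ cj h P
  ny : cj y P = P
  y2 : y ^ 2 ∈ P ⊔ 𝐂 P
  N : ∀ Q, Q ≤ P → P ≤ 𝐍 Q → cj h P ≤ 𝐍 Q → cj y Q = Q → Q = ⊥
  odd : Odd n
  dih : ∀ t ∈ P, t ∉ R → (t * (h * t * h⁻¹)) ^ n ∈ R

variable [Finite G] {P R : Subgroup G} {h y : G} {n : ℕ} (H : Hyp P R h y n)
include H

theorem Hyp.yy {Q : Subgroup G} (hQ : Q ≤ P) (hn : P ≤ 𝐍 Q) : cj y (cj y Q) = Q := by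
  rw [cj_cj, ← pow_two]
  exact cj_eq_self ((sup_le hn (norm_of_centralizer (centralizer_anti hQ))) H.y2)

theorem Hyp.nyQ {Q : Subgroup G} (hn : P ≤ 𝐍 Q) : P ≤ 𝐍 (cj y Q) := by
  have := norm_cj (g := y) hn; rwa [H.ny] at this

theorem Hyp.leP {Q : Subgroup G} (hQ : Q ≤ P) : cj y Q ≤ P := by
  have := cj_mono y hQ; rwa [H.ny] at this

theorem Hyp.N' {Q : Subgroup G} (hQ : Q ≤ P) (hn : P ≤ 𝐍 Q) (hh : cj h Q = Q) (hy : cj y Q = Q) : Q = ⊥ :=
  H.N Q hQ hn (by have := norm_cj (g := h) hn; rwa [hh] at this) hy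

theorem Hyp.nP' : cj h P ≤ 𝐍 R := by have := norm_cj (g := h) H.nP; rwa [H.nh] at this

theorem Hyp.RP' : R ≤ cj h P := by have := cj_mono h H.RP; rwa [H.nh] at this

theorem Hyp.idx' : R.relIndex (cj h P) = 2 := by
  have := relIndex_cj h R P; rw [H.nh] at this; rw [this, H.idx]

theorem Hyp.idxs : (cj y R).relIndex P = 2 := by
  have := relIndex_cj y R P; rw [H.ny] at this; rw [this, H.idx]

theorem Hyp.ns : ¬ cj y R ≤ R := fun k => H.R1 (H.N' H.RP H.nP H.nh (eq_of_cj_le k))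

theorem Hyp.ns' : ¬ R ≤ cj y R := fun k => H.R1 (H.N' H.RP H.nP H.nh (eq_of_le_cj k))

theorem Hyp.idxM : (cj y R).relIndex R = 2 := idx_sub H.idxs H.RP H.ns'

theorem Hyp.idxM' : (R ⊓ cj y R).relIndex R = 2 := by rw [inf_relIndex_left]; exact H.idxM

theorem Hyp.nM : P ≤ 𝐍 (R ⊓ cj y R : Subgroup G) := norm_inf H.nP (H.nyQ H.nP)

theorem Hyp.yM : cj y (R ⊓ cj y R) = R ⊓ cj y R := by rw [cj_inf, H.yy H.RP H.nP, inf_comm]

theorem Hyp.cen {C : Subgroup G} (hC : C ≤ P) (h1 : P ≤ 𝐂 C) (h2 : cj h P ≤ 𝐂 C) : C ⊓ cj y C = ⊥ := by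
  refine H.N _ (inf_le_left.trans hC) (norm_of_centralizer (h1.trans (centralizer_anti inf_le_left)))
    (norm_of_centralizer (h2.trans (centralizer_anti inf_le_left))) ?_
  rw [cj_inf, H.yy hC (norm_of_centralizer h1), inf_comm]

/-- A `y`-invariant central subgroup of `P` of index two in an `H`-invariant group. -/
theorem Hyp.zz {Z V : Subgroup G} (hZV : Z ≤ V) (hVP : V ≤ P) (hi : Z.relIndex V = 2) (hV : cj h V = V)
    (hZ : P ≤ 𝐂 Z) (hyZ : cj y Z = Z) (h1 : Z ≠ ⊥) :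
    ¬ Z ≤ cj h Z ∧ (cj h Z).relIndex V = 2 ∧ (cj h Z).relIndex Z = 2 ∧ (∀ a ∈ Z, a * a = 1) ∧
      (Z ⊓ cj h Z = ⊥ ∨ Nat.card ↥(Z ⊓ cj h Z) = 2) := by
  have a1 : ¬ Z ≤ cj h Z := fun k =>
    h1 (H.N' (hZV.trans hVP) (norm_of_centralizer hZ) (eq_of_le_cj k) hyZ)
  have a2 : (cj h Z).relIndex V = 2 := by
    have := relIndex_cj h Z V; rw [hV] at this; rw [this, hi]
  have a3 : (cj h Z).relIndex Z = 2 := idx_sub a2 hZV a1
  have a4 : (Z ⊓ cj h Z).relIndex Z = 2 := by rw [inf_relIndex_left]; exact a3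
  have a5 : (cj y (Z ⊓ cj h Z)).relIndex Z = 2 := by
    have := relIndex_cj y (Z ⊓ cj h Z) Z; rw [hyZ] at this; rw [this, a4]
  have a6 := H.cen (C := Z ⊓ cj h Z) (inf_le_left.trans (hZV.trans hVP))
    (hZ.trans (centralizer_anti inf_le_left)) ((cent_cj hZ).trans (centralizer_anti inf_le_right))
  refine ⟨a1, a2, a3, fun a ha => ?_, ?_⟩
  · have : a * a ∈ (Z ⊓ cj h Z) ⊓ cj y (Z ⊓ cj h Z) := ⟨sq2 a4 ha, sq2 a5 ha⟩
    rwa [a6, mem_bot] at this
  · by_cases k : Z ⊓ cj h Z ≤ cj y (Z ⊓ cj h Z)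
    · left; rw [← a6, inf_eq_left.2 k]
    · right
      have := card_inf_mul_relIndex (cj y (Z ⊓ cj h Z)) (Z ⊓ cj h Z)
      rw [idx_sub a5 inf_le_left k, inf_comm, a6, card_bot] at this
      omega

theorem Hyp.cardP : Nat.card P = 4 * Nat.card ↥(R ⊓ cj y R) := by
  have a1 := card_mul_relIndex H.RP
  have a2 := card_mul_relIndex (inf_le_left : R ⊓ cj y R ≤ R)
  rw [H.idx] at a1; rw [H.idxM'] at a2; omega

/-- Case B is impossible. -/
theorem Hyp.caseB (hc : Nat.card P ≤ 64) (hM : R ⊓ cj y R ≠ ⊥) : ¬ R ⊓ 𝐂 R ≤ cj y R := by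
  intro hB
  set Rs := cj y R with hRs
  set M := R ⊓ Rs with hMd
  set V := R ⊓ 𝐂 R with hVd
  set Z := P ⊓ 𝐂 P with hZd
  have MP : M ≤ P := inf_le_left.trans H.RP
  have nM : ¬ cj h P ≤ 𝐍 M := fun k => hM (H.N M MP H.nM k H.yM)
  have nM' : cj h M ≠ M := fun k => hM (H.N' MP H.nM k H.yM)
  have P1 : P ≠ ⊥ := fun k => H.R1 (eq_bot_iff.2 (k ▸ H.RP))
  have Z1 : Z ≠ ⊥ := by
    haveI := (nontrivial_iff_ne_bot P).2 P1
    have := (nontrivial_iff_ne_bot _).1 H.pP.center_nontrivial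
    rw [hZd, ← map_subtype_center]
    exact fun k => this ((map_eq_bot_iff_of_injective _ P.subtype_injective).1 k)
  have yZ : cj y Z = Z := by rw [hZd, cj_inf, cj_centralizer, H.ny]
  have ZR : Z ≤ R := fun z hz => by
    by_contra hzR
    apply nM
    have h1 : h * z * h⁻¹ ∈ 𝐂 R := by
      have : h * z * h⁻¹ ∈ cj h (𝐂 R) := conj_mem_cj.2 (centralizer_anti H.RP hz.2)
      rwa [cj_centralizer, H.nh] at this
    refine cover H.idx' (conj_mem_cj.2 hz.1) (fun k => hzR ?_) (inf_le_left.trans (H.RP.trans H.nM))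
      (norm_of_centralizer (le_refl (𝐂 M)) (centralizer_anti inf_le_left h1))
    rw [← H.nh] at k; exact conj_mem_cj.1 k
  have cZ : P ≤ 𝐂 Z := le_centralizer_iff.1 inf_le_right
  have ZV : Z ≤ V := le_inf ZR (inf_le_right.trans (centralizer_anti H.RP))
  have VP : V ≤ P := inf_le_left.trans H.RP
  have nV : P ≤ 𝐍 V := norm_inf H.nP (norm_centralizer H.nP)
  have hV : cj h V = V := by rw [hVd, cj_inf, cj_centralizer, H.nh]
  set Vs := cj y V with hVs
  have Vsd : Vs = Rs ⊓ 𝐂 Rs := by rw [hVs, hVd, cj_inf, cj_centralizer]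
  have ZVs : Z ≤ Vs := by rw [← yZ]; exact cj_mono y ZV
  have VsR : Vs ≤ R := by have := cj_mono y hB; rwa [H.yy H.RP H.nP] at this
  have VsRs : Vs ≤ Rs := cj_mono y inf_le_left
  have nVs : P ≤ 𝐍 Vs := H.nyQ nV
  obtain ⟨t, htRs, htR⟩ := SetLike.not_le_iff_exists.1 H.ns
  have htP : t ∈ P := H.leP H.RP htRs
  have VVs : V ⊓ Vs = Z := by
    refine le_antisymm (le_inf (inf_le_left.trans VP) (le_centralizer_iff.1 ?_)) (le_inf ZV ZVs)
    refine cover H.idx htP htR (inf_le_left.trans (le_centralizer_iff.1 (inf_le_left.trans inf_le_right))) ?_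
    exact (le_centralizer_iff.1 (inf_le_right.trans (Vsd.le.trans inf_le_right)) : Rs ≤ 𝐂 (V ⊓ Vs : Subgroup G)) htRs
  have VZ : ¬ V ≤ Z := fun k => Z1 (H.N' inf_le_left (norm_of_centralizer cZ)
    (by rw [← le_antisymm k ZV]; exact hV) yZ)
  set U := V ⊔ Vs with hU
  have UM : U ≤ M := sup_le (le_inf inf_le_left hB) (le_inf VsR VsRs)
  have cM : Nat.card M ≤ 16 := by have := H.cardP; rw [← hRs, ← hMd] at this; omega
  have cU : Nat.card U * Nat.card Z = Nat.card V * Nat.card V := by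
    have := card_sup_mul_card_inf (VP.trans nVs)
    rwa [VVs, hVs, card_cj] at this
  have cV := card_mul_relIndex ZV
  have cZ2 : 1 < Nat.card Z := (one_lt_card_iff_ne_bot Z).2 Z1
  have cUM : Nat.card U ≤ Nat.card M := card_le_of_le UM
  have iZ : Z.relIndex V = 2 := by
    have k1 : Z.relIndex V ≠ 1 := fun k => VZ (relIndex_eq_one.1 k)
    have k0 := relIndex_ne_zero Z V
    have e : Nat.card U = Nat.card Z * (Z.relIndex V * Z.relIndex V) := by
      apply Nat.eq_of_mul_eq_mul_right (by omega : 0 < Nat.card Z)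
      rw [cU, ← cV]; ring
    by_contra k2
    have k3 : 3 ≤ Z.relIndex V := by omega
    have : 2 * (3 * 3) ≤ Nat.card Z * (Z.relIndex V * Z.relIndex V) :=
      Nat.mul_le_mul cZ2 (Nat.mul_le_mul k3 k3)
    omega
  have cU4 : Nat.card U = 4 * Nat.card Z := by
    apply Nat.eq_of_mul_eq_mul_right (by omega : 0 < Nat.card Z)
    rw [cU, ← cV, iZ]; ring
  obtain ⟨b1, b2, b3, b4, b5⟩ := H.zz ZV VP iZ hV cZ yZ Z1
  have iZs : Z.relIndex Vs = 2 := by
    have := relIndex_cj y Z V; rw [yZ] at this; rw [hVs, this, iZ]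
  have eV : ∀ a ∈ V, a * a = 1 :=
    sq_cover b2 ZV b1 (sq_cj b4) b4 (inf_le_right.trans (centralizer_anti inf_le_left))
  have cm : ∀ w ∈ Vs, ∀ x ∈ P, x * w * x⁻¹ * w⁻¹ ∈ Z := fun w hw x hx => by
    have k := conj_mem_of_mem_normalizer (nVs hx) hw
    refine (mul2 iZs k (Vs.inv_mem hw)).2 ?_
    rw [Z.inv_mem_iff]
    have := cj_eq_self (norm_of_centralizer cZ hx)
    conv_lhs => rw [← this]
    exact conj_mem_cj
  have cVs : ∀ x ∈ P, x ∈ 𝐂 Vs → x ∈ Rs := fun x hx hxc => by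
    by_contra k
    have : P ≤ 𝐂 Vs := cover H.idxs hx k
      (inf_le_left.trans (le_centralizer_iff.1 (Vsd.le.trans inf_le_right))) hxc
    exact not_le2 iZs (le_inf (VsR.trans H.RP) (le_centralizer_iff.1 this))
  set W := cj h Vs with hW
  have WR : W ≤ R := by have := cj_mono h VsR; rwa [H.nh] at this
  have hUh : cj h U = V ⊔ W := by rw [hU, cj_sup, hV]
  have nU : P ≤ 𝐍 U := norm_sup nV nVs
  have yU : cj y U = U := by rw [hU, cj_sup, hVs, H.yy VP nV, sup_comm]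
  have U1 : U ≠ ⊥ := fun k => Z1 (eq_bot_iff.2 (k ▸ ZV.trans le_sup_left))
  have WU : ¬ W ≤ U := fun k => U1 (H.N' (UM.trans MP) nU
    (eq_of_cj_le (by rw [hUh]; exact sup_le le_sup_left k)) yU)
  have cC := card_inf_mul_relIndex (cj h Z) Z
  rw [b3, inf_comm] at cC
  rcases b5 with b5 | b5
  · have cW : W ≤ 𝐂 Vs := fun w hw => mem_centralizer_sub.2 fun v hv => by
      have k1 := cm v hv w (H.RP (WR hw))
      obtain ⟨w', hw', rfl⟩ := mem_cj'.1 hw
      have k2 := cm w' hw' (h⁻¹ * v * h) (mem_cj.1 (H.RP' (VsR hv)))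
      have k3 : h * w' * h⁻¹ * v * (h * w' * h⁻¹)⁻¹ * v⁻¹ ∈ cj h Z := by
        rw [mem_cj, ← Z.inv_mem_iff]; convert k2 using 1; group
      have : h * w' * h⁻¹ * v * (h * w' * h⁻¹)⁻¹ * v⁻¹ ∈ Z ⊓ cj h Z := ⟨k1, k3⟩
      rw [b5, mem_bot] at this
      calc v * (h * w' * h⁻¹) = 1 * (v * (h * w' * h⁻¹)) := by group
        _ = h * w' * h⁻¹ * v := by rw [← this]; group
    have WM : W ≤ M := le_inf WR fun w hw => cVs w (H.RP (WR hw)) (cW hw)
    rw [b5, card_bot] at cC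
    have iU : U.relIndex M = 2 := by
      have e := card_mul_relIndex UM
      have k1 : U.relIndex M ≠ 1 := fun k => WU (WM.trans (relIndex_eq_one.1 k))
      have k0 := relIndex_ne_zero U M
      rw [cU4, ← cC] at e
      omega
    obtain ⟨w, hw, hwU⟩ := SetLike.not_le_iff_exists.1 WU
    have UM' : V ⊔ W ≤ cj h M := by rw [← hUh]; exact cj_mono h UM
    refine nM' (eq_of_le_cj (cover iU (WM hw) hwU (inf_le_left.trans (sup_le (le_sup_left.trans UM') ?_))
      (UM' (mem_sup_right hw))))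
    intro v hv
    rw [mem_cj]
    have k1 : h⁻¹ * v * h ∈ R := by rw [← mem_cj, H.nh]; exact VsR hv
    refine ⟨k1, cVs _ (H.RP k1) ?_⟩
    rw [← mem_cj, cj_centralizer]
    exact le_centralizer_iff.1 cW hv
  · have MU : U = M := eq_of_le_of_card_ge UM (by omega)
    have cVV : Vs ≤ 𝐂 V := VsR.trans (le_centralizer_iff.1 inf_le_right)
    have eVs : ∀ a ∈ Vs, a * a = 1 := sq_cj eV
    have eM : ∀ a ∈ M, a * a = 1 := fun a ha => by
      rw [← MU] at ha
      obtain ⟨u, hu, v, hv, rfl⟩ := (mem_sup_of_norm (VP.trans nVs)).1 ha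
      have := mem_centralizer_sub.1 (cVV hv) u hu
      calc u * v * (u * v) = u * (v * u) * v := by group
        _ = (u * u) * (v * v) := by rw [← this]; group
        _ = 1 := by rw [eV u hu, eVs v hv, one_mul]
    have iW : (cj h Z).relIndex W = 2 := by rw [hW, relIndex_cj, iZs]
    have Z'V : cj h Z ≤ V := by rw [← hV]; exact cj_mono h ZV
    have nt : t ∈ 𝐍 (cj h M) := by
      refine mem_normalizer_of_cj_le ?_
      rw [← MU, hUh, cj_sup, cj_eq_self (nV htP)]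
      refine sup_le le_sup_left (cj_le_iff'.2 fun w hw => ?_)
      by_cases k : w ∈ M
      · have : w ∈ cj h Z := by
          by_contra k'
          exact WU (cover iW hw k' (inf_le_left.trans (Z'V.trans le_sup_left)) (MU ▸ k))
        exact mem_sup_left (conj_mem_of_mem_normalizer (nV htP) (Z'V this))
      · have hwR := WR hw
        have k1 : t * w * t⁻¹ ∈ R := conj_mem_of_mem_normalizer (H.nP htP) hwR
        have k2 : t * w * t⁻¹ ∉ M := fun k' => k (by
          have := inv_conj_mem_of_mem_normalizer (H.nM htP) k'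
          rwa [show t⁻¹ * (t * w * t⁻¹) * t = w by group] at this)
        have k3 : w * (t * w * t⁻¹) ∈ M := (mul2 H.idxM' hwR k1).2 (iff_of_false k k2)
        have w2 : w * w = 1 := sq_cj eVs w hw
        have k4 : w * (t * w * t⁻¹) ∈ V := by
          refine ⟨k3.1, (le_centralizer_iff.1 (?_ : R ≤ 𝐂 (zpowers (w * (t * w * t⁻¹))))) (mem_zpowers _)⟩
          rw [centralizer_zpowers]
          refine cover H.idxM' hwR k (fun m hm => mem_centralizer_singleton_iff.2 (comm_of_sq eM hm.1 k3)) ?_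
          rw [mem_centralizer_singleton_iff]
          have u2 := eM _ k3
          have w3 : t * w * t⁻¹ * (t * w * t⁻¹) = 1 := by
            calc t * w * t⁻¹ * (t * w * t⁻¹) = t * (w * w) * t⁻¹ := by group
              _ = 1 := by rw [w2]; group
          generalize t * w * t⁻¹ = s at u2 w3
          calc w * (w * s) = (w * w) * s := by group
            _ = s * (s * s) := by rw [w2, w3]; group
            _ = (w * w) * s * (w * w) * s * s := by rw [w2]; group
            _ = w * (w * s * (w * w) * s) * s := by group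
            _ = w * (w * s * (w * w) * s) * s := rfl
            _ = w * s * w := by
              rw [w2]
              calc w * (w * s * 1 * s) * s = (w * w) * (s * s) * s := by group
                _ = s := by rw [w2, w3]; group
                _ = (w * s * (w * s)) * s := by rw [u2]; group
                _ = w * s * w * (s * s) := by group
                _ = w * s * w := by rw [w3]; group
        have : t * w * t⁻¹ = w⁻¹ * (w * (t * w * t⁻¹)) := by group
        rw [this]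
        exact mul_mem (mem_sup_right (W.inv_mem hw)) (mem_sup_left k4)
    have n1 : cj h P ≤ 𝐍 (cj h M) := norm_cj H.nM
    have n2 : P ≤ 𝐍 (cj h M) := cover H.idx htP htR (inf_le_left.trans (H.RP'.trans n1)) nt
    exact nM' (cj_inj.1 (cj_eq_self (sup_le n2 n1 H.hH)))

/-- Data of case A. -/
theorem Hyp.caseA (hM : R ⊓ cj y R ≠ ⊥) (hA : ¬ R ⊓ 𝐂 R ≤ cj y R) :
    ∃ t a a' c : G, t ∈ P ∧ t ∉ R ∧ a ∈ R ∧ a' ∈ R ∧ c ∈ R ∧ (∀ r ∈ R, r * r = 1) ∧ t * t = 1 ∧ a ≠ 1 ∧
      t * a = a * t ∧ t * a' = a * (a' * t) ∧ h * t * h⁻¹ * a' = a' * (h * t * h⁻¹) ∧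
      h * t * h⁻¹ * a = a * (a' * (h * t * h⁻¹)) ∧ t * c = c * t ∧ h * t * h⁻¹ * c = c * (h * t * h⁻¹) ∧
      (∀ N : Subgroup G, a ∈ N → a' ∈ N → c ∈ N → R ≤ N) ∧
      ((c = 1 ∧ Nat.card P = 8) ∨ (c ≠ 1 ∧ Nat.card P = 16)) := by
  set Rs := cj y R with hRs
  set M := R ⊓ Rs with hMd
  have MP : M ≤ P := inf_le_left.trans H.RP
  have nM : ¬ cj h P ≤ 𝐍 M := fun k => hM (H.N M MP H.nM k H.yM)
  obtain ⟨v, hv, hvR⟩ := SetLike.not_le_iff_exists.1 hA
  have RR : ⁅R, R⁆ = ⊥ := by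
    refine H.N _ ((commutator_le_left_of_norm (norm_of_le le_rfl)).trans H.RP) (norm_commutator H.nP H.nP)
      (norm_commutator H.nP' H.nP') (eq_of_le_cj ?_)
    rw [cj_commutator, commutator_le]
    have k : ∀ r ∈ R, ∃ m ∈ Rs, m ∈ R ∧ ∃ w ∈ 𝐂 R, w ∈ R ∧ r = m * w := fun r hr => by
      by_cases k : r ∈ Rs
      · exact ⟨r, k, hr, 1, one_mem _, one_mem _, by group⟩
      · exact ⟨r * v, (mul2 H.idxM hr hv.1).2 (iff_of_false k hvR), R.mul_mem hr hv.1, v⁻¹, inv_mem hv.2,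
          inv_mem hv.1, by group⟩
    intro r hr s hs
    obtain ⟨m, hm, hmR, w, hw, hwR, rfl⟩ := k r hr
    obtain ⟨m', hm', hmR', w', hw', hwR', rfl⟩ := k s hs
    have e : ⁅m * w, m' * w'⁆ = ⁅m, m'⁆ := by
      have c1 := mem_centralizer_sub.1 hw _ hs
      have c2 := mem_centralizer_sub.1 hw' _ hmR
      calc ⁅m * w, m' * w'⁆ = m * (w * (m' * w')) * w⁻¹ * m⁻¹ * (m' * w')⁻¹ := by
            rw [commutatorElement_def]; group
        _ = m * m' * (w' * m⁻¹ * w'⁻¹) * m'⁻¹ := by rw [← c1]; group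
        _ = m * m' * (w' * m * w'⁻¹)⁻¹ * m'⁻¹ := by group
        _ = ⁅m, m'⁆ := by rw [← c2, commutatorElement_def]; group
    rw [e]; exact commutator_mem_commutator hm hm'
  have cR : R ≤ 𝐂 R := commutator_eq_bot_iff'.1 RR
  have cRs : Rs ≤ 𝐂 Rs := cent_cj cR
  obtain ⟨t, htRs, htR⟩ := SetLike.not_le_iff_exists.1 H.ns
  have htP : t ∈ P := H.leP H.RP htRs
  have cM : P ≤ 𝐂 M := cover H.idx htP htR (inf_le_left.trans (cR.trans (centralizer_anti inf_le_left)))
    (centralizer_anti inf_le_right (cRs htRs))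
  obtain ⟨b1, b2, b3, b4, b5⟩ := H.zz (inf_le_left : M ≤ R) H.RP H.idxM' H.nh cM H.yM hM
  set M' := cj h M with hM'
  have M'R : M' ≤ R := by have := cj_mono h (inf_le_left : M ≤ R); rwa [H.nh] at this
  have eR : ∀ r ∈ R, r * r = 1 := sq_cover b2 inf_le_left b1 (sq_cj b4) b4 cR
  have t2 : t * t = 1 := sq_cj eR t htRs
  have ti : t⁻¹ = t := inv_eq_of_mul_eq_one_right t2
  obtain ⟨r0, hr0, hr0M⟩ := SetLike.not_le_iff_exists.1 (not_le2 H.idxM')
  set a := t * r0 * t⁻¹ * r0 with ha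
  have k1 : t * r0 * t⁻¹ ∈ R := conj_mem_of_mem_normalizer (H.nP htP) hr0
  have aM : a ∈ M := (mul2 H.idxM' k1 hr0).2 (iff_of_false (fun k' => hr0M (by
    have := inv_conj_mem_of_mem_normalizer (H.nM htP) k'
    rwa [show t⁻¹ * (t * r0 * t⁻¹) * t = r0 by group] at this)) hr0M)
  have act : ∀ r ∈ R, r ∉ M → t * r = a * (r * t) := fun r hr hrM => by
    have m1 : r0 * r ∈ M := (mul2 H.idxM' hr0 hr).2 (iff_of_false hr0M hrM)
    have m2 := mem_centralizer_sub.1 (cM htP) _ m1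
    calc t * r = t * (r0 * r0) * r := by rw [eR r0 hr0]; group
      _ = t * r0 * t⁻¹ * (t * (r0 * r)) := by group
      _ = a * (r * t) := by rw [← m2, ha]; group
  have a1 : a ≠ 1 := fun k => by
    have c1 : t ∈ 𝐂 R := le_centralizer_iff.1 (?_ : R ≤ 𝐂 (zpowers t)) (mem_zpowers t)
    · have : P ≤ 𝐂 R := cover H.idx htP htR (inf_le_left.trans cR) c1
      have h2 := cent_cj (g := h) this
      rw [H.nh] at h2
      exact nM (norm_of_centralizer (h2.trans (centralizer_anti inf_le_left)))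
    · rw [centralizer_zpowers]
      refine cover H.idxM' hr0 hr0M (fun m hm => mem_centralizer_singleton_iff.2
        (mem_centralizer_sub.1 (cM htP) m hm.1)) (mem_centralizer_singleton_iff.2 ?_)
      rw [act r0 hr0 hr0M, k, one_mul]
  set t' := h * t * h⁻¹ with ht'
  set a' := h * a * h⁻¹ with ha'
  have a'M : a' ∈ M' := conj_mem_cj.2 aM
  have t'P : t' ∈ cj h P := conj_mem_cj.2 htP
  have cM' : cj h P ≤ 𝐂 M' := cent_cj cM
  have act' : ∀ r ∈ R, r ∉ M' → t' * r = a' * (r * t') := fun r hr hrM => by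
    have := act (h⁻¹ * r * h) (by rw [← mem_cj, H.nh]; exact hr) (fun k => hrM (mem_cj.2 k))
    calc t' * r = h * (t * (h⁻¹ * r * h)) * h⁻¹ := by rw [ht']; group
      _ = a' * (r * t') := by rw [this, ha', ht']; group
  have cen : ∀ x ∈ M, x ∈ M' → h * x = x * h := fun x h1 h2 => by
    have : P ⊔ cj h P ≤ 𝐂 (M ⊓ M' : Subgroup G) :=
      sup_le (cM.trans (centralizer_anti inf_le_left)) (cM'.trans (centralizer_anti inf_le_right))
    exact (mem_centralizer_sub.1 (this H.hH) x ⟨h1, h2⟩).symm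
  have bad : a' ≠ a := fun k => by
    obtain ⟨m, hm, hmM⟩ := SetLike.not_le_iff_exists.1 b1
    have e1 := act' m hm.1 hmM
    rw [k] at e1
    have e2 := mem_centralizer_sub.1 (cM htP) m hm
    have e3 := mem_centralizer_sub.1 (cM htP) a aM
    have e4 := mem_centralizer_sub.1 (cM' t'P) a (k ▸ a'M)
    have e5 : t * t' * m = a * (m * (t * t')) := by
      calc t * t' * m = t * (t' * m) := by group
        _ = (t * a) * m * t' := by rw [e1]; group
        _ = a * (t * m) * t' := by rw [← e3]; group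
        _ = a * (m * (t * t')) := by rw [← e2]; group
    have e6 : t * t' * a = a * (t * t') := by
      calc t * t' * a = t * (t' * a) := by group
        _ = (t * a) * t' := by rw [← e4]; group
        _ = a * (t * t') := by rw [← e3]; group
    have e7 : Commute ((t * t') ^ 2) m := by
      change _ = _
      calc (t * t') ^ 2 * m = t * t' * (t * t' * m) := by rw [pow_two]; group
        _ = (t * t' * a) * m * (t * t') := by rw [e5]; group
        _ = a * (t * t' * m) * (t * t') := by rw [e6]; group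
        _ = (a * a) * (m * (t * t') ^ 2) := by rw [e5, pow_two]; group
        _ = m * (t * t') ^ 2 := by rw [eR a aM.1, one_mul]
    obtain ⟨j, hj⟩ := H.odd
    have e8 : Commute ((t * t') ^ n) m := (mem_centralizer_sub.1 (cR (H.dih t htP htR)) m hm.1).symm
    have e9 : Commute (t * t') m := by
      have : t * t' = (((t * t') ^ 2) ^ j)⁻¹ * (t * t') ^ n := by
        rw [hj, pow_succ (t * t') (2 * j), pow_mul, inv_mul_cancel_left]
      rw [this]; exact (e7.pow_left j).inv_left.mul_left e8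
    rw [e9.eq] at e5
    exact a1 (by simpa using e5)
  have aM' : a ∉ M' := fun k => bad (by rw [ha', cen a aM k]; group)
  have a'M' : a' ∉ M := fun k => bad (by
    have := cen a' k a'M
    have e : a = h⁻¹ * a' * h := by rw [ha']; group
    rw [e, mul_assoc, ← this]; group)
  have aa' : a' * a = a * a' := comm_of_sq eR (M'R a'M) aM.1
  have gen : ∀ c : G, (∀ N : Subgroup G, c ∈ N → M ⊓ M' ≤ N) →
      ∀ N : Subgroup G, a ∈ N → a' ∈ N → c ∈ N → R ≤ N := fun c hc N h1 h2 h3 =>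
    cover H.idxM' (M'R a'M) a'M' (inf_le_left.trans
      (cover b3 aM aM' ((inf_comm M' M).le.trans (hc N h3)) h1)) h2
  have cP := H.cardP
  have cC := card_inf_mul_relIndex M' M
  rw [b3, inf_comm] at cC
  rw [← hRs, ← hMd] at cP
  have f1 : t * a = a * t := (mem_centralizer_sub.1 (cM htP) a aM).symm
  have f2 : t' * a' = a' * t' := (mem_centralizer_sub.1 (cM' t'P) a' a'M).symm
  have f3 : t' * a = a * (a' * t') := by rw [act' a aM.1 aM', ← mul_assoc, aa', mul_assoc]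
  rcases b5 with b5 | b5
  · refine ⟨t, a, a', 1, htP, htR, aM.1, M'R a'M, one_mem _, eR, t2, a1, f1, act a' (M'R a'M) a'M', f2, f3,
      by simp, by simp, gen 1 fun N _ => b5 ▸ bot_le, Or.inl ⟨rfl, ?_⟩⟩
    rw [b5, card_bot] at cC; omega
  · replace b5 : Nat.card ↥(M ⊓ M') = 2 := b5
    obtain ⟨c, hc, hc1⟩ : ∃ c ∈ M ⊓ M', c ≠ 1 := by
      by_contra k
      push Not at k
      rw [(eq_bot_iff_forall _).2 k, card_bot] at b5; omega
    have i1 : (⊥ : Subgroup G).relIndex (M ⊓ M') = 2 := by rw [relIndex_bot_left, b5]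
    refine ⟨t, a, a', c, htP, htR, aM.1, M'R a'M, hc.1.1, eR, t2, a1, f1, act a' (M'R a'M) a'M', f2, f3,
      (mem_centralizer_sub.1 (cM htP) c hc.1).symm, (mem_centralizer_sub.1 (cM' t'P) c hc.2).symm,
      gen c fun N hN => cover i1 hc hc1 (inf_le_left.trans bot_le) hN, Or.inr ⟨hc1, by omega⟩⟩

/-- Data of the small case. -/
theorem Hyp.case0 (hM : R ⊓ cj y R = ⊥) :
    ∃ t c : G, t ∈ P ∧ t ∉ R ∧ c ∈ R ∧ c * c = 1 ∧ t * t = 1 ∧ c ≠ 1 ∧
      t * c = c * t ∧ h * t * h⁻¹ * c = c * (h * t * h⁻¹) ∧ (∀ r ∈ R, r = 1 ∨ r = c) ∧ Nat.card P = 4 := by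
  have i1 := H.idxM'
  have cP := H.cardP
  rw [hM] at i1
  rw [hM, card_bot] at cP
  obtain ⟨c, hc, hc1⟩ := SetLike.not_le_iff_exists.1 (not_le2 i1)
  have eR : ∀ r ∈ R, r * r = 1 := fun r hr => sq2 i1 hr
  have k : ∀ r ∈ R, r = 1 ∨ r = c := fun r hr => by
    by_cases k : r = 1
    · exact Or.inl k
    · have : r * c = 1 := (mul2 i1 hr hc).2 (iff_of_false k hc1)
      right
      calc r = r * (c * c) := by rw [eR c hc, mul_one]
        _ = c := by rw [← mul_assoc, this, one_mul]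
  have cc : ∀ x ∈ 𝐍 R, x * c = c * x := fun x hx => by
    rcases k _ (conj_mem_of_mem_normalizer hx hc) with e | e
    · exact absurd (by simpa using e : c = 1) hc1
    · exact mul_inv_eq_iff_eq_mul.1 e
  obtain ⟨t, htRs, htR⟩ := SetLike.not_le_iff_exists.1 H.ns
  have htP : t ∈ P := H.leP H.RP htRs
  exact ⟨t, c, htP, htR, hc, eR c hc, sq_cj eR t htRs, hc1, cc t (H.nP htP), cc _ (H.nP' (conj_mem_cj.2 htP)),
    k, cP⟩

end gen

section fin
variable {X : Type*} [Group X]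

def hom2 (z : X) (hz : z * z = 1) : Multiplicative (ZMod 2) →* X :=
  MonoidHom.mk' (fun a => if a = 1 then 1 else z) fun a b => by
    have k : ∀ a : Multiplicative (ZMod 2), a = 1 ∨ a = Multiplicative.ofAdd 1 := by decide
    have k1 : (Multiplicative.ofAdd 1 : Multiplicative (ZMod 2)) ≠ 1 := by decide
    have k2 : (Multiplicative.ofAdd 1 : Multiplicative (ZMod 2)) * Multiplicative.ofAdd 1 = 1 := by decide
    rcases k a with rfl | rfl <;> rcases k b with rfl | rfl <;> simp [k1, k2, hz]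

theorem hom2_gen (z : X) (hz : z * z = 1) : hom2 z hz (Multiplicative.ofAdd 1) = z := by
  have k1 : (Multiplicative.ofAdd 1 : Multiplicative (ZMod 2)) ≠ 1 := by decide
  simp [hom2, k1]

theorem hom2_cases (z : X) (hz : z * z = 1) (a : Multiplicative (ZMod 2)) :
    (a = 1 ∧ hom2 z hz a = 1) ∨ hom2 z hz a = z := by
  by_cases h : a = 1
  · exact Or.inl ⟨h, by rw [h, map_one]⟩
  · right; simp [hom2, h]

variable [Finite X]

theorem odd_inv {w : X} (h : w * w = 1) (hw : (w : X ⧸ oddCore X) = 1) : w = 1 := by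
  have h1 : w ∈ oddCore X := (QuotientGroup.eq_one_iff w).1 hw
  have h2 : orderOf w ∣ Nat.card (oddCore X) := by
    rw [← orderOf_mk w h1]; exact orderOf_dvd_natCard _
  have h3 : orderOf w ∣ 2 := orderOf_dvd_of_pow_eq_one (by rw [pow_two, h])
  exact orderOf_eq_one_iff.1 (Nat.eq_one_of_dvd_coprimes (CA.Core.coprime_pPrimeCore (p := 2) (G := X)) h2 h3)

theorem odd_mem {R : Subgroup X} {t t' : X} {n k : ℕ} (hn : Odd n)
    (hgen : ∀ N : Subgroup X, R ≤ N → t ∈ N → t' ∈ N → N = ⊤) (h2 : ∀ r ∈ R, r * r = 1)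
    (ht : t * t = 1) (ht' : t' * t' = 1) (hd : (t * t') ^ n ∈ R)
    (hc : ∀ r ∈ R, r * (t * t') ^ (2 * k) = (t * t') ^ (2 * k) * r) :
    (((t * t') ^ (2 * k) : X) : X ⧸ oddCore X) = 1 := by
  rw [QuotientGroup.eq_one_iff]
  have ti : t⁻¹ = t := inv_eq_of_mul_eq_one_right ht
  have ti' : t'⁻¹ = t' := inv_eq_of_mul_eq_one_right ht'
  have inv : ∀ s : X, s * (t * t') * s⁻¹ = (t * t')⁻¹ → s ∈ 𝐍 (zpowers ((t * t') ^ (2 * k))) := fun s hs => by
    refine mem_normalizer_of_cj_le ?_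
    rw [cj_zpowers, zpowers_le, ← conj_pow, hs, inv_pow]
    exact inv_mem (mem_zpowers _)
  have hN : (zpowers ((t * t') ^ (2 * k))).Normal := by
    rw [normal_iff_top_le, top_le_iff]
    refine hgen _ (norm_of_centralizer fun r hr => ?_) (inv t ?_) (inv t' ?_)
    · rw [centralizer_zpowers]; exact mem_centralizer_singleton_iff.2 (hc r hr)
    · rw [mul_inv_rev, ti, ti', ← mul_assoc, ht, one_mul]
    · rw [mul_inv_rev, ti, ti', mul_assoc, mul_assoc, ht', mul_one]
  refine CA.Core.le_pPrimeCore (p := 2) (N := zpowers ((t * t') ^ (2 * k))) ?_ (mem_zpowers _)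
  rw [Nat.card_zpowers]
  have : orderOf ((t * t') ^ (2 * k)) ∣ n := orderOf_dvd_of_pow_eq_one (by
    rw [← pow_mul, show 2 * k * n = n * 2 * k by ring, pow_mul, pow_mul, pow_two, h2 _ hd, one_pow])
  exact (Nat.Coprime.coprime_dvd_left this (Nat.coprime_two_right.2 hn))

theorem fin0 {R : Subgroup X} {t t' c : X} {n : ℕ} (hn : Odd n)
    (hgen : ∀ N : Subgroup X, R ≤ N → t ∈ N → t' ∈ N → N = ⊤) (hc2 : c * c = 1) (hc1 : c ≠ 1) (hc : c ∈ R)
    (htR : t ∉ R) (ht : t * t = 1) (ht' : t' * t' = 1) (hd : (t * t') ^ n ∈ R) (e1 : t * c = c * t)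
    (e2 : t' * c = c * t') (hR : ∀ r ∈ R, r = 1 ∨ r = c) :
    Nonempty (X ⧸ oddCore X ≃* Multiplicative (ZMod 2) × Multiplicative (ZMod 2)) := by
  let π := QuotientGroup.mk' (oddCore X)
  have h2 : ∀ r ∈ R, r * r = 1 := fun r hr => by rcases hR r hr with rfl | rfl <;> simp [hc2]
  have cm : Commute c (t * t') := Commute.mul_right e1.symm e2.symm
  have o1 : π ((t * t') ^ 2) = 1 := odd_mem (k := 1) hn hgen h2 ht ht' hd fun r hr => by
    rcases hR r hr with rfl | rfl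
    · simp
    · exact (cm.pow_right _).eq
  have q1 : π c * π c = 1 := by rw [← map_mul, hc2, map_one]
  have q2 : π t * π t = 1 := by rw [← map_mul, ht, map_one]
  have q3 : Commute (π c) (π t) := (Commute.map e1.symm π)
  let f := (hom2 _ q1).noncommCoprod (hom2 _ q2) fun a b => by
    rcases hom2_cases _ q1 a with ⟨-, h⟩ | h <;> rcases hom2_cases _ q2 b with ⟨-, h'⟩ | h' <;> rw [h, h'] <;>
      first | exact q3 | simp
  refine ⟨(MulEquiv.ofBijective f ⟨(injective_iff_map_eq_one _).2 ?_, ?_⟩).symm⟩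
  · rintro ⟨a, b⟩ h
    change hom2 _ q1 a * hom2 _ q2 b = 1 at h
    rcases hom2_cases _ q1 a with ⟨rfl, k⟩ | k <;> rcases hom2_cases _ q2 b with ⟨rfl, k'⟩ | k' <;> rw [k, k'] at h
    · rfl
    · exact absurd (odd_inv ht (by rwa [one_mul] at h) ▸ R.one_mem) htR
    · exact absurd (odd_inv hc2 (by rwa [mul_one] at h)) hc1
    · have : c * t = 1 := odd_inv (by
        calc c * t * (c * t) = c * (t * c) * t := by group
          _ = (c * c) * (t * t) := by rw [e1]; group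
          _ = 1 := by rw [hc2, ht, one_mul]) h
      exact absurd (by rw [eq_inv_of_mul_eq_one_right this]; exact R.inv_mem hc) htR
  · have m1 : c ∈ f.range.comap π := ⟨(Multiplicative.ofAdd 1, 1), by simp [f, hom2_gen]⟩
    have m2 : t ∈ f.range.comap π := ⟨(1, Multiplicative.ofAdd 1), by simp [f, hom2_gen]⟩
    have m3 : R ≤ f.range.comap π := fun r hr => by
      rcases hR r hr with rfl | rfl
      · exact one_mem _
      · exact m1
    have m4 : t * t' ∈ f.range.comap π := by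
      obtain ⟨j, hj⟩ := hn
      have := m3 hd
      rw [mem_comap, hj, pow_succ, pow_mul, map_mul, map_pow, o1, one_pow, one_mul] at this
      exact this
    have := hgen _ m3 m2 (by simpa using mul_mem (inv_mem m2) m4)
    intro x
    obtain ⟨x, rfl⟩ := QuotientGroup.mk'_surjective _ x
    exact (this ▸ mem_top x : x ∈ f.range.comap π)

theorem fin1 {R : Subgroup X} {t t' a a' c : X} {n : ℕ} (hn : Odd n)
    (hgen : ∀ N : Subgroup X, R ≤ N → t ∈ N → t' ∈ N → N = ⊤) (ha : a ∈ R) (ha' : a' ∈ R) (hc : c ∈ R)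
    (h2 : ∀ r ∈ R, r * r = 1) (ht : t * t = 1) (ht' : t' * t' = 1) (hd : (t * t') ^ n ∈ R) (a1 : a ≠ 1)
    (e1 : t * a = a * t) (e2 : t * a' = a * (a' * t)) (e3 : t' * a' = a' * t') (e4 : t' * a = a * (a' * t'))
    (e5 : t * c = c * t) (e6 : t' * c = c * t') (hR : ∀ N : Subgroup X, a ∈ N → a' ∈ N → c ∈ N → R ≤ N) :
    (c = 1 → Nonempty (X ⧸ oddCore X ≃* Equiv.Perm (Fin 4))) ∧
      (c ≠ 1 → Nonempty (X ⧸ oddCore X ≃* Equiv.Perm (Fin 4) × Multiplicative (ZMod 2))) := by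
  let π := QuotientGroup.mk' (oddCore X)
  have s1 : ∀ x, t * (a * x) = a * (t * x) := fun x => by rw [← mul_assoc, e1, mul_assoc]
  have s2 : ∀ x, t * (a' * x) = a * (a' * (t * x)) := fun x => by rw [← mul_assoc, e2]; group
  have s3 : ∀ x, t' * (a' * x) = a' * (t' * x) := fun x => by rw [← mul_assoc, e3, mul_assoc]
  have s4 : ∀ x, t' * (a * x) = a * (a' * (t' * x)) := fun x => by rw [← mul_assoc, e4]; group
  have s5 : ∀ x, a' * (a * x) = a * (a' * x) := fun x => by rw [← mul_assoc, comm_of_sq h2 ha' ha, mul_assoc]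
  have s6 : ∀ x, a * (a * x) = x := fun x => by rw [← mul_assoc, h2 a ha, one_mul]
  have s7 : ∀ x, a' * (a' * x) = x := fun x => by rw [← mul_assoc, h2 a' ha', one_mul]
  have s8 : ∀ x, t * (t * x) = x := fun x => by rw [← mul_assoc, ht, one_mul]
  have s9 : ∀ x, t' * (t' * x) = x := fun x => by rw [← mul_assoc, ht', one_mul]
  have cm : Commute c (t * t') := Commute.mul_right e5.symm e6.symm
  have c3 : R ≤ 𝐂 (zpowers ((t * t') ^ 3)) := by
    rw [centralizer_zpowers]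
    refine hR _ ?_ ?_ (mem_centralizer_singleton_iff.2 (cm.pow_right 3).eq) <;>
      rw [mem_centralizer_singleton_iff, ← mul_one ((t * t') ^ 3 * _)] <;>
      simp only [pow_succ, pow_zero, one_mul, mul_assoc, s1, s2, s3, s4, s5, s6, s7, s8, s9] <;> simp
  have o1 : π ((t * t') ^ (2 * 3)) = 1 := odd_mem hn hgen h2 ht ht' hd fun r hr => by
    have : Commute r ((t * t') ^ 3) := (mem_centralizer_sub.1 (c3 hr) _ (mem_zpowers _)).symm
    rw [mul_comm 2 3, pow_mul]; exact (this.pow_right 2).eq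
  have x1 : (t * a * (t * t') ^ 2) ^ 2 = a * a' := by
    rw [← mul_one (a * a')]
    simp only [pow_succ, pow_zero, one_mul, mul_assoc, s1, s2, s3, s4, s5, s6, s7, s8, s9, ht']
  have aa : a * a' ≠ 1 := fun k => by
    have k1 : a' = a := by rw [eq_inv_of_mul_eq_one_right k, inv_eq_of_mul_eq_one_right (h2 a ha)]
    rw [k1, e1, s6] at e2
    exact a1 (by simpa using e2)
  obtain ⟨φ, hφ, φ1, φ2⟩ := TriPres.exists_inj_S4 (x := π (t * a)) (y := π ((t * t') ^ 2))
    (by rw [← map_pow, pow_two, mul_assoc, ← s1, s8, h2 a ha, map_one])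
    (by rw [← map_pow, ← pow_mul, o1])
    (by rw [← map_mul, ← map_pow, show 4 = 2 * 2 from rfl, pow_mul, x1, pow_two, h2 _ (R.mul_mem ha ha'), map_one])
    (by rw [← map_mul, ← map_pow, x1]; exact fun k => aa (odd_inv (h2 _ (R.mul_mem ha ha')) k))
  have top : ∀ N : Subgroup (X ⧸ oddCore X), φ.range ≤ N → π c ∈ N → ∀ x, x ∈ N := fun N h1 h3 x => by
    have m1 : t * a ∈ N.comap π := h1 ⟨_, φ1⟩
    have m2 : (t * t') ^ 2 ∈ N.comap π := h1 ⟨_, φ2⟩
    have m3 : a * a' ∈ N.comap π := x1 ▸ pow_mem (mul_mem m1 m2) 2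
    have m4 : a ∈ N.comap π := by
      have : (t * t') ^ 2 * a = a * a' * (t * t') ^ 2 := by
        rw [← mul_one (_ * a)]
        simp only [pow_succ, pow_zero, one_mul, mul_assoc, s1, s2, s3, s4, s5, s6, s7, s8, s9]
        simp
      have e : a = ((t * t') ^ 2)⁻¹ * (a * a') * (t * t') ^ 2 := by rw [mul_assoc, ← this]; group
      rw [e]; exact mul_mem (mul_mem (inv_mem m2) m3) m2
    have m5 : R ≤ N.comap π := hR _ m4 (by simpa using mul_mem (inv_mem m4) m3) h3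
    have m6 : t ∈ N.comap π := by simpa using mul_mem m1 (inv_mem m4)
    have m7 : t * t' ∈ N.comap π := by
      obtain ⟨j, hj⟩ := hn
      have := mul_mem (inv_mem (pow_mem m2 j)) (m5 hd)
      rwa [hj, pow_succ (t * t') (2 * j), pow_mul, inv_mul_cancel_left] at this
    have := hgen _ m5 m6 (by simpa using mul_mem (inv_mem m6) m7)
    obtain ⟨x, rfl⟩ := QuotientGroup.mk'_surjective _ x
    exact (this ▸ mem_top x : x ∈ N.comap π)
  refine ⟨fun k => ⟨(MulEquiv.ofBijective φ ⟨hφ, fun x => top _ le_rfl (by rw [k, map_one]; exact one_mem _) x⟩).symm⟩,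
    fun k => ?_⟩
  have q1 : π c * π c = 1 := by rw [← map_mul, h2 c hc, map_one]
  have zc : ∀ g, g * π c = π c * g := fun g => by
    obtain ⟨x, rfl⟩ := QuotientGroup.mk'_surjective _ g
    have : x ∈ centralizer ({c} : Set X) := by
      rw [hgen (centralizer {c}) (fun r hr => mem_centralizer_singleton_iff.2 (comm_of_sq h2 hr hc))
        (mem_centralizer_singleton_iff.2 e5) (mem_centralizer_singleton_iff.2 e6)]
      exact mem_top x
    change π x * π c = π c * π x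
    rw [← map_mul, mem_centralizer_singleton_iff.1 this, map_mul]
  have hf : ∀ a g, g * hom2 _ q1 a = hom2 _ q1 a * g := fun a g => by
    rcases hom2_cases _ q1 a with ⟨-, h⟩ | h <;> rw [h]
    · simp
    · exact zc g
  let f := φ.noncommCoprod (hom2 _ q1) fun a b => hf b _
  refine ⟨(MulEquiv.ofBijective f ⟨(injective_iff_map_eq_one _).2 ?_, fun x => top f.range ?_ ?_ x⟩).symm⟩
  · rintro ⟨σ, b⟩ h
    change φ σ * hom2 _ q1 b = 1 at h
    have h2' : φ σ = hom2 _ q1 b⁻¹ := by rw [map_inv]; exact eq_inv_of_mul_eq_one_left h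
    obtain rfl : σ = 1 := AmbS3b.S4_center σ fun τ => hφ (by rw [map_mul, map_mul, h2', hf])
    rcases hom2_cases _ q1 b with ⟨rfl, -⟩ | h'
    · rfl
    · rw [h', map_one, one_mul] at h
      exact absurd (odd_inv (h2 c hc) h) k
  · rintro _ ⟨σ, rfl⟩
    exact ⟨(σ, 1), by change φ σ * hom2 _ q1 1 = _; rw [map_one, mul_one]⟩
  · exact ⟨(1, Multiplicative.ofAdd 1), by change φ 1 * hom2 _ q1 _ = _; rw [map_one, one_mul, hom2_gen]⟩

end fin

theorem dih_odd {n : ℕ} (hn : 2 ≤ n) (h : pCore 2 (DihedralGroup n) = ⊥) : Odd n := by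
  rcases Nat.even_or_odd' n with ⟨m, rfl | rfl⟩
  · exfalso
    have mm : (m : ZMod (2 * m)) + m = 0 := by
      rw [← Nat.cast_add, ← two_mul, ZMod.natCast_self]
    have hc : ∀ g : DihedralGroup (2 * m), g * DihedralGroup.r m = DihedralGroup.r m * g := by
      rintro (i | i)
      · simp [add_comm]
      · simp only [DihedralGroup.sr_mul_r, DihedralGroup.r_mul_sr]
        rw [sub_eq_add_neg, ← eq_neg_of_add_eq_zero_left mm]
    have hN : (zpowers (DihedralGroup.r (m : ZMod (2 * m)))).Normal := by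
      rw [normal_iff_top_le]
      refine norm_of_centralizer fun g _ => ?_
      rw [centralizer_zpowers]; exact mem_centralizer_singleton_iff.2 (hc g)
    have := le_pCore hN (AmbSyl.isPGroup_zpowers (p := 2) (k := 1) (by
      rw [pow_one, pow_two, DihedralGroup.r_mul_r, mm]; rfl)) (mem_zpowers _)
    rw [h, mem_bot, DihedralGroup.one_def, DihedralGroup.r.injEq, ZMod.natCast_eq_zero_iff] at this
    have := Nat.le_of_dvd (by omega) this
    omega
  · exact ⟨m, rfl⟩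

theorem dih_two {n : ℕ} (hn : Odd n) {i : ZMod n} {k : ℕ} (h : DihedralGroup.r i ^ 2 ^ k = 1) :
    DihedralGroup.r i = 1 := by
  have h2 : DihedralGroup.r i ^ n = 1 := by rw [DihedralGroup.r_pow, ZMod.natCast_self, mul_zero]; rfl
  exact orderOf_eq_one_iff.1 (Nat.eq_one_of_dvd_coprimes ((Nat.coprime_two_left.2 hn).pow_left k)
    (orderOf_dvd_of_pow_eq_one h) (orderOf_dvd_of_pow_eq_one h2))

theorem dih_gen {n : ℕ} (hn : Odd n) (i : ZMod n) (N : Subgroup (DihedralGroup n)) (h1 : DihedralGroup.sr i ∈ N)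
    (h2 : DihedralGroup.r 1 * DihedralGroup.sr i * (DihedralGroup.r 1)⁻¹ ∈ N) : ∀ x, x ∈ N := by
  haveI : NeZero n := ⟨hn.pos.ne'⟩
  have h3 : DihedralGroup.r (2 : ZMod n) ∈ N := by
    have := N.mul_mem h2 h1
    simp only [DihedralGroup.inv_r, DihedralGroup.r_mul_sr, DihedralGroup.sr_mul_r, DihedralGroup.sr_mul_sr] at this
    convert this using 2; ring
  have h4 : DihedralGroup.r (1 : ZMod n) ∈ N := by
    obtain ⟨m, hm⟩ := hn
    have := N.pow_mem h3 (m + 1)
    rw [DihedralGroup.r_pow] at this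
    convert this using 2
    have e : ((n : ℕ) : ZMod n) = 0 := ZMod.natCast_self n
    have e2 : ((2 * m + 1 : ℕ) : ZMod n) = 0 := by rw [← hm]; exact e
    push_cast at e2 ⊢
    linear_combination -e2
  have h5 : ∀ j : ZMod n, DihedralGroup.r j ∈ N := fun j => by
    have := N.pow_mem h4 j.val
    rwa [DihedralGroup.r_one_pow, ZMod.natCast_zmod_val] at this
  rintro (j | j)
  · exact h5 j
  · have := N.mul_mem h1 (h5 (j - i))
    rwa [DihedralGroup.sr_mul_r, add_sub_cancel] at this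


/-- Let H be a subgroup of a finite group G whose largest normal 2-subgroup O_2(H) is nontrivial and such that H/O_2(H) is a dihedral group of order at least 4. Let P be a Sylow 2-subgroup of H and S a Sylow 2-subgroup of G containing P. Suppose y ∈ S lies outside P, normalizes P, has y² in the product of P with the centralizer of P in G, and normalizes no non-identity normal subgroup of H contained in P. Then P has order 4, 8 or 16, and H modulo its largest normal subgroup of odd order is isomorphic to the four-group, to the symmetric group of degree 4, or to the direct product of the symmetric group of degree 4 with a group of order 2. -/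
theorem result {G : Type*} [Group G] [Finite G]
    (H : Subgroup G) (hO : Cfsg.pCore 2 ↥H ≠ ⊥) (n : ℕ) (hn : 2 ≤ n) (hdih : Nonempty (↥H ⧸ Cfsg.pCore 2 ↥H ≃* DihedralGroup n))
    (P : Subgroup G) (hPH : P ≤ H) (hP : IsPGroup 2 P) (hPsyl : ¬ 2 ∣ P.relIndex H)
    (S : Sylow 2 G) (hPS : P ≤ (S : Subgroup G)) (y : G) (hyS : y ∈ (S : Subgroup G)) (hyP : y ∉ P)
    (hy2 : y ^ 2 ∈ P ⊔ Subgroup.centralizer (P : Set G)) (hyN : MulAut.conj y • P = P)
    (hyQ : ∀ Q : Subgroup G, Q ≤ P → (Q.subgroupOf H).Normal → MulAut.conj y • Q = Q → Q = ⊥) :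
    (Nat.card P = 4 ∨ Nat.card P = 8 ∨ Nat.card P = 16) ∧
    (Nonempty (↥H ⧸ Cfsg.oddCore ↥H ≃* Multiplicative (ZMod 2) × Multiplicative (ZMod 2)) ∨
     Nonempty (↥H ⧸ Cfsg.oddCore ↥H ≃* Equiv.Perm (Fin 4)) ∨
     Nonempty (↥H ⧸ Cfsg.oddCore ↥H ≃* Equiv.Perm (Fin 4) × Multiplicative (ZMod 2))) := by
  obtain ⟨e⟩ := hdih
  let φ : H →* DihedralGroup n := e.toMonoidHom.comp (QuotientGroup.mk' (pCore 2 H))
  have φs : Function.Surjective φ := e.surjective.comp (QuotientGroup.mk'_surjective _)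
  have φk : ∀ x : H, φ x = 1 ↔ (x : G) ∈ pCoreOf 2 H := fun x => by
    rw [mem_pCoreOf_iff, ← QuotientGroup.eq_one_iff]
    exact e.map_eq_one_iff
  have hodd : Odd n := dih_odd hn (by rw [← map_pCore_equiv e, pCore_quotient_pCore, Subgroup.map_bot])
  set R := pCoreOf 2 H with hR
  have RH : R ≤ H := pCoreOf_le 2 H
  have nR : H ≤ 𝐍 R := norm_pCoreOf 2 H
  have RP : R ≤ P := by
    have h1 : IsPGroup 2 ↥(P ⊔ R) := AmbSyl.isPGroup_sup_of_norm hP (isPGroup_pCoreOf 2 H) (hPH.trans nR)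
    obtain ⟨k, hk⟩ := (h1.index (P.subgroupOf (P ⊔ R)))
    have h2 := relIndex_mul_relIndex P (P ⊔ R) H le_sup_left (sup_le hPH RH)
    rcases k with _ | k
    · exact le_sup_right.trans (relIndex_eq_one.1 hk)
    · exact absurd (h2 ▸ Dvd.dvd.mul_right (by rw [relIndex, hk]; exact dvd_pow_self 2 k.succ_ne_zero) _) hPsyl
  have refl : ∀ x (hx : x ∈ P), x ∉ R → ∃ i, φ ⟨x, hPH hx⟩ = DihedralGroup.sr i := fun x hx hxR => by
    rcases hφ : φ ⟨x, hPH hx⟩ with i | i
    · obtain ⟨k, hk⟩ := AmbSyl.isPGroup_iff_mem.1 hP x hx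
      have : φ ⟨x, hPH hx⟩ ^ 2 ^ k = 1 := by
        rw [← map_pow, show (⟨x, hPH hx⟩ : H) ^ 2 ^ k = 1 from Subtype.ext hk, map_one]
      rw [hφ] at this
      exact absurd ((φk _).1 (hφ.trans (dih_two hodd this))) hxR
    · exact ⟨i, rfl⟩
  have PR : ¬ P ≤ R := fun k => hPsyl (by
    rw [le_antisymm k RP, hR, relIndex, subgroupOf_pCoreOf, index, Nat.card_congr e.toEquiv, DihedralGroup.nat_card]
    exact Dvd.intro _ rfl)
  obtain ⟨t0, ht0, ht0R⟩ := SetLike.not_le_iff_exists.1 PR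
  have idx : R.relIndex P = 2 := by
    refine Subgroup.index_eq_two_iff.2 ⟨⟨t0, ht0⟩, fun b => ?_⟩
    simp only [mem_subgroupOf, coe_mul]
    by_cases h : (b : G) ∈ R
    · exact Or.inr ⟨h, fun k => ht0R (by simpa using R.mul_mem (R.inv_mem h) k)⟩
    · refine Or.inl ⟨?_, h⟩
      by_contra k
      obtain ⟨i, hi⟩ := refl b b.2 h
      obtain ⟨j, hj⟩ := refl t0 ht0 ht0R
      obtain ⟨l, hl⟩ := refl _ (P.mul_mem b.2 ht0) k
      have : φ ⟨b * t0, hPH (P.mul_mem b.2 ht0)⟩ = φ ⟨b, hPH b.2⟩ * φ ⟨t0, hPH ht0⟩ := by rw [← map_mul]; rfl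
      rw [hi, hj, hl, DihedralGroup.sr_mul_sr] at this
      cases this
  obtain ⟨⟨h, hH⟩, hh⟩ := φs (DihedralGroup.r 1)
  have gen : ∀ t (ht : t ∈ P), t ∉ R → ∀ N : Subgroup H, R.subgroupOf H ≤ N → ⟨t, hPH ht⟩ ∈ N →
      (⟨h, hH⟩ : H) * ⟨t, hPH ht⟩ * (⟨h, hH⟩ : H)⁻¹ ∈ N → N = ⊤ := fun t ht htR N h1 h2 h3 => by
    obtain ⟨i, hi⟩ := refl t ht htR
    have := dih_gen hodd i (N.map φ) ⟨_, h2, hi⟩ ⟨_, h3, by rw [map_mul, map_mul, map_inv, hh, hi]⟩
    rw [eq_top_iff]
    intro x _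
    obtain ⟨x', hx', ex⟩ := this (φ x)
    have : x'⁻¹ * x ∈ N := h1 ((φk (x'⁻¹ * x)).1 (by rw [map_mul, map_inv, ex, inv_mul_cancel]))
    simpa using N.mul_mem hx' this
  have HP : H ≤ P ⊔ cj h P := fun x hx => by
    have := gen t0 ht0 ht0R ((P ⊔ cj h P).subgroupOf H) (fun r hr => mem_sup_left (RP hr)) (mem_sup_left ht0)
      (mem_sup_right (conj_mem_cj.2 ht0))
    exact (this ▸ mem_top (⟨x, hx⟩ : H) : (⟨x, hx⟩ : H) ∈ (P ⊔ cj h P).subgroupOf H)
  have dih : ∀ t (ht : t ∈ P), t ∉ R → (t * (h * t * h⁻¹)) ^ n ∈ R := fun t ht htR => by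
    obtain ⟨i, hi⟩ := refl t ht htR
    refine (φk ((⟨t, hPH ht⟩ * ((⟨h, hH⟩ : H) * ⟨t, hPH ht⟩ * (⟨h, hH⟩ : H)⁻¹)) ^ n)).1 ?_
    rw [map_pow, map_mul, map_mul, map_mul, map_inv, hh, hi]
    simp only [DihedralGroup.inv_r, DihedralGroup.r_mul_sr, DihedralGroup.sr_mul_r, DihedralGroup.sr_mul_sr,
      DihedralGroup.r_pow, ZMod.natCast_self, mul_zero]
    rfl
  rw [smul_eq_cj] at hyN
  have HY : Hyp P R h y n := ⟨hP, RP, fun k => hO (pCoreOf_eq_bot_iff.1 k), idx, hPH.trans nR, cj_eq_self (nR hH),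
    HP hH, hyN, hy2, fun Q h1 h2 h3 h4 => hyQ Q h1 (normal_subgroupOf_of_norm (HP.trans (sup_le h2 h3))) h4,
    hodd, dih⟩
  have hPP : P ⊓ cj h P = R := by
    refine le_antisymm (fun x hx => ?_) (le_inf RP HY.RP')
    by_contra k
    have : P ≤ cj h P := cover idx hx.1 k (inf_le_left.trans HY.RP') hx.2
    exact PR ((HY.N' le_rfl (norm_of_le le_rfl) (eq_of_le_cj this) hyN).le.trans bot_le)
  have c1 : cj (h * y) P = cj h P := by rw [← cj_cj, hyN]
  have hc : Nat.card P ≤ 64 := by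
    obtain ⟨t, h1, -, h2, -⟩ := S4359.result P (h * y)⁻¹ 2 Nat.prime_two
      (by rw [inv_inv, smul_eq_cj, c1, hPP]; exact normal_subgroupOf_of_norm HY.nP')
      (by rw [inv_inv, smul_eq_cj, c1, hPP]; exact HY.idx') 2 (by norm_num) _ rfl
      (fun Q k1 k2 k3 => by
        rw [smul_eq_cj, cj_eq_iff, inv_inv] at k3
        have k4 : P ≤ 𝐍 Q := (normal_subgroupOf_iff_le_normalizer k1).1 k2
        have k5 : cj h P ≤ 𝐍 Q := by have := norm_cj (g := h * y) k4; rwa [← k3, c1] at this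
        refine HY.N Q k1 k4 k5 ?_
        rw [← cj_cj, eq_comm, cj_eq_iff, cj_eq_self (inv_mem (HP.trans (sup_le k4 k5) hH))] at k3
        exact k3)
      (by
        set K := ⨆ i ∈ Finset.range (2 + 1), MulAut.conj (((h * y)⁻¹) ^ i)⁻¹ • P with hK
        have kk : ∀ i < 3, cj ((h * y) ^ i) P ≤ K := fun i hi => by
          refine le_trans ?_ (le_iSup₂ (f := fun i (_ : i ∈ Finset.range (2 + 1)) =>
            MulAut.conj (((h * y)⁻¹) ^ i)⁻¹ • P) i (Finset.mem_range.2 hi))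
          rw [smul_eq_cj, inv_pow, inv_inv]
        have k0 := kk 0 (by norm_num)
        have k1 := kk 1 (by norm_num)
        have k2 := kk 2 (by norm_num)
        rw [pow_zero, cj_one] at k0
        rw [pow_one] at k1
        rw [pow_two, ← cj_cj, c1] at k2
        have HK : H ≤ K := HP.trans (sup_le k0 (c1 ▸ k1))
        have k3 : cj y H ≤ K := by
          have : cj h (cj y H) ≤ K := by
            rw [cj_cj]
            exact (cj_mono _ HP).trans (by rw [cj_sup]; exact sup_le k1 k2)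
          rw [cj_le_iff] at this
          exact this.trans (cj_eq_self_of_mem (K.inv_mem (HK hH))).le
        rw [map_subtype_center, eq_bot_iff]
        refine le_trans (?_ : _ ≤ P ⊓ (𝐂 H ⊓ 𝐂 (cj y H))) (le_of_eq ?_)
        · exact inf_le_inf_left _ (inf_le_right.trans (le_inf (centralizer_anti HK) (centralizer_anti k3)))
        · have cH : H ≤ 𝐂 (P ⊓ (𝐂 H ⊓ 𝐂 (cj y H)) : Subgroup G) :=
            le_centralizer_iff.1 (inf_le_right.trans inf_le_left)
          refine hyQ _ inf_le_left (normal_subgroupOf_of_norm (norm_of_centralizer cH)) (eq_of_cj_le ?_)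
          rw [cj_inf, cj_inf, hyN, cj_centralizer, cj_centralizer, cj_cj, ← pow_two]
          rintro x ⟨x1, x2, x3⟩
          refine ⟨x1, ?_, x2⟩
          replace x3 : x ∈ 𝐂 (cj (y ^ 2) H) := x3
          obtain ⟨c, hc, u, hu, e⟩ := (mem_sup_of_norm' (norm_of_centralizer le_rfl : 𝐂 P ≤ 𝐍 P)).1 hy2
          rw [← e, mem_centralizer_sub.1 hu c hc, ← cj_cj, cj_eq_self_of_mem (hPH hc), ← cj_centralizer,
            mem_cj, mul_assoc, mem_centralizer_sub.1 hu x x1, inv_mul_cancel_left] at x3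
          exact x3)
    rw [h1]
    exact Nat.pow_le_pow_right (by norm_num) h2
  by_cases hM : R ⊓ cj y R = ⊥
  · obtain ⟨t, c, h1, h2, h3, h4, h5, h6, h7, h8, h9, h10⟩ := HY.case0 hM
    refine ⟨Or.inl h10, Or.inl (fin0 (R := R.subgroupOf H) (t := ⟨t, hPH h1⟩) (c := ⟨c, RH h3⟩) hodd
      (gen t h1 h2) (Subtype.ext h4) (fun k => h6 (congrArg Subtype.val k)) h3 h2 (Subtype.ext h5)
      (Subtype.ext ?_) (dih t h1 h2) (Subtype.ext h7) (Subtype.ext h8)
      fun r hr => (h9 r hr).imp Subtype.ext Subtype.ext)⟩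
    change h * t * h⁻¹ * (h * t * h⁻¹) = 1
    calc h * t * h⁻¹ * (h * t * h⁻¹) = h * (t * t) * h⁻¹ := by group
      _ = 1 := by rw [h5]; group
  · obtain ⟨t, a, a', c, h1, h2, h3, h4, h5, h6, h7, h8, h9, h10, h11, h12, h13, h14, h15, h16⟩ :=
      HY.caseA hM (HY.caseB hc hM)
    have := fin1 (R := R.subgroupOf H) (t := ⟨t, hPH h1⟩) (c := ⟨c, RH h5⟩) (a := ⟨a, RH h3⟩) (a' := ⟨a', RH h4⟩)
      hodd (gen t h1 h2) h3 h4 h5 (fun r hr => Subtype.ext (h6 r hr)) (Subtype.ext h7) (Subtype.ext (by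
        change h * t * h⁻¹ * (h * t * h⁻¹) = 1
        calc h * t * h⁻¹ * (h * t * h⁻¹) = h * (t * t) * h⁻¹ := by group
          _ = 1 := by rw [h7]; group)) (dih t h1 h2) (fun k => h8 (congrArg Subtype.val k))
      (Subtype.ext h9) (Subtype.ext h10) (Subtype.ext h11) (Subtype.ext h12) (Subtype.ext h13) (Subtype.ext h14)
      (fun N k1 k2 k3 r hr => by
        obtain ⟨s, hs, e⟩ := h15 (N.map H.subtype) ⟨_, k1, rfl⟩ ⟨_, k2, rfl⟩ ⟨_, k3, rfl⟩ hr
        rwa [← Subtype.ext e])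
    rcases h16 with ⟨k1, k2⟩ | ⟨k1, k2⟩
    · exact ⟨Or.inr (Or.inl k2), Or.inr (Or.inl (this.1 (Subtype.ext k1)))⟩
    · exact ⟨Or.inr (Or.inr k2), Or.inr (Or.inr (this.2 fun k => k1 (congrArg Subtype.val k)))⟩

end Cfsg.Agent.S4385
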