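import Cfsg.Statements.S4387
import Cfsg.Agent.Lib.Char.CharBurn

set_option autoImplicit false
open Pointwise
open Cfsg

namespace Cfsg.Agent.S4387

open Subgroup

/-- Let G be a non-trivial finite group in which any two maximal subgroups are conjugate. Then G is cyclic of prime-power order. -/
theorem result {G : Type*} [Group G] [Finite G] [Nontrivial G]
    (h : ∀ M N : Subgroup G, IsCoatom M → IsCoatom N → ∃ g : G, N = MulAut.conj g • M) :
    IsCyclic G ∧ IsPrimePow (Nat.card G) := by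
  obtain ⟨M, hM, -⟩ := (eq_top_or_exists_le_coatom (⊥ : Subgroup G)).resolve_left bot_ne_top
  have k : ∀ H : Subgroup G, H ≠ ⊤ → ∃ g : G, ∀ x ∈ H, g * x * g⁻¹ ∈ M := fun H a => by
    obtain ⟨N, hN, b⟩ := (eq_top_or_exists_le_coatom H).resolve_left a
    obtain ⟨g, rfl⟩ := h N M hN hM
    exact ⟨g, fun x hx => smul_mem_pointwise_smul _ (MulAut.conj g) _ (b hx)⟩
  constructor
  · by_contra c
    refine hM.1 (CChar.CharBurn.eq_top_of_forall_conj_mem fun g => ?_)
    obtain ⟨x, hx⟩ := k (zpowers g) fun e => c ⟨g, fun y => (eq_top_iff' _).1 e y⟩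
    exact ⟨x, hx g (mem_zpowers g)⟩
  · obtain ⟨p, hp, d⟩ := Nat.exists_prime_and_dvd (mt index_eq_one.1 hM.1)
    have := Fact.mk hp
    obtain ⟨P⟩ : Nonempty (Sylow p G) := inferInstance
    by_cases e : (P : Subgroup G) = ⊤
    · obtain ⟨n, hn⟩ := IsPGroup.iff_card.1 P.isPGroup'
      rw [e, card_top] at hn
      exact ⟨p, n, hp.prime, Nat.pos_of_ne_zero fun a => Finite.one_lt_card.ne' (by rw [hn, a, pow_zero]), hn.symm⟩
    obtain ⟨g, hg⟩ := k P e
    refine absurd (d.trans (index_dvd_of_le (H := (g • P : Sylow p G)) ?_)) (g • P).not_dvd_index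
    rintro _ ⟨x, hx, rfl⟩
    exact hg x hx

end Cfsg.Agent.S4387
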