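import Cfsg.Statements.S4396
import Cfsg.Agent.Lib.Lin.H2Free
import Cfsg.Agent.Lib.Grp.H10Dl
import Cfsg.Agent.Lib.Odd.BGMisc

set_option autoImplicit false
open Cfsg

namespace Cfsg.Agent.S4396

open Subgroup CA.BG CA.OQuo CA.H2Free Pointwise in

/-- Let the finite group A act faithfully and linearly on a finite-dimensional vector space V over a field k, and suppose A is a Frobenius group with nilpotent kernel F (every Frobenius kernel is nilpotent) and complement H such that F fixes no nonzero vector. Then V is free as a module for H: there is a subspace W with V the direct sum of the translates hW, h ∈ H. (No assumption on the characteristic of k.) -/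
theorem result {k V A : Type*} [Field k] [AddCommGroup V] [Module k V] [FiniteDimensional k V] [Group A] [Finite A] [DecidableEq A]
    (ρ : Representation k A V) (hρ : Function.Injective ρ)
    (Fk Hc : Subgroup A) [Fk.Normal] (hHc : Cfsg.IsFrobeniusComplement Hc) (hker : Cfsg.frobeniusKernel Hc = (Fk : Set A)) (hnil : Group.IsNilpotent ↥Fk)
    (hCF : ∀ v : V, (∀ f ∈ Fk, ρ f v = v) → v = 0) :
    ∃ W : Submodule k V, DirectSum.IsInternal (fun h : ↥Hc => W.map (ρ (h : A))) := by
  classical
  haveI := Fintype.ofFinite Hc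
  have hf : ∀ h ∈ Hc, h ≠ 1 → ∀ z ∈ Fk, h * z * h⁻¹ = z → z = 1 := by
    intro h hh h1 z hz e
    have hz' : z ∈ Cfsg.frobeniusKernel Hc := hker ▸ hz
    refine hz'.resolve_right fun h2 => ?_
    by_cases h3 : z ∈ Hc
    · exact h2 1 (by simpa using h3)
    · refine h1 (mem_bot.1 (hHc.2.2 z h3 ▸ mem_inf.2 ⟨hh, CA.Coprime.mem_conj_smul_iff.2 ?_⟩))
      have : z⁻¹ * h * z = h := by
        rw [mul_assoc, mul_inv_eq_iff_eq_mul.1 e, inv_mul_cancel_left]
      rwa [this]
  have hs : Group.IsSolvable Fk := inferInstance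
  obtain ⟨p, hp⟩ := CharP.exists k
  rcases CharP.char_is_prime_or_zero k p with hpp | rfl
  · haveI := Fact.mk hpp
    have hd := nil_dprod_core {p} hnil
    set F := 𝓞({p}ᶜ, Fk)
    haveI hF : F.Normal := normalizer_eq_top_iff.1 (top_le_iff.1
      ((normalizer_eq_top Fk).ge.trans (norm_le_norm_core _ _)))
    have hFle : F ≤ Fk := core_le _ _
    refine (main_aux (F := F) (CA.Coprime.isSolvable_of_le hFle) ?_
      (fun h hh h1 z hz => hf h hh h1 z (hFle hz)) _ ρ (Nat.lt_succ_self _) ?_).isInternal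
    · rw [Ne, CharP.cast_eq_zero_iff k p]
      exact (isPi_compl_iff hpp).1 (core_pi _ _)
    · let U : Submodule k V := ⨅ f : F, LinearMap.eqLocus (ρ f) LinearMap.id
      have hU : ∀ u, u ∈ U ↔ ∀ f ∈ F, ρ f u = u := fun u => by simp [U]
      have iU : ∀ g, U ≤ U.comap (ρ g) := fun g u hu => (hU _).2 fun f hf => by
        have := (hU u).1 hu (g⁻¹ * f * g) (by simpa using hF.conj_mem f hf g⁻¹)
        rw [← Module.End.mul_apply, ← map_mul, show f * g = g * (g⁻¹ * f * g) by group, map_mul,
          Module.End.mul_apply, this]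
      intro v hv
      by_contra hne
      haveI : Nontrivial U := ⟨⟨⟨v, (hU v).2 hv⟩, 0, fun e => hne (congrArg Subtype.val e)⟩⟩
      obtain ⟨w, hw, h1⟩ := CA.H10Dl.exists_fixed ((core_pi {p} Fk).isPGroup hpp)
        ((ρ.subrepresentation U iU).comp (𝓞({p}, Fk)).subtype)
      refine hw (Subtype.ext (hCF w fun f hf => ?_))
      obtain ⟨a, ha, b, hb, rfl⟩ := (mem_sup_norm (norm_of_cent hd.cent')).1 (hd.sup.ge hf)
      rw [map_mul, Module.End.mul_apply, (hU _).1 w.2 b hb]
      exact congrArg Subtype.val (h1 ⟨a, ha⟩)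
  · haveI := CharP.charP_to_charZero k
    exact (main_aux (F := Fk) hs (Nat.cast_ne_zero.2 Nat.card_pos.ne') hf _ ρ
      (Nat.lt_succ_self _) hCF).isInternal

end Cfsg.Agent.S4396
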