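import Cfsg.Statements.S4398
import Cfsg.Agent.Lib.Grp.H7SR
import Cfsg.Agent.Lib.Grp.H7Max
import Cfsg.Agent.Lib.Grp.NPC2

set_option autoImplicit false
open Cfsg

namespace Cfsg.Agent.S4398

open Subgroup CA.H7SR CA.H7Max CA.PGFrattini
open scoped commutatorElement

theorem core {S : Type*} [Group S] [Finite S] (h2 : IsPGroup 2 S) {a b x y : S} {r : ℤ}
    (h1 : closure {a, b} = ⊤) (h3 : b * a * b⁻¹ = a ^ r) [(zpowers a).Normal]
    (hb : ∀ y : S, ∃ i : ℤ, (b ^ i)⁻¹ * y ∈ zpowers a) (hx : x ∈ zpowers a) (hx4 : x ^ 4 = 1)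
    (hy : y ^ 2 ∈ commutator S) (hn : ¬ Commute x y) (g : S) : g ^ 2 ∈ commutator S := by
  obtain ⟨i, j, hj⟩ := hb y
  have hx4' : x ^ (4 : ℤ) = 1 := by rw [zpow_ofNat, hx4]
  have e0 : ∀ m : ℤ, x ^ (4 * m) = 1 := fun m => by rw [zpow_mul, hx4', one_zpow]
  have h4 : b * x * b⁻¹ = x ^ r := by
    obtain ⟨s, rfl⟩ := hx
    rw [← conj_zpow, h3, ← zpow_mul, ← zpow_mul, mul_comm]
  have h4' : b ^ 2 * x * (b ^ 2)⁻¹ = x ^ (r * r) := by
    rw [zpow_mul, ← h4, conj_zpow, ← h4, sq]; group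
  have hxa : Commute x a := by obtain ⟨s, rfl⟩ := hx; exact Commute.zpow_self a s
  have hy' : y = b ^ i * a ^ j := by simp only at hj; rw [hj]; group
  have hx1 : x ≠ 1 := fun e => hn (e ▸ Commute.one_left y)
  have h5 : ¬ Commute x (b ^ i) := fun e => hn (hy' ▸ e.mul_right (hxa.zpow_right j))
  obtain ⟨m, hm⟩ : ∃ m : ℤ, r = 4 * m + 3 := by
    obtain hr | hr | hr : r % 2 = 0 ∨ r % 4 = 1 ∨ r % 4 = 3 := by omega
    · obtain ⟨m, rfl⟩ : ∃ m, r = 2 * m := ⟨r / 2, by omega⟩
      rw [show 2 * m * (2 * m) = 4 * (m * m) by ring, e0, conj_eq_one_iff] at h4'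
      exact absurd h4' hx1
    · obtain ⟨m, rfl⟩ : ∃ m, r = 4 * m + 1 := ⟨r / 4, by omega⟩
      rw [zpow_add, e0, one_mul, zpow_one, mul_inv_eq_iff_eq_mul] at h4
      exact absurd (Commute.zpow_right h4.symm i) h5
    · exact ⟨r / 4, by omega⟩
  subst hm
  obtain ⟨n, rfl⟩ : ∃ n : ℤ, i = 2 * n + 1 := by
    refine (Int.even_or_odd' i).elim fun n hn => ⟨n, hn.resolve_left fun e => h5 ?_⟩
    rw [show (4 * m + 3) * (4 * m + 3) = 4 * (4 * m * m + 6 * m + 2) + 1 by ring, zpow_add, e0,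
      one_mul, zpow_one, mul_inv_eq_iff_eq_mul] at h4'
    rw [e, zpow_mul, zpow_ofNat]
    exact Commute.zpow_right h4'.symm n
  have hA : IsPGroup 2 (Abelianization S) := h2.to_quotient _
  have odd : ∀ (t : Abelianization S) (k : ℤ), (t ^ 2) ^ (2 * k + 1) = 1 → t ^ 2 = 1 := by
    intro t k e
    obtain ⟨l, hl⟩ := hA (t ^ 2)
    have h6 : (t ^ 2) ^ (2 * k + 1).natAbs = 1 := by
      rcases Int.natAbs_eq (2 * k + 1) with e' | e'
      · rwa [e', zpow_natCast] at e
      · rwa [e', zpow_neg, zpow_natCast, inv_eq_one] at e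
    exact (pow_eq_one_iff_of_coprime ((Nat.coprime_two_left.2
      (Int.natAbs_odd.2 (odd_two_mul_add_one k))).pow_left l)).1 ⟨hl, h6⟩
  have ha : Abelianization.of a ^ 2 = 1 := odd _ m (by
    have := congrArg Abelianization.of h3
    rw [map_mul, map_mul, map_inv, mul_inv_cancel_comm, map_zpow] at this
    rw [← zpow_ofNat, ← zpow_mul, show 2 * (2 * m + 1) = 4 * m + 3 - 1 by ring, zpow_sub_one, ← this,
      mul_inv_cancel])
  have hb2 : Abelianization.of b ^ 2 = 1 := odd _ n (by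
    have : Abelianization.of y ^ 2 = 1 := by
      rw [← map_pow, ← MonoidHom.mem_ker, Abelianization.ker_of]; exact hy
    rw [hy', map_mul, map_zpow, map_zpow, mul_pow, ← zpow_natCast, ← zpow_natCast, ← zpow_mul,
      ← zpow_mul, mul_comm j, zpow_mul _ _ j, zpow_natCast, ha, one_zpow, mul_one, mul_comm,
      zpow_mul, zpow_natCast] at this
    exact this)
  have h7 : closure {a, b} ≤ ((powMonoidHom 2).comp (Abelianization.of (G := S))).ker := by
    rw [closure_le]
    rintro t (rfl | rfl)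
    exacts [ha, hb2]
  rw [← Abelianization.ker_of, MonoidHom.mem_ker, map_pow]
  exact h7 (h1 ▸ mem_top g)

theorem main {S : Type*} [Group S] [Finite S] (h2 : IsPGroup 2 S) (hr : SR 2 S) {D : Type} [Group D]
    (f : D →* S) (hf : Function.Injective f) (h4 : ∀ g : D, g ^ 4 = 1)
    (hs : ∀ g : D, ∃ u v : D, g ^ 2 = u * v * u⁻¹ * v⁻¹) (hn : ∃ g h : D, g * h ≠ h * g) :
    (commutator S).index = 4 ∧ ¬ IsMulCommutative S := by
  haveI : Fact (Nat.Prime 2) := ⟨Nat.prime_two⟩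
  obtain ⟨g, h, hn⟩ := hn
  have hn' : ¬ Commute (f g) (f h) := fun e => hn (hf (by rw [map_mul, map_mul, e.eq]))
  have hc : ¬ IsMulCommutative S := fun e => hn' (e.1.1 _ _)
  refine ⟨?_, hc⟩
  obtain ⟨N, hN, hc1, hc2⟩ := metacyclic h2 hr
  obtain ⟨a, rfl⟩ := (Subgroup.isCyclic_iff_exists_zpowers_eq_top N).1 hc1
  obtain ⟨b', hb'⟩ := _root_.isCyclic_iff_exists_zpowers_eq_top.1 hc2
  obtain ⟨b, rfl⟩ := QuotientGroup.mk_surjective b'
  have hb : ∀ y : S, ∃ i : ℤ, (b ^ i)⁻¹ * y ∈ zpowers a := fun y => by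
    obtain ⟨i, hi⟩ : (y : S ⧸ zpowers a) ∈ zpowers (b : S ⧸ zpowers a) := hb' ▸ mem_top _
    exact ⟨i, QuotientGroup.eq.1 ((QuotientGroup.mk_zpow _ b i).trans hi)⟩
  have h1 : closure {a, b} = ⊤ := eq_top_iff.2 fun y _ => by
    obtain ⟨i, hi⟩ := hb y
    rw [← mul_inv_cancel_left (b ^ i) y]
    exact mul_mem (zpow_mem (subset_closure (by simp)) _) (zpowers_le.2 (subset_closure (by simp)) hi)
  obtain ⟨r, h3⟩ := hN.conj_mem a (mem_zpowers a) b
  have e4 : ∀ g : D, f g ^ 4 = 1 := fun g => by rw [← map_pow, h4, map_one]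
  have e2 : ∀ g : D, f g ^ 2 ∈ commutator S := fun g => by
    obtain ⟨u, v, e⟩ := hs g
    rw [← map_pow, e]
    simpa [commutatorElement_def, _root_.commutator] using commutator_mem_commutator (mem_top (f u)) (mem_top (f v))
  have hle : commutator S ≤ zpowers a := by
    letI := hc2.commGroup
    exact Abelianization.commutator_subset_ker (QuotientGroup.mk' (zpowers a)) |>.trans
      (QuotientGroup.ker_mk' _).le
  have e3 : ∀ g : D, f g ∉ zpowers a → orderOf (f g : S ⧸ zpowers a) = 2 := fun g e =>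
    orderOf_eq_prime (by rw [← QuotientGroup.mk_pow, QuotientGroup.eq_one_iff]; exact hle (e2 g))
      (by rwa [Ne, QuotientGroup.eq_one_iff])
  have key : ∀ t : S, t ^ 2 ∈ commutator S := by
    by_cases hg : f g ∈ zpowers a
    · exact core h2 h1 h3.symm hb hg (e4 g) (e2 h) hn'
    by_cases hh : f h ∈ zpowers a
    · exact core h2 h1 h3.symm hb hh (e4 h) (e2 g) fun e => hn' e.symm
    have h5 := CA.NPC2.eq_of_card_eq_of_isCyclic (P := ⊤) (A := zpowers (f g : S ⧸ zpowers a))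
      (B := zpowers (f h : S ⧸ zpowers a)) inferInstance le_top le_top
      (by rw [Nat.card_zpowers, Nat.card_zpowers, e3 g hg, e3 h hh])
    have h6 := (mem_zpowers_two (e3 h hh ▸ pow_orderOf_eq_one _) (h5 ▸ mem_zpowers _)).resolve_left
      (by rwa [QuotientGroup.eq_one_iff])
    refine core h2 h1 h3.symm hb (x := f (g⁻¹ * h)) (y := f g)
      (by rw [map_mul, map_inv]; exact QuotientGroup.eq.1 h6) (e4 _) (e2 g) fun e => hn' ?_
    have := (Commute.refl (f g)).mul_left e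
    rw [← map_mul, mul_inv_cancel_left] at this
    exact this.symm
  have h5 := hr ⊤ (commutator S) le_top fun x _ => key x
  rw [relIndex_top_right] at h5
  have h6 := sq_dvd_index_commutator h2 fun e => hc (by letI := e.commGroup; infer_instance)
  have h7 : (commutator S).index ≠ 0 := index_ne_zero_of_finite
  omega

/-- Let S be a finite 2-group of sectional 2-rank at most 2 that contains a subgroup isomorphic to the dihedral group of order 8 or to the quaternion group of order 8. Then S is dihedral of order at least 8, semidihedral of order at least 16 (order 2^(k+4) with an element a of order 2^(k+3) and an involution b with b a b⁻¹ = a^(2^(k+2)−1)), or generalized quaternion of order at least 8. -/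
theorem result {S : Type*} [Group S] [Finite S] (h2 : IsPGroup 2 S) (hr : Cfsg.SectionalPRankLE 2 2 S)
    (hsub : ∃ H : Subgroup S, Nonempty (↥H ≃* DihedralGroup 4) ∨ Nonempty (↥H ≃* QuaternionGroup 2)) :
    ((∃ k : ℕ, Nonempty (S ≃* DihedralGroup (2 ^ (k + 2)))) ∨
      (∃ k : ℕ, Nat.card S = 2 ^ (k + 4) ∧ ∃ a b : S, orderOf a = 2 ^ (k + 3) ∧ orderOf b = 2 ∧ b * a * b⁻¹ = a ^ (2 ^ (k + 2) - 1)) ∨
      (∃ k : ℕ, Nonempty (S ≃* QuaternionGroup (2 ^ (k + 1))))) := by
  obtain ⟨h1, e⟩ : (commutator S).index = 4 ∧ ¬ IsMulCommutative S := by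
    obtain ⟨H, ⟨⟨e⟩⟩ | ⟨⟨e⟩⟩⟩ := hsub
    · exact main h2 (sr_of hr) (H.subtype.comp e.symm.toMonoidHom)
        (H.subtype_injective.comp e.symm.injective) (by decide) (by decide) (by decide)
    · exact main h2 (sr_of hr) (H.subtype.comp e.symm.toMonoidHom)
        (H.subtype_injective.comp e.symm.injective) (by decide) (by decide) (by decide)
  obtain ⟨m, a, y, h3, h4⟩ := taussky h2 h1 e
  exact h3.list h4

end Cfsg.Agent.S4398
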