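import Cfsg.Statements.S4402
import Cfsg.Agent.Lib.Odd.BGMisc
import Cfsg.Agent.Lib.Odd.BG4x1
import Cfsg.Agent.Lib.Grp.H7SR

set_option autoImplicit false
open Cfsg

namespace Cfsg.Agent.S4402

open CA Subgroup CA.BG CA.BG4 CA.H7SR DihedralGroup
open scoped commutatorElement

/-- the wreath product of `D₈` by `C₂` -/
def W : Type := Bool × DihedralGroup 4 × DihedralGroup 4

instance : DecidableEq W := inferInstanceAs (DecidableEq (Bool × _ × _))
instance : Fintype W := inferInstanceAs (Fintype (Bool × _ × _))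

instance : Group W where
  mul x y := (xor x.1 y.1, x.2 * if x.1 then y.2.swap else y.2)
  one := (false, 1)
  inv x := (x.1, if x.1 then x.2⁻¹.swap else x.2⁻¹)
  mul_assoc := by
    rintro ⟨_ | _, a⟩ ⟨_ | _, b⟩ ⟨_ | _, c⟩ <;> exact Prod.ext rfl (mul_assoc _ _ _)
  one_mul := by decide +kernel
  mul_one := by decide +kernel
  inv_mul_cancel := by decide +kernel

/-- the square -/
def act : DihedralGroup 4 → ZMod 4 → ZMod 4
  | r i, x => x + i
  | sr i, x => -x - i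

theorem act_mul : ∀ g h x, act (g * h) x = act g (act h x) := by decide +kernel

instance : MulAction W (Bool × ZMod 4) where
  smul g x := (xor g.1 x.1, act (if xor g.1 x.1 then g.2.2 else g.2.1) x.2)
  one_smul := by rintro ⟨_ | _, x⟩ <;> exact Prod.ext rfl (add_zero x)
  mul_smul := by
    rintro ⟨_ | _, a⟩ ⟨_ | _, b⟩ ⟨_ | _, c⟩ <;> exact Prod.ext rfl (act_mul _ _ _)

/-- central involution -/
def z : W := (false, r 2, r 2)
/-- the swap -/
def τ : W := (true, 1)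
/-- a class of length eight -/
abbrev XB (x : W) : Prop := x.1 = true ∧ x.2.1 * x.2.2 = r 2
/-- the extraspecial subgroup -/
def Q : Subgroup W where
  carrier := {x | x.2.1 * x.2.2 = 1 ∨ x.2.1 * x.2.2 = r 2}
  mul_mem' := fun {a b} => by revert a b; simp only [Set.mem_ofPred_eq]; decide +kernel
  one_mem' := Or.inl rfl
  inv_mem' := fun {a} => by revert a; simp only [Set.mem_ofPred_eq]; decide +kernel
instance : DecidablePred (· ∈ Q) := fun _ => inferInstanceAs (Decidable (_ ∨ _))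
/-- orientation -/
def o (x : W) : Bool := x.2.1 ∈ [r 0, r 1, sr 0, sr 1]
/-- noncentral involution -/
abbrev T (w : W) : Prop := w ≠ 1 ∧ w ≠ z ∧ w * w = 1
/-- small set -/
abbrev L : List W := [1, z, (false, r 2, 1), (false, 1, r 2)]

theorem d1 : ∀ g : W, (∀ x : Bool × ZMod 4, g • x = x) → g = 1 := by decide +kernel
theorem d2 : ∀ g : W, (∀ x, x * g = g * x) ↔ g = 1 ∨ g = z := by decide +kernel
theorem d3 : ∀ x : W, XB x ↔ x * x = z ∧ ∃ y : W, ⁅x, y⁆ * ⁅x, y⁆ ≠ 1 := by decide +kernel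
theorem d4 : Fintype.card Q = 32 ∧ Fintype.card {x // XB x} = 8 ∧ Fintype.card W = 128 ∧
    Fintype.card {x // x ∈ L} = 4 ∧ z ≠ 1 ∧ z ^ 2 = 1 ∧ z ∈ Q := by decide +kernel
theorem d5 : ∀ x ∈ Q, x ^ 2 = 1 ∨ x ^ 2 = z := by decide +kernel
theorem d6 : ∀ x ∈ Q, (∀ y ∈ Q, y * x = x * y) → x = 1 ∨ x = z := by decide +kernel
theorem d7 : ∀ x ∈ Q, XB x ∨ (∃ y, XB y ∧ XB (y⁻¹ * x)) ∨ ∃ y, XB y ∧ ∃ w, XB w ∧
    (XB (w⁻¹ * (y⁻¹ * x)) ∨ ∃ u, XB u ∧ XB (u⁻¹ * (w⁻¹ * (y⁻¹ * x)))) := by decide +kernel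
theorem d8 : ∀ v : W, v * v = 1 → (∃ g ∈ ([τ, (false, r 1, 1)] : List W), ⁅v, g⁆ * ⁅v, g⁆ ≠ 1) ∨
    v ∈ L ∨ ∃ w ∈ [v, ⁅v, τ⁆], ∃ x, XB x ∧ ∃ y, XB y ∧ w = x * y ∧ T w := by decide +kernel
set_option synthInstance.maxSize 2000 in
theorem e1 : ∀ x, XB x → ∀ y, XB y → x * y ≠ y * x → ∀ y', XB y' → x * y' ≠ y' * x →
    o y = o y' → y = y' := by decide +kernel
theorem e2 : ∀ x, XB x → ∀ y, XB y → T (x * y) → ∀ y', XB y' → T (x * y') →
    x * y * (x * y') * (x * y * (x * y')) = 1 → o y = o y' → y = y' := by decide +kernel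
theorem e3 : ∀ x, XB x → ∀ y, XB y → T (x * y) → ∃ a, XB a ∧ x * a ≠ a * x ∧ ∃ b, XB b ∧
    y * b ≠ b * y ∧ ∀ w, XB w → ∃ u ∈ [x, y, a, b], w = u ∨ w = u⁻¹ := by decide +kernel

theorem az (β : W ≃* W) : β z = z := ((d2 _).1 fun x => by
    obtain ⟨x, rfl⟩ := β.surjective x
    rw [← map_mul, ← map_mul, (d2 z).2 (Or.inr rfl)]).resolve_left
  fun h => d4.2.2.2.2.1 ((map_eq_one_iff _ β.injective).1 h)

theorem ax (β : W ≃* W) {x : W} (h : XB x) : XB (β x) := by
  obtain ⟨h1, y, h2⟩ := (d3 x).1 h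
  exact (d3 _).2 ⟨by rw [← map_mul, h1, az], β y, by
    rwa [← map_commutatorElement, ← map_mul, Ne, map_eq_one_iff _ β.injective]⟩

theorem aT (β : W ≃* W) {x y : W} (h : T (x * y)) : T (β x * β y) := by
  rw [← map_mul]
  exact ⟨β.map_ne_one_iff.2 h.1, fun c => h.2.1 (β.injective (c.trans (az β).symm)),
    by rw [← map_mul, h.2.2, map_one]⟩

theorem an (β : W ≃* W) {x y : W} (h : x * y ≠ y * x) : β x * β y ≠ β y * β x := by
  rwa [← map_mul, ← map_mul, β.injective.ne_iff]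

/-- the class as an invariant set -/
def XS : SubMulAction (MulAut W) W := ⟨{x | XB x}, fun β _ h => ax β h⟩

theorem cX : Nat.card XS = 8 := (Nat.card_eq_fintype_card (α := {x // XB x})).trans d4.2.1

theorem E (V : Subgroup W) [hV : V.Normal] (h2 : ∀ v ∈ V, v * v = 1) (h16 : Nat.card V = 16) :
    ∃ g : MulAut W → XS × Bool × Bool × Bool, ∀ β γ, (∀ v ∈ V, β v ∈ V) → (∀ v ∈ V, γ v ∈ V) →
      g β = g γ → ∀ w, XB w → β w = γ w := by
  classical
  have cm : ∀ v ∈ V, ∀ g, ⁅v, g⁆ ∈ V := fun v hv g => by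
    simpa [commutatorElement_def, mul_assoc] using mul_mem hv (hV.conj_mem _ (inv_mem hv) g)
  obtain ⟨x, hx, y, hy, m, t⟩ : ∃ x, XB x ∧ ∃ y, XB y ∧ x * y ∈ V ∧ T (x * y) := by
    by_contra c
    have := Fintype.card_subtype_mono (· ∈ V) (· ∈ L) fun v hv => by
      rcases d8 v (h2 v hv) with ⟨g, -, h⟩ | h | ⟨w, hw, x, hx, y, hy, rfl, h⟩
      · exact (h (h2 _ (cm v hv g))).elim
      · exact h
      refine (c ⟨x, hx, y, hy, ?_, h⟩).elim
      rcases List.mem_pair.1 hw with e | e <;> rw [e]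
      exacts [hv, cm v hv _]
    rw [← Nat.card_eq_fintype_card, ← Nat.card_eq_fintype_card, Nat.card_eq_fintype_card (α := {x // x ∈ L}),
      d4.2.2.2.1] at this
    omega
  obtain ⟨a, ha, a1, b, hb, b1, h⟩ := e3 x hx y hy t
  refine ⟨fun β => (⟨β x, ax β hx⟩, o (β a), o (β y), o (β b)), fun β γ h1 h3 e w hw => ?_⟩
  simp only [Prod.mk.injEq] at e
  obtain ⟨ex, ea, ey, eb⟩ := e
  replace ex : β x = γ x := congrArg Subtype.val ex
  have ea := e1 _ (ax β hx) _ (ax β ha) (an β a1) _ (ax γ ha) (ex ▸ an γ a1) ea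
  have ey := e2 _ (ax β hx) _ (ax β hy) (aT β t) _ (ax γ hy) (ex ▸ aT γ t) (h2 _ (mul_mem
    (map_mul β x y ▸ h1 _ m) (ex ▸ map_mul γ x y ▸ h3 _ m))) ey
  have eb := e1 _ (ax β hy) _ (ax β hb) (an β b1) _ (ax γ hb) (ey ▸ an γ b1) eb
  obtain ⟨u, hu, e⟩ := h w hw
  have : β u = γ u := by
    simp only [List.mem_cons, List.not_mem_nil, or_false] at hu
    rcases hu with rfl | rfl | rfl | rfl <;> assumption
  rcases e with rfl | rfl
  · exact this
  · rw [map_inv, map_inv, this]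

theorem emb {D X : Type*} [Group D] [Finite D] [Finite X] (hX : Nat.card X = 8)
    (ψ : D →* Equiv.Perm X) (hψ : Function.Injective ψ) (h2 : IsPGroup 2 D) : Nat.card D ≤ 128 ∧
      (128 ≤ Nat.card D → ∀ T : Sylow 2 (Equiv.Perm (Fin 8)), Nonempty (D ≃* T)) := by
  let φ := (Finite.equivFinOfCardEq hX).permCongrHom.toMonoidHom.comp ψ
  have hφ : Function.Injective φ := (Equiv.permCongrHom _).injective.comp hψ
  obtain ⟨T, hT⟩ := (h2.of_surjective _ φ.rangeRestrict_surjective).exists_le_sylow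
  have c : Nat.card T = 128 := by
    rw [T.card_eq_multiplicity, Nat.card_perm, Nat.card_eq_fintype_card, Fintype.card_fin,
      show Nat.factorial 8 = 2 ^ 7 * 315 from rfl, Nat.factorization_mul (by norm_num) (by norm_num)]
    rw [Finsupp.add_apply, Nat.prime_two.factorization_pow, Finsupp.single_eq_same,
      Nat.factorization_eq_zero_of_not_dvd (by norm_num)]
    rfl
  have e := Nat.card_congr (φ.ofInjective hφ).toEquiv
  exact ⟨e ▸ c ▸ card_le_of_le hT, fun h T' => ⟨(φ.ofInjective hφ).trans ((MulEquiv.subgroupCongr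
    (eq_of_le_of_card_ge hT (c.trans_le (h.trans_eq e)))).trans (T.equiv T'))⟩⟩

theorem cen {S : Type*} [Group S] [Finite S] (h2 : IsPi {2} (⊤ : Subgroup S)) (hr : SR 4 S)
    {f : W →* S} (hf : Function.Injective f) {c : S} (h : ∀ x, XB x → c * f x = f x * c) :
    c ∈ zpowers (f z) := by
  have k : ∀ x, XB x → x ∈ 𝓒₁(c).comap f := fun x hx => mem_cent1.2 (h x hx).symm
  have m : ∀ {y x}, XB y → y⁻¹ * x ∈ 𝓒₁(c).comap f → x ∈ 𝓒₁(c).comap f := fun hy hx =>
    (mul_mem_cancel_left (inv_mem (k _ hy))).1 hx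
  have hc : c ∈ 𝓒(Q.map f) := mem_cent.2 (by
    rintro _ ⟨x, hx, rfl⟩
    refine mem_cent1.1 (show x ∈ 𝓒₁(c).comap f from ?_)
    rcases d7 x hx with h | ⟨y, hy, h⟩ | ⟨y, hy, w, hw, h | ⟨u, hu, h⟩⟩
    exacts [k _ h, m hy (k _ h), m hy (m hw (k _ h)), m hy (m hw (m hu (k _ h)))])
  have l : zpowers (f z) ≤ Q.map f := zpowers_le.2 (mem_map_of_mem _ d4.2.2.2.2.2.2)
  have z2 : f z ^ 2 = 1 := by rw [← map_pow, d4.2.2.2.2.2.1, map_one]
  have mz : ∀ x, x = 1 ∨ x = z → f x ∈ zpowers (f z) := by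
    rintro _ (rfl | rfl)
    exacts [map_one f ▸ one_mem _, mem_zpowers _]
  by_contra c1
  obtain ⟨d, hd, d2, d3, -⟩ := CA.BG4.layer Nat.prime_two h2 (P := ⊥) bot_le le_top bot_le
    (norm_of_cent (cent_anti l)) fun e => c1 (e hc)
  have n : d ∈ 𝓝(Q.map f) := cent_le_norm _ hd
  have c64 := card_sup_zpowers Nat.prime_two n (by
    rintro ⟨x, hx, rfl⟩
    exact d2 (mz x (d6 x hx fun y hy => hf (by
      rw [map_mul, map_mul]; exact mem_cent.1 hd _ (mem_map_of_mem _ hy))))) (l d3)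
  have := hr (Q.map f ⊔ zpowers d) _ (l.trans le_sup_left) fun x hx => by
    obtain ⟨_, ⟨q, hq, rfl⟩, _, ⟨j, rfl⟩, rfl⟩ := (mem_sup_norm' (zpowers_le.2 n)).1 hx
    rw [(show Commute (f q) (d ^ j) from mem_cent.1 (zpow_mem hd j) _ (mem_map_of_mem _ hq)).mul_pow,
      ← map_pow, ← zpow_natCast (d ^ j), ← zpow_mul, mul_comm j, zpow_mul, zpow_natCast]
    exact mul_mem (mz _ (d5 q hq)) (zpow_mem d3 j)
  have c := card_mul_relIndex (l.trans (le_sup_left (b := zpowers d)))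
  rw [c64, card_map_of_injective hf, Nat.card_eq_fintype_card (α := Q), d4.1, card_zpowers_of_pow
    Nat.prime_two ((map_ne_one_iff _ hf).2 d4.2.2.2.2.1) z2] at c
  omega

/-- Let S be a finite 2-group of sectional 2-rank at most 4 and P a proper subgroup isomorphic to the wreath product of the dihedral group of order 8 by a group of order 2 (equivalently, to a Sylow 2-subgroup of the symmetric group of degree 8; order 128). Then Z(S) = Z(P) has order 2, P has index 2 in its normalizer N_S(P), N_S(P)/Z(S) is again isomorphic to that wreath product, and every elementary abelian subgroup V of order 16 that is normal in P satisfies N_S(V) = P. -/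
theorem result {S : Type*} [Group S] [Finite S] (h2 : IsPGroup 2 S) (hr : Cfsg.SectionalPRankLE 2 4 S)
    (P : Subgroup S) (hPlt : P ≠ ⊤) (hP : ∃ T : Sylow 2 (Equiv.Perm (Fin 8)), Nonempty (↥P ≃* ↥(T : Subgroup (Equiv.Perm (Fin 8))))) :
    Subgroup.center S = (Subgroup.center ↥P).map P.subtype ∧ Nat.card ↥(Subgroup.center S) = 2 ∧
    P.relIndex (Subgroup.normalizer (P : Set S)) = 2 ∧
    (∃ (_ : ((Subgroup.center S).subgroupOf (Subgroup.normalizer (P : Set S))).Normal) (T : Sylow 2 (Equiv.Perm (Fin 8))),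
      Nonempty (↥(Subgroup.normalizer (P : Set S)) ⧸ (Subgroup.center S).subgroupOf (Subgroup.normalizer (P : Set S)) ≃*
        ↥(T : Subgroup (Equiv.Perm (Fin 8))))) ∧
    ∀ V : Subgroup S, V ≤ P → (∀ g ∈ P, ∀ v ∈ V, g * v * g⁻¹ ∈ V) → Cfsg.IsElementaryAbelian 2 V → Nat.card ↥V = 16 →
      Subgroup.normalizer (V : Set S) = P := by
  obtain ⟨T, ⟨e0⟩⟩ := hP
  have cW : Nat.card W = 128 := Nat.card_eq_fintype_card.trans d4.2.2.1
  obtain ⟨e1⟩ := (emb (X := Bool × ZMod 4) (by simp) (MulAction.toPermHom W _)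
    ((injective_iff_map_eq_one _).2 fun g h => d1 g fun x => Equiv.congr_fun h x)
    (IsPGroup.of_card (n := 7) cW)).2 cW.ge T
  have e := e1.trans e0.symm
  let f : W →* S := P.subtype.comp e.toMonoidHom
  have hf : Function.Injective f := P.subtype_injective.comp e.injective
  have mP : ∀ x, f x ∈ P := fun x => (e x).2
  have sP : ∀ x ∈ P, ∃ w, f w = x := fun x hx => ⟨e.symm ⟨x, hx⟩, by simp [f]⟩
  have pS : IsPi {2} (⊤ : Subgroup S) := isPi_of_isPGroup Nat.prime_two (h2.to_subgroup _)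
  have C := fun c => cen pS (sr_of hr) hf (c := c)
  have cz : ♯(zpowers (f z)) = 2 := card_zpowers_of_pow Nat.prime_two
    ((map_ne_one_iff _ hf).2 d4.2.2.2.2.1) (by rw [← map_pow, d4.2.2.2.2.2.1, map_one])
  have l : center S ≤ zpowers (f z) := fun c hc => C c fun x _ => (mem_center_iff.1 hc _).symm
  have eZ : center S = zpowers (f z) := by
    obtain ⟨Z, z1, z2⟩ := exists_center_prime pS (ne_bot_of_gt (lt_top_iff_ne_top.2 hPlt))
    refine eq_of_le_of_card_le l (cz ▸ z2 ▸ card_le_of_le' fun c hc => mem_center_iff.2 fun g => ?_)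
    exact mem_cent.1 (z1 hc).2 g trivial
  have zP : center S ≤ P := eZ.le.trans (zpowers_le.2 (mP z))
  let α : 𝓝(P) →* MulAut W := (MulAut.congr e.symm).toMonoidHom.comp P.normalizerMonoidHom
  have hα : ∀ n w, f (α n w) = n * f w * n⁻¹ := fun n w =>
    congrArg Subtype.val (e.apply_symm_apply _)
  let ρ := (MulAction.toPermHom (MulAut W) XS).comp α
  have hk : ∀ n, ρ n = 1 ↔ n ∈ (center S).subgroupOf 𝓝(P) := fun n => by
    refine ⟨fun h => eZ.ge (C _ fun x hx => ?_), fun h => Equiv.ext fun x => Subtype.ext (hf ?_)⟩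
    · rw [← mul_inv_eq_iff_eq_mul]
      exact (hα n x).symm.trans (congrArg (fun y : XS => f y) (Equiv.congr_fun h ⟨x, hx⟩))
    · exact (hα n x).trans (mul_inv_eq_iff_eq_mul.2 (mem_center_iff.1 h _).symm)
  let ρ' := QuotientGroup.lift _ ρ fun n => (hk n).2
  have inj : Function.Injective ρ' := (injective_iff_map_eq_one _).2 fun q h => by
    obtain ⟨n, rfl⟩ := QuotientGroup.mk_surjective q
    exact (QuotientGroup.eq_one_iff _).2 ((hk n).1 h)
  obtain ⟨b1, b2⟩ := emb cX ρ' inj ((h2.to_subgroup _).to_quotient _)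
  have cP : ♯P = 128 := (Nat.card_congr e.toEquiv).symm.trans cW
  have up : ∀ M, P < M → 256 ≤ ♯(M ⊓ 𝓝(P)) := fun M h => by
    have := card_mul_le_of_lt Nat.prime_two (pS.of_le le_top) (lt_norm_of_pi (pS.of_le le_top) h)
    omega
  have u := up ⊤ (lt_top_iff_ne_top.2 hPlt)
  have c := card_mul_relIndex (zP.trans le_normalizer)
  have c' := card_mul_relIndex (le_normalizer (H := P))
  rw [top_inf_eq] at u
  rw [eZ, cz, ← eZ] at c
  change (center S).relIndex _ ≤ _ at b1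
  have b3 : 128 ≤ (center S).relIndex 𝓝(P) := by omega
  refine ⟨le_antisymm (fun c hc => ⟨⟨c, zP hc⟩, mem_center_iff.2 fun g => Subtype.ext
    (mem_center_iff.1 hc g), rfl⟩) ?_, eZ ▸ cz, by rw [cP] at c'; omega,
    ⟨inferInstance, T, b2 b3 T⟩, fun V h1 h3 h4 h5 => ?_⟩
  · rintro _ ⟨c, hc, rfl⟩
    exact eZ.ge (C _ fun x _ => congrArg Subtype.val (mem_center_iff.1 hc (e x)).symm)
  by_contra ne
  have lt : P < 𝓝(V) := lt_of_le_of_ne (fun g hg => mem_normalizer_fintype (h3 g hg)) (Ne.symm ne)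
  have eq := eq_of_le_of_card_le (inf_le_right (a := 𝓝(V))) (by have := up _ lt; omega : ♯𝓝(P) ≤ _)
  haveI : (V.comap f).Normal := ⟨fun v hv g => by
    rw [mem_comap, map_mul, map_mul, map_inv]; exact h3 _ (mP g) _ hv⟩
  obtain ⟨g, hg⟩ := E (V.comap f) (fun v hv => hf (by rw [map_mul, map_one, ← sq]; exact h4.2 _ hv))
    (by rw [← card_map_of_injective hf, map_comap_eq_self fun x hx => sP x (h1 hx), h5])
  have st : ∀ n, ∀ v ∈ V.comap f, α n v ∈ V.comap f := fun n v hv => by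
    rw [mem_comap, hα]
    exact (mem_normalizer_iff.1 (eq.ge n.2).1 _).1 hv
  have := Nat.card_le_card_of_injective (fun q : 𝓝(P) ⧸ (center S).subgroupOf 𝓝(P) => g (α q.out))
    fun q q' h => inj (by
      rw [← q.out_eq', ← q'.out_eq']
      exact Equiv.ext fun x => Subtype.ext (hg _ _ (st _) (st _) h x x.2))
  rw [Nat.card_prod, cX, show Nat.card (Bool × Bool × Bool) = 8 by simp] at this
  change (center S).relIndex _ ≤ _ at this
  omega

end Cfsg.Agent.S4402
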