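import Cfsg.Statements.S4403
import Cfsg.Agent.Lib.Loc.AmbChar
import Cfsg.Agent.Lib.Loc.AmbT2
import Cfsg.Agent.Lib.Block.H11Cyc
-- import your own Cfsg.Agent.* helpers here

set_option autoImplicit false
open Cfsg

namespace Cfsg.Agent.S4403

/-- Let K be a finite group, p a prime dividing its order with O_{p'}(K) = 1 (no nontrivial normal subgroup of order prime to p), and P a cyclic Sylow p-subgroup of K. Then either P is normal and self-centralizing in K with K/P cyclic of order dividing p − 1 (so K is the semidirect product of P by a group of automorphisms of P of order dividing p − 1), or the generalized Fitting subgroup F*(K) is a non-abelian simple group and p does not divide the index of F*(K) in K. -/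
theorem result {K : Type*} [Group K] [Finite K] (p : ℕ) [Fact p.Prime] (hp : p ∣ Nat.card K) (hO : Cfsg.pPrimeCore p K = ⊥)
    (P : Sylow p K) (hP : IsCyclic ↥(P : Subgroup K)) :
    ((P : Subgroup K).Normal ∧ Subgroup.centralizer ((P : Subgroup K) : Set K) = (P : Subgroup K) ∧
      (∀ (_ : (P : Subgroup K).Normal), IsCyclic (K ⧸ (P : Subgroup K))) ∧ (P : Subgroup K).index ∣ p - 1) ∨
    (IsSimpleGroup ↥(Cfsg.generalizedFittingSubgroup K) ∧ ¬ IsMulCommutative ↥(Cfsg.generalizedFittingSubgroup K) ∧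
      ¬ p ∣ (Cfsg.generalizedFittingSubgroup K).index) := by
  open Subgroup Cfsg CA CA.Amb CA.AmbSyl CA.AmbCore CA.AmbRes CA.AmbChar CA.AmbFs CA.AmbSpe CA.AmbIso CA.LBal2 CA.AmbT2 in
  open scoped commutatorElement in
  (
  have hS := sylIn_top P
  have ab := H11Cyc.le_CC_of_isCyclic hP
  have hO' : OQ p (⊤ : Subgroup K) = ⊥ := OQ_top.trans hO
  by_cases hE : EL (⊤ : Subgroup K) = ⊥
  · have ch : CharP p (⊤ : Subgroup K) := charP_iff_bot.2 ⟨hE, hO'⟩
    have e : (P : Subgroup K) = pCoreOf p ⊤ :=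
      le_antisymm (ch.le_of_cent le_top (ab.trans (centralizer_anti (pCoreOf_le_syl hS)))) (pCoreOf_le_syl hS)
    have n : ⊤ ≤ 𝐍 (P : Subgroup K) := e ▸ norm_pCoreOf p ⊤
    have c : 𝐂 (P : Subgroup K) = P := le_antisymm (by rw [e]; exact ch.le_of_cent le_top le_rfl) ab
    haveI := normal_subgroupOf_of_norm (norm_centralizer n)
    have := H11Cyc.cyclic_quot hS.pg hP (hS.ne_bot (by rwa [card_top])) n (by
      change ¬ p ∣ (𝐂 (P : Subgroup K)).relIndex ⊤
      rw [c]; exact hS.not_dvd)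
    refine Or.inl ⟨normal_iff_top_le.2 n, c, fun _ => ?_, ?_⟩
    · haveI := this.1
      have e := AmbM.quotEquiv (QuotientGroup.mk' (P : Subgroup K)) ⊤ ((𝐂 (P : Subgroup K)).subgroupOf ⊤)
        (by rw [QuotientGroup.ker_mk', c])
      rw [map_top_of_surjective _ (QuotientGroup.mk'_surjective _)] at e
      exact isCyclic_of_surjective (e.trans topEquiv) (MulEquiv.surjective _)
    · have := this.2
      change (𝐂 (P : Subgroup K)).relIndex ⊤ ∣ _ at this
      rwa [c, relIndex_top_right] at this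
  have dv : ∀ L : Subgroup K, Comp.Cp L ⊤ → p ∣ Nat.card L := fun L hL => by
    by_contra h
    exact hL.ne_bot (le_bot_iff.1 (hO' ▸ AmbFs.SN.le_OQ (sn_of_S hL.sn)
      ((Nat.Prime.coprime_iff_not_dvd Fact.out).2 h).symm))
  have sy : ∀ L : Subgroup K, Comp.Cp L ⊤ → SylIn p (P ⊓ L) L := fun L hL => (sn_of_S hL.sn).sylIn_inf hS
  obtain ⟨L, hL⟩ : ∃ L, Comp.Cp L (⊤ : Subgroup K) := by
    by_contra h
    exact hE (le_bot_iff.1 (EL_le_iff.2 fun L hL => (h ⟨L, hL⟩).elim))
  have k0 : ∀ x ∈ (P : Subgroup K) ⊓ L, x ∈ 𝐂 L → x = 1 := fun x hx c => by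
    have := mem_der_of_cent (sy L hL) hx (hL.perfect.ge hx.2) c
    rwa [comm_eq_bot_of_le (inf_le_left.trans (ab.trans (centralizer_anti inf_le_left))), mem_bot] at this
  have k : (P : Subgroup K) ⊓ 𝐂 L = ⊥ := by
    rcases NPC2.le_total_of_isCyclic hS.pg hP (inf_le_left (b := L)) (inf_le_left (b := 𝐂 L)) with h | h
    · exact ((sy L hL).ne_bot (dv L hL) (eq_bot_iff.2 fun x hx => k0 x hx (h hx).2)).elim
    · exact eq_bot_iff.2 fun x hx => k0 x (h hx) hx.2
  have eE : EL (⊤ : Subgroup K) = L := le_antisymm (EL_le_iff.2 fun M hM => by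
    by_contra h
    exact (sy M hM).ne_bot (dv M hM) (le_bot_iff.1 (k ▸ inf_le_inf_left _
      (hM.le_centralizer_of_ne hL fun e => h e.le)))) hL.le_map_layer
  have cF := cent_symm (eE ▸ EL_le_cent_FL (⊤ : Subgroup K))
  have eF : FL (⊤ : Subgroup K) = ⊥ := le_bot_iff.1 ((FL_le_sup (p := p) ⊤).trans (sup_le
    (k ▸ le_inf (pCoreOf_le_syl hS) ((pCoreOf_le_FL ⊤).trans cF)) hO'.le))
  have e : generalizedFittingSubgroup K = L := by rw [← FS_top, FS_eq, eE, eF, sup_bot_eq]
  have n : ⊤ ≤ 𝐍 L := eE ▸ norm_EL le_normalizer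
  rw [e]
  refine Or.inr ⟨Quasi.simple_of_qs_of_center_eq_bot hL.qs ?_, fun h => Quasi.qs_not_le_centralizer hL.qs (le_centralizer L),
    fun d => hS.not_dvd ?_⟩
  · rw [← map_eq_bot_iff_of_injective _ L.subtype_injective, map_subtype_center, ← le_bot_iff, ← eF, FL_top]
    exact Comp.comp_inf_centralizer_le_fitting (Comp.Cp.top_iff.1 hL)
  · refine d.trans (relIndex_top_right (P : Subgroup K) ▸ index_dvd_of_le ?_)
    by_contra h
    refine not_npc hL.perfect (dv L hL) (tate hS.pg (le_top.trans n) (sy L hL) (le_Phi inf_le_left fun M l e => ?_))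
    rcases NPC2.le_total_of_isCyclic hS.pg hP l (inf_le_left (b := L)) with h' | h'
    · exact (h (e.ge.trans (sup_le (h'.trans inf_le_right) inf_le_right))).elim
    · rw [← e, sup_eq_left.2 h'])

end Cfsg.Agent.S4403
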