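import Cfsg.Statements.S4405
import Cfsg.Agent.Lib.Grp.H7Lge
import Cfsg.Agent.Lib.Grp.H7Cam
import Cfsg.Agent.Lib.Char.CharBurn
import Cfsg.Agent.Lib.Grp.PGBasic
import Cfsg.Agent.Lib.Odd.BG4a

set_option autoImplicit false
open Cfsg

namespace Cfsg.Agent.S4405

section Aux
open Subgroup CA.BG CA.H7Lge
open scoped commutatorElement
variable {G : Type*} [Group G] {H : Subgroup G} {z : G}

/-- elements of `H` centralized by `g` modulo `z` -/
def St (H : Subgroup G) (z : G) (hz : z ∈ center G) (g : G) : Subgroup G where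
  carrier := {x | x ∈ H ∧ g * x * g⁻¹ * x⁻¹ ∈ zpowers z}
  one_mem' := ⟨one_mem _, by simp⟩
  mul_mem' := by
    rintro a b ⟨ha, ha'⟩ ⟨hb, hb'⟩
    refine ⟨mul_mem ha hb, ?_⟩
    have hc := mem_center_iff.1 (zpowers_le.2 hz hb') a
    have := mul_mem ha' hb'
    rwa [show g * (a * b) * g⁻¹ * (a * b)⁻¹ = g * a * g⁻¹ * a⁻¹ * (a * (g * b * g⁻¹ * b⁻¹) * a⁻¹)
      by group, hc, mul_inv_cancel_right]
  inv_mem' := by
    rintro a ⟨ha, ha'⟩
    refine ⟨inv_mem ha, ?_⟩
    have hc := mem_center_iff.1 (zpowers_le.2 hz ha') a⁻¹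
    have := inv_mem ha'
    rwa [show g * a⁻¹ * g⁻¹ * a⁻¹⁻¹ = (a⁻¹ * (g * a * g⁻¹ * a⁻¹) * a)⁻¹ by group, hc,
      inv_mul_cancel_right]

/-- elements centralizing `x` modulo `z` -/
def Kz (z : G) (hz : z ∈ center G) (x : G) : Subgroup G where
  carrier := {g | g * x * g⁻¹ * x⁻¹ ∈ zpowers z}
  one_mem' := by simp
  mul_mem' := by
    intro a b ha hb
    have hc := mem_center_iff.1 (zpowers_le.2 hz hb) a
    have := (zpowers z).mul_mem hb ha
    simp only [Set.mem_setOf_eq]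
    rwa [show a * b * x * (a * b)⁻¹ * x⁻¹ = a * (b * x * b⁻¹ * x⁻¹) * a⁻¹ * (a * x * a⁻¹ * x⁻¹)
      by group, hc, mul_inv_cancel_right]
  inv_mem' := by
    intro a ha
    have hc := mem_center_iff.1 (zpowers_le.2 hz ha) a⁻¹
    have := (zpowers z).inv_mem ha
    simp only [Set.mem_setOf_eq]
    rwa [show a⁻¹ * x * a⁻¹⁻¹ * x⁻¹ = (a⁻¹ * (a * x * a⁻¹ * x⁻¹) * a)⁻¹ by group, hc, inv_mul_cancel_right]

end Aux

open Subgroup CA.BG CA.H7Lge in

/-- Let G be a finite group of order 320 = 64·5 whose largest normal 2-subgroup H = O₂(G) equals the Fitting subgroup F(G) and is extraspecial of order 32 containing no elementary abelian subgroup of order 8 (so H is the central product of a quaternion group and a dihedral group of order 8). If T is an involution of G outside H whose centralizer in H contains an elementary abelian subgroup of order 4, then C_H(T) itself is elementary abelian of order 4. -/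
theorem result {G : Type*} [Group G] [Finite G]
    (hG : Nat.card G = 320) (hHF : Cfsg.pCore 2 G = Cfsg.fittingSubgroup G)
    (hex : Cfsg.IsExtraspecial 2 ↥(Cfsg.pCore 2 G)) (h32 : Nat.card ↥(Cfsg.pCore 2 G) = 32)
    (hminus : ∀ A : Subgroup G, A ≤ Cfsg.pCore 2 G → Cfsg.IsElementaryAbelian 2 A → Nat.card ↥A ≤ 4)
    (T : G) (hT : orderOf T = 2) (hTH : T ∉ Cfsg.pCore 2 G)
    (V : Subgroup G) (hV : V ≤ Cfsg.pCore 2 G ⊓ Subgroup.centralizer ({T} : Set G)) (hV4 : Nat.card ↥V = 4) (hVe : Cfsg.IsElementaryAbelian 2 V) :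
    Nat.card ↥(Cfsg.pCore 2 G ⊓ Subgroup.centralizer ({T} : Set G)) = 4 ∧
      Cfsg.IsElementaryAbelian 2 (Cfsg.pCore 2 G ⊓ Subgroup.centralizer ({T} : Set G)) := by
  classical
  have : Fact (Nat.Prime 2) := ⟨Nat.prime_two⟩
  have : Fact (Nat.Prime 5) := ⟨Nat.prime_five⟩
  set H := pCore 2 G with hH
  have hHn : H.Normal := by rw [hH]; infer_instance
  obtain ⟨z, hz, hzc⟩ := EX.of hex
  have hsol : Group.IsSolvable G :=
    CChar.CharBurn.isSolvable_of_card_eq (a := 6) (b := 1) Nat.prime_two Nat.prime_five (by rw [hG]; norm_num)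
  have hCH : 𝓒(H) ≤ H := by rw [hHF]; exact CA.Fitting.centralizer_fitting_le
  have hzG : z ∈ center G := by
    rw [mem_center_iff]
    intro g
    have h1 : g * z * g⁻¹ ∈ zpowers z := by
      rw [← hz.center_eq]
      refine ⟨hHn.conj_mem _ hz.mem g, fun y hy => ?_⟩
      have := mem_centralizer_singleton_iff.1 (hz.cent (hHn.conj_mem _ hy g⁻¹))
      calc y * (g * z * g⁻¹) = g * (g⁻¹ * y * g⁻¹⁻¹ * z) * g⁻¹ := by group
        _ = _ := by rw [this]; group
    rcases hz.mem_iff.1 h1 with e | e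
    · exact absurd (by simpa using e) hz.ne
    · rw [← mul_inv_eq_iff_eq_mul]; exact e
  have hTT : T * T = 1 := by rw [← pow_two, ← hT, pow_orderOf_eq_one]
  have hTi : T⁻¹ = T := inv_eq_of_mul_eq_one_left hTT
  obtain ⟨u, hu⟩ := exists_prime_orderOf_dvd_card' (G := G) 5 (by rw [hG]; norm_num)
  set L := zpowers T ⊔ H with hL
  have hL64 : ♯L = 64 := by
    have h1 := card_sup_mul_inf (A := zpowers T) (N := H) (by rw [normalizer_eq_top]; exact le_top)
    have h2 : zpowers T ⊓ H = ⊥ := by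
      rw [eq_bot_iff]
      rintro y ⟨hy, hyH⟩
      rcases (mem_two hTT).1 hy with rfl | rfl
      · exact one_mem _
      · exact absurd hyH hTH
    rw [h2, card_bot, Nat.card_zpowers, hT, h32, mul_one] at h1
    exact h1
  have hLi : L.index = 5 := by
    have := L.card_mul_index
    rw [hL64, hG] at this; omega
  have huL : u ∉ L := fun h => by
    have := L.orderOf_dvd_natCard h
    rw [hu, hL64] at this; omega
  have hT' : u * T * u⁻¹ ∉ L := by
    intro h
    have h1 : u ∈ 𝓝(L) := mem_norm_of_cj_le (by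
      rw [hL, cj_sup, cj_zpowers]
      refine sup_le (zpowers_le.2 h) (le_trans ?_ le_sup_right)
      intro y hy
      obtain ⟨y, hy', rfl⟩ := mem_cj'.1 hy
      exact hHn.conj_mem _ hy' u)
    have h2 : 𝓝(L) = ⊤ := by
      rw [eq_top_iff, ← CA.PGBasic.sup_zpowers_eq_top_of_index_prime Nat.prime_five hLi huL]
      exact sup_le le_normalizer (zpowers_le.2 h1)
    have h3 : L.Normal := normalizer_eq_top_iff.1 h2
    have h4 : L ≤ H := CA.Core.le_pCore (IsPGroup.of_card (n := 6) (by rw [hL64]; norm_num))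
    exact hTH (h4 (le_sup_left (a := zpowers T) (mem_zpowers T)))
  have hCu : ♯(H ⊓ 𝓒(zpowers u)) = 2 := by
    have h1 := CA.BG4.card_modEq_cent (K := H) (Q := zpowers u) Nat.prime_five
      (isPi_of_card_eq Nat.prime_five (by rw [Nat.card_zpowers, hu]))
      (by rw [normalizer_eq_top]; exact le_top)
    have h2 : ♯(H ⊓ 𝓒(zpowers u)) ∣ 2 ^ 5 := by
      rw [show 2 ^ 5 = ♯H by rw [h32]; norm_num]; exact card_dvd_of_le inf_le_left
    have h3 : ♯(H ⊓ 𝓒(zpowers u)) ≠ 32 := by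
      intro e
      have := eq_of_le_of_card_ge (inf_le_left : H ⊓ 𝓒(zpowers u) ≤ H) (by rw [e, h32])
      have h4 : u ∈ 𝓒(H) := fun y hy => (((this.symm ▸ hy : y ∈ H ⊓ 𝓒(zpowers u))).2 u (mem_zpowers u)).symm
      exact huL (le_sup_right (a := zpowers T) (hCH h4))
    obtain ⟨k, hk, e⟩ := (Nat.dvd_prime_pow Nat.prime_two).1 h2
    rw [h32, e] at h1
    rw [e] at h3 ⊢
    interval_cases k <;> first | rfl | (exfalso; revert h1 h3; decide)
  set W := St H z hzG T with hW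
  have hWH : ∀ g, St H z hzG g ≤ H := fun g x hx => hx.1
  have hzW : ∀ g, z ∈ St H z hzG g := fun g => ⟨hz.mem, by
    rw [mem_center_iff.1 hzG g]; simp⟩
  have hW' : cj u W = St H z hzG (u * T * u⁻¹) := by
    ext x
    rw [mem_cj]
    have hc : ∀ c, u⁻¹ * c * u ∈ zpowers z ↔ c ∈ zpowers z := fun c => by
      constructor
      · intro h
        have := mem_center_iff.1 (zpowers_le.2 hzG h) u
        rwa [show c = u * (u⁻¹ * c * u) * u⁻¹ by group, this, mul_inv_cancel_right]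
      · intro h
        rwa [mem_center_iff.1 (zpowers_le.2 hzG h) u⁻¹, inv_mul_cancel_right]
    change (_ ∧ _) ↔ (_ ∧ _)
    rw [← hc (u * T * u⁻¹ * x * _ * _)]
    refine and_congr ⟨fun h => ?_, fun h => ?_⟩ (by congr! 1; group)
    · simpa [mul_assoc] using hHn.conj_mem _ h u
    · simpa using hHn.conj_mem _ h u⁻¹
  have hX : W ⊓ cj u W ≤ H ⊓ 𝓒(zpowers u) := by
    rw [hW']
    rintro x ⟨h1, h2⟩
    have hK : Kz z hzG x = ⊤ := by
      rw [eq_top_iff, ← CA.PGBasic.sup_zpowers_eq_top_of_index_prime Nat.prime_five hLi hT']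
      exact sup_le (sup_le (zpowers_le.2 h1.2) fun y hy => hz.comm hy h1.1) (zpowers_le.2 h2.2)
    have h3 : u * x * u⁻¹ * x⁻¹ ∈ zpowers z := (hK ▸ mem_top u : u ∈ Kz z hzG x)
    have h4 : u * u ∈ 𝓒₁(x) := by
      have h5 := hz.zsq h3
      have h6 := mem_center_iff.1 (zpowers_le.2 hzG h3) u
      rw [mem_centralizer_singleton_iff]
      calc u * u * x = u * (u * x * u⁻¹ * x⁻¹) * u⁻¹ * (u * x * u⁻¹ * x⁻¹) * (x * (u * u)) := by group
        _ = _ := by rw [h6, mul_inv_cancel_right, h5, one_mul]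
    have h5 : u ∈ 𝓒₁(x) := by
      have := pow_mem h4 3
      rwa [show (u * u) ^ 3 = u ^ 5 * u by simp [pow_succ, mul_assoc], ← hu, pow_orderOf_eq_one, one_mul] at this
    refine ⟨h1.1, fun y hy => ?_⟩
    exact mem_centralizer_singleton_iff.1 (zpowers_le.2 h5 hy)
  have hW8 : ♯W ≤ 8 := by
    have h1 := card_sup_mul_inf (A := W) (N := cj u W)
      ((hWH T).trans (hz.norm_of (hW' ▸ hzW _) (hW' ▸ hWH _)))
    have h2 : ♯(W ⊔ cj u W) ≤ 32 := h32 ▸ card_le_of_le (sup_le (hWH T) (hW' ▸ hWH _))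
    have h3 : ♯(W ⊓ cj u W) ≤ 2 := hCu ▸ card_le_of_le hX
    rw [card_cj] at h1
    nlinarith [Nat.mul_le_mul h2 h3]
  set C := H ⊓ 𝓒₁(T) with hC
  have hCW : C ≤ W := fun x hx => ⟨hx.1, by
    rw [← mem_centralizer_singleton_iff.1 hx.2]; simp⟩
  suffices h : ♯C = 4 by
    have e : V = C := eq_of_le_of_card_ge hV (by rw [h, hV4])
    exact ⟨h, e ▸ hVe⟩
  by_contra h4
  have hC8 : ♯C = 8 := by
    obtain ⟨k, hk⟩ : 4 ∣ ♯C := hV4 ▸ card_dvd_of_le hV
    have := card_le_of_le hCW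
    have : 0 < ♯C := Nat.card_pos
    omega
  have hCW' : C = W := eq_of_le_of_card_ge hCW (by omega)
  have hi : 𝓒₁(T).relIndex H = 4 := by
    have := card_inf_mul_relIndex 𝓒₁(T) H
    rw [inf_comm, ← hC, hC8, h32] at this
    omega
  set X : Set G := {y | ∃ h ∈ H, h * T * h⁻¹ = y} with hXd
  have hX4 : X.ncard = 4 := (CA.H7Cam.card_cls H T).trans hi
  have hzz : ∀ g, g * z = z * g := mem_center_iff.1 hzG
  have hm : ∀ y ∈ X, y * T ∈ C ∧ y * T * (y * T) = 1 := by
    rintro _ ⟨h, hh, rfl⟩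
    have m1 : h * T * h⁻¹ * T ∈ H := by
      have := mul_mem hh (hHn.conj_mem _ (inv_mem hh) T)
      rwa [hTi, ← mul_assoc, ← mul_assoc] at this
    have e : T * (h * T * h⁻¹ * T) * T⁻¹ = (h * T * h⁻¹ * T)⁻¹ := by
      simp only [mul_inv_rev, inv_inv, hTi, mul_assoc, hTT, mul_one]
    have m2 : h * T * h⁻¹ * T ∈ C := by
      rw [hCW']
      exact ⟨m1, by rw [e]; exact hz.pow _ (inv_mem m1)⟩
    refine ⟨m2, ?_⟩
    have := mem_centralizer_singleton_iff.1 m2.2
    rw [← this, mul_inv_cancel_right] at e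
    exact mul_eq_one_iff_eq_inv.2 e
  have hY : ((fun y => y * T) '' X ∪ (fun y => y * T * z) '' X) = (C : Set G) := by
    refine Set.eq_of_subset_of_ncard_le ?_ ?_ (Set.toFinite _)
    · rintro _ (⟨y, hy, rfl⟩ | ⟨y, hy, rfl⟩)
      · exact (hm y hy).1
      · exact C.mul_mem (hm y hy).1 (hCW' ▸ hzW T)
    · rw [Set.ncard_union_eq, Set.ncard_image_of_injective _ (mul_left_injective T),
        Set.ncard_image_of_injective _ (fun a b h => by simpa using h), hX4]
      · exact hC8.le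
      · rw [Set.disjoint_left]
        rintro _ ⟨_, ⟨a, ha, rfl⟩, rfl⟩ ⟨_, ⟨b, hb, rfl⟩, e⟩
        simp only at e
        rw [mul_assoc _ T z, hzz, ← mul_assoc, mul_left_inj] at e
        have e2 : T * (b⁻¹ * a) * T⁻¹ * (b⁻¹ * a)⁻¹ = z := by
          have e3 : a * T * a⁻¹ = b * (T * z) * b⁻¹ := by rw [← e, mul_assoc _ b⁻¹ z, hzz]; group
          calc _ = T * b⁻¹ * (a * T⁻¹ * a⁻¹) * b := by group
            _ = T * T * z := by rw [hTi, e3]; group
            _ = z := by rw [hTT, one_mul]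
        have m : b⁻¹ * a ∈ C := by
          rw [hCW']; exact ⟨mul_mem (inv_mem hb) ha, by rw [e2]; exact mem_zpowers z⟩
        rw [← mem_centralizer_singleton_iff.1 m.2] at e2
        exact hz.ne (by rw [← e2]; group)
  have hsq : ∀ c ∈ C, c * c = 1 := by
    intro c hc
    have : c ∈ (C : Set G) := hc
    rw [← hY] at this
    rcases this with ⟨y, hy, rfl⟩ | ⟨y, hy, rfl⟩
    · exact (hm y hy).2
    · simp only
      rw [hz.sq_mul (hm y hy).1.1 (mem_zpowers z), (hm y hy).2]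
  have := hminus C inf_le_left ⟨⟨⟨fun a b => Subtype.ext ?_⟩⟩, fun a ha => by rw [pow_two, hsq a ha]⟩
  · omega
  · have h1 := hsq _ (C.mul_mem a.2 b.2)
    have h2 := hsq _ a.2
    have h3 := hsq _ b.2
    calc (a : G) * b = ((a : G) * b)⁻¹ := eq_inv_of_mul_eq_one_left h1
      _ = b * a := by rw [mul_inv_rev, inv_eq_of_mul_eq_one_left h2, inv_eq_of_mul_eq_one_left h3]

end Cfsg.Agent.S4405
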