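import Cfsg.Statements.S4406
import Mathlib.Tactic

set_option autoImplicit false
open Cfsg

namespace Cfsg.Agent.S4406

abbrev A4 := ↥(alternatingGroup (Fin 4))

theorem d1 : ∀ w : A4, w ^ 4 = 1 → w * w = 1 := by decide +kernel

theorem d2 : ∀ w : A4, w ^ 9 = 1 → w ^ 3 = 1 := by decide +kernel

set_option synthInstance.maxSize 2000 in
set_option synthInstance.maxHeartbeats 200000 in
theorem d3 : ∀ a : A4, a ^ 3 = 1 → a ≠ 1 → ∀ u : A4, u * u = 1 → u ≠ 1 →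
    a * u * a⁻¹ ≠ 1 ∧ a * u * a⁻¹ ≠ u ∧ a * (a * u * a⁻¹) * a⁻¹ = u * (a * u * a⁻¹) ∧
    ∀ w : A4, w * w = 1 → w = 1 ∨ w = u ∨ w = a * u * a⁻¹ ∨ w = u * (a * u * a⁻¹) := by
  decide +kernel

theorem d4 : ∀ b : A4, b ^ 3 = 1 → b ≠ 1 → ∀ v : A4, v * v = 1 → v ≠ 1 → ∀ w : A4, w * w = 1 →
    w ≠ 1 → w ≠ v → (b * v * b⁻¹ = w ∧ b * w * b⁻¹ = v * w) ∨
      (b⁻¹ * v * b⁻¹⁻¹ = w ∧ b⁻¹ * w * b⁻¹⁻¹ = v * w) := by
  decide +kernel

theorem d5 : Fintype.card {w : A4 // w * w = 1} = 4 := by decide +kernel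

theorem d6 : ∃ u : A4, u * u = 1 ∧ u ≠ 1 := by decide +kernel

theorem cardA4 : Nat.card A4 = 12 := by
  rw [Nat.card_eq_fintype_card]; decide +kernel

theorem ker_ne {G : Type*} [Group G] [Finite G] (hG : Nat.card G = 9) (f : G →* A4) :
    ∃ x : G, x ≠ 1 ∧ f x = 1 := by
  by_contra h
  push Not at h
  have hi : Function.Injective f := (injective_iff_map_eq_one f).2 fun x hx => by
    by_contra h0; exact h x h0 hx
  have := Subgroup.card_dvd_of_injective f hi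
  rw [hG, cardA4] at this
  omega

/-- In the direct product P = A₄ × A₄, let X be the Sylow 2-subgroup, X₁ and X₂ its intersections with the two direct factors, Q a Sylow 3-subgroup and Q₁, Q₂ its intersections with the two factors. Then every subgroup B of X of order 4 either meets X₁ or X₂ nontrivially, or is normalized by one of the two subgroups of Q of order 3 other than Q₁ and Q₂. -/
theorem result
    (X : Sylow 2 (↥(alternatingGroup (Fin 4)) × ↥(alternatingGroup (Fin 4))))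
    (Q : Sylow 3 (↥(alternatingGroup (Fin 4)) × ↥(alternatingGroup (Fin 4))))
    (B : Subgroup (↥(alternatingGroup (Fin 4)) × ↥(alternatingGroup (Fin 4)))) (hBX : B ≤ (X : Subgroup _)) (hB4 : Nat.card ↥B = 4) :
    B ⊓ ((X : Subgroup _) ⊓ Subgroup.prod ⊤ ⊥) ≠ ⊥ ∨ B ⊓ ((X : Subgroup _) ⊓ Subgroup.prod ⊥ ⊤) ≠ ⊥ ∨
      ∃ R : Subgroup (↥(alternatingGroup (Fin 4)) × ↥(alternatingGroup (Fin 4))), R ≤ (Q : Subgroup _) ∧ Nat.card ↥R = 3 ∧
        R ≠ (Q : Subgroup _) ⊓ Subgroup.prod ⊤ ⊥ ∧ R ≠ (Q : Subgroup _) ⊓ Subgroup.prod ⊥ ⊤ ∧ R ≤ Subgroup.normalizer (B : Set _) := by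
  classical
  by_cases h1 : B ⊓ ((X : Subgroup _) ⊓ Subgroup.prod ⊤ ⊥) = ⊥
  swap
  · exact Or.inl h1
  by_cases h2 : B ⊓ ((X : Subgroup _) ⊓ Subgroup.prod ⊥ ⊤) = ⊥
  swap
  · exact Or.inr (Or.inl h2)
  right; right
  have hQ : Nat.card (Q : Subgroup (A4 × A4)) = 9 := by
    rw [Sylow.card_eq_multiplicity, Nat.card_prod, cardA4]
    have : (12 * 12 : ℕ).factorization 3 = 2 := by
      rw [show (12 * 12 : ℕ) = 3 ^ 2 * 16 by norm_num, Nat.factorization_mul (by norm_num) (by norm_num)]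
      rw [Nat.Prime.factorization_pow Nat.prime_three]
      simp [Nat.factorization_eq_zero_of_not_dvd]
    rw [this]
    norm_num
  have hQ9 : ∀ y ∈ (Q : Subgroup (A4 × A4)), y ^ 9 = 1 := fun y hy => by
    have := pow_card_eq_one' (x := (⟨y, hy⟩ : (Q : Subgroup (A4 × A4))))
    rw [hQ] at this
    exact congrArg Subtype.val this
  obtain ⟨⟨⟨a, a'⟩, ha⟩, ha1, ha2⟩ := ker_ne hQ ((MonoidHom.snd A4 A4).comp (Subgroup.subtype _))
  obtain ⟨⟨⟨b', b⟩, hb⟩, hb1, hb2⟩ := ker_ne hQ ((MonoidHom.fst A4 A4).comp (Subgroup.subtype _))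
  obtain rfl : a' = 1 := ha2
  obtain rfl : b' = 1 := hb2
  have ha0 : a ≠ 1 := fun h => ha1 (by subst h; rfl)
  have hb0 : b ≠ 1 := fun h => hb1 (by subst h; rfl)
  have ha3 : a ^ 3 = 1 := d2 a (congrArg Prod.fst (hQ9 _ ha))
  have hb3 : b ^ 3 = 1 := d2 b (congrArg Prod.snd (hQ9 _ hb))
  have hB : ∀ y ∈ B, y.1 * y.1 = 1 ∧ y.2 * y.2 = 1 := fun y hy => by
    have := pow_card_eq_one' (x := (⟨y, hy⟩ : B))
    rw [hB4] at this
    have h4 : y ^ 4 = 1 := congrArg Subtype.val this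
    exact ⟨d1 _ (congrArg Prod.fst h4), d1 _ (congrArg Prod.snd h4)⟩
  have i1 : ∀ y ∈ B, ∀ z ∈ B, y.1 = z.1 → y = z := fun y hy z hz h => by
    have hm := B.mul_mem (B.inv_mem hy) hz
    have : y⁻¹ * z ∈ B ⊓ ((X : Subgroup _) ⊓ Subgroup.prod ⊥ ⊤) :=
      ⟨hm, hBX hm, by simp [Subgroup.mem_prod, h]⟩
    rw [h2, Subgroup.mem_bot] at this
    exact inv_mul_eq_one.1 this
  have i2 : ∀ y ∈ B, ∀ z ∈ B, y.2 = z.2 → y = z := fun y hy z hz h => by
    have hm := B.mul_mem (B.inv_mem hy) hz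
    have : y⁻¹ * z ∈ B ⊓ ((X : Subgroup _) ⊓ Subgroup.prod ⊤ ⊥) :=
      ⟨hm, hBX hm, by simp [Subgroup.mem_prod, h]⟩
    rw [h1, Subgroup.mem_bot] at this
    exact inv_mul_eq_one.1 this
  have hs : ∀ u : A4, u * u = 1 → ∃ v, (u, v) ∈ B := by
    let φ : B → {w : A4 // w * w = 1} := fun y => ⟨y.1.1, (hB _ y.2).1⟩
    have hφ : Function.Injective φ := fun y z h =>
      Subtype.ext (i1 _ y.2 _ z.2 (congrArg Subtype.val h))
    have hbij : Function.Bijective φ := hφ.bijective_of_nat_card_le (by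
      rw [hB4, Nat.card_eq_fintype_card, d5])
    intro u hu
    obtain ⟨y, hy⟩ := hbij.2 ⟨u, hu⟩
    have : y.1.1 = u := congrArg Subtype.val hy
    exact ⟨y.1.2, this ▸ y.2⟩
  obtain ⟨u, hu, hu1⟩ := d6
  obtain ⟨e1, e2, e3, e4⟩ := d3 a ha3 ha0 u hu hu1
  obtain ⟨v, hv⟩ := hs u hu
  obtain ⟨w, hw⟩ := hs (a * u * a⁻¹) (by
    calc a * u * a⁻¹ * (a * u * a⁻¹) = a * (u * u) * a⁻¹ := by group
      _ = 1 := by rw [hu]; group)
  have hv1 : v ≠ 1 := fun h => hu1 (congrArg Prod.fst (i2 _ hv _ B.one_mem h))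
  have hw1 : w ≠ 1 := fun h => e1 (congrArg Prod.fst (i2 _ hw _ B.one_mem h))
  have hwv : w ≠ v := fun h => e2 (congrArg Prod.fst (i2 _ hw _ hv h))
  have key : ∀ c : A4, c ^ 3 = 1 → c ≠ 1 → (1, c) ∈ (Q : Subgroup (A4 × A4)) →
      c * v * c⁻¹ = w → c * w * c⁻¹ = v * w →
      ∃ R : Subgroup (A4 × A4), R ≤ (Q : Subgroup _) ∧ Nat.card ↥R = 3 ∧
        R ≠ (Q : Subgroup _) ⊓ Subgroup.prod ⊤ ⊥ ∧ R ≠ (Q : Subgroup _) ⊓ Subgroup.prod ⊥ ⊤ ∧
        R ≤ Subgroup.normalizer (B : Set _) := by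
    intro c hc3 hc1 hcQ f1 f2
    haveI : Fact (Nat.Prime 3) := ⟨Nat.prime_three⟩
    refine ⟨Subgroup.zpowers (a, c), ?_, ?_, ?_, ?_, ?_⟩
    · rw [Subgroup.zpowers_le]
      simpa using (Q : Subgroup (A4 × A4)).mul_mem ha hcQ
    · rw [Nat.card_zpowers]
      refine orderOf_eq_prime ?_ fun h => ha0 (congrArg Prod.fst h)
      exact Prod.ext ha3 hc3
    · intro h
      have := Subgroup.mem_zpowers (a, c)
      rw [h] at this
      exact hc1 (Subgroup.mem_prod.1 this.2).2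
    · intro h
      have := Subgroup.mem_zpowers (a, c)
      rw [h] at this
      exact ha0 (Subgroup.mem_prod.1 this.2).1
    · rw [Subgroup.zpowers_le]
      have g1 : (a, c) * (u, v) * (a, c)⁻¹ = (a * u * a⁻¹, w) := Prod.ext rfl f1
      have g2 : (a, c) * (a * u * a⁻¹, w) * (a, c)⁻¹ = (u, v) * (a * u * a⁻¹, w) := Prod.ext e3 f2
      refine Subgroup.mem_normalizer_fintype fun y hy => ?_
      rcases e4 y.1 (hB y hy).1 with h | h | h | h
      · rw [i1 y hy 1 B.one_mem h]; rw [mul_one, mul_inv_cancel]; exact B.one_mem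
      · rw [i1 y hy _ hv h, g1]; exact hw
      · rw [i1 y hy _ hw h, g2]; exact B.mul_mem hv hw
      · rw [i1 y hy _ (B.mul_mem hv hw) h]
        have : (a, c) * ((u, v) * (a * u * a⁻¹, w)) * (a, c)⁻¹ =
            ((a, c) * (u, v) * (a, c)⁻¹) * ((a, c) * (a * u * a⁻¹, w) * (a, c)⁻¹) := by group
        rw [this, g1, g2]
        exact B.mul_mem hw (B.mul_mem hv hw)
  rcases d4 b hb3 hb0 v (hB _ hv).2 hv1 w (hB _ hw).2 hw1 hwv with ⟨f1, f2⟩ | ⟨f1, f2⟩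
  · exact key b hb3 hb0 hb f1 f2
  · exact key b⁻¹ (by rw [inv_pow, hb3, inv_one]) (inv_ne_one.2 hb0)
      (by simpa using (Q : Subgroup (A4 × A4)).inv_mem hb) f1 f2

end Cfsg.Agent.S4406
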