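import Cfsg.Statements.S4407
import Mathlib.GroupTheory.SpecificGroups.Dihedral
import Mathlib.Tactic

set_option autoImplicit false
open Cfsg

namespace Cfsg.Agent.S4407

abbrev W := ZMod 2 × ZMod 2 × ZMod 2 × ZMod 2

def a' (x : W) : W := (x.1, x.2.1, x.2.2.1 + x.2.2.2, x.2.2.1)
def b' (x : W) : W := (x.2.1, x.1 + x.2.1, x.2.2.1, x.2.2.2)
def r' (x : W) : W := (x.2.2.1 + x.2.2.2, x.2.2.2, x.1, x.2.1)
def s' (x : W) : W := (x.1 + x.2.1, x.2.1, x.2.2.1, x.2.2.2)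

theorem irrW : ∀ x : W, x ≠ 0 → ∃ i : Fin 3, ∃ j : Fin 2,
    r' (a'^[i] (r'^[j] x + a' (r'^[j] x))) = (1, 0, 0, 0) := by decide

section
variable {S : Type*} [Group S] {M : Type*} [AddCommGroup M] [Module (ZMod 2) M]
  (ρ : Representation (ZMod 2) S M)

theorem add_self' (m : M) : m + m = 0 := by
  rw [← two_smul (ZMod 2), show (2 : ZMod 2) = 0 from rfl, zero_smul]

theorem mul_ap (x y : S) (m : M) : ρ (x * y) m = ρ x (ρ y m) := by rw [map_mul]; rfl

theorem mv {x y : S} (h : x = y) (m : M) : ρ x m = ρ y m := by rw [h]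

def stab (N : Submodule (ZMod 2) M) : Submonoid S where
  carrier := {g | ∀ m ∈ N, ρ g m ∈ N}
  one_mem' m hm := by simpa using hm
  mul_mem' {x y} hx hy m hm := by rw [mul_ap]; exact hx _ (hy _ hm)

theorem cube {b : S} (h : b * (b * b) = 1) (m : M) : ρ b (ρ b (ρ b m)) = m := by
  simpa [mul_ap] using mv ρ h m

theorem norm3 {b : S} (h : b * (b * b) = 1) (m : M) :
    ρ b (m + ρ b m + ρ b (ρ b m)) = m + ρ b m + ρ b (ρ b m) := by
  rw [map_add, map_add, cube ρ h]; abel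

theorem eq_of_add {m n : M} (h : m + n = 0) : m = n := by
  rw [← add_zero m, ← add_self' n, ← add_assoc, h, zero_add]

structure Cfg (a b r s : S) : Prop where
  a3 : a * (a * a) = 1
  b3 : b * (b * b) = 1
  a1 : a ≠ 1
  ab : a * b = b * a
  ra : r * a = b * r
  rb : r * b = a * (a * r)
  ar : a * r = r * (b * b)
  sa : s * a = a * s
  sb : s * b = b * (b * s)
  ss : s * s = 1
  r4 : r * (r * (r * r)) = 1
  sr : s * r = r * (r * (r * s))
  gen : ∀ P : Submonoid S, a ∈ P → b ∈ P → r ∈ P → s ∈ P → ∀ g, g ∈ P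

variable {ρ} (hfaith : Function.Injective ρ)
  (hirr : ∀ N : Submodule (ZMod 2) M, (∀ s : S, ∀ m ∈ N, ρ s m ∈ N) → N = ⊥ ∨ N = ⊤)
  {a b r s : S} (h : Cfg a b r s)
include h hfaith hirr

theorem Cfg.fix0 {m : M} (h1 : ρ a m = m) (h2 : ρ b m = m) : m = 0 := by
  let N : Submodule (ZMod 2) M :=
    { carrier := {m | ρ a m = m ∧ ρ b m = m}
      add_mem' := fun h1 h2 => ⟨by rw [map_add, h1.1, h2.1], by rw [map_add, h1.2, h2.2]⟩
      zero_mem' := ⟨map_zero _, map_zero _⟩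
      smul_mem' := fun c _ h => ⟨by rw [map_smul, h.1], by rw [map_smul, h.2]⟩ }
  have hN : ∀ g, g ∈ stab ρ N := by
    refine h.gen _ (fun m hm => ?_) (fun m hm => ?_) (fun m hm => ⟨?_, ?_⟩) (fun m hm => ⟨?_, ?_⟩)
    · rwa [hm.1]
    · rwa [hm.2]
    · simpa [mul_ap, hm.2] using mv ρ h.ar m
    · simpa [mul_ap, hm.1] using (mv ρ h.ra m).symm
    · simpa [mul_ap, hm.1] using (mv ρ h.sa m).symm
    · have e := mv ρ h.sb m
      simp only [mul_ap, hm.2] at e
      have := cube ρ h.b3 (ρ s m)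
      rwa [← e] at this
  rcases hirr N hN with e | e
  · have : m ∈ N := ⟨h1, h2⟩
    rwa [e, Submodule.mem_bot] at this
  · refine absurd (hfaith ?_) h.a1
    ext x
    simpa using (e ▸ Submodule.mem_top : x ∈ N).1

theorem Cfg.main (hm : ∃ m : M, m ≠ 0 ∧ ρ a m = m) : Nat.card M = 16 ∧
    Nat.card {m : M // ρ s m = m ∧ ρ (r * r) m = m} = 4 ∧
    Nat.card {m : M // ρ (s * r) m = m ∧ ρ (r * r) m = m} = 2 := by
  have ab : ∀ m, ρ a (ρ b m) = ρ b (ρ a m) := fun m => by simpa [mul_ap] using mv ρ h.ab m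
  have ra : ∀ m, ρ r (ρ a m) = ρ b (ρ r m) := fun m => by simpa [mul_ap] using mv ρ h.ra m
  have rb : ∀ m, ρ r (ρ b m) = ρ a (ρ a (ρ r m)) := fun m => by simpa [mul_ap] using mv ρ h.rb m
  have ar : ∀ m, ρ a (ρ r m) = ρ r (ρ b (ρ b m)) := fun m => by simpa [mul_ap] using mv ρ h.ar m
  have sa : ∀ m, ρ s (ρ a m) = ρ a (ρ s m) := fun m => by simpa [mul_ap] using mv ρ h.sa m
  have sb : ∀ m, ρ s (ρ b m) = ρ b (ρ b (ρ s m)) := fun m => by simpa [mul_ap] using mv ρ h.sb m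
  have ss : ∀ m, ρ s (ρ s m) = m := fun m => by simpa [mul_ap] using mv ρ h.ss m
  have r4 : ∀ m, ρ r (ρ r (ρ r (ρ r m))) = m := fun m => by simpa [mul_ap] using mv ρ h.r4 m
  have sr : ∀ m, ρ s (ρ r m) = ρ r (ρ r (ρ r (ρ s m))) := fun m => by
    simpa [mul_ap] using mv ρ h.sr m
  have a3 := cube ρ h.a3
  have b3 := cube ρ h.b3
  obtain ⟨w, w0, wa, wz⟩ : ∃ w : M, w ≠ 0 ∧ ρ a w = w ∧ ρ r (ρ r w) = w := by
    obtain ⟨m, m0, ma⟩ := hm
    by_cases e : ρ r (ρ r m) = m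
    · exact ⟨m, m0, ma, e⟩
    refine ⟨m + ρ r (ρ r m), fun e' => e (eq_of_add e').symm, ?_, by
      rw [map_add, map_add, r4, add_comm]⟩
    rw [map_add, ma, ar, ← ra, ← ra, ma, ma]
  obtain ⟨v, v0, va, vz, vs⟩ : ∃ w : M, w ≠ 0 ∧ ρ a w = w ∧ ρ r (ρ r w) = w ∧ ρ s w = w := by
    by_cases e : ρ s w = w
    · exact ⟨w, w0, wa, wz, e⟩
    refine ⟨w + ρ s w, fun e' => e (eq_of_add e').symm, by rw [map_add, ← sa, wa], ?_, by
      rw [map_add, ss, add_comm]⟩
    have := sr (ρ r w)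
    rw [wz, sr, r4] at this
    rw [map_add, map_add, wz, ← this]
  have bb : ρ b (ρ b v) = v + ρ b v :=
    (eq_of_add (h.fix0 hfaith hirr (by simp only [map_add, ab, va]) (norm3 ρ h.b3 v))).symm
  let φ : W →ₗ[ZMod 2] M :=
    { toFun := fun x => x.1 • v + x.2.1 • ρ b v + x.2.2.1 • ρ r v + x.2.2.2 • ρ r (ρ b v)
      map_add' := fun x y => by simp only [Prod.fst_add, Prod.snd_add, add_smul]; abel
      map_smul' := fun c x => by simp [mul_smul] }
  have φd : ∀ x, φ x = x.1 • v + x.2.1 • ρ b v + x.2.2.1 • ρ r v + x.2.2.2 • ρ r (ρ b v) :=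
    fun _ => rfl
  have ea : ∀ x, ρ a (φ x) = φ (a' x) := fun x => by
    have e1 : ρ a (ρ r (ρ b v)) = ρ r v := by rw [ar, b3]
    have e2 : ρ a (ρ r v) = ρ r v + ρ r (ρ b v) := by rw [ar, bb, map_add]
    simp only [φd, a', map_add, map_smul, va, ab, e1, e2, add_smul, smul_add]
    abel
  have eb : ∀ x, ρ b (φ x) = φ (b' x) := fun x => by
    simp only [φd, b', map_add, map_smul, ← ra, ab, va, bb, add_smul, smul_add]
    abel
  have er : ∀ x, ρ r (φ x) = φ (r' x) := fun x => by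
    have : ρ r (ρ r (ρ b v)) = v + ρ b v := by rw [rb, ra, ra, vz, bb]
    simp only [φd, r', map_add, map_smul, vz, this, add_smul, smul_add]
    abel
  have es : ∀ x, ρ s (φ x) = φ (s' x) := fun x => by
    have e1 : ρ r (ρ r (ρ b v)) = v + ρ b v := by rw [rb, ra, ra, vz, bb]
    have e2 : ρ s (ρ r (ρ b v)) = ρ r (ρ b v) := by
      rw [sr, sb, vs, bb, map_add, map_add, vz, e1, ← add_assoc, add_self', zero_add]
    simp only [φd, s', map_add, map_smul, e2, sb, sr, vs, vz, bb, add_smul, smul_add]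
    abel
  have φ1 : φ (1, 0, 0, 0) = v := by simp [φd]
  have inj : Function.Injective φ := by
    rw [injective_iff_map_eq_zero]
    intro x hx
    by_contra x0
    obtain ⟨i, j, e⟩ := irrW x x0
    have k1 : ∀ (n : ℕ) y, φ y = 0 → φ (a'^[n] y) = 0 := by
      intro n
      induction n with
      | zero => exact fun y hy => hy
      | succ n ih => exact fun y hy => ih _ (by rw [← ea, hy, map_zero])
    have k2 : ∀ (n : ℕ) y, φ y = 0 → φ (r'^[n] y) = 0 := by
      intro n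
      induction n with
      | zero => exact fun y hy => hy
      | succ n ih => exact fun y hy => ih _ (by rw [← er, hy, map_zero])
    apply v0
    rw [← φ1, ← e, ← er, k1 _ _ (by rw [map_add, ← ea, k2 _ _ hx, map_zero, add_zero]), map_zero]
  have sur : Function.Surjective φ := by
    rw [← LinearMap.range_eq_top]
    refine (hirr _ (h.gen (stab ρ _) ?_ ?_ ?_ ?_)).resolve_left fun e => v0 ?_
    · rintro _ ⟨x, rfl⟩; exact ⟨_, (ea x).symm⟩
    · rintro _ ⟨x, rfl⟩; exact ⟨_, (eb x).symm⟩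
    · rintro _ ⟨x, rfl⟩; exact ⟨_, (er x).symm⟩
    · rintro _ ⟨x, rfl⟩; exact ⟨_, (es x).symm⟩
    · have : v ∈ LinearMap.range φ := ⟨_, φ1⟩
      rwa [e, Submodule.mem_bot] at this
  let e := Equiv.ofBijective φ ⟨inj, sur⟩
  refine ⟨by rw [← Nat.card_congr e]; simp, ?_, ?_⟩
  · rw [← Nat.card_congr (e.subtypeEquiv (p := fun x => s' x = x ∧ r' (r' x) = x) fun x => ?_),
      Nat.card_eq_fintype_card]
    · decide
    · change _ ↔ ρ s (φ x) = φ x ∧ ρ (r * r) (φ x) = φ x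
      rw [mul_ap, es, er, er, inj.eq_iff, inj.eq_iff]
  · rw [← Nat.card_congr (e.subtypeEquiv (p := fun x => s' (r' x) = x ∧ r' (r' x) = x) fun x => ?_),
      Nat.card_eq_fintype_card]
    · decide
    · change _ ↔ ρ (s * r) (φ x) = φ x ∧ ρ (r * r) (φ x) = φ x
      rw [mul_ap, mul_ap, er, es, er, inj.eq_iff, inj.eq_iff]

theorem Cfg.ex [Nontrivial M] : (∃ m : M, m ≠ 0 ∧ ρ a m = m) ∨
    ∃ m : M, m ≠ 0 ∧ ρ (a * (b * b)) m = m := by
  have inj : ∀ (g : S) (m : M), ρ g m = 0 → m = 0 := fun g m e => by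
    have := mul_ap ρ g⁻¹ g m
    rw [e, map_zero] at this
    simpa using this
  have ab : ∀ m, ρ a (ρ b m) = ρ b (ρ a m) := fun m => by simpa [mul_ap] using mv ρ h.ab m
  have ra : ∀ m, ρ r (ρ a m) = ρ b (ρ r m) := fun m => by simpa [mul_ap] using mv ρ h.ra m
  have rb : ∀ m, ρ r (ρ b m) = ρ a (ρ a (ρ r m)) := fun m => by simpa [mul_ap] using mv ρ h.rb m
  have ar : ∀ m, ρ a (ρ r m) = ρ r (ρ b (ρ b m)) := fun m => by simpa [mul_ap] using mv ρ h.ar m
  have a3 := cube ρ h.a3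
  have b3 := cube ρ h.b3
  by_contra hc
  push Not at hc
  obtain ⟨h1, h2⟩ := hc
  have k1 : ∀ m, ρ a (ρ a m) = m + ρ a m := fun m => by
    by_contra e
    exact h1 _ (fun e' => e (eq_of_add e').symm) (norm3 ρ h.a3 m)
  have k2 : ∀ m, ρ b (ρ b m) = m + ρ b m := fun m => by
    by_contra e
    refine h1 (ρ r (m + ρ b m + ρ b (ρ b m))) (fun e' => e (eq_of_add (inj _ _ e')).symm) ?_
    rw [ar, norm3 ρ h.b3, norm3 ρ h.b3]
  obtain ⟨m, m0⟩ := exists_ne (0 : M)
  by_cases e : ρ a m = ρ b m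
  · exact h2 m m0 (by rw [mul_ap, mul_ap, ab, ab, e, b3])
  · refine h2 (ρ r (ρ a m + ρ b m)) (fun e' => e (eq_of_add (inj _ _ e'))) ?_
    rw [mul_ap, mul_ap, ← ra, ← ra, ar]
    have e1 : ρ b (ρ a (ρ a m + ρ b m)) = ρ a m + ρ b m := by
      rw [map_add, map_add, k1, ← ab (ρ b m), k2, map_add, map_add, ab]
      rw [← add_zero (ρ a m + ρ b m), ← add_self' (ρ b (ρ a m))]; abel
    rw [← ab (ρ a _), e1, e1]

end

open DihedralGroup in
def Bk (i : ZMod 4) : Subgroup (DihedralGroup 4) where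
  carrier := {x | x = r 0 ∨ x = r 2 ∨ x = sr i ∨ x = sr (i + 2)}
  one_mem' := Or.inl rfl
  mul_mem' {x y} := by
    simp only [Set.mem_setOf_eq]; revert x y i; decide
  inv_mem' {x} := by
    simp only [Set.mem_setOf_eq]; revert x i; decide

open DihedralGroup in
theorem mem_Bk {i : ZMod 4} {x : DihedralGroup 4} :
    x ∈ Bk i ↔ x = r 0 ∨ x = r 2 ∨ x = sr i ∨ x = sr (i + 2) := Iff.rfl

theorem card_Bk (i : ZMod 4) : Nat.card (Bk i) = 4 := by
  rw [Nat.card_congr (Equiv.subtypeEquivRight fun x => mem_Bk), Nat.card_eq_fintype_card]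
  revert i; decide

theorem Bk_cases (i : ZMod 4) (B : Subgroup (DihedralGroup 4)) (h : ∀ x ∈ B, x ^ 2 = 1) :
    B ≤ Bk i ∨ B ≤ Bk (i + 1) := by
  by_contra hc
  push Not at hc
  obtain ⟨x, hx, hx'⟩ := SetLike.not_le_iff_exists.1 hc.1
  obtain ⟨y, hy, hy'⟩ := SetLike.not_le_iff_exists.1 hc.2
  have h1 := h x hx
  have h2 := h y hy
  have h3 := h _ (mul_mem hx hy)
  rw [mem_Bk] at hx' hy'
  clear hx hy hc h
  revert x y i; decide

section
open DihedralGroup Subgroup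
variable {S : Type*} [Group S] [Finite S] {A : Subgroup S} [nA : A.Normal]
  (hA : Cfsg.IsElementaryAbelian 3 A) (hA9 : Nat.card ↥A = 9)
include hA

theorem cmA {x y : S} (hx : x ∈ A) (hy : y ∈ A) : x * y = y * x :=
  congrArg Subtype.val (hA.1.is_comm.comm ⟨x, hx⟩ ⟨y, hy⟩)

def InvS (g : S) : Subgroup S where
  carrier := {y | y ∈ A ∧ g * y * g⁻¹ = y⁻¹}
  one_mem' := ⟨one_mem _, by simp⟩
  mul_mem' {x y} hx hy := ⟨mul_mem hx.1 hy.1, by
    rw [cmA hA hx.1 hy.1, mul_inv_rev, ← hx.2, ← hy.2, cmA hA hy.1 hx.1]; group⟩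
  inv_mem' {x} hx := ⟨inv_mem hx.1, by
    rw [show g * x⁻¹ * g⁻¹ = (g * x * g⁻¹)⁻¹ by group, hx.2]⟩

theorem inv_eq {x : S} (hx : x ∈ A) : x⁻¹ = x * x := by
  rw [inv_eq_iff_mul_eq_one, ← pow_three, hA.2 x hx]

theorem eq_one_of {x : S} (hx : x ∈ A) (h : x = x⁻¹) : x = 1 := by
  rw [inv_eq hA hx] at h
  exact left_eq_mul.1 h

include hA9 in
theorem sub3 {H : Subgroup S} (h1 : H ≤ A) (h2 : ∃ y ∈ A, y ∉ H) {x : S} (hx : x ∈ H) (x1 : x ≠ 1) :
    H ≤ zpowers x := by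
  have o : orderOf x = 3 := orderOf_eq_prime (hA.2 x (h1 hx)) x1
  have d1 : Nat.card H ∣ 3 ^ 2 := (card_dvd_of_le h1).trans hA9.dvd
  obtain ⟨k, hk, e⟩ := (Nat.dvd_prime_pow Nat.prime_three).1 d1
  have k2 : k ≠ 2 := by
    rintro rfl
    obtain ⟨y, hy, hy'⟩ := h2
    exact hy' (eq_of_le_of_card_ge h1 (by rw [e, hA9]; norm_num) ▸ hy)
  refine (eq_of_le_of_card_ge (zpowers_le.2 hx) ?_).ge
  rw [Nat.card_zpowers, o, e]
  calc 3 ^ k ≤ 3 ^ 1 := Nat.pow_le_pow_right (by norm_num) (by omega)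
    _ = 3 := rfl

theorem fixm {g y : S} (hg : g * g = 1) (hy : y ∈ A) :
    y * (g * y * g⁻¹) ∈ A ⊓ centralizer {g} := by
  refine ⟨mul_mem hy (nA.conj_mem y hy g), mem_centralizer_singleton_iff.2 ?_⟩
  conv_rhs => rw [cmA hA hy (nA.conj_mem y hy g)]
  calc y * (g * y * g⁻¹) * g = y * g * y := by group
    _ = (g * g) * y * g * y * 1 := by rw [hg]; group
    _ = _ := by rw [inv_eq_of_mul_eq_one_right hg]; group

theorem invm {g y : S} (hg : g * g = 1) (hy : y ∈ A) :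
    y * (g * y * g⁻¹)⁻¹ ∈ InvS hA g := by
  refine ⟨mul_mem hy (inv_mem (nA.conj_mem y hy g)), ?_⟩
  have : g⁻¹ = g := inv_eq_of_mul_eq_one_right hg
  calc g * (y * (g * y * g⁻¹)⁻¹) * g⁻¹ = g * y * g⁻¹ * (g * g) * y⁻¹ * (g * g)⁻¹ := by group
    _ = _ := by rw [hg]; group

variable (hAC : Subgroup.centralizer (A : Set S) = A) {f : DihedralGroup 4 →* S}
  (hf : Function.Injective f) (hAX : A ⊔ f.range = ⊤)
include hAC hf hA9

theorem faith {d : DihedralGroup 4} (d1 : d ≠ 1) : ∃ y ∈ A, y * f d ≠ f d * y := by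
  by_contra hc
  push Not at hc
  have h1 : f d ∈ A := hAC ▸ hc
  have h2 := hA.2 _ h1
  rw [← map_pow, ← map_one f, hf.eq_iff] at h2
  clear hc h1
  revert d; decide

theorem zinv {y : S} (hy : y ∈ A) : f (r 2) * y * (f (r 2))⁻¹ = y⁻¹ := by
  have zz : f (r 2) * f (r 2) = 1 := by rw [← map_mul, ← map_one f]; rfl
  have rr : f (r 1) * f (r 1) = f (r 2) := by rw [← map_mul]; rfl
  by_contra hne
  obtain ⟨w, hw, hw'⟩ := faith hA hA9 hAC hf (d := r 2) (by decide)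
  have hd := invm hA zz hw
  set d := w * (f (r 2) * w * (f (r 2))⁻¹)⁻¹
  have d1 : d ≠ 1 := fun e => hw' (by
    rw [mul_inv_eq_one] at e
    conv_lhs => rw [e]
    group)
  have h1 := sub3 hA hA9 (H := InvS hA (f (r 2))) (fun x hx => hx.1) ⟨y, hy, fun h => hne h.2⟩ hd d1
  have h2 : f (r 1) * d * (f (r 1))⁻¹ ∈ InvS hA (f (r 2)) := by
    refine ⟨nA.conj_mem _ hd.1 _, ?_⟩
    have := hd.2
    rw [← rr] at this ⊢
    calc _ = f (r 1) * (f (r 1) * f (r 1) * d * (f (r 1) * f (r 1))⁻¹) * (f (r 1))⁻¹ := by group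
      _ = _ := by rw [this]; group
  obtain ⟨k, hk⟩ := mem_zpowers_iff.1 (h1 h2)
  have h3 : d ^ (k * k) = d⁻¹ := by
    rw [← hd.2, ← rr, zpow_mul, hk, conj_zpow, hk]; group
  have o : orderOf d = 3 := orderOf_eq_prime (hA.2 d hd.1) d1
  rw [← zpow_neg_one, zpow_eq_zpow_iff_modEq, o] at h3
  have : ∀ x : ZMod 3, x * x ≠ -1 := by decide
  refine this k ?_
  have := (ZMod.intCast_eq_intCast_iff _ _ 3).2 h3
  simpa using this

theorem exa (i : ZMod 4) : ∃ a ∈ A, a ≠ 1 ∧ f (sr i) * a = a * f (sr i) := by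
  have ss : f (sr i) * f (sr i) = 1 := by rw [← map_mul, sr_mul_self, map_one]
  obtain ⟨w, hw, hw'⟩ := faith hA hA9 hAC hf (d := sr i * r 2) (fun h => nomatch h)
  have := fixm hA ss hw
  refine ⟨_, this.1, fun e => hw' ?_, (mem_centralizer_singleton_iff.1 this.2).symm⟩
  have e1 := zinv hA hA9 hAC hf hw
  rw [mul_eq_one_iff_eq_inv] at e
  rw [map_mul]
  calc w * (f (sr i) * f (r 2)) = f (sr i) * w⁻¹ * f (r 2) := by
        conv_lhs => rw [e]
        group
    _ = _ := by rw [← e1]; group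

include hAX in
theorem cfg (i : ZMod 4) {a : S} (ha : a ∈ A) (a1 : a ≠ 1) (h : f (sr i) * a = a * f (sr i)) :
    Cfg a (f (r 1) * a * (f (r 1))⁻¹) (f (r 1)) (f (sr i)) := by
  have ss : f (sr i) * f (sr i) = 1 := by rw [← map_mul, sr_mul_self, map_one]
  have rr : f (r 1) * f (r 1) = f (r 2) := by rw [← map_mul]; rfl
  have sr' : f (sr i) * f (r 1) = (f (r 1))⁻¹ * f (sr i) := by
    rw [← map_inv, ← map_mul, ← map_mul]; simp
  have r4 : f (r 1) * (f (r 1) * (f (r 1) * f (r 1))) = 1 := by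
    rw [← map_mul, ← map_mul, ← map_mul, ← map_one f]; rfl
  have za := zinv hA hA9 hAC hf ha
  rw [← rr] at za
  have hb := nA.conj_mem a ha (f (r 1))
  have ia := inv_eq hA ha
  have ib := inv_eq hA hb
  have gen : ∀ P : Submonoid S, f (r 1) ∈ P → f (sr i) ∈ P → ∀ d, f d ∈ P := by
    intro P h1 h2 d
    have : ∀ (i : ZMod 4) (d : DihedralGroup 4), ∃ n : Fin 4, d = r 1 ^ (n : ℕ) ∨
      d = sr i * r 1 ^ (n : ℕ) := by decide
    obtain ⟨n, rfl | rfl⟩ := this i d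
    · rw [map_pow]; exact pow_mem h1 _
    · rw [map_mul, map_pow]; exact mul_mem h2 (pow_mem h1 _)
  obtain ⟨w, hw, hw'⟩ := faith hA hA9 hAC hf (d := sr i) (fun h => nomatch h)
  generalize f (r 1) = R at *
  generalize f (sr i) = s at *
  set b := R * a * R⁻¹ with hbd
  have rb : R * b * R⁻¹ = a⁻¹ := by rw [← za, hbd]; group
  have sb : s * b * s⁻¹ = b⁻¹ := by
    have e1 : R⁻¹ * a * R = b⁻¹ := by
      rw [← inv_inv a, ← rb]; group
    calc s * b * s⁻¹ = (s * R) * a * (s * R)⁻¹ := by rw [hbd]; group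
      _ = R⁻¹ * (s * a) * s⁻¹ * R := by rw [sr']; group
      _ = _ := by rw [h, ← e1]; group
  have b1 : b ≠ 1 := fun e => a1 (by simpa [hbd] using e)
  refine ⟨by rw [← ia]; simp, by rw [← ib]; simp, a1, cmA hA ha hb, by rw [hbd]; group,
    by rw [← mul_assoc a, ← ia, ← rb]; group, by rw [← ib, ← inv_inv a, ← rb]; group, h,
    by rw [← mul_assoc b, ← ib, ← sb]; group, ss, r4, by
      rw [sr', inv_eq_of_mul_eq_one_right r4]; group, fun P pa pb pr ps g => ?_⟩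
  obtain ⟨y, hy, _, ⟨d, rfl⟩, rfl⟩ := mem_sup_of_normal_left.1 (hAX ▸ mem_top g : g ∈ A ⊔ f.range)
  refine mul_mem ?_ (gen P pr ps d)
  have k : ∀ x ∈ P, ∀ u ∈ zpowers x, u ∈ P := fun x hx u hu =>
    Submonoid.powers_le.2 hx (mem_powers_iff_mem_zpowers.2 hu)
  have h1 := k a pa _ (sub3 hA hA9 (H := A ⊓ centralizer {s}) inf_le_left
    ⟨w, hw, fun e => hw' (mem_centralizer_singleton_iff.1 e.2)⟩
    ⟨ha, mem_centralizer_singleton_iff.2 h.symm⟩ a1 (fixm hA ss hy))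
  have h2 := k b pb _ (sub3 hA hA9 (H := InvS hA s) (fun x hx => hx.1)
    ⟨a, ha, fun e => a1 (eq_one_of hA ha (by rw [← e.2, h]; group))⟩ ⟨hb, sb⟩ b1 (invm hA ss hy))
  have h3 : y * (s * y * s⁻¹) * (y * (s * y * s⁻¹)⁻¹) = y⁻¹ := by
    rw [cmA hA hy (inv_mem (nA.conj_mem y hy s)), inv_eq hA hy]; group
  have h4 := mul_mem h1 h2
  rw [h3] at h4
  have := mul_mem h4 h4
  rwa [← inv_eq hA (inv_mem hy), inv_inv] at this

end

/-- Let S be a finite group with a normal elementary abelian subgroup A of order 9 that is self-centralizing (C_S(A) = A), and a dihedral subgroup X of order 8 with S = AX. Let M be a finite-dimensional module for S over the field with two elements that is faithful and irreducible. Then M has 16 elements, and X contains exactly one subgroup B of order 4 and exponent 2 whose fixed points on M form a subspace with exactly 2 elements (equivalently, M is free of rank one over the group algebra of B).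 -/
theorem result {S : Type*} [Group S] [Finite S]
    (A : Subgroup S) [A.Normal] (hA : Cfsg.IsElementaryAbelian 3 A) (hA9 : Nat.card ↥A = 9)
    (hAC : Subgroup.centralizer (A : Set S) = A) (X : Subgroup S) (hX : Nonempty (↥X ≃* DihedralGroup 4)) (hAX : A ⊔ X = ⊤)
    {M : Type*} [AddCommGroup M] [Module (ZMod 2) M] [Finite M] (ρ : Representation (ZMod 2) S M)
    (hfaith : Function.Injective ρ)
    (hirr : ∀ N : Submodule (ZMod 2) M, (∀ s : S, ∀ m ∈ N, ρ s m ∈ N) → N = ⊥ ∨ N = ⊤) (hM : Nontrivial M) :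
    Nat.card M = 16 ∧
      ∃! B : Subgroup S, B ≤ X ∧ Nat.card ↥B = 4 ∧ (∀ b ∈ B, b ^ 2 = 1) ∧
        Nat.card {m : M // ∀ b ∈ B, ρ b m = m} = 2 := by
  classical
  obtain ⟨e⟩ := hX
  let f : DihedralGroup 4 →* S := X.subtype.comp e.symm.toMonoidHom
  have hf : Function.Injective f := X.subtype_injective.comp e.symm.injective
  have hr : f.range = X := by
    ext x
    constructor
    · rintro ⟨d, rfl⟩; exact (e.symm d).2
    · intro hx; exact ⟨e ⟨x, hx⟩, by simp [f]⟩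
  rw [← hr] at hAX ⊢
  have key : ∃ i : ZMod 4, ∃ a ∈ A, a ≠ 1 ∧ f (.sr i) * a = a * f (.sr i) ∧
      ∃ m : M, m ≠ 0 ∧ ρ a m = m := by
    obtain ⟨a, ha, a1, h⟩ := exa hA hA9 hAC hf 0
    have c := cfg hA hA9 hAC hf hAX 0 ha a1 h
    rcases c.ex hfaith hirr with h1 | h1
    · exact ⟨0, a, ha, a1, h, h1⟩
    have hb := (inferInstance : A.Normal).conj_mem a ha (f (.r 1))
    refine ⟨1, _, mul_mem ha (mul_mem hb hb), fun e => a1 ?_, ?_, h1⟩
    · rw [← inv_eq hA hb, mul_inv_eq_one] at e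
      have := c.sb
      rw [← e, c.sa, ← mul_assoc] at this
      exact left_eq_mul.1 (mul_right_cancel this)
    · rw [show f (.sr 1) = f (.sr 0) * f (.r 1) by rw [← map_mul]; rfl]
      generalize f (.r 1) * a * (f (.r 1))⁻¹ = b at *
      generalize f (.r 1) = R at *
      generalize f (.sr 0) = s at *
      calc s * R * (a * (b * b)) = s * ((R * a) * b * b) := by group
        _ = s * b * (R * b) * b := by rw [c.ra]; group
        _ = s * b * a * a * (R * b) := by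
          conv_lhs => rw [c.rb]
          group
        _ = (s * b) * (a * (a * a)) * a * R := by rw [c.rb]; group
        _ = b * b * (s * a) * R := by rw [c.a3, c.sb]; group
        _ = b * (b * a) * (s * R) := by rw [c.sa]; group
        _ = (b * a) * b * (s * R) := by
          conv_lhs => rw [← c.ab]
          group
        _ = _ := by rw [← c.ab]; group
  obtain ⟨i, a, ha, a1, h, hm⟩ := key
  obtain ⟨h1, h2, h3⟩ := (cfg hA hA9 hAC hf hAX i ha a1 h).main hfaith hirr hm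
  rw [← map_mul] at h2 h3
  rw [← map_mul] at h3
  have hF : ∀ j : ZMod 4, Nat.card {m : M // ∀ b ∈ (Bk j).map f, ρ b m = m} =
      Nat.card {m : M // ρ (f (.sr j)) m = m ∧ ρ (f (.r 1 * .r 1)) m = m} := by
    intro j
    refine Nat.card_congr (Equiv.subtypeEquivRight fun m => ⟨fun h => ⟨h _ ⟨_, by simp [mem_Bk], rfl⟩,
      h _ ⟨_, Or.inr (Or.inl rfl), rfl⟩⟩, ?_⟩)
    rintro ⟨h1, h2⟩ _ ⟨d, rfl | rfl | rfl | rfl, rfl⟩
    · simp
    · exact h2
    · exact h1
    · rw [show DihedralGroup.sr (j + 2) = .sr j * (.r 1 * .r 1) from rfl, map_mul, mul_ap, h2, h1]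
  have hc : ∀ j, Nat.card ((Bk j).map f) = 4 := fun j => by
    rw [Subgroup.card_map_of_injective hf, card_Bk]
  refine ⟨h1, (Bk (i + 1)).map f, ⟨Subgroup.map_le_range _ _, hc _, ?_, (hF _).trans h3⟩, ?_⟩
  · rintro _ ⟨d, hd, rfl⟩
    rw [← map_pow, ← map_one f]
    congr 1
    rw [SetLike.mem_coe, mem_Bk] at hd
    clear h h2 h3
    revert d i; decide
  · rintro B ⟨b1, b2, b3, b4⟩
    have k : ∀ j, B.comap f ≤ Bk j → B = (Bk j).map f := fun j hj =>
      Subgroup.eq_of_le_of_card_ge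
        (by rw [← Subgroup.map_comap_eq_self b1]; exact Subgroup.map_mono hj) (by rw [hc, b2])
    rcases Bk_cases i (B.comap f) (fun x hx => hf (by rw [map_pow, map_one]; exact b3 _ hx))
      with h4 | h4
    · rw [k _ h4, hF, h2] at b4
      omega
    · exact k _ h4

end Cfsg.Agent.S4407
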