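import Cfsg.Statements.S4410
import Cfsg.Agent.Lib.Grp.Fitting
import Mathlib.Tactic

set_option autoImplicit false
open Cfsg

namespace Cfsg.Agent.S4410

section Aux
variable {V : Type*} [AddCommGroup V] [Module (ZMod 2) V]

theorem add_self' (v : V) : v + v = 0 := by
  have : (2 : ZMod 2) • v = 0 := by rw [show (2 : ZMod 2) = 0 from rfl, zero_smul]
  rwa [two_smul] at this

/-- `T` moves each vector by `0` or `w`. -/
def Tr (T : V ≃ₗ[ZMod 2] V) (w : V) : Prop := T * T = 1 ∧ ∀ v, T v = v ∨ T v = v + w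

theorem Tr.conj {T : V ≃ₗ[ZMod 2] V} {w : V} (h : Tr T w) (g : V ≃ₗ[ZMod 2] V) :
    Tr (g * T * g⁻¹) (g w) := by
  refine ⟨by rw [show g * T * g⁻¹ * (g * T * g⁻¹) = g * (T * T) * g⁻¹ by group, h.1]; group,
    fun v => ?_⟩
  have e : g (g⁻¹ v) = v := by rw [← LinearEquiv.mul_apply, mul_inv_cancel]; rfl
  rcases h.2 (g⁻¹ v) with e1 | e1
  · left; rw [LinearEquiv.mul_apply, LinearEquiv.mul_apply, e1, e]
  · right; rw [LinearEquiv.mul_apply, LinearEquiv.mul_apply, e1, map_add, e]

theorem Tr.key {T T' : V ≃ₗ[ZMod 2] V} {w w' : V} (h : Tr T w) (h' : Tr T' w') (hf : T w' = w') :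
    (T * T') ^ 4 = 1 := by
  have hTT : ∀ v, T (T v) = v := fun v => by rw [← LinearEquiv.mul_apply, h.1]; rfl
  have hTT' : ∀ v, T' (T' v) = v := fun v => by rw [← LinearEquiv.mul_apply, h'.1]; rfl
  have he : ∀ v, ∃ d, T' v = v + d ∧ T d = d ∧ T' d = d := by
    intro v
    rcases h'.2 v with e | e
    · exact ⟨0, by simpa using e, by simp, by simp⟩
    · refine ⟨w', e, hf, ?_⟩
      have := hTT' v
      rw [e, map_add, e, add_assoc, add_eq_left] at this
      rw [← add_right_inj w', this, add_self']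
  ext v
  have hU : ∀ v, ∃ d, T (T' (T (T' v))) = v + d ∧ T d = d ∧ T' d = d := by
    intro v
    obtain ⟨d, e, e1, e2⟩ := he v
    obtain ⟨d', e', e1', e2'⟩ := he (T v)
    refine ⟨d' + d, ?_, by rw [map_add, e1, e1'], by rw [map_add, e2, e2']⟩
    rw [e, map_add, e1, map_add, e', e2, map_add, map_add, hTT, e1', e1, add_assoc]
  obtain ⟨d, e, e1, e2⟩ := hU v
  have : ((T * T') ^ 4) v = T (T' (T (T' (T (T' (T (T' v))))))) := by
    simp [pow_succ]
  rw [this, e]
  simp only [map_add, e, e1, e2]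
  rw [add_assoc, add_self', add_zero]; rfl

end Aux

theorem eq_one_of_odd {G : Type*} [Group G] [Finite G] {B : Subgroup G} (hB : ¬ 2 ∣ Nat.card B)
    {y : G} (hy : y ∈ B) (h : y ^ 4 = 1) : y = 1 := by
  have hd : orderOf y ∣ Nat.card B := Subgroup.orderOf_dvd_natCard B hy
  have h4 : orderOf y ∣ 2 ^ 2 := orderOf_dvd_of_pow_eq_one h
  have hc : Nat.Coprime (2 ^ 2) (Nat.card B) :=
    Nat.Coprime.pow_left _ ((Nat.Prime.coprime_iff_not_dvd Nat.prime_two).2 hB)
  have : orderOf y = 1 := Nat.eq_one_of_dvd_coprimes hc h4 hd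
  simpa using this

open Subgroup in

/-- Let V be a finite-dimensional vector space over the field with two elements and S a solvable group of linear automorphisms of V with O₂(S) = 1. If P ∈ S has order 4 and (P − 1)³ = 0 on V, then the image of (P − 1)² has at least 4 elements; equivalently, in the decomposition of V into indecomposable modules for the cyclic group generated by P, at least two summands have dimension 3. -/
theorem result
    {V : Type*} [AddCommGroup V] [Module (ZMod 2) V] [Finite V]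
    (S : Subgroup (V ≃ₗ[ZMod 2] V)) (hS : Group.IsSolvable ↥S) (hO2 : Cfsg.pCore 2 ↥S = ⊥)
    (P : V ≃ₗ[ZMod 2] V) (hPS : P ∈ S) (hP4 : orderOf P = 4)
    (hcub : ((P : V →ₗ[ZMod 2] V) - LinearMap.id) ^ 3 = 0) :
    4 ≤ Nat.card ↥(LinearMap.range (((P : V →ₗ[ZMod 2] V) - LinearMap.id) ^ 2)) := by
  classical
  have : Fact (Nat.Prime 2) := ⟨Nat.prime_two⟩
  have : Finite (V ≃ₗ[ZMod 2] V) := Finite.of_injective (fun f : V ≃ₗ[ZMod 2] V => (f : V → V))
    DFunLike.coe_injective
  set N := ((P : V →ₗ[ZMod 2] V) - LinearMap.id) ^ 2 with hN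
  have hNv : ∀ v, (P * P) v = v + N v := by
    intro v
    simp only [hN, pow_two, Module.End.mul_apply, LinearMap.sub_apply, LinearMap.id_apply, map_sub,
      LinearEquiv.coe_coe, LinearEquiv.mul_apply]
    have h1 := add_self' v
    have h2 := add_self' (P v)
    calc P (P v) = P (P v) + (v + v) - (P v + P v) := by rw [h1, h2]; simp
      _ = _ := by abel
  have hP1 : P * P * (P * P) = 1 := by
    have := pow_orderOf_eq_one P
    rw [hP4] at this
    rw [← this]; simp [pow_succ, mul_assoc]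
  have hP2 : P * P ≠ 1 := by
    intro e
    have : orderOf P ∣ 2 := orderOf_dvd_of_pow_eq_one (by rw [pow_two, e])
    rw [hP4] at this; omega
  by_contra hlt
  -- the range has at most two elements
  obtain ⟨w, hw⟩ : ∃ w, Tr (P * P) w := by
    by_cases h0 : ∀ v, N v = 0
    · exact ⟨0, hP1, fun v => Or.inl (by rw [hNv, h0, add_zero])⟩
    · push Not at h0
      obtain ⟨u, hu⟩ := h0
      refine ⟨N u, hP1, fun v => ?_⟩
      by_contra hc
      push Not at hc
      rw [hNv] at hc
      have h1 : N v ≠ 0 := fun e => hc.1 (by rw [e, add_zero])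
      have h2 : N v ≠ N u := fun e => hc.2 (by rw [e])
      apply hlt
      have h3 : N u + N v ≠ 0 := fun e => h2 (by
        rw [← add_right_inj (N u), e, add_self'])
      have hs : ({0, N u, N v, N u + N v} : Set V) ⊆ (LinearMap.range N : Set V) := by
        intro x hx
        simp only [Set.mem_insert_iff, Set.mem_singleton_iff] at hx
        rcases hx with rfl | rfl | rfl | rfl
        · exact zero_mem _
        · exact ⟨u, rfl⟩
        · exact ⟨v, rfl⟩
        · exact ⟨u + v, by simp⟩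
      have hc4 : ({0, N u, N v, N u + N v} : Set V).ncard = 4 := by
        rw [Set.ncard_insert_of_notMem, Set.ncard_insert_of_notMem, Set.ncard_pair]
        · simpa using hu
        · simp [h2.symm, h1]
        · simp [hu.symm, h1.symm, h3.symm]
      rw [← hc4]
      exact Set.ncard_le_ncard hs (Set.toFinite _)
  have hF : ¬ 2 ∣ Nat.card (fittingSubgroup S) := fun h =>
    CA.Fitting.not_dvd_card_pPrimeCore (p := 2) (G := S)
      (h.trans (card_dvd_of_le (CA.Fitting.fitting_le_pPrimeCore_of_pCore_eq_bot 2 hO2)))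
  have hFn : (fittingSubgroup S).Normal := inferInstance
  let p : S := ⟨P, hPS⟩
  set t : S := p * p with ht
  have htt : t * t = 1 := Subtype.ext hP1
  have ht1 : t ≠ 1 := fun e => hP2 (congrArg Subtype.val e)
  -- two elements of the coset `tF` with transvection data
  have key : ∀ (a b : S) (u u' : V), Tr (a : V ≃ₗ[ZMod 2] V) u → Tr (b : V ≃ₗ[ZMod 2] V) u' →
      a * t ∈ fittingSubgroup S → b * t ∈ fittingSubgroup S → (a : V ≃ₗ[ZMod 2] V) u' = u' → a = b := by
    intro a b u u' ha hb h1 h2 hf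
    have hbb : b * b = 1 := Subtype.ext hb.1
    have hm : a * b ∈ fittingSubgroup S := by
      have := mul_mem h1 (inv_mem h2)
      rwa [show a * t * (b * t)⁻¹ = a * b⁻¹ by group, inv_eq_of_mul_eq_one_left hbb] at this
    have := eq_one_of_odd hF hm (Subtype.ext (ha.key hb hf))
    rw [eq_inv_of_mul_eq_one_left this, inv_eq_of_mul_eq_one_left hbb]
  have key' : ∀ (a b : S) (u u' : V), Tr (a : V ≃ₗ[ZMod 2] V) u → Tr (b : V ≃ₗ[ZMod 2] V) u' →
      a * t ∈ fittingSubgroup S → b * t ∈ fittingSubgroup S → a ≠ b →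
      (a : V ≃ₗ[ZMod 2] V) u' = u' + u := fun a b u u' ha hb h1 h2 hne =>
    (ha.2 u').resolve_left fun e => hne (key a b u u' ha hb h1 h2 e)
  obtain ⟨x, hx, hxt⟩ : ∃ x ∈ fittingSubgroup S, x * t * x⁻¹ ≠ t := by
    by_contra hc
    push Not at hc
    have : t ∈ fittingSubgroup S := CA.Fitting.centralizer_fitting_le fun x hx => by
      rw [← mul_inv_eq_iff_eq_mul]; exact hc x hx
    exact ht1 (eq_one_of_odd hF this (by rw [show t ^ 4 = (t * t) * (t * t) by simp [pow_succ, mul_assoc], htt, one_mul]))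
  have hti : t⁻¹ = t := inv_eq_of_mul_eq_one_left htt
  have m1 : t * t ∈ fittingSubgroup S := by rw [htt]; exact one_mem _
  have m2 : x * t * x⁻¹ * t ∈ fittingSubgroup S := by
    have := mul_mem hx (hFn.conj_mem _ (inv_mem hx) t)
    rwa [hti, ← mul_assoc, ← mul_assoc] at this
  have mc : ∀ g : S, g * t * g⁻¹ = t → g * (x * t * x⁻¹) * g⁻¹ * t ∈ fittingSubgroup S := by
    intro g hg
    have := hFn.conj_mem _ m2 g
    rwa [show g * (x * t * x⁻¹ * t) * g⁻¹ = g * (x * t * x⁻¹) * g⁻¹ * (g * t * g⁻¹) by group, hg] at this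
  have hpt : p * t * p⁻¹ = t := by rw [ht]; group
  have htt' : t * t * t⁻¹ = t := by group
  have T1 : Tr (t : V ≃ₗ[ZMod 2] V) w := hw
  have T2 : Tr ((x * t * x⁻¹ : S) : V ≃ₗ[ZMod 2] V) ((x : V ≃ₗ[ZMod 2] V) w) := T1.conj x
  set s : S := x * t * x⁻¹ with hs
  set w2 := (x : V ≃ₗ[ZMod 2] V) w
  have T3 : Tr ((p * s * p⁻¹ : S) : V ≃ₗ[ZMod 2] V) (P w2) := T2.conj P
  have T4 : Tr ((t * s * t⁻¹ : S) : V ≃ₗ[ZMod 2] V) ((t : V ≃ₗ[ZMod 2] V) w2) := T2.conj t
  have e12 := key' t s w w2 T1 T2 m1 m2 (Ne.symm hxt)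
  have n32 : p * s * p⁻¹ ≠ s := by
    intro e
    have e' : t * s * t⁻¹ = s := by
      rw [show t * s * t⁻¹ = p * (p * s * p⁻¹) * p⁻¹ by rw [ht]; group, e, e]
    have hss : s * s = 1 := Subtype.ext T2.1
    have h4 : (s * t) ^ 4 = 1 := by
      have hc : Commute s t := by
        rw [mul_inv_eq_iff_eq_mul] at e'; exact e'.symm
      rw [hc.mul_pow, show s ^ 4 = (s * s) * (s * s) by simp [pow_succ, mul_assoc],
        show t ^ 4 = (t * t) * (t * t) by simp [pow_succ, mul_assoc], hss, htt]; simp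
    have := eq_one_of_odd hF m2 h4
    exact hxt (by rw [eq_inv_of_mul_eq_one_left this, hti])
  have n31 : p * s * p⁻¹ ≠ t := by
    intro e
    apply hxt
    rw [← hpt] at e
    simpa using e
  have e31 := key' _ t _ w T3 T1 (mc p hpt) m1 n31
  have e32 := key' _ s _ w2 T3 T2 (mc p hpt) m2 n32
  have e34 := key _ _ _ _ T3 T4 (mc p hpt) (mc t htt') (by
    rw [e12, map_add, e31, e32, add_add_add_comm, add_self', add_zero])
  apply n32
  have : p * (p * s * p⁻¹) * p⁻¹ = p * s * p⁻¹ :=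
    calc _ = t * s * t⁻¹ := by rw [ht]; group
      _ = _ := e34.symm
  exact mul_left_cancel (mul_right_cancel this)

end Cfsg.Agent.S4410
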