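import Cfsg.Statements.S4411
import Cfsg.Agent.Lib.Loc.EqO1
import Cfsg.Agent.Lib.Solv.HH3
import Cfsg.Agent.Lib.Loc.AmbSpe
import Cfsg.Agent.Lib.Grp.Fus3
import Cfsg.Agent.Lib.Odd.PF1d
import Cfsg.Agent.S0618
import Cfsg.Agent.S0609

set_option autoImplicit false
open Cfsg

namespace Cfsg.Agent.S4411

open CA CA.EqO Subgroup CA.BG CA.HH

universe u
variable {p q : ℕ}

theorem hall_pq [hp : Fact p.Prime] (hq : q.Prime) (n : ℕ) : ∀ (G : Type u) [Group G] [Finite G], Nat.card G < n →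
    IsPSolvable p G → ∃ L : Subgroup G, Hall {p, q} L ⊤ := by
  induction n with
  | zero => intro _ _ _ h; omega
  | succ n ih =>
  intro G _ _ hn hs
  have hQ : ∀ (N : Subgroup G) [N.Normal], N ≠ ⊥ → ∃ L : Subgroup G, N ≤ L ∧ PiNat {p, q} (N.relIndex L) ∧
      PiNat ({p, q} : Set ℕ)ᶜ (L.relIndex ⊤) := fun N _ h => by
    obtain ⟨L, hL⟩ := ih (G ⧸ N) (by have := card_quot_lt h; omega) (H12PSolv.psolv_quotient hs N)
    refine ⟨L.comap (QuotientGroup.mk' N), (QuotientGroup.ker_mk' N).ge.trans (ker_le_comap _ _), ?_, ?_⟩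
    · rw [← relIndex_mk, map_comap_eq_self_of_surjective (QuotientGroup.mk'_surjective N)]; exact hL.pi.nat
    · rw [relIndex_top_right, index_comap_of_surjective _ (QuotientGroup.mk'_surjective N), ← relIndex_top_right]
      exact hL.idx
  have hS : ∀ M : Subgroup G, M ≠ ⊤ → PiNat ({p, q} : Set ℕ)ᶜ (M.relIndex ⊤) → ∃ L : Subgroup G, Hall {p, q} L ⊤ :=
    fun M a b => by
      obtain ⟨L, hL⟩ := ih M (by have := card_lt_of_lt a.lt_top; rw [card_top] at this; omega) (H12PSolv.psolv_subgroup hs M)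
      have := hall_map hL M.subtype
      rw [← MonoidHom.range_eq_map, range_subtype] at this
      exact ⟨_, this.of_idx le_top b⟩
  have hN : ∀ (N : Subgroup G) [N.Normal], N ≠ ⊥ → IsPi {p, q} N → ∃ L : Subgroup G, Hall {p, q} L ⊤ := fun N _ a b => by
    obtain ⟨L, l1, l2, l3⟩ := hQ N a
    exact ⟨L, Hall.mk' le_top ((b.inf_left L).of_relIndex l2) l3⟩
  by_cases h0 : (⊤ : Subgroup G) = ⊥
  · exact ⟨⊤, hall_self (h0 ▸ isPi_bot _)⟩
  obtain h1 | h1 := H12PSolv.core_ne_bot hs h0 <;> rw [top_inf_eq] at h1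
  · exact hN _ h1 ((isPi_pcore hp.out).sub (by simp))
  obtain ⟨L, l1, l2, l3⟩ := hQ _ h1
  by_cases h2 : L = ⊤
  swap
  · exact hS L h2 l3
  subst h2
  have h3 := isPi_p'core (G := G) hp.out
  obtain ⟨Q, hQ⟩ := syl_exists hq (pPrimeCore p G)
  by_cases h4 : 𝓝(Q) = ⊤
  · by_cases h5 : Q = ⊥
    · haveI := Fintype.ofFinite G
      have a : Hall ({p, q} : Set ℕ)ᶜ (pPrimeCore p G) ⊤ := Hall.mk' le_top (fun r b c d => d.elim (h3 r b c)
        (Hall.isPi_compl_of_eq_bot (h5 ▸ hQ) r b c)) (by rwa [compl_compl])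
      obtain ⟨R, hR⟩ := PF.exists_sdprod (PF.nrm_top _) a.coprime
      exact ⟨R, compl_compl ({p, q} : Set ℕ) ▸ hR.hall_compl a⟩
    · haveI := normal_of h4.ge
      exact hN Q h5 (hQ.pi.sub (by simp))
  refine hS _ h4 ?_
  rw [AmbSpe.relIndex_eq_of_mul (A := pPrimeCore p G) le_top fun x _ => hQ.syl_frattini hq (top_norm _ ⊤ (mem_top x))]
  exact fun r b c d => d.elim (h3.relIndex _ r b c) fun e => not_dvd_relIndex_of_le hq hQ le_normalizer (e ▸ c)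

theorem tf {G : Type*} [Group G] [Finite G] [hp : Fact p.Prime] (h23 : ¬ ((p = 2 ∧ q = 3) ∨ (p = 3 ∧ q = 2)))
    (hs : IsPSolvable p G) (h : PiNat {p, q} (Nat.card G)) : IsThompsonFactorizable p G := by
  rw [S0609.result]
  by_contra h1
  obtain ⟨a, E, -, -, -, _, ⟨e⟩⟩ := S0618.result (H12PSolv.psolv_quotient hs _) (p'core_quot hp.out) h1
  have b : 6 ∣ Nat.card G := by
    refine Dvd.dvd.trans ?_ ((card_subgroup_dvd_card E).trans (card_quotient_dvd_card _))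
    refine Dvd.dvd.trans ?_ (Nat.card_congr e.toEquiv ▸ card_quotient_dvd_card _)
    rcases a with rfl | rfl <;> rw [Nat.card_eq_fintype_card] <;> decide +kernel
  have c := h 2 Nat.prime_two (Dvd.dvd.trans (by norm_num) b)
  have d := h 3 Nat.prime_three (Dvd.dvd.trans (by norm_num) b)
  simp only [Set.mem_insert_iff, Set.mem_singleton_iff] at c d
  omega

def Sol (p : ℕ) (G : Type*) [Group G] : Prop :=
  ∀ H : Subgroup G, IsPGroup p H → IsPSolvable p (𝓝(H) ⧸ 𝓒(H).subgroupOf 𝓝(H))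

def AA (p q : ℕ) {G : Type*} [Group G] (H : Subgroup G) : Prop :=
  IsPi {p} H ∧ ∃ Y, IsPi {q} Y ∧ Y ≤ 𝓝(H) ∧ ¬ Y ≤ 𝓒(H)

variable {G : Type u} [Group G] [Finite G] [hp : Fact p.Prime]

theorem Sol.sub (h : Sol p G) (M : Subgroup G) : Sol p M := fun H hH => by
  let f : 𝓝(H) →* 𝓝(H.map M.subtype) := (M.subtype.comp 𝓝(H).subtype).codRestrict _ fun x =>
    le_normalizer_map M.subtype (mem_map_of_mem _ x.2)
  refine H12PSolv.psolv_comap (QuotientGroup.map (𝓒(H).subgroupOf 𝓝(H)) (𝓒(H.map M.subtype).subgroupOf _) f ?_) ?_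
    (h _ (hH.map _))
  · rintro x hx _ ⟨y, hy, rfl⟩
    exact congrArg Subtype.val (hx y hy)
  · rw [injective_iff_map_eq_one]
    intro x hx
    obtain ⟨x, rfl⟩ := QuotientGroup.mk_surjective x
    exact (QuotientGroup.eq_one_iff _).2 fun y hy =>
      Subtype.ext ((QuotientGroup.eq_one_iff _).1 hx _ (mem_map_of_mem M.subtype hy))

theorem Sol.quot (h : Sol p G) (W : Subgroup G) [W.Normal] (hW : IsPi {p} W) : Sol p (G ⧸ W) := fun H hH => by
  have hπ := QuotientGroup.mk'_surjective W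
  have e := comap_normalizer_eq_of_surjective H hπ
  let f : 𝓝(H.comap (QuotientGroup.mk' W)) →* 𝓝(H) :=
    ((QuotientGroup.mk' W).comp (Subgroup.subtype _)).codRestrict _ fun x => e.ge x.2
  refine H12PSolv.psolv_map (QuotientGroup.map (𝓒(H.comap (QuotientGroup.mk' W)).subgroupOf _) (𝓒(H).subgroupOf _) f ?_)
    (QuotientGroup.map_surjective_of_surjective _ _ _ ?_ _) (h _ ((isPi_comap _
      ((QuotientGroup.ker_mk' W).symm ▸ hW) (isPi_of_isPGroup hp.out hH)).isPGroup hp.out))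
  · intro x hx y hy
    obtain ⟨y, rfl⟩ := hπ y
    exact (map_mul _ _ _).symm.trans ((congrArg _ (hx y hy)).trans (map_mul _ _ _))
  · refine QuotientGroup.mk_surjective.comp fun y => ?_
    obtain ⟨x, hx⟩ := hπ y.1
    exact ⟨⟨x, e.le (mem_comap.2 (hx ▸ y.2))⟩, Subtype.ext hx⟩

theorem main (hq : q.Prime) (hpq : p ≠ q) (h23 : ¬ ((p = 2 ∧ q = 3) ∨ (p = 3 ∧ q = 2))) (n : ℕ) :
    ∀ (G : Type u) [Group G] [Finite G] (H : Subgroup G), Nat.card G < n → Sol p G → AA p q H →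
    ∃ K : Subgroup G, AA p q K ∧ ¬ p ∣ 𝓝(K).index := by
  induction n with
  | zero => intro _ _ _ _ h; omega
  | succ n ih =>
  intro G _ _ H0 hn hs h0
  by_contra! hcon
  obtain ⟨⟨H1, P⟩, ⟨h1, h1'⟩, m1⟩ := Set.exists_max_image {x : Subgroup G × Subgroup G | AA p q x.1 ∧ Syl p x.2 𝓝(x.1)}
    (fun x => ♯x.2) (Set.toFinite _) (let ⟨P, hP⟩ := syl_exists hp.out 𝓝(H0); ⟨(H0, P), h0, hP⟩)
  obtain ⟨H, ⟨hH, hP⟩, m2⟩ := Set.exists_max_image {H : Subgroup G | AA p q H ∧ Syl p P 𝓝(H)}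
    (fun x => ♯x) (Set.toFinite _) ⟨H1, h1, h1'⟩
  have big : ∀ K S, AA p q K → IsPi {p} S → S ≤ 𝓝(K) → ♯S ≤ ♯P := fun K S a b c =>
    let ⟨T, d, e⟩ := syl_superset hp.out b c
    (card_le_of_le' e).trans (m1 (K, T) ⟨a, d⟩)
  have syl : ∀ K, AA p q K → P ≤ 𝓝(K) → Syl p P 𝓝(K) := fun K a b => syl_of_maximal hp.out b hP.pi fun S c d e =>
    (eq_of_le_of_card_le d (big K S a c e)).symm
  have ns : ∀ M, 𝓝(P) ≤ M → ¬ Syl p P M := fun M a b => not_dvd_relIndex_of_le hp.out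
    (b.syl_of_norm_le hp.out le_top (inf_le_right.trans a)) hP.le (relIndex_top_right 𝓝(H) ▸ hcon H hH)
  have hHP : H ≤ P := hP.le_of_norm' hH.1 le_normalizer hP.le
  have KC : ∀ W ≤ P, W ≠ ⊥ → 𝓝(P) ≤ 𝓝(W) → ∀ Y, IsPi {q} Y → Y ≤ 𝓝(H) → Y ≤ 𝓝(W) → Y ≤ 𝓒(H) :=
      fun W w1 w2 w3 Y y1 y2 y3 => by_contra fun y4 => by
    have w4 := hP.pi.of_le w1
    have w5 := le_normalizer.trans w3
    by_cases e : 𝓝(W) = ⊤
    · haveI := normal_of e.ge
      have hπ := QuotientGroup.mk'_surjective W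
      have y5 : Y ≤ 𝓒(W) := by_contra fun y5 => ns _ w3 (syl W ⟨w4, Y, y1, y3, y5⟩ w5)
      obtain ⟨K, ⟨k1, Y', k2, k3, k4⟩, k5⟩ := ih (G ⧸ W) (H.map (QuotientGroup.mk' W))
        (by have := card_quot_lt w2; omega) (hs.quot W w4) ⟨pi_map hH.1 _, _, pi_map y1 _,
          (map_mono y2).trans (le_normalizer_map _), fun c => y4 (coprime_cent_of_comm_le (w4.coprime_ne y1 hpq) y5 (by
            have := comm_eq_bot_iff.2 (cent_symm c)
            rwa [← map_commutator, Subgroup.map_eq_bot_iff, QuotientGroup.ker_mk'] at this))⟩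
      obtain ⟨Y', k6, rfl⟩ := HH.exists_lift hq hπ k2
      refine k5 ?_
      rw [← index_comap_of_surjective _ hπ, comap_normalizer_eq_of_surjective _ hπ]
      refine hcon _ ⟨isPi_comap _ ((QuotientGroup.ker_mk' W).symm ▸ w4) k1, Y', k6,
        comap_normalizer_eq_of_surjective K hπ ▸ map_le_iff_le_comap.1 k3, fun c => k4 ?_⟩
      rw [← comm_eq_bot_iff, ← map_comap_eq_self_of_surjective hπ K, ← map_commutator, comm_eq_bot_iff.2 c, Subgroup.map_bot]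
    have pis : ∀ π (X : Subgroup G), IsPi π X → X ≤ 𝓝(W) → IsPi π (X.subgroupOf 𝓝(W)) := fun π X a b => by
      rw [isPi_iff, Nat.card_congr (subgroupOfEquivOfLe b).toEquiv]; exact a.nat
    obtain ⟨K, ⟨k1, Y', k2, k3, k4⟩, k5⟩ := ih 𝓝(W) (H.subgroupOf _)
      (by have := card_lt_of_lt (Ne.lt_top e); rw [card_top] at this; omega) (hs.sub _)
      ⟨pis _ H hH.1 (hHP.trans w5), Y.subgroupOf _, pis _ Y y1 y3, (comap_mono y2).trans (le_normalizer_comap _),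
        fun c => y4 fun a ha b hb => congrArg Subtype.val (c (x := ⟨a, y3 ha⟩) ha ⟨b, w5 (hHP hb)⟩ hb)⟩
    obtain ⟨S, hS⟩ := syl_exists hp.out 𝓝(K)
    have a := hall_map (hS.of_idx le_top ((piNat_compl_iff hp.out).2 (relIndex_top_right 𝓝(K) ▸ k5))) 𝓝(W).subtype
    rw [← MonoidHom.range_eq_map, range_subtype] at a
    refine ns _ w3 (a.of_card_le w5 hP.pi (big (K.map 𝓝(W).subtype) _ ⟨pi_map k1 _, _, pi_map k2 _,
      (map_mono k3).trans (le_normalizer_map _), fun c => k4 fun a ha b hb => Subtype.ext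
        (c (mem_map_of_mem _ ha) _ (mem_map_of_mem _ hb))⟩ a.pi ((map_mono hS.le).trans (le_normalizer_map _))))
  obtain ⟨Y, y1, y2, y3⟩ := hH.2
  have c1 : 𝓝(H) ≤ 𝓝(𝓒(H)) := norm_cent le_rfl
  have c2 := dvd_relIndex_of_not_le y1 y2 c1 y3
  have c3 : H ⊔ 𝓒(H) ≤ 𝓝(H) := sup_le le_normalizer (cent_le_norm H)
  have c4 : 𝓝(H) ≤ 𝓝(H ⊔ 𝓒(H)) := norm_sup le_rfl c1
  have d1 := hP.inf_normal c3 (hP.le.trans c4)
  have d2 : P ⊓ (H ⊔ 𝓒(H)) = H := by
    have a : H ≤ P ⊓ (H ⊔ 𝓒(H)) := le_inf hHP le_sup_left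
    obtain ⟨Y', hY⟩ := syl_exists hq (𝓝(H) ⊓ 𝓝(P ⊓ (H ⊔ 𝓒(H))))
    have b : AA p q (P ⊓ (H ⊔ 𝓒(H))) := ⟨d1.pi, Y', hY.pi, hY.le.trans inf_le_right, fun e => by
      rw [← relIndex_mul' le_sup_right c3, relIndex_sup_norm (le_normalizer.trans c1), ← d1.syl_frattini_sup hp.out c3 c4,
        sup_comm (H ⊔ _), relIndex_sup_norm (inf_le_left.trans c4)] at c2
      exact ((Nat.Prime.dvd_mul hq).1 c2).elim (fun c => hpq (hH.1.relIndex _ q hq c).symm)
        (not_dvd_relIndex_of_le hq hY ((e.trans (cent_anti a)).trans le_sup_right))⟩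
    exact (eq_of_le_of_card_le a (m2 _ ⟨b, syl _ b (norm_inf le_normalizer (hP.le.trans c4))⟩)).symm
  rw [d2] at d1
  have d3 : IsPSolvable p 𝓝(H) := H12PSolv.psolv_ext (𝓒(H).subgroupOf 𝓝(H))
    (H12PSolv.psolv_equiv (subgroupOfEquivOfLe (cent_le_norm H)).symm (Fus3.isPSolvable_of_not_dvd_index
      ((hp.out.coprime_iff_not_dvd.1 ((pLengthLE_one_iff p _).1 ((burnside_hasPC hp.out
        (d1.normal_inf (cent_le_norm H) le_sup_right) (inf_le_left.trans (cent_anti inf_le_left))).PL1 hp.out)).symm))))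
    (hs H (hH.1.isPGroup hp.out))
  obtain ⟨L, l1, l2⟩ : ∃ L, Hall {p, q} L 𝓝(H) ∧ P ≤ L := by
    obtain ⟨L, hL⟩ := hall_pq hq _ _ (Nat.lt_succ_self _) d3
    have a := hall_map hL 𝓝(H).subtype
    rw [← MonoidHom.range_eq_map, range_subtype] at a
    obtain ⟨S, b, c⟩ := a.exists_syl_le hp.out (by simp)
    obtain ⟨g, d, rfl⟩ := b.syl_conj hp.out hP
    exact ⟨_, a.cj_mem d, cj_mono g c⟩
  obtain ⟨S, hS⟩ := (hP.of_le l2 l1.le).exists_sylow hp.out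
  have t := tf h23 (H12PSolv.psolv_of_le l1.le d3) l1.pi.nat S
  have P0 : P ≠ ⊥ := fun e => y3 (by rw [BG.eq_bot_mono hHP e, cent_bot]; exact le_top)
  have nd : ∀ W ≤ P, W ≠ ⊥ → 𝓝(P) ≤ 𝓝(W) → ¬ q ∣ 𝓒(H).relIndex (L ⊓ 𝓝(W)) := fun W a b c =>
    let ⟨Y', hY⟩ := syl_exists hq (L ⊓ 𝓝(W))
    not_dvd_relIndex_of_le hq hY (KC W a b c Y' hY.pi (hY.le.trans (inf_le_left.trans l1.le)) (hY.le.trans inf_le_right))
  have n1 := nd _ (omega_center_le p P) (omega_center_ne_bot hP.pi P0) (norm_omega_center p P)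
  have n2 := nd _ (H6J.J_le p P) (H6J.J_ne_bot dvd_rfl (hP.pi.dvd_card P0)) (H6J.normalizer_le_normalizer_J p P)
  obtain ⟨Y', y4, y5⟩ := l1.exists_syl_le hq (by simp)
  have n3 : q ∣ 𝓒(H).relIndex L := dvd_relIndex_of_not_le y4.pi y5 (l1.le.trans c1) fun e =>
    not_dvd_relIndex_of_le hq y4 e c2
  have o1 : (pPrimeCore p L).map L.subtype ≤ 𝓒(H) :=
    core_p'_eq hp.out L ▸ p'core_le_cent hH.1 (hHP.trans l2) l1.le
  set C := L ⊓ 𝓝(Ω₁(p, 𝓩(P)))
  have c5 : C ≤ 𝓝(𝓒(H)) := inf_le_left.trans (l1.le.trans c1)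
  refine ((Nat.Prime.dvd_mul hq).1 (n3.trans ?_)).elim n1 n2
  have c6 : L ⊓ 𝓒(H) ≤ C ⊔ L ⊓ 𝓒(H) := le_sup_right
  have c7 : C ⊔ L ⊓ 𝓒(H) ≤ L := sup_le inf_le_left inf_le_left
  rw [← inf_relIndex_left, ← relIndex_mul' c6 c7, relIndex_sup_norm (norm_inf (le_norm_of_le inf_le_left) c5),
    AmbSpe.relIndex_eq_of_mul (A := L ⊓ 𝓝(H6J.J p P)) inf_le_left fun g hg => ?_]
  · refine mul_dvd_mul (by rw [← inf_relIndex_right, ← inf_relIndex_right 𝓒(H), inf_assoc, inf_comm 𝓒(H),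
      ← inf_assoc, inf_eq_right.2 inf_le_left]) ?_
    rw [← inf_relIndex_right 𝓒(H)]
    exact relIndex_anti ((le_inf (inf_le_right.trans inf_le_left) inf_le_left).trans c6) _
  obtain ⟨x, x1, c, x2, m, x3, e⟩ := t ⟨g, hg⟩⁻¹
  refine ⟨m.1⁻¹, inv_mem (mem_inf.2 ⟨m.2, ?_⟩), c.1⁻¹ * x.1⁻¹, mul_mem (mem_sup_left (inv_mem (mem_inf.2 ⟨c.2, ?_⟩)))
    (mem_sup_right (inv_mem (mem_inf.2 ⟨x.2, o1 (mem_map_of_mem _ x1)⟩))), ?_⟩
  · rw [← hS, H6J.J_map L.subtype_injective, ← H6J.thompsonSubgroupOf_eq]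
    exact le_normalizer_map _ (mem_map_of_mem _ x3)
  · refine cent_le_norm _ fun z hz => ?_
    have a := omega_le p _ hz
    exact congrArg Subtype.val (x2 ⟨z, l2 a.1⟩ (mem_omega ⟨(mem_map_iff_mem L.subtype_injective).1 (hS.ge a.1),
      fun y hy => Subtype.ext (a.2 _ (hS.le (mem_map_of_mem _ hy)))⟩ (Subtype.ext ((elem_omega_center p P).2 z hz))))
  · have := congrArg (fun z : L => (z : G)⁻¹) e
    simp only [coe_inv, inv_inv, coe_mul, mul_inv_rev] at this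
    exact this.symm

/-- Let p and q be distinct primes with {p, q} ≠ {2, 3}, and let G be a finite group such that for every p-subgroup H of G the automizer N_G(H)/C_G(H) is p-solvable. If q divides the order of N_G(H)/C_G(H) for some p-subgroup H, then a Sylow p-subgroup of G has a normal subgroup K (normal in the Sylow subgroup) such that q divides the order of N_G(K)/C_G(K). -/
theorem result {G : Type*} [Group G] [Finite G]
    (p q : ℕ) [Fact p.Prime] [Fact q.Prime] (hpq : p ≠ q) (h23 : ¬ ((p = 2 ∧ q = 3) ∨ (p = 3 ∧ q = 2)))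
    (hsol : ∀ H : Subgroup G, IsPGroup p ↥H →
      Cfsg.IsPSolvable p (↥(Subgroup.normalizer (H : Set G)) ⧸ (Subgroup.centralizer (H : Set G)).subgroupOf (Subgroup.normalizer (H : Set G))))
    (H : Subgroup G) (hH : IsPGroup p ↥H)
    (hq : q ∣ ((Subgroup.centralizer (H : Set G)).subgroupOf (Subgroup.normalizer (H : Set G))).index)
    (Gp : Sylow p G) :
    ∃ K : Subgroup G, K ≤ (Gp : Subgroup G) ∧ (Gp : Subgroup G) ≤ Subgroup.normalizer (K : Set G) ∧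
      q ∣ ((Subgroup.centralizer (K : Set G)).subgroupOf (Subgroup.normalizer (K : Set G))).index := by
  obtain ⟨Y, hY⟩ := syl_exists (Fact.out : q.Prime) 𝓝(H)
  obtain ⟨K, ⟨k1, Y', k2, k3, k4⟩, k5⟩ := main (p := p) Fact.out hpq h23 _ G H (Nat.lt_succ_self _) hsol
    ⟨isPi_of_isPGroup Fact.out hH, Y, hY.pi, hY.le, fun e => not_dvd_relIndex_of_le Fact.out hY e hq⟩
  obtain ⟨S, hS⟩ := syl_exists (Fact.out : p.Prime) 𝓝(K)
  have a := hS.of_idx le_top ((piNat_compl_iff Fact.out).2 (relIndex_top_right 𝓝(K) ▸ k5))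
  obtain ⟨g, -, e⟩ := a.syl_conj Fact.out (syl_top Fact.out Gp)
  refine ⟨cj g K, e ▸ cj_mono g (hS.le_of_norm' k1 le_normalizer hS.le), e ▸ norm_cj g hS.le, ?_⟩
  exact dvd_relIndex_of_not_le (k2.cj g) (norm_cj g k3) (norm_cent le_rfl) (by rwa [← cj_cent, cj_le_cj])

end Cfsg.Agent.S4411
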