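import Cfsg.Statements.S4412
import Cfsg.Agent.Lib.Grp.NPC2
import Cfsg.Agent.Lib.Grp.CoprimeAct
import Cfsg.Agent.Lib.Grp.PGFrattini

set_option autoImplicit false
open Cfsg

namespace Cfsg.Agent.S4412

open Subgroup

section
variable {P : Type*} [Group P] [Finite P] {p : ℕ} [hp : Fact p.Prime]

theorem one_of (hp2 : p ≠ 2) (hP : IsPGroup p P) {y : P} (h : y = y⁻¹) : y = 1 := by
  obtain ⟨k, hk⟩ := IsPGroup.iff_orderOf.1 hP y
  have h2 : orderOf y ∣ 2 := orderOf_dvd_of_pow_eq_one (by rw [pow_two]; nth_rw 1 [h]; simp)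
  have : (orderOf y).Coprime 2 :=
    hk ▸ Nat.Coprime.pow_left _ ((Nat.coprime_primes hp.out Nat.prime_two).2 hp2)
  exact orderOf_eq_one_iff.1 (this.eq_one_of_dvd h2)

omit [Finite P] in
theorem fix_z {T : MulAut P} {g y : P} (h : T g = g) (hy : y ∈ zpowers g) : T y = y := by
  obtain ⟨k, rfl⟩ := hy
  simp [map_zpow, h]

omit [Finite P] in
theorem inv_z {T : MulAut P} {g y : P} (h : T g = g⁻¹) (hy : y ∈ zpowers g) : T y = y⁻¹ := by
  obtain ⟨k, rfl⟩ := hy
  simp [map_zpow, h]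

theorem pm (hp2 : p ≠ 2) (hP : IsPGroup p P) {T S : MulAut P} (hc : S * T = T * S) (h2 : T * T = 1)
    {g : P} (hg : ∀ y, S y = y ↔ y ∈ zpowers g) : T g = g ∨ T g = g⁻¹ := by
  have h1 : T g ∈ zpowers g := (hg _).1 (by
    rw [← MulAut.mul_apply, hc, MulAut.mul_apply, (hg g).2 (mem_zpowers g)])
  have h3 : T (T g) = g := by rw [← MulAut.mul_apply, h2]; rfl
  have h4 : g * T g = T g * g := by
    obtain ⟨k, hk⟩ := h1
    rw [← hk]; exact (Commute.zpow_right rfl k)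
  have h5 : T (g * T g) = g * T g := by rw [map_mul, h3, h4]
  have h6 : T (g⁻¹ * T g) = (g⁻¹ * T g)⁻¹ := by simp [h3]
  rcases CA.NPC2.le_total_of_isCyclic (P := zpowers g) (A := zpowers (g * T g))
    (B := zpowers (g⁻¹ * T g)) (hP.to_subgroup _) inferInstance
    (zpowers_le.2 (mul_mem (mem_zpowers g) h1))
    (zpowers_le.2 (mul_mem (inv_mem (mem_zpowers g)) h1)) with h | h
  · have := one_of hp2 hP (h5.symm.trans (inv_z h6 (h (mem_zpowers _))))
    exact Or.inr (eq_inv_of_mul_eq_one_right this)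
  · have := one_of hp2 hP ((fix_z h5 (h (mem_zpowers _))).symm.trans h6)
    exact Or.inl (inv_mul_eq_one.1 this).symm

theorem inverts (hp2 : p ≠ 2) (hP : IsPGroup p P) {T S : MulAut P} (hc : S * T = T * S)
    (h2 : S * S = 1) (h : ∀ y, T y = y → S y = y → y = 1) {y : P} (hy : T y = y) : S y = y⁻¹ := by
  have h3 : S (S y) = y := by rw [← MulAut.mul_apply, h2]; rfl
  have h4 : T (S y) = S y := by rw [← MulAut.mul_apply, ← hc, MulAut.mul_apply, hy]
  set s := y⁻¹ * S y with hs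
  have h5 : S s = s⁻¹ := by simp [hs, h3]
  have h6 : T s = s := by simp [hs, hy, h4]
  obtain ⟨k, hk⟩ := IsPGroup.iff_orderOf.1 hP s
  obtain ⟨m, hm⟩ : Odd (orderOf s) := hk ▸ (hp.out.odd_of_ne_two hp2).pow
  have h7 : s ^ (m + 1) * s ^ (m + 1) = s := by
    rw [← pow_add, show m + 1 + (m + 1) = 2 * m + 1 + 1 by ring, ← hm, pow_succ,
      pow_orderOf_eq_one, one_mul]
  have h8 : S (s ^ (m + 1)) = (s ^ (m + 1))⁻¹ := by simp [map_pow, h5]
  have h9 := h (y * s ^ (m + 1)) (by simp [map_pow, hy, h6]) (by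
    rw [map_mul, h8, show S y = y * s by simp [hs]]
    nth_rw 1 [← h7]
    group)
  rw [eq_inv_of_mul_eq_one_left h9, map_inv, h8]

omit [Finite P] in
theorem ext3 {x : Fin 3 → P} (hx : closure (Set.range x) = ⊤) {T S : MulAut P}
    (h : ∀ i, T (x i) = S (x i)) : T = S := by
  have : T.toMonoidHom = S.toMonoidHom :=
    MonoidHom.eq_of_eqOn_dense hx (by rintro _ ⟨i, rfl⟩; exact h i)
  exact MulEquiv.toMonoidHom_injective this

/-- the four-group -/
theorem exJ {A : Type*} [Group A] {I I₀ : Subgroup A} (hI : Cfsg.IsElementaryAbelian 2 I)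
    (hI8 : Nat.card I = 8) (h0 : I₀ ≤ I) {t : A} (ht : t ∈ I) (ht0 : t ∉ I₀) :
    ∃ J : Subgroup A, I₀ ≤ J ∧ J ≤ I ∧ t ∉ J ∧ Nat.card J = 4 := by
  have : Finite I := Nat.finite_of_card_ne_zero (by omega)
  have hfin : {J : Subgroup A | I₀ ≤ J ∧ J ≤ I ∧ t ∉ J}.Finite := by
    refine (Set.finite_range fun K : Subgroup I => K.map I.subtype).subset ?_
    rintro J ⟨-, h, -⟩
    exact ⟨J.subgroupOf I, by simpa using h⟩
  obtain ⟨J, hJ⟩ := hfin.exists_maximal ⟨I₀, le_rfl, h0, ht0⟩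
  obtain ⟨h1, h2, h3⟩ := hJ.1
  have hc := CA.PGBasic.isMulCommutative_iff.1 hI.1
  have sq : ∀ a ∈ I, a * a = 1 := fun a ha => by rw [← pow_two]; exact hI.2 a ha
  have key : ∀ s ∈ I, s ∉ J → s * t ∈ J := by
    intro s hs hsJ
    by_contra hst
    let K : Subgroup A :=
      { carrier := {a | a ∈ I ∧ (a ∈ J ∨ s * a ∈ J)}
        one_mem' := ⟨one_mem _, Or.inl (one_mem _)⟩
        mul_mem' := by
          rintro a b ⟨ha, ha'⟩ ⟨hb, hb'⟩
          refine ⟨mul_mem ha hb, ?_⟩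
          rcases ha' with ha' | ha' <;> rcases hb' with hb' | hb'
          · exact Or.inl (mul_mem ha' hb')
          · exact Or.inr (by rw [← mul_assoc, hc s hs a ha, mul_assoc]; exact mul_mem ha' hb')
          · exact Or.inr (by rw [← mul_assoc]; exact mul_mem ha' hb')
          · left
            have := mul_mem ha' hb'
            rwa [hc s hs a ha, mul_assoc, ← mul_assoc s, sq s hs, one_mul] at this
        inv_mem' := by
          rintro a ⟨ha, ha'⟩
          rw [inv_eq_of_mul_eq_one_left (sq a ha)]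
          exact ⟨ha, ha'⟩ }
    have h4 : J ≤ K := fun a ha => ⟨h2 ha, Or.inl ha⟩
    have := hJ.2 (y := K) ⟨h1.trans h4, fun a ha => ha.1, fun e => e.2.elim h3 hst⟩ h4
    exact hsJ (this ⟨hs, Or.inr (by rw [sq s hs]; exact one_mem _)⟩)
  refine ⟨J, h1, h2, h3, ?_⟩
  have h5 : J.relIndex I = 2 := by
    rw [relIndex, index_eq_two_iff]
    refine ⟨⟨t, ht⟩, fun ⟨b, hb⟩ => ?_⟩
    by_cases e : b ∈ J
    · exact Or.inr ⟨e, fun h => h3 ((J.mul_mem_cancel_left e).1 h)⟩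
    · exact Or.inl ⟨key b hb e, e⟩
  have := CA.PGBasic.card_mul_relIndex h2
  rw [h5, hI8] at this
  omega

end

/-- Let p be an odd prime, P a finite p-group and I an elementary abelian subgroup of order 8 of Aut(P). Call T ∈ I, T ≠ 1, broad when its fixed-point subgroup C_P(T) is not cyclic. Suppose I has a proper subgroup I₀ containing no broad element such that the product of any two broad elements lies in I₀. Then P is abelian of rank exactly 3 (generated by three elements but not by two), there are exactly three broad elements and they generate I, and I₀ is exactly the set of products of two broad elements. -/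
theorem result
    {P : Type*} [Group P] [Finite P] (p : ℕ) (hp : p.Prime) (hp2 : p ≠ 2) (hP : IsPGroup p P)
    (I : Subgroup (MulAut P)) (hI : Cfsg.IsElementaryAbelian 2 I) (hI8 : Nat.card ↥I = 8)
    (I₀ : Subgroup (MulAut P)) (hI₀ : I₀ < I)
    (hdisj : ∀ T ∈ I₀, T ≠ 1 → ∃ g : P, ∀ x : P, (T x = x ↔ x ∈ Subgroup.zpowers g))
    (hprod : ∀ T ∈ I, ∀ T' ∈ I, T ≠ 1 → T' ≠ 1 → (¬ ∃ g : P, ∀ x : P, (T x = x ↔ x ∈ Subgroup.zpowers g)) →
      (¬ ∃ g : P, ∀ x : P, (T' x = x ↔ x ∈ Subgroup.zpowers g)) → T * T' ∈ I₀) :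
    IsMulCommutative P ∧ (∃ a b c : P, Subgroup.closure {a, b, c} = ⊤) ∧ (¬ ∃ a b : P, Subgroup.closure {a, b} = ⊤) ∧
      Nat.card {T : MulAut P // T ∈ I ∧ T ≠ 1 ∧ ¬ ∃ g : P, ∀ x : P, (T x = x ↔ x ∈ Subgroup.zpowers g)} = 3 ∧
      Subgroup.closure {T : MulAut P | T ∈ I ∧ T ≠ 1 ∧ ¬ ∃ g : P, ∀ x : P, (T x = x ↔ x ∈ Subgroup.zpowers g)} = I ∧
      (I₀ : Set (MulAut P)) = {S : MulAut P | ∃ T T' : MulAut P, T ∈ I ∧ T' ∈ I ∧ T ≠ 1 ∧ T' ≠ 1 ∧
        (¬ ∃ g : P, ∀ x : P, (T x = x ↔ x ∈ Subgroup.zpowers g)) ∧ (¬ ∃ g : P, ∀ x : P, (T' x = x ↔ x ∈ Subgroup.zpowers g)) ∧ S = T * T'} := by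
  classical
  have := Fact.mk hp
  have hc := CA.PGBasic.isMulCommutative_iff.1 hI.1
  have sq : ∀ a ∈ I, a * a = 1 := fun a ha => by rw [← pow_two]; exact hI.2 a ha
  set Cy : MulAut P → Prop := fun T => ∃ g : P, ∀ x : P, (T x = x ↔ x ∈ zpowers g) with hCy
  obtain ⟨t, ht, ht0, ht1⟩ : ∃ t ∈ I, t ∉ I₀ ∧ ∀ T ∈ I, T ≠ 1 → ¬ Cy T → T * t ∈ I₀ := by
    by_cases e : ∃ t ∈ I, t ≠ 1 ∧ ¬ Cy t
    · obtain ⟨t, a1, a2, a3⟩ := e
      exact ⟨t, a1, fun h => a3 (hdisj t h a2), fun T b1 b2 b3 => hprod T b1 t a1 b2 a2 b3 a3⟩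
    · obtain ⟨t, a1, a2⟩ := SetLike.exists_of_lt hI₀
      exact ⟨t, a1, a2, fun T b1 b2 b3 => (e ⟨T, b1, b2, b3⟩).elim⟩
  obtain ⟨J, hJ0, hJI, htJ, hJ4⟩ := exJ hI hI8 hI₀.le ht ht0
  have hJc : ∀ T ∈ J, T ≠ 1 → Cy T := fun T a1 a2 => by
    by_contra e
    exact htJ ((J.mul_mem_cancel_left a1).1 (hJ0 (ht1 T (hJI a1) a2 e)))
  have : Finite J := Nat.finite_of_card_ne_zero (by omega)
  have hfI : Finite I := Nat.finite_of_card_ne_zero (by omega)
  obtain ⟨e⟩ : Nonempty (Fin 3 ≃ {T : J // T ≠ 1}) := by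
    refine Finite.card_eq.1 ?_
    have := Fintype.ofFinite J
    rw [Nat.card_eq_fintype_card, Nat.card_eq_fintype_card, Fintype.card_subtype_compl,
      ← Nat.card_eq_fintype_card (α := J), hJ4]
    simp
  let j : Fin 3 → MulAut P := fun i => (e i).1.1
  have hj : ∀ i, j i ∈ J := fun i => (e i).1.2
  have hj1 : ∀ i, j i ≠ 1 := fun i h => (e i).2 (Subtype.ext h)
  have hjJ : ∀ T ∈ J, T ≠ 1 → ∃ i, T = j i := fun T a1 a2 =>
    ⟨e.symm ⟨⟨T, a1⟩, fun h => a2 (congrArg Subtype.val h)⟩, by simp [j]⟩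
  choose x hx using fun i => hJc (j i) (hj i) (hj1 i)
  have gen : closure (Set.range x) = ⊤ := by
    have : IsMulCommutative J := CA.PGBasic.isMulCommutative_iff.2 fun a ha b hb =>
      hc a (hJI ha) b (hJI hb)
    refine CA.CoprimeAct.eq_top_of_forall_fixedBy (A := J) (fun hcy => ?_) ?_ fun a ha k hk => ?_
    · have h1 := hcy.exponent_eq_card
      have h2 : Monoid.exponent J ∣ 2 := Monoid.exponent_dvd_of_forall_pow_eq_one fun g =>
        Subtype.ext (hI.2 g (hJI g.2))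
      rw [h1, hJ4] at h2
      omega
    · obtain ⟨n, hn⟩ := IsPGroup.iff_card.1 hP
      rw [hJ4, hn]
      exact Nat.Coprime.pow 2 n ((Nat.coprime_primes Nat.prime_two hp).2 hp2.symm)
    · obtain ⟨i, hi⟩ := hjJ a a.2 fun h => ha (Subtype.ext h)
      exact zpowers_le.2 (Subgroup.subset_closure (Set.mem_range_self i)) ((hx i k).1 (hi ▸ hk))
  have hpm : ∀ T ∈ I, ∀ i, T (x i) = x i ∨ T (x i) = (x i)⁻¹ := fun T hT i =>
    pm hp2 hP (hc _ (hJI (hj i)) _ hT) (sq T hT) (hx i)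
  have inj : ∀ T ∈ I, ∀ S ∈ I, (∀ i, T (x i) = x i ↔ S (x i) = x i) → T = S := by
    intro T hT S hS h
    refine ext3 gen fun i => ?_
    by_cases e : T (x i) = x i
    · rw [e, (h i).1 e]
    · rw [(hpm T hT i).resolve_left e, (hpm S hS i).resolve_left fun e' => e ((h i).2 e')]
  have sur : ∀ f : Fin 3 → Bool, ∃ T ∈ I, ∀ i, T (x i) = x i ↔ f i = true := by
    let φ : I → Fin 3 → Bool := fun T i => decide (T.1 (x i) = x i)
    have h1 : Function.Injective φ := fun T S h => Subtype.ext (inj T T.2 S S.2 fun i => by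
      simpa [φ] using congrFun h i)
    have h2 := (Nat.bijective_iff_injective_and_card φ).2 ⟨h1, by rw [hI8]; simp⟩
    intro f
    obtain ⟨T, rfl⟩ := h2.2 f
    exact ⟨T, T.2, fun i => by simp [φ]⟩
  choose T hT hTx using fun i : Fin 3 => sur fun k => decide (k ≠ i)
  simp only [decide_eq_true_eq] at hTx
  have Ti : ∀ i, T i (x i) = (x i)⁻¹ := fun i => (hpm _ (hT i) i).resolve_left (by simp [hTx])
  have xn : ∀ i, x i ≠ (x i)⁻¹ := fun i h => by
    have := (hTx i i).1 ((Ti i).trans h.symm)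
    exact this rfl
  have jx : ∀ i k, j i (x k) = x k ↔ k = i := fun i k => by
    refine ⟨fun h => ?_, fun h => h ▸ (hx i _).2 (mem_zpowers _)⟩
    by_contra e
    exact xn k (((hTx i k).2 e).symm.trans (inv_z (Ti i) ((hx i _).1 h)))
  have mulx : ∀ S ∈ I, ∀ S' ∈ I, ∀ i, (S * S') (x i) = x i ↔ (S (x i) = x i ↔ S' (x i) = x i) := by
    intro S hS S' hS' i
    have := xn i
    have := (xn i).symm
    rcases hpm S hS i with a | a <;> rcases hpm S' hS' i with b | b <;> simp [a, b, *]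
  have comm : ∀ i k, x i * x k = x k * x i := by
    intro i k
    by_cases e : i = k
    · rw [e]
    obtain ⟨l, l1, l2⟩ : ∃ l, i ≠ l ∧ k ≠ l := by revert i k; decide
    have h1 := inverts hp2 hP (hc _ (hJI (hj l)) _ (hT l)) (sq _ (hJI (hj l)))
      (fun y a b => one_of hp2 hP (a.symm.trans (inv_z (Ti l) ((hx l y).1 b))))
      (y := x i * x k) (by rw [map_mul, (hTx l i).2 l1, (hTx l k).2 l2])
    rw [map_mul, (hpm _ (hJI (hj l)) i).resolve_left (by simpa [jx] using l1),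
      (hpm _ (hJI (hj l)) k).resolve_left (by simpa [jx] using l2), ← mul_inv_rev] at h1
    exact (inv_injective h1).symm
  have hcomm : IsMulCommutative P := by
    refine ⟨⟨fun a b => ?_⟩⟩
    have h1 : ∀ i, x i ∈ center P := fun i => by
      have : closure (Set.range x) ≤ centralizer {x i} := (closure_le _).2 (by
        rintro _ ⟨k, rfl⟩; exact mem_centralizer_singleton_iff.2 (comm k i))
      exact mem_center_iff.2 fun g => mem_centralizer_singleton_iff.1 (this (gen ▸ mem_top g))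
    have : closure (Set.range x) ≤ center P := (closure_le _).2 (by rintro _ ⟨k, rfl⟩; exact h1 k)
    exact mem_center_iff.1 (this (gen ▸ mem_top b)) a
  have T1 : ∀ i, T i ≠ 1 := fun i h => (hTx i i).1 (by rw [h]; rfl) rfl
  have Tn : ∀ i, ¬ Cy (T i) := by
    rintro i ⟨g, hg⟩
    obtain ⟨k, l, a1, a2, a3⟩ : ∃ k l, k ≠ i ∧ l ≠ i ∧ l ≠ k := by clear hg; revert i; decide
    rcases pm hp2 hP (hc _ (hT i) _ (hT k)) (sq _ (hT k)) hg with h | h
    · exact (hTx k k).1 (fix_z h ((hg _).1 ((hTx i k).2 a1))) rfl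
    · exact xn l (((hTx k l).2 a3).symm.trans (inv_z h ((hg _).1 ((hTx i l).2 a2))))
  have cls : ∀ S ∈ I, S = 1 ∨ (∃ i, S = T i) ∨ (∃ i, S = j i) ∨ ∀ i, S (x i) ≠ x i := by
    intro S hS
    have h : ∀ f : Fin 3 → Bool, (∀ i, f i = true) ∨ (∃ i, ∀ k, f k = true ↔ k ≠ i) ∨
      (∃ i, ∀ k, f k = true ↔ k = i) ∨ ∀ i, f i ≠ true := by decide
    rcases h fun i => decide (S (x i) = x i) with h | ⟨i, h⟩ | ⟨i, h⟩ | h
    · exact Or.inl (inj _ hS _ (one_mem _) fun i => by simpa using h i)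
    · exact Or.inr (Or.inl ⟨i, inj _ hS _ (hT i) fun k => by simpa [hTx] using h k⟩)
    · exact Or.inr (Or.inr (Or.inl ⟨i, inj _ hS _ (hJI (hj i)) fun k => by simpa [jx] using h k⟩))
    · exact Or.inr (Or.inr (Or.inr fun i => by simpa using h i))
  have hat : ∀ S, (S ∈ I ∧ S ≠ 1 ∧ ¬ Cy S) ↔ ∃ i, T i = S := by
    refine fun S => ⟨fun ⟨a1, a2, a3⟩ => ?_, by rintro ⟨i, rfl⟩; exact ⟨hT i, T1 i, Tn i⟩⟩
    rcases cls S a1 with h | ⟨i, h⟩ | ⟨i, h⟩ | h
    · exact (a2 h).elim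
    · exact ⟨i, h.symm⟩
    · exact (a3 ⟨x i, h ▸ hx i⟩).elim
    · refine (a3 ⟨1, fun y => ⟨fun hy => ?_, fun hy => fix_z (map_one _) hy⟩⟩).elim
      have h1 : S y = y⁻¹ := by
        clear hy
        have hy : y ∈ closure (Set.range x) := gen ▸ mem_top y
        induction hy using Subgroup.closure_induction with
        | mem _ h' => obtain ⟨i, rfl⟩ := h'; exact (hpm S a1 i).resolve_left (h i)
        | one => simp
        | mul a b _ _ ha hb => rw [map_mul, ha, hb, mul_inv_rev]; exact hcomm.1.1 _ _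
        | inv a _ ha => rw [map_inv, ha]
      rw [one_of hp2 hP (hy.symm.trans h1)]
      exact one_mem _
  have jT : ∀ i, ∃ k l, j i = T k * T l := fun i => by
    obtain ⟨k, l, h⟩ : ∃ k l : Fin 3, ∀ m, m = i ↔ (m ≠ k ↔ m ≠ l) := by revert i; decide
    exact ⟨k, l, inj _ (hJI (hj i)) _ (mul_mem (hT k) (hT l)) fun m => by
      rw [jx, mulx _ (hT k) _ (hT l), hTx, hTx, h]⟩
  refine ⟨hcomm, ⟨x 0, x 1, x 2, ?_⟩, ?_, ?_, ?_, ?_⟩
  · rw [← gen]
    congr 1
    ext y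
    simp [Fin.exists_fin_succ, eq_comm]
  · rintro ⟨a, b, hab⟩
    have h1 := CA.PGFrattini.index_frattini_le hP (T := {a, b}) (by simpa using hab)
    have h2 := CA.PGFrattini.index_frattini_eq hP
    obtain ⟨S, s1, s2, s3⟩ := CA.PGFrattini.exists_basis_subset hP h2 (S := Finset.univ.image x)
      (by simpa using gen)
    have h3 : S.card ≤ 2 := by
      rw [s2]
      exact ((Nat.pow_le_pow_iff_right hp.one_lt).1 (h2 ▸ h1)).trans Finset.card_le_two
    have xi : Function.Injective x := fun i k h => by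
      by_contra e
      exact (hTx k k).1 (h ▸ (hTx k i).2 e) rfl
    obtain ⟨i, hi⟩ : ∃ i, x i ∉ S := by
      by_contra e
      push Not at e
      have := Finset.card_le_card_of_injOn (s := Finset.univ) x (fun i _ => e i) xi.injOn
      simp at this
      omega
    have : (T i).toMonoidHom = (1 : MulAut P).toMonoidHom :=
      MonoidHom.eq_of_eqOn_dense s3 fun y hy => by
        obtain ⟨k, -, rfl⟩ := Finset.mem_image.1 (s1 hy)
        exact (hTx i k).2 fun e => hi (e ▸ hy)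
    exact T1 i (MulEquiv.toMonoidHom_injective this)
  · have Tinj : Function.Injective T := fun i k h => by
      by_contra e
      exact (hTx i i).1 (h ▸ (hTx k i).2 e) rfl
    have := Nat.card_range_of_injective Tinj
    rw [Nat.card_eq_fintype_card (α := Fin 3), Fintype.card_fin] at this
    rw [← this]
    exact Nat.card_congr (Equiv.subtypeEquivRight hat)
  · refine le_antisymm ((closure_le _).2 fun S hS => hS.1) fun S hS => ?_
    have h1 : ∀ i, T i ∈ closure {S | S ∈ I ∧ S ≠ 1 ∧ ¬ Cy S} := fun i =>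
      Subgroup.subset_closure ((hat _).2 ⟨i, rfl⟩)
    rcases cls S hS with h | ⟨i, h⟩ | ⟨i, h⟩ | h
    · rw [h]; exact one_mem _
    · rw [h]; exact h1 i
    · obtain ⟨k, l, e⟩ := jT i
      rw [h, e]; exact mul_mem (h1 k) (h1 l)
    · rw [inj S hS _ (mul_mem (mul_mem (hT 0) (hT 1)) (hT 2)) fun m => by
        rw [mulx _ (mul_mem (hT 0) (hT 1)) _ (hT 2), mulx _ (hT 0) _ (hT 1), hTx, hTx, hTx]
        refine iff_of_false (h m) ?_
        revert m; decide]
      exact mul_mem (mul_mem (h1 0) (h1 1)) (h1 2)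
  · ext S
    refine ⟨fun hS => ?_, ?_⟩
    · by_cases e : S = 1
      · exact ⟨T 0, T 0, hT 0, hT 0, T1 0, T1 0, Tn 0, Tn 0, e.trans (sq _ (hT 0)).symm⟩
      · obtain ⟨i, rfl⟩ := hjJ S (hJ0 hS) e
        obtain ⟨k, l, e⟩ := jT i
        exact ⟨T k, T l, hT k, hT l, T1 k, T1 l, Tn k, Tn l, e⟩
    · rintro ⟨A, B, a1, a2, a3, a4, a5, a6, rfl⟩
      exact hprod A a1 B a2 a3 a4 a5 a6

end Cfsg.Agent.S4412
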