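import Cfsg.Statements.S5432
import Cfsg.Agent.Lib.Grp.H7Ext

set_option autoImplicit false
open Cfsg

namespace Cfsg.Agent.S5432

open CA.H7Ext CA.CForm

/-- Let E be an extraspecial 2-group of order 2^(2n+1), n ≥ 1. If E contains an elementary abelian subgroup of order 2^(n+1) (plus type), then its outer automorphism group is isomorphic to the full isometry group of the hyperbolic quadratic form in dimension 2n over the field with two elements; otherwise (minus type) it is isomorphic to the full isometry group of the elliptic quadratic form in dimension 2n over that field. -/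
theorem result {E : Type*} [Group E] [Finite E] (hE : Cfsg.IsExtraspecial 2 E) (n : ℕ) (hn : 1 ≤ n) (hcard : Nat.card E = 2 ^ (2 * n + 1)) : ((∃ A : Subgroup E, Cfsg.IsElementaryAbelian 2 A ∧ Nat.card ↥A = 2 ^ (n + 1)) → Nonempty (Cfsg.Out E ≃* Cfsg.isometryGroup (ZMod 2) (Cfsg.quadFormPlus n (ZMod 2)))) ∧ ((¬ ∃ A : Subgroup E, Cfsg.IsElementaryAbelian 2 A ∧ Nat.card ↥A = 2 ^ (n + 1)) → Nonempty (Cfsg.Out E ≃* Cfsg.isometryGroup (ZMod 2) (Cfsg.quadFormMinus (n - 1) (ZMod 2) 1 1))) := by
  obtain ⟨k, m, c, a0, a1, a2, a3, a4⟩ := exists_two hE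
  rw [a3, Nat.pow_right_inj one_lt_two] at hcard
  obtain rfl : n = k + 1 := by omega
  obtain ⟨e⟩ := c.out_equiv a0
  obtain ⟨g2, g3⟩ := c.rank a2
  constructor
  · rintro ⟨A, h1, h2⟩
    have := g3 A h1.2
    rw [h2, Nat.pow_le_pow_iff_right one_lt_two] at this
    obtain rfl : m = k + 1 := by omega
    obtain ⟨f, hf⟩ := a2.equivalent_plus a1 (Module.finrank_fin_fun _)
    exact ⟨(e.trans (Form.isomCongr f hf)).trans (orthEquiv (plusForm (ZMod 2) (k + 1))).symm⟩
  · intro h
    obtain rfl : m = k := by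
      rcases a4 with ⟨rfl, -⟩ | ⟨rfl, -⟩
      · exact absurd g2 h
      · rfl
    obtain ⟨f, hf⟩ := a2.equivalent_minus a1 (Module.finrank_fin_fun _) (a := 1) (b := 1)
      (by unfold Aniso; decide)
    exact ⟨(e.trans (Form.isomCongr f hf)).trans (orthEquiv (minusForm m (1 : ZMod 2) 1)).symm⟩

end Cfsg.Agent.S5432
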