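import Cfsg.Statements.S4414
import Cfsg.Agent.Lib.Solv.H8Wt

set_option autoImplicit false
open Cfsg

namespace Cfsg.Agent.S4414

open CA.H8Wt Module
open scoped commutatorElement

theorem aux {S : Type*} [Group S] [Finite S] {k : Type} [Field k] [Algebra (ZMod 2) k] [Finite k]
    (h2 : (2 : k) = 0) {A Q T : Subgroup S} [hA : A.Normal] [IsMulCommutative A]
    [HasEnoughRootsOfUnity k (Monoid.exponent A)] (hA' : (Nat.card A : k) ≠ 0) (hT : IsPGroup 2 T)
    {q : ℕ} (hq : q.Prime) (hq2 : q ≠ 2) (hQ : Nat.card Q = q) (hcomm : ⁅A, Q⁆ = A)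
    {E : Type*} [AddCommGroup E] [Module (ZMod 2) E] [Finite E] (ρ : S →* End (ZMod 2) E) [Nontrivial E]
    (h0 : Fx ρ A = ⊥) :
    8 ≤ Nat.card (Fx ρ T) ∨ (Nat.card (Fx ρ T) = 4 ∧ ∃ x ∈ Q, ∃ v ∈ Fx ρ T, ρ x v ∉ Fx ρ T) := by
  haveI := Fact.mk hq
  haveI : Finite (Co k E) := Finite.of_injective (fun v z => v.f z) fun _ _ e => LinearMap.ext (congrFun e)
  haveI : Module.Finite (ZMod 2) E := Module.Finite.of_finite
  haveI : Module.Finite (ZMod 2) k := Module.Finite.of_finite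
  haveI : Nontrivial (k →ₗ[ZMod 2] E) := Module.nontrivial_of_finrank_pos (R := ZMod 2) (by
    rw [finrank_linearMap]; exact Nat.mul_pos finrank_pos finrank_pos)
  haveI : Nontrivial (Co k E) := this
  obtain ⟨x, hx⟩ := exists_prime_orderOf_dvd_card' (G := Q) q (hQ ▸ dvd_rfl)
  have hx1 : (x : S) ^ q = 1 := by rw [← Subgroup.coe_pow, orderOf_dvd_iff_pow_eq_one.1 hx.dvd]; rfl
  have hx2 : Subgroup.zpowers (x * x) = ⊤ := Subgroup.eq_top_of_card_eq _ (by
    rw [Nat.card_zpowers, ← pow_two, Nat.Coprime.orderOf_pow (by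
      rw [hx]; exact (Nat.coprime_primes hq Nat.prime_two).2 hq2), hx, hQ])
  have h1 : ∀ μ : Ch k A, ((x : S) * x) • μ = μ → μ.h = 1 := fun μ hμ => by
    have h5 : Q ≤ MulAction.stabilizer S μ := fun y hy => by
      obtain ⟨n, hn⟩ := hx2.ge (Subgroup.mem_top ⟨y, hy⟩)
      rw [show y = ((x * x : Q) : S) ^ n from (congrArg Subtype.val hn).symm]
      exact zpow_mem (show ((x * x : Q) : S) ∈ MulAction.stabilizer S μ from hμ) n
    have h6 : ⁅A, Q⁆ ≤ μ.h.ker.map A.subtype :=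
      Subgroup.commutator_le.2 fun a ha y hy => by
        refine ⟨⟨a, ha⟩ * (MulAut.conjNormal y (⟨a, ha⟩ : A))⁻¹, ?_, by simp [commutatorElement_def, mul_assoc]⟩
        have := smul_h y⁻¹ μ ⟨a, ha⟩
        rw [h5 (inv_mem hy), inv_inv] at this
        rw [SetLike.mem_coe, MonoidHom.mem_ker, map_mul, map_inv, ← this, mul_inv_cancel]
    refine MonoidHom.ext fun a => ?_
    obtain ⟨b, hb, e⟩ := h6 (hcomm.ge a.2)
    rwa [← Subtype.ext e]
  have h7 : ∀ v : Co k E, (∀ a ∈ A, coAct k ρ a v = v) → v = 0 := fun v hv => LinearMap.ext fun z => by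
    have := mem_Fx.1 (show v ∈ Fx (coAct k ρ) A from hv) z
    rwa [h0, Submodule.mem_bot] at this
  obtain ⟨h3, h4⟩ := main (coAct k ρ) hA' h2 hT h7 hq hq2 hx1 h1
  rw [card_Fx (k := k) ρ T]
  by_cases h6 : 3 ≤ finrank k (Fx (coAct k ρ) T)
  · exact Or.inl (Nat.pow_le_pow_right two_pos h6)
  · refine Or.inr ⟨by rw [show finrank k _ = 2 by omega]; rfl, x, x.2, ?_⟩
    by_contra! e
    exact h6 (h4 fun v hv => mem_Fx.2 fun z => e _ (mem_Fx.1 hv z))


/-- Let S be a finite solvable group whose order is divisible only by the primes 2, p, q (p, q distinct odd primes), with a Sylow system S₂, S_p, S_q (pairwise permutable Sylow subgroups) such that: S_p is a minimal normal subgroup of S of order p or p²; S_q has order q and [S_p, S_q] = S_p; and O₂(S) = 1. Let E be an irreducible module for S over the field with two elements on which S_p acts faithfully, and E₀ the subspace of fixed points of S₂. Then either E₀ has at least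 8 elements, or E₀ has exactly 4 elements and S_q does not leave E₀ invariant. -/
theorem result {S : Type*} [Group S] [Finite S]
    [Group.IsSolvable S] (p q : ℕ) (hp : p.Prime) (hq : q.Prime) (hp2 : p ≠ 2) (hq2 : q ≠ 2) (hpq : p ≠ q)
    (hπ : ∀ r : ℕ, r.Prime → r ∣ Nat.card S → r = 2 ∨ r = p ∨ r = q)
    (S₂ : Sylow 2 S) (Sp : Sylow p S) (Sq : Sylow q S)
    (h2q : Nat.card ↥((S₂ : Subgroup S) ⊔ (Sq : Subgroup S)) = Nat.card ↥S₂ * Nat.card ↥Sq)
    (h2p : Nat.card ↥((S₂ : Subgroup S) ⊔ (Sp : Subgroup S)) = Nat.card ↥S₂ * Nat.card ↥Sp)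
    (hpq' : Nat.card ↥((Sp : Subgroup S) ⊔ (Sq : Subgroup S)) = Nat.card ↥Sp * Nat.card ↥Sq)
    (hSpN : (Sp : Subgroup S).Normal) (hSpmin : ∀ N : Subgroup S, N.Normal → N ≤ (Sp : Subgroup S) → N = ⊥ ∨ N = (Sp : Subgroup S))
    (hSpcard : Nat.card ↥Sp = p ∨ Nat.card ↥Sp = p ^ 2)
    (hSq : Nat.card ↥Sq = q) (hcomm : ⁅(Sp : Subgroup S), (Sq : Subgroup S)⁆ = (Sp : Subgroup S))
    (hO2 : Cfsg.pCore 2 S = ⊥)
    {E : Type*} [AddCommGroup E] [Module (ZMod 2) E] [Finite E] (ρ : Representation (ZMod 2) S E) (hE : Nontrivial E)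
    (hirr : ∀ N : Submodule (ZMod 2) E, (∀ s : S, ∀ m ∈ N, ρ s m ∈ N) → N = ⊥ ∨ N = ⊤)
    (hfaith : ∀ x ∈ (Sp : Subgroup S), ρ x = 1 → x = 1) :
    8 ≤ Nat.card {v : E // ∀ s ∈ (S₂ : Subgroup S), ρ s v = v} ∨
      (Nat.card {v : E // ∀ s ∈ (S₂ : Subgroup S), ρ s v = v} = 4 ∧
        ∃ x ∈ (Sq : Subgroup S), ∃ v : E, (∀ s ∈ (S₂ : Subgroup S), ρ s v = v) ∧ ¬ ∀ s ∈ (S₂ : Subgroup S), ρ s (ρ x v) = ρ x v) := by
  haveI := Fact.mk hp
  have hc : Nat.card (Sp : Subgroup S) = p ∨ Nat.card (Sp : Subgroup S) = p ^ 2 := hSpcard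
  have hodd : Odd (Nat.card (Sp : Subgroup S)) := hc.elim (fun e => e.symm ▸ hp.odd_of_ne_two hp2)
    fun e => e.symm ▸ (hp.odd_of_ne_two hp2).pow
  haveI : IsMulCommutative (Sp : Subgroup S) := hc.elim (fun e => (isCyclic_of_prime_card e).isMulCommutative)
    fun e => IsPGroup.isMulCommutative_of_card_eq_prime_sq e
  obtain ⟨m, hm⟩ := exists_roots (hodd.of_dvd_nat (Group.exponent_dvd_nat_card (G := (Sp : Subgroup S))))
  have hA : (Nat.card (Sp : Subgroup S) : GaloisField 2 m) ≠ 0 := fun e =>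
    (Nat.not_even_iff_odd.2 hodd) (even_iff_two_dvd.2 ((CharP.cast_eq_zero_iff (GaloisField 2 m) 2 _).1 e))
  have h0 : Fx ρ (Sp : Subgroup S) = ⊥ := (hirr (Fx ρ (Sp : Subgroup S)) fun s v hv a ha => by
      rw [← End.mul_apply, ← map_mul, show a * s = s * (s⁻¹ * a * s) by group, map_mul, End.mul_apply,
        hv _ (hSpN.conj_mem' a ha s)]).resolve_right fun e => by
    have h1 : (Sp : Subgroup S) = ⊥ := eq_bot_iff.2 fun a ha =>
      hfaith a ha (LinearMap.ext fun v => (e.ge (Submodule.mem_top (x := v))) a ha)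
    have h2 : Nat.card (Sp : Subgroup S) = 1 := by rw [h1, Subgroup.card_bot]
    have := hp.one_lt
    rcases hc with e | e <;> nlinarith
  exact aux CharTwo.two_eq_zero hA S₂.isPGroup' hq hq2 hSq hcomm ρ h0

end Cfsg.Agent.S4414
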