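import Cfsg.Statements.S4415
import Cfsg.Agent.Lib.Loc.H6Fr3

set_option autoImplicit false
open Cfsg

set_option linter.unusedVariables false
set_option linter.unusedSimpArgs false
set_option linter.style.haveILetI false

namespace Cfsg.Agent.S4415

open Subgroup Cfsg CA CA.BG CA.BG4 CA.H6Fr Module
open scoped commutatorElement

section
set_option linter.unusedSectionVars false

variable {S : Type*} [Group S] [Finite S] {E : Type*} [AddCommGroup E] [Module (ZMod 3) E] [Finite E]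
  {ρ : Representation (ZMod 3) S E} {b q1 q2 q3 g k x y z : S} {e0 e1 e2 e3 v : E} {R : Subgroup S}

theorem idx2 {K : Subgroup S} {q a : S} (z2 : z * z = 1) (z1 : z ≠ 1) (hz : ∀ y ∈ K, y * z = z * y)
    (hK : ∀ y ∈ K, y * q = q * y ∨ y * q = z * (q * y)) (ha : a ∈ K) (e : a * q = z * (q * a)) :
    ♯(𝓒₁(q) ⊓ K) * 2 = ♯K := by
  rw [← card_inf_mul_relIndex 𝓒₁(q) K]
  congr 1
  refine (relIndex_eq_two_iff.2 ⟨a, ha, fun y hy => ?_⟩).symm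
  have k : y * a * q = z * (y * q) * a := by rw [mul_assoc, e, ← mul_assoc, hz y hy]; group
  rcases hK y hy with h | h
  · refine .inr ⟨mem_cent1.2 h, fun h' => z1 ?_⟩
    have := mem_cent1.1 h'
    rw [k, h, ← mul_assoc q] at this
    simpa using this
  · refine .inl ⟨mem_cent1.2 (by rw [k, h, ← mul_assoc z, z2, one_mul, mul_assoc]), fun h' => z1 ?_⟩
    rw [mem_cent1.1 h'] at h
    simpa using h

structure C2 (ρ : Representation (ZMod 3) S E) (R : Subgroup S) (b q1 q2 q3 z x : S) (f0 e1 e2 e3 : E) : Prop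
    extends Cx ρ R b q1 q2 q3 e1 e2 e3 where
  hz : z ∈ 𝓩(R) ⊓ 𝓒(zpowers b)
  z2 : z * z = 1
  zn : z ≠ 1
  mx : x ∈ R
  x1 : x * q1 = q1 * x
  x2 : x * q2 = z * (q2 * x)
  x0 : ρ x e1 = f0

namespace C2

variable (h : C2 ρ R b q1 q2 q3 z x e0 e1 e2 e3)
include h

theorem n1 : ρ z e1 = -e1 := h.zneg h.hz h.z2 h.zn

theorem zx (hy : y ∈ R) (hv : ρ z v = -v) : ρ z (ρ y v) = -ρ y v := by
  rw [← comm_ap (zr h.hz hy), hv, map_neg]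

theorem n0 : ρ z e0 = -e0 := h.x0 ▸ h.zx h.mx h.n1

theorem ne0 : e0 ≠ 0 := h.x0 ▸ ap_ne x h.e0

theorem xq1 (v : E) : ρ q1 (ρ x v) = ρ x (ρ q1 v) := (comm_ap h.x1 v).symm

theorem xq2 (hv : ρ z v = -v) : ρ q2 (ρ x v) = -ρ x (ρ q2 v) := by
  rw [← mul_ap x, h.x2, mul_ap, mul_ap, h.zx h.toCx.rot.m1 (h.zx h.mx hv), neg_neg]

theorem c0 : ρ q1 e0 = e0 ∧ ρ q2 e0 = e0 := by
  rw [← h.x0, h.xq1, h.xq2 h.n1, h.a1, h.a2, map_neg, neg_neg]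
  exact ⟨rfl, rfl⟩

theorem rot : C2 ρ R b q2 q3 q1 z (b * x * b⁻¹) e0 e2 e3 e1 :=
  ⟨h.toCx.rot, h.hz, h.z2, h.zn, h.cb h.mx, by rw [← h.c1, conj_mul, conj_mul, h.x1],
    by rw [← h.c2, conj_mul, conj_mul, h.x2, ← mul_assoc b, zb h.hz]; group,
    by rw [← h.b1, mul_ap, inv_ap, mul_ap, h.x0, h.bc h.c0]⟩

theorem x3 : x * q3 = z * (q3 * x) := by
  rw [← h.mul, ← mul_assoc, h.x1, mul_assoc, h.x2, ← mul_assoc, zr h.hz h.m1]; group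

theorem line0 {c : E} (a : ρ q1 c = c ∧ ρ q2 c = c) (hc : ρ z c = -c) : ∃ s : ZMod 3, c = s • e0 := by
  have k := h.xq2 (h.zx (inv_mem h.mx) hc)
  rw [ap_inv, a.2] at k
  obtain ⟨s, e⟩ := h.line (w := ρ x⁻¹ c) ⟨by rw [← inv_ap (ρ := ρ) x (ρ q1 _), ← h.xq1, ap_inv, a.1],
    by rw [← inv_ap (ρ := ρ) x (ρ q2 _), ← neg_eq_iff_eq_neg.2 k, map_neg]⟩
  exact ⟨s, by rw [← h.x0, ← map_smul, ← e, ap_inv]⟩

theorem dec4 (hv : ρ z v = -v) : ∃ c0 c1 c2 c3 : ZMod 3, v = c1 • e1 + c2 • e2 + c3 • e3 + c0 • e0 := by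
  obtain ⟨c1, c2, c3, c, a, rfl⟩ := h.dec v
  simp only [map_add, map_smul, h.n1, h.rot.n1, h.rot.rot.n1] at hv
  obtain ⟨s, rfl⟩ := h.line0 a (by linear_combination (norm := module) hv)
  exact ⟨s, c1, c2, c3, rfl⟩

theorem span_eq : Submodule.span (ZMod 3) (Set.range ![e0, e1, e2, e3]) = Eg ρ z (-1) := by
  refine le_antisymm (Submodule.span_le.2 ?_) fun v hv => ?_
  · rintro _ ⟨i, rfl⟩
    fin_cases i
    exacts [mem_Egn.2 h.n0, mem_Egn.2 h.n1, mem_Egn.2 h.rot.n1, mem_Egn.2 h.rot.rot.n1]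
  · obtain ⟨c0, c1, c2, c3, rfl⟩ := h.dec4 (mem_Egn.1 hv)
    exact (Submodule.mem_span_range_iff_exists_fun _).2 ⟨![c0, c1, c2, c3], by
      simp [Fin.sum_univ_four]; abel⟩

theorem top : Eg ρ z (-1) ⊔ Eg ρ z 1 = ⊤ := eq_top_iff.2 fun v _ => by
  have k : ρ z (ρ z v) = v := by rw [← mul_ap, h.z2, one_ap]
  refine Submodule.mem_sup.2 ⟨ρ z v - v, mem_Egn.2 (by rw [map_sub, k, neg_sub]), -(ρ z v + v),
    mem_Eg1.2 (by rw [map_neg, map_add, k, add_comm]), ?_⟩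
  linear_combination (norm := module) - three v

theorem fx : R ⊔ zpowers b ≤ Fx ρ (Eg ρ z 1) :=
  h.egF (t := -1) h.hz (by rw [h.n1, neg_smul, one_smul]) (by decide)

theorem iv : R ⊔ zpowers b ≤ Iv ρ (Eg ρ z (-1)) :=
  sup_le (fun r hr v hv => Eg_inv (zr h.hz hr) hv) (zpowers_le.2 fun v hv => Eg_inv (zb h.hz) hv)

theorem det4 (hy : y ∈ R) (M : Matrix (Fin 4) (Fin 4) (ZMod 3))
    (hM : ∀ j, ρ y (![e0, e1, e2, e3] j) = ∑ i, M i j • ![e0, e1, e2, e3] i) : 1 = M.det := by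
  have li : LinearIndependent (ZMod 3) ![e0, e1, e2, e3] := Fintype.linearIndependent_iff.2 fun c e i => by
    obtain ⟨z1, z2, z3, z0⟩ := h.ind (c1 := c 1) (c2 := c 2) (c3 := c 3) (c := c 0 • e0) (by simp [h.c0])
      (by rw [← e]; simp [Fin.sum_univ_four]; abel)
    haveI : Fact (Nat.Prime 3) := ⟨Nat.prime_three⟩
    have := (smul_eq_zero.1 z0).resolve_right h.ne0
    fin_cases i <;> assumption
  rw [← h.det1 hy]
  exact det_eq li (h.span_eq ▸ mem_St h.top (h.iv (mem_sup_left hy)) (h.fx (mem_sup_left hy))) M hM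

theorem ext4 (hy : y ∈ R) (hk : k ∈ R) (f0 : ρ y e0 = ρ k e0) (f1 : ρ y e1 = ρ k e1) (f2 : ρ y e2 = ρ k e2)
    (f3 : ρ y e3 = ρ k e3) : y = k :=
  ext_span h.hf (h.span_eq ▸ h.top) (h.fx (mem_sup_left hy)) (h.fx (mem_sup_left hk)) fun i => by
    fin_cases i <;> assumption

theorem sg (hk : k ∈ R) (k1 : k * q1 = q1 * k) (k2 : k * q2 = q2 * k) : ∃ s0 s1 s2 s3 : ZMod 3,
    (s0 = 1 ∨ s0 = -1) ∧ (s1 = 1 ∨ s1 = -1) ∧ (s2 = 1 ∨ s2 = -1) ∧ (s3 = 1 ∨ s3 = -1) ∧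
    ρ k e0 = s0 • e0 ∧ ρ k e1 = s1 • e1 ∧ ρ k e2 = s2 • e2 ∧ ρ k e3 = s3 • e3 := by
  have c3 := h.cm3 k1 k2
  obtain ⟨s0, f0⟩ := h.line0 (c := ρ k e0) ⟨by rw [← comm_ap k1, h.c0.1], by rw [← comm_ap k2, h.c0.2]⟩
    (h.zx hk h.n0)
  obtain ⟨s1, a1, f1⟩ := h.sign k1 k2
  obtain ⟨s2, a2, f2⟩ := h.rot.sign k2 c3
  obtain ⟨s3, a3, f3⟩ := h.rot.rot.sign c3 k1
  exact ⟨s0, s1, s2, s3, sgn s0 fun e => ap_ne k h.ne0 (by rw [f0, e, zero_smul]), a1, a2, a3, f0, f1, f2, f3⟩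

theorem ksq (hk : k ∈ R) (k1 : k * q1 = q1 * k) (k2 : k * q2 = q2 * k) : k * k = 1 := by
  obtain ⟨s0, s1, s2, s3, a0, a1, a2, a3, f0, f1, f2, f3⟩ := h.sg hk k1 k2
  refine h.ext4 (mul_mem hk hk) (one_mem _) ?_ ?_ ?_ ?_
  · rcases a0 with rfl | rfl <;> simp [mul_ap, f0]
  · rcases a1 with rfl | rfl <;> simp [mul_ap, f1]
  · rcases a2 with rfl | rfl <;> simp [mul_ap, f2]
  · rcases a3 with rfl | rfl <;> simp [mul_ap, f3]

theorem kmem (hk : k ∈ R) (k1 : k * q1 = q1 * k) (k2 : k * q2 = q2 * k) :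
    k ∈ zpowers z ⊔ (zpowers q1 ⊔ zpowers q2) := by
  obtain ⟨s0, s1, s2, s3, a0, a1, a2, a3, f0, f1, f2, f3⟩ := h.sg hk k1 k2
  have hd := h.det4 hk (Matrix.diagonal ![s0, s1, s2, s3])
    fun j => by fin_cases j <;> simp [Fin.sum_univ_four, f0, f1, f2, f3, Matrix.diagonal]
  rw [Matrix.det_diagonal, Fin.prod_univ_four] at hd
  have le : zpowers z ⊔ (zpowers q1 ⊔ zpowers q2) ≤ R :=
    sup_le (zpowers_le.2 h.hz.1.1) (sup_le (zpowers_le.2 h.m1) (zpowers_le.2 h.rot.m1))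
  have key : ∀ a ∈ zpowers z ⊔ (zpowers q1 ⊔ zpowers q2), ρ a e0 = s0 • e0 → ρ a e1 = s1 • e1 →
      ρ a e2 = s2 • e2 → ρ a e3 = s3 • e3 → k ∈ zpowers z ⊔ (zpowers q1 ⊔ zpowers q2) :=
    fun a ha g0 g1 g2 g3 => h.ext4 hk (le ha) (by rw [f0, g0]) (by rw [f1, g1]) (by rw [f2, g2])
      (by rw [f3, g3]) ▸ ha
  have mz : z ∈ zpowers z ⊔ (zpowers q1 ⊔ zpowers q2) := mem_sup_left (mem_zpowers _)
  have m1 : q1 ∈ zpowers z ⊔ (zpowers q1 ⊔ zpowers q2) := mem_sup_right (mem_sup_left (mem_zpowers _))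
  have m2 : q2 ∈ zpowers z ⊔ (zpowers q1 ⊔ zpowers q2) := mem_sup_right (mem_sup_right (mem_zpowers _))
  have t0 := h.n0; have t1 := h.n1; have t2 := h.rot.n1; have t3 := h.rot.rot.n1
  have u0 := h.c0.1; have u1 := h.a1; have u2 := h.rot.a3; have u3 := h.rot.rot.a2
  have w0 := h.c0.2; have w1 := h.a2; have w2 := h.rot.a1; have w3 := h.rot.rot.a3
  rcases a0 with rfl | rfl <;> rcases a1 with rfl | rfl <;> rcases a2 with rfl | rfl <;>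
    rcases a3 with rfl | rfl <;>
    first
    | exact absurd hd (by decide)
    | refine key 1 (one_mem _) ?_ ?_ ?_ ?_ <;> (simp; done)
    | refine key _ m1 ?_ ?_ ?_ ?_ <;> (simp [u0, u1, u2, u3]; done)
    | refine key _ m2 ?_ ?_ ?_ ?_ <;> (simp [w0, w1, w2, w3]; done)
    | refine key _ mz ?_ ?_ ?_ ?_ <;> (simp [t0, t1, t2, t3]; done)
    | refine key _ (mul_mem m1 m2) ?_ ?_ ?_ ?_ <;> (simp [mul_ap, u0, u1, u2, u3, w0, w1, w2, w3]; done)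
    | refine key _ (mul_mem mz m1) ?_ ?_ ?_ ?_ <;> (simp [mul_ap, u0, u1, u2, u3, t0, t1, t2, t3]; done)
    | refine key _ (mul_mem mz m2) ?_ ?_ ?_ ?_ <;> (simp [mul_ap, w0, w1, w2, w3, t0, t1, t2, t3]; done)
    | refine key _ (mul_mem mz (mul_mem m1 m2)) ?_ ?_ ?_ ?_ <;>
        (simp [mul_ap, u0, u1, u2, u3, w0, w1, w2, w3, t0, t1, t2, t3]; done)

theorem scal (hy : y ∈ R) {s : ZMod 3} (hs : s = 1 ∨ s = -1) (f0 : ρ y e0 = s • e0) (f1 : ρ y e1 = s • e1)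
    (f2 : ρ y e2 = s • e2) (f3 : ρ y e3 = s • e3) : y ∈ zpowers z := by
  rcases hs with rfl | rfl
  · rw [h.ext4 hy (one_mem _) (by simp [f0]) (by simp [f1]) (by simp [f2]) (by simp [f3])]
    exact one_mem _
  · rw [h.ext4 hy h.hz.1.1 (by simp [f0, h.n0]) (by simp [f1, h.n1]) (by simp [f2, h.rot.n1])
      (by simp [f3, h.rot.rot.n1])]
    exact mem_zpowers _

theorem xsq : x * x ∈ zpowers z := by
  obtain ⟨α, f0⟩ := h.line (w := ρ x e0) ⟨by rw [h.xq1, h.c0.1], by rw [h.xq2 h.n0, h.c0.2]⟩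
  obtain ⟨β, f2⟩ := h.rot.rot.line (w := ρ x e2)
    ⟨by rw [← h.mul, mul_ap, h.xq2 h.rot.n1, h.rot.a1, map_neg, h.xq1, h.rot.a3, map_neg, neg_neg],
      by rw [h.xq1, h.rot.a3, map_neg]⟩
  have k3 : ρ q2 (ρ x e3) = ρ x e3 := by rw [h.xq2 h.rot.rot.n1, h.rot.rot.a3, map_neg, neg_neg]
  obtain ⟨γ, f3⟩ := h.rot.line (w := ρ x e3) ⟨k3, by rw [← h.mul, mul_ap, k3, h.xq1, h.rot.rot.a2, map_neg]⟩
  have hd := h.det4 h.mx !![0, 1, 0, 0; α, 0, 0, 0; 0, 0, 0, γ; 0, 0, β, 0]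
    fun j => by fin_cases j <;> simp [Fin.sum_univ_four, f0, h.x0, f2, f3]
  have hd2 : α * (β * γ) = 1 := by
    rw [hd]; simp [Matrix.det_succ_row_zero, Fin.sum_univ_succ, Fin.succAbove, mul_comm]
  have hs := (by decide : ∀ a t : ZMod 3, a * t = 1 → (a = 1 ∨ a = -1) ∧ t = a) _ _ hd2
  refine h.scal (mul_mem h.mx h.mx) hs.1 ?_ ?_ ?_ ?_
  · rw [mul_ap, f0, map_smul, h.x0]
  · rw [mul_ap, h.x0, f0]
  · rw [mul_ap, f2, map_smul, f3, smul_smul, hs.2]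
  · rw [mul_ap, f3, map_smul, f2, smul_smul, mul_comm γ, hs.2]

theorem pow (hy : y ∈ R) : y * y ∈ zpowers z := by
  rcases h.pat h.hz h.z2 h.zn hy with y1 | y1 <;> rcases h.rot.pat h.hz h.z2 h.zn hy with y2 | y2
  · exact h.ksq hy y1 y2 ▸ one_mem _
  · exact xsq ⟨h.toCx, h.hz, h.z2, h.zn, hy, y1, y2, rfl⟩
  · refine xsq ⟨h.toCx.rot, h.hz, h.z2, h.zn, hy, y2, ?_, rfl⟩
    rw [← h.mul, ← mul_assoc, y1, mul_assoc, mul_assoc, y2, mul_assoc]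
  · refine xsq ⟨h.toCx.rot.rot, h.hz, h.z2, h.zn, hy, ?_, y1, rfl⟩
    rw [← h.mul, ← mul_assoc, y1, mul_assoc, mul_assoc, y2, ← mul_assoc q1, zr h.hz h.m1, ← mul_assoc,
      ← mul_assoc, ← mul_assoc, h.z2, one_mul]

theorem seq {s : ZMod 3} (hk : k ∈ 𝓒(R)) (f : ρ k e1 = s • e1) : ρ k e0 = s • e0 := by
  rw [← h.x0, ← comm_ap (mem_cent.1 hk x h.mx), f, map_smul]

theorem ctr : 𝓩(R) ≤ zpowers z := fun k hk => by
  obtain ⟨s0, s1, s2, s3, a0, -, -, -, f0, f1, f2, f3⟩ :=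
    h.sg hk.1 (mem_cent.1 hk.2 _ h.m1).symm (mem_cent.1 hk.2 _ h.rot.m1).symm
  haveI : Fact (Nat.Prime 3) := ⟨Nat.prime_three⟩
  have i := smul_left_injective (ZMod 3) h.ne0
  exact h.scal hk.1 a0 f0 (i (f0.symm.trans (h.seq hk.2 f1)) ▸ f1) (i (f0.symm.trans (h.rot.seq hk.2 f2)) ▸ f2)
    (i (f0.symm.trans (h.rot.rot.seq hk.2 f3)) ▸ f3)

theorem main : (IsExtraspecial 2 R ∧ ♯R = 32 ∧ ∃ A : Subgroup S, A ≤ R ∧ IsElementaryAbelian 2 A ∧ ♯A = 8) ∧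
    Md ρ R (zpowers b) := by
  have hA : 𝓒₁(q2) ⊓ (𝓒₁(q1) ⊓ R) = zpowers z ⊔ (zpowers q1 ⊔ zpowers q2) :=
    le_antisymm (fun k hk => h.kmem hk.2.2 (mem_cent1.1 hk.2.1) (mem_cent1.1 hk.1))
      (sup_le (zpowers_le.2 ⟨mem_cent1.2 (zr h.hz h.rot.m1).symm, mem_cent1.2 (zr h.hz h.m1).symm, h.hz.1.1⟩)
        (sup_le (zpowers_le.2 ⟨mem_cent1.2 h.com, mem_cent1_self _, h.m1⟩)
          (zpowers_le.2 ⟨mem_cent1_self _, mem_cent1.2 h.com.symm, h.rot.m1⟩)))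
  have le0 : zpowers q1 ⊔ zpowers q2 ≤ R := sup_le (zpowers_le.2 h.m1) (zpowers_le.2 h.rot.m1)
  have c8 : ♯(𝓒₁(q2) ⊓ (𝓒₁(q1) ⊓ R)) = 8 := by
    rw [hA, card_sup_of_disjoint (norm_of_cent (zpowers_le.2 (cent_anti le0 h.hz.1.2)))
      (inf_eq_bot_of_prime_not_le (card2 h.z2 h.zn ▸ Nat.prime_two) fun e => ?_), card2 h.z2 h.zn,
      h.toFo.card4]
    have : zpowers q1 ⊔ zpowers q2 ≤ Fx ρ (Eg ρ q1 1 ⊓ Eg ρ q2 1) :=
      sup_le (zpowers_le.2 fun v hv => mem_Eg1.1 hv.1) (zpowers_le.2 fun v hv => mem_Eg1.1 hv.2)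
    exact h.ne0 (neg_self (h.n0.symm.trans
      (this (e (mem_zpowers z)) e0 ⟨mem_Eg1.2 h.c0.1, mem_Eg1.2 h.c0.2⟩)))
  have i1 := idx2 h.z2 h.zn (fun y hy => zr h.hz hy) (fun y hy => h.pat h.hz h.z2 h.zn hy) h.rot.rot.mx
    h.rot.rot.x2
  have i2 := idx2 (K := 𝓒₁(q1) ⊓ R) h.z2 h.zn (fun y hy => zr h.hz hy.2)
    (fun y hy => h.rot.pat h.hz h.z2 h.zn hy.2) ⟨mem_cent1.2 h.x1, h.mx⟩ h.x2
  have ex : H7Lge.EX R z := ⟨⟨h.hz.1.1, h.zn, h.z2, fun y hy => mem_cent1.2 (zr h.hz hy), fun y hy => h.pow hy,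
    fun c hc _ => h.ctr hc⟩, h.ctr, fun hc => h.zn (by
      have := h.x2
      rw [mem_cent.1 (comm_iff_le_cent.1 hc h.rot.m1) x h.mx] at this
      simpa using this)⟩
  refine ⟨⟨ex.extra, by omega, _, inf_le_right.trans inf_le_right,
    elem2 fun k hk => h.ksq hk.2.2 (mem_cent1.1 hk.2.1) (mem_cent1.1 hk.1), c8⟩,
    md_of h.hf (eq_bot_iff.2 fun v hv => neg_self ((mem_Egn.1 hv.1).symm.trans (mem_Eg1.1 hv.2))) h.top h.fx h.iv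
      fun N hN v hv h0 h1 => ?_⟩
  obtain ⟨c0, c1, c2, c3, rfl⟩ := h.dec4 (mem_Egn.1 h0)
  have nb := hN _ (mem_sup_right (mem_zpowers b))
  have m1 : e1 ∈ N := by
    obtain ⟨m0, ⟨rfl, rfl, rfl⟩ | ⟨m1, -, -⟩⟩ := h.irr (hN _ (mem_sup_left h.m1)) (hN _ (mem_sup_left h.rot.m1))
      nb (by simp [h.c0]) hv
    · haveI : Fact (Nat.Prime 3) := ⟨Nat.prime_three⟩
      have := hN _ (mem_sup_left (inv_mem h.mx)) _ ((N.smul_mem_iff fun e => h1 (by simp [e])).1 m0)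
      rwa [← h.x0, inv_ap] at this
    · exact m1
  intro v hv
  obtain ⟨c0, c1, c2, c3, rfl⟩ := h.dec4 (mem_Egn.1 hv)
  exact add_mem (add_mem (add_mem (N.smul_mem _ m1) (N.smul_mem _ (h.b1 ▸ nb _ m1)))
    (N.smul_mem _ (h.b2 ▸ h.b1 ▸ nb _ (nb _ m1)))) (N.smul_mem _ (h.x0 ▸ hN _ (mem_sup_left h.mx) _ m1))

end C2

end


/-- Let S be a finite solvable group acting faithfully on a finite-dimensional space E over the field with three elements, with O₃(S) = 1. Let B ≤ S have order 3 and suppose: E = E₀ ⊕ E₁ with B fixing E₁ pointwise, E₀ B-invariant of order 27 and indecomposable under B (a generator of B has a single Jordan block on E₀); B normalizes but does not centralize some subgroup Q of S that is elementary abelian of order 4; and B is the centre of a Sylow 3-subgroup of S. Put R = [O_{3'}(S), B]. Then R is elementary abelian of order 4 or extraspecial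 of order 32 containing an elementary abelian subgroup of order 8 (a central product of two quaternion groups), and E is the direct sum of a subspace fixed pointwise by R and an RB-invariant subspace on which the subgroup RB acts faithfully and irreducibly. -/
theorem result {S : Type*} [Group S] [Finite S]
    [Group.IsSolvable S] {E : Type*} [AddCommGroup E] [Module (ZMod 3) E] [Finite E] (ρ : Representation (ZMod 3) S E)
    (hfaith : Function.Injective ρ) (hO3 : Cfsg.pCore 3 S = ⊥)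
    (B : Subgroup S) (hB : Nat.card ↥B = 3) (b : S) (hb : Subgroup.zpowers b = B)
    (E₀ E₁ : Submodule (ZMod 3) E) (hE01 : E₀ ⊓ E₁ = ⊥) (hE01' : E₀ ⊔ E₁ = ⊤)
    (hE1 : ∀ v ∈ E₁, ρ b v = v) (hE0inv : ∀ v ∈ E₀, ρ b v ∈ E₀) (hE0 : Nat.card ↥E₀ = 27)
    (hind : ∃ v ∈ E₀, ρ b (ρ b v - v) - (ρ b v - v) ≠ 0)
    (Q : Subgroup S) (hQ : Cfsg.IsElementaryAbelian 2 Q) (hQ4 : Nat.card ↥Q = 4)
    (hBQ : B ≤ Subgroup.normalizer (Q : Set S)) (hBQ' : ¬ B ≤ Subgroup.centralizer (Q : Set S))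
    (P : Sylow 3 S) (hBZ : (Subgroup.center ↥(P : Subgroup S)).map (P : Subgroup S).subtype = B) :
    ((Cfsg.IsElementaryAbelian 2 ⁅Cfsg.pPrimeCore 3 S, B⁆ ∧ Nat.card ↥⁅Cfsg.pPrimeCore 3 S, B⁆ = 4) ∨
      (Cfsg.IsExtraspecial 2 ↥⁅Cfsg.pPrimeCore 3 S, B⁆ ∧ Nat.card ↥⁅Cfsg.pPrimeCore 3 S, B⁆ = 32 ∧
        ∃ A : Subgroup S, A ≤ ⁅Cfsg.pPrimeCore 3 S, B⁆ ∧ Cfsg.IsElementaryAbelian 2 A ∧ Nat.card ↥A = 8)) ∧
    ∃ F₀ F₁ : Submodule (ZMod 3) E, F₀ ⊓ F₁ = ⊥ ∧ F₀ ⊔ F₁ = ⊤ ∧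
      (∀ r ∈ ⁅Cfsg.pPrimeCore 3 S, B⁆, ∀ v ∈ F₁, ρ r v = v) ∧ (∀ r ∈ ⁅Cfsg.pPrimeCore 3 S, B⁆ ⊔ B, ∀ v ∈ F₀, ρ r v ∈ F₀) ∧
      (∀ r ∈ ⁅Cfsg.pPrimeCore 3 S, B⁆ ⊔ B, (∀ v ∈ F₀, ρ r v = v) → r = 1) ∧
      (∀ N : Submodule (ZMod 3) E, N ≤ F₀ → (∀ r ∈ ⁅Cfsg.pPrimeCore 3 S, B⁆ ⊔ B, ∀ v ∈ N, ρ r v ∈ N) → N = ⊥ ∨ N = F₀) := by
  subst hb
  have ho : orderOf b = 3 := by rwa [Nat.card_zpowers] at hB
  have rk := rk_le (cube ho) hE01' hE1 hE0inv hE0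
  have hP : b ∈ 𝓒((P : Subgroup S)) := by
    have := hBZ ▸ mem_zpowers b
    rw [map_center] at this
    exact this.2
  have h3 : IsPi {3}ᶜ (pPrimeCore 3 S) := (isPi_compl_iff_coprime Nat.prime_three).2 CA.Core.coprime_pPrimeCore
  obtain ⟨p1, p2, p3, hp, -⟩ := exFo ho hQ.1 (isPi_of_card_eq_pow (k := 2) Nat.prime_two hQ4) hBQ hBQ'
  obtain ⟨f1, f2, f3, hf⟩ := hp.exFr hfaith (cube ho) rk
  have nb := le_norm_comm_right (pPrimeCore 3 S) (zpowers b)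
  have gid := coprime_commGid (K := pPrimeCore 3 S) le_normalizer_of_normal (h3.coprime' (piB ho))
    (.inl inferInstance)
  obtain ⟨q1, q2, q3, hq, m1, z1⟩ := exFo2 ho (hf.two hfaith ho h3) nb gid hp
    (comm_symm (zpowers b) _ ▸ hp.comm_eq ▸ commutator_mem_commutator (mem_zpowers b) (hp.rot.memH P hP))
  obtain ⟨e1, e2, e3, he⟩ := hq.exFr hfaith (cube ho) rk
  have h : Cx ρ _ b q1 q2 q3 e1 e2 e3 := ⟨he, hfaith, nb, gid, m1, z1⟩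
  by_cases hc : ∀ x ∈ ⁅pPrimeCore 3 S, zpowers b⁆, x * q1 = q1 * x
  · exact ⟨.inl (h.case1 hc).1, (h.case1 hc).2⟩
  push Not at hc
  obtain ⟨x, hx, hn⟩ := hc
  have zn : ⁅x, q1⁆ ≠ 1 := fun e => hn (commutatorElement_eq_one_iff_mul_comm.1 e)
  have y1 := (h.pat (z1 x hx) (h.csq hx) zn hx).resolve_left hn
  rcases h.rot.pat (z1 x hx) (h.csq hx) zn hx with y2 | y2
  · have := C2.main ⟨h.rot, z1 x hx, h.csq hx, zn, hx, y2,
      by rw [← h.mul, ← mul_assoc, y1, mul_assoc, mul_assoc, y2, mul_assoc], rfl⟩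
    exact ⟨.inr this.1, this.2⟩
  · have := C2.main ⟨h.rot.rot, z1 x hx, h.csq hx, zn, hx,
      by rw [← h.mul, ← mul_assoc, y1, mul_assoc, mul_assoc, y2, ← mul_assoc q1, zr (z1 x hx) h.m1, ← mul_assoc,
        ← mul_assoc, ← mul_assoc, h.csq hx, one_mul], y1, rfl⟩
    exact ⟨.inr this.1, this.2⟩

end Cfsg.Agent.S4415
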