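import Cfsg.Statements.S4417
import Cfsg.Agent.Lib.Grp.H10Dl

set_option autoImplicit false
open Cfsg

namespace Cfsg.Agent.S4417

open CA.H10Dl Subgroup

/-- Let F be a field with q elements, p a prime not dividing q, and e the multiplicative order of q modulo p; assume e ≤ n. Then every p-subgroup of GL_n(F) has derived length at most ⌊log₂(n/e)⌋ + 1: that term of its derived series is trivial (n/e is the integer quotient). -/
theorem result {F : Type*} [Field F] [Fintype F] (q : ℕ) (hF : Fintype.card F = q) (p : ℕ) [Fact p.Prime] (hpq : ¬ p ∣ q) (n e : ℕ) (he : e = orderOf (q : ZMod p)) (hen : e ≤ n) (P : Subgroup (GL (Fin n) F)) (hP : IsPGroup p P) : derivedSeries ↥P (Nat.log 2 (n / e) + 1) = ⊥ := by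
  have hp' : p.Prime := Fact.out
  have h1 : 1 < q := hF ▸ Fintype.one_lt_card
  subst he
  refine eq_bot_iff.2 (le_trans ?_ ((MonoidHom.ker_eq_bot_iff (mrep (algebraMap F
    (AlgebraicClosure F)) P.subtype)).2 (mrep_inj _ P.subtype_injective)).le)
  let σ := FiniteField.frobeniusAlgHom F (AlgebraicClosure F)
  have hσ : ∀ x, σ x = x ^ q := fun x => hF ▸ rfl
  refine frob (fun e => hpq ?_) (by omega) hpq _ _ _ _
    (σ.toRingHom.toAddMonoidHom.compLeft (Fin n))
    (fun a b e => funext fun i => σ.toRingHom.injective (congrFun e i))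
    (fun r v => funext fun i => by simp [hσ, mul_pow]) (fun g v => funext fun i => ?_)
    hP (Nat.lt_succ_self _) (by
      simpa using (Nat.lt_pow_succ_log_self one_lt_two _).trans_le (Nat.pow_le_pow_left hp'.two_le _))
  · have := (CharP.charP_iff_prime_eq_zero (R := F) hp').2
      ((algebraMap F (AlgebraicClosure F)).injective (by simpa using e))
    obtain ⟨m, -, hm⟩ := FiniteField.card F p
    exact hF ▸ hm ▸ dvd_pow_self p m.ne_zero
  · show _ = σ _
    simp [mrep_apply, Matrix.mulVec, dotProduct, map_sum, -FiniteField.coe_frobeniusAlgHom]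

end Cfsg.Agent.S4417
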