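import Cfsg.Statements.S4420
import Cfsg.Agent.Lib.Grp.PGBasic

set_option autoImplicit false
open Cfsg

namespace Cfsg.Agent.S4420

open CA.PGBasic Subgroup

/-- Structure of groups in which every element outside some proper subgroup has square 1. Let H be a finite group with a proper subgroup A such that every element outside A has square 1. Then H has an abelian normal subgroup B of index 2 such that every element outside B is an involution inverting every element of B; and if H is not an elementary abelian 2-group, B is the only abelian normal subgroup of index 2 with this property. -/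
theorem result {H : Type*} [Group H] [Finite H] (A : Subgroup H) (hA : A ≠ ⊤) (hD : ∀ x : H, x ∉ A → x ^ 2 = 1) :
    ∃ B : Subgroup H, B.Normal ∧ IsMulCommutative ↥B ∧ B.index = 2 ∧
      (∀ x : H, x ∉ B → x ^ 2 = 1 ∧ ∀ b ∈ B, x * b * x⁻¹ = b⁻¹) ∧
      (¬ (IsMulCommutative H ∧ ∀ x : H, x ^ 2 = 1) →
        ∀ B' : Subgroup H, B'.Normal → IsMulCommutative ↥B' → B'.index = 2 →
          (∀ x : H, x ∉ B' → x ^ 2 = 1 ∧ ∀ b ∈ B', x * b * x⁻¹ = b⁻¹) → B' = B) := by
  have sq : ∀ x : H, x ^ 2 = 1 → x⁻¹ = x := fun x h => by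
    rw [inv_eq_iff_mul_eq_one, ← pow_two, h]
  have inv : ∀ x ∉ A, ∀ a ∈ A, x * a * x⁻¹ = a⁻¹ := fun x hx a ha => by
    have := sq _ (hD (x * a) fun h => hx ((mul_mem_cancel_right ha).1 h))
    rw [← this, mul_inv_rev, sq x (hD x hx), mul_assoc, ← pow_two, hD x hx, mul_one]
  have el : (∀ x : H, x ^ 2 = 1) → ∀ x y : H, x * y = y * x := fun h x y => by
    rw [← sq _ (h (x * y)), mul_inv_rev, sq x (h x), sq y (h y)]
  obtain ⟨a, ha⟩ : ∃ a, a ∉ A := by
    by_contra! h
    exact hA (eq_top_iff.2 fun x _ => h x)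
  by_cases hE : ∀ x : H, x ^ 2 = 1
  · have h2 : IsPGroup 2 H := fun x => ⟨1, hE x⟩
    obtain ⟨B, -, hn, hi⟩ := exists_index_eq_of_ne_top h2 hA
    refine ⟨B, hn, isMulCommutative_iff.2 fun x _ y _ => el hE x y, hi, fun x _ => ⟨hE x, fun b _ => ?_⟩,
      fun h => absurd ⟨⟨⟨el hE⟩⟩, hE⟩ h⟩
    rw [el hE x, mul_inv_cancel_right, sq b (hE b)]
  have hi : A.index = 2 := by
    refine index_eq_two_iff.2 ⟨a, fun b => ?_⟩
    by_cases hb : b ∈ A
    · exact Or.inr ⟨hb, fun h => ha ((mul_mem_cancel_left hb).1 h)⟩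
    · refine Or.inl ⟨by_contra fun h => hE fun x => ?_, hb⟩
      by_cases hx : x ∈ A
      · have h1 := inv _ h x hx
        have h2 : b * a * x * (b * a)⁻¹ = b * (a * x * a⁻¹) * b⁻¹ := by group
        rw [h2, inv a ha x hx, inv b hb _ (inv_mem hx), inv_inv] at h1
        rw [pow_two]
        nth_rw 1 [h1]
        exact inv_mul_cancel x
      · exact hD x hx
  refine ⟨A, normal_of_index_eq_two hi, isMulCommutative_iff.2 fun x hx y hy => ?_, hi,
    fun x hx => ⟨hD x hx, inv x hx⟩, fun _ B _ hc hB h => ?_⟩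
  · have h1 := inv a ha _ (mul_mem hx hy)
    rw [← conj_mul, inv a ha x hx, inv a ha y hy, ← mul_inv_rev, inv_inj] at h1
    exact h1.symm
  · by_contra hne
    obtain ⟨y, hy, hyA⟩ : ∃ y ∈ B, y ∉ A := by
      by_contra! hle
      refine hne (eq_of_le_of_card_le hle (Nat.le_of_mul_le_mul_right ?_ two_pos))
      rw [← hi, card_mul_index, hi, ← hB, card_mul_index]
    refine hE fun x => ?_
    by_cases hx : x ∈ A
    · by_cases hxB : x ∈ B
      · have h1 := inv y hyA x hx
        rw [isMulCommutative_iff.1 hc y hy x hxB, mul_inv_cancel_right] at h1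
        rw [pow_two]
        nth_rw 1 [h1]
        exact inv_mul_cancel x
      · exact (h x hxB).1
    · exact hD x hx

end Cfsg.Agent.S4420
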