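import Cfsg.Statements.S4444
import Cfsg.Agent.Lib.Char.H12Gl

set_option autoImplicit false
open Cfsg

namespace Cfsg.Agent.S4444

open CA.PF CA.H12Gl Subgroup
open CA.BG hiding cj cj_one cj_mul cj_inv_cj cj_cj_inv

/-- The Glauberman correspondence for a p-group of operators. Inside a finite group Γ let S normalise G with the orders of G and S coprime, S a p-group, and let C = G ⊓ C(S) be the fixed points. Call an irreducible character χ of G S-invariant when χ(s g s⁻¹) = χ(g) for s ∈ S, g ∈ G. Then: (i) for every S-invariant χ there is exactly one irreducible character β of C whose multiplicity [χ_C, β] in the restriction of χ is not divisible by p; (ii) that multiplicity is ≡ 1 or ≡ −1 (mod p); (iii) distinct S-invariant χ give distinct β; (iv) every irreducible character of C arises in this way. So χ ↦ β is a bijection from the S-invariant irreducible characters of G onto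 the irreducible characters of C. -/
theorem result {Γ : Type*} [Group Γ] [Fintype Γ] (G S : Subgroup Γ) [Fintype G] (hnorm : ∀ s ∈ S, ∀ g ∈ G, s * g * s⁻¹ ∈ G) (hcop : (Nat.card G).Coprime (Nat.card S)) (p : ℕ) (hp : p.Prime) (hS : IsPGroup p S) (C : Subgroup Γ) [Fintype C] (hC : C = G ⊓ Subgroup.centralizer (S : Set Γ)) (hCG : C ≤ G) : (∀ χ : Cfsg.IrrCharacter G, (∀ s ∈ S, ∀ g g' : G, (g' : Γ) = s * g * s⁻¹ → (χ : G → ℂ) g' = (χ : G → ℂ) g) → ∃! β : Cfsg.IrrCharacter C, ∃ m : ℕ, Cfsg.classInner (fun c : C => (χ : G → ℂ) ⟨c, hCG c.2⟩) (β : C → ℂ) = (m : ℂ) ∧ ¬ p ∣ m) ∧ (∀ χ : Cfsg.IrrCharacter G, (∀ s ∈ S, ∀ g g' : G, (g' : Γ) = s * g * s⁻¹ → (χ : G → ℂ) g' = (χ : G → ℂ) g) → ∀ β : Cfsg.IrrCharacter C, ∀ m : ℕ, Cfsg.classInner (fun c : C => (χ : G → ℂ) ⟨c, hCG c.2⟩) (β : C → ℂ) = (m : ℂ) → ¬ p ∣ m → ((m : ℤ) ≡ 1 [ZMOD p] ∨ (m : ℤ) ≡ -1 [ZMOD p])) ∧ (∀ χ χ' : Cfsg.IrrCharacter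 G, (∀ s ∈ S, ∀ g g' : G, (g' : Γ) = s * g * s⁻¹ → (χ : G → ℂ) g' = (χ : G → ℂ) g) → (∀ s ∈ S, ∀ g g' : G, (g' : Γ) = s * g * s⁻¹ → (χ' : G → ℂ) g' = (χ' : G → ℂ) g) → ∀ β : Cfsg.IrrCharacter C, ∀ m m' : ℕ, Cfsg.classInner (fun c : C => (χ : G → ℂ) ⟨c, hCG c.2⟩) (β : C → ℂ) = (m : ℂ) → ¬ p ∣ m → Cfsg.classInner (fun c : C => (χ' : G → ℂ) ⟨c, hCG c.2⟩) (β : C → ℂ) = (m' : ℂ) → ¬ p ∣ m' → χ = χ') ∧ (∀ β : Cfsg.IrrCharacter C, ∃ χ : Cfsg.IrrCharacter G, (∀ s ∈ S, ∀ g g' : G, (g' : Γ) = s * g * s⁻¹ → (χ : G → ℂ) g' = (χ : G → ℂ) g) ∧ ∃ m : ℕ, Cfsg.classInner (fun c : C => (χ : G → ℂ) ⟨c, hCG c.2⟩) (β : C → ℂ) = (m : ℂ) ∧ ¬ p ∣ m) := by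
  have : Fact p.Prime := ⟨hp⟩
  have hN := norm_of_conj hnorm
  by_cases hG : p ∣ Nat.card G
  · -- then `S` is trivial
    have hS1 : S = ⊥ := by
      by_contra h
      exact not_dvd_of_coprime hp hcop hG ((isPi_of_isPGroup hp hS).dvd_card h)
    have hCG' : C = G := by rw [hC, hS1, cent_bot, inf_top_eq]
    subst hCG'
    rename_i i j
    obtain rfl : i = j := Subsingleton.elim _ _
    have key : ∀ (χ β : IrrCharacter C) (m : ℕ),
        classInner (fun c : C => (χ : C → ℂ) ⟨c, hCG c.2⟩) (β : C → ℂ) = (m : ℂ) → ¬ p ∣ m →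
        χ = β ∧ m = 1 := fun χ β m e hm => by
      have h1 : χ = β := Subtype.ext (CChar.CharFun.irr_eq_of_inner_ne_zero χ.2 β.2 fun h => by
        rw [CChar.CharFun.inner_fintype_congr _ _ χ.1 β.1] at h
        have h2 : (m : ℂ) = 0 := e.symm.trans h
        exact hm ((Nat.cast_eq_zero.1 h2) ▸ dvd_zero p))
      subst h1
      exact ⟨rfl, by exact_mod_cast e.symm.trans (CChar.CharFun.inner_irr_self χ.2)⟩
    have key2 : ∀ χ : IrrCharacter C, ∃ m : ℕ,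
        classInner (fun c : C => (χ : C → ℂ) ⟨c, hCG c.2⟩) (χ : C → ℂ) = (m : ℂ) ∧ ¬ p ∣ m :=
      fun χ => ⟨1, (CChar.CharFun.inner_irr_self χ.2).trans Nat.cast_one.symm, hp.not_dvd_one⟩
    refine ⟨fun χ _ => ⟨χ, key2 χ, fun β ⟨m, e, hm⟩ => (key χ β m e hm).1.symm⟩,
      fun χ _ β m e hm => Or.inl (by rw [(key χ β m e hm).2]; rfl),
      fun χ χ' _ _ β m m' e hm e' hm' => (key χ β m e hm).1.trans (key χ' β m' e' hm').1.symm,
      fun β => ⟨β, fun s hs g g' e => ?_, key2 β⟩⟩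
    rw [hS1, mem_bot] at hs
    rw [Subtype.ext (show (g' : Γ) = g by simpa [hs] using e)]
  refine ⟨fun χ hχ => ?_, fun χ hχ β m e hm => ?_, fun χ χ' hχ hχ' β m m' e hm e' hm' => ?_,
    fun β => ?_⟩
  · have h1 := (le_stab_ext_iff hN χ.1).2 hχ
    obtain ⟨β, hβ, e⟩ := gr_exists hS hN hG hC (ext_mem_irr.2 χ.2) h1
    obtain ⟨β, rfl⟩ := exists_ext hβ
    refine ⟨β, by beta_reduce; rw [← dot_ext hCG]; exact e, fun β' e' => Subtype.ext (ext_injective C ?_)⟩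
    exact gr_unique hS hN hG hC (ext_mem_irr.2 χ.2) h1 (ext_mem_irr.2 β'.2) hβ
      (by beta_reduce at e'; rw [← dot_ext hCG] at e'; exact e') e
  · exact gr_sign hS hN hG hC (ext_mem_irr.2 χ.2) ((le_stab_ext_iff hN χ.1).2 hχ)
      (ext_mem_irr.2 β.2) ((dot_ext hCG _ _).trans e) hm
  · exact Subtype.ext (ext_injective G (gr_inj hS hN hG hC (ext_mem_irr.2 χ.2)
      ((le_stab_ext_iff hN χ.1).2 hχ) (ext_mem_irr.2 χ'.2) ((le_stab_ext_iff hN χ'.1).2 hχ')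
      (ext_mem_irr.2 β.2) ⟨m, (dot_ext hCG _ _).trans e, hm⟩ ⟨m', (dot_ext hCG _ _).trans e', hm'⟩))
  · obtain ⟨χ, h1, h2, e⟩ := gr_surj hS hN hG hC (ext_mem_irr.2 β.2)
    obtain ⟨χ, rfl⟩ := exists_ext h1
    exact ⟨χ, (le_stab_ext_iff hN χ.1).1 h2, by rw [← dot_ext hCG]; exact e⟩

end Cfsg.Agent.S4444
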