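import Cfsg.Statements.S4518
import Cfsg.Agent.Lib.Block.BlkPr

set_option autoImplicit false
open Cfsg

namespace Cfsg.Agent.S4518
open Cfsg MonoidAlgebra CA.BlkAlg CA.BlkVal CA.BlkOmega CA.BlkRed CA.BlkCore CA.BlkDefect CA.BlkInd CA.BlkHeight CA.SylIn CA.H12PPart CChar.CharFun CChar.CharOrth Subgroup CA.BlkKer CChar.CharKer CA.BlkZero CChar.CharInt CA.BlkReg CA.BlkGal CA.BlkQuo CA.BlkBas CA.BlkIdem CA.BlkIBr CChar.CharGen CA.BlkCov CA.H12Cover CA.Clif CA.BlkInt CA.BlkPr

/-- Let N be a normal subgroup of the finite group G whose index is not divisible by the prime p, and let k be coprime to the order of G with k ^ (p ^ e) ≡ 1 modulo the order of G for some e (so g ↦ g ^ k induces a field automorphism of p-power order on character values). If an irreducible character χ of G satisfies χ (g ^ k) = χ g for all g, then every irreducible constituent θ of the restriction of χ to N satisfies θ (n ^ k) = θ n for all n. -/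
theorem result {G : Type*} [Group G] [Fintype G] (p : ℕ) [Fact p.Prime] (N : Subgroup G) [N.Normal] [Fintype N] (hidx : ¬ p ∣ N.index) (k e : ℕ) (hk : Nat.Coprime k (Nat.card G)) (hke : k ^ (p ^ e) ≡ 1 [MOD Nat.card G]) (χ : Cfsg.IrrCharacter G) (hχ : ∀ g : G, (χ : G → ℂ) (g ^ k) = (χ : G → ℂ) g) (θ : Cfsg.IrrCharacter N) (hθ : Cfsg.classInner (fun n : N => (χ : G → ℂ) n) (θ : N → ℂ) ≠ 0) : ∀ n : N, (θ : N → ℂ) (n ^ k) = (θ : N → ℂ) n := by
  classical
  have hp : p.Prime := Fact.out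
  have hk' := coprime_subgroup hk N
  have hp1 : pw hk χ = χ := (pw_eq_self_iff hk).2 hχ
  obtain ⟨φ, hφ, h⟩ := exists_fixed_of_not_dvd hp (pwEquiv hk')
    (pwEquiv_pow_eq_one hk' (hke.of_dvd (card_subgroup_dvd_card N)))
    (fun φ => classInner (fun n : N => χ.1 n) φ.1 ≠ 0)
    (fun φ h => by
      have := inner_res_pw hk N.subtype hk' χ φ
      rw [hp1] at this
      exact this ▸ h)
    (fun hd => hidx (hd.trans (by
      have : Nat.card {φ : IrrCharacter N // classInner (fun n : N => χ.1 n) φ.1 ≠ 0} =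
          (conjs θ.1).card := by
        rw [← Fintype.card_coe, ← Nat.card_eq_fintype_card]
        refine Nat.card_congr ⟨fun φ => ⟨φ.1.1, mem_conjs_of_common χ.2 θ.2 φ.1.2 hθ φ.2⟩,
          fun φ => ⟨⟨φ.1, conjs_irr θ.2 φ.2⟩, ?_⟩, fun _ => rfl, fun _ => rfl⟩
        obtain ⟨g, hg⟩ := mem_conjs.1 φ.2
        simp only [hg]
        rwa [inner_res_cj (irr_classFun χ.2)]
      rw [this, card_conjs]
      exact index_dvd_of_le (le_inertia (irr_classFun θ.2)))))
  obtain ⟨g, hg⟩ := mem_conjs.1 (mem_conjs_of_common χ.2 φ.2 θ.2 hφ hθ)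
  intro n
  rw [hg, cj_eq_comp]
  simp only [map_pow]
  exact (pw_eq_self_iff hk').1 h _

end Cfsg.Agent.S4518
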