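import Cfsg.Statements.S4519
import Cfsg.Agent.Lib.Char.H10FS
import Cfsg.Agent.Lib.Char.GalC
import Cfsg.Agent.Lib.Grp.PRes

set_option autoImplicit false
open Cfsg

namespace Cfsg.Agent.S4519
open CA.H10FS CA.MatRep CA.H11FS CA.Clif CA.Gall CA.Ind2 CA.Ext CChar.CharFun CChar.CharOrth CChar.CharInt CChar.CharProd CChar.CharKer CA.Ind Subgroup

open scoped ComplexConjugate

variable {G : Type*} [Group G] [Fintype G] {N : Subgroup G} [hN : N.Normal] {θ : N → ℂ}
  {σ : ℂ →+* ℂ} {χ : G → ℂ}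

theorem ext_fix (ho : Odd N.index) (hσ : ∀ z : ℂ, z ^ (N.index * N.index) = 1 → σ z = z⁻¹)
    (hθ : IsIrrCharacter N θ) (hinv : inertia θ = ⊤) (hr : ∀ n, σ (θ n) = θ n) :
    ∃ χ, IsIrrCharacter G χ ∧ (∀ n : N, χ n = θ n) ∧ ∀ g, σ (χ g) = χ g := by
  obtain ⟨Γ, _, _, π, ι, θ', l, h1, h2, h3, h4, h5, h6, -, h7, h8⟩ := exists_triple hθ hinv
  have := Fintype.ofFinite Γ
  have : ι.range.Normal := ⟨by rintro _ ⟨n, rfl⟩ γ; exact ⟨_, (h4 γ n).symm⟩⟩
  have hi : Function.Injective ι := fun a b e => Subtype.ext (by rw [← h3, e, h3])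
  obtain ⟨μ, h9, h10⟩ := exists_linear_of_ext (N := ι.range) (char_of_irr h5)
    (irr_of_irr_comp ι.rangeRestrict (char_restrict (char_of_irr h5) _) (by simpa [h6] using hθ))
    (CA.Cons.char_map σ (char_of_irr h5)) (by
      rintro ⟨_, n, rfl⟩; exact (h6 n).symm ▸ hr n)
  have h11 : ι.range.index = N.index * N.index := by
    have a := π.ker.card_mul_index
    rw [Subgroup.index_ker, MonoidHom.range_eq_top.2 h1, Subgroup.card_top, h8,
      ← ι.range.card_mul_index, ← N.card_mul_index,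
      ← Nat.card_congr (MonoidHom.ofInjective hi).toEquiv, mul_left_comm] at a
    exact (Nat.eq_of_mul_eq_mul_left Nat.card_pos a).symm
  obtain ⟨k, hk⟩ := ho.mul ho
  have h12 : μ ^ (k + 1) * μ ^ (k + 1) = μ := by
    refine MonoidHom.ext fun g => ?_
    rw [MonoidHom.mul_apply, MonoidHom.pow_apply, ← pow_add,
      show k + 1 + (k + 1) = 2 * k + 1 + 1 by ring, ← hk, ← h11, pow_succ,
      pow_index_apply μ h9, one_mul]
  generalize hν : μ ^ (k + 1) = ν at h12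
  have h13 := irr_unitsHom_mul h5 ν
  have hν1 : ∀ g, (ν g : ℂ) ^ (N.index * N.index) = 1 := fun g => by
    rw [← Units.val_pow_eq_pow_val, ← hν, MonoidHom.pow_apply, ← pow_mul, mul_comm, pow_mul, ← h11,
      pow_index_apply μ h9]; simp
  have h14 : ∀ g, σ ((ν g : ℂ) * θ' g) = ν g * θ' g := fun g => by
    rw [map_mul, congrFun h10 g, hσ _ (hν1 g), ← h12]
    simp [← mul_assoc]
  obtain ⟨χ, h15, h16⟩ := irr_exists_of_surjective π h1 h13 fun z hz => by
    have e := h7 ⟨z, hz⟩ 1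
    have e1 := h14 z
    have e2 := h14 1
    simp only [mul_one, map_one, Units.val_one, one_mul] at e e2
    rw [e, ← mul_assoc, map_mul, e2, mul_left_inj' (irr_apply_one_ne_zero h5)] at e1
    have e3 : ((ν z : ℂ) * l ⟨z, hz⟩) ^ N.index = 1 := by
      have : (⟨z, hz⟩ : π.ker) ^ N.index = 1 := h8 ▸ pow_card_eq_one'
      rw [mul_pow, ← Units.val_pow_eq_pow_val, ← Units.val_pow_eq_pow_val, ← map_pow, ← map_pow,
        this, show z ^ N.index = 1 from congrArg Subtype.val this]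
      simp
    rw [mem_charKer (char_of_irr h13), e, ← mul_assoc]
    generalize (ν z : ℂ) * l ⟨z, hz⟩ = w at e1 e3
    rw [hσ w (by rw [pow_mul, e3, one_pow])] at e1
    obtain ⟨j, hj⟩ := ho
    have hw : w ≠ 0 := by rintro rfl; simp [hj] at e3
    rw [hj, pow_succ, pow_mul, sq, show w * w = 1 by nth_rewrite 1 [← e1]; exact inv_mul_cancel₀ hw,
      one_pow, one_mul] at e3
    simp [e3]
  refine ⟨χ, h15, fun n => ?_, fun g => ?_⟩
  · rw [← h3, h16, h6, ← hν]; simp [h9 _ ⟨n, rfl⟩]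
  · obtain ⟨g, rfl⟩ := h1 g
    rw [h16]; exact h14 g

theorem eq_one_fix (ho : Odd N.index) (hσ : ∀ z : ℂ, z ^ (N.index * N.index) = 1 → σ z = z⁻¹)
    (hχ : IsIrrCharacter G χ) (h : ∀ n ∈ N, χ n = χ 1) (hr : ∀ g, σ (χ g) = χ g) :
    χ = fun _ => 1 := by
  refine eq_one_of_real ho hχ h fun g => ?_
  obtain ⟨ψ, h1, h2⟩ := irr_exists_quotient hχ N h
  have h0 : N.index ≠ 0 := N.index_ne_zero_of_finite
  have h3 := CA.Cons.map_char_apply σ (char_of_irr h1) (g : G ⧸ N) (N.index - 1) fun z hz => by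
    obtain ⟨c, hc⟩ := orderOf_dvd_natCard (g : G ⧸ N)
    have h4 : z ^ N.index = 1 := by rw [index_eq_card, hc, pow_mul, hz, one_pow]
    rw [hσ z (by rw [pow_mul, h4, one_pow])]
    exact inv_eq_of_mul_eq_one_left (by rw [← pow_succ, Nat.sub_add_cancel (by omega), h4])
  rw [show (g : G ⧸ N) ^ (N.index - 1) = (g : G ⧸ N)⁻¹ from eq_inv_of_mul_eq_one_left (by
    rw [← pow_succ, Nat.sub_add_cancel (by omega)]; exact pow_card_eq_one'),
    char_apply_inv (char_of_irr h1), h2, hr] at h3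
  exact Complex.conj_eq_iff_im.1 h3.symm

theorem main [Fintype N] (ho : Odd N.index) (hσ : ∀ z : ℂ, z ^ (N.index * N.index) = 1 → σ z = z⁻¹)
    (hθ : IsIrrCharacter N θ) (hr : ∀ n, σ (θ n) = θ n) :
    ∃ χ, IsIrrCharacter G χ ∧ classInner (fun n : N => χ n) θ ≠ 0 ∧ (∀ g, σ (χ g) = χ g) ∧
      (inertia θ = ⊤ → ∀ n : N, χ n = θ n) ∧ ∀ ψ, IsIrrCharacter G ψ →
        classInner (fun n : N => ψ n) θ ≠ 0 → (∀ g, σ (ψ g) = ψ g) → ψ = χ := by
  classical
  have hT := le_inertia (irr_classFun hθ)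
  have hd := Subgroup.relIndex_dvd_index_of_le hT
  have ho' : Odd (N.subgroupOf (inertia θ)).index := ho.of_dvd_nat hd
  have hσ' : ∀ z : ℂ, z ^ ((N.subgroupOf (inertia θ)).index * (N.subgroupOf (inertia θ)).index) = 1 →
      σ z = z⁻¹ := fun z hz => hσ z (by
    obtain ⟨c, hc⟩ := Nat.mul_dvd_mul hd hd
    rw [hc, pow_mul, show z ^ (N.relIndex (inertia θ) * N.relIndex (inertia θ)) = 1 from hz, one_pow])
  obtain ⟨η, a, b, c⟩ := ext_fix ho' hσ' ((so_irr_iff hT).2 hθ) (inertia_so_eq_top hT le_rfl)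
    fun _ => hr _
  have b' : (fun n : N.subgroupOf (inertia θ) => η n) = so _ θ := funext b
  have hb := b' ▸ (so_irr_iff hT).2 hθ
  have b2 : (fun n : N => η ⟨n, hT n.2⟩) = θ := funext fun n => b ⟨⟨n, hT n.2⟩, n.2⟩
  have hi : classInner (fun n : N => η ⟨n, hT n.2⟩) θ = 1 := by rw [b2, inner_irr_self hθ]
  obtain ⟨i1, i2⟩ := corr_irr hT hθ rfl a (hi.trans_ne one_ne_zero)
  refine ⟨_, i1, (i2.trans hi).trans_ne one_ne_zero, fun g => ?_, fun h n => ?_, fun χ hχ h3 h1 => ?_⟩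
  · rw [← congrFun (indFun_map σ _ η) g, funext c]
  · rw [indFun_of_eq_top h (irr_classFun a)]
    exact congrFun b2 n
  obtain ⟨φ, d, rfl, e⟩ := corr_surj hT hθ rfl hχ h3
  rw [← e] at h3
  have f := corr_inj hT hθ rfl (CA.Cons.irr_map σ d) d (by
    have := CA.Cons.inner_map σ (fun n : N => φ ⟨n, hT n.2⟩) (char_of_irr hθ)
    rw [funext hr] at this
    rwa [this, _root_.map_ne_zero]) h3
    (by rw [indFun_map, funext h1])
  obtain ⟨β, i, j, rfl⟩ := exists_eq_mul (char_of_irr a) hb d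
    (by rwa [b', ← so_res hT, inner_so hT])
  have := mul_inj (char_of_irr a) hb (CA.Cons.irr_map σ i) (fun n hn => by rw [j n hn]) i j (by
    rw [← f]; funext g; simp [c g])
  rw [eq_one_fix ho' hσ' i j (congrFun this)]
  exact congrArg _ (one_mul η)

/-- Let N be a normal subgroup of odd index in the finite group G, and let k be coprime to the order of G with k ^ (2 ^ e) ≡ 1 modulo the order of G for some e and g ^ k = g⁻¹ for every element g of odd order (so g ↦ g ^ k induces a field automorphism of 2-power order inverting the roots of unity of odd order). If an irreducible character θ of N satisfies θ (n ^ k) = θ n for all n, then there is exactly one irreducible character χ of G with θ a constituent of its restriction to N and χ (g ^ k) = χ g for all g; moreover, if θ is invariant under conjugation by G, that χ restricts to θ. -/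
theorem result {G : Type*} [Group G] [Fintype G] (N : Subgroup G) [hN : N.Normal] [Fintype N] (hidx : Odd N.index) (k e : ℕ) (hk : Nat.Coprime k (Nat.card G)) (hke : k ^ (2 ^ e) ≡ 1 [MOD Nat.card G]) (hk₂ : ∀ g : G, Odd (orderOf g) → g ^ k = g⁻¹) (θ : Cfsg.IrrCharacter N) (hθ : ∀ n : N, (θ : N → ℂ) (n ^ k) = (θ : N → ℂ) n) : ∃ χ : Cfsg.IrrCharacter G, (Cfsg.classInner (fun n : N => (χ : G → ℂ) n) (θ : N → ℂ) ≠ 0 ∧ (∀ g : G, (χ : G → ℂ) (g ^ k) = (χ : G → ℂ) g) ∧ ((∀ g : G, ∀ n : N, (θ : N → ℂ) ⟨g * n * g⁻¹, hN.conj_mem n n.2 g⟩ = (θ : N → ℂ) n) → ∀ n : N, (χ : G → ℂ) n = (θ : N → ℂ) n)) ∧ ∀ χ' : Cfsg.IrrCharacter G, Cfsg.classInner (fun n : N => (χ' : G → ℂ) n) (θ : N → ℂ) ≠ 0 → (∀ g : G, (χ' : G → ℂ) (g ^ k) = (χ' : G → ℂ) g) → χ' = χ := by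
  classical
  have hn : 0 < Nat.card G * Nat.card G := Nat.mul_pos Nat.card_pos Nat.card_pos
  obtain ⟨a, m, hm, e⟩ := Nat.exists_eq_two_pow_mul_odd hn.ne'
  have hc : (2 ^ a).Coprime m := Nat.Coprime.pow_left _ (Nat.coprime_two_left.2 hm)
  obtain ⟨j, h1, h2⟩ := Nat.chineseRemainder hc k (m - 1)
  have h3 : m ∣ j + 1 := by
    have := h2.add_right 1
    rw [Nat.sub_add_cancel hm.pos] at this
    exact (Nat.modEq_zero_iff_dvd.1 (this.trans (Nat.modEq_zero_iff_dvd.2 dvd_rfl)))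
  have hodd : ∀ r, Odd r → r ∣ Nat.card G * Nat.card G → r ∣ j + 1 := fun r hr h =>
    ((Nat.Coprime.pow_right a (Nat.coprime_two_right.2 hr)).dvd_of_dvd_mul_left (e ▸ h)).trans h3
  have hj : j.Coprime (Nat.card G * Nat.card G) := by
    rw [e]
    refine Nat.Coprime.mul_right ?_ ?_
    · rw [Nat.Coprime, Nat.gcd_comm, ← Nat.ModEq.gcd_eq h1.symm |>.trans (Nat.gcd_comm _ _)]
      exact (Nat.Coprime.coprime_dvd_right (Dvd.intro _ e.symm) (hk.mul_right hk))
    · exact Nat.Coprime.coprime_dvd_right h3 (by simp)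
  obtain ⟨σ, hσ⟩ := CA.GalC.exists_equiv_pow hn hj
  have hg : ∀ g : G, g ^ j = g ^ k := by
    intro g
    haveI : Fact (Nat.Prime 2) := ⟨Nat.prime_two⟩
    obtain ⟨u, v, ⟨s, rfl⟩, ⟨t, rfl⟩, e1, ⟨i, hi⟩, hv⟩ := CA.PRes.exists_p_part (p := 2) g
    have hv' := Nat.coprime_two_right.1 hv
    simp only at e1 hi hv hv'
    rw [e1, (Commute.zpow_zpow_self g s t).mul_pow, (Commute.zpow_zpow_self g s t).mul_pow,
      hk₂ _ hv']
    congr 1
    · rw [pow_eq_pow_iff_modEq]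
      refine h1.of_dvd ?_
      obtain ⟨r, -, hr⟩ := (Nat.dvd_prime_pow Nat.prime_two).1 (orderOf_dvd_of_pow_eq_one hi)
      refine Nat.Coprime.dvd_of_dvd_mul_right (n := m) ?_ (e ▸ (_root_.orderOf_dvd_natCard _).mul_right _)
      rw [hr]; exact Nat.Coprime.pow_left _ (Nat.coprime_two_left.2 hm)
    · refine eq_inv_of_mul_eq_one_left ?_
      rw [← pow_succ, ← orderOf_dvd_iff_pow_eq_one]
      exact hodd _ hv' ((_root_.orderOf_dvd_natCard _).mul_right _)
  have hχ : ∀ χ : G → ℂ, IsCharacter G χ → ∀ g, σ (χ g) = χ (g ^ k) := fun χ h g => by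
    rw [← hg]
    refine CA.Cons.map_char_apply (σ : ℂ →+* ℂ) h g j fun z hz => hσ z ?_
    obtain ⟨c, hc⟩ := (orderOf_dvd_natCard g).mul_right (Nat.card G)
    rw [hc, pow_mul, hz, one_pow]
  obtain ⟨χ, a1, a2, a3, a4, a5⟩ := main (σ := (σ : ℂ →+* ℂ)) hidx (fun z hz => by
    have hd := Nat.mul_dvd_mul N.index_dvd_card N.index_dvd_card
    obtain ⟨c, hc⟩ := hd
    obtain ⟨d, hd'⟩ := hodd _ (hidx.mul hidx) ⟨c, hc⟩
    change σ z = _
    rw [hσ z (by rw [hc, pow_mul, hz, one_pow])]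
    exact eq_inv_of_mul_eq_one_left (by rw [← pow_succ, hd', pow_mul, hz, one_pow])) θ.2 (fun n => by
    rw [← hθ n, show n ^ k = n ^ j from Subtype.ext (hg n).symm]
    rw [CA.Cons.map_char_apply (σ : ℂ →+* ℂ) (char_of_irr θ.2) _ j fun z hz => hσ z (by
      obtain ⟨c, hc⟩ := ((orderOf_dvd_natCard (n ^ j)).trans N.card_subgroup_dvd_card).mul_right
        (Nat.card G)
      rw [hc, pow_mul, hz, one_pow]), show (n ^ j) ^ j = (n ^ j) ^ k from Subtype.ext (hg _), hθ])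
  refine ⟨⟨χ, a1⟩, ⟨a2, fun g => (hχ χ (char_of_irr a1) g).symm.trans (a3 g),
    fun h => a4 (inertia_eq_top_iff'.2 h)⟩, fun ψ b1 b2 => Subtype.ext (a5 ψ ψ.2 b1 fun g =>
      (hχ _ (char_of_irr ψ.2) g).trans (b2 g))⟩

end Cfsg.Agent.S4519
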