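import Cfsg.Statements.S4520
import Cfsg.Agent.Lib.Block.BlkCov

set_option autoImplicit false
open Cfsg

namespace Cfsg.Agent.S4520
open Cfsg MonoidAlgebra CA.BlkAlg CA.BlkVal CA.BlkOmega CA.BlkRed CA.BlkCore CA.BlkDefect CA.BlkInd CA.BlkHeight CA.SylIn CA.H12PPart CChar.CharFun CChar.CharOrth Subgroup CA.BlkKer CChar.CharKer CA.BlkZero CChar.CharInt CA.BlkReg CA.BlkGal CA.BlkQuo CA.BlkCov CA.H12Cover CA.Clif

/-- Let N be a normal subgroup of odd index in the finite group G, M a maximal ideal of the algebraic integers containing 2, and k coprime to the order of G with k ^ (2 ^ e) ≡ 1 modulo the order of G for some e and g ^ k = g⁻¹ for every element g of odd order. Let θ be an irreducible character of N and χ an irreducible character of G over θ, both unchanged by composing with g ↦ g ^ k. Then χ lies in the principal 2-block of G if and only if θ lies in the principal 2-block of N. -/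
theorem result {G : Type*} [Group G] [Fintype G] (M : Ideal Cfsg.AlgInt) (hM : Cfsg.IsPModular 2 M) (N : Subgroup G) [N.Normal] [Fintype N] (hidx : Odd N.index) (k e : ℕ) (hk : Nat.Coprime k (Nat.card G)) (hke : k ^ (2 ^ e) ≡ 1 [MOD Nat.card G]) (hk₂ : ∀ g : G, Odd (orderOf g) → g ^ k = g⁻¹) (θ : Cfsg.IrrCharacter N) (hθ : ∀ n : N, (θ : N → ℂ) (n ^ k) = (θ : N → ℂ) n) (χ : Cfsg.IrrCharacter G) (hχ : ∀ g : G, (χ : G → ℂ) (g ^ k) = (χ : G → ℂ) g) (hover : Cfsg.classInner (fun n : N => (χ : G → ℂ) n) (θ : N → ℂ) ≠ 0) : χ ∈ Cfsg.principalBlock M G ↔ θ ∈ Cfsg.principalBlock M N := by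
  have ho : Over N χ.1 θ.1 := over_iff.2 hover
  refine ⟨fun h => under_mem_principal hM h ho, fun h => ?_⟩
  have hi : ¬ 2 ∣ N.index := hidx.not_two_dvd_nat
  have h0 := minNu_eq_zero_of_cov hM hi (isPBlock_blockOf χ) ⟨χ, self_mem_blockOf hM χ, θ, h, ho⟩
  have hp : pw hk χ = χ := (pw_eq_self_iff hk).2 hχ
  rw [← eq_principal_of_pw hM (isPBlock_blockOf χ) h0 hk
    (fun g hg => hk₂ g (Nat.odd_iff.2 (Nat.two_dvd_ne_zero.1 hg))) (self_mem_blockOf hM χ)
    (by rw [hp]; exact self_mem_blockOf hM χ)]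
  exact self_mem_blockOf hM χ

end Cfsg.Agent.S4520
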