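import Cfsg.Statements.S4521
import Cfsg.Agent.Lib.Block.BlkPr
import Cfsg.Agent.Lib.Char.CharProd
import Cfsg.Agent.Lib.Char.Cons

set_option autoImplicit false
open Cfsg

namespace Cfsg.Agent.S4521
open Cfsg MonoidAlgebra CA.BlkAlg CA.BlkVal CA.BlkOmega CA.BlkRed CA.BlkCore CA.BlkDefect CA.BlkInd CA.BlkHeight CA.SylIn CA.H12PPart CChar.CharFun CChar.CharOrth Subgroup CA.BlkKer CChar.CharKer CA.BlkZero CChar.CharInt CA.BlkReg CA.BlkGal CA.BlkQuo CA.BlkBas CA.BlkIdem CA.BlkIBr CChar.CharGen CA.BlkCov CA.H12Cover CA.Clif CA.BlkInt CA.BlkPr CChar.CharProd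

/-- Let the finite group G be generated by subgroups U₁ and U₂ that commute elementwise and whose intersection is a p-group, and let M be a maximal ideal of the algebraic integers containing the prime p. If the irreducible character χ of G has the irreducible constituents ψ₁ on U₁ and ψ₂ on U₂, then χ lies in the principal block of G if and only if ψ₁ and ψ₂ lie in the principal blocks of U₁ and U₂. -/
theorem result {G : Type*} [Group G] [Fintype G] (p : ℕ) [Fact p.Prime] (M : Ideal Cfsg.AlgInt) (hM : Cfsg.IsPModular p M) (U₁ U₂ : Subgroup G) [Fintype U₁] [Fintype U₂] (hcomm : ∀ u ∈ U₁, ∀ v ∈ U₂, u * v = v * u) (hgen : U₁ ⊔ U₂ = ⊤) (hZ : IsPGroup p ↥(U₁ ⊓ U₂)) (χ : Cfsg.IrrCharacter G) (ψ₁ : Cfsg.IrrCharacter U₁) (ψ₂ : Cfsg.IrrCharacter U₂) (h₁ : Cfsg.classInner (fun u : U₁ => (χ : G → ℂ) u) (ψ₁ : U₁ → ℂ) ≠ 0) (h₂ : Cfsg.classInner (fun u : U₂ => (χ : G → ℂ) u) (ψ₂ : U₂ → ℂ) ≠ 0) : χ ∈ Cfsg.principalBlock M G ↔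 (ψ₁ ∈ Cfsg.principalBlock M U₁ ∧ ψ₂ ∈ Cfsg.principalBlock M U₂) := by
  classical
  have hp : p.Prime := Fact.out
  obtain ⟨φ, ψ, hφ, hψ, h⟩ := exists_irr_mul_of_commute hcomm hgen χ.2
  have e1 : ψ₁.1 = φ := by
    rw [show (fun u : U₁ => χ.1 u) = ψ 1 • φ from funext fun u => by
      simpa [mul_comm] using h u 1, ci_smul_left] at h₁
    exact (irr_eq_of_inner_ne_zero hφ ψ₁.2 (right_ne_zero_of_mul h₁)).symm
  have e2 : ψ₂.1 = ψ := by
    rw [show (fun u : U₂ => χ.1 u) = φ 1 • ψ from funext fun u => by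
      simpa using h 1 u, ci_smul_left] at h₂
    exact (irr_eq_of_inner_ne_zero hψ ψ₂.2 (right_ne_zero_of_mul h₂)).symm
  have hc : ∀ (a : U₁) (b : U₂), Commute (a : G) b := fun a b => hcomm _ a.2 _ b.2
  simp only [mem_principal_iff_finsum hM, CA.H12Orth.finsum_mem_set, e1, e2, ← mul_ne_zero_iff,
    Finset.sum_mul_sum, ← Finset.sum_product']
  refine not_congr (Eq.congr_left (Finset.sum_bij (fun x _ => (x.1 : G) * x.2) ?_ ?_ ?_ ?_).symm)
  · rintro ⟨a, b⟩ hx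
    simp only [Finset.mem_product, Finset.mem_filter, Finset.mem_univ, true_and,
      Set.mem_setOf_eq] at hx ⊢
    refine fun hd => ?_
    rcases hp.dvd_mul.1 (hd.trans (hc a b).orderOf_mul_dvd_mul_orderOf) with h | h
    · exact hx.1 (by rwa [orderOf_coe] at h)
    · exact hx.2 (by rwa [orderOf_coe] at h)
  · rintro ⟨a, b⟩ hx ⟨a', b'⟩ hx' e
    simp only [Finset.mem_product, Finset.mem_filter, Finset.mem_univ, true_and,
      Set.mem_setOf_eq, ← orderOf_coe] at hx hx' e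
    have h1 : (a' : G)⁻¹ * a = b' * (b : G)⁻¹ := by
      rw [inv_mul_eq_iff_eq_mul, ← mul_assoc, ← e, mul_inv_cancel_right]
    have hz : (a' : G)⁻¹ * a ∈ U₁ ⊓ U₂ :=
      mem_inf.2 ⟨mul_mem (inv_mem a'.2) a.2, h1 ▸ mul_mem b'.2 (inv_mem b.2)⟩
    have h2 := pPart_mul_of hp (hcomm _ a'.2 _ hz.2).symm (orderOf_eq_pow_of_mem hp hZ hz) hx'.1
    rw [← hcomm _ a'.2 _ hz.2, mul_inv_cancel_left, (pPart_eq_one_iff hp).2 hx.1] at h2
    have h3 : a = a' := Subtype.ext (inv_mul_eq_one.1 h2.symm).symm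
    subst h3
    rw [Subtype.ext (mul_left_cancel e)]
  · intro g hg
    simp only [Finset.mem_filter, Finset.mem_univ, true_and, Set.mem_setOf_eq] at hg
    have hN : U₁.Normal := by
      rw [← normalizer_eq_top_iff, eq_top_iff, ← hgen]
      exact sup_le le_normalizer (fun x hx => centralizer_le_normalizer _ fun u hu => hcomm u hu x hx)
    obtain ⟨a, ha, b, hb, rfl⟩ := mem_sup_of_normal_left.1 (hgen ▸ mem_top g)
    refine ⟨(pReg p ⟨a, ha⟩, pReg p ⟨b, hb⟩), ?_, ?_⟩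
    · simp [not_dvd_orderOf_pReg hp]
    · simp only [coe_pReg hp]
      rw [← pReg_mul_of_commute hp (hcomm a ha b hb), (pReg_eq_self_iff hp).2 hg]
  · exact fun x _ => (h x.1 x.2).symm

end Cfsg.Agent.S4521
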