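import Cfsg.Statements.S4528
import Cfsg.Agent.Lib.Block.H11TmD

set_option autoImplicit false
open Cfsg

namespace Cfsg.Agent.S4528

open CA.H11Tm CA.H11TmD

/-- Let B be a 2-block of the finite group G (relative to a maximal ideal M of the algebraic integers containing 2) whose defect group D is dihedral of order 2 ^ n with n ≥ 3. Then B contains exactly 2 ^ (n - 2) + 3 irreducible characters, its 2-regular rank (the number of irreducible Brauer characters) is between 1 and 3, exactly four of its members have height zero, and every member has height at most one. -/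
theorem result {G : Type*} [Group G] [Finite G] (M : Ideal Cfsg.AlgInt) (hM : Cfsg.IsPModular 2 M) (B : Set (Cfsg.IrrCharacter G)) (hB : Cfsg.IsPBlock M B) (D : Subgroup G) (hD : Cfsg.IsDefectGroup 2 M B D) (n : ℕ) (hn : 3 ≤ n) (hdih : Nonempty (D ≃* DihedralGroup (2 ^ (n - 1)))) : Nat.card B = 2 ^ (n - 2) + 3 ∧ 1 ≤ Cfsg.blockRank 2 B ∧ Cfsg.blockRank 2 B ≤ 3 ∧ Nat.card {χ : Cfsg.IrrCharacter G // χ ∈ B ∧ Cfsg.blockHeight 2 B (χ : G → ℂ) = 0} = 4 ∧ ∀ χ ∈ B, Cfsg.blockHeight 2 B (χ : G → ℂ) ≤ 1 := by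
  classical
  obtain ⟨m, rfl⟩ : ∃ m, n = m + 2 := ⟨n - 2, by omega⟩
  obtain ⟨i⟩ := hdih
  have := Fintype.ofFinite G
  have := Fintype.ofFinite D
  obtain ⟨a, y, h1, h2⟩ := CA.MC3.exists_of_dihedral (m := m) i
  obtain ⟨e, a', y', T⟩ := exists_tm hM hB hD h1 h2
  obtain ⟨h3, h4, h5, h6⟩ := dihedral T
  have h7 := T.rk_one ▸ T.rk_pos (1 : D)
  refine ⟨h3, h7, by omega, ?_, h6⟩
  rw [← h5, Nat.card_eq_fintype_card, Fintype.card_subtype]

end Cfsg.Agent.S4528
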