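import Cfsg.Statements.S4530
import Cfsg.Agent.Lib.Block.H11TmS

set_option autoImplicit false
open Cfsg

namespace Cfsg.Agent.S4530

open CA.H11Tm CA.H11TmS

/-- Let B be a 2-block of the finite group G (relative to a maximal ideal M of the algebraic integers containing 2) whose defect group D is generalized quaternion of order 2 ^ n, n ≥ 3. Then its 2-regular rank l is between 1 and 3, the number of irreducible characters in B is l + 2 ^ (n - 2) + 2, exactly four members have height zero, and every other member has height one or height n - 2; when n ≥ 4 exactly 2 ^ (n - 2) - 1 members have height one. -/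
theorem result {G : Type*} [Group G] [Finite G] (M : Ideal Cfsg.AlgInt) (hM : Cfsg.IsPModular 2 M) (B : Set (Cfsg.IrrCharacter G)) (hB : Cfsg.IsPBlock M B) (D : Subgroup G) (hD : Cfsg.IsDefectGroup 2 M B D) (n : ℕ) (hn : 3 ≤ n) (hq : Nonempty (D ≃* QuaternionGroup (2 ^ (n - 2)))) : 1 ≤ Cfsg.blockRank 2 B ∧ Cfsg.blockRank 2 B ≤ 3 ∧ Nat.card B = Cfsg.blockRank 2 B + 2 ^ (n - 2) + 2 ∧ Nat.card {χ : Cfsg.IrrCharacter G // χ ∈ B ∧ Cfsg.blockHeight 2 B (χ : G → ℂ) = 0} = 4 ∧ (∀ χ ∈ B, Cfsg.blockHeight 2 B (χ : G → ℂ) = 0 ∨ Cfsg.blockHeight 2 B (χ : G → ℂ) = 1 ∨ Cfsg.blockHeight 2 B (χ : G → ℂ) = n - 2) ∧ (4 ≤ n → Nat.card {χ : Cfsg.IrrCharacter G // χ ∈ B ∧ Cfsg.blockHeight 2 B (χ : G → ℂ) = 1} = 2 ^ (n - 2) - 1) := by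
  classical
  obtain ⟨m, rfl⟩ : ∃ m, n = m + 2 := ⟨n - 2, by omega⟩
  obtain ⟨i⟩ := hq
  have := Fintype.ofFinite G
  have := Fintype.ofFinite D
  obtain ⟨a, y, h1, h2⟩ := CA.MC3.exists_of_quaternion (m := m) i
  obtain ⟨e, a', y', T⟩ := exists_tm hM hB hD h1 h2
  obtain ⟨h3, h4, h5, h6, h8⟩ := quaternion T (by omega)
  have h7 := T.rk_one ▸ T.rk_pos (1 : D)
  refine ⟨h7, h3, h4, ?_, h6, fun h => ?_⟩
  · rw [← h5, Nat.card_eq_fintype_card, Fintype.card_subtype]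
  · rw [Nat.add_sub_cancel, ← h8 (by omega), Nat.card_eq_fintype_card, Fintype.card_subtype, Nat.add_sub_cancel]

end Cfsg.Agent.S4530
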