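import Cfsg.Statements.S4531
import Cfsg.Agent.Lib.Block.H11TmS

set_option autoImplicit false
open Cfsg

namespace Cfsg.Agent.S4531

open CA.H11Tm CA.H11TmS

/-- Let the finite group G have a 2-block B (relative to a maximal ideal M of the algebraic integers containing 2) of 2-regular rank three (three irreducible Brauer characters) whose defect group D is dihedral of order 2 ^ n with n ≥ 3 or semidihedral. Then the centre of G has odd order and G is not solvable. -/
theorem result {G : Type*} [Group G] [Finite G] (M : Ideal Cfsg.AlgInt) (hM : Cfsg.IsPModular 2 M) (B : Set (Cfsg.IrrCharacter G)) (hB : Cfsg.IsPBlock M B) (D : Subgroup G) (hD : Cfsg.IsDefectGroup 2 M B D) (hD' : (∃ n : ℕ, 3 ≤ n ∧ Nonempty (D ≃* DihedralGroup (2 ^ (n - 1)))) ∨ Cfsg.IsQuasiDihedral D) (hl : Cfsg.blockRank 2 B = 3) : Odd (Nat.card (Subgroup.center G)) ∧ ¬ Group.IsSolvable G := by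
  classical
  have := Fintype.ofFinite G
  have := Fintype.ofFinite D
  rcases hD' with ⟨n, hn, ⟨i⟩⟩ | hsd
  · obtain ⟨m, rfl⟩ : ∃ m, n = m + 2 := ⟨n - 2, by omega⟩
    obtain ⟨a, y, h1, h2⟩ := CA.MC3.exists_of_dihedral (m := m) i
    obtain ⟨e, a, y, T⟩ := exists_tm hM hB hD h1 h2
    have h3 := (CA.H11TmD.dihedral T).2.1
    have h4 : ∀ t, t ∉ Yf e a y := by
      rw [← Finset.eq_empty_iff_forall_notMem, ← Finset.card_eq_zero]; omega
    have h5 := conj_z T (T.mc.sq_eq_one.2 (by simp)) T.mc.notMem fun h => h4 y (mem_Yf.2 ⟨.inl rfl, h⟩)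
    refine nonsolv T (by omega) h5 (.inr ?_)
    by_cases h6 : CA.H11Eta.FC 2 D e y (a * y : D)
    · exact h5.trans h6.isConj
    · exact conj_z T (t := a * y) (by simpa using (T.mc.shift 1).sq_eq_one)
        (by simpa using (T.mc.shift 1).notMem) fun h => h4 _ (mem_Yf.2 ⟨.inr ⟨rfl, h6⟩, h⟩)
  · obtain ⟨m, a, y, hm, h1, h2⟩ := CA.MC3.exists_of_qd hsd
    obtain ⟨e, a, y, T⟩ := exists_tm hM hB hD h1 h2
    obtain ⟨r, h3, -, h5, -⟩ := semidihedral T hm
    exact nonsolv T (by omega) (conj_z T (T.mc.sq_eq_one.2 (by simp)) T.mc.notMem fun h =>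
      (h5.resolve_left (by omega)).2 (mem_Yf.2 ⟨.inl rfl, h⟩)) (.inl hm)

end Cfsg.Agent.S4531
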