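import Cfsg.Statements.S4534
import Cfsg.Agent.Lib.Char.H10Fock5

set_option autoImplicit false
open Cfsg

namespace Cfsg.Agent.S4534
open MvPolynomial Equiv CA.H10Fock1 CA.H10Fock2 CA.H10Fock3 CA.H10Fock4 CA.H10Fock5 CChar.CharFun

/-- Let B be a p-block of a finite symmetric group (relative to a maximal ideal M of the algebraic integers containing p) with a nontrivial defect group D all of whose sections have p-rank at most s. Then the p-regular rank of B is less than p ^ s. -/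
theorem result (n : ℕ) (p : ℕ) [Fact p.Prime] (M : Ideal Cfsg.AlgInt) (hM : Cfsg.IsPModular p M) (B : Set (Cfsg.IrrCharacter (Equiv.Perm (Fin n)))) (hB : Cfsg.IsPBlock M B) (D : Subgroup (Equiv.Perm (Fin n))) (hD : Cfsg.IsDefectGroup p M B D) (hD1 : D ≠ ⊥) (s : ℕ) (hs : Cfsg.SectionalPRankLE p s D) : Cfsg.blockRank p B < p ^ s := by
  classical
  have hp : p.Prime := Fact.out
  obtain ⟨κ, w, hκi, hκ, hd, hl⟩ := block_data (N := n) le_rfl hM hB
  obtain ⟨χ, hχ, g, hg, h0⟩ := exists_singular hM hB hD hD1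
  obtain ⟨γ, a, hγ, hr, ha, hc⟩ := hl χ hχ
  have hd' : dg γ = dg (dl n) + n :=
    dg_of_chi (g := g) (fun h => h0 (by rw [hc, h, mul_zero]))
  rcases w with _ | w
  · exact absurd (by rw [hc, chi_sing hp hκi hκ hγ hr (by rw [hd', hd]; simp) hg, mul_zero]) h0
  obtain ⟨h1, h2⟩ := chi_ne_zero hp hκi hκ hγ hr hd hd'
  obtain ⟨u, hu, hord⟩ := exists_u hp h1
  obtain ⟨E, e1, e2, e3, e4, e5⟩ := exists_E hu
  have hu0 : χ.1 u ≠ 0 := by
    rw [hc]; exact mul_ne_zero (by rcases ha with h | h <;> simp [h]) (h2 u hu)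
  have h3 := e5.trans (rank_le hM hB hD hs hχ ⟨1, by rw [hord, pow_one]⟩ hu0 e1 e2 e3 e4)
  obtain ⟨S, hS1, hS2⟩ := exists_cover ((Finset.range p).erase 0) ((Finset.range p).erase 0) w
  have hC : ((Finset.range p).erase 0).card + 1 = p := by
    rw [Finset.card_erase_add_one (Finset.mem_range.2 hp.pos), Finset.card_range]
  have h4 : blockRank p B ≤ S.card := by
    refine finrank_span_le (fun m => Phi n n p (W p κ m * monomial κ 1)) S ?_
    rintro _ ⟨ψ, hψ, rfl⟩
    refine Submodule.span_mono ?_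
      (pReg_mem le_rfl hp hκi hκ hd 0 (irr_apply_one_ne_zero ψ.2) (hl ψ hψ))
    rintro _ ⟨m, hm, rfl⟩
    have hne : m ≠ 0 := by rintro rfl; simpa using hm.2
    obtain ⟨x, hx⟩ := Multiset.exists_mem_of_ne_zero hne
    exact ⟨m, hS2 m hm ⟨x, hx, (hm.1 x hx).2⟩, rfl⟩
  rw [hC] at hS1
  have h5 : 0 < p ^ w := pow_pos hp.pos w
  rw [pow_succ] at h3
  nlinarith

end Cfsg.Agent.S4534
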