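import Cfsg.Statements.S4535
import Cfsg.Agent.Lib.Char.H10Fock7
import Cfsg.Agent.S4432

set_option autoImplicit false
open Cfsg

namespace Cfsg.Agent.S4535
open MvPolynomial Equiv CA.H10Fock1 CA.H10Fock2 CA.H10Fock3 CA.H10Fock4 CA.H10Fock5 CA.H10Fock6 CA.H10Fock7 CChar.CharFun CA.Clif

lemma fib_lt (w : ℕ) : 2 * Nat.fib (w + 7) < 2 ^ (w + 5) ∧ 2 * Nat.fib (w + 8) < 2 ^ (w + 6) := by
  induction w with
  | zero => decide
  | succ w ih =>
    refine ⟨ih.2, ?_⟩
    rw [show w + 1 + 8 = w + 7 + 2 by omega, Nat.fib_add_two, show w + 7 + 1 = w + 8 by omega,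
      show w + 1 + 6 = w + 5 + 2 by omega, pow_add]
    obtain ⟨h1, h2⟩ := ih
    rw [show w + 6 = w + 5 + 1 by omega, pow_succ] at h2
    rw [show w + 5 + 2 = w + 7 by omega]
    omega

lemma exists_tau (n : ℕ) : ∃ τ : Perm (Fin n), ∀ g, g ∈ alternatingGroup (Fin n) ∨
    g * τ⁻¹ ∈ alternatingGroup (Fin n) := by
  by_cases h : ∃ τ : Perm (Fin n), Perm.sign τ = -1
  · obtain ⟨τ, h⟩ := h
    refine ⟨τ, fun g => ?_⟩
    rcases Int.units_eq_one_or (Perm.sign g) with a | a <;> simp [a, h]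
  · exact ⟨1, fun g => Or.inl ((Int.units_eq_one_or (Perm.sign g)).resolve_right
      fun a => h ⟨g, a⟩)⟩

lemma res_iff {p q t x y j : ℕ} (ht0 : 0 < t) (ht : t < p) (h : x + y + p * j + 1 = p * q + 1) :
    x % p = t ↔ y % p = p - t := by
  have hp : 0 < p := by omega
  have h1 : (x + y) % p = 0 := by
    have : (x + y + p * j) % p = (p * q) % p := by rw [show x + y + p * j = p * q by omega]
    simpa using this
  rw [Nat.add_mod] at h1
  have a := Nat.mod_lt x hp
  have b := Nat.mod_lt y hp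
  obtain ⟨k, hk⟩ := Nat.dvd_of_mod_eq_zero h1
  have : k = 0 ∨ k = 1 := by
    have : k < 2 := by nlinarith
    omega
  rcases this with rfl | rfl <;> omega

/-- Let B be a p-block of a finite alternating group (relative to a maximal ideal M of the algebraic integers containing p) with a nontrivial defect group D all of whose sections have p-rank at most s. Then the p-regular rank of B is less than p ^ s. -/
theorem result (n : ℕ) (p : ℕ) [Fact p.Prime] (M : Ideal Cfsg.AlgInt) (hM : Cfsg.IsPModular p M) (B : Set (Cfsg.IrrCharacter (alternatingGroup (Fin n)))) (hB : Cfsg.IsPBlock M B) (D : Subgroup (alternatingGroup (Fin n))) (hD : Cfsg.IsDefectGroup p M B D) (hD1 : D ≠ ⊥) (s : ℕ) (hs : Cfsg.SectionalPRankLE p s D) : Cfsg.blockRank p B < p ^ s := by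
  classical
  have hp : p.Prime := Fact.out
  obtain ⟨τ, hτ⟩ := exists_tau n
  obtain ⟨B', hB', hcov⟩ := CA.H12Cover.exists_cov hM hB
  obtain ⟨P, hP, hDP⟩ := exists_P hM hB' hB hcov hD
  have hP1 : P ≠ ⊥ := by
    rintro rfl
    exact hD1 (eq_bot_iff.2 fun a ha => Subtype.ext ((hDP a).1 ha))
  obtain ⟨N, hN, hNp⟩ : ∃ N, n ≤ N ∧ (p ≠ 2 → ∃ q, 2 * N = p * q + 1) := by
    refine ⟨n * p + (p + 1) / 2, by nlinarith [hp.pos, Nat.zero_le ((p + 1) / 2)], fun h2 => ⟨2 * n + 1, ?_⟩⟩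
    have := hp.eq_two_or_odd.resolve_left h2
    have : 2 * ((p + 1) / 2) = p + 1 := by omega
    rw [mul_add, this]; ring
  obtain ⟨κ, w, hκi, hκ, hd, hl⟩ := block_data hN hM hB'
  obtain ⟨χ, hχ, g, hg, h0⟩ := exists_singular hM hB' hP hP1
  obtain ⟨γ, a, hγ, hr, ha, hc⟩ := hl χ hχ
  have hd' : dg γ = dg (dl N) + n :=
    dg_of_chi (g := g) (fun h => h0 (by rw [hc, h, mul_zero]))
  rcases w with _ | w
  · exact absurd (by rw [hc, chi_sing hp hκi hκ hγ hr (by rw [hd', hd]; simp) hg, mul_zero]) h0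
  obtain ⟨h1, h2⟩ := chi_ne_zero hp hκi hκ hγ hr hd hd'
  have hrank : ∀ (u : Perm (Fin n)) (E : Subgroup (Perm (Fin n))),
      u.cycleType = Multiset.replicate (w + 1) p → orderOf u = p → E ≤ Subgroup.centralizer {u} →
      (∀ c ∈ Subgroup.centralizer {u}, ∀ a ∈ E, c * a * c⁻¹ ∈ E) →
      (∀ a ∈ E, ∀ b ∈ E, a * b = b * a) → (∀ a ∈ E, a ^ p = 1) →
      Nat.card (E.subgroupOf (alternatingGroup (Fin n))) ≤ p ^ s := by
    intro u E hu hord e1 e2 e3 e4
    have hu0 : χ.1 u ≠ 0 := by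
      rw [hc]; exact mul_ne_zero (by rcases ha with h | h <;> simp [h]) (h2 u hu)
    obtain ⟨x, hx⟩ := exists_conj_le hM hB' hP hχ ⟨1, by rw [hord, pow_one]⟩ hu0 e1 e2
      (fun a => ⟨1, Subtype.ext (by simpa using e4 a a.2)⟩)
    exact card_inf_le hs hDP hx e3 e4
  obtain ⟨u, hu, hord⟩ := exists_u hp h1
  obtain ⟨E, e1, e2, e3, e4, e5⟩ := exists_E hu
  have hE := hrank u E hu hord e1 e2 e3 e4
  set C := (Finset.range p).erase 0 with hC
  set f : Multiset (ℕ × ℕ) → alternatingGroup (Fin n) → ℂ :=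
    fun m x => Phi N n p (W p κ m * monomial κ 1) x with hf
  set V := Submodule.span ℂ (f '' Mul C (w + 1)) with hV
  have hover : ∀ θ ∈ B, ∃ ψ ∈ B', classInner (fun x : alternatingGroup (Fin n) => ψ.1 x) θ.1 ≠ 0 :=
    fun θ hθ => Cfsg.Agent.S4432.result p M hM _ B' hB' B hB (CA.H12Cover.cov_iff.1 hcov) θ hθ
  have hmem : ∀ θ ∈ B, pRegularPart p (θ.1 + cj τ θ.1) ∈ V := fun θ hθ => by
    obtain ⟨ψ, hψ, hi⟩ := hover θ hθ
    obtain ⟨e, he, h⟩ := res_eq hτ ψ.2 θ.2 hi
    have e1 : θ.1 + cj τ θ.1 = e⁻¹ • fun x : alternatingGroup (Fin n) => ψ.1 x := by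
      rw [h, smul_smul, inv_mul_cancel₀ he, one_smul]
    rw [e1, pReg_smul, pReg_res]
    refine Submodule.smul_mem _ _ ?_
    have := Submodule.mem_map_of_mem
      (f := LinearMap.funLeft ℂ ℂ (Subtype.val : alternatingGroup (Fin n) → Perm (Fin n)))
      (pReg_mem hN hp hκi hκ hd 0 (irr_apply_one_ne_zero ψ.2) (hl ψ hψ))
    rw [Submodule.map_span, Set.image_image] at this
    exact this
  set S := Finset.univ.filter (fun ψ : IrrCharacter (Perm (Fin n)) =>
    Lab p κ ψ.1 ∧ ∀ g, Perm.sign g ≠ 1 → ψ.1 g = 0) with hS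
  have hSm : ∀ ψ ∈ S, Lab p κ ψ.1 ∧ ∀ g, Perm.sign g ≠ 1 → ψ.1 g = 0 :=
    fun ψ h => (Finset.mem_filter.1 h).2
  have b1 := rank_le_add hτ V hmem S (fun θ hθ hne => by
    obtain ⟨ψ, hψ, hi⟩ := hover θ hθ
    exact ⟨ψ, Finset.mem_filter.2 ⟨Finset.mem_univ _, hl ψ hψ,
      fun g hg => vanish hτ ψ.2 θ.2 hi hne hg⟩, hi⟩)
  have b2 := rank_le_two hM hτ hB V hmem
  by_cases hp2 : p = 2
  · subst hp2
    have hV1 : Module.finrank ℂ V ≤ Nat.fib (w + 1 + 1) := by
      refine (finrank_span_le f (FF 1 (w + 1)) ?_).trans (card_FF 1 _)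
      rintro _ ⟨m, hm, rfl⟩
      exact Submodule.subset_span ⟨m, mem_FF 1 _ m hm, rfl⟩
    obtain ⟨s1, s2, s4⟩ := sd_count hN hκi hκ hd S hSm
    have i2 : (alternatingGroup (Fin n)).index ≤ 2 := by
      haveI : Nontrivial (Fin n) := Fin.nontrivial_iff_two_le.2 (by omega)
      exact alternatingGroup.index_eq_two.le
    have h3 : 2 ^ w ≤ 2 ^ s := by
      have := (e5.trans (card_le_index_mul (A := alternatingGroup (Fin n)) E)).trans
        (Nat.mul_le_mul i2 hE)
      rw [pow_succ] at this; omega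
    rcases w with _ | _ | _ | _ | _ | w
    · have := le_pow_of_ne_bot (CA.BlkDefect.isPGroup_of_isDefectGroup hD) hD1 hs
      have := s1 rfl
      simp at hV1; omega
    · obtain ⟨u', E', f1, f2, f3, f4, f5, f6, f7, f8⟩ := exists_V4 (n := n) (by omega)
      have := hrank u' E' f1 f2 f3 f4 f5 f6
      rw [Nat.card_congr (Subgroup.subgroupOfEquivOfLe f7).toEquiv] at this
      have := s2 rfl
      have e : Nat.fib (0 + 1 + 1 + 1) = 2 := by decide
      omega
    · have := s1 rfl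
      have e : Nat.fib (0 + 1 + 1 + 1 + 1) = 3 := by decide
      omega
    · have := s4 rfl
      have e : Nat.fib (0 + 1 + 1 + 1 + 1 + 1) = 5 := by decide
      omega
    · have := s1 rfl
      have e : Nat.fib (0 + 1 + 1 + 1 + 1 + 1 + 1) = 8 := by decide
      omega
    · have := (fib_lt w).1
      have e : w + 1 + 1 + 1 + 1 + 1 + 1 + 1 = w + 7 := by omega
      have e' : w + 1 + 1 + 1 + 1 + 1 = w + 5 := by omega
      rw [e] at hV1
      rw [e'] at h3
      omega
  have hodd := hp.eq_two_or_odd.resolve_left hp2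
  have hEA : E ≤ alternatingGroup (Fin n) := fun x hx => by
    have := congrArg Perm.sign (e4 x hx)
    rw [map_pow, map_one] at this
    rcases Int.units_eq_one_or (Perm.sign x) with h | h
    · exact h
    · rw [h, (Nat.odd_iff.2 hodd).neg_one_pow] at this
      exact absurd this (by decide)
  rw [Nat.card_congr (Subgroup.subgroupOfEquivOfLe hEA).toEquiv] at hE
  have h3 := e5.trans hE
  have hCc : C.card + 1 = p := by
    rw [hC, Finset.card_erase_add_one (Finset.mem_range.2 hp.pos), Finset.card_range]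
  have h5 : 0 < p ^ w := pow_pos hp.pos w
  rw [pow_succ] at h3
  rcases S.eq_empty_or_nonempty with hS0 | ⟨ψ, hψ⟩
  · obtain ⟨T, hT1, hT2⟩ := exists_cover C C w
    have hV1 : Module.finrank ℂ V ≤ T.card := by
      refine finrank_span_le f T ?_
      rintro _ ⟨m, hm, rfl⟩
      have hne : m ≠ 0 := by rintro rfl; simpa using hm.2
      obtain ⟨x, hx⟩ := Multiset.exists_mem_of_ne_zero hne
      exact Submodule.subset_span ⟨m, hT2 m hm ⟨x, hx, (hm.1 x hx).2⟩, rfl⟩
    rw [hS0, Finset.card_empty] at b1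
    rw [hCc] at hT1
    nlinarith
  · obtain ⟨⟨γ', a', hγ', hr', -, hc'⟩, hv⟩ := hSm ψ hψ
    have hdual := dual_self_gr hp.pos (dual_self hN ψ.2 hγ' hc' hv) hκi hκ hr'
    obtain ⟨q, hq⟩ := hNp hp2
    obtain ⟨T, hT1, hT2⟩ := exists_cover C (Finset.Icc 1 (p / 2)) w
    have mC : ∀ t, t ∈ C ↔ 0 < t ∧ t < p := fun t => by
      rw [hC, Finset.mem_erase, Finset.mem_range]; omega
    have hV1 : Module.finrank ℂ V ≤ T.card := by
      refine finrank_span_le f T ?_
      rintro _ ⟨m, hm, rfl⟩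
      have hne : m ≠ 0 := by rintro rfl; simpa using hm.2
      obtain ⟨x, hx⟩ := Multiset.exists_mem_of_ne_zero hne
      have hx2 := (mC _).1 (hm.1 x hx).2
      by_cases hxp : x.2 ≤ p / 2
      · exact Submodule.subset_span ⟨m, hT2 m hm ⟨x, hx, Finset.mem_Icc.2 ⟨hx2.1, hxp⟩⟩, rfl⟩
      set m' := m.map (fun a => (a.1, p - a.2)) with hm'
      have k1 : m' ∈ Mul C (w + 1) := by
        refine ⟨fun a ha => ?_, by rw [hm', Multiset.map_map]; exact hm.2⟩
        obtain ⟨b, hb, rfl⟩ := Multiset.mem_map.1 ha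
        have := (mC _).1 (hm.1 b hb).2
        exact ⟨(hm.1 b hb).1, (mC _).2 (by simp only; omega)⟩
      have k2 : m = m'.map (fun a => (a.1, p - a.2)) := by
        rw [hm', Multiset.map_map]
        conv_lhs => rw [← Multiset.map_id m]
        refine Multiset.map_congr rfl fun b hb => ?_
        have := (mC _).1 (hm.1 b hb).2
        exact Prod.ext rfl (by simp only [Function.comp, id]; omega)
      have k3 : f m = eta p m' • f m' := funext fun y => by
        have := Phi_dual hN hp.pos hdual (fun t => p - t) m' (fun a ha => ⟨(k1.1 a ha).1,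
          fun x y e => res_iff ((mC _).1 (k1.1 a ha).2).1 ((mC _).1 (k1.1 a ha).2).2
            (e.trans hq)⟩) y y.2
        rw [← k2] at this
        exact this
      rw [k3]
      exact Submodule.smul_mem _ _ (Submodule.subset_span ⟨m', hT2 m' k1
        ⟨(x.1, p - x.2), Multiset.mem_map_of_mem _ hx, Finset.mem_Icc.2 (by simp only; omega)⟩, rfl⟩)
    rw [hCc, Nat.card_Icc, Nat.add_sub_cancel] at hT1
    have : 2 * (p / 2) + 1 = p := by omega
    nlinarith

end Cfsg.Agent.S4535
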