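import Cfsg.Statements.S4540
import Cfsg.Agent.Lib.Block.H11Av

set_option autoImplicit false
open Cfsg

namespace Cfsg.Agent.S4540

open Cfsg CA.BlkVal CA.BlkCore CA.BlkHeight CA.BlkDefect CA.H11Av CA.H11Sec CA.H11Cyclo CA.H11Contrib CA.BlkBas CChar.CharFun CChar.CharOrth CChar.CharGen Subgroup

/-- Let B be a 2-block of the finite group G (relative to a maximal ideal M of the algebraic integers containing 2) of defect d with defect group D. Let z be an element of D commuting with every element of D, and let b be a block of the centralizer C of z with defect group D that induces B (a major subsection (z, b)). If b has 2-regular rank at most three, then 3·k(B) ≤ 3·k₀(B) + 2·Σ 2 ^ h(χ), where k(B) is the number of members of B, k₀(B) the number of members of height zero, and the sum runs over the members χ of B of positive height h(χ); this bound is at most 3·2 ^ d, so in particular B contains at most 2 ^ d irreducible characters. -/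
theorem result {G : Type*} [Group G] [Finite G] (M : Ideal Cfsg.AlgInt) (hM : Cfsg.IsPModular 2 M) (B : Set (Cfsg.IrrCharacter G)) (hB : Cfsg.IsPBlock M B) (D : Subgroup G) (hD : Cfsg.IsDefectGroup 2 M B D) (z : G) (hzD : z ∈ D) (hzc : ∀ d ∈ D, d * z = z * d) (b : Set (Cfsg.IrrCharacter ↥(Subgroup.centralizer ({z} : Set G)))) (hb : Cfsg.IsInducedBlock M (Subgroup.centralizer ({z} : Set G)) b B) (hbD : Cfsg.IsDefectGroup 2 M b (D.subgroupOf (Subgroup.centralizer ({z} : Set G)))) (hl : Cfsg.blockRank 2 b ≤ 3) : 3 * Nat.card B ≤ 3 * Nat.card {χ : Cfsg.IrrCharacter G // χ ∈ B ∧ Cfsg.blockHeight 2 B (χ : G → ℂ) = 0} + 2 * (∑ᶠ χ ∈ {χ : Cfsg.IrrCharacter G | χ ∈ B ∧ 1 ≤ Cfsg.blockHeight 2 B (χ : G → ℂ)}, 2 ^ Cfsg.blockHeight 2 B (χ : G → ℂ)) ∧ 3 * Nat.card {χ : Cfsg.IrrCharacter G // χ ∈ B ∧ Cfsg.blockHeight 2 B (χ : G → ℂ) = 0} + 2 * (∑ᶠ χ ∈ {χ : Cfsg.IrrCharacter G | χ ∈ B ∧ 1 ≤ Cfsg.blockHeight 2 B (χ : G → ℂ)}, 2 ^ Cfsg.blockHeight 2 B (χ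 : G → ℂ)) ≤ 3 * 2 ^ Cfsg.blockDefect 2 B := by
  classical
  cases nonempty_fintype G
  haveI := Fact.mk hM.1
  obtain ⟨j, hj⟩ := pel_of_mem hM.1 (isPGroup_of_isDefectGroup hD) hzD
  have hd := defect_eq_of_central hM hB hb.1 hD
    (fun d hd => mem_centralizer_singleton_iff.2 (hzc d hd)) hbD
  have hn : orderOf z ∣ 2 ^ (j + 1) := hj ▸ pow_dvd_pow 2 (Nat.le_succ j)
  obtain ⟨χ, h3, h4⟩ := exists_height_zero (p := 2) (block_nonempty hM hB)
  have h1 := (cm_spec hM ⟨j, hj⟩ rfl hn hb).two_bound hM (cm_maj hM ⟨j, hj⟩ rfl hn hb hd) hl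
    (j := χ) (by simpa using h3) h4
  have h2 : 3 * Nat.card {χ : IrrCharacter G // χ ∈ B ∧ blockHeight 2 B (χ : G → ℂ) = 0} +
      2 * (∑ᶠ χ ∈ {χ : IrrCharacter G | χ ∈ B ∧ 1 ≤ blockHeight 2 B (χ : G → ℂ)},
        2 ^ blockHeight 2 B (χ : G → ℂ)) =
      ∑ χ with χ ∈ B, if blockHeight 2 B χ.1 = 0 then 3 else 2 * 2 ^ blockHeight 2 B χ.1 := by
    rw [Finset.sum_ite, Finset.sum_const, ← Finset.mul_sum, Finset.filter_filter,
      Finset.filter_filter, Nat.card_eq_fintype_card, Fintype.card_subtype, smul_eq_mul, mul_comm,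
      ← finsum_mem_coe_finset]
    simp only [Finset.coe_filter, Finset.mem_univ, true_and, Nat.one_le_iff_ne_zero]
  rw [h2, ← hd]
  refine ⟨?_, h1⟩
  rw [card_set_eq, mul_comm, ← smul_eq_mul, ← Finset.sum_const]
  refine Finset.sum_le_sum fun ψ _ => ?_
  split_ifs with e
  · rfl
  · have := Nat.le_self_pow e 2
    omega

end Cfsg.Agent.S4540
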