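import Cfsg.Statements.S4541
import Cfsg.Agent.Lib.Block.H11Av

set_option autoImplicit false
open Cfsg

namespace Cfsg.Agent.S4541

open Cfsg CA.BlkVal CA.BlkCore CA.BlkHeight CA.BlkDefect CA.H11Av CA.H11Sec CA.H11Cyclo CA.H11Contrib CA.BlkBas CChar.CharFun CChar.CharOrth CChar.CharGen Subgroup

/-- Let B be a 2-block of the finite group G (relative to a maximal ideal M of the algebraic integers containing 2), u a 2-element, and b a block of the centralizer of u inducing B (a subsection (u, b)), of defect q and 2-regular rank l; write s for the integer square root of l and k₀(B) for the number of members of B of height zero. If s is odd then k₀(B) ≤ s·2 ^ q, and otherwise (s + 1)·k₀(B) ≤ l·2 ^ q; in particular k₀(B) ≤ 2 ^ q when l ≤ 3. -/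
theorem result {G : Type*} [Group G] [Finite G] (M : Ideal Cfsg.AlgInt) (hM : Cfsg.IsPModular 2 M) (B : Set (Cfsg.IrrCharacter G)) (hB : Cfsg.IsPBlock M B) (u : G) (hu : ∃ j : ℕ, orderOf u = 2 ^ j) (b : Set (Cfsg.IrrCharacter ↥(Subgroup.centralizer ({u} : Set G)))) (hb : Cfsg.IsInducedBlock M (Subgroup.centralizer ({u} : Set G)) b B) : (Odd (Nat.sqrt (Cfsg.blockRank 2 b)) → Nat.card {χ : Cfsg.IrrCharacter G // χ ∈ B ∧ Cfsg.blockHeight 2 B (χ : G → ℂ) = 0} ≤ Nat.sqrt (Cfsg.blockRank 2 b) * 2 ^ Cfsg.blockDefect 2 b) ∧ (¬ Odd (Nat.sqrt (Cfsg.blockRank 2 b)) → (Nat.sqrt (Cfsg.blockRank 2 b) + 1) * Nat.card {χ : Cfsg.IrrCharacter G // χ ∈ B ∧ Cfsg.blockHeight 2 B (χ : G → ℂ) = 0} ≤ Cfsg.blockRank 2 b * 2 ^ Cfsg.blockDefect 2 b) ∧ (Cfsg.blockRank 2 b ≤ 3 → Nat.card {χ : Cfsg.IrrCharacter G // χ ∈ B ∧ Cfsg.blockHeight 2 B (χ : G → ℂ) = 0} ≤ 2 ^ Cfsg.blockDefect 2 b) := by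
  classical
  cases nonempty_fintype G
  obtain ⟨j, hj⟩ := hu
  have hn : orderOf u ∣ 2 ^ (j + 1) := hj ▸ pow_dvd_pow 2 (Nat.le_succ j)
  have h1 := cm_spec hM ⟨j, hj⟩ rfl hn hb
  have hu' : u ∈ centralizer ({u} : Set G) := self_mem_of_eq rfl
  set t : Finset (IrrCharacter G) := Finset.univ.filter fun χ => χ ∈ B ∧ blockHeight 2 B χ.1 = 0
  have ht : ∀ χ ∈ t, χ ∈ B ∧ blockHeight 2 B χ.1 = 0 := fun χ h => (Finset.mem_filter.1 h).2
  have hts : t ⊆ Finset.univ.filter (· ∈ B) := fun χ h => by simpa using (ht χ h).1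
  have hv : ∀ χ ∈ t, ∀ ψ ∈ t, v M (cm 2 b u χ ψ 1) = 1 := fun χ hχ ψ hψ => by
    rw [cm_one]; exact (v_cb_eq_one_iff hM ⟨j, hj⟩ le_rfl hu' hb).2 ⟨ht χ hχ, ht ψ hψ⟩
  have h2 : ∀ χ ∈ t, ∃ a : ℕ, (av (2 ^ (j + 1)) fun k => ‖cm 2 b u χ χ k‖) = a ∧ ¬ Even a :=
    fun χ hχ => by
    obtain ⟨a, h3, h4⟩ := exists_av_two hM (h1.mem χ χ) (h1.self two_ne_zero (hts hχ)) (h := 0)
      (by rw [hv χ hχ χ hχ, pow_zero])
    exact ⟨a, by simpa using h3, by simp [h4, hv χ hχ χ hχ]⟩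
  choose! a ha ha' using h2
  obtain ⟨χ₀, h3, h4⟩ := exists_height_zero (p := 2) (block_nonempty hM hB)
  obtain ⟨χ, hχ, hmin⟩ := t.exists_min_image a ⟨χ₀, Finset.mem_filter.2 ⟨Finset.mem_univ _, h3, h4⟩⟩
  have h5 : t.card * a χ ≤ 2 ^ blockDefect 2 b * blockRank 2 b := by
    exact_mod_cast h1.card_mul_le two_ne_zero hts (c := a χ) fun ψ hψ => by
      rw [ha ψ hψ]; exact_mod_cast hmin ψ hψ
  have h6 : t.card ≤ 2 ^ blockDefect 2 b * a χ := by
    have := h1.card_le_mul_av hts (hts hχ) fun ψ hψ e => by simpa [e] using hv ψ hψ χ hχ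
    rw [ha χ hχ] at this
    exact_mod_cast this
  have h7 := ha' χ hχ
  rw [Nat.card_eq_fintype_card, Fintype.card_subtype]
  change (_ → t.card ≤ _) ∧ (_ → _ * t.card ≤ _) ∧ (_ → t.card ≤ _)
  have h8 := Nat.sqrt_le (blockRank 2 b)
  have h9 := Nat.lt_succ_sqrt (blockRank 2 b)
  have h10 := CA.BlkIBr.blockRank_pos hM hb.1
  generalize blockRank 2 b = l at *
  generalize hs : Nat.sqrt l = s at *
  generalize 2 ^ blockDefect 2 b = q at *
  generalize t.card = k at *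
  generalize a χ = c at *
  have key : Odd s → k ≤ s * q := fun h => by
    rcases le_or_gt c s with e | e
    · nlinarith
    · have : s + 2 ≤ c := by rw [Nat.even_iff] at h7; rw [Nat.odd_iff] at h; omega
      have h11 : l ≤ s * (s + 2) := by simp only [Nat.succ_eq_add_one] at h9; nlinarith
      refine le_of_mul_le_mul_right ?_ (by omega : 0 < s + 2)
      nlinarith
  refine ⟨key, fun h => ?_, fun h => ?_⟩
  · rcases le_or_gt (s + 1) c with e | e
    · nlinarith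
    · have : c + 1 ≤ s := by rw [Nat.even_iff] at h7; rw [Nat.odd_iff] at h; omega
      have h11 : (s + 1) * c ≤ l := by nlinarith
      calc (s + 1) * k ≤ (s + 1) * (q * c) := Nat.mul_le_mul_left _ h6
        _ = (s + 1) * c * q := by ring
        _ ≤ l * q := Nat.mul_le_mul_right _ h11
  · have : s = 1 := by simp only [Nat.succ_eq_add_one] at h9; nlinarith
    simpa [this] using key (this ▸ odd_one)

end Cfsg.Agent.S4541
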