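import Cfsg.Statements.S4549
import Cfsg.Agent.Lib.Block.H10Sig
import Cfsg.Agent.Lib.Grp.PRes

set_option autoImplicit false
open Cfsg

namespace Cfsg.Agent.S4549
open Cfsg CA.H10Sig CA.BlkCore CA.BlkGal CA.BlkCov CA.H12Cover CA.PRes CA.BlkKer CA.BlkQuo CChar.CharFun CChar.CharInt CChar.CharKer CChar.CharOrth Subgroup

/-- Let G be a finite group and M a maximal ideal of the algebraic integers containing 2. Let k be a natural number with g ^ k = g ^ 3 for every 2-element g and g ^ k = g for every element g of odd order (such k exist); an irreducible character χ is unchanged by g ↦ g ^ k exactly when it is fixed by the field automorphism that cubes the 2-power roots of unity and fixes the roots of unity of odd order. Then G has a normal 2-complement if and only if every member χ of the principal 2-block of odd degree with χ (g ^ k) = χ g for all g has degree one. -/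
theorem result {G : Type*} [Group G] [Finite G] (M : Ideal Cfsg.AlgInt) (hM : Cfsg.IsPModular 2 M) (k : ℕ) (hk₁ : ∀ g : G, (∃ j : ℕ, orderOf g = 2 ^ j) → g ^ k = g ^ 3) (hk₂ : ∀ g : G, Odd (orderOf g) → g ^ k = g) : Cfsg.HasNormalPComplement 2 G ↔ ∀ χ ∈ Cfsg.principalBlock M G, Odd (Cfsg.charDegree (χ : G → ℂ)) → (∀ g : G, (χ : G → ℂ) (g ^ k) = (χ : G → ℂ) g) → Cfsg.charDegree (χ : G → ℂ) = 1 := by
  classical
  obtain ⟨P⟩ : Nonempty (Sylow 2 G) := inferInstance
  have hi := exists_index_pResidual_eq 2 G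
  rw [hasNPC_iff_not_dvd]
  set N := pResidual 2 G with hN
  constructor
  · intro h χ hχ ho _
    obtain ⟨a, ha⟩ := hi
    have h1 := (mem_principalBlock_iff_of_complement hM N h ⟨a, ha⟩).1 hχ
    obtain ⟨ψ, rfl⟩ := (exists_infl_iff (QuotientGroup.mk'_surjective N) (χ := χ)).2
      (by rwa [QuotientGroup.ker_mk'])
    rw [charDegree_infl] at ho ⊢
    have h2 := charDegree_dvd_card ψ.2
    rw [← index_eq_card, ha] at h2
    exact ((Nat.coprime_two_right.2 ho).pow_right a).eq_one_of_dvd h2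
  · intro h hd
    have a1 : ∀ g : G, (∃ j : ℕ, orderOf g = 2 ^ j) → g ^ k = g ^ (1 + 2) := hk₁
    have a2 : ∀ g : G, ¬ 2 ∣ orderOf g → g ^ k = g := fun g hg => hk₂ g (Nat.odd_iff.2 (by omega))
    have hk := coprime_of_sig a1 a2
    obtain ⟨n, hn⟩ := pow_pow_of_sig a1 a2
    have hk' := coprime_subgroup hk N
    have h0 := two_dvd_card_principal hM hd
    have h1 := card_inv_modEq P.isPGroup'
      (fun θ : IrrCharacter N => θ ∈ principalBlock M N ∧ ¬ 2 ∣ charDegree θ.1)
      fun x _ θ h => ⟨(cjI_mem_principal_iff hM x).2 h.1, by rw [charDegree_cjI]; exact h.2⟩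
    have h2 := card_pw_modEq hk' (p := 2) (n := n) (fun g => Subtype.ext (hn g))
      (fun θ : IrrCharacter N => (θ ∈ principalBlock M N ∧ ¬ 2 ∣ charDegree θ.1) ∧
        ∀ x ∈ (P : Subgroup G), cjI x θ = θ)
      fun θ h => ⟨⟨(pw_mem_principal_iff hk').2 h.1.1, by rw [charDegree_pw]; exact h.1.2⟩,
        fun x hx => by rw [← pw_cjI, h.2 x hx]⟩
    have h3 := card_bar_modEq
      (fun θ : IrrCharacter N => ((θ ∈ principalBlock M N ∧ ¬ 2 ∣ charDegree θ.1) ∧
        ∀ x ∈ (P : Subgroup G), cjI x θ = θ) ∧ pw hk' θ = θ)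
      fun θ h => ⟨⟨⟨bar_mem_principal_iff.2 h.1.1.1, by rw [bar, charDegree_pw]; exact h.1.1.2⟩,
        fun x hx => by rw [bar, ← pw_cjI, h.1.2 x hx]⟩, by
          conv_rhs => rw [← h.2]
          exact Subtype.ext (funext fun g => by simp only [bar, pw_apply, ← pow_mul, mul_comm])⟩
    have h4 := ((h3.trans (h2.trans h1)).dvd_iff dvd_rfl).2 h0
    obtain ⟨θ, ⟨⟨⟨⟨b1, b2⟩, b3⟩, b4⟩, b5⟩, b6⟩ : ∃ θ : IrrCharacter N,
        ((((θ ∈ principalBlock M N ∧ ¬ 2 ∣ charDegree θ.1) ∧
        ∀ x ∈ (P : Subgroup G), cjI x θ = θ) ∧ pw hk' θ = θ) ∧ bar θ = θ) ∧ θ ≠ irrOne N := by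
      by_contra h5
      push Not at h5
      rw [Nat.card_eq_one_iff_unique.2 ⟨⟨fun a b => Subtype.ext ((h5 _ a.2).trans (h5 _ b.2).symm)⟩,
        ⟨⟨irrOne N, ⟨⟨⟨irrOne_mem_principalBlock hM, by simp [CA.BlkZero.charDegree_irrOne]⟩,
          fun x _ => rfl⟩, rfl⟩, rfl⟩⟩⟩] at h4
      omega
    obtain ⟨χ, c1, c2⟩ := exists_can hi (inertia_eq_top_of (pResidual_sup_sylow P) b3) b2
      (CA.H12Deg.not_dvd_detOrder Nat.prime_two pResidual_pResidual _)
    have e : charDegree χ.1 = charDegree θ.1 := charDegree_eq_of_apply (c1 1)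
    have h6 := h χ (over_mem_principal hM hi b1 (over_of_ext c1))
      (by rw [e]; exact Nat.odd_iff.2 (by omega)) (c2 k hk ((pw_eq_self_iff hk').1 b4))
    rw [e] at h6
    obtain ⟨l, hl⟩ := char_exists_unitsHom_of_apply_one (char_of_irr θ.2)
      (by rw [irr_apply_one_eq θ.2, h6, Nat.cast_one])
    have h7 : l ^ 2 = 1 := by
      ext g
      have := congrArg (fun ψ : IrrCharacter N => ψ.1 g) b5
      simp only [bar_apply', hl, map_inv, Units.val_inj] at this
      simp [sq, ← mul_eq_one_iff_inv_eq.symm.1 this]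
    have h8 : l = 1 := by
      have h9 := CA.H12Deg.not_dvd_orderOf Nat.prime_two pResidual_pResidual l
      rcases (Nat.dvd_prime Nat.prime_two).1 (orderOf_dvd_of_pow_eq_one h7) with h | h
      · exact orderOf_eq_one_iff.1 h
      · exact (h9 h.symm.dvd).elim
    exact b6 (Subtype.ext (by rw [hl, h8]; rfl))

end Cfsg.Agent.S4549
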