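import Cfsg.Statements.S4550
import Cfsg.Agent.Lib.Block.BlkPr

set_option autoImplicit false
open Cfsg

namespace Cfsg.Agent.S4550
open Cfsg MonoidAlgebra CA.BlkAlg CA.BlkVal CA.BlkOmega CA.BlkRed CA.BlkCore CA.BlkDefect CA.BlkInd CA.BlkHeight CA.SylIn CA.H12PPart CChar.CharFun CChar.CharOrth Subgroup CA.BlkKer CChar.CharKer CA.BlkZero CChar.CharInt CA.BlkReg CA.BlkGal CA.BlkQuo CA.BlkBas CA.BlkIdem CA.BlkIBr CChar.CharGen CA.BlkCov CA.H12Cover CA.Clif CA.BlkInt CA.BlkPr

/-- Let G be a finite group of even order and M a maximal ideal of the algebraic integers containing 2. Let k be a natural number with g ^ k = g ^ 3 for every 2-element g and g ^ k = g for every element g of odd order (such k exist); an irreducible character χ is unchanged by g ↦ g ^ k exactly when it is fixed by the field automorphism that cubes the 2-power roots of unity and fixes the roots of unity of odd order. Then the number of members χ of the principal 2-block of odd degree with χ (g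 ^ k) = χ g for all g is even. -/
theorem result {G : Type*} [Group G] [Finite G] (M : Ideal Cfsg.AlgInt) (hM : Cfsg.IsPModular 2 M) (hev : Even (Nat.card G)) (k : ℕ) (hk₁ : ∀ g : G, (∃ j : ℕ, orderOf g = 2 ^ j) → g ^ k = g ^ 3) (hk₂ : ∀ g : G, Odd (orderOf g) → g ^ k = g) : Even (Nat.card {χ : Cfsg.IrrCharacter G // χ ∈ Cfsg.principalBlock M G ∧ Odd (Cfsg.charDegree (χ : G → ℂ)) ∧ ∀ g : G, (χ : G → ℂ) (g ^ k) = (χ : G → ℂ) g}) := by
  classical
  have hk : k.Coprime (Nat.card G) := Nat.coprime_of_dvd fun q hq h1 h2 => by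
    have : Fact q.Prime := ⟨hq⟩
    obtain ⟨g, hg⟩ := exists_prime_orderOf_dvd_card' q h2
    have h3 : g ^ k = 1 := orderOf_dvd_iff_pow_eq_one.1 (hg ▸ h1)
    rcases hq.eq_two_or_odd' with rfl | ho
    · rw [hk₁ g ⟨1, hg⟩, ← orderOf_dvd_iff_pow_eq_one, hg] at h3
      omega
    · rw [hk₂ g (hg ▸ ho)] at h3
      rw [h3, orderOf_one] at hg
      exact hq.one_lt.ne hg
  obtain ⟨a, ha⟩ : ∃ a, a = (Nat.card G).factorization 2 := ⟨_, rfl⟩
  have hσ : pwEquiv hk ^ 2 ^ a = 1 := by
    ext χ g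
    rw [pwEquiv_pow, Equiv.Perm.one_apply]
    have h1 : ∀ n, pReg 2 g ^ k ^ n = pReg 2 g := fun n => by
      induction n with
      | zero => simp
      | succ n ih => rw [pow_succ, pow_mul, ih, hk₂ _ (Nat.odd_iff.2 (Nat.two_dvd_ne_zero.1
          (not_dvd_orderOf_pReg Nat.prime_two g)))]
    obtain ⟨j, hj⟩ := orderOf_pPart Nat.prime_two g
    have h2 : pPart 2 g ^ k ^ 2 ^ a = pPart 2 g := by
      have hja : j ≤ a := ha ▸ (Nat.prime_two.pow_dvd_iff_le_factorization Nat.card_pos.ne').1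
        (hj ▸ orderOf_dvd_natCard _)
      conv_rhs => rw [← pow_one (pPart 2 g)]
      rw [pow_eq_pow_iff_modEq, hj]
      have h3 := Nat.ModEq.pow_totient (hk.of_dvd_right (hj ▸ orderOf_dvd_natCard (pPart 2 g)))
      obtain ⟨c, hc⟩ : Nat.totient (2 ^ j) ∣ 2 ^ a := by
        rcases j with - | j
        · simp
        · rw [Nat.totient_prime_pow_succ Nat.prime_two]
          simpa using pow_dvd_pow 2 (by omega)
      simpa [hc, pow_mul] using h3.pow c
    conv_lhs => rw [← pPart_mul_pReg 2 g, (commute_pPart_pReg Nat.prime_two g).mul_pow, h1, h2, pPart_mul_pReg]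
  have h1 := card_fixed_modEq Nat.prime_two _ hσ
    (fun χ => χ ∈ principalBlock M G ∧ Odd (charDegree χ.1)) fun χ h => by
      simpa [pw_mem_principal_iff] using h
  have h2 : Nat.card {χ : IrrCharacter G // χ ∈ principalBlock M G ∧ Odd (charDegree χ.1) ∧
      ∀ g : G, χ.1 (g ^ k) = χ.1 g} = Nat.card {χ : IrrCharacter G //
      (χ ∈ principalBlock M G ∧ Odd (charDegree χ.1)) ∧ pwEquiv hk χ = χ} :=
    Nat.card_congr (Equiv.subtypeEquivRight fun χ => by
      rw [pwEquiv_apply, pw_eq_self_iff, and_assoc])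
  rw [h2, Nat.even_iff, h1, ← Nat.even_iff, Nat.card_eq_fintype_card, Fintype.card_subtype]
  have : Fact (Nat.Prime 2) := ⟨Nat.prime_two⟩
  obtain ⟨t, ht⟩ := exists_prime_orderOf_dvd_card' 2 hev.two_dvd
  have h3 := dvd_sum_sq hM _ ⟨1, ht⟩ (sum_degree_mul_eq_zero hM
    (isSat_of_isPBlock hM isPBlock_principalBlock) (g := t) (ht ▸ dvd_rfl))
  rw [← even_iff_two_dvd, Finset.even_sum_iff_even_card_odd] at h3
  convert h3 using 2
  ext χ
  simp [Nat.odd_pow_iff]

end Cfsg.Agent.S4550
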