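import Cfsg.Statements.S4552
import Cfsg.Agent.Lib.Block.H11Sm

set_option autoImplicit false
open Cfsg

namespace Cfsg.Agent.S4552

open CA.H11Sm CA.H11Cy2 CA.H11Fb CA.H11Exc CA.H11Orb CA.H11Brg CA.H11Fus CA.H11Max CA.H11Amb CA.H11Pair CA.BlkCore CA.H11Star CA.H11NilB Subgroup

theorem card_le {n : ℕ} [NeZero n] : Nat.card {a : ZMod n // 2 • a = 0} ≤ 2 := by
  classical
  rw [Nat.card_eq_fintype_card, Fintype.card_subtype]
  exact IsAddCyclic.card_nsmul_eq_zero_le two_pos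

/-- Let B be a 2-block of the finite group G (relative to a maximal ideal M of the algebraic integers containing 2) whose defect group D is the direct product of two cyclic groups of the same order 2 ^ m, m ≥ 2. Then either B has 2-regular rank one and exactly 4 ^ m irreducible characters, or B has 2-regular rank three and exactly (4 ^ m + 8) / 3 irreducible characters. -/
theorem result {G : Type*} [Group G] [Finite G] (M : Ideal Cfsg.AlgInt) (hM : Cfsg.IsPModular 2 M) (B : Set (Cfsg.IrrCharacter G)) (hB : Cfsg.IsPBlock M B) (D : Subgroup G) (hD : Cfsg.IsDefectGroup 2 M B D) (m : ℕ) (hm : 2 ≤ m) (hiso : Nonempty (D ≃* Multiplicative (ZMod (2 ^ m) × ZMod (2 ^ m)))) : (Cfsg.blockRank 2 B = 1 ∧ Nat.card B = 4 ^ m) ∨ (Cfsg.blockRank 2 B = 3 ∧ 3 * Nat.card B = 4 ^ m + 8) := by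
  haveI := Fintype.ofFinite G
  obtain ⟨ι⟩ := hiso
  haveI : Fact (1 < 2 ^ m) := ⟨Nat.one_lt_two_pow (by omega)⟩
  obtain ⟨e, h⟩ := exists_mx (p_eq hM) (blk_eB hM hB) ((isDefectGroup_iff_top hM hB).1 hD)
  obtain ⟨E, F, h⟩ := fb_two (A := Multiplicative (ZMod (2 ^ m) × ZMod (2 ^ m))) hM hB h mul_comm ((Nat.card_le_card_of_injective
    (fun a : {a : Multiplicative (ZMod (2 ^ m) × ZMod (2 ^ m)) // a ^ 2 = 1} =>
    ((⟨a.1.toAdd.1, congrArg (·.toAdd.1) a.2⟩, ⟨a.1.toAdd.2, congrArg (·.toAdd.2) a.2⟩) :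
      {a : ZMod (2 ^ m) // 2 • a = 0} × {a : ZMod (2 ^ m) // 2 • a = 0}))
    fun a b h => Subtype.ext (Prod.ext (congrArg (·.1.1) h) (congrArg (·.2.1) h))).trans
    ((Nat.card_prod _ _).trans_le (Nat.mul_le_mul card_le card_le))) ι.symm
  have h1 := (exists_std F h).1
  have h2 := F.card_eq
  have h3 := F.not_dvd
  have h4 := F.fr.card_eq
  rw [Nat.card_congr Multiplicative.toAdd, Nat.card_prod, Nat.card_zmod, ← mul_pow,
    show 2 * 2 = 4 from rfl] at h4
  obtain h5 | h5 : Nat.card E = 1 ∨ Nat.card E = 3 := by omega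
  all_goals rw [h5] at h1 h4; omega

end Cfsg.Agent.S4552
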