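import Cfsg.Statements.S4553
import Cfsg.Agent.Lib.Char.H10FS
import Cfsg.Agent.Lib.Block.H10Sig
import Cfsg.Agent.Lib.Grp.PRes

set_option autoImplicit false
open Cfsg

namespace Cfsg.Agent.S4553
open CA.H10FS CA.MatRep CA.H11FS CA.Clif CA.Gall CA.Ind2 CA.Ext CChar.CharFun CChar.CharOrth CChar.CharInt CChar.CharProd CChar.CharKer CA.Ind Subgroup CA.H10Sig CA.PRes

/-- Let G be a finite group, p a prime, P a Sylow p-subgroup, N the p-residual of G (the subgroup generated by the elements of order prime to p, the smallest normal subgroup with G/N a p-group), and M a maximal ideal of the algebraic integers containing p; suppose G/N is cyclic and nontrivial. Let k be a natural number with g ^ k = g ^ (1 + p) for every p-element g and g ^ k = g for every element g of order prime to p (so that χ (g ^ k) is the image of χ g under the field automorphism that raises p-power roots of unity to the power 1 + p and fixes the roots of unity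 of order prime to p). Then the number of members χ of the principal block of G of degree prime to p with χ (g ^ k) = χ g for all g equals p times the number of members θ of the principal block of N of degree prime to p that are invariant under conjugation by P and satisfy θ (n ^ k) = θ n for all n. -/
theorem result {G : Type*} [Group G] [Finite G] (p : ℕ) [Fact p.Prime] (M : Ideal Cfsg.AlgInt) (hM : Cfsg.IsPModular p M) (P : Sylow p G) (N : Subgroup G) [hN : N.Normal] (hNres : N = Cfsg.pResidual p G) (hcyc : IsCyclic (G ⧸ N)) (hnt : N ≠ ⊤) (k : ℕ) (hk₁ : ∀ g : G, (∃ j : ℕ, orderOf g = p ^ j) → g ^ k = g ^ (1 + p)) (hk₂ : ∀ g : G, Nat.Coprime (orderOf g) p → g ^ k = g) : Nat.card {χ : Cfsg.IrrCharacter G // χ ∈ Cfsg.principalBlock M G ∧ ¬ p ∣ Cfsg.charDegree (χ : G → ℂ) ∧ ∀ g : G, (χ : G → ℂ) (g ^ k) = (χ : G → ℂ) g} = p * Nat.card {θ : Cfsg.IrrCharacter ↥N // θ ∈ Cfsg.principalBlock M ↥N ∧ ¬ p ∣ Cfsg.charDegree (θ : ↥N → ℂ)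 ∧ (∀ x ∈ (P : Subgroup G), ∀ n : ↥N, (θ : ↥N → ℂ) ⟨x * n * x⁻¹, hN.conj_mem n n.2 x⟩ = (θ : ↥N → ℂ) n) ∧ ∀ n : ↥N, (θ : ↥N → ℂ) (n ^ k) = (θ : ↥N → ℂ) n} := by
  classical
  haveI : Fintype G := Fintype.ofFinite _
  haveI : Fintype N := Fintype.ofFinite _
  have hp : p.Prime := Fact.out
  subst hNres
  set N := pResidual p G with hNd
  have hi := exists_index_pResidual_eq p G
  obtain ⟨a, ha⟩ := id hi
  have hk := coprime_of_sig hk₁ (fun g hg => hk₂ g (coprime_iff_not_dvd.2 hg))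
  have hL : Nat.card {l : G →* ℂˣ // (∀ n ∈ N, l n = 1) ∧ ∀ g, l g ^ p = 1} = p := by
    obtain ⟨g, hg⟩ := hcyc.exists_generator
    obtain ⟨g, rfl⟩ := QuotientGroup.mk_surjective g
    haveI : NeZero p := ⟨hp.ne_zero⟩
    refine Eq.trans (Nat.card_eq_of_bijective (β := rootsOfUnity p ℂ) (fun l => ⟨l.1 g, l.2.2 g⟩)
      ⟨fun l m e => Subtype.ext (MonoidHom.ext fun x => ?_), fun z => ?_⟩) ?_
    · obtain ⟨j, hj⟩ := hg (x : G ⧸ N)
      have h1 : (g ^ j)⁻¹ * x ∈ N := QuotientGroup.eq.1 hj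
      have h2 : l.1 g = m.1 g := congrArg Subtype.val e
      rw [show x = g ^ j * ((g ^ j)⁻¹ * x) by simp, map_mul l.1, map_mul m.1, l.2.1 _ h1, m.2.1 _ h1,
        map_zpow, map_zpow, h2]
    · have h1 : orderOf z.1 ∣ orderOf (g : G ⧸ N) := by
        rw [orderOf_eq_card_of_forall_mem_zpowers hg, ← index_eq_card, ha]
        refine (orderOf_dvd_of_pow_eq_one z.2).trans (dvd_pow_self p ?_)
        rintro rfl
        exact hnt (index_eq_one.1 ha)
      refine ⟨⟨(monoidHomOfForallMemZpowers hg h1).comp (QuotientGroup.mk' N), fun n hn => ?_,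
        fun x => ?_⟩, Subtype.ext (monoidHomOfForallMemZpowers_apply_gen hg h1)⟩
      · rw [MonoidHom.comp_apply, QuotientGroup.mk'_apply, (QuotientGroup.eq_one_iff n).2 hn, map_one]
      · obtain ⟨j, hj⟩ := hg (x : G ⧸ N)
        rw [MonoidHom.comp_apply, QuotientGroup.mk'_apply, ← hj, map_zpow,
          monoidHomOfForallMemZpowers_apply_gen, ← zpow_natCast, ← zpow_mul, mul_comm, zpow_mul,
          zpow_natCast, show z.1 ^ p = 1 from z.2, one_zpow]
    · rw [Complex.card_rootsOfUnity]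
  have hlk : ∀ l : G →* ℂˣ, (∀ n ∈ N, l n = 1) → ∀ g, l (g ^ k) = l g * l g ^ p := by
    intro l hl g
    obtain ⟨u, v, ⟨s, rfl⟩, ⟨t, rfl⟩, e1, ⟨i, hi⟩, hv⟩ := exists_p_part (p := p) g
    simp only at e1 hi hv
    obtain ⟨r, -, hr⟩ := (Nat.dvd_prime_pow hp).1 (orderOf_dvd_of_pow_eq_one hi)
    have h1 := hl _ (mem_pResidual_of_coprime hv)
    rw [e1, (Commute.zpow_zpow_self g s t).mul_pow, hk₁ _ ⟨r, hr⟩, hk₂ _ hv, map_mul, map_mul, h1,
      mul_one, mul_one, map_pow, pow_add, pow_one]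
  have hpr : ∀ (χ : IrrCharacter G) (θ : IrrCharacter N), (∀ n : N, χ.1 n = θ.1 n) →
      (χ ∈ principalBlock M G ↔ θ ∈ principalBlock M N) := fun χ θ h =>
    CA.BlkPr.mem_principal_iff_of_hom hM N.subtype_injective (fun g hg => by
      rw [range_subtype]; exact mem_pResidual_of_coprime (coprime_iff_not_dvd.2 hg)) one_ne_zero
      fun x _ => by rw [one_mul]; exact h x
  have hex := fun θ : {θ : IrrCharacter ↥N // θ ∈ principalBlock M ↥N ∧ ¬ p ∣ charDegree (θ : ↥N → ℂ) ∧ (∀ x ∈ (P : Subgroup G), ∀ n : ↥N, (θ : ↥N → ℂ) ⟨x * n * x⁻¹, hN.conj_mem n n.2 x⟩ = (θ : ↥N → ℂ) n) ∧ ∀ n : ↥N, (θ : ↥N → ℂ) (n ^ k) = (θ : ↥N → ℂ) n} =>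
    exists_can hi (inertia_eq_top_of (pResidual_sup_sylow P) (θ := θ.1)
      fun x hx => Subtype.ext (funext (θ.2.2.2.1 x hx))) θ.2.2.1
      (CA.H12Deg.not_dvd_detOrder hp pResidual_pResidual _)
  choose c hc1 hc2 using hex
  have hres : ∀ θ, (fun n : N => (c θ).1 n) = θ.1.1 := fun θ => funext (hc1 θ)
  refine Eq.trans ?_ ((Nat.card_prod _ _).trans (congrArg (· * _) hL))
  symm
  refine Nat.card_eq_of_bijective (fun q => ⟨⟨_, irr_unitsHom_mul (c q.2).2 q.1.1⟩, ?_, ?_, ?_⟩)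
    ⟨?_, ?_⟩
  · exact (hpr _ q.2.1 fun n => by simp [q.1.2.1 n n.2, hc1]).2 q.2.2.1
  · rw [charDegree_eq (n := charDegree q.2.1.1) (by
      simp only [map_one, Units.val_one, one_mul]
      rw [← irr_apply_one_eq q.2.1.2]; exact hc1 q.2 1)]
    exact q.2.2.2.1
  · intro g
    simp only [hlk _ q.1.2.1, q.1.2.2, mul_one, hc2 q.2 k hk q.2.2.2.2.2]
  · rintro ⟨l, θ⟩ ⟨m, η⟩ e
    have e1 : (fun g => (l.1 g : ℂ) * (c θ).1 g) = fun g => (m.1 g : ℂ) * (c η).1 g :=
      congrArg (fun x => x.1.1) e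
    obtain rfl : θ = η := Subtype.ext (Subtype.ext (funext fun n => by
      simpa [l.2.1 n n.2, m.2.1 n n.2, hc1] using congrFun e1 n))
    rw [show l = m from Subtype.ext (linear_inj (char_of_irr (c θ).2) (hres θ ▸ θ.1.2) l.2.1 m.2.1 e1)]
  · rintro ⟨χ, h1, h2, h3⟩
    obtain ⟨θ, hθ, h4⟩ := CA.Cons.exists_irr_under N χ.2
    obtain ⟨e, he, h5⟩ := exists_dvd_index hθ χ.2 h4
    obtain rfl : e = 1 := by
      obtain ⟨j, -, rfl⟩ := (Nat.dvd_prime_pow hp).1 (ha ▸ he)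
      rcases j with _ | j
      · rfl
      · refine (h2 ?_).elim
        rw [charDegree_eq (n := p ^ (j + 1) * charDegree θ) (by rw [h5, irr_apply_one_eq hθ]; simp)]
        exact (dvd_pow_self p (Nat.succ_ne_zero j)).mul_right _
    rw [Nat.cast_one, one_mul] at h5
    have h6 : (fun n : N => χ.1 n) = θ :=
      eq_of_inner_ne_zero_of_apply_one (char_comp (char_of_irr χ.2) N.subtype) hθ h4 h5
    subst h6
    let θ' : {θ : IrrCharacter ↥N // θ ∈ principalBlock M ↥N ∧ ¬ p ∣ charDegree (θ : ↥N → ℂ) ∧ (∀ x ∈ (P : Subgroup G), ∀ n : ↥N, (θ : ↥N → ℂ) ⟨x * n * x⁻¹, hN.conj_mem n n.2 x⟩ = (θ : ↥N → ℂ) n) ∧ ∀ n : ↥N, (θ : ↥N → ℂ) (n ^ k) = (θ : ↥N → ℂ) n} :=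
      ⟨⟨_, hθ⟩, (hpr χ _ fun _ => rfl).1 h1, fun h => h2 (charDegree_eq (χ := fun n : N => χ.1 n) (irr_apply_one_eq χ.2) ▸ h),
        fun x _ n => irr_classFun χ.2 _ _, fun n => h3 n⟩
    obtain ⟨l, h7, h8⟩ := exists_linear_of_ext (char_of_irr (c θ').2) (hres θ' ▸ hθ) (char_of_irr χ.2)
      fun n => (hc1 θ' n).symm
    refine ⟨(⟨l, h7, fun g => ?_⟩, θ'), Subtype.ext (Subtype.ext h8.symm)⟩
    have h9 : l * l ^ p = l := linear_inj (char_of_irr (c θ').2) (hres θ' ▸ hθ)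
      (fun n hn => by simp [h7 n hn]) h7 (funext fun g => by
        have := h3 g
        rw [h8] at this
        simp only [hlk l h7, hc2 θ' k hk θ'.2.2.2.2] at this
        exact this)
    simpa using DFunLike.congr_fun h9 g

end Cfsg.Agent.S4553
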