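import Cfsg.Statements.S4560
import Cfsg.Agent.Lib.Char.H8Sn

set_option autoImplicit false
open Cfsg

namespace Cfsg.Agent.S4560

open CA.H8Sn CA.SnCyc Equiv

/-- For n ≥ 7 the alternating group on n letters has an irreducible character that vanishes at some 2-element and is the restriction of an irreducible character of the symmetric group, and an irreducible character that vanishes at some element of order 3 and is the restriction of an irreducible character of the symmetric group. -/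
theorem result (n : ℕ) (hn : 7 ≤ n) : (∃ χ : Cfsg.IrrCharacter (alternatingGroup (Fin n)), (∃ x : alternatingGroup (Fin n), (∃ j : ℕ, orderOf x = 2 ^ j) ∧ (χ : alternatingGroup (Fin n) → ℂ) x = 0) ∧ ∃ ψ : Cfsg.IrrCharacter (Equiv.Perm (Fin n)), ∀ x : alternatingGroup (Fin n), (ψ : Equiv.Perm (Fin n) → ℂ) x = (χ : alternatingGroup (Fin n) → ℂ) x) ∧ (∃ χ : Cfsg.IrrCharacter (alternatingGroup (Fin n)), (∃ y : alternatingGroup (Fin n), orderOf y = 3 ∧ (χ : alternatingGroup (Fin n) → ℂ) y = 0) ∧ ∃ ψ : Cfsg.IrrCharacter (Equiv.Perm (Fin n)), ∀ x : alternatingGroup (Fin n), (ψ : Equiv.Perm (Fin n) → ℂ) x = (χ : alternatingGroup (Fin n) → ℂ) x) := by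
  have c : Fintype.card (Fin n) = n := Fintype.card_fin n
  have hA := irr (tr_alt (X := Fin n) (by omega)) (by omega)
  have hS := irr (tr_top (X := Fin n)) (by omega)
  have key : ∀ P : alternatingGroup (Fin n) → Prop, (∃ x, P x ∧ (χ2 x.1 = 0 ∨ χ3 x.1 = 0)) →
      ∃ χ : IrrCharacter (alternatingGroup (Fin n)), (∃ x, P x ∧ χ.1 x = 0) ∧
        ∃ ψ : IrrCharacter (Perm (Fin n)), ∀ x : alternatingGroup (Fin n), ψ.1 x = χ.1 x := by
    rintro P ⟨x, hx, h | h⟩
    exacts [⟨⟨_, hA.1⟩, ⟨x, hx, h⟩, ⟨_, hS.1⟩, fun _ => rfl⟩, ⟨⟨_, hA.2⟩, ⟨x, hx, h⟩, ⟨_, hS.2⟩, fun _ => rfl⟩]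
  have o : ∀ g : alternatingGroup (Fin n), orderOf g = g.1.cycleType.lcm := fun g => by
    rw [Perm.lcm_cycleType, Subgroup.orderOf_coe]
  refine ⟨key _ ?_, key _ ?_⟩
  · suffices ∃ x : alternatingGroup (Fin n), orderOf x ∣ 2 ^ 3 ∧ (χ2 x.1 = 0 ∨ χ3 x.1 = 0) from
      this.imp fun x h => ⟨((Nat.dvd_prime_pow Nat.prime_two).1 h.1).imp fun _ h => h.2, h.2⟩
    rcases hn.eq_or_lt with rfl | h8
    · refine ⟨⟨swap 0 1 * swap 1 2 * swap 2 3 * swap 4 5, Perm.mem_alternatingGroup.2 (by simp)⟩,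
        orderOf_dvd_of_pow_eq_one (Subtype.ext (by decide +kernel)), .inl ?_⟩
      rw [χ2, s2_eq, show f1 _ = 1 by decide +kernel, show f2 _ = 3 by decide +kernel]; norm_num
    obtain ⟨k, hk⟩ : ∃ k, n / 4 = k + 2 := ⟨n / 4 - 2, by omega⟩
    obtain ⟨m, h1, h2, h3⟩ : ∃ m : Multiset ℕ, m.sum = 4 * (k + 2) ∧ (∀ a ∈ m, a = 4 ∨ a = 8) ∧
        Even (Multiset.card m) := by
      rcases Nat.even_or_odd k with e | e
      · exact ⟨.replicate (k + 2) 4, by simp; ring, fun a h => .inl (Multiset.eq_of_mem_replicate h),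
          by rw [Multiset.card_replicate]; exact e.add even_two⟩
      · exact ⟨8 ::ₘ .replicate k 4, by simp; ring, fun a h => (Multiset.mem_cons.1 h).symm.imp_left
          Multiset.eq_of_mem_replicate, by simpa using e.add_one⟩
    obtain ⟨g, hg⟩ := exists_alt (α := Fin n) m (by omega) (fun a h => by have := h2 a h; omega)
      (Even.add ⟨2 * (k + 2), by omega⟩ h3)
    refine ⟨g, ?_, zero (fun h => by have := h2 2 (hg ▸ h); omega) (by rw [hg]; omega)⟩
    rw [o, hg, Multiset.lcm_dvd]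
    intro a h; rcases h2 a h with rfl | rfl <;> norm_num
  · obtain ⟨g, hg⟩ := exists_alt (α := Fin n) (.replicate (n / 3) 3) (by simp; omega)
      (fun a h => by rw [Multiset.eq_of_mem_replicate h]; norm_num) ⟨2 * (n / 3), by simp; ring⟩
    refine ⟨g, ?_, zero (fun h => absurd (Multiset.eq_of_mem_replicate (hg ▸ h)) (by norm_num))
      (by rw [hg]; simp; omega)⟩
    refine orderOf_eq_prime (orderOf_dvd_iff_pow_eq_one.1 ?_) fun e => ?_
    · rw [o, hg, Multiset.lcm_dvd]
      exact fun a h => (Multiset.eq_of_mem_replicate h).dvd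
    · have := congrArg Multiset.card hg
      simp [e] at this; omega

end Cfsg.Agent.S4560
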