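import Cfsg.Statements.S4561
import Mathlib
import Cfsg.Agent.Lib.Char.Cons
import Cfsg.Agent.Lib.Char.CharKer
import Cfsg.Agent.Lib.Solv.SS2

set_option autoImplicit false
universe u
open Cfsg

namespace Cfsg.Agent.S4561

open Subgroup CChar.CharRep CChar.CharFun CChar.CharOrth CChar.CharKer
open scoped commutatorElement

structure Coc (m : ℕ) (Q : Type*) [Group Q] where
  c : Q → Q → ZMod m
  h : ∀ x y z, c x y + c (x * y) z = c y z + c x (y * z)
  l : ∀ x, c 1 x = 0
  r : ∀ x, c x 1 = 0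
  nd : ∀ x, x ≠ 1 → ∃ y, x * y = y * x ∧ c x y ≠ c y x

theorem step {m : ℕ} {Q A : Type*} [Group Q] [CommGroup A] [Fintype A] (C : Coc m Q)
    (β : A → A → ZMod m) (h1 : ∀ a b c, β (a * b) c = β a c + β b c)
    (h2 : ∀ a b c, β a (b * c) = β a b + β a c) (h3 : ∀ a, a ≠ 1 → β a a ≠ 0) :
    Nonempty (Coc m ((Q ≀ᵣ A) × A)) := by
  classical
  have b1 : ∀ a, β 1 a = 0 := fun a => by simpa using h1 1 1 a
  have b2 : ∀ a, β a 1 = 0 := fun a => by simpa using h2 a 1 1
  refine ⟨⟨fun x y => ∑ t, C.c (x.1.left t) (y.1.left (x.1.right⁻¹ * t)) + β x.1.right y.2,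
    fun x y z => ?_, fun x => by simp [C.l, b1], fun x => by simp [C.r, b2], fun x hx => ?_⟩⟩
  · have := Finset.sum_congr rfl fun t (_ : t ∈ Finset.univ) => C.h (x.1.left t)
      (y.1.left (x.1.right⁻¹ * t)) (z.1.left (y.1.right⁻¹ * (x.1.right⁻¹ * t)))
    rw [Finset.sum_add_distrib, Finset.sum_add_distrib, Fintype.sum_equiv (Equiv.mulLeft x.1.right⁻¹)
      (fun t => C.c (y.1.left (x.1.right⁻¹ * t)) (z.1.left (y.1.right⁻¹ * (x.1.right⁻¹ * t))))
      (fun t => C.c (y.1.left t) (z.1.left (y.1.right⁻¹ * t))) fun _ => rfl] at this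
    simp only [Prod.fst_mul, Prod.snd_mul, RegularWreathProduct.mul_left,
      RegularWreathProduct.mul_right, Pi.mul_apply, h1, h2, mul_inv_rev, mul_assoc]
    linear_combination this
  obtain ⟨⟨f, i⟩, j⟩ := x
  by_cases hi : i = 1
  swap
  · exact ⟨(1, i), by simp [mul_comm], by simpa [C.l, C.r, b1] using h3 i hi⟩
  subst hi
  by_cases hf : f = 1
  · subst hf
    have hj : j ≠ 1 := by rintro rfl; exact hx rfl
    exact ⟨(⟨1, j⟩, 1), by ext <;> simp, by simpa [C.l, C.r, b1] using (h3 j hj).symm⟩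
  obtain ⟨k, hk⟩ := Function.ne_iff.1 hf
  obtain ⟨y, hy, hy'⟩ := C.nd _ hk
  refine ⟨(⟨Pi.mulSingle k y, 1⟩, 1), ?_, ?_⟩
  · ext t
    · by_cases h : t = k
      · simpa [h] using hy
      · simp [h]
    all_goals simp
  · simp only [inv_one, one_mul, b1, add_zero]
    rw [Finset.sum_eq_single k (fun t _ h => by simp [h, C.r]) (by simp),
      Finset.sum_eq_single k (fun t _ h => by simp [h, C.l]) (by simp)]
    simpa using hy'

theorem exQ {m : ℕ} [NeZero m] (n : ℕ) : ∀ (G : Type u) [Group G] [Finite G], Nat.card G < n →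
    Group.IsSolvable G → (∀ p, p.Prime → p ∣ Nat.card G → p ∣ m) →
    ∃ (Q : Type u) (_ : Group Q) (_ : Finite Q) (f : G →* Q), Function.Injective f ∧
      Nonempty (Coc m Q) ∧ ∀ p, p.Prime → p ∣ Nat.card Q → p ∣ m := by
  induction n with
  | zero => intros; omega
  | succ n ih =>
  intro G _ _ hn hs hm
  rcases subsingleton_or_nontrivial G with h | h
  · exact ⟨G, inferInstance, inferInstance, .id G, Function.injective_id,
      ⟨⟨0, by simp, by simp, by simp, fun x hx => absurd (Subsingleton.elim _ _) hx⟩⟩, hm⟩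
  obtain ⟨N, h1, h2, hp⟩ := CA.BG.exists_normal_prime (H := (⊤ : Subgroup G)) inferInstance top_ne_bot
  have : N.Normal := normalizer_eq_top_iff.1 (top_unique h2)
  rw [relIndex_top_right] at hp
  have := Fact.mk hp
  obtain ⟨Q, _, _, f, hf, ⟨C⟩, hQ⟩ := ih N (by
    have := (card_le_card_group N).lt_of_ne fun e => h1.ne ((card_eq_iff_eq_top N).1 e)
    omega) inferInstance fun p hp hd => hm p hp (hd.trans (card_subgroup_dvd_card N))
  have hpm := hm _ hp N.index_dvd_card
  obtain ⟨v, hv⟩ := exists_prime_addOrderOf_dvd_card' (G := ZMod m) N.index (by simpa using hpm)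
  let ι := addEquivOfPrimeCardEq (G := ZMod N.index) (G' := AddSubgroup.zmultiples v) (Nat.card_zmod _)
    (by rw [Nat.card_zmultiples, hv])
  let e := mulEquivOfPrimeCardEq (p := N.index) (G := G ⧸ N) (G' := Multiplicative (ZMod N.index)) rfl (by simp)
  letI : CommGroup (G ⧸ N) := { mul_comm := fun a b => e.injective (by simp [mul_comm]) }
  have := Fintype.ofFinite (G ⧸ N)
  have mem : ∀ (g : G) (x : G ⧸ N), x.out⁻¹ * (g * ((g : G ⧸ N)⁻¹ * x).out) ∈ N := fun g x =>
    QuotientGroup.eq.1 (by simp)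
  refine ⟨(Q ≀ᵣ (G ⧸ N)) × (G ⧸ N), inferInstance, inferInstance, (MonoidHom.inl _ _).comp
    (MonoidHom.mk' (fun g => ⟨fun x => f ⟨_, mem g x⟩, g⟩) fun g h => ?_),
    (injective_iff_map_eq_one _).2 fun g hg => ?_,
    step C (fun a b => ι ((e a).toAdd * (e b).toAdd)) (by simp [add_mul]) (by simp [mul_add])
      (fun a ha => by simpa using ha), fun p hp' hd => ?_⟩
  · ext x
    · simp only [RegularWreathProduct.mul_left, Pi.mul_apply, ← map_mul]
      congr 1
      ext
      simp [mul_assoc]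
    · simp
  · have h3 : (g : G ⧸ N) = 1 := congrArg (·.1.right) hg
    have h4 := congrArg Subtype.val ((injective_iff_map_eq_one f).1 hf _ (congrArg (·.1.left 1) hg))
    simpa [h3, inv_mul_eq_one] using h4
  · rw [Nat.card_prod, RegularWreathProduct.card, hp'.dvd_mul, hp'.dvd_mul, or_assoc, or_self] at hd
    exact hd.elim (fun h => hQ p hp' (hp'.dvd_of_dvd_pow h)) (·.trans hpm)

@[ext] structure Tw {m : ℕ} {Q : Type u} [Group Q] (C : Coc m Q) where
  z : ZMod m
  q : Q

variable {m : ℕ} {Q : Type u} [Group Q] {C : Coc m Q}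

instance : Mul (Tw C) := ⟨fun a b => ⟨a.z + b.z + C.c a.q b.q, a.q * b.q⟩⟩
instance : One (Tw C) := ⟨⟨0, 1⟩⟩
instance : Inv (Tw C) := ⟨fun a => ⟨-a.z - C.c a.q⁻¹ a.q, a.q⁻¹⟩⟩
@[simp] theorem mul_z (a b : Tw C) : (a * b).z = a.z + b.z + C.c a.q b.q := rfl
@[simp] theorem mul_q (a b : Tw C) : (a * b).q = a.q * b.q := rfl
@[simp] theorem one_z : (1 : Tw C).z = 0 := rfl
@[simp] theorem one_q : (1 : Tw C).q = 1 := rfl

instance : Group (Tw C) := Group.ofLeftAxioms
  (fun a b c => Tw.ext (by simp only [mul_z, mul_q]; linear_combination C.h a.q b.q c.q)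
    (mul_assoc _ _ _))
  (fun a => Tw.ext (by simp [C.l]) (one_mul _))
  (fun a => Tw.ext (show -a.z - C.c a.q⁻¹ a.q + a.z + C.c a.q⁻¹ a.q = 0 by ring) (inv_mul_cancel _))

def pr : Tw C →* Q := MonoidHom.mk' Tw.q mul_q

def eqv : Tw C ≃ ZMod m × Q := ⟨fun a => (a.z, a.q), fun a => ⟨a.1, a.2⟩, fun _ => rfl, fun _ => rfl⟩

theorem ker_le : (pr : Tw C →* Q).ker ≤ center _ := fun a (h : a.q = 1) =>
  mem_center_iff.2 fun b => Tw.ext (by simp [h, C.l, C.r, add_comm]) (by simp [h])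

theorem nd {a : Tw C} (h : a.q ≠ 1) : ∃ b : Tw C, ⁅b, a⁆ ∈ center (Tw C) ∧ ⁅b, a⁆ ≠ 1 := by
  obtain ⟨y, hy, hy'⟩ := C.nd _ h
  refine ⟨⟨0, y⟩, ker_le ?_, fun e => hy' ?_⟩
  · rw [MonoidHom.mem_ker, map_commutatorElement, commutatorElement_eq_one_iff_mul_comm]
    exact hy.symm
  · simpa using (congrArg Tw.z (commutatorElement_eq_one_iff_mul_comm.1 e)).symm

theorem ker_eq : (pr : Tw C →* Q).ker = center _ := le_antisymm ker_le fun a h => by_contra fun h' => by
  obtain ⟨b, -, hb⟩ := nd h'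
  exact hb (commutatorElement_eq_one_iff_mul_comm.2 (mem_center_iff.1 h b))

/-- For every finite solvable group G there is a finite group H with a faithful irreducible character χ whose degree squared equals the index of the centre Z(H) (so χ is fully ramified over the centre), such that G is isomorphic to a subgroup of H/Z(H), the primes dividing the orders of H, of Z(H) and of G are the same, and the order of Z(H) is squarefree. -/
theorem result {G : Type u} [Group G] [Finite G] (hsolv : Group.IsSolvable G) : ∃ (H : Type u) (_ : Group H) (_ : Finite H) (χ : Cfsg.IrrCharacter H), (∀ h : H, (χ : H → ℂ) h = (χ : H → ℂ) 1 → h = 1) ∧ (Cfsg.charDegree (χ : H → ℂ)) ^ 2 = (Subgroup.center H).index ∧ (∃ f : G →* H ⧸ Subgroup.center H, Function.Injective f) ∧ (∀ p : ℕ, p.Prime → ((p ∣ Nat.card H ↔ p ∣ Nat.card G) ∧ (p ∣ Nat.card (Subgroup.center H) ↔ p ∣ Nat.card G))) ∧ Squarefree (Nat.card (Subgroup.center H)) := by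
  have h0 : Nat.card G ≠ 0 := Nat.card_pos.ne'
  obtain ⟨m, hsq, hm⟩ : ∃ m : ℕ, Squarefree m ∧ ∀ p, p.Prime → (p ∣ m ↔ p ∣ Nat.card G) :=
    ⟨UniqueFactorizationMonoid.radical (Nat.card G), UniqueFactorizationMonoid.squarefree_radical,
      fun p hp => UniqueFactorizationMonoid.dvd_radical_iff_of_irreducible hp h0⟩
  have : NeZero m := ⟨hsq.ne_zero⟩
  obtain ⟨Q, _, _, f, hf, ⟨C⟩, hQ⟩ := exQ (m := m) _ G (Nat.lt_succ_self _) hsolv
    fun p hp h => (hm p hp).2 h
  have : Finite (Tw C) := Finite.of_equiv _ eqv.symm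
  have := Fintype.ofFinite (Tw C)
  have := Fintype.ofFinite (center (Tw C))
  have hq : ∀ a : center (Tw C), a.1.q = 1 := fun a => ker_eq.ge a.2
  have hs : Function.Surjective (pr : Tw C →* Q) := fun q => ⟨⟨0, q⟩, rfl⟩
  let lam : center (Tw C) →* ℂ := {
    toFun := fun a => ZMod.toCircle a.1.z
    map_one' := by simp
    map_mul' := fun a b => by simp [hq, C.l, AddChar.map_add_eq_mul] }
  obtain ⟨χ, hχ, h1⟩ := CA.Cons.exists_irr_over _ (irr_of_monoidHom lam)
  have h2 : ∀ a ∈ center (Tw C), a ∈ charKer χ → a = 1 := fun a ha h => by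
    have h3 : lam ⟨a, ha⟩ = lam 1 := apply_of_mem_charKer (χ := fun g => lam g) (charKer_le_of_inner_ne_zero
      (char_restrict (char_of_irr hχ) _) (irr_of_monoidHom lam) h1 (charKer_comp_le χ (center _).subtype h))
    exact Tw.ext (ZMod.injective_toCircle (Circle.ext h3)) (hq ⟨a, ha⟩)
  have h3 : ∀ g, g ∉ center (Tw C) → χ g = 0 := fun g hg => by
    obtain ⟨b, hb, hb'⟩ := nd (a := g) fun e => hg (ker_le e)
    exact apply_eq_zero_of_commutator_mem hχ (center_le_charCenter hχ hb) fun h => hb' (h2 _ hb h)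
  obtain ⟨n, -, hn⟩ := irr_apply_one hχ
  have hc : Nat.card (Tw C) = m * Nat.card Q := by rw [Nat.card_congr eqv, Nat.card_prod, Nat.card_zmod]
  have hz : Nat.card (center (Tw C)) = m := by
    have := (center (Tw C)).card_mul_index
    rw [hc, ← ker_eq, index_ker, MonoidHom.range_eq_top.2 hs, card_top, ker_eq] at this
    exact Nat.eq_of_mul_eq_mul_right Nat.card_pos this
  refine ⟨Tw C, inferInstance, inferInstance, ⟨χ, hχ⟩, fun h e => h2 h (by_contra fun h' =>
    irr_apply_one_ne_zero hχ (e.symm.trans (h3 h h'))) ((mem_charKer (char_of_irr hχ)).2 e), ?_,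
    ⟨((QuotientGroup.quotientKerEquivOfSurjective _ hs).symm.trans
      (QuotientGroup.quotientMulEquivOfEq ker_eq)).toMonoidHom.comp f, 
      fun a b e => hf (by simpa using e)⟩,
    fun p hp => ⟨?_, by rw [hz]; exact hm p hp⟩, by rwa [hz]⟩
  · rw [← (degree_sq_eq_index_iff hχ (center_le_charCenter hχ) hn).2 h3]
    simp [charDegree, hn]
  · rw [hc, hp.dvd_mul, ← hm p hp]
    exact ⟨fun h => h.elim id (hQ p hp), .inl⟩

end Cfsg.Agent.S4561
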