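import Cfsg.Statements.S4563
import Cfsg.Agent.Lib.Loc.FRam
import Cfsg.Agent.Lib.Grp.H4Cls

set_option autoImplicit false
open Cfsg

namespace Cfsg.Agent.S4563

open CA CA.FRam CA.PF CA.BG Subgroup

/-- Let χ be an irreducible character of the finite group H that is fully ramified over the normal subgroup Z: the restriction of χ to Z is e times an irreducible character of Z with e ^ 2 equal to the index of Z. If K is a proper normal subgroup of H containing Z and χ is induced from a character of K, then H/K is solvable; in particular, if K is solvable then so is H. -/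
theorem result {H : Type*} [Group H] [Fintype H] (Z : Subgroup H) [Z.Normal] (χ : Cfsg.IrrCharacter H) (hfr : ∃ (θ : Cfsg.IrrCharacter ↥Z) (e : ℕ), e ^ 2 = Z.index ∧ ∀ z : ↥Z, (χ : H → ℂ) z = (e : ℂ) * (θ : ↥Z → ℂ) z) (K : Subgroup H) [K.Normal] [Fintype K] (hZK : Z ≤ K) (hK : K ≠ ⊤) (φ : ↥K → ℂ) (hφ : Cfsg.IsCharacter ↥K φ) (hind : Cfsg.indFun K φ = (χ : H → ℂ)) : Group.IsSolvable (H ⧸ K) ∧ (Group.IsSolvable ↥K → Group.IsSolvable H) := by
  obtain ⟨θ, e, he, hθ⟩ := hfr
  have h := fr_of Z χ θ e he hθ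
  have h1 : Group.IsSolvable (H ⧸ K) := CChar.CharBurn.isSolvable_of_complements fun p hp => by
    obtain ⟨P, hP⟩ := syl_exists hp (⊤ : Subgroup H)
    obtain ⟨ψ, m, α, hc⟩ := h.cf hZK hp hP
    obtain ⟨M, hM⟩ := hc.compl (hc.one_of_ind (ext_isChar.2 hφ) ((Ind_top K φ).trans hind))
    have h2 := EqO.syl_map' hp (QuotientGroup.mk'_surjective K) hP
    obtain ⟨k, hk⟩ := h2.pi.exists_card hp
    refine ⟨M, k, hM.trans hk, fun h3 => h2.not_dvd hp ?_⟩
    have h4 := M.card_mul_index
    rw [hM, ← (P.map (QuotientGroup.mk' K)).card_mul_index, mul_comm] at h4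
    rwa [relIndex_top_right, ← Nat.eq_of_mul_eq_mul_left (card_pos' _) h4]
  exact ⟨h1, fun h2 => H4Cls.solv_ext K h2 h1⟩

end Cfsg.Agent.S4563
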