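import Cfsg.Statements.S4564
import Cfsg.Agent.Lib.Loc.FRam

set_option autoImplicit false
open Cfsg

namespace Cfsg.Agent.S4564

open CA CA.FRam CA.PF CA.BG Subgroup

/-- Let χ be an irreducible character of the finite group H that is fully ramified over the normal subgroup Z: the restriction of χ to Z is e times an irreducible character of Z with e ^ 2 equal to the index of Z. Let K be a normal subgroup of H containing Z and P a cyclic Sylow p-subgroup of H/K. Then P has a complement in H/K: a subgroup meeting P trivially whose product with P is the whole group. -/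
theorem result {H : Type*} [Group H] [Finite H] (Z : Subgroup H) [Z.Normal] (χ : Cfsg.IrrCharacter H) (hfr : ∃ (θ : Cfsg.IrrCharacter ↥Z) (e : ℕ), e ^ 2 = Z.index ∧ ∀ z : ↥Z, (χ : H → ℂ) z = (e : ℂ) * (θ : ↥Z → ℂ) z) (K : Subgroup H) [K.Normal] (hZK : Z ≤ K) (p : ℕ) [Fact p.Prime] (P : Sylow p (H ⧸ K)) (hcyc : IsCyclic P) : ∃ M : Subgroup (H ⧸ K), M.IsComplement' (P : Subgroup (H ⧸ K)) := by
  haveI := Fintype.ofFinite H
  obtain ⟨θ, e, he, hθ⟩ := hfr
  have h := fr_of Z χ θ e he hθ
  have hp : p.Prime := Fact.out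
  have hs := QuotientGroup.mk'_surjective K
  have h2 := syl_top hp P
  obtain ⟨R, hR, eR⟩ := EqO.exists_lift hp hs h2.pi
  have hP : Syl p R ⊤ := hR.of_idx le_top (by
    rw [relIndex_top_right, index_comap_of_surjective _ hs, ← relIndex_top_right]; exact h2.idx)
  obtain ⟨ψ, m, α, hc⟩ := h.cf hZK hp hP
  obtain ⟨M, hM⟩ := hc.compl (hc.one_of_cyc (by
    obtain ⟨y, hy⟩ := exists_zpowers_of_cyc hcyc
    obtain ⟨x, hx, rfl⟩ : y ∈ R.map (QuotientGroup.mk' K) := by rw [eR, ← hy]; exact mem_zpowers y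
    refine ⟨x, hx, ?_⟩
    have := map_le_map_iff.1 (eR.trans (hy.symm.trans (MonoidHom.map_zpowers _ x).symm)).le
    rwa [QuotientGroup.ker_mk'] at this))
  rw [eR] at hM
  have h4 := M.card_mul_index
  refine ⟨M, isComplement'_of_coprime (hM ▸ h4) ?_⟩
  rw [hM, ← (P : Subgroup (H ⧸ K)).card_mul_index, mul_comm] at h4
  rw [Nat.eq_of_mul_eq_mul_left (card_pos' _) h4, ← relIndex_top_right]
  exact h2.coprime.symm

end Cfsg.Agent.S4564
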