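import Cfsg.Statements.S4565
import Cfsg.Agent.Lib.Char.H10FS
import Cfsg.Agent.Lib.Char.H12Misc

set_option autoImplicit false
open Cfsg

namespace Cfsg.Agent.S4565
open CA.H10FS CA.MatRep CA.H11FS CA.Clif CA.Gall CA.Ind2 CA.Ext CChar.CharFun CChar.CharOrth CChar.CharInt CChar.CharProd CChar.CharKer CA.Ind Subgroup ComplexConjugate

/-- Let χ be an irreducible character of the finite group H that is fully ramified over the normal subgroup Z: the restriction of χ to Z is e times an irreducible character of Z with e ^ 2 equal to the index of Z. If Z ≠ H, then H/Z has no cyclic subgroup that is its own centralizer. -/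
theorem result {H : Type*} [Group H] [Finite H] (Z : Subgroup H) [Z.Normal] (χ : Cfsg.IrrCharacter H) (hfr : ∃ (θ : Cfsg.IrrCharacter ↥Z) (e : ℕ), e ^ 2 = Z.index ∧ ∀ z : ↥Z, (χ : H → ℂ) z = (e : ℂ) * (θ : ↥Z → ℂ) z) (hZ : Z ≠ ⊤) (C : Subgroup (H ⧸ Z)) (hC : IsCyclic C) : Subgroup.centralizer (C : Set (H ⧸ Z)) ≠ C := by
  classical
  intro hc
  obtain ⟨θ, e, he, hθ⟩ := hfr
  haveI := Fintype.ofFinite H
  haveI := Fintype.ofFinite Z
  have he0 : (e : ℂ) ≠ 0 := Nat.cast_ne_zero.2 fun h => Z.index_ne_zero_of_finite (by simp [← he, h])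
  have hres : (fun n : Z => χ.1 n) = (e : ℂ) • θ.1 := funext hθ
  have hind := ind_eq_smul_of_ramified χ.2 θ.2 hres he
  obtain ⟨c, rfl⟩ := (Subgroup.isCyclic_iff_exists_zpowers_eq_top C).1 hC
  obtain ⟨x, rfl⟩ := QuotientGroup.mk'_surjective Z c
  set T := (zpowers (QuotientGroup.mk' Z x)).comap (QuotientGroup.mk' Z)
  have hZT : Z ≤ T := fun z hz => by
    change QuotientGroup.mk' Z z ∈ zpowers _
    rw [show QuotientGroup.mk' Z z = 1 from (QuotientGroup.eq_one_iff z).2 hz]; exact one_mem _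
  have hx : x ∉ Z := fun h => hZ (eq_top_iff.2 fun g _ => by
    have h1 : QuotientGroup.mk' Z x = 1 := (QuotientGroup.eq_one_iff x).2 h
    rw [h1, zpowers_one_eq_bot, coe_bot, centralizer_eq_top_iff_subset.2 (by simp)] at hc
    exact (QuotientGroup.eq_one_iff g).1 (mem_bot.1 (hc.le (mem_top _))))
  haveI := Fintype.ofFinite T
  haveI := Fintype.ofFinite (Z.subgroupOf T)
  let y : T := ⟨x, mem_zpowers _⟩
  obtain ⟨η, hη, hηθ⟩ := exists_ext_le_of_cyclic hZT θ.2
    (by rw [inertia_eq_top_of_res_eq_smul (irr_classFun χ.2) he0 hres]; exact le_top) (by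
      refine ⟨(y : T ⧸ Z.subgroupOf T), fun t => ?_⟩
      obtain ⟨⟨t, k, hk⟩, rfl⟩ := QuotientGroup.mk_surjective t
      refine ⟨k, ?_⟩
      change ((y ^ k : T) : T ⧸ Z.subgroupOf T) = _
      have : (x ^ k)⁻¹ * t ∈ Z := QuotientGroup.eq.1 (show ((x ^ k : H) : H ⧸ Z) = t from hk)
      exact QuotientGroup.eq.2 this)
  have hso : (fun n : Z.subgroupOf T => η n) = so T θ.1 := funext fun n => hηθ ⟨n.1, n.2⟩
  have hA : ∀ ψ : IrrCharacter H, ∑ n : Z.subgroupOf T, η (n * y) * conj (ψ.1 (n * y : T)) = 0 := by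
    intro ψ
    by_cases h : ψ = χ
    · refine Finset.sum_eq_zero fun n _ => ?_
      have := congrFun hind (n * y : T)
      rw [indFun_normal_of_not_mem Z _ (g := ((n * y : T) : H))
        fun h => hx ((Z.mul_mem_cancel_left n.2).1 h)] at this
      rw [h, (mul_eq_zero.1 this.symm).resolve_left he0, map_zero, mul_zero]
    · have h1 := CA.H12Misc.avg_char (Z.subgroupOf T)
        (char_mul (char_of_irr hη) (char_conj (char_restrict (char_of_irr ψ.2) T)))
      have h2 := congrFun (char_eq_zero_of_apply_one h1 (by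
        have h3 := inner_so hZT θ.1 fun n : Z => ψ.1 n
        rw [← inner_ind_left Z θ.1 (irr_classFun ψ.2), hind, CChar.CharFun.inner_smul_left,
          inner_irr_of_ne χ.2 ψ.2 fun e => h (Subtype.ext e.symm), mul_zero, ← hso] at h3
        simpa [avg, classInner, so] using h3)) y
      simpa [avg] using h2
  have hB : ∀ m : Z.subgroupOf T, η (m * y) = 0 := fun m => by
    have h1 : ∑ n : Z.subgroupOf T, η (n * y) * ∑ ψ : IrrCharacter H,
        ψ.1 (m * y : T) * conj (ψ.1 (n * y : T)) = 0 := by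
      simp only [Finset.mul_sum]
      rw [Finset.sum_comm]
      exact Finset.sum_eq_zero fun ψ _ => by
        simp only [mul_left_comm (η _), ← Finset.mul_sum, hA, mul_zero]
    have h2 : ∀ n : Z.subgroupOf T, IsConj ((m * y : T) : H) (n * y : T) → η (n * y) = η (m * y) := by
      intro n h
      obtain ⟨g, hg⟩ := isConj_iff.1 h
      have h3 : ∀ l : Z.subgroupOf T, QuotientGroup.mk' Z (l * y : T) = QuotientGroup.mk' Z x :=
        fun l => by
          rw [coe_mul, map_mul, show QuotientGroup.mk' Z l.1.1 = 1 from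
            (QuotientGroup.eq_one_iff _).2 l.2, one_mul]
      have h4 : g ∈ T := hc.le (by
        have := congrArg (QuotientGroup.mk' Z) hg
        rw [map_mul, map_mul, h3, h3, map_inv, mul_inv_eq_iff_eq_mul] at this
        rintro _ ⟨k, rfl⟩
        exact ((show Commute _ _ from this).zpow_right k).eq.symm)
      rw [← irr_classFun hη (m * y) ⟨g, h4⟩]
      exact congrArg η (Subtype.ext hg.symm)
    simp only [sum_irr_mul_conj, mul_ite, mul_zero] at h1
    rw [Finset.sum_congr rfl (g := fun n : Z.subgroupOf T => if IsConj ((m * y : T) : H) (n * y : T)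
      then η (m * y) * Nat.card (centralizer {((m * y : T) : H)}) else 0) fun n _ => by
        split_ifs with h
        · rw [h2 n h]
        · rfl, ← Finset.sum_filter, Finset.sum_const, nsmul_eq_mul] at h1
    refine (mul_eq_zero.1 ((mul_eq_zero.1 h1).resolve_left ?_)).resolve_right
      (Nat.cast_ne_zero.2 Nat.card_pos.ne')
    exact Nat.cast_ne_zero.2 (Finset.card_ne_zero.2 ⟨m, Finset.mem_filter.2 ⟨Finset.mem_univ _, IsConj.refl _⟩⟩)
  have := congrFun (avg_mul_conj_of_eq_mul (char_of_irr hη) (hso ▸ (so_irr_iff hZT).2 θ.2) irr_one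
    fun _ _ => rfl) y
  simp [avg, hB] at this

end Cfsg.Agent.S4565
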