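import Cfsg.Statements.S4566
import Cfsg.Agent.Lib.Char.H12Misc

set_option autoImplicit false
open Cfsg

namespace Cfsg.Agent.S4566

open CChar.CharRep CChar.CharFun CChar.CharOrth CChar.CharKer CChar.CharInt CChar.CharGen
  CChar.CharMisc CChar.CharProd CA.H12Misc Subgroup
open scoped ComplexConjugate commutatorElement

/-- Let N be a central subgroup of the finite group G, ψ a faithful irreducible (hence degree-one) character of N, and χ an irreducible character of G whose restriction to N contains ψ. If g ∈ G and some x ∈ G has commutator x⁻¹ g⁻¹ x g in N but different from 1, then χ g = 0. -/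
theorem result {G : Type*} [Group G] [Fintype G] (N : Subgroup G) [Fintype N] (hN : N ≤ Subgroup.center G) (ψ : Cfsg.IrrCharacter ↥N) (hfaith : ∀ n : ↥N, (ψ : ↥N → ℂ) n = (ψ : ↥N → ℂ) 1 → n = 1) (χ : Cfsg.IrrCharacter G) (hover : Cfsg.classInner (fun n : ↥N => (χ : G → ℂ) n) (ψ : ↥N → ℂ) ≠ 0) (g x : G) (hcomm : x⁻¹ * g⁻¹ * x * g ∈ N) (hne : x⁻¹ * g⁻¹ * x * g ≠ 1) : (χ : G → ℂ) g = 0 := by
  have h1 := apply_eq_zero_of_commutator_mem χ.2 (g := g⁻¹) (h := x⁻¹)
    (by simpa [commutatorElement_def] using center_le_charCenter χ.2 (hN hcomm)) fun h => by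
      rw [commutatorElement_def, inv_inv, inv_inv] at h
      exact hne (congrArg Subtype.val (hfaith ⟨_, hcomm⟩ (apply_of_mem_charKer
        (charKer_le_of_inner_ne_zero (char_restrict (char_of_irr χ.2) N) ψ.2 hover
          (charKer_comp_le χ.1 N.subtype h)))))
  simpa [char_apply_inv (char_of_irr χ.2)] using h1

end Cfsg.Agent.S4566
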