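import Cfsg.Statements.S4567
import Cfsg.Agent.Lib.Char.H12Misc
import Cfsg.Agent.S4566

set_option autoImplicit false
open Cfsg

namespace Cfsg.Agent.S4567

open CChar.CharRep CChar.CharFun CChar.CharOrth CChar.CharKer CChar.CharInt CChar.CharGen
  CChar.CharMisc CChar.CharProd CA.H12Misc Subgroup
open scoped ComplexConjugate commutatorElement

/-- Let N be a central subgroup of the finite group G and ψ a faithful irreducible (hence degree-one) character of N. Call a coset g N special when every x ∈ G whose commutator x⁻¹ g⁻¹ x g lies in N actually commutes with g (this depends only on the coset). Then the number of irreducible characters of G whose restriction to N contains ψ equals the number of conjugacy classes of G/N consisting of special cosets. -/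
theorem result {G : Type*} [Group G] [Fintype G] (N : Subgroup G) [N.Normal] [Fintype N] (hN : N ≤ Subgroup.center G) (ψ : Cfsg.IrrCharacter ↥N) (hfaith : ∀ n : ↥N, (ψ : ↥N → ℂ) n = (ψ : ↥N → ℂ) 1 → n = 1) : Nat.card {χ : Cfsg.IrrCharacter G // Cfsg.classInner (fun n : ↥N => (χ : G → ℂ) n) (ψ : ↥N → ℂ) ≠ 0} = Nat.card {C : ConjClasses (G ⧸ N) // ∃ g : G, ConjClasses.mk (g : G ⧸ N) = C ∧ ∀ x : G, x⁻¹ * g⁻¹ * x * g ∈ N → x * g = g * x} := by
  classical
  have h0 := irr_apply_one_of_comm (fun a b : N => Subtype.ext (mem_center_iff.1 (hN b.2) a)) ψ.2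
  have hq : ∀ x g : G, x⁻¹ * g⁻¹ * x * g ∈ N ↔ (g : G ⧸ N) * x = x * g := fun x g => by
    rw [← QuotientGroup.mk_mul, ← QuotientGroup.mk_mul, QuotientGroup.eq, mul_inv_rev, ← mul_assoc]
  have h1 : ∀ (χ : IrrCharacter G) (g : G), ∑ n : N, conj (ψ.1 n) * χ.1 (n * g) =
      if classInner (fun n : N => χ.1 n) ψ.1 ≠ 0 then Nat.card N * χ.1 g else 0 := fun χ g => by
    obtain ⟨l, hl⟩ := exists_central_unitsHom χ.2 hN
    have h1 : classInner (fun n : N => χ.1 n) ψ.1 = χ.1 1 * classInner (fun n => l n) ψ.1 := by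
      rw [← CChar.CharFun.inner_smul_left]; congr 1; ext n; simpa [mul_comm] using hl n 1
    simp only [hl, ← mul_assoc, ← Finset.sum_mul]
    simp only [mul_comm (conj _), ← card_mul_inner, h1, inner_irr_irr (irr_of_unitsHom l) ψ.2]
    split_ifs <;> simp_all [irr_apply_one_ne_zero χ.2]
  have h2 : ∀ g : G, (Nat.card N : ℂ) * ∑ χ : IrrCharacter G with
      classInner (fun n : N => χ.1 n) ψ.1 ≠ 0, χ.1 g * conj (χ.1 g) =
      if ∀ x : G, x⁻¹ * g⁻¹ * x * g ∈ N → x * g = g * x then
        (Nat.card (centralizer {g}) : ℂ) else 0 := fun g => by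
    split_ifs with h
    · rw [Finset.mul_sum, Finset.sum_filter, Finset.sum_congr rfl (g := fun χ : IrrCharacter G =>
        ∑ n : N, conj (ψ.1 n) * (χ.1 (n * g) * conj (χ.1 g))) fun χ _ => by
          simp only [← mul_assoc, ← Finset.sum_mul, h1, ite_mul, zero_mul], Finset.sum_comm,
        Finset.sum_eq_single 1 (fun n _ hn => ?_) (by simp)]
      · simp [sum_irr_mul_conj_of_isConj (IsConj.refl g), h0]
      · rw [← Finset.mul_sum, sum_irr_mul_conj_of_not_isConj fun h2 => hn ?_, mul_zero]
        obtain ⟨c, hc⟩ := isConj_iff.1 h2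
        rw [mul_inv_eq_iff_eq_mul] at hc
        rw [← h c ((hq _ _).2 (by
          rw [← QuotientGroup.mk_mul, ← hc]; simp [(QuotientGroup.eq_one_iff _).2 n.2]))] at hc
        simpa using hc
    · push Not at h
      obtain ⟨x, h2, h3⟩ := h
      rw [Finset.sum_eq_zero fun χ hχ => by
        rw [S4566.result N hN ψ hfaith χ (Finset.mem_filter.1 hχ).2 g x h2 fun e => h3 (by
          rwa [mul_assoc, ← mul_inv_rev, inv_mul_eq_one, eq_comm] at e), zero_mul], mul_zero]
  have := Fintype.ofFinite (G ⧸ N)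
  set P := fun C : ConjClasses (G ⧸ N) => ∃ g : G, ConjClasses.mk (g : G ⧸ N) = C ∧
    ∀ x : G, x⁻¹ * g⁻¹ * x * g ∈ N → x * g = g * x
  have h3 : ∀ g : G, (if ∀ x : G, x⁻¹ * g⁻¹ * x * g ∈ N → x * g = g * x then
      (Nat.card (centralizer {g}) : ℂ) else 0) = if P (ConjClasses.mk (g : G ⧸ N)) then
        (Nat.card N * Nat.card (centralizer {(g : G ⧸ N)}) : ℂ) else 0 := fun g => by
    refine (if_ctx_congr ⟨?_, fun h => ⟨g, rfl, h⟩⟩ ?_ fun _ => rfl).symm
    · rintro ⟨y, h3, h4⟩ x hx
      obtain ⟨c, hc⟩ := isConj_iff.1 (ConjClasses.mk_eq_mk_iff_isConj.1 h3)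
      obtain ⟨c, rfl⟩ := QuotientGroup.mk_surjective c
      have h5 := h4 (c⁻¹ * x * c) ((hq _ _).2 (by
        have := (hq _ _).1 hx
        rw [← hc] at this
        simpa [mul_assoc] using congrArg ((c : G ⧸ N)⁻¹ * · * c) this))
      have h6 := mem_center_iff.1 (hN (QuotientGroup.eq.1
        (show ((c * y * c⁻¹ : G) : G ⧸ N) = g from hc))) x
      have h7 : x * (c * y * c⁻¹) = c * y * c⁻¹ * x := by
        simpa [mul_assoc] using congrArg (c * · * c⁻¹) h5
      rw [← mul_inv_cancel_left (c * y * c⁻¹) g, ← mul_assoc, h7, mul_assoc, h6, ← mul_assoc]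
    · intro h
      have h3 : centralizer {g} = (centralizer {(g : G ⧸ N)}).comap (QuotientGroup.mk' N) :=
        Subgroup.ext fun x => by
          rw [mem_comap, mem_centralizer_singleton_iff, mem_centralizer_singleton_iff]
          exact ⟨congrArg (QuotientGroup.mk' N), fun e => h x ((hq _ _).2 e.symm)⟩
      have h4 := (centralizer {g}).card_mul_index
      rw [card_eq_card_quotient_mul_card_subgroup N, ← (centralizer {(g : G ⧸ N)}).card_mul_index,
        ← index_comap_of_surjective _ (QuotientGroup.mk'_surjective N), ← h3, mul_right_comm,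
        Nat.mul_left_inj index_ne_zero_of_finite, mul_comm] at h4
      exact_mod_cast h4.symm
  have h4 := Finset.sum_congr (s₁ := Finset.univ) rfl fun g _ => (h2 g).trans (h3 g)
  rw [← Finset.mul_sum, Finset.sum_comm, Finset.sum_congr rfl fun χ _ => sum_irr_mul_conj_self χ.2,
    sum_eq_sum_quotient N] at h4
  simp only [QuotientGroup.mk_mul_of_mem _ (Subtype.prop _), QuotientGroup.out_eq',
    Finset.sum_const, Finset.card_univ, nsmul_eq_mul, ← Finset.mul_sum, ← Nat.card_eq_fintype_card,
    card_eq_card_quotient_mul_card_subgroup N] at h4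
  rw [← Finset.sum_filter, ← Finset.mul_sum, ← Nat.cast_sum, show ∑ x : G ⧸ N with
    P (ConjClasses.mk x), _ = _ by convert sum_card_centralizer_filter P] at h4
  rw [Nat.card_eq_fintype_card, Fintype.card_subtype]
  apply Nat.cast_injective (R := ℂ)
  apply mul_left_cancel₀ (mul_ne_zero (card_ne_zero (G := N)) (card_ne_zero (G := G ⧸ N)))
  push_cast at h4
  linear_combination mul_left_cancel₀ card_ne_zero h4

end Cfsg.Agent.S4567
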