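import Cfsg.Statements.S4571
import Cfsg.Agent.Lib.Block.BlkRk
import Cfsg.Agent.Lib.Block.H12DC

set_option autoImplicit false
open Cfsg

namespace Cfsg.Agent.S4571
open Cfsg MonoidAlgebra CA.BlkAlg CA.BlkVal CA.BlkOmega CA.BlkRed CA.BlkCore CA.BlkDefect CA.BlkInd CA.BlkHeight CA.SylIn CA.H12PPart CChar.CharFun CChar.CharOrth Subgroup CA.BlkKer CChar.CharKer CA.BlkZero CChar.CharInt CA.BlkReg CA.BlkGal CA.BlkQuo CA.BlkRk

/-- Let Q be a normal p-subgroup of the finite group G with G = Q·C_G(Q), and M a maximal ideal of the algebraic integers containing p. Then the principal p-blocks of G and of G/Q have the same p-regular rank (the same number of irreducible Brauer characters). -/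
theorem result {G : Type*} [Group G] [Finite G] (p : ℕ) [Fact p.Prime] (M : Ideal Cfsg.AlgInt) (hM : Cfsg.IsPModular p M) (Q : Subgroup G) [Q.Normal] (hQ : IsPGroup p Q) (hsup : Q ⊔ Subgroup.centralizer (Q : Set G) = ⊤) : Cfsg.blockRank p (Cfsg.principalBlock M G) = Cfsg.blockRank p (Cfsg.principalBlock M (G ⧸ Q)) := by
  have hφ := QuotientGroup.mk'_surjective Q
  have hk := QuotientGroup.ker_mk' Q
  have := Fintype.ofFinite G
  have hN : IsPGroup p (QuotientGroup.mk' Q).ker := hk.symm ▸ hQ
  have h : ∀ g, ¬ p ∣ orderOf g → g ∈ centralizer ((QuotientGroup.mk' Q).ker : Set G) :=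
    fun g hg => hk.symm ▸ CA.H12DC.reg_mem hQ hsup hg
  rw [blockRank_preimage hφ hM hN h (isSat_of_isPBlock hM isPBlock_principalBlock)]
  congr 1
  exact Set.ext fun ψ => infl_mem_principal_iff_of_regular hφ hM hN h

end Cfsg.Agent.S4571
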