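import Cfsg.Statements.S4574
import Cfsg.Agent.Lib.Char.H12Misc
import Cfsg.Agent.Lib.Block.BlkZero

set_option autoImplicit false
open Cfsg

namespace Cfsg.Agent.S4574

open CChar.CharRep CChar.CharFun CChar.CharOrth CChar.CharKer CChar.CharInt CChar.CharGen
  CChar.CharMisc CChar.CharProd CA.H12Misc Subgroup
open scoped ComplexConjugate commutatorElement

/-- Let χ be an irreducible character of the finite group G, of degree d, and let Z(χ) be the set of elements g with |χ g| = d (the centre of χ). Then χ vanishes on at least (d ^ 2 - 1) · |Z(χ)| elements of G, with equality when every value |χ g| is 0, 1 or d. -/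
theorem result {G : Type*} [Group G] [Fintype G] [DecidableEq G] (χ : G → ℂ) (hχ : Cfsg.IsIrrCharacter G χ) : (Cfsg.charDegree χ ^ 2 - 1) * (Finset.univ.filter (fun g : G => ‖χ g‖ = (Cfsg.charDegree χ : ℝ))).card ≤ (Finset.univ.filter (fun g : G => χ g = 0)).card ∧ ((∀ g : G, ‖χ g‖ = 0 ∨ ‖χ g‖ = 1 ∨ ‖χ g‖ = (Cfsg.charDegree χ : ℝ)) → (Cfsg.charDegree χ ^ 2 - 1) * (Finset.univ.filter (fun g : G => ‖χ g‖ = (Cfsg.charDegree χ : ℝ))).card = (Finset.univ.filter (fun g : G => χ g = 0)).card) := by
  classical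
  have h0 := charDegree_pos hχ
  have h1 : ∀ g, ‖χ g‖ = charDegree χ ↔ g ∈ charCenter χ := fun g => by
    rw [mem_charCenter (char_of_irr hχ), irr_apply_one_eq hχ, Complex.norm_natCast]
  have h2 := card_mul_sq_add_sum hχ le_rfl (irr_apply_one_eq hχ)
  have h3 := Finset.card_filter_add_card_filter_not (s := Finset.univ) (· ∈ charCenter χ)
  have h4 := Finset.card_filter_add_card_filter_not
    (s := Finset.univ.filter (· ∉ charCenter χ)) (χ · = 0)
  rw [Finset.filter_filter, Finset.filter_filter, Finset.filter_congr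
    (p := fun a => a ∉ charCenter χ ∧ χ a = 0) (q := (χ · = 0)) fun g _ => and_iff_right_of_imp fun e h => h0.ne' (by
      rw [← h1, e, norm_zero] at h; exact_mod_cast h.symm)] at h4
  rw [← h4, Finset.card_univ, ← Nat.card_eq_fintype_card] at h3
  have h5 := congrArg (Nat.cast : ℕ → ℝ) h3
  rw [Nat.card_eq_fintype_card, Fintype.card_subtype] at h2
  simp only [h1]
  rw [← Nat.cast_le (α := ℝ), ← Nat.cast_inj (R := ℝ)]
  push_cast [Nat.cast_sub (Nat.one_le_pow 2 _ h0)] at h5 ⊢
  refine ⟨by linarith [card_le_sum_off (char_of_irr hχ) (charCenter χ)], fun h => ?_⟩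
  rw [← Finset.sum_filter_add_sum_filter_not _ (χ · = 0), Finset.sum_eq_zero fun g hg => by
    simp [(Finset.mem_filter.1 hg).2], Finset.filter_filter, Finset.sum_congr rfl (g := fun _ => 1)
      fun g hg => by
        obtain ⟨-, h6, h7⟩ := Finset.mem_filter.1 hg
        rw [((h g).resolve_left (norm_ne_zero_iff.2 h7)).resolve_right h6, one_pow],
    Finset.sum_const, nsmul_one] at h2
  linarith

end Cfsg.Agent.S4574
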