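import Cfsg.Statements.S4575
import Cfsg.Agent.Lib.Block.H11Av

set_option autoImplicit false
open Cfsg

namespace Cfsg.Agent.S4575

open Cfsg CA.BlkVal CA.BlkCore CA.BlkHeight CA.BlkDefect CA.H11Av CA.H11Sec CA.H11Cyclo CA.H11Contrib CA.BlkBas CChar.CharFun CChar.CharOrth CChar.CharGen Subgroup

/-- Let B be a 2-block of the finite group G (relative to a maximal ideal M of the algebraic integers containing 2) of defect d with defect group D. Let z be an element of D commuting with every element of D, and let b be a block of the centralizer of z with defect group D that induces B (a major subsection (z, b)). If the number of irreducible characters in B exceeds the 2-regular rank of b by at most three, then B contains at most 2 ^ d irreducible characters. -/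
theorem result {G : Type*} [Group G] [Finite G] (M : Ideal Cfsg.AlgInt) (hM : Cfsg.IsPModular 2 M) (B : Set (Cfsg.IrrCharacter G)) (hB : Cfsg.IsPBlock M B) (D : Subgroup G) (hD : Cfsg.IsDefectGroup 2 M B D) (z : G) (hzD : z ∈ D) (hzc : ∀ d ∈ D, d * z = z * d) (b : Set (Cfsg.IrrCharacter ↥(Subgroup.centralizer ({z} : Set G)))) (hb : Cfsg.IsInducedBlock M (Subgroup.centralizer ({z} : Set G)) b B) (hbD : Cfsg.IsDefectGroup 2 M b (D.subgroupOf (Subgroup.centralizer ({z} : Set G)))) (h : Nat.card B ≤ Cfsg.blockRank 2 b + 3) : Nat.card B ≤ 2 ^ Cfsg.blockDefect 2 B := by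
  classical
  cases nonempty_fintype G
  haveI := Fact.mk hM.1
  by_cases h0 : blockDefect 2 B = 0
  · rw [card_eq_one_of_defect_zero hM hB h0]; exact Nat.one_le_two_pow
  obtain ⟨j, hj⟩ := pel_of_mem hM.1 (isPGroup_of_isDefectGroup hD) hzD
  have hd := defect_eq_of_central hM hB hb.1 hD
    (fun d hd => mem_centralizer_singleton_iff.2 (hzc d hd)) hbD
  have hn : orderOf z ∣ 2 ^ (j + 1) := hj ▸ pow_dvd_pow 2 (Nat.le_succ j)
  obtain ⟨χ, h3, h4⟩ := exists_height_zero (p := 2) (block_nonempty hM hB)
  have h1 := cm_spec hM ⟨j, hj⟩ rfl hn hb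
  have h2 := CM.maj_compl hM (cm_maj hM ⟨j, hj⟩ rfl hn hb hd) (d := blockDefect 2 b) fun ψ hψ => by
    rw [hd]
    rcases Nat.eq_zero_or_pos (blockHeight 2 B ψ.1) with e | e
    · omega
    · have := height_add_two_le hM hB (Finset.mem_filter.1 hψ).2 e
      omega
  rw [card_set_eq] at h ⊢
  have h5 := (h1.compl (h1.le_card two_ne_zero)).two_bound hM h2 (by omega) (j := χ)
    (by simpa using h3) h4
  rw [← hd]
  refine le_of_mul_le_mul_left (le_trans ?_ h5) three_pos
  rw [mul_comm, ← smul_eq_mul, ← Finset.sum_const]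
  refine Finset.sum_le_sum fun ψ _ => ?_
  split_ifs with e
  · rfl
  · have := Nat.le_self_pow e 2
    omega

end Cfsg.Agent.S4575
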