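import Cfsg.Statements.S4580
import Cfsg.Agent.Lib.Block.BlkCov
import Cfsg.Agent.Lib.Char.Gall

set_option autoImplicit false
open Cfsg

namespace Cfsg.Agent.S4580
open Cfsg MonoidAlgebra CA.BlkAlg CA.BlkVal CA.BlkOmega CA.BlkRed CA.BlkCore CA.BlkDefect CA.BlkInd CA.BlkHeight CA.SylIn CA.H12PPart CChar.CharFun CChar.CharOrth Subgroup CA.BlkKer CChar.CharKer CA.BlkZero CChar.CharInt CA.BlkReg CA.BlkGal CA.BlkQuo CA.BlkCov CA.H12Cover CA.Clif

/-- Let N be a normal subgroup of the finite group G, M a maximal ideal of the algebraic integers containing 2, and θ a real-valued irreducible character of N of odd degree that extends to G (some irreducible character of G restricts to θ). Then θ has an extension to G lying in the principal 2-block of G. -/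
theorem result {G : Type*} [Group G] [Finite G] (N : Subgroup G) [N.Normal] (M : Ideal Cfsg.AlgInt) (hM : Cfsg.IsPModular 2 M) (θ : Cfsg.IrrCharacter N) (hreal : ∀ n : N, ((θ : N → ℂ) n).im = 0) (hodd : Odd (Cfsg.charDegree (θ : N → ℂ))) (hext : ∃ η : Cfsg.IrrCharacter G, ∀ n : N, (η : G → ℂ) n = (θ : N → ℂ) n) :
    ∃ η : Cfsg.IrrCharacter G, (∀ n : N, (η : G → ℂ) n = (θ : N → ℂ) n) ∧ η ∈ Cfsg.principalBlock M G := by
  obtain ⟨η, hη⟩ := hext
  have hres : IsIrrCharacter N (fun n : N => η.1 n) := by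
    rw [show (fun n : N => η.1 n) = θ.1 from funext hη]; exact θ.2
  obtain ⟨lam, hl1, hl⟩ := CA.Gall.exists_linear_of_ext (char_of_irr η.2) hres
    (char_conj (char_of_irr η.2)) fun n => by
      rw [hη]; exact Complex.conj_eq_iff_im.2 (hreal n)
  obtain ⟨a, m, hm, hG⟩ := Nat.exists_eq_two_pow_mul_odd (Nat.card_pos (α := G)).ne'
  obtain ⟨j, hj⟩ := hm
  let μ : G →* ℂˣ := lam ^ (j + 1)
  refine ⟨⟨_, irr_unitsHom_mul η.2 μ⟩, fun n => ?_, mem_principal_of_real hM ?_ fun g hg => ?_⟩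
  · simp [μ, hl1 n n.2, hη]
  · have : charDegree (fun g => (μ g : ℂ) * η.1 g) = charDegree θ.1 :=
      charDegree_eq_of_apply (by simpa using hη 1)
    rw [this]; exact hodd.not_two_dvd_nat
  · have h1 : orderOf g ∣ m := by
      have h2 := orderOf_dvd_natCard g
      rw [hG] at h2
      exact (Nat.Coprime.pow_right a ((Nat.prime_two.coprime_iff_not_dvd).2 hg).symm).dvd_of_dvd_mul_left h2
    have h2 : lam g ^ m = 1 := by
      rw [← map_pow, orderOf_dvd_iff_pow_eq_one.1 h1, map_one]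
    have h3 : (starRingEnd ℂ) (μ g : ℂ) = (μ g⁻¹ : ℂ) :=
      (char_apply_inv (char_of_unitsHom μ) g).symm
    have h4 : μ g⁻¹ * lam g = μ g := by
      simp only [μ, MonoidHom.pow_apply, map_inv]
      rw [inv_mul_eq_iff_eq_mul, ← pow_add, show j + 1 + (j + 1) = m + 1 by omega,
        pow_succ, h2, one_mul]
    rw [← Complex.conj_eq_iff_im]
    show (starRingEnd ℂ) ((μ g : ℂ) * η.1 g) = μ g * η.1 g
    rw [map_mul, h3, congrFun hl g, ← mul_assoc, ← Units.val_mul, h4]

end Cfsg.Agent.S4580
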