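import Cfsg.Statements.S4581
import Cfsg.Agent.Lib.Char.H10Real
import Cfsg.Agent.Lib.Grp.PGFrattini

set_option autoImplicit false
open Cfsg

namespace Cfsg.Agent.S4581
open CA.PF CA.BG CA.H10MK2 CA.H10Real CA.H12PSolv Subgroup

/-- Let G be a finite solvable group, P a Sylow 2-subgroup and N its normalizer. Then G and N have the same number of real-valued irreducible characters of odd degree; and every odd-degree irreducible character of G is real-valued exactly when the derived subgroup of P equals the Frattini subgroup of P and P is its own normalizer in G. -/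
theorem result {G : Type*} [Group G] [Finite G] [Group.IsSolvable G] (P : Sylow 2 G) :
    Nat.card {χ : Cfsg.IrrCharacter G // (∀ g : G, ((χ : G → ℂ) g).im = 0) ∧ Odd (Cfsg.charDegree (χ : G → ℂ))} =
      Nat.card {ψ : Cfsg.IrrCharacter (Subgroup.normalizer ((P : Subgroup G) : Set G)) // (∀ g, ((ψ : Subgroup.normalizer ((P : Subgroup G) : Set G) → ℂ) g).im = 0) ∧ Odd (Cfsg.charDegree (ψ : Subgroup.normalizer ((P : Subgroup G) : Set G) → ℂ))} ∧
    ((∀ χ : Cfsg.IrrCharacter G, Odd (Cfsg.charDegree (χ : G → ℂ)) → ∀ g : G, ((χ : G → ℂ) g).im = 0) ↔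
      (commutator (P : Subgroup G) = frattini (P : Subgroup G) ∧ Subgroup.normalizer ((P : Subgroup G) : Set G) = (P : Subgroup G))) := by
  have := Fintype.ofFinite G
  have hS := syl_top Nat.prime_two P
  have hG : Group.IsSolvable (⊤ : Subgroup G) := inferInstance
  have h1 := mckay_real hG hS (nrm_bot _) (triv_irr _) (star_triv _) (le_stab (nrm_bot _).triv_CF.2)
  have h2 := mckay (psolv_of_solvable (p := 2)) hS (nrm_bot _) (triv_irr _)
    (le_stab (nrm_bot _).triv_CF.2)
  rw [bot_sup_eq, top_inf_eq] at h1 h2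
  refine ⟨by rw [card_rv_top, card_rv, h1], Iff.trans ?_ ((all_real_iff (K := (⊤ : Subgroup G))).trans ?_)⟩
  · exact ⟨fun h χ h3 h4 => funext fun g => Complex.conj_eq_iff_im.2 (h ⟨χ, mem_irr_top.1 h3⟩
      (Nat.odd_iff.2 (Nat.two_dvd_ne_zero.1 h4)) g), fun h χ h3 g => Complex.conj_eq_iff_im.1
      (congrFun (h χ (mem_irr_top.2 χ.2) h3.not_two_dvd_nat) g)⟩
  · rw [h1, h2, ← all_real_iff, all_real_norm (solv_of_le hG le_top)
      (hS.of_le le_normalizer le_top) le_rfl, Phi, ← Subgroup.map_subtype_commutator,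
      map_le_map_iff_of_injective (subtype_injective _)]
    exact and_congr_left' ⟨fun h => le_antisymm (CA.PGFrattini.commutator_le_frattini P.2) h,
      fun h => h.ge⟩

end Cfsg.Agent.S4581
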