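import Cfsg.Statements.S4582
import Cfsg.Agent.Lib.Grp.Trf
import Cfsg.Agent.Lib.Grp.H10Wr

set_option autoImplicit false
open Cfsg

namespace Cfsg.Agent.S4582
open Subgroup
open scoped commutatorElement

/-- Let N be a normal subgroup of the finite group G, P a Sylow 2-subgroup of G and Q = P ∩ N. Suppose that P/QP' and Q/Q' are elementary abelian (every square of an element of P lies in the subgroup generated by Q and the derived subgroup of P, and every square of an element of Q lies in the derived subgroup of Q), and that the commutator factor group N/N' has odd order. Then P/P' is elementary abelian. -/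
theorem result {G : Type*} [Group G] [Finite G] (N : Subgroup G) [N.Normal] (P : Sylow 2 G)
    (hP : ∀ x ∈ (P : Subgroup G), x ^ 2 ∈ ((P : Subgroup G) ⊓ N) ⊔ ⁅(P : Subgroup G), (P : Subgroup G)⁆)
    (hQ : ∀ x ∈ (P : Subgroup G) ⊓ N, x ^ 2 ∈ ⁅(P : Subgroup G) ⊓ N, (P : Subgroup G) ⊓ N⁆)
    (hodd : Odd (Nat.card (Abelianization N))) :
    ∀ x ∈ (P : Subgroup G), x ^ 2 ∈ ⁅(P : Subgroup G), (P : Subgroup G)⁆ := by
  classical
  intro x hx
  set H := N ⊔ (P : Subgroup G) with hH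
  have hPH : (P : Subgroup G) ≤ H := le_sup_right
  let φ : (P : Subgroup G).subgroupOf H →* Abelianization (P : Subgroup G) :=
    Abelianization.of.comp (subgroupOfEquivOfLe hPH).toMonoidHom
  have hA : IsPGroup 2 (Abelianization (P : Subgroup G)) := P.2.to_quotient _
  let V := MonoidHom.transfer φ
  have hVN : ∀ n : H, (n : G) ∈ N → V n = 1 := by
    intro n hn
    let f := Abelianization.lift (V.comp (inclusion (le_sup_left : N ≤ H)))
    have h1 : V n = f (Abelianization.of ⟨n, hn⟩) := rfl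
    obtain ⟨k, hk⟩ := IsPGroup.iff_orderOf.1 hA (V n)
    have h2 : orderOf (V n) ∣ Nat.card (Abelianization N) := by
      rw [h1]; exact (orderOf_map_dvd f _).trans (orderOf_dvd_natCard _)
    rw [← orderOf_eq_one_iff]
    exact Nat.Coprime.eq_one_of_dvd (by
      rw [hk]; exact Nat.Coprime.pow_left _ (Nat.coprime_two_left.2 hodd)) h2
  have hV2 : V ⟨x, hPH hx⟩ ^ 2 = 1 := by
    have h1 : (P : Subgroup G) ⊓ N ⊔ ⁅(P : Subgroup G), (P : Subgroup G)⁆ ≤ V.ker.map H.subtype := by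
      refine sup_le (fun y hy => ⟨⟨y, hPH hy.1⟩, hVN _ hy.2, rfl⟩) ?_
      rw [commutator_le]
      intro a ha b hb
      exact ⟨⁅(⟨a, hPH ha⟩ : H), ⟨b, hPH hb⟩⁆, Abelianization.commutator_subset_ker V
        (commutator_mem_commutator (mem_top _) (mem_top _)), rfl⟩
    obtain ⟨y, hy, e⟩ := h1 (hP x hx)
    rw [← map_pow, ← show y = ⟨x, hPH hx⟩ ^ 2 from Subtype.ext e]
    exact hy
  obtain ⟨m, t, n, h, -, -, hs, hf⟩ := CA.Trf.exists_transfer_data ((P : Subgroup G).subgroupOf H)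
    ⟨x, hPH hx⟩
  set a := Abelianization.of (⟨x, hx⟩ : (P : Subgroup G)) with ha
  have key : ∀ i, φ ⟨_, h i⟩ ^ 2 = (a ^ 2) ^ n i := by
    intro i
    obtain ⟨y, hy, u, hu, e⟩ := mem_sup_of_normal_right.1 (show (t i : G) ∈ (P : Subgroup G) ⊔ N from sup_comm N _ ▸ (t i).2)
    have h1 : ((t i : G))⁻¹ * x ^ n i * t i ∈ (P : Subgroup G) := h i
    have h2 : y⁻¹ * x ^ n i * y ∈ (P : Subgroup G) := mul_mem (mul_mem (inv_mem hy) (pow_mem hx _)) hy
    have h3 : (y⁻¹ * x ^ n i * y)⁻¹ * (((t i : G))⁻¹ * x ^ n i * t i) ∈ (P : Subgroup G) ⊓ N := by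
      refine ⟨(P : Subgroup G).mul_mem ((P : Subgroup G).inv_mem h2) h1, ?_⟩
      rw [← e, show (y⁻¹ * x ^ n i * y)⁻¹ * ((y * u)⁻¹ * x ^ n i * (y * u)) =
        (y⁻¹ * x ^ n i * y)⁻¹ * u⁻¹ * (y⁻¹ * x ^ n i * y)⁻¹⁻¹ * u by simp [mul_assoc]]
      exact N.mul_mem ((inferInstance : N.Normal).conj_mem _ (N.inv_mem hu) _) hu
    have h4 : Abelianization.of (⟨_, h3.1⟩ : (P : Subgroup G)) ^ 2 = 1 := by
      rw [← map_pow, ← MonoidHom.mem_ker, Abelianization.ker_of, CA.H10Wr.mem_commutator_iff]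
      exact commutator_mono inf_le_left inf_le_left (hQ _ h3)
    have h5 : φ ⟨_, h i⟩ = Abelianization.of ((⟨y, hy⟩ : (P : Subgroup G))⁻¹ * ⟨x, hx⟩ ^ n i * ⟨y, hy⟩ *
        ⟨_, h3.1⟩) := congrArg Abelianization.of (Subtype.ext (by simp [subgroupOfEquivOfLe, mul_assoc]))
    rw [h5, map_mul, mul_pow, h4, map_mul, map_mul, map_inv, map_pow, inv_mul_cancel_comm, mul_one,
      ← pow_mul, ← pow_mul, mul_comm]
  have h1 : (a ^ 2) ^ ((P : Subgroup G).subgroupOf H).index = 1 := by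
    rw [← hV2, hf φ, ← Finset.prod_pow, Finset.prod_congr rfl fun i _ => key i,
      Finset.prod_pow_eq_pow_sum, hs]
  have h2 : a ^ 2 = 1 := by
    obtain ⟨k, hk⟩ := IsPGroup.iff_orderOf.1 hA (a ^ 2)
    have h3 : ¬ 2 ∣ ((P : Subgroup G).subgroupOf H).index := fun h =>
      P.not_dvd_index (h.trans (relIndex_dvd_index_of_le hPH))
    rw [← orderOf_eq_one_iff]
    exact Nat.Coprime.eq_one_of_dvd (by
      rw [hk]; exact Nat.Coprime.pow_left _ (Nat.prime_two.coprime_iff_not_dvd.2 h3))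
      (orderOf_dvd_of_pow_eq_one h1)
  rw [ha, ← map_pow, ← MonoidHom.mem_ker, Abelianization.ker_of, CA.H10Wr.mem_commutator_iff] at h2
  exact h2

end Cfsg.Agent.S4582
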