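import Cfsg.Statements.S4583
import Cfsg.Agent.Lib.Block.BlkPr

set_option autoImplicit false
open Cfsg

namespace Cfsg.Agent.S4583
open Cfsg MonoidAlgebra CA.BlkAlg CA.BlkVal CA.BlkOmega CA.BlkRed CA.BlkCore CA.BlkDefect CA.BlkInd CA.BlkHeight CA.SylIn CA.H12PPart CChar.CharFun CChar.CharOrth Subgroup CA.BlkKer CChar.CharKer CA.BlkZero CChar.CharInt CA.BlkReg CA.BlkGal CA.BlkQuo CA.BlkBas CA.BlkIdem CA.BlkIBr CChar.CharGen CA.BlkCov CA.H12Cover CA.Clif CA.BlkInt CA.BlkPr

/-- Let N be a normal subgroup of the finite group G, p a prime, M a maximal ideal of the algebraic integers containing p, and P a Sylow p-subgroup of G. Let θ be an irreducible character of N of degree prime to p lying in the principal p-block of N, and suppose θ extends to the subgroup NP (some irreducible character of NP restricts to θ). Then some irreducible character χ of G of degree prime to p in the principal p-block of G lies over θ (θ is a constituent of the restriction of χ to N). -/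
theorem result {G : Type*} [Group G] [Finite G] (N : Subgroup G) [N.Normal] (p : ℕ) [Fact p.Prime] (M : Ideal Cfsg.AlgInt) (hM : Cfsg.IsPModular p M) (P : Sylow p G)
    (θ : Cfsg.IrrCharacter N) (hθ : θ ∈ Cfsg.principalBlock M N) (hdeg : ¬ p ∣ Cfsg.charDegree (θ : N → ℂ))
    (hext : ∃ η : Cfsg.IrrCharacter ↥(N ⊔ (P : Subgroup G)), ∀ n : N, (η : ↥(N ⊔ (P : Subgroup G)) → ℂ) (Subgroup.inclusion le_sup_left n) = (θ : N → ℂ) n) :
    ∃ χ : Cfsg.IrrCharacter G, χ ∈ Cfsg.principalBlock M G ∧ ¬ p ∣ Cfsg.charDegree (χ : G → ℂ) ∧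
      haveI := Fintype.ofFinite N; Cfsg.classInner (fun n : N => (χ : G → ℂ) n) (θ : N → ℂ) ≠ 0 := by
  obtain ⟨η, hη⟩ := hext
  have := Fintype.ofFinite G
  have := Fintype.ofFinite ↥(N ⊔ (P : Subgroup G))
  letI := Fintype.ofFinite N
  have hp : p.Prime := Fact.out
  have h1 : η ∈ principalBlock M ↥(N ⊔ (P : Subgroup G)) := by
    refine (mem_principal_iff_of_hom hM (inclusion_injective le_sup_left) (fun g hg => ?_)
      one_ne_zero fun x _ => by rw [hη, one_mul]).2 hθ
    rw [inclusion_range]
    refine regular_mem_of_index hp _ ?_ hg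
    have := (P.isPGroup'.to_quotient (N.subgroupOf P)).exists_card_eq
    rwa [← index_eq_card, ← relIndex, ← relIndex_sup_left] at this
  have h2 : charDegree η.1 = charDegree θ.1 := charDegree_eq_of_apply (by simpa using hη 1)
  obtain ⟨χ, hχ, hd, ho⟩ := exists_over_principal hM
    (fun h => P.not_dvd_index (h.trans (index_dvd_of_le le_sup_right))) h1 (h2 ▸ hdeg)
  refine ⟨χ, hχ, hd, CA.Cons.inner_comp_ne_zero (inclusion le_sup_left)
    (char_restrict (char_of_irr χ.2) _) η.2 (over_iff.1 ho) (char_of_irr θ.2) ?_⟩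
  rw [show (fun n : N => η.1 (inclusion le_sup_left n)) = θ.1 from funext hη, inner_irr_self θ.2]
  exact one_ne_zero

end Cfsg.Agent.S4583
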