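import Mathlib.Tactic.LinearCombination
-- Template for statement S4584 (row 4584; see /opt/grader/pristine/manifest.json for weights).
-- Copy to Cfsg/Agent/S4584.lean and replace the sorry. The statement below is byte-identical to the frozen
-- statement Cfsg.CfsgFrozen.S4584 (Cfsg/Statements/S4584.lean; the theorem Cfsg.chr3_p_group_order_p_fourth_derived_order_p_iff_central_index_p_sq);
-- the grader kernel-checks Cfsg.Agent.S4584.result against that frozen type. Keep the theorem IN THIS FILE
-- (a `result` declared elsewhere and merely imported here is not credited); helpers may live anywhere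
-- under Cfsg/Agent/.
import Cfsg.Statements.S4584
import Cfsg.Agent.Lib.Grp.H10Pg

set_option autoImplicit false
open Cfsg

namespace Cfsg.Agent.S4584
open CA.H10Pg CA.PGBasic Subgroup

/-- Let p be a prime and P a group of order p^4. Then the derived subgroup P' has order p if and only if the centre Z(P) has index p^2 in P. -/
theorem result {P : Type*} [Group P] [Finite P] (p : ℕ) [Fact p.Prime] (hP : Nat.card P = p ^ 4) :
    Nat.card (commutator P) = p ↔ (Subgroup.center P).index = p ^ 2 := by
  have hp : p.Prime := Fact.out
  have h1 := hp.one_lt
  by_cases h : commutator P = ⊥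
  · rw [(commutator_eq_bot_iff_center_eq_top _).1 h, h, card_bot, index_top]
    exact iff_of_false h1.ne (one_lt_pow₀ h1 two_ne_zero).ne
  have h2 := p4 hP h
  have h3 := (center P).card_mul_index
  have a : 0 < Nat.card (center P) := Nat.card_pos
  rw [hP] at h3
  refine ⟨fun e => Nat.eq_of_mul_eq_mul_left a ?_,
    fun e => Nat.eq_of_mul_eq_mul_left (mul_pos a (pow_pos hp.pos 2)) ?_⟩
  · rw [e] at h2
    zify at *
    linear_combination h3 - (p : ℤ) * h2
  · rw [e] at h3
    zify at *
    linear_combination (p : ℤ) ^ 2 * h2 - (p : ℤ) * h3 + 0

end Cfsg.Agent.S4584
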