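import Cfsg.Statements.S4585
import Cfsg.Agent.Lib.Grp.H10Pg

set_option autoImplicit false
open Cfsg

namespace Cfsg.Agent.S4585
open CA.H10Pg CA.PGBasic CA.PGClassTwo Subgroup

/-- Let p be a prime and P a group of order p^4. Then P' has index p^2 in P if and only if P has maximal nilpotency class, that is, nilpotency class exactly 3. -/
theorem result {P : Type*} [Group P] [Finite P] (p : ℕ) [Fact p.Prime] (hP : Nat.card P = p ^ 4) :
    (commutator P).index = p ^ 2 ↔ Group.nilpotencyClass P = 3 := by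
  have hp : p.Prime := Fact.out
  have h1 := hp.one_lt
  have hG : IsPGroup p P := IsPGroup.of_card hP
  have := hG.isNilpotent
  have h3 := (commutator P).card_mul_index
  rw [hP] at h3
  have i : (commutator P).index = p ^ 2 ↔ Nat.card (commutator P) = p ^ 2 :=
    ⟨fun e => Nat.eq_of_mul_eq_mul_right (pow_pos hp.pos 2) (by rw [← e, h3, e]; ring),
      fun e => Nat.eq_of_mul_eq_mul_left (pow_pos hp.pos 2) (by rw [← e, h3, e]; ring)⟩
  have c2 : Group.nilpotencyClass P ≤ 2 ↔ ⁅commutator P, (⊤ : Subgroup P)⁆ = ⊥ :=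
    Subgroup.lowerCentralSeries_eq_bot_iff_nilpotencyClass_le.symm
  have c3 : Group.nilpotencyClass P ≤ 3 ↔ ⁅⁅commutator P, (⊤ : Subgroup P)⁆, (⊤ : Subgroup P)⁆ = ⊥ :=
    Subgroup.lowerCentralSeries_eq_bot_iff_nilpotencyClass_le.symm
  rw [i]
  refine ⟨fun e => ?_, fun e => ?_⟩
  · have h : commutator P ≠ ⊥ := fun h => by
      rw [h, card_bot] at e
      exact (one_lt_pow₀ h1 two_ne_zero).ne e
    have h2 := p4 hP h
    have h4 : ¬ Group.nilpotencyClass P ≤ 2 := fun h4 => by
      have := card_le_of_le' (commutator_le_center_iff.2 (c2.1 h4))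
      rw [e] at this h2
      have := Nat.mul_le_mul_right (p ^ 2) this
      rw [h2, ← pow_add, Nat.pow_le_pow_iff_right h1] at this
      omega
    refine le_antisymm (c3.2 ?_) (by omega)
    by_contra h5
    have h6 := card_mul_le_of_lt (hG.to_subgroup _) (commutator_top_lt h)
    have h7 := card_mul_le_of_lt (hG.to_subgroup _) (commutator_top_lt (mt c2.2 h4))
    have h8 := le_card_of_ne_bot (hG.to_subgroup _) h5
    rw [e] at h6
    have := (Nat.mul_le_mul_right p ((Nat.mul_le_mul_right p h8).trans h7)).trans h6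
    nlinarith
  · have h4 : ⁅commutator P, (⊤ : Subgroup P)⁆ ≠ ⊥ := mt c2.2 (by omega)
    have h : commutator P ≠ ⊥ := fun h => h4 (by rw [h, commutator_bot_left])
    have h2 := p4 hP h
    have h6 := card_mul_le_of_lt (hG.to_subgroup _) (commutator_top_lt h)
    have h8 := le_card_of_ne_bot (hG.to_subgroup _) h4
    have h9 := le_card_of_ne_bot (hG.to_subgroup _) (inf_center_ne_bot h)
    have := h9.trans (card_le_of_le' inf_le_right)
    refine le_antisymm (Nat.le_of_mul_le_mul_left ?_ hp.pos) (by nlinarith)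
    rw [← pow_succ', ← h2]
    exact Nat.mul_le_mul_right _ this

end Cfsg.Agent.S4585
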