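import Mathlib.Tactic.LinearCombination
-- Template for statement S4586 (row 4586; see /opt/grader/pristine/manifest.json for weights).
-- Copy to Cfsg/Agent/S4586.lean and replace the sorry. The statement below is byte-identical to the frozen
-- statement Cfsg.CfsgFrozen.S4586 (Cfsg/Statements/S4586.lean; the theorem Cfsg.chr3_p_group_abelianization_p_sq_iff_centralizer_on_maximal_abelianization);
-- the grader kernel-checks Cfsg.Agent.S4586.result against that frozen type. Keep the theorem IN THIS FILE
-- (a `result` declared elsewhere and merely imported here is not credited); helpers may live anywhere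
-- under Cfsg/Agent/.
import Cfsg.Statements.S4586
import Cfsg.Agent.Lib.Grp.H10Pg

set_option autoImplicit false
open Cfsg

namespace Cfsg.Agent.S4586
open CA.H10Pg CA.PGBasic Subgroup

/-- Let p be a prime, P a finite p-group and N a normal subgroup of P of index p. For x ∈ P write c(x) for the number of elements n of N whose commutator x n x⁻¹ n⁻¹ lies in the derived subgroup N' (so c(x)/#N' is the order of the centralizer of x acting on N/N'). Then [P : P'] = p² if and only if c(x) = p·#N' for every x ∈ P outside N, and also if and only if c(x) = p·#N' for some x ∈ P outside N. -/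
theorem result {P : Type*} [Group P] [Finite P] (p : ℕ) [Fact p.Prime] (hP : IsPGroup p P) (N : Subgroup P) [N.Normal] (hN : N.index = p) :
    ((commutator P).index = p ^ 2 ↔ ∀ x : P, x ∉ N →
        Nat.card {n : N // x * n * x⁻¹ * (n : P)⁻¹ ∈ (commutator N).map N.subtype} = p * Nat.card (commutator N)) ∧
    ((commutator P).index = p ^ 2 ↔ ∃ x : P, x ∉ N ∧
        Nat.card {n : N // x * n * x⁻¹ * (n : P)⁻¹ ∈ (commutator N).map N.subtype} = p * Nat.card (commutator N)) := by
  have hp : p.Prime := Fact.out
  have k : ∀ x : P, x ∉ N → ((commutator P).index = p ^ 2 ↔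
      Nat.card {n : N // x * n * x⁻¹ * (n : P)⁻¹ ∈ (commutator N).map N.subtype} =
        p * Nat.card (commutator N)) := fun x hx => by
    have h1 := key N (sup_zpowers_eq_top_of_index_prime hp hN hx)
    have h2 := N.card_mul_index
    rw [hN, ← (commutator P).card_mul_index] at h2
    have a : 0 < Nat.card (commutator P) := Nat.card_pos
    have b : 0 < Nat.card (commutator N) := Nat.card_pos
    have c := hp.pos
    refine ⟨fun e => Nat.eq_of_mul_eq_mul_right (mul_pos a c) ?_,
      fun e => Nat.eq_of_mul_eq_mul_right (mul_pos a b) ?_⟩
    · rw [e] at h2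
      linear_combination p * h1 + Nat.card (commutator N) * h2
    · rw [e] at h1
      zify at *
      linear_combination (-p : ℤ) * h1 - (Nat.card (commutator N) : ℤ) * h2
  obtain ⟨x, hx⟩ : ∃ x, x ∉ N := by
    by_contra! h
    rw [(eq_top_iff' N).2 h, index_top] at hN
    exact hp.one_lt.ne hN
  exact ⟨⟨fun e y hy => (k y hy).1 e, fun h => (k x hx).2 (h x hx)⟩,
    fun e => ⟨x, hx, (k x hx).1 e⟩, fun ⟨y, hy, h⟩ => (k y hy).2 h⟩

end Cfsg.Agent.S4586
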