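import Cfsg.Statements.S4588
import Cfsg.Agent.Lib.Block.BlkLift

set_option autoImplicit false
open Cfsg

namespace Cfsg.Agent.S4588
open Cfsg MonoidAlgebra CA.BlkAlg CA.BlkVal CA.BlkOmega CA.BlkRed CA.BlkCore CA.BlkDefect CA.BlkInd CA.BlkHeight CA.SylIn CA.H12PPart CChar.CharFun CChar.CharOrth Subgroup CA.BlkKer CChar.CharKer CA.BlkZero CChar.CharInt CA.BlkReg CA.BlkGal CA.BlkQuo CA.BlkBas CA.BlkIdem CA.BlkIBr CChar.CharGen CA.BlkLift

/-- Let G be a finite group, p a prime and M a maximal ideal of the algebraic integers containing p. If some p-element x of G (possibly x = 1) has centralizer whose order has p-part at most p², then the principal p-block of G contains at most p² irreducible characters of degree prime to p. -/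
theorem result {G : Type*} [Group G] [Finite G] (p : ℕ) [Fact p.Prime] (M : Ideal Cfsg.AlgInt) (hM : Cfsg.IsPModular p M)
    (hx : ∃ x : G, (∃ k : ℕ, orderOf x = p ^ k) ∧ (Nat.card (Subgroup.centralizer ({x} : Set G))).factorization p ≤ 2) :
    Nat.card {χ : Cfsg.IrrCharacter G // χ ∈ Cfsg.principalBlock M G ∧ ¬ p ∣ Cfsg.charDegree (χ : G → ℂ)} ≤ p ^ 2 := by
  classical
  have := Fintype.ofFinite G
  obtain ⟨u, k, hu, h1, h2⟩ : ∃ (u : G) (k : ℕ), orderOf u = p ^ k ∧
      (Nat.card (centralizer ({u} : Set G))).factorization p ≤ k + 1 ∧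
      (Nat.card (centralizer ({u} : Set G))).factorization p ≤ 2 := by
    obtain ⟨x, ⟨k, hk⟩, hx⟩ := hx
    by_cases h : (Nat.card (centralizer ({x} : Set G))).factorization p ≤ k + 1
    · exact ⟨x, k, hk, h, hx⟩
    · obtain rfl : k = 0 := by omega
      obtain rfl : x = 1 := orderOf_eq_one_iff.1 (by rw [hk, pow_zero])
      have e : centralizer ({1} : Set G) = ⊤ :=
        top_le_iff.1 fun g _ => mem_centralizer_singleton_iff.2 (by rw [mul_one, one_mul])
      rw [e, card_top] at hx h
      obtain ⟨u, hu⟩ := exists_prime_orderOf_dvd_card' (G := G) p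
        ((hM.1.dvd_iff_one_le_factorization Nat.card_pos.ne').2 (by omega))
      have h3 : (Nat.card (centralizer ({u} : Set G))).factorization p ≤ 2 :=
        ((Nat.factorization_le_iff_dvd Nat.card_pos.ne' Nat.card_pos.ne').2
          (card_subgroup_dvd_card _) p).trans hx
      exact ⟨u, 1, by rw [hu, pow_one], h3, h3⟩
  rw [Nat.card_eq_fintype_card, Fintype.card_subtype]
  refine (card_le_of_pElt hM hu h1 _ fun χ hχ => ?_).trans (Nat.pow_le_pow_right hM.1.pos h2)
  obtain ⟨h3, h4⟩ := (Finset.mem_filter.1 hχ).2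
  refine ⟨h3, fun h0 => h4 ?_⟩
  have h5 := res_char_pElt hM (char_of_irr χ.2) ⟨k, hu⟩
  rw [h0, res_zero, irr_apply_one_eq χ.2, eq_comm,
    res_eq_zero_iff (natCast_mem_O _)] at h5
  exact (v_natCast_lt_one_iff hM _).1 h5

end Cfsg.Agent.S4588
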