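import Cfsg.Statements.S4591
import Cfsg.Agent.Lib.Char.H10Ker

set_option autoImplicit false
open Cfsg

namespace Cfsg.Agent.S4591
open CA.PF CA.H10Ker Subgroup

/-- Let G be a finite group, p a prime and P a Sylow p-subgroup, and let N be the largest normal subgroup of G in which P has trivial centralizer (N is normal with C_N(P) = 1 and contains every normal subgroup with that property). Then the intersection of the kernels of the irreducible characters of G of degree prime to p is the normal core in G of the subgroup N·P' (P' the derived subgroup of P). In particular, when G has no nontrivial normal subgroup of order prime to p, that intersection is the normal core of P'. -/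
theorem result {G : Type*} [Group G] [Finite G] (p : ℕ) [Fact p.Prime] (P : Sylow p G) (N : Subgroup G) [N.Normal]
    (hN : N ⊓ Subgroup.centralizer ((P : Subgroup G) : Set G) = ⊥)
    (hmax : ∀ L : Subgroup G, L.Normal → L ⊓ Subgroup.centralizer ((P : Subgroup G) : Set G) = ⊥ → L ≤ N) :
    {g : G | ∀ χ : Cfsg.IrrCharacter G, ¬ p ∣ Cfsg.charDegree (χ : G → ℂ) → (χ : G → ℂ) g = (χ : G → ℂ) 1} =
      ((N ⊔ ⁅(P : Subgroup G), (P : Subgroup G)⁆).normalCore : Set G) := by
  classical
  have := Fintype.ofFinite G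
  let K : Subgroup G := ⨅ χ : {χ : IrrCharacter G // ¬ p ∣ charDegree (χ : G → ℂ)}, cfker (χ.1 : G → ℂ)
  have h0 : ∀ (χ : IrrCharacter G) (g : G), g ∈ cfker (χ : G → ℂ) ↔ (χ : G → ℂ) g = (χ : G → ℂ) 1 :=
    fun χ g => irr_mem_cfker (mem_irr_top.2 χ.2)
  have h1 : K.Normal := ⟨fun x hx g => mem_iInf.2 fun χ =>
    cfker_conj (irr_CInv (mem_irr_top.2 χ.1.2)) (mem_top g) (mem_iInf.1 hx χ)⟩
  obtain ⟨L, h2, h3, h4⟩ := le_of_ker (K := K) P fun χ h hd =>
    iInf_le_of_le ⟨⟨χ, mem_irr_top.1 h⟩, hd⟩ le_rfl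
  ext g
  refine ⟨fun h => ?_, fun h χ hd => (h0 χ g).1 (core_le P hN (mem_irr_top.2 χ.2) hd h)⟩
  exact normal_le_normalCore.2 (h4.trans (sup_le_sup_right (hmax L h2 h3) _))
    (mem_iInf.2 fun χ => (h0 χ.1 g).2 (h χ.1 χ.2))

end Cfsg.Agent.S4591
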