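import Cfsg.Statements.S4602
import Cfsg.Agent.Lib.Solv.HH3

set_option autoImplicit false
open Cfsg

namespace Cfsg.Agent.S4602

open Subgroup CA.BG CA.HH CA.H12PSolv CA.Core

/-- Let G be a finite p-solvable group and q a prime different from p. Some Sylow p-subgroup of G normalizes some Sylow q-subgroup of G if and only if q does not divide the order of G/O_{p'}(G), the quotient by the largest normal subgroup of order prime to p. -/
theorem result {G : Type*} [Group G] [Finite G] (p q : ℕ) [Fact p.Prime] [Fact q.Prime] (hpq : p ≠ q) (hsolv : Cfsg.IsPSolvable p G) :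
    (∃ (P : Sylow p G) (Q : Sylow q G), (P : Subgroup G) ≤ Subgroup.normalizer ((Q : Subgroup G) : Set G)) ↔ ¬ q ∣ (Cfsg.pPrimeCore p G).index := by
  have hp : p.Prime := Fact.out
  have hq : q.Prime := Fact.out
  constructor
  · rintro ⟨P, Q, h⟩
    have hs := QuotientGroup.mk'_surjective (pPrimeCore p G)
    have h1 := hall_map (syl_top hp P) (QuotientGroup.mk' (pPrimeCore p G))
    rw [map_top_of_surjective _ hs] at h1
    have h2 := (hall_map (syl_top hq Q) (QuotientGroup.mk' (pPrimeCore p G))).pi
    have h3 := h1.le_of_norm' (isPi_pcore hp) le_top le_normalizer_of_normal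
    have h4 := cent_of_norm_cop (le_normalizer_of_normal) (h3.trans ((map_mono h).trans
      (le_normalizer_map _))) (h2.coprime_ne (isPi_pcore hp) hpq.symm)
    have h5 := h4.trans (centralizer_pCore_le (psolv_quotient hsolv _) (p'core_quot hp))
    have h6 := h2.eq_bot (((isPi_pcore hp).of_le h5).ne hpq)
    rw [Subgroup.map_eq_bot_iff, QuotientGroup.ker_mk'] at h6
    rw [← relIndex_top_right]
    exact not_dvd_relIndex_of_le hq (syl_top hq Q) h6
  · intro h
    obtain ⟨P⟩ : Nonempty (Sylow p G) := inferInstance
    have hP := syl_top hp P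
    obtain ⟨Q, h1, h2⟩ := coprime_Sylow_exists hq (K := pPrimeCore p G) (A := P)
      le_normalizer_of_normal ((isPi_p'core hp).coprime' hP.pi) (Or.inl (hP.pi.isSolvable hp))
    obtain ⟨Q, rfl⟩ := (h1.of_idx le_top (by
      rw [relIndex_top_right]; exact (piNat_compl_iff hq).2 h)).exists_sylow_top hq
    exact ⟨P, Q, h2⟩

end Cfsg.Agent.S4602
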