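import Cfsg.Statements.S4601
import Cfsg.Agent.S4602
import Cfsg.Agent.Lib.Grp.H4Cls
import Cfsg.Agent.Lib.Solv.SS2

set_option autoImplicit false
open Cfsg

namespace Cfsg.Agent.S4601

open Subgroup CA.BG CA.HH CA.H12PSolv CA.Core CA.H4Cls CA.Kaz
universe u

theorem hyp_quot {G : Type*} [Group G] [Finite G] {p q : ℕ} (hq : q.Prime)
    (h : ∀ y : G, PiNat {q} (orderOf y) → ¬ p ∣ 𝓒₁(y).index) (N : Subgroup G) [N.Normal]
    (y : G ⧸ N) (hy : PiNat {q} (orderOf y)) : ¬ p ∣ 𝓒₁(y).index := by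
  obtain ⟨y, h1, rfl⟩ := exists_lift_el hq (QuotientGroup.mk'_surjective N) hy
  exact fun e => h y h1 (e.trans (index_map_dvd' _ (QuotientGroup.mk'_surjective N) y))

theorem aux {p q : ℕ} (hp : p.Prime) [hq : Fact q.Prime] (hpq : p ≠ q) (n : ℕ) :
    ∀ (G : Type u) [Group G] [Finite G], Nat.card G = n → IsPSolvable q G →
    (∀ y : G, PiNat {q} (orderOf y) → ¬ p ∣ 𝓒₁(y).index) →
    ∃ Q : Subgroup G, Syl q Q ⊤ ∧ ¬ p ∣ 𝓝(Q).index := by
  induction n using Nat.strong_induction_on with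
  | _ n ih =>
  intro G _ _ hn hG h
  have step : ∀ (N : Subgroup G) [N.Normal], N ≠ ⊥ → ∃ L : Subgroup G, N ≤ L ∧
      PiNat {q} (N.relIndex L) ∧ ¬ q ∣ L.index ∧ ¬ p ∣ 𝓝(L).index := by
    intro N _ hN
    have hs := QuotientGroup.mk'_surjective N
    obtain ⟨Q, h1, h2⟩ := ih _ (by
      have e := N.card_mul_index
      have h3 := N.one_lt_card_iff_ne_bot.2 hN
      have h4 := Nat.pos_of_ne_zero (index_ne_zero_of_finite (H := N))
      show N.index < n
      nlinarith) (G ⧸ N) rfl (psolv_quotient hG N) (hyp_quot hq.out h N)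
    refine ⟨Q.comap (QuotientGroup.mk' N), (QuotientGroup.ker_mk' _).ge.trans (ker_le_comap _ _),
      ?_, ?_, ?_⟩
    · rw [← relIndex_mk, map_comap_eq_self_of_surjective hs]; exact h1.pi.nat
    · rw [index_comap_of_surjective _ hs]; exact not_dvd_index hq.out h1 le_rfl
    · rw [← comap_normalizer_eq_of_surjective _ hs, index_comap_of_surjective _ hs]; exact h2
  by_cases h0 : (⊤ : Subgroup G) = ⊥
  · obtain ⟨Q, hQ⟩ := syl_exists hq.out (⊤ : Subgroup G)
    refine ⟨Q, hQ, ?_⟩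
    rw [show 𝓝(Q) = ⊤ from eq_top_iff.2 (h0.le.trans bot_le), index_top]
    exact fun e => hp.one_lt.ne' (Nat.dvd_one.1 e)
  rcases core_ne_bot hG h0 with h1 | h1 <;> rw [top_inf_eq] at h1
  · obtain ⟨L, a, b, c, d⟩ := step _ h1
    exact ⟨L, Syl.mk'' hq.out le_top (IsPi.of_relIndex ((isPi_pcore hq.out).inf_left _) b)
      (by rwa [relIndex_top_right]), d⟩
  obtain ⟨L, a, b, c, d⟩ := step _ h1
  obtain ⟨K, hK⟩ : ∃ K, K = pPrimeCore q G := ⟨_, rfl⟩
  have hK' : IsPi {q}ᶜ K := hK ▸ isPi_p'core hq.out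
  haveI : K.Normal := hK ▸ inferInstance
  rw [← hK] at a b
  obtain ⟨Q, hQ⟩ := syl_exists hq.out L
  refine ⟨Q, hQ.of_idx le_top (by rw [relIndex_top_right]; exact (piNat_compl_iff hq.out).2 c), ?_⟩
  have h2 : Q ⊔ K = L := hQ.sup_of_idx a b
  have h3 : K ⊔ (𝓝(L) ⊓ 𝓝(Q)) = 𝓝(L) := by
    refine le_antisymm (sup_le (a.trans (le_norm_self L)) inf_le_left) ?_
    refine (hQ.syl_frattini_sup hq.out (le_norm_self L) le_rfl).ge.trans (sup_le ?_ le_sup_right)
    refine h2.ge.trans (sup_le (le_sup_of_le_right ?_) le_sup_left)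
    exact le_inf (hQ.le.trans (le_norm_self L)) (le_norm_self Q)
  have hcop := hK'.coprime' hQ.pi
  obtain ⟨P, p1, p2⟩ := coprime_Sylow_exists hp (K := K) (A := Q) le_normalizer_of_normal hcop
    (Or.inl (hQ.pi.isSolvable hq.out))
  have h4 : Q ≤ 𝓒(P) := by
    intro x hx
    have hz : zpowers x ≤ Q := zpowers_le.2 hx
    have h5 := coprime_Sylow_cent hp (K := K) (A := zpowers x) le_normalizer_of_normal
      (cop_mono hcop le_rfl hz) (Or.inl (solv_of_comm (comm_of_cyclic (cyc_zpowers x)))) p1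
      (hz.trans p2)
    obtain ⟨S, s1, s2⟩ := exists_syl_le hp (h x (hQ.pi.orderOf hx))
    have h6 := s1.inf_normal (N := K) le_top le_normalizer_of_normal
    have h7 := (h6.of_le (K := K ⊓ 𝓒(zpowers x))
      (le_inf inf_le_right (inf_le_left.trans (by rwa [cent_zpowers]))) inf_le_left).card_eq h5
    have h8 := eq_of_le_of_card_eq (inf_le_left : P ⊓ 𝓒(zpowers x) ≤ P)
      (h7.symm.trans (h6.card_eq p1))
    exact cent_symm (h8.ge.trans inf_le_right) (mem_zpowers x)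
  intro e
  replace e := e.trans (index_dvd_of_le (inf_le_right : 𝓝(L) ⊓ 𝓝(Q) ≤ _))
  rw [← relIndex_mul_index inf_le_left, ← h3] at e
  rcases (Nat.Prime.dvd_mul hp).1 e with e | e
  · rw [h3, ← relIndex_inf_of_sup le_normalizer_of_normal h3] at e
    exact not_dvd_relIndex_of_le hp p1 (le_inf (p1.le.trans (a.trans (le_norm_self L)))
      (norm_of_cent (cent_symm h4))) e
  · exact d (h3 ▸ e)

/-- Let p and q be primes and G a finite group that is p-solvable or q-solvable, in which no q-element has conjugacy class size divisible by p. Then some Sylow p-subgroup of G normalizes some Sylow q-subgroup of G. -/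
theorem result {G : Type*} [Group G] [Finite G] (p q : ℕ) [Fact p.Prime] [Fact q.Prime] (hsolv : Cfsg.IsPSolvable p G ∨ Cfsg.IsPSolvable q G)
    (h : ∀ y : G, (∃ k : ℕ, orderOf y = q ^ k) → ¬ p ∣ (Subgroup.centralizer ({y} : Set G)).index) :
    ∃ (P : Sylow p G) (Q : Sylow q G), (P : Subgroup G) ≤ Subgroup.normalizer ((Q : Subgroup G) : Set G) := by
  have hp : p.Prime := Fact.out
  have hq : q.Prime := Fact.out
  by_cases hpq : p = q
  · subst hpq
    obtain ⟨P⟩ : Nonempty (Sylow p G) := inferInstance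
    exact ⟨P, P, le_normalizer⟩
  have h' : ∀ y : G, PiNat {q} (orderOf y) → ¬ p ∣ 𝓒₁(y).index := fun y hy =>
    h y (hy.exists_pow hq (orderOf_pos y).ne')
  rcases hsolv with hs | hs
  · refine (Cfsg.Agent.S4602.result p q hpq hs).2 fun e => ?_
    obtain ⟨y, hy⟩ := exists_prime_orderOf_dvd_card' (G := G ⧸ pPrimeCore p G) q e
    have h1 : PiNat {q} (orderOf y) := by rw [hy]; exact (piNat_prime hq).2 rfl
    have h2 := le_cent_of_not_dvd hp (hyp_quot hq h' _ y h1) (isPi_pcore hp)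
    have h3 := centralizer_pCore_le (psolv_quotient hs _) (p'core_quot hp) (le_cent1_iff.1 h2)
    have := ((isPi_pcore hp).orderOf h3) q hq hy.symm.dvd
    exact hpq (Set.mem_singleton_iff.1 this).symm
  · obtain ⟨Q, h1, h2⟩ := aux hp hpq _ G rfl hs h'
    obtain ⟨P, h3, h4⟩ := exists_syl_le hp h2
    obtain ⟨P, rfl⟩ := h3.exists_sylow_top hp
    obtain ⟨Q, rfl⟩ := h1.exists_sylow_top hq
    exact ⟨P, Q, h4⟩

end Cfsg.Agent.S4601
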