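import Cfsg.Statements.S4604
import Cfsg.Agent.Lib.Block.BlkInt

set_option autoImplicit false
open Cfsg

namespace Cfsg.Agent.S4604
open Cfsg MonoidAlgebra CA.BlkAlg CA.BlkVal CA.BlkOmega CA.BlkRed CA.BlkCore CA.BlkDefect CA.BlkInd CA.BlkHeight CA.SylIn CA.H12PPart CChar.CharFun CChar.CharOrth Subgroup CA.BlkKer CChar.CharKer CA.BlkZero CChar.CharInt CA.BlkReg CA.BlkGal CA.BlkQuo CA.BlkBas CA.BlkIdem CA.BlkIBr CChar.CharGen CA.BlkCov CA.H12Cover CA.Clif CA.BlkInt

/-- Let G be a finite group, p a prime and p^a the p-part of the order of G. Let x, y ∈ G and let x′, y′ be their p-regular parts: x′ has order prime to p, commutes with x·x′⁻¹, and x·x′⁻¹ has p-power order (likewise for y). Then x′ and y′ are conjugate in G if and only if for every irreducible character χ of G the algebraic integer χ(x)^(p^a) − χ(y)^(p^a) is p times an algebraic integer. -/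
theorem result {G : Type*} [Group G] [Finite G] (p : ℕ) [Fact p.Prime] (x y x' y' : G)
    (hx : (∃ k : ℕ, orderOf (x * x'⁻¹) = p ^ k) ∧ Commute (x * x'⁻¹) x' ∧ ¬ p ∣ orderOf x')
    (hy : (∃ k : ℕ, orderOf (y * y'⁻¹) = p ^ k) ∧ Commute (y * y'⁻¹) y' ∧ ¬ p ∣ orderOf y') :
    IsConj x' y' ↔ ∀ χ : Cfsg.IrrCharacter G, ∃ γ : Cfsg.AlgInt,
      (χ : G → ℂ) x ^ (p ^ (Nat.card G).factorization p) - (χ : G → ℂ) y ^ (p ^ (Nat.card G).factorization p) = (p : ℂ) * (γ : ℂ) := by
  have hp : p.Prime := Fact.out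
  have key : ∀ x x' : G, (∃ k : ℕ, orderOf (x * x'⁻¹) = p ^ k) → Commute (x * x'⁻¹) x' →
      x ^ p ^ (Nat.card G).factorization p = x' ^ p ^ (Nat.card G).factorization p := by
    rintro x x' ⟨n, hn⟩ hc
    have h1 : (x * x'⁻¹) ^ p ^ (Nat.card G).factorization p = 1 := by
      rw [← orderOf_dvd_iff_pow_eq_one, hn]
      exact pow_dvd_pow _ ((hp.pow_dvd_iff_le_factorization Nat.card_pos.ne').1
        (hn ▸ orderOf_dvd_natCard _))
    conv_lhs => rw [← inv_mul_cancel_right x x', hc.mul_pow, h1, one_mul]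
  refine ⟨fun h χ => ?_, fun h => ?_⟩
  · obtain ⟨a, ha⟩ := exists_char_pow hp (char_of_irr χ.2) ((Nat.card G).factorization p) x
    obtain ⟨b, hb⟩ := exists_char_pow hp (char_of_irr χ.2) ((Nat.card G).factorization p) y
    refine ⟨a - b, ?_⟩
    rw [ha, hb, key x x' hx.1 hx.2.1, key y y' hy.1 hy.2.1,
      classFun_of_isConj (irr_classFun χ.2) (h.pow _)]
    push_cast
    ring
  · obtain ⟨M, hM⟩ := exists_isPModular hp
    have := charP_k hM
    refine isConj_of_res_eq hM hx.2.2 hy.2.2 fun χ => ?_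
    rw [← res_char_mul hM (char_of_irr χ.2) hx.2.1 hx.1 hx.2.2,
      ← res_char_mul hM (char_of_irr χ.2) hy.2.1 hy.1 hy.2.2, inv_mul_cancel_right,
      inv_mul_cancel_right]
    obtain ⟨γ, hγ⟩ := h χ
    have h1 := congrArg (res M) hγ
    rw [res_sub (pow_mem (irr_mem_O χ _) _) (pow_mem (irr_mem_O χ _) _), res_pow (irr_mem_O χ _),
      res_pow (irr_mem_O χ _), res_mul (natCast_mem_O p) (algInt_mem γ), res_natCast, p_eq_zero hM,
      zero_mul, ← sub_pow_char_pow] at h1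
    exact sub_eq_zero.1 (pow_eq_zero_iff (pow_ne_zero _ hp.ne_zero) |>.1 h1)

end Cfsg.Agent.S4604
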