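import Cfsg.Statements.S4607
import Cfsg.Agent.Lib.Block.BlkDim

set_option autoImplicit false
open Cfsg

namespace Cfsg.Agent.S4607
open Cfsg MonoidAlgebra CA.BlkAlg CA.BlkVal CA.BlkOmega CA.BlkRed CA.BlkCore CA.BlkDefect CA.BlkInd CA.BlkHeight CA.SylIn CA.H12PPart CChar.CharFun CChar.CharOrth Subgroup CA.BlkKer CChar.CharKer CA.BlkZero CChar.CharInt CA.BlkReg CA.BlkGal CA.BlkQuo CA.BlkBas CA.BlkIdem CA.BlkIBr CChar.CharGen CA.BlkDim

/-- Let G be a finite group, p a prime, M a maximal ideal of the algebraic integers containing p, and B a p-block of G with defect group D. Then B contains exactly two irreducible characters if and only if D has order 2. -/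
theorem result {G : Type*} [Group G] [Finite G] (p : ℕ) [Fact p.Prime] (M : Ideal Cfsg.AlgInt) (hM : Cfsg.IsPModular p M) (B : Set (Cfsg.IrrCharacter G)) (hB : Cfsg.IsPBlock M B) (D : Subgroup G) (hD : Cfsg.IsDefectGroup p M B D) : Nat.card B = 2 ↔ Nat.card D = 2 := by
  rw [card_defectGroup hM hB hD]
  refine ⟨pow_defect_eq_two hM hB, fun h => ?_⟩
  obtain ⟨rfl, h1⟩ := (Nat.prime_two.pow_eq_iff).mp h
  exact (two_of_defect_one hM hB h1).1

end Cfsg.Agent.S4607
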