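import Cfsg.Statements.S4608
import Cfsg.Agent.Lib.Block.H10Five3
import Cfsg.Agent.Lib.Block.H11Sm
import Cfsg.Agent.Lib.Block.H11Bf

set_option autoImplicit false
open Cfsg

namespace Cfsg.Agent.S4608
open CA.H11Sm CA.H11Bf CA.H11Fb CA.H11Eta CA.H11Brg CA.H11Max CA.H11Amb CA.H11Pair CA.BlkCore CA.H11Star CA.H11NilB CA.BlkVal CA.BlkHeight CA.BlkQuo CA.H11Contrib MonoidAlgebra Subgroup

section
variable {M : Ideal AlgInt} {G : Type*} [Group G] [Fintype G] {B : Set (IrrCharacter G)}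
  {D : Subgroup G}

theorem odd_four (hM : IsPModular 2 M) (hB : IsPBlock M B) (hD : IsDefectGroup 2 M B D)
    (hc : ∀ a b : D, a * b = b * a) (h4 : Nat.card D ≤ 4) : ¬ 2 ∣ blockRank 2 B := by
  haveI := Fintype.ofFinite D
  rcases subsingleton_or_nontrivial D with _ | _
  · have h1 := card_defectGroup hM hB hD
    rw [Nat.card_unique, eq_comm, Nat.pow_eq_one, or_iff_right (by norm_num)] at h1
    have h2 := (blockRank_le_card (p := 2) B).trans (card_eq_one_of_defect_zero hM hB h1).le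
    have h3 := CA.BlkIBr.blockRank_pos hM hB
    omega
  obtain ⟨e, h⟩ := exists_mx (p_eq hM) (blk_eB hM hB) ((isDefectGroup_iff_top hM hB).1 hD)
  obtain ⟨E, F, h⟩ := fb_two hM hB h hc ((Finite.card_subtype_le _).trans h4) (MulEquiv.refl D)
  exact (exists_std F h).1 ▸ F.not_dvd

theorem odd_central (hM : IsPModular 2 M) (hB : IsPBlock M B) (hD : IsDefectGroup 2 M B D)
    (hc : ∀ a ∈ D, ∀ b ∈ D, a * b = b * a) (h8 : Nat.card D = 8) {z : G} (hz : z ∈ D) (h1 : z ≠ 1)
    (hz' : z ∈ center G) : ¬ 2 ∣ blockRank 2 B := by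
  have hz2 := zpowers_le.2 hz'
  haveI : (zpowers z).Normal := ⟨fun x hx g => by
    rwa [mem_center_iff.1 (hz2 hx) g, mul_inv_cancel_right]⟩
  haveI := Fintype.ofFinite (G ⧸ zpowers z)
  have hφ := QuotientGroup.mk'_surjective (zpowers z)
  have hk := QuotientGroup.ker_mk' (zpowers z)
  have hle := zpowers_le.2 hz
  have hp : IsPGroup 2 (QuotientGroup.mk' (zpowers z)).ker :=
    hk.symm ▸ (CA.BlkDefect.isPGroup_of_isDefectGroup hD).to_le hle
  have hc' := cent_of_center hφ hM.1 hp (hk.trans_le hz2)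
  rw [CA.BlkRk.blockRank_preimage hφ hM hp hc' (isSat_of_isPBlock hM hB)]
  refine odd_four hM (isPBlock_preimage_of_regular hφ hM hp hc' hB)
    (CA.BlkDom.isDefectGroup_preimage hφ hM hp hc' hB hD) ?_ ?_
  · rintro ⟨_, a, ha, rfl⟩ ⟨_, b, hb, rfl⟩
    exact Subtype.ext ((map_mul _ a b).symm.trans ((congrArg _ (hc a ha b hb)).trans (map_mul _ b a)))
  · have h2 := ((zpowers z).subgroupOf D).index_mul_card
    rw [Nat.card_congr (subgroupOfEquivOfLe hle).toEquiv, h8, Nat.card_zpowers] at h2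
    have h3 : orderOf z ≠ 1 := by simpa using h1
    have h4 := orderOf_pos z
    rw [← relIndex_ker, hk, relIndex]
    nlinarith [show 2 ≤ orderOf z by omega]

theorem par (hM : IsPModular 2 M) (hB : IsPBlock M B) (hD : IsDefectGroup 2 M B D)
    (hc : ∀ a ∈ D, ∀ b ∈ D, a * b = b * a) (h8 : Nat.card D = 8) :
    2 ∣ Nat.card B + blockRank 2 B + 1 := by
  classical
  haveI := Fintype.ofFinite D
  obtain ⟨e, h⟩ := exists_mx (p_eq hM) (blk_eB hM hB) ((isDefectGroup_iff_top hM hB).1 hD)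
  have hP : D ≤ CC D := fun x hx => mem_CC.2 fun y hy => hc y hy x hx
  choose b h1 h2 using exists_lB hM hB h
  have h3 : ∀ v : D, v ≠ 1 → ¬ 2 ∣ blockRank 2 (b v) := fun v hv => by
    have hD' : D ≤ centralizer ({(v : G)} : Set G) := mem_CC_iff_le.mp (hP v.2)
    have hs := lb_sub (p_eq hM) h.pr v.2
    have h4 := (h.local (p_eq hM) hs (le_inf le_top (hs.le.trans (hD'.trans (CC_zpowers _).ge))) le_rfl
      (hs.pr h.pr).C_le_St (le_inf le_top (hD'.trans (CC_zpowers _).ge))).isDef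
    rw [top_inf_eq, CC_zpowers, ← h2, ← isDefectGroup_iff_subgroupOf hM (h1 v).1 hD'] at h4
    haveI := Fintype.ofFinite (centralizer ({(v : G)} : Set G))
    exact odd_central hM (h1 v).1 h4 (fun a ha b hb => Subtype.ext (hc a ha b hb))
      ((Nat.card_congr (subgroupOfEquivOfLe hD').toEquiv).trans h8) (z := ⟨v, hD' v.2⟩) v.2
      (fun e => hv (Subtype.ext (Subtype.ext_iff.1 e :))) (CA.BlkBas.mem_center_of_le le_rfl _)
  let E := (act (MulEquiv.refl D) (St_le_NN (H := ⊤) (f := e))).range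
  have h4 : ¬ 2 ∣ Nat.card E := by
    have := h.not_dvd (p_eq hM)
    rwa [top_inf_eq, sup_eq_right.2 hP, ← card_range_act (MulEquiv.refl D) St_le_NN] at this
  have h5 : ∀ v : D, ∃ m, Nat.card E = nF 2 e v * m := fun v => by
    refine ⟨Nat.card (MulAction.stabilizer E v), ?_⟩
    rw [← (MulAction.stabilizer E v).index_mul_card, MulAction.index_stabilizer, ← Nat.card_coe_set_eq]
    refine congrArg (· * _) (Nat.card_congr (Equiv.subtypeEquivRight fun w => ?_))
    rw [fc_iff_of_central (p_eq hM) h v.2 (hP v.2) (hP w.2)]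
    constructor
    · rintro ⟨⟨_, t, rfl⟩, rfl⟩
      exact ⟨t, t.2, (coe_act (MulEquiv.refl D) St_le_NN t v).symm⟩
    · rintro ⟨t, ht, e⟩
      exact ⟨⟨_, ⟨t, ht⟩, rfl⟩, Subtype.ext ((coe_act (MulEquiv.refl D) St_le_NN ⟨t, ht⟩ v).trans e)⟩
  choose m h5 using h5
  have h6 : Nat.card E * Nat.card B = ∑ v, blockRank 2 (b v) * m v := by
    refine Nat.cast_injective (R := ℂ) ?_
    push_cast
    rw [card_eq_sum hM hB h h1 h2, Finset.mul_sum]
    refine Finset.sum_congr rfl fun v _ => ?_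
    have := nF_ne (p := 2) (e := e) v
    rw [h5 v]
    push_cast
    field_simp
  have odd : ∀ {n : ℕ}, ¬ 2 ∣ n → (n : ZMod 2) = 1 := fun h =>
    ZMod.natCast_eq_one_iff_odd.2 (Nat.odd_iff.2 (by omega))
  have h7 := congrArg (Nat.cast : ℕ → ZMod 2) h6
  push_cast at h7
  rw [odd h4, one_mul, Finset.sum_congr rfl fun v _ => by
    rw [odd fun e => h4 (h5 v ▸ e.mul_left _), mul_one], ← Finset.add_sum_erase _ _ (Finset.mem_univ 1),
    rank_one_eq hM hB h (h1 1).1 (h2 1), Finset.sum_congr rfl fun v hv =>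
    odd (h3 v (Finset.ne_of_mem_erase hv)), Finset.sum_const,
    Finset.card_erase_of_mem (Finset.mem_univ _), Finset.card_univ, ← Nat.card_eq_fintype_card,
    h8] at h7
  rw [← ZMod.natCast_eq_zero_iff]
  push_cast
  rw [h7]
  generalize (blockRank 2 B : ZMod 2) = x
  decide +revert

end

/-- Let G be a finite group, p a prime, M a maximal ideal of the algebraic integers containing p, and B a p-block of G with defect group D. If B has p-regular rank one and exactly five irreducible characters, then D is cyclic of order 5, or D has order 8 and is non-abelian (dihedral or quaternion). -/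
theorem result {G : Type*} [Group G] [Finite G] (p : ℕ) [Fact p.Prime] (M : Ideal Cfsg.AlgInt) (hM : Cfsg.IsPModular p M) (B : Set (Cfsg.IrrCharacter G)) (hB : Cfsg.IsPBlock M B) (D : Subgroup G) (hD : Cfsg.IsDefectGroup p M B D)
    (hl : Cfsg.blockRank p B = 1) (hk : Nat.card B = 5) :
    (Nat.card D = 5) ∨ (Nat.card D = 8 ∧ ¬ IsMulCommutative D) := by
  classical
  haveI := Fintype.ofFinite G
  obtain ⟨J, s, h1, h2, h3⟩ := CA.H10Sym.exists_rad hM hB hl
  have h4 := CA.H10Five3.five h1 (by omega)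
  obtain ⟨n, d, h5, -, h6⟩ := exists_of_rank_one hM hB hl
  have h7 : (Finset.univ.filter (· ∈ B)).card = 5 := by
    rw [← hk, Nat.card_eq_fintype_card, Fintype.card_subtype]
  have h8 := card_defectGroup hM hB hD
  have h9 : ∑ χ with χ ∈ B, d χ ^ 2 = ∑ χ with χ ∈ B, (1 + 3 * (d χ - 1)) := by
    refine Finset.sum_congr rfl fun χ hχ => ?_
    have a1 := (h5 χ (Finset.mem_filter.1 hχ).2).1
    have a2 := Finset.add_sum_erase _ (fun χ => d χ ^ 2) hχ
    have a3 := Finset.card_nsmul_le_sum ((Finset.univ.filter (· ∈ B)).erase χ) (fun χ => d χ ^ 2) 1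
      fun ψ hψ => Nat.one_le_pow _ _ (h5 ψ (Finset.mem_filter.1 (Finset.mem_of_mem_erase hψ)).2).1
    rw [Finset.card_erase_of_mem hχ, h7, smul_eq_mul] at a3
    have a4 : d χ ≤ 2 := by nlinarith
    interval_cases d χ <;> rfl
  rw [Finset.sum_add_distrib, ← Finset.mul_sum, Finset.sum_const, h7, smul_eq_mul] at h9
  refine (show Nat.card D = 5 ∨ Nat.card D = 8 by omega).imp_right fun h => ⟨h, fun hc => ?_⟩
  obtain rfl : p = 2 := by
    have : p ∣ 2 ^ 3 :=
      (dvd_pow_self p fun e => by rw [e, pow_zero] at h8; omega).trans (h8.symm.trans h).dvd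
    exact (Nat.prime_dvd_prime_iff_eq hM.1 Nat.prime_two).1 (hM.1.dvd_of_dvd_pow this)
  have := par hM hB hD (fun a ha b hb => setLike_mul_comm ha hb) h
  omega

end Cfsg.Agent.S4608
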