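import Cfsg.Statements.S4611
import Cfsg.Agent.Lib.Block.BlkQuo
import Cfsg.Agent.Lib.Grp.Fitting

set_option autoImplicit false
open Cfsg

namespace Cfsg.Agent.S4611
open CA.BlkKer CA.BlkQuo CA.BlkCore CA.Core CA.Fitting CChar.CharKer Subgroup

/-- Let G be a finite solvable group and π a nonempty set of primes, each dividing the order of G; fix for each p in π a maximal ideal M p of the algebraic integers containing p. Then the only irreducible character lying in the principal p-block for every p in π is the principal character if and only if G is generated by the subgroups O_{p'}(G), p in π (the largest normal subgroups of order prime to p). -/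
theorem result {G : Type*} [Group G] [Finite G] [Group.IsSolvable G] (π : Set ℕ) (hπ : ∀ p ∈ π, p.Prime ∧ p ∣ Nat.card G) (hne : π.Nonempty) (M : ℕ → Ideal Cfsg.AlgInt) (hM : ∀ p ∈ π, Cfsg.IsPModular p (M p)) :
    (∀ χ : Cfsg.IrrCharacter G, (∀ p ∈ π, χ ∈ Cfsg.principalBlock (M p) G) → (χ : G → ℂ) = fun _ => 1) ↔
      ⨆ p ∈ π, Cfsg.pPrimeCore p G = ⊤ := by
  have key : ∀ (χ : IrrCharacter G), ∀ p ∈ π, χ ∈ principalBlock (M p) G ↔
      pPrimeCore p G ≤ charKer χ.1 := fun χ p hp => by
    haveI : Fact p.Prime := ⟨(hπ p hp).1⟩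
    refine ⟨fun h => kerB_principalBlock (G := G) (hM p hp) ▸ kerB_le h, fun h => ?_⟩
    obtain ⟨ψ, rfl⟩ := (exists_infl_iff (QuotientGroup.mk'_surjective (pPrimeCore p G))).2
      (by rwa [QuotientGroup.ker_mk'])
    exact infl_mem_principal _ (hM p hp) (sameBlock_of_constrained (hM p hp)
      (centralizer_pCore_le p pPrimeCore_quotient_pPrimeCore) (CChar.CharOrth.irrOne _) ψ)
  refine ⟨fun h => eq_top_iff.2 fun g _ => by_contra fun hg => ?_, fun h χ hχ => ?_⟩
  · obtain ⟨χ, h1, h2, h3⟩ := exists_irr_of_not_mem hg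
    have := h ⟨χ, h1⟩ fun p hp => (key _ p hp).2 ((le_iSup₂_of_le p hp le_rfl).trans h2)
    exact h3 (by rw [(charKer_eq_top_iff h1).2 this]; trivial)
  · exact (charKer_eq_top_iff χ.2).1 (eq_top_iff.2 (h ▸ iSup₂_le fun p hp => (key χ p hp).1 (hχ p hp)))

end Cfsg.Agent.S4611
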