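import Cfsg.Statements.S4620
import Cfsg.Agent.Lib.Loc.AmbChar
import Cfsg.Agent.Lib.Loc.LBal2
import Cfsg.Agent.Lib.Grp.H13Inv
import Cfsg.Agent.Lib.Grp.SEmb
-- import your own Cfsg.Agent.* helpers here

set_option autoImplicit false
open scoped Pointwise
open Cfsg

namespace Cfsg.Agent.S4620

/-- Let H be a finite group with no nontrivial normal p-subgroup and no nontrivial normal subgroup of order prime to p, whose Sylow p-subgroup P is nontrivial and a trivial-intersection set (P meets its conjugates by elements outside N_H(P) trivially). Then H has a unique minimal normal subgroup N; N is non-abelian simple with trivial centralizer in H (so H embeds in Aut(N)), and a Sylow p-subgroup of N is again a nontrivial trivial-intersection set in N. -/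
theorem result {H : Type*} [Group H] [Finite H] (p : ℕ) [Fact p.Prime] (hOp : Cfsg.pCore p H = ⊥) (hOp' : Cfsg.pPrimeCore p H = ⊥) (P : Sylow p H) (hP1 : (P : Subgroup H) ≠ ⊥)
    (hTI : ∀ g : H, g ∉ Subgroup.normalizer ((P : Subgroup H) : Set H) → (P : Subgroup H) ⊓ (MulAut.conj g • (P : Subgroup H)) = ⊥) :
    ∃ N : Subgroup H, N.Normal ∧ N ≠ ⊥ ∧ (∀ K : Subgroup H, K.Normal → K ≠ ⊥ → N ≤ K) ∧
      IsSimpleGroup N ∧ ¬ IsMulCommutative N ∧ Subgroup.centralizer (N : Set H) = ⊥ ∧
      ∀ Q : Sylow p N, (Q : Subgroup N) ≠ ⊥ ∧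
        ∀ n : N, n ∉ Subgroup.normalizer ((Q : Subgroup N) : Set N) → (Q : Subgroup N) ⊓ (MulAut.conj n • (Q : Subgroup N)) = ⊥ := by
  open Subgroup Cfsg CA CA.Amb CA.AmbSyl CA.AmbCore CA.AmbRes CA.AmbChar CA.AmbFs CA.AmbSpe CA.AmbIso CA.LBal CA.LBal2 CA.Comp CA.PComp in
  open scoped commutatorElement in
  (
    have ti : ∀ T : Subgroup H, SylIn p T ⊤ → ∀ g, T ⊓ cj g T ≠ ⊥ → g ∈ 𝐍 T := fun T hT g hg => by
      obtain ⟨h, -, rfl⟩ := (sylIn_top P).exists_conj hT
      by_contra n
      have := hTI (h⁻¹ * g * h) fun k => n (by rw [← cj_normalizer]; exact mem_cj.2 k)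
      rw [smul_eq_cj] at this
      refine hg ?_
      rw [← cj_eq_bot (g := h⁻¹), cj_inf, cj_inv_cj, cj_cj, cj_cj]
      exact this
    have F : fittingSubgroup H = ⊥ := by rw [Fitting.fitting_eq_pCore_of_pPrimeCore_eq_bot p hOp', hOp]
    have E := Fstar.fstar_eq_layer_of_fitting_eq_bot F
    have : Nontrivial H := by
      by_contra n
      rw [not_nontrivial_iff_subsingleton] at n
      exact hP1 (Subsingleton.elim _ _)
    obtain ⟨K, hK⟩ := exists_comp_of_layer_ne_bot (E ▸ Fstar.fstar_ne_bot (G := H))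
    have Z : ∀ L : Subgroup H, IsComponent L → L ⊓ 𝐂 L = ⊥ := fun L hL =>
      le_bot_iff.1 (F ▸ comp_inf_centralizer_le_fitting hL)
    have S : ∀ L : Subgroup H, IsComponent L → SylIn p ((P : Subgroup H) ⊓ L) L := fun L hL =>
      (sn_top_iff.2 hL.1).sylIn_inf (sylIn_top P)
    have u : ∀ L : Subgroup H, IsComponent L → L = K := fun L hL => by
      by_contra ne
      have c := comp_le_centralizer_of_ne hL hK ne
      have n : L ≤ 𝐍 (P : Subgroup H) := fun g hg => ti _ (sylIn_top P) g fun e =>
        (S K hK).ne_bot (comp_dvd_card hOp' hK) (le_bot_iff.1 (e ▸ le_inf inf_le_left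
          ((cj_eq_self (norm_of_centralizer (c.trans (centralizer_anti inf_le_right)) hg)).ge.trans
            (cj_mono g inf_le_left))))
      rcases Quasi.qs_of_le_normalizer hL.2 (H := (P : Subgroup H) ⊓ L) inf_le_right
        (norm_inf n le_normalizer) with e | e
      · exact Quasi.qs_not_le_solvable hL.2 (isSolvable_of_isPGroup P.2) (e.ge.trans inf_le_left)
      · exact (S L hL).ne_bot (comp_dvd_card hOp' hL) (le_bot_iff.1 (Z L hL ▸ le_inf inf_le_right e))
    have e : layer H = K := le_antisymm (layer_le fun L hL => (u L hL).le) (le_layer hK)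
    have C : 𝐂 K = ⊥ := le_bot_iff.1 (by rw [← e, ← E, ← F]; exact Fstar.centralizer_fstar_le_fitting)
    have nK : K.Normal := e ▸ layer_normal
    have z : center K = ⊥ := by
      rw [← map_eq_bot_iff_of_injective _ K.subtype_injective, map_subtype_center, Z K hK]
    refine ⟨K, nK, comp_ne_bot hK, fun N hN h1 => ?_, Quasi.simple_of_qs_of_center_eq_bot hK.2 z, fun h =>
      Quasi.qs_not_isSolvable hK.2 (Core.isSolvable_of_isMulCommutative h), C, fun Q => ⟨fun h => ?_, fun n hn => ?_⟩⟩
    · rcases comp_le_or_le_centralizer hK hN.isSubnormal with h | h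
      · exact h
      · exact absurd (le_bot_iff.1 (C ▸ cent_symm h)) h1
    · exact (sylIn_sylow Q).ne_bot (comp_dvd_card hOp' hK) (by rw [h, Subgroup.map_bot])
    · obtain ⟨T, hT, l⟩ := exists_sylIn_ge (sylIn_sylow Q).pg (le_top (a := (Q : Subgroup K).map K.subtype))
      have q : T ⊓ K = (Q : Subgroup K).map K.subtype :=
        (sylIn_sylow Q).max (hT.pg.to_le inf_le_left) (le_inf l (map_subtype_le _)) inf_le_right
      by_contra ne
      refine hn ?_
      have m : (n : H) ∈ 𝐍 T := ti T hT n fun e => ne (by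
        rw [smul_eq_cj, ← map_eq_bot_iff_of_injective _ K.subtype_injective, ← le_bot_iff, ← e]
        refine le_inf ((map_mono inf_le_left).trans l) ((map_mono inf_le_right).trans ?_)
        rw [map_cj]
        exact cj_mono _ l)
      have m' : (n : H) ∈ (𝐍 (Q : Subgroup K)).map K.subtype := by
        rw [map_subtype_normalizer, ← q]
        exact ⟨n.2, norm_inf (zle m) norm_of_normal (mem_zpowers _)⟩
      exact (mem_map_iff_mem K.subtype_injective).1 m')

end Cfsg.Agent.S4620
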