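import Cfsg.Statements.S4630
import Cfsg.Agent.Lib.Lin.H10Syl

set_option autoImplicit false
open Cfsg

namespace Cfsg.Agent.S4630
open CA.H10Wr CA.H10Syl CA.CForm CA.CForm.Form

/-- Let F be a finite field of odd order and m ≥ 1 with m even or m ≥ 4. For the commutator subgroup Ω of the isometry group of the plus-type quadratic form Σ_{i<m} x_i y_i in dimension 2m over F, a Sylow 2-subgroup P of Ω has P/P' elementary abelian: the square of every element of P lies in the derived subgroup of P. -/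
theorem result {F : Type*} [Field F] [Fintype F] (hF : Odd (Fintype.card F)) (m : ℕ) (hm : 1 ≤ m) (hm' : Even m ∨ 4 ≤ m) (P : Sylow 2 (Cfsg.Omega F (Cfsg.quadFormPlus m F))) : ∀ x : (P : Subgroup (Cfsg.Omega F (Cfsg.quadFormPlus m F))), x ^ 2 ∈ commutator (P : Subgroup (Cfsg.Omega F (Cfsg.quadFormPlus m F))) := by
  have h2 := two_ne_zero_iff_odd.2 hF
  obtain ⟨k, rfl⟩ := Nat.exists_eq_add_of_le' hm
  refine ((sea_even h2 (plusForm_nondeg F (k + 1)) (m := k) (finrank_plus _) ?_).of_equiv
    (omegaEquiv (plusForm F (k + 1))).symm).out P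
  by_cases h : 3 ≤ k
  · exact .inl h
  · obtain rfl : k = 1 := by rw [Nat.even_iff] at hm'; omega
    refine .inr ⟨rfl, (isSquare_disc_plus_iff h2 _).2 ?_⟩
    obtain ⟨a, ha⟩ := hF
    rw [ha, show (2 * a + 1) ^ (1 + 1) = 4 * (a * a + a) + 1 by ring]
    omega

end Cfsg.Agent.S4630
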