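import Cfsg.Statements.S4632
import Cfsg.Agent.Lib.Lie.H19G2b
import Cfsg.Agent.Lib.Lin.H10Syl

set_option autoImplicit false
open Cfsg

namespace Cfsg.Agent.S4632

open CA CA.H19G2 CA.H10Wr CA.H10Syl CA.SylIn Matrix Subgroup
open scoped MatrixGroups

section
variable {F : Type*} [Field F]

theorem ker_Phi {g : Gm F} : Phi g = 1 ↔ ∃ c : Fˣ, g.1 = (GeneralLinearGroup.scalar _ c, GeneralLinearGroup.scalar _ c) := by
  obtain ⟨⟨u, v⟩, hg⟩ := g
  constructor
  · intro h
    have key : ∀ y, cdA u v y = y := fun y => by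
      have := enc_Phi ⟨(u, v), hg⟩ (enc.symm y)
      rw [h, one_smul, LinearEquiv.apply_symm_apply] at this
      exact this.symm
    have h1 : ∀ A : M2 F, (v : M2 F) * A = A * u := fun A => by
      have := congrArg (fun y => y.2 * (u : M2 F)) (key (0, A))
      simpa [cdA, mul_assoc, -Matrix.coe_units_inv] using this
    have h2 : v = u := Units.ext (by simpa using h1 1)
    subst h2
    have h3 : v ∈ center (GL (Fin 2) F) := mem_center_iff.2 fun w => Units.ext (h1 w).symm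
    rw [GeneralLinearGroup.center_eq_range_scalar] at h3
    obtain ⟨c, rfl⟩ := h3
    exact ⟨c, rfl⟩
  · rintro ⟨c, hc⟩
    obtain ⟨rfl, rfl⟩ := Prod.ext_iff.1 hc
    refine ext_smul fun x => enc.injective ?_
    rw [enc_Phi, one_smul]
    have h1 : ∀ A : M2 F, ((GeneralLinearGroup.scalar (Fin 2) c : GL (Fin 2) F) : M2 F) * A *
        ((GeneralLinearGroup.scalar (Fin 2) c)⁻¹ : GL (Fin 2) F) = A := fun A => by
      rw [show ((GeneralLinearGroup.scalar (Fin 2) c : GL (Fin 2) F) : M2 F) * A =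
        A * ((GeneralLinearGroup.scalar (Fin 2) c : GL (Fin 2) F) : M2 F) from
          (Matrix.scalar_commute (c : F) (fun _ => Commute.all _ _) A).eq, mul_assoc, Units.mul_inv, mul_one]
    simp only [cdA, LinearMap.coe_mk, AddHom.coe_mk, h1]

theorem exists_s [Fintype F] (h2 : (2 : F) ≠ 0) : ∃ (s : GL (Fin 2) F) (μ : Fˣ) (k : ℕ),
    s ^ 2 = GeneralLinearGroup.scalar _ μ ∧ s ^ 2 ^ k = 1 ∧ ¬ IsSquare ((GeneralLinearGroup.det s : Fˣ) : F) := by
  classical
  have hc : ringChar F ≠ 2 := by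
    intro h; apply h2
    have := ringChar.Nat.cast_ringChar (R := F)
    rw [h] at this; exact_mod_cast this
  obtain ⟨a, ha⟩ := FiniteField.exists_nonsquare hc
  have ha0 : a ≠ 0 := by rintro rfl; exact ha IsSquare.zero
  obtain ⟨k, m, hm, e⟩ := Nat.exists_eq_two_pow_mul_odd (n := Fintype.card F - 1)
    (by have := Fintype.one_lt_card (α := F); omega)
  have hb : ¬ IsSquare (a ^ m) := by
    obtain ⟨j, rfl⟩ := hm
    rintro ⟨r, hr⟩
    exact ha ⟨r / a ^ j, by field_simp; rw [pow_two r, ← hr]; ring⟩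
  have hb0 : a ^ m ≠ 0 := pow_ne_zero _ ha0
  have hb1 : (a ^ m) ^ 2 ^ k = 1 := by
    rw [← pow_mul, mul_comm, ← e]; exact FiniteField.pow_card_sub_one_eq_one a ha0
  generalize a ^ m = b at hb hb0 hb1
  let s : GL (Fin 2) F := GeneralLinearGroup.mkOfDetNeZero !![0, -b; 1, 0] (by simpa [det_fin_two_of] using hb0)
  have hs : s ^ 2 = GeneralLinearGroup.scalar _ (-Units.mk0 b hb0) := by
    apply Units.ext
    ext i j; fin_cases i <;> fin_cases j <;> simp [s, pow_two, Matrix.mul_apply]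
  refine ⟨s, _, k + 2, hs, ?_, by simpa [s, det_fin_two_of] using hb⟩
  rw [pow_succ' 2 (k + 1), pow_mul, hs, ← map_pow, pow_succ', pow_mul, neg_sq, ← pow_mul, mul_comm, pow_mul,
    show Units.mk0 b hb0 ^ 2 ^ k = 1 from Units.ext (by simpa using hb1), one_pow, map_one]

theorem pg_zpowers {G : Type*} [Group G] {s : G} {k : ℕ} (h : s ^ 2 ^ k = 1) : IsPGroup 2 (zpowers s) := by
  rintro ⟨_, j, rfl⟩
  refine ⟨k, Subtype.ext ?_⟩
  show (s ^ j) ^ 2 ^ k = 1
  rw [← zpow_natCast, ← _root_.zpow_mul, mul_comm, _root_.zpow_mul, zpow_natCast, h, _root_.one_zpow]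

theorem det_scalar (c : Fˣ) : GeneralLinearGroup.det (GeneralLinearGroup.scalar (Fin 2) c) = c ^ 2 :=
  Units.ext (by simp)

end

/-- Let F be a finite field of odd order and G₂(F) the automorphism group of the split octonion algebra over F (realized on F⁸ with the Zorn vector-matrix multiplication). A Sylow 2-subgroup P of G₂(F) has P/P' elementary abelian: the square of every element of P lies in the derived subgroup of P. -/
theorem result {F : Type*} [Field F] [Fintype F] (hF : Odd (Fintype.card F)) (P : Sylow 2 (Cfsg.Lie.G2 F)) : ∀ x : (P : Subgroup (Cfsg.Lie.G2 F)), x ^ 2 ∈ commutator (P : Subgroup (Cfsg.Lie.G2 F)) := by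
  classical
  have h2 : (2 : F) ≠ 0 := CA.CForm.two_ne_zero_iff_odd.2 hF
  obtain ⟨s, μ, k, hs2, hsk, hsn⟩ := exists_s h2
  obtain ⟨D, hD⟩ := (pg_zpowers hsk).exists_le_sylow
  have hsD : s ∈ (D : Subgroup (GL (Fin 2) F)) := hD (mem_zpowers s)
  let R : Subgroup (Gm F) := ((D : Subgroup (GL (Fin 2) F)).prod D).subgroupOf (Gm F)
  have hR : IsPGroup 2 R := by
    rintro ⟨⟨⟨u, v⟩, hg⟩, hu, hv⟩
    obtain ⟨a, ha⟩ := D.isPGroup' ⟨u, hu⟩
    obtain ⟨b, hb⟩ := D.isPGroup' ⟨v, hv⟩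
    have ha' : u ^ 2 ^ a = 1 := congrArg Subtype.val ha
    have hb' : v ^ 2 ^ b = 1 := congrArg Subtype.val hb
    refine ⟨a + b, Subtype.ext (Subtype.ext (Prod.ext ?_ ?_))⟩
    · show u ^ 2 ^ (a + b) = 1
      rw [pow_add, pow_mul, ha', one_pow]
    · show v ^ 2 ^ (a + b) = 1
      rw [pow_add, mul_comm, pow_mul, hb', one_pow]
  have hsc : ∀ c : Fˣ, ∀ j, c ^ 2 ^ j = 1 → GeneralLinearGroup.scalar (Fin 2) c ∈ (D : Subgroup (GL (Fin 2) F)) := by
    intro c j hc
    have hz : zpowers (GeneralLinearGroup.scalar (Fin 2) c) ≤ center (GL (Fin 2) F) := by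
      rw [zpowers_le, GeneralLinearGroup.center_eq_range_scalar]; exact ⟨c, rfl⟩
    haveI : (zpowers (GeneralLinearGroup.scalar (Fin 2) c)).Normal :=
      ⟨fun n hn g => by rw [mem_center_iff.1 (hz hn) g, mul_inv_cancel_right]; exact hn⟩
    exact IsPGroup.le_sylow_of_normal (N := zpowers (GeneralLinearGroup.scalar (Fin 2) c))
      (pg_zpowers (k := j) (by rw [← map_pow, hc, map_one])) D (mem_zpowers _)
  let i1 : S2 F →* Gm F := ((MonoidHom.inl _ _).comp (S2 F).subtype).codRestrict _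
    fun u => mem_Gm.2 (by rw [map_one]; exact u.2)
  let i2 : S2 F →* Gm F := ((MonoidHom.inr _ _).comp (S2 F).subtype).codRestrict _
    fun u => mem_Gm.2 (by rw [map_one]; exact u.2.symm)
  have hS : EA 2 ((D : Subgroup (GL (Fin 2) F)).subgroupOf (S2 F)) :=
    EA.of_map (S2 F).subtype_injective (by rw [subgroupOf_map_subtype]; exact ea_S2 h2 D)
  have hO : ∀ i : S2 F →* Gm F, (∀ u : S2 F, u.1 ∈ (D : Subgroup (GL (Fin 2) F)) → i u ∈ R) →
      ∀ u : S2 F, u.1 ∈ (D : Subgroup (GL (Fin 2) F)) → Phi (i u) ∈ Om 2 (R.map Phi) := by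
    intro i hi u hu
    refine (hS.map (Phi.comp i)).le_Om ?_ ⟨u, hu, rfl⟩
    rintro _ ⟨w, hw, rfl⟩
    exact ⟨i w, hi w hw, rfl⟩
  have o1 := hO i1 fun u hu => ⟨hu, one_mem _⟩
  have o2 := hO i2 fun u hu => ⟨one_mem _, hu⟩
  have hsq : ∀ g ∈ R, IsSquare ((GeneralLinearGroup.det g.1.1 : Fˣ) : F) → Phi g ∈ Om 2 (R.map Phi) := by
    rintro ⟨⟨u, v⟩, hg⟩ ⟨hu, hv⟩ ⟨r, hr⟩
    simp only at hu hv hr
    have hr0 : r ≠ 0 := by rintro rfl; exact Units.ne_zero _ (hr.trans (mul_zero _))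
    have hc : GeneralLinearGroup.det u = Units.mk0 r hr0 ^ 2 := Units.ext (by rw [hr]; simp [pow_two])
    generalize Units.mk0 r hr0 = c at hc
    obtain ⟨a, ha⟩ := D.isPGroup' ⟨u, hu⟩
    have ha' : u ^ 2 ^ a = 1 := congrArg Subtype.val ha
    have hcD := hsc c (a + 1) (by rw [pow_succ', pow_mul, ← hc, ← map_pow, ha', map_one])
    let u' : S2 F := ⟨u * (GeneralLinearGroup.scalar (Fin 2) c)⁻¹, by
      rw [MonoidHom.mem_ker, map_mul, map_inv, det_scalar, hc, mul_inv_cancel]⟩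
    let v' : S2 F := ⟨v * (GeneralLinearGroup.scalar (Fin 2) c)⁻¹, by
      rw [MonoidHom.mem_ker, map_mul, map_inv, det_scalar, ← mem_Gm.1 hg, hc, mul_inv_cancel]⟩
    have e : (⟨(u, v), hg⟩ : Gm F) = i1 u' * i2 v' *
        ⟨(GeneralLinearGroup.scalar _ c, GeneralLinearGroup.scalar _ c), mem_Gm.2 rfl⟩ :=
      Subtype.ext (Prod.ext (show u = u * _⁻¹ * 1 * _ by simp) (show v = 1 * (v * _⁻¹) * _ by simp))
    rw [e, map_mul, map_mul, (ker_Phi (g := ⟨(_, _), mem_Gm.2 rfl⟩)).2 ⟨c, rfl⟩, mul_one]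
    exact mul_mem (o1 u' (mul_mem hu (inv_mem hcD))) (o2 v' (mul_mem hv (inv_mem hcD)))
  let t : Gm F := ⟨(s, s), mem_Gm.2 rfl⟩
  have htR : t ∈ R := ⟨hsD, hsD⟩
  have ht : Phi t ∈ Om 2 (R.map Phi) := mem_Om.2 ⟨⟨t, htR, rfl⟩, by
    rw [← map_pow, ker_Phi.2 ⟨μ, Prod.ext hs2 hs2⟩]; exact one_mem _⟩
  have hEA : EA 2 (R.map Phi) := by
    apply ea_of_le_Om
    rintro _ ⟨g, hg, rfl⟩
    by_cases h : IsSquare ((GeneralLinearGroup.det g.1.1 : Fˣ) : F)
    · exact hsq g hg h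
    · have h3 := hsq (g * t) (mul_mem hg htR) (by
        rw [show (g * t).1.1 = g.1.1 * s from rfl, map_mul, Units.val_mul, ← quadraticChar_one_iff_isSquare
          (mul_ne_zero (Units.ne_zero _) (Units.ne_zero _)), map_mul, quadraticChar_neg_one_iff_not_isSquare.2 h,
          quadraticChar_neg_one_iff_not_isSquare.2 hsn]; rfl)
      rw [map_mul] at h3
      simpa using mul_mem h3 (inv_mem ht)
  refine (sea_top (isSylowIn_of_card (hR.map Phi) ?_) hEA).out P
  have hq : 1 < Nat.card F := Finite.one_lt_card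
  have ho := odd_card h2
  have n2 := sub_ne hq two_ne_zero
  have n6 := sub_ne hq (show 2 * 3 ≠ 0 by norm_num)
  have n1 : Nat.card F - 1 ≠ 0 := by omega
  have v1 := (Nat.factorization_le_iff_dvd Nat.card_pos.ne' (mul_ne_zero (mul_ne_zero (pow_ne_zero 6 (by omega)) n2)
    n6)).2 (card_G2_dvd (F := F)) 2
  rw [v_mul (mul_ne_zero (pow_ne_zero 6 (by omega)) n2) n6, v_mul (pow_ne_zero 6 (by omega)) n2, v_odd ho,
    v_even ho hq (by norm_num), Nat.factorization_eq_zero_of_not_dvd (n := 3) (by norm_num)] at v1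
  have c1 : Nat.card R = Nat.card (D : Subgroup (GL (Fin 2) F)) *
      Nat.card ((D : Subgroup (GL (Fin 2) F)) ⊓ S2 F : Subgroup _) := by
    rw [← Nat.card_prod]
    refine Nat.card_congr ⟨fun g => (⟨g.1.1.1, g.2.1⟩, ⟨g.1.1.1⁻¹ * g.1.1.2, (D : Subgroup (GL (Fin 2) F)).mul_mem ((D : Subgroup (GL (Fin 2) F)).inv_mem g.2.1) g.2.2, ?_⟩),
      fun y => ⟨⟨(y.1.1, y.1.1 * y.2.1), mem_Gm.2 ?_⟩, y.1.2, mul_mem y.1.2 y.2.2.1⟩, ?_, ?_⟩
    · show GeneralLinearGroup.det _ = 1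
      rw [map_mul, map_inv, ← mem_Gm.1 g.1.2, inv_mul_cancel]
    · rw [map_mul, show GeneralLinearGroup.det y.2.1 = 1 from y.2.2.2, mul_one]
    · intro g; simp
    · intro y; simp
  have c2 : Nat.card R = Nat.card (R.map Phi) * Nat.card (Phi.comp R.subtype).ker := by
    rw [show R.map Phi = (Phi.comp R.subtype).range by rw [MonoidHom.range_comp, range_subtype],
      ← Subgroup.index_ker, mul_comm, Subgroup.card_mul_index]
  have c3 : Nat.card (Phi.comp R.subtype).ker ∣ Nat.card F - 1 := by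
    rw [← Nat.card_units, ← SLnCard.card_center_GL (n := Fin 2)]
    refine card_dvd_of_injective ((((MonoidHom.fst _ _).comp ((Gm F).subtype.comp (R.subtype.comp
      (Subgroup.subtype _)))).codRestrict _ fun g => ?_) : _ →* center (GL (Fin 2) F)) ?_
    · obtain ⟨c, hc⟩ := ker_Phi.1 g.2
      rw [GeneralLinearGroup.center_eq_range_scalar]
      exact ⟨c, (congrArg Prod.fst hc).symm⟩
    · rw [injective_iff_map_eq_one]
      intro g hg
      obtain ⟨c, hc⟩ := ker_Phi.1 g.2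
      have h1 : g.1.1.1.1 = 1 := congrArg Subtype.val hg
      have h3 : g.1.1.1.2 = g.1.1.1.1 := (congrArg Prod.snd hc).trans (congrArg Prod.fst hc).symm
      exact Subtype.ext (Subtype.ext (Subtype.ext (Prod.ext h1 (h3.trans h1))))
  have v2 := (Nat.factorization_le_iff_dvd Nat.card_pos.ne' n1).2 c3 2
  have v3 := congrArg (fun n => n.factorization 2) (c1.symm.trans c2)
  simp only [v_mul Nat.card_pos.ne' Nat.card_pos.ne', fact_sylow] at v3
  have v4 := v_odd ho 1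
  rw [pow_one] at v4
  rw [SLnCard.card_GL2, v_mul n1 (mul_ne_zero (by omega) n2), v_mul (by omega) n2, v4] at v3
  have v5 : (Nat.card ((D : Subgroup (GL (Fin 2) F)) ⊓ S2 F : Subgroup _)).factorization 2 =
      (Nat.card F ^ 2 - 1).factorization 2 := by
    rw [← v_SL2 h2, Nat.card_congr SLnCard.slEquivKer.toEquiv,
      ← fact_sylow (isSylowIn_inf_normal D (S2 F)).toSylow, IsSylowIn.coe_toSylow,
      Nat.card_congr (subgroupOfEquivOfLe inf_le_right).toEquiv]
  omega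

end Cfsg.Agent.S4632
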