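import Cfsg.Statements.S4741
import Cfsg.Agent.Lib.Block.BlkRob
import Cfsg.Agent.Lib.Block.BlkKer

set_option autoImplicit false
open Cfsg

namespace Cfsg.Agent.S4741
open Cfsg MonoidAlgebra CA.BlkAlg CA.BlkVal CA.BlkOmega CA.BlkRed CA.BlkCore CA.BlkDefect CA.BlkInd CA.BlkHeight CA.SylIn CA.H12PPart CChar.CharFun CChar.CharOrth Subgroup CA.BlkKer CChar.CharKer CA.BlkZero CChar.CharInt CA.BlkReg CA.BlkRob

/-- Let p be a prime, M a maximal ideal of the algebraic integers containing p, and D a subgroup of the finite group G. Let x₁, …, x_r be pairwise non-conjugate elements of G such that D is a Sylow p-subgroup of the centralizer of each xᵢ, and such that for any conjugates g of some xᵢ and h of some xⱼ the element g h⁻¹ is never a non-identity p-element. Then there are r distinct p-blocks B₁, …, B_r of G, each having D as a defect group, such that for every choice of characters χᵢ ∈ Bᵢ of height zero the determinant of the r × r matrix (χᵢ(xⱼ)) does not lie in the local ideal at M. -/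
theorem result {G : Type*} [Group G] [Finite G] (p : ℕ) [Fact p.Prime] (M : Ideal Cfsg.AlgInt) (hM : Cfsg.IsPModular p M) (D : Subgroup G) {r : ℕ} (x : Fin r → G) (hx : ∀ i j : Fin r, IsConj (x i) (x j) → i = j) (hD : ∀ i : Fin r, ∃ S : Sylow p ↥(Subgroup.centralizer ({x i} : Set G)), (S : Subgroup ↥(Subgroup.centralizer ({x i} : Set G))).map (Subgroup.centralizer ({x i} : Set G)).subtype = D) (hsep : ∀ i j : Fin r, ∀ g h : G, IsConj (x i) g → IsConj (x j) h → ∀ k : ℕ, 0 < k → orderOf (g * h⁻¹) ≠ p ^ k) : ∃ B : Fin r → Set (Cfsg.IrrCharacter G), Function.Injective B ∧ (∀ i : Fin r, Cfsg.IsPBlock M (B i) ∧ Cfsg.IsDefectGroup p M (B i) D) ∧ ∀ χ : Fin r → Cfsg.IrrCharacter G, (∀ i : Fin r, χ i ∈ B i ∧ Cfsg.blockHeight p (B i) (χ i : G → ℂ) = 0) → ¬ Cfsg.MemLocalIdeal M (Matrix.det (Matrix.of fun i j : Fin r => (χ i : G → ℂ) (x j))) := by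
  classical
  simp only [exists_sylow_map_eq_iff'] at hD
  obtain ⟨S, hS⟩ := exists_isSylowIn p (⊤ : Subgroup G)
  haveI := Fintype.ofFinite (BD p M D)
  have h1 := cnt_matrix hM hS (x := x) fun i => ⟨x i, IsConj.refl _, hD i⟩
  have h2 : (Matrix.of fun i j => ((cnt S (x i) (x j) /
      p ^ ((Nat.card G).factorization p - (Nat.card D).factorization p) : ℕ) : k M)) =
      Matrix.diagonal fun i => (((centralizer ({x i} : Set G)).index /
        p ^ ((Nat.card G).factorization p - cd p (x i)) : ℕ) : k M) := by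
    ext i j
    rw [Matrix.of_apply, cnt_eq_of_forall S.one_mem, Matrix.diagonal_apply,
      cd_eq_of_isSylowIn (hD i)]
    · by_cases h : i = j
      · rw [if_pos h, if_pos (h ▸ IsConj.refl _)]
      · rw [if_neg h, if_neg fun h' => h (hx i j h'), Nat.zero_div, Nat.cast_zero]
    · intro g g' hg hg' h
      obtain ⟨n, hn⟩ := IsPGroup.iff_orderOf.mp hS.isPGroup ⟨_, h⟩
      rw [← orderOf_coe] at hn
      rcases n with - | n
      · exact mul_inv_eq_one.mp (orderOf_eq_one_iff.mp hn)
      · exact absurd hn (hsep j i g' g hg' hg _ n.succ_pos)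
  have h0 := congrArg Matrix.det (h1.symm.trans h2)
  rw [Matrix.det_diagonal] at h0
  obtain ⟨σ, hσ, h3⟩ := exists_rows_of_det_ne_zero (h0.trans_ne
    (Finset.prod_ne_zero_iff.mpr fun i _ => by
      rw [Ne, natCast_k_eq_zero_iff hM]; exact not_dvd_index_div hM.1 _))
  refine ⟨fun i => (σ i).1, Subtype.val_injective.comp hσ, fun i => (σ i).2, fun χ hχ => ?_⟩
  let q : ℂ := D.index
  have hq : q ≠ 0 := Nat.cast_ne_zero.mpr index_ne_zero_of_finite
  have ha : ∀ i, v M (q / (χ i).1 1) = 1 := fun i => by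
    rw [v_div_eq_one_iff (irr_apply_one_ne_zero (χ i).2),
      (height_zero_iff_index hM (σ i).2.1 (σ i).2.2 (hχ i).1).mp (hχ i).2]
  have hb : ∀ j, v M (((centralizer ({x j} : Set G)).index : ℂ) / q) = 1 := fun j => by
    rw [v_div_eq_one_iff hq, v_index_centralizer hM, v_natCast hM index_ne_zero_of_finite,
      cd_eq_of_isSylowIn (hD j)]
    have := factorization_index_add D p
    congr 1
    omega
  have h4 : (lamM M (fun B : BD p M D => B.1) x).submatrix σ id =
      Matrix.diagonal (fun i => res M (q / (χ i).1 1)) *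
        (Matrix.of fun i j => res M ((χ i).1 (x j))) *
        Matrix.diagonal fun j => res M (((centralizer ({x j} : Set G)).index : ℂ) / q) := by
    ext i j
    simp only [Matrix.mul_diagonal, Matrix.diagonal_mul, Matrix.submatrix_apply, lamM,
      Matrix.of_apply, id]
    rw [lam_eq_of_mem hM (σ i).2.1 (rep_mem hM (σ i).2.1) (hχ i).1, lam_classSum_irr,
      ← res_mul (mem_O_iff.mpr (ha i).le) (irr_mem_O _ _),
      ← res_mul (mul_mem (mem_O_iff.mpr (ha i).le) (irr_mem_O _ _)) (mem_O_iff.mpr (hb j).le),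
      centralChar_def]
    congr 1
    field_simp
  rw [h4, Matrix.det_mul, Matrix.det_mul] at h3
  have h5 := right_ne_zero_of_mul (left_ne_zero_of_mul h3)
  let A : Matrix (Fin r) (Fin r) (O M) := Matrix.of fun i j => ⟨(χ i).1 (x j), irr_mem_O _ _⟩
  have h6 : (Matrix.of fun i j => (χ i).1 (x j)).det = (A.det : ℂ) :=
    ((O M).subtype.map_det A).symm
  have h7 : (Matrix.of fun i j => res M ((χ i).1 (x j))).det = res M (A.det : ℂ) := by
    rw [res_coe, (IsLocalRing.residue (O M)).map_det]
    congr 1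
    ext i j
    exact res_of_mem _
  intro h
  rw [h6] at h
  exact h5 (h7.trans (res_eq_zero_of_lt (v_lt_one_of_memLocalIdeal hM h)))

end Cfsg.Agent.S4741
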