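import Cfsg.Statements.S4742
import Cfsg.Agent.Lib.Block.BlkMisc

set_option autoImplicit false
open Cfsg

namespace Cfsg.Agent.S4742
open Cfsg MonoidAlgebra CA.BlkAlg CA.BlkVal CA.BlkOmega CA.BlkRed CA.BlkCore CA.BlkDefect CA.BlkInd CA.BlkHeight CA.SylIn CA.H12PPart CChar.CharFun CChar.CharOrth Subgroup CA.BlkKer CChar.CharKer CA.BlkZero CChar.CharInt CA.BlkReg CA.BlkRob CA.BlkMisc

/-- Let p ≠ q be primes dividing the order of the finite group G, and suppose the centralizer of every non-identity p-element of G has order prime to q. Then either G has an irreducible character of p-defect zero, or for every non-identity q-element z of G there are conjugates g, h of z such that g h⁻¹ is a non-identity p-element. -/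
theorem result {G : Type*} [Group G] [Finite G] (p q : ℕ) [Fact p.Prime] [Fact q.Prime] (hppq : p ≠ q) (hpG : p ∣ Nat.card G) (hqG : q ∣ Nat.card G) (hC : ∀ g : G, g ≠ 1 → (∃ k : ℕ, orderOf g = p ^ k) → ¬ q ∣ Nat.card ↥(Subgroup.centralizer ({g} : Set G))) : (∃ χ : Cfsg.IrrCharacter G, (Cfsg.charDegree (χ : G → ℂ)).factorization p = (Nat.card G).factorization p) ∨ ∀ z : G, z ≠ 1 → (∃ k : ℕ, orderOf z = q ^ k) → ∃ g h : G, IsConj z g ∧ IsConj z h ∧ g * h⁻¹ ≠ 1 ∧ ∃ k : ℕ, orderOf (g * h⁻¹) = p ^ k := by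
  rw [or_iff_not_imp_left]
  rintro h0 z hz ⟨n, hn⟩
  obtain ⟨S, hS⟩ := exists_isSylowIn p (⊤ : Subgroup G)
  by_contra hne
  refine h0 (exists_dz_of_sep (x := z) (fun hd => ?_) hS fun g g' hg hg' h => ?_)
  · obtain ⟨x, hx⟩ := exists_prime_orderOf_dvd_card' p hd
    rw [← orderOf_coe] at hx
    refine hC x (fun h1 => ?_) ⟨1, by rw [hx, pow_one]⟩ ?_
    · rw [h1, orderOf_one] at hx
      exact (Fact.out : p.Prime).one_lt.ne hx
    · refine dvd_trans ?_ ((centralizer ({(x : G)} : Set G)).orderOf_dvd_natCard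
        (mem_centralizer_singleton_iff.mpr (mem_centralizer_singleton_iff.mp x.2).symm))
      rcases n with - | n
      · exact absurd (orderOf_eq_one_iff.mp hn) hz
      · exact hn ▸ dvd_pow_self q n.succ_ne_zero
  · by_contra h1
    exact hne ⟨g', g, hg', hg, fun h2 => h1 (mul_inv_eq_one.mp h2),
      exists_orderOf_of_mem hS.isPGroup h⟩

end Cfsg.Agent.S4742
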