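import Cfsg.Statements.S4743
import Cfsg.Agent.Lib.Block.BlkMisc
import Cfsg.Agent.S4742

set_option autoImplicit false
open Cfsg

namespace Cfsg.Agent.S4743
open Cfsg MonoidAlgebra CA.BlkAlg CA.BlkVal CA.BlkOmega CA.BlkRed CA.BlkCore CA.BlkDefect CA.BlkInd CA.BlkHeight CA.SylIn CA.H12PPart CChar.CharFun CChar.CharOrth Subgroup CA.BlkKer CChar.CharKer CA.BlkZero CChar.CharInt CA.BlkReg CA.BlkRob CA.BlkMisc

theorem aux1 {G : Type*} [Group G] [Finite G] {p q : ℕ} (hp : p.Prime) (hq : q.Prime)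
    (h : ∀ z : G, z ≠ 1 → (∃ k : ℕ, orderOf z = q ^ k) → ∃ g h : G, IsConj z g ∧ IsConj z h ∧
      g * h⁻¹ ≠ 1 ∧ ∃ k : ℕ, orderOf (g * h⁻¹) = p ^ k) (N : Subgroup G) [hN : N.Normal]
    (hd : q ∣ Nat.card N) : p ∣ Nat.card N := by
  have : Fact q.Prime := ⟨hq⟩
  obtain ⟨z, hz⟩ := exists_prime_orderOf_dvd_card' q hd
  rw [← orderOf_coe] at hz
  obtain ⟨g, g', hg, hg', h1, n, hn⟩ := h z (fun h1 => by
    rw [h1, orderOf_one] at hz; exact hq.one_lt.ne hz) ⟨1, by rw [hz, pow_one]⟩
  have hm : ∀ x, IsConj (z : G) x → x ∈ N := fun x hx => by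
    obtain ⟨c, rfl⟩ := isConj_iff.1 hx
    exact hN.conj_mem _ z.2 c
  refine dvd_trans ?_ (N.orderOf_dvd_natCard (N.mul_mem (hm g hg) (N.inv_mem (hm g' hg'))))
  rcases n with - | n
  · exact absurd (orderOf_eq_one_iff.mp hn) h1
  · exact hn ▸ dvd_pow_self p n.succ_ne_zero

theorem aux2 {G : Type*} [Group G] [Finite G] {p q : ℕ} (hp : p.Prime) (hq : q.Prime) (hpq : p ≠ q)
    (h : ∀ N : Subgroup G, N.Normal → (p ∣ Nat.card N ↔ q ∣ Nat.card N)) (hs : IsPSolvable p G) :
    ¬ p ∣ Nat.card G := by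
  obtain ⟨n, H, h0, h1, hm, hN, hi⟩ := hs
  have key : ∀ i, ¬ p ∣ Nat.card (H i) := fun i => by
    induction i using Fin.induction with
    | zero => rw [h0, card_bot]; exact hp.one_lt.ne' ∘ Nat.dvd_one.1
    | succ i ih =>
      have hc : Nat.card (H i.castSucc) * (H i.castSucc).relIndex (H i.succ) =
          Nat.card (H i.succ) := by
        rw [← relIndex_bot_left, relIndex_mul_relIndex _ _ _ bot_le (hm Fin.castSucc_lt_succ.le),
          relIndex_bot_left]
      rcases hi i with ⟨m, hm⟩ | hm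
      · rw [h _ (hN _), ← hc, hq.dvd_mul, hm, ← h _ (hN _)]
        rintro (h2 | h2)
        · exact ih h2
        · exact hpq ((Nat.prime_dvd_prime_iff_eq hq hp).1 (hq.dvd_of_dvd_pow h2)).symm
      · rw [← hc, hp.dvd_mul]
        rintro (h2 | h2)
        · exact ih h2
        · exact (hp.coprime_iff_not_dvd.1 hm.symm) h2
  have := key (Fin.last n)
  rwa [h1, card_top] at this

/-- Let p ≠ q be primes dividing the order of the finite group G, suppose the centralizer of every non-identity p-element has order prime to q, and suppose G is p-solvable or q-solvable. Then G has an irreducible character of p-defect zero or an irreducible character of q-defect zero. -/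
theorem result {G : Type*} [Group G] [Finite G] (p q : ℕ) [Fact p.Prime] [Fact q.Prime] (hppq : p ≠ q) (hpG : p ∣ Nat.card G) (hqG : q ∣ Nat.card G) (hC : ∀ g : G, g ≠ 1 → (∃ k : ℕ, orderOf g = p ^ k) → ¬ q ∣ Nat.card ↥(Subgroup.centralizer ({g} : Set G))) (hsolv : Cfsg.IsPSolvable p G ∨ Cfsg.IsPSolvable q G) : (∃ χ : Cfsg.IrrCharacter G, (Cfsg.charDegree (χ : G → ℂ)).factorization p = (Nat.card G).factorization p) ∨ (∃ χ : Cfsg.IrrCharacter G, (Cfsg.charDegree (χ : G → ℂ)).factorization q = (Nat.card G).factorization q) := by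
  have hp : p.Prime := Fact.out
  have hq : q.Prime := Fact.out
  have hC' : ∀ g : G, g ≠ 1 → (∃ k : ℕ, orderOf g = q ^ k) →
      ¬ p ∣ Nat.card (centralizer ({g} : Set G)) := by
    rintro z hz ⟨n, hn⟩ hd
    obtain ⟨x, hx⟩ := exists_prime_orderOf_dvd_card' p hd
    rw [← orderOf_coe] at hx
    refine hC x (fun h1 => ?_) ⟨1, by rw [hx, pow_one]⟩ ?_
    · rw [h1, orderOf_one] at hx
      exact hp.one_lt.ne hx
    · refine dvd_trans ?_ ((centralizer ({(x : G)} : Set G)).orderOf_dvd_natCard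
        (mem_centralizer_singleton_iff.mpr (mem_centralizer_singleton_iff.mp x.2).symm))
      rcases n with - | n
      · exact absurd (orderOf_eq_one_iff.mp hn) hz
      · exact hn ▸ dvd_pow_self q n.succ_ne_zero
  rcases S4742.result p q hppq hpG hqG hC with h1 | h1
  · exact Or.inl h1
  rcases S4742.result q p hppq.symm hqG hpG hC' with h2 | h2
  · exact Or.inr h2
  have h : ∀ N : Subgroup G, N.Normal → (p ∣ Nat.card N ↔ q ∣ Nat.card N) := fun N _ =>
    ⟨aux1 hq hp h2 N, aux1 hp hq h1 N⟩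
  rcases hsolv with hs | hs
  · exact absurd hpG (aux2 hp hq hppq h hs)
  · exact absurd hqG (aux2 hq hp hppq.symm (fun N hN => (h N hN).symm) hs)

end Cfsg.Agent.S4743
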