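import Cfsg.Statements.S4744
import Cfsg.Agent.Lib.Block.BlkMisc

set_option autoImplicit false
open Cfsg

namespace Cfsg.Agent.S4744
open Cfsg MonoidAlgebra CA.BlkAlg CA.BlkVal CA.BlkOmega CA.BlkRed CA.BlkCore CA.BlkDefect CA.BlkInd CA.BlkHeight CA.SylIn CA.H12PPart CChar.CharFun CChar.CharOrth Subgroup CA.BlkKer CChar.CharKer CA.BlkZero CChar.CharInt CA.BlkReg CA.BlkRob CA.BlkMisc

/-- Let p be an odd prime and G a finite group of even order divisible by p in which the centralizer of every non-identity p-element has odd order. Then either G has an irreducible character of p-defect zero, or the normalizer of every Sylow p-subgroup P of G has even order and P is abelian. -/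
theorem result {G : Type*} [Group G] [Finite G] (p : ℕ) [Fact p.Prime] (hp2 : p ≠ 2) (hpG : p ∣ Nat.card G) (h2G : 2 ∣ Nat.card G) (hC : ∀ g : G, g ≠ 1 → (∃ k : ℕ, orderOf g = p ^ k) → Odd (Nat.card ↥(Subgroup.centralizer ({g} : Set G)))) : (∃ χ : Cfsg.IrrCharacter G, (Cfsg.charDegree (χ : G → ℂ)).factorization p = (Nat.card G).factorization p) ∨ ∀ P : Sylow p G, Even (Nat.card ↥(Subgroup.normalizer ((P : Subgroup G) : Set G))) ∧ IsMulCommutative ↥(P : Subgroup G) := by
  rw [or_iff_not_imp_left]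
  intro h0 P
  obtain ⟨s, hs⟩ := CA.H13Inv.exists_involution_of_even' (even_iff_two_dvd.mpr h2G)
  obtain ⟨-, t, ht, hi⟩ := OddC.exists_inverts hC h0 hs (isSylowIn_top P)
  exact ⟨CA.H13Inv.even_card_of_involution (t := t)
    (mem_normalizer_of_forall fun x hx => hi x hx ▸ inv_mem hx)
    (CA.H13Inv.orderOf_eq_of_isConj ht ▸ hs),
    ⟨⟨fun a b => Subtype.ext (comm_of_inverts hi a.2 b.2)⟩⟩⟩

end Cfsg.Agent.S4744
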