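import Cfsg.Statements.S4745
import Cfsg.Agent.Lib.Bend.Main
import Cfsg.Agent.S0205
import Cfsg.Agent.S4743
import Cfsg.Agent.Lib.Suz.Zas
import Cfsg.Agent.Lib.Perm.PermMod
import Cfsg.Agent.Lib.Block.H13Zstar
import Cfsg.Agent.Lib.Block.BlkMisc
import Cfsg.Agent.Lib.Grp.H12PSolv

set_option autoImplicit false
open Cfsg

namespace Cfsg.Agent.S4745
open MulAction Subgroup CA.PF CA.BG CA.BlkMisc CA.SylIn CA.H12PSolv

universe u

theorem proj {Γ : Type*} [Group Γ] [Fintype Γ] {Q D L : Subgroup Γ} (h : SDProd Q D L) :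
    ∃ f : L →* D, ∀ d : D, f (inclusion h.le_right d) = d := by
  haveI : (Q.subgroupOf L).Normal := normal_subgroupOf_of_le_normalizer h.normal
  let φ : D →* L ⧸ Q.subgroupOf L := (QuotientGroup.mk' _).comp (inclusion h.le_right)
  have hφ : Function.Bijective φ := by
    refine ⟨(injective_iff_map_eq_one φ).2 fun d hd => ?_, fun x => ?_⟩
    · have h1 : (d : Γ) ∈ Q := (QuotientGroup.eq_one_iff (N := Q.subgroupOf L) _).1 hd
      exact Subtype.ext (mem_bot.1 (h.disj.le ⟨h1, d.2⟩))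
    · obtain ⟨x, rfl⟩ := QuotientGroup.mk_surjective x
      obtain ⟨r, hr, k, hk, e⟩ := h.exists_mul' x.2
      refine ⟨⟨r, hr⟩, QuotientGroup.eq.2 ?_⟩
      change r⁻¹ * (x : Γ) ∈ Q
      rw [← e]; simpa using hk
  exact ⟨(MulEquiv.ofBijective φ hφ).symm.toMonoidHom.comp (QuotientGroup.mk' _),
    fun d => (MulEquiv.ofBijective φ hφ).symm_apply_apply d⟩

theorem big {Γ : Type*} [Group Γ] [Fintype Γ] {Q D L : Subgroup Γ} {t d : Γ} (h : SplitD L Q D t)
    (ht : t * t = 1) (hodd : Odd (Nat.card D)) (hd : d ∈ D) (hd1 : d ≠ 1)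
    (hi : t * d * t⁻¹ = d⁻¹) : ∃ χ : IrrCharacter Γ, L.index ∣ charDegree (χ : Γ → ℂ) := by
  obtain ⟨f, hf⟩ := proj h.sd
  have hnc : ¬ IsConj (⟨d, hd⟩ : D) (⟨d, hd⟩ : D)⁻¹ := fun hc => by
    obtain ⟨c, hc⟩ := isConj_iff.1 hc
    have h1 := CA.RankOne.sq_eq_one_of_odd_inverts (CA.RankOne.odd_orderOf_of_mem hodd c.2)
      (congrArg Subtype.val hc)
    exact hd1 (CA.RankOne.eq_one_of_sq (CA.RankOne.odd_orderOf_of_mem hodd hd) h1)
  rw [CChar.CharOrth.isConj_iff_irr, not_forall] at hnc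
  obtain ⟨θ, hθ⟩ := hnc
  have hl : (extendByZero L fun k => θ.1 (f k)) ∈ irr L := irr_of_hom f (fun d => ⟨_, hf d⟩) θ.2
  have hψ : extendByZero D θ.1 ∈ irr D := ext_mem_irr.2 θ.2
  set l := extendByZero L fun k => θ.1 (f k) with hldef
  set ψ := extendByZero D θ.1 with hψdef
  have hlψ : ∀ x ∈ D, l x = ψ x := fun x hx => by
    rw [hldef, hψdef, CA.Ind.ext_of_mem _ _ (h.sd.le_right hx), CA.Ind.ext_of_mem _ _ hx]
    exact congrArg θ.1 (hf ⟨x, hx⟩)
  have htD : ∀ x, t * x * t⁻¹ ∈ D ↔ x ∈ D := fun x => ⟨fun hx => by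
    have := h.hD' _ hx
    rwa [show t * (t * x * t⁻¹) * t⁻¹ = (t * t) * x * (t * t)⁻¹ by group, ht, one_mul, inv_one,
      mul_one] at this, h.hD' x⟩
  have hμ : CA.PF.cj t ψ ∈ irr D := irr_cj htD hψ
  have hne : ψ ≠ CA.PF.cj t ψ := fun e => hθ (by
    have := congrFun e d
    rw [cj_apply, hi, hψdef, CA.Ind.ext_of_mem _ _ hd, CA.Ind.ext_of_mem _ _ (inv_mem hd)] at this
    exact this)
  have hM : ∀ x ∈ L, Ind ⊤ L l x = (l + Ind L D (CA.PF.cj t ψ)) x := fun x hx =>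
    mackey_split h.sd h.ht h.hex h.hun (irr_CInv hl) (irr_CInv hμ) (fun z hz => by
      by_cases hz' : z ∈ D
      · rw [cj_apply, hlψ _ (h.hD' z hz')]
      · rw [irr_on hl _ (mt (h.hD z hz).1 hz'), irr_on hμ z hz']) hx
  have h1 : dot ⊤ (Ind ⊤ L l) (Ind ⊤ L l) = 1 := by
    rw [dot_Ind_left _ _ (Ind_CInv _ _ _), dot_congr_right (irr_on hl) hM, dot_add_right,
      dot_Ind_right _ (irr_CInv hl), dot_congr_left (irr_on hμ) hlψ, dot_irr_ne hψ hμ hne,
      dot_irr_self hl, add_zero]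
  have h2 := mem_irr_top.1 (irr_of_char ((irr_char hl).Ind le_top) h1)
  obtain ⟨n, -, hn⟩ := irr_one_pos hl
  refine ⟨⟨_, h2⟩, n, ?_⟩
  have h3 : Ind ⊤ L l 1 = ((L.index * n : ℕ) : ℂ) := by
    rw [Ind_one le_top, hn, relIndex_top_right]; push_cast; rfl
  exact CChar.CharInt.charDegree_eq h3

theorem main {G Ω : Type u} [Group G] [Finite G] [MulAction G Ω] [FaithfulSMul G Ω] [Finite Ω]
    [IsPretransitive G Ω] (p : ℕ) [hp : Fact p.Prime] (hp2 : p ≠ 2) (h2G : 2 ∣ Nat.card G)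
    (hC : OddC p G) (r : ℕ) (hr : 1 ≤ r) (hΩ : Nat.card Ω = p ^ r)
    (h0 : ¬ ∃ χ : IrrCharacter G, (charDegree (χ : G → ℂ)).factorization p =
      (Nat.card G).factorization p) : IsPSolvable p G := by
  classical
  haveI := Fintype.ofFinite G
  obtain ⟨P⟩ : Nonempty (Sylow p G) := inferInstance
  have hP := (CA.PermBasic.subgroup_pretransitive_iff _).1 (CA.PermMod.sylow_pretransitive hΩ P)
  have hpo : Odd p := hp.out.odd_of_ne_two hp2
  have hPo : Odd (Nat.card (P : Subgroup G)) := by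
    obtain ⟨n, hn⟩ := P.isPGroup'.exists_card_eq
    rw [hn]; exact hpo.pow
  obtain ⟨s₀, hs₀⟩ := CA.H13Inv.exists_involution_of_even' (even_iff_two_dvd.mpr h2G)
  obtain ⟨-, t₀, ht₀, hi₀⟩ := hC.exists_inverts h0 hs₀ (isSylowIn_top P)
  -- `P` is regular
  have hreg : ∀ x ∈ (P : Subgroup G), ∀ a : Ω, x • a = a → x = 1 := fun x hx a ha =>
    eq_of_smul_eq_smul (α := Ω) fun b => by
      obtain ⟨y, hy, rfl⟩ := hP a b
      rw [one_smul, ← mul_smul, comm_of_inverts hi₀ hx hy, mul_smul, ha]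
  have hex : ∀ z : G, z * z = 1 → ∃ a : Ω, z • a = a := fun z hz => by
    have h2 : IsPGroup 2 (zpowers z) := by
      rcases eq_or_ne z 1 with rfl | h1
      · rw [zpowers_one_eq_bot]; exact IsPGroup.of_bot
      · exact IsPGroup.of_card (n := 1) (by
          rw [Nat.card_zpowers, orderOf_eq_prime (by rw [sq, hz]) h1, pow_one])
    obtain ⟨a, ha⟩ := h2.nonempty_fixed_point_of_prime_not_dvd_card Ω (by
      rw [hΩ, ← even_iff_two_dvd, Nat.not_even_iff_odd]; exact hpo.pow)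
    exact ⟨a, ha ⟨z, mem_zpowers z⟩⟩
  have hone : CA.Bend.One G Ω := by
    refine ⟨fun z _ hz => hex z hz, fun z a b hz hb => ?_⟩
    obtain ⟨-, t, ht, hi⟩ := hC.exists_inverts h0 (orderOf_eq_prime (by rw [sq, hz.2.1]) hz.1)
      (isSylowIn_top P)
    obtain ⟨c, rfl⟩ := isConj_iff.1 ht
    obtain ⟨x, hx, e⟩ := hP (c • a) (c • b)
    have ha' : (c * z * c⁻¹) • c • a = c • a := by rw [mul_smul, mul_smul, inv_smul_smul, hz.2.2]
    have hb' : (c * z * c⁻¹) • c • b = c • b := by rw [mul_smul, mul_smul, inv_smul_smul, hb]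
    have h1 : (x * x) • c • a = c • a := by
      have h2 : x⁻¹ • c • a = x • c • a := by
        rw [← hi x hx, mul_smul, mul_smul, inv_smul_eq_iff.2 ha'.symm, e, hb']
      rw [mul_smul, ← h2, smul_inv_smul]
    have h3 := CA.RankOne.eq_one_of_sq (CA.RankOne.odd_orderOf_of_mem hPo hx)
      (hreg _ (mul_mem hx hx) _ h1)
    rw [h3, one_smul] at e
    exact smul_left_cancel c e
  have hs₀' := CA.H13Inv.mul_self hs₀
  have hs1 : s₀ ≠ 1 := fun e => by rw [e, orderOf_one] at hs₀; omega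
  by_cases hrk : CA.Bend.Rk2 (⊤ : Subgroup G)
  · exfalso
    have hall : ∀ a : Ω, CA.Bend.IP (⊤ : Subgroup G) a := fun a => by
      obtain ⟨b, hb⟩ := hex s₀ hs₀'
      obtain ⟨g, rfl⟩ := exists_smul_eq G b a
      refine ⟨g * s₀ * g⁻¹, trivial, by simpa using hs1, ?_, ?_⟩
      · rw [show g * s₀ * g⁻¹ * (g * s₀ * g⁻¹) = g * (s₀ * s₀) * g⁻¹ by group, hs₀']; group
      · rw [mul_smul, mul_smul, inv_smul_smul, hb]
    have hnt : Nontrivial Ω := Finite.one_lt_card_iff_nontrivial.1 (by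
      rw [hΩ]; exact Nat.one_lt_pow (by omega) hp.out.one_lt)
    obtain ⟨a, t, Q, hS⟩ := CA.BendMain.ihyp (Nat.card G + 1) G Ω (Nat.lt_succ_self _) hone hall
      hnt hrk
    obtain ⟨u, -, v, -, hu1, hv1, huv, hu, hv, hc⟩ := hrk
    obtain ⟨b, hub, hvb⟩ := CA.RankOne.exists_fix_pair hS hu hv hc
    obtain ⟨g, rfl⟩ := exists_smul_eq G a b
    have hin : ∀ w : G, w ≠ 1 → w * w = 1 → w • g • a = g • a →
        g⁻¹ * w * g ∈ involutionsIn (stabilizer G a : Set G) := fun w h1 h2 h3 =>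
      ⟨by rw [SetLike.mem_coe, mem_stabilizer_iff, mul_smul, mul_smul, h3, inv_smul_smul],
        fun e => h1 (by rw [show w = g * (g⁻¹ * w * g) * g⁻¹ by group, e]; group), by
        rw [show g⁻¹ * w * g * (g⁻¹ * w * g) = g⁻¹ * (w * w) * g by group, h2]; group⟩
    obtain ⟨k, hk, e⟩ := CA.RankOne.exists_K_conj hS (hin u hu1 hu hub) (hin v hv1 hv hvb)
    have hk1 : k ≠ 1 := fun e' => huv (by simpa [e'] using e)
    obtain ⟨χ, hχ⟩ := big (splitD_of_split (CA.RankOne.split hS) (CA.RankOne.ta_ne hS) rfl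
      (CA.RankOne.t_ta hS)) hS.mul_self hS.odd_card hk.1 hk1 hk.2
    rw [index_stabilizer_of_transitive, hΩ] at hχ
    have hPc : Nat.card (P : Subgroup G) = p ^ r := by
      rw [← hΩ]
      refine Nat.card_congr (Equiv.ofBijective (fun x => (x : G) • a) ⟨fun x y e => ?_, fun b => ?_⟩)
      · have := hreg ((y : G)⁻¹ * x) (mul_mem (inv_mem y.2) x.2) a (by
          rw [mul_smul, show (x : G) • a = (y : G) • a from e, inv_smul_smul])
        exact (Subtype.ext (inv_mul_eq_one.1 this)).symm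
      · obtain ⟨x, hx, e⟩ := hP a b
        exact ⟨⟨x, hx⟩, e⟩
    rw [P.card_eq_multiplicity] at hPc
    have hdv := CChar.CharInt.charDegree_dvd_card χ.2
    refine h0 ⟨χ, le_antisymm ((Nat.factorization_le_iff_dvd (ne_zero_of_dvd_ne_zero
      Nat.card_pos.ne' hdv) Nat.card_pos.ne').2 hdv p) ?_⟩
    rw [← hp.out.pow_dvd_iff_le_factorization (ne_zero_of_dvd_ne_zero Nat.card_pos.ne' hdv), hPc]
    exact hχ
  · have ht₀' := CA.H13Inv.mul_self (CA.H13Inv.orderOf_eq_of_isConj ht₀ ▸ hs₀)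
    have ht1 : t₀ ≠ 1 := fun e => hs1 (isConj_one_left.1 (e ▸ ht₀))
    have hZ : InZStar 2 t₀ := by
      by_contra hn
      obtain ⟨g, h1, h2⟩ := CA.H13Zstar.exists_commute_conj ht₀' hn
      refine hrk ⟨t₀, trivial, g * t₀ * g⁻¹, trivial, ht1, by simpa using ht1, h2.symm, ht₀', ?_, h1⟩
      rw [show g * t₀ * g⁻¹ * (g * t₀ * g⁻¹) = g * (t₀ * t₀) * g⁻¹ by group, ht₀']; group
    have hle : (P : Subgroup G) ≤ pPrimeCore 2 G := fun x hx => by
      have h1 := hZ x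
      rw [show x * t₀ * x⁻¹ * t₀⁻¹ = x * (t₀ * x⁻¹ * t₀⁻¹) by group, hi₀ _ (inv_mem hx),
        inv_inv] at h1
      obtain ⟨n, hn⟩ := CA.RankOne.exists_sqrt (CA.RankOne.odd_orderOf_of_mem hPo hx)
      rw [← hn, ← pow_mul, mul_comm, pow_mul, sq]
      exact pow_mem h1 n
    haveI := S0205.result (CA.H13ZRed.odd_card_core (G := G))
    refine psolv_ext (pPrimeCore 2 G) psolv_of_solvable (psolv_of_coprime ?_)
    exact ((Nat.Prime.coprime_iff_not_dvd hp.out).2 fun h =>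
      P.not_dvd_index (h.trans (index_dvd_of_le hle))).symm

/-- Let p be an odd prime and G a finite group of even order divisible by p in which the centralizer of every non-identity p-element has odd order, and suppose G acts faithfully and transitively on a set with p ^ r elements, r ≥ 1. Then either G has an irreducible character of p-defect zero, or G is p-solvable and has an irreducible character of 2-defect zero. -/
theorem result {G Ω : Type*} [Group G] [Finite G] [MulAction G Ω] [FaithfulSMul G Ω] [Fintype Ω] (htr : MulAction.IsPretransitive G Ω) (p : ℕ) [Fact p.Prime] (hp2 : p ≠ 2) (hpG : p ∣ Nat.card G) (h2G : 2 ∣ Nat.card G) (hC : ∀ g : G, g ≠ 1 → (∃ k : ℕ, orderOf g = p ^ k) → Odd (Nat.card ↥(Subgroup.centralizer ({g} : Set G)))) (r : ℕ) (hr : 1 ≤ r) (hΩ : Fintype.card Ω = p ^ r) : (∃ χ : Cfsg.IrrCharacter G, (Cfsg.charDegree (χ : G → ℂ)).factorization p = (Nat.card G).factorization p) ∨ (Cfsg.IsPSolvable p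 G ∧ ∃ χ : Cfsg.IrrCharacter G, (Cfsg.charDegree (χ : G → ℂ)).factorization 2 = (Nat.card G).factorization 2) := by
  rw [or_iff_not_imp_left]
  intro h0
  obtain ⟨a⟩ : Nonempty Ω := Fintype.card_pos_iff.1 (hΩ ▸ pow_pos (Fact.out : p.Prime).pos r)
  haveI : FaithfulSMul G (G ⧸ stabilizer G a) := ⟨fun {x y} h => eq_of_smul_eq_smul (α := Ω) fun b => by
    obtain ⟨g, rfl⟩ := exists_smul_eq G a b
    have := QuotientGroup.eq.1 (h (g : G ⧸ stabilizer G a))
    rw [mem_stabilizer_iff, mul_smul, inv_smul_eq_iff] at this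
    rw [← mul_smul, ← mul_smul]
    exact this.symm⟩
  have hs := main (Ω := G ⧸ stabilizer G a) p hp2 h2G hC r hr (by
    rw [← index_eq_card, index_stabilizer_of_transitive, Nat.card_eq_fintype_card, hΩ]) h0
  exact ⟨hs, (S4743.result p 2 hp2 hpG h2G (fun g h1 h2 => by
    rw [← even_iff_two_dvd, Nat.not_even_iff_odd]; exact hC g h1 h2) (Or.inl hs)).resolve_left h0⟩

end Cfsg.Agent.S4745
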