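import Cfsg.Statements.S4746
import Cfsg.Agent.Lib.Block.BlkMisc

set_option autoImplicit false
open Cfsg

namespace Cfsg.Agent.S4746
open Cfsg MonoidAlgebra CA.BlkAlg CA.BlkVal CA.BlkOmega CA.BlkRed CA.BlkCore CA.BlkDefect CA.BlkInd CA.BlkHeight CA.SylIn CA.H12PPart CChar.CharFun CChar.CharOrth Subgroup CA.BlkKer CChar.CharKer CA.BlkZero CChar.CharInt CA.BlkReg CA.BlkRob CA.BlkMisc

/-- Let p be an odd prime and G a finite group of even order divisible by p in which the centralizer of every non-identity p-element has odd order. Then G has an irreducible character of p-defect zero or an irreducible character of even degree. -/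
theorem result {G : Type*} [Group G] [Finite G] (p : ℕ) [Fact p.Prime] (hp2 : p ≠ 2) (hpG : p ∣ Nat.card G) (h2G : 2 ∣ Nat.card G) (hC : ∀ g : G, g ≠ 1 → (∃ k : ℕ, orderOf g = p ^ k) → Odd (Nat.card ↥(Subgroup.centralizer ({g} : Set G)))) : (∃ χ : Cfsg.IrrCharacter G, (Cfsg.charDegree (χ : G → ℂ)).factorization p = (Nat.card G).factorization p) ∨ ∃ χ : Cfsg.IrrCharacter G, Even (Cfsg.charDegree (χ : G → ℂ)) := by
  rw [or_iff_not_imp_left]
  intro h0
  obtain ⟨s, hs⟩ := CA.H13Inv.exists_involution_of_even' (even_iff_two_dvd.mpr h2G)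
  obtain ⟨u, hu, hup, hsu⟩ := exists_inverted h0 (CA.H13Inv.mul_self hs) (OddC.not_dvd hC hs)
  exact exists_even_degree hu (isConj_iff.mpr ⟨s, hsu⟩) (hC u hu hup)

end Cfsg.Agent.S4746
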