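import Cfsg.Statements.S4754
import Cfsg.Agent.Lib.Char.H12Misc

set_option autoImplicit false
open Cfsg

namespace Cfsg.Agent.S4754

open CChar.CharRep CChar.CharFun CChar.CharOrth CChar.CharKer CChar.CharInt CChar.CharGen
  CChar.CharMisc CChar.CharProd CA.H12Misc Subgroup
open scoped ComplexConjugate commutatorElement

/-- For elements x, y of a finite group G, the conjugacy class of x y equals the set of all products of a conjugate of x with a conjugate of y if and only if χ(1) χ(a x a⁻¹ b y b⁻¹) = χ(x) χ(y) for all a, b ∈ G and every irreducible character χ. -/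
theorem result {G : Type*} [Group G] [Finite G] (x y : G) : (∀ z : G, IsConj (x * y) z ↔ ∃ a b : G, z = a * x * a⁻¹ * (b * y * b⁻¹)) ↔ ∀ (a b : G) (χ : Cfsg.IrrCharacter G), (χ : G → ℂ) 1 * (χ : G → ℂ) (a * x * a⁻¹ * (b * y * b⁻¹)) = (χ : G → ℂ) x * (χ : G → ℂ) y := by
  have := Fintype.ofFinite G
  refine ⟨fun h a b χ => ?_, fun h z => ⟨fun hz => ?_, fun ⟨a, b, e⟩ => (isConj_iff_irr _ _).2
    fun χ => mul_left_cancel₀ (irr_apply_one_ne_zero χ.2) ?_⟩⟩
  · have h1 : ∀ a b, χ.1 (a * x * a⁻¹ * (b * y * b⁻¹)) = χ.1 (x * y) := fun a b =>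
      (classFun_of_isConj (irr_classFun χ.2) ((h _).2 ⟨a, b, rfl⟩)).symm
    have h2 := sum_irr_conj_mul χ.2 x (1 * y * 1⁻¹)
    simp only [h1, Finset.sum_const, Finset.card_univ, nsmul_eq_mul, ← Nat.card_eq_fintype_card,
      eq_div_iff (irr_apply_one_ne_zero χ.2), mul_assoc (Nat.card G : ℂ)] at h2
    rw [h1, mul_comm, mul_left_cancel₀ card_ne_zero h2]
    simp
  · obtain ⟨c, rfl⟩ := isConj_iff.1 hz
    exact ⟨c, c, by group⟩
  · rw [e, h, ← h 1 1]; simp

end Cfsg.Agent.S4754
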