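import Cfsg.Statements.S4755
import Cfsg.Agent.Lib.Char.H12Misc

set_option autoImplicit false
open Cfsg

namespace Cfsg.Agent.S4755

open CChar.CharRep CChar.CharFun CChar.CharOrth CChar.CharKer CChar.CharInt CChar.CharGen
  CChar.CharMisc CChar.CharProd CA.H12Misc Subgroup
open scoped ComplexConjugate commutatorElement

/-- Let x, y be non-identity elements of the finite group G such that χ(x' y') = χ(x') χ(y') for all conjugates x' of x, y' of y and every irreducible character χ. Then the conjugacy class of x y is the set of all products of a conjugate of x with a conjugate of y; every irreducible character of degree greater than 1 vanishes at x y; and the conjugacy class of x y is the coset of the commutator subgroup containing x y. -/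
theorem result {G : Type*} [Group G] [Finite G] (x y : G) (hx : x ≠ 1) (hy : y ≠ 1) (h : ∀ (a b : G) (χ : Cfsg.IrrCharacter G), (χ : G → ℂ) (a * x * a⁻¹ * (b * y * b⁻¹)) = (χ : G → ℂ) (a * x * a⁻¹) * (χ : G → ℂ) (b * y * b⁻¹)) : (∀ z : G, IsConj (x * y) z ↔ ∃ a b : G, z = a * x * a⁻¹ * (b * y * b⁻¹)) ∧ (∀ χ : Cfsg.IrrCharacter G, (χ : G → ℂ) 1 ≠ 1 → (χ : G → ℂ) (x * y) = 0) ∧ (∀ z : G, IsConj (x * y) z ↔ (x * y)⁻¹ * z ∈ commutator G) := by
  have := Fintype.ofFinite G
  have h1 : ∀ (a b : G) (χ : IrrCharacter G), χ.1 (a * x * a⁻¹ * (b * y * b⁻¹)) = χ.1 (x * y) :=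
    fun a b χ => by
      rw [h, classFun_apply (irr_classFun χ.2), classFun_apply (irr_classFun χ.2)]
      simpa using (h 1 1 χ).symm
  have h2 : ∀ χ : IrrCharacter G, χ.1 1 ≠ 1 → χ.1 (x * y) = 0 := fun χ h2 => by
    have h3 := sum_irr_conj_mul χ.2 x (1 * y * 1⁻¹)
    have h4 : χ.1 x * χ.1 (1 * y * 1⁻¹) = χ.1 (x * y) := by simpa using (h 1 1 χ).symm
    simp only [h1, Finset.sum_const, Finset.card_univ, nsmul_eq_mul, ← Nat.card_eq_fintype_card,
      eq_div_iff (irr_apply_one_ne_zero χ.2), mul_assoc (Nat.card G : ℂ), h4] at h3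
    exact by_contra fun e => h2 ((mul_eq_left₀ e).1 (mul_left_cancel₀ card_ne_zero
      h3))
  refine ⟨fun z => ⟨fun hz => ?_, fun ⟨a, b, e⟩ => (isConj_iff_irr _ _).2 fun χ => by rw [e, h1]⟩,
    h2, fun z => ⟨fun hz => ?_, fun hz => isConj_of_forall fun χ => ?_⟩⟩
  · obtain ⟨c, rfl⟩ := isConj_iff.1 hz
    exact ⟨c, c, by group⟩
  · obtain ⟨c, rfl⟩ := isConj_iff.1 hz
    have := commutator_mem_commutator (mem_top (x * y)⁻¹) (mem_top c)
    rwa [commutatorElement_def, inv_inv, mul_assoc, mul_assoc, ← mul_assoc c] at this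
  · by_cases h3 : χ.1 1 = 1
    · rw [← apply_mul_of_mem_charKer' ((irr_apply_one_iff χ.2).1 h3 hz) (x * y), mul_inv_cancel_left]
      exact Or.inr rfl
    · exact Or.inl (h2 χ h3)

end Cfsg.Agent.S4755
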