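import Cfsg.Statements.S4757
import Cfsg.Agent.Lib.Char.H10FS
import Cfsg.Agent.Lib.Grp.Core
import Cfsg.Agent.Lib.Grp.PGBasic

set_option autoImplicit false
open Cfsg

namespace Cfsg.Agent.S4757
open CA.H10FS CA.MatRep CA.H11FS CA.Clif CA.Gall CA.Ind2 CA.Ext CChar.CharFun CChar.CharOrth CChar.CharInt CChar.CharProd CChar.CharKer CA.Ind Subgroup

/-- Let u ≠ 1 be an element of the finite group G and c a complex number such that every non-principal irreducible character χ satisfies χ(1) − χ(u) = c or χ(u) = 0. Then the following are equivalent: (a) u has order 2, G is generated by u together with O(G), the largest normal subgroup of G of odd order, and the centralizer of u is {1, u}; (b) G is not perfect; (c) c = 2. -/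
theorem result {G : Type*} [Group G] [Finite G] (u : G) (hu : u ≠ 1) (c : ℂ) (hyp : ∀ χ : Cfsg.IrrCharacter G, (χ : G → ℂ) ≠ (fun _ => (1 : ℂ)) → ((χ : G → ℂ) 1 - (χ : G → ℂ) u = c ∨ (χ : G → ℂ) u = 0)) : ((orderOf u = 2 ∧ Subgroup.zpowers u ⊔ Cfsg.oddCore G = ⊤ ∧ Subgroup.centralizer ({u} : Set G) = Subgroup.zpowers u) ↔ commutator G ≠ ⊤) ∧ (commutator G ≠ ⊤ ↔ c = 2) := by
  classical
  haveI : Fintype G := Fintype.ofFinite _
  let o : IrrCharacter G := ⟨fun _ => 1, irr_one⟩
  have ho : ∀ χ : IrrCharacter G, χ ≠ o → χ.1 ≠ fun _ => 1 := fun χ h e => h (Subtype.ext e)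
  let S := Finset.univ.filter fun χ : IrrCharacter G => χ ≠ o ∧ χ.1 u ≠ 0
  have hS : ∀ χ ∈ S, χ.1 u = charDegree χ.1 - c := fun χ h => by
    obtain ⟨h1, h2⟩ := (Finset.mem_filter.1 h).2
    rw [← (hyp χ (ho χ h1)).resolve_right h2, irr_apply_one_eq χ.2]; ring
  have hsum : ∀ {M : Type} [AddCommMonoid M] (F : IrrCharacter G → M), (∀ χ, χ.1 u = 0 → F χ = 0) →
      ∑ χ, F χ = F o + ∑ χ ∈ S, F χ := by
    intro M _ F hF
    rw [← Finset.add_sum_erase _ _ (Finset.mem_univ o)]
    congr 1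
    symm
    refine Finset.sum_subset (fun χ h => by simpa using (Finset.mem_filter.1 h).2.1) fun χ h1 h2 => hF χ ?_
    by_contra h3
    exact h2 (Finset.mem_filter.2 ⟨Finset.mem_univ _, by simpa using h1, h3⟩)
  have E1 : (1 : ℂ) + ∑ χ ∈ S, (charDegree χ.1 : ℂ) * (charDegree χ.1 - c) = 0 := by
    have h := sum_degree_mul_apply u
    rw [regChar_of_ne hu, hsum _ (fun χ h => by simp [h])] at h
    rw [← h]
    congr 1
    · simp [o]
    · exact Finset.sum_congr rfl fun χ hχ => by rw [hS χ hχ, irr_apply_one_eq χ.2]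
  have hlin : ∀ χ : IrrCharacter G, χ ≠ o → χ.1 1 = 1 → ‖χ.1 u‖ = 1 ∧ χ.1 u = 1 - c := by
    intro χ h h1
    obtain ⟨l, hl⟩ := linearEquivHom.surjective ⟨χ, h1⟩
    have h2 : ‖χ.1 u‖ = 1 := by
      have := (mem_charCenter (char_of_irr χ.2)).1 ((mem_charCenter_iff_commutator χ.2).2
        fun g => (irr_apply_one_iff χ.2).1 h1 (commutator_mem_commutator (mem_top u) (mem_top g)))
      rw [this, h1, norm_one]
    refine ⟨h2, ?_⟩
    rw [← (hyp χ (ho χ h)).resolve_right (fun e => by rw [e] at h2; simp at h2), h1]; ring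
  have BC : _root_.commutator G ≠ ⊤ → c = 2 := by
    intro h
    obtain ⟨g, -, hg⟩ := SetLike.exists_of_lt (lt_top_iff_ne_top.2 h)
    obtain ⟨χ, hχ, hk, hgk⟩ := exists_irr_of_not_mem hg
    obtain ⟨h1, h2⟩ := hlin ⟨χ, hχ⟩ (fun e => hgk (by
      rw [(charKer_eq_top_iff hχ).2 (congrArg Subtype.val e)]; trivial)) ((irr_apply_one_iff hχ).2 hk)
    have h3 : c * ((∑ χ ∈ S, charDegree χ.1 : ℕ) : ℂ) = ((1 + ∑ χ ∈ S, charDegree χ.1 ^ 2 : ℕ) : ℂ) := by
      push_cast
      rw [Finset.mul_sum, ← sub_eq_zero, ← neg_eq_zero, ← E1, neg_sub, add_sub_assoc, ← Finset.sum_sub_distrib]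
      congr 1
      exact Finset.sum_congr rfl fun χ _ => by ring
    set a := ∑ χ ∈ S, charDegree χ.1
    set b := 1 + ∑ χ ∈ S, charDegree χ.1 ^ 2 with hb
    have hb0 : (b : ℂ) ≠ 0 := by exact_mod_cast (by omega : b ≠ 0)
    have ha0 : (a : ℂ) ≠ 0 := fun e => hb0 (by rw [← h3, e, mul_zero])
    have hc : c = (((b : ℝ) / a : ℝ) : ℂ) := by push_cast; rw [← h3]; field_simp
    rw [h2, hc, ← Complex.ofReal_one, ← Complex.ofReal_sub, Complex.norm_real, Real.norm_eq_abs,
      abs_eq zero_le_one] at h1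
    rcases h1 with h1 | h1
    · exfalso
      have : (b : ℝ) / a = 0 := by linarith
      rw [this] at hc
      exact hb0 (by rw [← h3, hc]; simp)
    · have : (b : ℝ) / a = 2 := by linarith
      rw [hc, this]; simp
  have E1' : c = 2 → (1 : ℤ) + ∑ χ ∈ S, (charDegree χ.1 : ℤ) * (charDegree χ.1 - 2) = 0 := by
    rintro rfl
    exact_mod_cast E1
  have CB : c = 2 → _root_.commutator G ≠ ⊤ := by
    intro hc h
    have h1 := E1' hc
    have : 0 ≤ ∑ χ ∈ S, (charDegree χ.1 : ℤ) * (charDegree χ.1 - 2) := Finset.sum_nonneg fun χ hχ => by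
      have h2 := charDegree_pos χ.2
      have h3 : charDegree χ.1 ≠ 1 := fun e => ho χ (Finset.mem_filter.1 hχ).2.1
        ((charKer_eq_top_iff χ.2).1 (eq_top_iff.2 (h ▸ (irr_apply_one_iff χ.2).1
          (by rw [irr_apply_one_eq χ.2, e]; simp))))
      have : (2 : ℤ) ≤ charDegree χ.1 := by exact_mod_cast (by omega : 2 ≤ charDegree χ.1)
      nlinarith
    omega
  refine ⟨⟨?_, fun h => ?_⟩, BC, CB⟩
  · rintro ⟨h1, h2, -⟩ h
    have hc := CA.Core.coprime_pPrimeCore (p := 2) (G := G)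
    have h3 : _root_.commutator G ≤ oddCore G := by
      rw [_root_.commutator_def, commutator_le]
      intro a _ b _
      obtain ⟨_, ⟨i, rfl⟩, x, hx, rfl⟩ := mem_sup_of_normal_right.1 (h2 ▸ mem_top a)
      obtain ⟨_, ⟨j, rfl⟩, y, hy, rfl⟩ := mem_sup_of_normal_right.1 (h2 ▸ mem_top b)
      rw [← QuotientGroup.eq_one_iff, ← QuotientGroup.mk'_apply, map_commutatorElement,
        commutatorElement_eq_one_iff_commute, map_mul, map_mul,
        (QuotientGroup.eq_one_iff x).2 hx |> fun e => (QuotientGroup.mk'_apply _ x).trans e,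
        (QuotientGroup.eq_one_iff y).2 hy |> fun e => (QuotientGroup.mk'_apply _ y).trans e,
        mul_one, mul_one]
      exact (Commute.zpow_zpow_self u i j).map _
    have h4 := orderOf_dvd_natCard (⟨u, h3 (h ▸ mem_top u)⟩ : oddCore G)
    rw [orderOf_mk, h1] at h4
    exact absurd (Nat.Coprime.coprime_dvd_left h4 hc) (by norm_num)
  have hc := BC h
  let L := Finset.univ.filter fun χ : IrrCharacter G => _root_.commutator G ≤ charKer χ.1
  have hoL : o ∈ L := Finset.mem_filter.2 ⟨Finset.mem_univ _, (irr_apply_one_iff o.2).1 rfl⟩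
  have hL : ∀ χ ∈ L.erase o, χ.1 1 = 1 ∧ χ.1 u = -1 := fun χ hχ => by
    obtain ⟨h1, h2⟩ := Finset.mem_erase.1 hχ
    have h3 := (irr_apply_one_iff χ.2).2 (Finset.mem_filter.1 h2).2
    exact ⟨h3, by rw [(hlin χ h1 h3).2, hc]; norm_num⟩
  have huG : u ∉ _root_.commutator G := by
    intro hu'
    obtain ⟨g, -, hg⟩ := SetLike.exists_of_lt (lt_top_iff_ne_top.2 h)
    obtain ⟨χ, hχ, hk, hgk⟩ := exists_irr_of_not_mem hg
    obtain ⟨h1, h2⟩ := hL ⟨χ, hχ⟩ (Finset.mem_erase.2 ⟨fun e => hgk (by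
      rw [(charKer_eq_top_iff hχ).2 (congrArg Subtype.val e)]; trivial),
      Finset.mem_filter.2 ⟨Finset.mem_univ _, hk⟩⟩)
    have := apply_of_mem_charKer (hk hu')
    simp only at h1 h2
    rw [h1, h2] at this
    norm_num at this
  have hL1 : (L.erase o).card = 1 := by
    have h1 := sum_irr_quotient (_root_.commutator G) (fun χ => χ 1 * χ u)
    have h2 := sum_degree_mul_apply (u : G ⧸ _root_.commutator G)
    rw [regChar_of_ne (by rwa [Ne, QuotientGroup.eq_one_iff])] at h2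
    have h3 : ∑ χ ∈ L, χ.1 1 * χ.1 u = 0 := by
      rw [← h2]; convert h1.symm; rfl
    rw [← Finset.add_sum_erase _ _ hoL, Finset.sum_congr rfl (g := fun _ => (-1 : ℂ))
      (fun χ hχ => by rw [(hL χ hχ).1, (hL χ hχ).2]; simp)] at h3
    simp only [o, Finset.sum_const, nsmul_eq_mul] at h3
    have : ((L.erase o).card : ℂ) = 1 := by linear_combination -h3
    exact_mod_cast this
  have hidx : (_root_.commutator G).index = 2 := by
    rw [← card_linear_irr, Nat.card_congr (Equiv.subtypeEquivRight fun χ : IrrCharacter G =>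
      irr_apply_one_iff χ.2), Nat.card_eq_fintype_card, Fintype.card_subtype]
    change L.card = 2
    rw [← Finset.card_erase_add_one hoL, hL1]
  have hC : Nat.card (centralizer ({u} : Set G)) ≤ 2 := by
    have h1 := sum_irr_norm_sq u
    rw [hsum _ (fun χ h => by simp [h]), Finset.sum_congr rfl
      (g := fun χ => ((((charDegree χ.1 : ℤ) - 2) ^ 2 : ℤ) : ℝ)) (fun χ hχ => by
        rw [hS χ hχ, hc, show (charDegree χ.1 : ℂ) - 2 = (((charDegree χ.1 : ℝ) - 2 : ℝ) : ℂ) by simp,
          Complex.norm_real, Real.norm_eq_abs, sq_abs]; simp)] at h1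
    have h2 : (1 : ℤ) + ∑ χ ∈ S, ((charDegree χ.1 : ℤ) - 2) ^ 2 = Nat.card (centralizer ({u} : Set G)) := by
      simp only [o, norm_one, one_pow] at h1
      exact_mod_cast h1
    have h3 : ∑ χ ∈ S, ((charDegree χ.1 : ℤ) - 2) ^ 2 ≤
        ∑ χ ∈ S, ((charDegree χ.1 : ℤ) * (charDegree χ.1 - 2) + if χ ∈ L.erase o then 2 else 0) := by
      refine Finset.sum_le_sum fun χ hχ => ?_
      have h4 := charDegree_pos χ.2
      split_ifs with h5
      · have : (1 : ℤ) ≤ charDegree χ.1 := by exact_mod_cast h4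
        nlinarith
      · have h6 : charDegree χ.1 ≠ 1 := fun e => h5 (Finset.mem_erase.2 ⟨(Finset.mem_filter.1 hχ).2.1,
          Finset.mem_filter.2 ⟨Finset.mem_univ _, (irr_apply_one_iff χ.2).1
            (by rw [irr_apply_one_eq χ.2, e]; simp)⟩⟩)
        have : (2 : ℤ) ≤ charDegree χ.1 := by exact_mod_cast (by omega : 2 ≤ charDegree χ.1)
        nlinarith
    rw [Finset.sum_add_distrib, ← Finset.sum_filter, Finset.sum_const] at h3
    have h4 : (S.filter fun χ => χ ∈ L.erase o).card ≤ 1 :=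
      hL1 ▸ Finset.card_le_card fun χ hχ => (Finset.mem_filter.1 hχ).2
    have h5 := E1' hc
    simp only [nsmul_eq_mul] at h3
    omega
  have hz : zpowers u ≤ centralizer ({u} : Set G) :=
    zpowers_le.2 (mem_centralizer_singleton_iff.2 rfl)
  have h2 : 2 ≤ orderOf u := by
    have := orderOf_pos u
    have : orderOf u ≠ 1 := by rwa [Ne, orderOf_eq_one_iff]
    omega
  have h3 : zpowers u = centralizer ({u} : Set G) :=
    eq_of_le_of_card_ge hz (by rw [Nat.card_zpowers]; omega)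
  have h4 : orderOf u = 2 := by
    rw [← h3, Nat.card_zpowers] at hC; omega
  refine ⟨h4, ?_, h3.symm⟩
  haveI : Fact (Nat.Prime 2) := ⟨Nat.prime_two⟩
  obtain ⟨P, hP⟩ := (IsPGroup.of_card (G := zpowers u) (p := 2) (n := 1)
    (by rw [Nat.card_zpowers, h4]; rfl)).exists_le_sylow
  have huP : u ∈ (P : Subgroup G) := hP (mem_zpowers u)
  have hPC : (P : Subgroup G) ≤ zpowers u := by
    obtain ⟨z, -, hzc, hz2⟩ := CA.PGBasic.exists_mem_center_orderOf (M := ⊤) P.2 (fun e => hu (by
      have : (⟨u, huP⟩ : (P : Subgroup G)) ∈ (⊥ : Subgroup (P : Subgroup G)) := e ▸ mem_top _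
      exact congrArg Subtype.val (mem_bot.1 this)))
    have h5 : zpowers (z : G) = zpowers u := eq_of_le_of_card_ge (zpowers_le.2 (h3 ▸
      mem_centralizer_singleton_iff.2 (congrArg Subtype.val (mem_center_iff.1 hzc ⟨u, huP⟩)).symm))
      (by rw [Nat.card_zpowers, Nat.card_zpowers, h4, Subgroup.orderOf_coe, hz2])
    intro x hx
    rw [h3, mem_centralizer_singleton_iff]
    obtain ⟨j, hj⟩ : u ∈ zpowers (z : G) := h5 ▸ mem_zpowers u
    have h6 : Commute x z := congrArg Subtype.val (mem_center_iff.1 hzc ⟨x, hx⟩)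
    rw [← hj]; exact (h6.zpow_right j).eq
  have h5 : (Nat.card (_root_.commutator G)).Coprime 2 := by
    have a := (P : Subgroup G).card_mul_index
    have b := (_root_.commutator G).card_mul_index
    rw [le_antisymm hPC hP, Nat.card_zpowers, h4, ← le_antisymm hPC hP] at a
    rw [hidx, ← a] at b
    have : Nat.card (_root_.commutator G) = (P : Subgroup G).index := by omega
    rw [this]
    exact (Nat.prime_two.coprime_iff_not_dvd.2 P.not_dvd_index).symm
  have h6 := CA.Core.le_pPrimeCore h5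
  rw [eq_top_iff]
  intro g _
  by_cases hg : g ∈ _root_.commutator G
  · exact mem_sup_right (h6 hg)
  · have := (mul_mem_iff_of_index_two hidx (a := u⁻¹) (b := g)).2 (by simp [huG, hg])
    simpa using mul_mem (mem_sup_left (mem_zpowers u)) (mem_sup_right (S := zpowers u) (h6 this))

end Cfsg.Agent.S4757
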