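import Cfsg.Statements.S4759
import Cfsg.Agent.Lib.Char.H10Dade3
import Cfsg.Agent.Lib.Solv.PX1
import Cfsg.Agent.Lib.Odd.PF14

set_option autoImplicit false
open Cfsg

namespace Cfsg.Agent.S4759
open Subgroup CA.PF CA.BG CA.H10Dade CA.H10Dade3

/-- Let G be a finite group that is the semidirect product of a normal extraspecial 2-subgroup E and a complement H acting faithfully on E (no non-identity element of H centralizes E), and suppose H has a normal subgroup K of odd order with [E, K] = E. Then every faithful irreducible character θ of E (there is exactly one) extends to G: some irreducible character of G restricts to θ on E. -/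
theorem result {G : Type*} [Group G] [Finite G] (E H : Subgroup G) [E.Normal] (hE : Cfsg.IsExtraspecial 2 ↥E) (hEH : E ⊓ H = ⊥) (hEHtop : E ⊔ H = ⊤) (hfaith : ∀ h ∈ H, (∀ e ∈ E, h * e = e * h) → h = 1) (K : Subgroup G) (hKH : K ≤ H) (hKn : ∀ h ∈ H, ∀ k ∈ K, h * k * h⁻¹ ∈ K) (hKodd : Odd (Nat.card ↥K)) (hEK : ⁅E, K⁆ = E) (θ : Cfsg.IrrCharacter ↥E) (hθ : ∀ e : ↥E, (θ : ↥E → ℂ) e = (θ : ↥E → ℂ) 1 → e = 1) : ∃ χ : Cfsg.IrrCharacter G, ∀ e : ↥E, (χ : G → ℂ) e = (θ : ↥E → ℂ) e := by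
  have := Fintype.ofFinite G
  obtain ⟨e1, -, e2, e3⟩ := CA.PX.extra_of hE Nat.prime_two
  have e4 : (♯(𝓩(E))).Prime := e3 ▸ Nat.prime_two
  obtain ⟨z, hz, hz1⟩ := exists_ne_one (ne_bot_of_prime e4)
  have e5 := eq_zpowers_of_prime e4 hz hz1
  have h : XS z E := ⟨by rw [← Nat.card_zpowers, ← e5, e3], e1, e5 ▸ e2.le, e5⟩
  have h1 := ext_mem_irr.2 θ.2
  have h2 := h.sg h1 fun e => hz1 (congrArg Subtype.val (hθ ⟨z, hz.1⟩ (by
    rwa [CA.Ind.ext_of_mem _ _ hz.1, CA.Ind.ext_of_mem _ _ E.one_mem] at e)))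
  have hn : ∀ L : Subgroup G, L ≤ 𝓝(E) := fun L => le_normalizer_of_normal
  have h3 : CA.Clif.inertia θ.1 = ⊤ := CA.Clif.inertia_eq_top_iff'.2 fun g n =>
    (CA.H12Gl.le_stab_ext_iff (hn ⊤) θ.1).1 ((hn ⊤).trans (h.stab h1 h2)) g trivial _ _ rfl
  obtain ⟨χ, k1, k2⟩ := CA.Ext.exists_ext_of_sylow θ.2 h3 fun p hp _ => by
    have := Fact.mk hp
    obtain ⟨P⟩ : Nonempty (Sylow p G) := inferInstance
    have k := isPi_of_isPGroup hp P.isPGroup'
    by_cases e : p = 2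
    · subst e
      have k1 : E ≤ P := (e1.isPGroup hp).le_sylow_of_normal P
      obtain ⟨η, k2⟩ := main _ rfl (⟨h, (isPi_compl_iff hp).2 hKodd.not_two_dvd_nat,
        odd_solvable K hKodd, k.inf_right H, hn _, hn _,
        CA.H12Gl.norm_of_conj fun s hs => hKn s hs.1,
        CA.BG.eq_bot_mono (inf_le_inf_left _ (sup_le hKH inf_le_left)) hEH,
        e5 ▸ le_inf inf_le_left (cent_symm (hEK.ge.trans (comm_cent h (hn K))))⟩ : St z E K (H ⊓ P))
      rw [sup_comm, ← sup_inf_of_le_right (hn H) k1, sup_comm, hEHtop, top_inf_eq] at k2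
      refine ⟨P, k1, _, P.not_dvd_index, k2.1.2, fun n => ?_⟩
      have := congrFun (h.uniq (h.irr k1 k2) (k2.2.2.Res h.mem) h1 h2) n
      rwa [Res_of_mem _ n.2, CA.Ind.ext_of_mem _ _ n.2] at this
    · obtain ⟨η, k1, k2⟩ := CA.Ext.exists_ext_le_of_coprime_card (T := P ⊔ E) le_sup_right θ.2
        (h3 ▸ le_top) (by
          rw [relIndex_sup_norm (hn _)]
          exact e1.nat.coprime ((k.ne e).relIndex E))
      exact ⟨_, le_sup_right, η, fun k => P.not_dvd_index (k.trans (index_dvd_of_le le_sup_left)),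
        CChar.CharFun.char_of_irr k1, k2⟩
  exact ⟨⟨χ, k1⟩, k2⟩

end Cfsg.Agent.S4759
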