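import Cfsg.Statements.S4762
import Cfsg.Agent.Lib.Char.H10FS
import Cfsg.Agent.Lib.Char.CharMisc
import Cfsg.Agent.Lib.Grp.NPC2
import Cfsg.Agent.Lib.Grp.PGFrattini

set_option autoImplicit false
open Cfsg

namespace Cfsg.Agent.S4762
open scoped commutatorElement
open CA.H10FS CA.MatRep CA.H11FS CA.Clif CA.Gall CA.Ind2 CA.Ext CChar.CharFun CChar.CharOrth CChar.CharInt CChar.CharProd CChar.CharKer CA.Ind Subgroup

theorem sum_nonlin (G : Type*) [Group G] [Fintype G] [DecidablePred fun χ : IrrCharacter G => charDegree χ.1 = 1] :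
    (commutator G).index + ∑ χ : IrrCharacter G with ¬ charDegree χ.1 = 1, charDegree χ.1 ^ 2 = Nat.card G := by
  have h := sum_degree_sq (G := G)
  rw [← Finset.sum_filter_add_sum_filter_not _ (fun χ : IrrCharacter G => charDegree χ.1 = 1)] at h
  have h1 : ∑ χ : IrrCharacter G with charDegree χ.1 = 1, χ.1 1 ^ 2 = ((commutator G).index : ℂ) := by
    rw [Finset.sum_congr rfl (g := fun _ => (1 : ℂ)) (fun χ hχ => by
      rw [irr_apply_one_eq χ.2, (Finset.mem_filter.1 hχ).2]; simp), ← card_linear_irr,
      Nat.card_congr (Equiv.subtypeEquivRight (q := fun χ : IrrCharacter G => charDegree χ.1 = 1) fun χ => by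
        rw [irr_apply_one_eq χ.2]; exact_mod_cast Iff.rfl), Nat.card_eq_fintype_card, Fintype.card_subtype]
    simp
  rw [h1, Finset.sum_congr rfl (fun χ _ => by rw [irr_apply_one_eq χ.2])] at h
  exact_mod_cast h

theorem dvd_iff {G : Type*} [Group G] [Finite G] {p : ℕ} [hp : Fact p.Prime] (hG : IsPGroup p G)
    (χ : IrrCharacter G) : p ∣ charDegree χ.1 ↔ ¬ charDegree χ.1 = 1 := by
  obtain ⟨k, hk⟩ := CChar.CharMisc.degree_eq_pow_of_isPGroup hG χ.2
  rw [hk]
  rcases k with _ | k
  · simp [hp.out.ne_one]
  · simp [hp.out.ne_one, dvd_pow_self]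

/-- Let p be a prime and G a finite nilpotent group. Then G has exactly one irreducible complex character of degree divisible by p if and only if p = 2 and G is an extraspecial 2-group. -/
theorem result {G : Type*} [Group G] [Finite G] [Group.IsNilpotent G] (p : ℕ) [Fact p.Prime] : Nat.card {χ : Cfsg.IrrCharacter G // p ∣ Cfsg.charDegree (χ : G → ℂ)} = 1 ↔ (p = 2 ∧ Cfsg.IsExtraspecial 2 G) := by
  classical
  haveI : Fintype G := Fintype.ofFinite _
  have hp : p.Prime := Fact.out
  constructor
  · intro h
    obtain ⟨⟨χ, hχ⟩, huniq⟩ := Nat.card_eq_one_iff_exists.1 h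
    have hu : ∀ ψ : IrrCharacter G, p ∣ charDegree ψ.1 → ψ = χ := fun ψ hψ =>
      congrArg Subtype.val (huniq ⟨ψ, hψ⟩)
    have hG : IsPGroup p G := by
      obtain ⟨P, K, hK, hc⟩ := CA.NPC2.hasNPC_of_isNilpotent (p := p) (G := G) inferInstance
      haveI : (P : Subgroup G).Normal := Sylow.normal_of_normalizerCondition
        (normalizerCondition_of_isNilpotent) P
      let f := (QuotientGroup.mk' K).prod (QuotientGroup.mk' (P : Subgroup G))
      have hf : Function.Bijective f := by
        rw [Nat.bijective_iff_injective_and_card]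
        constructor
        · rw [injective_iff_map_eq_one]
          intro x hx
          have a1 : (x : G ⧸ K) = 1 := congrArg Prod.fst hx
          have a2 : (x : G ⧸ (P : Subgroup G)) = 1 := congrArg Prod.snd hx
          exact (Subgroup.disjoint_def.1 hc.disjoint) ((QuotientGroup.eq_one_iff x).1 a1)
            ((QuotientGroup.eq_one_iff x).1 a2)
        · rw [Nat.card_prod, ← hc.card_mul, ← index_eq_card, ← index_eq_card, hc.index_eq_card,
            hc.symm.index_eq_card, mul_comm]
      let e := MulEquiv.ofBijective f hf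
      obtain ⟨φ, ψ, hφ, hψ, he⟩ := (irr_prod_iff _).1
        (irr_comp_of_surjective χ.2 e.symm.toMonoidHom e.symm.surjective)
      have hd : p ∣ charDegree φ := by
        have h1 := congrFun he 1
        simp only [map_one, Prod.fst_one, Prod.snd_one] at h1
        rw [irr_apply_one_eq χ.2, irr_apply_one_eq hφ, irr_apply_one_eq hψ] at h1
        have h2 : charDegree χ.1 = charDegree φ * charDegree ψ := by exact_mod_cast h1
        refine ((Nat.Prime.dvd_mul hp).1 (h2 ▸ hχ)).resolve_right fun h3 => P.not_dvd_index ?_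
        exact h3.trans (degree_dvd_card hψ (irr_apply_one_eq hψ))
      have hall : ∀ ψ', IsIrrCharacter (G ⧸ (P : Subgroup G)) ψ' → ψ' = ψ := by
        intro ψ' hψ'
        have h1 := irr_comp_of_surjective ((irr_prod_iff _).2 ⟨φ, ψ', hφ, hψ', rfl⟩) f hf.2
        have h2 := hu ⟨_, h1⟩ (by
          rw [charDegree_eq (n := charDegree φ * charDegree ψ') (by
            simp only [map_one, Prod.fst_one, Prod.snd_one]
            rw [irr_apply_one_eq hφ, irr_apply_one_eq hψ']; simp)]
          exact hd.mul_right _)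
        refine (eq_of_prod_mul_eq hφ hφ hψ' hψ ?_).2
        rw [← he, ← h2]
        funext x
        have : f (e.symm x) = x := e.apply_symm_apply x
        simp only [MulEquiv.coe_toMonoidHom, this]
      have htop : (P : Subgroup G) = ⊤ := by
        rw [eq_top_iff]
        intro x _
        rw [← QuotientGroup.eq_one_iff]
        refine eq_one_of_forall_irr fun ψ' hψ' => ?_
        rw [hall ψ' hψ', ← hall _ irr_one]
      exact (P.2.of_equiv ((MulEquiv.subgroupCongr htop).trans topEquiv))
    have h1 := sum_nonlin G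
    have hs : (Finset.univ.filter fun ψ : IrrCharacter G => ¬ charDegree ψ.1 = 1) = {χ} := by
      ext ψ
      simp only [Finset.mem_filter, Finset.mem_univ, true_and, Finset.mem_singleton, ← dvd_iff hG]
      exact ⟨hu ψ, fun h => h ▸ hχ⟩
    rw [hs, Finset.sum_singleton, ← (commutator G).card_mul_index] at h1
    obtain ⟨a, ha⟩ := IsPGroup.iff_card.1 (hG.to_subgroup (commutator G))
    obtain ⟨k, hk⟩ := CChar.CharMisc.degree_eq_pow_of_isPGroup hG χ.2
    have hi : 0 < (commutator G).index := Nat.pos_of_ne_zero (commutator G).index_ne_zero_of_finite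
    have hc0 : 0 < Nat.card (commutator G) := Nat.card_pos
    obtain ⟨c, hc⟩ : ∃ c, Nat.card (commutator G) = c + 1 := ⟨_, (Nat.succ_pred_eq_of_pos hc0).symm⟩
    have h2 : charDegree χ.1 ^ 2 = c * (commutator G).index := by rw [hc] at h1; nlinarith
    have hc1 : c = 1 := by
      have h3 : c ∣ p ^ (k * 2) := by rw [pow_mul, ← hk, h2]; exact Dvd.intro _ rfl
      obtain ⟨j, -, rfl⟩ := (Nat.dvd_prime_pow hp).1 h3
      rcases j with _ | j
      · rfl
      · exfalso
        rw [ha] at hc
        rcases a with _ | a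
        · have := pow_pos hp.pos (j + 1); rw [pow_zero] at hc; omega
        · have h4 : p ∣ p ^ (j + 1) + 1 := hc ▸ dvd_pow_self p (Nat.succ_ne_zero a)
          exact hp.one_lt.ne' (Nat.dvd_one.1 ((Nat.dvd_add_right (dvd_pow_self p (Nat.succ_ne_zero j))).1 h4))
    subst hc1
    have hp2 : p = 2 := by
      have h4 : p ^ a = 2 := by rw [← ha, hc]
      have h5 : a ≠ 0 := by rintro rfl; simp at h4
      exact (Nat.prime_dvd_prime_iff_eq hp Nat.prime_two).1 (h4 ▸ dvd_pow_self p h5)
    subst hp2
    have hle : commutator G ≤ center G := CA.PGBasic.le_center_of_card_eq hG hc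
    have h3 := degree_sq_le_index χ.2 (center_le_charCenter χ.2) (irr_apply_one_eq χ.2)
    have h4 : commutator G = center G := by
      refine eq_of_le_of_card_ge hle ?_
      have h5 := (center G).card_mul_index
      rw [← (commutator G).card_mul_index] at h5
      by_contra h6
      push Not at h6
      have : 0 < (center G).index := Nat.pos_of_ne_zero (center G).index_ne_zero_of_finite
      nlinarith
    refine ⟨rfl, ⟨hG, ?_, h4⟩, h4 ▸ hc⟩
    apply le_antisymm
    · rw [CA.PGFrattini.frattini_le_iff hG]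
      refine ⟨h4.le, fun x => mem_center_iff.2 fun y => ?_⟩
      have h5 : ⁅x, y⁆ ∈ commutator G := commutator_mem_commutator (mem_top x) (mem_top y)
      have h6 : ⁅x, y⁆ ^ 2 = 1 := by
        have := pow_card_eq_one' (x := (⟨_, h5⟩ : commutator G))
        rw [hc] at this
        exact congrArg Subtype.val this
      have h7 := mem_center_iff.1 (hle h5)
      have h8 : x * y = ⁅x, y⁆ * (y * x) := by simp [commutatorElement_def, mul_assoc]
      calc y * x ^ 2 = ⁅x, y⁆ ^ 2 * (y * x * x) := by rw [h6, sq, one_mul, mul_assoc]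
        _ = ⁅x, y⁆ * (⁅x, y⁆ * (y * x)) * x := by simp only [sq, mul_assoc]
        _ = ⁅x, y⁆ * x * (y * x) := by rw [← h8]; simp only [mul_assoc]
        _ = x * (⁅x, y⁆ * (y * x)) := by rw [← h7]; simp only [mul_assoc]
        _ = x ^ 2 * y := by rw [← h8, sq, mul_assoc]
    · rw [← h4]; exact CA.PGFrattini.commutator_le_frattini hG
  · rintro ⟨rfl, ⟨hG, -, h4⟩, hc⟩
    have h1 := sum_nonlin G
    have hd : ∀ ψ ∈ (Finset.univ.filter fun ψ : IrrCharacter G => ¬ charDegree ψ.1 = 1),
        charDegree ψ.1 ^ 2 = (commutator G).index := by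
      intro ψ hψ
      have h2 : ¬ center G ≤ charKer ψ.1 := fun h => (Finset.mem_filter.1 hψ).2 (charDegree_eq (by
        simpa using (irr_apply_one_iff ψ.2).2 (h4 ▸ h)))
      have h3 : charKer ψ.1 = ⊥ := by
        by_contra h5
        obtain ⟨x, hx, hxz, ho⟩ := CA.PGBasic.exists_mem_center_orderOf hG h5
        apply h2
        have : zpowers x = center G := eq_of_le_of_card_ge (zpowers_le.2 hxz) (by
          rw [Nat.card_zpowers, ho, hc])
        rw [← this]; exact zpowers_le.2 hx
      rw [h4, degree_sq_eq_index_iff ψ.2 (center_le_charCenter ψ.2) (irr_apply_one_eq ψ.2)]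
      intro g hg
      refine apply_eq_zero_of_commutator_le ψ.2 (h4 ▸ center_le_charCenter ψ.2) ?_
      rwa [charCenter_eq_center ψ.2 h3]
    rw [Finset.sum_congr rfl hd, Finset.sum_const, smul_eq_mul, ← (commutator G).card_mul_index,
      h4, hc] at h1
    have : 0 < (center G).index := Nat.pos_of_ne_zero (center G).index_ne_zero_of_finite
    rw [Nat.card_congr (Equiv.subtypeEquivRight (dvd_iff hG)), Nat.card_eq_fintype_card,
      Fintype.card_subtype]
    apply Nat.eq_of_mul_eq_mul_right this
    omega

end Cfsg.Agent.S4762
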