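import Cfsg.Statements.S4765
import Cfsg.Agent.Lib.Char.H10L2

set_option autoImplicit false
open Cfsg

namespace Cfsg.Agent.S4765
open CA.H10L2 CA.SL2Char CA.SL2Torus CA.SL2Class CChar.CharFun CChar.CharKer CChar.CharInt

/-- Let F be a finite field of characteristic p with at least 4 elements. Then PSL(2,F) has exactly one irreducible complex character of degree divisible by p, and its degree is the order of F. -/
theorem result (p : ℕ) [Fact p.Prime] (F : Type*) [Field F] [Fintype F] [CharP F p] (hF : 4 ≤ Fintype.card F) : Nat.card {χ : Cfsg.IrrCharacter (Matrix.ProjectiveSpecialLinearGroup (Fin 2) F) // p ∣ Cfsg.charDegree (χ : Matrix.ProjectiveSpecialLinearGroup (Fin 2) F → ℂ)} = 1 ∧ ∀ χ : Cfsg.IrrCharacter (Matrix.ProjectiveSpecialLinearGroup (Fin 2) F), p ∣ Cfsg.charDegree (χ : Matrix.ProjectiveSpecialLinearGroup (Fin 2) F → ℂ) → Cfsg.charDegree (χ : Matrix.ProjectiveSpecialLinearGroup (Fin 2) F → ℂ) = Fintype.card F := by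
  classical
  have hp : p.Prime := Fact.out
  obtain ⟨n, -, hn⟩ := FiniteField.card F p
  have hq : p ∣ Fintype.card F := hn ▸ dvd_pow_self p n.ne_zero
  have key : ∀ χ : IrrCharacter (Matrix.ProjectiveSpecialLinearGroup (Fin 2) F),
      p ∣ charDegree χ.1 → charDegree χ.1 = Fintype.card F := fun χ h => by
    rcases degs_SL ((degs (F := F) (Or.inl ⟨MulEquiv.refl _⟩)).2 ⟨χ, rfl⟩) with e | e | e | e
    · exact (hp.not_dvd_one (e ▸ h)).elim
    · exact e
    · exact (hp.not_dvd_one ((Nat.dvd_add_right hq).1 (h.trans e))).elim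
    · exact (hp.not_dvd_one ((Nat.dvd_sub_iff_right (by omega) hq).1 (h.trans e))).elim
  refine ⟨?_, key⟩
  obtain ⟨ψ, h1, h2⟩ := mem_PSL (F := F) irr_St St_neg St_one
  rw [Nat.card_eq_one_iff_exists]
  refine ⟨⟨ψ, h2 ▸ hq⟩, fun χ => Subtype.ext (Subtype.ext (funext fun g => ?_))⟩
  obtain ⟨g, rfl⟩ := QuotientGroup.mk_surjective g
  have := eq_St (irr_comp_of_surjective χ.1.2 (QuotientGroup.mk' _) (QuotientGroup.mk'_surjective _))
    (by simpa using (irr_apply_one_eq χ.1.2).trans (by rw [key _ χ.2]))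
  exact (congrFun this g).trans (h1 g).symm

end Cfsg.Agent.S4765
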