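import Cfsg.Statements.S4768
import Cfsg.Agent.Lib.Loc.PQSol

set_option autoImplicit false
open Cfsg

namespace Cfsg.Agent.S4768

open CA CA.PF CA.H12Deg CA.EqO Subgroup
open CA.BG hiding cj cj_one cj_mul cj_inv_cj cj_cj_inv mem_cent1

universe u
variable {p : ℕ}

theorem der_le {G G' : Type*} [Group G] [Group G'] (f : G →* G') (P : Subgroup G) {m : ℕ}
    (h : derivedSeries (P.map f) m = ⊥) : derivedSeries P m ≤ f.ker.subgroupOf P := fun x hx => by
  have := map_derivedSeries_le_derivedSeries (f.subgroupMap P) m (mem_map_of_mem _ hx)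
  rw [h, mem_bot] at this
  exact congrArg Subtype.val this

theorem der_succ {G : Type*} [Group G] {P N : Subgroup G} {m : ℕ} (hN : IsMulCommutative N)
    (h : derivedSeries P m ≤ N.subgroupOf P) : derivedSeries P (m + 1) = ⊥ := by
  rw [derivedSeries_succ, commutator_eq_bot_iff_le_centralizer]
  exact fun x hx y hy => Subtype.ext (congrArg (fun z : N => (z : G)) (hN.is_comm.comm (⟨y.1, h hy⟩ : N) ⟨x.1, h hx⟩))

theorem der_mono {G : Type*} [Group G] {m n : ℕ} (h : m ≤ n) (e : derivedSeries G m = ⊥) : derivedSeries G n = ⊥ :=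
  le_bot_iff.1 (e ▸ derivedSeries_antitone G h)

variable {Γ : Type u} [Group Γ] [Fintype Γ] {N T P : Subgroup Γ} {ψ : Γ → ℂ}

theorem ext_lin (hp : p.Prime) (hN : Nrm N T) (hNp : IsPi {p} N) (i : Lin N) (hs : T ≤ stab (lin i))
    (hψ : ψ ∈ irr T) (hd : dot N ψ (lin i) ≠ 0) (h : ¬ p ∣ charDegree ψ) :
    ∃ j : Lin T, Res (N : Set Γ) (lin j) = lin i := by
  have h1 := clifford_stab hN hψ (lin_irr i) hd hs
  have h2 : ∀ x ∈ N, ψ x = ψ 1 * lin i x := fun x hx => by
    have a := congrFun h1 x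
    have b := congrFun h1 1
    rw [Res_of_mem _ hx] at a
    rw [Res_one] at b
    simp only [Pi.smul_apply, smul_eq_mul, lin_apply_one, mul_one] at a b
    rw [a, b]
  obtain ⟨d, ρ, h3, -⟩ := Ext.exists_rep_det (irr_char hψ).2
  have h4 : ψ 1 = d := by
    have := congrFun h3 1
    rw [Representation.char_one] at this
    simpa using this.symm
  obtain ⟨k, hk⟩ := Ext.exists_root_pow (m := ♯N) (d := d) Nat.card_pos.ne'
    (hNp.nat.coprime ((piNat_compl_iff hp).2 (deg_eq h4 ▸ h)))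
  refine ⟨Lin.mk (Ext.detHom ρ) ^ k, funext fun x => ?_⟩
  by_cases hx : x ∈ N
  swap
  · rw [Res_of_not_mem _ hx, lin_on i x hx]
  obtain ⟨ω, h5⟩ := (CChar.CharKer.mem_charCenter_character ρ (g := ⟨x, hN.1 hx⟩)).1 (by
    rw [h3, CChar.CharKer.mem_charCenter (irr_char hψ).2]
    show ‖ψ x‖ = ‖ψ 1‖
    rw [h2 x hx, norm_mul, norm_lin i hx, mul_one])
  have h6 : ω = lin i x := by
    have := congrFun h3 ⟨x, hN.1 hx⟩
    rw [Representation.character, h5] at this
    simp only [map_smul, LinearMap.trace_one, Module.finrank_fin_fun, smul_eq_mul] at this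
    rw [h2 x hx, h4, mul_comm] at this
    exact mul_left_cancel₀ (h4 ▸ irr_one_ne hψ) this
  rw [Res_of_mem _ hx, lin_pow _ (hN.1 hx), lin_of_mem _ (hN.1 hx), Lin.mk_apply, Ext.detHom_apply, h5, LinearMap.det_smul,
    map_one, mul_one, Module.finrank_fin_fun, h6, pow_right_comm]
  refine hk _ ?_
  rw [← lin_pow i hx, Lin.pow_card, lin_one, triv_of_mem hx]

theorem key [hp : Fact p.Prime] (hs : IsPSolvable p Γ) [N.Normal] (hNp : IsPi {p} N) (hc : IsMulCommutative N) (h0 : N ≠ ⊥)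
    (h : ∀ χ ∈ irr (⊤ : Subgroup Γ), ¬ N ≤ cfker χ → ¬ p ∣ charDegree χ) (hP : Syl p P ⊤) : ⁅P, P⁆ ≤ N := by
  have hN : Nrm N ⊤ := nrm_top N
  obtain ⟨θ, h1, h2⟩ : ∃ θ ∈ irr N, θ ≠ triv N := by
    by_contra! e
    exact h0 (H10Ker.eq_bot_of_irr e)
  obtain ⟨i, rfl⟩ := irr_exists_lin hc h1
  have h3 : ∀ χ ∈ irr (⊤ : Subgroup Γ), dot N χ (lin i) ≠ 0 → ¬ p ∣ charDegree χ := fun χ a b =>
    h χ a fun e => h2 ((le_cfker_iff_triv h1).1 ((sub_cfker_constt le_top hN.le_normalizer le_rfl a h1 b).2 e))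
  set T := ⊤ ⊓ stab (lin i) with hT
  have hNT : Nrm N T := hN.mono (le_inf le_top (le_stab (irr_CInv h1))) le_top
  have h4 : ∀ ψ ∈ irr T, dot N ψ (lin i) ≠ 0 → ¬ p ∣ T.relIndex ⊤ ∧ ¬ p ∣ charDegree ψ := fun ψ a b => by
    obtain ⟨c, d⟩ := (cfInd_sum_Inertia hN h1).1 ψ a b
    have := h3 _ c (d ▸ b)
    rw [deg_eq (n := T.relIndex ⊤ * charDegree ψ) (by rw [Ind_one le_top, irr_deg a, Nat.cast_mul])] at this
    exact ⟨fun e => this (e.mul_right _), fun e => this (e.mul_left _)⟩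
  obtain ⟨ψ, h5, h6⟩ := exists_irr_over hNT.1 h1
  obtain ⟨j, hj⟩ := ext_lin hp.out hNT hNp i inf_le_right h5 h6 (h4 ψ h5 h6).2
  haveI : Fintype (T ⧸ N.subgroupOf T) := Fintype.ofFinite _
  obtain ⟨S, s1, s2, s3⟩ := ito_syl hp.out (H12PSolv.psolv_quotient (H12PSolv.psolv_subgroup hs T) (N.subgroupOf T))
    fun α a => by
      have b := irr_of_hom (K := T) (QuotientGroup.mk' (N.subgroupOf T)) (QuotientGroup.mk'_surjective _) (mem_irr_top.1 a)
      set β := extendByZero T fun k => α (QuotientGroup.mk' (N.subgroupOf T) k) with hβ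
      have e : ∀ x (hx : x ∈ N), β x = α 1 := fun x hx => by
        rw [show β x = _ from congrFun (res_ext T _) ⟨x, hNT.1 hx⟩]
        exact congrArg α ((QuotientGroup.eq_one_iff _).2 hx)
      have c : N ≤ cfker β := fun x hx => (irr_mem_cfker b).2 (by rw [e x hx, e 1 N.one_mem])
      have d := (h4 _ (H12Gl2.gall_irr hNT (irr_char (lin_irr j)) (hj ▸ h1) b c)
        (by rw [← hj, H12Gl2.dot_gall c (hj ▸ h1)]; exact irr_one_ne b)).2
      rwa [deg_congr (ψ := α) (by rw [Pi.mul_apply, lin_apply_one, mul_one, e 1 N.one_mem])] at d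
  obtain ⟨R, hR⟩ := syl_exists hp.out T
  obtain ⟨g, -, rfl⟩ := (hR.of_idx le_top ((piNat_compl_iff hp.out).2 (h4 ψ h5 h6).1)).syl_conj hp.out hP
  have h7 : ⁅R, R⁆ ≤ N := by
    have a : (R.subgroupOf T).map (QuotientGroup.mk' (N.subgroupOf T)) ≤ S :=
      s1.le_of_normal s2.le_normalizer (pi_map (by
        rw [isPi_iff, Nat.card_congr (subgroupOfEquivOfLe hR.le).toEquiv]; exact hR.pi.nat) _) le_top
    have b := der_le_ker (f := QuotientGroup.mk' (N.subgroupOf T)) (A := R.subgroupOf T) (by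
      haveI := s3; exact ⟨⟨fun x y => Subtype.ext (congrArg (fun z : S => z.1) (s3.is_comm.comm (⟨x.1, a x.2⟩ : S) ⟨y.1, a y.2⟩))⟩⟩)
    rw [QuotientGroup.ker_mk'] at b
    refine commutator_le.2 fun x hx y hy => ?_
    exact b (commutator_mem_commutator (G := T) (g₁ := ⟨x, hR.le hx⟩) (g₂ := ⟨y, hR.le hy⟩) hx hy)
  rw [← cj_normal N g, ← cj_comm]
  exact cj_mono g h7

theorem cnt (N : Subgroup Γ) [N.Normal] :
    Nat.card {χ : IrrCharacter (Γ ⧸ N) // p ∣ charDegree χ.1} ≤ Nat.card {χ : IrrCharacter Γ // p ∣ charDegree χ.1} ∧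
    ((∃ χ ∈ irr (⊤ : Subgroup Γ), ¬ N ≤ cfker χ ∧ p ∣ charDegree χ) →
    Nat.card {χ : IrrCharacter (Γ ⧸ N) // p ∣ charDegree χ.1} < Nat.card {χ : IrrCharacter Γ // p ∣ charDegree χ.1}) := by
  let F : {χ : IrrCharacter (Γ ⧸ N) // p ∣ charDegree χ.1} → {χ : IrrCharacter Γ // p ∣ charDegree χ.1} := fun χ =>
    ⟨(CChar.CharKer.irrQuotientEquiv N χ.1).1, by
      rw [deg_congr (ψ := χ.1.1) (CChar.CharKer.irrQuotientEquiv_apply N χ.1 1)]; exact χ.2⟩
  have hF : Function.Injective F := fun a b e =>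
    Subtype.ext ((CChar.CharKer.irrQuotientEquiv N).injective (Subtype.ext (congrArg (fun z : {χ : IrrCharacter Γ // p ∣ charDegree χ.1} => z.1) e)))
  refine ⟨Nat.card_le_card_of_injective F hF, fun ⟨χ, a, b, c⟩ => ?_⟩
  refine lt_of_le_of_ne (Nat.card_le_card_of_injective F hF) fun e => ?_
  obtain ⟨ψ, hψ⟩ := ((Nat.bijective_iff_injective_and_card F).2 ⟨hF, e⟩).2 ⟨⟨χ, mem_irr_top.1 a⟩, c⟩
  have := (CChar.CharKer.irrQuotientEquiv N ψ.1).2
  rw [show (CChar.CharKer.irrQuotientEquiv N ψ.1).1 = _ from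
    congrArg (fun z : {χ : IrrCharacter Γ // p ∣ charDegree χ.1} => z.1) hψ] at this
  exact b fun x hx => (irr_mem_cfker a).2 (CChar.CharKer.apply_of_mem_charKer (this hx))

theorem main [hp : Fact p.Prime] (n : ℕ) : ∀ (Γ : Type u) [Group Γ] [Finite Γ] (P : Subgroup Γ), Nat.card Γ < n →
    IsPSolvable p Γ → Syl p P ⊤ → derivedSeries P (Nat.card {χ : IrrCharacter Γ // p ∣ charDegree χ.1} + 1) = ⊥ := by
  induction n with
  | zero => intro _ _ _ _ h; omega
  | succ n ih =>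
  intro Γ _ _ P hn hs hP
  haveI := Fintype.ofFinite Γ
  have q : ∀ (N : Subgroup Γ) [N.Normal], N ≠ ⊥ → derivedSeries P
      (Nat.card {χ : IrrCharacter (Γ ⧸ N) // p ∣ charDegree χ.1} + 1) ≤ N.subgroupOf P := fun N _ h => by
    have := der_le (QuotientGroup.mk' N) P (ih _ _ (by have := card_quot_lt h; omega) (H12PSolv.psolv_quotient hs N)
      (syl_map' hp.out (QuotientGroup.mk'_surjective N) hP))
    rwa [QuotientGroup.ker_mk'] at this
  by_cases h0 : (⊤ : Subgroup Γ) = ⊥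
  · obtain rfl := BG.eq_bot_mono (le_top : P ≤ ⊤) h0
    exact Subsingleton.elim _ _
  obtain h1 | h1 := H12PSolv.core_ne_bot hs h0
  swap
  · rw [top_inf_eq] at h1
    refine der_mono (Nat.succ_le_succ (cnt (pPrimeCore p Γ)).1) (le_bot_iff.1 ((q _ h1).trans ?_))
    rw [le_bot_iff, subgroupOf_eq_bot, disjoint_iff]
    exact PQSol.pi_core.inf_eq_bot' hP.pi
  rw [top_inf_eq] at h1
  have a1 := isPi_of_isPGroup hp.out (Core.isPGroup_pCore (p := p) (G := Γ))
  have a2 : 𝓩(pCore p Γ) ≠ ⊥ := a1.center_ne_bot h1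
  haveI a3 : (𝓩(pCore p Γ)).Normal := normal_of ((top_norm _ ⊤).trans (norm_center _))
  have a4 : IsMulCommutative (𝓩(pCore p Γ) : Subgroup Γ) := comm_center _
  by_cases h2 : ∃ χ ∈ irr (⊤ : Subgroup Γ), ¬ 𝓩(pCore p Γ) ≤ cfker χ ∧ p ∣ charDegree χ
  · exact der_mono (Nat.succ_le_succ ((cnt _).2 h2)) (der_succ a4 (q _ a2))
  push Not at h2
  rcases Nat.eq_zero_or_pos (Nat.card {χ : IrrCharacter Γ // p ∣ charDegree χ.1}) with e | e
  · obtain ⟨S, s1, s2, s3⟩ := ito_syl hp.out hs fun χ a b =>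
      (Nat.card_pos_iff.2 ⟨⟨⟨⟨χ, mem_irr_top.1 a⟩, b⟩⟩, inferInstance⟩).ne' e
    exact der_succ s3 fun x _ => s1.le_of_normal s2.le_normalizer hP.pi le_top x.2
  · refine der_mono (Nat.succ_le_succ e) (der_succ a4 ?_)
    have := key hs (a1.of_le inf_le_left) a4 a2 h2 hP
    rw [derivedSeries_one]
    exact commutator_le.2 fun x _ y _ => this (commutator_mem_commutator x.2 y.2)

/-- Let p be a prime, G a finite p-solvable group and P a Sylow p-subgroup of G. If n is the number of irreducible complex characters of G whose degree is divisible by p, then the (n+1)-st term of the derived series of P is trivial. (The p-solvable case has a direct inductive proof.) -/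
theorem result {G : Type*} [Group G] [Finite G] (p : ℕ) [Fact p.Prime] (hG : Cfsg.IsPSolvable p G) (P : Sylow p G) : derivedSeries ↥(P : Subgroup G) (Nat.card {χ : Cfsg.IrrCharacter G // p ∣ Cfsg.charDegree (χ : G → ℂ)} + 1) = ⊥ := by
  exact main _ G P (Nat.lt_succ_self _) hG (syl_top Fact.out P)

end Cfsg.Agent.S4768
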