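import Cfsg.Statements.S4782
import Cfsg.Agent.Lib.Char.Clif
import Cfsg.Agent.Lib.Char.CharBurn

set_option autoImplicit false
open Cfsg

namespace Cfsg.Agent.S4782

open CChar.CharFun CChar.CharKer CChar.CharInt in
theorem sub_dvd {X : Type*} [Group X] [Finite X] (N : Subgroup X) [N.Normal] {θ : N → ℂ}
    (hθ : IsIrrCharacter N θ) : ∃ χ : X → ℂ, IsIrrCharacter X χ ∧ charDegree θ ∣ charDegree χ := by
  classical
  haveI := Fintype.ofFinite X
  haveI := Fintype.ofFinite N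
  obtain ⟨χ, hχ, h⟩ := CA.Cons.exists_irr_over N hθ
  refine ⟨χ, hχ, ?_⟩
  have h1 := CA.Clif.apply_one_eq hχ hθ h
  obtain ⟨e, he⟩ := inner_char_char (char_comp (char_of_irr hχ) N.subtype) (char_of_irr hθ)
  have he' : classInner (fun n : N => χ n) θ = e := he
  rw [he', irr_apply_one_eq hχ, irr_apply_one_eq hθ] at h1
  exact ⟨e * (CA.Clif.inertia θ).index, by exact_mod_cast h1.trans (mul_comm _ _)⟩

open CChar.CharFun CChar.CharKer CChar.CharInt in
theorem simple_case {X : Type*} [Group X] [Finite X] [IsSimpleGroup X] {r t : ℕ} (hr : r.Prime)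
    (ht : t.Prime) (hrX : r ∣ Nat.card X)
    (h : ∀ s : ℕ, s.Prime → ∀ χ : X → ℂ, IsIrrCharacter X χ → s ∣ charDegree χ → s = r ∨ s = t) :
    Group.IsSolvable X := by
  have := Fact.mk hr
  obtain ⟨Q⟩ : Nonempty (Sylow r X) := inferInstance
  have hQ : Nontrivial Q := by
    rw [Subgroup.nontrivial_iff_ne_bot]
    exact Q.ne_bot_of_dvd_card hrX
  have := Q.isPGroup'.center_nontrivial
  obtain ⟨z, hz⟩ := exists_ne (1 : Subgroup.center Q)
  have hz1 : ((z : Q) : X) ≠ 1 := fun h1 => hz (Subtype.ext (Subtype.ext h1))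
  have hle : (Q : Subgroup X) ≤ Subgroup.centralizer {((z : Q) : X)} := fun x hx => by
    rw [Subgroup.mem_centralizer_singleton_iff]
    exact congrArg Subtype.val (Subgroup.mem_center_iff.mp z.2 ⟨x, hx⟩)
  have hnd : ¬ r ∣ (Subgroup.centralizer {((z : Q) : X)}).index := fun hd =>
    Q.not_dvd_index (hd.trans (Subgroup.index_dvd_of_le hle))
  obtain ⟨χ, hχ, h1, h2, h3⟩ := exists_irr_not_dvd_ne_zero ht hz1
  have h4 : (charDegree χ).Coprime (Subgroup.centralizer {((z : Q) : X)}).index := by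
    refine Nat.coprime_of_dvd fun s hs h5 h6 => ?_
    rcases h s hs χ hχ h5 with rfl | rfl
    · exact hnd h6
    · exact h2 h5
  have h5 := (eq_zero_or_mem_charCenter_of_coprime hχ (irr_apply_one_eq hχ) _ h4).resolve_left h3
  rw [charCenter_eq_center hχ (charKer_eq_bot_of_simple hχ h1)] at h5
  have h6 : Subgroup.center X = ⊤ :=
    (Subgroup.Normal.eq_bot_or_eq_top inferInstance).resolve_left fun h => hz1 (by
      rw [h] at h5; exact h5)
  exact Group.isSolvable_of_comm fun a b => Subgroup.mem_center_iff.mp (h6 ▸ Subgroup.mem_top b) a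

/-- If the finite group G is not solvable, then at least three distinct primes each divide some irreducible complex character degree of G. -/
theorem result {G : Type*} [Group G] [Finite G] (hG : ¬ Group.IsSolvable G) : ∃ p q r : ℕ, p ≠ q ∧ q ≠ r ∧ p ≠ r ∧ p ∈ Cfsg.degreePrimes G ∧ q ∈ Cfsg.degreePrimes G ∧ r ∈ Cfsg.degreePrimes G := by
  by_contra hne
  obtain ⟨p, q, hpq⟩ : ∃ p q : ℕ, ∀ s ∈ Cfsg.degreePrimes G, s = p ∨ s = q := by
    by_cases h1 : ∃ p, p ∈ Cfsg.degreePrimes G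
    · obtain ⟨p, hp⟩ := h1
      by_cases h2 : ∃ q ∈ Cfsg.degreePrimes G, q ≠ p
      · obtain ⟨q, hq, hqp⟩ := h2
        refine ⟨p, q, fun s hs => ?_⟩
        by_contra h3
        push Not at h3
        exact hne ⟨p, q, s, hqp.symm, h3.2.symm, h3.1.symm, hp, hq, hs⟩
      · push Not at h2
        exact ⟨p, p, fun s hs => Or.inl (h2 s hs)⟩
    · exact ⟨0, 0, fun s hs => (h1 ⟨s, hs⟩).elim⟩
  refine hG (CChar.CharBurn.isSolvable_of_forall_simple
    (P := fun X _ => ∀ s : ℕ, s.Prime → ∀ χ : X → ℂ, IsIrrCharacter X χ → s ∣ charDegree χ → s = p ∨ s = q)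
    ?_ ?_ ?_ G fun s hs χ hχ hd => hpq s ⟨hs, _, ⟨⟨χ, hχ⟩, rfl⟩, hd⟩)
  · intro X _ _ N _ h s hs θ hθ hd
    obtain ⟨χ, hχ, h1⟩ := sub_dvd N hθ
    exact h s hs χ hχ (hd.trans h1)
  · intro X _ _ N _ h s hs θ hθ hd
    exact h s hs _ (CChar.CharKer.irr_inflate hθ) hd
  · intro X _ _ _ h
    by_cases h1 : ∃ r : ℕ, r.Prime ∧ ∃ χ : X → ℂ, IsIrrCharacter X χ ∧ r ∣ charDegree χ
    · obtain ⟨r, hr, χ, hχ, hd⟩ := h1
      have hrX := hd.trans (CChar.CharInt.charDegree_dvd_card hχ)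
      by_cases h2 : ∃ t : ℕ, t.Prime ∧ t ≠ r ∧ ∃ χ : X → ℂ, IsIrrCharacter X χ ∧ t ∣ charDegree χ
      · obtain ⟨t, ht, htr, ψ, hψ, hd'⟩ := h2
        refine simple_case hr ht hrX fun s hs φ hφ hd'' => ?_
        have h3 := h r hr χ hχ hd
        have h4 := h t ht ψ hψ hd'
        have h5 := h s hs φ hφ hd''
        omega
      · refine simple_case hr hr hrX fun s hs φ hφ hd'' => Or.inl ?_
        by_contra h3
        exact h2 ⟨s, hs, h3, φ, hφ, hd''⟩
    · obtain ⟨r, hr, hrX⟩ := Nat.exists_prime_and_dvd (Finite.one_lt_card (α := X)).ne'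
      exact simple_case hr hr hrX fun s hs φ hφ hd => (h1 ⟨s, hs, φ, hφ, hd⟩).elim

end Cfsg.Agent.S4782
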