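import Cfsg.Statements.S4784
import Cfsg.Agent.Lib.Char.H10FS

set_option autoImplicit false
open Cfsg

namespace Cfsg.Agent.S4784
open CA.H10FS CA.MatRep CA.H11FS CA.Clif CA.Gall CA.Ind2 CA.Ext CChar.CharFun CChar.CharOrth CChar.CharInt CChar.CharProd CChar.CharKer CA.Ind Subgroup

/-- Let H be a subgroup of the finite group G and consider the permutation character of G on the cosets of H (the function induced from the principal character of H). Then exactly one irreducible constituent of it is real-valued with Frobenius–Schur indicator +1 (namely the principal character) if and only if the normal core of H has odd index in G. -/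
theorem result {G : Type*} [Group G] [Fintype G] (H : Subgroup G) : Nat.card {χ : Cfsg.IrrCharacter G // Cfsg.classInner (Cfsg.indFun H (fun _ : H => (1 : ℂ))) (χ : G → ℂ) ≠ 0 ∧ (∀ g : G, (starRingEnd ℂ) ((χ : G → ℂ) g) = (χ : G → ℂ) g) ∧ (Nat.card G : ℂ)⁻¹ * ∑ g : G, (χ : G → ℂ) (g * g) = 1} = 1 ↔ Odd H.normalCore.index := by
  classical
  have h0 : classInner (indFun H fun _ => 1) (irrOne G).1 = 1 :=
    (inner_ind_left _ _ (irr_classFun irr_one)).trans inner_one_one
  have hm : classInner (indFun H fun _ => 1) (irrOne G).1 ≠ 0 ∧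
      (∀ g : G, (starRingEnd ℂ) ((irrOne G).1 g) = (irrOne G).1 g) ∧
      (Nat.card G : ℂ)⁻¹ * ∑ g : G, (irrOne G).1 (g * g) = 1 :=
    ⟨h0.trans_ne one_ne_zero, fun _ => map_one _, fsInd_one⟩
  rw [Nat.card_eq_one_iff_exists]
  refine ⟨fun ⟨χ, hχ⟩ => ?_, fun ho => ⟨⟨_, hm⟩, fun χ => Subtype.ext (Subtype.ext
    (eq_one_of_real ho χ.1.2 (fun n hn => apply_of_mem_charKer (charKer_le_of_inner_ne_zero
      (isCharacter_indFun H char_one) χ.1.2 χ.2.1 ((mem_charKer (isCharacter_indFun H char_one)).2
        ?_))) fun g => Complex.conj_eq_iff_im.1 (χ.2.2.1 g)))⟩⟩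
  swap
  · simp only [indFun_def]
    exact congrArg _ (Finset.sum_congr rfl fun x _ => by
      rw [ext_of_mem _ _ (by simpa using hn x⁻¹), ext_of_mem _ _ (by simp)])
  obtain ⟨m, h1, -⟩ := char_exists_nat_coeffs (isCharacter_indFun H char_one)
  have h2 := fs_sum (indFun_classFun H fun _ => 1)
  rw [fs_ind, inv_mul_eq_iff_eq_mul₀ (card_ne_zero H)] at h2
  have h3 : (∑ ψ : IrrCharacter G, classInner (indFun H fun _ => 1) ψ.1 * fsInd ψ.1).re ≤ 1 := by
    rw [Complex.re_sum, ← Finset.add_sum_erase _ _ (Finset.mem_univ (irrOne G)), h0,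
      show fsInd (irrOne G).1 = 1 from fsInd_one]
    simp only [mul_one, Complex.one_re, add_le_iff_nonpos_right]
    refine Finset.sum_nonpos fun ψ hψ => ?_
    rcases fsInd_cases ψ.2 with e | e | e
    · simp [e]
    · by_cases h : classInner (indFun H fun _ => 1) ψ.1 = 0
      · simp [h]
      exact absurd (congrArg Subtype.val ((hχ ⟨ψ, h, fun g => Complex.conj_eq_iff_im.2
        (real_of_fs ψ.2 (by simp [e]) g), e⟩).trans (hχ ⟨_, hm⟩).symm)) (Finset.ne_of_mem_erase hψ)
    · simp [e, h1]
  have h4 : (Finset.univ.filter (· ∈ H)) = Finset.univ.filter fun g : G => g * g ∈ H := by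
    refine Finset.eq_of_subset_of_card_le (fun g => by simpa using fun h => mul_mem h h) ?_
    have h5 := congrArg Complex.re h2
    simp only [ext_res H fun _ => 1, Finset.sum_boole, Complex.natCast_re, Complex.mul_re,
      Complex.natCast_im, zero_mul, sub_zero] at h5
    rw [← Nat.cast_le (α := ℝ), h5, ← Fintype.card_subtype, ← Nat.card_eq_fintype_card]
    exact mul_le_of_le_one_right (by positivity) h3
  have h5 : ∀ (k : ℕ) (g : G), g ^ 2 ^ k ∈ H → g ∈ H := fun k => by
    induction k with
    | zero => simp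
    | succ k ih =>
      exact fun g h => ih g (by simpa using h4.ge (by simpa [pow_succ, pow_mul, sq] using h))
  obtain ⟨P⟩ : Nonempty (Sylow 2 G) := inferInstance
  refine Nat.not_even_iff_odd.1 fun e => P.not_dvd_index (e.two_dvd.trans (index_dvd_of_le
    fun g hg x => ?_))
  obtain ⟨k, hk⟩ := P.isPGroup' ⟨g, hg⟩
  exact h5 k _ (by rw [conj_pow, show g ^ 2 ^ k = 1 from congrArg Subtype.val hk]; simp)

end Cfsg.Agent.S4784
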