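import Cfsg.Statements.S4796
import Cfsg.Agent.Lib.Char.H12Misc

set_option autoImplicit false
open Cfsg

namespace Cfsg.Agent.S4796

open CChar.CharRep CChar.CharFun CChar.CharOrth CChar.CharKer CChar.CharInt CChar.CharGen
  CChar.CharMisc CChar.CharProd CA.H12Misc Subgroup
open scoped ComplexConjugate commutatorElement

/-- Let G be a finite group with a faithful irreducible complex character χ whose codegree #G / χ(1) is a prime p (for a faithful character the kernel is trivial, so the codegree is #G / χ(1)). Then either G is cyclic of order p, or G is a Frobenius group whose Frobenius kernel has order p: some proper non-trivial subgroup H satisfies H ∩ gHg⁻¹ = 1 for every element g outside H, and the set of elements lying in no conjugate of H, together with the identity, has exactly p elements. -/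
theorem result {G : Type*} [Group G] [Finite G] (χ : Cfsg.IrrCharacter G) (hfaith : ∀ g : G, (χ : G → ℂ) g = (χ : G → ℂ) 1 → g = 1) (p : ℕ) (hp : p.Prime) (hcod : Nat.card G = p * Cfsg.charDegree (χ : G → ℂ)) : (IsCyclic G ∧ Nat.card G = p) ∨ ∃ H : Subgroup G, Cfsg.IsFrobeniusComplement H ∧ Nat.card ↥(Cfsg.frobeniusKernel H) = p := by
  have := Fact.mk hp
  obtain ⟨P, h1, h2, h3, h4⟩ := normal_of_cod χ.2 hp hcod
  obtain ⟨H, hH⟩ := exists_right_complement'_of_coprime (N := P)
    (h2 ▸ (Nat.Prime.coprime_iff_not_dvd hp).2 h3)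
  by_cases h5 : H = ⊥
  · have h6 := hH.card_mul_card
    rw [h5, card_bot, mul_one, h2] at h6
    exact Or.inl ⟨isCyclic_of_prime_card h6.symm, h6.symm⟩
  have h6 : CA.Frob2.Semireg P H := CA.Frob2.semireg_iff.2 fun h hh h6 k hk e => by_contra fun h7 =>
    h6 (mem_bot.1 (hH.disjoint.le_bot ⟨h4 k hk h7 (mem_centralizer_singleton_iff.2 e), hh⟩))
  refine Or.inr ⟨H, CA.Frob2.isFrob_of_semireg hH.sup_eq_top (fun e => hp.one_lt.ne ?_) h5 h6, ?_⟩
  · rw [← h2, e, card_bot]
  · rw [CA.Frob2.kernel_eq_of_semireg hH.sup_eq_top h6]; exact h2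

end Cfsg.Agent.S4796
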