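import Cfsg.Statements.S4797
import Cfsg.Agent.Lib.Char.H12Misc

set_option autoImplicit false
open Cfsg

namespace Cfsg.Agent.S4797

open CChar.CharRep CChar.CharFun CChar.CharOrth CChar.CharKer CChar.CharInt CChar.CharGen
  CChar.CharMisc CChar.CharProd CA.H12Misc Subgroup
open scoped ComplexConjugate commutatorElement

/-- The codegree of an irreducible complex character χ of a finite group G is [G : ker χ] / χ(1), where ker χ is the set of elements at which χ takes the value χ(1). A non-trivial finite group is perfect if and only if no irreducible complex character of it has prime codegree. -/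
theorem result {G : Type*} [Group G] [Finite G] [Nontrivial G] : commutator G = ⊤ ↔ ∀ χ : Cfsg.IrrCharacter G, ¬ ((Nat.card G / (Nat.card {g : G // (χ : G → ℂ) g = (χ : G → ℂ) 1} * Cfsg.charDegree (χ : G → ℂ)))).Prime := by
  refine ⟨fun h χ hp => ?_, fun h => by_contra fun h1 => ?_⟩
  · obtain ⟨P, h1, h2, h3, h4⟩ := normal_of_cod (irr_deflate χ.2 le_rfl) hp
      (by rw [deg_deflate le_rfl]; exact cod_mul χ.2)
    have := Fact.mk hp
    have := isCyclic_of_prime_card h2
    have h5 : commutator (G ⧸ charKer χ.1) = ⊤ := by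
      rw [commutator_def, ← map_top_of_surjective _ (QuotientGroup.mk'_surjective _),
        ← map_commutator, ← commutator_def, h]
    have h6 := h5.ge.trans (Abelianization.commutator_subset_ker
      ((IsCyclic.mulAutMulEquiv P).toMonoidHom.comp (MulAut.conjNormal (H := P))))
    obtain ⟨⟨x, hx⟩, h7⟩ := (nontrivial_iff_exists_ne (1 : P)).1
      (Finite.one_lt_card_iff_nontrivial.1 (h2 ▸ hp.one_lt))
    have h8 : ∀ g y, y ∈ P → g * y * g⁻¹ = y := fun g y hy => by
      simpa using congrArg Subtype.val (DFunLike.congr_fun ((map_eq_one_iff _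
        (IsCyclic.mulAutMulEquiv P).injective).1 (h6 (mem_top g))) ⟨y, hy⟩)
    have h9 : ∀ g, g ∈ P := fun g => h4 x hx (fun e => h7 (Subtype.ext e))
      (mem_centralizer_singleton_iff.2 (mul_inv_eq_iff_eq_mul.1 (h8 g x hx)))
    rw [commutator_def, commutator_eq_bot_iff_le_centralizer.2 fun a _ b _ =>
      mul_inv_eq_iff_eq_mul.1 (h8 b a (h9 a))] at h5
    exact h7 (Subtype.ext (mem_bot.1 (h5.ge (mem_top x))))
  · have h2 := card_unitsHom (G := G)
    have : Finite (G →* ℂˣ) := Nat.finite_of_card_ne_zero (h2 ▸ index_ne_zero_of_finite)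
    obtain ⟨p, hp, h3⟩ := Nat.exists_prime_and_dvd (h2.trans_ne (index_eq_one.not.2 h1))
    have := Fact.mk hp
    obtain ⟨l, hl⟩ := exists_prime_orderOf_dvd_card' p h3
    have h4 := cod_mul (irr_of_unitsHom l)
    have h5 : charKer (fun g => (l g : ℂ)) = l.ker := Subgroup.ext fun g => by
      simp [mem_charKer (char_of_unitsHom l)]
    rw [charDegree_eq (n := 1) (by simp), mul_one, h5,
      Nat.card_congr (QuotientGroup.quotientKerEquivRange l).toEquiv] at h4
    refine h ⟨_, irr_of_unitsHom l⟩ ?_
    rw [charDegree_eq (n := 1) (by simp), ← h4]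
    have : Finite l.range := Finite.of_surjective _ l.rangeRestrict_surjective
    have := isCyclic_subgroup_units l.range
    have h6 : Nat.card l.range ∣ p := IsCyclic.exponent_eq_card (α := l.range) ▸
      Monoid.exponent_dvd_of_forall_pow_eq_one fun ⟨_, g, e⟩ => Subtype.ext (by
        simpa [hl, e] using DFunLike.congr_fun (pow_orderOf_eq_one l) g)
    rwa [((Nat.dvd_prime hp).1 h6).resolve_left fun e => hp.one_lt.ne' (by
      rw [← hl, MonoidHom.range_eq_bot_iff.1 (card_eq_one.1 e), orderOf_one])]

end Cfsg.Agent.S4797
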