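import Cfsg.Statements.S4798
import Cfsg.Agent.Lib.Char.H12Misc

set_option autoImplicit false
open Cfsg

namespace Cfsg.Agent.S4798

open CChar.CharRep CChar.CharFun CChar.CharOrth CChar.CharKer CChar.CharInt CChar.CharGen
  CChar.CharMisc CChar.CharProd CA.H12Misc Subgroup
open scoped ComplexConjugate commutatorElement

/-- Let p be a prime and χ a faithful irreducible complex character of the finite group G (χ(g) = χ(1) only for g = 1), so that its codegree is #G / χ(1). Then #G / χ(1) is a power of p if and only if χ is induced from a character of a Sylow p-subgroup of G. -/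
theorem result {G : Type*} [Group G] [Fintype G] (p : ℕ) [Fact p.Prime] (χ : Cfsg.IrrCharacter G) (hfaith : ∀ g : G, (χ : G → ℂ) g = (χ : G → ℂ) 1 → g = 1) : (∃ k : ℕ, Nat.card G = p ^ k * Cfsg.charDegree (χ : G → ℂ)) ↔ ∃ (P : Sylow p G) (θ : ↥(P : Subgroup G) → ℂ), Cfsg.IsCharacter ↥(P : Subgroup G) θ ∧ (χ : G → ℂ) = Cfsg.indFun (P : Subgroup G) θ := by
  have hp : p.Prime := Fact.out
  refine ⟨fun ⟨k, hk⟩ => ?_, fun ⟨P, θ, h1, h2⟩ => ?_⟩
  · obtain ⟨P⟩ : Nonempty (Sylow p G) := inferInstance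
    have := Fintype.ofFinite P
    obtain ⟨n, hn⟩ := P.isPGroup'.exists_card_eq
    have h0 := (P : Subgroup G).card_mul_index
    obtain ⟨m, h1, h2⟩ := char_exists_nat_coeffs (char_restrict (char_of_irr χ.2) P)
    have h3 := congrFun h2 1
    simp only [Finset.sum_apply, Pi.smul_apply, smul_eq_mul, OneMemClass.coe_one,
      irr_apply_one_eq χ.2, fun θ : IrrCharacter P => irr_apply_one_eq θ.2] at h3
    have h4 : charDegree χ.1 = ∑ θ, m θ * charDegree θ.1 := by exact_mod_cast h3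
    have h5 : k ≤ n := (Nat.pow_dvd_pow_iff_le_right hp.one_lt).1
      ((((Nat.Prime.coprime_iff_not_dvd hp).2 P.not_dvd_index).pow_left k).dvd_of_dvd_mul_right
        (by rw [← hn, h0, hk]; exact Dvd.intro _ rfl))
    obtain ⟨a, rfl⟩ := Nat.exists_eq_add_of_le h5
    have h6 : charDegree χ.1 = (P : Subgroup G).index * p ^ a :=
      Nat.eq_of_mul_eq_mul_left (pow_pos hp.pos k) (by rw [← hk, ← h0, hn]; ring)
    obtain ⟨θ, h7, h8⟩ : ∃ θ : IrrCharacter P, m θ ≠ 0 ∧ ¬ p ^ (a + 1) ∣ charDegree θ.1 := by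
      by_contra! h7
      have h8 : p ^ (a + 1) ∣ charDegree χ.1 := h4 ▸ Finset.dvd_sum fun θ _ => by
        by_cases e : m θ = 0
        · simp [e]
        · exact (h7 θ e).mul_left _
      rw [h6, pow_succ', Nat.mul_dvd_mul_iff_right (pow_pos hp.pos a)] at h8
      exact P.not_dvd_index h8
    have h9 : classInner (indFun (P : Subgroup G) θ.1) χ.1 ≠ 0 := by
      rw [CA.Ind.inner_ind_left _ _ (irr_classFun χ.2), Ne, inner_eq_zero_comm, h1]
      exact_mod_cast h7
    have h10 := CA.MatRep.isCharacter_indFun _ (char_of_irr θ.2)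
    obtain ⟨j, hj⟩ := degree_eq_pow_of_isPGroup P.isPGroup' θ.2
    have h11 : indFun (P : Subgroup G) θ.1 1 = ((P : Subgroup G).index * p ^ j : ℕ) := by
      rw [CA.Ind.indFun_one, irr_apply_one_eq θ.2, hj, Nat.cast_mul]
    have h12 := degree_le_of_inner_ne_zero h10 χ.2 h9 (irr_apply_one_eq χ.2) h11
    rw [hj, Nat.pow_dvd_pow_iff_le_right hp.one_lt] at h8
    rw [h6, Nat.mul_le_mul_left_iff (Nat.pos_of_ne_zero index_ne_zero_of_finite),
      Nat.pow_le_pow_iff_right hp.one_lt] at h12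
    exact ⟨P, θ, char_of_irr θ.2, (eq_of_inner_ne_zero_of_apply_one h10 χ.2 h9 (by
      rw [h11, irr_apply_one_eq χ.2, h6, show j = a by omega])).symm⟩
  · obtain ⟨n, hn⟩ := P.isPGroup'.exists_card_eq
    have h3 := CA.Cons.irr_of_irr_indFun _ h1 (h2 ▸ χ.2)
    obtain ⟨c, hc⟩ := charDegree_dvd_card h3
    obtain ⟨k, -, hk⟩ := (Nat.dvd_prime_pow hp).1 (hn ▸ Dvd.intro_left _ hc.symm)
    exact ⟨k, by rw [← (P : Subgroup G).card_mul_index, hc, hk, charDegree_eq
      (χ := χ.1) (n := (P : Subgroup G).index * charDegree θ) (by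
        rw [h2, CA.Ind.indFun_one, irr_apply_one_eq h3, Nat.cast_mul])]; ring⟩

end Cfsg.Agent.S4798
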