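import Cfsg.Statements.S4802
import Cfsg.Agent.Lib.Char.H12Misc
import Cfsg.Agent.Lib.Block.BlkZero

set_option autoImplicit false
open Cfsg

namespace Cfsg.Agent.S4802

open CChar.CharRep CChar.CharFun CChar.CharOrth CChar.CharKer CChar.CharInt CChar.CharGen
  CChar.CharMisc CChar.CharProd CA.H12Misc Subgroup
open scoped ComplexConjugate commutatorElement

/-- Let N < M be normal subgroups of the finite group G and g ∈ M ∖ N. Then the conjugacy class of g is exactly M ∖ N if and only if every irreducible complex character of G whose kernel contains N takes the same value at all elements of M ∖ N, and every irreducible complex character of G whose kernel does not contain N vanishes at g. -/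
theorem result {G : Type*} [Group G] [Finite G] (N M : Subgroup G) [N.Normal] [M.Normal] (hNM : N < M) (g : G) (hgM : g ∈ M) (hgN : g ∉ N) : {h : G | IsConj g h} = (M : Set G) \ (N : Set G) ↔ ((∀ χ : Cfsg.IrrCharacter G, (∀ x ∈ N, (χ : G → ℂ) x = (χ : G → ℂ) 1) → ∀ x ∈ M, x ∉ N → ∀ y ∈ M, y ∉ N → (χ : G → ℂ) x = (χ : G → ℂ) y) ∧ (∀ χ : Cfsg.IrrCharacter G, (∃ x ∈ N, (χ : G → ℂ) x ≠ (χ : G → ℂ) 1) → (χ : G → ℂ) g = 0)) := by
  have := Fintype.ofFinite G
  have := Fintype.ofFinite N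
  refine ⟨fun h => ?_, fun ⟨h1, h2⟩ => Set.ext fun x => ⟨fun hx => ?_, fun hx =>
    isConj_of_forall fun χ => ?_⟩⟩
  · have h1 : ∀ (χ : IrrCharacter G), ∀ x ∈ M, x ∉ N → χ.1 x = χ.1 g := fun χ x h1 h2 =>
      (classFun_of_isConj (irr_classFun χ.2) (h.ge ⟨h1, h2⟩)).symm
    refine ⟨fun χ _ x h2 h3 y h4 h5 => by rw [h1 χ x h2 h3, h1 χ y h4 h5], fun χ ⟨x, h2, h3⟩ => ?_⟩
    have h4 := congrFun (CA.Ind2.avg_of_not_ker (N := N) χ.2 fun h => h3 (h x h2)) g
    simpa [CA.Ind2.avg, fun n : N => h1 χ (n * g) (mul_mem (hNM.le n.2) hgM)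
      fun h => hgN ((mul_mem_cancel_left n.2).1 h)] using h4
  · obtain ⟨c, rfl⟩ := isConj_iff.1 hx
    exact ⟨Normal.conj_mem inferInstance g hgM c, fun h => hgN (by
      simpa [mul_assoc] using Normal.conj_mem' inferInstance _ h c)⟩
  · by_cases h : ∀ x ∈ N, χ.1 x = χ.1 1
    · exact Or.inr (h1 χ h x hx.1 hx.2 g hgM hgN)
    · exact Or.inl (h2 χ (by simpa using h))

end Cfsg.Agent.S4802
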