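import Cfsg.Statements.S4808
import Cfsg.Agent.Lib.Char.H12Misc
import Cfsg.Agent.Lib.Block.BlkZero

set_option autoImplicit false
open Cfsg

namespace Cfsg.Agent.S4808

open CChar.CharRep CChar.CharFun CChar.CharOrth CChar.CharKer CChar.CharInt CChar.CharGen
  CChar.CharMisc CChar.CharProd CA.H12Misc Subgroup
open scoped ComplexConjugate commutatorElement

/-- The codegree of an irreducible complex character χ of a finite group G is [G : ker χ] / χ(1), where ker χ is the set of elements at which χ takes the value χ(1). A prime divides the order of G if and only if it divides the codegree of some irreducible complex character of G. -/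
theorem result {G : Type*} [Group G] [Finite G] (p : ℕ) (hp : p.Prime) : p ∣ Nat.card G ↔ ∃ χ : Cfsg.IrrCharacter G, p ∣ (Nat.card G / (Nat.card {g : G // (χ : G → ℂ) g = (χ : G → ℂ) 1} * Cfsg.charDegree (χ : G → ℂ))) := by
  refine ⟨fun h => by_contra fun h1 => ?_, fun ⟨χ, h⟩ => h.trans (cod_dvd χ.2)⟩
  have := Fact.mk hp
  obtain ⟨g, hg⟩ := exists_prime_orderOf_dvd_card' p h
  refine hp.one_lt.ne' (hg ▸ orderOf_eq_one_iff.2 (isConj_one_left.1 (isConj_of_forall fun χ => ?_)))
  by_cases h2 : g ∈ charKer χ.1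
  · exact Or.inr (apply_of_mem_charKer h2).symm
  refine Or.inl ((deflate_mk le_rfl g).symm.trans (CA.BlkZero.DZ.apply_eq_zero
    (χ := ⟨_, irr_deflate χ.2 le_rfl⟩) hp ((CA.BlkZero.dz_iff_not_dvd hp).2 fun h3 => h1 ⟨χ, ?_⟩) ?_))
  · rwa [cod_mul χ.2, deg_deflate le_rfl, Nat.mul_div_cancel _ (charDegree_pos χ.2)] at h3
  · exact (((Nat.dvd_prime hp).1 (hg ▸ orderOf_map_dvd (QuotientGroup.mk' _) g)).resolve_left
      fun e => h2 ((QuotientGroup.eq_one_iff g).1 (orderOf_eq_one_iff.1 e))).symm.dvd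

end Cfsg.Agent.S4808
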