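import Cfsg.Statements.S4813
import Cfsg.Agent.Lib.Char.H10Cd2

set_option autoImplicit false
open Cfsg

namespace Cfsg.Agent.S4813
open CA.PF CA.OQuo CA.H12Deg CA.H12Cd CA.H10Cd Subgroup CA.H10Cd2

/-- If every irreducible complex character of the finite group G of degree greater than one has prime degree, then G has at most three distinct irreducible character degrees. -/
theorem result {G : Type*} [Group G] [Finite G] (hprime : ∀ d ∈ Cfsg.charDegrees G, d = 1 ∨ d.Prime) : Nat.card ↥(Cfsg.charDegrees G) ≤ 3 := by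
  classical
  have := Fintype.ofFinite G
  have h : ∀ d ∈ cd G, d = 1 ∨ d.Prime := fun d hd => hprime d (mem_cd'.1 hd)
  suffices ∃ a b, ∀ d ∈ cd G, d = 1 ∨ d = a ∨ d = b by
    obtain ⟨a, b, h⟩ := this
    exact (card_cd G).trans_le ((Finset.card_le_card (t := {1, a, b}) fun d hd => by
      simpa using h d hd).trans Finset.card_le_three)
  by_cases h0 : commutator G ≤ ⊥
  · exact ⟨1, 1, fun d hd => Or.inl (cd_of_comm (fun a b => commutatorElement_eq_one_iff_mul_comm.1
      (mem_bot.1 (h0 (commutator_mem_commutator trivial trivial)))) hd)⟩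
  have k : ∀ a d, a ≠ 1 → d ≠ 1 → a * d ∉ cd G := fun a d h1 h2 h3 =>
    (h _ h3).elim (fun e => h1 (Nat.eq_one_of_mul_eq_one_right e)) (Nat.not_prime_mul h1 h2)
  rcases dich2 (prime_solv h) h0 with ⟨p, a, hp, ha, h1⟩ | ⟨p, K, N, F⟩
  · refine ⟨p, p, fun d hd => or_iff_not_imp_left.2 fun e => Or.inl ?_⟩
    exact ((Nat.prime_dvd_prime_iff_eq hp ((h d hd).resolve_left e)).1 (of_not_not fun i =>
      k _ _ (one_lt_pow₀ hp.one_lt ha).ne' e (h1 d hd i))).symm
  · refine ⟨N.index, p, fun d hd => or_iff_not_imp_left.2 fun e => ?_⟩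
    obtain ⟨a, b, h1, rfl, h2⟩ := fs_split F hd
    have h3 := F.one_lt.ne'
    rcases (Nat.dvd_prime ((h _ F.index_mem.1).resolve_left h3)).1 h1 with rfl | rfl
    · rw [one_mul] at *
      exact Or.inr ((Nat.prime_dvd_prime_iff_eq F.prime ((h _ hd).resolve_left e)).1
        (h2.resolve_left (k _ _ h3 e))).symm
    · exact Or.inl (by rw [of_not_not fun i => k _ _ h3 i hd, mul_one])

end Cfsg.Agent.S4813
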