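import Cfsg.Statements.S4814
import Cfsg.Agent.Lib.Char.H12Misc

set_option autoImplicit false
open Cfsg

namespace Cfsg.Agent.S4814

open CChar.CharRep CChar.CharFun CChar.CharOrth CChar.CharKer CChar.CharInt CChar.CharGen
  CChar.CharMisc CChar.CharProd CA.H12Misc Subgroup
open scoped ComplexConjugate commutatorElement

/-- Let G be a finite group such that the sum, over the irreducible complex characters χ of G, of 1/χ(1)² is less than 2. Then every element of G is a product of two commutators. -/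
theorem result {G : Type*} [Group G] [Finite G]
    (h : ∑ᶠ χ : Cfsg.IrrCharacter G, 1 / ‖(χ : G → ℂ) 1‖ ^ 2 < (2 : ℝ)) (g : G) :
    ∃ a b c d : G, (a * b * a⁻¹ * b⁻¹) * (c * d * c⁻¹ * d⁻¹) = g := by
  classical
  have := Fintype.ofFinite G
  by_contra! h1
  have h2 := card_mul_card_eq_sum (fun x : G × G × G × G =>
    (x.2.2.2 * x.2.2.1 * x.2.2.2⁻¹ * x.2.2.1⁻¹) * (x.2.1 * x.1 * x.2.1⁻¹ * x.1⁻¹)) g
  rw [@Nat.card_of_isEmpty (Subtype _) ⟨fun x => h1 _ _ _ _ x.2⟩, Nat.cast_zero, mul_zero,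
    Finset.sum_congr rfl (g := fun χ : IrrCharacter G =>
      (Nat.card G : ℂ) ^ 4 * (χ.1 g⁻¹ / χ.1 1 ^ 3)) fun χ _ => by
      have h0 := irr_apply_one_ne_zero χ.2
      simp only [Fintype.sum_prod_type, mul_assoc (_ * _ * _ * _) (_ * _ * _ * _) g⁻¹,
        sum_comm_mul χ.2, ← Finset.sum_div, ← Finset.mul_sum]
      field_simp, ← Finset.mul_sum, eq_comm, mul_eq_zero,
    ← Finset.add_sum_erase _ _ (Finset.mem_univ (irrOne G))] at h2
  rw [finsum_irr, ← Finset.add_sum_erase _ _ (Finset.mem_univ (irrOne G))] at h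
  have h3 := (norm_sum_le _ _).trans (Finset.sum_le_sum
    (f := fun χ : IrrCharacter G => ‖χ.1 g⁻¹ / χ.1 1 ^ 3‖) (g := fun χ => 1 / ‖χ.1 1‖ ^ 2)
    fun χ (_ : χ ∈ Finset.univ.erase (irrOne G)) => by
      have h0 := norm_pos_iff.2 (irr_apply_one_ne_zero χ.2)
      have := char_norm_le (char_of_irr χ.2) g⁻¹
      rw [norm_div, norm_pow, div_le_div_iff₀ (by positivity) (by positivity)]
      nlinarith [pow_pos h0 2])
  rw [eq_neg_of_add_eq_zero_right (h2.resolve_left (pow_ne_zero _ card_ne_zero))] at h3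
  simp [irrOne_apply] at h h3
  linarith

end Cfsg.Agent.S4814
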