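import Cfsg.Statements.S4825
import Cfsg.Agent.Lib.Block.BlkCov

set_option autoImplicit false
open Cfsg

namespace Cfsg.Agent.S4825
open Cfsg MonoidAlgebra CA.BlkAlg CA.BlkVal CA.BlkOmega CA.BlkRed CA.BlkCore CA.BlkDefect CA.BlkInd CA.BlkHeight CA.SylIn CA.H12PPart CChar.CharFun CChar.CharOrth Subgroup CA.BlkKer CChar.CharKer CA.BlkZero CChar.CharInt CA.BlkReg CA.BlkGal CA.BlkQuo CA.BlkCov CA.H12Cover CA.Clif

/-- Let p be a prime, G a finite group with Sylow p-subgroup P, M a maximal ideal of the algebraic integers containing p, and B a p-block of G with defect group P. Let N be a normal subgroup of G not containing P and θ an irreducible character of N. Then the number of irreducible characters in B of degree prime to p lying over θ (having θ as a constituent on restriction to N) is either 0 or at least 2, and when p ≤ 3 it is divisible by p. -/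
theorem result {G : Type*} [Group G] [Fintype G] (p : ℕ) [Fact p.Prime] (P : Sylow p G) (M : Ideal Cfsg.AlgInt) (hM : Cfsg.IsPModular p M) (B : Set (Cfsg.IrrCharacter G)) (hB : Cfsg.IsPBlock M B) (hBP : Cfsg.IsDefectGroup p M B P) (N : Subgroup G) [N.Normal] [Fintype N] (hPN : ¬ (P : Subgroup G) ≤ N) (θ : Cfsg.IrrCharacter N) :
    (Nat.card {χ : Cfsg.IrrCharacter G // χ ∈ B ∧ ¬ p ∣ Cfsg.charDegree (χ : G → ℂ) ∧ Cfsg.classInner (fun n : N => (χ : G → ℂ) n) (θ : N → ℂ) ≠ 0} = 0 ∨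
      2 ≤ Nat.card {χ : Cfsg.IrrCharacter G // χ ∈ B ∧ ¬ p ∣ Cfsg.charDegree (χ : G → ℂ) ∧ Cfsg.classInner (fun n : N => (χ : G → ℂ) n) (θ : N → ℂ) ≠ 0}) ∧
    (p ≤ 3 → p ∣ Nat.card {χ : Cfsg.IrrCharacter G // χ ∈ B ∧ ¬ p ∣ Cfsg.charDegree (χ : G → ℂ) ∧ Cfsg.classInner (fun n : N => (χ : G → ℂ) n) (θ : N → ℂ) ≠ 0}) := by
  classical
  have hp : p.Prime := Fact.out
  obtain ⟨u, huP, huN⟩ := SetLike.not_le_iff_exists.1 hPN
  have hu : ∃ n, orderOf u = p ^ n := orderOf_eq_pow_of_mem hp P.isPGroup' huP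
  have hu' : p ∣ orderOf (u : G ⧸ N) := by
    obtain ⟨n, hn⟩ := hu
    have h1 : orderOf (u : G ⧸ N) ∣ p ^ n := hn ▸ orderOf_map_dvd (QuotientGroup.mk' N) u
    obtain ⟨j, -, hj⟩ := (Nat.dvd_prime_pow hp).1 h1
    rw [hj]
    refine dvd_pow_self p fun h0 => huN ?_
    rwa [h0, pow_zero, orderOf_eq_one_iff, QuotientGroup.eq_one_iff] at hj
  have hd := dvd_sum_sq hM _ hu (sum_over_eq_zero hM (isSat_of_isPBlock hM hB) θ hu')
  set s := Finset.univ.filter fun χ : IrrCharacter G => χ ∈ B ∧ ¬ p ∣ charDegree χ.1 ∧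
    classInner (fun n : N => χ.1 n) θ.1 ≠ 0 with hs
  have hc : Nat.card {χ : IrrCharacter G // χ ∈ B ∧ ¬ p ∣ charDegree (χ : G → ℂ) ∧
      classInner (fun n : N => (χ : G → ℂ) n) (θ : N → ℂ) ≠ 0} = s.card := by
    rw [Nat.card_eq_fintype_card, Fintype.card_subtype]
  have hd' : p ∣ ∑ χ ∈ s, charDegree χ.1 ^ 2 := by
    rw [← Finset.sum_filter_add_sum_filter_not _ fun χ : IrrCharacter G => p ∣ charDegree χ.1] at hd
    have h1 : p ∣ ∑ χ ∈ (Finset.univ.filter fun χ : IrrCharacter G =>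
        χ ∈ B ∧ Over N χ.1 θ.1) with p ∣ charDegree χ.1, charDegree χ.1 ^ 2 :=
      Finset.dvd_sum fun χ hχ => Dvd.dvd.pow (Finset.mem_filter.1 hχ).2 two_ne_zero
    convert (Nat.dvd_add_right h1).1 hd using 2
    ext χ
    simp only [hs, Finset.mem_filter, Finset.mem_univ, true_and, over_iff]
    tauto
  have hnd : ∀ χ ∈ s, ¬ p ∣ charDegree χ.1 := fun χ hχ => (Finset.mem_filter.1 hχ).2.2.1
  rw [hc]
  refine ⟨?_, fun h3 => ?_⟩
  · by_contra h
    obtain ⟨χ, hχ⟩ := Finset.card_eq_one.1 (show s.card = 1 by omega)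
    rw [hχ, Finset.sum_singleton] at hd'
    exact hnd χ (by simp [hχ]) (hp.dvd_of_dvd_pow hd')
  · have h1 : ∀ χ ∈ s, charDegree χ.1 ^ 2 ≡ 1 [MOD p] := fun χ hχ => by
      have h2 := hnd χ hχ
      have h4 := hp.two_le
      generalize charDegree χ.1 = d at h2
      have h5 : p = 2 ∨ p = 3 := by omega
      rcases h5 with rfl | rfl
      · have : d % 2 = 1 := by omega
        simp [Nat.ModEq, Nat.pow_mod, this]
      · have : d % 3 = 1 ∨ d % 3 = 2 := by omega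
        rcases this with h | h <;> simp [Nat.ModEq, Nat.pow_mod, h]
    have h2 : ∑ χ ∈ s, charDegree χ.1 ^ 2 ≡ ∑ χ ∈ s, 1 [MOD p] := Nat.ModEq.sum h1
    rw [Finset.sum_const, smul_eq_mul, mul_one] at h2
    exact (h2.dvd_iff dvd_rfl).1 hd'

end Cfsg.Agent.S4825
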