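import Cfsg.Statements.S4828
import Cfsg.Agent.Lib.Block.H11Brg
import Cfsg.Agent.Lib.Block.H11Max
import Cfsg.Agent.Lib.Block.BlkDom

set_option autoImplicit false
open Cfsg

namespace Cfsg.Agent.S4828
open Cfsg MonoidAlgebra CA.BlkAlg CA.BlkVal CA.BlkRed CA.BlkDefect CA.BlkInd CA.H11Amb CA.H11Def CA.H11Pair CA.H11Max CA.H11Brg CA.BlkQuo CA.BlkDom CA.BlkZero CChar.CharKer CChar.CharFun Subgroup

theorem aux {K : Type*} [Group K] [Finite K] {p : ℕ} [Fact p.Prime] {M : Ideal AlgInt}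
    (hM : IsPModular p M) {e : Set (IrrCharacter K)} (he : IsPBlock M e) (Z : Subgroup K)
    (hZ : ∀ z ∈ Z, ∀ x, x * z = z * x) (hp : IsPGroup p Z) :
    IsDefectGroup p M e Z ↔ ∃ θ ∈ e, (∀ z ∈ Z, θ.1 z = θ.1 1) ∧
      (charDegree θ.1).factorization p + (Nat.card Z).factorization p =
        (Nat.card K).factorization p := by
  haveI : Z.Normal := ⟨fun z hz g => by rw [hZ z hz g]; simpa using hz⟩
  have hφ := QuotientGroup.mk'_surjective Z
  have hk : (QuotientGroup.mk' Z).ker = Z := QuotientGroup.ker_mk' Z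
  have hN : IsPGroup p (QuotientGroup.mk' Z).ker := by rw [hk]; exact hp
  have hc : ∀ g, ¬ p ∣ orderOf g → g ∈ centralizer ((QuotientGroup.mk' Z).ker : Set K) := by
    intro g _
    rw [hk]
    exact fun z hz => (hZ z hz g).symm
  have hb := isPBlock_preimage_of_regular hφ hM hN hc he
  have hcard : (Nat.card K).factorization p =
      (Nat.card (K ⧸ Z)).factorization p + (Nat.card Z).factorization p := by
    rw [card_eq_card_quotient_mul_card_subgroup Z,
      Nat.factorization_mul Nat.card_pos.ne' Nat.card_pos.ne']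
    rfl
  constructor
  · intro hD
    obtain ⟨ψ, hψ⟩ := exists_infl_mem hφ hM hN he
    have h1 := isDefectGroup_preimage hφ hM hN hc he hD
    have h2 : Z.map (QuotientGroup.mk' Z) = ⊥ := by rw [Subgroup.map_eq_bot_iff, hk]
    have h3 : DZ p ψ := (defectGroup_eq_bot_iff_dz hM hb hψ h1).1 h2
    refine ⟨_, hψ, fun z hz => ?_, ?_⟩
    · exact apply_of_mem_charKer (ker_le_charKer_infl hφ ψ (by rw [hk]; exact hz))
    · rw [charDegree_infl, dz_def.1 h3, hcard]
  · rintro ⟨θ, hθ, h1, h2⟩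
    obtain ⟨ψ, rfl⟩ := (exists_infl_iff hφ (χ := θ)).2 (by
      rw [hk]; exact fun z hz => (mem_charKer (char_of_irr θ.2)).2 (h1 z hz))
    have h3 : DZ p ψ := by
      rw [dz_def]
      rw [charDegree_infl, hcard] at h2
      omega
    obtain ⟨D, hD⟩ := CA.BlkDefect.exists_isDefectGroup hM he
    have h4 := (defectGroup_eq_bot_iff_dz hM hb hθ (isDefectGroup_preimage hφ hM hN hc he hD)).2 h3
    rw [Subgroup.map_eq_bot_iff, hk] at h4
    rwa [le_antisymm h4 (le_defectGroup_of_normal hM he hD hp)] at hD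

/-- Let p be a prime, M a maximal ideal of the algebraic integers containing p, and (Q, e) a Brauer pair of the finite group G (Q a p-subgroup, e a block of C_G(Q)). Then (Q, e) is a maximal Brauer pair of some block of G if and only if e contains an irreducible character θ such that θ takes the value θ(1) at every element of Z(Q) = Q ∩ C_G(Q), the p-part of θ(1) times the p-part of the order of Z(Q) equals the p-part of the order of C_G(Q) (θ has defect zero as a character of C_G(Q)/Z(Q)), and every element of N_G(Q) of p-power order that stabilizes e lies in Q·C_G(Q) (the stabilizer of e in N_G(Q) has index prime to p over Q·C_G(Q)). -/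
theorem result {G : Type*} [Group G] [Finite G] (p : ℕ) [Fact p.Prime] (M : Ideal Cfsg.AlgInt) (hM : Cfsg.IsPModular p M) (Q : Subgroup G) (e : Set (Cfsg.IrrCharacter (Subgroup.centralizer (Q : Set G)))) (he : Cfsg.IsBrauerPair p M Q e) :
    (∃ B : Set (Cfsg.IrrCharacter G), Cfsg.IsMaximalBrauerPair p M B Q e) ↔
      ∃ θ ∈ e, (∀ z : Subgroup.centralizer (Q : Set G), (z : G) ∈ Q → (θ : Subgroup.centralizer (Q : Set G) → ℂ) z = (θ : Subgroup.centralizer (Q : Set G) → ℂ) 1) ∧
        (Cfsg.charDegree (θ : Subgroup.centralizer (Q : Set G) → ℂ)).factorization p + (Nat.card ↥(Q ⊓ Subgroup.centralizer (Q : Set G))).factorization p = (Nat.card (Subgroup.centralizer (Q : Set G))).factorization p ∧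
        (∀ g : G, g ∈ Subgroup.normalizer (Q : Set G) → Cfsg.StabilizesBlock (Subgroup.centralizer (Q : Set G)) e g → (∃ k : ℕ, orderOf g = p ^ k) → g ∈ Q ⊔ Subgroup.centralizer (Q : Set G)) := by
  have hp0 : (p : k M) = 0 := p_eq_zero hM
  have hpr := pr_of hM he
  have key := aux hM he.2 (Q.subgroupOf (CC Q))
    (fun z hz x => Subtype.ext (x.2 z hz).symm) (he.1.comap_subtype)
  have hcZ : Nat.card (Q.subgroupOf (CC Q)) = Nat.card (Q ⊓ CC Q : Subgroup G) := by
    rw [← inf_subgroupOf_right]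
    exact Nat.card_congr (subgroupOfEquivOfLe inf_le_right).toEquiv
  rw [isDefectGroup_iff_inf hM he.2, hcZ] at key
  constructor
  · rintro ⟨B, hB⟩
    obtain ⟨h1, h2, h3, h4, h5, h6⟩ := max_spec hM hB
    have hm : Mx p ⊤ (CA.BlkCore.eB M B) Q (ab M (CC Q) e) := ⟨h3, h4, h5, h6⟩
    have h7 := hm.isDef_C hp0
    rw [top_inf_eq] at h7
    obtain ⟨θ, hθ, h8, h9⟩ := key.1 h7
    refine ⟨θ, hθ, fun z hz => h8 z hz, h9, fun g hg hs hk => ?_⟩
    obtain ⟨n, hn⟩ := hk
    have := hm.le_sup hp0 (S := zpowers g) (IsPGroup.of_card (by rw [Nat.card_zpowers, hn]))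
      (zpowers_le.2 (mem_St.2 ⟨mem_top _, hg, (stabilizesBlock_CC_iff hM he.2 hg).1 hs⟩))
    rw [top_inf_eq] at this
    exact this (mem_zpowers g)
  · rintro ⟨θ, hθ, h1, h2, h3⟩
    have h4 := key.2 ⟨θ, hθ, fun z hz => h1 z hz, h2⟩
    obtain ⟨b, hb, hb'⟩ := hpr.exists_of hp0
    obtain ⟨B, hB, rfl⟩ := exists_eB hM hb
    refine ⟨B, (isMaximalBrauerPair_iff hM).2 ⟨(isBrauerPairOf_iff hM).2 ⟨he, hB, hb'⟩, ?_⟩⟩
    refine hpr.isDef_of_St hp0 hb hb' ?_
    obtain ⟨D, hD⟩ := exists_isDef hp0 (hpr.blk_St hp0)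
    have hQD : Q ≤ D := hD.ge_of_normal hp0 (hpr.blk_St hp0) he.1 hpr.le_St St_le_NN
    have h5 := isDef_C_of_isDef hp0 hpr hpr.C_le_St le_rfl hD
    rw [top_inf_eq] at h5
    have h6 : Q ⊓ CC Q = D ⊓ CC Q :=
      eq_of_le_of_card_ge (inf_le_inf_right _ hQD) (h5.card_eq h4).le
    have h7 : D = Q := by
      refine le_antisymm (fun d hd => ?_) hQD
      have hd' := mem_St.1 (hD.le hd)
      obtain ⟨n, hn⟩ := CA.BlkQuo.orderOf_eq_pow_of_mem Fact.out hD.pg hd
      have h8 := h3 d hd'.2.1 ((stabilizesBlock_CC_iff hM he.2 hd'.2.1).2 hd'.2.2) ⟨n, hn⟩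
      have h9 : (d : G) ∈ ((Q ⊔ CC Q : Subgroup G) : Set G) := h8
      rw [coe_mul_of_right_le_normalizer_left _ _ (CC_le_NN Q)] at h9
      obtain ⟨q, hq, c, hc, rfl⟩ := h9
      have : c ∈ D ⊓ CC Q := ⟨(D.mul_mem_cancel_left (hQD hq)).1 hd, hc⟩
      rw [← h6] at this
      exact Q.mul_mem hq this.1
    rwa [h7] at hD

end Cfsg.Agent.S4828
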