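import Cfsg.Statements.S4835
import Cfsg.Agent.Lib.Char.H12Gag

set_option autoImplicit false
open Cfsg

namespace Cfsg.Agent.S4835

open CChar.CharRep CChar.CharFun CChar.CharOrth CChar.CharKer CChar.CharInt CChar.CharGen
  CChar.CharMisc CChar.CharProd CA.H12Misc CA.H12Gag Subgroup
open scoped ComplexConjugate commutatorElement

/-- Let G be a finite group of order greater than 2 with an irreducible character χ that is nonzero on exactly two conjugacy classes. Then G has a unique minimal normal subgroup N; N is an elementary abelian p-group for some prime p; χ is nonzero exactly at the elements of N; and any two nonidentity elements of N are conjugate in G. -/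
theorem result {G : Type*} [Group G] [Finite G] (hG : 2 < Nat.card G) (χ : Cfsg.IrrCharacter G) (hχ : Nat.card {C : ConjClasses G // ∃ g ∈ C.carrier, (χ : G → ℂ) g ≠ 0} = 2) :
    ∃ N : Subgroup G, N.Normal ∧ N ≠ ⊥ ∧ (∀ K : Subgroup G, K.Normal → K ≠ ⊥ → N ≤ K) ∧
      (∃ p : ℕ, p.Prime ∧ Cfsg.IsElementaryAbelian p N) ∧
      (∀ g : G, (χ : G → ℂ) g ≠ 0 ↔ g ∈ N) ∧
      (∀ x ∈ N, ∀ y ∈ N, x ≠ 1 → y ≠ 1 → ∃ g : G, g * x * g⁻¹ = y) := by
  obtain ⟨x, H⟩ := exists_gag hG χ hχ
  obtain ⟨N, hn, hN⟩ := H.exists_N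
  obtain ⟨p, hp, h⟩ := H.exists_prime hN
  have := Fact.mk hp
  exact ⟨N, hn, H.N_ne hN, fun K _ hK => H.N_le hN K hK,
    ⟨p, hp, H.comm hN fun g => ⟨1, Subtype.ext (by simpa using h g g.2)⟩, h⟩, fun g => (hN g).symm,
    fun a ha b hb h1 h2 => isConj_iff.1 ((H.isConj_of hN ha h1).symm.trans (H.isConj_of hN hb h2))⟩

end Cfsg.Agent.S4835
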