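import Cfsg.Statements.S4837
import Cfsg.Agent.Lib.Char.H12Gag

set_option autoImplicit false
open Cfsg

namespace Cfsg.Agent.S4837

open CChar.CharRep CChar.CharFun CChar.CharOrth CChar.CharKer CChar.CharInt CChar.CharGen
  CChar.CharMisc CChar.CharProd CA.H12Misc CA.H12Gag Subgroup
open scoped ComplexConjugate commutatorElement

/-- Let G be a finite group of order greater than 2 with an irreducible character χ nonzero on exactly two conjugacy classes, and let N be the set of elements where χ is nonzero, given as a nontrivial normal p-subgroup of G for the prime p. Then for every nonidentity x in N the centralizer C_G(x) is a Sylow p-subgroup of G, and for every irreducible character λ ≠ 1 of N the stabilizer of λ in G (its inertia group) is a Sylow p-subgroup of G. -/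
theorem result {G : Type*} [Group G] [Finite G] (hG : 2 < Nat.card G) (χ : Cfsg.IrrCharacter G) (hχ : Nat.card {C : ConjClasses G // ∃ g ∈ C.carrier, (χ : G → ℂ) g ≠ 0} = 2) (p : ℕ) [Fact p.Prime] (N : Subgroup G) [N.Normal] (hN : ∀ g : G, g ∈ N ↔ (χ : G → ℂ) g ≠ 0) (hNp : IsPGroup p N) (hN1 : N ≠ ⊥) :
    (∀ x ∈ N, x ≠ 1 → ∃ P : Sylow p G, Subgroup.centralizer ({x} : Set G) = P) ∧
      (∀ μ : Cfsg.IrrCharacter N, (μ : N → ℂ) ≠ (fun _ => (1 : ℂ)) → ∃ P : Sylow p G, ∀ g : G, g ∈ (P : Subgroup G) ↔ ∀ n n' : N, (n' : G) = g * n * g⁻¹ → (μ : N → ℂ) n' = (μ : N → ℂ) n) := by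
  classical
  have := Fintype.ofFinite G
  have := Fintype.ofFinite N
  obtain ⟨x, H⟩ := exists_gag hG χ hχ
  have hc := H.card_cent hN hNp
  refine ⟨fun y hy h1 => ⟨Sylow.ofCard (centralizer {y}) (by
    rw [← card_centralizer_eq_of_isConj (H.isConj_of hN hy h1), hc]), rfl⟩, fun μ hμ => ?_⟩
  have hov : ∀ ν : N → ℂ, IsIrrCharacter N ν → ν ≠ (fun _ => 1) →
      classInner (fun n : N => χ.1 n) ν ≠ 0 := fun ν h1 h2 => by
    obtain ⟨ψ, h3, h4⟩ := CA.Cons.exists_irr_over N h1
    by_cases e : ψ = χ.1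
    · exact e ▸ h4
    · have h5 : (fun n : N => ψ n) = ψ 1 • fun _ => 1 := funext fun n => by
        simpa using apply_of_mem_charKer (H.N_le_ker hN h3 e n.2)
      rw [h5, CChar.CharFun.inner_smul_left, inner_irr_of_ne irr_one h1 h2.symm, mul_zero] at h4
      exact absurd rfl h4
  have h1 : CA.Clif.conjs (G := G) μ.1 =
      (Finset.univ.erase (irrOne N)).map (Function.Embedding.subtype _) := by
    ext ν
    simp only [Finset.mem_map, Finset.mem_erase, Finset.mem_univ, and_true,
      Function.Embedding.coe_subtype]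
    refine ⟨fun h => ⟨⟨ν, CA.Clif.conjs_irr μ.2 h⟩, fun e => hμ ?_, rfl⟩, ?_⟩
    · obtain ⟨g, rfl⟩ := CA.Clif.mem_conjs.1 h
      rw [← CA.Clif.cj_inv_cj g μ.1, show CA.Clif.cj g μ.1 = fun _ => 1 from congrArg Subtype.val e,
        CA.Clif.cj_const]
    · rintro ⟨ν, h, rfl⟩
      exact CA.Clif.mem_conjs_of_common χ.2 μ.2 ν.2 (hov _ μ.2 hμ)
        (hov _ ν.2 fun e => h (Subtype.ext e))
  have h2 := CA.Clif.card_conjs (G := G) μ.1
  have hcm := H.comm hN hNp
  rw [h1, Finset.card_map, Finset.card_erase_of_mem (Finset.mem_univ _), Finset.card_univ,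
    ← Nat.card_eq_fintype_card, card_irr_of_comm (fun a b => mul_comm' a b), H.card_N hN,
    Nat.add_sub_cancel_left] at h2
  have h3 := card_mul_index (CA.Clif.inertia (G := G) μ.1)
  rw [← h2, ← card_mul_index (centralizer ({x} : Set G))] at h3
  refine ⟨Sylow.ofCard (CA.Clif.inertia (G := G) μ.1) (by
    rw [← hc]; exact Nat.eq_of_mul_eq_mul_right (Nat.pos_of_ne_zero index_ne_zero_of_finite) h3),
    fun g => CA.Clif.mem_inertia'.trans ⟨fun h n n' e => ?_, fun h n => h n _ rfl⟩⟩
  rw [← h n]; exact congrArg μ.1 (Subtype.ext e)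

end Cfsg.Agent.S4837
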