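import Cfsg.Statements.S4838
import Cfsg.Agent.Lib.Char.H12Gag

set_option autoImplicit false
open Cfsg

namespace Cfsg.Agent.S4838

open CChar.CharRep CChar.CharFun CChar.CharOrth CChar.CharKer CChar.CharInt CChar.CharGen
  CChar.CharMisc CChar.CharProd CA.H12Misc CA.H12Gag Subgroup
open scoped ComplexConjugate commutatorElement

/-- Let G be a finite group of order greater than 2 with an irreducible character χ nonzero on exactly two conjugacy classes, N the normal p-subgroup of elements where χ is nonzero, and P a Sylow p-subgroup of G. Then (a) for every x outside N the centralizer of x in G has the same order as the centralizer of xN in G/N; (b) the centre of P lies in N, and equals N exactly when P is normal in G; (c) N, viewed inside P, is a term of the upper central series of P. -/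
theorem result {G : Type*} [Group G] [Finite G] (hG : 2 < Nat.card G) (χ : Cfsg.IrrCharacter G) (hχ : Nat.card {C : ConjClasses G // ∃ g ∈ C.carrier, (χ : G → ℂ) g ≠ 0} = 2) (p : ℕ) [Fact p.Prime] (N : Subgroup G) [N.Normal] (hN : ∀ g : G, g ∈ N ↔ (χ : G → ℂ) g ≠ 0) (hNp : IsPGroup p N) (hN1 : N ≠ ⊥) (P : Sylow p G) :
    (∀ x : G, x ∉ N → Nat.card (Subgroup.centralizer ({x} : Set G)) = Nat.card (Subgroup.centralizer ({(x : G ⧸ N)} : Set (G ⧸ N)))) ∧
      ((Subgroup.center ↥(P : Subgroup G)).map (P : Subgroup G).subtype ≤ N ∧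
        ((Subgroup.center ↥(P : Subgroup G)).map (P : Subgroup G).subtype = N ↔ (P : Subgroup G).Normal)) ∧
      (∃ i : ℕ, Subgroup.upperCentralSeries ↥(P : Subgroup G) i = N.subgroupOf (P : Subgroup G)) := by
  obtain ⟨x, H⟩ := exists_gag hG χ hχ
  have hNP : N ≤ P := IsPGroup.le_sylow_of_normal hNp P
  have key : ∀ Z : Subgroup P.1, Z < N.subgroupOf P → ∀ y : P.1,
      (∀ g, y * g * y⁻¹ * g⁻¹ ∈ Z) → y ∈ N.subgroupOf P := fun Z hZ y hy => by
    by_contra h
    have h1 := (H.card_le hN hNp P y h).trans (index_cent_le hy)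
    have h2 := CA.PGBasic.card_lt_of_lt hZ
    rw [Nat.card_congr (subgroupOfEquivOfLe hNP).toEquiv] at h2
    omega
  have hb : (⊥ : Subgroup P.1) < N.subgroupOf P := bot_lt_iff_ne_bot.2 fun e =>
    hN1 (by rwa [subgroupOf_eq_bot, disjoint_iff, inf_eq_left.2 hNP] at e)
  have hZ : (center P.1).map P.1.subtype ≤ N := by
    rintro _ ⟨y, hy, rfl⟩
    exact key ⊥ hb y fun g => by rw [← mem_center_iff.1 hy g]; simp
  refine ⟨fun y hy => H.card_cent_quo hN hy, ⟨hZ, fun e => ?_, fun h => le_antisymm hZ
    (H.N_le hN _ fun e => ?_)⟩, ?_⟩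
  · have h1 : (P : Subgroup G) ≤ centralizer (N : Set G) := fun g hg n hn => by
      obtain ⟨z, hz, rfl⟩ := e.ge hn
      exact (congrArg Subtype.val (mem_center_iff.1 hz ⟨g, hg⟩)).symm
    have h2 : centralizer (N : Set G) ≤ centralizer {x} :=
      centralizer_le (Set.singleton_subset_iff.2 (H.mem_N hN))
    have h3 : (P : Subgroup G) = centralizer {x} := CA.PGBasic.eq_of_le_of_card_le (h1.trans h2)
      (by rw [H.card_cent hN hNp, P.card_eq_multiplicity])
    rw [le_antisymm h1 (h2.trans h3.ge)]
    infer_instance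
  · have := P.isPGroup'.isNilpotent
    have := (nontrivial_iff_ne_bot P.1).2 fun e => hN1 (le_bot_iff.1 (e ▸ hNP))
    exact Group.IsNilpotent.center_ne_bot P.1
      ((map_eq_bot_iff_of_injective _ P.1.subtype_injective).1 e)
  · by_contra h
    push Not at h
    have h1 : ∀ i, Subgroup.upperCentralSeries P.1 i ≤ N.subgroupOf P := fun i => by
      induction i with
      | zero => exact bot_le
      | succ i ih => exact fun y hy => key _ (lt_of_le_of_ne ih (h i)) y
                      (Subgroup.mem_upperCentralSeries_succ_iff.1 hy)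
    obtain ⟨n, hn⟩ := P.isPGroup'.isNilpotent.nilpotent'
    exact h n (le_antisymm (h1 n) (hn ▸ le_top))

end Cfsg.Agent.S4838
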