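import Cfsg.Statements.S4839
import Cfsg.Agent.Lib.Char.H12Gag
import Cfsg.Agent.Lib.Grp.Frob2
import Cfsg.Agent.S0200
import Cfsg.Agent.S4837

set_option autoImplicit false
open Cfsg

namespace Cfsg.Agent.S4839
open Subgroup CA.H12Gag CA.Frob2 CChar.CharKer CChar.CharOrth

theorem not_dvd {G : Type*} [Group G] [Finite G] {p : ℕ} [hp : Fact p.Prime] {N : Subgroup G}
    [N.Normal] (hO : N = pCore p G) (hN1 : N ≠ ⊥) (hc : ∀ a ∈ N, ∀ b ∈ N, a * b = b * a)
    (hexp : ∀ a ∈ N, a ^ p = 1) (h2 : p ≠ 2 → 2 ∣ Nat.card G)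
    (hF : ∀ x ∈ N, x ≠ 1 → ∃ P : Sylow p G, centralizer ({x} : Set G) = P)
    (hcam : ∀ g ∉ N, ∀ n ∈ N, IsConj g (g * n)) : ¬ p ∣ N.index := by
  have hn := ‹N.Normal›
  have hF' : ∀ y : G, ¬ p ∣ orderOf y → y ≠ 1 → ∀ n ∈ N, y * n = n * y → n = 1 := by
    intro y hy h1 n hn e
    by_contra h
    obtain ⟨P, hP⟩ := hF n hn h
    obtain ⟨k, hk⟩ := IsPGroup.iff_orderOf.1 P.isPGroup' ⟨y, hP ▸ mem_centralizer_singleton_iff.2 e⟩
    rw [← orderOf_coe] at hk
    rcases k with _ | k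
    · exact h1 (orderOf_eq_one_iff.1 hk)
    · exact hy (hk ▸ dvd_pow_self _ k.succ_ne_zero)
  have hC : ∀ g, (∀ n ∈ N, g * n = n * g) → g ∈ N := fun g hg => by
    obtain ⟨⟨x, hx⟩, h1⟩ := ne_bot_iff_exists_ne_one.1 hN1
    obtain ⟨P, hP⟩ := hF x hx fun e => h1 (Subtype.ext e)
    rw [hO]
    refine CA.Core.le_pCore (N := centralizer (N : Set G)) (P.isPGroup'.to_le
      (hP ▸ centralizer_le (by simpa using hx))) fun n hn => (hg n hn).symm
  intro hd
  obtain ⟨q, hq⟩ := exists_prime_orderOf_dvd_card' (G := G ⧸ N) p hd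
  obtain ⟨g, rfl⟩ := QuotientGroup.mk_surjective q
  have hg : g ∉ N := fun h => hp.out.ne_one (by rw [← hq, (QuotientGroup.eq_one_iff g).2 h, orderOf_one])
  by_cases hp2 : p = 2
  · subst hp2
    obtain ⟨h, h1, h3, h4⟩ := S0200.result _ hq fun K hK hK' hm => hg (by
      rw [hO]
      exact CA.Core.le_pCore (N := K.comap (QuotientGroup.mk' N))
        (hK'.comap_of_ker_isPGroup _ (by rw [QuotientGroup.ker_mk', hO]; exact CA.Core.isPGroup_pCore)) hm)
    obtain ⟨y₀, rfl⟩ := QuotientGroup.mk_surjective h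
    set y := y₀ ^ 2 ^ (orderOf y₀).factorization 2 with hy
    have h5 : ¬ 2 ∣ orderOf y := by
      rw [hy, orderOf_pow_of_dvd (by positivity) (Nat.ordProj_dvd _ _)]
      exact Nat.not_dvd_ordCompl Nat.prime_two (orderOf_pos _).ne'
    have h6 : y ≠ 1 := fun e => h1 (orderOf_eq_one_iff.1 (Nat.Coprime.eq_one_of_dvd
      (Nat.Coprime.pow_right _ (Nat.coprime_two_right.2 h3)) (orderOf_dvd_of_pow_eq_one (by
        rw [← QuotientGroup.mk_pow, ← hy, e]; rfl))))
    have h7 : g * y * g⁻¹ * y ∈ N := by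
      rw [← QuotientGroup.eq_one_iff]
      simp only [hy, QuotientGroup.mk_mul, QuotientGroup.mk_inv, QuotientGroup.mk_pow]
      rw [← conj_pow, h4, inv_pow, inv_mul_cancel]
    obtain ⟨n, hnN, h8⟩ := exists_conj_eq_mul (x := y⁻¹) (by rw [normalizer_eq_top]; trivial) (inf_centralizer_eq_bot_iff.2
      (hF' _ (by rwa [orderOf_inv]) (inv_ne_one.2 h6))) h7
    set x := n⁻¹ * g
    have h9 : x * y * x⁻¹ = y⁻¹ := by
      rw [show x * y * x⁻¹ = n⁻¹ * (g * y * g⁻¹ * y * y⁻¹) * n by simp only [x]; group, ← h8]; group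
    have hx : x ∉ N := fun h => hg (by simpa [x] using mul_mem hnN h)
    have h10 : x ^ 2 = 1 := hF' y h5 h6 _ (by
      rw [← QuotientGroup.eq_one_iff, QuotientGroup.mk_pow, ← hq, show (x : G ⧸ N) = g by
        simp [x, hnN], pow_orderOf_eq_one]) (by
      have h11 : x * y⁻¹ * x⁻¹ = y := by rw [← inv_inv y, ← h9]; simp [h9, ← conj_inv]
      calc y * x ^ 2 = x * (x * y * x⁻¹) * x⁻¹ * x ^ 2 := by rw [h9, h11]
        _ = _ := by rw [sq]; group)
    refine hx (hC x fun m hm => ?_)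
    obtain ⟨c, hc⟩ := isConj_iff.1 (hcam x hx m hm)
    have h11 : (x * m) ^ 2 = 1 := by rw [← hc, conj_pow, h10]; simp
    have h12 := hexp m hm
    rw [sq] at h10 h11 h12
    rw [← inv_eq_of_mul_eq_one_right h11, mul_inv_rev, inv_eq_of_mul_eq_one_right h10,
      inv_eq_of_mul_eq_one_right h12]
  · obtain ⟨t, ht⟩ := exists_prime_orderOf_dvd_card' 2 (h2 hp2)
    have ht2 : t * t = 1 := by rw [← sq, ← ht, pow_orderOf_eq_one]
    have hti : t⁻¹ = t := inv_eq_of_mul_eq_one_right ht2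
    have hFt := hF' t (by rw [ht]; exact fun h => hp2 ((Nat.prime_dvd_prime_iff_eq hp.out
      Nat.prime_two).1 h)) fun e => by simp [e] at ht
    have hinv : ∀ n ∈ N, t * n * t⁻¹ = n⁻¹ := fun n hnN => by
      refine eq_inv_of_mul_eq_one_right (hFt _ (mul_mem hnN (hn.conj_mem n hnN t)) ?_)
      rw [hc _ hnN _ (hn.conj_mem n hnN t), hti]
      calc t * (t * n * t * n) = t * t * n * t * n := by group
        _ = n * (t * n * t) * t := by rw [ht2, mul_assoc n, mul_assoc _ t t, ht2]; group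
        _ = _ := by rw [hc _ hnN _ (by simpa [hti] using hn.conj_mem n hnN t)]
    have hcom : ∀ a, t * a * t⁻¹ * a⁻¹ ∈ N := fun a => hC _ fun n hnN => by
      have h1 := hinv _ (hn.conj_mem n hnN a⁻¹)
      have h3 := hinv _ (inv_mem hnN)
      calc t * a * t⁻¹ * a⁻¹ * n = t * a * (t⁻¹ * (a⁻¹ * n * a⁻¹⁻¹) * t) * t⁻¹ * a⁻¹ := by group
        _ = t * n⁻¹ * t⁻¹ * (t * a * t⁻¹ * a⁻¹) := by
          rw [show t⁻¹ * (a⁻¹ * n * a⁻¹⁻¹) * t = t * (a⁻¹ * n * a⁻¹⁻¹) * t⁻¹ by rw [hti], h1]; group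
        _ = _ := by rw [h3, inv_inv]
    have hsq : ∀ n ∈ N, ∃ k ∈ N, k * k = n := fun n hnN => by
      obtain ⟨m, hm⟩ := hp.out.odd_of_ne_two hp2
      exact ⟨n ^ (m + 1), pow_mem hnN _, by
        rw [← pow_add, show m + 1 + (m + 1) = p + 1 by omega, pow_succ, hexp n hnN, one_mul]⟩
    obtain ⟨k, hk, hk2⟩ := hsq _ (hcom g)
    set x := k * g
    have h1 : t * x * t⁻¹ = x := by
      rw [show t * x * t⁻¹ = (t * k * t⁻¹) * (t * g * t⁻¹ * g⁻¹) * g by simp only [x]; group, hinv k hk,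
        ← hk2]; simp only [x]; group
    have hx : x ∉ N := fun h => hg (by simpa [x] using mul_mem (inv_mem hk) h)
    have h3 : x ^ p = 1 := hFt _ (by
      rw [← QuotientGroup.eq_one_iff, QuotientGroup.mk_pow, ← hq, show (x : G ⧸ N) = g by
        simp [x, hk], pow_orderOf_eq_one]) (by
      rw [← mul_inv_eq_iff_eq_mul, ← conj_pow, h1])
    let f : N → N := fun m => ⟨x⁻¹ * m * x⁻¹⁻¹ * m⁻¹, mul_mem (hn.conj_mem _ m.2 _) (inv_mem m.2)⟩
    have hf : Function.Surjective f := fun ⟨n₀, hn₀⟩ => by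
      obtain ⟨n, hnN, rfl⟩ := hsq n₀ hn₀
      obtain ⟨h, hh⟩ := isConj_iff.1 (hcam x hx n hnN)
      refine ⟨⟨_, inv_mem (hcom h)⟩, Subtype.ext ?_⟩
      have h4 : h * t * h⁻¹ * (x * n) * (h * t * h⁻¹)⁻¹ = x * n := by
        rw [← hh]; conv_rhs => rw [← h1]
        group
      have h5 : (t * h * t⁻¹ * h⁻¹)⁻¹ * t = h * t * h⁻¹ := by group
      rw [← h5] at h4
      set m := (t * h * t⁻¹ * h⁻¹)⁻¹
      rw [show m * t * (x * n) * (m * t)⁻¹ = m * (t * x * t⁻¹) * (t * n * t⁻¹) * m⁻¹ by group, h1,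
        hinv n hnN, mul_assoc, hc _ (inv_mem hnN) _ (by simpa [m] using hcom h)] at h4
      calc x⁻¹ * m * x⁻¹⁻¹ * m⁻¹ = x⁻¹ * (m * x * (m⁻¹ * n⁻¹)) * n := by group
        _ = n * n := by rw [h4]; group
    obtain ⟨⟨x₀, hx₀⟩, h4⟩ := ne_bot_iff_exists_ne_one.1 hN1
    obtain ⟨P, hP⟩ := hF x₀ hx₀ fun e => h4 (Subtype.ext e)
    obtain ⟨Q, hQ⟩ := (IsPGroup.of_card (p := p) (n := 1) (G := zpowers x) (by
      rw [Nat.card_zpowers, pow_one, orderOf_eq_prime h3 fun e => hx (e ▸ one_mem _)])).exists_le_sylow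
    obtain ⟨a, rfl⟩ := MulAction.exists_smul_eq G P Q
    obtain ⟨b, hb, h5⟩ := hQ (mem_zpowers x)
    rw [← hP] at hb
    have h6 := (Finite.injective_iff_surjective.2 hf) (a₁ := ⟨_, hn.conj_mem _ hx₀ a⟩) (a₂ := 1)
      (Subtype.ext (by
        have h7 : b * x₀ = x₀ * b := mem_centralizer_singleton_iff.1 hb
        have h8 : x = a * b * a⁻¹ := h5.symm
        change x⁻¹ * (a * x₀ * a⁻¹) * x⁻¹⁻¹ * (a * x₀ * a⁻¹)⁻¹ = x⁻¹ * 1 * x⁻¹⁻¹ * 1⁻¹
        rw [h8]
        calc _ = a * (b⁻¹ * (x₀ * b) * x₀⁻¹) * a⁻¹ := by group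
          _ = _ := by rw [← h7]; group))
    exact h4 (Subtype.ext (by simpa using congrArg Subtype.val h6))

/-- Let G be a finite group of order greater than 2 with an irreducible character χ nonzero on exactly two conjugacy classes, and let N be the normal p-subgroup of elements where χ is nonzero. Then N is the whole p-core O_p(G) if and only if G is a doubly transitive Frobenius group with kernel N: G has a Frobenius complement H whose Frobenius kernel is N and whose order is one less than that of N. -/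
theorem result {G : Type*} [Group G] [Finite G] (hG : 2 < Nat.card G) (χ : Cfsg.IrrCharacter G) (hχ : Nat.card {C : ConjClasses G // ∃ g ∈ C.carrier, (χ : G → ℂ) g ≠ 0} = 2) (p : ℕ) [Fact p.Prime] (N : Subgroup G) [N.Normal] (hN : ∀ g : G, g ∈ N ↔ (χ : G → ℂ) g ≠ 0) (hNp : IsPGroup p N) (hN1 : N ≠ ⊥) :
    N = Cfsg.pCore p G ↔ ∃ H : Subgroup G, Cfsg.IsFrobeniusComplement H ∧ Cfsg.frobeniusKernel H = (N : Set G) ∧ Nat.card H + 1 = Nat.card N := by
  have hp : p.Prime := Fact.out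
  obtain ⟨x, H⟩ := exists_gag hG χ hχ
  obtain ⟨a, ha⟩ := IsPGroup.iff_card.1 hNp
  have ha0 : a ≠ 0 := fun e => hN1 (card_eq_one.1 (by simpa [e] using ha))
  have hNO : N ≤ pCore p G := CA.Core.le_pCore hNp
  constructor
  · intro hO
    have hF := (S4837.result hG χ hχ p N hN hNp hN1).1
    have hc := H.card_N hN
    have h1 := not_dvd hO hN1 (fun a ha b hb =>
      congrArg Subtype.val ((H.comm hN hNp).is_comm.comm ⟨a, ha⟩ ⟨b, hb⟩)) (by
        obtain ⟨q, hq, h⟩ := H.exists_prime hN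
        haveI := Fact.mk hq
        obtain ⟨k, hk⟩ := IsPGroup.iff_orderOf.1 hNp ⟨x, H.mem_N hN⟩
        rw [← orderOf_coe, orderOf_eq_prime (h x (H.mem_N hN)) H.ne] at hk
        rw [show k = 1 from (hk ▸ hq : (p ^ k).Prime).eq_one_of_pow, pow_one] at hk
        exact hk ▸ h) (fun h2 => by
        refine dvd_trans ?_ (centralizer ({x} : Set G)).index_dvd_card
        have := (hp.odd_of_ne_two h2).pow (n := a)
        rw [← ha, hc, Nat.odd_iff] at this
        omega) hF fun g hg n hn => (isConj_iff_irr _ _).2 fun ψ => by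
        by_cases e : ψ.1 = χ.1
        · rw [e, not_not.1 (mt (hN g).2 hg), not_not.1 (mt (hN _).2 fun h =>
            hg (by simpa using mul_mem h (inv_mem hn)))]
        · exact (apply_mul_of_mem_charKer' (H.N_le_ker hN ψ.2 e hn) g).symm
    have h2 : ∀ y ∈ N, y ≠ 1 → centralizer ({y} : Set G) = N := fun y hy h => by
      obtain ⟨P, hP⟩ := hF y hy h
      rw [hP]
      exact (hNp.toSylow h1).is_maximal' P.isPGroup' (hP ▸ fun n hn => mem_centralizer_singleton_iff.2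
        (congrArg Subtype.val ((H.comm hN hNp).is_comm.comm ⟨n, hn⟩ ⟨y, hy⟩)))
    obtain ⟨K, hK⟩ := exists_right_complement'_of_coprime (N := N)
      (ha ▸ (hp.coprime_iff_not_dvd.2 h1).pow_left a)
    have hs : Semireg N K := Semireg.symm fun y hy h => by
      rw [h2 y hy h]; exact hK.disjoint.symm.eq_bot
    have h3 : Nat.card K + 1 = Nat.card N := by
      rw [hc, h2 x (H.mem_N hN) H.ne, hK.symm.index_eq_card, add_comm]
    refine ⟨K, isFrob_of_semireg hK.sup_eq_top hN1 (fun e => ?_) hs,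
      kernel_eq_of_semireg hK.sup_eq_top hs, h3⟩
    have h4 := hK.card_mul
    rw [← h3, e, card_bot] at h4
    omega
  · rintro ⟨K, hK, h1, h2⟩
    obtain ⟨-, h3, -, -⟩ := of_coe_eq_kernel hK h1.symm
    refine ((hNp.toSylow ?_).is_maximal' CA.Core.isPGroup_pCore hNO).symm
    rw [h3.symm.index_eq_card]
    exact fun h => hp.one_lt.ne' (Nat.dvd_one.1 ((Nat.dvd_add_right h).1
      (h2 ▸ ha ▸ dvd_pow_self p ha0)))

end Cfsg.Agent.S4839
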