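import Cfsg.Statements.S4840
import Cfsg.Agent.S4835
import Cfsg.Agent.S4837
import Cfsg.Agent.Lib.Perm.HupTr
import Cfsg.Agent.Lib.Lie.FieldAut
import Cfsg.Agent.Lib.Lie.RankOne3
import Cfsg.Agent.Lib.Grp.MC3
import Cfsg.Agent.Lib.Odd.BG4a
import Cfsg.Agent.Lib.Odd.BG2
import Cfsg.Agent.Lib.Loc.EqO1

set_option autoImplicit false
open Cfsg

namespace Cfsg.Agent.S4840

open Cfsg CA CA.BG CA.EqO Subgroup
open scoped commutatorElement

variable {H : Type*} [Group H] [Finite H] {p r : ℕ} {x : H}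

theorem exists_not_cent (hs : Group.IsSolvable H) (hr : r.Prime) (hx : orderOf x = r) (h0 : pCore r H = ⊥) :
    ∃ s, s.Prime ∧ s ≠ r ∧ x ∉ 𝓒(pCore s H) := by
  haveI := Fact.mk hr
  by_contra! h
  have h1 : x ∈ fittingSubgroup H := Fitting.centralizer_fitting_le (le_cent1_iff.1 (by
    rw [Fitting.fitting_eq_iSup_pCore]
    exact iSup_le fun s => le_cent1_iff.2 (by
      by_cases e : (s : ℕ) = r
      · rw [e, h0, cent_bot]; trivial
      · exact h s s.2 e)))
  have h2 := Fitting.le_pCore_of_le_fitting (zpowers_le.2 h1)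
    ((isPi_of_card_eq hr ((Nat.card_zpowers x).trans hx)).isPGroup hr) (mem_zpowers x)
  rw [h0, mem_bot] at h2
  exact hr.one_lt.ne (by rw [← hx, h2, orderOf_one])

theorem quat {R : Subgroup H} [hR : R.Normal] {n : ℕ} (e : R ≃* QuaternionGroup (2 ^ n)) (hr : r.Prime) (h2 : 2 ≠ r)
    (hx : orderOf x = r) (h : x ∉ 𝓒(R)) : r = 3 ∧ ♯R = 8 := by
  obtain ⟨a, y, h1, rfl⟩ := MC3.exists_of_quaternion e
  obtain ⟨k, w, h3, h4, h5, h6, h7⟩ := h1.act_cases le_rfl (top_norm _ ⊤ trivial)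
    (hx ▸ (Nat.coprime_primes hr Nat.prime_two).2 h2.symm) h
  obtain ⟨i, rfl⟩ := h1.eq_of_notMem h3 h4
  obtain ⟨h7, h8⟩ := h7.resolve_left fun e => by simpa using (h1.shift i).sq_eq_one.1 e.2
  have h9 := ((h1.shift i).zpow_mem_H_iff (k := k) (by omega)).1 (h5 ▸ MC2.zpow_mem_left a y 1)
  obtain rfl : k = 0 := by_contra fun e => by
    have := (dvd_pow_self (2 : ℤ) e).trans h9
    omega
  subst h7
  have h10 := BG4.card_modEq_cent hr (isPi_of_card_eq hr ((Nat.card_zpowers x).trans hx))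
    (top_norm (zpowers a ⊔ zpowers y) _)
  have h11 : (zpowers a ⊔ zpowers y) ⊓ 𝓒(zpowers x) ≠ ⊥ := fun e => h1.z_ne (e.le ⟨MC2.zpow_mem_left a y _, by
    rw [cent_zpowers]
    refine BG.mem_cent1.2 (mul_inv_eq_iff_eq_mul.1 ?_).symm
    rw [← h6, conj_pow] at h8
    rw [← h8]
    norm_num [zpow_two, sq] at h8 ⊢
    rw [h8]⟩)
  have h12 := card_lt_of_lt (inf_lt_left.2 fun e => h (le_cent1_iff.1 (cent_zpowers x ▸ e)))
  have h13 := card_dvd_of_le (inf_le_left : (zpowers a ⊔ zpowers y) ⊓ 𝓒(zpowers x) ≤ _)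
  have h14 := mt card_eq_one.1 h11
  have h15 := (Nat.modEq_iff_dvd' h12.le).1 h10.symm
  rw [h1.card] at h12 h13 h15 ⊢
  generalize ♯((zpowers a ⊔ zpowers y) ⊓ 𝓒(zpowers x) : Subgroup H) = c at *
  refine ⟨?_, rfl⟩
  have k : ∀ j, r ∣ 2 ^ j → False := fun j e =>
    h2 ((Nat.prime_dvd_prime_iff_eq hr Nat.prime_two).1 (hr.dvd_of_dvd_pow e)).symm
  interval_cases c <;> simp at h13 h14
  · exact ((Nat.Prime.dvd_mul hr).1 (show r ∣ 2 ^ 1 * 3 from h15)).elim (fun e => (k 1 e).elim)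
      (Nat.prime_dvd_prime_iff_eq hr Nat.prime_three).1
  · exact (k 2 h15).elim

theorem core {V : Type*} [AddCommGroup V] [Finite V] [Nontrivial V] [DistribMulAction H V] [FaithfulSMul H V]
    [hp : Fact p.Prime] [Module (ZMod p) V] (ht : TrLin.Tr H V) (hs : Group.IsSolvable H) (h0 : pCore p H = ⊥)
    (hst : ∀ v : V, v ≠ 0 → IsPGroup p (MulAction.stabilizer H v)) : ¬ p ∣ ♯(commutator H) := by
  intro hd
  obtain ⟨⟨a, ha⟩, ho⟩ := exists_prime_orderOf_dvd_card' p hd
  rw [← orderOf_coe] at ho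
  have free : ∀ s, s.Prime → s ≠ p → ∀ g ∈ pCore s H, ∀ v : V, v ≠ 0 → g • v = v → g = 1 := fun s h1 h2 g h3 v h4 h5 =>
    haveI := Fact.mk h1
    disjoint_def.1 (IsPGroup.disjoint_of_ne s p h2 _ _ Core.isPGroup_pCore (hst v h4)) h3 h5
  have key : ∀ (r : ℕ) (x : H), r.Prime → orderOf x = r → pCore r H = ⊥ → (∀ s, s.Prime → s ≠ r → s ≠ 2 →
      x ∈ 𝓒(pCore s H)) → (IsCyclic (pCore 2 H) → x ∈ 𝓒(pCore 2 H)) → p ≠ 2 → r = 3 ∧ ♯(pCore 2 H) = 8 := by
    intro r x h1 h2 h3 h4 h5 h6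
    obtain ⟨s, h7, h8, h9⟩ := exists_not_cent hs h1 h2 h3
    obtain rfl : s = 2 := by_contra fun e => h9 (h4 s h7 h8 e)
    have h10 : Fc.FC (pCore 2 H) := Fc.of_add (V := V) fun g e v h => by_contra fun h' =>
      e (Subtype.ext (free 2 h7 h6.symm g g.2 v h' h))
    rcases h10.isCyclic_or_quaternion (P := ⊤) (Core.isPGroup_top_iff.2 Core.isPGroup_pCore) with h | ⟨-, n, ⟨e⟩⟩
    · exact (h9 (h5 (isCyclic_of_surjective _ topEquiv.surjective))).elim
    · exact quat (topEquiv.symm.trans e) h1 h8 h2 h9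
  have cyc : ∀ s, s.Prime → s ≠ p → s ≠ 2 → IsCyclic (pCore s H) := fun s h1 h2 h3 => by
    haveI := Fact.mk h1
    have h10 : Fc.FC (pCore s H) := Fc.of_add (V := V) fun g e v h => by_contra fun h' =>
      e (Subtype.ext (free s h1 h2 g g.2 v h' h))
    have := h10.isCyclic_of_odd (P := ⊤) (Core.isPGroup_top_iff.2 Core.isPGroup_pCore) h3
    exact isCyclic_of_surjective _ topEquiv.surjective
  have dc : ∀ R : Subgroup H, R.Normal → IsCyclic R → a ∈ 𝓒(R) := fun R _ h => der_cent_cyclic h (top_norm R ⊤) ha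
  have p2 : p ≠ 2 := by
    rintro rfl
    obtain ⟨s, h7, h8, h9⟩ := exists_not_cent hs hp.out ho h0
    exact h9 (dc _ inferInstance (cyc s h7 h8 h8))
  obtain ⟨rfl, h1⟩ := key p a hp.out ho h0 (fun s a b c => dc _ inferInstance (cyc s a b c)) (dc _ inferInstance) p2
  have w' : ∀ (a : H) (v : V), v ∈ FixedPoints.addSubgroup (zpowers a) V ↔ a • v = v := fun a v =>
    ⟨fun h => h ⟨a, mem_zpowers a⟩, fun h g => (zpowers_le (H := MulAction.stabilizer H v)).2 h g.2⟩
  have w0 := w' a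
  set W := FixedPoints.addSubgroup (zpowers a) V with hW
  have a1 : a ≠ 1 := fun e => by simp [e] at ho
  have w1 : W ≠ ⊤ := fun e => a1 (FaithfulSMul.eq_of_smul_eq_smul (α := V) fun v => by
    rw [one_smul, (w0 v).1 (e ▸ AddSubgroup.mem_top v)])
  obtain ⟨d, h2⟩ := HupTr.card_eq_pow 3 (⊤ : AddSubgroup V)
  rw [AddSubgroup.card_top] at h2
  have h3 : 3 ∣ Nat.card V := h2 ▸ dvd_pow_self 3 fun e => by
    have := Finite.one_lt_card (α := V)
    simp [h2, e] at this
  have w2 : 3 ∣ Nat.card W := ((((isPi_of_card_eq hp.out ((Nat.card_zpowers a).trans ho)).isPGroup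
    hp.out).card_modEq_card_fixedPoints V).dvd_iff dvd_rfl).1 h3
  obtain ⟨v, hv⟩ := exists_ne (0 : V)
  have h4 := ht.dvd_card hv
  rcases HupTr.huppert 3 ht hs with ⟨F, _, _, e, he⟩ | h
  · choose c σ he using he
    have c0 : ∀ g, c g ≠ 0 := fun g h => hv ((smul_eq_zero_iff_eq g).1 (by simpa [h] using he g v))
    have h5 : ∀ g h y, c (g * h) * σ (g * h) y = c g * σ g (c h * σ h y) := fun g h y => by
      rw [← e.apply_symm_apply y, ← he, ← he, ← he, mul_smul]
    let φ : H →* (F ≃+* F) := MonoidHom.mk' σ fun g h => RingEquiv.ext fun y => by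
      have h6 := h5 g h 1
      have h7 := h5 g h y
      rw [map_one, map_one, mul_one, mul_one] at h6
      rw [map_mul, ← mul_assoc, ← h6] at h7
      exact mul_left_cancel₀ (c0 _) h7
    have := FieldAut.isCyclic_aut F
    have h6 : σ a = 1 := (commutator_le (H₃ := φ.ker)).2 (fun g _ h _ => by
      rw [MonoidHom.mem_ker, map_commutatorElement, commutatorElement_eq_one_iff_mul_comm, mul_comm']) ha
    obtain ⟨⟨w, hw⟩, h7⟩ := AddSubgroup.ne_bot_iff_exists_ne_zero.1 (show W ≠ ⊥ from fun e => by simp [e] at w2)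
    have h8 := he a w
    rw [(w0 w).1 hw, h6, RingAut.one_eq_refl, RingEquiv.refl_apply] at h8
    refine w1 (eq_top_iff.2 fun u _ => (w0 u).2 (e.injective ?_))
    rw [he, h6, (mul_eq_right₀ fun k => h7 (Subtype.ext (by simpa using k))).1 h8.symm, one_mul]; rfl
  simp only [Set.mem_insert_iff, Set.mem_singleton_iff] at h
  rcases (by omega : Nat.card V = 9 ∨ Nat.card V = 81) with h | h
  · have h5 : ♯(MulAction.stabilizer H v) < 9 := by
      have b := (Nat.card_zmultiples v).trans (addOrderOf_eq_prime (HupTr.nsmul_eq_zero 3 v) hv)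
      obtain ⟨w, hw⟩ : ∃ w, w ∉ AddSubgroup.zmultiples v := by
        by_contra! h5
        rw [(AddSubgroup.eq_top_iff' _).2 h5, AddSubgroup.card_top, h] at b
        omega
      haveI := Fintype.ofFinite V
      haveI := Fintype.ofFinite (MulAction.stabilizer H v)
      rw [← h, Nat.card_eq_fintype_card, Nat.card_eq_fintype_card]
      refine Fintype.card_lt_of_injective_not_surjective (fun g : MulAction.stabilizer H v => g • w) (fun g k e => ?_)
        fun h6 => (h6 0).elim fun g h7 => hw ((smul_eq_zero_iff_eq g).1 h7 ▸ zero_mem _)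
      have b1 : AddSubgroup.zmultiples v ≤ FixedPoints.addSubgroup (zpowers (k⁻¹ * g).1) V :=
        AddSubgroup.zmultiples_le_of_mem ((w' _ v).2 (k⁻¹ * g).2)
      have b2 := (w' (k⁻¹ * g).1 w).2 (show (k⁻¹ * g) • w = w by rw [mul_smul, inv_smul_eq_iff]; exact e)
      have b3 := AddSubgroup.card_dvd_of_le b1
      have b4 := AddSubgroup.card_addSubgroup_dvd_card (FixedPoints.addSubgroup (zpowers (k⁻¹ * g).1) V)
      have b5 := mt (fun e => AddSubgroup.eq_of_le_of_card_ge b1 (le_of_eq e)) fun e => hw (e ▸ b2)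
      have b6 := Nat.le_of_dvd (by omega) b4
      have b7 := AddSubgroup.eq_top_of_card_eq (FixedPoints.addSubgroup (zpowers (k⁻¹ * g).1) V) (by
        rw [b] at b3 b5
        rw [h] at b4 b6 ⊢
        generalize Nat.card (FixedPoints.addSubgroup (zpowers (k⁻¹ * g).1) V) = c at *
        interval_cases c <;> simp_all)
      exact (inv_mul_eq_one.1 (Subtype.ext (FaithfulSMul.eq_of_smul_eq_smul (α := V) fun u => by
        rw [(w' _ u).1 (b7 ▸ AddSubgroup.mem_top u)]; exact (one_smul H u).symm))).symm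
    obtain ⟨k, h6⟩ := IsPGroup.iff_card.1 (hst v hv)
    have h7 : k ≤ 1 := by_contra fun e => by
      have := Nat.pow_le_pow_right (show 0 < 3 by omega) (show 2 ≤ k by omega)
      omega
    have h8 := (pCore 2 H).card_mul_index
    rw [← h4, h1, h, h6] at h8
    have : IsCyclic (H ⧸ pCore 2 H) := isCyclic_of_card_dvd_prime (p := 3)
      ((show (pCore 2 H).index = 3 ^ k by omega).dvd.trans (pow_dvd_pow 3 h7))
    have h9 := card_dvd_of_le ((Normal.quotient_commutative_iff_commutator_le (N := pCore 2 H)).1 inferInstance)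
    exact absurd (h1 ▸ hd.trans h9) (by omega)
  · haveI : Fact (Nat.Prime 5) := ⟨by norm_num⟩
    by_cases h5 : pCore 5 H = ⊥
    · obtain ⟨x, hx⟩ := exists_prime_orderOf_dvd_card' (G := H) 5 (by rw [← h4, h]; omega)
      obtain ⟨k, h6⟩ := IsPGroup.iff_card.1 (hst v hv)
      refine absurd (key 5 x (by norm_num) hx h5 (fun s a b c => ?_) (fun e => Two.not_act_iff.1
        (Two.not_act_of_isCyclic e Core.isPGroup_pCore) x (top_norm _ ⊤ trivial) (by rw [hx]; norm_num)) p2).1 (by omega)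
      haveI := Fact.mk a
      rw [show pCore s H = ⊥ from by_contra fun e => ?_, cent_bot]
      · trivial
      have h7 := ((isPi_of_isPGroup a Core.isPGroup_pCore).dvd_card e).trans (card_subgroup_dvd_card _)
      rw [← h4, h, h6, show 81 - 1 = 2 ^ 4 * 5 from rfl, a.dvd_mul, a.dvd_mul] at h7
      rcases h7 with (h7 | h7) | h7
      · exact c ((Nat.prime_dvd_prime_iff_eq a Nat.prime_two).1 (a.dvd_of_dvd_pow h7))
      · exact b ((Nat.prime_dvd_prime_iff_eq a (by norm_num)).1 h7)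
      · exact e ((Nat.prime_dvd_prime_iff_eq a hp.out).1 (a.dvd_of_dvd_pow h7) ▸ h0)
    · have h6 := dc _ inferInstance (cyc 5 (by norm_num) (by norm_num) (by norm_num))
      have h7 := ((isPi_of_isPGroup (by norm_num) Core.isPGroup_pCore).dvd_card h5).trans
        (TrLin.card_dvd_of_free (A := pCore 5 H) (W := W) (fun g hg u hu => (w0 _).2 (by
          rw [← mul_smul, ← h6 g hg, mul_smul, (w0 u).1 hu])) (free 5 (by norm_num) (by norm_num)))
      have h8 : Nat.card W ∣ 3 ^ 4 := W.card_addSubgroup_dvd_card.trans h.dvd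
      obtain ⟨j, h9, h10⟩ := (Nat.dvd_prime_pow Nat.prime_three).1 h8
      have h11 : j ≠ 4 := fun e => w1 (AddSubgroup.eq_top_of_card_eq W (by rw [h10, e, h]; rfl))
      rw [h10] at h7 w2
      interval_cases j <;> simp_all

/-- Let G be a finite solvable group of order greater than 2 with an irreducible character nonzero on exactly two conjugacy classes. Then there is exactly one prime p with O_p(G) ≠ 1, and the quotient G/O_p(G) has a normal p-complement and commutative Sylow p-subgroups. -/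
theorem result {G : Type*} [Group G] [Finite G] [hs : Group.IsSolvable G] (hG : 2 < Nat.card G) (χ : Cfsg.IrrCharacter G) (hχ : Nat.card {C : ConjClasses G // ∃ g ∈ C.carrier, (χ : G → ℂ) g ≠ 0} = 2) :
    ∃ p : ℕ, p.Prime ∧ (∀ q : ℕ, q.Prime → (Cfsg.pCore q G ≠ ⊥ ↔ q = p)) ∧
      Cfsg.HasNormalPComplement p (G ⧸ Cfsg.pCore p G) ∧ ∀ Q : Sylow p (G ⧸ Cfsg.pCore p G), IsMulCommutative (Q : Subgroup (G ⧸ Cfsg.pCore p G)) := by
  obtain ⟨N, hn, h1, h2, ⟨p, hp, h3⟩, h4, h5⟩ := S4835.result hG χ hχ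
  haveI := Fact.mk hp
  have hN := isPi_of_elem hp h3
  have h6 := (S4837.result hG χ hχ p N (fun g => (h4 g).symm) (hN.isPGroup hp) h1).1
  have h7 : N ≤ pCore p G := Core.le_pCore (hN.isPGroup hp)
  have h8 : 𝓒(N) = pCore p G := by
    obtain ⟨⟨x, hx⟩, e⟩ := ne_bot_iff_exists_ne_one.1 h1
    obtain ⟨P, hP⟩ := h6 x hx fun h => e (Subtype.ext h)
    refine le_antisymm (Core.le_pCore (P.isPGroup'.to_le (hP ▸ centralizer_le (by simpa using hx))))
      (le_centralizer_iff.1 ((h2 (N ⊓ 𝓒(pCore p G)) inferInstance ?_).trans inf_le_right))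
    exact (isPi_of_isPGroup hp Core.isPGroup_pCore).meet_cent hN (top_norm N _) h1
  let _ : CommGroup N := { (inferInstance : Group N) with mul_comm := h3.1.is_comm.comm }
  have hk := (RegLin.ker_conjNormal N).trans h8
  let _ : MulDistribMulAction (G ⧸ pCore p G) N :=
    MulDistribMulAction.compHom N (QuotientGroup.lift _ (MulAut.conjNormal (H := N)) hk.ge)
  let _ := RankOne3.addAct (G ⧸ pCore p G) N
  have hsm : ∀ (g : G) (x : Additive N), (((g : G ⧸ pCore p G) • x).toMul : G) = g * (x.toMul : G) * g⁻¹ :=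
    fun _ _ => rfl
  have hext : ∀ {x y : Additive N}, (x.toMul : G) = y.toMul → x = y := fun h =>
    Additive.toMul.injective (Subtype.ext h)
  obtain ⟨_⟩ : Nonempty (Module (ZMod p) (Additive N)) :=
    ⟨AddCommGroup.zmodModule fun x => hext (h3.2 _ x.toMul.2)⟩
  have : Nontrivial (Additive N) := (N.nontrivial_iff_ne_bot).2 h1
  have : FaithfulSMul (G ⧸ pCore p G) (Additive N) := ⟨fun {g h} e => by
    obtain ⟨g, rfl⟩ := QuotientGroup.mk_surjective g
    obtain ⟨h, rfl⟩ := QuotientGroup.mk_surjective h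
    refine QuotientGroup.eq.2 (h8 ▸ fun n hn => ?_)
    have := (hsm g (Additive.ofMul ⟨n, hn⟩)).symm.trans ((congrArg (fun x => (x.toMul : G)) (e _)).trans (hsm h _))
    calc n * (g⁻¹ * h) = g⁻¹ * (g * n * g⁻¹) * h := by group
      _ = g⁻¹ * (h * n * h⁻¹) * h := by rw [show g * n * g⁻¹ = h * n * h⁻¹ from this]
      _ = _ := by group⟩
  have h9 := core (H := G ⧸ pCore p G) (V := Additive N) (p := p) (fun v w hv hw => by
      obtain ⟨g, e⟩ := h5 _ v.toMul.2 _ w.toMul.2 (fun e => hv (hext e)) fun e => hw (hext e)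
      exact ⟨g, hext e⟩) inferInstance Core.pCore_quotient_pCore fun v hv => by
    obtain ⟨P, hP⟩ := h6 _ v.toMul.2 fun e => hv (hext e)
    refine (P.isPGroup'.map (QuotientGroup.mk' _)).to_le fun g hg => ?_
    obtain ⟨g, rfl⟩ := QuotientGroup.mk_surjective g
    exact ⟨g, hP ▸ BG.mem_cent1.2 (mul_inv_eq_iff_eq_mul.1 ((hsm g v).symm.trans (congrArg _ hg))), rfl⟩
  have h10 : ∀ Q : Sylow p (G ⧸ pCore p G), 𝓝((Q : Subgroup (G ⧸ pCore p G))) ≤ 𝓒((Q : Subgroup (G ⧸ pCore p G))) :=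
    fun Q => commutator_eq_bot_iff_le_centralizer.1 (BG.eq_bot_mono (le_inf (le_normalizer_iff_commutator_le_right.1 le_rfl)
      (commutator_mono le_top le_top)) ((syl_top hp Q).pi.inf_eq_bot ((isPi_compl_iff hp).2 h9)))
  refine ⟨p, hp, fun q hq => ⟨fun h => ?_, fun h => h ▸ ne_bot_mono h7 h1⟩,
    PRes.hasNPC_of_normalizer_le_centralizer default (h10 _), fun Q => comm_iff_le_cent.2 (le_normalizer.trans (h10 Q))⟩
  haveI := Fact.mk hq
  by_contra e
  exact h1 (BG.eq_bot_mono (le_inf (h2 _ inferInstance h) le_rfl)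
    (inf_eq_bot_of_cop ((isPi_of_isPGroup hq Core.isPGroup_pCore).coprime_ne hN e)))

end Cfsg.Agent.S4840
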