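import Cfsg.Statements.S4845
import Cfsg.Agent.Lib.Char.H10FS
import Cfsg.Agent.Lib.Char.CharMisc
import Cfsg.Agent.Lib.Grp.NPC2
import Cfsg.Agent.Lib.Grp.PGClassTwo
import Cfsg.Agent.Lib.Grp.PGBasic

set_option autoImplicit false
open Cfsg

namespace Cfsg.Agent.S4845
open scoped commutatorElement
open CA.H10FS CA.MatRep CA.H11FS CA.Clif CA.Gall CA.Ind2 CA.Ext CChar.CharFun CChar.CharOrth CChar.CharInt CChar.CharProd CChar.CharKer CA.Ind Subgroup

universe u

def SK (P : Type*) [Group P] : Prop := ∀ χ ψ : P → ℂ, IsIrrCharacter P χ → IsIrrCharacter P ψ →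
  χ 1 ≠ 1 → χ 1 = ψ 1 → charKer χ = charKer ψ

variable {P : Type u} [Group P] [Finite P] {p : ℕ} [hp : Fact p.Prime]

theorem ker_le (h : SK P) {χ : P → ℂ} (hχ : IsIrrCharacter P χ) (h1 : χ 1 ≠ 1) :
    charKer χ ≤ _root_.commutator P := by
  haveI : Fintype P := Fintype.ofFinite _
  intro x hx
  refine mem_of_forall_irr fun l hl hk => ?_
  have hl1 := (irr_apply_one_iff hl).2 hk
  have h2 := h χ _ hχ (irr_lin_mul hl hl1 hχ) h1 (by simp [hl1])
  have h3 := apply_of_mem_charKer (h2 ▸ hx)
  simp only [Pi.mul_apply, apply_of_mem_charKer hx] at h3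
  exact mul_right_cancel₀ (irr_apply_one_ne_zero hχ) h3

theorem not_all (h : SK P) {N : Subgroup P} [N.Normal] (hN : N ≠ ⊥) (hlt : N < _root_.commutator P)
    (hd : ∀ χ ψ : P → ℂ, IsIrrCharacter P χ → IsIrrCharacter P ψ → χ 1 ≠ 1 → ψ 1 ≠ 1 → χ 1 = ψ 1) :
    False := by
  obtain ⟨t, ht, htN⟩ := SetLike.exists_of_lt hlt
  obtain ⟨χ, hχ, hk, htk⟩ := exists_irr_of_not_mem htN
  have h1 : χ 1 ≠ 1 := fun e => htk ((irr_apply_one_iff hχ).1 e ht)
  refine hN (eq_bot_iff.2 fun x hx => eq_one_of_forall_irr fun ψ hψ => apply_of_mem_charKer ?_)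
  by_cases h2 : ψ 1 = 1
  · exact (irr_apply_one_iff hψ).1 h2 (hlt.le hx)
  · exact h χ ψ hχ hψ h1 (hd _ _ hχ hψ h1 h2) ▸ hk hx

theorem gen {χ : P → ℂ} (hχ : IsIrrCharacter P χ) :
    ∃ y ∈ charCenter χ, ∀ x ∈ charCenter χ, ∃ j : ℤ, ∃ k ∈ charKer χ, x = y ^ j * k := by
  obtain ⟨⟨y, hy⟩, hg⟩ := (isCyclic_center_quotient_charKer hχ).exists_generator
  obtain ⟨y, rfl⟩ := QuotientGroup.mk'_surjective _ y
  refine ⟨y, by rw [charCenter_eq_comap hχ]; exact hy, fun x hx => ?_⟩
  rw [charCenter_eq_comap hχ] at hx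
  obtain ⟨j, hj⟩ := hg ⟨_, hx⟩
  have h1 : ((y ^ j : P) : P ⧸ charKer χ) = x := congrArg Subtype.val hj
  exact ⟨j, (y ^ j)⁻¹ * x, QuotientGroup.eq.1 h1, by simp⟩

theorem idx {χ : P → ℂ} (hχ : IsIrrCharacter P χ) (hZ : charKer χ ≤ center P)
    (hK : Nat.card (charKer χ) ∣ p) :
    (center P).index = (charCenter χ).index ∨ (center P).index = p * (charCenter χ).index := by
  obtain ⟨y, hy, hg⟩ := gen hχ
  have h1 : y ^ p ∈ center P := mem_center_iff.2 fun g => by
    have h2 := (mem_charCenter_iff_commutator hχ).1 hy g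
    rw [eq_comm, ← commutatorElement_eq_one_iff_mul_comm,
      CA.PGClassTwo.comm_pow_left (mem_center_iff.1 (hZ h2) y)]
    have := orderOf_dvd_iff_pow_eq_one.1 ((orderOf_dvd_natCard (⟨_, h2⟩ : charKer χ)).trans hK)
    exact congrArg Subtype.val this
  have h2 : (charCenter χ).map (QuotientGroup.mk' (center P)) = zpowers (y : P ⧸ center P) := by
    apply le_antisymm
    · rintro _ ⟨x, hx, rfl⟩
      obtain ⟨j, k, hk, rfl⟩ := hg x hx
      refine ⟨j, ?_⟩
      have : QuotientGroup.mk' (center P) k = 1 := (QuotientGroup.eq_one_iff k).2 (hZ hk)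
      rw [map_mul, this, mul_one]; rfl
    · exact zpowers_le.2 ⟨y, hy, rfl⟩
  have h3 := index_map_eq (charCenter χ) (QuotientGroup.mk'_surjective (center P))
    (by rw [QuotientGroup.ker_mk']; exact center_le_charCenter hχ)
  have h4 := (zpowers (y : P ⧸ center P)).card_mul_index
  rw [← h2, h3, h2, Nat.card_zpowers, ← index_eq_card] at h4
  have h5 : orderOf (y : P ⧸ center P) ∣ p := orderOf_dvd_of_pow_eq_one (by
    rw [← QuotientGroup.mk_pow]; exact (QuotientGroup.eq_one_iff _).2 h1)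
  rcases (Nat.dvd_prime hp.out).1 h5 with e | e <;> rw [e] at h4
  · left; omega
  · right; omega

theorem dvd_of_lt {A B : Subgroup P} (h : A < B) (hB : Nat.card B = p ^ 2) : Nat.card A ∣ p := by
  obtain ⟨j, hj, e⟩ := (Nat.dvd_prime_pow hp.out).1 (hB ▸ card_dvd_of_le h.le)
  have : j ≠ 2 := by
    rintro rfl
    exact h.ne (eq_of_le_of_card_ge h.le (by rw [e, hB]))
  rw [e]
  calc p ^ j ∣ p ^ 1 := pow_dvd_pow p (by omega)
    _ = p := pow_one p

theorem sq_false (hP : IsPGroup p P) (h : SK P) (hc : Nat.card (_root_.commutator P) = p ^ 2) :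
    False := by
  classical
  haveI : Fintype P := Fintype.ofFinite _
  have hp1 := hp.out.one_lt
  have hne : _root_.commutator P ≠ ⊥ := fun e => by
    rw [e, card_bot] at hc
    exact (Nat.one_lt_pow two_ne_zero hp1).ne hc
  obtain ⟨z, hz, hzZ, ho⟩ := CA.PGBasic.exists_mem_center_orderOf hP hne
  set N := zpowers z with hN
  have hNZ : N ≤ center P := zpowers_le.2 hzZ
  haveI : N.Normal := ⟨fun n hn g => by
    rw [mem_center_iff.1 (hNZ hn) g, mul_inv_cancel_right]; exact hn⟩
  have hNc : Nat.card N = p := by rw [Nat.card_zpowers, ho]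
  have hN1 : N ≠ ⊥ := fun e => by rw [e, card_bot] at hNc; omega
  have hlt : N < _root_.commutator P := lt_of_le_of_ne (zpowers_le.2 hz) fun e => by
    rw [e, hc] at hNc; nlinarith
  have hklt : ∀ χ, IsIrrCharacter P χ → χ 1 ≠ 1 → charKer χ < _root_.commutator P :=
    fun χ hχ h1 => lt_of_le_of_ne (ker_le h hχ h1) fun e => h1 ((irr_apply_one_iff hχ).2 e.ge)
  have hsq : ∀ χ, IsIrrCharacter P χ → _root_.commutator P ≤ charCenter χ →
      charDegree χ ^ 2 = (charCenter χ).index := fun χ hχ hle =>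
    (degree_sq_eq_index_iff hχ le_rfl (irr_apply_one_eq hχ)).2
      fun g hg => apply_eq_zero_of_commutator_le hχ hle hg
  refine not_all h hN1 hlt ?_
  by_cases hcz : _root_.commutator P ≤ center P
  · intro χ ψ hχ hψ h1 h2
    obtain ⟨a, ha⟩ := CChar.CharMisc.degree_eq_pow_of_isPGroup hP hχ
    obtain ⟨b, hb⟩ := CChar.CharMisc.degree_eq_pow_of_isPGroup hP hψ
    have i1 := idx hχ ((hklt χ hχ h1).le.trans hcz) (dvd_of_lt (hklt χ hχ h1) hc)
    have i2 := idx hψ ((hklt ψ hψ h2).le.trans hcz) (dvd_of_lt (hklt ψ hψ h2) hc)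
    rw [← hsq χ hχ (hcz.trans (center_le_charCenter hχ)), ha, ← pow_mul, ← pow_succ'] at i1
    rw [← hsq ψ hψ (hcz.trans (center_le_charCenter hψ)), hb, ← pow_mul, ← pow_succ'] at i2
    have : a = b := by
      rcases i1 with i1 | i1 <;> rcases i2 with i2 | i2 <;>
      · have := Nat.pow_right_injective hp.out.two_le (i1.symm.trans i2)
        omega
    rw [irr_apply_one_eq hχ, irr_apply_one_eq hψ, ha, hb, this]
  · obtain ⟨t, ht, htN⟩ := SetLike.exists_of_lt hlt
    obtain ⟨χ, hχ, hk, htk⟩ := exists_irr_of_not_mem htN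
    have h1 : χ 1 ≠ 1 := fun e => htk ((irr_apply_one_iff hχ).1 e ht)
    have hbt : ∀ A : Subgroup P, N ≤ A → A < _root_.commutator P → A = N := fun A h1 h2 =>
      (eq_of_le_of_card_ge h1 (hNc ▸ Nat.le_of_dvd hp.out.pos (dvd_of_lt h2 hc))).symm
    have hkN : charKer χ = N := hbt _ hk (hklt χ hχ h1)
    have hle : _root_.commutator P ≤ charCenter χ := by
      intro x hx
      rw [mem_charCenter_iff_commutator hχ, hkN]
      intro g
      have h3 : N.relIndex (_root_.commutator P) = p := by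
        have := card_mul_index (N.subgroupOf (_root_.commutator P))
        rw [Nat.card_congr (subgroupOfEquivOfLe hlt.le).toEquiv, hNc, hc, sq] at this
        exact Nat.eq_of_mul_eq_mul_left hp.out.pos this
      exact CA.PGBasic.commutator_le_of_relIndex hP hlt.le h3 (commutator_mem_commutator hx (mem_top g))
    obtain ⟨y, hy, hg⟩ := gen hχ
    rw [hkN] at hg
    have hyN : ∀ g, ⁅y, g⁆ ∈ N := fun g => hkN ▸ (mem_charCenter_iff_commutator hχ).1 hy g
    let f : P →* N := MonoidHom.mk' (fun g => ⟨_, hyN g⟩) fun a b => Subtype.ext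
      (CA.PGClassTwo.comm_mul_right (mem_center_iff.1 (hNZ (hyN b)) a))
    set C := f.ker with hC
    have hCY : ∀ c ∈ C, ∀ x ∈ charCenter χ, c * x = x * c := by
      intro c hc x hx
      obtain ⟨j, k, hk, rfl⟩ := hg x hx
      have h2 : ⁅y, c⁆ = 1 := congrArg Subtype.val (MonoidHom.mem_ker.1 hc)
      have h3 : Commute c y := (commutatorElement_eq_one_iff_commute.1 h2).symm
      exact ((h3.zpow_right j).mul_right (mem_center_iff.1 (hNZ hk) c)).eq
    have hYC : charCenter χ ≤ C := by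
      intro x hx
      obtain ⟨j, k, hk, rfl⟩ := hg x hx
      refine MonoidHom.mem_ker.2 (Subtype.ext (commutatorElement_eq_one_iff_commute.2 ?_))
      exact ((Commute.refl y).zpow_right j).mul_right (mem_center_iff.1 (hNZ hk) y)
    have hCi : C.index = p := by
      have h2 : C.index ∣ p := by
        rw [hC, index_ker, ← hNc]; exact card_subgroup_dvd_card _
      refine ((Nat.dvd_prime hp.out).1 h2).resolve_left fun e => hcz fun x hx => ?_
      exact mem_center_iff.2 fun g => hCY g (index_eq_one.1 e ▸ mem_top g) x (hle hx)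
    have hCC : ⁅C, C⁆ ≤ N := by
      have h2 : ∀ A : Subgroup P, A ≤ _root_.commutator P → ⁅A, C⁆ = ⊥ := fun A hA =>
        commutator_eq_bot_iff_le_centralizer.2 fun a ha c hc => hCY c hc a (hle (hA ha))
      have h3 : ⁅⁅C, C⁆, (⊤ : Subgroup P)⁆ = ⊥ := commutator_commutator_eq_bot_of_rotate
        (h2 _ (commutator_mono le_top le_top)) (h2 _ (commutator_mono le_top le_top))
      rw [commutator_eq_bot_iff_le_centralizer, coe_top, centralizer_univ] at h3
      rw [← hbt (_root_.commutator P ⊓ center P) (le_inf hlt.le hNZ)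
        (lt_of_le_of_ne inf_le_left fun e => hcz (e ▸ inf_le_right))]
      exact le_inf (commutator_mono le_top le_top) h3
    have hdeg : charDegree χ ≤ p := by
      have h2 := CChar.CharMisc.degree_le_index_of_comm (irr_deflate hχ hk)
        (C.map (QuotientGroup.mk' N)) (by
          rintro _ ⟨a, ha, rfl⟩ _ ⟨b, hb, rfl⟩
          rw [← commutatorElement_eq_one_iff_mul_comm, ← map_commutatorElement]
          exact (QuotientGroup.eq_one_iff _).2 (hCC (commutator_mem_commutator ha hb)))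
        (n := charDegree χ) (by rw [← irr_apply_one_eq hχ, ← deflate_mk hk 1]; rfl)
      rwa [index_map_eq _ (QuotientGroup.mk'_surjective N) (by
        rw [QuotientGroup.ker_mk', ← hkN]; exact (charKer_le_charCenter χ).trans hYC), hCi] at h2
    have hrel : (charCenter χ).relIndex C ∣ p := by
      have h2 := relIndex_mul_index hYC
      rw [← hsq χ hχ hle, hCi] at h2
      obtain ⟨a, ha⟩ := CChar.CharMisc.degree_eq_pow_of_isPGroup hP hχ
      have h3 : a ≤ 1 := (Nat.pow_le_pow_iff_right hp1).1 (by rw [← ha, pow_one]; exact hdeg)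
      have h4 : (charCenter χ).relIndex C * p ∣ p * p := by
        rw [h2, ha, ← pow_mul, ← sq]; exact pow_dvd_pow p (by omega)
      exact Nat.dvd_of_mul_dvd_mul_right hp.out.pos h4
    have hab : ∀ a ∈ C, ∀ b ∈ C, a * b = b * a := by
      intro a ha b hb
      haveI : IsCyclic (C ⧸ (charCenter χ).subgroupOf C) := isCyclic_of_card_dvd_prime hrel
      have := commutative_of_cyclic_center_quotient (QuotientGroup.mk' ((charCenter χ).subgroupOf C))
        (by
          rw [QuotientGroup.ker_mk']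
          intro x hx
          exact mem_center_iff.2 fun g => Subtype.ext (hCY g g.2 x hx)) ⟨a, ha⟩ ⟨b, hb⟩
      exact congrArg Subtype.val this
    have hall : ∀ ψ, IsIrrCharacter P ψ → ψ 1 ≠ 1 → ψ 1 = p := by
      intro ψ hψ h2
      have h3 := CChar.CharMisc.degree_le_index_of_comm hψ C hab (irr_apply_one_eq hψ)
      obtain ⟨a, ha⟩ := CChar.CharMisc.degree_eq_pow_of_isPGroup hP hψ
      have h4 : a ≤ 1 := (Nat.pow_le_pow_iff_right hp1).1 (by rw [← ha, pow_one, ← hCi]; exact h3)
      rw [irr_apply_one_eq hψ, ha] at h2 ⊢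
      interval_cases a
      · simp at h2
      · simp
    intro φ ψ hφ hψ a b
    rw [hall φ hφ a, hall ψ hψ b]

theorem main (n : ℕ) : ∀ (P : Type u) [Group P] [Finite P], Nat.card P = n → IsPGroup p P → SK P →
    Nat.card (_root_.commutator P) ∣ p := by
  induction n using Nat.strong_induction_on with
  | _ n ih =>
  intro P _ _ hn hP h
  by_cases hne : _root_.commutator P = ⊥
  · rw [hne, card_bot]; exact one_dvd _
  obtain ⟨z, hz, hzZ, ho⟩ := CA.PGBasic.exists_mem_center_orderOf hP hne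
  set N := zpowers z with hN
  have hNZ : N ≤ center P := zpowers_le.2 hzZ
  haveI : N.Normal := ⟨fun n hn g => by
    rw [mem_center_iff.1 (hNZ hn) g, mul_inv_cancel_right]; exact hn⟩
  have hNc : Nat.card N = p := by rw [Nat.card_zpowers, ho]
  have h1 := ih (Nat.card (P ⧸ N)) (by
    rw [← hn, card_eq_card_quotient_mul_card_subgroup N, hNc]
    have : 0 < Nat.card (P ⧸ N) := Nat.card_pos
    have := hp.out.one_lt
    nlinarith) (P ⧸ N) rfl (hP.to_quotient N) (by
      intro χ ψ hχ hψ a b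
      have h2 := h _ _ (irr_inflate hχ) (irr_inflate hψ) a b
      have h3 := charKer_comp (char_of_irr hχ) (QuotientGroup.mk' N)
      have h4 := charKer_comp (char_of_irr hψ) (QuotientGroup.mk' N)
      exact comap_injective (QuotientGroup.mk'_surjective N) (h3.symm.trans (h2.trans h4)))
  have h2 : Nat.card (_root_.commutator P) = Nat.card (_root_.commutator (P ⧸ N)) * p := by
    have h3 : (_root_.commutator P).map (QuotientGroup.mk' N) = _root_.commutator (P ⧸ N) := by
      rw [_root_.commutator_def, map_commutator, map_top_of_surjective _ (QuotientGroup.mk'_surjective N)]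
      rfl
    have h4 := index_map_eq (_root_.commutator P) (QuotientGroup.mk'_surjective N)
      (by rw [QuotientGroup.ker_mk']; exact zpowers_le.2 hz)
    rw [h3] at h4
    have h5 := (_root_.commutator P).card_mul_index
    have h6 := (_root_.commutator (P ⧸ N)).card_mul_index
    rw [card_eq_card_quotient_mul_card_subgroup N, hNc, ← h6, h4] at h5
    apply Nat.eq_of_mul_eq_mul_right (Nat.pos_of_ne_zero (_root_.commutator P).index_ne_zero_of_finite)
    rw [h5]; ring
  rcases (Nat.dvd_prime hp.out).1 h1 with e | e <;> rw [e] at h2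
  · rw [h2, one_mul]
  · exact (sq_false hP h (by rw [h2, sq])).elim

/-- Let p be a prime and P a finite non-commutative p-group. Then every two irreducible characters of P of the same degree greater than 1 are Galois conjugate (one is obtained from the other by composing with g ↦ g^k for some k prime to the order of P) if and only if the centre of P is cyclic and the derived subgroup of P has order p. -/
theorem result {P : Type*} [Group P] [Finite P] (p : ℕ) [Fact p.Prime] (hP : IsPGroup p P) (hna : ¬ IsMulCommutative P) :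
    (∀ χ ψ : Cfsg.IrrCharacter P, Cfsg.charDegree (χ : P → ℂ) ≠ 1 → Cfsg.charDegree (χ : P → ℂ) = Cfsg.charDegree (ψ : P → ℂ) → ∃ k : ℕ, Nat.Coprime k (Nat.card P) ∧ ∀ g : P, (ψ : P → ℂ) g = (χ : P → ℂ) (g ^ k)) ↔
      (IsCyclic (Subgroup.center P) ∧ Nat.card (commutator P) = p) := by
  classical
  haveI : Fintype P := Fintype.ofFinite _
  have hp : p.Prime := Fact.out
  have hne : _root_.commutator P ≠ ⊥ := fun e =>
    hna ⟨⟨fun a b => CChar.CharMisc.comm_of_commutator_eq_bot e.le a b⟩⟩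
  have hpw : ∀ (H : Subgroup P) (g : P) (k : ℕ), k.Coprime (Nat.card P) → g ^ k ∈ H → g ∈ H := by
    intro H g k hk hg
    refine zpowers_le.2 hg ?_
    rw [mem_zpowers_pow_iff]
    exact Nat.Coprime.coprime_dvd_right (orderOf_dvd_natCard g) hk
  constructor
  · intro H
    have h : SK P := by
      intro χ ψ hχ hψ a b
      obtain ⟨k, hk, e⟩ := H ⟨χ, hχ⟩ ⟨ψ, hψ⟩ (fun e => a (by rw [irr_apply_one_eq hχ]; exact_mod_cast e))
        (by rw [irr_apply_one_eq hχ, irr_apply_one_eq hψ] at b; exact_mod_cast b)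
      ext x
      rw [mem_charKer (char_of_irr hψ), ← b]
      change _ ↔ (⟨ψ, hψ⟩ : IrrCharacter P).1 x = _
      rw [e x]
      exact ⟨fun hx => apply_of_mem_charKer (pow_mem hx k),
        fun hx => hpw _ _ _ hk ((mem_charKer (char_of_irr hχ)).2 hx)⟩
    have h1 : Nat.card (_root_.commutator P) = p :=
      ((Nat.dvd_prime hp).1 (main _ P rfl hP h)).resolve_left fun e => hne (card_eq_one.1 e)
    refine ⟨?_, h1⟩
    obtain ⟨t, ht, ht1⟩ := SetLike.exists_of_lt (bot_lt_iff_ne_bot.2 hne)
    obtain ⟨χ, hχ, -, htk⟩ := exists_irr_of_not_mem ht1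
    have h2 : χ 1 ≠ 1 := fun e => htk ((irr_apply_one_iff hχ).1 e ht)
    refine isCyclic_center_of_faithful hχ (card_eq_one.1 ?_)
    refine ((Nat.dvd_prime hp).1 (h1 ▸ card_dvd_of_le (ker_le h hχ h2))).resolve_right fun e => ?_
    exact htk (eq_of_le_of_card_ge (ker_le h hχ h2) (by rw [e, h1]) ▸ ht)
  · rintro ⟨hcyc, hc⟩ χ ψ h1 h2
    have hle : _root_.commutator P ≤ center P := CA.PGBasic.le_center_of_card_eq hP hc
    have hf : ∀ φ : IrrCharacter P, charDegree φ.1 ≠ 1 → charKer φ.1 = ⊥ := by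
      intro φ hφ
      by_contra h5
      obtain ⟨x, hx, hxz, ho⟩ := CA.PGBasic.exists_mem_center_orderOf hP h5
      have := CA.NPC2.eq_of_card_eq_of_isCyclic hcyc (zpowers_le.2 hxz) hle (by
        rw [Nat.card_zpowers, ho, hc])
      exact hφ (charDegree_eq (by
        simpa using (irr_apply_one_iff φ.2).2 (this ▸ zpowers_le.2 hx)))
    have hv : ∀ φ : IrrCharacter P, charDegree φ.1 ≠ 1 → ∀ g, g ∉ center P → φ.1 g = 0 := by
      intro φ hφ g hg
      refine apply_eq_zero_of_commutator_le φ.2 (hle.trans (center_le_charCenter φ.2)) ?_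
      rwa [charCenter_eq_center φ.2 (hf φ hφ)]
    obtain ⟨z, hz⟩ := hcyc.exists_generator
    have hl : ∀ φ : IrrCharacter P, charDegree φ.1 ≠ 1 → ∃ l : center P →* ℂˣ,
        IsPrimitiveRoot (l z : ℂ) (orderOf z) ∧ ∀ x : center P, φ.1 x = l x * charDegree φ.1 := by
      intro φ hφ
      obtain ⟨l, hl⟩ := exists_central_unitsHom φ.2 (le_refl (center P))
      have h3 : ∀ x : center P, φ.1 x = l x * charDegree φ.1 := fun x => by
        rw [← irr_apply_one_eq φ.2, ← hl, mul_one]
      refine ⟨l, ?_, h3⟩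
      have hi : Function.Injective l := (injective_iff_map_eq_one l).2 fun x hx => by
        have h4 : (x : P) ∈ charKer φ.1 := (mem_charKer (char_of_irr φ.2)).2 (by
          rw [h3, hx, irr_apply_one_eq φ.2]; simp)
        rw [hf φ hφ, mem_bot] at h4
        exact Subtype.ext h4
      rw [IsPrimitiveRoot.coe_units_iff, ← orderOf_injective l hi z]
      exact IsPrimitiveRoot.orderOf _
    obtain ⟨l, hl1, hl2⟩ := hl χ h1
    obtain ⟨m, hm1, hm2⟩ := hl ψ (h2 ▸ h1)
    haveI : NeZero (orderOf z) := ⟨(orderOf_pos z).ne'⟩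
    obtain ⟨k, -, hk, e⟩ := (hl1.isPrimitiveRoot_iff).1 hm1
    have hk' : k.Coprime (Nat.card P) := by
      obtain ⟨n, hn⟩ := IsPGroup.iff_card.1 hP
      rw [hn]
      refine Nat.Coprime.pow_right _ (Nat.Coprime.coprime_dvd_right ?_ hk)
      rw [orderOf_eq_card_of_forall_mem_zpowers hz, ← hc]
      exact card_dvd_of_le hle
    refine ⟨k, hk', fun g => ?_⟩
    by_cases hg : g ∈ center P
    · obtain ⟨j, hj⟩ := hz ⟨g, hg⟩
      have a1 := hm2 ⟨g, hg⟩
      have a2 := hl2 (⟨g, hg⟩ ^ k)
      have e' : l z ^ k = m z := Units.ext (by simpa using e)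
      rw [← hj] at a1 a2
      have hj' : ((z ^ j : center P) : P) = g := congrArg Subtype.val hj
      simp only at a1 a2
      rw [coe_pow, hj'] at a2
      rw [hj'] at a1
      rw [a1, a2, h2, map_pow, map_zpow, map_zpow, ← e', ← zpow_natCast, ← zpow_natCast, ← zpow_mul,
        ← zpow_mul, mul_comm j]
    · rw [hv ψ (h2 ▸ h1) g hg, hv χ h1 _ fun h => hg (hpw _ _ _ hk' h)]

end Cfsg.Agent.S4845
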