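import Cfsg.Statements.S4850
import Cfsg.Agent.Lib.Loc.H29Van2

set_option autoImplicit false
open Cfsg

namespace Cfsg.Agent.S4850

open Subgroup CA.H29Van

/-- Let p be a prime and G a finite solvable group whose vanishing elements (elements at which some irreducible character is zero) of order divisible by p all have the same order, with at least one such element. Let P be a Sylow p-subgroup of G. Then the derived subgroup of P is subnormal in G and the image of P in G/O_p(G) is cyclic. -/
theorem result {G : Type*} [Group G] [Finite G] [hs : Group.IsSolvable G] (p : ℕ) [Fact p.Prime] (b : ℕ) (hvo : {n : ℕ | p ∣ n ∧ ∃ (g : G) (χ : Cfsg.IrrCharacter G), orderOf g = n ∧ (χ : G → ℂ) g = 0} = {b}) (P : Sylow p G) :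
    ((commutator ↥(P : Subgroup G)).map (P : Subgroup G).subtype).IsSubnormal ∧ IsCyclic ↥((P : Subgroup G).map (QuotientGroup.mk' (Cfsg.pCore p G))) := by
  have hb : ∀ x : G, Van x → p ∣ orderOf x → orderOf x = b := fun x ⟨χ, hχ⟩ hp => by
    have : orderOf x ∈ ({b} : Set ℕ) := by rw [← hvo]; exact ⟨hp, x, χ, rfl, hχ⟩
    exact this
  have hP := P.isPGroup'.map (QuotientGroup.mk' (pCore p G))
  have h := all_case (G := G) (p := p) (fun x x' hx hx' h h' => (hb x hx h).trans (hb x' hx' h').symm) hP
  have hp : p.Prime := Fact.out
  have hcyc : IsCyclic ↥((P : Subgroup G).map (QuotientGroup.mk' (pCore p G))) := by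
    obtain ⟨n, hn⟩ := IsPGroup.iff_card.1 hP
    rcases n with _ | _ | n
    · haveI := (Nat.card_eq_one_iff_unique.1 hn).1
      infer_instance
    · exact isCyclic_of_prime_card (p := p) (by simpa using hn)
    · have := Nat.pow_lt_pow_right hp.one_lt (show 1 < n + 1 + 1 by omega)
      rw [pow_one, ← hn] at this
      exact absurd h (not_le.2 this)
  refine ⟨?_, hcyc⟩
  have hle : (commutator ↥(P : Subgroup G)).map (P : Subgroup G).subtype ≤ pCore p G := by
    rw [_root_.commutator_def, map_commutator, ← MonoidHom.range_eq_map, range_subtype, commutator_le]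
    intro a ha b hb
    rw [← QuotientGroup.eq_one_iff]
    change QuotientGroup.mk' (pCore p G) _ = 1
    rw [map_commutatorElement, commutatorElement_eq_one_iff_mul_comm]
    exact congrArg Subtype.val (hcyc.commutative.is_comm.comm
      (⟨_, mem_map_of_mem _ ha⟩ : ↥((P : Subgroup G).map (QuotientGroup.mk' (pCore p G))))
      ⟨_, mem_map_of_mem _ hb⟩)
  exact IsSubnormal.trans hle (CA.Subn.subnormal_of_isNilpotent
    (CA.Core.isPGroup_pCore (p := p)).isNilpotent _) (Normal.isSubnormal inferInstance)

end Cfsg.Agent.S4850
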