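import Cfsg.Statements.S4864
import Cfsg.Agent.Lib.Char.H10RP2

set_option autoImplicit false
open Cfsg

namespace Cfsg.Agent.S4864
open CA.H10RP CA.H10RP2 CA.BG Subgroup

theorem eq_one_of_real {H : Type*} [Group H] [Finite H] (ho : ¬ 2 ∣ Nat.card H) {x : H}
    (h : IsConj x x⁻¹) : x = 1 := by
  obtain ⟨c, hc⟩ := isConj_iff.1 h
  obtain ⟨m, hm⟩ := Nat.not_even_iff_odd.1 fun h => ho h.two_dvd
  have h1 : c * c ∈ centralizer ({x} : Set H) := by
    rw [mem_centralizer_singleton_iff]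
    have : c * (c * x * c⁻¹) * c⁻¹ = x := by
      rw [hc, ← conj_inv, hc, inv_inv]
    calc c * c * x = c * (c * x * c⁻¹) * c⁻¹ * (c * c) := by group
      _ = _ := by rw [this]
  have h2 : c ∈ centralizer ({x} : Set H) := by
    have e : c = ((c * c) ^ m)⁻¹ := by
      rw [eq_inv_iff_mul_eq_one, ← sq, ← pow_mul, ← pow_succ', ← hm, pow_card_eq_one']
    rw [e]; exact inv_mem (pow_mem h1 m)
  rw [mem_centralizer_singleton_iff.1 h2, mul_inv_cancel_right, eq_inv_iff_mul_eq_one, ← sq] at hc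
  exact eq_one_of_pow ((Nat.prime_two.coprime_iff_not_dvd).2 ho) hc pow_card_eq_one'

theorem aux {G : Type*} [Group G] [Finite G] {p : ℕ} [Fact p.Prime] (hR : RP p G) (K : Subgroup G)
    [hK : K.Normal] (ho : ¬ 2 ∣ K.index) (P : Sylow p G) (hd : K ⊓ P = ⊥) (x : G)
    (hx : IsConj x x⁻¹) : ∃ y ∈ normalizer ((P : Subgroup G) : Set G), IsConj x y := by
  haveI := Fintype.ofFinite G
  obtain ⟨f, hf, -⟩ := exists_bij (K := K) ⟨le_top, fun g _ a ha => hK.conj_mem a ha g⟩
    (by rwa [relIndex_top_right]) (syl_top Fact.out P)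
    (hd ▸ ⟨bot_le, fun g _ a ha => by rw [mem_bot.1 ha]; simp⟩) hR
  obtain ⟨N, hN⟩ : ∃ N, N = normalizer ((P : Subgroup G) : Set G) := ⟨_, rfl⟩
  have h1 : Nat.card {χ : IrrCharacter G // ∀ g, (χ.1 g).im = 0} ≤
      Nat.card {χ : IrrCharacter N // ∀ g, (χ.1 g).im = 0} := by
    subst hN
    exact Nat.card_le_card_of_injective (fun χ => ⟨(f χ).1, (f χ).2.1⟩) fun a b e =>
      hf.1 (Subtype.ext (Subtype.mk.inj e))
  rw [CChar.CharProd.card_real_irr, CChar.CharProd.card_real_irr] at h1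
  have hinv : ∀ {a b : G}, IsConj a b → IsConj a⁻¹ b⁻¹ := fun h => CChar.CharProd.isConj_inv h
  have hc : ∀ y : N, IsConj y y⁻¹ → (y : G) ∈ centralizer ((P : Subgroup G) : Set G) := by
    intro y hy u hu
    have h2 : (y : G) ∈ K := by
      rw [← QuotientGroup.eq_one_iff]
      exact eq_one_of_real ho (((QuotientGroup.mk' K).comp N.subtype).map_isConj hy)
    have h3 : u * y * u⁻¹ * (y : G)⁻¹ ∈ K ⊓ P := ⟨mul_mem (hK.conj_mem _ h2 u) (K.inv_mem h2), by
      have := mul_mem hu (conj_mem_of_mem_norm (hN.le y.2) ((P : Subgroup G).inv_mem hu))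
      rw [← mul_assoc, ← mul_assoc] at this
      rw [mul_assoc (u * y)]
      rwa [mul_assoc (u * y)] at this⟩
    rw [hd, mem_bot, mul_inv_eq_one, mul_inv_eq_iff_eq_mul] at h3
    exact h3
  let F : {C : ConjClasses N // ∀ g : N, ConjClasses.mk g = C → IsConj g g⁻¹} →
      {C : ConjClasses G // ∀ g : G, ConjClasses.mk g = C → IsConj g g⁻¹} := fun C =>
    ⟨ConjClasses.map N.subtype C.1, by
      obtain ⟨C, hC⟩ := C
      obtain ⟨y, rfl⟩ := ConjClasses.mk_surjective C
      intro g hg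
      have h5 : IsConj g y := ConjClasses.mk_eq_mk_iff_isConj.1 hg
      exact (h5.trans (N.subtype.map_isConj (hC y rfl))).trans (hinv h5).symm⟩
  have hF : Function.Injective F := by
    rintro ⟨C, hC⟩ ⟨D, hD⟩ e
    obtain ⟨y, rfl⟩ := ConjClasses.mk_surjective C
    obtain ⟨z, rfl⟩ := ConjClasses.mk_surjective D
    have h5 : IsConj (y : G) z := ConjClasses.mk_eq_mk_iff_isConj.1 (congrArg Subtype.val e)
    obtain ⟨g, hg⟩ := isConj_iff.1 h5
    obtain ⟨n, hn, h6⟩ := P.conj_eq_normalizer_conj_of_mem_centralizer y g⁻¹ (hc y (hC y rfl))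
      (by rw [inv_inv, hg]; exact hc z (hD z rfl))
    rw [inv_inv, hg] at h6
    exact Subtype.ext (ConjClasses.mk_eq_mk_iff_isConj.2 (isConj_iff.2
      ⟨(⟨n, hN ▸ hn⟩ : N)⁻¹, Subtype.ext (by simp [h6])⟩))
  obtain ⟨⟨C, hC⟩, e⟩ := (hF.bijective_of_nat_card_le h1).2 ⟨ConjClasses.mk x, fun g hg => by
    have h5 : IsConj g x := ConjClasses.mk_eq_mk_iff_isConj.1 hg
    exact (h5.trans hx).trans (hinv h5).symm⟩
  obtain ⟨y, rfl⟩ := ConjClasses.mk_surjective C
  exact ⟨y, hN ▸ y.2, (ConjClasses.mk_eq_mk_iff_isConj.1 (congrArg Subtype.val e)).symm⟩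

/-- Let p be a prime and G a finite group such that the subgroup generated by the p-elements of G is solvable and every real-valued irreducible complex character of G has degree prime to p. Then the normalizer of a Sylow p-subgroup of G contains an element of every real conjugacy class of G: every element conjugate to its inverse is conjugate to an element of that normalizer. -/
theorem result {G : Type*} [Group G] [Finite G] (p : ℕ) [Fact p.Prime] (hsolv : Group.IsSolvable ↥(Subgroup.closure {g : G | ∃ k : ℕ, orderOf g = p ^ k})) (hreal : ∀ χ : Cfsg.IrrCharacter G, (∀ g : G, ((χ : G → ℂ) g).im = 0) → ¬ p ∣ Cfsg.charDegree (χ : G → ℂ)) (P : Sylow p G) (x : G) (hx : IsConj x x⁻¹) : ∃ y ∈ Subgroup.normalizer ((P : Subgroup G) : Set G), IsConj x y := by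
  haveI := Fintype.ofFinite G
  haveI h1 := normal_closure_pow (G := G) 2
  haveI h2 := nrm_inf_K2 hsolv hreal P
  obtain ⟨Q, hQ⟩ : ∃ Q, Q = K2 G ⊓ P := ⟨_, rfl⟩
  rw [← hQ] at h2
  let f := QuotientGroup.mk' Q
  have hf : Function.Surjective f := QuotientGroup.mk'_surjective Q
  haveI := h1.map f hf
  obtain ⟨y, h3, h4⟩ := aux (RP.quot hreal Q) ((K2 G).map f) (fun h => odd_K2 (Γ := G) (by
    rw [relIndex_top_right]; exact h.trans (index_map_dvd _ hf))) (P.mapSurjective hf) (by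
      rw [Sylow.coe_mapSurjective, eq_bot_iff]
      rintro _ ⟨⟨a, ha, rfl⟩, b, hb, e⟩
      have h6 : b⁻¹ * a ∈ K2 G ⊓ P := hQ ▸ QuotientGroup.eq.1 e
      exact (QuotientGroup.eq_one_iff a).2 (hQ ▸ ⟨ha, by
        have := mul_mem hb h6.2
        rwa [mul_inv_cancel_left] at this⟩)) (f x) (f.map_isConj hx)
  obtain ⟨g, hg⟩ := isConj_iff.1 h4
  obtain ⟨g, rfl⟩ := hf g
  refine ⟨g * x * g⁻¹, ?_, isConj_iff.2 ⟨g, rfl⟩⟩
  have h5 : g * x * g⁻¹ ∈ (normalizer (((P : Subgroup G).map f : Subgroup _) : Set _)).comap f := by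
    rw [mem_comap, map_mul, map_mul, map_inv, hg]; exact h3
  rwa [comap_normalizer_eq_of_surjective _ hf, comap_map_eq_self
    (by rw [QuotientGroup.ker_mk', hQ]; exact inf_le_right)] at h5

end Cfsg.Agent.S4864
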