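import Cfsg.Statements.S4866
import Cfsg.Agent.Lib.Char.H10FS
import Cfsg.Agent.Lib.Char.BPerm

set_option autoImplicit false
open Cfsg

namespace Cfsg.Agent.S4866
open CA.H10FS CA.MatRep CA.H11FS CA.Clif CA.Gall CA.Ind2 CA.Ext CChar.CharFun CChar.CharOrth CChar.CharInt CChar.CharProd CChar.CharKer CA.Ind Subgroup

open scoped ComplexConjugate

theorem fix_of_sq {G X : Type*} [Group G] [Finite G] [MulAction G X] (K : Subgroup G) [K.Normal]
    (hodd : Odd K.index) (hK : ∀ k ∈ K, ∀ x : X, k • x = x) (g : G) (x : X) (h : g • g • x = x) :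
    g • x = x := by
  obtain ⟨m, hm⟩ := hodd
  have h1 : g ^ K.index ∈ MulAction.stabilizer G x := hK _ (K.pow_index_mem g) x
  have h2 : g * g ∈ MulAction.stabilizer G x := by
    rw [MulAction.mem_stabilizer_iff, mul_smul]; exact h
  have h3 : g = ((g * g) ^ m)⁻¹ * g ^ K.index := by
    rw [hm, ← sq, ← pow_mul, pow_succ]; simp
  have : g ∈ MulAction.stabilizer G x := by
    rw [h3]; exact mul_mem (inv_mem (pow_mem h2 m)) h1
  exact this

theorem burn {G X Y : Type*} [Group G] [Finite G] [MulAction G X] [MulAction G Y] [Finite X] [Finite Y]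
    (h : ∀ g : G, Nat.card {x : X // g • x = x} = Nat.card {y : Y // g • y = y}) :
    Nat.card (Quotient (MulAction.orbitRel G X)) = Nat.card (Quotient (MulAction.orbitRel G Y)) := by
  classical
  haveI := Fintype.ofFinite G
  haveI := Fintype.ofFinite X
  haveI := Fintype.ofFinite Y
  have a := MulAction.sum_card_fixedBy_eq_card_orbits_mul_card_group G X
  have b := MulAction.sum_card_fixedBy_eq_card_orbits_mul_card_group G Y
  simp only [← Nat.card_eq_fintype_card] at a b
  have c : ∑ g : G, Nat.card (MulAction.fixedBy X g) = ∑ g : G, Nat.card (MulAction.fixedBy Y g) :=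
    Finset.sum_congr rfl fun g _ => h g
  rw [c, b] at a
  exact (Nat.eq_of_mul_eq_mul_right Nat.card_pos a).symm

@[reducible] def actI {G : Type*} [Group G] [Finite G] (K : Subgroup G) [K.Normal] :
    MulAction G (IrrCharacter K) where
  smul g θ := ⟨cj g⁻¹ θ.1, cj_irr _ θ.2⟩
  one_smul θ := Subtype.ext (by change cj 1⁻¹ θ.1 = θ.1; rw [inv_one, cj_one])
  mul_smul g h θ := Subtype.ext (by
    change cj (g * h)⁻¹ θ.1 = cj g⁻¹ (cj h⁻¹ θ.1); rw [cj_cj, mul_inv_rev])

@[reducible] def actC {G : Type*} [Group G] (K : Subgroup G) [K.Normal] :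
    MulAction G (ConjClasses K) where
  smul g c := ConjClasses.map (MulAut.conjNormal (H := K) g).toMonoidHom c
  one_smul c := by
    obtain ⟨k, rfl⟩ := ConjClasses.mk_surjective c
    change ConjClasses.mk (MulAut.conjNormal 1 k) = _
    simp
  mul_smul g h c := by
    obtain ⟨k, rfl⟩ := ConjClasses.mk_surjective c
    change ConjClasses.mk (MulAut.conjNormal (g * h) k) =
      ConjClasses.mk (MulAut.conjNormal g (MulAut.conjNormal h k))
    simp

/-- Let K be a normal subgroup of odd index in the finite group G. Then G has as many orbits on the real-valued irreducible complex characters of K (acting by conjugation) as it has orbits on the conjugacy classes of K that are real in K; equivalently, the number of G-orbits of real-valued irreducible characters of K equals the number of G-conjugacy classes of elements of K that are conjugate in K to their inverses. -/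
theorem result {G : Type*} [Group G] [Finite G] (K : Subgroup G) [K.Normal] (hodd : Odd K.index) : Nat.card (Quot (fun θ η : {θ : Cfsg.IrrCharacter ↥K // (∀ k : ↥K, ((θ : ↥K → ℂ) k).im = 0)} => ∃ g : G, ∀ k k' : ↥K, (k' : G) = g * (k : G) * g⁻¹ → (η.1 : ↥K → ℂ) k' = (θ.1 : ↥K → ℂ) k)) = Nat.card (Quot (fun x y : {x : ↥K // IsConj x x⁻¹} => ∃ g : G, (y.1 : G) = g * x.1 * g⁻¹)) := by
  classical
  letI := actI K
  letI := actC K
  have hI : ∀ (g : G) (θ : IrrCharacter K) (k : K), (g • θ).1 k = θ.1 (MulAut.conjNormal g⁻¹ k) :=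
    fun _ _ _ => rfl
  have hC : ∀ (g : G) (k : K), g • ConjClasses.mk k = ConjClasses.mk (MulAut.conjNormal g k) :=
    fun _ _ => rfl
  have hinv : ∀ {a b : K}, IsConj a b → IsConj a⁻¹ b⁻¹ := fun h => CChar.CharProd.isConj_inv h
  let A : SubMulAction G (IrrCharacter K) :=
    ⟨{θ | ∀ k, (θ.1 k).im = 0}, fun g θ h k => by rw [hI]; exact h _⟩
  let B : SubMulAction G (ConjClasses K) :=
    ⟨{c | ∀ k, ConjClasses.mk k = c → IsConj k k⁻¹}, fun g c h k hk => by
      have h1 := h (MulAut.conjNormal g⁻¹ k) (by rw [← hC, hk, inv_smul_smul])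
      have h2 := (MulAut.conjNormal (H := K) g).toMonoidHom.map_isConj h1
      simpa using h2⟩
  have hKI : ∀ k ∈ K, ∀ θ : IrrCharacter K, k • θ = θ := fun k hk θ =>
    Subtype.ext (cj_of_mem (irr_classFun θ.2) (K.inv_mem hk))
  have hKC : ∀ k ∈ K, ∀ c : ConjClasses K, k • c = c := fun k hk c => by
    obtain ⟨x, rfl⟩ := ConjClasses.mk_surjective c
    rw [hC, ConjClasses.mk_eq_mk_iff_isConj]
    exact IsConj.symm (isConj_iff.2 ⟨⟨k, hk⟩, Subtype.ext rfl⟩)
  have key := burn (G := G) (X := A) (Y := B) fun g => by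
    have h := CA.BPerm.card_fixed_eq (G := K) (fun χ => ⟨_, irr_conj (g • χ).2⟩)
      (fun k => (MulAut.conjNormal g⁻¹ k)⁻¹)
      (fun χ k => (char_apply_inv (char_of_irr χ.2) _).symm)
      (fun c => (∀ k, ConjClasses.mk k = c → IsConj k k⁻¹) ∧ g • c = c) (by
        intro k
        constructor
        · rintro ⟨h1, h2⟩
          have h3 : g⁻¹ • ConjClasses.mk k = ConjClasses.mk k := by
            conv_lhs => rw [← h2]
            rw [inv_smul_smul]
          rw [hC, ConjClasses.mk_eq_mk_iff_isConj] at h3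
          exact (hinv h3).trans (h1 k rfl).symm
        · intro h
          have h1 : IsConj (MulAut.conjNormal g⁻¹ k) k⁻¹ := by simpa using hinv h
          have h2 : g⁻¹ • g⁻¹ • ConjClasses.mk k = ConjClasses.mk k := by
            rw [hC, ConjClasses.mk_eq_mk_iff_isConj.2 h1, hC, map_inv]
            exact ConjClasses.mk_eq_mk_iff_isConj.2 h
          have h3 := fix_of_sq K hodd hKC _ _ h2
          have h4 : IsConj k k⁻¹ := by
            rw [hC, ConjClasses.mk_eq_mk_iff_isConj] at h3
            exact h3.symm.trans h1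
          refine ⟨fun j hj => ?_, ?_⟩
          · have h5 := ConjClasses.mk_eq_mk_iff_isConj.1 hj
            exact (h5.trans h4).trans (hinv h5).symm
          · conv_lhs => rw [← h3]
            rw [smul_inv_smul])
    refine Eq.trans ?_ (h.trans ?_)
    · refine Nat.card_congr ⟨fun x => ⟨x.1.1, ?_⟩, fun x => ⟨⟨x.1, ?_⟩, ?_⟩, fun _ => rfl, fun _ => rfl⟩
      · have h1 : g • x.1.1 = x.1.1 := congrArg Subtype.val x.2
        apply Subtype.ext
        funext k
        simp only [h1]
        exact Complex.conj_eq_iff_im.2 (x.1.2 k)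
      all_goals
        obtain ⟨θ, hθ⟩ := x
        have h1 : ∀ k, (g • θ).1 k = conj (θ.1 k) := fun k => by
          have := congrFun (congrArg Subtype.val hθ) k
          simp only at this
          rw [← this]; simp
        have h2 : g • g • θ = θ := Subtype.ext (funext fun k => by
          rw [hI, h1, ← hI, h1]; simp)
        have h3 := fix_of_sq K hodd hKI _ _ h2
      · intro k
        rw [h3] at h1
        exact Complex.conj_eq_iff_im.1 (h1 k).symm
      · exact Subtype.ext h3
    · exact Nat.card_congr ⟨fun x => ⟨⟨x.1, x.2.1⟩, Subtype.ext x.2.2⟩,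
        fun x => ⟨x.1.1, x.1.2, congrArg Subtype.val x.2⟩, fun _ => rfl, fun _ => rfl⟩
  refine Eq.trans ?_ (key.trans ?_)
  · refine Nat.card_congr (Quot.congr (Equiv.refl _) fun θ η => ?_)
    change _ ↔ (MulAction.orbitRel G A) θ η
    rw [(MulAction.orbitRel G A).comm', MulAction.orbitRel_apply]
    constructor
    · rintro ⟨g, hg⟩
      refine ⟨g, Subtype.ext (Subtype.ext (funext fun k => ?_))⟩
      exact (hg _ k (by simp [mul_assoc])).symm
    · rintro ⟨g, hg⟩
      refine ⟨g, fun k k' e => ?_⟩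
      have h2 : η.1 = g • θ.1 := congrArg Subtype.val hg.symm
      rw [h2, hI]
      exact congrArg θ.1.1 (Subtype.ext (by simp [e, mul_assoc]))
  · symm
    refine Nat.card_eq_of_bijective (Quot.lift (fun x => Quotient.mk _ (⟨ConjClasses.mk x.1, fun j hj => by
      have h5 := ConjClasses.mk_eq_mk_iff_isConj.1 hj
      exact (h5.trans x.2).trans (hinv h5).symm⟩ : B)) ?_) ⟨?_, ?_⟩
    · rintro x y ⟨g, hg⟩
      apply Quotient.sound
      change (MulAction.orbitRel G B) _ _
      rw [(MulAction.orbitRel G B).comm', MulAction.orbitRel_apply]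
      refine ⟨g, Subtype.ext ?_⟩
      change g • ConjClasses.mk x.1 = ConjClasses.mk y.1
      rw [hC]; congr 1; exact Subtype.ext hg.symm
    · rintro ⟨x⟩ ⟨y⟩ e
      obtain ⟨g, hg⟩ := MulAction.orbitRel_apply.1 (Quotient.exact e)
      have h1 : g • ConjClasses.mk y.1 = ConjClasses.mk x.1 := congrArg Subtype.val hg
      rw [hC, ConjClasses.mk_eq_mk_iff_isConj] at h1
      obtain ⟨c, hc⟩ := isConj_iff.1 h1
      have h2 : (c : G) * (g * y.1 * g⁻¹) * (c : G)⁻¹ = x.1 := congrArg Subtype.val hc
      symm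
      exact Quot.sound ⟨c * g, by rw [← h2]; simp [mul_assoc]⟩
    · rintro ⟨⟨c, hc⟩⟩
      obtain ⟨k, rfl⟩ := ConjClasses.mk_surjective c
      exact ⟨Quot.mk _ ⟨k, hc k rfl⟩, rfl⟩

end Cfsg.Agent.S4866
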