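import Cfsg.Statements.S4872
import Cfsg.Agent.Lib.Char.H10FS
import Cfsg.Agent.Lib.Char.Mackey
import Cfsg.Agent.Lib.Block.BlkZero

set_option autoImplicit false
open Cfsg

namespace Cfsg.Agent.S4872
open CA.H10FS CA.MatRep CA.H11FS CA.Clif CA.Gall CA.Ind2 CA.Ext CChar.CharFun CChar.CharOrth CChar.CharInt CChar.CharProd CChar.CharKer CA.Ind Subgroup CA.BlkZero CA.SylIn

/-- Let N be a normal subgroup of the finite group G with G/N a 2-group, and let φ be an irreducible complex character of N of 2-defect zero (the 2-part of #N divides φ(1)) whose complex conjugate is G-conjugate to φ. Then some irreducible character of G with Frobenius–Schur indicator +1 contains φ with multiplicity exactly one on restriction to N. -/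
theorem result {G : Type*} [Group G] [Finite G] (N : Subgroup G) [N.Normal] (h2 : IsPGroup 2 (G ⧸ N)) (φ : Cfsg.IrrCharacter ↥N) (hdef : 2 ^ (Nat.card ↥N).factorization 2 ∣ Cfsg.charDegree (φ : ↥N → ℂ)) (hconj : ∃ g : G, ∀ n n' : ↥N, (n' : G) = g * (n : G) * g⁻¹ → (φ : ↥N → ℂ) n' = (starRingEnd ℂ) ((φ : ↥N → ℂ) n)) : ∃ χ : Cfsg.IrrCharacter G, (Nat.card G : ℂ)⁻¹ * ∑ᶠ g : G, (χ : G → ℂ) (g * g) = 1 ∧ (Nat.card ↥N : ℂ)⁻¹ * ∑ᶠ n : ↥N, (χ : G → ℂ) n * (starRingEnd ℂ) ((φ : ↥N → ℂ) n) = 1 := by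
  classical
  have := Fintype.ofFinite G
  have := Fintype.ofFinite N
  simp only [finsum_eq_sum_of_fintype]
  obtain ⟨P⟩ : Nonempty (Sylow 2 G) := inferInstance
  obtain ⟨x, hx⟩ := hconj
  obtain ⟨k, hk⟩ := IsPGroup.iff_card.1 h2
  have hs : N ⊔ P = ⊤ := index_eq_one.1 ((Nat.Coprime.pow_right k (Nat.coprime_two_right.2
    (Nat.not_even_iff_odd.1 fun h => P.not_dvd_index (h.two_dvd.trans
      (index_dvd_of_le le_sup_right))))).eq_one_of_dvd ((index_dvd_of_le le_sup_left).trans hk.dvd))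
  have hd := (dz_iff_pow_dvd Nat.prime_two).2 hdef
  have hQ := (isSylowIn_inf_normal P N).not_dvd
  rw [inf_relIndex_right] at hQ
  obtain ⟨c, hc⟩ := inner_char_char (char_restrict (isCharacter_indFun (P : Subgroup G) char_one) N)
    (char_of_irr φ.2)
  have h1 : Nat.card ((P : Subgroup G).subgroupOf N) * c = charDegree φ.1 := by
    rw [funext (CA.Mackey.indFun_res_of_mul _ N (CA.Mackey.exists_mul_of_sup hs) (fun _ _ => rfl)),
      inner_ind_left _ _ (irr_classFun φ.2)] at hc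
    rw [← Nat.cast_inj (R := ℂ), Nat.cast_mul, ← hc, card_mul_inner, Finset.sum_eq_single 1]
    · simp [irr_apply_one_eq φ.2]
    · intro q _ hq
      obtain ⟨j, hj⟩ := IsPGroup.iff_orderOf.1 (isPGroup_subgroupOf P.isPGroup' N) q
      rw [hd.apply_eq_zero Nat.prime_two (by
        rw [Subgroup.orderOf_coe, hj]
        exact dvd_pow_self 2 fun e => hq (orderOf_eq_one_iff.1 (by rw [hj, e, pow_zero])))]
      simp
    · simp
  obtain ⟨χ, e, a, b, d, f⟩ := (rr_one.ind).exists_over (isCharacter_indFun (P : Subgroup G) char_one)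
    φ.2 (funext fun n => hx n _ rfl) hc (Nat.not_even_iff_odd.1 fun h => hQ (h.two_dvd.trans
      (Nat.dvd_of_mul_dvd_mul_left Nat.card_pos (by
        rw [h1, relIndex, card_mul_index]; exact charDegree_dvd_card φ.2))))
  refine ⟨⟨χ, a⟩, b, f.trans ?_⟩
  have h3 : classInner (fun n : N => χ n) φ.1 ≠ 0 := by rw [f]; exact_mod_cast d.pos.ne'
  obtain ⟨e', h4, h5⟩ := exists_dvd_index φ.2 a h3
  rw [apply_one_eq a φ.2 h3, f, mul_left_inj' (irr_apply_one_ne_zero φ.2)] at h5
  norm_cast at h5 ⊢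
  exact (Nat.Coprime.pow_right k d.coprime_two_right).eq_one_of_dvd
    (((Dvd.intro _ h5).trans h4).trans hk.dvd)

end Cfsg.Agent.S4872
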