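import Cfsg.Statements.S4871
import Cfsg.Agent.Lib.Char.H10FS
import Cfsg.Agent.S4872
import Cfsg.Agent.Lib.Grp.PGBasic

set_option autoImplicit false
open Cfsg

namespace Cfsg.Agent.S4871
open CA.H10FS CA.MatRep CA.H11FS CA.Clif CA.Gall CA.Ind2 CA.Ext CChar.CharFun CChar.CharOrth CChar.CharInt CChar.CharProd CChar.CharKer CA.Ind Subgroup CA.PGBasic

/-- Let G be a finite group that is the semidirect product of a normal elementary abelian subgroup N of odd order by a non-trivial 2-subgroup P, with N the unique minimal normal subgroup of G. Consider the strongly real irreducible complex characters of G (Frobenius–Schur indicator +1) whose degree is 1 or even. Then their average degree is at least 4/3: four times their number is at most three times the sum of their degrees. -/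
theorem result {G : Type*} [Group G] [Finite G] (N P : Subgroup G) (hN : N.Normal) (q : ℕ) [Fact q.Prime] (hq : q ≠ 2) (hNel : Cfsg.IsElementaryAbelian q N) (hP : IsPGroup 2 ↥P) (hP1 : P ≠ ⊥) (hdisj : N ⊓ P = ⊥) (hprod : N ⊔ P = ⊤) (hmin : N ≠ ⊥ ∧ ∀ M : Subgroup G, M.Normal → M ≠ ⊥ → N ≤ M) : 4 * Nat.card {χ : Cfsg.IrrCharacter G // (Cfsg.charDegree (χ : G → ℂ) = 1 ∨ 2 ∣ Cfsg.charDegree (χ : G → ℂ)) ∧ (Nat.card G : ℂ)⁻¹ * ∑ᶠ g : G, (χ : G → ℂ) (g * g) = 1} ≤ 3 * (∑ᶠ χ : {χ : Cfsg.IrrCharacter G // (Cfsg.charDegree (χ : G → ℂ) = 1 ∨ 2 ∣ Cfsg.charDegree (χ : G → ℂ)) ∧ (Nat.card G : ℂ)⁻¹ * ∑ᶠ g : G, (χ : G → ℂ) (g * g) = 1}, Cfsg.charDegree (χ.1 : G → ℂ)) := by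
  classical
  have := Fintype.ofFinite G
  have := Fintype.ofFinite N
  suffices ∀ p : IrrCharacter G → Prop, (∀ χ, p χ ↔ (charDegree χ.1 = 1 ∨ 2 ∣ charDegree χ.1) ∧
      fsInd χ.1 = 1) → 4 * Nat.card {χ // p χ} ≤ 3 * ∑ᶠ χ : {χ // p χ}, charDegree χ.1.1 from
    this _ fun χ => by rw [finsum_eq_sum_of_fintype, fsInd_def]
  intro p hp
  obtain rfl := funext fun χ => propext (hp χ)
  rw [finsum_eq_sum_of_fintype]
  have hab := CA.PGBasic.isMulCommutative_iff.1 hNel.1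
  have := (Subgroup.nontrivial_iff_ne_bot P).2 hP1
  obtain ⟨z, -, hz, hz2⟩ := exists_mem_center_orderOf hP (M := ⊤) top_ne_bot
  have hz3 : (z : G) * z = 1 := by rw [← sq, ← hz2, ← Subgroup.orderOf_coe, pow_orderOf_eq_one]
  have hc : P ≤ centralizer {(z : G)} := fun g hg => mem_centralizer_singleton_iff.2
    (congrArg Subtype.val (mem_center_iff.1 hz ⟨g, hg⟩))
  have h1 : ¬ N ≤ centralizer {(z : G)} := fun h => hmin.1 (le_bot_iff.1 (hdisj ▸ le_inf le_rfl
    ((hmin.2 (zpowers (z : G)) ⟨fun _ ⟨k, e⟩ g => ⟨k, by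
      rw [← e, (Commute.zpow_right (mem_centralizer_singleton_iff.1 (hprod.ge.trans (sup_le h hc)
        (mem_top g))) k).eq, mul_inv_cancel_right]⟩⟩ fun e => by
      simp [show z = 1 from Subtype.ext (zpowers_eq_bot.1 e)] at hz2).trans (zpowers_le.2 z.2))))
  have h2 : N ⊓ centralizer {(z : G)} = ⊥ := of_not_not fun h => h1 ((hmin.2 _ (by
    rw [← normalizer_eq_top_iff, eq_top_iff, ← hprod]
    exact sup_le (fun n hn => centralizer_le_normalizer _ fun m hm => hab m hm.1 n hn)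
      fun g hg => mem_normalizer_fintype fun n hn =>
        ⟨hN.conj_mem n hn.1 g, Subgroup.mul_mem _ (mul_mem (hc hg) hn.2) (inv_mem (hc hg))⟩) h).trans
      inf_le_right)
  have h3 : ∀ n ∈ N, z * n * (z : G)⁻¹ = n⁻¹ := fun n hn => eq_inv_of_mul_eq_one_right
    (mem_bot.1 (h2 ▸ ⟨mul_mem hn (hN.conj_mem n hn z), mem_centralizer_singleton_iff.2 (by
      conv_rhs => rw [hab n hn _ (hN.conj_mem n hn z)]
      rw [inv_eq_of_mul_eq_one_right hz3]
      simp [mul_assoc, hz3, ← mul_assoc (z : G) z])⟩))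
  obtain ⟨k, hk⟩ := IsPGroup.iff_card.1 (show IsPGroup q N from fun n =>
    ⟨1, Subtype.ext (by simpa using hNel.2 n n.2)⟩)
  have ho : Odd (Nat.card N) := hk ▸ ((Fact.out : q.Prime).odd_of_ne_two hq).pow
  have := (Subgroup.nontrivial_iff_ne_bot N).2 hmin.1
  obtain ⟨n, hn⟩ := exists_ne (1 : N)
  obtain ⟨φ, hφ, hφ1⟩ : ∃ φ, IsIrrCharacter N φ ∧ φ n ≠ φ 1 := by
    by_contra! h
    exact hn (eq_one_of_forall_irr h)
  have h4 : ∀ n n' : N, (n' : G) = z * n * (z : G)⁻¹ → φ n' = (starRingEnd ℂ) (φ n) := fun n n' e => by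
    rw [← char_apply_inv (char_of_irr hφ), show n' = n⁻¹ from Subtype.ext (e.trans (h3 n n.2))]
  have hq2 : IsPGroup 2 (G ⧸ N) := hP.of_surjective ((QuotientGroup.mk' N).comp P.subtype) fun g => by
    obtain ⟨g, rfl⟩ := QuotientGroup.mk_surjective g
    obtain ⟨a, ha, b, hb, rfl⟩ := CA.Mackey.exists_mul_of_sup hprod g
    exact ⟨⟨b, hb⟩, by simp [(QuotientGroup.eq_one_iff a).2 ha]⟩
  obtain ⟨χ, h5, h6⟩ := Cfsg.Agent.S4872.result N hq2 ⟨φ, hφ⟩
    (by rw [Nat.factorization_eq_zero_of_not_dvd ho.not_two_dvd_nat]; exact one_dvd _) ⟨z, h4⟩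
  simp only [finsum_eq_sum_of_fintype] at h5 h6
  obtain ⟨a, -, b⟩ := count_lin (hmin.2 _ inferInstance fun e => h1 (le_top.trans
    (((commutator_eq_bot_iff_center_eq_top G).1 e).ge.trans (center_le_centralizer _)))) χ.2 hφ h6
  replace b := b h5
  rw [charDegree_eq (χ := φ) (n := 1) (by
    simpa using irr_apply_one_of_comm (fun a b => Subtype.ext (hab _ a.2 _ b.2)) hφ), one_mul] at a
  rw [← a] at b
  obtain ⟨j, hj⟩ := IsPGroup.iff_card.1 hq2
  obtain ⟨i, -, hi⟩ := (Nat.dvd_prime_pow Nat.prime_two).1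
    ((index_dvd_of_le (le_inertia (irr_classFun hφ))).trans hj.dvd)
  have h7 : 2 ∣ charDegree χ.1 := by
    rw [a, hi]
    refine dvd_pow_self 2 fun e => hφ1 ?_
    rw [e, pow_zero, index_eq_one] at hi
    rw [irr_eq_one_of_odd_of_real ho hφ fun m => Complex.conj_eq_iff_im.1
      ((h4 m _ rfl).symm.trans (mem_inertia'.1 (hi.ge (mem_top z)) m))]
  have h8 := Nat.le_of_dvd (charDegree_pos χ.2) h7
  simp only [Nat.card_eq_fintype_card, Fintype.card_subtype, Finset.card_filter] at b ⊢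
  rw [← Finset.sum_subtype (Finset.univ.filter fun ψ : IrrCharacter G =>
    (charDegree ψ.1 = 1 ∨ 2 ∣ charDegree ψ.1) ∧ fsInd ψ.1 = 1) (by simp) fun ψ => charDegree ψ.1,
    Finset.sum_filter]
  refine Nat.le_of_add_le_add_right (le_trans ?_ (Nat.add_le_add_left b _))
  simp only [Finset.mul_sum, ← Finset.sum_add_distrib]
  refine Finset.sum_le_sum fun ψ _ => ?_
  have := charDegree_pos ψ.2
  by_cases e : fsInd ψ.1 = 1 <;> simp only [e, and_true, and_false, if_false]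
  · split_ifs <;> omega
  · simp

end Cfsg.Agent.S4871
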