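import Cfsg.Statements.S4873
import Cfsg.Agent.Lib.Char.H10FS

set_option autoImplicit false
open Cfsg

namespace Cfsg.Agent.S4873
open CA.H10FS CA.MatRep CA.H11FS CA.Clif CA.Gall CA.Ind2 CA.Ext CChar.CharFun CChar.CharOrth CChar.CharInt CChar.CharProd CChar.CharKer CA.Ind Subgroup

/-- Let N be a normal subgroup of odd index in the finite group G. Then every irreducible complex character of N with Frobenius–Schur indicator +1 lies under exactly one irreducible character of G with Frobenius–Schur indicator +1. -/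
theorem result {G : Type*} [Group G] [Finite G] (N : Subgroup G) [N.Normal] (hodd : Odd N.index) (φ : Cfsg.IrrCharacter ↥N) (hφ : (Nat.card ↥N : ℂ)⁻¹ * ∑ᶠ g : ↥N, (φ : ↥N → ℂ) (g * g) = 1) : ∃! χ : Cfsg.IrrCharacter G, (Nat.card G : ℂ)⁻¹ * ∑ᶠ g : G, (χ : G → ℂ) (g * g) = 1 ∧ (∑ᶠ n : ↥N, (χ : G → ℂ) n * (starRingEnd ℂ) ((φ : ↥N → ℂ) n)) ≠ 0 := by
  classical
  have := Fintype.ofFinite G
  have := Fintype.ofFinite N
  simp only [finsum_eq_sum_of_fintype] at hφ ⊢
  have hr := real_of_fs φ.2 (by rw [fsInd_def, hφ]; exact one_ne_zero)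
  have key : ∀ χ : IrrCharacter G, ∑ n : N, χ.1 n * (starRingEnd ℂ) (φ.1 n) ≠ 0 ↔
      classInner (fun n : N => χ.1 n) φ.1 ≠ 0 := fun χ => by
    rw [← card_mul_inner, mul_ne_zero_iff_left (card_ne_zero N)]
  have hu : ∀ χ ψ : IrrCharacter G, fsInd χ.1 ≠ 0 → fsInd ψ.1 ≠ 0 →
      classInner (fun n : N => χ.1 n) φ.1 ≠ 0 → classInner (fun n : N => ψ.1 n) φ.1 ≠ 0 → χ = ψ :=
    fun χ ψ a b c d => Subtype.ext
      (real_unique hodd φ.2 hr χ.2 ψ.2 (real_of_fs χ.2 a) (real_of_fs ψ.2 b) c d)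
  have h1 : ∑ χ : IrrCharacter G, classInner (fun n : N => χ.1 n) φ.1 * fsInd χ.1 = 1 := by
    rw [← hφ, ← sum_ext N fun g => φ.1 (g * g), Finset.sum_congr rfl fun g _ =>
      show extendByZero N (fun g => φ.1 (g * g)) g = extendByZero N φ.1 (g * g) from ?_, ← fs_ind,
      fs_sum (indFun_classFun _ _)]
    · exact Finset.sum_congr rfl fun χ _ => by
        rw [inner_ind_left _ _ (irr_classFun χ.2),
          inner_char_comm (char_of_irr φ.2) (char_restrict (char_of_irr χ.2) N)]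
    by_cases h : g ∈ N
    · rw [ext_of_mem _ _ h, ext_of_mem _ _ (mul_mem h h)]; rfl
    · rw [ext_of_not_mem _ _ h, ext_of_not_mem _ _ fun e => h ?_]
      obtain ⟨k, hk⟩ := hodd
      have := N.pow_index_mem g
      rwa [hk, pow_succ, pow_mul, sq, mul_mem_cancel_left (pow_mem e k)] at this
  obtain ⟨χ, -, h2⟩ := Finset.exists_ne_zero_of_sum_ne_zero (h1 ▸ one_ne_zero)
  obtain ⟨h3, h4⟩ := mul_ne_zero_iff.1 h2
  rw [Finset.sum_eq_single χ (fun ψ _ h => of_not_not fun e =>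
    h (hu _ _ (right_ne_zero_of_mul e) h4 (left_ne_zero_of_mul e) h3)) (by simp)] at h1
  refine ⟨χ, ⟨?_, (key χ).2 h3⟩, fun ψ h => hu _ _ (by rw [fsInd_def, h.1]; simp) h4
    ((key ψ).1 h.2) h3⟩
  obtain ⟨m, hm⟩ := inner_char_char (char_restrict (char_of_irr χ.2) N) (char_of_irr φ.2)
  refine (fsInd_of_real χ.2 (real_of_fs χ.2 h4)).resolve_right fun e => ?_
  rw [hm, e, mul_neg_one, neg_eq_iff_add_eq_zero] at h1
  norm_cast at h1

end Cfsg.Agent.S4873
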