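import Cfsg.Statements.S4885
import Cfsg.Agent.Lib.Loc.PQSol

set_option autoImplicit false
open Cfsg

namespace Cfsg.Agent.S4885

open Cfsg CA CA.PF CA.PQSol CA.EqO Subgroup
open CA.BG hiding cj cj_one cj_mul cj_inv_cj cj_cj_inv mem_cent1

/-- Let p and q be primes dividing the order of the finite group G, and suppose G is p-solvable and q-solvable. Fix maximal ideals of the algebraic integers containing p and q, defining the principal p-block and the principal q-block. If the irreducible characters of degree prime to p in the principal p-block are exactly the irreducible characters of degree prime to q in the principal q-block, then p = q. -/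
theorem result {G : Type*} [Group G] [Finite G] (p q : ℕ) [Fact p.Prime] [Fact q.Prime] (hp : p ∣ Nat.card G) (hq : q ∣ Nat.card G) (hps : Cfsg.IsPSolvable p G) (hqs : Cfsg.IsPSolvable q G) (Mp Mq : Ideal Cfsg.AlgInt) (hMp : Cfsg.IsPModular p Mp) (hMq : Cfsg.IsPModular q Mq) (h : ∀ χ : Cfsg.IrrCharacter G, (χ ∈ Cfsg.principalBlock Mp G ∧ ¬ p ∣ Cfsg.charDegree (χ : G → ℂ)) ↔ (χ ∈ Cfsg.principalBlock Mq G ∧ ¬ q ∣ Cfsg.charDegree (χ : G → ℂ))) : p = q := by
  haveI := Fintype.ofFinite G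
  by_contra hpq
  have hp' : p.Prime := Fact.out
  have hq' : q.Prime := Fact.out
  obtain ⟨a1, a2⟩ := side (p := p) (B := pPrimeCore q G) fun χ h1 h2 h3 =>
    (b0_cf hMq hqs h1).1 ((h ⟨χ, mem_irr_top.1 h1⟩).1 ⟨(b0_cf hMp hps h1).2 h2, h3⟩).1
  obtain ⟨-, b2⟩ := side (p := q) (B := pPrimeCore p G) fun χ h1 h2 h3 =>
    (b0_cf hMp hps h1).1 ((h ⟨χ, mem_irr_top.1 h1⟩).2 ⟨(b0_cf hMq hqs h1).2 h2, h3⟩).1
  rw [sup_comm] at b2
  set N := pPrimeCore q G ⊔ pPrimeCore p G
  refine a1 (by_contra fun e => ?_) hp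
  obtain ⟨K, k1, -, k3, k4⟩ := H12PSolv.exists_step hps (N := N) (M := ⊤) fun h => e (top_le_iff.1 h)
  have h5 := relIndex_sup_norm (top_norm N K)
  refine k3 (le_sup_left.trans (?_ : K ⊔ N ≤ N))
  rcases k4 with ⟨k, k4⟩ | k4
  · exact b2 _ inferInstance le_sup_right (by
      rw [h5, k4]; exact fun h => hpq ((Nat.prime_dvd_prime_iff_eq hq' hp').1 (hq'.dvd_of_dvd_pow h)).symm)
  · exact a2 _ inferInstance le_sup_right (h5 ▸ hp'.coprime_iff_not_dvd.1 k4.symm)

end Cfsg.Agent.S4885
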