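import Cfsg.Statements.S4886
import Cfsg.Agent.Lib.Loc.PQSol

set_option autoImplicit false
open Cfsg

namespace Cfsg.Agent.S4886

open Cfsg CA CA.PF CA.PQSol CA.EqO Subgroup
open CA.BG hiding cj cj_one cj_mul cj_inv_cj cj_cj_inv mem_cent1

/-- Let p ≠ q be primes and G a finite group that is p-solvable and q-solvable. Fix maximal ideals of the algebraic integers containing p and q, defining the principal p-block and the principal q-block. Then every irreducible character of degree prime to p in the principal p-block has degree prime to q and every irreducible character of degree prime to q in the principal q-block has degree prime to p, if and only if some Sylow p-subgroup of G commutes elementwise with some Sylow q-subgroup. -/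
theorem result {G : Type*} [Group G] [Finite G] (p q : ℕ) [Fact p.Prime] [Fact q.Prime] (hpq : p ≠ q) (Mp Mq : Ideal Cfsg.AlgInt) (hMp : Cfsg.IsPModular p Mp) (hMq : Cfsg.IsPModular q Mq) (hps : Cfsg.IsPSolvable p G) (hqs : Cfsg.IsPSolvable q G) : ((∀ χ : Cfsg.IrrCharacter G, χ ∈ Cfsg.principalBlock Mp G → ¬ p ∣ Cfsg.charDegree (χ : G → ℂ) → ¬ q ∣ Cfsg.charDegree (χ : G → ℂ)) ∧ (∀ χ : Cfsg.IrrCharacter G, χ ∈ Cfsg.principalBlock Mq G → ¬ q ∣ Cfsg.charDegree (χ : G → ℂ) → ¬ p ∣ Cfsg.charDegree (χ : G → ℂ))) ↔ ∃ (P : Sylow p G) (Q : Sylow q G), ∀ x ∈ (P : Subgroup G), ∀ y ∈ (Q : Subgroup G), x * y = y * x := by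
  haveI := Fintype.ofFinite G
  have hp : p.Prime := Fact.out
  have hq : q.Prime := Fact.out
  refine ⟨fun ⟨h1, h2⟩ => ?_, fun ⟨P, Q, h⟩ => ⟨fun χ h1 _ => ?_, fun χ h1 _ => ?_⟩⟩
  · have a1 := not_dvd_index hpq hps hqs fun χ h3 h4 => h1 ⟨χ, mem_irr_top.1 h3⟩ ((b0_cf hMp hps h3).2 h4)
    have a2 := not_dvd_index hpq.symm hqs hps fun χ h3 h4 => h2 ⟨χ, mem_irr_top.1 h3⟩ ((b0_cf hMq hqs h3).2 h4)
    obtain ⟨P⟩ : Nonempty (Sylow p G) := inferInstance
    have hP := syl_top hp P
    obtain ⟨Q, h3, h4⟩ := coprime_Sylow_exists hq (top_norm (pPrimeCore p G) P) (pi_core.coprime' hP.pi)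
      (Or.inl (hP.pi.isSolvable hp))
    obtain ⟨Q, rfl⟩ := (h3.of_idx le_top (by
      rw [relIndex_top_right]; exact (piNat_compl_iff hq).2 a1)).exists_sylow_top hq
    have h5 : (P : Subgroup G) ≤ pPrimeCore q G := hP.pi.le_of_idx (by
      exact (piNat_compl_iff hp).2 fun h => a2 (h.trans (relIndex_dvd_index_of_normal _ _)))
    have h6 : (P : Subgroup G) ≤ 𝓒((Q : Subgroup G)) := commutator_eq_bot_iff_le_centralizer.1 (BG.eq_bot_mono
      (le_inf (le_normalizer_iff_commutator_le_right.1 h4) ((commutator_mono h5 le_rfl).trans (commutator_le_left _ _)))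
      (h3.pi.inf_eq_bot pi_core))
    exact ⟨P, Q, fun x hx y hy => (h6 hx y hy).symm⟩
  · exact not_dvd_deg hpq hps (syl_top hp P) (syl_top hq Q) (fun y hy x hx => h x hx y hy) (mem_irr_top.2 χ.2)
      ((b0_cf hMp hps (mem_irr_top.2 χ.2)).1 h1)
  · exact not_dvd_deg hpq.symm hqs (syl_top hq Q) (syl_top hp P) (fun x hx y hy => (h x hx y hy).symm)
      (mem_irr_top.2 χ.2) ((b0_cf hMq hqs (mem_irr_top.2 χ.2)).1 h1)

end Cfsg.Agent.S4886
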