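import Cfsg.Statements.S4888
import Cfsg.Agent.Lib.Block.BlkPr
import Cfsg.Agent.Lib.Grp.NPC2
import Cfsg.Agent.Lib.Char.CharMisc

set_option autoImplicit false
open Cfsg

namespace Cfsg.Agent.S4888
open Cfsg MonoidAlgebra CA.BlkAlg CA.BlkVal CA.BlkOmega CA.BlkRed CA.BlkCore CA.BlkDefect CA.BlkInd CA.BlkHeight CA.SylIn CA.H12PPart CChar.CharFun CChar.CharOrth Subgroup CA.BlkKer CChar.CharKer CA.BlkZero CChar.CharInt CA.BlkReg CA.BlkGal CA.BlkQuo CA.BlkBas CA.BlkIdem CA.BlkIBr CChar.CharGen CA.BlkCov CA.H12Cover CA.Clif CA.BlkInt CA.BlkPr CA.PRes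

/-- Let G be a finite group, p a prime and M a maximal ideal of the algebraic integers containing p. Then all height-zero irreducible characters of the principal p-block of G (equivalently, all its characters of degree prime to p) have the same degree if and only if G has a normal p-complement. -/
theorem result {G : Type*} [Group G] [Finite G] (p : ℕ) [Fact p.Prime] (M : Ideal Cfsg.AlgInt) (hM : Cfsg.IsPModular p M) : (∃ d : ℕ, ∀ χ : Cfsg.IrrCharacter G, χ ∈ (Cfsg.principalBlock M G) → Cfsg.blockHeight p (Cfsg.principalBlock M G) (χ : G → ℂ) = 0 → Cfsg.charDegree (χ : G → ℂ) = d) ↔ Cfsg.HasNormalPComplement p G := by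
  have hp : p.Prime := Fact.out
  have h1 : ¬ p ∣ 1 := hp.one_lt.ne' ∘ Nat.dvd_one.1
  obtain ⟨P⟩ : Nonempty (Sylow p G) := inferInstance
  have hPi : ¬ p ∣ (P : Subgroup G).index := P.not_dvd_index
  refine ⟨fun ⟨d, hd⟩ => ?_, fun ⟨P, N, hN, hc⟩ => ⟨1, fun χ hχ h0 => ?_⟩⟩
  · have hd1 : d = 1 := by
      rw [← hd _ (irrOne_mem_principalBlock hM) ((height_zero_principal_iff hM _).2
        (by rwa [charDegree_irrOne])), charDegree_irrOne]
    have ht : pResidual p G ⊓ P = (pResidual p P).map (P : Subgroup G).subtype := by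
      refine CA.NPC2.tate (p := p) (P : Subgroup G) hPi ?_
      intro K hK hi u hu
      by_contra hn
      obtain ⟨μ, hμ, hK', hu'⟩ := exists_irr_of_not_mem hn
      have : Fact K.index.Prime := ⟨by rw [hi]; exact hp⟩
      have hμ1 : μ 1 = 1 := (irr_apply_one_iff hμ).2 (le_trans (by
        rw [← Normal.quotient_commutative_iff_commutator_le]
        exact (isCyclic_of_prime_card (p := K.index) rfl).isMulCommutative) hK')
      obtain ⟨χ, hχ, hχd, ho⟩ := exists_over_principal hM hPi (η := ⟨μ, hμ⟩)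
        (sameBlock_of_isPGroup hM P.isPGroup' (irrOne _) _)
        (by rwa [charDegree_eq (n := 1) (hμ1.trans Nat.cast_one.symm)])
      have hχ1 : χ.1 1 = 1 := by
        rw [irr_apply_one_eq χ.2, hd χ hχ ((height_zero_principal_iff hM _).2 hχd), hd1,
          Nat.cast_one]
      refine hu' ((mem_charKer (char_of_irr hμ)).2 ?_)
      have e := ext_of_over (char_of_irr χ.2) ho (hχ1.trans hμ1.symm) u
      obtain ⟨lam, hl⟩ := char_exists_unitsHom_of_apply_one (char_of_irr χ.2) hχ1
      change μ u = μ 1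
      rw [hμ1, ← show χ.1 u = μ u from e, hl]
      have h2 : pResidual p G ≤ (lam ^ (ordCompl[p] (Nat.card G))).ker :=
        pResidual_le_iff.2 fun g hg => by
          rw [MonoidHom.mem_ker, MonoidHom.pow_apply, ← map_pow,
            orderOf_dvd_iff_pow_eq_one.1, map_one]
          have := orderOf_dvd_natCard g
          rw [← Nat.ordProj_mul_ordCompl_eq_self (Nat.card G) p] at this
          exact (hg.pow_right _).dvd_of_dvd_mul_left this
      obtain ⟨n, hn⟩ := orderOf_eq_pow_of_mem hp P.isPGroup' u.2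
      have h3 : lam u = 1 := CA.Ext.eq_one_of_coprime
        ((Nat.coprime_ordCompl hp (Nat.card_pos (α := G)).ne').pow_left n)
        (by rw [← map_pow, ← hn, pow_orderOf_eq_one, map_one]) (h2 hu)
      simp [h3]
    rw [pResidual_eq_bot_of_isPGroup P.isPGroup', Subgroup.map_bot] at ht
    exact CA.NPC2.hasNPC_of_inf_le_frattini P (ht ▸ bot_le)
  · have hi : ∃ n, N.index = p ^ n := by
      rw [hc.symm.index_eq_card]; exact P.isPGroup'.exists_card_eq
    have hn : ¬ p ∣ Nat.card N := by rw [← hc.index_eq_card]; exact P.not_dvd_index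
    obtain ⟨ψ, hψ, e⟩ := irr_exists_quotient χ.2 N ((le_charKer_iff (char_of_irr χ.2)).1
      ((mem_principalBlock_iff_of_complement hM N hn hi).1 hχ))
    obtain ⟨n, hi⟩ := hi
    obtain ⟨j, hj⟩ := CChar.CharMisc.degree_eq_pow_of_isPGroup (IsPGroup.of_card hi) hψ
    rw [← charDegree_eq_of_apply (e 1).symm] at hj
    rw [height_zero_principal_iff hM, hj] at h0
    rw [hj, by_contra fun h => h0 (dvd_pow_self p h), pow_zero]

end Cfsg.Agent.S4888
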