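import Cfsg.Statements.S4889
import Cfsg.Agent.Lib.Block.BlkOT

set_option autoImplicit false
open Cfsg

namespace Cfsg.Agent.S4889
open CA.BlkOT CA.H11Max CA.H11Brg CA.H11Amb

/-- Let G be a finite group, p a prime, M a maximal ideal of the algebraic integers containing p, and B a p-block of G that has an abelian defect group and in which every irreducible character has height zero. Then all irreducible characters of B have the same degree if and only if B is a nilpotent block. -/
theorem result {G : Type*} [Group G] [Finite G] (p : ℕ) [Fact p.Prime] (M : Ideal Cfsg.AlgInt) (hM : Cfsg.IsPModular p M) (B : Set (Cfsg.IrrCharacter G)) (hB : Cfsg.IsPBlock M B) (D : Subgroup G) (hD : Cfsg.IsDefectGroup p M B D) (hDab : IsMulCommutative ↥D) (h0 : ∀ χ : Cfsg.IrrCharacter G, χ ∈ B → Cfsg.blockHeight p B (χ : G → ℂ) = 0) : (∃ d : ℕ, ∀ χ : Cfsg.IrrCharacter G, χ ∈ B → Cfsg.charDegree (χ : G → ℂ) = d) ↔ Cfsg.IsNilpotentBlock p M B := by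
  refine ⟨fun ⟨d, h⟩ => ?_, fun h => ?_⟩
  · haveI := Fintype.ofFinite G
    obtain ⟨i, hi⟩ := exists_one_of_deg hM hB h
    exact (hi.nil hM hB hD).2
  · haveI := Fintype.ofFinite G
    have hp := CA.BlkDefect.p_eq_zero hM
    obtain ⟨e, hmx⟩ := exists_mx hp (blk_eB hM hB) ((isDefectGroup_iff_top hM hB).mp hD)
    obtain ⟨χ, hχ⟩ := CA.BlkCore.block_nonempty hM hB
    exact ⟨_, fun ψ hψ => deg_eq_of_st_le hM hB hmx ((hmx.nil_iff_of_comm hp fun x hx => mem_CC.2
      fun u hu => congrArg Subtype.val (hDab.is_comm.comm ⟨u, hu⟩ ⟨x, hx⟩)).1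
        ((CA.H11Fus.isNilpotentBlock_iff hM).1 h).2) hψ hχ (h0 ψ hψ)⟩

end Cfsg.Agent.S4889
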