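import Cfsg.Statements.S4890
import Cfsg.Agent.Lib.Block.BlkND
import Cfsg.Agent.Lib.Block.BlkOT
import Cfsg.Agent.Lib.Grp.Fus2
import Cfsg.Agent.Lib.Grp.PGFrattini

set_option autoImplicit false
open Cfsg

namespace Cfsg.Agent.S4890
open Cfsg MonoidAlgebra CA.BlkAlg CA.SylIn CA.H11Amb CA.H11Def CA.H11Pair CA.H11Max CA.H11Map CA.H12Fong CA.H12FR CA.BlkVal CA.BlkOmega CA.BlkRed CA.BlkCore CA.BlkDefect CA.H11Brg CA.H12Brg CA.H12Cover CA.H12DC CA.H12DC2 CA.BlkQuo CA.BlkND CA.BlkDom CA.BlkOT CA.BlkHeight CA.Clif CA.H11Fus CChar.CharFun CChar.CharOrth CChar.CharInt CChar.CharKer Subgroup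

section aux
variable {p : ℕ} [Fact p.Prime] {M : Ideal AlgInt} {G : Type*} [Group G] [Fintype G]
  {B : Set (IrrCharacter G)} {D : Subgroup G} [hN : D.Normal]

theorem deg_of_nil (hM : IsPModular p M) (hB : IsPBlock M B) (hD : IsDefectGroup p M B D)
    (hn : Nil p ⊤ (eB M B)) :
    ∃ d : ℕ, ∀ χ ∈ B, blockHeight p B χ.1 = 0 → charDegree χ.1 = d := by
  classical
  have := Fintype.ofFinite (D ⊔ CC D : Subgroup G)
  have hp := isPGroup_of_isDefectGroup hD
  obtain ⟨b, hb, hc⟩ := CA.H12Cover.exists_cov' hM (D ⊔ CC D) hB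
  have hst := (nil_iff (p_eq_zero hM) (NN_top_of_normal D) (mx_of_cov hM hB hD hb hc)).1 hn
  have hd := defect_root hM hB hD hb hc
  obtain ⟨θ, hθ, hk⟩ := exists_ker hM hb (isPGroup_subgroupOf hp (D ⊔ CC D))
  refine ⟨(D ⊔ CC D).index * charDegree θ.1, fun χ hχ h0 => ?_⟩
  obtain ⟨ψ, hψ, ho⟩ := exists_mem_over_of_cov hM (isSat_of_isPBlock hM hb) hB hc hχ
  have h1 : inertia ψ.1 ≤ D ⊔ CC D := fun x hx =>
    hst ⟨⟨trivial, NN_top_of_normal D trivial⟩, inertia_le_stab hM hb hψ hx⟩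
  have h2 := (irr_indFun_iff ψ.2).2 h1
  have h3 : χ.1 = indFun _ ψ.1 := by
    by_contra hne
    refine over_iff.1 ho ?_
    rw [← CA.Ind.inner_ind_right _ _ (irr_classFun χ.2)]
    exact inner_irr_of_ne χ.2 h2 hne
  obtain ⟨ζ, -, hζ⟩ := exists_eq hM hb hd sup_top hθ hk hψ
  have h4 := hζ 1 1 (by simpa using (Fact.out : p.Prime).ne_one)
  rw [OneMemClass.coe_one, mul_one, irr_apply_one_eq ψ.2, irr_apply_one_eq ζ.2,
    irr_apply_one_eq θ.2] at h4
  have h5 : charDegree ψ.1 = charDegree ζ.1 * charDegree θ.1 := by exact_mod_cast h4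
  have h6 := fact_over hM hB hD hχ ho
  have h7 := fact_of_ker hM hb hd hθ hk
  have h8 := (blockHeight_eq_zero_iff hχ).1 h0
  rw [minNu_eq_index hM hB hD, ← relIndex_mul_index (le_sup_left : D ≤ D ⊔ CC D), relIndex,
    Nat.factorization_mul (index_ne_zero_of_finite (H := D.subgroupOf (D ⊔ CC D)))
      index_ne_zero_of_finite, h6, h5,
    Nat.factorization_mul (charDegree_pos ζ.2).ne' (charDegree_pos θ.2).ne'] at h8
  simp only [Finsupp.add_apply, h7] at h8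
  have h9 : (charDegree ζ.1).factorization p = 0 := by omega
  obtain ⟨n, hn⟩ := (isPGroup_subgroupOf hp (D ⊔ CC D)).exists_card_eq
  obtain ⟨m, -, hm⟩ := (Nat.dvd_prime_pow Fact.out).1 (hn ▸ charDegree_dvd_card ζ.2)
  rw [hm, Nat.factorization_pow_self Fact.out] at h9
  rw [hm, h9, pow_zero, one_mul] at h5
  have h10 : χ.1 1 = ((D ⊔ CC D).index * charDegree θ.1 : ℕ) := by
    rw [h3, CA.Ind.indFun_one, irr_apply_one_eq ψ.2, h5, Nat.cast_mul]
  rw [irr_apply_one_eq χ.2] at h10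
  exact_mod_cast h10

theorem height_of_comm (hM : IsPModular p M) (hB : IsPBlock M B) (hD : IsDefectGroup p M B D)
    {χ : IrrCharacter G} (hχ : χ ∈ B) (h : ⁅D, D⁆ ≤ charKer χ.1) : blockHeight p B χ.1 = 0 := by
  have := Fintype.ofFinite D
  obtain ⟨ζ, hζ⟩ := exists_under D χ
  rw [height_eq hM hB hD hχ hζ]
  have h1 : charKer (fun x : D => χ.1 x) ≤ charKer ζ.1 :=
    charKer_le_of_inner_ne_zero (char_restrict (char_of_irr χ.2) D) ζ.2 (over_iff.1 hζ)
  have h2 : commutator D ≤ charKer ζ.1 := by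
    refine le_trans ?_ ((charKer_comp_le χ.1 D.subtype).trans h1)
    rw [← map_le_iff_le_comap, map_subtype_commutator]; exact h
  have h3 := (irr_apply_one_iff ζ.2).2 h2
  rw [irr_apply_one_eq ζ.2] at h3
  rw [show charDegree ζ.1 = 1 by exact_mod_cast h3]; simp

theorem reg_mem_CC (hp : IsPGroup p D) {x : G} (hx : ¬ p ∣ orderOf x)
    (h : QuotientGroup.mk' ⁅D, D⁆ x ∈ CC (D.map (QuotientGroup.mk' ⁅D, D⁆))) : x ∈ CC D := by
  refine CA.Fus2.mem_centralizer_of_frattini hp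
    ((Nat.Prime.coprime_iff_not_dvd Fact.out).2 hx).symm fun a ha y hy => ?_
  have h1 : QuotientGroup.mk' ⁅D, D⁆ a ∈ CC (D.map (QuotientGroup.mk' ⁅D, D⁆)) := by
    obtain ⟨n, rfl⟩ := ha
    rw [map_zpow]; exact zpow_mem h n
  have h2 : a * y * a⁻¹ * y⁻¹ ∈ ⁅D, D⁆ := by
    rw [← QuotientGroup.ker_mk' ⁅D, D⁆, MonoidHom.mem_ker]
    simp only [map_mul, map_inv]
    rw [← mem_CC.1 h1 _ ⟨y, hy, rfl⟩]; group
  rw [← map_subtype_commutator] at h2
  exact map_mono (CA.PGFrattini.commutator_le_frattini hp) h2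

theorem nil_of_deg (hM : IsPModular p M) (hB : IsPBlock M B) (hD : IsDefectGroup p M B D) {d : ℕ}
    (h : ∀ χ ∈ B, blockHeight p B χ.1 = 0 → charDegree χ.1 = d) : Nil p ⊤ (eB M B) := by
  classical
  have hp := isPGroup_of_isDefectGroup hD
  have hp0 := p_eq_zero hM
  set φ := QuotientGroup.mk' ⁅D, D⁆ with hφd
  have hφ : Function.Surjective φ := QuotientGroup.mk'_surjective _
  have hk : φ.ker = ⁅D, D⁆ := QuotientGroup.ker_mk' _
  have hkD : φ.ker ≤ D := hk.le.trans (commutator_le_left D D)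
  have := Fintype.ofFinite (G ⧸ ⁅D, D⁆)
  obtain ⟨b, hb, hbs, hd⟩ := exists_dominated hφ hM (hp.to_le hkD) hB hD
  have : (D.map φ).Normal := hN.map φ hφ
  obtain ⟨i, hi⟩ := exists_one_of_deg hM hb (d := d) fun ψ hψ => by
    rw [← charDegree_infl hφ]
    exact h _ (hbs hψ) (height_of_comm hM hB hD (hbs hψ) (hk.ge.trans (ker_le_charKer_infl hφ ψ)))
  obtain ⟨f, hf⟩ := exists_mx hp0 (blk_eB hM hb) ((isDefectGroup_iff_top hM hb).1 hd)
  have hst := hi.st_le hM hb hf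
  have h1 : eB M b * f = f := by
    have := hf.of
    rwa [(blk_eB hM hb).br_eq_self hp0 hf.pr.pg le_top (NN_top_of_normal _)] at this
  have hsat := isSat_of_isPBlock hM hB
  have h2 : mp φ (eB M B) * f = f := by
    rw [← h1, ← mul_assoc, mp_eB hφ hsat,
      eB_mul_eB (isSat_preimage hφ hM hsat) (isSat_of_isPBlock hM hb), Set.inter_eq_right.2 hbs]
  obtain ⟨e, he, h3⟩ := exists_blk_mp_mul hM φ (CC D) hf.pr.blk.ne
  have hmx : Mx p ⊤ (eB M B) D e := mx_of_mul hM hB hD he fun h0 => h3 (by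
    rw [← h2, ← mul_assoc, ← map_mul, ← (commute_eB B e).eq, h0, map_zero, zero_mul])
  have he' : Blk ((CC D).map φ) (mp φ e) := blk_mp hM φ (hp.to_le (inf_le_left.trans hkD))
    (fun g hg _ => CC_anti (inf_le_left.trans hkD) hg) he
  have hCC : (CC D).map φ ≤ ⊤ ⊓ CC (D.map φ) := by
    rintro _ ⟨c, hc, rfl⟩
    refine ⟨trivial, mem_CC.2 ?_⟩
    rintro _ ⟨y, hy, rfl⟩
    rw [← map_mul, ← map_mul, mem_CC.1 hc y hy]
  have hf' : f ∈ ZA (k M) ((CC D).map φ) := by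
    refine mem_ZA.2 ⟨fun y hy => ?_, mem_fixed_iff_le.2 (hCC.trans hf.pr.blk.fixed)⟩
    by_contra h0
    obtain ⟨g, hg, rfl⟩ := exists_regular_preimage hφ Fact.out (not_dvd_of_coeff_ne hM hf.pr.blk h0)
    exact hy ⟨g, reg_mem_CC hp hg (mem_of_coeff_ne hf.pr.suppC h0), rfl⟩
  have h4 : f * mp φ e = mp φ e := he'.mul_eq_self_of_ne hf' hf.pr.blk.idem (by
    rwa [← (comm_ZA _ _ he'.mem _ hf').eq])
  rw [nil_iff hp0 (NN_top_of_normal D) hmx]
  refine St_le_of_regular hp0 hmx fun x hx hr => reg_mem_CC hp hr (hst ?_)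
  refine mem_St.2 ⟨trivial, NN_top_of_normal _ trivial, ?_⟩
  have h5 : cjA (φ x) f * mp φ e = mp φ e := by
    have := congrArg (cjA (φ x)) h4
    rwa [map_mul, cjA_mp, (mem_St.1 hx).2.2] at this
  have : (⊤ ⊓ CC (D.map φ)).Normal := inferInstance
  refine hf.pr.blk.eq_of_mul_ne_zero (hf.pr.blk.conj_of_mem (NN_top_of_normal _ trivial))
    fun h0 => he'.ne ?_
  rw [← h5, ← h4, ← mul_assoc, h0, zero_mul]

end aux

/-- Let G be a finite group, p a prime, M a maximal ideal of the algebraic integers containing p, and B a p-block of G with a defect group that is normal in G. Then all height-zero irreducible characters of B have the same degree if and only if B is a nilpotent block. -/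
theorem result {G : Type*} [Group G] [Finite G] (p : ℕ) [Fact p.Prime] (M : Ideal Cfsg.AlgInt) (hM : Cfsg.IsPModular p M) (B : Set (Cfsg.IrrCharacter G)) (hB : Cfsg.IsPBlock M B) (D : Subgroup G) (hD : Cfsg.IsDefectGroup p M B D) (hDn : D.Normal) : (∃ d : ℕ, ∀ χ : Cfsg.IrrCharacter G, χ ∈ B → Cfsg.blockHeight p B (χ : G → ℂ) = 0 → Cfsg.charDegree (χ : G → ℂ) = d) ↔ Cfsg.IsNilpotentBlock p M B := by
  have := Fintype.ofFinite G
  rw [isNilpotentBlock_iff hM]
  exact ⟨fun ⟨d, h⟩ => ⟨hB, nil_of_deg hM hB hD h⟩, fun h => deg_of_nil hM hB hD h.2⟩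

end Cfsg.Agent.S4890
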