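import Cfsg.Statements.S4911
import Cfsg.Agent.Lib.Char.H10FS
import Cfsg.Agent.S4444
import Cfsg.Agent.Lib.Grp.Coprime
import Cfsg.Agent.Lib.Char.BPerm

set_option autoImplicit false
open Cfsg

namespace Cfsg.Agent.S4911
open CA.H10FS CA.MatRep CA.H11FS CA.Clif CA.Gall CA.Ind2 CA.Ext CChar.CharFun CChar.CharOrth CChar.CharInt CChar.CharProd CChar.CharKer CA.Ind Subgroup

open scoped ComplexConjugate

theorem real_card (K : Type*) [Group K] [Finite K] :
    Nat.card {θ : IrrCharacter K // ∀ k, (θ.1 k).im = 0} =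
      Nat.card {c : ConjClasses K // ∀ k, ConjClasses.mk k = c → IsConj k k⁻¹} := by
  rw [← CA.BPerm.card_fixed_eq (fun χ => ⟨_, irr_conj χ.2⟩) (fun g => g⁻¹)
    (fun χ g => (char_apply_inv (char_of_irr χ.2) g).symm)]
  · refine Nat.card_congr (Equiv.subtypeEquivRight fun θ => ?_)
    rw [Subtype.ext_iff, funext_iff]
    exact forall_congr' fun k => Complex.conj_eq_iff_im.symm
  · intro g
    constructor
    · intro h; exact (h g rfl).symm
    · intro h k hk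
      obtain ⟨c, rfl⟩ := isConj_iff.1 (ConjClasses.mk_eq_mk_iff_isConj.1 hk)
      obtain ⟨d, hd⟩ := isConj_iff.1 h
      refine isConj_iff.2 ⟨c⁻¹ * d⁻¹ * c, ?_⟩
      calc c⁻¹ * d⁻¹ * c * k * (c⁻¹ * d⁻¹ * c)⁻¹ = c⁻¹ * d⁻¹ * (c * k * c⁻¹) * d * c := by
            simp [mul_assoc]
        _ = k⁻¹ := by rw [← hd]; simp [mul_assoc]

/-- Let P and K be subgroups of a finite group with P a p-group normalizing K and K of order prime to p. Then the number of P-invariant real-valued irreducible complex characters of K equals the number of conjugacy classes of K that are real (closed under inversion) and P-invariant. Moreover, if every real-valued irreducible character of K is P-invariant, then every real element of K (one conjugate in K to its inverse) is conjugate in K to an element centralized by P. -/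
theorem result {G : Type*} [Group G] [Finite G] (p : ℕ) [Fact p.Prime] (P K : Subgroup G) (hP : IsPGroup p ↥P) (hK : ¬ p ∣ Nat.card ↥K) (hPK : P ≤ Subgroup.normalizer (K : Set G)) : Nat.card {θ : Cfsg.IrrCharacter ↥K // (∀ k : ↥K, ((θ : ↥K → ℂ) k).im = 0) ∧ (∀ x ∈ P, ∀ k k' : ↥K, (k' : G) = x * (k : G) * x⁻¹ → (θ : ↥K → ℂ) k' = (θ : ↥K → ℂ) k)} = Nat.card {c : ConjClasses ↥K // (∀ k : ↥K, ConjClasses.mk k = c → IsConj k k⁻¹) ∧ ∀ k : ↥K, ConjClasses.mk k = c → ∀ x ∈ P, ∀ k' : ↥K, (k' : G) = x * (k : G) * x⁻¹ → ConjClasses.mk k' = c} ∧ ((∀ θ : Cfsg.IrrCharacter ↥K, (∀ k : ↥K, ((θ : ↥K → ℂ) k).im = 0) → (∀ x ∈ P, ∀ k k' : ↥K, (k' : G) = x * (k : G) * x⁻¹ → (θ : ↥K → ℂ) k' = (θ : ↥K → ℂ) k)) → ∀ k : ↥K, IsConj k k⁻¹ → ∃ k' : ↥K, IsConj k k' ∧ ∀ x ∈ P, x * (k' : G) * x⁻¹ = (k' : G)) := by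
  classical
  haveI : Fintype G := Fintype.ofFinite _
  haveI : Fintype K := Fintype.ofFinite _
  have hp : p.Prime := Fact.out
  have hnorm : ∀ s ∈ P, ∀ g ∈ K, s * g * s⁻¹ ∈ K := fun s hs g hg => (mem_normalizer_iff.1 (hPK hs) g).1 hg
  have hcop : (Nat.card K).Coprime (Nat.card P) := by
    obtain ⟨n, hn⟩ := IsPGroup.iff_card.1 hP
    rw [hn]; exact Nat.Coprime.pow_right _ ((hp.coprime_iff_not_dvd).2 hK).symm
  have hsolv : Group.IsSolvable P := by
    haveI := hP.isNilpotent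
    infer_instance
  set C := K ⊓ centralizer (P : Set G) with hC
  haveI : Fintype C := Fintype.ofFinite _
  have hCK : C ≤ K := inf_le_left
  obtain ⟨g1, -, g3, g4⟩ := Cfsg.Agent.S4444.result K P hnorm hcop p hp hP C hC hCK
  have hfix : ∀ k : K, (∀ x ∈ P, ∀ k' : K, (k' : G) = x * k * x⁻¹ → ConjClasses.mk k' = ConjClasses.mk k) →
      ∃ y ∈ K, y * k * y⁻¹ ∈ centralizer (P : Set G) := fun g hq =>
    CA.Coprime.exists_conj_mem_centralizer hPK hcop.symm (Or.inl hsolv) (g : G) fun s hs => by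
      obtain ⟨x, hx⟩ := isConj_iff.1 (ConjClasses.mk_eq_mk_iff_isConj.1
        (hq s hs ⟨_, hnorm s hs g g.2⟩ rfl)).symm
      exact ⟨x, x.2, (congrArg Subtype.val hx).symm⟩
  have hconj : ∀ c c' : C, IsConj (inclusion hCK c) (inclusion hCK c') → IsConj c c' := by
    intro c c' e
    obtain ⟨x, hx⟩ := isConj_iff.1 e
    have h3 : (x : G) * c * (x : G)⁻¹ = c' := congrArg Subtype.val hx
    obtain ⟨y, hy, h4⟩ := CA.Coprime.exists_centralizer_conj_elem hPK hcop.symm (Or.inl hsolv) x.2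
      c.2.2 (h3 ▸ c'.2.2)
    exact isConj_iff.2 ⟨⟨y, hy⟩, Subtype.ext (h4.trans h3)⟩
  have hcc : ∀ (χ : IrrCharacter K) (β : IrrCharacter C) (m : ℕ),
      classInner (fun c : C => χ.1 ⟨c, hCK c.2⟩) β.1 = m →
      classInner (fun c : C => (⟨_, irr_conj χ.2⟩ : IrrCharacter K).1 ⟨c, hCK c.2⟩)
        (⟨_, irr_conj β.2⟩ : IrrCharacter C).1 = m := by
    intro χ β m h
    have := CChar.CharFun.inner_conj_conj (fun c : C => χ.1 ⟨c, hCK c.2⟩) β.1
    rw [h, map_natCast] at this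
    exact this
  have part1 : Nat.card {θ : IrrCharacter ↥K // (∀ k : ↥K, ((θ : ↥K → ℂ) k).im = 0) ∧ (∀ x ∈ P, ∀ k k' : ↥K, (k' : G) = x * (k : G) * x⁻¹ → (θ : ↥K → ℂ) k' = (θ : ↥K → ℂ) k)} = Nat.card {c : ConjClasses ↥K // (∀ k : ↥K, ConjClasses.mk k = c → IsConj k k⁻¹) ∧ ∀ k : ↥K, ConjClasses.mk k = c → ∀ x ∈ P, ∀ k' : ↥K, (k' : G) = x * (k : G) * x⁻¹ → ConjClasses.mk k' = c} := by
    trans Nat.card {β : IrrCharacter C // ∀ k, (β.1 k).im = 0}
    · refine Nat.card_eq_of_bijective (fun θ => ⟨(g1 θ.1 θ.2.2).exists.choose, ?_⟩) ⟨?_, ?_⟩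
      · obtain ⟨θ, hr, hi⟩ := θ
        obtain ⟨m, hm, hpm⟩ := (g1 θ hi).exists.choose_spec
        have e : (⟨_, irr_conj θ.2⟩ : IrrCharacter K) = θ :=
          Subtype.ext (funext fun k => Complex.conj_eq_iff_im.2 (hr k))
        have h2 := hcc _ _ _ hm
        rw [e] at h2
        have h3 := (g1 θ hi).unique ⟨m, h2, hpm⟩ ⟨m, hm, hpm⟩
        intro k
        exact Complex.conj_eq_iff_im.1 (congrFun (congrArg Subtype.val h3) k)
      · rintro ⟨θ, hr, hi⟩ ⟨θ', hr', hi'⟩ e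
        obtain ⟨m, hm, hpm⟩ := (g1 θ hi).exists.choose_spec
        obtain ⟨m', hm', hpm'⟩ := (g1 θ' hi').exists.choose_spec
        have e' : (g1 θ hi).exists.choose = (g1 θ' hi').exists.choose := congrArg Subtype.val e
        rw [e'] at hm
        exact Subtype.ext (g3 θ θ' hi hi' _ m m' hm hpm hm' hpm')
      · rintro ⟨β, hβ⟩
        obtain ⟨θ, hi, m, hm, hpm⟩ := g4 β
        have e : (⟨_, irr_conj β.2⟩ : IrrCharacter C) = β :=
          Subtype.ext (funext fun k => Complex.conj_eq_iff_im.2 (hβ k))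
        have h2 := hcc _ _ _ hm
        rw [e] at h2
        have h3 := g3 _ θ (fun s hs g g' h => congrArg conj (hi s hs g g' h)) hi β m m h2 hpm hm hpm
        refine ⟨⟨θ, fun k => Complex.conj_eq_iff_im.1 (congrFun (congrArg Subtype.val h3) k), hi⟩, ?_⟩
        exact Subtype.ext ((g1 θ hi).unique (g1 θ hi).exists.choose_spec ⟨m, hm, hpm⟩)
    rw [real_card]
    refine Nat.card_eq_of_bijective (fun q => ⟨ConjClasses.map (inclusion hCK) q.1, ?_, ?_⟩) ⟨?_, ?_⟩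
    · obtain ⟨q, hq⟩ := q
      obtain ⟨c, rfl⟩ := ConjClasses.mk_surjective q
      intro k hk
      have h1 : IsConj k (inclusion hCK c) := ConjClasses.mk_eq_mk_iff_isConj.1 hk
      have h2 : IsConj (inclusion hCK c) (inclusion hCK c)⁻¹ := by
        rw [← map_inv]; exact (inclusion hCK).map_isConj (hq c rfl)
      obtain ⟨y, hy⟩ := isConj_iff.1 h1
      refine (h1.trans h2).trans (isConj_iff.2 ⟨y⁻¹, ?_⟩)
      rw [← hy]; simp [mul_assoc]
    · obtain ⟨q, hq⟩ := q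
      obtain ⟨c, rfl⟩ := ConjClasses.mk_surjective q
      intro g h s hs g' e
      change ConjClasses.mk g' = ConjClasses.mk (inclusion hCK c)
      obtain ⟨x, hx⟩ := isConj_iff.1 (ConjClasses.mk_eq_mk_iff_isConj.1 h).symm
      have h3 : (x : G) * c * (x : G)⁻¹ = g := congrArg Subtype.val hx
      have h4 : s * c = c * s := c.2.2 s hs
      rw [ConjClasses.mk_eq_mk_iff_isConj]
      refine IsConj.symm (isConj_iff.2 ⟨⟨s * x * s⁻¹, hnorm s hs x x.2⟩, Subtype.ext ?_⟩)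
      change s * x * s⁻¹ * c * (s * x * s⁻¹)⁻¹ = g'
      rw [e, ← h3]
      calc s * x * s⁻¹ * c * (s * x * s⁻¹)⁻¹ = s * x * (s⁻¹ * (c * s)) * (x : G)⁻¹ * s⁻¹ := by
            simp [mul_assoc]
        _ = _ := by rw [← h4]; simp [mul_assoc]
    · rintro ⟨q, hq⟩ ⟨q', hq'⟩ e
      obtain ⟨c, rfl⟩ := ConjClasses.mk_surjective q
      obtain ⟨c', rfl⟩ := ConjClasses.mk_surjective q'
      exact Subtype.ext (ConjClasses.mk_eq_mk_iff_isConj.2 (hconj _ _
        (ConjClasses.mk_eq_mk_iff_isConj.1 (congrArg Subtype.val e))))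
    · rintro ⟨q, hr, hq⟩
      obtain ⟨g, rfl⟩ := ConjClasses.mk_surjective q
      obtain ⟨y, hy, h4⟩ := hfix g (hq g rfl)
      let c : C := ⟨y * g * y⁻¹, K.mul_mem (K.mul_mem hy g.2) (K.inv_mem hy), h4⟩
      have hc : ConjClasses.mk (inclusion hCK c) = ConjClasses.mk g :=
        ConjClasses.mk_eq_mk_iff_isConj.2 (IsConj.symm (isConj_iff.2 ⟨⟨y, hy⟩, rfl⟩))
      refine ⟨⟨ConjClasses.mk c, fun k hk => hconj _ _ ?_⟩, Subtype.ext hc⟩
      rw [map_inv]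
      apply hr
      rw [← hc]
      exact congrArg (ConjClasses.map (inclusion hCK)) hk
  refine ⟨part1, fun H k hk => ?_⟩
  have h1 : Nat.card {θ : IrrCharacter ↥K // (∀ k : ↥K, ((θ : ↥K → ℂ) k).im = 0) ∧ (∀ x ∈ P, ∀ k k' : ↥K, (k' : G) = x * (k : G) * x⁻¹ → (θ : ↥K → ℂ) k' = (θ : ↥K → ℂ) k)} = Nat.card {θ : IrrCharacter K // ∀ k, (θ.1 k).im = 0} :=
    Nat.card_congr (Equiv.subtypeEquivRight fun θ => ⟨fun h => h.1, fun h => ⟨h, H θ h⟩⟩)
  rw [part1, real_card] at h1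
  have hb := (Nat.bijective_iff_injective_and_card
    (fun c : {c : ConjClasses ↥K // (∀ k : ↥K, ConjClasses.mk k = c → IsConj k k⁻¹) ∧ ∀ k : ↥K, ConjClasses.mk k = c → ∀ x ∈ P, ∀ k' : ↥K, (k' : G) = x * (k : G) * x⁻¹ → ConjClasses.mk k' = c} =>
      (⟨c.1, c.2.1⟩ : {c : ConjClasses K // ∀ k, ConjClasses.mk k = c → IsConj k k⁻¹}))).2
    ⟨fun a b e => Subtype.ext (by have := congrArg Subtype.val e; exact this), h1⟩
  obtain ⟨⟨c, hc1, hc2⟩, e⟩ := hb.2 ⟨ConjClasses.mk k, fun j hj => by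
    have h1 : IsConj j k := ConjClasses.mk_eq_mk_iff_isConj.1 hj
    obtain ⟨y, hy⟩ := isConj_iff.1 h1
    refine (h1.trans hk).trans (isConj_iff.2 ⟨y⁻¹, ?_⟩)
    rw [← hy]; simp [mul_assoc]⟩
  obtain rfl : c = ConjClasses.mk k := congrArg Subtype.val e
  obtain ⟨y, hy, h4⟩ := hfix k (hc2 k rfl)
  refine ⟨⟨y * k * y⁻¹, K.mul_mem (K.mul_mem hy k.2) (K.inv_mem hy)⟩, isConj_iff.2 ⟨⟨y, hy⟩, rfl⟩,
    fun x hx => ?_⟩
  change x * (y * k * y⁻¹) * x⁻¹ = y * k * y⁻¹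
  rw [h4 x hx]; simp

end Cfsg.Agent.S4911
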