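import Cfsg.Statements.S4912
import Cfsg.Agent.Lib.Char.H10FS

set_option autoImplicit false
open Cfsg

namespace Cfsg.Agent.S4912
open CA.H10FS CA.MatRep CA.H11FS CA.Clif CA.Gall CA.Ind2 CA.Ext CChar.CharFun CChar.CharOrth CChar.CharInt CChar.CharProd CChar.CharKer CA.Ind Subgroup

/-- Let G be a finite group with a non-abelian minimal normal subgroup N, and let φ be an irreducible complex character of N with stabilizer I in G such that φ extends to an irreducible character of I with Frobenius–Schur indicator +1. Put d = φ(1)·[G : I]. Then the number of linear characters of G with Frobenius–Schur indicator +1 is at most [G : I] times the number of irreducible characters of G of degree d with Frobenius–Schur indicator +1. -/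
theorem result {G : Type*} [Group G] [Finite G] (N : Subgroup G) (hN : N.Normal) (hN1 : N ≠ ⊥) (hmin : ∀ M : Subgroup G, M.Normal → M ≤ N → M = ⊥ ∨ M = N) (hna : ¬ IsMulCommutative ↥N) (φ : Cfsg.IrrCharacter ↥N) (I : Subgroup G) (hI : ∀ g : G, g ∈ I ↔ ∀ n n' : ↥N, (n' : G) = g * (n : G) * g⁻¹ → (φ : ↥N → ℂ) n' = (φ : ↥N → ℂ) n) (hNI : N ≤ I) (hext : ∃ ψ : Cfsg.IrrCharacter ↥I, (Nat.card ↥I : ℂ)⁻¹ * ∑ᶠ g : ↥I, (ψ : ↥I → ℂ) (g * g) = 1 ∧ ∀ n : ↥N, (ψ : ↥I → ℂ) (Subgroup.inclusion hNI n) = (φ : ↥N → ℂ) n) : Nat.card {χ : Cfsg.IrrCharacter G // Cfsg.charDegree (χ : G → ℂ) = 1 ∧ (Nat.card G : ℂ)⁻¹ * ∑ᶠ g : G, (χ : G → ℂ) (g * g) = 1} ≤ I.index * Nat.card {χ : Cfsg.IrrCharacter G // Cfsg.charDegree (χ : G → ℂ) = Cfsg.charDegree (φ : ↥N → ℂ) * I.index ∧ (Nat.card G : ℂ)⁻¹ * ∑ᶠ g : G, (χ : G → ℂ) (g * g) = 1} := by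
  classical
  have := Fintype.ofFinite G
  have := Fintype.ofFinite N
  obtain rfl : I = inertia φ.1 := eq_inertia fun g => (hI g).trans
    ⟨fun h n => h n _ rfl, fun h n n' e => (congrArg _ (Subtype.ext e)).trans (h n)⟩
  simp only [finsum_eq_sum_of_fintype] at hext ⊢
  obtain ⟨ψ, hf, hψ⟩ := hext
  have e : classInner (fun n : N => ψ.1 ⟨n, hNI n.2⟩) φ.1 = 1 :=
    (congrArg (classInner · _) (funext hψ)).trans (inner_irr_self φ.2)
  obtain ⟨a, b⟩ := corr_irr hNI φ.2 rfl ψ.2 (e.trans_ne one_ne_zero)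
  obtain ⟨c, -, d⟩ := count_lin (le_comm_of_min hmin hna) a φ.2 (b.trans e)
  exact c ▸ d ((RR.ind (exists_real ψ.2 hf)).fs a)

end Cfsg.Agent.S4912
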