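import Cfsg.Statements.S4914
import Cfsg.Agent.Lib.Char.H12Rel

set_option autoImplicit false
open Cfsg

namespace Cfsg.Agent.S4914

open CA.PF CA.OQuo CA.H12Gl CA.H12Gl2 CA.H12Rel Subgroup
open CA.BG hiding cj cj_one cj_mul cj_inv_cj cj_cj_inv mem_cent1

/-- Let P and K be subgroups of a finite group G with P a p-group normalizing K, and suppose K has a normal Sylow p-subgroup Q. Let C be the subgroup of those k ∈ K whose commutator with every element of P lies in Q (so that C/Q is the fixed-point subgroup of P on K/Q). Then there is a bijection f from the P-invariant irreducible complex characters of K onto the P-invariant irreducible complex characters of C such that, for every P-invariant irreducible character χ of K, the multiplicity of f(χ) in the restriction of χ to C is a natural number congruent to 1 or to −1 modulo p, every other P-invariant irreducible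 character of C occurs in that restriction with multiplicity divisible by p, and the degrees of χ and f(χ) are congruent modulo p up to sign. -/
theorem result {G : Type*} [Group G] [Finite G] (p : ℕ) [Fact p.Prime] (P K Q C : Subgroup G) (hP : IsPGroup p ↥P) (hPK : P ≤ Subgroup.normalizer (K : Set G)) (hQK : Q ≤ K) (hQn : ∀ k ∈ K, ∀ q ∈ Q, k * q * k⁻¹ ∈ Q) (hQp : ∃ a : ℕ, Nat.card ↥Q = p ^ a) (hQsyl : ¬ p ∣ Q.relIndex K) (hCK : C ≤ K) (hC : ∀ k : G, k ∈ C ↔ (k ∈ K ∧ ∀ x ∈ P, x * k * x⁻¹ * k⁻¹ ∈ Q)) : ∃ f : {χ : Cfsg.IrrCharacter ↥K // (∀ x ∈ P, ∀ k k' : ↥K, (k' : G) = x * (k : G) * x⁻¹ → (χ : ↥K → ℂ) k' = (χ : ↥K → ℂ) k)} → {ξ : Cfsg.IrrCharacter ↥C // (∀ x ∈ P, ∀ k k' : ↥C, (k' : G) = x * (k : G) * x⁻¹ → (ξ : ↥C → ℂ) k' = (ξ : ↥C → ℂ) k)}, Function.Bijective f ∧ ∀ χ, (∀ ξ : {ξ : Cfsg.IrrCharacter ↥C // (∀ x ∈ P, ∀ k k' : ↥C, (k' : G) = x * (k : G) * x⁻¹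 → (ξ : ↥C → ℂ) k' = (ξ : ↥C → ℂ) k)}, ∃ m : ℕ, (Nat.card ↥C : ℂ)⁻¹ * ∑ᶠ c : ↥C, (χ.1 : ↥K → ℂ) (Subgroup.inclusion hCK c) * (starRingEnd ℂ) ((ξ.1 : ↥C → ℂ) c) = (m : ℂ) ∧ (ξ = f χ → ((m : ZMod p) = 1 ∨ (m : ZMod p) = -1)) ∧ (ξ ≠ f χ → p ∣ m)) ∧ ((Cfsg.charDegree ((f χ).1 : ↥C → ℂ) : ZMod p) = (Cfsg.charDegree (χ.1 : ↥K → ℂ) : ZMod p) ∨ (Cfsg.charDegree ((f χ).1 : ↥C → ℂ) : ZMod p) = -(Cfsg.charDegree (χ.1 : ↥K → ℂ) : ZMod p)) := by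
  have := Fintype.ofFinite G
  have := Fintype.ofFinite C
  have H : Hyp p P K Q C := ⟨hP, hPK, ⟨hQK, hQn⟩, IsPGroup.iff_card.2 hQp, hQsyl, hC⟩
  have h0 : ∀ {L : Subgroup G} (χ : L → ℂ), charDegree (extendByZero L χ) = charDegree χ :=
    fun {L} χ => by rw [charDegree, charDegree, ← congrFun (res_ext L χ) 1, OneMemClass.coe_one]
  have key : ∀ χ : {χ : IrrCharacter K // ∀ x ∈ P, ∀ k k' : K, (k' : G) = x * (k : G) * x⁻¹ →
      χ.1 k' = χ.1 k}, ∃ ξ : {ξ : IrrCharacter C // ∀ x ∈ P, ∀ k k' : C,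
        (k' : G) = x * (k : G) * x⁻¹ → ξ.1 k' = ξ.1 k},
      GR p C (extendByZero K χ.1.1) (extendByZero C ξ.1.1) ∧
      (∀ m : ℕ, dot C (extendByZero K χ.1.1) (extendByZero C ξ.1.1) = m →
        (m : ℤ) ≡ 1 [ZMOD p] ∨ (m : ℤ) ≡ -1 [ZMOD p]) ∧
      ∀ ξ' ∈ irr C, P ≤ stab ξ' → GR p C (extendByZero K χ.1.1) ξ' →
        ξ' = extendByZero C ξ.1.1 := fun χ => by
    obtain ⟨ξ, h1, h2, h3⟩ := H.rel_exists (ext_mem_irr.2 χ.1.2) ((le_stab_ext_iff hPK _).2 χ.2)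
    obtain ⟨ξ, rfl⟩ := exists_ext h1
    exact ⟨⟨ξ, (le_stab_ext_iff H.nC _).1 h2⟩, h3⟩
  choose f h1 h2 h3 using key
  have h4 : ∀ χ (m : ℕ), dot C (extendByZero K χ.1.1) (extendByZero C (f χ).1.1) = m →
      (m : ZMod p) = 1 ∨ (m : ZMod p) = -1 := fun χ m hm =>
    (h2 χ m hm).imp (fun h => by exact_mod_cast (ZMod.intCast_eq_intCast_iff _ _ _).2 h)
      fun h => by exact_mod_cast (ZMod.intCast_eq_intCast_iff _ _ _).2 h
  refine ⟨f, ⟨fun χ χ' e => ?_, fun ξ => ?_⟩, fun χ => ⟨fun ξ => ?_, ?_⟩⟩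
  · obtain ⟨ψ, -, -, -, h5⟩ := H.rel_surj (ext_mem_irr.2 (f χ).1.2)
      ((le_stab_ext_iff H.nC _).2 (f χ).2)
    exact Subtype.ext (Subtype.ext (ext_injective K ((h5 _ (ext_mem_irr.2 χ.1.2)
      ((le_stab_ext_iff hPK _).2 χ.2) (h1 χ)).trans (h5 _ (ext_mem_irr.2 χ'.1.2)
        ((le_stab_ext_iff hPK _).2 χ'.2) (e ▸ h1 χ')).symm)))
  · obtain ⟨χ, h5, h6, h7, -⟩ := H.rel_surj (ext_mem_irr.2 ξ.1.2) ((le_stab_ext_iff H.nC _).2 ξ.2)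
    obtain ⟨χ, rfl⟩ := exists_ext h5
    exact ⟨⟨χ, (le_stab_ext_iff hPK _).1 h6⟩, Subtype.ext (Subtype.ext (ext_injective C
      (h3 ⟨χ, (le_stab_ext_iff hPK _).1 h6⟩ _ (ext_mem_irr.2 ξ.1.2)
        ((le_stab_ext_iff H.nC _).2 ξ.2) h7).symm))⟩
  · obtain ⟨m, hm⟩ := dot_char_over_nat hCK (irr_char (ext_mem_irr.2 χ.1.2))
      (irr_char (ext_mem_irr.2 ξ.1.2))
    refine ⟨m, ?_, fun e => h4 χ m (e ▸ hm), fun hne => not_not.1 fun h => hne ?_⟩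
    · rw [← hm, dot_ext hCK, finsum_eq_sum_of_fintype]
      rfl
    · exact Subtype.ext (Subtype.ext (ext_injective C (h3 χ _ (ext_mem_irr.2 ξ.1.2)
        ((le_stab_ext_iff H.nC _).2 ξ.2) ⟨m, hm, h⟩)))
  · obtain ⟨m, hm, -⟩ := h1 χ
    have h5 := H.deg (ext_mem_irr.2 χ.1.2) ((le_stab_ext_iff hPK _).2 χ.2)
      (ext_mem_irr.2 (f χ).1.2) ((le_stab_ext_iff H.nC _).2 (f χ).2) (h3 χ) hm
    rw [h0, h0] at h5
    rcases h4 χ m hm with h | h <;> simp [h5, h]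

end Cfsg.Agent.S4914
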