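import Cfsg.Statements.S4916
import Cfsg.Agent.Lib.Block.BlkGal
import Cfsg.Agent.Lib.Block.H11Contrib

set_option autoImplicit false
open Cfsg

namespace Cfsg.Agent.S4916
open Cfsg MonoidAlgebra CA.BlkAlg CA.BlkVal CA.BlkOmega CA.BlkRed CA.BlkCore CA.BlkDefect CA.BlkInd CA.BlkHeight CA.SylIn CA.H12PPart CChar.CharFun CChar.CharOrth Subgroup CA.BlkKer CChar.CharKer CA.BlkZero CChar.CharInt CA.BlkReg CA.BlkGal

/-- Let G be a finite group, p a prime and M a maximal ideal of the algebraic integers containing p. Then the principal character is the only irreducible character of degree prime to p in the principal p-block of G if and only if p does not divide the order of G. -/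
theorem result {G : Type*} [Group G] [Finite G] (p : ℕ) [Fact p.Prime] (M : Ideal Cfsg.AlgInt) (hM : Cfsg.IsPModular p M) : (∀ χ : Cfsg.IrrCharacter G, χ ∈ Cfsg.principalBlock M G → ¬ p ∣ Cfsg.charDegree (χ : G → ℂ) → (χ : G → ℂ) = fun _ => (1 : ℂ)) ↔ ¬ p ∣ Nat.card G := by
  classical
  constructor
  · intro h hp
    have h1 := CA.H11Contrib.factorization_sum_degree_sq hM (isPBlock_principalBlock (M := M) (G := G))
    have h2 := blockDefect_add_minNu (p := p) ⟨_, irrOne_mem_principalBlock (G := G) hM⟩
    rw [minNu_principalBlock hM] at h2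
    have h3 := hM.1.factorization_pos_of_dvd Nat.card_pos.ne' hp
    have h4 : p ∣ ∑ χ with χ ∈ principalBlock M G, charDegree χ.1 ^ 2 :=
      Nat.dvd_of_factorization_pos (by omega)
    rw [← Finset.add_sum_erase _ _ (a := irrOne G) (by simpa using irrOne_mem_principalBlock hM),
      charDegree_irrOne, one_pow, Nat.dvd_add_left (Finset.dvd_sum fun χ hχ => ?_)] at h4
    · exact hM.1.one_lt.ne' (Nat.dvd_one.mp h4)
    · simp only [Finset.mem_erase, Finset.mem_filter, Finset.mem_univ, true_and] at hχ
      refine Dvd.dvd.pow ?_ two_ne_zero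
      by_contra h'
      exact hχ.1 (Subtype.ext (h χ hχ.2 h'))
  · intro h χ hχ _
    exact congrArg Subtype.val ((dz_of_not_dvd_card h _).eq_of_mem hM isPBlock_principalBlock
      (irrOne_mem_principalBlock hM) hχ)

end Cfsg.Agent.S4916
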