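import Cfsg.Statements.S4923
import Cfsg.Agent.Lib.Grp.H7Max
import Cfsg.Agent.Lib.Block.H10PRat
import Cfsg.Agent.Lib.Odd.PFIrr

set_option autoImplicit false
open Cfsg

namespace Cfsg.Agent.S4923
open Subgroup CA.GalC CA.H10PRat CA.H7Max CA.MC2 IntermediateField

theorem fix_iff (σ : ℂ ≃+* ℂ) (S : Set ℂ) : (∀ y ∈ adjoin ℚ S, σ y = y) ↔ ∀ y ∈ S, σ y = y := by
  refine ⟨fun h y hy => h y (subset_adjoin _ _ hy), fun h y hy => ?_⟩
  induction hy using adjoin_induction with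
  | mem x hx => exact h x hx
  | algebraMap q => simp
  | add x y _ _ h1 h2 => rw [map_add, h1, h2]
  | inv x _ h1 => rw [map_inv₀, h1]
  | mul x y _ _ h1 h2 => rw [map_mul, h1, h2]

theorem adjoin_eq_iff {S T : Set ℂ} (hS : ∀ x ∈ S, IsIntegral ℚ x) (hT : ∀ x ∈ T, IsIntegral ℚ x) :
    adjoin ℚ S = adjoin ℚ T ↔ ∀ σ : ℂ ≃+* ℂ, (∀ y ∈ S, σ y = y) ↔ ∀ y ∈ T, σ y = y := by
  refine ⟨fun e σ => by rw [← fix_iff, e, fix_iff], fun h => ?_⟩
  have : Algebra.IsAlgebraic ℚ (adjoin ℚ S) := isAlgebraic_adjoin hS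
  have : Algebra.IsAlgebraic ℚ (adjoin ℚ T) := isAlgebraic_adjoin hT
  exact le_antisymm (adjoin_le_iff.2 fun x hx => mem_of_fixed _ (hS x hx) fun σ e =>
    (h σ).2 ((fix_iff σ T).1 e) x hx) (adjoin_le_iff.2 fun x hx => mem_of_fixed _ (hT x hx)
      fun σ e => (h σ).1 ((fix_iff σ S).1 e) x hx)

theorem field_iff {G : Type*} [Group G] [Finite G] {g : G} {N : ℕ} (hN : 0 < N) (hg : g ^ N = 1)
    {ζ ε : ℂ} (hζ : ζ ^ N = 1) (hε : ε = 1 ∨ ε = -1) :
    adjoin ℚ {z : ℂ | ∃ χ : IrrCharacter G, (χ : G → ℂ) g = z} = adjoin ℚ {ζ + ε * ζ⁻¹} ↔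
      ∀ k : ℕ, k.Coprime N → (IsConj g (g ^ k) ↔ ζ ^ k = ζ ∨ ζ ^ (k + 1) = ε) := by
  have := Fintype.ofFinite G
  have h0 : ζ ≠ 0 := by rintro rfl; simp [hN.ne'] at hζ
  have h1 : IsIntegral ℚ ζ := IsIntegral.of_pow hN (hζ ▸ isIntegral_one)
  have h2 : ∀ (σ : ℂ ≃+* ℂ) (k : ℕ), (∀ z : ℂ, z ^ N = 1 → σ z = z ^ k) →
      (((∀ y ∈ {z : ℂ | ∃ χ : IrrCharacter G, (χ : G → ℂ) g = z}, σ y = y) ↔ IsConj g (g ^ k)) ∧
      ((∀ y ∈ ({ζ + ε * ζ⁻¹} : Set ℂ), σ y = y) ↔ ζ ^ k = ζ ∨ ζ ^ (k + 1) = ε)) := fun σ k h => by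
    have h3 : ∀ χ : IrrCharacter G, σ (χ.1 g) = χ.1 (g ^ k) := fun χ =>
      (CA.PF.irr_char (CA.PF.mem_irr_top.2 χ.2)).aut_apply σ.toRingHom (mem_top g) fun z hz =>
        h z (by obtain ⟨c, rfl⟩ := orderOf_dvd_of_pow_eq_one hg; rw [pow_mul, hz, one_pow])
    refine ⟨?_, ?_⟩
    · rw [CChar.CharOrth.isConj_iff_irr]
      exact ⟨fun e χ => (e _ ⟨χ, rfl⟩).symm.trans (h3 χ), fun e _ ⟨χ, k⟩ => k ▸ (h3 χ).trans (e χ).symm⟩
    · have h4 : σ ε = ε := by rcases hε with rfl | rfl <;> simp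
      have h5 : ε * ε = 1 := by rcases hε with rfl | rfl <;> simp
      simp only [Set.mem_singleton_iff, forall_eq, map_add, map_mul, map_inv₀, h ζ hζ, h4]
      rw [← sub_eq_zero (a := ζ ^ k), ← sub_eq_zero (a := ζ ^ (k + 1)), ← mul_eq_zero, pow_succ]
      have := pow_ne_zero k h0
      generalize ζ ^ k = w at *
      field_simp
      exact ⟨fun e => by linear_combination e, fun e => by linear_combination e⟩
  rw [adjoin_eq_iff (by rintro _ ⟨χ, rfl⟩; exact ((CA.PF.irr_char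
    (CA.PF.mem_irr_top.2 χ.2)).isIntegral g).tower_top) (by
      rintro _ rfl
      refine h1.add (IsIntegral.mul ?_ h1.inv)
      rcases hε with rfl | rfl
      exacts [isIntegral_one, isIntegral_one.neg])]
  refine ⟨fun h k hk => ?_, fun h σ => ?_⟩
  · obtain ⟨σ, hσ⟩ := exists_equiv_pow hN hk
    rw [← (h2 σ k hσ).1, h σ, (h2 σ k hσ).2]
  · obtain ⟨k, hk, hσ⟩ := exists_pow_of_hom σ.toRingHom hN
    rw [(h2 σ k hσ).1, h k hk, (h2 σ k hσ).2]

theorem conj_in {G : Type*} [Group G] [Finite G] (P : Sylow 2 G) {g : G} {j k : ℕ}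
    (hj : orderOf g = 2 ^ (j + 1)) (hP : P.1 ≤ normalizer (zpowers g : Set G))
    (h : IsConj g (g ^ k)) : ∃ y ∈ P.1, y * g * y⁻¹ = g ^ k := by
  obtain ⟨x, hx⟩ := isConj_iff.1 h
  have h1 : x ∈ normalizer (zpowers g : Set G) := mem_normalizer_fintype (by
    rintro _ ⟨i, rfl⟩
    rw [← conj_zpow, hx]
    exact zpow_mem (pow_mem (mem_zpowers g) k) i)
  set f := (zpowers g).normalizerMonoidHom
  have h2 : P.1.subgroupOf _ ⊔ f.ker = ⊤ := by
    rw [← index_eq_one]
    have h3 := (index_dvd_of_le (le_sup_right (a := P.1.subgroupOf _))).trans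
      (index_ker f ▸ card_subgroup_dvd_card f.range)
    rw [IsCyclic.card_mulAut, Nat.card_zpowers, hj, Nat.totient_prime_pow_succ Nat.prime_two,
      Nat.add_one_sub_one, mul_one] at h3
    exact Nat.eq_one_of_dvd_coprimes (Nat.Coprime.pow_left j ((Nat.Prime.coprime_iff_not_dvd
      Nat.prime_two).2 P.not_dvd_index)) h3
      ((index_dvd_of_le le_sup_left).trans (relIndex_dvd_index_of_le hP))
  obtain ⟨y, hy, c, hc, e⟩ := mem_sup_of_normal_right.1 (h2.ge (mem_top ⟨x, h1⟩))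
  rw [normalizerMonoidHom_ker] at hc
  refine ⟨y, hy, ?_⟩
  rw [← hx, ← show (y : G) * c = x from congrArg Subtype.val e, mul_assoc _ _ g,
    ← show g * c = c * g from mem_centralizer_iff.1 hc g (mem_zpowers g)]
  group

/-- Let G be a finite group with Sylow 2-subgroup P of order 2^n ≥ 8, and let ζ be a primitive 2^(n−1)-th root of unity in ℂ. Then the commutator subgroup of P has index 4 in P if and only if there is an element g of P whose conjugacy class in G has even size and such that the field generated over ℚ by the values at g of all irreducible complex characters of G equals ℚ(ζ + ζ⁻¹) or ℚ(ζ − ζ⁻¹). -/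
theorem result {G : Type*} [Group G] [Finite G] (P : Sylow 2 G) (n : ℕ) (hn : 3 ≤ n) (hP : Nat.card P = 2 ^ n) (ζ : ℂ) (hζ : IsPrimitiveRoot ζ (2 ^ (n - 1))) :
    (commutator ↥P).index = 4 ↔
      ∃ g : G, g ∈ (P : Subgroup G) ∧ 2 ∣ (Subgroup.centralizer ({g} : Set G)).index ∧
        (IntermediateField.adjoin ℚ {z : ℂ | ∃ χ : Cfsg.IrrCharacter G, (χ : G → ℂ) g = z} = IntermediateField.adjoin ℚ ({ζ + ζ⁻¹} : Set ℂ) ∨
          IntermediateField.adjoin ℚ {z : ℂ | ∃ χ : Cfsg.IrrCharacter G, (χ : G → ℂ) g = z} = IntermediateField.adjoin ℚ ({ζ - ζ⁻¹} : Set ℂ)) := by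
  obtain ⟨m, rfl⟩ : ∃ m, n = m + 3 := ⟨n - 3, by omega⟩
  replace hζ : IsPrimitiveRoot ζ (2 ^ (m + 2)) := hζ
  have hN : 0 < 2 ^ (m + 3) := by positivity
  have hζ' : ζ ^ 2 ^ (m + 3) = 1 := by rw [pow_succ, pow_mul, hζ.pow_eq_one, one_pow]
  have hg : ∀ g ∈ P.1, g ^ 2 ^ (m + 3) = 1 := fun g hg => hP ▸ CA.PF.pow_card_of_mem hg
  have hm1 : ζ ^ 2 ^ (m + 1) = -1 := (hζ.pow (by positivity) (pow_succ 2 (m + 1))).eq_neg_one_of_two_right
  have h0 : ζ ≠ 0 := hζ.ne_zero (by positivity)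
  have hz : ∀ a : G, orderOf a = 2 ^ (m + 2) → ∀ i j : ℤ, ζ ^ i = ζ ^ j ↔ a ^ i = a ^ j :=
    fun a ha i j => by
      rw [zpow_eq_zpow_iff_modEq, ha, Int.modEq_comm, Int.modEq_iff_dvd,
        ← hζ.zpow_eq_one_iff_dvd, zpow_sub₀ h0, div_eq_one_iff_eq (zpow_ne_zero _ h0)]
  refine ⟨fun h => ?_, fun ⟨g, h1, h2, h3⟩ => ?_⟩
  · have hna : ¬ IsMulCommutative P := fun e => by
      have e' := (commutator_eq_bot_iff P.1).2 e
      replace h : (commutator P.1).index = 4 := h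
      rw [e', index_bot, show Nat.card P.1 = _ from hP] at h
      have := Nat.pow_le_pow_right two_pos (show 3 ≤ m + 3 by omega)
      omega
    obtain ⟨m', a, y, h1, h2⟩ := taussky P.isPGroup' h hna
    obtain ⟨ε, δ, hε, h1⟩ : ∃ ε δ, (ε = 0 ∨ ε = 1) ∧ MC (m' + 1) ε δ a y := by
      rcases h1 with h | h | h
      exacts [⟨_, _, Or.inl rfl, h⟩, ⟨_, _, Or.inl rfl, h⟩, ⟨_, _, Or.inr rfl, h.2⟩]
    obtain rfl : m' = m := by
      have := h1.card
      rw [h2, card_top, hP, Nat.pow_right_inj one_lt_two] at this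
      omega
    replace h1 := h1.map P.1.subtype P.1.subtype_injective
    replace h2 : zpowers (a : G) ⊔ zpowers (y : G) = P := by
      have := congrArg (map P.1.subtype) h2
      rwa [Subgroup.map_sup, MonoidHom.map_zpowers, MonoidHom.map_zpowers, ← MonoidHom.range_eq_map,
        range_subtype] at this
    have h3 : P.1 ≤ normalizer (zpowers (a : G) : Set G) :=
      h2.ge.trans (sup_le le_normalizer (zpowers_le.2 h1.mem_normalizer))
    have h4 : ∀ η : ℂ, η = ζ ^ (2 ^ (m' + 1) * ε : ℤ) → ∀ k : ℕ, k.Coprime (2 ^ (m' + 3)) →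
        (IsConj (a : G) (a ^ k) ↔ ζ ^ k = ζ ∨ ζ ^ (k + 1) = η) := fun η e k _ => by
      have k1 : ζ ^ k = ζ ↔ (a : G) ^ k = a := by simpa using hz a h1.ord k 1
      have k2 : ζ ^ (k + 1) = η ↔ (a : G) ^ k = y * a * (y : G)⁻¹ := by
        rw [show (y : G) * a * (y : G)⁻¹ = _ from h1.conj, ← zpow_natCast (a : G), e, pow_succ,
          ← eq_div_iff h0, ← zpow_natCast, div_eq_mul_inv, ← zpow_sub_one₀ h0]
        exact hz a h1.ord _ _
      rw [k1, k2]
      refine ⟨fun h => ?_, fun h => h.elim (fun h => h.symm ▸ IsConj.refl _)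
        fun h => isConj_iff.2 ⟨_, h.symm⟩⟩
      obtain ⟨x, hx, e⟩ := conj_in P h1.ord h3 h
      rw [← show x * a * x⁻¹ = (a : G) ^ k from e]
      obtain ⟨i, rfl | rfl⟩ := h1.mem_iff.1 (h2.ge hx)
      · exact Or.inl (by simp only [coe_subtype]; group)
      · refine Or.inr ?_
        have := h1.conj
        simp only [coe_subtype] at this ⊢
        rw [show (a : G) ^ i * y * a * ((a : G) ^ i * y)⁻¹ =
          (a : G) ^ i * (y * a * (y : G)⁻¹) * ((a : G) ^ i)⁻¹ by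
          group, this]
        group
    refine ⟨a, a.2, ?_, hε.imp (fun e => ?_) fun e => ?_⟩
    · have k1 := relIndex_dvd_index_of_normal ((centralizer (zpowers (a : G) : Set G)).subgroupOf
        (normalizer (zpowers (a : G) : Set G))) (P.1.subgroupOf _)
      rw [relIndex_subgroupOf h3, CA.BG.cent_zpowers] at k1
      refine dvd_trans ?_ (k1.trans (relIndex_dvd_index_of_le ?_))
      · obtain ⟨i, -, e⟩ := (Nat.dvd_prime_pow Nat.prime_two).1
          (hP ▸ relIndex_dvd_card (centralizer {(a : G)}) P.1)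
        refine e ▸ dvd_pow_self 2 fun e' => ?_
        rw [e', pow_zero, relIndex_eq_one] at e
        have := (h1.commute_iff (i := 1)).1 (by simpa using (CA.PF.mem_cent1.1 (e y.2)))
        rw [pow_succ] at this
        exact absurd (dvd_of_mul_left_dvd this) (by norm_num)
      · rw [← CA.BG.cent_zpowers]; exact centralizer_le_normalizer _
    · simpa using (field_iff hN (hg _ a.2) hζ' (Or.inl rfl)).2 (h4 1 (by simp [e]))
    · simpa [sub_eq_add_neg] using (field_iff hN (hg _ a.2) hζ' (Or.inr rfl)).2 (h4 (-1) (by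
        rw [e, mul_one, ← hm1]; norm_cast))
  · have k1 := card_der_le (H := P.1) (n := m + 1) Nat.prime_two hP
    suffices k2 : 2 ^ (m + 1) ≤ Nat.card (⁅P.1, P.1⁆ : Subgroup G) by
      have k3 := card_mul_index (commutator P.1)
      rw [← card_map_of_injective P.1.subtype_injective, map_subtype_commutator,
        le_antisymm k1 k2, show Nat.card P.1 = _ from hP,
        show 2 ^ (m + 3) = 2 ^ (m + 1) * 4 by ring] at k3
      exact Nat.eq_of_mul_eq_mul_left (by positivity) k3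
    have k2 : ¬ P.1 ≤ centralizer {g} := fun e => P.not_dvd_index (h2.trans (index_dvd_of_le e))
    rcases m with _ | m
    · refine (Nat.succ_le_of_lt (one_lt_card_iff_ne_bot _ |>.2 fun e => k2 fun x hx => ?_))
      exact CA.PF.mem_cent1.2 (commutatorElement_eq_one_iff_mul_comm.1
        (mem_bot.1 (e.le (commutator_mem_commutator hx h1))))
    obtain ⟨ε, hε, h3⟩ : ∃ ε : ℂ, (ε = 1 ∨ ε = -1) ∧ ∀ k : ℕ, k.Coprime (2 ^ (m + 1 + 3)) →
        (IsConj g (g ^ k) ↔ ζ ^ k = ζ ∨ ζ ^ (k + 1) = ε) := by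
      rcases h3 with h | h
      · exact ⟨1, Or.inl rfl, (field_iff hN (hg g h1) hζ' (Or.inl rfl)).1 (by simpa using h)⟩
      · exact ⟨-1, Or.inr rfl, (field_iff hN (hg g h1) hζ' (Or.inr rfl)).1
          (by simpa [sub_eq_add_neg] using h)⟩
    have k3 : ∀ k : ℕ, Odd k → k.Coprime (2 ^ (m + 1 + 3)) := fun k hk =>
      Nat.Coprime.pow_right _ (Nat.coprime_two_right.2 hk)
    obtain ⟨j, hj, k4⟩ := (Nat.dvd_prime_pow Nat.prime_two).1 (orderOf_dvd_of_pow_eq_one (hg g h1))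
    obtain rfl : j = m + 1 + 2 := by
      refine le_antisymm (Nat.le_of_lt_succ (lt_of_le_of_ne hj fun e => k2 ?_)) (not_lt.1 fun e => ?_)
      · rw [← eq_of_le_of_card_ge (zpowers_le.2 h1) (by
          rw [Nat.card_zpowers, k4, e]; exact hP.le), zpowers_le]
        exact CA.PF.mem_cent1.2 rfl
      · have k5 := (h3 (2 ^ (m + 1 + 1) + 1) (k3 _ (Even.add_one ⟨2 ^ (m + 1), by ring⟩))).1 (by
          rw [pow_succ, orderOf_dvd_iff_pow_eq_one.1 (k4 ▸ pow_dvd_pow 2 (by omega)), one_mul])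
        rw [pow_succ ζ (_ + 1), pow_succ ζ, hm1] at k5
        rcases k5 with k5 | k5
        · exact h0 (by linear_combination -k5 / 2)
        · have := (hζ.pow_eq_one_iff_dvd 4).1 (by
            rcases hε with rfl | rfl
            · linear_combination (1 - ζ ^ 2) * k5
            · linear_combination (-1 - ζ ^ 2) * k5)
          have := Nat.le_of_dvd four_pos this
          have := Nat.pow_le_pow_right two_pos (show 3 ≤ m + 1 + 2 by omega)
          omega
    have k5 : P.1 ≤ normalizer (zpowers g : Set G) := by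
      rw [← normal_subgroupOf_iff_le_normalizer (zpowers_le.2 h1)]
      refine normal_of_index_eq_two ?_
      have := card_mul_index ((zpowers g).subgroupOf P.1)
      rw [Nat.card_congr (subgroupOfEquivOfLe (zpowers_le.2 h1)).toEquiv, Nat.card_zpowers, k4,
        show Nat.card P.1 = _ from hP, pow_succ 2 (m + 1 + 2)] at this
      exact Nat.eq_of_mul_eq_mul_left (by positivity) this
    obtain ⟨t, ht, k6⟩ : ∃ t, Odd t ∧ ζ ^ (2 * t + 1 + 1) = ε := by
      rcases hε with rfl | rfl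
      · refine ⟨2 ^ (m + 1 + 1) - 1, Nat.Even.sub_odd Nat.one_le_two_pow ⟨2 ^ (m + 1), by ring⟩ odd_one, ?_⟩
        rw [← hζ.pow_eq_one, pow_succ 2 (m + 1 + 1)]
        congr 1
        have := @Nat.one_le_two_pow (m + 1 + 1)
        omega
      · refine ⟨2 ^ (m + 1) - 1, Nat.Even.sub_odd Nat.one_le_two_pow ⟨2 ^ m, by ring⟩ odd_one, ?_⟩
        rw [← hm1, pow_succ 2 (m + 1)]
        congr 1
        have := @Nat.one_le_two_pow (m + 1)
        omega
    obtain ⟨y, hy, k7⟩ := conj_in P k4 k5 ((h3 _ (k3 _ (odd_two_mul_add_one t))).2 (Or.inr k6))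
    have k8 : g ^ (2 * t) ∈ ⁅P.1, P.1⁆ := by
      have := commutator_mem_commutator hy h1
      rwa [commutatorElement_def, k7, pow_succ, mul_inv_cancel_right] at this
    have k9 := card_le_of_le (zpowers_le.2 k8)
    rwa [Nat.card_zpowers, pow_mul, Nat.Coprime.orderOf_pow, orderOf_pow_of_dvd two_ne_zero
      (k4 ▸ dvd_pow_self 2 (by omega)), k4, pow_succ 2 (m + 1 + 1), Nat.mul_div_cancel _ two_pos]
      at k9
    exact ((k3 t ht).symm.coprime_dvd_left (orderOf_dvd_of_pow_eq_one (hg _ (pow_mem h1 2))))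

end Cfsg.Agent.S4923
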