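import Cfsg.Statements.S4931
import Cfsg.Agent.Lib.Char.H10FS
import Cfsg.Agent.Lib.Grp.NPC2
import Cfsg.Agent.Lib.Grp.L0Syl
import Cfsg.Agent.Lib.Grp.PGFrattini

set_option autoImplicit false
open Cfsg

namespace Cfsg.Agent.S4931
open CA.H10FS CA.MatRep CA.H11FS CA.Clif CA.Gall CA.Ind2 CA.Ext CChar.CharFun CChar.CharOrth CChar.CharInt CChar.CharProd CChar.CharKer CA.Ind Subgroup

open scoped commutatorElement

theorem npc {L : Type*} [Group L] [Finite L] {p : ℕ} [Fact p.Prime] (Q : Sylow p L) (D : Subgroup L)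
    [D.Normal] (hN : normalizer ((Q : Subgroup L) : Set L) ≤ Q) (h1 : ⁅(Q : Subgroup L), (Q : Subgroup L)⁆ ≤ D)
    (h2 : D ⊓ Q ≤ ⁅(Q : Subgroup L), (Q : Subgroup L)⁆) : HasNormalPComplement p L := by
  have hf := QuotientGroup.mk'_surjective D
  have hq : HasNormalPComplement p (L ⧸ D) := by
    apply CA.PRes.hasNPC_of_normalizer_le_centralizer (Q.mapSurjective hf)
    intro x hx
    obtain ⟨g, rfl⟩ := hf x
    have h3 : g ∈ (normalizer (((Q.mapSurjective hf : Sylow p (L ⧸ D)) : Subgroup (L ⧸ D)) : Set (L ⧸ D))).comap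
      (QuotientGroup.mk' D) := hx
    rw [comap_normalizer_eq_of_surjective _ hf, Sylow.coe_mapSurjective, comap_map_eq,
      QuotientGroup.ker_mk', CA.L0Syl.normalizer_sup] at h3
    obtain ⟨n, hn, d, hd, rfl⟩ := (mem_sup_of_normal_right).1 h3
    intro y hy
    obtain ⟨q, hq, rfl⟩ : ∃ q ∈ (Q : Subgroup L), QuotientGroup.mk' D q = y := hy
    have hd1 : QuotientGroup.mk' D d = 1 := (QuotientGroup.eq_one_iff d).2 hd
    rw [map_mul, hd1, mul_one, ← commutatorElement_eq_one_iff_mul_comm, ← map_commutatorElement]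
    exact (QuotientGroup.eq_one_iff _).2 (h1 (commutator_mem_commutator hq (hN hn)))
  apply CA.NPC2.hasNPC_of_inf_le_frattini Q
  intro x hx
  have h4 := (CA.PRes.hasNPC_iff_inf_eq_bot (Q.mapSurjective hf)).1 hq
  have h5 : QuotientGroup.mk' D x ∈ pResidual p (L ⧸ D) ⊓ (Q.mapSurjective hf : Subgroup (L ⧸ D)) :=
    ⟨CA.PRes.map_pResidual_le _ ⟨x, hx.1, rfl⟩, ⟨x, hx.2, rfl⟩⟩
  rw [h4, mem_bot] at h5
  exact CA.PGFrattini.commutator_le_map_frattini Q.2 (h2 ⟨(QuotientGroup.eq_one_iff x).1 h5, hx.2⟩)

/-- Let G be a finite group, p a prime and P a Sylow p-subgroup of G with normalizer N. Then every irreducible complex character of N of degree not divisible by p is the restriction of an irreducible character of G if and only if there is a normal subgroup K of G with KN = G and K ∩ N = 1. -/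
theorem result {G : Type*} [Group G] [Finite G] (p : ℕ) [Fact p.Prime] (P : Sylow p G) :
    (∀ θ : Cfsg.IrrCharacter ↥(Subgroup.normalizer ((P : Subgroup G) : Set G)), ¬ p ∣ Cfsg.charDegree (θ : ↥(Subgroup.normalizer ((P : Subgroup G) : Set G)) → ℂ) →
        ∃ χ : Cfsg.IrrCharacter G, ∀ x : ↥(Subgroup.normalizer ((P : Subgroup G) : Set G)), (χ : G → ℂ) x = (θ : ↥(Subgroup.normalizer ((P : Subgroup G) : Set G)) → ℂ) x) ↔
      ∃ K : Subgroup G, K.Normal ∧ K ⊔ Subgroup.normalizer ((P : Subgroup G) : Set G) = ⊤ ∧ K ⊓ Subgroup.normalizer ((P : Subgroup G) : Set G) = ⊥ := by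
  classical
  haveI : Fintype G := Fintype.ofFinite _
  set N := Subgroup.normalizer ((P : Subgroup G) : Set G) with hNdef
  haveI : Fintype N := Fintype.ofFinite _
  have hPN : (P : Subgroup G) ≤ N := le_normalizer
  constructor
  · intro H
    haveI hn1 : ((P : Subgroup G).subgroupOf N).Normal := normal_in_normalizer
    haveI : Fintype ((P : Subgroup G).subgroupOf N) := Fintype.ofFinite _
    have hidx : ¬ p ∣ ((P : Subgroup G).subgroupOf N).index := fun h =>
      P.not_dvd_index (h.trans (relIndex_dvd_index_of_le hPN))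
    have key : ∀ M : Subgroup G, M ≤ N → ⁅(P : Subgroup G), (P : Subgroup G)⁆ ≤ M →
        (M.subgroupOf N).Normal → normalClosure (M : Set G) ⊓ N ≤ M := by
      intro M hMN hM hn x hx
      have : (⟨x, hx.2⟩ : N) ∈ M.subgroupOf N := by
        apply mem_of_forall_irr
        intro θ hθ hk
        have hr : IsCharacter ((P : Subgroup G).subgroupOf N)
          (fun n : (P : Subgroup G).subgroupOf N => θ n) := char_comp (char_of_irr hθ) (Subgroup.subtype _)
        obtain ⟨φ, hφ, hi⟩ := exists_irr_inner_ne_zero (char_classFun hr) (fun h => by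
          have := congrFun h 1
          exact irr_apply_one_ne_zero hθ (by simpa using this))
        obtain ⟨e, he, h1⟩ := CA.Ext.exists_dvd_index hφ hθ hi
        have hφ1 : φ 1 = 1 := by
          rw [irr_apply_one_iff hφ]
          refine le_trans ?_ (charKer_le_of_inner_ne_zero hr hφ hi)
          rw [_root_.commutator_def, commutator_le]
          intro a _ b _
          rw [mem_charKer hr]
          apply apply_of_mem_charKer (hk _)
          exact hM (commutator_mem_commutator a.2 b.2)
        rw [hφ1, mul_one] at h1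
        obtain ⟨χ, hχ⟩ := H ⟨θ, hθ⟩ (by
          rw [charDegree_eq h1]; exact fun h => hidx (h.trans he))
        have hk2 : normalClosure (M : Set G) ≤ charKer χ.1 := by
          apply normalClosure_le_normal
          intro m hm
          have a1 := hχ ⟨m, hMN hm⟩
          have a2 := hχ 1
          rw [SetLike.mem_coe, mem_charKer (char_of_irr χ.2)]
          exact a1.trans ((apply_of_mem_charKer (hk (show (⟨m, hMN hm⟩ : N) ∈ M.subgroupOf N from hm))).trans a2.symm)
        exact (hχ ⟨x, hx.2⟩).symm.trans ((apply_of_mem_charKer (hk2 hx.1)).trans (hχ 1))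
      exact this
    have hPP : ⁅(P : Subgroup G), (P : Subgroup G)⁆ ≤ P := commutator_le_self _
    have k1 := key P hPN hPP hn1
    have k2 := key _ (hPP.trans hPN) le_rfl (by
      rw [normal_subgroupOf_iff_le_normalizer (hPP.trans hPN)]
      intro g hg
      have e : (P : Subgroup G).map (MulAut.conj g).toMonoidHom = P := by
        ext y
        simp only [mem_map, MulEquiv.coe_toMonoidHom, MulAut.conj_apply]
        constructor
        · rintro ⟨z, hz, rfl⟩; exact (mem_normalizer_iff.1 hg z).1 hz
        · intro hy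
          exact ⟨g⁻¹ * y * g, by simpa using (mem_normalizer_iff.1 (N.inv_mem hg) y).1 hy, by
            simp [mul_assoc]⟩
      have e2 : (⁅(P : Subgroup G), (P : Subgroup G)⁆).map (MulAut.conj g).toMonoidHom =
          ⁅(P : Subgroup G), (P : Subgroup G)⁆ := by rw [map_commutator, e]
      rw [mem_normalizer_iff]
      intro y
      constructor
      · intro hy; rw [← e2]; exact ⟨y, hy, rfl⟩
      · intro hy
        rw [← e2] at hy
        obtain ⟨z, hz, hzy⟩ := hy
        have : z = y := by simpa using hzy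
        exact this ▸ hz)
    set L := normalClosure ((P : Subgroup G) : Set G) with hL
    set D := normalClosure ((⁅(P : Subgroup G), (P : Subgroup G)⁆ : Subgroup G) : Set G) with hD
    have hPL : (P : Subgroup G) ≤ L := subset_normalClosure
    have hmap : (⁅((P.subtype hPL : Sylow p L) : Subgroup L), ((P.subtype hPL : Sylow p L) : Subgroup L)⁆).map L.subtype =
        ⁅(P : Subgroup G), (P : Subgroup G)⁆ := by
      rw [map_commutator, Sylow.coe_subtype, map_subgroupOf_eq_of_le hPL]
    have hnpc : HasNormalPComplement p L := by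
      refine npc (P.subtype hPL) (D.subgroupOf L) ?_ ?_ ?_
      · rw [Sylow.coe_subtype, ← subgroupOf_normalizer_eq hPL]
        intro x hx
        exact k1 ⟨x.2, hx⟩
      · intro x hx
        have : (x : G) ∈ ⁅(P : Subgroup G), (P : Subgroup G)⁆ := hmap ▸ ⟨x, hx, rfl⟩
        exact subset_normalClosure this
      · intro x hx
        have : (x : G) ∈ ⁅(P : Subgroup G), (P : Subgroup G)⁆ := k2 ⟨hx.1, hPN hx.2⟩
        rw [← hmap] at this
        obtain ⟨y, hy, e⟩ := this
        exact (Subtype.ext e : y = x) ▸ hy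
    refine ⟨(pResidual p L).map L.subtype, inferInstance, ?_, ?_⟩
    · have h1 := Sylow.normalizer_sup_eq_top' P hPL
      have h2 := congrArg (Subgroup.map L.subtype) (CA.PRes.pResidual_sup_sylow (P.subtype hPL))
      rw [Subgroup.map_sup, Sylow.coe_subtype, map_subgroupOf_eq_of_le hPL, ← MonoidHom.range_eq_map,
        range_subtype] at h2
      rw [eq_top_iff, ← h1]
      refine sup_le le_sup_right ?_
      conv_lhs => rw [← h2]
      exact sup_le_sup_left hPN _
    · rw [eq_bot_iff]
      rintro _ ⟨⟨y, hy, rfl⟩, hx⟩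
      have h3 := (CA.PRes.hasNPC_iff_inf_eq_bot (P.subtype hPL)).1 hnpc
      have : y ∈ pResidual p L ⊓ (P.subtype hPL : Subgroup L) := ⟨hy, k1 ⟨y.2, hx⟩⟩
      rw [h3, mem_bot] at this
      simp [this]
  · rintro ⟨K, hK, h1, h2⟩ θ -
    have hb : Function.Bijective ((QuotientGroup.mk' K).comp N.subtype) := by
      constructor
      · rw [injective_iff_map_eq_one]
        intro x hx
        have : (x : G) ∈ K ⊓ N := ⟨(QuotientGroup.eq_one_iff _).1 hx, x.2⟩
        rw [h2, mem_bot] at this
        exact Subtype.ext this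
      · intro y
        obtain ⟨g, rfl⟩ := QuotientGroup.mk'_surjective K y
        obtain ⟨k, hk, n, hn, rfl⟩ := mem_sup_of_normal_left.1 (h1 ▸ mem_top g : g ∈ K ⊔ N)
        refine ⟨⟨n, hn⟩, ?_⟩
        have : QuotientGroup.mk' K k = 1 := (QuotientGroup.eq_one_iff k).2 hk
        simp only [MonoidHom.comp_apply, coe_subtype, map_mul, this, one_mul]
    let e := MulEquiv.ofBijective _ hb
    refine ⟨⟨fun g => θ.1 ((e.symm.toMonoidHom.comp (QuotientGroup.mk' K)) g),
      irr_comp_of_surjective θ.2 _ (e.symm.surjective.comp (QuotientGroup.mk'_surjective K))⟩, fun x => ?_⟩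
    exact congrArg θ.1 (e.symm_apply_apply x)

end Cfsg.Agent.S4931
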