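import Cfsg.Statements.S4937
import Cfsg.Agent.Lib.Block.H10PRat

set_option autoImplicit false
open Cfsg

namespace Cfsg.Agent.S4937
open Cfsg CA.BlkCore CA.BlkReg CA.BlkGal CA.BlkHeight CA.BlkQuo CA.H12PPart CA.Clif CA.Ext CA.Gall CA.H11Nilp CChar.CharFun CChar.CharOrth CChar.CharGen CA.H10PRat Subgroup

open scoped ComplexConjugate

theorem good {p : ℕ} {M : Ideal AlgInt} {G : Type*} [Group G] [Fintype G] {N : Subgroup G}
    [hN : N.Normal] [Fintype N] [hp : Fact p.Prime] {θ : IrrCharacter N} {Q : Subgroup G}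
    (hM : IsPModular p M) (hθ : θ ∈ principalBlock M N) (hQ : Q ≤ N) (hQ' : ¬ p ∣ Q.relIndex N)
    (hL : N ⊔ centralizer (Q : Set G) = ⊤) {η : G → ℂ} (h1 : IsIrrCharacter G η)
    (h2 : ∀ n : N, η n = θ.1 n) :
    ∃ χ : G → ℂ, IsIrrCharacter G χ ∧ (∀ n : N, χ n = θ.1 n) ∧
      ∀ c, ¬ p ∣ orderOf c → cs p N χ c = ∑ n, pRegularPart p θ.1 n := by
  classical
  set S := ∑ n, pRegularPart p θ.1 n with hS
  have hS0 : S ≠ 0 := (mem_principal_iff hM).1 hθ
  have loc := fun (U : Subgroup G) (hU : N ≤ U) (hi : ¬ p ∣ N.relIndex U) =>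
    exists_local hM hθ hQ hQ' hU hi (hL ▸ le_top)
  have key : ∀ E : Subgroup G, ¬ p ∣ Nat.card E → ∃ lam : E →* ℂˣ,
      (∀ e : E, (e : G) ∈ N → lam e = 1) ∧ ∀ e : E, cs p N η e = lam e * S := fun E hE => by
    have hi : ¬ p ∣ N.relIndex (N ⊔ E) := by
      rw [relIndex_sup_left]
      exact fun h' => hE (h'.trans (relIndex_dvd_card N E))
    obtain ⟨χ, h3, h4, h5⟩ := loc _ le_sup_left hi
    obtain ⟨lam, h6, h7⟩ := exists_linear_of_ext (N := N.subgroupOf (N ⊔ E)) (char_of_irr h3)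
      (by
        convert irr_comp_mulEquiv θ.2 (subgroupOfEquivOfLe (le_sup_left : N ≤ N ⊔ E)) using 2
        exact h4 ⟨_, _⟩)
      (char_comp (char_of_irr h1) (N ⊔ E).subtype)
      (fun n => (h2 ⟨n, n.2⟩).trans (h4 ⟨n, n.2⟩).symm)
    refine ⟨lam.comp (inclusion le_sup_right), fun e he => h6 _ he, fun e => ?_⟩
    rw [hS, ← h5 (inclusion le_sup_right e), MonoidHom.comp_apply, ← cs_lin lam h6, ← h7]
    exact (cs_res le_sup_left η (inclusion le_sup_right e)).symm
  have key' : ∀ c, ¬ p ∣ orderOf c → ∃ lam : zpowers c →* ℂˣ, (c ∈ N → lam ⟨c, mem_zpowers c⟩ = 1) ∧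
      cs p N η c / S = lam ⟨c, mem_zpowers c⟩ := fun c hc => by
    obtain ⟨lam, h3, h4⟩ := key (zpowers c) (by rwa [Nat.card_zpowers])
    exact ⟨lam, h3 ⟨c, _⟩, by rw [h4 ⟨c, mem_zpowers c⟩, mul_div_cancel_right₀ _ hS0]⟩
  let ν : G → ℂ := fun g => cs p N η (pReg p g) / S
  have hN1 : ∀ n ∈ N, ν n = 1 := fun n hn => by
    obtain ⟨lam, h3, h4⟩ := key' _ (not_dvd_orderOf_pReg hp.out n)
    simp only [ν, h4, h3 (pReg_mem hp.out hn), Units.val_one]
  have hg : IsGeneralizedCharacter G ν := genChar_of_nilpotent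
    (fun g x => by simp only [ν, pReg_conj hp.out, cs_conj (irr_classFun h1)]) fun E hE => by
      let f := E.subtype.comp (pRegHom (E := E) hp.out)
      obtain ⟨lam, -, h4⟩ := key f.range fun h => by
        obtain ⟨⟨_, x, rfl⟩, hx⟩ := exists_prime_orderOf_dvd_card' p h
        rw [← Subgroup.orderOf_coe] at hx
        refine not_dvd_orderOf_pReg hp.out x ?_
        rw [← Subgroup.orderOf_coe]
        exact hx.symm.dvd
      convert gen_of_char (char_of_unitsHom (lam.comp f.rangeRestrict)) using 2 with e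
      simp only [ν]
      rw [div_eq_iff hS0, MonoidHom.comp_apply, ← h4, ← coe_pReg hp.out]
      rfl
  have hn : classInner ν ν = 1 := by
    rw [classInner, Finset.sum_congr rfl fun g _ => show ν g * conj (ν g) = 1 by
      obtain ⟨lam, -, h4⟩ := key' _ (not_dvd_orderOf_pReg hp.out g)
      simp only [ν, h4]
      rw [← char_apply_inv (char_of_unitsHom lam)]
      simp]
    simp
  have hν1 := hN1 1 N.one_mem
  obtain ⟨lam, hl⟩ := char_exists_unitsHom_of_apply_one
    (char_of_irr (irr_of_gen_norm_one hg hn (by simp [hν1]))) hν1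
  have hl' : ∀ n ∈ N, lam⁻¹ n = 1 := fun n hn => by
    have := hN1 n hn
    rw [hl] at this
    simpa using this
  refine ⟨_, irr_unitsHom_mul h1 lam⁻¹, fun n => by rw [hl' n n.2, h2]; simp, fun c hc => ?_⟩
  have := congrFun hl c
  simp only [ν, (pReg_eq_self_iff hp.out).2 hc] at this
  rw [cs_lin _ hl', (div_eq_iff hS0).1 this]
  simp

/-- Let G be a finite group, p a prime, M a maximal ideal of the algebraic integers containing p, N a normal subgroup of G and P a Sylow p-subgroup of N such that G = N·C_G(P). Let θ be an irreducible character in the principal p-block of N that is the restriction of some irreducible character of G. Then θ is the restriction of an irreducible character χ of G lying in the principal p-block of G such that, for every subgroup J of G containing N, the restriction of χ to J is an irreducible character of J lying in the principal p-block of J. -/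
theorem result {G : Type*} [Group G] [Finite G] (p : ℕ) [Fact p.Prime] (M : Ideal Cfsg.AlgInt) (hM : Cfsg.IsPModular p M) (N : Subgroup G) [N.Normal] (P : Sylow p ↥N)
    (hcov : N ⊔ Subgroup.centralizer (((P : Subgroup ↥N).map N.subtype : Subgroup G) : Set G) = ⊤)
    (θ : Cfsg.IrrCharacter ↥N) (hθ : θ ∈ Cfsg.principalBlock M ↥N)
    (hext : ∃ ψ : Cfsg.IrrCharacter G, ∀ x : ↥N, (ψ : G → ℂ) x = (θ : ↥N → ℂ) x) :
    ∃ χ : Cfsg.IrrCharacter G, χ ∈ Cfsg.principalBlock M G ∧ (∀ x : ↥N, (χ : G → ℂ) x = (θ : ↥N → ℂ) x) ∧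
      ∀ J : Subgroup G, N ≤ J → ∃ ξ : Cfsg.IrrCharacter ↥J, ξ ∈ Cfsg.principalBlock M ↥J ∧ ∀ y : ↥J, (ξ : ↥J → ℂ) y = (χ : G → ℂ) y := by
  classical
  haveI := Fintype.ofFinite G
  haveI := Fintype.ofFinite N
  obtain ⟨ψ, hψ⟩ := hext
  obtain ⟨χ, h1, h2, h3⟩ := good hM hθ (map_subtype_le (P : Subgroup N)) (by
    rw [relIndex, ← comap_subtype, comap_map_eq_self_of_injective N.subtype_injective]
    exact P.not_dvd_index) hcov ψ.2 hψ
  have hS0 := (mem_principal_iff hM).1 hθ
  refine ⟨⟨χ, h1⟩, mem_principal_of_cs hM hS0 h3, h2, fun J hJ => ?_⟩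
  haveI := Fintype.ofFinite J
  haveI := Fintype.ofFinite (N.subgroupOf J)
  have h4 : IsIrrCharacter J (fun y : J => χ y) := by
    exact irr_of_ext (char_comp (char_of_irr h1) J.subtype)
      (irr_comp_mulEquiv θ.2 (subgroupOfEquivOfLe hJ)) fun n => h2 ⟨n, n.2⟩
  refine ⟨⟨_, h4⟩, mem_principal_of_cs (N := N.subgroupOf J) hM hS0 fun c hc => ?_, fun _ => rfl⟩
  rw [← h3 c (by rwa [Subgroup.orderOf_coe])]
  exact cs_res hJ χ c

end Cfsg.Agent.S4937
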