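import Cfsg.Statements.S4949
import Cfsg.Agent.Lib.Char.H10Fock9
import Cfsg.Agent.Lib.Block.H11Contrib

set_option autoImplicit false
open Cfsg

namespace Cfsg.Agent.S4949
open MvPolynomial Equiv CA.H10Fock1 CA.H10Fock2 CA.H10Fock3 CA.H10Fock5 CA.H10Fock6 CA.H10Fock7 CA.H10Fock8 CA.H10Fock9 CChar.CharFun CChar.CharInt CA.BlkCore CA.BlkHeight CA.H12Cover Equiv.Perm.OnCycleFactors Subgroup

lemma sum3 {p k l r : ℕ} (hp : 2 ≤ p) (hr : p = 2 → r = 0) (F : ℕ → ℕ) (h0 : F 0 = 0) :
    ∑ t ∈ Finset.range p, F (if t = 0 then k else if t = 1 then l else if t = 2 then r else 0) =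
      F k + F l + F r := by
  obtain ⟨q, rfl⟩ := Nat.exists_eq_add_of_le' hp
  rcases q with _ | q
  · simp [Finset.sum_range_succ, hr rfl, h0]
  · rw [Finset.sum_range_succ', Finset.sum_range_succ', Finset.sum_range_succ']
    simp [h0]; ring

lemma rows {n N p : ℕ} (hN : n ≤ N) (hp : p.Prime) {κ : Fin N →₀ ℕ} (hκi : Function.Injective κ)
    (hκ : Gr p κ) {w : ℕ} (hd : dg (dl N) + n = dg κ + p * w)
    (hf : ∀ t < p, 2 ≤ (Finset.univ.filter fun i => κ i % p = t).card) {k l r : ℕ}
    (hr : p = 2 → r = 0) (hw : k + l + r = w) :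
    ∃ ψ : IrrCharacter (Perm (Fin n)), Lab p κ ψ.1 ∧ (charDegree ψ.1).factorization p +
      (w + (k.factorial.factorization p + l.factorial.factorization p +
        r.factorial.factorization p)) = n.factorial.factorization p ∧
      (p = 2 → 2 ≤ k → ¬ ∀ g, Perm.sign g ≠ 1 → ψ.1 g = 0) := by
  obtain ⟨ψ, γ, a, h1, h2, h3, h4, h5⟩ := exists_special hN hp hκi hκ hd
    (fun t => row ((Finset.univ.filter fun i => κ i % p = t).card - 1)
      (if t = 0 then k else if t = 1 then l else if t = 2 then r else 0))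
    (fun t ht => by rw [card_row]; have := hf t ht; omega)
    (by simp only [wt_row]; rw [sum3 hp.two_le hr (fun x => x) rfl, hw])
  simp only [HS_row] at h5
  rw [sum3 hp.two_le hr (fun x => x.factorial.factorization p) (by simp)] at h5
  refine ⟨ψ, h1, h5, fun h2' hk h0 => ?_⟩
  subst h2'
  have hd := (dual_self hN ψ.2 h2 h3 h0).d
  have a0 := h4 0 (by omega)
  have a1 := h4 1 (by omega)
  have b0 := hf 0 (by omega)
  have b1 := hf 1 (by omega)
  have e := Finset.card_filter_add_card_filter_not (s := (Finset.univ : Finset (Fin N)))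
    (fun i => κ i % 2 = 0)
  rw [Finset.filter_congr (q := fun i => κ i % 2 = 1) (p := fun i => ¬ κ i % 2 = 0)
    (fun i _ => by omega), Finset.card_univ, Fintype.card_fin] at e
  generalize (Finset.univ.filter fun i => κ i % 2 = 0).card = m0 at *
  generalize (Finset.univ.filter fun i => κ i % 2 = 1).card = m1 at *
  have c1 := hd (2 * (m0 - 1) + 0) (2 * m1 + 1) (by omega)
  have c2 := hd (2 * m0 + 0) (2 * (m1 - 1) + 1) (by omega)
  rw [← a0, ← a1] at c1 c2
  simp [row] at c1 c2
  omega

lemma special {n N p : ℕ} (hN : n ≤ N) (hp : p.Prime) {κ : Fin N →₀ ℕ}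
    (hκi : Function.Injective κ) (hκ : Gr p κ) {w : ℕ} (hd : dg (dl N) + n = dg κ + p * w)
    (hf : ∀ t < p, 2 ≤ (Finset.univ.filter fun i => κ i % p = t).card) (hw : p ≤ w)
    (h3 : p = 2 → 3 ≤ w) :
    ∃ ψ : IrrCharacter (Perm (Fin n)), Lab p κ ψ.1 ∧ (charDegree ψ.1).factorization p +
      (w + w.factorial.factorization p) = n.factorial.factorization p + 1 ∧
      (p = 2 → ¬ ∀ g, Perm.sign g ≠ 1 → ψ.1 g = 0) := by
  rcases AA_or hp hw with ⟨k, l, h1, h2⟩ | ⟨a, h1, h2⟩
  · wlog hkl : l ≤ k generalizing k l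
    · exact this l k (by omega) (by omega) (by omega)
    obtain ⟨ψ, a, b, c⟩ := rows hN hp hκi hκ hd hf (k := k) (l := l) (r := 0) (fun _ => rfl) h1
    refine ⟨ψ, a, ?_, fun h => c h (by have := h3 h; omega)⟩
    simp at b; omega
  by_cases hp2 : p = 2
  · subst hp2
    obtain ⟨ψ, γ, c, a1, -, -, -, a5⟩ := exists_special hN hp hκi hκ hd
      (fun t => if t = 0 then hookS ((Finset.univ.filter fun i => κ i % 2 = t).card - 2) (2 * a + 1)
        else row ((Finset.univ.filter fun i => κ i % 2 = t).card - 1) 0)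
      (fun t ht => by
        have := hf t ht
        split_ifs
        · rw [card_hookS]; omega
        · rw [card_row]; omega)
      (by simp [Finset.sum_range_succ, wt_hookS, wt_row]; omega)
    refine ⟨ψ, a1, ?_, fun _ h0 => ?_⟩
    · simp only [Finset.sum_range_succ, Finset.sum_range_zero, if_true, one_ne_zero, if_false,
        HS_hookS, HS_row] at a5
      rw [Nat.factorization_mul (by omega) (Nat.factorial_ne_zero _), Finsupp.add_apply,
        Nat.factorization_eq_zero_of_not_dvd (n := 2 * a + 1 + 2) (by omega),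
        fact_fact hp a (by omega)] at a5
      rw [h2, fact_fact hp (a + 1) (by omega), fact_succ hp h1]
      simp at a5; omega
    · have := (sd_count hN hκi hκ hd {ψ} (fun χ hχ => by
        rw [Finset.mem_singleton.1 hχ]; exact ⟨a1, h0⟩)).1 (by omega)
      simp at this
  · have := hp.two_le
    obtain ⟨ψ, a1, b, -⟩ := rows hN hp hκi hκ hd hf (k := p - 1) (l := p - 1) (r := p * a + 1)
      (fun h => absurd h hp2) (by rw [h2, mul_add]; omega)
    refine ⟨ψ, a1, ?_, fun h => absurd h hp2⟩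
    rw [fact_small hp (r := p - 1) (by omega), fact_fact hp a hp.one_lt] at b
    have e : w.factorial.factorization p = a + 1 + a.factorial.factorization p := by
      rw [h2, fact_fact hp (a + 1) (by omega), fact_succ hp h1]
    omega

lemma sign_eq_one {α : Type} [DecidableEq α] [Fintype α] {p : ℕ} (hp : p.Prime) (h2 : p ≠ 2)
    {g : Perm α} {k : ℕ} (h : g ^ p ^ k = 1) : Perm.sign g = 1 := by
  have := congrArg Perm.sign h
  rw [map_pow, map_one] at this
  rcases Int.units_eq_one_or (Perm.sign g) with h | h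
  · exact h
  · rw [h, (hp.odd_of_ne_two h2).pow.neg_one_pow] at this
    exact absurd this (by decide)

lemma hasP_alt {α : Type} [DecidableEq α] [Fintype α] {p w : ℕ} [Fact p.Prime] {u : Perm α}
    (hu : u.cycleType = Multiset.replicate w p) (T : Sylow p (centralizer ({u} : Set (Perm α))))
    (hw : p ≤ w) (h3 : p = 2 → 3 ≤ w) :
    HasP p ↥(T.1 ⊓ (alternatingGroup α).subgroupOf (centralizer {u})) := by
  have hp : p.Prime := Fact.out
  have hne : ∀ c ∈ u.cycleFactorsFinset, c ≠ 1 :=
    fun c hc => (Perm.mem_cycleFactorsFinset_iff.1 hc).1.ne_one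
  have adj : ∀ t ∈ T.1, ∀ c c1 : Perm α, ∃ k ∈ T.1, toPermHom u k = 1 ∧
      Perm.sign (t * k).1 = 1 ∧ (c ∈ u.cycleFactorsFinset → ∀ y ∈ c.support, k.1 y = y) ∧
      (c1 ∈ u.cycleFactorsFinset → ∀ y ∈ c1.support, k.1 y = y) := by
    intro t ht c c1
    by_cases hs : Perm.sign t.1 = 1
    · exact ⟨1, one_mem _, map_one _, by simpa using hs, fun _ _ _ => rfl, fun _ _ _ => rfl⟩
    have hp2 : p = 2 := by
      by_contra h
      obtain ⟨k, hk⟩ := T.2 ⟨t, ht⟩
      exact hs (sign_eq_one hp h (congrArg (fun x : T.1 => x.1.1) hk))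
    obtain ⟨d, hd, hd'⟩ := Finset.exists_mem_notMem_of_card_lt_card (s := {c, c1})
      (t := u.cycleFactorsFinset) (by
        have := card_cyc hu
        rw [Fintype.card_coe] at this
        have := Finset.card_le_two (a := c) (b := c1)
        have := h3 hp2
        omega)
    rw [Finset.mem_insert, Finset.mem_singleton, not_or] at hd'
    obtain ⟨k, hk, rfl⟩ := cyc_mem hu T hd
    refine ⟨k, hk, (mem_ker_toPermHom_iff u k).2 fun e he =>
      Perm.cycleFactorsFinset_mem_commute' u hd he, ?_, fun h => (cyc_sep hne hd h hd'.1).1,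
      fun h => (cyc_sep hne hd h hd'.2).1⟩
    rw [Subgroup.coe_mul, map_mul, (Perm.mem_cycleFactorsFinset_iff.1 hd).1.sign, supp_cyc hu hd, hp2,
      (Int.units_eq_one_or _).resolve_left hs]
    decide
  refine hasP_aux hu (T.2.to_le inf_le_left) (fun c hc c1 hc1 h => ?_)
    (T.mapSurjective (f_surj hu)) (le_antisymm (map_mono inf_le_left) ?_) hw
    (fun h => hasP_sylow w _ (card_cyc hu) h _)
  · obtain ⟨t, ht, rfl⟩ := cyc_mem hu T hc
    obtain ⟨k, hk, -, k2, k3, k4⟩ := adj t ht t.1 c1
    obtain ⟨a, y, hy, b⟩ := cyc_sep hne hc hc1 h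
    refine ⟨t * k, ⟨mul_mem ht hk, k2⟩, fun z hz => ?_, y, hy, ?_⟩
    · rw [Subgroup.coe_mul, Perm.mul_apply, k4 hc1 z hz, a z hz]
    · rwa [Subgroup.coe_mul, Perm.mul_apply, k3 hc y hy]
  · rintro _ ⟨t, ht, rfl⟩
    obtain ⟨k, hk, k1, k2, -⟩ := adj t ht 1 1
    exact ⟨t * k, ⟨mul_mem ht hk, k2⟩, by rw [map_mul, k1, mul_one]⟩

/-- Let n be a natural number, p a prime, M a maximal ideal of the algebraic integers containing p, B a p-block of the alternating group of degree n and D a defect group of B. Then either B contains an irreducible character of height 1 and D has an irreducible complex character of degree p, or every irreducible character of B has height zero and D is commutative (so the least positive height in B and the least positive exponent of a character degree of D are both 1 or both absent). -/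
theorem result (n : ℕ) (p : ℕ) [Fact p.Prime] (M : Ideal Cfsg.AlgInt) (hM : Cfsg.IsPModular p M) (B : Set (Cfsg.IrrCharacter ↥(alternatingGroup (Fin n)))) (hB : Cfsg.IsPBlock M B) (D : Subgroup ↥(alternatingGroup (Fin n))) (hD : Cfsg.IsDefectGroup p M B D) :
    ((∃ χ : Cfsg.IrrCharacter ↥(alternatingGroup (Fin n)), χ ∈ B ∧ Cfsg.blockHeight p B (χ : ↥(alternatingGroup (Fin n)) → ℂ) = 1) ∧ (∃ φ : Cfsg.IrrCharacter ↥D, Cfsg.charDegree (φ : ↥D → ℂ) = p)) ∨
    ((∀ χ : Cfsg.IrrCharacter ↥(alternatingGroup (Fin n)), χ ∈ B → Cfsg.blockHeight p B (χ : ↥(alternatingGroup (Fin n)) → ℂ) = 0) ∧ IsMulCommutative D) := by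
  classical
  have hp : p.Prime := Fact.out
  obtain ⟨B', hB', hcov⟩ := exists_cov hM hB
  obtain ⟨P, hP, hDP⟩ := exists_P hM hB' hB hcov hD
  have hN : n ≤ n + 2 * p := by omega
  obtain ⟨κ, w, hκi, hκ, hd, hl⟩ := block_data hN hM hB'
  obtain ⟨hlab, hdef, α, _, _, u, T, j, hu, hj, hsg, hT⟩ := sn_struct hM hB' hP hκi hκ hd hl
  have hcP := card_defectGroup hM hB' hP
  have hcD := card_defectGroup hM hB hD
  rcases Nat.eq_zero_or_pos w with rfl | hw0
  · have hP1 : P = ⊥ := (blockDefect_eq_zero_iff hM hB' hP).1 (by simpa using hdef)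
    have hD1 : D = ⊥ := eq_bot_iff.2 fun a ha => Subtype.ext (by simpa [hP1] using (hDP a).1 ha)
    refine Or.inr ⟨fun χ hχ => ?_, by rw [hD1]; infer_instance⟩
    have := blockHeight_le_blockDefect (p := p) hχ
    rw [(blockDefect_eq_zero_iff hM hB hD).2 hD1] at this
    omega
  obtain ⟨χ0, hχ0⟩ := block_nonempty hM hB'
  obtain ⟨γ0, a0, hγ0, hr0, -, hc0⟩ := hl χ0 hχ0
  have hne0 : chi γ0 (1 : Perm (Fin n)) ≠ 0 :=
    fun h => irr_apply_one_ne_zero χ0.2 (by rw [hc0, h, mul_zero])
  have hpw := (chi_ne_zero hp hκi hκ hγ0 hr0 hd (dg_of_chi hne0)).1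
  haveI : Nontrivial (Fin n) := Fin.nontrivial_iff_two_le.2 (by nlinarith [hp.two_le])
  have hA : (alternatingGroup (Fin n)).index = 2 := alternatingGroup.index_eq_two
  have hf : ∀ t < p, 2 ≤ (Finset.univ.filter fun i => κ i % p = t).card := fun t ht => by
    have h := full_pm (N := n + 2 * p) (1 : Perm (Fin n)).partition.parts (2 * p)
      (by rw [parts_sum]; omega) γ0 hne0
    obtain ⟨i, hi⟩ := h t (by omega)
    obtain ⟨i', hi'⟩ := h (t + p) (by omega)
    refine Finset.one_lt_card.2 ⟨i, ?_, i', ?_, fun e => ?_⟩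
    · simp [← hr0, hi, Nat.mod_eq_of_lt ht]
    · simp [← hr0, hi', Nat.mod_eq_of_lt ht]
    · rw [e, hi'] at hi; have := hp.pos; omega
  have hmap : D.map (alternatingGroup (Fin n)).subtype = P ⊓ alternatingGroup (Fin n) := by
    ext g
    exact ⟨fun ⟨a, ha, e⟩ => e ▸ ⟨(hDP a).1 ha, a.2⟩, fun h => ⟨⟨g, h.2⟩, (hDP _).2 h.1, rfl⟩⟩
  have hdd : blockDefect p B' = blockDefect p B + (2 : ℕ).factorization p := by
    have h1 := ((alternatingGroup (Fin n)).subgroupOf P).card_mul_index
    have h2 : Nat.card ((alternatingGroup (Fin n)).subgroupOf P) = Nat.card D := by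
      rw [← card_subtype P, subgroupOf_map_subtype, inf_comm, ← hmap, card_subtype]
    have h3 := relIndex_dvd_index_of_normal (H := alternatingGroup (Fin n)) P
    rw [h2, hcD, hcP] at h1
    rw [hA, relIndex] at h3
    rcases (Nat.dvd_prime Nat.prime_two).1 h3 with h | h
    · have hp2 : p ≠ 2 := by
        rintro rfl
        obtain ⟨⟨c, hc⟩⟩ := Fintype.card_pos_iff.1 (by rw [card_cyc hu]; exact hw0)
        obtain ⟨k, hk, rfl⟩ := cyc_mem hu T hc
        have h4 : j k ∈ alternatingGroup (Fin n) :=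
          subgroupOf_eq_top.1 (index_eq_one.1 h) (hT ▸ ⟨k, hk, rfl⟩)
        rw [Perm.mem_alternatingGroup, hsg, (Perm.mem_cycleFactorsFinset_iff.1 hc).1.sign,
          supp_cyc hu hc] at h4
        exact absurd h4 (by decide)
      rw [h, mul_one] at h1
      rw [Nat.pow_right_injective hp.two_le h1, Nat.factorization_eq_zero_of_not_dvd, add_zero]
      exact fun e => hp2 ((Nat.prime_dvd_prime_iff_eq hp Nat.prime_two).1 e)
    · rw [h] at h1
      have := congrArg (fun m => m.factorization p) h1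
      simp only [Nat.factorization_mul (pow_ne_zero _ hp.ne_zero) two_ne_zero, Finsupp.add_apply,
        Nat.factorization_pow_self hp] at this
      exact this.symm
  have hSA : n.factorial.factorization p =
      (Nat.card (alternatingGroup (Fin n))).factorization p + (2 : ℕ).factorization p := by
    rw [add_comm, ← hA, factorization_index_add, Nat.card_eq_fintype_card, Fintype.card_perm,
      Fintype.card_fin]
  have hS : ∀ χ ∈ B', (charDegree χ.1).factorization p + (w + w.factorial.factorization p) =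
      n.factorial.factorization p + blockHeight p B' χ.1 := fun χ hχ => by
    rw [← hdef, factorization_add_blockDefect hχ, Nat.card_eq_fintype_card, Fintype.card_perm,
      Fintype.card_fin]
  have hht : ∀ χ ∈ B', ∀ θ ∈ B, Over _ χ.1 θ.1 → blockHeight p B θ.1 = blockHeight p B' χ.1 ∨
      (p = 2 ∧ blockHeight p B θ.1 + 1 = blockHeight p B' χ.1 ∧
        ∀ g, Perm.sign g ≠ 1 → χ.1 g = 0) := fun χ hχ θ hθ h => by
    have e1 := hS χ hχ
    have e2 := factorization_add_blockDefect (p := p) hθ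
    rcases deg_cases hA χ.2 θ.2 (over_iff.1 h) with h | ⟨h, h'⟩
    · rw [h] at e1; left; omega
    · rw [h, Nat.factorization_mul two_ne_zero (charDegree_pos θ.2).ne', Finsupp.add_apply] at e1
      by_cases hp2 : p = 2
      · refine Or.inr ⟨hp2, ?_, h'⟩
        have : (2 : ℕ).factorization p = 1 := by rw [hp2]; exact Nat.prime_two.factorization_self
        omega
      · have : (2 : ℕ).factorization p = 0 := Nat.factorization_eq_zero_of_not_dvd
          fun e => hp2 ((Nat.prime_dvd_prime_iff_eq hp Nat.prime_two).1 e)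
        left; omega
  rcases lt_or_ge w p with hw | hw
  · refine Or.inr ⟨fun θ hθ => ?_, ⟨⟨fun a b => ?_⟩⟩⟩
    · obtain ⟨χ, hχ, ho⟩ := exists_over_of_cov hM hB (isSat_of_isPBlock hM hB') hcov hθ
      obtain ⟨γ, a, hγ, hr, ha, hc⟩ := hl χ hχ
      have hd' : dg γ = dg (dl (n + 2 * p)) + n :=
        dg_of_chi (g := 1) (fun h => irr_apply_one_ne_zero χ.2 (by rw [hc, h, mul_zero]))
      have e1 := hS χ hχ
      have e2 := congrArg (fun m => m.factorization p) (degree_mul χ.2 hγ ha hc)
      simp only [Nat.factorization_mul (charDegree_pos χ.2).ne' (HS_ne_zero _),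
        Finsupp.add_apply] at e2
      have e3 := (val_bounds hp hγ hκi hκ hr (hd'.trans hd)).1
      have e4 := hht χ hχ θ hθ ho
      rw [fact_small hp hw] at e1
      omega
    · obtain ⟨E, e1, e2, e3, e4, e5, -⟩ := exists_E' hu
      haveI : (E.subgroupOf (centralizer {u})).Normal := ⟨fun a ha c => e2 c c.2 a ha⟩
      have hE : IsPGroup p E := fun a => ⟨1, Subtype.ext (by simpa using e4 a a.2)⟩
      have hET := eq_of_le_of_card_ge
        ((hE.of_equiv (subgroupOfEquivOfLe e1).symm).le_sylow_of_normal T) (by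
          rw [← card_map_of_injective hj, hT, hcP, hdef, fact_small hp hw, add_zero,
            Nat.card_congr (subgroupOfEquivOfLe e1).toEquiv]; exact e5)
      obtain ⟨s, hs, es⟩ : (a.1 : Perm (Fin n)) ∈ T.1.map j := hT ▸ (hDP _).1 a.2
      obtain ⟨t, ht, et⟩ : (b.1 : Perm (Fin n)) ∈ T.1.map j := hT ▸ (hDP _).1 b.2
      rw [← hET] at hs ht
      refine Subtype.ext (Subtype.ext ?_)
      change a.1.1 * b.1.1 = b.1.1 * a.1.1
      rw [← es, ← et, ← map_mul, ← map_mul]
      exact congrArg j (Subtype.ext (e3 _ hs _ ht))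
  by_cases h3 : p = 2 → 3 ≤ w
  · obtain ⟨ψ, a1, a2, a3⟩ := special hN hp hκi hκ hd hf hw h3
    obtain ⟨θ, hθ, ho⟩ := exists_mem_over_of_cov hM (isSat_of_isPBlock hM hB) hB' hcov (hlab ψ a1)
    have e1 := hS ψ (hlab ψ a1)
    refine Or.inl ⟨⟨θ, hθ, ?_⟩, ?_⟩
    · rcases hht ψ (hlab ψ a1) θ hθ ho with h | ⟨h, -, h'⟩
      · omega
      · exact absurd h' (a3 h)
    · have e : D.map (alternatingGroup (Fin n)).subtype =
          (T.1 ⊓ (alternatingGroup α).subgroupOf (centralizer {u})).map j := by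
        rw [hmap, ← hT]
        ext g
        constructor
        · rintro ⟨⟨t, ht, rfl⟩, h⟩
          exact ⟨t, ⟨ht, (hsg t).symm.trans h⟩, rfl⟩
        · rintro ⟨t, ⟨ht, h⟩, rfl⟩
          exact ⟨⟨t, ht, rfl⟩, (hsg t).trans h⟩
      exact (hasP_alt hu T hw h3).of_surj (((equivMapOfInjective D _ (subtype_injective _)).trans
        ((MulEquiv.subgroupCongr e).trans (equivMapOfInjective _ _ hj).symm)).toMonoidHom)
        (MulEquiv.surjective _)
  · push Not at h3
    obtain ⟨rfl, h3⟩ := h3
    obtain rfl : w = 2 := by omega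
    have e : blockDefect 2 B = 2 := by
      rw [hdef, Nat.factorial_two] at hdd; omega
    refine Or.inr ⟨fun θ hθ => ?_, IsPGroup.isMulCommutative_of_card_eq_prime_sq (p := 2) (by
      rw [hcD, e])⟩
    by_contra h
    have := CA.H11Contrib.height_add_two_le hM hB hθ (Nat.pos_of_ne_zero h)
    omega

end Cfsg.Agent.S4949
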