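import Cfsg.Statements.S4989
import Cfsg.Agent.Lib.Char.H12Misc

set_option autoImplicit false
open Cfsg

namespace Cfsg.Agent.S4989

open CChar.CharRep CChar.CharFun CChar.CharOrth CChar.CharKer CChar.CharInt CChar.CharGen
  CChar.CharMisc CChar.CharProd CA.H12Misc Subgroup
open scoped ComplexConjugate commutatorElement

/-- Let H be a subgroup of the finite group G and χ an irreducible complex character of G. Then the inner product of the restriction of χ to H with itself, (1/#H)·Σ_{h ∈ H} |χ(h)|², is at most 1 + #(Z ∖ H)/#H, where Z is the set of zeros of χ in G. -/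
theorem result {G : Type*} [Group G] [Finite G] (H : Subgroup G) (χ : Cfsg.IrrCharacter G) : (Nat.card ↥H : ℝ)⁻¹ * ∑ᶠ h : ↥H, ‖(χ : G → ℂ) h‖ ^ 2 ≤ 1 + (Set.ncard ({x : G | (χ : G → ℂ) x = 0} \ (H : Set G)) : ℝ) / (Nat.card ↥H : ℝ) := by
  classical
  have := Fintype.ofFinite G
  have h0 : (0 : ℝ) < Nat.card H := by exact_mod_cast Nat.card_pos
  have h1 := card_le_sum_off (char_of_irr χ.2) H
  have h2 := sum_norm_sq_irr χ.2
  rw [← Finset.sum_filter_add_sum_filter_not _ (· ∈ H), Finset.sum_subtype (p := (· ∈ H)) _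
    (by simp)] at h2
  have h3 := Finset.card_filter_add_card_filter_not (s := Finset.univ) (· ∈ H)
  have h4 := Finset.card_filter_add_card_filter_not (s := Finset.univ.filter (· ∉ H))
    (χ.1 · = 0)
  rw [Finset.filter_filter, Finset.filter_filter] at h4
  rw [finsum_eq_sum_of_fintype, inv_mul_le_iff₀ h0, mul_add, mul_one, mul_div_cancel₀ _ h0.ne',
    show {x : G | χ.1 x = 0} \ (H : Set G) = ↑(Finset.univ.filter fun x => x ∉ H ∧ χ.1 x = 0) by
      ext; simp [and_comm], Set.ncard_coe_finset]
  rw [← h4, Finset.card_univ, ← Nat.card_eq_fintype_card, ← Fintype.card_subtype,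
    ← Nat.card_eq_fintype_card] at h3
  have h5 := congrArg (Nat.cast : ℕ → ℝ) h3
  push_cast at h5
  linarith

end Cfsg.Agent.S4989
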