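import Cfsg.Statements.S4993
import Cfsg.Agent.Lib.Char.H10Fix

set_option autoImplicit false
open Cfsg

namespace Cfsg.Agent.S4993
open CA.H10Fix Subgroup

/-- Let G be a group of odd order whose order has exactly two prime divisors and whose quotient by its Fitting subgroup is nilpotent (G is metanilpotent), and let χ be a primitive irreducible complex character of G (not induced from a character of any proper subgroup). Then χ(1) divides the size of some conjugacy class of G. -/
theorem result {G : Type*} [Group G] [Fintype G] (hodd : Odd (Nat.card G)) (h2 : (Nat.card G).primeFactors.card = 2) [hF : (Cfsg.fittingSubgroup G).Normal] (hmeta : Group.IsNilpotent (G ⧸ Cfsg.fittingSubgroup G)) (χ : Cfsg.IrrCharacter G) (hprim : ¬ ∃ (H : Subgroup G), H ≠ ⊤ ∧ ∃ θ : ↥H → ℂ, Cfsg.IsCharacter ↥H θ ∧ Cfsg.indFun H θ = (χ : G → ℂ)) : ∃ g : G, Cfsg.charDegree (χ : G → ℂ) ∣ (Subgroup.centralizer ({g} : Set G)).index := by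
  have h0 : Group.IsNilpotent (fittingSubgroup G) := CA.Core.isNilpotent_fitting
  have hs : Group.IsSolvable G := Group.isSolvable_of_ker_le_range (fittingSubgroup G).subtype
    (QuotientGroup.mk' (fittingSubgroup G)) (by simp)
  obtain ⟨c, h1, h3, h4⟩ := prim_fun hs h0 χ hprim
  obtain ⟨p, q, hpq, h5⟩ := Finset.card_eq_two.1 h2
  have hp := Fact.mk (Nat.prime_of_mem_primeFactors (h5.ge (Finset.mem_insert_self p {q})))
  have hq := Fact.mk (Nat.prime_of_mem_primeFactors
    (h5.ge (Finset.mem_insert_of_mem (Finset.mem_singleton_self q))))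
  have h6 : ∀ r : ℕ, r.Prime → r ∣ Nat.card G → r = p ∨ r = q := fun r hr h => by
    simpa using h5.le (Nat.mem_primeFactors.2 ⟨hr, h, Nat.card_pos.ne'⟩)
  set π := QuotientGroup.mk' (fittingSubgroup G)
  have h7 : ∀ (r : ℕ) [Fact r.Prime] (P : Sylow r (G ⧸ fittingSubgroup G)), ∀ y ∈ P.1.comap π,
      ∀ g, (c (g * y)).factorization r = (c g).factorization r := fun r hr P =>
    h4 r hr.out _ inferInstance fun n hn => (P.isPGroup' ⟨_, hn⟩).imp fun k hk =>
      (QuotientGroup.eq_one_iff _).1 (congrArg Subtype.val hk)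
  obtain ⟨P⟩ := (inferInstance : Nonempty (Sylow p (G ⧸ fittingSubgroup G)))
  obtain ⟨Q⟩ := (inferInstance : Nonempty (Sylow q (G ⧸ fittingSubgroup G)))
  have h8 : P.1 ⊔ Q.1 = ⊤ := by
    rw [← index_eq_one]
    refine Nat.eq_one_iff_not_exists_prime_dvd.2 fun r hr h => ?_
    rcases h6 r hr ((h.trans (index_dvd_card _)).trans (card_quotient_dvd_card _)) with rfl | rfl
    · exact P.not_dvd_index (h.trans (index_dvd_of_le le_sup_left))
    · exact Q.not_dvd_index (h.trans (index_dvd_of_le le_sup_right))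
  obtain ⟨a, ha⟩ := h1 p
  obtain ⟨b, hb⟩ := h1 q
  obtain ⟨x, hx, y, hy, e⟩ := mem_sup_of_normal_left.1 (h8.ge (mem_top (π (a⁻¹ * b))))
  obtain ⟨x, rfl⟩ := QuotientGroup.mk'_surjective _ x
  refine ⟨a * x, dvd_trans ?_ (h3 _)⟩
  have h9 := CA.H12Deg.deg_pos (CA.PF.mem_irr_top.2 χ.2)
  refine (Nat.factorization_prime_le_iff_dvd h9.ne' (ne_zero_of_dvd_ne_zero
    index_ne_zero_of_finite (h3 _))).1 fun r hr => ?_
  by_cases h : r ∣ charDegree χ.1
  · rcases h6 r hr (h.trans (by simpa using CA.PF.irr_one_dvd (CA.PF.mem_irr_top.2 χ.2) (CA.H12Deg.irr_deg (CA.PF.mem_irr_top.2 χ.2)))) with rfl | rfl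
    · rwa [h7 r P x hx]
    · rwa [← h7 r Q (x⁻¹ * (a⁻¹ * b)) (by
        rw [mem_comap, map_mul, ← e, map_inv, inv_mul_cancel_left]; exact hy), mul_assoc,
        mul_inv_cancel_left, mul_inv_cancel_left]
  · simp [Nat.factorization_eq_zero_of_not_dvd h]

end Cfsg.Agent.S4993
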