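import Cfsg.Statements.S4996
import Cfsg.Agent.Lib.Char.H12Misc

set_option autoImplicit false
open Cfsg

namespace Cfsg.Agent.S4996

open CChar.CharRep CChar.CharFun CChar.CharOrth CChar.CharKer CChar.CharInt CChar.CharGen
  CChar.CharMisc CChar.CharProd CA.H12Misc Subgroup
open scoped ComplexConjugate commutatorElement

/-- Let N be a normal subgroup of the finite group G and χ an irreducible complex character of G. Then the restriction of χ to N is not irreducible if and only if χ vanishes on some whole coset Nx of N in G. -/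
theorem result {G : Type*} [Group G] [Finite G] (N : Subgroup G) [N.Normal] (χ : Cfsg.IrrCharacter G) : ¬ Cfsg.IsIrrCharacter ↥N (fun n : ↥N => (χ : G → ℂ) n) ↔ ∃ x : G, ∀ n : ↥N, (χ : G → ℂ) ((n : G) * x) = 0 := by
  classical
  have := Fintype.ofFinite G
  have := Fintype.ofFinite N
  have h0 := char_of_irr χ.2
  have h1 := avg_char N (char_mul h0 (char_conj h0))
  set f := CA.Ind2.avg N (χ.1 * fun g => conj (χ.1 g))
  have h2 : ∀ x, f x = ((Nat.card N : ℝ)⁻¹ * ∑ n : N, ‖χ.1 (n * x)‖ ^ 2 : ℝ) := fun x => by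
    simp [f, CA.Ind2.avg, Complex.mul_conj, Complex.normSq_eq_norm_sq]
  have h3 : ∀ x, f x = 0 ↔ ∀ n : N, χ.1 (n * x) = 0 := fun x => by
    simp only [h2, Complex.ofReal_eq_zero, mul_eq_zero, inv_eq_zero, Nat.cast_eq_zero,
      Nat.card_pos.ne', false_or]
    rw [Finset.sum_eq_zero_iff_of_nonneg fun _ _ => by positivity]
    simp
  have h4 : f 1 = classInner (fun n : N => χ.1 n) fun n : N => χ.1 n := by
    simp [f, CA.Ind2.avg, inner_def]
  rw [irr_iff, ← h4, and_iff_right (char_restrict h0 N)]
  simp only [← h3]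
  refine ⟨fun h => by_contra fun h5 => ?_, fun ⟨x, hx⟩ h => ?_⟩
  · have h6 := card_le_sum_norm h1 (Finset.univ.erase 1) (fun s hs k hk => Finset.mem_erase.2
      ⟨fun e => (Finset.mem_erase.1 hs).1 (mem_bot.1 (mem_of_pow_mem hk (mem_bot.2 e))),
        Finset.mem_univ _⟩) fun s _ e => h5 ⟨s, e⟩
    have h7 : classInner f (fun _ => 1) = 1 := by
      rw [CA.Ind2.inner_avg, CA.Ind2.avg_of_ker char_one fun _ _ => rfl, inner_mul_left]
      simpa using inner_irr_self χ.2
    have h8 : ∑ s, ‖f s‖ = Nat.card G := by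
      rw [inner_one_right, inv_mul_eq_one₀ card_ne_zero] at h7
      apply Complex.ofReal_injective
      rw [Complex.ofReal_natCast, h7, Complex.ofReal_sum]
      exact Finset.sum_congr rfl fun x _ => by
        rw [h2, Complex.norm_real, Real.norm_of_nonneg (by positivity)]
    obtain ⟨m, hm⟩ := char_apply_one h1
    rw [← Finset.add_sum_erase _ _ (Finset.mem_univ 1), hm, Complex.norm_natCast] at h8
    rw [Finset.card_erase_of_mem (Finset.mem_univ _), Finset.card_univ, ← Nat.card_eq_fintype_card,
      Nat.cast_pred Nat.card_pos] at h6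
    have h9 : m ≤ 1 := by exact_mod_cast (by linarith : (m : ℝ) ≤ 1)
    interval_cases m
    · exact h5 ⟨1, by simpa using hm⟩
    · exact h (by simpa using hm)
  · obtain ⟨l, hl⟩ := char_exists_unitsHom_of_apply_one h1 h
    exact (l x).ne_zero ((congrFun hl x).symm.trans hx)

end Cfsg.Agent.S4996
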