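import Cfsg.Statements.S5001
import Cfsg.Agent.Lib.Block.BlkMisc

set_option autoImplicit false
open Cfsg

namespace Cfsg.Agent.S5001
open Cfsg MonoidAlgebra CA.BlkAlg CA.BlkVal CA.BlkOmega CA.BlkRed CA.BlkCore CA.BlkDefect CA.BlkInd CA.BlkHeight CA.SylIn CA.H12PPart CChar.CharFun CChar.CharOrth Subgroup CA.BlkKer CChar.CharKer CA.BlkZero CChar.CharInt CA.BlkReg CA.BlkRob CA.BlkMisc

/-- Let p be a prime, G a finite group and B a p-block of G (relative to a maximal ideal M of the algebraic integers containing p) with defect group D. Let Z be a central p-subgroup of G contained in D and λ a linear character of Z (a homomorphism to the nonzero complex numbers). Say an irreducible character χ of G lies over λ when χ(z) = χ(1)λ(z) for all z ∈ Z. If some irreducible character in B lying over λ has height zero, then λ extends to a linear character of D. -/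
theorem result {G : Type*} [Group G] [Finite G] (p : ℕ) [Fact p.Prime] (M : Ideal Cfsg.AlgInt) (hM : Cfsg.IsPModular p M) (B : Set (Cfsg.IrrCharacter G)) (hB : Cfsg.IsPBlock M B) (D : Subgroup G) (hD : Cfsg.IsDefectGroup p M B D) (Z : Subgroup G) (hZc : Z ≤ Subgroup.center G) (hZp : IsPGroup p ↥Z) (hZD : Z ≤ D) (lam : ↥Z →* ℂˣ) (χ : Cfsg.IrrCharacter G) (hχ : χ ∈ B) (hover : (∀ z : ↥Z, (χ : G → ℂ) z = (χ : G → ℂ) 1 * (lam z : ℂ))) (h0 : Cfsg.blockHeight p B (χ : G → ℂ) = 0) : (∃ μ : ↥D →* ℂˣ, ∀ z : ↥Z, μ ⟨(z : G), hZD z.2⟩ = lam z) := by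
  classical
  haveI := Fintype.ofFinite G
  obtain ⟨y, -, hy, hs⟩ := exists_isDefectClass_mem_centralizer hD
  have h1 := (height_zero_iff hM hB hy hχ).mp h0
  let H := centralizer ({y} : Set G)
  haveI := Fintype.ofFinite H
  haveI := Fintype.ofFinite D
  have hyH : y ∈ H := mem_centralizer_singleton_iff.mpr rfl
  obtain ⟨ξ, h2, -, h3⟩ := exists_irr_v_eq_one (M := M) (char_restrict (char_of_irr χ.2) H)
    (g := ⟨y, hyH⟩) h1
  rw [v_one_of_center ξ (CA.BlkBas.mem_center_of_le le_rfl hyH)] at h3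
  obtain ⟨μ, h4⟩ := exists_linear_of_v hM hs.isPGroup
    (char_comp (char_of_irr ξ.2) (inclusion hs.le)) (by rw [map_one, h3])
  refine ⟨μ, fun z => Units.ext ?_⟩
  have hzG := mem_center_iff.mp (hZc z.2)
  have h5 := mul_of_over (φ := fun x : H => χ.1 x) (z := ⟨z, hs.le (hZD z.2)⟩) (c := lam z)
    (mem_center_iff.mpr fun g => Subtype.ext (hzG g)) (fun x => by
      rw [coe_mul, CA.BlkBas.irr_mul_of_center χ (hZc z.2), hover,
        mul_div_cancel_left₀ _ (irr_apply_one_ne_zero χ.2)]) ξ h2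
  have h6 := mul_of_over (φ := fun x : D => ξ.1 (inclusion hs.le x)) (z := ⟨z, hZD z.2⟩)
    (c := lam z) (mem_center_iff.mpr fun g => Subtype.ext (hzG g)) (fun x => by
      rw [map_mul]; exact h5 _) ⟨_, irr_of_unitsHom μ⟩
      (fun h => by rw [h, map_zero] at h4; exact zero_ne_one h4) 1
  simpa using h6

end Cfsg.Agent.S5001
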