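import Cfsg.Statements.S5011

set_option autoImplicit false
open Cfsg

namespace Cfsg.Agent.S5011

/-- Let G be a finite non-abelian simple group and ρ an irreducible complex representation of G on a space of dimension greater than one (irreducible in the sense that the only subspaces invariant under every ρ(x) are 0 and the whole space). Then for every non-identity element g of G, the centralizer of g does not act irreducibly: there is a non-zero proper subspace invariant under ρ(c) for every c commuting with g. -/
theorem result {G : Type*} [Group G] [Finite G] [IsSimpleGroup G]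
    (hG : ¬ IsMulCommutative G) {V : Type*} [AddCommGroup V] [Module ℂ V] [FiniteDimensional ℂ V]
    (ρ : Representation ℂ G V)
    (hirr : ∀ W : Submodule ℂ V, (∀ x : G, ∀ v ∈ W, ρ x v ∈ W) → W = ⊥ ∨ W = ⊤)
    (hdim : 1 < Module.finrank ℂ V) (g : G) (hg : g ≠ 1) :
    ∃ W : Submodule ℂ V, W ≠ ⊥ ∧ W ≠ ⊤ ∧ ∀ c ∈ Subgroup.centralizer ({g} : Set G), ∀ v ∈ W, ρ c v ∈ W := by
  have hinj : Function.Injective ρ := by
    rw [← MonoidHom.ker_eq_bot_iff]
    rcases (MonoidHom.normal_ker ρ).eq_bot_or_eq_top with h | h
    · exact h
    · exfalso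
      have hnt : Nontrivial V := Module.nontrivial_of_finrank_pos (R := ℂ) (by omega)
      obtain ⟨v, hv⟩ := exists_ne (0 : V)
      rcases hirr (Submodule.span ℂ {v}) (fun x w hw => by
        have : ρ x = 1 := by
          have hx : x ∈ ρ.ker := h ▸ Subgroup.mem_top x
          exact hx
        rw [this]; exact hw) with h1 | h1
      · exact hv (Submodule.span_singleton_eq_bot.1 h1)
      · have := finrank_span_singleton (K := ℂ) hv
        rw [h1, finrank_top] at this
        omega
  have hnt : Nontrivial V := Module.nontrivial_of_finrank_pos (R := ℂ) (by omega)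
  obtain ⟨μ, hμ⟩ := Module.End.exists_eigenvalue (ρ g)
  refine ⟨Module.End.eigenspace (ρ g) μ, hμ, ?_, ?_⟩
  · intro htop
    have hc : g ∈ Subgroup.center G := by
      rw [Subgroup.mem_center_iff]
      intro x
      apply hinj
      rw [map_mul, map_mul]
      ext v
      have h1 : ∀ w : V, ρ g w = μ • w := fun w =>
        Module.End.mem_eigenspace_iff.1 (htop ▸ Submodule.mem_top)
      simp [h1]
    rcases (inferInstance : (Subgroup.center G).Normal).eq_bot_or_eq_top with h | h
    · rw [h] at hc; exact hg (Subgroup.mem_bot.1 hc)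
    · exact hG ⟨⟨fun a b => (Subgroup.mem_center_iff.1 (h ▸ Subgroup.mem_top b) a)⟩⟩
  · intro c hc v hv
    rw [Module.End.mem_eigenspace_iff] at hv ⊢
    have h1 : g * c = c * g := hc g (Set.mem_singleton g)
    have : ρ g (ρ c v) = ρ c (ρ g v) := by
      rw [← Module.End.mul_apply, ← map_mul, h1, map_mul, Module.End.mul_apply]
    rw [this, hv, map_smul]

end Cfsg.Agent.S5011
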