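import Cfsg.Statements.S5075
import Cfsg.Agent.Lib.Root.M2

set_option autoImplicit false
open Cfsg

namespace Cfsg.Agent.S5075

open CA.McL Module Submodule

theorem le_norm {G : Type*} [Group G] {A B : Subgroup G} (h : ∀ a ∈ A, ∀ b ∈ B, a * b = b * a) :
    A ≤ Subgroup.normalizer (B : Set G) :=
  le_trans (fun a ha => Subgroup.mem_centralizer_iff.2 fun b hb => (h a ha b hb).symm)
    (Subgroup.centralizer_le_normalizer _)

/-- Let p be an odd prime, V a finite-dimensional vector space over the field with p elements, and H a group of linear automorphisms of V generated by transvections (elements of order p fixing a hyperplane pointwise) and having no nontrivial normal p-subgroup. Then for some n ≥ 1 there are a decomposition V = V₀ ⊕ V₁ ⊕ ⋯ ⊕ Vₙ into H-invariant subspaces and a decomposition of H as the internal direct product of normal subgroups H₁, …, Hₙ such that Hⱼ acts trivially on every Vᵢ with i ≠ j, and Hⱼ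 induces on Vⱼ exactly the special linear group of Vⱼ or exactly the isometry group of a non-degenerate alternating form on Vⱼ. -/
theorem result {p : ℕ} [Fact p.Prime] (hp : Odd p) {V : Type*} [AddCommGroup V] [Module (ZMod p) V] [Finite V]
    (H : Subgroup (V ≃ₗ[ZMod p] V)) (T : Set (V ≃ₗ[ZMod p] V)) (hHT : H = Subgroup.closure T)
    (hT : ∀ t ∈ T, orderOf t = p ∧
      Module.finrank (ZMod p) ↥(LinearMap.ker ((t : V →ₗ[ZMod p] V) - LinearMap.id)) + 1 =
        Module.finrank (ZMod p) V)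
    (hOp : Cfsg.pCore p ↥H = ⊥) :
    ∃ (n : ℕ) (W : Fin (n + 1) → Submodule (ZMod p) V) (K : Fin n → Subgroup (V ≃ₗ[ZMod p] V)),
      1 ≤ n ∧ DirectSum.IsInternal W ∧
      (∀ h ∈ H, ∀ i, (W i).map (h : V →ₗ[ZMod p] V) = W i) ∧
      (∀ j, K j ≤ H ∧ ((K j).subgroupOf H).Normal) ∧ ⨆ j, K j = H ∧
      (∀ j, K j ⊓ (⨆ j' ∈ {j' : Fin n | j' ≠ j}, K j') = ⊥) ∧
      (∀ j j', j ≠ j' → ∀ a ∈ K j, ∀ b ∈ K j', a * b = b * a) ∧
      (∀ j, ∀ h ∈ K j, ∀ i : Fin (n + 1), i ≠ j.succ → ∀ v ∈ W i, h v = v) ∧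
      (∀ j, ∃ ρ : ↥(K j) →* (↥(W j.succ) ≃ₗ[ZMod p] ↥(W j.succ)),
        (∀ (h : ↥(K j)) (v : ↥(W j.succ)), ((ρ h v : ↥(W j.succ)) : V) = (h : V ≃ₗ[ZMod p] V) (v : V)) ∧
        ((ρ.range : Set (↥(W j.succ) ≃ₗ[ZMod p] ↥(W j.succ))) =
            {f : ↥(W j.succ) ≃ₗ[ZMod p] ↥(W j.succ) | LinearMap.det (f : ↥(W j.succ) →ₗ[ZMod p] ↥(W j.succ)) = 1} ∨
          ∃ B : LinearMap.BilinForm (ZMod p) ↥(W j.succ), B.IsAlt ∧ B.Nondegenerate ∧
            (ρ.range : Set (↥(W j.succ) ≃ₗ[ZMod p] ↥(W j.succ))) = {f : ↥(W j.succ) ≃ₗ[ZMod p] ↥(W j.succ) | ∀ x y, B (f x) (f y) = B x y})) := by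
  have hp' : p.Prime := Fact.out
  have h3 : 3 ≤ p := by
    have := hp'.two_le
    rcases hp with ⟨m, rfl⟩; omega
  have h2 : (2 : ZMod p) ≠ 0 := fun e => by
    have := (ZMod.natCast_eq_zero_iff 2 p).1 (by exact_mod_cast e)
    exact absurd (Nat.le_of_dvd two_pos this) (by omega)
  have hS := sys h3 hOp
  haveI : Finite (Dual (ZMod p) V) := DFunLike.finite _
  let ι := Set.range (Cp (SH H))
  haveI : Finite ι := Finite.Set.finite_range _
  haveI : Nonempty ι := ⟨⟨_, 0, rfl⟩⟩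
  obtain ⟨n, ⟨e⟩⟩ := Finite.exists_equiv_fin ι
  let C : Fin n → V → Dual (ZMod p) V → Prop := fun j => (e.symm j).1
  have c1 : ∀ j, Sys (C j) ∧ Conn (C j) ∧ ∀ {v φ}, C j v φ → SH H v φ := fun j => by
    obtain ⟨b, hb⟩ := (e.symm j).2
    have : C j = Cp (SH H) b := hb.symm
    rw [this]; exact ⟨hS.cp b, conn_cp b, fun a => a.1⟩
  have c2 : ∀ {v φ}, SH H v φ → ∃ j, C j v φ := fun {v φ} a =>
    ⟨e ⟨_, (v, φ), rfl⟩, by simpa [C] using ⟨a, .refl⟩⟩
  have c3 : ∀ {i j v φ w ψ}, i ≠ j → C i v φ → C j w ψ → φ w = 0 := fun {i j v φ w ψ} hij a b => by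
    by_contra k
    obtain ⟨x, hx⟩ := (e.symm i).2
    obtain ⟨y, hy⟩ := (e.symm j).2
    have a' : Cp (SH H) x v φ := hx ▸ a
    have b' : Cp (SH H) y w ψ := hy ▸ b
    exact hij (e.symm.injective (Subtype.ext (hx.symm.trans ((cp_eq (a'.adj b'.1 (Or.inl k)) b').trans hy))))
  have c4 : ∀ {i j}, i ≠ j → V1 (C i) ≤ U1 (C j) := fun hij =>
    span_le.2 fun w ⟨ψ, b⟩ v φ a => c3 hij.symm a b
  have k1 : ∀ j, GS (C j) ≤ H := fun j => (Subgroup.closure_le _).2 fun g ⟨v, φ, a, e⟩ => by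
    obtain ⟨-, -, -, t, ht, e'⟩ := (c1 j).2.2 a
    exact (LinearEquiv.ext fun x => (e' x).trans (e x).symm : t = g) ▸ ht
  have k2 : ⨆ j, GS (C j) = H := le_antisymm (iSup_le k1) (hHT.le.trans ((Subgroup.closure_le _).2 fun t ht => by
    obtain ⟨v, φ, a1, a2, a3, a4⟩ := exists_tv (hT t ht).1 (hT t ht).2
    obtain ⟨j, a⟩ := c2 ⟨a1, a2, a3, t, hHT ▸ Subgroup.subset_closure ht, a4⟩
    exact Subgroup.mem_iSup_of_mem j (Subgroup.subset_closure ⟨v, φ, a, a4⟩)))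
  have inv : ∀ W : Submodule (ZMod p) V, (∀ j, W ≤ U1 (C j) ∨ V1 (C j) ≤ W) → H ≤ CA.McL.Inv W := fun W hW =>
    k2 ▸ iSup_le fun j => (Subgroup.closure_le _).2 fun g ⟨v, φ, a, e⟩ => e.mem_Inv ((c1 j).1.zero a) fun x hx =>
      (hW j).elim (fun k => by simp [k hx v φ a]) fun k => smul_mem _ _ (k (mem_V1 a))
  have i1 : ∀ j, H ≤ CA.McL.Inv (V1 (C j)) := fun j => inv _ fun i =>
    (eq_or_ne j i).symm.imp c4 fun e => by rw [e]
  have i2 : ∀ j, H ≤ CA.McL.Inv (U1 (C j)) := fun j => inv _ fun i =>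
    (eq_or_ne j i).imp (fun e => by rw [e]) fun e => c4 e.symm
  have hU : ∀ j {v φ v' φ'}, C j v φ → C j v' φ' → v' - v ∈ U1 (C j) → (∀ u χ, C j u χ → (φ' - φ) u = 0) →
      v' = v ∧ φ' = φ := fun j => eq_of_St hp' h3 (by simp) hOp (c1 j).1 (c1 j).2.2 (i1 j) (i2 j)
  have cpl : ∀ j, IsCompl (V1 (C j)) (U1 (C j)) := fun j => ((c1 j).1.main h2 (c1 j).2.1 (hU j)).1
  let W : Fin (n + 1) → Submodule (ZMod p) V := Fin.cons (⨅ j, U1 (C j)) fun j => V1 (C j)
  have w1 : ∀ j i, i ≠ Fin.succ j → W i ≤ U1 (C j) := fun j i hi => by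
    refine Fin.cases (fun _ => iInf_le _ j) (fun i hi => c4 (i := i) fun e => hi (by rw [e])) i hi
  have fx : ∀ {i j}, i ≠ j → GS (C i) ≤ CA.McL.Fix (V1 (C j)) := fun hij g hg x hx => GS_le_Fix hg x (c4 hij.symm hx)
  have one : ∀ j g, g ∈ CA.McL.Fix (V1 (C j)) → g ∈ CA.McL.Fix (U1 (C j)) → g = 1 := fun j g a b => LinearEquiv.ext fun x => by
    obtain ⟨y, hy, z, hz, rfl⟩ := mem_sup.1 ((cpl j).sup_eq_top.ge (mem_top (x := x)))
    rw [map_add, a y hy, b z hz]; rfl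
  have cm : ∀ j j', j ≠ j' → ∀ a ∈ GS (C j), ∀ b ∈ GS (C j'), a * b = b * a := fun j j' hj a ha b hb =>
    LinearEquiv.ext fun x => by
      have e1 := fx hj ha _ (GS_sub hb x)
      have e2 := fx hj.symm hb _ (GS_sub ha x)
      rw [map_sub, sub_eq_iff_eq_add] at e1 e2
      rw [LinearEquiv.mul_apply, LinearEquiv.mul_apply, e1, e2]; abel
  let P : V →ₗ[ZMod p] V := ∑ j, (V1 (C j)).subtype ∘ₗ projectionOnto _ _ (cpl j)
  have p1 : ∀ j, ∀ x ∈ V1 (C j), P x = x := fun j x hx => by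
    rw [LinearMap.sum_apply, Finset.sum_eq_single j]
    · exact congrArg Subtype.val (projectionOnto_apply_left (cpl j) ⟨x, hx⟩)
    · intro i _ hi
      exact congrArg Subtype.val (projectionOnto_apply_of_mem_right (cpl i) (c4 hi.symm hx))
    · simp
  refine ⟨n, W, fun j => GS (C j), Fin.pos (e (Classical.arbitrary ι)), ?_, fun h hh i => ?_, fun j => ⟨k1 j, ?_⟩,
    k2, fun j => ?_, cm, fun j h hh i hi v hv => GS_le_Fix hh v (w1 j i hi hv), fun j =>
      ⟨res _ _ ((k1 j).trans (i1 j)), fun _ _ => rfl, range_res (c1 j).1 h2 (c1 j).2.1 (hU j) _⟩⟩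
  · refine (DirectSum.isInternal_submodule_iff_iSupIndep_and_iSup_eq_top W).2 ⟨fun i => ?_, ?_⟩
    · refine Fin.cases ?_ (fun j => (cpl j).disjoint.mono_right (iSup₂_le fun i hi => w1 j i hi)) i
      refine disjoint_def.2 fun x hx hx' => ?_
      have a : ⨆ i, ⨆ (_ : i ≠ 0), W i ≤ LinearMap.eqLocus P LinearMap.id := iSup₂_le fun i =>
        Fin.cases (fun k => absurd rfl k) (fun j _ x hx => p1 j x hx) i
      refine (a hx').symm.trans ?_
      rw [LinearMap.sum_apply]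
      exact Finset.sum_eq_zero fun j _ => congrArg Subtype.val
        (projectionOnto_apply_of_mem_right (cpl j) ((mem_iInf _).1 hx j))
    · refine eq_top_iff.2 fun x _ => ?_
      have a : P x ∈ ⨆ i, W i := by
        rw [LinearMap.sum_apply]
        exact sum_mem fun j _ => mem_iSup_of_mem j.succ (projectionOnto _ _ (cpl j) x).2
      have b : x - P x ∈ W 0 := (mem_iInf _).2 fun j => by
        rw [LinearMap.sum_apply, ← Finset.add_sum_erase _ _ (Finset.mem_univ j), ← sub_sub]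
        refine sub_mem ?_ (sum_mem fun i hi => c4 (Finset.ne_of_mem_erase hi)
          (projectionOnto _ _ (cpl i) x).2)
        obtain ⟨y, hy, z, hz, rfl⟩ := mem_sup.1 ((cpl j).sup_eq_top.ge (mem_top (x := x)))
        have e1 := projectionOnto_apply_left (cpl j) ⟨y, hy⟩
        have e2 := projectionOnto_apply_of_mem_right (cpl j) hz
        simp only [LinearMap.comp_apply, map_add] at e1 ⊢
        simpa [e1, e2] using hz
      simpa using add_mem a (mem_iSup_of_mem 0 b)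
  · exact Fin.cases (inv _ (fun j => Or.inl (iInf_le _ j)) hh) (fun j => i1 j hh) i
  · rw [Subgroup.normal_subgroupOf_iff_le_normalizer (k1 j), ← k2]
    refine iSup_le fun i => ?_
    rcases eq_or_ne i j with e' | e'
    · rw [e']; exact Subgroup.le_normalizer
    · exact le_norm (cm i j e')
  · refine eq_bot_iff.2 fun g hg => Subgroup.mem_bot.2 (one j g ?_ (GS_le_Fix (Subgroup.mem_inf.1 hg).1))
    have : ⨆ i ∈ {j' : Fin n | j' ≠ j}, GS (C i) ≤ CA.McL.Fix (V1 (C j)) := iSup₂_le fun i hi => fx hi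
    exact this (Subgroup.mem_inf.1 hg).2

end Cfsg.Agent.S5075
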