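import Cfsg.Statements.S5125
import Cfsg.Agent.Lib.Fus.FusInv
-- import your own Cfsg.Agent.* helpers here

set_option autoImplicit false
open Cfsg

namespace Cfsg.Agent.S5125

open CA.Fus CA.AmbSyl in
/-- Let F be a saturated fusion system over a finite p-group S and Q a subgroup strongly closed in F. If Q has a subgroup Q₁ that is normal in F, with Q/Q₁ abelian and Aut_F(Q₁) a p-group, then Q is normal in F. -/
theorem result {Ω : Type*} [Group Ω] {S : Subgroup Ω} [Finite S] (p : ℕ) [Fact p.Prime] (hS : IsPGroup p S) (F : Cfsg.FusionSystem S) (hF : F.IsSaturated p) (Q Q₁ : Subgroup Ω) (hQ : F.StronglyClosed Q) (hQ₁Q : Q₁ ≤ Q) (hQ₁ : F.IsNormal Q₁) (hab : ⁅Q, Q⁆ ≤ Q₁) (hAut : IsPGroup p ↥(F.autGroup Q₁)) : F.IsNormal Q := by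
  have := fin_le hQ₁.1
  have e := aut_eq_of_pgroup hS hF (normal_fullyNorm hQ₁) hAut
  refine normal_of_chain hS hF hQ (.tail ?_ ⟨hQ, hab⟩)
  refine chain_of_descent (I := F.IsNormal) hQ₁ fun W hW hI hb => ⟨⁅S, W⁆, ?_, ?_, normal_sc hI,
    Subgroup.commutator_mono hQ.1 le_rfl⟩
  · have := fin_le hW
    rw [Subgroup.commutator_comm]
    exact commutator_lt hS (hS.to_le hI.1) (normal_norm hI) hb
  · have h1 := (CA.Amb.commutator_le_right_of_norm (normal_norm hI)).trans hW
    refine normal_of_inv hQ₁ h1 fun α hα => ?_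
    rw [e] at hα
    obtain ⟨g, hg, e'⟩ := mem_autInd.1 hα
    rw [img_congr (f' := cj g) fun x hx => e' x (h1 hx)]
    exact img_cj_eq_iff.2 (CA.AmbRes.norm_comm_left S W hg.1)

end Cfsg.Agent.S5125
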