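import Cfsg.Statements.S5131
import Cfsg.Agent.Lib.Fus.FusIso
-- import your own Cfsg.Agent.* helpers here

set_option autoImplicit false
open Cfsg

namespace Cfsg.Agent.S5131

open CA.Fus CA.AmbSyl in
/-- Let F be a fusion system over a finite p-group S and F' a fusion system over S'. If α : S → S' is a morphism of fusion systems from F to F' (every map of F induces along α a map of F'), then the kernel of α is strongly closed in S with respect to F. -/
theorem result {Ω : Type*} [Group Ω] {S : Subgroup Ω} [Finite S] (p : ℕ) [Fact p.Prime] (hS : IsPGroup p S) (F : Cfsg.FusionSystem S) {Ω' : Type*} [Group Ω'] {S' : Subgroup Ω'} (F' : Cfsg.FusionSystem S') (α : S →* Ω') (hα : F.IsMorphism F' α) : F.StronglyClosed ((α.ker).map S.subtype) := by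
  rw [ker_map_eq]
  obtain ⟨h1, h2⟩ := morphism_iff.1 hα
  refine sc_iff.2 ⟨HomOn.pre_le _ _, fun P f hf x hx hT => ⟨hf.mem hx, ?_⟩⟩
  obtain ⟨g, hg, e⟩ := h2 P f hf
  have h3 : ext α x = 1 := hT.2
  show ext α (f x) = 1
  rw [← e x hx, h3, hg.hom.one]

end Cfsg.Agent.S5131
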