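import Cfsg.Statements.S5135
import Cfsg.Agent.Lib.Fus.FusIso
-- import your own Cfsg.Agent.* helpers here

set_option autoImplicit false
open Cfsg

namespace Cfsg.Agent.S5135

open CA.Fus CA.AmbSyl in
/-- Let G be a finite group, S a Sylow p-subgroup and H a normal subgroup of G. Then the fusion system of G/H on the image SH/H of S is the factor system of the fusion system of G on S modulo S ∩ H, read through the quotient map restricted to S: for each subgroup P' of SH/H, the conjugation maps by elements of G/H defined on P' with values in SH/H are exactly the homomorphisms induced by the conjugation maps by elements of G defined on the full preimage of P' in S with values in S. -/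
theorem result {G : Type*} [Group G] [Finite G] (p : ℕ) [Fact p.Prime] (S : Sylow p G) (H : Subgroup G) [H.Normal] : (Cfsg.groupFusionSystem (S : Subgroup G)).IsFactorSystem ((S : Subgroup G) ⊓ H) ((QuotientGroup.mk' H).comp (S : Subgroup G).subtype) (Cfsg.groupFusionSystem ((S : Subgroup G).map (QuotientGroup.mk' H))) := by
  have hs := (sylIn_top S)
  have q := quo_ofSub hs (homOn_hom ⊤ (QuotientGroup.mk' H))
  have e1 : img (QuotientGroup.mk' H) (⊤ : Subgroup G) = ⊤ := by
    rw [img_hom]; exact Subgroup.map_top_of_surjective _ (QuotientGroup.mk'_surjective H)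
  have e : ∀ x ∈ (S : Subgroup G), QuotientGroup.mk' H x =
      ext ((QuotientGroup.mk' H).comp (S : Subgroup G).subtype) x := fun x hx => by rw [ext_of_mem _ hx]; rfl
  refine factor_iff.2 ⟨Subgroup.ext fun x => ⟨fun h => ⟨h.1, ?_⟩, fun h => ⟨h.1, ?_⟩⟩, Quo.fac (Quo.congr ?_ e)⟩
  · exact (QuotientGroup.eq_one_iff x).1 ((e x h.1).trans h.2)
  · exact (e x h.1).symm.trans ((QuotientGroup.eq_one_iff x).2 h.2)
  · rw [group_eq_ofSubgroup, group_eq_ofSubgroup]
    convert q using 2 <;> first | exact (img_hom _ _).symm | exact e1.symm | skip

end Cfsg.Agent.S5135
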