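import Cfsg.Statements.S5138
import Cfsg.Agent.Lib.Fus.FusCP
-- import your own Cfsg.Agent.* helpers here

set_option autoImplicit false
open Cfsg

namespace Cfsg.Agent.S5138

open CA.Fus CA.AmbSyl in
/-- Let F be a saturated fusion system over a finite p-group S and E₁, E₂ normal subsystems over T₁, T₂ with [T₁, T₂] = 1. Then there is a normal subsystem of F over T₁T₂ which, if moreover T₁ ∩ T₂ lies in the centre of E₁ and in the centre of E₂, is a central product of E₁ and E₂ (the factor system of a direct product of E₁ and E₂ modulo a subgroup of its centre meeting both factors trivially). -/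
theorem result {Ω : Type*} [Group Ω] {S : Subgroup Ω} [Finite S] (p : ℕ) [Fact p.Prime] (hS : IsPGroup p S) (F : Cfsg.FusionSystem S) (hF : F.IsSaturated p) {T₁ T₂ : Subgroup Ω} (E₁ : Cfsg.FusionSystem T₁) (E₂ : Cfsg.FusionSystem T₂) (hE₁ : E₁.IsNormalIn F p) (hE₂ : E₂.IsNormalIn F p) (hc : ⁅T₁, T₂⁆ = ⊥) : ∃ D : Cfsg.FusionSystem (T₁ ⊔ T₂), D.IsNormalIn F p ∧ (T₁ ⊓ T₂ ≤ E₁.center → T₁ ⊓ T₂ ≤ E₂.center → Cfsg.FusionSystem.IsCentralProductOf E₁ E₂ D) := by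
  have := fin_le (nm_le hE₁)
  have := fin_le (nm_le hE₂)
  have h1 := CA.Amb.commutator_eq_bot_iff'.1 hc
  by_cases h : T₁ ⊓ T₂ ≤ E₁.center ∧ T₁ ⊓ T₂ ≤ E₂.center
  · obtain ⟨D, hD⟩ := exists_cp (CA.AmbRes.cent_symm h1) (central_iff_le.2 h.1) (central_iff_le.2 h.2)
    exact ⟨D, hD.nm_of hS hE₁ hE₂, fun _ _ => cp_iff.2 hD⟩
  obtain ⟨B, h2, h3⟩ := exists_cent_nm hS hF (normal_of_sc_comm hS hF (sc_inf (nm_sc hE₁) (nm_sc hE₂))
    (eq_bot_iff.2 (hc ▸ Subgroup.commutator_mono inf_le_left inf_le_right)))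
  have key : ∀ {T : Subgroup Ω} {E : FusionSystem T}, E.IsNormalIn F p → T₁ ⊓ T₂ ≤ T →
      T ≤ Subgroup.centralizer ((T₁ ⊓ T₂ : Subgroup Ω) : Set Ω) →
      ∃ D : FusionSystem T, D.IsNormalIn F p ∧ D.IsCentral (T₁ ⊓ T₂) := fun {T E} hE h4 h5 => by
    obtain ⟨D, h6, -, h7⟩ := exists_wedge hS hE.1 h2
    have := fin_le (nm_le hE)
    revert D
    rw [show T ⊓ FusionSystem.centralizerIn S (T₁ ⊓ T₂) = T from inf_eq_left.2 (le_inf (nm_le hE) h5)]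
    exact fun D h6 h7 => ⟨D, h6, ((cz_centSys h3).1 (nm_sub h7)).central h4 (hS.to_le (nm_le hE)) (nm_sat h6)⟩
  obtain ⟨D₁, h4, h5⟩ := key hE₁ inf_le_left ((CA.AmbRes.cent_symm h1).trans (CA.Amb.centralizer_anti inf_le_right))
  obtain ⟨D₂, h6, h7⟩ := key hE₂ inf_le_right (h1.trans (CA.Amb.centralizer_anti inf_le_left))
  obtain ⟨D, hD⟩ := exists_cp (CA.AmbRes.cent_symm h1) h5 h7
  exact ⟨D, hD.nm_of hS h4 h6, fun h8 h9 => (h ⟨h8, h9⟩).elim⟩

end Cfsg.Agent.S5138
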