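import Cfsg.Statements.S5148
import Cfsg.Agent.Lib.Fus.FusSolv
-- import your own Cfsg.Agent.* helpers here

set_option autoImplicit false
open Cfsg

namespace Cfsg.Agent.S5148

open CA.Fus CA.AmbSyl in
/-- A quasisimple fusion system over a finite p-group S (saturated, equal to its p-residual subsystem, with simple — in particular nontrivial — factor system modulo its centre) has S nonabelian. -/
theorem result {Ω : Type*} [Group Ω] {S : Subgroup Ω} [Finite S] (p : ℕ) [Fact p.Prime] (hS : IsPGroup p S) (F : Cfsg.FusionSystem S) (hq : F.Quasisimple p) : ¬ IsMulCommutative S := by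
  intro h
  exact qs_center_ne hS hq (qs_core hS hq (normal_top_of_comm hS hq.1 fun x hx y hy =>
    congrArg Subtype.val (h.1.1 ⟨x, hx⟩ ⟨y, hy⟩)))

end Cfsg.Agent.S5148
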