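import Cfsg.Statements.S5162
import Cfsg.Agent.Lib.Fus.FusCP
-- import your own Cfsg.Agent.* helpers here

set_option autoImplicit false
open Cfsg

namespace Cfsg.Agent.S5162

open CA.Fus CA.AmbSyl in
/-- Let F be a saturated fusion system over a finite p-group S that is a central product of two saturated subsystems F₁ (over S₁) and F₂ (over S₂) inside S. Then every component of F is a component of F₁ or a component of F₂. -/
theorem result {Ω : Type*} [Group Ω] {S : Subgroup Ω} [Finite S] (p : ℕ) [Fact p.Prime] (hS : IsPGroup p S) (F : Cfsg.FusionSystem S) (hF : F.IsSaturated p) {S₁ S₂ : Subgroup Ω} (F₁ : Cfsg.FusionSystem S₁) (F₂ : Cfsg.FusionSystem S₂) (h₁ : F₁.IsSaturated p) (h₂ : F₂.IsSaturated p) (h₁F : F₁.IsSubsystemOf F) (h₂F : F₂.IsSubsystemOf F) (hc : Cfsg.FusionSystem.IsCentralProductOf F₁ F₂ F) {T : Subgroup Ω} (C : Cfsg.FusionSystem T) (hC : C.IsComponentIn F p) : C.IsComponentIn F₁ p ∨ C.IsComponentIn F₂ p := by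
  have := fin_le (sub_le h₁F)
  have := fin_le (sub_le h₂F)
  have h := cp_iff.1 hc
  have h1 := h.nm hS hF (nm_self h₁)
  refine (em (T ≤ S₁)).imp (comp_of_le hS hC h1) fun h2 => comp_of_le hS hC (h.symm.nm hS hF (nm_self h₂)) ?_
  obtain ⟨B, h3, h4, -⟩ := exists_cfe hS h1
  have h5 := h4.sub (comp_sub (comp_of_le hS hC h3 (comp_le_csE hS hC h1 h2)))
  refine hC.2.2.1.ge.trans ((hyper_le_focal C p).trans (focal_le_iff.2 fun P f hf x hx => ?_))
  obtain ⟨g, hg, e1, e2⟩ := h5.ext hf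
  obtain ⟨a, ha, b, hb, rfl⟩ := h.mem (comp_le hC (hf.le hx))
  have h6 : b ∈ P ⊔ S₁ := by
    simpa using mul_mem (inv_mem (Subgroup.mem_sup_right ha)) (Subgroup.mem_sup_left (T := S₁) hx)
  rw [← e1 _ hx, hg.hom.mul (Subgroup.mem_sup_right ha) h6, e2 a ha]
  simpa [mul_assoc] using mul_mem (inv_mem hb) (sc_maps (h.symm.sc (sc_top F₂)) hg h6 hb)

end Cfsg.Agent.S5162
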