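import Cfsg.Statements.S5193
import Cfsg.Agent.Lib.Fus.FusNil
-- import your own Cfsg.Agent.* helpers here

set_option autoImplicit false
open Cfsg

namespace Cfsg.Agent.S5193

open CA.Fus CA.AmbSyl in
/-- Glauberman's Theorem for fusion systems. Let F be a saturated fusion system over a finite p-group S, let J(S) be the subgroup generated by the abelian subgroups of S of largest order, and let N be the normalizer fusion system of J(S) in F (a fusion system over N_S(J(S)) = S). Then every p-th power of an element of Z(S) that lies in the centre of N lies in the centre of F; and if p is odd, or if the symmetric group of degree 4 is not involved in any model of the normalizer system of a fully normalized F-centric subgroup (F is S₄-free), then the centre of N equals the centre of F. -/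
theorem result {Ω : Type*} [Group Ω] {S : Subgroup Ω} [Finite S] (p : ℕ) [Fact p.Prime] (hS : IsPGroup p S) (F : Cfsg.FusionSystem S) (hF : F.IsSaturated p) (N : Cfsg.FusionSystem (Cfsg.FusionSystem.normalizerIn S (Cfsg.thompsonSubgroupAOf S))) (hN : F.IsNormalizerSystem (Cfsg.thompsonSubgroupAOf S) N) : Subgroup.closure ((fun z : Ω => z ^ p) '' ((S ⊓ Subgroup.centralizer (S : Set Ω) : Subgroup Ω) : Set Ω)) ⊓ N.center ≤ F.center ∧ (p ≠ 2 ∨ F.IsSectionFree p (Equiv.Perm (Fin 4)) → N.center = F.center) := by
  revert N
  rw [CA.H6J.thompsonSubgroupAOf_eq]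
  intro N hN
  have hn := CA.H6J.le_normalizer_J 0 S
  refine ⟨?_, fun hc => le_antisymm (fun z hz => ?_) (center_le_normSys hS hF hN hn)⟩
  · rintro x ⟨hx, hx'⟩
    obtain ⟨z, hz, rfl⟩ := mem_pow_closure hx
    obtain ⟨h1, h2⟩ := mem_center_normSys hN hn hx'
    exact central_J_pow hS hF hz fun f hf => h2 _ f hf (Z_le_J h1)
  · obtain ⟨h1, h2⟩ := mem_center_normSys hN hn hz
    exact central_J hS hF hc h1 fun f hf => h2 _ f hf (Z_le_J h1)

end Cfsg.Agent.S5193
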