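import Cfsg.Statements.S5196
import Cfsg.Agent.Lib.Fus.FusNil
-- import your own Cfsg.Agent.* helpers here

set_option autoImplicit false
universe u
open Cfsg

namespace Cfsg.Agent.S5196

open CA.Fus CA.AmbSyl in
/-- Let p be an odd prime and W a positive characteristic p-functor: W assigns to every finite p-group Q (in a fixed universe) a subgroup W(Q), nontrivial when Q is, carried to W(R) by every isomorphism Q ≅ R; assume also Z(Q) ≤ W(Q) for every finite p-group Q. Suppose W satisfies the local condition: for every finite group G with Sylow p-subgroup P, O_p(G) ∩ Z(G) = O_p(G) ∩ Z(N_G(W(P))). Then W controls weak closure of elements in every saturated fusion system F over a finite p-group S: the centre of the normalizer fusion system of W(S) in F equals the centre of F. (For p = 2 no functor satisfies the local condition, so p is taken odd.) -/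
theorem result {p : ℕ} [Fact p.Prime] (hp : p ≠ 2) (W : ∀ (Q : Type u) [Group Q], Subgroup Q) (hW1 : ∀ (Q : Type u) [Group Q] [Finite Q], IsPGroup p Q → Nontrivial Q → W Q ≠ ⊥) (hW2 : ∀ (Q R : Type u) [Group Q] [Group R] [Finite Q], IsPGroup p Q → ∀ φ : Q ≃* R, (W Q).map φ.toMonoidHom = W R) (hWZ : ∀ (Q : Type u) [Group Q] [Finite Q], IsPGroup p Q → Subgroup.center Q ≤ W Q) (hC : ∀ (G : Type u) [Group G] [Finite G] (P : Sylow p G), Cfsg.pCore p G ⊓ Subgroup.center G = Cfsg.pCore p G ⊓ (Subgroup.center ↥(Subgroup.normalizer (((W ↥(P : Subgroup G)).map (P : Subgroup G).subtype : Subgroup G) : Set G))).map (Subgroup.normalizer (((W ↥(P : Subgroup G)).map (P : Subgroup G).subtype : Subgroup G) : Set G)).subtype) {Ω : Type u} [Group Ω] {S : Subgroup Ω} [Finite S] (hS : IsPGroup p S) (F : Cfsg.FusionSystem S) (hF : F.IsSaturated p) (N : Cfsg.FusionSystem (Cfsg.FusionSystem.normalizerIn S ((W ↥S).map S.subtype))) (hN : F.IsNormalizerSystem ((W ↥S).map S.subtype) N) : N.center = F.center := by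
  have hW := CA.H6NPC.fn_induced (p := p) ⟨hW1, hW2⟩
  have hn := fn_norm' hW hS
  refine le_antisymm (fun z hz => ?_) (center_le_normSys hS hF hN hn)
  obtain ⟨h1, h2⟩ := mem_center_normSys hN hn hz
  have hZ : ∀ {Ω : Type u} [Group Ω] (X : Subgroup Ω) [Finite X], IsPGroup p X →
      X ⊓ Subgroup.centralizer (X : Set Ω) ≤ inducedFunctor W X := fun X _ hX =>
    (CA.H6J.map_center_subtype X).ge.trans (Subgroup.map_mono (hWZ X hX))
  have := central_ctl (c := True) (H := Unit) (m := 1) hW hZ (fun G _ _ T a b _ z hz h => by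
    have h3 := (hC G a.toSylowTop).ge (x := z ^ 1) ⟨CA.AmbCore.pCoreOf_top p G ▸ b.le ⟨trivial,
      CA.Amb.centralizer_anti (CA.AmbCore.pCoreOf_le_syl a) (pow_mem hz 1).2⟩, (CA.H6J.map_center_subtype _).ge
        ⟨fn_norm' hW a.pg (pow_mem hz 1).1, fun g hg => Subgroup.mem_centralizer_singleton_iff.1 (h hg)⟩⟩
    exact h3.2) F hS hF (Or.inl trivial) z h1 fun f hf => by rw [pow_one]; exact h2 _ f hf (hZ S hS h1)
  exact le_center this (by rw [pow_one]; exact Subgroup.mem_zpowers z)

end Cfsg.Agent.S5196
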