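import Cfsg.Statements.S5198
import Cfsg.Agent.Lib.Fus.FusSolv
-- import your own Cfsg.Agent.* helpers here

set_option autoImplicit false
open Cfsg

namespace Cfsg.Agent.S5198

open CA.Fus CA.AmbSyl in
/-- Let F be a saturated fusion system over a finite p-group S and T a subgroup of S strongly closed in F (so T is normal in S). Then every element x of the hyperfocal subgroup of F acts on T by conjugation as an element of O^p(Aut_F(T))·Inn(T): there is an automorphism of T in the subgroup generated by the elements of Aut_F(T) of order prime to p together with the inner automorphisms of T that agrees with conjugation by x. -/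
theorem result {Ω : Type*} [Group Ω] {S : Subgroup Ω} [Finite S] (p : ℕ) [Fact p.Prime] (hS : IsPGroup p S) (F : Cfsg.FusionSystem S) (hF : F.IsSaturated p) (T : Subgroup Ω) (hT : F.StronglyClosed T) : ∀ x ∈ F.hyperfocalSubgroup p, ∃ α ∈ ((Cfsg.pResidual p ↥(F.autGroup T)).map (F.autGroup T).subtype ⊔ Cfsg.Inn ↥T : Subgroup (MulAut ↥T)), ∀ t : ↥T, ((α t : ↥T) : Ω) = x * (t : Ω) * x⁻¹ := by
  have hTn := sc_norm hT
  have := fin_le hT.1
  have hn : F.autGroup T ≤ Subgroup.normalizer
      ((pResidualOf p (F.autGroup T) ⊔ Inn T : Subgroup (MulAut T)) : Set (MulAut T)) :=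
    CA.Amb.norm_sup (CA.AmbRes.norm_res p _) (norm_inn T _)
  have key : F.hyperfocalSubgroup p ≤ NK S (pResidualOf p (F.autGroup T) ⊔ Inn T) := by
    refine hyper_le_iff'.2 fun P hP α hα hc x hx => ?_
    obtain ⟨g, hg, e⟩ := sc_lift hS hF hT ((mem_aut hP).1 hα)
    have := fin_le hg.le
    have hm : ∀ y ∈ P ⊔ T, g y ∈ P ⊔ T := hg.hom.maps_sup (fun y hy => by
      have := mul_mem (Subgroup.mem_sup_left (T := T) (act_mem α hy)) (inv_mem (Subgroup.mem_sup_right (e y hy)))
      rwa [mul_inv_rev, inv_inv, mul_inv_cancel_left] at this)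
      fun y hy => Subgroup.mem_sup_right (sc_maps hT hg (Subgroup.mem_sup_right hy) hy)
    obtain ⟨β, hβ, eβ⟩ := hg.exists_aut hm
    have hst := aut_le_stab_sc hT (P ⊔ T)
    have h1 : ∀ n, ∀ y ∈ P, (act (β ^ n) y)⁻¹ * act (α ^ n) y ∈ T := fun n => by
      induction n with
      | zero => intro y _; rw [pow_zero, pow_zero, act_one, act_one, inv_mul_cancel]; exact one_mem _
      | succ n ih =>
        intro y hy
        have h2 := (hst hβ _).2 (ih y hy)
        have h3 := act_mem (α ^ n) hy
        rw [(homOn_act β).inv_mul (act_mem _ (Subgroup.mem_sup_left hy)) (Subgroup.mem_sup_left h3),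
          eβ _ (Subgroup.mem_sup_left h3)] at h2
        have := mul_mem h2 (e _ h3)
        rwa [mul_assoc, mul_inv_cancel_left, ← act_pow_succ, ← act_pow_succ] at this
    obtain ⟨k, hk⟩ := CA.AmbRes.exists_pow_coprime (p := p) hβ
    obtain ⟨m, hm⟩ := exists_pow_eq_self_of_coprime (x := α) (n := p ^ k) (hc.pow_right k).symm
    have h2 := h1 (p ^ k * m) x hx
    rw [pow_mul α, hm] at h2
    have h3 : β ^ (p ^ k * m) ∈ F.autGroup (P ⊔ T) := pow_mem hβ _
    have h4 : (orderOf (β ^ (p ^ k * m))).Coprime p := by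
      rw [pow_mul]; exact hk.coprime_dvd_left (orderOf_pow_dvd m)
    generalize β ^ (p ^ k * m) = γ at h2 h3 h4
    have h5 := resA_mem_aut hg.le le_sup_right (hst h3) h3
    have h6 : resA T γ ∈ pResidualOf p (F.autGroup T) := CA.AmbRes.mem_res h5
      (h4.coprime_dvd_left ((homOn_resA le_sup_right).orderOf_dvd (hst h3)))
    have hx' := Subgroup.mem_sup_left (T := T) hx
    have h7 : x⁻¹ * act γ x ∈ NK S (pResidualOf p (F.autGroup T) ⊔ Inn T) := by
      refine ⟨mul_mem (inv_mem (hP hx)) (hg.le (act_mem γ hx')), (cjA T x)⁻¹ * resA T γ * cjA T x * (resA T γ)⁻¹,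
        Subgroup.mem_sup_left (mul_mem (conj_mem_of_norm' (CA.AmbRes.norm_res p _
          (cjA_mem_aut F hT.1 ⟨hP hx, hTn (hP hx)⟩)) h6) (inv_mem h6)), fun y hy => ?_⟩
      have h8 := act_mem (resA T γ)⁻¹ hy
      have h9 := conj_mem_of_norm (hTn (hP hx)) h8
      rw [act_mul, act_mul, act_mul, act_cjA (hTn (hP hx)) h8, act_resA le_sup_right (hst h3) h9,
        (homOn_act γ).conj hx' (Subgroup.mem_sup_right h8), ← act_resA le_sup_right (hst h3) h8, act_act_inv,
        ← (homOn_cjA T).inv (hTn (hP hx)), act_cjA (inv_mem (hTn (hP hx)))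
          (conj_mem_of_norm (hTn (hg.le (act_mem γ hx'))) hy), cj_apply]
      group
    have := mul_mem h7 (le_NK hT.1 le_sup_right h2)
    rwa [mul_assoc, mul_inv_cancel_left] at this
  intro x hx
  obtain ⟨α, hα, e⟩ := (key hx).2
  exact ⟨α, hα, fun t => by rw [← act_coe, ← e t t.2]; rfl⟩

end Cfsg.Agent.S5198
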