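import Cfsg.Statements.S5206
import Cfsg.Agent.Lib.Loc.H6Ctl2
import Cfsg.Agent.Lib.Fus.FusSec

set_option autoImplicit false
universe u
open Cfsg

set_option linter.unusedVariables false
set_option linter.unusedSimpArgs false
set_option linter.style.haveILetI false

namespace Cfsg.Agent.S5206

open CA CA.H6Ctl CA.H6QdA CA.H6NPC CA.H6PSolv CA.H6Stab CA.H6ZJ CA.H6Op CA.Amb CA.AmbSyl CA.AmbCore CA.AmbRes CA.AmbChar Subgroup
open CA.H6J hiding Z
open scoped MatrixGroups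
open CA.H6Ctl2

theorem isModel {G : Type*} [Group G] [Finite G] {p : ℕ} [Fact p.Prime] {S Q : Subgroup G}
    (hQ : Q ≤ S) (hT : SylIn p (S ⊓ 𝐍 Q) (𝐍 Q)) (hc : S ⊓ 𝐂 Q ≤ Q)
    {N : FusionSystem (FusionSystem.normalizerIn S Q)}
    (hN : (groupFusionSystem S).IsNormalizerSystem Q N) :
    N.IsModel p (𝐍 Q ⧸ pPrimeCore p (𝐍 Q)) ((π p (𝐍 Q)).comp (inclusion hT.le)) := by
  have : (Q.subgroupOf (𝐍 Q)).Normal := normal_subgroupOf_of_norm le_rfl
  have h1 := sylIn_subgroupOf_top hT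
  have h0 := inf_π_ker h1.pg
  have hQT : Q ≤ S ⊓ 𝐍 Q := le_inf hQ le_normalizer
  refine ⟨inferInstance, ⟨fun x y e => ?_, fun P hP φ hφ => ?_⟩,
    ⟨(sylIn_map_top h1 π_surj).toSylowTop, ?_⟩, ?_⟩
  · exact Subtype.ext (congrArg Subtype.val
      (eq_of_map_eq h0 (x := inclusion hT.le x) (y := inclusion hT.le y) x.2 y.2 e) :)
  · rw [Fus.mem_hom_iff, Fus.mor_normSys hN]
    constructor
    · rintro ⟨-, f, hf, e1, e2⟩
      obtain ⟨-, -, g, hg⟩ := Fus.mor_group.1 hf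
      have hgQ : g ∈ 𝐍 Q := mem_normalizer_of_cj_le (cj_le_iff'.2 fun x hx => by
        rw [← hg x (mem_sup_right hx), ← e2]; exact Fus.mem_img_of_mem f hx)
      refine ⟨π p (𝐍 Q) ⟨g, hgQ⟩, fun x => ?_⟩
      rw [MonoidHom.comp_apply, MonoidHom.comp_apply, ← map_inv, ← map_mul, ← map_mul]
      congr 1
      apply Subtype.ext
      exact (Fus.ext_coe φ x).symm.trans ((e1 x x.2).symm.trans (hg x (mem_sup_left x.2)))
    · rintro ⟨g, hg⟩
      obtain ⟨g, rfl⟩ := π_surj g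
      have hPN : P ≤ 𝐍 Q := hP.trans hT.le
      obtain ⟨k, hk, hk'⟩ := exists_ker_cj_le' (f := π p (𝐍 Q)) (L := ⊤)
        (by rw [top_inf_eq]; exact π_cop) (B := cj g (P.subgroupOf (𝐍 Q)))
        (isPGroup_cj (isPGroup_subgroupOf (hT.pg.to_le hP) _) g) h1.pg le_top le_top (by
          rw [map_cj, cj_le_iff']
          rintro _ ⟨x, hx, rfl⟩
          exact ⟨⟨φ ⟨x, hx⟩, hT.le (hφ _)⟩, hφ _, hg ⟨x, hx⟩⟩)
      rw [cj_cj, cj_le_iff'] at hk'
      have e : ∀ x (hx : x ∈ P), ((k * g : 𝐍 Q) : G) * x * ((k * g : 𝐍 Q) : G)⁻¹ = φ ⟨x, hx⟩ :=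
        fun x hx => congrArg Subtype.val (eq_of_map_eq h0 (hk' ⟨x, hPN hx⟩ hx)
          (y := ⟨φ ⟨x, hx⟩, hT.le (hφ _)⟩) (hφ _) (by
            simp only [map_mul, map_inv, MonoidHom.mem_ker.1 hk.2, one_mul]
            exact (hg ⟨x, hx⟩).symm))
      refine ⟨hP, Fus.cj (k * g : 𝐍 Q), Fus.mor_group.2 ⟨sup_le (hP.trans inf_le_left) hQ, ?_,
        _, fun _ _ => rfl⟩, fun x hx => (e x hx).trans (Fus.ext_of_mem φ hx).symm,
        Fus.img_cj_eq_iff.2 (k * g).2⟩
      refine cj_le_iff'.1 ?_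
      rw [cj_sup, cj_eq_self (k * g).2]
      exact sup_le (cj_le_iff'.2 fun x hx => e x hx ▸ (hφ _).1) hQ
  · rw [SylIn.coe_toSylowTop, MonoidHom.range_comp]
    exact congrArg _ (inclusion_range hT.le).symm
  · refine charP_top_iff.1 (charP_quot_of_centric h1 (Q := Q.subgroupOf (𝐍 Q)) (comap_mono hQT) ?_)
    rw [Amb.centralizer_subgroupOf le_normalizer]
    exact fun x hx => hc (mem_inf.2 ⟨hx.1.1, hx.2⟩)


/-- Let p be an odd prime, G a finite group and P a Sylow p-subgroup of G. Then the fusion system of G on P is Qd(p)-free (Qd(p), the natural semidirect product of an elementary abelian group of order p² by SL₂(p), is not involved in any model of the normalizer system of a fully normalized centric subgroup) if and only if Qd(p) is not involved in G. -/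
theorem result {G : Type u} [Group G] [Finite G] {p : ℕ} [Fact p.Prime] (hp : p ≠ 2) (P : Sylow p G) : (Cfsg.groupFusionSystem (P : Subgroup G)).IsSectionFree p ↥(Cfsg.qd p) ↔ ¬ Cfsg.Involves ↥(Cfsg.qd p) G := by
  have hS := sylIn_top P
  have hfn : ∀ Q, (groupFusionSystem (P : Subgroup G)).IsFullyNormalized Q ↔
      Q ≤ P ∧ SylIn p ((P : Subgroup G) ⊓ 𝐍 Q) (𝐍 Q) := fun Q => by
    rw [Fus.group_eq_ofSubgroup, Fus.fullyNorm_ofSub hS, Fus.normIn_top]; rfl
  rw [involves_iff]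
  refine ⟨fun h h' => ?_, fun h Q h1 h2 N hN L _ ι hL h' => ?_⟩
  · obtain ⟨T, hT, h1, h2⟩ := exists_centric_of_sec hp h'
    obtain ⟨U, hU, hTU⟩ := exists_sylIn_ge hT (le_normalizer : T ≤ 𝐍 T)
    obtain ⟨g, -, hg⟩ := hS.exists_conj_le hU.pg le_top
    have h3 : cj g T ≤ P := (cj_mono g hTU).trans hg
    have h4 : SylIn p (cj g U) (𝐍 (cj g T)) := by rw [← cj_normalizer]; exact hU.conj g
    have h5 : SylIn p ((P : Subgroup G) ⊓ 𝐍 (cj g T)) (𝐍 (cj g T)) := by
      rw [h4.max hS.pg.to_inf_left (le_inf hg h4.le) inf_le_right]; exact h4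
    have h6 : ∀ x : G, (P : Subgroup G) ⊓ 𝐂 (cj x T) ≤ cj x T := fun x => by
      have k := h1.conj x
      rw [cj_inf, cj_centralizer] at k
      exact (k.le_of_norm' hS.pg.to_inf_left inf_le_right
        (inf_le_right.trans (norm_of_centralizer (centralizer_anti inf_le_left)))).trans inf_le_left
    obtain ⟨N, hN⟩ := Fus.exists_normSys (groupFusionSystem (P : Subgroup G)) h3
    refine h _ ((hfn _).2 ⟨h3, h5⟩) ⟨h3, fun R hR => ?_⟩ N hN _ _ (isModel h3 h5 (h6 g) hN)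
      (involves_iff.2 ?_)
    · rw [Fus.group_eq_ofSubgroup, Fus.isConj_ofSub] at hR
      obtain ⟨-, -, x, -, rfl⟩ := hR
      rw [cj_cj]; exact h6 _
    · set O := (pPrimeCore p (𝐍 (cj g T))).map (𝐍 (cj g T)).subtype
      have hO : 𝐍 (cj g T) ≤ 𝐍 O := norm_map_subtype _
      have h7 := (h2 (cj g⁻¹ O) (by
        rw [← cj_normalizer, ← cj_le_iff, cj_normalizer]; exact hO) (by
        rw [← cj_eq_bot (g := g), cj_inf, cj_cj_inv]
        refine Core.inf_eq_bot_of_isPGroup_of_coprime (isPGroup_cj hT g) ?_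
        rw [H6Basic.card_map_subtype]; exact Core.coprime_pPrimeCore)).map_injective
        (conj_injective g)
      change Sec _ (cj g _) (cj g _) at h7
      rw [cj_cj_inv, cj_normalizer, ← map_subtype_top (𝐍 (cj g T))] at h7
      have h8 := h7.of_map
      rw [comap_map_eq_self_of_injective (subtype_injective _), ← π_ker] at h8
      exact (sec_map_of_ker _ h8).mono le_top le_rfl
  · obtain ⟨h3, h4⟩ := (hfn Q).1 h1
    obtain ⟨φ, -⟩ := Fus.model_unique h4.pg hL (isModel h3 h4 (Fus.centric_self_le h2) hN)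
    exact free_quo _ _ _ (free_sub _ _ _ h)
      ((involves_iff.1 h').of_surjective_top (f := φ.symm.toMonoidHom) φ.symm.surjective)

end Cfsg.Agent.S5206
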