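import Cfsg.Statements.S5218
import Cfsg.Agent.Lib.Fus.FusNil
-- import your own Cfsg.Agent.* helpers here

set_option autoImplicit false
open Cfsg

namespace Cfsg.Agent.S5218

open CA.Fus CA.AmbSyl
open Polynomial in
theorem ring_aux {R : Type*} [Ring R] {p : ℕ} (hp : p.Prime) {x : R} (h1 : (x + 1) ^ p = 1) {n : ℕ}
    (h2 : x ^ (n * (p - 1) + 1) = 0) : (p : R) ^ n * x = 0 := by
  obtain ⟨r, hr⟩ := exists_add_pow_prime_eq hp (X : ℤ[X]) 1
  have h3 : r.coeff 0 = 1 := by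
    have := congrArg (fun f => f.coeff 1) hr
    simp only [coeff_X_add_one_pow, Nat.choose_one_right, one_pow, mul_one, coeff_add, coeff_X_pow,
      hp.one_lt.ne, if_false, coeff_one, one_ne_zero, zero_add, mul_assoc, coeff_natCast_mul] at this
    rw [show (1 : ℕ) = 0 + 1 from rfl, coeff_X_mul] at this
    have h4 : (p : ℤ) ≠ 0 := by exact_mod_cast hp.ne_zero
    exact (mul_left_cancel₀ h4 (by rw [mul_one]; exact_mod_cast this)).symm
  have h4 : ∀ k : ℕ, ((X : ℤ[X]) + 1) ^ p - 1 ∣ (p : ℤ[X]) ^ k * X * r ^ k - (-1) ^ k * X ^ (k * (p - 1) + 1) := by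
    intro k
    induction k with
    | zero => simp
    | succ k ih =>
      obtain ⟨q, rfl⟩ : ∃ q, p = q + 1 := ⟨p - 1, (Nat.sub_add_cancel hp.one_le).symm⟩
      obtain ⟨c, hc⟩ := ih
      refine ⟨c * ((q + 1 : ℕ) : ℤ[X]) * r + (-1) ^ k * X ^ (k * q), ?_⟩
      simp only [Nat.add_sub_cancel] at hc ⊢
      linear_combination (((q + 1 : ℕ) : ℤ[X]) * r) * hc - (-1) ^ k * X ^ (k * q) * hr
  obtain ⟨c, hc⟩ := h4 n
  have h5 := congrArg (aeval x) hc
  simp only [map_sub, map_mul, map_pow, map_add, map_natCast, aeval_X, map_one, h1, h2, sub_self, zero_mul,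
    mul_zero, sub_zero] at h5
  have h6 : IsUnit (aeval x r) := by
    rw [← X_mul_divX_add r, h3, map_add, map_mul, aeval_X, add_comm]
    simp only [map_one]
    refine IsNilpotent.isUnit_one_add (Commute.isNilpotent_mul_right ?_ ⟨_, h2⟩)
    have := (Commute.all (X : ℤ[X]) r.divX).map (aeval x)
    rwa [aeval_X] at this
  exact (h6.pow n).mul_left_eq_zero.1 h5

theorem cent_pow {Ω : Type*} [Group Ω] {S V : Subgroup Ω} {p n : ℕ} (hp : p.Prime) (hV : Ab V) (hVS : V ≤ S)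
    (hcl : S.lowerCentralSeries (n * (p - 1) + 1) = ⊥) {s : Ω} (hs : s ∈ S) (hn : s ∈ Subgroup.normalizer (V : Set Ω))
    (hc : s ^ p ∈ Subgroup.centralizer (V : Set Ω)) {w : Ω} (hw : w ∈ V) :
    s * w ^ p ^ n * s⁻¹ = w ^ p ^ n := by
  letI := hV.cg
  let σ : Module.End ℤ (Additive V) := (MonoidHom.toAdditive (cjA V s).toMonoidHom).toIntLinearMap
  have h1 : ∀ a : V, ((Additive.toMul (σ (Additive.ofMul a)) : V) : Ω) = s * a * s⁻¹ := fun a => by
    rw [← act_cjA hn a.2, act_coe]; rfl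
  have h2 : ∀ (k : ℕ) (a : V), ((Additive.toMul ((σ ^ k) (Additive.ofMul a)) : V) : Ω) = s ^ k * a * (s ^ k)⁻¹ := by
    intro k a
    induction k with
    | zero => simp
    | succ k ih => rw [pow_succ', Module.End.mul_apply, ← ofMul_toMul ((σ ^ k) _), h1, ih, pow_succ']; group
  have h3 : ∀ a : V, ((Additive.toMul ((σ - 1) (Additive.ofMul a)) : V) : Ω) = s * a * s⁻¹ * (a : Ω)⁻¹ := fun a => by
    rw [← h1 a, LinearMap.sub_apply, toMul_sub, div_eq_mul_inv]; rfl
  have h4 : ∀ (k : ℕ) (a : V), ((Additive.toMul (((σ - 1) ^ k) (Additive.ofMul a)) : V) : Ω) ∈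
      S.lowerCentralSeries k := by
    intro k a
    induction k with
    | zero => exact hVS a.2
    | succ k ih =>
      rw [pow_succ', Module.End.mul_apply, ← ofMul_toMul (((σ - 1) ^ k) _), h3, Subgroup.lowerCentralSeries_succ,
        Subgroup.commutator_comm]
      exact Subgroup.commutator_mem_commutator hs ih
  have h5 := ring_aux (x := σ - 1) (n := n) hp (by
    rw [sub_add_cancel]
    refine LinearMap.ext fun a => Additive.toMul.injective (Subtype.ext ?_)
    rw [← ofMul_toMul a, h2, ← hc _ (Additive.toMul a).2, mul_inv_cancel_right]; rfl) (by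
    refine LinearMap.ext fun a => Additive.toMul.injective (Subtype.ext ?_)
    have := h4 (n * (p - 1) + 1) (Additive.toMul a)
    rw [hcl] at this
    exact this)
  rw [← Nat.cast_pow, (Nat.cast_commute _ _).eq] at h5
  have h6 := h3 (⟨w, hw⟩ ^ p ^ n)
  rw [ofMul_pow, ← Module.End.natCast_apply (R := ℤ), ← Module.End.mul_apply, h5] at h6
  exact mul_inv_eq_one.1 h6.symm

theorem mem_pc {Ω : Type*} [Group Ω] {S : Subgroup Ω} {p n : ℕ} {x : Ω} :
    x ∈ powerClosure p n (S ⊓ Subgroup.centralizer (S : Set Ω)) ↔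
      ∃ z ∈ S ⊓ Subgroup.centralizer (S : Set Ω), z ^ p ^ n = x :=
  ⟨fun h => mem_pow_closure (Subgroup.closure_mono (by rintro _ ⟨z, hz, rfl⟩; exact ⟨z, hz, rfl⟩) h),
    fun ⟨z, hz, e⟩ => Subgroup.subset_closure ⟨z, hz, e.symm⟩⟩

theorem pc_le {Ω : Type*} [Group Ω] {S : Subgroup Ω} {p n : ℕ} :
    powerClosure p n (S ⊓ Subgroup.centralizer (S : Set Ω)) ≤ S ⊓ Subgroup.centralizer (S : Set Ω) := fun _ hx =>
  let ⟨_, hz, e⟩ := mem_pc.1 hx; e ▸ pow_mem hz _

theorem pc_stab {Ω : Type*} [Group Ω] {P : Subgroup Ω} [Finite P] {p n : ℕ} (α : MulAut P) :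
    α ∈ stabA P (powerClosure p n (P ⊓ Subgroup.centralizer (P : Set Ω))) := by
  have := fin_le ((pc_le (S := P) (p := p) (n := n)).trans inf_le_left)
  refine mem_stabA_of_maps (pc_le.trans inf_le_left) fun x hx => ?_
  obtain ⟨z, hz, rfl⟩ := mem_pc.1 hx
  exact mem_pc.2 ⟨_, img_act_center α ▸ mem_img_of_mem _ hz, ((homOn_act α).pow hz.1 _).symm⟩

/-- Let p be a prime, n a natural number, S a nontrivial finite p-group of nilpotence class at most n(p−1)+1, and F a saturated fusion system over S. Then the subgroup generated by the pⁿ-th powers of the elements of Z(S) is normal in F. -/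
theorem result {Ω : Type*} [Group Ω] {S : Subgroup Ω} [Finite S] (p : ℕ) [Fact p.Prime] (hS : IsPGroup p S) (F : Cfsg.FusionSystem S) (hF : F.IsSaturated p) (n : ℕ) (hS1 : S ≠ ⊥) (hcl : Subgroup.lowerCentralSeries S (n * (p - 1) + 1) = ⊥) : F.IsNormal (Cfsg.powerClosure p n (S ⊓ Subgroup.centralizer (S : Set Ω))) := by
  have h0 := (pc_le (S := S) (p := p) (n := n)).trans inf_le_left
  have hn := CA.Amb.norm_of_centralizer (CA.AmbRes.cent_symm ((pc_le (S := S) (p := p) (n := n)).trans inf_le_right))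
  obtain ⟨E, -, hE⟩ := loc_norm' hS hF h0 hn
  have key : ∀ P, P ≤ S → powerClosure p n (S ⊓ Subgroup.centralizer (S : Set Ω)) ≤ P → ∀ α ∈ F.autGroup P,
      α ∈ stabA P (powerClosure p n (S ⊓ Subgroup.centralizer (S : Set Ω))) → α ∈ E.autGroup P :=
    fun P h1 h2 α hα h3 => (mem_aut h1).2 ((hE.2 _ _).2 ((kMor_of_le h2).2 ⟨by rw [NK_top]; exact le_inf h1 (h1.trans hn),
      (mem_aut h1).1 hα, (inK_top (((mem_aut h1).1 hα).mono h2)).2 ((mem_stabA_iff_img h2).1 h3)⟩))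
  refine hE.normal_of_sub (sub_iff.2 fun P f hf => alperin_ess' hS hF (fun α hα => key S le_rfl h0 α hα (pc_stab α))
    (fun P hP h => ?_) hf)
  obtain ⟨h1, h2, -⟩ := ess_cr hS hF (Or.inr hP)
  have := fin_le h1.1
  have h3 : S ⊓ Subgroup.centralizer (S : Set Ω) ≤ P ⊓ Subgroup.centralizer (P : Set Ω) :=
    le_inf ((centIn_anti S h1.1).trans (centric_self_le h2)) (inf_le_right.trans (CA.Amb.centralizer_anti h1.1))
  have h4 : powerClosure p n (S ⊓ Subgroup.centralizer (S : Set Ω)) ≤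
      powerClosure p n (P ⊓ Subgroup.centralizer (P : Set Ω)) := fun x hx =>
    let ⟨z, hz, e⟩ := mem_pc.1 hx; mem_pc.2 ⟨z, h3 hz, e⟩
  have h5 := h4.trans (pc_le.trans inf_le_left)
  refine (sup_HP_of_norm hS hF h1 (K := F.autGroup P ⊓ trivA P (powerClosure p n (P ⊓ Subgroup.centralizer (P : Set Ω))) ⊥)
    inf_le_left (CA.Amb.norm_inf Subgroup.le_normalizer (norm_trivA (fun α _ => pc_stab α) (by rw [stabA_bot]; exact le_top)))
    ?_).trans (sup_le (fun α hα => key P h1.1 h5 α hα.1 ((mem_stabA_iff_img h5).2 (img_eq_self_of_eq fun x hx =>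
      (inv_mul_eq_one.1 (hα.2.2 x (h4 hx))).symm))) h)
  obtain ⟨s₀, a, b⟩ := SetLike.exists_of_lt (lt_normIn hS (essential_lt hS hF hP))
  obtain ⟨s, a, b, c⟩ : ∃ s ∈ FusionSystem.normalizerIn S P, s ∉ P ∧ s ^ p ∈ P := by
    obtain ⟨k, hk⟩ := isPGroup_iff_mem.1 hS _ a.1
    by_contra h
    push Not at h
    have : ∀ j : ℕ, s₀ ^ p ^ j ∉ P := fun j => by
      induction j with
      | zero => simpa using b
      | succ j ih => rw [pow_succ, pow_mul]; exact h _ (pow_mem a _) ih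
    exact this k (hk ▸ one_mem _)
  refine fun h => b (h ⟨a.1, inK_cj.2 ⟨a.2, cjA_mem_aut F h1.1 a, pc_stab _, fun x hx => ?_⟩⟩)
  obtain ⟨w, hw, rfl⟩ := mem_pc.1 hx
  rw [act_cjA a.2 (pow_mem hw.1 _), cent_pow Fact.out (ab_center P) (inf_le_left.trans h1.1) hcl a.1
    (CA.Amb.norm_inf (le_refl _) (CA.Amb.norm_centralizer le_rfl) a.2) (CA.AmbRes.cent_symm inf_le_right c) hw,
    inv_mul_cancel]
  exact one_mem _

end Cfsg.Agent.S5218
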