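import Cfsg.Statements.S5219
import Cfsg.Agent.Lib.Fus.FusNil
import Cfsg.Agent.S5218
-- import your own Cfsg.Agent.* helpers here

set_option autoImplicit false
open Cfsg

namespace Cfsg.Agent.S5219

open CA.Fus CA.AmbSyl
theorem ucs_pow {G : Type*} [Group G] {m : ℕ} (h : ∀ z ∈ Subgroup.center G, z ^ m = 1) (i : ℕ) :
    ∀ x ∈ Subgroup.upperCentralSeries G (i + 1), x ^ m ∈ Subgroup.upperCentralSeries G i := by
  induction i with
  | zero => intro x hx; rw [Subgroup.upperCentralSeries_one] at hx; rw [h x hx]; exact one_mem _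
  | succ i ih =>
    intro x hx
    rw [Subgroup.mem_upperCentralSeries_succ_iff] at hx ⊢
    intro y
    have h1 := ih _ (hx y)
    rw [← QuotientGroup.eq_one_iff] at h1 ⊢
    have h2 := (QuotientGroup.eq_one_iff _).2 (Subgroup.mem_upperCentralSeries_succ_iff.1 (hx y) x)
    simp only [commutatorElement_def, QuotientGroup.mk_mul, QuotientGroup.mk_inv, QuotientGroup.mk_pow] at h1 h2 ⊢
    generalize (x : G ⧸ Subgroup.upperCentralSeries G i) = a at *
    generalize (y : G ⧸ Subgroup.upperCentralSeries G i) = b at *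
    have h3 : Commute a (a * b * a⁻¹ * b⁻¹) := (mul_inv_eq_iff_eq_mul.1 (mul_inv_eq_one.1 h2)).symm
    have h4 : b * a ^ m * b⁻¹ = (a * b * a⁻¹ * b⁻¹)⁻¹ ^ m * a ^ m := by
      rw [← h3.inv_right.symm.mul_pow, ← conj_pow]; congr 1; group
    rw [inv_pow, h1, inv_one, one_mul] at h4
    calc a ^ m * b * (a ^ m)⁻¹ * b⁻¹ = a ^ m * (b * a ^ m * b⁻¹)⁻¹ := by group
      _ = 1 := by rw [h4, mul_inv_cancel]

/-- Let p be a prime, n a natural number, S a nontrivial finite p-group of nilpotence class at most n(p−1)+1, and F a saturated fusion system over S with no nontrivial normal subgroup (O_p(F) = 1). Then S has exponent dividing p^(n²(p−1)+n). -/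
theorem result {Ω : Type*} [Group Ω] {S : Subgroup Ω} [Finite S] (p : ℕ) [Fact p.Prime] (hS : IsPGroup p S) (F : Cfsg.FusionSystem S) (hF : F.IsSaturated p) (n : ℕ) (hS1 : S ≠ ⊥) (hcl : Subgroup.lowerCentralSeries S (n * (p - 1) + 1) = ⊥) (hcore : F.core = ⊥) : Monoid.exponent ↥S ∣ p ^ (n ^ 2 * (p - 1) + n) := by
  have h1 := le_core (Cfsg.Agent.S5218.result p hS F hF n hS1 hcl)
  rw [hcore] at h1
  have h2 := ucs_pow (G := S) (m := p ^ n) fun z hz => Subtype.ext (Subgroup.mem_bot.1 (h1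
    (Cfsg.Agent.S5218.mem_pc.2 ⟨z, ⟨z.2, fun s hs => congrArg Subtype.val (Subgroup.mem_center_iff.1 hz ⟨s, hs⟩)⟩, rfl⟩)))
  have h3 : ∀ i, ∀ x ∈ Subgroup.upperCentralSeries S i, x ^ p ^ (n * i) = 1 := fun i => by
    induction i with
    | zero => intro x hx; rw [Subgroup.mem_bot.1 hx, one_pow]
    | succ i ih => intro x hx; rw [mul_add, mul_one, add_comm, pow_add, pow_mul]; exact ih _ (h2 i x hx)
  rw [← Subgroup.top_subtype_lowerCentralSeries, Subgroup.map_eq_bot_iff_of_injective _ S.subtype_injective,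
    Subgroup.lowerCentralSeries_eq_bot_iff_upperCentralSeries_eq_top] at hcl
  refine Monoid.exponent_dvd_of_forall_pow_eq_one fun x => ?_
  rw [show n ^ 2 * (p - 1) + n = n * (n * (p - 1) + 1) by ring]
  exact h3 _ x (hcl ▸ trivial)

end Cfsg.Agent.S5219
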