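import Cfsg.Statements.S5222
import Cfsg.Agent.Lib.Fus.FusTate
-- import your own Cfsg.Agent.* helpers here

set_option autoImplicit false
open Cfsg

namespace Cfsg.Agent.S5222

open CA.Fus CA.AmbSyl in
/-- Let F be a saturated fusion system over a finite p-group S whose normalizer fusion system of S is the inner fusion system of S (Aut_F(S) is a p-group). Then for every subgroup Q of S with [S, S] ≤ Q ≤ Φ(S), the normalizer fusion system of Q in F is the inner fusion system of N_S(Q) = S. -/
theorem result {Ω : Type*} [Group Ω] {S : Subgroup Ω} [Finite S] (p : ℕ) [Fact p.Prime] (hS : IsPGroup p S) (F : Cfsg.FusionSystem S) (hF : F.IsSaturated p) (hN : ∀ N : Cfsg.FusionSystem (Cfsg.FusionSystem.normalizerIn S S), F.IsNormalizerSystem S N → ∀ P : Subgroup Ω, N.Hom P = (Cfsg.innerFusionSystem (Cfsg.FusionSystem.normalizerIn S S)).Hom P) (Q : Subgroup Ω) (h1 : (commutator ↥S).map S.subtype ≤ Q) (h2 : Q ≤ (frattini ↥S).map S.subtype) : ∀ N : Cfsg.FusionSystem (Cfsg.FusionSystem.normalizerIn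 S Q), F.IsNormalizerSystem Q N → ∀ P : Subgroup Ω, N.Hom P = (Cfsg.innerFusionSystem (Cfsg.FusionSystem.normalizerIn S Q)).Hom P := by
  intro N hQ P
  rw [Subgroup.map_subtype_commutator] at h1
  have h3 : Q ≤ S := h2.trans (Subgroup.map_subtype_le _)
  have hn := CA.AmbRes.norm_of_between h1 h3
  have e := normIn_eq_of_le hn
  have hT := hS.to_le (normIn_le S Q)
  have hs := normSys_sat hS hF (fullyNorm_of_normal h3 hn) hQ
  have h4 := nLe_inner le_rfl hN
  have h5 : ∀ T, T = S → ∀ α ∈ F.autGroup T, ∀ x ∈ T, x⁻¹ * act α x ∈ Q := by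
    rintro _ rfl α hα x hx; exact h1 (aut_le_inn h4 hα hx)
  rw [← inner_of_focal hT hs ((focal_le_of_sc hT hs (normal_sc (normSys_normal hQ)) (e.symm ▸ h1)
    fun α hα => h5 _ e α (aut_mono (normSys_sub hQ) _ hα)).trans (e.symm ▸ h2))]

end Cfsg.Agent.S5222
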