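import Cfsg.Statements.S5223
import Cfsg.Agent.Lib.Fus.FusSolv
-- import your own Cfsg.Agent.* helpers here

set_option autoImplicit false
open Cfsg

namespace Cfsg.Agent.S5223

open CA.Fus CA.AmbSyl in
/-- Let F be a saturated fusion system over a finite p-group S. Suppose there are subgroups Q₀ = S, Q₁, …, Qₙ = 1 (not required to be nested) such that for each i < n the focal subgroup of Qᵢ (generated by the elements x⁻¹φ(x), x ∈ Qᵢ, φ a map of F defined on the cyclic group generated by x) lies in Qᵢ₊₁. Then F is the inner fusion system of S. -/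
theorem result {Ω : Type*} [Group Ω] {S : Subgroup Ω} [Finite S] (p : ℕ) [Fact p.Prime] (hS : IsPGroup p S) (F : Cfsg.FusionSystem S) (hF : F.IsSaturated p) (n : ℕ) (Q : Fin (n + 1) → Subgroup Ω) (hQ0 : Q 0 = S) (hQn : Q (Fin.last n) = ⊥) (hstep : ∀ i : Fin n, Subgroup.closure {y : Ω | ∃ x ∈ Q i.castSucc, ∃ φ ∈ F.Hom (Subgroup.zpowers x), y = x⁻¹ * φ ⟨x, Subgroup.mem_zpowers x⟩} ≤ Q i.succ) : ∀ P : Subgroup Ω, F.Hom P = (Cfsg.innerFusionSystem S).Hom P := by
  refine fun P => congrArg (fun E : FusionSystem S => E.Hom P) (eq_inner_of_ess hS hF fun R hR => ?_)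
  have hRS := (ess_cr hS hF hR).1.1
  have := fin_le hRS
  refine isPGroup_of_coprime fun β hβ hc => aut_eq_one_iff.2 fun x hx => ?_
  refine fix_of_chain (V := S) (hS.to_le hRS) hc ?_ x (hRS hx)
  have h := chain_of_fin (r := fun V U => ∀ x ∈ V, x⁻¹ * act β x ∈ U) Q (fun i y hy => ?_) (Fin.last n)
  · rw [hQ0, hQn] at h
    exact h.swap
  · by_cases hy' : y ∈ R
    · have h1 := ((mem_aut hRS).1 hβ).mono (Subgroup.zpowers_le.2 hy')
      exact hstep i (Subgroup.subset_closure ⟨y, hy, _, h1.toHom_mem, rfl⟩)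
    · rw [act_of_not_mem β hy', inv_mul_cancel]; exact one_mem _

end Cfsg.Agent.S5223
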