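import Cfsg.Statements.S5225
import Cfsg.Agent.Lib.Fus.FusYos
-- import your own Cfsg.Agent.* helpers here

set_option autoImplicit false
open Cfsg

namespace Cfsg.Agent.S5225

open CA.Fus CA.AmbSyl in
/-- Yoshida's Theorem for fusion systems. Let F be a saturated fusion system over a finite p-group S and N the normalizer fusion system of S in F. If the focal subgroups of F and N differ (N does not control transfer in F), then S has a quotient isomorphic to the wreath product C_p ≀ C_p (realised as a Sylow p-subgroup of the symmetric group of degree p²). -/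
theorem result {Ω : Type*} [Group Ω] {S : Subgroup Ω} [Finite S] (p : ℕ) [Fact p.Prime] (hS : IsPGroup p S) (F : Cfsg.FusionSystem S) (hF : F.IsSaturated p) (N : Cfsg.FusionSystem (Cfsg.FusionSystem.normalizerIn S S)) (hN : F.IsNormalizerSystem S N) (hne : N.focalSubgroup ≠ F.focalSubgroup) : ∃ (W : Sylow p (Equiv.Perm (Fin (p ^ 2)))) (f : ↥S →* ↥(W : Subgroup (Equiv.Perm (Fin (p ^ 2))))), Function.Surjective f := by
  have e := normIn_self S
  have h1 : (castFS N e).focalSubgroup = N.focalSubgroup :=
    le_antisymm (focal_mono (sub_iff.2 fun _ _ => (mor_castFS N e).1)) (focal_mono (sub_iff.2 fun _ _ => (mor_castFS N e).2))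
  obtain ⟨D, hD, hD'⟩ := loc_norm' hS hF le_rfl Subgroup.le_normalizer
  have h2 : castFS N e = D := fs_ext_mor fun P f => (mor_castFS N e).trans
    (((normSys_iff.1 hN).2 P f).trans (hD'.2 P f).symm)
  exact yoshida hS hF hD.sat hD.sub hD'.kLe (by rwa [← h2, h1])

end Cfsg.Agent.S5225
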