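import Cfsg.Statements.S5226
import Cfsg.Agent.Lib.Fus.FusInv
-- import your own Cfsg.Agent.* helpers here

set_option autoImplicit false
open Cfsg

namespace Cfsg.Agent.S5226

open CA.Fus CA.AmbSyl in
/-- Let F be a saturated fusion system over a finite p-group S and Q a subgroup of S. Then Q is normal in F (F equals the normalizer system of Q) if and only if Q is strongly closed in F and admits a central series 1 = Q₀ ≤ Q₁ ≤ ⋯ ≤ Qₙ = Q ([Qᵢ₊₁, Q] ≤ Qᵢ) all of whose proper terms are weakly closed in F. -/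
theorem result {Ω : Type*} [Group Ω] {S : Subgroup Ω} [Finite S] (p : ℕ) [Fact p.Prime] (hS : IsPGroup p S) (F : Cfsg.FusionSystem S) (hF : F.IsSaturated p) (Q : Subgroup Ω) : F.IsNormal Q ↔ F.StronglyClosed Q ∧ ∃ (n : ℕ) (C : Fin (n + 1) → Subgroup Ω), C 0 = ⊥ ∧ C (Fin.last n) = Q ∧ Monotone C ∧ (∀ i : Fin n, ⁅C i.succ, Q⁆ ≤ C i.castSucc) ∧ ∀ i : Fin n, F.WeaklyClosed (C i.castSucc) := by
  constructor
  · intro h
    obtain ⟨n, c, h0, h1, h2⟩ := exists_fin_chain (normal_chain hS h)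
    exact ⟨normal_sc h, n, c, h0, h1, Fin.monotone_iff_le_succ.2 fun i => (h2 i).1,
      fun i => (Subgroup.commutator_comm _ _).le.trans (h2 i).2.2.2, fun i => normal_wc (h2 i).2.1⟩
  · rintro ⟨hQ, n, c, h0, h1, hm, h2, h3⟩
    have := fin_le hQ.1
    refine normal_of_wc_le hS hF (sc_wc hQ) fun P hP => ?_
    have hw : ∀ i, F.WeaklyClosed (c i) := fun i => by
      refine Fin.lastCases ?_ h3 i
      rw [h1]; exact sc_wc hQ
    have hle : ∀ i, c i ≤ Q := fun i => h1 ▸ hm (Fin.le_last i)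
    have key : ∀ i, c i ≤ P ∧ Relation.ReflTransGen (fun U V => F.autGroup P ≤ stabA P U ∧
        F.autGroup P ≤ stabA P V ∧ ⁅Q, V⁆ ≤ U) ⊥ (c i) := fun i => by
      induction i using Fin.induction with
      | zero => rw [h0]; exact ⟨bot_le, .refl⟩
      | succ i ih =>
        have h4 : c i.succ ≤ P := by
          refine le_cr_of_chain hS (centric_self_le hP.1) (essential_radical hS hP) (hw _).1
            (hP.1.1.trans (wc_norm (hw _))) le_top (.tail (b := Q) (.tail (chain_mono ih.2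
              fun U V h => ⟨h.1, h.2.1, fun g hg _ x _ hx => h.2.2 (inv_mul_conj_mem hx (hle _ hg))⟩)
              ⟨aut_le_stab_wc (hw _) hP.1.1 ih.1, aut_le_stab_sc hQ P, fun g hg _ x _ hx =>
                h2 i (inv_mul_conj_mem hx hg)⟩) ⟨aut_le_stab_sc hQ P, stabA_top P ▸ le_top,
                fun g hg _ x hx _ => inv_mul_conj_mem' (sc_norm hQ (hP.1.1 hx)) (hle _ hg)⟩)
        exact ⟨h4, ih.2.tail ⟨aut_le_stab_wc (hw _) hP.1.1 ih.1, aut_le_stab_wc (hw _) hP.1.1 h4,
          (Subgroup.commutator_comm _ _).le.trans (h2 i)⟩⟩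
    exact h1 ▸ (key (Fin.last n)).1

end Cfsg.Agent.S5226
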