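import Cfsg.Statements.S5243
import Cfsg.Agent.Lib.Fus.FusPX
-- import your own Cfsg.Agent.* helpers here

set_option autoImplicit false
open Cfsg

namespace Cfsg.Agent.S5243

open CA.Fus CA.AmbSyl in
/-- Let F be a saturated fusion system over a finite p-group S, E a normal subsystem of F over T ≤ S, and χ a surjective homomorphism from Aut_F(T) onto a nontrivial finite group Δ of order prime to p whose kernel contains Aut_E(T). Then there is a proper normal subsystem F₀ of F over S containing E such that Aut_{F₀}(S) consists of those α ∈ Aut_F(S) whose restriction to T is an element of Aut_F(T) in the kernel of χ; moreover every p'-residual subsystem O^{p'}(F) of F is contained in F₀. -/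
theorem result {Ω : Type*} [Group Ω] {S : Subgroup Ω} [Finite S] (p : ℕ) [Fact p.Prime] (hS : IsPGroup p S) (F : Cfsg.FusionSystem S) (hF : F.IsSaturated p) {T : Subgroup Ω} (hTS : T ≤ S) (E : Cfsg.FusionSystem T) (hE : E.IsNormalIn F p) {Δ : Type*} [Group Δ] [Finite Δ] [Nontrivial Δ] (hΔ : (Nat.card Δ).Coprime p) (χ : ↥(F.autGroup T) →* Δ) (hχ : Function.Surjective χ) (hker : (E.autGroup T).subgroupOf (F.autGroup T) ≤ χ.ker) : ∃ F₀ : Cfsg.FusionSystem S, F₀.IsNormalIn F p ∧ ¬ (∀ P : Subgroup Ω, F₀.Hom P = F.Hom P) ∧ E.IsSubsystemOf F₀ ∧ (∀ α : MulAut ↥S, α ∈ F₀.autGroup S ↔ α ∈ F.autGroup S ∧ ∃ β : ↥(F.autGroup T), χ β = 1 ∧ ∀ t : ↥T, (((β : MulAut ↥T) t : ↥T) : Ω) = ((α ⟨(t : Ω), hTS t.2⟩ : ↥S) : Ω)) ∧ ∀ R : Cfsg.FusionSystem S, F.IsPPrimeResidual p R → R.IsSubsystemOf F₀ := by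
  have := fin_le hTS
  have hB : ∀ β : MulAut T, β ∈ χ.ker.map (F.autGroup T).subtype ↔ ∃ h : β ∈ F.autGroup T, χ ⟨β, h⟩ = 1 :=
    fun β => ⟨fun ⟨b, h1, h2⟩ => h2 ▸ ⟨b.2, h1⟩, fun ⟨h1, h2⟩ => ⟨⟨β, h1⟩, h2, rfl⟩⟩
  obtain ⟨D, h1, h2, h3, h4, -⟩ := exists_pp_step hS hE.1 (B := χ.ker.map (F.autGroup T).subtype)
    (fun β hβ => (hB β).2 ⟨aut_mono (nm_sub hE) T hβ, hker hβ⟩) (Subgroup.map_subtype_le _)
    (CA.Amb.norm_map_subtype _) (CA.AmbChar.pec_le_iff.2 fun β hβ ⟨k, hk⟩ => (hB β).2 ⟨hβ,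
      eq_one_of_pow_of_coprime (p := p) (k := k) (by
        rw [← map_pow, show (⟨β, hβ⟩ : F.autGroup T) ^ p ^ k = 1 from Subtype.ext (hk ▸ pow_orderOf_eq_one β),
          map_one]) (hΔ.coprime_dvd_left (orderOf_dvd_natCard _))⟩)
  refine ⟨D, nm_of_wn_top h1, fun h => ?_, h2, fun α => ?_, fun R hR => hR.2.2 D h1.1 (inv_ppp hS hF h1.2.2)⟩
  · obtain ⟨d, hd⟩ := exists_ne (1 : Δ)
    obtain ⟨β, rfl⟩ := hχ d
    exact hd ((hB β).1 (h3 ▸ fs_ext h ▸ β.2)).2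
  · rw [h4]
    refine and_congr_right fun _ => ⟨fun h => ?_, fun ⟨β, h5, e⟩ => mem_extA.2 ⟨β, (hB β).2 ⟨β.2, h5⟩, fun x hx => ?_⟩⟩
    · obtain ⟨β, h5, e⟩ := mem_extA.1 h
      obtain ⟨h6, h7⟩ := (hB β).1 h5
      exact ⟨⟨β, h6⟩, h7, fun t => by rw [← act_coe, ← e t t.2, act_of_mem]⟩
    · rw [act_of_mem α (hTS hx), act_of_mem _ hx]; exact (e ⟨x, hx⟩).symm

end Cfsg.Agent.S5243
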