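import Cfsg.Statements.S5245
import Cfsg.Agent.Lib.Fus.FusTr
import Cfsg.Agent.Lib.Fus.FusNil
-- import your own Cfsg.Agent.* helpers here

set_option autoImplicit false
open Cfsg

namespace Cfsg.Agent.S5245

open CA.Fus CA.AmbSyl in
/-- Let F be an extremely sparse fusion system over a finite p-group S (saturated, not the inner system, and every saturated fusion system over any subgroup T of S contained in F is F itself or the inner system of T). Then S is normal in F, the focal and hyperfocal subgroups of F are both S, and Aut_F(S) is generated by the inner automorphisms of S together with a single automorphism of prime order q ≠ p (F is the fusion system of the semidirect product of S by a cyclic group of prime order). -/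
theorem result {Ω : Type*} [Group Ω] {S : Subgroup Ω} [Finite S] (p : ℕ) [Fact p.Prime] (hS : IsPGroup p S) (F : Cfsg.FusionSystem S) (hF : F.IsSaturated p) (hxs : ¬ (∀ P : Subgroup Ω, F.Hom P = (Cfsg.innerFusionSystem S).Hom P) ∧ ∀ (T : Subgroup Ω) (E : Cfsg.FusionSystem T), E.IsSaturated p → E.IsSubsystemOf F → (T = S ∧ ∀ P : Subgroup Ω, E.Hom P = F.Hom P) ∨ (∀ P : Subgroup Ω, E.Hom P = (Cfsg.innerFusionSystem T).Hom P)) : F.IsNormal S ∧ F.focalSubgroup = S ∧ F.hyperfocalSubgroup p = S ∧ ∃ (q : ℕ) (β : MulAut ↥S), q.Prime ∧ q ≠ p ∧ β ∈ F.autGroup S ∧ orderOf β = q ∧ (F.autGroup S : Subgroup (MulAut ↥S)) = Cfsg.Inn ↥S ⊔ Subgroup.zpowers β := by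
  rw [inner_iff_hom] at hxs
  obtain ⟨h1, h2⟩ := hxs
  have hy : F.hyperfocalSubgroup p = S := by
    obtain ⟨E, hE, hE'⟩ := exists_ppi hS hF _ (hyper_le F p) le_rfl
    refine ((h2 _ E hE hE'.1).resolve_right fun h => h1 ?_).1
    have := fin_le (hyper_le F p)
    have := ppi_hyper hS hE'
    rw [fs_ext h, hyper_inner (hS.to_le (hyper_le F p))] at this
    rw [(hyper_eq_bot_iff hS hF).1 this.symm]; exact sub_refl _
  obtain ⟨P, hP, hA⟩ : ∃ P, (P = S ∨ F.IsEssential p P) ∧ ¬ IsPGroup p (F.autGroup P) := by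
    by_contra h
    push Not at h
    exact h1 (by rw [eq_inner_of_ess hS hF h]; exact sub_refl _)
  have hPS : P ≤ S := (ess_cr hS hF hP).1.1
  have := fin_le hPS
  obtain ⟨β, hβ, hc, h1β⟩ : ∃ β ∈ F.autGroup P, (orderOf β).Coprime p ∧ β ≠ 1 := by
    by_contra h
    push Not at h
    exact hA (isPGroup_of_coprime h)
  have ho : orderOf β ≠ 1 := fun e => h1β (orderOf_eq_one_iff.1 e)
  have hq := Nat.minFac_prime ho
  have hd := Nat.minFac_dvd (orderOf β)
  have hγ := orderOf_pow_orderOf_div (orderOf_pos β).ne' hd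
  set γ := β ^ (orderOf β / (orderOf β).minFac)
  have hc' : (Nat.card (Subgroup.zpowers γ)).Coprime p := by
    rw [Nat.card_zpowers, hγ]; exact hc.coprime_dvd_left hd
  have hs := sylIn_inn_sup (hS.to_le hPS) hc'
  have hle : Inn P ⊔ Subgroup.zpowers γ ≤ F.autGroup P :=
    sup_le (inn_le_aut F hPS) (Subgroup.zpowers_le.2 (pow_mem hβ _))
  obtain ⟨rfl, h⟩ | h := h2 P _ (autFS_sat (hS.to_le hPS) hs) (autFS_sub hs.le hPS hle)
  · have e := fs_ext h
    refine ⟨e ▸ autFS_normal hs.le, le_antisymm (focal_le F) (hy.ge.trans (hyper_le_focal F p)), hy, _, γ, hq,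
      fun e => ?_, pow_mem hβ _, hγ, ?_⟩
    · exact (Nat.Prime.coprime_iff_not_dvd Fact.out).1 hc.symm (e ▸ hd)
    · rw [← e, aut_autFS]
  · have e := aut_autFS hs.le
    rw [fs_ext h, aut_inner le_rfl, ← inn_eq_autInd] at e
    obtain ⟨k, hk⟩ := isPGroup_iff_mem.1 (isPGroup_inn (hS.to_le hPS)) γ
      (e ▸ Subgroup.mem_sup_right (Subgroup.mem_zpowers γ))
    have := eq_one_of_pow_of_coprime hk (by rw [hγ]; exact hc.coprime_dvd_left hd)
    exact absurd (by rw [← hγ, this, orderOf_one]) hq.ne_one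

end Cfsg.Agent.S5245
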