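import Cfsg.Statements.S5249
import Cfsg.Agent.Lib.Loc.H6Ctl2
import Cfsg.Agent.Lib.Fus.FusSolv

set_option autoImplicit false
open Cfsg

set_option linter.unusedVariables false
set_option linter.unusedSimpArgs false
set_option linter.style.haveILetI false

namespace Cfsg.Agent.S5249

open CA CA.H6Ctl CA.H6QdA CA.H6NPC CA.H6PSolv CA.H6Stab CA.H6ZJ CA.H6Op CA.Amb CA.AmbSyl CA.AmbCore CA.AmbRes CA.AmbChar Subgroup
open CA.H6J hiding Z
open scoped MatrixGroups
open CA.H6Ctl2

/-- Let p be an odd prime, G a finite group in which Qd(p) (the natural semidirect product of an elementary abelian group of order p² by SL₂(p)) is not involved, and P a Sylow p-subgroup of G. Then the fusion system of G on P is a solvable fusion system. -/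
theorem result {G : Type*} [Group G] [Finite G] {p : ℕ} [Fact p.Prime] (hp : p ≠ 2) (hqd : ¬ Cfsg.Involves ↥(Cfsg.qd p) G) (P : Sylow p G) : (Cfsg.groupFusionSystem (P : Subgroup G)).IsSolvableSystem := by
  rw [Fus.solv_iff P.isPGroup' (Fus.sat_group (sylIn_top P))]
  refine Relation.ReflTransGen.mono (r := Step ⊤ (P : Subgroup G)) ?_ _ _
    (chain_of_free hp G P (fun h => hqd (involves_iff.2 h)) (sylIn_top P))
  exact fun U V h =>
    ⟨h.1, Fus.sc_group.2 ⟨h.2.1, fun x hx g => h.2.2.1 x hx g (mem_top g)⟩, h.2.2.2⟩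

end Cfsg.Agent.S5249
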