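import Cfsg.Statements.S5251
import Cfsg.Agent.Lib.Fus.FusSolv
-- import your own Cfsg.Agent.* helpers here

set_option autoImplicit false
open Cfsg

namespace Cfsg.Agent.S5251

open CA.Fus CA.AmbSyl in
/-- Let F be a saturated fusion system over a finite p-group S, E a normal subsystem of F over T, and P an F-centric subgroup of S such that P ∩ T is not E-centric. Then some F-conjugate P* of P satisfies Out_S(P*) ∩ O_p(Out_F(P*)) ≠ 1: there is an element of N_S(P*) outside P* whose conjugation action on P* lies in O_p(Aut_F(P*)). In particular P is not both centric and radical in F. -/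
theorem result {Ω : Type*} [Group Ω] {S : Subgroup Ω} [Finite S] (p : ℕ) [Fact p.Prime] (hS : IsPGroup p S) (F : Cfsg.FusionSystem S) (hF : F.IsSaturated p) {T : Subgroup Ω} (E : Cfsg.FusionSystem T) (hE : E.IsNormalIn F p) (P : Subgroup Ω) (hP : F.IsCentric P) (hPT : ¬ E.IsCentric (P ⊓ T)) : (∃ φ ∈ F.Hom P, ∃ x ∈ S ⊓ Subgroup.normalizer (φ.range : Set Ω), x ∉ φ.range ∧ ∃ α ∈ ((Cfsg.pCore p ↥(F.autGroup φ.range)).map (F.autGroup φ.range).subtype : Subgroup (MulAut ↥φ.range)), ∀ y : ↥φ.range, ((α y : ↥φ.range) : Ω) = x * (y : Ω) * x⁻¹) ∧ ¬ F.IsRadical p P := by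
  have hT := nm_sc hE
  have := fin_le hT.1
  have hQ : P ⊓ T ≤ S := inf_le_left.trans hP.1
  have hPN : P ≤ FusionSystem.normalizerIn S (P ⊓ T) :=
    le_inf hP.1 (CA.Amb.norm_inf Subgroup.le_normalizer (hP.1.trans (sc_norm hT)))
  obtain ⟨k, hk, hn⟩ := sat_exists_normIn_mor hS hF hQ
  have hk' := hk.mono hPN
  have hP' := centric_conj hP hk'.isConj
  rw [sc_img_inf hT hk'] at hn
  have h1 : ¬ FusionSystem.centralizerIn T (img k P ⊓ T) ≤ img k P := fun h => hPT (inv_centric (nm_inv hE)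
    (sat_centric_of (hS.to_le hT.1) (nm_sat hE) (fullyCent_sub hS hF hT (nm_sub hE) inf_le_right
      (sat_fullyCent hS hF hn)) (le_inf h (centIn_le _ _)))
    (sc_img_inf hT hk' ▸ conj_symm (hk'.mono inf_le_left).isConj))
  have h2 : ∃ x ∈ FusionSystem.centralizerIn T (img k P ⊓ T), x ∈ Subgroup.normalizer (img k P : Set Ω) ∧
      x ∉ img k P := by
    by_contra h
    refine h1 (le_of_norm_mem hS hP'.1 ((centIn_le _ _).trans hT.1) (CA.Amb.norm_inf (hP'.1.trans (sc_norm hT))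
      (CA.Amb.norm_centralizer (CA.Amb.norm_inf Subgroup.le_normalizer (hP'.1.trans (sc_norm hT)))))
      fun g hg hg' => by_contra fun hx => h ⟨g, hg, hg', hx⟩)
  obtain ⟨x, hx, hx1, hx2⟩ := h2
  have := fin_le hP'.1
  have h3 : cjA (img k P) x ∈ pCoreOf p (F.autGroup (img k P)) := by
    refine le_pCore_of_chain (V := ⊤) (hS.to_le hP'.1)
      ((autInd_mono ((centIn_le T (img k P ⊓ T)).trans hT.1) _).trans (autInd_le_aut F hP'.1)) le_top
      (.tail (.single (b := T) ⟨by rw [stabA_bot]; exact le_top, aut_le_stab_sc hT _, fun β hβ y hy hyT => ?_⟩)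
      ⟨aut_le_stab_sc hT _, by rw [stabA_top]; exact le_top, fun β hβ y hy _ => ?_⟩) (cjA_mem_autInd hx hx1)
    · obtain ⟨b, hb, e⟩ := mem_autInd.1 hβ
      rw [e y hy, centIn_conj hb.1 ⟨hy, hyT⟩, inv_mul_cancel]; exact one_mem _
    · obtain ⟨b, hb, e⟩ := mem_autInd.1 hβ
      rw [e y hy]
      exact inv_mul_conj_mem' (sc_norm hT (hP'.1 hy)) hb.1.1
  refine ⟨⟨hk'.hom.toHom, hk'.toHom_mem, ?_⟩, fun hr => hx2 (radical_mem (radical_conj hr hk'.isConj)
    (centric_self_le hP') ⟨hT.1 hx.1, hx1⟩ h3)⟩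
  rw [hk'.hom.range_toHom]
  exact ⟨x, ⟨hT.1 hx.1, hx1⟩, hx2, _, h3, fun y => by rw [← act_coe, act_cjA hx1 y.2]⟩

end Cfsg.Agent.S5251
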