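import Cfsg.Statements.S5253
import Cfsg.Agent.Lib.Fus.FusNil
-- import your own Cfsg.Agent.* helpers here

set_option autoImplicit false
universe u
open Cfsg

namespace Cfsg.Agent.S5253

open CA.Fus CA.AmbSyl in
/-- Let p be a prime and W a positive characteristic p-functor with Z(Q) ≤ W(Q): W assigns to every finite p-group Q (in a fixed universe) a subgroup W(Q), nontrivial when Q is, carried to W(R) by every isomorphism Q ≅ R, and containing the centre of Q. Suppose that for every finite group G with Sylow p-subgroup P in which W(P) is not normal there is g ∈ P outside O_p(G) with [Z(O_p(G)), g, g] = 1. Then for every saturated fusion system F over a finite p-group S and every normalizer fusion system N of W(S) in F, every p-th power of an element of Z(S) that lies in the centre of N lies in the centre of F. -/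
theorem result {p : ℕ} [Fact p.Prime] (W : ∀ (Q : Type u) [Group Q], Subgroup Q) (hW1 : ∀ (Q : Type u) [Group Q] [Finite Q], IsPGroup p Q → Nontrivial Q → W Q ≠ ⊥) (hW2 : ∀ (Q R : Type u) [Group Q] [Group R] [Finite Q], IsPGroup p Q → ∀ φ : Q ≃* R, (W Q).map φ.toMonoidHom = W R) (hWZ : ∀ (Q : Type u) [Group Q] [Finite Q], IsPGroup p Q → Subgroup.center Q ≤ W Q) (hq : ∀ (G : Type u) [Group G] [Finite G] (P : Sylow p G), ¬ (((W ↥(P : Subgroup G)).map (P : Subgroup G).subtype : Subgroup G)).Normal → ∃ g : G, g ∈ (P : Subgroup G) ∧ g ∉ Cfsg.pCore p G ∧ ⁅⁅Subgroup.center ↥(Cfsg.pCore p G) |>.map (Cfsg.pCore p G).subtype, Subgroup.zpowers g⁆, Subgroup.zpowers g⁆ = ⊥) {Ω : Type u} [Group Ω] {S : Subgroup Ω} [Finite S] (hS : IsPGroup p S) (F : Cfsg.FusionSystem S) (hF : F.IsSaturated p) (N : Cfsg.FusionSystem (Cfsg.FusionSystem.normalizerIn S ((W ↥S).map S.subtype))) (hN : F.IsNormalizerSystem ((W ↥S).map S.subtype) N) : Subgroup.closure ((fun z => z ^ p) '' ((S ⊓ Subgroup.centralizer (S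 : Set Ω) : Subgroup Ω) : Set Ω)) ⊓ N.center ≤ F.center := by
  have hW := CA.H6NPC.fn_induced (p := p) ⟨hW1, hW2⟩
  have hn := fn_norm' hW hS
  rintro x ⟨hx, hx'⟩
  obtain ⟨z, hz, rfl⟩ := mem_pow_closure hx
  obtain ⟨h1, h2⟩ := mem_center_normSys hN hn hx'
  have hZ : ∀ {Ω : Type u} [Group Ω] (X : Subgroup Ω) [Finite X], IsPGroup p X →
      X ⊓ Subgroup.centralizer (X : Set Ω) ≤ inducedFunctor W X := fun X _ hX =>
    (CA.H6J.map_center_subtype X).ge.trans (Subgroup.map_mono (hWZ X hX))
  refine le_center (central_ctl (c := True) (H := Unit) hW hZ (fun G _ _ T a b _ z hz h =>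
    Subgroup.mem_center_iff.2 fun g => Subgroup.mem_centralizer_singleton_iff.1 (CA.FusGl.central_pow
      (fn_norm' hW a.pg) (fun L c d => ?_) (fun s hs => Subgroup.mem_centralizer_singleton_iff.2 (hz.2 s hs)) h ⊤ a
      (b.le ⟨trivial, CA.Amb.centralizer_anti (CA.AmbCore.pCoreOf_le_syl a) hz.2⟩) trivial)) F hS hF
    (Or.inl trivial) z hz fun f hf => h2 _ f hf (hZ S hS h1)) (Subgroup.mem_zpowers _)
  obtain ⟨g, h3, h4, h5⟩ := hq L (CA.H6NPC.sylIn_subgroupOf_top c).toSylowTop fun h => d (by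
    have e := hW.subgroupOf c.pg c.le
    exact (Subgroup.normal_subgroupOf_iff_le_normalizer ((hW.le T).trans c.le)).1 (e ▸ h))
  refine ⟨g, h3, fun h => h4 (CA.AmbCore.mem_pCoreOf_iff.1 h), ?_⟩
  have := congrArg (Subgroup.map L.subtype) h5
  rwa [Subgroup.map_commutator, Subgroup.map_commutator, CA.H6J.map_center_subtype, ← CA.H6J.Z_map
    L.subtype_injective, MonoidHom.map_zpowers, Subgroup.map_bot] at this

end Cfsg.Agent.S5253
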