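import Cfsg.Statements.S5254
import Cfsg.Agent.Lib.Fus.FusOl
-- import your own Cfsg.Agent.* helpers here

set_option autoImplicit false
open Cfsg

namespace Cfsg.Agent.S5254

open CA.Fus CA.AmbSyl in
/-- Let p be an odd prime, S a finite nonabelian p-group with a unique abelian subgroup A of index p, and F a saturated fusion system over S. Then every F-essential subgroup P is A, or Z(S)⟨x⟩ for some x ∈ S outside A, or (when the second centre Z₂(S) lies in A) Z₂(S)⟨x⟩ for some x ∈ S outside A; and P has index p in its normalizer in S. -/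
theorem result {Ω : Type*} [Group Ω] {S : Subgroup Ω} [Finite S] (p : ℕ) [Fact p.Prime] (hS : IsPGroup p S) (F : Cfsg.FusionSystem S) (hF : F.IsSaturated p) (hp : p ≠ 2) (hna : ¬ IsMulCommutative ↥S) (A : Subgroup Ω) (hA : A ≤ S ∧ IsMulCommutative ↥A ∧ (A.subgroupOf S).index = p) (huniq : ∀ B : Subgroup Ω, B ≤ S → IsMulCommutative ↥B → (B.subgroupOf S).index = p → B = A) (P : Subgroup Ω) (hP : F.IsEssential p P) : (P = A ∨ (∃ x ∈ S, x ∉ A ∧ P = (S ⊓ Subgroup.centralizer (S : Set Ω)) ⊔ Subgroup.zpowers x) ∨ (((upperCentralSeries ↥S 2).map S.subtype) ≤ A ∧ ∃ x ∈ S, x ∉ A ∧ P = ((upperCentralSeries ↥S 2).map S.subtype) ⊔ Subgroup.zpowers x)) ∧ (P.subgroupOf (S ⊓ Subgroup.normalizer (P : Set Ω))).index = p := by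
  have h : AbI p S A := ⟨hS, hA.1, hA.2.1, hA.2.2, not_le_zc hna⟩
  by_cases e : P = A
  · subst e
    exact ⟨.inl rfl, by rw [inf_eq_left.2 h.norm]; exact h.idx⟩
  obtain ⟨x, hx, hx', h1, h2, h3⟩ := h.ess hF (lr_of_ess hS hF hP) e
  have h4 := h.z2_le_of huniq h2
  have hxS := (essential_lt hS hF hP).le hx
  refine ⟨.inr (h3.imp (fun h5 => ⟨x, hxS, hx', h5.1⟩) fun h5 => ⟨h4, x, hxS, hx', ?_⟩), h1⟩
  exact h5.1.trans (by rw [inf_eq_right.2 h4]; rfl)

end Cfsg.Agent.S5254
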