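import Cfsg.Statements.S5272
import Cfsg.Agent.Lib.Fus.FusNil
-- import your own Cfsg.Agent.* helpers here

set_option autoImplicit false
open Cfsg

namespace Cfsg.Agent.S5272

open CA.Fus CA.AmbSyl in
/-- An axiomatic Glauberman–Thompson nilpotency criterion for fusion systems. Let p be an odd prime, F a saturated fusion system over a finite p-group S, and 𝒜 a nonempty family of abelian subgroups of S. For Q ≤ S write I(Q) for the intersection of the members of 𝒜 contained in Q. Assume (invariance) that for every Q ≤ S containing a member of 𝒜, every F-automorphism of Q maps I(Q) into itself, and (replacement) that for every subgroup B of S of nilpotency class at most 2, if some member of 𝒜 contains [B,B] but not B, then B normalizes some member of 𝒜 that contains [B,B] but not B. Then F is the inner fusion system of S if and only if the normalizer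 fusion system of I(S) in F is the inner fusion system of N_S(I(S)). -/
theorem result {Ω : Type*} [Group Ω] {S : Subgroup Ω} [Finite S] (p : ℕ) [Fact p.Prime] (hS : IsPGroup p ↥S) (F : Cfsg.FusionSystem S) (hF : F.IsSaturated p) (hp : p ≠ 2) (𝒜 : Set (Subgroup Ω)) (h𝒜 : ∀ A ∈ 𝒜, A ≤ S ∧ IsMulCommutative ↥A) (hne : 𝒜.Nonempty) (hinv : ∀ Q : Subgroup Ω, Q ≤ S → (∃ A ∈ 𝒜, A ≤ Q) → ∀ α ∈ F.autGroup Q, ∀ x : ↥Q, (x : Ω) ∈ (⨅ A ∈ {A : Subgroup Ω | A ∈ 𝒜 ∧ A ≤ Q}, A) → (((α : MulAut ↥Q) x : ↥Q) : Ω) ∈ (⨅ A ∈ {A : Subgroup Ω | A ∈ 𝒜 ∧ A ≤ Q}, A)) (hrep : ∀ B : Subgroup Ω, B ≤ S → ⁅⁅B, B⁆, B⁆ = ⊥ → (∃ A ∈ 𝒜, ⁅B, B⁆ ≤ A ∧ ¬ B ≤ A) → ∃ A ∈ 𝒜, ⁅B, B⁆ ≤ A ∧ ¬ B ≤ A ∧ B ≤ Subgroup.normalizer (A : Set Ω)) : (∀ P : Subgroup Ω, F.Hom P = (Cfsg.innerFusionSystem S).Hom P) ↔ ∀ N : Cfsg.FusionSystem (Cfsg.FusionSystem.normalizerIn S (⨅ A ∈ 𝒜, A)), F.IsNormalizerSystem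 (⨅ A ∈ 𝒜, A) N → ∀ P : Subgroup Ω, N.Hom P = (Cfsg.innerFusionSystem (Cfsg.FusionSystem.normalizerIn S (⨅ A ∈ 𝒜, A))).Hom P := by
  refine ⟨fun h N hN => normSys_inner (inner_iff_hom.1 h) hN, fun h => inner_iff_hom.2 ?_⟩
  have hI : ∀ {X : Set (Subgroup Ω)} {A}, A ∈ X → (⨅ A ∈ X, A) ≤ A := fun hA => iInf₂_le _ hA
  obtain ⟨A₀, hA₀⟩ := hne
  have h1 := (hI hA₀).trans (h𝒜 A₀ hA₀).1
  have hab : ∀ A ∈ 𝒜, A ≤ Subgroup.centralizer (A : Set Ω) := fun A hA x hx y hy =>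
    CA.H6Basic.comm_of_isMulCommutative (h𝒜 A hA).2 hy hx
  have hinv' : ∀ Q, Q ≤ S → (∃ A ∈ 𝒜, A ≤ Q) → ∀ f, Mor F Q f → (∀ x ∈ Q, f x ∈ Q) →
      ∀ x ∈ (⨅ A ∈ {A : Subgroup Ω | A ∈ 𝒜 ∧ A ≤ Q}, A), f x ∈ (⨅ A ∈ {A : Subgroup Ω | A ∈ 𝒜 ∧ A ≤ Q}, A) :=
    fun Q hQ ⟨A, hA⟩ f hf hm x hx => by
      have := fin_le hQ
      obtain ⟨α, hα, e⟩ := hf.exists_aut hm
      have h2 := hA.2 (hI (X := {A | A ∈ 𝒜 ∧ A ≤ Q}) hA hx)
      rw [← e x h2, act_of_mem α h2]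
      exact hinv Q hQ ⟨A, hA⟩ α hα ⟨x, h2⟩ hx
  have e : {A : Subgroup Ω | A ∈ 𝒜 ∧ A ≤ S} = 𝒜 := Set.ext fun A => ⟨fun h => h.1, fun h => ⟨h, (h𝒜 A h).1⟩⟩
  have := fin_le h1
  have hn : S ≤ Subgroup.normalizer ((⨅ A ∈ 𝒜, A : Subgroup Ω) : Set Ω) := fun s hs =>
    mem_normalizer_of_maps (by
      have := hinv' S le_rfl ⟨A₀, hA₀, (h𝒜 A₀ hA₀).1⟩ _ (mor_cj F le_rfl hs) fun x hx => (mor_cj F le_rfl hs).mem hx
      rwa [e] at this)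
  refine inner_of_stable hp hS hF h1 hn (nLe_inner h1 h) fun E hE G _ _ T L j j' m h2 h3 h4 => ?_
  have hc : ∀ {X Y : Subgroup Ω}, X ≤ S → Y ≤ S → X ≤ Subgroup.centralizer (Y : Set Ω) →
      img j X ≤ Subgroup.centralizer (img j Y : Set G) := fun a b c => img_le_iff.2 fun x hx =>
    (m.apply_mem_centralizer b (a hx)).2 (c hx)
  have hm : ∀ {X Y : Subgroup Ω}, X ≤ S → Y ≤ S → X ≤ Subgroup.normalizer (Y : Set Ω) →
      img j X ≤ Subgroup.normalizer (img j Y : Set G) := fun a b c => img_le_iff.2 fun x hx =>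
    (m.apply_mem_normalizer b (a hx)).2 (c hx)
  have h5 := m.syl.mono h2 le_top
  refine norm_of_repl h5 (m.ch.of_syl_le m.syl h2 le_top) h3 (fun V a b => CA.H6Stab.stab_of_abSyl hp a b h4)
    (m.img_le h1) (hc h1 h1 ((hI hA₀).trans ((hab A₀ hA₀).trans (CA.Amb.centralizer_anti (hI hA₀)))))
    (m.img_eq ▸ hm le_rfl h1 hn) fun B' a b c d => ?_
  obtain ⟨B, hB, rfl⟩ : ∃ B, B ≤ S ∧ img j B = B' := ⟨_, m.symm.img_le a, m.symm.img_img a⟩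
  have hBB : ⁅B, B⁆ ≤ S := (Subgroup.commutator_le_self B).trans hB
  rw [← m.hom.img_commutator hB hB] at b c
  rw [← m.hom.img_commutator hBB hB, ← img_bot m.hom.one, m.img_inj
    ((Subgroup.commutator_mono hBB hB).trans (Subgroup.commutator_le_self S)) bot_le] at b
  rw [m.img_le_img hBB h1] at c
  rw [m.img_le_img hB h1, le_iInf₂_iff] at d
  push Not at d
  obtain ⟨A₁, hA₁, d⟩ := d
  obtain ⟨A, hA, -, h6, h7⟩ := hrep B hB b ⟨A₁, hA₁, c.trans (hI hA₁), d⟩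
  have h8 := (h𝒜 A hA).1
  refine ⟨img j A, m.img_le h8, hc h8 h8 (hab A hA), hm hB h8 h7, fun h => h6 ((m.img_le_img hB h8).1 h), fun h => ?_⟩
  obtain ⟨Q, hQ, eQ⟩ : ∃ Q, Q ≤ S ∧ img j Q = pCoreOf p L :=
    ⟨_, m.symm.img_le (CA.AmbCore.pCoreOf_le_syl h5), m.symm.img_img (CA.AmbCore.pCoreOf_le_syl h5)⟩
  rw [← eQ, m.img_le_img h8 hQ] at h
  have h9 := hI (X := {A | A ∈ 𝒜 ∧ A ≤ Q}) ⟨hA, h⟩
  refine ⟨img j (⨅ A ∈ {A : Subgroup Ω | A ∈ 𝒜 ∧ A ≤ Q}, A), img_mono j (le_iInf₂ fun A hA => hI hA.1),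
    img_mono j h9, fun g hg => mem_normalizer_of_maps fun y hy => ?_⟩
  obtain ⟨x, hx, rfl⟩ := (m.hom.mono (h9.trans h8)).mem_img.1 hy
  have h10 : ∀ y ∈ img j Q, g * y * g⁻¹ ∈ img j Q := fun y hy =>
    conj_mem_of_norm (eQ ▸ CA.AmbCore.norm_pCoreOf p L hg) hy
  have h11 := m.bwd (mor_group.2 ⟨m.img_le hQ, fun y hy => m.img_le hQ (h10 y hy), g, fun _ _ => rfl⟩)
  rw [m.img_img hQ] at h11
  have h12 := mem_img_of_mem j (hinv' Q hQ ⟨A, hA, h⟩ _ (h11.sub hE) (fun x hx => ((m.mem_img hQ).1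
    (h10 _ (mem_img_of_mem j hx))).2) x hx)
  rwa [m.fg _ (m.img_le hQ (h10 _ (mem_img_of_mem j (h (h9 hx)))))] at h12

end Cfsg.Agent.S5272
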