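import Cfsg.Statements.S5276
import Cfsg.Agent.Lib.Fus.FusTate
-- import your own Cfsg.Agent.* helpers here

set_option autoImplicit false
open Cfsg

namespace Cfsg.Agent.S5276

open CA.Fus CA.AmbSyl in
/-- Let p be a prime and F a saturated fusion system over a finite p-group S. Then F is the inner fusion system of S if and only if the normalizer fusion system of S itself in F is the inner fusion system (equivalently, Aut_F(S) is induced by S) and the Frattini subgroup Φ(S) is strongly closed in F. -/
theorem result {Ω : Type*} [Group Ω] {S : Subgroup Ω} [Finite S] (p : ℕ) [Fact p.Prime] (hS : IsPGroup p ↥S) (F : Cfsg.FusionSystem S) (hF : F.IsSaturated p) : (∀ P : Subgroup Ω, F.Hom P = (Cfsg.innerFusionSystem S).Hom P) ↔ (∀ N : Cfsg.FusionSystem (Cfsg.FusionSystem.normalizerIn S S), F.IsNormalizerSystem S N → ∀ P : Subgroup Ω, N.Hom P = (Cfsg.innerFusionSystem (Cfsg.FusionSystem.normalizerIn S S)).Hom P) ∧ F.StronglyClosed ((frattini ↥S).map S.subtype) := by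
  refine ⟨fun h => ⟨fun N hN => normSys_inner (inner_iff_hom.1 h) hN, ?_⟩, fun ⟨h1, h2⟩ P => ?_⟩
  · rw [fs_ext h]
    exact normal_sc (inner_normal (Subgroup.map_subtype_le _) (CA.Amb.norm_map_subtype _))
  · rw [← inner_of_focal hS hF (focal_le_of_sc hS hF h2 (le_frattini' hS) fun α hα x hx =>
      le_frattini' hS (aut_le_inn (nLe_inner le_rfl h1) hα hx))]

end Cfsg.Agent.S5276
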