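import Cfsg.Statements.S5278
import Cfsg.Agent.Lib.Fus.FusWc
-- import your own Cfsg.Agent.* helpers here

set_option autoImplicit false
open Cfsg

namespace Cfsg.Agent.S5278

open CA.Fus CA.AmbSyl in
/-- Let p be an odd prime, F a saturated fusion system over a finite p-group S, and T a subgroup of Z(S) such that the normalizer fusion system of J(S) in F is contained in the normalizer fusion system of T, J(S) being the subgroup generated by the abelian subgroups of S of largest order. Then either T is weakly closed in F, or Aut_F(T) has a nontrivial cyclic subgroup X of order prime to p that permutes transitively the non-identity elements of the commutator [T, X] (the subgroup of T generated by the elements ψ(t)·t⁻¹ with ψ in X and t in T). -/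
theorem result {Ω : Type*} [Group Ω] {S : Subgroup Ω} [Finite S] (p : ℕ) [Fact p.Prime] (hS : IsPGroup p ↥S) (F : Cfsg.FusionSystem S) (hF : F.IsSaturated p) (hp : p ≠ 2) (T : Subgroup Ω) (hT : T ≤ S ⊓ Subgroup.centralizer (S : Set Ω)) (hJT : ∀ NJ : Cfsg.FusionSystem (Cfsg.FusionSystem.normalizerIn S (Cfsg.thompsonSubgroupAOf S)), F.IsNormalizerSystem (Cfsg.thompsonSubgroupAOf S) NJ → ∀ NT : Cfsg.FusionSystem (Cfsg.FusionSystem.normalizerIn S T), F.IsNormalizerSystem T NT → NJ.IsSubsystemOf NT) : F.WeaklyClosed T ∨ ∃ X : Subgroup (MulAut ↥T), X ≤ F.autGroup T ∧ X ≠ ⊥ ∧ IsCyclic ↥X ∧ (Nat.card ↥X).Coprime p ∧ ∀ a b : ↥T, a ∈ Subgroup.closure {y : ↥T | ∃ ψ ∈ X, ∃ t : ↥T, y = ψ t * t⁻¹} → b ∈ Subgroup.closure {y : ↥T | ∃ ψ ∈ X, ∃ t : ↥T, y = ψ t * t⁻¹} → a ≠ 1 → b ≠ 1 → ∃ ψ ∈ X, ψ a = b := by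
  rw [CA.H6J.thompsonSubgroupAOf_eq] at hJT
  have hTS := hT.trans inf_le_left
  obtain ⟨NJ, h1⟩ := exists_normSys F (CA.H6J.J_le 0 S)
  obtain ⟨NT, h2⟩ := exists_normSys F hTS
  refine (glaub_fus hp F hS hF T hT fun f hf => (normSys_iff.1 h2).maps
    ((((normSys_iff.1 h1).2 _ f).2 hf).sub (hJT NJ h1 NT h2)) (hT.trans Z_le_J)).imp normal_wc ?_
  rintro ⟨α, hα, ⟨t, ht, h3⟩, h4, h5⟩
  let K : Subgroup (MulAut T) :=
    { carrier := {β | ∀ x ∈ T, act β x * x⁻¹ ∈ Dm α}
      one_mem' := fun x _ => by rw [act_one, mul_inv_cancel]; exact one_mem _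
      mul_mem' := fun {β γ} hβ hγ x hx => by
        simpa [act_mul, mul_assoc] using mul_mem (hβ _ (act_mem γ hx)) (hγ x hx)
      inv_mem' := fun {β} hβ x hx => by simpa [act_act_inv] using inv_mem (hβ _ (act_mem β⁻¹ hx)) }
  have h6 : Subgroup.closure {y : T | ∃ ψ ∈ Subgroup.zpowers α, ∃ t : T, y = ψ t * t⁻¹} ≤ (Dm α).subgroupOf T :=
    (Subgroup.closure_le _).2 (by
      rintro _ ⟨ψ, hψ, t, rfl⟩
      have := Subgroup.zpowers_le.2 (show α ∈ K from fun x hx => mem_img_of_mem (fun t => act α t * t⁻¹) hx) hψ t t.2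
      rwa [act_coe] at this)
  refine ⟨Subgroup.zpowers α, Subgroup.zpowers_le.2 hα, fun e => h3 ?_, inferInstance,
    Nat.card_zpowers α ▸ h4, fun a b ha hb h7 h8 => ?_⟩
  · rw [Subgroup.zpowers_eq_bot.1 e, act_one]
  · obtain ⟨k, hk⟩ := h5 a (h6 ha) b (h6 hb) (fun e => h7 (Subtype.ext e)) fun e => h8 (Subtype.ext e)
    exact ⟨α ^ k, pow_mem (Subgroup.mem_zpowers α) k, Subtype.ext (act_coe _ a ▸ hk)⟩

end Cfsg.Agent.S5278
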