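import Cfsg.Statements.S5291
import Cfsg.Agent.Lib.Fus.FusInv
-- import your own Cfsg.Agent.* helpers here

set_option autoImplicit false
open Cfsg

namespace Cfsg.Agent.S5291

open CA.Fus CA.AmbSyl in
/-- Let F be a saturated fusion system over a finite p-group S and E a weakly normal subsystem of F over a subgroup T. Suppose a subgroup R of T is normal in E (E = N_E(R)), and let R* be the subgroup of T generated by the images of R under all maps of F with source R. Then R* is normal in F (F = N_F(R*)). -/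
theorem result {Ω : Type*} [Group Ω] {S : Subgroup Ω} [Finite S] (p : ℕ) [Fact p.Prime] (hS : IsPGroup p S)
    (F : Cfsg.FusionSystem S) (hF : F.IsSaturated p)
    {T : Subgroup Ω} (E : Cfsg.FusionSystem T) (hE : E.IsWeaklyNormalIn F p)
    (R : Subgroup Ω) (hR : E.IsNormal R) :
    F.IsNormal (Subgroup.closure {x : Ω | ∃ φ ∈ F.Hom R, ∃ r : R, x = φ r}) := by
  have hI := wn_inv hE
  have := fin_le (inv_sc hI).1
  have e : Subgroup.closure {x : Ω | ∃ φ ∈ F.Hom R, ∃ r : R, x = φ r} =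
      sSup {Q | ∃ X : Set (MulAut T), X ⊆ F.autGroup T ∧ Q = ⨆ α ∈ X, img (act α) R ∧ E.IsNormal Q} := by
    refine le_antisymm ((Subgroup.closure_le _).2 ?_) (sSup_le ?_)
    · rintro _ ⟨φ, hφ, r, rfl⟩
      obtain ⟨α, hα, f₀, h1, e⟩ := inv_fratC hI R _ hR.1 (mor_ext hφ)
      refine le_sSup (α := Subgroup Ω) (a := img (act α) R) (by
        exact ⟨{α}, by simpa using hα, by simp, (inv_invC hI).normal_img hR hα⟩) ?_
      rw [← ext_coe φ, e r r.2]
      exact mem_img_of_mem _ (sc_maps (normal_sc hR) h1 r.2 r.2)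
    · rintro _ ⟨X, hX, rfl, -⟩
      refine iSup₂_le fun α hα => img_le_iff.2 fun x hx => Subgroup.subset_closure
        ⟨_, (((mem_aut (inv_sc hI).1).1 (hX hα)).mono hR.1).toHom_mem, ⟨x, hx⟩, rfl⟩
  have h1 : E.IsNormal (Subgroup.closure {x : Ω | ∃ φ ∈ F.Hom R, ∃ r : R, x = φ r}) := by
    rw [e]
    obtain ⟨X, -, -, h⟩ := sSup_mem_of_sup (S := T)
      (X := {Q | ∃ X : Set (MulAut T), X ⊆ F.autGroup T ∧ Q = ⨆ α ∈ X, img (act α) R ∧ E.IsNormal Q})
      (fun P ⟨_, _, _, h⟩ => h.1) ⟨∅, Set.empty_subset _, by simp, normal_bot E⟩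
      fun P ⟨X, h1, h2, h3⟩ Q ⟨Y, h4, h5, h6⟩ => ⟨X ∪ Y, Set.union_subset h1 h4, by
        rw [iSup_union, h2, h5], normal_sup h3 h6⟩
    exact h
  refine normal_of_inv_normal hS hF hI h1 fun α hα => ?_
  have := fin_le h1.1
  have h2 := ((mem_aut (inv_sc hI).1).1 hα).mono h1.1
  refine h2.img_eq_of_maps (h2.hom.maps_closure le_rfl ?_)
  rintro _ ⟨φ, hφ, r, rfl⟩
  refine Subgroup.subset_closure ⟨_, ((mor_ext hφ).comp ((mem_aut (inv_sc hI).1).1 hα) fun x hx =>
    sc_maps (inv_sc hI) (mor_ext hφ) hx (hR.1 hx)).toHom_mem, r, ?_⟩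
  rw [← ext_coe φ]; rfl

end Cfsg.Agent.S5291
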