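import Cfsg.Statements.S5292
import Cfsg.Agent.Lib.Fus.FusLim
-- import your own Cfsg.Agent.* helpers here

set_option autoImplicit false
universe u
open Cfsg

namespace Cfsg.Agent.S5292

open CA.Fus CA.AmbSyl in
/-- Let F be a saturated fusion system over a finite p-group S. Then F is the fusion system of some finite p-solvable group on a Sylow p-subgroup if and only if F is constrained (some subgroup normal in F is centric in F) and the group of automorphisms that F induces on its largest normal subgroup O_p(F) is p-solvable. -/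
theorem result {Ω : Type u} [Group Ω] {S : Subgroup Ω} [Finite S] (p : ℕ) [Fact p.Prime] (hS : IsPGroup p S)
    (F : Cfsg.FusionSystem S) (hF : F.IsSaturated p) :
    (∃ (G : Type u) (_ : Group G) (_ : Finite G) (ι : S →* G), Cfsg.IsPSolvable p G ∧ F.IsRealizedBy ι ∧
        ∃ T : Sylow p G, (T : Subgroup G) = ι.range) ↔
      (F.IsConstrained p ∧ Cfsg.IsPSolvable p ↥(F.autGroup F.core)) := by
  refine ⟨fun ⟨G, _, _, ι, h1, h2, T, h3⟩ => ?_, fun ⟨h1, h2⟩ => ?_⟩
  · obtain ⟨j, i⟩ := rz_fIso h2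
    have hs : SylIn p ι.range ⊤ := h3 ▸ sylIn_top T
    have q := i.quo.trans (quo_group hs (CA.H6PSolv.π p G) CA.H6PSolv.π_surj)
    obtain ⟨j', i'⟩ := q.fIso (le_bot_iff.1 fun x hx => by
      have h4 : ext ι x ∈ ι.range ⊓ (CA.H6PSolv.π p G).ker := ⟨i.mapf x hx.1, hx.2⟩
      rw [CA.H6PSolv.inf_π_ker hs.pg] at h4
      exact i.inj x hx.1 1 (one_mem _) (h4.trans i.hom.one.symm))
    have hs' := sylIn_map_top hs _ (CA.H6PSolv.π_surj (p := p))
    have h5 := CA.H6PSolv.isPSolvable_of_surjective h1 _ (CA.H6PSolv.π_surj (p := p))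
    have := i'.toHIso.finite
    refine ⟨i'.symm.constrained hs'.pg (by
      rw [group_eq_ofSubgroup]
      exact ofSub_constrained hs' (CA.H6PSolv.charP_quot_of_psolv (CA.H6PSolv.isPSolvable_iff.1 h1))), ?_⟩
    have := fin_le (core_le F)
    have h6 := i'.map_aut (core_le F)
    have := fin_le (i'.img_le (core_le F))
    rw [aut_group (i'.img_le (core_le F)), autInd_eq_img, ← (homOn_cjA_normIn _ _).range_toHom] at h6
    rw [CA.H6PSolv.isPSolvable_iff', ← CA.H6PSolv.psolv_map_iff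
      (f := (i'.restrict (core_le F)).tr.toMonoidHom) (MulEquiv.injective _), h6, MonoidHom.range_eq_map]
    exact (CA.H6PSolv.psolv_top_iff.2 ((CA.H6PSolv.isPSolvable_iff.1 h5).mono le_top)).map _
  · obtain ⟨G, _, ι, hm⟩ := exists_model hS h1
    have := hm.1
    obtain ⟨π, h⟩ := model_over hm
    have := fin_le (core_le F)
    refine ⟨G, _, hm.1, ι, CA.H6PSolv.isPSolvable_iff.2 (CA.H6PSolv.psolv_top_iff.1 (CA.H6PSolv.psolv_of_map
      h.homπ.toHom (CA.H6PSolv.psolv_of_isPGroup ?_) ((CA.H6PSolv.isPSolvable_iff'.1 h2).mono ?_))), hm.2.1, hm.2.2.1⟩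
    · exact isPGroup_iff_mem.2 fun x hx => by
        obtain ⟨k, hk⟩ := isPGroup_iff_mem.1 (h.pg hS) x ⟨x.2, hx.2⟩
        exact ⟨k, Subtype.ext hk⟩
    · rintro _ ⟨x, -, rfl⟩
      exact h.mem x

end Cfsg.Agent.S5292
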