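import Cfsg.Statements.S5294
import Cfsg.Agent.Lib.Fus.FusSolv
-- import your own Cfsg.Agent.* helpers here

set_option autoImplicit false
universe u
open Cfsg

namespace Cfsg.Agent.S5294

open CA.Fus CA.AmbSyl in
/-- Let F be a saturated fusion system over a finite p-group S whose centre Z(S) lies in the largest subgroup O_p(F) normal in F. Then the centre Z(F) of F is a direct factor of Z(S): there is a subgroup K of Z(S) with Z(F) ∩ K = 1 and Z(F)K = Z(S). -/
theorem result {Ω : Type u} [Group Ω] {S : Subgroup Ω} [Finite S] (p : ℕ) [Fact p.Prime] (hS : IsPGroup p S)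
    (F : Cfsg.FusionSystem S) (hF : F.IsSaturated p) (hZ : (S ⊓ Subgroup.centralizer (S : Set Ω)) ≤ F.core) :
    ∃ K : Subgroup Ω, K ≤ (S ⊓ Subgroup.centralizer (S : Set Ω)) ∧ F.center ⊓ K = ⊥ ∧ F.center ⊔ K = (S ⊓ Subgroup.centralizer (S : Set Ω)) := by
  have hQ := core_normal F
  have := fin_le hQ.1
  obtain ⟨t, h1, h2, h3, h4, -⟩ := exists_trace (A := F.autGroup F.core) (B := autInducedBy S F.core)
    (ab_center F.core) inf_le_left fun α _ => (mem_stabA_iff_img inf_le_left).2 (img_act_center α)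
  have hn := (sat_syl hS hF (normal_fullyNorm hQ)).not_dvd
  have hV : S ⊓ Subgroup.centralizer (S : Set Ω) ≤ F.core ⊓ Subgroup.centralizer (F.core : Set Ω) :=
    le_inf hZ (inf_le_right.trans (CA.Amb.centralizer_anti hQ.1))
  have hc : F.center ≤ S ⊓ Subgroup.centralizer (S : Set Ω) := le_inf (center_le F) F.center_le_centralizer
  have h5 : ∀ z ∈ F.center, t z = z ^ (autInducedBy S F.core).relIndex (F.autGroup F.core) := fun z hz =>
    (inv_mul_eq_one.1 (Subgroup.mem_bot.1 (h4 ⊥ z (hV (hc hz)) fun α hα => by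
      rw [central_fix (center_central F) ((mem_aut hQ.1).1 hα) (hZ (hc hz)) hz, inv_mul_cancel]
      exact one_mem _))).symm
  refine ⟨(h1.mono hV).pre ⊥, HomOn.pre_le _ _, le_bot_iff.1 fun z hz => ?_,
    le_antisymm (sup_le hc (HomOn.pre_le _ _)) fun z hz => ?_⟩
  · obtain ⟨m, hm⟩ := exists_pow_inv hn hS (center_le F hz.1)
    rw [← hm, ← h5 z hz.1, show t z = 1 from hz.2.2, one_pow]; exact one_mem _
  · have h8 : t z ∈ F.center := le_center (central_of_fix hS hF (Subgroup.zpowers_le.2 (hQ.1 (h2 z).1))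
      fun P f hf x hx hz' => by
        obtain ⟨g, hg, e1, e2⟩ := normal_ext hQ hf
        obtain ⟨α, hα, e⟩ := (hg.mono le_sup_right).exists_aut' e2
        obtain ⟨n, rfl⟩ := hz'
        show f (t z ^ n) = t z ^ n
        change t z ^ n ∈ P at hx
        rw [← e1 _ hx, ← e _ (Subgroup.zpow_mem _ (h2 z).1 n), (homOn_act α).zpow (h2 z).1, h3 z (hV hz) (fun σ hσ => ?_) α hα]
        obtain ⟨a, ha, e⟩ := mem_autInd.1 hσ
        rw [e z (hZ hz), hz.2 a ha.1, mul_inv_cancel_right]) (Subgroup.mem_zpowers _)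
    obtain ⟨m, hm⟩ := exists_pow_inv hn hS (center_le F h8)
    have h9 : (t z ^ m)⁻¹ * z ∈ (h1.mono hV).pre ⊥ := ⟨mul_mem (inv_mem (pow_mem (hc h8) m)) hz, by
      show t _ = 1
      rw [h1.inv_mul (pow_mem (h2 z) m) (hV hz), h1.pow (h2 z), h5 _ h8, hm, inv_mul_cancel]⟩
    have := mul_mem (Subgroup.mem_sup_left (T := (h1.mono hV).pre ⊥) (pow_mem h8 m)) (Subgroup.mem_sup_right h9)
    rwa [mul_inv_cancel_left] at this

end Cfsg.Agent.S5294
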