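import Cfsg.Statements.S5295
import Cfsg.Agent.Lib.Fus.FusNil
import Cfsg.Agent.S5294
-- import your own Cfsg.Agent.* helpers here

set_option autoImplicit false
universe u
open Cfsg

namespace Cfsg.Agent.S5295

open CA.Fus CA.AmbSyl in
/-- Let F be a saturated fusion system over a finite p-group S with p odd. Then the centre Z(F) of F is a direct factor of Z(S): there is a subgroup K of Z(S) with Z(F) ∩ K = 1 and Z(F)K = Z(S). (At the prime 2 this can fail.) -/
theorem result {Ω : Type u} [Group Ω] {S : Subgroup Ω} [Finite S] (p : ℕ) [Fact p.Prime] (hp : p ≠ 2) (hS : IsPGroup p S)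
    (F : Cfsg.FusionSystem S) (hF : F.IsSaturated p) :
    ∃ K : Subgroup Ω, K ≤ (S ⊓ Subgroup.centralizer (S : Set Ω)) ∧ F.center ⊓ K = ⊥ ∧ F.center ⊔ K = (S ⊓ Subgroup.centralizer (S : Set Ω)) := by
  obtain ⟨N, h1, h2⟩ := loc_norm' hS hF (CA.H6J.J_le 0 S) (CA.H6J.le_normalizer_J 0 S)
  have e : N.center = F.center := le_antisymm (fun z hz => by
    have h3 : z ∈ S ⊓ Subgroup.centralizer (S : Set Ω) := ⟨center_le N hz, N.center_le_centralizer hz⟩
    exact central_J hS hF (Or.inl hp) h3 fun f hf => central_fix (center_central N) ((h2.2 _ f).2 hf) (Z_le_J h3) hz)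
    (le_center (central_of_fix hS h1.sat (center_le F) fun _ _ hf _ hx hx' =>
      central_fix (center_central F) (hf.sub h1.sub) hx hx'))
  exact e ▸ Cfsg.Agent.S5294.result p hS N h1.sat (Z_le_J.trans (le_core (h2.normal le_top)))

end Cfsg.Agent.S5295
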