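import Cfsg.Statements.S5301
import Cfsg.Agent.Lib.Fus.FusInv
-- import your own Cfsg.Agent.* helpers here

set_option autoImplicit false
universe u
open Cfsg

namespace Cfsg.Agent.S5301

open CA.Fus CA.AmbSyl in
/-- Let F be a saturated fusion system over a finite p-group S. If for every subgroup P of S that is fully normalized, centric and radical in F the automorphism group that F induces on P has a normal Sylow p-subgroup, then S is normal in F. -/
theorem result {Ω : Type u} [Group Ω] {S : Subgroup Ω} [Finite S] (p : ℕ) [Fact p.Prime] (hS : IsPGroup p S)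
    (F : Cfsg.FusionSystem S) (hF : F.IsSaturated p)
    (hcl : ∀ P : Subgroup Ω, F.IsFullyNormalized P → F.IsCentric P → F.IsRadical p P →
      ∃ R : Sylow p ↥(F.autGroup P), (R : Subgroup ↥(F.autGroup P)).Normal) :
    F.IsNormal S := by
  refine normal_top_of_no_ess hS hF fun P hP => ?_
  have hr := essential_radical hS hP
  obtain ⟨R, hR⟩ := hcl P hP.2.1 hP.1 hr
  have := fin_le hP.1.1
  have h1 := sylIn_sylow R
  have h2 := CA.AmbCore.pCoreOf_eq_of_syl h1 (CA.Amb.norm_map_subtype _)
  refine (lt_normIn hS (essential_lt hS hF hP)).not_ge fun a ha => radical_mem hr (centric_self_le hP.1) ha ?_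
  rw [h2]
  exact h1.le_of_norm' (isPGroup_autInd hS P) (autInd_le_aut F hP.1.1)
    ((autInd_le_aut F hP.1.1).trans (CA.Amb.norm_map_subtype _)) (cjA_mem_autInd ha.1 ha.2)

end Cfsg.Agent.S5301
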