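import Cfsg.Statements.S5310
import Cfsg.Agent.Lib.Fus.FusCP
-- import your own Cfsg.Agent.* helpers here

set_option autoImplicit false
open Cfsg

namespace Cfsg.Agent.S5310

open CA.Fus CA.AmbSyl in
/-- A saturated fusion system F over a finite p-group S is constrained (its largest normal subgroup O_p(F) is centric) if and only if the inner fusion system of O_p(F) is itself a generalized Fitting subsystem of F (that is, F*(F) = O_p(F)). -/
theorem result {Ω : Type*} [Group Ω] {S : Subgroup Ω} [Finite S] (p : ℕ) [Fact p.Prime] (hS : IsPGroup p S) (F : Cfsg.FusionSystem S) (hF : F.IsSaturated p) :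
    F.IsConstrained p ↔ (Cfsg.innerFusionSystem F.core).IsGeneralizedFittingOf F p := by
  rw [constrained_iff_comp hS hF, fstar_iff]
  refine ⟨fun h => ?_, fun ⟨T, E, h1, h2⟩ ⟨U, C, hC⟩ => comp_not_le hS hF hC (core_normal F)
    ((sub_le (h1.2.1 U C hC)).trans h2.symm.le₁)⟩
  obtain ⟨T, E, hE⟩ := layer_exists hS hF
  obtain ⟨D, hD⟩ := exists_fstar hS hE
  have h1 := layer_sub hS hE (inner_nm hS hF (core_normal F)) fun U C hC => (h ⟨U, C, hC⟩).elim
  have := fin_le (core_le F)
  refine ⟨T, E, hE, ?_⟩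
  revert D
  rw [sup_eq_left.2 (sub_le h1)]
  intro D hD
  refine sub_antisymm (hD.sub_of fun h2 h3 => ?_) (inner_sub D le_rfl) ▸ hD
  exact ex_of_cz ((cz_inner le_rfl).mono (le_inf (sub_le h1) (CA.AmbRes.cent_symm hD.comm))) (cz_of (sub_le h1) hD.comm
    fun P f hf => ⟨_, mor_id _ (sup_le (hf.le.trans (sub_le h1)) le_rfl), fun x hx => by
      obtain ⟨-, s, hs, e⟩ := mor_inner.1 (hf.sub h1)
      rw [e x hx, ← hD.comm hs x (hf.le hx), mul_inv_cancel_right], fun _ _ => rfl⟩) h2 h3

end Cfsg.Agent.S5310
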