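import Cfsg.Statements.S5312
import Cfsg.Agent.Lib.Fus.FusCP
-- import your own Cfsg.Agent.* helpers here

set_option autoImplicit false
open Cfsg

namespace Cfsg.Agent.S5312

open CA.Fus CA.AmbSyl in
/-- Let F be a saturated fusion system over a finite p-group S. Every component C of F is a normal subsystem of every generalized Fitting subsystem of F. -/
theorem result {Ω : Type*} [Group Ω] {S : Subgroup Ω} [Finite S] (p : ℕ) [Fact p.Prime] (hS : IsPGroup p S) (F : Cfsg.FusionSystem S) (hF : F.IsSaturated p)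
    {T : Subgroup Ω} (C : Cfsg.FusionSystem T) (hC : C.IsComponentIn F p)
    {U : Subgroup Ω} (D : Cfsg.FusionSystem U) (hD : D.IsGeneralizedFittingOf F p) : C.IsNormalIn D p := by
  obtain ⟨V, E, h1, h2⟩ := fstar_iff.1 hD
  have h3 := fstar_nm hS h1 h2
  have := fin_le (nm_le h3)
  exact h2.symm.nm (hS.to_le (nm_le h3)) (nm_sat h3) (layer_subnormal hS h1
    (comp_of_le hS hC h1.1 (sub_le (h1.2.1 T C hC))).1)

end Cfsg.Agent.S5312
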