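import Cfsg.Statements.S5315
import Cfsg.Agent.Lib.Fus.FusTr
-- import your own Cfsg.Agent.* helpers here

set_option autoImplicit false
open Cfsg

namespace Cfsg.Agent.S5315

open CA.Fus CA.AmbSyl in
/-- An analogue of Grün's lemma for fusion systems. Let F be a saturated fusion system over a finite p-group S that is perfect in the sense that its hyperfocal subgroup is all of S (F coincides with its p-residual subsystem). Then the second centre of F equals its centre: every fusion system over S/(Z(F) ∩ S) that is the factor system of F modulo its centre Z(F), read through the quotient map, has trivial centre. -/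
theorem result {Ω : Type*} [Group Ω] {S : Subgroup Ω} [Finite S] (p : ℕ) [Fact p.Prime] (hS : IsPGroup p S) (F : Cfsg.FusionSystem S) (hF : F.IsSaturated p)
    (hperf : F.hyperfocalSubgroup p = S)
    (E : Cfsg.FusionSystem (⊤ : Subgroup (↥S ⧸ (F.center).subgroupOf S)))
    (hE : F.IsFactorSystem F.center (QuotientGroup.mk' ((F.center).subgroupOf S)) E) : E.center = ⊥ := by
  have hZ := center_central F
  obtain ⟨q, e⟩ := factor_quo hS hF (normal_sc (central_normal hZ)) hE
  have := q.finite
  set θ := ext (QuotientGroup.mk' ((F.center).subgroupOf S))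
  have hE' := center_central E
  have hsc := q.sc_pre (normal_sc (central_normal hE'))
  set U := q.hom.pre E.center
  have hU : U ≤ S := q.hom.pre_le _
  -- maps of `F` move elements of `U` by elements of the centre
  have h1 : ∀ P f, Mor F P f → ∀ x ∈ P, x ∈ U → x⁻¹ * f x ∈ F.center := fun P f hf x hx hx' => by
    obtain ⟨g, hg, e'⟩ := q.fwd hf
    rw [← e, q.hom.mem_ker, q.hom.inv_mul (hU hx') (hf.mem hx), ← e' x hx,
      central_fix hE' hg (mem_img_of_mem θ hx) hx'.2, inv_mul_cancel]
    exact ⟨mul_mem (inv_mem (hU hx')) (hf.mem hx), rfl⟩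
  have hc : ∀ z ∈ F.center, ∀ s ∈ S, s * z = z * s := fun z hz s hs => (central_cent hZ hs z hz).symm
  have hN : F.IsNormal U := normal_of_chain hS hF hsc (.tail (.single ⟨normal_sc (central_normal hZ),
    (CA.AmbRes.comm_eq_bot_of_le (hU.trans (central_cent hZ))).le⟩) ⟨hsc, Subgroup.commutator_le.2 fun x hx y hy => by
      have := h1 S _ (mor_cj F le_rfl (hU hx)) y⁻¹ (inv_mem (hU hy)) (inv_mem hy)
      convert inv_mem this using 1
      rw [cj_apply, commutatorElement_def]; group⟩)
  have h2 : ∀ z ∈ U, S ≤ Subgroup.centralizer {z} := fun z hz => by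
    have h3 : ∀ s ∈ S, z⁻¹ * (s * z * s⁻¹) ∈ F.center := fun s hs => h1 S _ (mor_cj F le_rfl hs) z (hU hz) hz
    rw [← hperf]
    refine (hyper_le_focal F p).trans (focal_le_iff.2 fun P f hf x hx => ?_)
    obtain ⟨g, hg, e1, -⟩ := normal_ext hN hf
    have hx' : x ∈ P ⊔ U := Subgroup.mem_sup_left hx
    have hz' : z ∈ P ⊔ U := Subgroup.mem_sup_right hz
    have h4 := central_fix hZ hg (mul_mem (inv_mem hz') (mul_mem (mul_mem hx' hz') (inv_mem hx'))) (h3 x (hf.le hx))
    obtain ⟨c, hc', e2⟩ : ∃ c ∈ F.center, g z = z * c := ⟨_, h1 _ g hg z hz' hz, by group⟩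
    rw [hg.hom.inv_mul hz' (mul_mem (mul_mem hx' hz') (inv_mem hx')), hg.hom.conj hx' hz', e1 x hx, e2] at h4
    have h5 := hc c hc' _ (inv_mem (hf.mem hx))
    have h6 := hc c hc' _ (mul_mem (inv_mem (hU hz)) (mul_mem (mul_mem (hf.mem hx) (hU hz)) (inv_mem (hf.mem hx))))
    have h7 : f x * z * (f x)⁻¹ = x * z * x⁻¹ := by
      refine mul_left_cancel (a := z⁻¹) ?_
      rw [← h4, eq_comm]
      calc _ = c⁻¹ * (z⁻¹ * (f x * z * (c * (f x)⁻¹))) := by group
        _ = c⁻¹ * (z⁻¹ * (f x * z * (f x)⁻¹) * c) := by rw [← h5]; group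
        _ = _ := by rw [h6]; group
    rw [Subgroup.mem_centralizer_singleton_iff]
    calc _ = x⁻¹ * (f x * z * (f x)⁻¹) * f x := by group
      _ = _ := by rw [h7]; group
  have h3 : F.IsCentral U := central_of_ess hS hF fun P hP => by
    obtain ⟨a, b, c⟩ := ess_cr hS hF hP
    have hUP := normal_le_cr hS hN (centric_self_le b) c
    have := fin_le a.1
    refine ⟨hUP, fun α hα => ?_⟩
    have : F.autGroup P ≤ extA P (⊥ : Subgroup (MulAut U)) := by
      rw [← CA.AmbRes.syl_sup_res (sat_syl hS hF a)]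
      refine sup_le (fun β hβ => ?_) (CA.AmbRes.res_le_iff.2 fun β hβ hc => ?_)
      · obtain ⟨t, ht, e⟩ := mem_autInd.1 hβ
        exact mem_extA.2 (inK_bot.2 fun x hx => by
          rw [e x (hUP hx), Subgroup.mem_centralizer_singleton_iff.1 (h2 x hx ht.1), mul_inv_cancel_right])
      · have m := (mem_aut a.1).1 hβ
        exact mem_extA.2 (inK_bot.2 fun x hx => fix_of_coprime (hS.to_le a.1) hc (central_fix hZ m
          (mul_mem (inv_mem (hUP hx)) (act_mem _ (hUP hx))) (h1 P _ m x (hUP hx) hx)))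
    exact inK_bot.1 (mem_extA.1 (this hα))
  rw [← q.img_pre (center_le E), q.hom.img_eq_bot_iff hU, e]
  exact le_center h3

end Cfsg.Agent.S5315
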