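import Cfsg.Statements.S5321
import Cfsg.Agent.Lib.Spor.CGSim
import Cfsg.Agent.Lib.Spor.CGOut
import Cfsg.Agent.Lib.Spor.H28J2s

set_option autoImplicit false
open Cfsg

namespace Cfsg.Agent.S5321

open CA.NatBits CA.OrbBfs CA.CGroup CA.CGConstr CA.CGParts CA.CGCert CA.CGFus CA.H28CG CA.CGOut CA.H28Ico MulAction

set_option Elab.async false
set_option maxRecDepth 100000
set_option maxHeartbeats 4000000

open CA.CGSim
/-- a central involution -/
def cz : ℕ := 507417661574743553034915886336287512076080187033026721040919317734783508719959519328873213488870285712852138526604445972452832880719278122879701992811312653867597024372387087507320118558884034757492964285525562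
/-- generators of its centralizer -/
def lH : List ℕ := [2923584833161067806467726286157039234069660545829603049297135145271210271145877090031222775258319610805612073128139968170697928256638396456391097877396238196122489053373590440644070831656446016503610823643840667, 178345271201372892704875869622745748087304928944699668722326946496398161834778854634130459391136703493298349968041160534357890075143974031684013305709472505251317824159573444172028088926152103181484779418717742]
/-- generators of a Sylow subgroup -/
def lP : List ℕ := [398899296879258223713140057331268393860729930774201630015320171808907286378727302546002266421315124323737750077402204488091057732844959790057969449167618383962219663396763726852502784366025283858876310251005235, 1160033862000848931942790308776468920466790756337826090857727366878490727828872451720812198378912226859066480297496174202570131777469044380414130488118129438139512883162458115497249952519266201045457066091496001, 3253160453842846345213822230849635731448960655133476589564674595468270609132151536812040726095517769019708027595825924087239709282128278919986471320249955637736988304606372384080759227204590613556062404929018791]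
theorem okz : pG.Ok [cz] := perm_ok (by decide +kernel)
theorem inK {x : CA.CGConstr.Cj (Equiv.Perm (Fin 100))} (s : Sg pG lH (KJ ⊓ stabilizer _ x) 1920) :
    pG.In ([c0, c1] ++ lH) KJ := fun c hc => (List.mem_append.1 hc).elim (in_c c) (s.in.mono inf_le_left c)

/-- For a finite group G isomorphic to the Hall–Janko group J₂ (as constructed in the problem's definitions), the 2-fusion system of G on a Sylow 2-subgroup is simple: saturated, over a nontrivial 2-group, with no normal subsystem other than the trivial one and itself. -/
theorem result {G : Type*} [Group G] [Finite G] (hG : Cfsg.Spor.IsoJ2 G) (S : Sylow 2 G) : (Cfsg.groupFusionSystem (S : Subgroup G)).IsSimple 2 := by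
  obtain ⟨e⟩ := hG
  obtain ⟨z, hz⟩ := okz cz (by simp)
  have s : Sg pG lH (KJ ⊓ stabilizer _ (toCj z)) 1920 :=
    sg0.step (A := pCj) pPt hz 315 [[2, 0, 2, 1, 2, 1, 3, 3], [2, 2, 1, 3, 1, 2, 2]] [(0, [[1, 3, 0, 0, 0, 0, 2], [0, 2, 1, 2, 2, 0, 0, 3, 3]]), (4, [])] (pts_ok (by decide)) rfl (by decide +kernel)
  exact simple_cert pCj.S_act R_inj (a := 7) (m := 4725) (lP := lP) (inK s) (s.in.mono inf_le_left)
    (by norm_num) card_KJ (by norm_num)
    (fun h g hg hn => s.2.1.ge (norm_step (A := pCj) sg0 h.ok hz (by decide +kernel) hg hn))
    [[2, 2, 0, 2, 1, 3, 0, 3], [0, 2, 2, 2, 2, 1, 2, 2, 0], [1, 3, 0, 3, 1, 3, 1, 3, 0]] [[2, 4, 4, 0], [1, 5, 5, 0], [0, 4, 0, 4], [4, 2, 4, 0]] [[0], [1], [2], [0, 2]] [[6, 4, 6, 4, 2, 6, 4], [2, 7, 0, 0]] (by decide +kernel) cz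
    [([1, 2, 4, 1], [0]), ([7, 7, 6, 4, 5], [0]), ([7, 5, 1, 3], [4, 2]), ([1, 5, 3, 6], [0, 4]), ([4], [6, 4, 0])] [[10, 8, 0], [10, 0], [6, 0, 2]] (by decide +kernel) (e.trans isoJ).symm S

end Cfsg.Agent.S5321
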