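import Cfsg.Statements.S5330
import Cfsg.Agent.Lib.Fus.FusSolv
-- import your own Cfsg.Agent.* helpers here

set_option autoImplicit false
open Cfsg

namespace Cfsg.Agent.S5330

open CA.Fus CA.AmbSyl in
/-- Let F be a saturated fusion system over a finite abelian p-group S. Then S is the internal direct product of the centre of the system and the focal subgroup: Z(F) ∩ foc(F) = 1 and Z(F)·foc(F) = S. -/
theorem result {Ω : Type*} [Group Ω] {S : Subgroup Ω} [Finite S] (p : ℕ) [Fact p.Prime] (hS : IsPGroup p S) (F : Cfsg.FusionSystem S) (hF : F.IsSaturated p) (hab : ∀ x ∈ S, ∀ y ∈ S, x * y = y * x) : F.center ⊓ F.focalSubgroup = ⊥ ∧ F.center ⊔ F.focalSubgroup = S := by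
  have hN := normal_top_of_comm hS hF hab
  obtain ⟨t, h1, h2, h3, h4, h5⟩ := exists_trace (A := F.autGroup S) (B := Inn S) (V := S) hab le_rfl
    (by rw [stabA_self]; exact le_top)
  have hn := (sat_syl_top hS hF).not_dvd
  have hB : ∀ z ∈ S, ∀ σ ∈ Inn S, act σ z = z := fun z hz σ hσ => by
    obtain ⟨g, hg, e⟩ := mem_inn.1 hσ
    rw [e z hz, hab g hg z hz, mul_inv_cancel_right]
  have h6 : F.focalSubgroup ≤ h1.pre ⊥ := focal_le_iff.2 fun P f hf x hx => by
    obtain ⟨α, hα, e⟩ := normal_top_iff.1 hN P f hf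
    refine ⟨mul_mem (inv_mem (hf.le hx)) (hf.mem hx), ?_⟩
    show t _ = 1
    rw [h1.inv_mul (hf.le hx) (hf.mem hx), ← e x hx, h5 (norm_inn S _) x (hf.le hx) (hB x (hf.le hx)) α hα,
      inv_mul_cancel]
  refine ⟨le_bot_iff.1 fun z hz => ?_, le_antisymm (sup_le (center_le F) (focal_le F)) fun z hz => ?_⟩
  · have hz' := center_le F hz.1
    have h7 := h4 ⊥ z hz' fun α hα => by
      rw [central_fix (center_central F) ((mem_aut le_rfl).1 hα) hz' hz.1, inv_mul_cancel]; exact one_mem _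
    obtain ⟨m, hm⟩ := exists_pow_inv hn hS hz'
    rw [show t z = 1 from (h6 hz.2).2, mul_one, inv_mem_iff] at h7
    exact hm ▸ pow_mem h7 m
  · have h7 := h4 F.focalSubgroup z hz fun α hα => mem_focal ((mem_aut le_rfl).1 hα) hz
    have h8 : t z ∈ F.center := le_center (central_of_fix hS hF (Subgroup.zpowers_le.2 (h2 z)) fun P f hf x hx hz' => by
      obtain ⟨α, hα, e⟩ := normal_top_iff.1 hN P f hf
      obtain ⟨n, rfl⟩ := hz'
      rw [← e _ hx, (homOn_act α).zpow (h2 z), h3 z hz (hB z hz) α hα]) (Subgroup.mem_zpowers _)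
    obtain ⟨m, hm⟩ := exists_pow_inv hn hS hz
    have := mul_mem (Subgroup.mem_sup_left (T := F.focalSubgroup) h8) (inv_mem (Subgroup.mem_sup_right h7))
    rw [mul_inv_rev, inv_inv, mul_inv_cancel_left] at this
    exact hm ▸ pow_mem this m

end Cfsg.Agent.S5330
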