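import Cfsg.Statements.S5600
import Cfsg.Agent.Lib.Spor.M24Iso
import Cfsg.Agent.Lib.Spor.CGLin2

set_option autoImplicit false
open scoped Pointwise
open Cfsg

namespace Cfsg.Agent.S5600

open Cfsg CA.NatBits CA.OrbBfs CA.CGroup CA.CGConstr CA.CGParts CA.CGCert CA.CGRank CA.CGDec CA.Perm24 CA.Golay
open CA.M24Core CA.M24Sub CA.M24Tools MulAction
open scoped Pointwise
open CA.M24St2 CA.M24Syl CA.M24Cls CA.CGIso CA.CGLin CA.CGLin2 CA.M24Iso
set_option maxRecDepth 100000

theorem six_std {E : Finset GolayPt} (hE : E.card = 6) :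
    (∃ g : M24, g • ds 16431 = E) ∨ ∃ g : M24, g • ds H6 = E := by
  obtain ⟨p, hp⟩ := Finset.card_pos.1 (show 0 < E.card by omega)
  have h5 : (E.erase p).card = 5 := by rw [Finset.card_erase_of_mem hp, hE]
  obtain ⟨o, ho, h⟩ := exists_octad h5.le
  by_cases hpo : p ∈ o
  · obtain ⟨g, -, e⟩ := flag_Os ho (t := ds 16431) (u := E) (by rw [hE, card_ds (by decide)]; decide)
      (by rw [card_ds (by decide)]; decide) (gE.ds_subset_of (by decide))
      (by rw [← Finset.insert_erase hp]; exact Finset.insert_subset hpo h)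
    exact Or.inl ⟨g, e⟩
  · obtain ⟨g, -, e1, e⟩ := flag_Oc1i ho hpo (xs := [some 0, some 1, some 2, some 3, some 5]) (ys := (E.erase p).toList)
      (by decide) (Finset.nodup_toList _) (by rw [Finset.length_toList, h5]; rfl) (by decide) (by decide)
      (fun y hy => h (Finset.mem_toList.1 hy))
    refine Or.inr ⟨g, ?_⟩
    rw [← Finset.insert_erase hp, ← Finset.toList_toFinset (E.erase p), ← e, ← e1,
      show ds H6 = insert (some 4) [some 0, some 1, some 2, some 3, some 5].toFinset by decide]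
    simp [Finset.smul_finset_insert]

theorem card16 : Nat.card (fixingSubgroup M24 (ds 16431 : Set GolayPt)) = 16 := by
  have h1 := lowc_spec (A := mPt) (xs := [0, 1, 2, 3, 5, 14].map gpt) (L := [(0, [[3, 0, 3, 3], [1, 3]]), (1, [[3, 0, 2, 0, 2, 2], [1, 2, 0, 3]]), (2, [[3, 1, 2, 2], [3, 0, 0, 3, 0, 3, 0, 3]]), (3, [[0, 2, 2, 1, 1, 1, 1], [1, 3, 1, 3, 1, 3, 1], [2, 2, 1]]), (5, [[0, 4, 3, 0, 5, 3], [5, 5, 2, 1], [0, 5, 5, 3, 5, 0, 2]]), (14, [])])
    (List.forall₂_map_right_iff.2 (List.forall₂_same.2 fun c hc => sPt' ((by decide : ∀ c ∈ [0, 1, 2, 3, 5, 14], c < 24) c hc)))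
    stO.inn (N := 20160) (by decide +kernel)
  rw [stO.card] at h1
  have hs : ds 16431 ⊆ ds O0 := gE.ds_subset_of (by decide)
  have h2 : fixingSubgroup M24 (ds 16431 : Set GolayPt) ≤ Fx (stabilizer M24 (ds O0)) ([0, 1, 2, 3, 5, 14].map gpt) :=
    fun g hg => mem_Fx.2 ⟨octad_eq_of_five ((smul_mem_octads g).2 O0_mem) O0_mem (le_trans
      (by rw [card_ds (by decide)]; decide) (Finset.card_le_card (Finset.subset_inter (by
        rw [← show g • ds 16431 = ds 16431 from fixing_le _ hg]; exact Finset.smul_finset_subset_smul_finset hs) hs))),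
      fun x hx => (mem_fixingSubgroup_iff _).1 hg x ((by decide : ∀ x ∈ [0, 1, 2, 3, 5, 14].map gpt, x ∈ ds 16431) x hx)⟩
  have h3 := Subgroup.card_le_of_le h2
  have h4 := Subgroup.card_le_of_le (fixingSubgroup_antitone M24 GolayPt (Finset.coe_subset.2 hs))
  rw [stE4.card] at h4
  omega

theorem card3 : Nat.card (fixingSubgroup M24 (ds H6 : Set GolayPt)) = 3 :=
  (stFix (l := [c3A]) H6 (by decide) [6, 7, 8, 9, 10, 11, 12, 13, 14, 15, 16, 17, 18, 19, 20, 21, 22, 23] [(6, [])]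
    (by decide +kernel)).card

theorem mtH : MT (stabilizer M24 (ds H6)) (ds H6 : Set GolayPt) 6 :=
  mtM stH6.inn (by decide) le_rfl [(0, [[1, 3, 1, 2, 0, 2], [0, 0, 3, 0, 2]]), (1, [[1, 3, 3, 1, 2, 0], [1, 1, 3, 3, 1, 2], [3, 3, 0]]), (2, [[5, 3, 1, 3], [3, 0, 4, 0], [2, 5, 2]]), (3, [[1, 2, 2, 4, 2, 1], [1, 3, 4, 1, 3]]), (4, [[1, 2, 0, 3]]), (5, [])]
    (by decide +kernel)

theorem umbral : ¬ ∃ o ∈ octads, ds H6 ⊆ o := by
  rintro ⟨o, ho, h⟩
  obtain ⟨m, hm, -, rfl⟩ := exists_of_octad ho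
  have h1 := allL_iff.1 (by decide +kernel : allL octL (fun m => !(Nat.beq (Nat.land H6 m) H6)) = true) m hm
  rw [(gE.ds_subset_iff (by decide)).1 h] at h1
  simp at h1

theorem perm_of {K : Subgroup M24} {s : Finset GolayPt} (h : MT K (s : Set GolayPt) 6) (g : M24) (hs : (g • s).card = 6)
    (σ : Equiv.Perm ↥(g • s)) : ∃ k ∈ M24, ∀ p : ↥(g • s), k p = σ p := by
  have h1 := h.conj (K := K.map (MulAut.conj g).toMonoidHom) (g := g) fun x =>
    Subgroup.mem_map_iff_mem (MulAut.conj g).injective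
  rw [← Finset.coe_smul_finset] at h1
  obtain ⟨k, -, e⟩ := MT.perm h1 hs σ
  exact ⟨k, k.2, e⟩

/-- Although the group of the length-24 code is only 5-transitive on the 24 points, it induces the full symmetric group on every 6-element subset: every permutation of a 6-set E is the restriction of an element of the group mapping E to itself. The pointwise stabiliser of E has order 16 when E lies in an octad and order 3 otherwise; in the latter case the setwise stabiliser of E has order 2160. -/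
theorem result (E : Finset Cfsg.GolayPt) (hE : E.card = 6) : (∀ σ : Equiv.Perm ↥E, ∃ g ∈ Cfsg.M24, ∀ p : ↥E, g p = σ p) ∧ ((∃ o ∈ Cfsg.octads, E ⊆ o) → Nat.card {g : Equiv.Perm Cfsg.GolayPt // g ∈ Cfsg.M24 ∧ ∀ p ∈ E, g p = p} = 16) ∧ ((¬ ∃ o ∈ Cfsg.octads, E ⊆ o) → Nat.card {g : Equiv.Perm Cfsg.GolayPt // g ∈ Cfsg.M24 ∧ ∀ p ∈ E, g p = p} = 3 ∧ Nat.card ↥(MulAction.stabilizer Cfsg.M24 E) = 2160) := by
  rw [card_fixing]
  rcases six_std hE with ⟨g, rfl⟩ | ⟨g, rfl⟩
  · refine ⟨perm_of (MT.sub mtO (Finset.coe_subset.2 (gE.ds_subset_of (by decide)))) g hE,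
      fun _ => (conjTo_fix g _).card_eq.trans card16, fun h => absurd ⟨g • ds O0, (smul_mem_octads g).2 O0_mem,
        Finset.smul_finset_subset_smul_finset (gE.ds_subset_of (by decide))⟩ h⟩
  · refine ⟨perm_of mtH g hE, fun h => absurd ((exists_octad_smul g fun o => ?_).1 h) umbral,
      fun _ => ⟨(conjTo_fix g _).card_eq.trans card3, (conjTo_stabilizer g _).card_eq.trans stH6.card⟩⟩
    exact Finset.smul_finset_subset_smul_finset_iff

end Cfsg.Agent.S5600
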