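import Cfsg.Statements.S5521
import Cfsg.Agent.Lib.Spor.M24Iso
import Cfsg.Agent.Lib.Spor.CGLin2
import Cfsg.Agent.S5600

set_option autoImplicit false
open Cfsg

namespace Cfsg.Agent.S5521

open Cfsg CA.NatBits CA.OrbBfs CA.CGroup CA.CGConstr CA.CGParts CA.CGCert CA.CGRank CA.CGDec CA.Perm24 CA.Golay
open CA.M24Core CA.M24Sub CA.M24Tools MulAction
open scoped Pointwise
open CA.M24St2 CA.M24Syl CA.M24Cls CA.CGIso CA.CGLin CA.CGLin2 CA.M24Iso
set_option maxRecDepth 100000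

/-- The Mathieu group M₂₄ in its natural action on the 24 coordinate positions of the binary Golay code has minimal base size exactly 7: every set of at most 6 positions is fixed pointwise by some non-identity element of M₂₄, while some set of 7 positions is fixed pointwise only by the identity. -/
theorem result :
    (∀ B : Finset Cfsg.GolayPt, B.card ≤ 6 → ∃ g ∈ Cfsg.M24, g ≠ 1 ∧ ∀ b ∈ B, g b = b) ∧
    (∃ B : Finset Cfsg.GolayPt, B.card = 7 ∧ ∀ g ∈ Cfsg.M24, (∀ b ∈ B, g b = b) → g = 1) := by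
  refine ⟨fun B hB => ?_, ds 4197158, by rw [card_ds (by decide)]; decide, fun g hg h => congrArg Subtype.val
    (eq_one_of_ubd [0, 3, 4, 6, 7, 10, 12, 13, 14, 15, 16, 17, 18, 19, 20, 21, 23] (m := 4197158) (by decide)
      (by decide +kernel) (g := ⟨g, hg⟩) h)⟩
  obtain ⟨E, hE, h6⟩ := Finset.exists_superset_card_eq hB (by rw [card_GolayPt]; norm_num)
  obtain ⟨-, h1, h2⟩ := Cfsg.Agent.S5600.result E h6
  have h3 : 1 < Nat.card {g : Equiv.Perm GolayPt // g ∈ M24 ∧ ∀ p ∈ E, g p = p} := by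
    by_cases h : ∃ o ∈ octads, E ⊆ o
    · rw [h1 h]; norm_num
    · rw [(h2 h).1]; norm_num
  have := Finite.one_lt_card_iff_nontrivial.1 h3
  obtain ⟨g, hg⟩ := exists_ne (⟨1, one_mem _, fun _ _ => rfl⟩ : {g : Equiv.Perm GolayPt // g ∈ M24 ∧ ∀ p ∈ E, g p = p})
  exact ⟨g, g.2.1, fun e => hg (Subtype.ext e), fun b hb => g.2.2 b (hE hb)⟩

end Cfsg.Agent.S5521
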