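import Cfsg.Statements.S5562
import Cfsg.Agent.Lib.Spor.Tr3Block
import Cfsg.Agent.Lib.Grp.H13Inv

set_option autoImplicit false
open Cfsg

namespace Cfsg.Agent.S5562

/-- Let G be a finite group, d an involution of G whose conjugates pairwise have products of odd order, and x any involution of G. Then the conjugacy class of d is the disjoint union, over the conjugates a of d commuting with x, of the sets of conjugates of d commuting with ax: every conjugate of d commutes with ax for exactly one conjugate a of d that commutes with x. -/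
theorem result {G : Type*} [Group G] [Finite G] (d : G) (hd : orderOf d = 2)
    (hodd : ∀ a ∈ conjugatesOf d, ∀ b ∈ conjugatesOf d, Odd (orderOf (a * b)))
    (x : G) (hx : orderOf x = 2) :
    ∀ e ∈ conjugatesOf d,
      ∃! a : G, a ∈ conjugatesOf d ∧ Commute a x ∧ Commute e (a * x) := by
  open CA CA.Tr3Basic in
  intro e he
  have sq : ∀ a ∈ conjugatesOf d, a * a = 1 := fun a ha =>
    mul_self_of_orderOf ((H13Inv.orderOf_eq_of_isConj ha).symm.trans hd)
  have cj : ∀ g : G, ∀ a ∈ conjugatesOf d, g * a * g⁻¹ ∈ conjugatesOf d := fun g a ha =>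
    IsConj.trans ha (isConj_iff.2 ⟨g, rfl⟩)
  have x2 := mul_self_of_orderOf hx
  have e2 := sq e he
  have hn : Odd (orderOf ((e * x) ^ 2)) := by
    have := hodd e he _ (cj x e he)
    rwa [inv_of_mul_self x2, show e * (x * e * x) = (e * x) ^ 2 by simp [pow_two, mul_assoc]] at this
  set n := orderOf ((e * x) ^ 2) with hndef
  have z2 : (e * x) ^ n * (e * x) ^ n = 1 := by
    rw [← pow_two, ← pow_mul, mul_comm n 2, pow_mul, hndef, pow_orderOf_eq_one]
  have ze : Commute e ((e * x) ^ n) := by
    have := H13Inv.mul_prod_zpow e2 x2 n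
    rw [zpow_neg, zpow_natCast, inv_of_mul_self z2] at this
    exact this
  have zx : Commute x ((e * x) ^ n) := by
    rw [← cancel_left e2 x, cancel_left e2 x]
    nth_rewrite 1 [← cancel_left e2 x]
    exact ze.mul_left (Commute.self_pow _ _)
  refine ⟨(e * x) ^ n * x, ⟨?_, zx.symm.mul_left (Commute.refl x), by rw [cancel_right x2]; exact ze⟩, ?_⟩
  · obtain ⟨k, hk⟩ := hn
    have := cj ((e * x) ^ (k : ℤ)) e he
    rw [H13Inv.zpow_conj_left e2 x2] at this
    rw [hk, pow_succ, mul_assoc, cancel_right x2]
    exact_mod_cast this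
  · rintro a ⟨ha, hax, hea⟩
    have a2 := sq a ha
    have w2 : (a * x) ^ 2 = 1 := sq_of_commute a2 x2 hax
    have hcm : Commute (e * a) (a * x) := hea.mul_left ((Commute.refl a).mul_right hax)
    have hex : e * x = e * a * (a * x) := by rw [mul_assoc, cancel_left a2]
    have ho := hodd e he a ha
    have hn' : n = orderOf (e * a) := by
      rw [hndef, hex, hcm.mul_pow, w2, mul_one]
      exact ho.coprime_two_right.orderOf_pow
    obtain ⟨k, hk⟩ := hn
    rw [hex, hcm.mul_pow, hn', pow_orderOf_eq_one, one_mul, ← hn', hk, pow_succ, pow_mul, w2, one_pow, one_mul,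
      cancel_right x2]

end Cfsg.Agent.S5562
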