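import Cfsg.Statements.S5945
import Cfsg.Agent.Lib.Perm.SymIdx

set_option autoImplicit false
open Cfsg

namespace Cfsg.Agent.S5945

/-- The symmetric group S_6 has exactly 12 subgroups of index 6; each of them is isomorphic to S_5, and at least one of them is not the stabilizer of any point. -/
theorem result : Nat.card {H : Subgroup (Equiv.Perm (Fin 6)) // H.index = 6} = 12 ∧ (∀ H : Subgroup (Equiv.Perm (Fin 6)), H.index = 6 → Nonempty (H ≃* Equiv.Perm (Fin 5))) ∧ ∃ H : Subgroup (Equiv.Perm (Fin 6)), H.index = 6 ∧ ∀ a : Fin 6, H ≠ MulAction.stabilizer (Equiv.Perm (Fin 6)) a := by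
  obtain ⟨θ, h1, h2⟩ := CA.SymIdx.six (Ω := Fin 6) (by simp)
  have hi : ∀ x : Fin 6, (MulAction.stabilizer (Equiv.Perm (Fin 6)) x).index = 6 := fun x => by
    simpa using CA.SymIdx.index_stab x
  have hi' : ∀ x : Fin 6,
      ((MulAction.stabilizer (Equiv.Perm (Fin 6)) x).map θ.toMonoidHom).index = 6 := fun x => by
    rw [MulEquiv.toMonoidHom_eq_coe, Subgroup.index_map_equiv, hi]
  have he : ∀ x : Fin 6,
      Nonempty (MulAction.stabilizer (Equiv.Perm (Fin 6)) x ≃* Equiv.Perm (Fin 5)) := fun x => by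
    obtain ⟨e⟩ := CA.SymIdx.stab_equiv x
    exact ⟨e.trans (Fintype.equivFinOfCardEq (by simp)).permCongrHom⟩
  refine ⟨?_, fun H hH => ?_, _, hi' 0, h1 0⟩
  · let F : Fin 6 ⊕ Fin 6 → {H : Subgroup (Equiv.Perm (Fin 6)) // H.index = 6} :=
      Sum.elim (fun x => ⟨_, hi x⟩) (fun x => ⟨_, hi' x⟩)
    have hF : Function.Bijective F := by
      constructor
      · rintro (x | x) (y | y) h
        · rw [CA.SymIdx.stab_inj (by simp) (congrArg Subtype.val h)]
        · exact absurd (congrArg Subtype.val h).symm (h1 _ _)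
        · exact absurd (congrArg Subtype.val h) (h1 _ _)
        · rw [CA.SymIdx.stab_inj (by simp)
            (Subgroup.map_injective θ.injective (congrArg Subtype.val h))]
      · rintro ⟨H, hH⟩
        obtain ⟨x, rfl | rfl⟩ := h2 H hH
        · exact ⟨Sum.inl x, rfl⟩
        · exact ⟨Sum.inr x, rfl⟩
    rw [← Nat.card_eq_of_bijective F hF]
    simp
  · obtain ⟨x, rfl | rfl⟩ := h2 H hH
    · exact he x
    · exact ⟨(θ.subgroupMap _).symm.trans (he x).some⟩

end Cfsg.Agent.S5945
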