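import Cfsg.Statements.S5712
import Cfsg.Agent.Lib.Lin.MaxQ5
import Cfsg.Agent.Lib.Lin.Wall2
import Cfsg.Agent.Lib.Grp.Core
import Cfsg.Agent.Lib.Perm.SymIdx
import Cfsg.Agent.S0247
import Cfsg.Agent.S5945

set_option autoImplicit false
open Cfsg

namespace Cfsg.Agent.S5712

open CA.CForm CA.CForm.Form CA.MaxQ3 Module Matrix in
/-- Let F be a finite field of characteristic two, n ≥ 2, V = F^{2n} with the non-degenerate alternating form f(u, v) = Σ (u_i v_{n+i} + u_{n+i} v_i), and G the group of invertible matrices preserving f. Let a ≠ 0 be a vector, H its stabilizer in G, and X a subgroup of O₂(H) of order |F|^{2n−2} no element of which is a transvection (no element g has g − 1 of rank one). If L is a subgroup of G containing X that acts irreducibly on V (no proper non-zero L-invariant subspace), then L = G, or, for some quadratic form Q on V whose polar form is f, L is the isometry group of Q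 or its subgroup of the isometries g for which g − 1 has even rank, or |F| = 2, n = 2 and L is isomorphic to the alternating group of degree 6 or to the symmetric group of degree 5. -/
theorem result {F : Type*} [Field F] [Fintype F] [CharP F 2] {n : ℕ} (hn : 2 ≤ n) (a : (Fin n ⊕ Fin n → F)) (ha : a ≠ 0)
    (X : Subgroup (GL (Fin n ⊕ Fin n) F)) (hXG : X ≤ Cfsg.preserving (Units.coeHom (Matrix (Fin n ⊕ Fin n) (Fin n ⊕ Fin n) F)) (fun u v : (Fin n ⊕ Fin n → F) => ∑ i : Fin n, (u (Sum.inl i) * v (Sum.inr i) + u (Sum.inr i) * v (Sum.inl i))))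
    (hXO : ∀ H : Subgroup (GL (Fin n ⊕ Fin n) F),
      (∀ g : GL (Fin n ⊕ Fin n) F, g ∈ H ↔ (g ∈ Cfsg.preserving (Units.coeHom (Matrix (Fin n ⊕ Fin n) (Fin n ⊕ Fin n) F)) (fun u v : (Fin n ⊕ Fin n → F) => ∑ i : Fin n, (u (Sum.inl i) * v (Sum.inr i) + u (Sum.inr i) * v (Sum.inl i))) ∧ Matrix.mulVec (g : Matrix (Fin n ⊕ Fin n) (Fin n ⊕ Fin n) F) a = a)) →
      X ≤ (Cfsg.pCore 2 ↥H).map H.subtype)
    (hcard : Nat.card ↥X = Fintype.card F ^ (2 * n - 2))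
    (hntv : ∀ x ∈ X, ((x : Matrix (Fin n ⊕ Fin n) (Fin n ⊕ Fin n) F) - 1).rank ≠ 1)
    (L : Subgroup (GL (Fin n ⊕ Fin n) F)) (hXL : X ≤ L) (hLG : L ≤ Cfsg.preserving (Units.coeHom (Matrix (Fin n ⊕ Fin n) (Fin n ⊕ Fin n) F)) (fun u v : (Fin n ⊕ Fin n → F) => ∑ i : Fin n, (u (Sum.inl i) * v (Sum.inr i) + u (Sum.inr i) * v (Sum.inl i))))
    (hirr : ∀ W : Submodule F (Fin n ⊕ Fin n → F), (∀ g ∈ L, ∀ w ∈ W, Matrix.mulVec (g : Matrix (Fin n ⊕ Fin n) (Fin n ⊕ Fin n) F) w ∈ W) → W = ⊥ ∨ W = ⊤) :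
    L = Cfsg.preserving (Units.coeHom (Matrix (Fin n ⊕ Fin n) (Fin n ⊕ Fin n) F)) (fun u v : (Fin n ⊕ Fin n → F) => ∑ i : Fin n, (u (Sum.inl i) * v (Sum.inr i) + u (Sum.inr i) * v (Sum.inl i))) ∨
    (∃ Q : QuadraticForm F (Fin n ⊕ Fin n → F), (∀ u v, QuadraticMap.polar ⇑Q u v = (fun u v : (Fin n ⊕ Fin n → F) => ∑ i : Fin n, (u (Sum.inl i) * v (Sum.inr i) + u (Sum.inr i) * v (Sum.inl i))) u v) ∧
      (L = Cfsg.isometryGroup F ⇑Q ∨
        ∀ g : GL (Fin n ⊕ Fin n) F, g ∈ L ↔ (g ∈ Cfsg.isometryGroup F ⇑Q ∧ Even ((g : Matrix (Fin n ⊕ Fin n) (Fin n ⊕ Fin n) F) - 1).rank))) ∨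
    (Fintype.card F = 2 ∧ n = 2 ∧ (Nonempty (↥L ≃* ↥(alternatingGroup (Fin 6))) ∨ Nonempty (↥L ≃* Equiv.Perm (Fin 5)))) := by
  have h2 : (2 : F) = 0 := CharTwo.two_eq_zero
  have hform : ∀ u v : (Fin n ⊕ Fin n → F), ∑ i : Fin n, (u (Sum.inl i) * v (Sum.inr i) +
      u (Sum.inr i) * v (Sum.inl i)) = (sympStd F n).B u v := by
    intro u v
    rw [sympStd_B, sympForm_eq]
    exact Finset.sum_congr rfl fun i _ => by
      linear_combination (u (Sum.inl i) * v (Sum.inr i)) * h2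
  simp only [hform] at hXG hXO hLG ⊢
  clear hform
  have hf := sympStd_nondeg F n
  generalize hf' : sympStd F n = f at *
  have hdim : finrank F (Fin n ⊕ Fin n → F) = 2 * n := by simp; omega
  let ι : f.Isom →* GL (Fin n ⊕ Fin n) F := glEquiv.symm.toMonoidHom.comp f.Isom.subtype
  have ι1 : ∀ e v, (ι e : Matrix _ _ F) *ᵥ v = e.1 v := fun e v => glEquiv_symm_mulVec _ v
  have ι2 : Function.Injective ι := glEquiv.symm.injective.comp Subtype.val_injective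
  have ι3 : ∀ g, g ∈ Cfsg.preserving (Units.coeHom (Matrix (Fin n ⊕ Fin n) (Fin n ⊕ Fin n) F))
      (fun u v => f.B u v) ↔ g ∈ ι.range := fun g =>
    ⟨fun h => ⟨⟨glEquiv g, f.symp_mem_Isom.2 h⟩, glEquiv.symm_apply_apply g⟩, by
      rintro ⟨e, rfl⟩ u v
      change f.B ((ι e : Matrix _ _ F) *ᵥ u) ((ι e : Matrix _ _ F) *ᵥ v) = _
      rw [ι1, ι1, B_coe_map]⟩
  have eqv : ∀ Y : Subgroup (GL (Fin n ⊕ Fin n) F), Y ≤ ι.range → Nonempty (Y.comap ι ≃* Y) :=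
    fun Y hY => ⟨((Y.comap ι).equivMapOfInjective ι ι2).trans
      (MulEquiv.subgroupCongr (Subgroup.map_comap_eq_self hY))⟩
  let H := ι.range ⊓ MulAction.stabilizer (GL (Fin n ⊕ Fin n) F) a
  have hH : ∀ e : f.Isom, ι e ∈ H ↔ e.1 a = a := fun e =>
    ⟨fun h => (ι1 e a).symm.trans h.2, fun h => ⟨⟨e, rfl⟩, (ι1 e a).trans h⟩⟩
  have hP : ((Cfsg.pCore 2 H).map H.subtype).comap ι ≤ f.Qgrp a :=
    le_Qgrp hf h2 (by omega) ha ((CA.Core.isPGroup_map_pCore H).comap_of_injective ι ι2)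
      (fun p hp => (hH p).1 (Subgroup.map_subtype_le _ hp)) fun g hg p hp => by
        rw [Subgroup.mem_comap, map_mul, map_mul, map_inv]
        exact (Subgroup.mem_normalizer_iff''.1
          (CA.Core.le_normalizer_map_pCore H ((hH g).2 hg)) _).1 hp
  obtain ⟨eX⟩ := eqv X fun g hg => (ι3 g).1 (hXG hg)
  have hlev := lev_of_card hf h2 ha ((Subgroup.comap_mono (hXO H fun g => by
      rw [ι3]; rfl)).trans hP)
    (by rw [Nat.card_congr eX.toEquiv, hcard, hdim, Nat.card_eq_fintype_card])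
    fun g hg => by rw [← rank_sub_one_eq g _ fun v => (ι1 g v).symm]; exact hntv _ hg
  have hL : L ≤ ι.range := fun g hg => (ι3 g).1 (hLG hg)
  rcases main (L := L.comap ι) hf h2 (by omega) (fun W hW => hirr W fun g hg w hw => by
      obtain ⟨e, rfl⟩ := hL hg
      rw [ι1]; exact hW e hg w hw) ha (fun w hw => by
      obtain ⟨c, h0, g, hg, e⟩ := hlev w hw
      exact ⟨c, h0, g, hXL hg, e⟩) with h | ⟨φ, e, h1, h⟩ | ⟨hq, h4, hc⟩
  · refine .inl (le_antisymm hLG fun g hg => ?_)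
    obtain ⟨e, rfl⟩ := (ι3 g).1 hg
    exact (h ▸ Subgroup.mem_top e : e ∈ L.comap ι)
  · have k1 : ∀ g ∈ L, g ∈ Cfsg.isometryGroup F φ.toQuad := fun g hg u _ => by
      obtain ⟨t, rfl⟩ := hL hg
      change φ.Q ((ι t : Matrix _ _ F) *ᵥ u) = φ.Q u
      rw [ι1, φ.Q_map (h1 t hg)]
    have k2 : ∀ g ∈ Cfsg.isometryGroup F φ.toQuad, glEquiv g ∈ φ.Isom := fun g hg =>
      have q : ∀ u, φ.Q (glEquiv g u) = φ.Q u := fun u => hg u u
      ⟨fun x y => by rw [orth_B_eq, orth_B_eq, ← map_add, q, q, q], q⟩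
    have k3 : ∀ g hg, (∃ t ∈ L.comap ι, t.1 = (⟨_, k2 g hg⟩ : φ.Isom).1) ↔ g ∈ L := fun g hg =>
      ⟨fun ⟨t, ht, e⟩ => by
        rwa [show g = ι t from glEquiv.symm_apply_eq.2 e |>.symm], fun hg' => by
        obtain ⟨t, rfl⟩ := hL hg'
        exact ⟨t, hg', (glEquiv.apply_symm_apply _).symm⟩⟩
    refine .inr (.inl ⟨φ.toQuad, fun u v => by rw [polar_toQuad, e], h.imp (fun h =>
      le_antisymm k1 fun g hg => (k3 g hg).1 (h _)) fun h g => ?_⟩)
    have k4 : ∀ hg, ((g : Matrix _ _ F) - 1).rank = finrank F (φ.commSub ⟨_, k2 g hg⟩) :=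
      fun hg => rank_sub_one_eq _ _ fun v => rfl
    exact ⟨fun hg => ⟨k1 g hg, k4 (k1 g hg) ▸ (h _).1 ((k3 g (k1 g hg)).2 hg)⟩,
      fun ⟨hg, he⟩ => (k3 g hg).1 ((h _).2 (k4 hg ▸ he))⟩
  obtain rfl : n = 2 := by omega
  subst hf'
  rw [Nat.card_eq_fintype_card] at hq
  obtain ⟨σ⟩ := Cfsg.Agent.S0247.result hq
  obtain ⟨eL⟩ := eqv L hL
  let τ := (spEquiv F 2).symm.trans σ
  let K := (L.comap ι).map τ.toMonoidHom
  have eK : L ≃* K := eL.symm.trans ((L.comap ι).equivMapOfInjective _ τ.injective)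
  by_cases hT : K = ⊤
  · refine .inl (le_antisymm hLG fun g hg => ?_)
    obtain ⟨e, rfl⟩ := (ι3 g).1 hg
    obtain ⟨t, ht, e'⟩ : τ e ∈ K := hT ▸ Subgroup.mem_top _
    exact τ.injective e' ▸ ht
  refine .inr (.inr ⟨hq, rfl, ?_⟩)
  by_cases hA : K = alternatingGroup (Fin 6)
  · exact .inl ⟨eK.trans (MulEquiv.subgroupCongr hA)⟩
  have i1 := CA.SymIdx.le_index (by simp) K hT hA
  have i2 := K.index_mul_card
  rw [← Nat.card_congr eK.toEquiv, ← Nat.card_congr eL.toEquiv, Nat.card_perm, Nat.card_fin] at i2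
  rw [Fintype.card_fin] at i1
  obtain ⟨ρ⟩ := Cfsg.Agent.S5945.result.2.1 K (by
    have : Nat.factorial 6 = 720 := rfl
    nlinarith)
  exact .inr ⟨eK.trans ρ⟩

end Cfsg.Agent.S5712
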