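import Cfsg.Statements.S5713
import Mathlib
import Cfsg.Agent.Lib.Perm.MinDeg

set_option autoImplicit false
open Cfsg

namespace Cfsg.Agent.S5713

/-- A classification-free minimal-degree bound. Let G be a finite group acting faithfully and primitively on a finite set Ω with n elements, and suppose that the image of G in the symmetric group on Ω does not contain the alternating group on Ω. Then every non-identity element of G moves at least (√n − 1)/2 points of Ω, that is, it fixes at most n − (√n − 1)/2 points. -/
theorem result {G Ω : Type*} [Group G] [Finite G] [MulAction G Ω] [FaithfulSMul G Ω] [Fintype Ω] [DecidableEq Ω]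
    (hprim : MulAction.IsPreprimitive G Ω)
    (hA : ¬ alternatingGroup Ω ≤ (MulAction.toPermHom G Ω).range)
    (g : G) (hg : g ≠ 1) :
    (Real.sqrt (Fintype.card Ω) - 1) / 2 ≤ (Fintype.card Ω : ℝ) - Nat.card (MulAction.fixedBy Ω g) := by
  have h1 := CA.MinDeg.babai hprim hA hg
  have h2 := Finset.card_filter_add_card_filter_not (s := Finset.univ) fun x : Ω => g • x = x
  have h3 : Nat.card (MulAction.fixedBy Ω g) = (Finset.univ.filter fun x : Ω => g • x = x).card := by
    simp [Nat.card_eq_card_toFinset, MulAction.fixedBy]
  rw [← Finset.card_univ, ← h2] at h1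
  rw [h3, ← Finset.card_univ, ← h2, div_le_iff₀ two_pos, sub_le_iff_le_add, Nat.cast_add, add_sub_cancel_left,
    Real.sqrt_le_left (by positivity)]
  exact_mod_cast h1

end Cfsg.Agent.S5713
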