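import Cfsg.Statements.S5722
import Cfsg.Agent.Lib.Grp.H7Len3

set_option autoImplicit false
open Cfsg

namespace Cfsg.Agent.S5722

open CA.H7Len MulAction Subgroup

universe u

/-- the bound for all (not necessarily faithful) actions on `n` points -/
def NF (n : ℕ) : Prop := ∀ (G Ω : Type u) [Group G] [Finite G] [MulAction G Ω] [Finite Ω],
  Nat.card Ω = n → ∀ l, Ch (toPermHom G Ω).ker ⊤ l →
    3 * l + 4 * Nat.card (Quotient (orbitRel G Ω)) ≤ 4 * n

theorem ker_bot {G Ω : Type*} [Group G] [MulAction G Ω] (h : ∀ g : G, (∀ x : Ω, g • x = x) → g = 1) :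
    (toPermHom G Ω).ker = ⊥ := by
  rw [eq_bot_iff]
  intro g hg
  exact h g fun x => congrFun (congrArg DFunLike.coe (MonoidHom.mem_ker.mp hg)) x

theorem orb_pos (G Ω : Type*) [Group G] [MulAction G Ω] [Finite Ω] [h : Nonempty Ω] :
    0 < Nat.card (Quotient (orbitRel G Ω)) := by
  haveI : Nonempty (Quotient (orbitRel G Ω)) := h.map Quotient.mk''
  exact Nat.card_pos

theorem intrans {n : ℕ} (IH : ∀ m < n, NF.{u} m) (G Ω : Type u) [Group G] [Finite G]
    [MulAction G Ω] [Finite Ω] (hf : ∀ g : G, (∀ x : Ω, g • x = x) → g = 1) (hn : Nat.card Ω = n)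
    {a b : Ω} (hab : b ∉ orbit G a) {l : ℕ} (c : Ch (⊥ : Subgroup G) ⊤ l) :
    3 * l + 4 * Nat.card (Quotient (orbitRel G Ω)) ≤ 4 * n := by
  classical
  let D : SubMulAction G Ω := ⟨orbit G a, fun g {x} hx => mem_orbit_of_mem_orbit g hx⟩
  let E : SubMulAction G Ω := ⟨(orbit G a)ᶜ, fun g {x} hx h => hx (by
    have := mem_orbit_of_mem_orbit g⁻¹ h
    rwa [inv_smul_smul] at this)⟩
  have hsum : Nat.card D + Nat.card E = n := by
    rw [← hn]
    exact Set.ncard_add_ncard_compl (orbit G a)
  haveI : Nonempty D := ⟨⟨a, mem_orbit_self a⟩⟩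
  haveI : Nonempty E := ⟨⟨b, hab⟩⟩
  have hD : 0 < Nat.card D := Nat.card_pos
  have hE : 0 < Nat.card E := Nat.card_pos
  set K := (toPermHom G D).ker with hK
  obtain ⟨l1, l2, hl, c1, c2⟩ := c.split (N := K) le_normalizer_of_normal
  rw [bot_inf_eq, top_inf_eq] at c1
  rw [bot_sup_eq, top_sup_eq] at c2
  have i1 := IH _ (by omega) G D rfl l2 c2
  have i2 := IH _ (by omega) K E rfl l1 (by
    rw [ker_bot]
    · exact c1.sub
    · intro k hk
      refine Subtype.ext (hf k fun x => ?_)
      by_cases hx : x ∈ orbit G a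
      · have h3 : toPermHom G D k = 1 := MonoidHom.mem_ker.mp k.2
        have h4 : toPermHom G D k ⟨x, hx⟩ = ⟨x, hx⟩ := by rw [h3]; rfl
        exact congrArg Subtype.val h4
      · exact congrArg Subtype.val (hk ⟨x, hx⟩))
  have h1 := orb_pos G D
  have h2 : Nat.card (Quotient (orbitRel G Ω)) ≤
      Nat.card (Option (Quotient (orbitRel K E))) := by
    let f : Quotient (orbitRel K E) → Quotient (orbitRel G Ω) :=
      Quotient.map' (fun x : E => (x : Ω)) fun x y hxy => by
        obtain ⟨k, hk⟩ := orbitRel_apply.mp hxy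
        exact orbitRel_apply.mpr ⟨k, congrArg Subtype.val hk⟩
    refine Nat.card_le_card_of_surjective
      (fun o => Option.elim o (Quotient.mk'' a) f) fun q => ?_
    induction q using Quotient.inductionOn' with
    | h x =>
      by_cases hx : x ∈ orbit G a
      · exact ⟨none, (Quotient.sound' (orbitRel_apply.mpr hx)).symm⟩
      · exact ⟨some (Quotient.mk'' ⟨x, hx⟩), rfl⟩
  rw [Finite.card_option] at h2
  omega

theorem faith {n : ℕ} (IH : ∀ m < n, NF.{u} m) (G Ω : Type u) [Group G] [Finite G]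
    [MulAction G Ω] [Finite Ω] (hf : ∀ g : G, (∀ x : Ω, g • x = x) → g = 1) (hn : Nat.card Ω = n)
    {l : ℕ} (c : Ch (⊥ : Subgroup G) ⊤ l) :
    3 * l + 4 * Nat.card (Quotient (orbitRel G Ω)) ≤ 4 * n := by
  classical
  by_cases ht : ∃ a b : Ω, b ∉ orbit G a
  · obtain ⟨a, b, hab⟩ := ht
    exact intrans IH G Ω hf hn hab c
  push Not at ht
  rcases isEmpty_or_nonempty Ω with hΩ | ⟨⟨a⟩⟩
  · have := c.eq_zero fun g _ => hf g fun x => isEmptyElim x
    have h0 : Nat.card (Quotient (orbitRel G Ω)) = 0 := Nat.card_of_isEmpty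
    omega
  haveI : Nonempty Ω := ⟨a⟩
  haveI : IsPretransitive G Ω := ⟨fun x y => ht x y⟩
  have hr : Nat.card (Quotient (orbitRel G Ω)) ≤ 1 := by
    haveI : Subsingleton (Quotient (orbitRel G Ω)) := ⟨fun x y => by
      induction x using Quotient.inductionOn'
      induction y using Quotient.inductionOn'
      exact Quotient.sound' (orbitRel_apply.mpr (ht _ _))⟩
    exact Finite.card_le_one_iff_subsingleton.mpr this
  suffices 3 * l + 4 ≤ 4 * n by omega
  set S := stabilizer G a with hS
  have hi : S.index = n := by rw [← hn]; exact index_stabilizer_of_transitive G a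
  have hcf : S.normalCore = ⊥ := by
    rw [eq_bot_iff]
    intro g hg
    refine hf g fun x => ?_
    obtain ⟨h, rfl⟩ := ht a x
    have : (h⁻¹ * g * h⁻¹⁻¹) • a = a := hg h⁻¹
    rw [inv_inv, mul_smul, mul_smul, inv_smul_eq_iff] at this
    exact this
  have IH1 : ∀ L : Subgroup G, L.index < S.index → ∀ l, Ch L.normalCore ⊤ l →
      3 * l + 4 ≤ 4 * L.index := by
    intro L hL l c
    rw [normalCore_eq_ker] at c
    have := IH L.index (hi ▸ hL) G (G ⧸ L) rfl l c
    have h1 := orb_pos G (G ⧸ L)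
    omega
  have hpos : 0 < n := by rw [← hn]; exact Nat.card_pos
  by_cases htop : S = ⊤
  · have := c.eq_zero (by rw [← hcf, htop]; exact normal_le_normalCore.mpr le_rfl)
    omega
  have sub : ∀ K : Subgroup G, ∀ g : K, (∀ x : Ω, g • x = x) → g = 1 := fun K g hg =>
    Subtype.ext (hf g hg)
  by_cases hco : IsCoatom S
  · rw [← hi]
    refine prim hco hcf ?_ IH1 (fun l c => ?_) c
    · have := card_dvd_of_injective (toPermHom G Ω)
        ((MonoidHom.ker_eq_bot_iff _).mp (ker_bot hf))
      rwa [Nat.card_perm, hn, ← hi] at this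
    · obtain ⟨g, hg⟩ : ∃ g, g ∉ S := by
        by_contra h; push Not at h; exact htop (eq_top_iff.mpr fun g _ => h g)
      have := intrans IH S Ω (sub S) hn (a := a) (b := g • a) (by
        rintro ⟨s, hs⟩
        exact hg (hs.symm.trans s.2)) c.sub
      have h1 := orb_pos S Ω
      omega
  obtain ⟨L, hSL, hL⟩ : ∃ L, S < L ∧ L ≠ ⊤ := by
    by_contra h; push Not at h; exact hco ⟨htop, h⟩
  have hlt : L.index < S.index := index_strictAnti hSL
  set K := L.normalCore with hK
  obtain ⟨l1, l2, hl, c1, c2⟩ := c.split (N := K) le_normalizer_of_normal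
  rw [bot_inf_eq, top_inf_eq] at c1
  rw [bot_sup_eq, top_sup_eq] at c2
  have i1 := IH1 L hlt l2 c2
  choose γ hγ using ht a
  have hφ : ∀ g : G, (γ (g • a) : G ⧸ L) = (g : G ⧸ L) := by
    intro g
    rw [QuotientGroup.eq]
    apply hSL.le
    change ((γ (g • a))⁻¹ * g) • a = a
    rw [mul_smul, inv_smul_eq_iff]
    exact (hγ _).symm
  have hinv : ∀ (k : K) (x : Ω), (γ (k • x) : G ⧸ L) = (γ x : G ⧸ L) := by
    intro k x
    have : k • x = ((k : G) * γ x) • a := by
      rw [mul_smul]; exact congrArg _ (hγ x).symm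
    rw [this, hφ, QuotientGroup.eq]
    have := (K.inv_mem k.2) (γ x)⁻¹
    simpa [mul_assoc] using this
  obtain ⟨g, hg⟩ : ∃ g, g ∉ L := by
    by_contra h; push Not at h; exact hL (eq_top_iff.mpr fun g _ => h g)
  have i2 := intrans IH K Ω (sub K) hn (a := (1 : G) • a) (b := g • a) (by
    rintro ⟨k, hk⟩
    have := hinv k ((1 : G) • a)
    change k • (1 : G) • a = _ at hk
    rw [hk, hφ, hφ, eq_comm, QuotientGroup.eq] at this
    exact hg (by simpa using this)) c1.sub
  have h2 : L.index ≤ Nat.card (Quotient (orbitRel K Ω)) := by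
    let f : Quotient (orbitRel K Ω) → G ⧸ L :=
      Quotient.lift (fun x : Ω => (γ x : G ⧸ L)) fun x y hxy => by
        obtain ⟨k, rfl⟩ := orbitRel_apply.mp hxy
        exact hinv k y
    refine Nat.card_le_card_of_surjective f fun q => ?_
    induction q using QuotientGroup.induction_on with
    | H g => exact ⟨Quotient.mk'' (g • a), hφ g⟩
  omega

theorem red {n : ℕ} {G : Type*} {Ω : Type u} [Group G] [Finite G] [MulAction G Ω] [Finite Ω]
    (IH : ∀ m < n, NF.{u} m) (hn : Nat.card Ω = n) {l : ℕ} (c : Ch (toPermHom G Ω).ker ⊤ l) :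
    3 * l + 4 * Nat.card (Quotient (orbitRel G Ω)) ≤ 4 * n := by
  have c1 := c.map (toPermHom G Ω) le_rfl
  rw [map_ker_self, ← MonoidHom.range_eq_map] at c1
  have := faith IH (toPermHom G Ω).range Ω (fun g hg => Subtype.ext (Equiv.ext hg)) hn c1.sub
  have e : orbitRel (toPermHom G Ω).range Ω = orbitRel G Ω := by
    ext x y
    rw [orbitRel_apply, orbitRel_apply]
    constructor
    · rintro ⟨⟨_, g, rfl⟩, hg⟩
      exact ⟨g, hg⟩
    · rintro ⟨g, hg⟩
      exact ⟨⟨_, g, rfl⟩, hg⟩
  rwa [e] at this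

theorem nf (n : ℕ) : NF.{u} n := by
  induction n using Nat.strong_induction_on with
  | _ n IH => exact fun G Ω _ _ _ _ hn l c => red IH hn c

/-- If a finite group G acts faithfully on a finite set with n points and r orbits, then the composition length of G is at most 4(n − r)/3. Here the composition length is expressed through chains: the conclusion bounds the length l of every chain of subgroups 1 = H₀ < H₁ < ⋯ < H_l = G in which each term is normal in the next (the longest such chains are exactly the composition series). -/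
theorem result {G Ω : Type*} [Group G] [Finite G] [MulAction G Ω] [FaithfulSMul G Ω] [Fintype Ω]
    (l : ℕ) (H : Fin (l + 1) → Subgroup G) (h0 : H 0 = ⊥) (hl : H (Fin.last l) = ⊤)
    (hchain : ∀ i : Fin l, H i.castSucc < H i.succ ∧ ((H i.castSucc).subgroupOf (H i.succ)).Normal) :
    3 * l ≤ 4 * (Fintype.card Ω - Nat.card (Quotient (MulAction.orbitRel G Ω))) := by
  have key : ∀ i : Fin (l + 1), Ch ⊥ (H i) i := by
    intro i
    induction i using Fin.induction with
    | zero => rw [h0]; exact Ch.refl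
    | succ i ih =>
      exact Ch.step ih (hchain i).1
        ((normal_subgroupOf_iff_le_normalizer (hchain i).1.le).mp (hchain i).2)
  have c := key (Fin.last l)
  rw [hl, ← ker_bot (G := G) (Ω := Ω) fun g hg => FaithfulSMul.eq_of_smul_eq_smul
    (α := Ω) fun x => by rw [hg, one_smul]] at c
  have := red (fun m _ => nf m) rfl c
  rw [Nat.card_eq_fintype_card (α := Ω)] at this
  simp only [Fin.val_last] at this
  omega

end Cfsg.Agent.S5722
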