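import Cfsg.Statements.S5729
import Mathlib
import Cfsg.Agent.Lib.Perm.Derange

set_option autoImplicit false
open Cfsg

namespace Cfsg.Agent.S5729

open MulAction CA.Derange CA.PermBasic CA.PermMulti

/-- Let a finite group G act faithfully and transitively on a set with n ≥ 3 points. Then either G is a Frobenius permutation group (Frobenius as a permutation group: transitive, some non-identity element fixes a point, and no non-identity element fixes two points) of order n(n − 1) and exactly |G|/n of its elements are derangements (fix no point), or the number of derangements is greater than |G|/n. -/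
theorem result {G Ω : Type*} [Group G] [Finite G] [MulAction G Ω] [FaithfulSMul G Ω] [Fintype Ω] (htr : MulAction.IsPretransitive G Ω) (hn : 3 ≤ Fintype.card Ω) :
    ((MulAction.IsPretransitive G Ω ∧ (∃ g : G, g ≠ 1 ∧ ∃ ω : Ω, g • ω = ω) ∧ ∀ g : G, g ≠ 1 → Nat.card (MulAction.fixedBy Ω g) ≤ 1) ∧ Nat.card G = Fintype.card Ω * (Fintype.card Ω - 1) ∧ Fintype.card Ω * Nat.card {g : G // ∀ ω : Ω, g • ω ≠ ω} = Nat.card G) ∨
    Nat.card G < Fintype.card Ω * Nat.card {g : G // ∀ ω : Ω, g • ω ≠ ω} := by
  classical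
  have := Fintype.ofFinite G
  rw [← Nat.card_eq_fintype_card] at hn ⊢
  have : Nontrivial Ω := Finite.one_lt_card_iff_nontrivial.1 (by omega)
  refine (lt_or_ge _ _).symm.imp_left fun h => ?_
  have h1 := two_mul_le_sum_sq (G := G) (X := Ω)
  obtain ⟨h2, h3⟩ := sum_sq_le (G := G) (X := Ω)
  have h4 : ∀ g : G, g ≠ 1 → fx Ω g ≤ 1 := fun g hg =>
    (h3 (by omega) g).resolve_right fun e => hg (eq_one_of_fx_eq e)
  have h5 := CA.Sharp2.ncard_derangements (G := G) (X := Ω) fun g a b hab ha hb => by
    by_contra hg; exact hab (fx_le_one_iff.1 (h4 g hg) a b ha hb)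
  have h6 : Nat.card {g : G // ∀ ω : Ω, g • ω ≠ ω} = Nat.card Ω - 1 := by
    rw [← h5]; rfl
  have h7 : Nat.card G = Nat.card Ω * (Nat.card Ω - 1) := by rw [← h6]; omega
  refine ⟨⟨htr, ?_, h4⟩, h7, by omega⟩
  obtain ⟨a⟩ : Nonempty Ω := inferInstance
  have h8 := card_eq_card_mul_card_stabilizer (G := G) a
  rw [h7] at h8
  have h9 := Nat.eq_of_mul_eq_mul_left (by omega) h8
  have : Nontrivial (stabilizer G a) := Finite.one_lt_card_iff_nontrivial.1 (by omega)
  obtain ⟨g, hg⟩ := exists_ne (1 : stabilizer G a)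
  exact ⟨g, fun e => hg (Subtype.ext e), a, g.2⟩

end Cfsg.Agent.S5729
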