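import Cfsg.Statements.S5730
import Cfsg.Agent.Lib.Perm.H2Der
import Cfsg.Agent.Lib.Perm.Sharp2

set_option autoImplicit false
open Cfsg

namespace Cfsg.Agent.S5730

open MulAction CA.Derange CA.PermBasic CA.H2Der Finset in

/-- Let a finite group G act faithfully and transitively on a set with n ≥ 7 points. Then either G is a Frobenius permutation group (Frobenius as a permutation group: transitive, some non-identity element fixes a point, and no non-identity element fixes two points) of order n(n − 1)/a with a ∈ {1, 2}, in which case exactly a|G|/n of its elements are derangements, or the number of derangements is at least 2|G|/n. (Equality does occur: PSL₃(2) acting on the 7 points of the Fano plane has exactly 2|G|/7 derangements.) -/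
theorem result {G Ω : Type*} [Group G] [Finite G] [MulAction G Ω] [FaithfulSMul G Ω] [Fintype Ω] (htr : MulAction.IsPretransitive G Ω) (hn : 7 ≤ Fintype.card Ω) :
    (∃ a : ℕ, (a = 1 ∨ a = 2) ∧ (MulAction.IsPretransitive G Ω ∧ (∃ g : G, g ≠ 1 ∧ ∃ ω : Ω, g • ω = ω) ∧ ∀ g : G, g ≠ 1 → Nat.card (MulAction.fixedBy Ω g) ≤ 1) ∧ a * Nat.card G = Fintype.card Ω * (Fintype.card Ω - 1) ∧ Fintype.card Ω * Nat.card {g : G // ∀ ω : Ω, g • ω ≠ ω} = a * Nat.card G) ∨
    2 * Nat.card G ≤ Fintype.card Ω * Nat.card {g : G // ∀ ω : Ω, g • ω ≠ ω} := by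
  classical
  letI := Fintype.ofFinite G
  haveI : Nontrivial Ω := Fintype.one_lt_card_iff_nontrivial.1 (by omega)
  obtain ⟨α, β, hab⟩ := exists_pair_ne Ω
  by_cases h2 : ∀ a b c d : Ω, a ≠ b → c ≠ d → ∃ g : G, g • a = c ∧ g • b = d
  · have h3 := card_G h2 hab
    rw [offDiag_card, card_univ, ← Nat.card_eq_fintype_card (α := G), ← Nat.mul_sub_one] at h3
    by_cases hm : 2 ≤ #(St G α β)
    · have h4 := key h2 hab
      have h5 := main h2 hab hn hm
      rw [offDiag_card, card_univ, ← Nat.mul_sub_one] at h4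
      refine .inr (Nat.cast_le (α := ℚ).1 ?_)
      rw [h3]; push_cast; rw [h4]; push_cast
      nlinarith [mul_le_mul_of_nonneg_left h5 (by positivity :
        (0 : ℚ) ≤ (Fintype.card Ω : ℚ) * (Fintype.card Ω - 1 : ℕ))]
    have h4 : ∀ (g : G) (a b : Ω), a ≠ b → g • a = a → g • b = b → g = 1 := fun g a b e ha hb =>
      card_le_one.1 (show #(St G a b) ≤ 1 by rw [card_St h2 hab e]; omega) g (mem_St.2 ⟨ha, hb⟩) 1 (by simp)
    have h5 := CA.Sharp2.ncard_derangements h4
    have h6 : Nat.card {g : G // ∀ ω : Ω, g • ω ≠ ω} = Fintype.card Ω - 1 := by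
      rw [← Nat.card_eq_fintype_card, ← h5]; rfl
    have h7 : #(St G α β) = 1 := le_antisymm (by omega) (card_pos.2 ⟨1, by simp⟩)
    rw [h7, mul_one] at h3
    refine .inl ⟨1, .inl rfl, ⟨htr, ?_, fun g hg => fx_le_one_iff.2 fun a b ha hb =>
      by_contra fun e => hg (h4 g a b e ha hb)⟩, by rw [one_mul, h3], by rw [one_mul, h3, h6]⟩
    obtain ⟨c, -, hc⟩ := exists_mem_notMem_of_card_lt_card (s := {α, β}) (t := univ)
      (by have := card_le_two (a := α) (b := β); rw [card_univ]; omega)
    simp only [mem_insert, mem_singleton, not_or] at hc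
    obtain ⟨g, g1, g2⟩ := h2 α β α c hab (Ne.symm hc.1)
    exact ⟨g, fun e => hc.2 (by rw [← g2, e, one_smul]), α, g1⟩
  push Not at h2
  obtain ⟨a, b, c, d, e1, e2, h2⟩ := h2
  have h3 := (sum_sq_le (G := G) (X := Ω)).1
  simp only [← fx_prod] at h3
  rw [sum_card_fixedBy, Nat.card_eq_fintype_card (α := Ω)] at h3
  have h4 : 2 < Nat.card (orbitRel.Quotient G (Ω × Ω)) := by
    letI := Fintype.ofFinite (orbitRel.Quotient G (Ω × Ω))
    rw [Nat.card_eq_fintype_card]
    refine Fintype.two_lt_card_iff.2 ⟨Quotient.mk'' (c, d), Quotient.mk'' (a, b), Quotient.mk'' (a, a),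
      fun e => ?_, fun e => ?_, fun e => ?_⟩ <;> obtain ⟨g, hg⟩ := Quotient.exact' e
    · exact h2 g (congrArg Prod.fst hg) (congrArg Prod.snd hg)
    · exact e2 ((congrArg Prod.fst hg).symm.trans (congrArg Prod.snd hg))
    · exact e1 ((congrArg Prod.fst hg).symm.trans (congrArg Prod.snd hg))
  exact .inr (by nlinarith)

end Cfsg.Agent.S5730
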