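import Cfsg.Statements.S5737
import Cfsg.Agent.Lib.Lie.H19BinSz2

set_option autoImplicit false
open Cfsg

namespace Cfsg.Agent.S5737

/-- Let G = Sz(q) be a Suzuki group, q = 2^(2a+1) with a ≥ 1 (realised inside Sp₄ over the field with q elements), and let H be a proper subgroup of G. Then the action of G on the cosets of H is binary if and only if H is trivial or H is the centre of a Sylow 2-subgroup of G. Here an action is binary (relational complexity 2) when, for every n ≥ 2 and all n-tuples I, J of points, if for every pair of positions some group element carries the corresponding pair of entries of I to those of J, then a single group element carries I to J. -/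
theorem result {F : Type*} [Field F] [Fintype F] (a : ℕ) (ha : 1 ≤ a) (hF : Fintype.card F = 2 ^ (2 * a + 1))
    (H : Subgroup (Cfsg.Lie.Sz F (2 ^ (a + 1)))) (hH : H ≠ ⊤) :
    (∀ (n : ℕ) (I J : Fin n → (Cfsg.Lie.Sz F (2 ^ (a + 1))) ⧸ H), 2 ≤ n →
        (∀ i j : Fin n, i ≠ j → ∃ g : (Cfsg.Lie.Sz F (2 ^ (a + 1))), g • I i = J i ∧ g • I j = J j) → ∃ g : (Cfsg.Lie.Sz F (2 ^ (a + 1))), ∀ i, g • I i = J i) ↔
      (H = ⊥ ∨ ∃ P : Sylow 2 (Cfsg.Lie.Sz F (2 ^ (a + 1))), H = (Subgroup.center (P : Subgroup (Cfsg.Lie.Sz F (2 ^ (a + 1))))).map (P : Subgroup (Cfsg.Lie.Sz F (2 ^ (a + 1)))).subtype) := by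
  haveI : CA.SzBasic.Hyp F a := ⟨ha, hF⟩
  let e := CA.SzModel.szEquiv F
  haveI : Finite (Cfsg.Lie.Sz F (2 ^ (a + 1))) := Finite.of_equiv _ e.toEquiv
  letI := MulAction.compHom (Cfsg.Lie.Sz F (2 ^ (a + 1)) ⧸ H) e.toMonoidHom
  haveI : MulAction.IsPretransitive (CA.SzBasic.G F) (Cfsg.Lie.Sz F (2 ^ (a + 1)) ⧸ H) := ⟨fun x y => by
    obtain ⟨g, hg⟩ := MulAction.exists_smul_eq (Cfsg.Lie.Sz F (2 ^ (a + 1))) x y
    obtain ⟨g', rfl⟩ := e.surjective g
    exact ⟨g', hg⟩⟩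
  have hst : ∀ g, g ∈ MulAction.stabilizer (CA.SzBasic.G F)
      ((1 : Cfsg.Lie.Sz F (2 ^ (a + 1))) : Cfsg.Lie.Sz F (2 ^ (a + 1)) ⧸ H) ↔ e g ∈ H := by
    intro g
    have := SetLike.ext_iff.1 (MulAction.stabilizer_quotient H) (e g)
    exact this
  have hne : MulAction.stabilizer (CA.SzBasic.G F)
      ((1 : Cfsg.Lie.Sz F (2 ^ (a + 1))) : Cfsg.Lie.Sz F (2 ^ (a + 1)) ⧸ H) ≠ ⊤ := by
    intro h
    apply hH
    rw [eq_top_iff]
    intro g _
    obtain ⟨g', rfl⟩ := e.surjective g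
    exact (hst g').1 (h ▸ Subgroup.mem_top _)
  refine ((CA.Bin.bin_comp e.toMonoidHom e.surjective).symm.trans (CA.BinSz.main hne)).trans ?_
  rw [CA.BinSz.cen_iff]
  refine or_congr ⟨fun h => ?_, fun h => ?_⟩ ⟨fun ⟨P, hP⟩ => ?_, fun ⟨P, hP⟩ => ?_⟩
  · rw [eq_bot_iff]
    intro g hg
    obtain ⟨g', rfl⟩ := e.surjective g
    have := (hst g').2 hg
    rw [h, Subgroup.mem_bot] at this
    simp [this]
  · rw [eq_bot_iff]
    intro g hg
    have := (hst g).1 hg
    rw [h, Subgroup.mem_bot] at this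
    simpa using this
  · obtain ⟨P', hP'⟩ := CA.Bin.exists_sylow_equiv e P
    refine ⟨P', Subgroup.ext fun g => ?_⟩
    obtain ⟨g', rfl⟩ := e.surjective g
    rw [← hst, hP, CA.Bin.cen_equiv e hP']
  · obtain ⟨P', hP'⟩ := CA.Bin.exists_sylow_equiv e.symm P
    refine ⟨P', Subgroup.ext fun g => ?_⟩
    rw [hst, hP, CA.Bin.cen_equiv e.symm hP', e.symm_apply_apply]

end Cfsg.Agent.S5737
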