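import Cfsg.Statements.S5735
import Cfsg.Agent.Lib.Lin.H19BinU4
import Cfsg.Agent.S5736
import Cfsg.Agent.S5737

set_option autoImplicit false
open Cfsg

namespace Cfsg.Agent.S5735

open CA.Bin in
theorem tr {G G' : Type*} [Group G] [Group G'] (e : G ≃* G') (H : Subgroup G) :
    Bin G (G ⧸ H) ↔ Bin G' (G' ⧸ H.map e.toMonoidHom) :=
  ⟨bin_quot e fun _ => (Subgroup.mem_map_iff_mem (f := e.toMonoidHom) e.injective).symm,
    bin_quot e.symm fun _ => Subgroup.mem_map_equiv⟩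

theorem ne_top {G G' : Type*} [Group G] [Group G'] (e : G ≃* G') {H : Subgroup G} (h : H ≠ ⊤) :
    H.map e.toMonoidHom ≠ ⊤ := fun h' => h (Subgroup.map_injective (f := e.toMonoidHom) e.injective
      (h'.trans (Subgroup.map_top_of_surjective _ e.surjective).symm))

theorem card_map {G G' : Type*} [Group G] [Group G'] (e : G ≃* G') (H : Subgroup G) :
    Nat.card (H.map e.toMonoidHom) = Nat.card H := Subgroup.card_map_of_injective e.injective

theorem syl {G G' : Type*} [Group G] [Group G'] [Finite G] (e : G ≃* G') (H : Subgroup G) :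
    (∃ P : Sylow 2 G', H.map e.toMonoidHom = P) ↔ ∃ P : Sylow 2 G, H = P := by
  haveI : Finite G' := Finite.of_equiv _ e.toEquiv
  constructor
  · rintro ⟨P, hP⟩
    obtain ⟨P', hP'⟩ := CA.Bin.exists_sylow_equiv e.symm P
    refine ⟨P', Subgroup.ext fun g => ?_⟩
    rw [← Subgroup.mem_map_iff_mem (f := e.toMonoidHom) e.injective, hP, hP']
    simp
  · rintro ⟨P, rfl⟩
    obtain ⟨P', hP'⟩ := CA.Bin.exists_sylow_equiv e P
    refine ⟨P', Subgroup.ext fun g => ?_⟩
    rw [Subgroup.mem_map_equiv, hP']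
    simp

theorem cen {G G' : Type*} [Group G] [Group G'] [Finite G] (e : G ≃* G') (H : Subgroup G) :
    (∃ P : Sylow 2 G', H.map e.toMonoidHom = (Subgroup.center (P : Subgroup G')).map (P : Subgroup G').subtype) ↔
      ∃ P : Sylow 2 G, H = (Subgroup.center (P : Subgroup G)).map (P : Subgroup G).subtype := by
  haveI : Finite G' := Finite.of_equiv _ e.toEquiv
  constructor
  · rintro ⟨P, hP⟩
    obtain ⟨P', hP'⟩ := CA.Bin.exists_sylow_equiv e.symm P
    refine ⟨P', Subgroup.ext fun g => ?_⟩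
    rw [← Subgroup.mem_map_iff_mem (f := e.toMonoidHom) e.injective, hP, CA.Bin.cen_equiv e.symm hP']
    simp
  · rintro ⟨P, rfl⟩
    obtain ⟨P', hP'⟩ := CA.Bin.exists_sylow_equiv e P
    refine ⟨P', Subgroup.ext fun g => ?_⟩
    rw [Subgroup.mem_map_equiv, CA.Bin.cen_equiv e hP']
    simp

theorem slpsl {F : Type*} [Field F] [Fintype F] {a : ℕ} (h : Fintype.card F = 2 ^ a) :
    Nonempty (Matrix.SpecialLinearGroup (Fin 2) F ≃* Matrix.ProjectiveSpecialLinearGroup (Fin 2) F) :=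
  ⟨MulEquiv.ofBijective (CA.PSL2Struct.pr F) ⟨CA.PSL2Struct.pr_injective
    (CA.BinL2.two_iff.2 ⟨a, by rwa [Nat.card_eq_fintype_card]⟩), CA.PSL2Struct.pr_surj⟩⟩

theorem four {a : ℕ} (h : 2 ≤ a) : 4 ≤ 2 ^ a ∧ 2 ^ a ≠ 5 := by
  obtain ⟨b, rfl⟩ := Nat.exists_eq_add_of_le h
  have := Nat.one_le_two_pow (n := b)
  rw [pow_add]; omega

/-- Let G be a finite simple group with exactly one conjugacy class of involutions, and let H be a proper subgroup of even order. Then the action of G on the cosets of H is binary if and only if one of the following holds: G ≅ SL₂(2^a) with a ≥ 2 and H is a Sylow 2-subgroup; G is a Suzuki group Sz(2^(2a+1)) with a ≥ 1 and H is the centre of a Sylow 2-subgroup; G ≅ PSU₃(2^a) with a ≥ 2 and H is the centre of a Sylow 2-subgroup. Here an action is binary (relational complexity 2) when, for every n ≥ 2 and all n-tuples I, J of points, if for every pair of positions some group element carries the corresponding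 pair of entries of I to those of J, then a single group element carries I to J. -/
theorem result {G : Type*} [Group G] [Finite G] [IsSimpleGroup G] (hinv : ∃ s : G, orderOf s = 2)
    (hone : ∀ s t : G, orderOf s = 2 → orderOf t = 2 → IsConj s t)
    (H : Subgroup G) (hH : H ≠ ⊤) (heven : Even (Nat.card H)) :
    (∀ (n : ℕ) (I J : Fin n → G ⧸ H), 2 ≤ n →
        (∀ i j : Fin n, i ≠ j → ∃ g : G, g • I i = J i ∧ g • I j = J j) → ∃ g : G, ∀ i, g • I i = J i) ↔
      (((∃ (F : Type) (_ : Field F) (_ : Fintype F) (a : ℕ), 2 ≤ a ∧ Fintype.card F = 2 ^ a ∧ Nonempty (G ≃* Matrix.SpecialLinearGroup (Fin 2) F)) ∧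
          ∃ P : Sylow 2 G, H = P) ∨
        (Cfsg.Lie.IsoSuzuki G ∧ ∃ P : Sylow 2 G, H = (Subgroup.center (P : Subgroup G)).map (P : Subgroup G).subtype) ∨
        ((∃ (F : Type) (_ : Field F) (_ : Fintype F) (a : ℕ), 2 ≤ a ∧ Fintype.card F = (2 ^ a) ^ 2 ∧ Nonempty (G ≃* Cfsg.PSU 3 F (2 ^ a))) ∧
          ∃ P : Sylow 2 G, H = (Subgroup.center (P : Subgroup G)).map (P : Subgroup G).subtype)) := by
  have ho : CA.Bin.One G := fun s t s1 s2 t1 t2 =>
    hone s t (orderOf_eq_prime (by rwa [sq]) s1) (orderOf_eq_prime (by rwa [sq]) t1)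
  have hst := MulAction.stabilizer_quotient H
  have hb : ∀ {G' : Type} [Group G'] (e : G ≃* G'), H.map e.toMonoidHom ≠ ⊥ := fun e h => by
    rw [← card_map e, h] at heven
    simp at heven
  constructor
  · intro h
    obtain ⟨t, ht, t1, t2⟩ := CA.Bin.exists_inv_of_even heven
    have ht' : t • ((1 : G) : G ⧸ H) = (1 : G) := hst.ge ht
    rcases CA.Bin.Bin.bender h ho (by rwa [hst]) t1 t2 ht' with
      ⟨F, _, _, ⟨a, a2, ha⟩, ⟨e⟩⟩ | ⟨F, _, _, m, m1, hm, ⟨e⟩⟩ | ⟨F, _, _, a, a2, ha, ⟨e⟩⟩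
    · left
      obtain ⟨e'⟩ := slpsl ha
      refine ⟨⟨F, _, _, a, a2, ha, ⟨e.trans e'.symm⟩⟩, ?_⟩
      rcases (S5736.result (ha ▸ (four a2).1) (ha ▸ (four a2).2) _ (ne_top e hH)).1 ((tr e H).1 h) with
        h1 | ⟨-, h1⟩ | ⟨-, h1⟩
      · exact absurd h1 (hb e)
      · exact (syl e H).1 h1
      · rw [card_map] at h1
        rw [h1] at heven
        exact absurd heven (by decide)
    · right; left
      refine ⟨⟨F, _, _, m, m1, hm, ⟨e⟩⟩, (cen e H).1 ?_⟩
      exact ((S5737.result m m1 hm _ (ne_top e hH)).1 ((tr e H).1 h)).resolve_left (hb e)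
    · right; right
      refine ⟨⟨F, _, _, a, a2, ha, ⟨e⟩⟩, ?_⟩
      have := CA.BinU.fwd ho a2 ha e h (by rwa [hst]) t1 t2 ht'
      rwa [hst] at this
  · rintro (⟨⟨F, _, _, a, a2, ha, ⟨e⟩⟩, h⟩ | ⟨⟨F, _, _, m, m1, hm, ⟨e⟩⟩, h⟩ | ⟨⟨F, _, _, a, a2, ha, ⟨e⟩⟩, P, h⟩)
    · obtain ⟨e'⟩ := slpsl ha
      exact (tr (e.trans e') H).2 ((S5736.result (ha ▸ (four a2).1) (ha ▸ (four a2).2) _
        (ne_top _ hH)).2 (Or.inr (Or.inl ⟨⟨a, ha⟩, (syl _ H).2 h⟩)))
    · exact (tr e H).2 ((S5737.result m m1 hm _ (ne_top e hH)).2 (Or.inr ((cen e H).2 h)))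
    · exact CA.BinU.bwd ha e (hst.trans h)

end Cfsg.Agent.S5735
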