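import Cfsg.Statements.S5747


set_option autoImplicit false
open Cfsg

namespace Cfsg.Agent.S5747

section aux
variable {G Ω : Type*} [Group G] [MulAction G Ω]

/-- irredundant sequence -/
def Irr (G : Type*) [Group G] [MulAction G Ω] {t : ℕ} (f : Fin t → Ω) : Prop :=
  ∀ i : Fin t, ∃ g : G, (∀ j : Fin t, j < i → g • f j = f j) ∧ g • f i ≠ f i

/-- base -/
def Bs (G : Type*) [Group G] [MulAction G Ω] {t : ℕ} (f : Fin t → Ω) : Prop :=
  ∀ g : G, (∀ i : Fin t, g • f i = f i) → g = 1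

theorem Irr.inj {t : ℕ} {f : Fin t → Ω} (h : Irr G f) : Function.Injective f := by
  intro i j e
  by_contra hne
  rcases lt_or_gt_of_ne hne with h' | h'
  · obtain ⟨g, h1, h2⟩ := h j
    exact h2 (e ▸ h1 i h')
  · obtain ⟨g, h1, h2⟩ := h i
    exact h2 (e ▸ h1 j h')

theorem drop {t : ℕ} {f : Fin (t + 1) → Ω} (hb : Bs G f) (i : Fin (t + 1))
    (hi : ∀ g : G, (∀ j, j < i → g • f j = f j) → g • f i = f i) : Bs G (f ∘ i.succAbove) := by
  intro g hg
  have : ∀ j, j ≠ i → g • f j = f j := fun j hj => by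
    obtain ⟨k, rfl⟩ := Fin.exists_succAbove_eq hj
    exact hg k
  refine hb g fun j => ?_
  by_cases hj : j = i
  · exact hj ▸ hi g fun k hk => this k hk.ne
  · exact this j hj

theorem exists_irr : ∀ (t : ℕ) (f : Fin t → Ω), Bs G f →
    ∃ (s : ℕ) (f' : Fin s → Ω), s ≤ t ∧ Bs G f' ∧ Irr G f' := by
  intro t
  induction t with
  | zero => exact fun f hf => ⟨0, f, le_rfl, hf, fun i => i.elim0⟩
  | succ t ih =>
    intro f hf
    by_cases h : Irr G f
    · exact ⟨_, f, le_rfl, hf, h⟩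
    · unfold Irr at h
      push Not at h
      obtain ⟨i, hi⟩ := h
      obtain ⟨s, f', h1, h2⟩ := ih _ (drop hf i hi)
      exact ⟨s, f', by omega, h2⟩

theorem extend [Fintype Ω] (T : Set Ω) : ∀ (k t : ℕ) (f : Fin t → Ω), Fintype.card Ω ≤ t + k →
    Irr G f → (∀ g : G, (∀ i, g • f i = f i) → (∀ x ∈ T, g • x = x) → g = 1) →
    ∃ (s : ℕ) (f' : Fin s → Ω), Bs G f' ∧ Irr G f' ∧ Set.range f ⊆ Set.range f' ∧
      Set.range f' ⊆ Set.range f ∪ T := by
  intro k
  induction k with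
  | zero =>
    intro t f h1 h2 h3
    refine ⟨t, f, fun g hg => h3 g hg fun x _ => ?_, h2, le_rfl, Set.subset_union_left⟩
    have : Function.Bijective f := (Fintype.bijective_iff_injective_and_card f).2
      ⟨h2.inj, le_antisymm (Fintype.card_le_of_injective f h2.inj) (by simpa using h1)⟩
    obtain ⟨i, rfl⟩ := this.2 x
    exact hg i
  | succ k ih =>
    intro t f h1 h2 h3
    by_cases hb : Bs G f
    · exact ⟨t, f, hb, h2, le_rfl, Set.subset_union_left⟩
    unfold Bs at hb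
    push Not at hb
    obtain ⟨g, hg, hg1⟩ := hb
    obtain ⟨x, hx, hgx⟩ : ∃ x ∈ T, g • x ≠ x := by
      by_contra hc
      push Not at hc
      exact hg1 (h3 g hg hc)
    obtain ⟨s, f', a1, a2, a3, a4⟩ := ih (t + 1) (Fin.snoc f x) (by omega) (fun i => by
      refine Fin.lastCases ?_ (fun i => ?_) i
      · refine ⟨g, fun j hj => ?_, by simpa using hgx⟩
        obtain ⟨j, rfl⟩ := Fin.exists_castSucc_eq.2 hj.ne
        simpa using hg j
      · obtain ⟨g, b1, b2⟩ := h2 i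
        refine ⟨g, fun j hj => ?_, by simpa using b2⟩
        obtain ⟨j, rfl⟩ := Fin.exists_castSucc_eq.2 (hj.trans (Fin.castSucc_lt_last i)).ne
        simpa using b1 j (by simpa using hj))
      (fun g b1 b2 => h3 g (fun i => by simpa using b1 i.castSucc) b2)
    rw [Fin.range_snoc] at a3 a4
    refine ⟨s, f', a1, a2, (Set.subset_insert _ _).trans a3, a4.trans ?_⟩
    exact Set.union_subset (Set.insert_subset (Or.inr hx) Set.subset_union_left)
      Set.subset_union_right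

/-- minimal base -/
def MB (G : Type*) [Group G] [MulAction G Ω] (S : Set Ω) : Prop :=
  (∀ g : G, (∀ x ∈ S, g • x = x) → g = 1) ∧
    ∀ x ∈ S, ∃ g : G, (∀ y ∈ S, y ≠ x → g • y = y) ∧ g • x ≠ x

theorem mb_of (H : ∀ (t : ℕ) (f : Fin t → Ω) (σ : Equiv.Perm (Fin t)), Bs G f ∧ Irr G f →
    Bs G (f ∘ σ) ∧ Irr G (f ∘ σ)) {t : ℕ} {f : Fin t → Ω} (h1 : Bs G f) (h2 : Irr G f) :
    MB G (Set.range f) := by
  refine ⟨fun g hg => h1 g fun i => hg _ ⟨i, rfl⟩, ?_⟩
  rintro _ ⟨i, rfl⟩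
  obtain ⟨t, rfl⟩ : ∃ s, t = s + 1 := ⟨t - 1, by have := i.2; omega⟩
  obtain ⟨g, a1, a2⟩ := (H _ f (Equiv.swap i (Fin.last t)) ⟨h1, h2⟩).2 (Fin.last t)
  refine ⟨g, ?_, by simpa using a2⟩
  rintro _ ⟨j, rfl⟩ hj
  have := a1 (Equiv.swap i (Fin.last t) j) (Fin.lt_last_iff_ne_last.2 fun e => hj (by
    rw [Equiv.swap_apply_eq_iff, Equiv.swap_apply_right] at e
    rw [e]))
  simpa using this

theorem exists_mb [Fintype Ω] (H : ∀ (t : ℕ) (f : Fin t → Ω) (σ : Equiv.Perm (Fin t)),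
    Bs G f ∧ Irr G f → Bs G (f ∘ σ) ∧ Irr G (f ∘ σ)) {A B S : Set Ω} (hA : MB G A) (hB : MB G B)
    (hS : S ⊆ A) : ∃ D, MB G D ∧ S ⊆ D ∧ D ⊆ S ∪ B := by
  classical
  let e := (Fintype.equivFin S).symm
  have hr : Set.range (fun i => (e i : Ω)) = S := by
    ext x
    constructor
    · rintro ⟨i, rfl⟩
      exact (e i).2
    · exact fun hx => ⟨e.symm ⟨x, hx⟩, by simp⟩
  obtain ⟨s, f, a1, a2, a3, a4⟩ := extend (G := G) B (Fintype.card Ω) _ (fun i => (e i : Ω))
    (by omega) (fun i => by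
      obtain ⟨g, b1, b2⟩ := hA.2 _ (hS (e i).2)
      exact ⟨g, fun j hj => b1 _ (hS (e j).2) fun h => hj.ne (e.injective (Subtype.ext h)), b2⟩)
    fun g _ hg => hB.1 g hg
  exact ⟨_, mb_of H a1 a2, hr ▸ a3, hr ▸ a4⟩

theorem mb_sub {A B : Set Ω} (hA : MB G A) (hB : MB G B) (h : A ⊆ B) : A = B := by
  refine h.antisymm fun x hx => ?_
  by_contra hc
  obtain ⟨g, a1, a2⟩ := hB.2 x hx
  rw [hA.1 g fun y hy => a1 y (h hy) fun e => hc (e ▸ hy), one_smul] at a2
  exact a2 rfl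

theorem mb_card [Fintype Ω] (H : ∀ (t : ℕ) (f : Fin t → Ω) (σ : Equiv.Perm (Fin t)),
    Bs G f ∧ Irr G f → Bs G (f ∘ σ) ∧ Irr G (f ∘ σ)) : ∀ (k : ℕ) (A B : Set Ω), MB G A → MB G B →
    Fintype.card Ω < (A ∩ B).ncard + k → A.ncard = B.ncard := by
  intro k
  induction k with
  | zero =>
    intro A B _ _ h
    have := Set.ncard_le_card (A ∩ B)
    rw [Nat.card_eq_fintype_card] at this
    omega
  | succ k ih =>
    have half : ∀ A B : Set Ω, MB G A → MB G B → Fintype.card Ω < (A ∩ B).ncard + (k + 1) →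
        A.ncard = B.ncard ∨ A.ncard = (A ∩ B).ncard + 1 := by
      intro A B hA hB h
      by_cases hAB : A ⊆ B
      · exact Or.inl (by rw [mb_sub hA hB hAB])
      obtain ⟨a, ha, ha'⟩ := Set.not_subset.1 hAB
      have hS : insert a (A ∩ B) ⊆ A := Set.insert_subset ha Set.inter_subset_left
      have c1 : (insert a (A ∩ B)).ncard = (A ∩ B).ncard + 1 :=
        Set.ncard_insert_of_notMem fun h => ha' h.2
      obtain ⟨D, hD, d1, d2⟩ := exists_mb H hA hB hS
      have e1 := ih D A hD hA (by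
        have := Set.ncard_le_ncard (Set.subset_inter d1 hS)
        omega)
      by_cases hc : D ∩ B ⊆ A ∩ B
      · right
        have : D = insert a (A ∩ B) := by
          refine Set.Subset.antisymm (fun x hx => ?_) d1
          rcases d2 hx with h | h
          · exact h
          · exact Or.inr (hc ⟨hx, h⟩)
        rw [← e1, this, c1]
      · left
        have : A ∩ B ⊂ D ∩ B := ⟨Set.subset_inter ((Set.subset_insert _ _).trans d1)
          Set.inter_subset_right, hc⟩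
        have := Set.ncard_lt_ncard this
        rw [← e1]
        exact ih D B hD hB (by omega)
    intro A B hA hB h
    rcases half A B hA hB h with h1 | h1
    · exact h1
    rcases half B A hB hA (by rwa [Set.inter_comm]) with h2 | h2
    · exact h2.symm
    · rw [h1, h2, Set.inter_comm]

end aux

/-- Let a finite group G act on a finite set Ω. An irredundant base is a sequence of points ω₁, …, ω_t whose pointwise stabiliser is trivial and in which each ω_i is moved by some element fixing ω₁, …, ω_{i−1}. Then all irredundant bases have the same length if and only if every reordering of an irredundant base is again an irredundant base. -/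
theorem result {G Ω : Type*} [Group G] [Finite G] [MulAction G Ω] [Fintype Ω] :
    (∀ (t t' : ℕ) (f : Fin t → Ω) (f' : Fin t' → Ω), ((∀ g : G, (∀ i : Fin t, g • f i = f i) → g = 1) ∧ ∀ i : Fin t, ∃ g : G, (∀ j : Fin t, j < i → g • f j = f j) ∧ g • f i ≠ f i) → ((∀ g : G, (∀ i : Fin t', g • f' i = f' i) → g = 1) ∧ ∀ i : Fin t', ∃ g : G, (∀ j : Fin t', j < i → g • f' j = f' j) ∧ g • f' i ≠ f' i) → t = t') ↔
    (∀ (t : ℕ) (f : Fin t → Ω) (σ : Equiv.Perm (Fin t)), ((∀ g : G, (∀ i : Fin t, g • f i = f i) → g = 1) ∧ ∀ i : Fin t, ∃ g : G, (∀ j : Fin t, j < i → g • f j = f j) ∧ g • f i ≠ f i) → ((∀ g : G, (∀ i : Fin t, g • (f ∘ σ) i = (f ∘ σ) i) → g = 1) ∧ ∀ i : Fin t, ∃ g : G, (∀ j : Fin t, j < i → g • (f ∘ σ) j = (f ∘ σ) j) ∧ g • (f ∘ σ) i ≠ (f ∘ σ) i)) := by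
  constructor
  · intro H t f σ hf
    have hb : Bs G (f ∘ σ) := fun g hg => hf.1 g fun i => by simpa using hg (σ.symm i)
    refine ⟨hb, ?_⟩
    by_contra h
    push Not at h
    obtain ⟨i, hi⟩ := h
    obtain ⟨t, rfl⟩ : ∃ s, t = s + 1 := ⟨t - 1, by have := i.2; omega⟩
    obtain ⟨s, f', h1, h2⟩ := exists_irr _ _ (drop hb i hi)
    have := H _ _ f f' hf h2
    omega
  · intro H t t' f f' hf hf'
    have := mb_card (G := G) H (Fintype.card Ω + 1) _ _ (mb_of H hf.1 hf.2) (mb_of H hf'.1 hf'.2)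
      (by omega)
    rwa [Set.ncard_range_of_injective (Irr.inj hf.2), Set.ncard_range_of_injective (Irr.inj hf'.2),
      Nat.card_fin, Nat.card_fin] at this

end Cfsg.Agent.S5747
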