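import Cfsg.Statements.S5748
import Cfsg.Agent.Lib.Cit.Ca

set_option autoImplicit false
open Cfsg

namespace Cfsg.Agent.S5748

/-- A finite non-abelian simple group in which commuting is a transitive relation on the non-identity elements (equivalently, every non-identity element has abelian centraliser) is isomorphic to PSL₂ over a field with 2^f elements for some f ≥ 2; conversely these groups have that property. -/
theorem result {G : Type*} [Group G] [Finite G] [IsSimpleGroup G] (hG : ¬ IsMulCommutative G) :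
    (∀ a b c : G, a ≠ 1 → b ≠ 1 → c ≠ 1 → Commute a b → Commute b c → Commute a c) ↔
    ∃ (F : Type) (_ : Field F) (_ : Fintype F) (f : ℕ), 2 ≤ f ∧ Fintype.card F = 2 ^ f ∧ Nonempty (G ≃* Matrix.ProjectiveSpecialLinearGroup (Fin 2) F) := by
  refine ⟨fun h => ?_, fun ⟨F, _, _, f, h1, h2, h3⟩ a b c _ hb _ e1 e2 =>
    CA.Wa.mul_comm_of (CA.Ca.l2e_comm ⟨F, _, _, ⟨f, h1, h2⟩, h3⟩ hb) (CA.BG.mem_cent1.2 e1) (CA.BG.mem_cent1.2 e2.symm)⟩
  obtain ⟨F, _, _, ⟨n, h1, h2⟩, h3⟩ := CA.Ca.CAI.simple (fun t ht => CA.BG.comm_iff_le_cent.2 fun a ha =>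
    CA.BG.mem_cent.2 fun b hb => by
      by_cases a1 : a = 1
      · simp [a1]
      by_cases b1 : b = 1
      · simp [b1]
      exact h b t a b1 (CA.GW.ne_one_of_ord ht) a1 (CA.BG.mem_cent1.1 hb) (CA.BG.mem_cent1.1 ha).symm) hG
  exact ⟨F, _, _, n, h1, h2, h3⟩

end Cfsg.Agent.S5748
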