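import Cfsg.Statements.S5751
import Cfsg.Agent.Lib.Lie.H23Core

set_option autoImplicit false
open Cfsg

namespace Cfsg.Agent.S5751

open CA.Chev CA.H23Core Cfsg.Lie

theorem hl : ∀ r s : Rt chevE8, pr r s = pr s r := (sl_of_chk tab_E8 sl_E8).1

def a3 : Nd chevE8 := ⟨3, by decide⟩

theorem lev_eq (r : Rt chevE8) : rt r a3 = tabE8.co r 3 := by
  rw [rt_cor hl, ← tab_E8, tab_co]; rfl

theorem lev_le (r : Rt chevE8) : rt r a3 ≤ 6 := by
  have : allLt 240 (fun r => decide (tabE8.co r 3 ≤ 6)) = true := by decide +kernel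
  rw [lev_eq]
  exact of_decide_eq_true (allLt_iff.1 this r r.2)

theorem lev_top : rt (⟨239, by decide⟩ : Rt chevE8) a3 = 6 := by
  rw [lev_eq]; decide +kernel

/-- An extremal example for iterated cores of conjugate maximal subgroups: there exist a finite group G and two distinct conjugate maximal subgroups M₁, M₂ of G, with M₁ having trivial core in G, such that, if we define two descending sequences of subgroups by A₀ = M₁, B₀ = M₂ and, for every i, A_{i+1} = the core in M₁ of A_i ∩ B_i and B_{i+1} = the core in M₂ of A_i ∩ B_i (the core in M of a subgroup Y ≤ M is the largest normal subgroup of M contained in Y), the subgroup A₆ is trivial while A₅ is not (so the index 6 cannot be lowered to 5). (One example is a maximal parabolic subgroup of the Chevalley group of type E₈ over a finite field and a suitable conjugate of it.) -/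
theorem result :
    ∃ (G : Type) (_ : Group G) (_ : Finite G) (M₁ M₂ : Subgroup G) (g : G) (A B : ℕ → Subgroup G),
      IsCoatom M₁ ∧ M₂ = M₁.map (MulAut.conj g).toMonoidHom ∧ M₁ ≠ M₂ ∧ M₁.normalCore = ⊥ ∧ A 0 = M₁ ∧ B 0 = M₂ ∧
      (∀ i, A (i + 1) = ((A i ⊓ B i).subgroupOf M₁).normalCore.map M₁.subtype) ∧
      (∀ i, B (i + 1) = ((A i ⊓ B i).subgroupOf M₂).normalCore.map M₂.subtype) ∧ A 6 = ⊥ ∧ A 5 ≠ ⊥ := by
  let A := adjG chevE8 (ZMod 2)
  have hG : A.G = ⊤ := adjG_G
  have hH : A.H = ⊥ := le_bot_iff.1 (A.H_le.2 fun r t => by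
    rw [Subsingleton.elim t 1, A.h_one]; exact one_mem _)
  have hc := coatom (a := a3) A hG
  refine ⟨chevE8.group (ZMod 2), inferInstance, inferInstance, A.PJ (Jc a3), P2 a3 A, A.n (sim a3) 1,
    fun i => (sq (A.PJ (Jc a3)) (P2 a3 A) i).1, fun i => (sq (A.PJ (Jc a3)) (P2 a3 A) i).2, hc, rfl, P_ne A, ?_,
    rfl, rfl, fun i => rfl, fun i => rfl, ?_, fun e => ?_⟩
  · have := (A.simple_of hG adjG_θ_injective (perfect_E8 A hG)).1
    refine ((Subgroup.normalCore_normal _).eq_bot_or_eq_top).resolve_right fun e => hc.1 ?_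
    exact top_le_iff.1 (e ▸ Subgroup.normalCore_le _)
  · refine le_bot_iff.1 ((upper A hG hH hl 5).1.trans (A.X_le.2 fun r hr t => ?_))
    have h1 : ((5 : ℕ) : ℤ) + 2 ≤ rt r a3 := hr
    have := lev_le r
    omega
  · have h1 := (lower (a := a3) A hl 5).1 (A.x_mem (r := ⟨239, by decide⟩)
      (show ((5 : ℕ) : ℤ) + 1 ≤ _ by rw [lev_top]; omega) 1)
    have e : (sq (A.PJ (Jc a3)) (P2 a3 A) 5).1 = ⊥ := e
    rw [e, Subgroup.mem_bot] at h1
    exact one_ne_zero (A.x_eq_one h1)

end Cfsg.Agent.S5751
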