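import Cfsg.Statements.S5752
import Cfsg.Agent.Lib.Loc.H8TW

set_option autoImplicit false
open Cfsg

namespace Cfsg.Agent.S5752

open Subgroup CA.Amb CA.AmbCore CA.AmbFs CA.H8TW

/-- A form of the Thompson–Wielandt Theorem on primitive permutation groups. Let G be a finite group and M₁, M₂ two distinct conjugate maximal subgroups of G with trivial core in G; define two descending sequences of subgroups by A₀ = M₁, B₀ = M₂ and, for every i, A_{i+1} = the core in M₁ of A_i ∩ B_i and B_{i+1} = the core in M₂ of A_i ∩ B_i (the core in M of a subgroup Y ≤ M is the largest normal subgroup of M contained in Y). If A₂ and B₂ are both non-trivial, then for some prime p the subgroup generated by A₂ and B₂ is a p-group, and for each j the generalized Fitting subgroups of M_j and of its first core (A₁, resp. B₁) are their largest normal p-subgroups. -/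
theorem result {G : Type*} [Group G] [Finite G] (M₁ M₂ : Subgroup G) (hmax : IsCoatom M₁) (g : G)
    (hconj : M₂ = M₁.map (MulAut.conj g).toMonoidHom) (hne : M₁ ≠ M₂) (hcore : M₁.normalCore = ⊥)
    (A B : ℕ → Subgroup G) (hA0 : A 0 = M₁) (hB0 : B 0 = M₂)
    (hA : ∀ i, A (i + 1) = ((A i ⊓ B i).subgroupOf M₁).normalCore.map M₁.subtype)
    (hB : ∀ i, B (i + 1) = ((A i ⊓ B i).subgroupOf M₂).normalCore.map M₂.subtype) (hA2 : A 2 ≠ ⊥) (hB2 : B 2 ≠ ⊥) :
    ∃ p : ℕ, p.Prime ∧ IsPGroup p ↥(A 2 ⊔ B 2) ∧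
      Cfsg.generalizedFittingSubgroup ↥M₁ = Cfsg.pCore p ↥M₁ ∧ Cfsg.generalizedFittingSubgroup ↥(A 1) = Cfsg.pCore p ↥(A 1) ∧
      Cfsg.generalizedFittingSubgroup ↥M₂ = Cfsg.pCore p ↥M₂ ∧ Cfsg.generalizedFittingSubgroup ↥(B 1) = Cfsg.pCore p ↥(B 1) := by
  have hmax' : IsCoatom M₂ := hconj ▸ isCoatom_cj hmax
  have hcore' : M₂.normalCore = ⊥ := by
    rw [eq_bot_iff, ← hcore]
    refine normal_le_normalCore.2 ?_
    have := cj_mono g⁻¹ (normalCore_le M₂)
    rwa [cj_eq_self_of_normal, show cj g⁻¹ M₂ = M₁ by rw [hconj]; exact cj_inv_cj g M₁] at this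
  have le : ∀ M H : Subgroup G, ((H.subgroupOf M).normalCore.map M.subtype) ≤ H := fun M H =>
    map_le_iff_le_comap.2 (normalCore_le _)
  have a1 : ∀ i, A (i + 1) ≤ M₁ ∧ M₁ ≤ normalizer (A (i + 1) : Set G) ∧ A (i + 1) ≤ A i ⊓ B i := fun i => by
    rw [hA]; exact ⟨map_subtype_le _, norm_map_subtype _, le _ _⟩
  have b1 : ∀ i, B (i + 1) ≤ M₂ ∧ M₂ ≤ normalizer (B (i + 1) : Set G) ∧ B (i + 1) ≤ A i ⊓ B i := fun i => by
    rw [hB]; exact ⟨map_subtype_le _, norm_map_subtype _, le _ _⟩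
  have sA := SN.of_norm (a1 0).1 (a1 0).2.1
  have sB := SN.of_norm (b1 0).1 (b1 0).2.1
  obtain ⟨p, hp, h1, h2, h3⟩ := main (prim_of hmax hcore) (prim_of hmax' hcore')
    (fun e => hne (hmax.le_iff_eq hmax'.1 |>.1 e).symm) (fun e => hne (hmax'.le_iff_eq hmax.1 |>.1 e))
    (fun r => by rw [hconj, ← cj_pCoreOf, card_cj]) (a1 1).1 (a1 1).2.1
    (sB.trans (SN.of_norm ((a1 1).2.2.trans inf_le_right) (((b1 0).2.2.trans inf_le_left).trans (hA0 ▸ (a1 1).2.1))))
    hA2 (b1 1).1 (b1 1).2.1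
    (sA.trans (SN.of_norm ((b1 1).2.2.trans inf_le_left) (((a1 0).2.2.trans inf_le_right).trans (hB0 ▸ (b1 1).2.1))))
    hB2
  have := Fact.mk hp
  have h2' := fstar_iff_charP.2 (charP_iff_FS.2 h2)
  have h3' := fstar_iff_charP.2 (charP_iff_FS.2 h3)
  exact ⟨p, hp, h1, h2', CA.Fstar.fstar_eq_pCore_of_SN h2' (SN.toS sA), h3',
    CA.Fstar.fstar_eq_pCore_of_SN h3' (SN.toS sB)⟩

end Cfsg.Agent.S5752
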