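import Cfsg.Statements.S5754


set_option autoImplicit false
open Cfsg

namespace Cfsg.Agent.S5754

/-- Let V be a finite-dimensional vector space over a finite field F carrying an anisotropic quadratic form Q (Q(v) = 0 only for v = 0). Then the group of all maps v ↦ φ(v) + c, with φ an isometry of Q and c ∈ V, acts on V as a binary permutation group: given n ≥ 2 and two n-tuples u, u' of vectors such that every pair of corresponding entries of u is carried to that of u' by such a map, one such map carries u to u'. -/
theorem result {F V : Type*} [Field F] [Finite F] [AddCommGroup V] [Module F V] [Module.Finite F V]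
    (Q : QuadraticForm F V) (hQ : Q.Anisotropic) (n : ℕ) (hn : 2 ≤ n) (u u' : Fin n → V)
    (h2 : ∀ i j : Fin n, i ≠ j → ∃ (φ : Q.IsometryEquiv Q) (c : V), φ (u i) + c = u' i ∧ φ (u j) + c = u' j) :
    ∃ (φ : Q.IsometryEquiv Q) (c : V), ∀ i, φ (u i) + c = u' i := by
  classical
  have hd : ∀ i j, Q (u i - u j) = Q (u' i - u' j) := by
    intro i j
    by_cases h : i = j
    · simp [h]
    obtain ⟨φ, c, h1, h2⟩ := h2 i j h
    rw [← h1, ← h2, add_sub_add_right_eq_sub, ← map_sub, φ.map_app]
  let o : Fin n := ⟨0, by omega⟩
  have hp : ∀ i j, QuadraticMap.polar Q (u i - u o) (u j - u o) =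
      QuadraticMap.polar Q (u' i - u' o) (u' j - u' o) := by
    intro i j
    have h1 := QuadraticMap.polar_neg_right Q (u i - u o) (u j - u o)
    have h2 := QuadraticMap.polar_neg_right Q (u' i - u' o) (u' j - u' o)
    rw [← neg_inj, ← h1, ← h2]
    simp only [QuadraticMap.polar, QuadraticMap.map_neg, hd, ← sub_eq_add_neg, sub_sub_sub_cancel_right]
  have key : ∀ s : Finset (Fin n), ∃ φ : Q.IsometryEquiv Q, ∀ i ∈ s, φ (u i - u o) = u' i - u' o := by
    intro s
    induction s using Finset.induction_on with
    | empty => exact ⟨QuadraticMap.IsometryEquiv.refl Q, by simp⟩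
    | insert k s _ ih =>
      obtain ⟨φ, hφ⟩ := ih
      set x := φ (u k - u o) with hx
      set y := u' k - u' o with hy
      by_cases hxy : x = y
      · refine ⟨φ, fun i hi => ?_⟩
        rcases Finset.mem_insert.1 hi with rfl | hi
        · exact hxy
        · exact hφ i hi
      have hw : Q (x - y) ≠ 0 := fun h => hxy (sub_eq_zero.1 (hQ _ h))
      have hQxy : Q x = Q y := by rw [hx, φ.map_app, hd]
      let r : V →ₗ[F] V := LinearMap.id -
        ((Q (x - y))⁻¹ • (QuadraticMap.polarBilin Q (x - y))).smulRight (x - y)
      have hr : ∀ v, r v = v - ((Q (x - y))⁻¹ * QuadraticMap.polar Q (x - y) v) • (x - y) := by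
        intro v
        simp [r]
      have hinv : Function.Involutive r := by
        intro v
        rw [hr (r v), hr v, QuadraticMap.polar_sub_right, QuadraticMap.polar_smul_right,
          QuadraticMap.polar_self, sub_sub, ← add_smul]
        have : (Q (x - y))⁻¹ * QuadraticMap.polar Q (x - y) v + (Q (x - y))⁻¹ *
            (QuadraticMap.polar Q (x - y) v -
              ((Q (x - y))⁻¹ * QuadraticMap.polar Q (x - y) v) • 2 • Q (x - y)) = 0 := by
          simp only [smul_eq_mul, nsmul_eq_mul]
          field_simp
          ring
        rw [this, zero_smul, sub_zero]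
      have hiso : ∀ v, Q (r v) = Q v := by
        intro v
        have := QuadraticMap.polar_smul_right Q (-((Q (x - y))⁻¹ * QuadraticMap.polar Q (x - y) v))
          v (x - y)
        rw [QuadraticMap.polar, QuadraticMap.map_smul, QuadraticMap.polar_comm _ v] at this
        rw [hr, sub_eq_add_neg, ← neg_smul]
        simp only [smul_eq_mul] at this
        have e : (Q (x - y))⁻¹ * Q (x - y) = 1 := inv_mul_cancel₀ hw
        linear_combination this +
          ((Q (x - y))⁻¹ * QuadraticMap.polar Q (x - y) v * QuadraticMap.polar Q (x - y) v) * e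
      let ρ : Q.IsometryEquiv Q := ⟨LinearEquiv.ofInvolutive r hinv, hiso⟩
      refine ⟨φ.trans ρ, fun i hi => ?_⟩
      show r (φ (u i - u o)) = _
      rcases Finset.mem_insert.1 hi with rfl | hi
      · have : QuadraticMap.polar Q (x - y) x = Q (x - y) := by
          have h1 := QuadraticMap.polar_neg_right Q x y
          rw [QuadraticMap.polar_sub_left, QuadraticMap.polar_self, QuadraticMap.polar_comm _ y]
          rw [QuadraticMap.polar, ← sub_eq_add_neg, QuadraticMap.map_neg] at h1
          simp only [nsmul_eq_mul, Nat.cast_ofNat]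
          linear_combination hQxy - h1
        rw [← hx, hr, this, inv_mul_cancel₀ hw, one_smul, sub_sub_cancel]
      · have : QuadraticMap.polar Q (x - y) (φ (u i - u o)) = 0 := by
          have e : QuadraticMap.polar Q x (φ (u i - u o)) =
              QuadraticMap.polar Q (u k - u o) (u i - u o) := by
            simp only [hx, QuadraticMap.polar, ← map_add, φ.map_app]
          rw [QuadraticMap.polar_sub_left, e, hp, hφ i hi, sub_self]
        rw [hr, this, mul_zero, zero_smul, sub_zero, hφ i hi]
  obtain ⟨φ, hφ⟩ := key Finset.univ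
  refine ⟨φ, u' o - φ (u o), fun i => ?_⟩
  have := hφ i (Finset.mem_univ _)
  rw [map_sub] at this
  rw [← sub_add_cancel (u' i) (u' o), ← this]
  abel

end Cfsg.Agent.S5754
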