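import Cfsg.Statements.S5763
import Cfsg.Agent.Lib.Perm.PartStab

set_option autoImplicit false
open Cfsg

namespace Cfsg.Agent.S5763

/-- involution tables -/
def tabs : List (List ℕ) := [[1,0,3,2,5,4,7,6], [1,0,3,2,6,7,4,5], [1,0,3,2,7,6,5,4],
  [0,1,2,3,4,5,7,6], [0,1,2,3,5,4,6,7], [0,1,3,2,4,5,6,7], [1,0,2,3,4,5,6,7], [4,5,6,7,0,1,2,3],
  [4,5,7,6,0,1,3,2], [5,4,6,7,1,0,2,3], [5,4,7,6,1,0,3,2], [6,7,4,5,2,3,0,1], [6,7,5,4,3,2,0,1],
  [7,6,4,5,2,3,1,0], [7,6,5,4,3,2,1,0]]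

/-- table as a function -/
def fn (t : List ℕ) (a : Fin 8) : Fin 8 := Fin.ofNat 8 (t.getD a 0)

/-- the check -/
def pres (l t : List ℕ) : Bool := (List.finRange 8).all fun a => (List.finRange 8).all fun b =>
  (l.getD a 0 != l.getD b 0 || l.getD (fn t a) 0 == l.getD (fn t b) 0) &&
  (l.getD a 0 / 2 != l.getD b 0 / 2 || l.getD (fn t a) 0 / 2 == l.getD (fn t b) 0 / 2)

/-- leaf -/
def ok (l : List ℕ) : Bool :=
  l.count 0 != 2 || l.count 1 != 2 || l.count 2 != 2 || l.count 3 != 2 || tabs.any (pres l)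

/-- search -/
def chk : ℕ → List ℕ → Bool
  | 0, l => ok l
  | d + 1, l => (l.count 0 == 2 || chk d (0 :: l)) && (l.count 1 == 2 || chk d (1 :: l)) &&
    (l.count 2 == 2 || chk d (2 :: l)) && (l.count 3 == 2 || chk d (3 :: l))

theorem chk_sound : ∀ (d : ℕ) (l : List ℕ), chk d l = true → ∀ l' : List ℕ, l'.length = d →
    (∀ x ∈ l', x < 4) → ok (l'.reverse ++ l) = true
  | 0, l, h, l', h1, _ => by
    rw [List.length_eq_zero_iff.1 h1]
    exact h
  | d + 1, l, h, x :: l', h1, h2 => by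
    simp only [chk, Bool.and_eq_true, Bool.or_eq_true, beq_iff_eq] at h
    rw [List.reverse_cons, List.append_assoc]
    have := h2 x List.mem_cons_self
    have h3 : l.count x = 2 ∨ chk d (x :: l) = true := by
      interval_cases x
      exacts [h.1.1.1, h.1.1.2, h.1.2, h.2]
    rcases h3 with h3 | h3
    · have : (l'.reverse ++ ([x] ++ l)).count x ≠ 2 := by
        simp only [List.count_append, List.count_singleton_self]
        omega
      simp only [ok, Bool.or_eq_true, bne_iff_ne]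
      interval_cases x <;> tauto
    · exact chk_sound d _ h3 l' (by simpa using h1) fun y hy => h2 y (List.mem_cons_of_mem _ hy)

theorem chk8 : chk 8 [] = true := by decide +kernel

theorem good : ∀ t ∈ tabs, (∀ a, fn t (fn t a) = a) ∧ (∃ a, fn t a ≠ a) ∧
    (∀ a b : Fin 8, a.1 / 2 = b.1 / 2 ↔ (fn t a).1 / 2 = (fn t b).1 / 2) ∧
    (∀ a b : Fin 8, a.1 / 4 = b.1 / 4 ↔ (fn t a).1 / 4 = (fn t b).1 / 4) := by decide +kernel

/-- the Sylow subgroup -/
def P0 : Subgroup (Equiv.Perm (Fin 8)) :=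
  CA.PartStab.P (fun a : Fin 8 => a.1 / 2) ⊓ CA.PartStab.P (fun a : Fin 8 => a.1 / 4)

theorem isP : IsPGroup 2 P0 := by
  intro g
  refine ⟨3, ?_⟩
  have s1 : ∀ g : P0, ∀ a, ((g * g).1 a).1 / 4 = a.1 / 4 := by
    intro g a
    have := g.2.2 a (g.1 a)
    have := a.2
    have := (g.1 a).2
    have := (g.1 (g.1 a)).2
    simp only [Subgroup.coe_mul, Equiv.Perm.mul_apply] at *
    omega
  have s2 : ∀ g : P0, (∀ a, (g.1 a).1 / 4 = a.1 / 4) → ∀ a, ((g * g).1 a).1 / 2 = a.1 / 2 := by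
    intro g h a
    have := g.2.1 a (g.1 a)
    have := h a
    have := h (g.1 a)
    simp only [Subgroup.coe_mul, Equiv.Perm.mul_apply] at *
    omega
  have s3 : ∀ g : P0, (∀ a, (g.1 a).1 / 2 = a.1 / 2) → g * g = 1 := by
    intro g h
    ext a
    have : a.1 = (g.1 a).1 ↔ (g.1 a).1 = (g.1 (g.1 a)).1 := by
      rw [Fin.val_inj, Fin.val_inj, g.1.injective.eq_iff]
    have := h a
    have := h (g.1 a)
    simp only [Subgroup.coe_mul, Equiv.Perm.mul_apply, Subgroup.coe_one, Equiv.Perm.one_apply] at *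
    omega
  rw [← s3 _ (s2 _ (s1 g)), show 2 ^ 3 = 8 from rfl]
  simp only [pow_succ, pow_zero, one_mul, mul_assoc]

theorem main (x : Equiv.Perm (Fin 8)) : ∃ g ∈ P0, g ≠ 1 ∧ x * g * x⁻¹ ∈ P0 := by
  let l : List ℕ := List.ofFn fun a : Fin 8 => (x a).1 / 2
  have hl : ∀ a : Fin 8, l.getD a 0 = (x a).1 / 2 := fun a => by
    simp [l, List.getD_eq_getElem?_getD, -List.ofFn_succ]
  have h := chk_sound 8 [] chk8 l.reverse (by simp [l]) (by
    intro y hy
    rw [List.mem_reverse, List.mem_ofFn] at hy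
    obtain ⟨a, rfl⟩ := hy
    have := (x a).2
    omega)
  have hperm : l.Perm (List.ofFn fun a : Fin 8 => a.1 / 2) :=
    Equiv.Perm.ofFn_comp_perm x fun a : Fin 8 => a.1 / 2
  rw [List.reverse_reverse, List.append_nil, ok, hperm.count_eq, hperm.count_eq,
    hperm.count_eq, hperm.count_eq] at h
  obtain ⟨t, ht, hp⟩ : ∃ t ∈ tabs, pres l t = true := by
    have e : ∀ b : Bool, ((List.ofFn fun a : Fin 8 => a.1 / 2).count 0 != 2 ||
      (List.ofFn fun a : Fin 8 => a.1 / 2).count 1 != 2 ||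
      (List.ofFn fun a : Fin 8 => a.1 / 2).count 2 != 2 ||
      (List.ofFn fun a : Fin 8 => a.1 / 2).count 3 != 2 || b) = b := by decide
    rwa [e, List.any_eq_true] at h
  obtain ⟨g1, ⟨a, g2⟩, g3, g4⟩ := good t ht
  simp only [pres, List.all_eq_true, List.mem_finRange, forall_const, hl, Bool.and_eq_true,
    Bool.or_eq_true, bne_iff_ne, beq_iff_eq, Nat.div_div_eq_div_mul] at hp
  let g : Equiv.Perm (Fin 8) := Function.Involutive.toPerm (fn t) g1
  refine ⟨g, ⟨g3, g4⟩, fun e => g2 (congrArg (fun s : Equiv.Perm (Fin 8) => s a) e), ?_, ?_⟩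
  · intro a b
    obtain ⟨a, rfl⟩ := x.surjective a
    obtain ⟨b, rfl⟩ := x.surjective b
    have h1 := (hp a b).1
    have h2 := (hp (fn t a) (fn t b)).1
    rw [g1, g1] at h2
    simp only [Equiv.Perm.mul_apply, Equiv.Perm.coe_inv, Equiv.symm_apply_apply, g]
    tauto
  · intro a b
    obtain ⟨a, rfl⟩ := x.surjective a
    obtain ⟨b, rfl⟩ := x.surjective b
    have h1 := (hp a b).2
    have h2 := (hp (fn t a) (fn t b)).2
    rw [g1, g1] at h2
    simp only [Equiv.Perm.mul_apply, Equiv.Perm.coe_inv, Equiv.symm_apply_apply, g]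
    tauto

/-- In the symmetric group on 8 letters any two Sylow 2-subgroups have non-trivial intersection: for a Sylow 2-subgroup H and every element x, H ∩ xHx⁻¹ ≠ 1. -/
theorem result (H : Sylow 2 (Equiv.Perm (Fin 8))) (x : Equiv.Perm (Fin 8)) :
    (H : Subgroup (Equiv.Perm (Fin 8))) ⊓ (H : Subgroup (Equiv.Perm (Fin 8))).map (MulAut.conj x).toMonoidHom ≠ ⊥ := by
  obtain ⟨Q, hQ⟩ := isP.exists_le_sylow
  obtain ⟨y, rfl⟩ := MulAction.exists_smul_eq (Equiv.Perm (Fin 8)) Q H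
  obtain ⟨g, hg, h1, h2⟩ := main (y⁻¹ * x * y)
  intro h
  have : x * (y * g * y⁻¹) * x⁻¹ ∈ ((y • Q : Sylow 2 _) : Subgroup (Equiv.Perm (Fin 8))) ⊓
      ((y • Q : Sylow 2 _) : Subgroup (Equiv.Perm (Fin 8))).map (MulAut.conj x).toMonoidHom := by
    refine ⟨⟨_, hQ h2, ?_⟩, ⟨y * g * y⁻¹, ⟨g, hQ hg, rfl⟩, rfl⟩⟩
    simp [mul_assoc]
  rw [h, Subgroup.mem_bot] at this
  exact h1 (by simpa using this)

end Cfsg.Agent.S5763
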