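import Cfsg.Statements.S5769
import Cfsg.Agent.Lib.Lie.H23E7
import Cfsg.Agent.Lib.Lin.SpecF
import Cfsg.Agent.Lib.Lin.PSLOrd
import Cfsg.Agent.Lib.Lin.PSUOrd

set_option autoImplicit false
open Cfsg

namespace Cfsg.Agent.S5769

open Polynomial CA.Rcf

theorem charTwo {F : Type*} [Field F] [Fintype F] {k : ℕ} (h : Fintype.card F = 2 ^ (k + 1)) : CharP F 2 := by
  have := FiniteField.cast_card_eq_zero F
  rw [h, Nat.cast_pow, pow_eq_zero_iff k.succ_ne_zero] at this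
  exact (CharP.charP_iff_prime_eq_zero Nat.prime_two).2 this

theorem ne65 {F : Type*} [Field F] [CharP F 2] : ((65 : ℕ) : F) ≠ 0 := by
  rw [Ne, CharP.cast_eq_zero_iff F 2]; decide

theorem psl {F : Type*} [Field F] [Fintype F] [CharP F 2] {n : ℕ} (h1 : (65 : ℕ).Coprime (Fintype.card F - 1))
    (h2 : orderOf (Fintype.card F : ZMod 65) ≤ n) : ∃ x : Matrix.ProjectiveSpecialLinearGroup (Fin n) F, orderOf x = 65 := by
  obtain ⟨φ, hφ⟩ := exists_mem_cycT (F := F) (N := 65) (by norm_num)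
  obtain ⟨g, hg⟩ := CA.PSLOrd.exists_lin (n := n) (m := {φ}) (t := 65) (by simpa using isPrim_of_mem_cycT hφ)
    (by simpa using not_X_dvd_cyc (by norm_num) hφ) (by simpa [natDegree_cyc ne65 hφ] using h2)
    (fun M => by simpa using cyc_dvd_iff ne65 hφ M)
  obtain ⟨x, hx⟩ := CA.PSLOrd.exists_PSL g (hg ▸ h1)
  exact ⟨x, hx.trans hg⟩

theorem psp {F : Type*} [Field F] [Fintype F] (h : Fintype.card F = 8) {n : ℕ} (hn : 2 ≤ n) :
    ∃ x : Cfsg.PSp n F, orderOf x = 65 := by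
  haveI := charTwo (k := 2) h
  refine (CA.CForm.Form.psp_spec 2 hn).2 ?_
  rw [Nat.card_eq_fintype_card, h]
  exact ⟨0, 65, {(2, true)}, by simp, by simp [cst, wt]; omega, by simp, by simp,
    fun t _ h => absurd h.2 (by decide)⟩

theorem psu {F : Type*} [Field F] [Fintype F] (h : Fintype.card F = 64) : ∃ x : Cfsg.PSU 4 F 8, orderOf x = 65 := by
  haveI := charTwo (k := 5) h
  have hF : Fintype.card F = 8 ^ 2 := h
  obtain ⟨φ, hφ⟩ := exists_mem_cycT (F := F) (N := 65) (by norm_num)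
  have ho : orderOf (-((8 : ℕ) : ZMod 65)) = 4 := (orderOf_eq_iff (by norm_num)).2 (by decide)
  refine CA.PSUOrd.exists_psu hF (by norm_num) (CA.PSUOrd.adm_cl hF ne65 hφ) (by rw [CA.PSUOrd.dg_cl hF ne65 hφ, ho])
    ?_ fun M hM => ?_
  · obtain ⟨c, -, h2, h3⟩ := CA.PSUOrd.blk_c hF ne65 hφ
    rw [ho] at h2 h3
    have h6 : 65 ∣ CA.PSUOrd.T 8 4 := by decide +kernel
    generalize CA.PSUOrd.T 8 4 = t at h2 h6
    have h4 := dvd_sub ((cyc_dvd_iff ne65 hφ t).2 h6) (h2 _ self_mem_cl)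
    rw [sub_sub_sub_cancel_left, show C c - 1 = C (c - 1) by simp] at h4
    have h5 : c = 1 := by
      by_contra e
      exact (mem_cycT.1 hφ).1.not_isUnit (isUnit_of_dvd_unit h4 (isUnit_C.2 (sub_ne_zero.2 e).isUnit))
    rw [h3, if_neg (by decide), h5]; norm_num
  · exact (by norm_num : Nat.Coprime 65 (8 + 1)).dvd_of_dvd_mul_left ((CA.PSUOrd.kl_cl hF ne65 hφ M).1 hM)

theorem empty {H : Subgroup (Cfsg.Lie.chevE7.group (ZMod 2))} {Y : Type*} [Group Y] (h : ∃ y : Y, orderOf y = 65) :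
    IsEmpty (H ≃* Y) := ⟨fun e => by
  obtain ⟨y, hy⟩ := h
  exact CA.H23E7.no65 (e.symm y).1 (by rw [Subgroup.orderOf_coe, MulEquiv.orderOf_eq, hy])⟩

/-- The Chevalley group of type E₇ over the field with two elements (generated by its root elements in the adjoint representation) has no subgroup isomorphic to any of PSL₂(64), PSp₄(8), PSL₄(8), PSU₄(8) or PSp₆(8). Here F₈ and F₆₄ denote fields with 8 and 64 elements. -/
theorem result {F₈ F₆₄ : Type*} [Field F₈] [Fintype F₈] (h8 : Fintype.card F₈ = 8) [Field F₆₄] [Fintype F₆₄] (h64 : Fintype.card F₆₄ = 64)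
    (H : Subgroup ↥(Cfsg.Lie.chevE7.group (ZMod 2))) :
    IsEmpty (↥H ≃* Matrix.ProjectiveSpecialLinearGroup (Fin 2) F₆₄) ∧ IsEmpty (↥H ≃* Cfsg.PSp 2 F₈) ∧
    IsEmpty (↥H ≃* Matrix.ProjectiveSpecialLinearGroup (Fin 4) F₈) ∧ IsEmpty (↥H ≃* Cfsg.PSU 4 F₆₄ 8) ∧ IsEmpty (↥H ≃* Cfsg.PSp 3 F₈) := by
  haveI := charTwo (k := 2) h8
  haveI := charTwo (k := 5) h64
  refine ⟨empty (psl (by rw [h64]; decide) ?_), empty (psp h8 le_rfl), empty (psl (by rw [h8]; decide) ?_),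
    empty (psu h64), empty (psp h8 (by norm_num))⟩
  · rw [h64]; exact orderOf_le_of_pow_eq_one (by norm_num) (by decide)
  · rw [h8]; exact orderOf_le_of_pow_eq_one (by norm_num) (by decide)

end Cfsg.Agent.S5769
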