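import Cfsg.Statements.S5883
import Cfsg.Agent.Lib.Fi.Max23

set_option autoImplicit false
open Cfsg

namespace Cfsg.Agent.S5883

/-- The constant 10 in the statement that H⁽¹⁰⁾ is perfect for every maximal subgroup H of a finite almost simple group cannot be lowered to 9: there exist a finite almost simple group G (with a non-abelian simple normal subgroup of trivial centralizer) and a maximal subgroup H of G whose ninth derived subgroup H⁽⁹⁾ is not perfect, i.e. H⁽¹⁰⁾ ≠ H⁽⁹⁾. (A solvable maximal subgroup of derived length 10 in the Fischer group Fi₂₃ is such an example.) -/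
theorem result :
    ∃ (G : Type) (_ : Group G) (_ : Finite G) (S H : Subgroup G), S.Normal ∧ IsSimpleGroup S ∧ ¬ IsMulCommutative S ∧
      Subgroup.centralizer (S : Set G) = ⊥ ∧ IsCoatom H ∧ derivedSeries H 10 ≠ derivedSeries H 9 := by
  obtain ⟨M⟩ := CA.Fi.model23
  have := M.finite
  have := CA.FiSimple.simple23 M
  refine ⟨_, inferInstance, inferInstance, ⊤, _, inferInstance, Subgroup.topEquiv.isSimpleGroup, fun h => ?_, ?_,
    CA.Max23.coatom M, CA.Max23.der M⟩
  · refine CA.Tr3Basic.ne_one M.prim.set (M.t_mem M.o) (M.eq_one fun y _ => ?_)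
    exact congrArg Subtype.val (h.is_comm.comm ⟨_, Subgroup.mem_top _⟩ ⟨y, Subgroup.mem_top _⟩)
  · rw [Subgroup.coe_top, Subgroup.centralizer_univ, M.center]

end Cfsg.Agent.S5883
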