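import Cfsg.Statements.S5885
-- import your own Cfsg.Agent.* helpers here

set_option autoImplicit false
open Cfsg

namespace Cfsg.Agent.S5885

open MulAction in
/-- three-cycles are induced by the group -/
theorem cyc3 {G : Type*} [Group G] [Finite G] (n : ℕ)
    (hA : ∀ P : Subgroup (Equiv.Perm (Fin n)), MulAction.IsPreprimitive P (Fin n) → alternatingGroup (Fin n) ≤ P)
    (M : Subgroup G) (hM : IsCoatom M) (hn : M.index = n) (x y z : G ⧸ M) (hxy : x ≠ y) (hxz : x ≠ z)
    (hyz : y ≠ z) : ∃ g : G, g • x = y ∧ g • y = z ∧ ∀ w, w ≠ x → w ≠ y → w ≠ z → g • w = w := by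
  classical
  let e : G ⧸ M ≃ Fin n := Finite.equivFinOfCardEq hn
  let ρ : G →* Equiv.Perm (Fin n) := (e.permCongrHom).toMonoidHom.comp (MulAction.toPermHom G (G ⧸ M))
  have hρ : ∀ g w, ρ g (e w) = e (g • w) := by
    intro g w; simp [ρ]
  have : Nontrivial (G ⧸ M) := ⟨x, y, hxy⟩
  have hp : IsPreprimitive G (G ⧸ M) := by
    rw [← isCoatom_stabilizer_iff_preprimitive G ((1 : G) : G ⧸ M), MulAction.stabilizer_quotient]
    exact hM
  let f : (G ⧸ M) →ₑ[ρ.rangeRestrict] Fin n := ⟨e, fun g w => (hρ g w).symm⟩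
  have hP : IsPreprimitive ρ.range (Fin n) := IsPreprimitive.of_surjective (f := f) e.surjective
  have hσ : Equiv.swap (e x) (e z) * Equiv.swap (e x) (e y) ∈ alternatingGroup (Fin n) := by
    rw [Equiv.Perm.mem_alternatingGroup, map_mul, Equiv.Perm.sign_swap (e.injective.ne hxz),
      Equiv.Perm.sign_swap (e.injective.ne hxy)]
    simp
  obtain ⟨g, hg⟩ := hA _ hP hσ
  refine ⟨g, e.injective ?_, e.injective ?_, fun w h1 h2 h3 => e.injective ?_⟩
  · rw [← hρ, hg, Equiv.Perm.mul_apply, Equiv.swap_apply_left,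
      Equiv.swap_apply_of_ne_of_ne (e.injective.ne hxy.symm) (e.injective.ne hyz)]
  · rw [← hρ, hg, Equiv.Perm.mul_apply, Equiv.swap_apply_right, Equiv.swap_apply_left]
  · rw [← hρ, hg, Equiv.Perm.mul_apply,
      Equiv.swap_apply_of_ne_of_ne (e.injective.ne h1) (e.injective.ne h2),
      Equiv.swap_apply_of_ne_of_ne (e.injective.ne h1) (e.injective.ne h3)]

/-- Let n be an odd positive integer such that every primitive permutation group of degree n contains the alternating group (so the symmetric and alternating groups are the only primitive groups of degree n). Let G be a finite group, M a maximal subgroup of G of index n, and H a maximal subgroup of M. Then H is a second maximal subgroup of G: H is maximal in every maximal subgroup K of G containing H. -/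
theorem result {G : Type*} [Group G]
    [Finite G] (n : ℕ) (hodd : Odd n)
    (hA : ∀ P : Subgroup (Equiv.Perm (Fin n)), MulAction.IsPreprimitive P (Fin n) → alternatingGroup (Fin n) ≤ P)
    (M : Subgroup G) (hM : IsCoatom M) (hn : M.index = n) (H : Subgroup G) (hHM : H ≤ M)
    (hmax : IsCoatom (H.subgroupOf M)) (K : Subgroup G) (hK : IsCoatom K) (hHK : H ≤ K) :
    IsCoatom (H.subgroupOf K) := by
  classical
  by_cases hKM : K = M
  · subst hKM; exact hmax
  have hcy := cyc3 n hA M hM hn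
  -- maximality of `H` in `M`, in terms of subgroups of `G`
  have hmx : ∀ S : Subgroup G, H ≤ S → M ≤ S ∨ S ⊓ M = H := by
    intro S hS
    by_cases h : S.subgroupOf M = H.subgroupOf M
    · right
      have := congrArg (Subgroup.map M.subtype) h
      rwa [Subgroup.subgroupOf_map_subtype, Subgroup.subgroupOf_map_subtype, inf_eq_left.2 hHM] at this
    · left
      have := hmax.2 (S.subgroupOf M) (lt_of_le_of_ne (Subgroup.comap_mono hS) (Ne.symm h))
      exact Subgroup.subgroupOf_eq_top.1 this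
  have hMK : ¬ M ≤ K := fun h => hKM ((hM.le_iff.1 h).resolve_left hK.1)
  have hH : K ⊓ M = H := (hmx K hHK).resolve_left hMK
  have hst : ∀ g : G, g • ((1 : G) : G ⧸ M) = ((1 : G) : G ⧸ M) ↔ g ∈ M := by
    intro g
    rw [← MulAction.mem_stabilizer_iff, MulAction.stabilizer_quotient]
  refine ⟨fun h => ?_, fun L' hL' => ?_⟩
  · have h1 : K ≤ M := (Subgroup.subgroupOf_eq_top.1 h).trans hHM
    exact hKM ((hK.le_iff.1 h1).resolve_left hM.1).symm
  by_contra hne
  set a : G ⧸ M := ((1 : G) : G ⧸ M) with ha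
  let L : Subgroup G := L'.map K.subtype
  have hLK : L ≤ K := Subgroup.map_subtype_le _
  have hHL : H ≤ L := fun g hg => ⟨⟨g, hHK hg⟩, hL'.le hg, rfl⟩
  obtain ⟨l0, hl0, hl0H⟩ : ∃ l ∈ L, l ∉ M := by
    obtain ⟨l, hl, hl'⟩ := SetLike.exists_of_lt hL'
    refine ⟨l, ⟨l, hl, rfl⟩, fun h => hl' ?_⟩
    have : (l : G) ∈ K ⊓ M := ⟨l.2, h⟩
    rw [hH] at this; exact this
  obtain ⟨k, hk, hkL⟩ : ∃ k ∈ K, k ∉ L := by
    by_contra hh
    push Not at hh
    apply hne
    rw [eq_top_iff]
    intro g _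
    obtain ⟨g', hg', h⟩ := hh g g.2
    have : g' = g := Subtype.ext h
    exact this ▸ hg'
  let B : Set (G ⧸ M) := {w | ∃ l ∈ L, l • a = w}
  have haB : a ∈ B := ⟨1, one_mem _, one_smul _ _⟩
  have hblk : ∀ g ∈ K, ∀ x ∈ B, g • x ∈ B → g ∈ L := by
    rintro g hg x ⟨l, hl, rfl⟩ ⟨l', hl', h⟩
    have h1 : l'⁻¹ * g * l ∈ M := by
      rw [← hst, mul_smul, mul_smul, ← h, inv_smul_smul]
    have h2 : l'⁻¹ * g * l ∈ K ⊓ M := ⟨K.mul_mem (K.mul_mem (K.inv_mem (hLK hl')) hg) (hLK hl), h1⟩
    rw [hH] at h2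
    have h3 := mul_mem (mul_mem hl' (hHL h2)) (inv_mem hl)
    simpa [mul_assoc] using h3
  have hLB : ∀ l ∈ L, ∀ x ∈ B, l • x ∈ B := by
    rintro l hl x ⟨l', hl', rfl⟩
    exact ⟨l * l', mul_mem hl hl', mul_smul _ _ _⟩
  have hb : l0 • a ≠ a := fun h => hl0H ((hst _).1 h)
  have hbB : l0 • a ∈ B := ⟨l0, hl0, rfl⟩
  have hkB : ∀ x ∈ B, k • x ∉ B := fun x hx h => hkL (hblk k hk x hx h)
  have hxy : k • a ≠ k • l0 • a := fun h => hb (smul_left_cancel k h).symm
  let S : Subgroup G :=
    { carrier := {g | ∀ x, g • x ∈ B ↔ x ∈ B}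
      one_mem' := fun x => by rw [one_smul]
      mul_mem' := fun {g h} hg hh x => by rw [mul_smul, hg, hh]
      inv_mem' := fun {g} hg x => by rw [← hg (g⁻¹ • x), smul_inv_smul] }
  have hLS : L ≤ S := fun l (hl : l ∈ L) x =>
    ⟨fun h => by simpa using hLB l⁻¹ (L.inv_mem hl) _ h, hLB l hl x⟩
  rcases hmx S (hHL.trans hLS) with h | h
  · obtain ⟨g, h1, -, h3⟩ := hcy (l0 • a) (k • a) (k • l0 • a)
      (fun h => hkB a haB (h ▸ hbB)) (fun h => hkB _ hbB (h ▸ hbB)) hxy
    have hg : g ∈ M := (hst g).1 (h3 a hb.symm (fun h => hkB a haB (h ▸ haB))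
      (fun h => hkB _ hbB (h ▸ haB)))
    have := (h hg (l0 • a)).2 hbB
    rw [h1] at this
    exact hkB a haB this
  · have hall : ∀ c, c ∉ B → k⁻¹ • c ∈ B := by
      intro c hc
      by_contra hc'
      obtain ⟨g, h1, h2, h3⟩ := hcy (k • a) (k • l0 • a) c hxy
        (fun h => hc' (by rw [← h, inv_smul_smul]; exact haB))
        (fun h => hc' (by rw [← h, inv_smul_smul]; exact hbB))
      have hfix : ∀ w ∈ B, g • w = w := fun w hw => h3 w (fun h => hkB a haB (h ▸ hw))
        (fun h => hkB _ hbB (h ▸ hw)) (fun h => hc (h ▸ hw))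
      have hgS : g ∈ S := by
        intro x
        refine ⟨fun hx => ?_, fun hx => by rw [hfix x hx]; exact hx⟩
        have := smul_left_cancel g (hfix _ hx)
        rw [← this]; exact hx
      have hgK : g ∈ K := by
        have : g ∈ S ⊓ M := ⟨hgS, (hst g).1 (hfix a haB)⟩
        rw [h] at this; exact hHK this
      have h4 : k⁻¹ * g * k ∈ L := by
        refine hblk _ (mul_mem (mul_mem (inv_mem hk) hgK) hk) a haB ?_
        rw [mul_smul, mul_smul, h1, inv_smul_smul]; exact hbB
      have h5 := hLB _ h4 _ hbB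
      rw [mul_smul, mul_smul, h2] at h5
      exact hc' h5
    have hcompl : Bᶜ = (fun x => k • x) '' B := by
      ext c
      constructor
      · intro hc; exact ⟨k⁻¹ • c, hall c hc, smul_inv_smul _ _⟩
      · rintro ⟨x, hx, rfl⟩; exact hkB x hx
    have h1 := Set.ncard_add_ncard_compl B
    rw [hcompl, Set.ncard_image_of_injective _ (MulAction.injective k)] at h1
    have h2 : Nat.card (G ⧸ M) = n := hn
    rw [h2] at h1
    obtain ⟨m, hm⟩ := hodd
    omega

end Cfsg.Agent.S5885
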