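import Cfsg.Statements.S5886
import Cfsg.Agent.Lib.Lin.MaxL8

set_option autoImplicit false
open Cfsg

namespace Cfsg.Agent.S5886

open Cfsg.Geo Matrix CA.AschBase CA.AschFG CA.AschProp CA.AschProp2 CA.AschDesc CA.AschFG5 CA.AschSL CA.MaxTv CA.MaxL1 CA.MaxL4 CA.MaxL5 CA.MaxL7 CA.MaxL8 in

/-- Let F be a finite field, n a positive integer and r a prime that divides n with r < n. Let K be a subalgebra of the algebra of n × n matrices over F which is a field of degree r over F (commutative, every non-zero element invertible, of dimension r over F; it contains the scalars). Then the normaliser N of K in GL_n(F) — the invertible F-linear maps that are semilinear over the field K, a group of type ΓL_{n/r}(F_{q^r}) for |F| = q — is a maximal subgroup of GL_n(F), and N ∩ SL_n(F) is a maximal subgroup of SL_n(F). No lower bound on n is assumed. -/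
theorem result {F : Type*} [Field F]
    [Fintype F] (n r : ℕ) (hr : r.Prime) (hrn : r ∣ n) (hlt : r < n) (K : Subalgebra F (Matrix (Fin n) (Fin n) F))
    (hK : Cfsg.Geo.IsFieldSubalgebra r K) :
    IsCoatom (Cfsg.Geo.subalgebraNormalizer K) ∧
      Cfsg.Geo.IsMaximalIn (Cfsg.Geo.specialLinear (Fin n) F)
        (Cfsg.Geo.subalgebraNormalizer K ⊓ Cfsg.Geo.specialLinear (Fin n) F) := by
  have hm := max_ext hr hlt hK
  have : Nonempty (Fin n) := ⟨⟨0, by omega⟩⟩
  refine ⟨⟨fun h => hm.1.ne (by simp [h]), fun X hX => ?_⟩, hm⟩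
  refine eq_top_iff.2 fun g _ => ?_
  obtain ⟨k, hk, e⟩ := exists_det hK (c := (g : Matrix (Fin n) (Fin n) F).det)
    (Matrix.isUnits_det_units g).ne_zero
  have h1 := (over_ext hr (by simpa) hK (inf_le_left.trans hX.le)).resolve_left hX.not_ge
  have h2 : k⁻¹ * g ∈ specialLinear (Fin n) F := mem_SL.2 (by
    rw [Units.val_mul, det_mul, ← e, ← det_mul, Units.inv_mul, det_one])
  simpa using X.mul_mem (hX.le hk) (h1 h2)

end Cfsg.Agent.S5886
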