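import Cfsg.Statements.S5887
import Cfsg.Agent.Lib.Lin.MaxN3

set_option autoImplicit false
open Cfsg

namespace Cfsg.Agent.S5887

open Cfsg.Geo Matrix CA.AschBase CA.AschKron CA.AschForm CA.AschTForm CA.AschDesc CA.AschFG CA.AschFG2 CA.AschFG5 CA.AschFG6 CA.AschFG7 CA.AschO1 CA.CForm CA.MaxTv CA.MaxN1 CA.MaxN3 Module in

/-- Let F be a finite field, n a positive integer and r a composite number (r > 1, not prime) that divides n with r < n. Let K be a subalgebra of the algebra of n × n matrices over F which is a field of degree r over F (commutative, every non-zero element invertible, of dimension r over F). Then the normaliser N of K in GL_n(F) (a group of type ΓL_{n/r}(F_{q^r})) is not a maximal subgroup of GL_n(F), and N ∩ SL_n(F) is not a maximal subgroup of SL_n(F): both lie properly inside the normaliser of an intermediate subfield of prime degree over F. -/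
theorem result {F : Type*} [Field F]
    [Fintype F] (n r : ℕ) (hr1 : 1 < r) (hrp : ¬ r.Prime) (hrn : r ∣ n) (hlt : r < n)
    (K : Subalgebra F (Matrix (Fin n) (Fin n) F)) (hK : Cfsg.Geo.IsFieldSubalgebra r K) :
    ¬ IsCoatom (Cfsg.Geo.subalgebraNormalizer K) ∧
      ¬ Cfsg.Geo.IsMaximalIn (Cfsg.Geo.specialLinear (Fin n) F)
        (Cfsg.Geo.subalgebraNormalizer K ⊓ Cfsg.Geo.specialLinear (Fin n) F) := by
  obtain ⟨c, rfl⟩ := hrn
  have hc : 2 ≤ c := by by_contra h; interval_cases c <;> omega
  have h2 : 2 * r ≤ r * c := by nlinarith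
  have : Nonempty (Fin (r * c)) := ⟨⟨0, by omega⟩⟩
  obtain ⟨s, K', h1, hK', h3, x, x1, x2, x3⟩ := exists_ext_step hK hr1.ne' hrp (by simpa) (by simp; omega)
  have h4 := (CA.AschSL.qs_SL (n := r * c) (by omega)).not_le_fieldNormalizer hK' h1
  exact ⟨fun h => h4 (h.2 _ (lt_of_le_not_ge h3 fun h => x3 (h x2)) ▸ le_top),
    CA.AschProp.not_maximal_of (inf_le_left.trans h3) h4 x2 x1 fun h => x3 h.1⟩

end Cfsg.Agent.S5887
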