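import Cfsg.Statements.S5894
import Cfsg.Agent.Lib.Perm.PartStab

set_option autoImplicit false
open Cfsg

namespace Cfsg.Agent.S5894

open Pointwise in

/-- For every m ≥ 2 the symmetric group on 2m letters has a maximal subgroup M of index 2m together with a maximal subgroup H of M that is not second maximal: some maximal subgroup K of the symmetric group contains H without H being maximal in K. (One may take M the stabiliser of a letter, H ≅ S_m × S_{m−1} inside it, and K ≅ S_m ≀ S₂ the stabiliser of a partition into two m-sets, with H < S_m × S_m < K.) So the prime-index hypothesis in the second-maximality criterion cannot be relaxed to any even index ≥ 4. -/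
theorem result (m : ℕ) (hm : 2 ≤ m) :
    ∃ M H K : Subgroup (Equiv.Perm (Fin (2 * m))), IsCoatom M ∧ M.index = 2 * m ∧ H ≤ M ∧ IsCoatom (H.subgroupOf M) ∧
      IsCoatom K ∧ H ≤ K ∧ ¬ IsCoatom (H.subgroupOf K) := by
  classical
  let f : Fin (2 * m) → Fin 2 := fun x => if x.1 < m then 0 else 1
  have hf : ∀ i : Fin 2, Nat.card {x // f x = i} = m := by
    intro i
    fin_cases i
    · refine (Nat.card_congr (⟨fun x => (⟨x.1.1, by simpa [f] using x.2⟩ : Fin m),
        fun y => ⟨⟨y.1, by omega⟩, by simp [f]⟩, fun x => rfl, fun y => rfl⟩)).trans (by simp)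
    · refine (Nat.card_congr (⟨fun x => (⟨x.1.1 - m, by have := x.1.2; omega⟩ : Fin m),
        fun y => ⟨⟨y.1 + m, by omega⟩, by simp [f]⟩, fun x => ?_, fun y => ?_⟩)).trans (by simp)
      · have : m ≤ x.1.1 := by simpa [f] using x.2
        ext; simp; omega
      · ext; simp
  let x0 : Fin (2 * m) := ⟨0, by omega⟩
  let x1 : Fin (2 * m) := ⟨1, by omega⟩
  let x2 : Fin (2 * m) := ⟨m, by omega⟩
  have : Nontrivial (Fin (2 * m)) := ⟨x0, x1, by simp [x0, x1]⟩
  let φ : Equiv.Perm {y // y ≠ x0} →* Equiv.Perm (Fin (2 * m)) := Equiv.Perm.ofSubtype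
  have hφ : Function.Injective φ := Equiv.Perm.ofSubtype_injective
  have hr : φ.range = MulAction.stabilizer (Equiv.Perm (Fin (2 * m))) x0 := by
    ext g
    rw [Equiv.Perm.mem_range_ofSubtype_iff, MulAction.mem_stabilizer_iff]
    constructor
    · intro h
      by_contra hc
      exact h (show x0 ∈ (g.support : Set _) by simpa using hc) rfl
    · intro h y hy e
      subst e
      simp at hy
      exact hy h
  let S : Set {y // y ≠ x0} := {y | m ≤ y.1.1}
  have hS : IsCoatom (MulAction.stabilizer (Equiv.Perm {y // y ≠ x0}) S) := by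
    refine Equiv.Perm.isCoatom_stabilizer ⟨⟨x2, by simp [x0, x2]; omega⟩, by simp [S, x2]⟩
      ⟨⟨x1, by simp [x0, x1]⟩, by simp [S, x1]; omega⟩ ?_
    simp only [Nat.card_eq_fintype_card, Fintype.card_subtype_compl, Fintype.card_fin,
      Fintype.card_unique]
    omega
  have hfix : ∀ g ∈ (MulAction.stabilizer (Equiv.Perm {y // y ≠ x0}) S).map φ,
      g x0 = x0 ∧ ∀ x, f (g x) = f x := by
    rintro _ ⟨g, hg, rfl⟩
    have h0 : φ g x0 = x0 := Equiv.Perm.ofSubtype_apply_of_not_mem g (by simp)
    refine ⟨h0, fun x => ?_⟩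
    by_cases hx : x = x0
    · rw [hx, h0]
    have : g ⟨x, hx⟩ ∈ S ↔ ⟨x, hx⟩ ∈ S := by
      conv_lhs => rw [← MulAction.mem_stabilizer_iff.1 hg]
      exact Set.smul_mem_smul_set_iff
    have e : φ g x = g ⟨x, hx⟩ := Equiv.Perm.ofSubtype_apply_of_mem g hx
    simp only [S, Set.mem_ofPred_eq] at this
    simp only [f, e, ← not_le, this]
  refine ⟨φ.range, (MulAction.stabilizer _ S).map φ, CA.PartStab.P f, ?_, ?_,
    Subgroup.map_le_range _ _, ?_, CA.PartStab.isCoatom_P hm le_rfl hf,
    fun g hg => CA.PartStab.mem_of_fix (hfix g hg).2, fun hc => ?_⟩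
  · rw [hr]
    exact MulAction.IsPreprimitive.isCoatom_stabilizer_of_isPreprimitive _ _
  · rw [hr, MulAction.index_stabilizer_of_transitive]
    simp
  · have := ((MonoidHom.ofInjective hφ).mapSubgroup.isCoatom_iff _).2 hS
    convert this using 1
    ext g
    obtain ⟨k, rfl⟩ := (MonoidHom.ofInjective hφ).surjective g
    simp only [Subgroup.mem_subgroupOf, MonoidHom.ofInjective_apply, MulEquiv.mapSubgroup_apply]
    rw [Subgroup.mem_map_iff_mem hφ]
    exact (Subgroup.mem_map_iff_mem (MonoidHom.ofInjective hφ).injective).symm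
  · let L : Subgroup (Equiv.Perm (Fin (2 * m))) :=
      { carrier := {g | ∀ x, f (g x) = f x}
        one_mem' := fun _ => rfl
        mul_mem' := fun {a b} ha hb x => (ha _).trans (hb x)
        inv_mem' := fun {a} ha x => by simpa using (ha (a⁻¹ x)).symm }
    have h01 : f x0 = f x1 := by
      simp only [f, x0, x1]
      rw [if_pos (by omega), if_pos (by omega)]
    have := hc.2 (L.subgroupOf (CA.PartStab.P f)) (lt_of_le_of_ne
      (fun g hg => (hfix g hg).2) fun h => ?_)
    · obtain ⟨p, hp, e⟩ := CA.PartStab.trans hm le_rfl hf x0 x2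
      have := Subgroup.subgroupOf_eq_top.1 this hp x0
      rw [e] at this
      simp [f, x0, x2] at this
      omega
    · have hs : (⟨Equiv.swap x0 x1, CA.PartStab.swap_mem h01⟩ : CA.PartStab.P f) ∈
          L.subgroupOf (CA.PartStab.P f) := by
        intro x
        show f (Equiv.swap x0 x1 x) = f x
        rw [Equiv.swap_apply_def]
        split_ifs with h1 h2
        · rw [h1, h01]
        · rw [h2, h01]
        · rfl
      rw [← h] at hs
      have := (hfix _ hs).1
      simp [x0, x1] at this

end Cfsg.Agent.S5894
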