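import Cfsg.Statements.S5896


set_option autoImplicit false
open Cfsg

namespace Cfsg.Agent.S5896

open RegularWreathProduct

section
variable {S Q : Type*} [Group S] [Group Q]

/-- base group -/
def bas : (Q → S) →* S ≀ᵣ Q where
  toFun b := ⟨b, 1⟩
  map_one' := rfl
  map_mul' a b := by ext <;> simp

theorem bas_inj : Function.Injective (bas : (Q → S) →* S ≀ᵣ Q) := fun _ _ h => congrArg left h

theorem solv [Group.IsSolvable S] (H : Subgroup Q) [Group.IsSolvable H] :
    Group.IsSolvable (H.comap (rightHom : S ≀ᵣ Q →* Q)) := by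
  have : Group.IsSolvable (Q → S) := by
    obtain ⟨n, hn⟩ := (inferInstance : Group.IsSolvable S)
    refine ⟨n, eq_bot_iff.2 fun x hx => Subgroup.mem_bot.2 (funext fun i => ?_)⟩
    have := map_derivedSeries_le_derivedSeries (Pi.evalMonoidHom (fun _ : Q => S) i) n ⟨x, hx, rfl⟩
    rwa [hn, Subgroup.mem_bot] at this
  refine Group.isSolvable_of_ker_le_range
    (bas.codRestrict (H.comap (rightHom : S ≀ᵣ Q →* Q)) fun b => H.one_mem)
    ((rightHom : S ≀ᵣ Q →* Q).subgroupComap H) fun x hx => ⟨x.1.left, Subtype.ext ?_⟩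
  have : x.1.right = 1 := congrArg Subtype.val hx
  ext <;> simp [bas, this]

theorem lift {d : ℕ} (hd : derivedSeries S d ≠ ⊥) (D : Subgroup (S ≀ᵣ Q))
    (hD : ∀ s, ∃ b, bas b ∈ D ∧ b 1 = s) : derivedSeries D d ≠ ⊥ := by
  intro h
  have h1 : derivedSeries (D.comap bas) d = ⊥ := by
    have := map_derivedSeries_le_derivedSeries (bas.subgroupComap D) d
    rw [h, le_bot_iff] at this
    exact (Subgroup.map_eq_bot_iff_of_injective _ fun x y e =>
      Subtype.ext (bas_inj (congrArg Subtype.val e))).1 this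
  have := map_derivedSeries_eq (f := (Pi.evalMonoidHom (fun _ : Q => S) 1).comp
    (D.comap bas).subtype) (fun s => by
      obtain ⟨b, h1, h2⟩ := hD s
      exact ⟨⟨b, h1⟩, h2⟩) d
  rw [h1, Subgroup.map_bot] at this
  exact hd this.symm

theorem comm [DecidableEq Q] (g : S ≀ᵣ Q) (hg : g.right ≠ 1) (s : S) :
    ∃ b, bas b = bas (Pi.mulSingle 1 s) * g * (bas (Pi.mulSingle 1 s))⁻¹ * g⁻¹ ∧ b 1 = s := by
  refine ⟨(bas (Pi.mulSingle 1 s) * g * (bas (Pi.mulSingle 1 s))⁻¹ * g⁻¹).left, ?_, ?_⟩
  · ext <;> simp [bas]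
  · simp [bas, hg]

theorem succ {d : ℕ} (h : derivedSeries (commutator S) d ≠ ⊥) : derivedSeries S (d + 1) ≠ ⊥ := by
  have : ∀ d, (derivedSeries (commutator S) d).map (commutator S).subtype ≤
      derivedSeries S (d + 1) := by
    intro d
    induction d with
    | zero => exact Subgroup.map_subtype_le _
    | succ d ih =>
      rw [derivedSeries_succ, Subgroup.map_commutator]
      exact Subgroup.commutator_mono ih ih
  intro h'
  have := this d
  rw [h', le_bot_iff] at this
  exact h ((Subgroup.map_eq_bot_iff_of_injective _ (Subgroup.subtype_injective _)).1 this)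

end

theorem exS (d : ℕ) : ∃ (S : Type) (_ : Group S) (_ : Finite S), Group.IsSolvable S ∧
    derivedSeries S d ≠ ⊥ := by
  induction d with
  | zero => exact ⟨Multiplicative (ZMod 2), inferInstance, inferInstance, inferInstance, top_ne_bot⟩
  | succ d ih =>
    obtain ⟨S, _, _, _, hS⟩ := ih
    refine ⟨S ≀ᵣ Multiplicative (ZMod 2), inferInstance, inferInstance, ?_, succ (lift hS _ fun s => ?_)⟩
    · have := solv (S := S) (⊤ : Subgroup (Multiplicative (ZMod 2)))
      exact Group.isSolvable_of_surjective (f := Subgroup.subtype (Subgroup.comap rightHom ⊤))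
        fun x => ⟨⟨x, trivial⟩, rfl⟩
    · obtain ⟨b, h1, h2⟩ := comm (inl (Multiplicative.ofAdd (1 : ZMod 2)))
        (show Multiplicative.ofAdd (1 : ZMod 2) ≠ 1 by decide) s
      exact ⟨b, h1 ▸ Subgroup.commutator_mem_commutator (Subgroup.mem_top _) (Subgroup.mem_top _), h2⟩

theorem exQ : ∃ (Q : Type) (_ : Group Q) (_ : Finite Q) (H : Subgroup Q), commutator Q = ⊤ ∧
    IsCoatom H ∧ Group.IsSolvable H := by
  obtain ⟨Q, hQ, hmin⟩ := exists_minimal_of_wellFoundedLT
    (fun Q : Subgroup (Equiv.Perm (Fin 5)) => ¬ Group.IsSolvable Q) ⟨⊤, fun h =>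
      Equiv.Perm.not_isSolvable_fin_5 (Group.isSolvable_of_surjective
        (f := (⊤ : Subgroup (Equiv.Perm (Fin 5))).subtype) fun x => ⟨⟨x, trivial⟩, rfl⟩)⟩
  have key : ∀ H : Subgroup Q, H ≠ ⊤ → Group.IsSolvable H := by
    intro H hH
    by_contra hc
    have := hmin (y := H.map Q.subtype) (fun h => hc (Group.isSolvable_of_isSolvable_injective
      (f := (H.equivMapOfInjective _ Q.subtype_injective).toMonoidHom)
      (MulEquiv.injective _))) (Subgroup.map_subtype_le _)
    refine hH (eq_top_iff.2 fun x _ => ?_)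
    obtain ⟨y, hy, e⟩ := this x.2
    exact (Subtype.ext e : y = x) ▸ hy
  have : Nontrivial Q := by
    by_contra h
    rw [not_nontrivial_iff_subsingleton] at h
    exact hQ inferInstance
  obtain ⟨H, hH, -⟩ := (eq_top_or_exists_le_coatom (⊥ : Subgroup Q)).resolve_left bot_ne_top
  refine ⟨Q, inferInstance, inferInstance, H, ?_, hH, key H hH.1⟩
  by_contra h
  exact hQ ((Group.isSolvable_iff_subgroup_quotient (commutator Q)).2 ⟨key _ h,
    inferInstanceAs (Group.IsSolvable (Abelianization Q))⟩)

/-- Finite perfect groups have solvable maximal subgroups of unbounded derived length: for every d there is a finite perfect group G (equal to its commutator subgroup) with a solvable maximal subgroup H whose derived length exceeds d, i.e. the d-th term of the derived series of H is non-trivial. (Take the derived subgroup of a wreath product S ≀ A₅ with S solvable of large derived length, and H the preimage of a maximal subgroup of A₅.) -/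
theorem result (d : ℕ) :
    ∃ (G : Type) (_ : Group G) (_ : Finite G) (H : Subgroup G), commutator G = ⊤ ∧ IsCoatom H ∧ Group.IsSolvable H ∧
      derivedSeries H d ≠ ⊥ := by
  classical
  obtain ⟨S, _, _, _, hS⟩ := exS d
  obtain ⟨Q, _, _, H, hQ, hH, _⟩ := exQ
  obtain ⟨G, ⟨hG, hG'⟩, hmin⟩ := exists_minimal_of_wellFoundedLT
    (fun G : Subgroup (S ≀ᵣ Q) => G.Normal ∧ G.map rightHom = ⊤) ⟨⊤, inferInstance,
      Subgroup.map_top_of_surjective _ fun q => ⟨inl q, rfl⟩⟩
  have hs : Function.Surjective ((rightHom : S ≀ᵣ Q →* Q).comp G.subtype) := fun q => by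
    obtain ⟨x, hx, e⟩ : q ∈ G.map rightHom := hG' ▸ Subgroup.mem_top q
    exact ⟨⟨x, hx⟩, e⟩
  refine ⟨G, inferInstance, inferInstance, H.comap (rightHom.comp G.subtype), ?_,
    Subgroup.isCoatom_comap_of_surjective hs hH, ?_, fun h => ?_⟩
  · have := hmin (y := ⁅G, G⁆) ⟨inferInstance, by rw [Subgroup.map_commutator, hG']; exact hQ⟩
      (Subgroup.commutator_le_left _ _)
    rw [← Subgroup.map_subtype_commutator] at this
    refine eq_top_iff.2 fun x _ => ?_
    obtain ⟨y, hy, e⟩ := this x.2
    exact (Subtype.ext e : y = x) ▸ hy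
  · have := solv (S := S) H
    exact Group.isSolvable_of_isSolvable_injective (f := G.subtype.subgroupComap (H.comap rightHom))
      fun x y e => Subtype.ext (Subtype.ext (congrArg (fun z : H.comap rightHom => z.1) e))
  · refine lift hS ((H.comap (rightHom.comp G.subtype)).map G.subtype) (fun s => ?_) ?_
    · obtain ⟨q, hq⟩ : ∃ q : Q, q ≠ 1 := by
        by_contra hc
        push Not at hc
        exact hH.1 (eq_top_iff.2 fun x _ => hc x ▸ H.one_mem)
      obtain ⟨g, rfl⟩ := hs q
      obtain ⟨b, h1, h2⟩ := comm g.1 hq s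
      exact ⟨b, ⟨⟨bas b, h1 ▸ G.mul_mem (hG.conj_mem _ g.2 _) (G.inv_mem g.2)⟩, H.one_mem, rfl⟩, h2⟩
    · rw [← map_derivedSeries_eq (f := (Subgroup.equivMapOfInjective _ _
        G.subtype_injective).toMonoidHom) (MulEquiv.surjective _), h, Subgroup.map_bot]

end Cfsg.Agent.S5896
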