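import Cfsg.Statements.S5902
import Cfsg.Agent.S5901

set_option autoImplicit false
open Cfsg

namespace Cfsg.Agent.S5902

/-- Let G be a finite group, X a subgroup whose own subgroup lattice is complemented, and suppose X lies in exactly one maximal subgroup M of G. Then every subgroup H of G not contained in the normal core of M has a complement in the subgroup lattice of G (some C with H ⊔ C = G and H ⊓ C = 1); in particular the subgroup lattice of G modulo the normal core of M is complemented. -/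
theorem result {G : Type*} [Group G] [Finite G] (X M : Subgroup G)
    (hK : ComplementedLattice (Subgroup X))
    (hM : IsCoatom M) (hXM : X ≤ M) (huniq : ∀ M' : Subgroup G, IsCoatom M' → X ≤ M' → M' = M) :
    (∀ H : Subgroup G, ¬ H ≤ M.normalCore → ∃ C : Subgroup G, H ⊔ C = ⊤ ∧ H ⊓ C = ⊥) ∧
    ComplementedLattice (Subgroup (G ⧸ M.normalCore)) := by
  have hX : X ≠ ⊤ := fun h => hM.1 (top_le_iff.1 (h ▸ hXM))
  have hint : ∀ Y : Subgroup G, ⊥ ≤ Y → Y ≤ X →
      ∃ C : Subgroup G, ⊥ ≤ C ∧ C ≤ X ∧ Y ⊔ C = X ∧ Y ⊓ C = ⊥ := by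
    intro Y _ hY
    obtain ⟨C, hC⟩ := exists_isCompl (Y.subgroupOf X)
    refine ⟨C.map X.subtype, bot_le, Subgroup.map_subtype_le _, ?_, ?_⟩
    · conv_lhs => rw [← Subgroup.map_subgroupOf_eq_of_le hY]
      rw [← Subgroup.map_sup, hC.sup_eq_top, ← MonoidHom.range_eq_map, Subgroup.range_subtype]
    · conv_lhs => rw [← Subgroup.map_subgroupOf_eq_of_le hY]
      rw [← Subgroup.map_inf _ _ _ X.subtype_injective, hC.inf_eq_bot, Subgroup.map_bot]
  have key : ∀ H : Subgroup G, ¬ H ≤ M.normalCore → ∃ C : Subgroup G, H ⊔ C = ⊤ ∧ H ⊓ C = ⊥ := by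
    intro H hH
    have : ∃ g : G, ¬ (MulAut.conj g).mapSubgroup H ≤ M := by
      by_contra hc
      push Not at hc
      refine hH fun x hx g => hc g ?_
      exact ⟨x, hx, rfl⟩
    obtain ⟨g, hg⟩ := this
    obtain ⟨C, h1, h2⟩ := Cfsg.Agent.S5901.result ⊥ X M bot_le hX hint hM hXM huniq _ hg
      (inf_bot_eq _)
    refine ⟨((MulAut.conj g).mapSubgroup).symm C, ?_, ?_⟩
    · apply ((MulAut.conj g).mapSubgroup).injective
      rw [map_sup, OrderIso.apply_symm_apply, h1, map_top]
    · apply ((MulAut.conj g).mapSubgroup).injective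
      rw [map_inf, OrderIso.apply_symm_apply, h2, map_bot]
  refine ⟨key, ⟨fun K => ?_⟩⟩
  by_cases hK0 : K = ⊥
  · exact ⟨⊤, hK0 ▸ isCompl_bot_top⟩
  set π := QuotientGroup.mk' M.normalCore
  have hπ : Function.Surjective π := QuotientGroup.mk'_surjective _
  have hH : ¬ K.comap π ≤ M.normalCore := by
    intro h
    apply hK0
    rw [eq_bot_iff]
    intro y hy
    obtain ⟨x, rfl⟩ := hπ y
    exact Subgroup.mem_bot.2 ((QuotientGroup.eq_one_iff x).2 (h hy))
  obtain ⟨C, h1, h2⟩ := key _ hH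
  refine ⟨C.map π, ?_, ?_⟩
  · rw [disjoint_iff, eq_bot_iff]
    rintro y ⟨hy, c, hc, rfl⟩
    have : c ∈ K.comap π ⊓ C := ⟨hy, hc⟩
    rw [h2, Subgroup.mem_bot] at this
    simp [this]
  · rw [codisjoint_iff]
    conv_lhs => rw [← Subgroup.map_comap_eq_self_of_surjective hπ K]
    rw [← Subgroup.map_sup, h1, Subgroup.map_top_of_surjective _ hπ]

end Cfsg.Agent.S5902
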