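import Cfsg.Statements.S5903
import Cfsg.Agent.S5901

set_option autoImplicit false
open Cfsg

namespace Cfsg.Agent.S5903

/-- Let G be a finite simple group, X a subgroup lying in exactly one maximal subgroup M of G, and N a subgroup of prime order with N ≤ X that is central in M. If the subgroup lattice of X/N is complemented, then the subgroup lattice of G is complemented. -/
theorem result {G : Type*} [Group G] [Finite G] [IsSimpleGroup G] (X M N : Subgroup G)
    (hM : IsCoatom M) (hXM : X ≤ M) (huniq : ∀ M' : Subgroup G, IsCoatom M' → X ≤ M' → M' = M)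
    (hNX : N ≤ X) (hN : (Nat.card N).Prime) (hcen : ∀ n ∈ N, ∀ m ∈ M, m * n = n * m)
    [(N.subgroupOf X).Normal] (hK : ComplementedLattice (Subgroup (X ⧸ N.subgroupOf X))) :
    ComplementedLattice (Subgroup G) := by
  have hX : X ≠ ⊤ := fun h => hM.1 (top_le_iff.1 (h ▸ hXM))
  have hN0 : N ≠ ⊥ := by
    rintro rfl
    simp at hN
    exact Nat.not_prime_one hN
  set π := QuotientGroup.mk' (N.subgroupOf X)
  have hπ : Function.Surjective π := QuotientGroup.mk'_surjective _
  have hker : π.ker = N.subgroupOf X := QuotientGroup.ker_mk' _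
  have hint : ∀ Y : Subgroup G, N ≤ Y → Y ≤ X →
      ∃ C : Subgroup G, N ≤ C ∧ C ≤ X ∧ Y ⊔ C = X ∧ Y ⊓ C = N := by
    intro Y hNY hY
    obtain ⟨C, hC⟩ := exists_isCompl ((Y.subgroupOf X).map π)
    have hY' : ((Y.subgroupOf X).map π).comap π = Y.subgroupOf X := by
      rw [Subgroup.comap_map_eq, hker]
      exact sup_eq_left.2 (Subgroup.subgroupOf_mono X hNY)
    refine ⟨(C.comap π).map X.subtype, ?_, Subgroup.map_subtype_le _, ?_, ?_⟩
    · conv_lhs => rw [← Subgroup.map_subgroupOf_eq_of_le hNX]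
      apply Subgroup.map_mono
      exact hker.ge.trans (Subgroup.ker_le_comap _ _)
    · conv_lhs => rw [← Subgroup.map_subgroupOf_eq_of_le hY]
      rw [← Subgroup.map_sup, ← hY', Subgroup.comap_sup_eq _ _ _ hπ, hC.sup_eq_top,
        Subgroup.comap_top, ← MonoidHom.range_eq_map, Subgroup.range_subtype]
    · conv_lhs => rw [← Subgroup.map_subgroupOf_eq_of_le hY]
      rw [← Subgroup.map_inf _ _ _ X.subtype_injective, ← hY', ← Subgroup.comap_inf,
        hC.inf_eq_bot, MonoidHom.comap_bot, hker, Subgroup.map_subgroupOf_eq_of_le hNX]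
  refine ⟨fun H => ?_⟩
  by_cases hH0 : H = ⊥
  · exact ⟨⊤, hH0 ▸ isCompl_bot_top⟩
  by_cases hH1 : H = ⊤
  · exact ⟨⊥, hH1 ▸ isCompl_top_bot⟩
  have : ∃ g : G, ¬ (MulAut.conj g).mapSubgroup H ≤ M ∧ (MulAut.conj g).mapSubgroup H ⊓ N = ⊥ := by
    by_contra hc
    push Not at hc
    have hnorm : Subgroup.normalClosure (N : Set G) ≤ Subgroup.normalizer (H : Set G) := by
      refine Subgroup.closure_le _ |>.2 ?_
      intro y hy
      obtain ⟨n, hn, hy⟩ := Group.mem_conjugatesOfSet_iff.1 hy
      obtain ⟨c, rfl⟩ := isConj_iff.1 hy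
      by_cases h1 : (MulAut.conj c⁻¹).mapSubgroup H ≤ M
      · have hcomm : ∀ h ∈ H, (c * n * c⁻¹) * h = h * (c * n * c⁻¹) := by
          intro h hh
          have := hcen n hn _ (h1 ⟨h, hh, rfl⟩)
          simp only [MonoidHom.coe_coe, MulAut.conj_apply, inv_inv] at this
          calc c * n * c⁻¹ * h = c * (n * (c⁻¹ * h * c)) * c⁻¹ := by group
            _ = c * (c⁻¹ * h * c * n) * c⁻¹ := by rw [this]
            _ = h * (c * n * c⁻¹) := by group
        exact Subgroup.centralizer_le_normalizer _ (fun h hh => (hcomm h hh).symm)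
      · have h2 := hc _ h1
        have hle : N ≤ (MulAut.conj c⁻¹).mapSubgroup H := by
          have := Fact.mk hN
          rcases ((MulAut.conj c⁻¹).mapSubgroup H).subgroupOf N |>.eq_bot_or_eq_top_of_prime_card
            with h | h
          · exact absurd (disjoint_iff.1 (Subgroup.subgroupOf_eq_bot.1 h)) h2
          · exact Subgroup.subgroupOf_eq_top.1 h
        obtain ⟨h, hh, he⟩ := hle hn
        apply Subgroup.le_normalizer
        simp only [MonoidHom.coe_coe, MulAut.conj_apply, inv_inv] at he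
        rw [← he]
        simpa [mul_assoc] using hh
    have htop : Subgroup.normalClosure (N : Set G) = ⊤ := by
      refine (Subgroup.normalClosure_normal.eq_bot_or_eq_top).resolve_left fun h => hN0 ?_
      exact eq_bot_iff.2 (h ▸ Subgroup.le_normalClosure)
    have hn : H.Normal := Subgroup.normalizer_eq_top_iff.1 (top_le_iff.1 (htop ▸ hnorm))
    exact (hn.eq_bot_or_eq_top).elim hH0 hH1
  obtain ⟨g, hg, hg'⟩ := this
  obtain ⟨C, h1, h2⟩ := Cfsg.Agent.S5901.result N X M hNX hX hint hM hXM huniq _ hg hg'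
  refine ⟨((MulAut.conj g).mapSubgroup).symm C, ?_, ?_⟩
  · rw [disjoint_iff]
    apply ((MulAut.conj g).mapSubgroup).injective
    rw [map_inf, OrderIso.apply_symm_apply, h2, map_bot]
  · rw [codisjoint_iff]
    apply ((MulAut.conj g).mapSubgroup).injective
    rw [map_sup, OrderIso.apply_symm_apply, h1, map_top]

end Cfsg.Agent.S5903
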