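import Cfsg.Statements.S5904
import Cfsg.Agent.Lib.Perm.PartStab

set_option autoImplicit false
open scoped Pointwise
open Cfsg

namespace Cfsg.Agent.S5904

/-- Let Ω be a finite set with more than two elements and O ⊆ Ω a subset with exactly as many elements as its complement. Then the setwise stabilizer of O in the symmetric group on Ω is not a maximal subgroup (it is properly contained in the stabilizer of the partition {O, Ω ∖ O}, which is proper). -/
theorem result {Ω : Type*} [Fintype Ω] [DecidableEq Ω] (hΩ : 2 < Fintype.card Ω)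
    (O : Set Ω) (hO : Nat.card O = Nat.card ↥Oᶜ) :
    ¬ IsCoatom (MulAction.stabilizer (Equiv.Perm Ω) O) := by
  classical
  intro hc
  let f : Ω → Fin 2 := fun x => if x ∈ O then 0 else 1
  have hsum : Nat.card O + Nat.card ↥Oᶜ = Fintype.card Ω := by
    rw [Nat.card_coe_set_eq, Nat.card_coe_set_eq, Set.ncard_add_ncard_compl, Nat.card_eq_fintype_card]
  have hf : ∀ i : Fin 2, Nat.card {x : Ω // f x = i} = Nat.card O := by
    intro i
    fin_cases i
    · exact Nat.card_congr (Equiv.subtypeEquivRight fun x => by simp [f])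
    · rw [hO]
      exact Nat.card_congr (Equiv.subtypeEquivRight fun x => by simp [f])
  have ha : 2 ≤ Nat.card O := by omega
  have hle : MulAction.stabilizer (Equiv.Perm Ω) O ≤ CA.PartStab.P f := by
    intro g hg
    refine CA.PartStab.mem_of_fix fun x => ?_
    have : g x ∈ O ↔ x ∈ O := by
      conv_lhs => rw [← MulAction.mem_stabilizer_iff.1 hg]
      exact Set.smul_mem_smul_set_iff
    simp [f, this]
  obtain ⟨u, -, -, hu, -⟩ := CA.PartStab.exists_pair ha hf 0
  obtain ⟨v, -, -, hv, -⟩ := CA.PartStab.exists_pair ha hf 1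
  obtain ⟨p, hp, e⟩ := CA.PartStab.trans ha le_rfl hf u v
  refine (CA.PartStab.isCoatom_P ha le_rfl hf).1 (hc.2 _ (lt_of_le_of_ne hle fun h => ?_))
  rw [← h] at hp
  have hu' : u ∈ O := by simpa [f] using hu
  have hv' : v ∉ O := by simpa [f] using hv
  apply hv'
  rw [← e, ← MulAction.mem_stabilizer_iff.1 hp]
  exact Set.smul_mem_smul_set hu'

end Cfsg.Agent.S5904
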