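import Cfsg.Statements.S5908
import Cfsg.Agent.S0827

set_option autoImplicit false
open Cfsg

namespace Cfsg.Agent.S5908

open Subgroup

/-- The subgroup lattice of PSU₃(2) (the solvable group of order 72, realised over the field with 4 elements) is not complemented: some subgroup H has no subgroup X with H ⊔ X = ⊤ and H ⊓ X = ⊥. -/
theorem result {F : Type*} [Field F] [Fintype F] (hF : Fintype.card F = 4) :
    ¬ ComplementedLattice (Subgroup (Cfsg.PSU 3 F 2)) := by
  intro hc
  obtain ⟨N, hN, h9, -, ⟨e⟩⟩ := Cfsg.Agent.S0827.result hF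
  haveI : Finite (PSU 3 F 2) := Nat.finite_of_card_ne_zero (by rw [Cfsg.Agent.S0827.card72 hF]; omega)
  let f := e.toMonoidHom.comp (QuotientGroup.mk' N)
  have hf : Function.Surjective f := e.surjective.comp (QuotientGroup.mk'_surjective _)
  obtain ⟨X, hd, hcd⟩ := hc.exists_isCompl ((zpowers (QuaternionGroup.a 2 : QuaternionGroup 2)).comap f)
  have key : ∀ y : QuaternionGroup 2, y * y ∈ zpowers (QuaternionGroup.a 2 : QuaternionGroup 2) ∧
      (y * y = 1 → y ∈ zpowers (QuaternionGroup.a 2 : QuaternionGroup 2)) := by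
    have : ∀ y : QuaternionGroup 2, (y * y = 1 ∨ y * y = QuaternionGroup.a 2) ∧
      (y * y = 1 → y = 1 ∨ y = QuaternionGroup.a 2) := by decide
    intro y
    refine ⟨?_, fun h => ?_⟩
    · rcases (this y).1 with h | h <;> rw [h]
      exacts [one_mem _, mem_zpowers _]
    · rcases (this y).2 h with h | h <;> rw [h]
      exacts [one_mem _, mem_zpowers _]
  have hX : X ≤ (zpowers (QuaternionGroup.a 2 : QuaternionGroup 2)).comap f := fun x hx => by
    have := mem_bot.1 (hd.le_bot ⟨show f (x * x) ∈ _ by rw [map_mul]; exact (key _).1, mul_mem hx hx⟩)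
    exact (key _).2 (by rw [← map_mul, this, map_one])
  have h1 := hcd.top_le
  rw [sup_eq_left.2 hX] at h1
  obtain ⟨g, hg⟩ := hf (QuaternionGroup.a 1)
  have h2 : f g ∈ zpowers (QuaternionGroup.a 2 : QuaternionGroup 2) := h1 (mem_top g)
  rw [hg] at h2
  exact absurd (orderOf_dvd_iff_pow_eq_one.1 ((orderOf_dvd_of_mem_zpowers h2).trans
    (orderOf_dvd_of_pow_eq_one (n := 2) (by decide)))) (by decide)

end Cfsg.Agent.S5908
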