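import Cfsg.Statements.S5910
import Cfsg.Agent.Lib.Perm.PartStab

set_option autoImplicit false
open Cfsg

namespace Cfsg.Agent.S5910

/-- Let Ω be a set with 8 elements and f : Ω → Fin 4 a labelling whose four fibres all have size 2 (a partition of the 8 points into 4 pairs). Then the group of even permutations preserving this partition, (S₂ ≀ S₄) ∩ A₈, is not a maximal subgroup of the alternating group A₈ (it lies in a subgroup isomorphic to the affine group AGL₃(2)). -/
theorem result {Ω : Type*} [Fintype Ω] [DecidableEq Ω] (h8 : Fintype.card Ω = 8)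
    (f : Ω → Fin 4) (hf : ∀ i : Fin 4, Nat.card {x : Ω // f x = i} = 2) :
    ¬ IsCoatom ((Subgroup.closure {g : Equiv.Perm Ω | ∀ x y : Ω, f x = f y ↔ f (g x) = f (g y)} ⊓ alternatingGroup Ω).subgroupOf (alternatingGroup Ω)) := by
  classical
  rw [CA.PartStab.closure_eq]
  intro hc
  obtain ⟨e0, he0⟩ := CA.PartStab.exists_coord hf
  let c : Fin 4 ≃ ZMod 2 × ZMod 2 := Fintype.equivOfCardEq (by simp)
  let e : Ω ≃ (ZMod 2 × ZMod 2) × ZMod 2 := e0.trans (Equiv.prodCongr c (Equiv.refl (Fin 2)))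
  have he : ∀ x y, f x = f y ↔ (e x).1 = (e y).1 := fun x y => by
    rw [← he0, ← he0]
    exact c.injective.eq_iff.symm
  let K0 : Subgroup (Equiv.Perm ((ZMod 2 × ZMod 2) × ZMod 2)) :=
    { carrier := {g | ∀ x y z, g (x + y + z) = g x + g y + g z}
      one_mem' := fun _ _ _ => rfl
      mul_mem' := fun {a b} ha hb x y z => by simp only [Equiv.Perm.mul_apply, hb x y z, ha _ _ _]
      inv_mem' := fun {a} ha x y z => a.injective (by simp [ha _ _ _]) }
  let K : Subgroup (Equiv.Perm Ω) := K0.comap e.permCongrHom.toMonoidHom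
  have hsign : ∀ g : Equiv.Perm ((ZMod 2 × ZMod 2) × ZMod 2),
      e.symm.permCongr g ∈ alternatingGroup Ω ↔ Equiv.Perm.sign g = 1 := fun g => by
    rw [Equiv.Perm.mem_alternatingGroup, Equiv.Perm.sign_permCongr]
  have hK : ∀ g : Equiv.Perm ((ZMod 2 × ZMod 2) × ZMod 2), e.symm.permCongr g ∈ K ↔ g ∈ K0 := by
    intro g
    have : e.permCongrHom.toMonoidHom (e.symm.permCongr g) = g := by ext x <;> simp
    simp only [K, Subgroup.mem_comap, this]
  have hP : ∀ g : Equiv.Perm ((ZMod 2 × ZMod 2) × ZMod 2), e.symm.permCongr g ∈ CA.PartStab.P f ↔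
      ∀ x y, x.1 = y.1 ↔ (g x).1 = (g y).1 := by
    intro g
    rw [CA.PartStab.mem_P]
    constructor
    · intro h x y
      have := h (e.symm x) (e.symm y)
      simpa [he] using this
    · intro h x y
      simpa [he] using h (e x) (e y)
  have hle : CA.PartStab.P f ⊓ alternatingGroup Ω ≤ K := by
    rintro p ⟨hp, hs⟩
    obtain ⟨g, rfl⟩ := e.symm.permCongr.surjective p
    rw [hK]
    have hp := (hP g).1 hp
    have hs := (hsign g).1 hs
    let σ : Equiv.Perm (ZMod 2 × ZMod 2) := Equiv.ofBijective (fun i => (g (i, 0)).1)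
      (Finite.injective_iff_bijective.1 fun i j h => (hp (i, 0) (j, 0)).2 h)
    let τ : ZMod 2 × ZMod 2 → ZMod 2 := fun i => (g (i, 0)).2
    have z2 : ∀ s t : ZMod 2, s ≠ t → s = 1 + t := by decide
    have z3 : ∀ s : ZMod 2, s = 0 ∨ s = 1 := by decide
    have hg : ∀ i s, g (i, s) = (σ i, s + τ i) := by
      intro i s
      have h1 : (g (i, s)).1 = σ i := (hp (i, s) (i, 0)).1 rfl
      refine Prod.ext h1 ?_
      rcases z3 s with rfl | rfl
      · simp [τ]
      · refine z2 _ _ fun h => ?_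
        have := g.injective (Prod.ext h1 h : g (i, 1) = g (i, 0))
        simp at this
    have hdec : g = Equiv.prodCongrLeft (fun _ => σ) *
        Equiv.prodCongrRight (fun i => Equiv.addRight (τ i)) := by
      refine Equiv.ext fun ⟨i, s⟩ => ?_
      rw [hg]
      rfl
    rw [hdec, map_mul, Equiv.Perm.sign_prodCongrLeft, Equiv.Perm.sign_prodCongrRight] at hs
    have z4 : ∀ τ : ZMod 2 × ZMod 2 → ZMod 2,
        ∏ i, Equiv.Perm.sign (Equiv.addRight (τ i)) = 1 → ∀ i j k, τ (i + j + k) = τ i + τ j + τ k := by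
      decide +kernel
    have z5 : ∀ σ : Equiv.Perm (ZMod 2 × ZMod 2), ∀ i j k, σ (i + j + k) = σ i + σ j + σ k := by
      decide +kernel
    have hτ := z4 τ (by simpa using hs)
    rintro ⟨i, s⟩ ⟨j, t⟩ ⟨k, u⟩
    simp only [Prod.mk_add_mk, hg, z5, hτ]
    congr 1
    ring
  have := hc.2 (K.subgroupOf (alternatingGroup Ω)) (lt_of_le_of_ne
    (Subgroup.subgroupOf_mono _ hle) fun h => ?_)
  · have h1 := Subgroup.subgroupOf_eq_top.1 this ((hsign
      (Equiv.swap ((0, 0), 0) ((0, 0), 1) * Equiv.swap ((0, 0), 0) ((0, 1), 0))).2 (by decide +kernel))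
    rw [hK] at h1
    have := h1 ((0, 0), 0) ((1, 0), 0) ((1, 1), 0)
    revert this
    decide +kernel
  · let g : Equiv.Perm ((ZMod 2 × ZMod 2) × ZMod 2) :=
      Equiv.swap ((0, 0), 1) ((0, 1), 0) * Equiv.swap ((1, 0), 1) ((1, 1), 0)
    have h1 : (⟨e.symm.permCongr g, (hsign g).2 (by decide +kernel)⟩ : alternatingGroup Ω) ∈
        K.subgroupOf (alternatingGroup Ω) := by
      rw [Subgroup.mem_subgroupOf, hK]
      show ∀ x y z, g (x + y + z) = g x + g y + g z
      decide +kernel
    rw [← h] at h1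
    have := (hP g).1 h1.1 ((0, 0), 0) ((0, 0), 1)
    revert this
    decide +kernel

end Cfsg.Agent.S5910
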