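import Cfsg.Statements.S5939
import Cfsg.Agent.Lib.Lin.PSL2Cl1

set_option autoImplicit false
open Cfsg

namespace Cfsg.Agent.S5939

open CA.PSL2Cl1 CA.PSL2Sub in

/-- Let p be a prime and F a finite field of characteristic p such that either F has p elements and p ≡ ±1 (mod 10), or F has p² elements and p ≡ ±3 (mod 10). Then PSL_2(F) has a maximal subgroup isomorphic to the alternating group A_5. -/
theorem result {F : Type*} [Field F] [Fintype F] (p : ℕ) [Fact p.Prime] [CharP F p] (h : (Fintype.card F = p ∧ (p % 10 = 1 ∨ p % 10 = 9)) ∨ (Fintype.card F = p ^ 2 ∧ (p % 10 = 3 ∨ p % 10 = 7))) : ∃ H : Subgroup (Matrix.ProjectiveSpecialLinearGroup (Fin 2) F), IsCoatom H ∧ Nonempty (H ≃* alternatingGroup (Fin 5)) := by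
  have hp : p.Prime := Fact.out
  rw [← Nat.card_eq_fintype_card] at h
  obtain ⟨H, ⟨e⟩⟩ := exists_sub_iff.2 (exists_A5 (F := F) (by
    refine Dvd.dvd.mul_left ?_ _
    rw [CA.SLnCard.sq_sub_one]
    rcases h with ⟨h, h'⟩ | ⟨h, h'⟩
    · rw [h]
      rcases h' with h' | h'
      · exact Dvd.dvd.mul_left (by omega) _
      · exact Dvd.dvd.mul_right (by omega) _
    · refine Dvd.dvd.mul_right ?_ _
      rw [h, ← Nat.div_add_mod p 10]
      rcases h' with h' | h' <;> rw [h'] <;> ring_nf <;> omega))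
  exact ⟨H, isCoatom_A5 hp h e, ⟨e⟩⟩

end Cfsg.Agent.S5939
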